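import Cfsg.Statements.S3909

set_option autoImplicit false
open Cfsg

namespace Cfsg.Agent.S3909

/-- Let G be a finite group in which any two abelian subgroups of the same order are conjugate. Let M be a normal subgroup of G. If M contains an element of the same order as a ∈ G, then a ∈ M; and if M is elementary abelian of order p^t with p prime and t ≥ 2, then M is the unique Sylow p-subgroup of G. -/
theorem result {G : Type*} [Group G] [Finite G] (hB : ∀ A B : Subgroup G, IsMulCommutative ↥A → IsMulCommutative ↥B → Nat.card ↥A = Nat.card ↥B → ∃ g : G, B = A.map (MulAut.conj g).toMonoidHom) (M : Subgroup G) [M.Normal] :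
    (∀ a : G, (∃ m ∈ M, orderOf m = orderOf a) → a ∈ M) ∧
    ∀ (p t : ℕ) [Fact p.Prime], 2 ≤ t → Nat.card ↥M = p ^ t → Cfsg.IsElementaryAbelian p M → ∀ P : Sylow p G, (P : Subgroup G) = M := by
  have h1 : ∀ a : G, (∃ m ∈ M, orderOf m = orderOf a) → a ∈ M := by
    rintro a ⟨m, hm, hma⟩
    obtain ⟨g, hg⟩ := hB (Subgroup.zpowers m) (Subgroup.zpowers a) inferInstance inferInstance
      (by rw [Nat.card_zpowers, Nat.card_zpowers, hma])
    have ha : a ∈ (Subgroup.zpowers m).map (MulAut.conj g).toMonoidHom := by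
      rw [← hg]; exact Subgroup.mem_zpowers a
    obtain ⟨x, hx, rfl⟩ := ha
    have hxM : x ∈ M := by
      obtain ⟨k, rfl⟩ := Subgroup.mem_zpowers_iff.mp hx
      exact M.zpow_mem hm k
    exact (inferInstance : M.Normal).conj_mem x hxM g
  refine ⟨h1, ?_⟩
  intro p t _ ht hcard hel P
  have hMp : IsPGroup p M := IsPGroup.of_card hcard
  have hPp : IsPGroup p (P : Subgroup G) := P.isPGroup'
  have hle : M ≤ P := by
    have hsup : IsPGroup p ↥(M ⊔ (P : Subgroup G)) := hMp.to_sup_of_normal_left hPp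
    have := P.is_maximal' hsup le_sup_right
    rw [← this]; exact le_sup_left
  apply le_antisymm _ hle
  intro a ha
  by_contra hn
  have hpa : ∃ k, a ^ p ^ k = 1 := by
    obtain ⟨k, hk⟩ := hPp ⟨a, ha⟩
    exact ⟨k, by simpa [Subtype.ext_iff] using hk⟩
  obtain ⟨k, hk⟩ := hpa
  have hdvd := orderOf_dvd_of_pow_eq_one hk
  obtain ⟨s, -, hs⟩ := (Nat.dvd_prime_pow Fact.out).mp hdvd
  have hpM : p ∣ Nat.card ↥M := by
    rw [hcard]
    exact dvd_pow_self p (by omega)
  rcases s with _ | _ | s
  · -- a = 1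
    apply hn
    have : a = 1 := by simpa using hs
    rw [this]; exact M.one_mem
  · -- order p
    obtain ⟨m, hm⟩ := exists_prime_orderOf_dvd_card' (G := M) p hpM
    apply hn
    refine h1 a ⟨m, m.2, ?_⟩
    rw [hs, ← hm, Subgroup.orderOf_coe]
    simp
  · -- order ≥ p²; take b of order p²
    have hp : p.Prime := Fact.out
    set b : G := a ^ p ^ s with hb
    have hob : orderOf b = p ^ 2 := by
      rw [hb, orderOf_pow_of_dvd (pow_ne_zero _ hp.ne_zero) (by rw [hs]; exact pow_dvd_pow _ (by omega)), hs]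
      rw [show s + 1 + 1 = s + 2 by ring, pow_add]
      exact Nat.mul_div_cancel_left _ (pow_pos hp.pos _)
    have hdvd2 : p ^ 2 ∣ Nat.card ↥M := by
      rw [hcard]; exact pow_dvd_pow _ ht
    obtain ⟨K, hK⟩ := Sylow.exists_subgroup_card_pow_prime (G := M) p hdvd2
    set E : Subgroup G := K.map M.subtype with hE
    have hEcard : Nat.card E = p ^ 2 := by
      rw [hE, Subgroup.card_map_of_injective M.subtype_injective, hK]
    have hEM : E ≤ M := by
      rintro _ ⟨x, -, rfl⟩
      exact x.2
    have hEcomm : IsMulCommutative ↥E := by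
      refine ⟨⟨fun x y => ?_⟩⟩
      have hc := hel.1
      have : (⟨x.1, hEM x.2⟩ : M) * ⟨y.1, hEM y.2⟩ = ⟨y.1, hEM y.2⟩ * ⟨x.1, hEM x.2⟩ :=
        hc.is_comm.comm _ _
      ext
      simpa [Subtype.ext_iff] using this
    obtain ⟨g, hg⟩ := hB E (Subgroup.zpowers b) hEcomm inferInstance
      (by rw [hEcard, Nat.card_zpowers, hob])
    have hbmem : b ∈ E.map (MulAut.conj g).toMonoidHom := by
      rw [← hg]; exact Subgroup.mem_zpowers b
    obtain ⟨e, he, hbe⟩ := hbmem
    have hep : e ^ p = 1 := hel.2 e (hEM he)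
    have hbp : b ^ p = 1 := by
      rw [← hbe, ← map_pow, hep, map_one]
    have := orderOf_dvd_of_pow_eq_one hbp
    rw [hob] at this
    have h2 := Nat.le_of_dvd hp.pos this
    have h3 : p < p ^ 2 := by
      have := hp.two_le
      nlinarith
    omega

end Cfsg.Agent.S3909
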