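import Cfsg.Statements.S0007

set_option autoImplicit false
open Cfsg

namespace Cfsg.Agent.S0007

/-- Subgroups of coprime index: the intersection has index equal to the product of the indices, and every element is a product of an element of the first subgroup and an element of the second. -/
theorem result {G : Type*} [Group G] [Finite G] (H K : Subgroup G)
    (h : H.index.Coprime K.index) :
    (H ⊓ K).index = H.index * K.index ∧ ∀ g : G, ∃ x ∈ H, ∃ y ∈ K, g = x * y := by
  have hne : (H ⊓ K).index ≠ 0 := Subgroup.index_ne_zero_of_finite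
  have h1 : H.index ∣ (H ⊓ K).index := Subgroup.index_dvd_of_le inf_le_left
  have h2 : K.index ∣ (H ⊓ K).index := Subgroup.index_dvd_of_le inf_le_right
  have heq : (H ⊓ K).index = H.index * K.index :=
    le_antisymm Subgroup.index_inf_le
      (Nat.le_of_dvd (Nat.pos_of_ne_zero hne) (Nat.Coprime.mul_dvd_of_dvd_of_dvd h h1 h2))
  refine ⟨heq, ?_⟩
  classical
  -- the map `G/(H ⊓ K) → G/H × G/K` is bijective
  let f : G ⧸ (H ⊓ K) → (G ⧸ H) × (G ⧸ K) := fun q =>
    (Quotient.map' id (fun a b hab => by
        rw [QuotientGroup.leftRel_apply] at hab ⊢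
        exact hab.1) q,
     Quotient.map' id (fun a b hab => by
        rw [QuotientGroup.leftRel_apply] at hab ⊢
        exact hab.2) q)
  have hf_inj : Function.Injective f := by
    intro a b
    induction a using QuotientGroup.induction_on
    induction b using QuotientGroup.induction_on
    rename_i a b
    intro hab
    have h1 : (a : G ⧸ H) = b := congrArg Prod.fst hab
    have h2 : (a : G ⧸ K) = b := congrArg Prod.snd hab
    rw [QuotientGroup.eq] at h1 h2 ⊢
    exact ⟨h1, h2⟩
  have hcard : Nat.card (G ⧸ (H ⊓ K)) = Nat.card ((G ⧸ H) × (G ⧸ K)) := by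
    rw [Nat.card_prod]
    exact heq
  have hf_surj : Function.Surjective f := by
    have : Finite ((G ⧸ H) × (G ⧸ K)) := inferInstance
    exact ((Nat.bijective_iff_injective_and_card f).2 ⟨hf_inj, hcard⟩).2
  intro g
  obtain ⟨a, ha⟩ := hf_surj (((1 : G) : G ⧸ H), ((g : G) : G ⧸ K))
  induction a using QuotientGroup.induction_on
  rename_i a
  have h1 : (a : G ⧸ H) = ((1 : G) : G ⧸ H) := congrArg Prod.fst ha
  have h2 : (a : G ⧸ K) = ((g : G) : G ⧸ K) := congrArg Prod.snd ha
  rw [QuotientGroup.eq] at h1 h2
  refine ⟨a, ?_, a⁻¹ * g, h2, by simp⟩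
  simpa using h1

end Cfsg.Agent.S0007
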