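import Cfsg.Statements.S0940
import Cfsg.Agent.Lib.BlockT.Rotate
import Cfsg.Agent.Lib.BlockT.NormalP

set_option autoImplicit false
open Cfsg

namespace Cfsg.Agent.S0940

open Cfsg.Agent.Lib.Blocks.Local Cfsg.Agent.Lib.Blocks.Central Cfsg.Agent.Lib.Blocks.Third
open Cfsg.Agent.Lib.BlockT.Rotate MonoidAlgebra
open scoped ComplexConjugate

universe u

set_option linter.style.haveILetI false
set_option linter.unusedVariables false

section Aux

variable {G : Type u} [Group G] [Fintype G] {M : Ideal AlgInt} {p : ℕ}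

theorem regCount_eq (p : ℕ) (G : Type u) [Group G] [Fintype G] :
    regCount p G = (Nat.card {y : G // ¬ p ∣ orderOf y} : ℂ) := by
  classical
  rw [regCount, Nat.card_eq_fintype_card, Fintype.card_subtype, Finset.card_eq_sum_ones]
  push_cast
  rw [Finset.sum_filter]
  refine Fintype.sum_congr _ _ fun g => ?_
  rw [coeff_regSum]

/-- Fourier inversion in the center of the group algebra. -/
theorem coeff_central_eq [Fintype (IrrCharacter G)] (y : Subalgebra.center ℂ (GA G)) (g : G) :
    (y : GA G).coeff g = ∑ χ : IrrCharacter G, omegaHom χ y * blockCoeff {χ} g := by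
  classical
  have h : y = ∑ χ : IrrCharacter G, (omegaHom χ y) • idem ({χ} : Set (IrrCharacter G)) := by
    apply omegaHom_injective
    intro ψ
    rw [map_sum]
    simp only [map_smul, smul_eq_mul, omegaHom_idem, Set.mem_singleton_iff]
    rw [Finset.sum_eq_single ψ]
    · simp
    · intro χ _ hχ
      rw [if_neg (Ne.symm hχ), mul_zero]
    · intro h
      exact absurd (Finset.mem_univ _) h
  conv_lhs => rw [h]
  have e : ((∑ χ : IrrCharacter G, (omegaHom χ y) • idem ({χ} : Set (IrrCharacter G)) :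
      Subalgebra.center ℂ (GA G)) : GA G) =
      ∑ χ : IrrCharacter G, (omegaHom χ y) • ((idem ({χ} : Set (IrrCharacter G)) :
      Subalgebra.center ℂ (GA G)) : GA G) := by
    push_cast
    rfl
  rw [e, coeff_sum']
  refine Fintype.sum_congr _ _ fun χ => ?_
  rw [coeff_smul', coeff_idem]

theorem blockCoeff_singleton [Fintype (IrrCharacter G)] (χ : IrrCharacter G) (g : G) :
    blockCoeff ({χ} : Set (IrrCharacter G)) g =
      (Nat.card G : ℂ)⁻¹ * ((χ : G → ℂ) 1 * conj ((χ : G → ℂ) g)) := by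
  classical
  rw [blockCoeff_eq_sum, Finset.sum_eq_single χ]
  · rw [if_pos (Set.mem_singleton χ)]
  · intro ψ _ hψ
    rw [if_neg (by simpa using hψ)]
  · intro h
    exact absurd (Finset.mem_univ _) h

/-- The scaled sum of the regular elements. -/
noncomputable def zz (p : ℕ) (G : Type u) [Group G] [Fintype G] : Subalgebra.center ℂ (GA G) :=
  (regCount p G)⁻¹ • regSum p G

theorem regCount_ne_zero [hp : Fact p.Prime] (hM : IsPModular p M) : regCount p G ≠ 0 := by
  haveI := isPrime_of_pModular hM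
  intro h
  exact regCount_notMem (G := G) hM (by rw [h]; exact memLocalIdeal_zero)

theorem memLocalRing_regCount_inv [hp : Fact p.Prime] (hM : IsPModular p M) :
    MemLocalRing M (regCount p G)⁻¹ := by
  haveI := isPrime_of_pModular hM
  refine memLocalRing_inv_of_notMem ?_ (regCount_notMem hM)
  rw [regCount_eq]
  exact memLocalRing_natCast _

theorem zz_mem [hp : Fact p.Prime] (hM : IsPModular p M) :
    haveI := isPrime_of_pModular hM
    zz p G ∈ localCenter M G := by
  haveI := isPrime_of_pModular hM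
  exact smul_mem_localCenter (memLocalRing_regCount_inv hM) regSum_mem_localCenter

theorem omegaHom_zz_of_notMem [hp : Fact p.Prime] (hM : IsPModular p M) {χ : IrrCharacter G}
    (hχ : χ ∉ principalBlock M G) : omegaHom χ (zz p G) = 0 := by
  rw [zz, map_smul, omegaHom_regSum_of_notMem hM hχ, smul_zero]

theorem omegaHom_zz_one [hp : Fact p.Prime] (hM : IsPModular p M) :
    omegaHom (oneI G) (zz p G) = 1 := by
  rw [zz, map_smul, omegaHom_one_regSum, smul_eq_mul, inv_mul_cancel₀ (regCount_ne_zero hM)]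

theorem omegaHom_zz_sub_one [hp : Fact p.Prime] (hM : IsPModular p M) {χ : IrrCharacter G}
    (hχ : χ ∈ principalBlock M G) : MemLocalIdeal M (omegaHom χ (zz p G) - 1) := by
  haveI := isPrime_of_pModular hM
  have h := omegaHom_sub_mem_of_sameBlock (M := M) (χ := χ) (ψ := oneI G)
    (sameBlock_symm hχ) (zz_mem hM)
  rwa [omegaHom_zz_one hM] at h

/-- `zz ^ p ^ n` agrees with the principal block idempotent modulo the local ideal. -/
theorem exists_pow_zz [Fintype (IrrCharacter G)] [hp : Fact p.Prime] (hM : IsPModular p M) :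
    ∃ n₀ : ℕ, ∀ n ≥ n₀, ∀ g : G, MemLocalIdeal M
      ((((zz p G) ^ (p ^ n) - idem (principalBlock M G) : Subalgebra.center ℂ (GA G)) : GA G).coeff g) := by
  classical
  haveI := isPrime_of_pModular hM
  obtain ⟨a, m, hm, hcard⟩ : ∃ a m : ℕ, ¬ p ∣ m ∧ Nat.card G = p ^ a * m := by
    obtain ⟨a, m, h1, h2⟩ := Nat.exists_eq_pow_mul_and_not_dvd (n := Nat.card G) Nat.card_pos.ne' p
      hp.out.ne_one
    exact ⟨a, m, h1, h2⟩
  have hex : ∀ χ : IrrCharacter G, ∃ n₀ : ℕ, ∀ n ≥ n₀, χ ∈ principalBlock M G →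
      ∃ w : ℂ, MemLocalRing M w ∧ (omegaHom χ (zz p G)) ^ (p ^ n) = 1 + (p : ℂ) ^ (a + 1) * w := by
    intro χ
    by_cases hχ : χ ∈ principalBlock M G
    · obtain ⟨n₀, h⟩ := exists_pow_sub_one hM (omegaHom_zz_sub_one hM hχ) (a + 1)
      exact ⟨n₀, fun n hn _ => h n hn⟩
    · exact ⟨0, fun n _ h => absurd h hχ⟩
  choose n₀ hn₀ using hex
  refine ⟨Finset.univ.sup n₀, fun n hn g => ?_⟩
  rw [coeff_central_eq]
  refine memLocalIdeal_sum _ _ fun χ _ => ?_
  rw [map_sub, map_pow, omegaHom_idem, blockCoeff_singleton]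
  by_cases hχ : χ ∈ principalBlock M G
  · rw [if_pos hχ]
    obtain ⟨w, hw, h⟩ := hn₀ χ n ((Finset.le_sup (Finset.mem_univ χ)).trans hn) hχ
    rw [h, hcard]
    have hp0 : (p : ℂ) ≠ 0 := by exact_mod_cast hp.out.ne_zero
    have hm0 : (m : ℂ) ≠ 0 := by
      intro h0
      have : m = 0 := by exact_mod_cast h0
      exact hm (this ▸ dvd_zero p)
    have e : (1 + (p : ℂ) ^ (a + 1) * w - 1) * ((((p ^ a * m : ℕ) : ℂ))⁻¹ *
        ((χ : G → ℂ) 1 * conj ((χ : G → ℂ) g))) =
        (p : ℂ) * (w * ((m : ℂ)⁻¹ * ((χ : G → ℂ) 1 * conj ((χ : G → ℂ) g)))) := by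
      push_cast
      field_simp
      ring
    rw [e]
    refine memLocalIdeal_mul_right (p_memLocalIdeal hM) ?_
    refine memLocalRing_mul hw (memLocalRing_mul (memLocalRing_natCast_inv hM hm) ?_)
    refine memLocalRing_mul ?_ ?_
    · exact memLocalRing_of_isIntegral (Cfsg.Agent.Lib.BlockT.NormalP.isIntegral_irr χ 1)
    · exact memLocalRing_of_isIntegral
        (map_isIntegral_int (starRingEnd ℂ) (Cfsg.Agent.Lib.BlockT.NormalP.isIntegral_irr χ g))
  · rw [if_neg hχ, omegaHom_zz_of_notMem hM hχ, zero_pow (by have := hp.out.pos; positivity), sub_zero,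
      zero_mul]
    exact memLocalIdeal_zero

/-- The coefficients of a power of the sum of regular elements, at an element fixed by the power. -/
theorem coeff_regSum_pow (p : ℕ) {q : ℕ} {g : G} (hg : g ^ q = g) :
    ((((regSum p G) ^ q : Subalgebra.center ℂ (GA G)) : GA G)).coeff g =
      Nat.card (Tup {h : G | ¬ p ∣ orderOf (h * g)} q 1) := by
  classical
  set S : Set G := {h : G | ¬ p ∣ orderOf (h * g)} with hS
  set σ : GA G := ((regSum p G : Subalgebra.center ℂ (GA G)) : GA G) with hσ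
  have ha : (ofFun (fun h => if h ∈ S then (1 : ℂ) else 0) : GA G) = σ * single g⁻¹ 1 := by
    ext h
    rw [coeff_ofFun, coeff_mul_single_apply, hσ, coeff_regSum, inv_inv, mul_one]
    rfl
  have hcomm : Commute σ (single g⁻¹ (1 : ℂ)) :=
    ((isCentral_iff_comm _).mp (isCentral_of_mem (regSum p G)) _).symm
  have h1 := coeff_pow_indicator S q (1 : G)
  rw [ha, hcomm.mul_pow, MonoidAlgebra.single_pow, one_pow, inv_pow, hg, coeff_mul_single_apply,
    inv_inv, one_mul, mul_one] at h1
  rw [← h1]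
  rfl

/-- Counting: elements `h` with `hg` regular and `h ^ q = 1` versus pairs. -/
theorem card_pairs [hp : Fact p.Prime] {n : ℕ} (hn : (Nat.card G).factorization p ≤ n) (g : G) :
    Nat.card {h : G // h ∈ {h : G | ¬ p ∣ orderOf (h * g)} ∧ h ^ (p ^ n) = 1} =
      Nat.card {xy : G × G // (∃ k : ℕ, orderOf xy.1 = p ^ k) ∧ ¬ p ∣ orderOf xy.2 ∧ xy.1 * xy.2 = g} := by
  refine Nat.card_congr
    { toFun := fun h => ⟨((h : G)⁻¹, (h : G) * g), ?_, h.2.1, by simp⟩
      invFun := fun xy => ⟨((xy : G × G).1)⁻¹, ?_, ?_⟩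
      left_inv := ?_
      right_inv := ?_ }
  · obtain ⟨k, hk⟩ := Cfsg.Agent.Lib.Blocks.Third.orderOf_of_pow_eq_one h.2.2
    exact ⟨k, by rw [orderOf_inv]; exact hk⟩
  · have h1 := xy.2.2.2
    have : (xy : G × G).1⁻¹ * g = (xy : G × G).2 := inv_mul_eq_iff_eq_mul.mpr h1.symm
    change ¬ p ∣ orderOf ((xy : G × G).1⁻¹ * g)
    rw [this]
    exact xy.2.2.1
  · obtain ⟨k, hk⟩ := xy.2.1
    rw [inv_pow, inv_eq_one]
    have h2 : orderOf (xy : G × G).1 ∣ Nat.card G := orderOf_dvd_natCard _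
    rw [hk] at h2
    have h3 : k ≤ (Nat.card G).factorization p :=
      (hp.out.pow_dvd_iff_le_factorization Nat.card_pos.ne').mp h2
    have h4 : p ^ k ∣ p ^ n := pow_dvd_pow p (h3.trans hn)
    rw [← hk] at h4
    exact orderOf_dvd_iff_pow_eq_one.mp h4
  · intro h
    apply Subtype.ext
    simp
  · rintro ⟨⟨x, y⟩, h1, h2, h3⟩
    apply Subtype.ext
    apply Prod.ext
    · simp
    · exact inv_mul_eq_iff_eq_mul.mpr h3.symm

/-- Külshammer's formula, for a `Fintype` group. -/
theorem kuls [hp' : Fact p.Prime] (hM : IsPModular p M) (g : G) (hg : ¬ p ∣ orderOf g) :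
    MemLocalIdeal M (blockCoeff (principalBlock M G) g -
      (Nat.card {xy : G × G // (∃ k : ℕ, orderOf xy.1 = p ^ k) ∧ ¬ p ∣ orderOf xy.2 ∧ xy.1 * xy.2 = g} : ℂ) /
        (Nat.card {y : G // ¬ p ∣ orderOf y} : ℂ)) := by
  classical
  haveI := isPrime_of_pModular hM
  haveI := Cfsg.Agent.Lib.Char.Ortho.finite_irrCharacter (G := G)
  letI := Fintype.ofFinite (IrrCharacter G)
  have hp := hp'.out
  obtain ⟨n₀, hn₀⟩ := exists_pow_zz (G := G) hM
  set o := orderOf g with ho
  have ho0 : 0 < o := orderOf_pos g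
  have hcop : Nat.Coprime p o := (Nat.Prime.coprime_iff_not_dvd hp).mpr hg
  set e := Nat.totient o with he
  have he0 : 0 < e := Nat.totient_pos.mpr ho0
  set n := e * (n₀ + (Nat.card G).factorization p) with hn
  have hle : n₀ + (Nat.card G).factorization p ≤ n := Nat.le_mul_of_pos_left _ he0
  have hmod : p ^ n ≡ 1 [MOD o] := by
    have h1 : p ^ e ≡ 1 [MOD o] := Nat.ModEq.pow_totient hcop
    have h2 := h1.pow (n₀ + (Nat.card G).factorization p)
    rwa [← pow_mul, one_pow] at h2
  have hgq : g ^ (p ^ n) = g := by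
    have := (pow_eq_pow_iff_modEq (x := g)).mpr hmod
    rwa [pow_one] at this
  set q := p ^ n with hq
  have h1 := hn₀ n (by omega) g
  -- the coefficient of `zz ^ q`
  set R := Nat.card {y : G // ¬ p ∣ orderOf y} with hR
  set N := Nat.card {xy : G × G // (∃ k : ℕ, orderOf xy.1 = p ^ k) ∧ ¬ p ∣ orderOf xy.2 ∧ xy.1 * xy.2 = g}
    with hN
  set c := Nat.card (Tup {h : G | ¬ p ∣ orderOf (h * g)} q 1) with hc
  have hcmod : c ≡ N [MOD p] := by
    have := card_tup_modEq (p := p) {h : G | ¬ p ∣ orderOf (h * g)} n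
    rwa [card_pairs (by omega) g] at this
  have hRq : R ^ q ≡ R [MOD p] := by
    rw [← ZMod.natCast_eq_natCast_iff]
    push_cast
    rw [hq, ZMod.pow_card_pow]
  have hcoeff : (((zz p G) ^ q : Subalgebra.center ℂ (GA G)) : GA G).coeff g =
      ((R : ℂ)⁻¹) ^ q * (c : ℂ) := by
    have e1 : (zz p G) ^ q = (((regCount p G)⁻¹) ^ q) • (regSum p G) ^ q := by
      rw [zz, smul_pow]
    rw [e1, regCount_eq]
    change ((((R : ℂ)⁻¹) ^ q) • ((((regSum p G) ^ q : Subalgebra.center ℂ (GA G)) : GA G))).coeff g = _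
    rw [coeff_smul', coeff_regSum_pow p hgq]
  have hR0 : (R : ℂ) ≠ 0 := by
    rw [← regCount_eq]
    exact regCount_ne_zero hM
  have h2 : MemLocalIdeal M (((R : ℂ)⁻¹) ^ q * (c : ℂ) - (N : ℂ) / (R : ℂ)) := by
    have e : ((R : ℂ)⁻¹) ^ q * (c : ℂ) - (N : ℂ) / (R : ℂ) =
        (- ((R : ℂ)⁻¹) ^ (q + 1)) * (((((N * R ^ q : ℕ) : ℤ) - ((c * R : ℕ) : ℤ) : ℤ) : ℂ)) := by
      push_cast
      have hr : (R : ℂ)⁻¹ * (R : ℂ) = 1 := inv_mul_cancel₀ hR0
      have hX : ((R : ℂ)⁻¹) ^ q * (R : ℂ) ^ q = 1 := by rw [← mul_pow, hr, one_pow]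
      rw [pow_succ, div_eq_mul_inv]
      linear_combination (-(((R : ℂ)⁻¹) ^ q * (c : ℂ))) * hr + ((N : ℂ) * (R : ℂ)⁻¹) * hX
    rw [e]
    refine memLocalIdeal_mul_left (memLocalRing_neg (memLocalRing_pow ?_ _)) ?_
    · rw [← regCount_eq]
      exact memLocalRing_regCount_inv hM
    · rw [intCast_memLocalIdeal_iff hM]
      exact (Nat.modEq_iff_dvd).mp (hcmod.mul hRq.symm)
  have e3 : (((zz p G ^ q - idem (principalBlock M G) : Subalgebra.center ℂ (GA G)) : GA G)).coeff g =
      (((zz p G) ^ q : Subalgebra.center ℂ (GA G)) : GA G).coeff g - blockCoeff (principalBlock M G) g := by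
    change (((zz p G ^ q : Subalgebra.center ℂ (GA G)) : GA G) -
      ((idem (principalBlock M G) : Subalgebra.center ℂ (GA G)) : GA G)).coeff g = _
    rw [coeff_sub', coeff_idem]
  rw [e3, hcoeff] at h1
  have h3 := memLocalIdeal_sub h2 h1
  convert h3 using 1
  ring

end Aux

/-- Let G be a finite group and M a maximal ideal of the algebraic integers containing the prime p. For every p-regular g, the idempotent coefficient of the principal block at g (the inverse of the group order times the sum over χ in the principal block of χ 1 * conj (χ g)) is congruent modulo the local ideal at M to N / R, where N is the number of pairs (x, y) with x of p-power order, y of order prime to p and x * y = g, and R is the number of elements of G of order prime to p. -/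
theorem result {G : Type*} [Group G] [Finite G] (p : ℕ) [Fact p.Prime] (M : Ideal Cfsg.AlgInt) (hM : Cfsg.IsPModular p M) (g : G) (hg : ¬ p ∣ orderOf g) : Cfsg.MemLocalIdeal M (Cfsg.blockCoeff (Cfsg.principalBlock M G) g - (Nat.card {xy : G × G // (∃ k : ℕ, orderOf xy.1 = p ^ k) ∧ ¬ p ∣ orderOf xy.2 ∧ xy.1 * xy.2 = g} : ℂ) / (Nat.card {y : G // ¬ p ∣ orderOf y} : ℂ)) := by
  classical
  letI := Fintype.ofFinite G
  exact kuls hM g hg

end Cfsg.Agent.S0940
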