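import Cfsg.Statements.S2421
import Cfsg.Agent.Lib.Classical.Flags.Degree
import Cfsg.Agent.Lib.Char.GenLattice
import Cfsg.Agent.Lib.Char.Orbital

set_option autoImplicit false
open scoped MatrixGroups
open Cfsg

namespace Cfsg.Agent.S2421

/-- Irreducible characters of `GL_n(q)` indexed by partitions: for `ν` a partition of `n` written with `n` non-decreasing parts `ν_0 ≤ ⋯ ≤ ν_{n−1}` (zeros allowed; positions counted from 0) and `λ_i = ν_i + i`, the alternating sum over permutations `κ` of `{0, …, n−1}` of `sign κ` times the permutation character on partial flags of type `λ − κ` (terms with a negative entry omitted) is an irreducible complex character of `GL_n(q)`. For `ν = (1, …, 1)` this is the Steinberg character. -/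
theorem result {F : Type*} [Field F] [Fintype F] {n : ℕ} (ν : Fin n → ℕ) (hmono : Monotone ν) (hsum : ∑ i, ν i = n) :
    Cfsg.IsIrrCharacter (GL (Fin n) F) (Cfsg.unipotentCharacterGL n F ν) := by
  classical
  have := Fintype.ofFinite (GL (Fin n) F)
  open Cfsg.Agent.Lib.Classical.Flags Cfsg.Agent.Lib.Char.GenLattice Cfsg.Agent.Lib.Char.Orbital in
  have hgen : IsGeneralizedCharacter (GL (Fin n) F) (Cfsg.unipotentCharacterGL n F ν) := by
    have e : Cfsg.unipotentCharacterGL n F ν = ∑ κ : Equiv.Perm (Fin n),
        (if ∀ i : Fin n, (κ i).val ≤ ν i + i.val then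
          (Equiv.Perm.sign κ : ℤ) • Cfsg.fixedPointCharacter (Cfsg.parabolicGL n F fun i => ν i + i.val - (κ i).val) else 0) := by
      funext g
      rw [Finset.sum_apply]
      unfold Cfsg.unipotentCharacterGL
      apply Finset.sum_congr rfl
      intro κ _
      by_cases c : ∀ i : Fin n, (κ i).val ≤ ν i + i.val
      · rw [if_pos c, if_pos c, Pi.smul_apply, zsmul_eq_mul]
      · rw [if_neg c, if_neg c]
        rfl
    rw [e]
    apply isGenChar_sum
    intro κ _
    by_cases c : ∀ i : Fin n, (κ i).val ≤ ν i + i.val
    · rw [if_pos c]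
      apply isGenChar_zsmul
      apply isGenChar_of_isCharacter
      exact isCharacter_permChar
    · rw [if_neg c]
      exact isGenChar_zero
  have hreal : ∀ g, (starRingEnd ℂ) (Cfsg.unipotentCharacterGL n F ν g) = Cfsg.unipotentCharacterGL n F ν g := by
    intro g
    unfold Cfsg.unipotentCharacterGL Cfsg.fixedPointCharacter
    rw [map_sum]
    apply Finset.sum_congr rfl
    intro κ _
    by_cases c : ∀ i : Fin n, (κ i).val ≤ ν i + i.val
    · simp [if_pos c]
    · simp [if_neg c]
  have hnorm : Cfsg.classInner (Cfsg.unipotentCharacterGL n F ν) (Cfsg.unipotentCharacterGL n F ν) = 1 := by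
    unfold Cfsg.classInner
    simp only [hreal]
    rw [Cfsg.Agent.Lib.Classical.Flags.inner_unipotent hmono hsum hmono hsum, if_pos rfl]
  rcases Cfsg.Agent.Lib.Char.GenLattice.norm_one hgen hnorm with h | h
  · exact h
  · exfalso
    obtain ⟨a, b, ha, hb, hab⟩ := Cfsg.Agent.Lib.Classical.Flags.unipotent_one_pos (F := F) hmono hsum
    obtain ⟨m, ρ, -, hρ⟩ := h
    have h1 : (-Cfsg.unipotentCharacterGL n F ν) 1 = (m : ℂ) := by
      rw [← hρ, Representation.char_one]
      simp
    rw [Pi.neg_apply] at h1
    have h2 : Cfsg.unipotentCharacterGL n F ν 1 = -(m : ℂ) := by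
      rw [← h1, neg_neg]
    rw [h2] at hab
    have h3 : ((m * a + b : ℕ) : ℂ) = 0 := by
      push_cast
      linear_combination -hab
    have h4 : m * a + b = 0 := by exact_mod_cast h3
    omega

end Cfsg.Agent.S2421
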