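import Cfsg.Statements.S3303
import Cfsg.Agent.Lib.InvolChar.Basic
import Cfsg.Agent.Lib.InvolChar.Cyclic2
import Cfsg.Agent.Lib.Solvable.Fitting

set_option autoImplicit false
open Cfsg
open Cfsg.Agent.Lib.InvolChar.Basic Cfsg.Agent.Lib.InvolChar.Cyclic2

namespace Cfsg.Agent.S3303

/-- Let G be a finite solvable group in which the intersection of any two distinct Sylow 2-subgroups is cyclic. Then G/O(G) has a normal Sylow 2-subgroup, where O(G) is the largest normal subgroup of odd order. -/
theorem result {G : Type*} [Group G] [Finite G] (hs : Group.IsSolvable G)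
    (hC : ∀ S T : Sylow 2 G, S ≠ T → IsCyclic ↥((S : Subgroup G) ⊓ (T : Subgroup G))) :
    ∃ P : Sylow 2 (G ⧸ Cfsg.oddCore G), (P : Subgroup (G ⧸ Cfsg.oddCore G)).Normal := by
  classical
  haveI : Fact (Nat.Prime 2) := ⟨Nat.prime_two⟩
  set H := G ⧸ Cfsg.oddCore G with hH
  haveI : Group.IsSolvable H := inferInstance
  have hbot : pPrimeCore 2 H = ⊥ := Cfsg.Agent.Lib.Core.Basic.pPrimeCore_quotient_eq_bot
  have hcent := Cfsg.Agent.Lib.Solvable.Fitting.centralizer_pCore_le (G := H) 2 hbot
  by_cases hsub : Subsingleton (Sylow 2 H)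
  · obtain ⟨P⟩ : Nonempty (Sylow 2 H) := Sylow.nonempty
    exact ⟨P, Sylow.normal_of_subsingleton P⟩
  · rw [not_subsingleton_iff_nontrivial] at hsub
    obtain ⟨S, T, hST⟩ := exists_pair_ne (Sylow 2 H)
    obtain ⟨P₀, Q₀, W, hPQ, hW, hmap⟩ := exists_inf_image (QuotientGroup.mk'_surjective (Cfsg.oddCore G)) S T hST
    haveI := hC P₀ Q₀ hPQ
    have hWc : IsCyclic W :=
      isCyclic_of_injective (Subgroup.inclusion hW) (Subgroup.inclusion_injective hW)
    have hSTc : IsCyclic ↥((S : Subgroup H) ⊓ (T : Subgroup H)) := by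
      rw [← hmap]
      exact isCyclic_of_surjective _ ((QuotientGroup.mk' (Cfsg.oddCore G)).subgroupMap_surjective W)
    set Q := pCore 2 H with hQ
    have hQle : Q ≤ (S : Subgroup H) ⊓ (T : Subgroup H) :=
      le_inf (Cfsg.Agent.Lib.Core.Basic.pCore_le_sylow S) (Cfsg.Agent.Lib.Core.Basic.pCore_le_sylow T)
    have hQc : IsCyclic Q :=
      isCyclic_of_injective (Subgroup.inclusion hQle) (Subgroup.inclusion_injective hQle)
    obtain ⟨⟨c, hcQ⟩, hc⟩ := IsCyclic.exists_generator (α := Q)
    have hQz : Q = Subgroup.zpowers c := by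
      apply le_antisymm
      · intro y hy
        obtain ⟨i, hi⟩ := hc ⟨y, hy⟩
        exact ⟨i, by simpa using congrArg Subtype.val hi⟩
      · rw [Subgroup.zpowers_le]
        exact hcQ
    have hQp : IsPGroup 2 Q := Cfsg.Agent.Lib.Core.Basic.pCore_isPGroup
    obtain ⟨n, hn⟩ : ∃ n, orderOf c = 2 ^ n := by
      have := (IsPGroup.iff_orderOf.1 hQp) ⟨c, hcQ⟩
      simpa using this
    have hQn : Q.Normal := inferInstance
    have hodd : ∀ x : H, Odd (orderOf x) → x = 1 := by
      intro x hx
      have h1 : x * c * x⁻¹ ∈ Subgroup.zpowers c := by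
        rw [← hQz]
        exact hQn.conj_mem c hcQ x
      have h2 : x ^ orderOf x * c = c * x ^ orderOf x := by
        rw [pow_orderOf_eq_one]; group
      have h3 := commute_of_odd_of_normalizes_cyclic hn h1 hx h2
      have h4 : x ∈ Q := by
        apply hcent
        rw [Subgroup.mem_centralizer_iff]
        intro y hy
        rw [SetLike.mem_coe, hQz] at hy
        obtain ⟨i, rfl⟩ := Subgroup.mem_zpowers_iff.1 hy
        exact ((show Commute c x from h3.symm).zpow_left i).eq
      exact eq_one_of_odd_of_mem hQp h4 hx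
    have htwo : IsPGroup 2 H := isPGroup_two_of_odd hodd
    refine ⟨S, ?_⟩
    have : (S : Subgroup H) = ⊤ := (S.3 ((IsPGroup.iff_orderOf.2 (IsPGroup.iff_orderOf.1 htwo)).to_subgroup ⊤) le_top).symm
    rw [this]
    infer_instance

end Cfsg.Agent.S3303
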