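import Cfsg.Statements.S1254
import Cfsg.Agent.Lib.TwoFusion.DihSylow
import Cfsg.Agent.Lib.Transfer.Frobenius
import Cfsg.Agent.Lib.TwoGroups.QDKlein

set_option autoImplicit false
open Cfsg

namespace Cfsg.Agent.S1254

open DihedralGroup Cfsg.Agent.Lib.TwoFusion.DihSylow

variable {X : Type*} [Group X]

/-- An odd-order element normalizing a cyclic `2`-subgroup centralizes it. -/
private lemma cyclic_normalizer [Finite X] {Q : Subgroup X} (hc : IsCyclic Q) (hp : IsPGroup 2 Q) {g : X}
    (hg : g ∈ Subgroup.normalizer (Q : Set X)) (hodd : Nat.Coprime (orderOf g) 2) :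
    g ∈ Subgroup.centralizer (Q : Set X) := by
  haveI : Fact (Nat.Prime 2) := ⟨Nat.prime_two⟩
  let ψ := Q.normalizerMonoidHom
  have hA : IsPGroup 2 (MulAut Q) := by
    obtain ⟨n, hn⟩ := IsPGroup.iff_card.1 hp
    apply IsPGroup.of_card (n := n - 1)
    rw [IsCyclic.card_mulAut, hn]
    rcases Nat.eq_zero_or_pos n with rfl | hpos
    · simp
    · rw [Nat.totient_prime_pow Nat.prime_two hpos]
      simp
  obtain ⟨a, ha⟩ := (IsPGroup.iff_orderOf.1 hA) (ψ ⟨g, hg⟩)
  have h1 : orderOf (ψ ⟨g, hg⟩) ∣ orderOf g := by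
    have := orderOf_map_dvd ψ (⟨g, hg⟩ : Subgroup.normalizer (Q : Set X))
    rwa [Subgroup.orderOf_mk] at this
  have h2 : orderOf (ψ ⟨g, hg⟩) = 1 := by
    have h3 : Nat.Coprime (orderOf (ψ ⟨g, hg⟩)) 2 := Nat.Coprime.coprime_dvd_left h1 hodd
    rw [ha] at h3 ⊢
    cases a with
    | zero => simp
    | succ a =>
      exfalso
      have h4 : 2 ∣ 2 ^ (a + 1) := ⟨2 ^ a, by ring⟩
      have h5 := Nat.Coprime.eq_one_of_dvd h3.symm h4
      omega
  have h3 : (⟨g, hg⟩ : Subgroup.normalizer (Q : Set X)) ∈ ψ.ker := by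
    rw [MonoidHom.mem_ker]
    exact orderOf_eq_one_iff.1 h2
  rw [Subgroup.normalizerMonoidHom_ker] at h3
  exact h3

/-- The local condition at `U`. -/
private lemma sup_case [Finite X] {U S : Subgroup X} (hS : IsPGroup 2 S)
    (h : Subgroup.normalizer (U : Set X) = Subgroup.centralizer (U : Set X) ⊔ (S ⊓ Subgroup.normalizer (U : Set X)))
    {g : X} (hg : g ∈ Subgroup.normalizer (U : Set X)) (hodd : Nat.Coprime (orderOf g) 2) :
    g ∈ Subgroup.centralizer (U : Set X) := by
  haveI : Fact (Nat.Prime 2) := ⟨Nat.prime_two⟩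
  let W := Subgroup.normalizer (U : Set X)
  let ψ := U.normalizerMonoidHom
  let S' : Subgroup W := S.subgroupOf W
  let V : Subgroup (MulAut U) := S'.map ψ
  have hV : IsPGroup 2 V := by
    have hS' : IsPGroup 2 S' := hS.comap_subtype
    exact hS'.map ψ
  let P : Subgroup W := V.comap ψ
  have hle : Subgroup.centralizer (U : Set X) ⊔ (S ⊓ Subgroup.normalizer (U : Set X)) ≤ P.map W.subtype := by
    apply sup_le
    · intro x hx
      have hxN : x ∈ Subgroup.normalizer (U : Set X) := Subgroup.centralizer_le_normalizer _ hx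
      refine ⟨⟨x, hxN⟩, ?_, rfl⟩
      have : (⟨x, hxN⟩ : W) ∈ ψ.ker := by
        rw [Subgroup.normalizerMonoidHom_ker]
        exact hx
      rw [MonoidHom.mem_ker] at this
      change ψ ⟨x, hxN⟩ ∈ V
      rw [this]
      exact V.one_mem
    · rintro x ⟨hxS, hxN⟩
      refine ⟨⟨x, hxN⟩, ?_, rfl⟩
      exact ⟨⟨x, hxN⟩, hxS, rfl⟩
  rw [← h] at hle
  obtain ⟨⟨g', hg'N⟩, hg'P, rfl⟩ := hle hg
  have hmem : ψ ⟨g', hg'N⟩ ∈ V := hg'P
  obtain ⟨a, ha⟩ := (IsPGroup.iff_orderOf.1 hV) ⟨_, hmem⟩
  have ha' : orderOf (ψ ⟨g', hg'N⟩) = 2 ^ a := by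
    rw [← ha]
    exact (Subgroup.orderOf_coe ⟨_, hmem⟩)
  have h1 : orderOf (ψ ⟨g', hg'N⟩) ∣ orderOf g' := by
    have := orderOf_map_dvd ψ (⟨g', hg'N⟩ : W)
    rwa [Subgroup.orderOf_mk] at this
  have h2 : orderOf (ψ ⟨g', hg'N⟩) = 1 := by
    have h3 : Nat.Coprime (orderOf (ψ ⟨g', hg'N⟩)) 2 := Nat.Coprime.coprime_dvd_left h1 hodd
    rw [ha'] at h3 ⊢
    cases a with
    | zero => simp
    | succ a =>
      exfalso
      have h4 : 2 ∣ 2 ^ (a + 1) := ⟨2 ^ a, by ring⟩
      have h5 := Nat.Coprime.eq_one_of_dvd h3.symm h4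
      omega
  have h3 : (⟨g', hg'N⟩ : W) ∈ ψ.ker := by
    rw [MonoidHom.mem_ker]
    exact orderOf_eq_one_iff.1 h2
  rw [Subgroup.normalizerMonoidHom_ker] at h3
  exact h3



/-- Let X be a finite group whose Sylow 2-subgroup S is dihedral (of order at least 4). Then X has a normal 2-complement if and only if, for every Klein four-subgroup U ≤ S, the normalizer N_X(U) is generated by C_X(U) and N_S(U). -/
theorem result {X : Type*} [Group X] [Finite X] (S : Sylow 2 X) (m : ℕ) (hm : 2 ≤ m) (eS : (S : Subgroup X) ≃* DihedralGroup m) : Cfsg.HasNormalPComplement 2 X ↔ ∀ U : Subgroup X, U ≤ S → IsKleinFour U → Subgroup.normalizer (U : Set X) = Subgroup.centralizer (U : Set X) ⊔ ((S : Subgroup X) ⊓ Subgroup.normalizer (U : Set X)) := by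
  classical
  haveI : Fact (Nat.Prime 2) := ⟨Nat.prime_two⟩
  obtain ⟨k, hk⟩ := exists_pow S eS hm
  have hm0 : m ≠ 0 := by omega
  haveI : NeZero m := ⟨hm0⟩
  have hev : Even m := by
    rw [hk, pow_succ]
    exact even_two.mul_left _
  set ι := iota (S : Subgroup X) eS with hι
  have hιinj : Function.Injective ι := iota_injective _ _
  constructor
  · -- forward
    intro hN U hUS hUK
    obtain ⟨N, hNn, hNc⟩ := (Cfsg.Agent.Lib.Transfer.Basic.hasNormalPComplement_iff_forall.1 hN) S
    apply le_antisymm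
    · intro x hx
      have hxt : x ∈ N ⊔ (S : Subgroup X) := by
        rw [hNc.sup_eq_top]
        trivial
      obtain ⟨a, ha, s, hs, rfl⟩ := Subgroup.mem_sup_of_normal_left.1 hxt
      have hdisj : ∀ y, y ∈ N → y ∈ (S : Subgroup X) → y = 1 := by
        intro y h1 h2
        have := hNc.disjoint
        exact Subgroup.disjoint_def.1 this h1 h2
      have key : ∀ u ∈ U, s * u * s⁻¹ = (a * s) * u * (a * s)⁻¹ := by
        intro u hu
        have h1 : (a * s) * u * (a * s)⁻¹ ∈ U := (Subgroup.mem_normalizer_iff.1 hx u).1 hu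
        have h2 : s * u * s⁻¹ ∈ (S : Subgroup X) :=
          (S : Subgroup X).mul_mem ((S : Subgroup X).mul_mem hs (hUS hu)) ((S : Subgroup X).inv_mem hs)
        set v := s * u * s⁻¹ with hv
        have h3 : (a * s) * u * (a * s)⁻¹ = a * v * a⁻¹ := by rw [hv]; group
        rw [h3] at h1 ⊢
        have h4 : (a * v * a⁻¹) * v⁻¹ ∈ N := by
          have h5 := hNn.conj_mem a⁻¹ (N.inv_mem ha) v
          have e : a * v * a⁻¹ * v⁻¹ = a * (v * a⁻¹ * v⁻¹) := by group
          rw [e]
          exact N.mul_mem ha h5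
        have h5 : (a * v * a⁻¹) * v⁻¹ ∈ (S : Subgroup X) :=
          (S : Subgroup X).mul_mem (hUS h1) ((S : Subgroup X).inv_mem h2)
        have h6 := hdisj _ h4 h5
        exact (mul_inv_eq_one.1 h6).symm
      have hsN : s ∈ Subgroup.normalizer (U : Set X) := by
        apply Cfsg.Agent.Lib.TwoGroups.QD.mem_normalizer_of_conj_mem
        intro u hu
        rw [key u hu]
        exact (Subgroup.mem_normalizer_iff.1 hx u).1 hu
      have haC : a ∈ Subgroup.centralizer (U : Set X) := by
        rw [Cfsg.Agent.Lib.Transfer.Frobenius.mem_centralizer_iff']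
        intro u hu
        have h1 : s⁻¹ * u * s ∈ U := by
          have := (Subgroup.mem_normalizer_iff.1 (Subgroup.inv_mem _ hsN) u).1 hu
          simpa using this
        have h2 := key _ h1
        have e1 : s * (s⁻¹ * u * s) * s⁻¹ = u := by group
        have e2 : (a * s) * (s⁻¹ * u * s) * (a * s)⁻¹ = a * u * a⁻¹ := by group
        rw [e1, e2] at h2
        exact h2.symm
      exact Subgroup.mul_mem _ (Subgroup.mem_sup_left haC) (Subgroup.mem_sup_right ⟨hs, hsN⟩)
    · exact sup_le (Subgroup.centralizer_le_normalizer _) inf_le_right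
  · -- backward
    intro hloc
    suffices hlocal : ∀ Q : Subgroup X, Q ≤ (S : Subgroup X) → ∀ g ∈ Subgroup.normalizer (Q : Set X),
        Nat.Coprime (orderOf g) 2 → g ∈ Subgroup.centralizer (Q : Set X) by
      obtain ⟨N, hNn, hNc⟩ := (Cfsg.Agent.Lib.Transfer.Frobenius.exists_normal_complement_iff S).2 hlocal
      exact ⟨S, N, hNn, hNc⟩
    intro Q hQS g hgN hodd
    set h := half m with hh
    have h2h : 2 * h = 0 := two_mul_half hev
    have hh0 : h ≠ 0 := half_ne_zero hev hm
    let A : Subgroup X := Subgroup.zpowers (ι (r 1))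
    have hAcyc : IsCyclic A := inferInstance
    have hAmem : ∀ x, x ∈ A ↔ ∃ a : ZMod m, x = ι (r a) := by
      intro x
      constructor
      · rintro ⟨a, rfl⟩
        refine ⟨(a : ZMod m), ?_⟩
        change ι (r 1) ^ a = _
        rw [← map_zpow, r_one_zpow]
      · rintro ⟨a, rfl⟩
        refine ⟨(a.val : ℤ), ?_⟩
        change ι (r 1) ^ (a.val : ℤ) = _
        rw [← map_zpow, r_one_zpow]
        simp
    have hAsr : ∀ i, ι (sr i) ∉ A := by
      intro i hi
      obtain ⟨a, ha⟩ := (hAmem _).1 hi
      have := hιinj ha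
      cases this
    have hSrot : ∀ x ∈ (S : Subgroup X), x ∉ A → ∃ i, x = ι (sr i) := by
      intro x hx hxA
      obtain ⟨y, rfl⟩ := exists_iota _ eS hx
      cases y with
      | r a => exact absurd ((hAmem _).2 ⟨a, rfl⟩) hxA
      | sr i => exact ⟨i, rfl⟩
    have hsq : ∀ i, (ι (sr i)) ^ 2 = 1 := by
      intro i
      rw [← map_pow, sq, sr_mul_self, map_one]
    have hprod : ∀ i j, (ι (sr i))⁻¹ * ι (sr j) ∈ A := by
      intro i j
      rw [← map_inv, ← map_mul, inv_sr, sr_mul_sr]
      exact (hAmem _).2 ⟨_, rfl⟩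
    by_cases hQA : Q ≤ A
    · have hc : IsCyclic Q := isCyclic_of_injective (Subgroup.inclusion hQA) (Subgroup.inclusion_injective hQA)
      exact cyclic_normalizer hc (S.isPGroup'.to_le hQS) hgN hodd
    obtain ⟨s, hsQ, hsA⟩ := SetLike.not_le_iff_exists.1 hQA
    obtain ⟨i, rfl⟩ := hSrot s (hQS hsQ) hsA
    by_cases hc : ∃ c ∈ Q, c ∈ A ∧ c ^ 2 ≠ 1
    · -- large rotation part
      obtain ⟨c, hcQ, hcA, hc2⟩ := hc
      let Q₀ : Subgroup X := Q ⊓ A
      have hQ₀cyc : IsCyclic Q₀ := isCyclic_of_injective (Subgroup.inclusion (inf_le_right : Q₀ ≤ A))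
        (Subgroup.inclusion_injective _)
      obtain ⟨c₀, hc₀⟩ := IsCyclic.exists_generator (α := Q₀)
      have hpow : ∀ x ∈ Q₀, ∃ k : ℤ, x = (c₀ : X) ^ k := by
        intro x hx
        obtain ⟨k, hk⟩ := hc₀ ⟨x, hx⟩
        refine ⟨k, ?_⟩
        have := congrArg Subtype.val hk
        simpa using this.symm
      have hc₀2 : (c₀ : X) ^ 2 ≠ 1 := by
        intro h1
        obtain ⟨k, hk⟩ := hpow c ⟨hcQ, hcA⟩
        apply hc2
        rw [hk, ← zpow_natCast, ← zpow_mul, mul_comm, zpow_mul]
        simp [h1]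
      have hgc₀ : g * c₀ * g⁻¹ ∈ Q₀ := by
        have h1 : g * c₀ * g⁻¹ ∈ Q := (Subgroup.mem_normalizer_iff.1 hgN _).1 c₀.2.1
        refine ⟨h1, ?_⟩
        by_contra hnA
        obtain ⟨j, hj⟩ := hSrot _ (hQS h1) hnA
        apply hc₀2
        have h3 := hsq j
        rw [← hj] at h3
        have e : (g * (c₀ : X) * g⁻¹) ^ 2 = g * (c₀ : X) ^ 2 * g⁻¹ := by simp [sq, mul_assoc]
        rw [e] at h3
        have h4 : (c₀ : X) ^ 2 = g⁻¹ * (g * (c₀ : X) ^ 2 * g⁻¹) * g := by group
        rw [h4, h3]
        group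
      have hgQ₀ : g ∈ Subgroup.normalizer (Q₀ : Set X) := by
        apply Cfsg.Agent.Lib.TwoGroups.QD.mem_normalizer_of_conj_mem
        intro x hx
        obtain ⟨k, rfl⟩ := hpow x hx
        have e : g * (c₀ : X) ^ k * g⁻¹ = (g * c₀ * g⁻¹) ^ k := by
          rw [conj_zpow]
        rw [e]
        exact Q₀.zpow_mem hgc₀ k
      have hgC : g ∈ Subgroup.centralizer (Q₀ : Set X) :=
        cyclic_normalizer hQ₀cyc (S.isPGroup'.to_le (inf_le_left.trans hQS)) hgQ₀ hodd
      rw [Cfsg.Agent.Lib.Transfer.Frobenius.mem_centralizer_iff'] at hgC ⊢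
      intro x hx
      by_cases hxA : x ∈ A
      · exact hgC x ⟨hx, hxA⟩
      · obtain ⟨j, hj⟩ := hSrot x (hQS hx) hxA
        have hy : g * x * g⁻¹ ∈ Q := (Subgroup.mem_normalizer_iff.1 hgN _).1 hx
        have hyA : g * x * g⁻¹ ∉ A := by
          intro hyA
          have h1 : g * x * g⁻¹ ∈ Q₀ := ⟨hy, hyA⟩
          have h2 := (Subgroup.mem_normalizer_iff.1 hgQ₀ x).2 h1
          exact hxA h2.2
        obtain ⟨j', hj'⟩ := hSrot _ (hQS hy) hyA
        set d := x⁻¹ * (g * x * g⁻¹) with hd
        have hdQ₀ : d ∈ Q₀ := by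
          refine ⟨Q.mul_mem (Q.inv_mem hx) hy, ?_⟩
          rw [hd, hj', hj]
          exact hprod j j'
        have hgd : g * d * g⁻¹ = d := hgC d hdQ₀
        have hgx : g * x * g⁻¹ = x * d := by rw [hd]; group
        have hpowg : ∀ n : ℕ, g ^ n * x * (g ^ n)⁻¹ = x * d ^ n := by
          intro n
          induction n with
          | zero => simp
          | succ n ih =>
            have e : g ^ (n + 1) * x * (g ^ (n + 1))⁻¹ = g * (g ^ n * x * (g ^ n)⁻¹) * g⁻¹ := by
              rw [pow_succ']
              group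
            rw [e, ih]
            have e2 : g * (x * d ^ n) * g⁻¹ = (g * x * g⁻¹) * (g * d * g⁻¹) ^ n := by
              rw [conj_pow]
              group
            rw [e2, hgd, hgx, pow_succ', mul_assoc]
        have h1 := hpowg (orderOf g)
        rw [pow_orderOf_eq_one] at h1
        simp only [one_mul, inv_one, mul_one] at h1
        have h2 : d ^ orderOf g = 1 := by
          have : x * 1 = x * d ^ orderOf g := by rw [mul_one]; exact h1
          exact (mul_left_cancel this).symm
        have hdp := (S.isPGroup'.to_le (inf_le_left.trans hQS : Q₀ ≤ (S : Subgroup X)))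
        obtain ⟨a, ha⟩ := (IsPGroup.iff_orderOf.1 hdp) ⟨d, hdQ₀⟩
        have ha' : orderOf d = 2 ^ a := by
          rw [← ha]
          exact (Subgroup.orderOf_coe ⟨d, hdQ₀⟩)
        have h3 : orderOf d = 1 := by
          have h4 := orderOf_dvd_of_pow_eq_one h2
          have h5 : Nat.Coprime (orderOf d) 2 := Nat.Coprime.coprime_dvd_left h4 hodd
          rw [ha'] at h5 ⊢
          cases a with
          | zero => simp
          | succ a =>
            exfalso
            have h6 : 2 ∣ 2 ^ (a + 1) := ⟨2 ^ a, by ring⟩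
            have h7 := Nat.Coprime.eq_one_of_dvd h5.symm h6
            omega
        have h8 : d = 1 := orderOf_eq_one_iff.1 h3
        rw [hgx, h8, mul_one]
    · -- small rotation part
      push Not at hc
      have hrot : ∀ a : ZMod m, ι (r a) ∈ Q → a = 0 ∨ a = h := by
        intro a ha
        have h1 := hc _ ha ((hAmem _).2 ⟨a, rfl⟩)
        have h2 : (r a : DihedralGroup m) ^ 2 = 1 := by
          apply hιinj
          rw [map_pow, h1, map_one]
        have h3 : 2 * a = 0 := by
          rw [sq, r_mul_r, ← two_mul] at h2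
          exact r.inj (h2.trans r_zero.symm)
        exact Cfsg.Agent.Lib.TwoFusion.Dih.two_mul_eq_zero h3 h2h hh0
      have hrefl : ∀ j, ι (sr j) ∈ Q → ι (r (j - i)) ∈ Q := by
        intro j hj
        have h1 := Q.mul_mem hj (hsQ)
        rw [← map_mul, sr_mul_sr] at h1
        have h2 := Q.inv_mem h1
        rw [← map_inv, inv_r, neg_sub] at h2
        exact h2
      by_cases hzQ : ι (r h) ∈ Q
      · -- Klein
        have hQeq : Q = (kl hev i).map ι := by
          apply le_antisymm
          · intro x hx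
            obtain ⟨y, rfl⟩ := exists_iota _ eS (hQS hx)
            refine ⟨y, ?_, rfl⟩
            cases y with
            | r a =>
              rcases hrot a hx with rfl | rfl
              · exact Or.inl rfl
              · exact Or.inr (Or.inl rfl)
            | sr j =>
              rcases hrot _ (hrefl j hx) with h1 | h1
              · rw [sub_eq_zero] at h1
                rw [h1]
                exact Or.inr (Or.inr (Or.inl rfl))
              · have h2 : j = i + h := by rw [← h1]; ring
                rw [h2]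
                exact Or.inr (Or.inr (Or.inr rfl))
          · rintro _ ⟨y, hy, rfl⟩
            rcases hy with rfl | rfl | rfl | rfl
            · rw [r_zero, map_one]
              exact Q.one_mem
            · exact hzQ
            · exact hsQ
            · have := Q.mul_mem hsQ hzQ
              rwa [← map_mul, sr_mul_r] at this
        have hK : IsKleinFour Q := by
          rw [hQeq]
          exact Cfsg.Agent.Lib.TwoFusion.Dih.isKleinFour_map (isKleinFour_kl hev hm i) ι hιinj
        exact sup_case S.isPGroup' (hloc Q hQS hK) hgN hodd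
      · -- order two
        have hQeq : Q = Subgroup.zpowers (ι (sr i)) := by
          apply le_antisymm
          · intro x hx
            obtain ⟨y, rfl⟩ := exists_iota _ eS (hQS hx)
            cases y with
            | r a =>
              rcases hrot a hx with rfl | rfl
              · rw [r_zero, map_one]
                exact Subgroup.one_mem _
              · exact absurd hx hzQ
            | sr j =>
              rcases hrot _ (hrefl j hx) with h1 | h1
              · rw [sub_eq_zero] at h1
                rw [h1]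
                exact Subgroup.mem_zpowers _
              · have h2 := hrefl j hx
                rw [h1] at h2
                exact absurd h2 hzQ
          · rw [Subgroup.zpowers_le]
            exact hsQ
        have hc' : IsCyclic Q := by
          rw [hQeq]
          infer_instance
        exact cyclic_normalizer hc' (S.isPGroup'.to_le hQS) hgN hodd

end Cfsg.Agent.S1254
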