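import Cfsg.Statements.S4025
import Cfsg.Agent.Lib.EqConj.Red

set_option autoImplicit false
open Cfsg

namespace Cfsg.Agent.S4025

/-- Let p be a prime and G a finite group in which any two p-subgroups of the same order are conjugate, and suppose a Sylow p-subgroup P of G is elementary abelian of order pⁿ with n ≥ 3. Let N be the normalizer of P and K the largest normal subgroup of N of order prime to p, and assume N/K is solvable. Then either n = 3 and N/K embeds in the one-dimensional semi-affine group over the field with p³ elements (and for p = 2 it is isomorphic to the affine or the semi-affine group over the field with 8 elements), or n = 5, p = 2 and N/K is isomorphic to the one-dimensional semi-affine group over the field with 32 elements. -/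
theorem result {G : Type*} [Group G] [Finite G]
    {p : ℕ} [Fact p.Prime] (hC : ∀ H K : Subgroup G, IsPGroup p H → IsPGroup p K → Nat.card H = Nat.card K →
      ∃ g : G, K = H.map (MulAut.conj g).toMonoidHom) (P : Sylow p G) (n : ℕ) (hn : 3 ≤ n)
    (hel : Cfsg.IsElementaryAbelian p (P : Subgroup G)) (hcard : Nat.card P = p ^ n)
    (N : Subgroup G) (hN : N = Subgroup.normalizer ((P : Subgroup G) : Set G))
    (hsolv : Group.IsSolvable (↥N ⧸ Cfsg.pPrimeCore p ↥N)) :
    (n = 3 ∧ (∃ f : ↥N ⧸ Cfsg.pPrimeCore p ↥N →* ↥(Cfsg.semiaffineGroup (GaloisField p 3)), Function.Injective f) ∧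
      (p = 2 → Nonempty (↥N ⧸ Cfsg.pPrimeCore p ↥N ≃* Cfsg.semiaffineGroup (GaloisField 2 3)) ∨
               Nonempty (↥N ⧸ Cfsg.pPrimeCore p ↥N ≃* Cfsg.affineGroup (GaloisField 2 3)))) ∨
    (n = 5 ∧ p = 2 ∧ Nonempty (↥N ⧸ Cfsg.pPrimeCore p ↥N ≃* Cfsg.semiaffineGroup (GaloisField 2 5))) := by
  exact Cfsg.Agent.Lib.EqConj.Red.reduct_G hC P n hn hel hcard N hN hsolv

end Cfsg.Agent.S4025
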