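import Cfsg.Statements.S4020
import Cfsg.Agent.Lib.PConj.Main

set_option autoImplicit false
open Cfsg

namespace Cfsg.Agent.S4020

open Cfsg.Agent.Lib.PConj.Basic Cfsg.Agent.Lib.PConj.Main

/-- Let G be a finite group in which, for every prime p, any two p-subgroups of the same order are conjugate. Then every Sylow subgroup of G is cyclic, elementary abelian, or a quaternion group of order 8. -/
theorem result {G : Type*} [Group G] [Finite G]
    (hD : ∀ p : ℕ, p.Prime → ∀ H K : Subgroup G, IsPGroup p H → IsPGroup p K → Nat.card H = Nat.card K →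
      ∃ g : G, K = H.map (MulAut.conj g).toMonoidHom) {p : ℕ} [Fact p.Prime] (P : Sylow p G) :
    IsCyclic P ∨ Cfsg.IsElementaryAbelian p (P : Subgroup G) ∨ Nonempty ((P : Subgroup G) ≃* QuaternionGroup 2) := by
  have hp' : p.Prime := Fact.out
  have h1 : HD p G := hD p hp'
  have h2 : HD 2 G := hD 2 Nat.prime_two
  rcases tri h1 P with h3 | ⟨_, e⟩ | h3
  · exact Or.inl h3
  · exact Or.inr (Or.inr e)
  · exact Or.inr (Or.inl ⟨exp_comm h1 h2 P h3, h3⟩)

end Cfsg.Agent.S4020
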