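import Cfsg.Statements.S0824
import Cfsg.Agent.S0288
import Cfsg.Agent.Lib.PermRepO.Basic
import Cfsg.Agent.Lib.PermRepO.Transfer

set_option autoImplicit false

open Cfsg

namespace Cfsg.Agent.S0824

open Cfsg.Agent.Lib.PermRepO.Transfer Cfsg.Agent.Lib.PermRepO.Basic

abbrev I4 := (Fin 1 ⊕ Fin 1) ⊕ Fin 2

abbrev Z2 := ZMod 2

/-- coordinates of the embedding -/
def embFun (x : I4 → Z2) : Fin 5 → Z2 :=
  ![x (.inl (.inl 0)),
    x (.inl (.inl 0)) + x (.inl (.inr 0)) + x (.inr 0),
    x (.inl (.inl 0)) + x (.inl (.inr 0)) + x (.inr 0) + x (.inr 1),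
    x (.inl (.inl 0)) + x (.inl (.inr 0)) + x (.inr 1),
    x (.inl (.inr 0))]

/-- The basis of the even vectors. -/
def emb : (I4 → Z2) →ₗ[Z2] (Fin 5 → Z2) where
  toFun := embFun
  map_add' x y := by
    funext i
    fin_cases i <;> simp [embFun] <;> ring
  map_smul' c x := by
    funext i
    fin_cases i <;> simp [embFun] <;> ring

/-- The coordinates of an even vector. -/
def proj : (Fin 5 → Z2) →ₗ[Z2] (I4 → Z2) where
  toFun v := Sum.elim (Sum.elim (fun _ => v 0) (fun _ => v 4)) ![v 1 + v 0 + v 4, v 3 + v 0 + v 4]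
  map_add' x y := by
    funext i
    rcases i with (i | i) | i
    · rfl
    · rfl
    · fin_cases i <;> simp <;> ring
  map_smul' c x := by
    funext i
    rcases i with (i | i) | i
    · rfl
    · rfl
    · fin_cases i <;> simp <;> ring

/-- Half the weight modulo two. -/
def QX (v : Fin 5 → Z2) : Z2 := (((∑ i, (v i).val) / 2 : ℕ) : Z2)

theorem QX_P (σ : Equiv.Perm (Fin 5)) (v : Fin 5 → Z2) : QX (P σ v) = QX v := by
  unfold QX
  congr 2
  exact Equiv.sum_comp σ⁻¹ (fun i => (v i).val)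

theorem QX_emb_aux : ∀ a b c d : Z2, QX ![a, a + b + c, a + b + c + d, a + b + d, b] =
    a * b + (c ^ 2 + 1 * c * d + 1 * d ^ 2) := by
  decide

theorem QX_emb (x : I4 → Z2) : QX (emb x) = quadFormMinus 1 Z2 1 1 x := by
  have := QX_emb_aux (x (.inl (.inl 0))) (x (.inl (.inr 0))) (x (.inr 0)) (x (.inr 1))
  simpa [quadFormMinus, emb, embFun] using this

theorem emb_proj_aux : ∀ a b c d e : Z2, a + b + c + d + e = 0 →
    ![a, a + e + (b + a + e), a + e + (b + a + e) + (d + a + e), a + e + (d + a + e), e] = ![a, b, c, d, e] := by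
  decide

theorem emb_proj (v : Fin 5 → Z2) (hv : sumL v = 0) : emb (proj v) = v := by
  have h1 : v 0 + v 1 + v 2 + v 3 + v 4 = 0 := by
    rw [sumL_apply, Fin.sum_univ_five] at hv
    exact hv
  have h2 := emb_proj_aux _ _ _ _ _ h1
  have h3 : v = ![v 0, v 1, v 2, v 3, v 4] := by
    funext i
    fin_cases i <;> rfl
  conv_rhs => rw [h3, ← h2]
  funext i
  fin_cases i <;> rfl

theorem proj_emb (x : I4 → Z2) : proj (emb x) = x := by
  have h : ∀ a b c d : Z2, a + b + c + a + b = c ∧ a + b + d + a + b = d := by decide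
  funext i
  rcases i with (i | i) | i
  · fin_cases i
    rfl
  · fin_cases i
    rfl
  · fin_cases i
    · exact (h _ _ _ 0).1
    · exact (h _ _ 0 _).2

theorem sum_emb (x : I4 → Z2) : sumL (emb x) = 0 := by
  have h : ∀ a b c d : Z2, a + (a + b + c) + (a + b + c + d) + (a + b + d) + b = 0 := by decide
  rw [sumL_apply, Fin.sum_univ_five]
  exact h _ _ _ _

theorem exists_f : ∃ f : Equiv.Perm (Fin 5) →* isometryGroup Z2 (quadFormMinus 1 Z2 1 1), Function.Injective f := by
  obtain ⟨f, hf, -⟩ := exists_hom (K := Z2) (G := Equiv.Perm (Fin 5)) permRep emb proj (LinearMap.ker sumL) ⊥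
    sum_emb
    (fun σ v hv => by
      rw [LinearMap.mem_ker] at hv ⊢
      rw [permRep_apply, sumL_P, hv])
    proj_emb
    (fun v hv => by
      rw [LinearMap.mem_ker] at hv
      rw [emb_proj v hv, sub_self]
      exact Submodule.zero_mem _)
    (fun σ l hl => by
      rw [Submodule.mem_bot] at hl ⊢
      rw [hl, map_zero])
    (fun l hl => by
      rw [Submodule.mem_bot] at hl
      rw [hl, map_zero])
    (quadFormMinus 1 Z2 1 1) QX QX_emb
    (fun σ v => QX_P σ v)
    (fun v _ l hl => by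
      rw [Submodule.mem_bot] at hl
      rw [hl, add_zero])
    (fun σ h => eq_one_of_scalar (by norm_num) σ (1 : Z2) (fun v hv => by
      have := h v hv
      rw [Submodule.mem_bot, sub_eq_zero] at this
      rw [one_smul]
      exact this))
  exact ⟨f, hf⟩

theorem result {F : Type*} [Field F] [Fintype F] (hF : Fintype.card F = 2) : Nonempty (↥(Cfsg.isometryGroup F (Cfsg.quadFormMinus 1 F 1 1)) ≃* Equiv.Perm (Fin 5)) := by
  classical
  have e : ZMod 2 ≃+* F := ZMod.ringEquivOfPrime F Nat.prime_two hF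
  obtain ⟨φ, hφ⟩ := exists_f
  have hc : Nat.card (isometryGroup Z2 (quadFormMinus 1 Z2 1 1)) = Nat.card (Equiv.Perm (Fin 5)) := by
    have h1 := Cfsg.Agent.S0288.result (F := Z2) (q := 2) (ZMod.card 2) 2 (by norm_num) 1 1 (by decide)
    have h3 : Nat.card (Equiv.Perm (Fin 5)) = 120 := by
      simp [Nat.card_eq_fintype_card, Fintype.card_perm, Nat.factorial]
    rw [h3]
    exact h1
  have hb : Function.Bijective φ :=
    (Nat.bijective_iff_injective_and_card φ).mpr ⟨hφ, hc.symm⟩
  have E := isoCongr e.symm (quadFormMinus 1 F 1 1) (quadFormMinus 1 (ZMod 2) 1 1) (by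
    intro v
    simp [quadFormMinus, mapV, map_sum, map_mul])
  exact ⟨E.trans (MulEquiv.ofBijective φ hb).symm⟩

end Cfsg.Agent.S0824
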