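import Cfsg.Statements.S3313
import Cfsg.Agent.Lib.HJOrder.Tside
import Cfsg.Agent.Lib.LargeExtra.FStar

set_option autoImplicit false
set_option linter.unusedSectionVars false
set_option linter.unusedVariables false
set_option linter.style.longLine false
open Cfsg

namespace Cfsg.Agent.S3313

open Subgroup Cfsg.Agent.Lib.HJOrder.Local Cfsg.Agent.Lib.HJOrder.Zside
  Cfsg.Agent.Lib.PGroups.Special
open scoped commutatorElement

section Transport

variable {P P' : Type*} [Group P] [Group P'] [Finite P]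

theorem map_mem_center (f : P ≃* P') {x : P} (hx : x ∈ center P) : f x ∈ center P' := by
  rw [Subgroup.mem_center_iff] at hx ⊢
  intro y
  have h := hx (f.symm y)
  have h2 := congrArg f h
  simpa using h2

theorem isExtraspecial_of_equiv (f : P ≃* P') (h : IsExtraspecial 2 P) : IsExtraspecial 2 P' := by
  have : Finite P' := Finite.of_equiv P f.toEquiv
  have := Fact.mk Nat.prime_two
  have hL := extraLike_of_isExtraspecial h
  have hL' : ExtraLike 2 P' := by
    refine ⟨hL.isPGroup.of_equiv f, ?_, ?_, ?_⟩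
    · rw [← hL.card_center]
      exact Nat.card_congr (Subgroup.centerCongr f).symm.toEquiv
    · intro x y
      have h1 := map_mem_center f (hL.comm_mem (f.symm x) (f.symm y))
      simpa [commutatorElement_def] using h1
    · intro x
      have h1 := map_mem_center f (hL.pow_mem (f.symm x))
      simpa using h1
  apply hL'.isExtraspecial
  intro hc
  apply not_isMulCommutative_of_isExtraspecial h
  refine ⟨⟨fun a b => ?_⟩⟩
  apply f.injective
  rw [map_mul, map_mul]
  exact hc.is_comm.comm _ _

end Transport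

/-- From the extraspecial hypothesis to the data on `Q`. -/
theorem qdata {G : Type*} [Group G] [Finite G] {z : G} (hz : orderOf z = 2)
    (hex : Cfsg.IsExtraspecial 2 ↥(Cfsg.generalizedFittingSubgroup ↥(Subgroup.centralizer ({z} : Set G))))
    (hQ : Nat.card ↥(Cfsg.pCore 2 ↥(Subgroup.centralizer ({z} : Set G))) = 32) :
    QData ((Cfsg.pCore 2 ↥(Subgroup.centralizer ({z} : Set G))).map (Subgroup.centralizer ({z} : Set G)).subtype) z := by
  classical
  have hF2 : Fact (Nat.Prime 2) := ⟨Nat.prime_two⟩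
  set C := Subgroup.centralizer ({z} : Set G) with hC
  have hFeq : Cfsg.generalizedFittingSubgroup ↥C = Cfsg.pCore 2 ↥C := by
    apply le_antisymm
    · exact le_sSup ⟨Cfsg.Agent.Lib.Components.Basic.generalizedFitting_normal, hex.1.1⟩
    · exact (Cfsg.Agent.Lib.Core.Basic.pCore_le_fittingSubgroup 2).trans
        Cfsg.Agent.Lib.Components.Basic.fitting_le_generalizedFitting
  set Q := (Cfsg.pCore 2 ↥C).map C.subtype with hQdef
  have hQex : Cfsg.IsExtraspecial 2 ↥Q := by
    rw [hFeq] at hex
    exact isExtraspecial_of_equiv ((Cfsg.pCore 2 ↥C).equivMapOfInjective C.subtype C.subtype_injective) hex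
  have hF : (Cfsg.generalizedFittingSubgroup ↥C).map C.subtype = Q := by rw [hFeq]
  obtain ⟨hZ, hcent, -⟩ := Cfsg.Agent.Lib.LargeExtra.FStar.fstar_facts hz hF hQex
  have hzz : z ^ 2 = 1 := by rw [← hz]; exact pow_orderOf_eq_one z
  have hz1 : z ≠ 1 := by
    rintro rfl
    simp at hz
  have hzp : ∀ x, x ∈ zpowers z → x = 1 ∨ x = z := by
    intro x hx
    have h2 : Nat.card (zpowers z) = 2 := by rw [Nat.card_zpowers, hz]
    exact Cfsg.Agent.Lib.HJOrder.Basic.eq_of_card_two _ h2 hz1 (mem_zpowers z) hx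
  have hcen : ∀ x : ↥Q, x ∈ center ↥Q → (x : G) = 1 ∨ (x : G) = z := by
    intro x hx
    apply hzp
    rw [← hZ]
    exact ⟨x, hx, rfl⟩
  have hQC : Q ≤ C := by
    rintro _ ⟨a, -, rfl⟩
    exact a.2
  have hzQ : z ∈ (center ↥Q).map Q.subtype := by
    rw [hZ]; exact mem_zpowers z
  have hzQ' : z ∈ Q := by
    obtain ⟨a, -, ha⟩ := hzQ
    rw [← ha]
    exact a.2
  have hL := extraLike_of_isExtraspecial hQex
  refine ⟨hzQ', hzz, hz1, ?_, ?_, ?_, ?_, ?_⟩
  · intro x hx
    have := hQC hx
    rw [hC, Subgroup.mem_centralizer_iff] at this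
    exact (this z rfl).symm
  · intro x hx
    exact hcen _ (hL.pow_mem ⟨x, hx⟩)
  · intro x hx y hy
    exact hcen _ (hL.comm_mem ⟨x, hx⟩ ⟨y, hy⟩)
  · intro g hg
    apply hzp
    rw [← hZ, ← hcent, Subgroup.mem_centralizer_iff]
    intro h hh
    exact (hg h hh).symm
  · rw [hQdef, Subgroup.card_map_of_injective C.subtype_injective]
    exact hQ

/-- The order of a simple group with the involution pattern of the Hall–Janko group. Let G be a non-abelian finite simple group with exactly two conjugacy classes of involutions, represented by z and t, such that: F*(C_G(z)) is an extraspecial 2-group; Q = O₂(C_G(z)) has order 32 and C_G(z) is the semidirect product of Q by a subgroup isomorphic to A₅; every involution of Q is conjugate to z and every other involution of C_G(z) is conjugate to t; C_G(t) is an internal direct product V × B with V a four-group containing t and B ≅ A₅; every involution of B is conjugate to z and every other involution of C_G(t) is conjugate to t. Then |G| = 604800. -/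
theorem result {G : Type*} [Group G] [Finite G]
    [IsSimpleGroup G] (hna : ¬ IsMulCommutative G) (z t : G) (hz : orderOf z = 2) (ht : orderOf t = 2)
    (hzt : ¬ IsConj z t) (hcl : ∀ x : G, orderOf x = 2 → IsConj x z ∨ IsConj x t)
    (hex : Cfsg.IsExtraspecial 2 ↥(Cfsg.generalizedFittingSubgroup ↥(Subgroup.centralizer ({z} : Set G))))
    (hQ : Nat.card ↥(Cfsg.pCore 2 ↥(Subgroup.centralizer ({z} : Set G))) = 32)
    (K : Subgroup G) (hK : Nonempty (↥K ≃* alternatingGroup (Fin 5)))
    (hKC : K ⊔ (Cfsg.pCore 2 ↥(Subgroup.centralizer ({z} : Set G))).map (Subgroup.centralizer ({z} : Set G)).subtype = Subgroup.centralizer ({z} : Set G))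
    (hKQ : K ⊓ (Cfsg.pCore 2 ↥(Subgroup.centralizer ({z} : Set G))).map (Subgroup.centralizer ({z} : Set G)).subtype = ⊥)
    (hQz : ∀ x ∈ (Cfsg.pCore 2 ↥(Subgroup.centralizer ({z} : Set G))).map (Subgroup.centralizer ({z} : Set G)).subtype, orderOf x = 2 → IsConj x z)
    (hCz : ∀ x ∈ Subgroup.centralizer ({z} : Set G), orderOf x = 2 →
      x ∉ (Cfsg.pCore 2 ↥(Subgroup.centralizer ({z} : Set G))).map (Subgroup.centralizer ({z} : Set G)).subtype → IsConj x t)
    (V B : Subgroup G) (hVB : Cfsg.IsInternalDirectProduct V B (Subgroup.centralizer ({t} : Set G)))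
    (hV : Nat.card ↥V = 4) (hV2 : ∀ v ∈ V, v ^ 2 = 1) (htV : t ∈ V) (hB : Nonempty (↥B ≃* alternatingGroup (Fin 5)))
    (hBz : ∀ x ∈ B, orderOf x = 2 → IsConj x z)
    (hCt : ∀ x ∈ Subgroup.centralizer ({t} : Set G), orderOf x = 2 → x ∉ B → IsConj x t) :
    Nat.card G = 604800 := by
  classical
  have hq := qdata hz hex hQ
  set C := Subgroup.centralizer ({z} : Set G) with hC
  set Q := (Cfsg.pCore 2 ↥C).map C.subtype with hQdef
  have hmemC : ∀ x, x ∈ C ↔ x * z = z * x := by
    intro x
    rw [hC, Subgroup.mem_centralizer_iff]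
    simp only [Set.mem_singleton_iff, forall_eq]
    exact eq_comm
  have hKle : K ≤ C := by
    rw [← hKC]; exact le_sup_left
  have hn : ∀ g : G, g * z = z * g → ∀ x ∈ Q, g * x * g⁻¹ ∈ Q := by
    intro g hg x hx
    obtain ⟨x', hx', rfl⟩ := hx
    have hgC : g ∈ C := (hmemC g).2 hg
    exact ⟨_, (Cfsg.pCore_normal 2 ↥C).conj_mem x' hx' ⟨g, hgC⟩, rfl⟩
  have hkn : ∀ k ∈ K, ∀ a ∈ Q, k * a * k⁻¹ ∈ Q := by
    intro k hk
    exact hn k ((hmemC k).1 (hKle hk))
  have hd : CData Q K z :=
    { q := hq
      n := hn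
      dec := by
        intro g hg
        have hgC : g ∈ C := (hmemC g).2 hg
        rw [← hKC, sup_comm] at hgC
        exact exists_mul_of_sup hkn hgC
      kz := fun k hk => (hmemC k).1 (hKle hk)
      kq := by
        intro k hk hkQ
        have : k ∈ K ⊓ Q := ⟨hk, hkQ⟩
        rwa [hKQ, mem_bot] at this
      a5 := hK }
  have h1 := hd.card_pairs ht hzt hQz (fun x hx => hCz x ((hmemC x).2 hx))
  have h2 := Cfsg.Agent.Lib.HJOrder.Tside.card_pairs V B hz ht hzt hVB hV2 htV hB hBz hCt
  have hf := Cfsg.Agent.Lib.Involutions.Thompson.order_formula_two_classes z t hz ht hzt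
    (fun x hx => (hcl x hx).imp IsConj.symm IsConj.symm)
  have hKc : Nat.card K = 60 := by
    obtain ⟨e⟩ := hK
    rw [Nat.card_congr e.toEquiv]
    exact Cfsg.Agent.Lib.HJOrder.A5.a5_card
  have hBc : Nat.card B = 60 := by
    obtain ⟨e⟩ := hB
    rw [Nat.card_congr e.toEquiv]
    exact Cfsg.Agent.Lib.HJOrder.A5.a5_card
  have hCz' : Nat.card C = 1920 := by
    have h3 := card_sup_of_inf hkn (by rw [inf_comm]; exact hKQ)
    rw [sup_comm, hKC, hKc, hq.card] at h3
    rw [h3]
  have hCt' : Nat.card (Subgroup.centralizer ({t} : Set G)) = 240 := by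
    obtain ⟨hVC, hBC, hcomm, hinf, hsup⟩ := hVB
    have hvn : ∀ b ∈ B, ∀ a ∈ V, b * a * b⁻¹ ∈ V := by
      intro b hb a ha
      rw [← hcomm a ha b hb, mul_assoc, mul_inv_cancel, mul_one]
      exact ha
    have h3 := card_sup_of_inf hvn hinf
    rw [hsup, hV, hBc] at h3
    rw [h3]
  rw [hf, h1, h2, hCt', hCz']

end Cfsg.Agent.S3313
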