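import Cfsg.Statements.S0685
import Cfsg.Agent.S0684

set_option autoImplicit false
open Cfsg

namespace Cfsg.Agent.S0685

open Cfsg.Agent.Lib.PermMod.RegLin

/-- In a linear group over the prime field that is regular on non-zero vectors and has no irreducible cyclic normal subgroup, a maximal normal abelian subgroup is properly contained in its centraliser, which is non-abelian. -/
theorem result {p : ℕ} [Fact p.Prime] {V : Type*} [AddCommGroup V] [Module (ZMod p) V] [Finite V] (H : Subgroup (V ≃ₗ[ZMod p] V)) (hreg : ∀ v w : V, v ≠ 0 → w ≠ 0 → ∃! h : H, (h : V ≃ₗ[ZMod p] V) v = w) (hI : ∀ A : Subgroup H, A.Normal → IsCyclic A → ∃ W : Submodule (ZMod p) V, W ≠ ⊥ ∧ W ≠ ⊤ ∧ ∀ a ∈ A, ∀ v ∈ W, ((a : H) : V ≃ₗ[ZMod p] V) v ∈ W) (A : Subgroup H) (hAn : A.Normal) (hAc : IsMulCommutative A) (hAmax : ∀ B : Subgroup H, B.Normal → IsMulCommutative B → A ≤ B → B = A) : A < Subgroup.centralizer (A : Set H) ∧ ¬ IsMulCommutative (Subgroup.centralizer (A : Set H)) := by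
  classical
  have hreg' : Reg H := hreg
  have hAle : A ≤ Subgroup.centralizer (A : Set H) := by
    intro a ha
    rw [Subgroup.mem_centralizer_iff]
    intro b hb
    have := hAc.is_comm.comm (⟨b, hb⟩ : A) ⟨a, ha⟩
    exact congrArg Subtype.val this
  suffices hnc : ¬ IsMulCommutative (Subgroup.centralizer (A : Set H)) by
    refine ⟨lt_of_le_of_ne hAle ?_, hnc⟩
    intro h
    apply hnc
    rw [← h]
    exact hAc
  intro hCc
  haveI := hAn
  have hCA : Subgroup.centralizer (A : Set H) = A := hAmax _ inferInstance hCc hAle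
  obtain ⟨hcyc, W, hW1, hW2, hW3, hW4, hW5⟩ := Cfsg.Agent.S0684.result H hreg hI A hAn hAc hAmax
  haveI : Finite H := Finite.of_injective (fun h : H => (fun v => (h : V ≃ₗ[ZMod p] V) v))
    (fun a b hab => Subtype.ext (LinearEquiv.ext (fun v => congrFun hab v)))
  haveI : Module.Finite (ZMod p) V := Module.Finite.of_finite
  -- a second subspace
  obtain ⟨w, hwW, hw0⟩ := Submodule.exists_mem_ne_zero_of_ne_bot hW1
  obtain ⟨v, hv⟩ : ∃ v, v ∉ W := by
    by_contra hcon
    push_neg at hcon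
    exact hW2 (eq_top_iff.mpr fun x _ => hcon x)
  have hv0 : v ≠ 0 := fun h => hv (h ▸ W.zero_mem)
  obtain ⟨h, hh, -⟩ := hreg w v hw0 hv0
  let W' := W.map ((h : V ≃ₗ[ZMod p] V) : V →ₗ[ZMod p] V)
  have hW'inv : Inv A W' := by
    rintro a ha _ ⟨y, hy, rfl⟩
    let a' : H := h⁻¹ * a * h
    have ha' : a' ∈ A := by
      have := hAn.conj_mem a ha h⁻¹
      simpa [a'] using this
    refine ⟨((a' : H) : V ≃ₗ[ZMod p] V) y, hW3 a' ha' y hy, ?_⟩
    have h1 : h * a' = a * h := by simp [a', mul_assoc]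
    have h2 := congrArg (fun g : H => (g : V ≃ₗ[ZMod p] V) y) h1
    exact h2
  have hinter : W ⊓ W' = ⊥ := by
    have hinv : Inv A (W ⊓ W') := fun a ha x hx => ⟨hW3 a ha x hx.1, hW'inv a ha x hx.2⟩
    rcases hW4 _ inf_le_left hinv with h1 | h1
    · exact h1
    · exfalso
      have hle : W ≤ W' := inf_eq_left.mp h1
      have hfin : Module.finrank (ZMod p) W' = Module.finrank (ZMod p) W :=
        LinearEquiv.finrank_map_eq _ W
      have heq : W = W' := Submodule.eq_of_le_of_finrank_eq hle hfin.symm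
      apply hv
      rw [heq, ← hh]
      exact ⟨w, hwW, rfl⟩
  have hfin : 2 * Module.finrank (ZMod p) W ≤ Module.finrank (ZMod p) V := by
    have h1 := Submodule.finrank_add_finrank_le_of_disjoint (disjoint_iff.mpr hinter)
    have h2 : Module.finrank (ZMod p) W' = Module.finrank (ZMod p) W :=
      LinearEquiv.finrank_map_eq _ W
    omega
  -- counting
  have hcardH : Nat.card H = p ^ Module.finrank (ZMod p) V - 1 := by
    have hbij : Function.Bijective (fun g : H => (⟨(g : V ≃ₗ[ZMod p] V) w,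
        fun h0 => hw0 ((map_eq_zero_iff _ (LinearEquiv.injective _)).mp h0)⟩ : {x : V // x ≠ 0})) := by
      constructor
      · intro a b hab
        have h1 : (a : V ≃ₗ[ZMod p] V) w = (b : V ≃ₗ[ZMod p] V) w := congrArg Subtype.val hab
        obtain ⟨c, -, hc⟩ := hreg w _ hw0 (fun h0 => hw0 ((map_eq_zero_iff _ (LinearEquiv.injective _)).mp h0) : (b : V ≃ₗ[ZMod p] V) w ≠ 0)
        rw [hc a h1, hc b rfl]
      · rintro ⟨x, hx⟩
        obtain ⟨c, hc, -⟩ := hreg w x hw0 hx
        exact ⟨c, Subtype.ext hc⟩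
    rw [Nat.card_congr (Equiv.ofBijective _ hbij), card_ne_zero,
      Module.natCard_eq_pow_finrank (K := ZMod p), Nat.card_zmod]
  have hkle : Nat.card H ≤ Nat.card A * Nat.card A := by
    let f : H →* MulAut A := MulAut.conjNormal
    have hker : f.ker ≤ A := by
      intro x hx
      rw [← hCA, Subgroup.mem_centralizer_iff]
      intro a ha
      have h1 : f x = 1 := hx
      have h2 := MulAut.conjNormal_apply (H := A) x ⟨a, ha⟩
      change (((f x) ⟨a, ha⟩ : A) : H) = _ at h2
      rw [h1] at h2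
      have h3 : a = x * a * x⁻¹ := h2
      rw [eq_mul_inv_iff_mul_eq] at h3
      exact h3
    have h1 : Nat.card f.ker ≤ Nat.card A := Subgroup.card_le_of_le hker
    have h2 : f.ker.index ≤ Nat.card A := by
      rw [Subgroup.index_ker]
      have h3 : Nat.card f.range ≤ Nat.card (MulAut A) := Subgroup.card_le_card_group f.range
      rw [IsCyclic.card_mulAut A] at h3
      exact h3.trans (Nat.totient_le _)
    calc Nat.card H = Nat.card f.ker * f.ker.index := (Subgroup.card_mul_index _).symm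
      _ ≤ _ := Nat.mul_le_mul h1 h2
  -- arithmetic
  have hp2 : 2 ≤ p := (Fact.out : p.Prime).two_le
  have hk1 : 1 ≤ Module.finrank (ZMod p) W := Submodule.one_le_finrank_iff.mpr hW1
  set k := Module.finrank (ZMod p) W with hk
  set n := Module.finrank (ZMod p) V with hn
  have hq2 : 2 ≤ p ^ k := by
    calc 2 ≤ p := hp2
      _ = p ^ 1 := (pow_one p).symm
      _ ≤ p ^ k := Nat.pow_le_pow_right (by omega) hk1
  have hAle' : Nat.card A ≤ p ^ k - 1 := Nat.le_of_dvd (by omega) hW5
  have hpn : p ^ k * p ^ k ≤ p ^ n := by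
    rw [← pow_add]
    exact Nat.pow_le_pow_right (by omega) (by omega)
  have h1 : p ^ n - 1 ≤ (p ^ k - 1) * (p ^ k - 1) := by
    rw [← hcardH]
    exact hkle.trans (Nat.mul_le_mul hAle' hAle')
  obtain ⟨r, hr⟩ : ∃ r, p ^ k = r + 1 := ⟨p ^ k - 1, by omega⟩
  rw [hr] at h1 hpn hq2
  simp only [Nat.add_sub_cancel] at h1
  have hr1 : 1 ≤ r := by omega
  have h2 : (r + 1) * (r + 1) - 1 ≤ p ^ n - 1 := Nat.sub_le_sub_right hpn 1
  have h3 : (r + 1) * (r + 1) - 1 = r * r + 2 * r := by
    have : (r + 1) * (r + 1) = r * r + 2 * r + 1 := by ring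
    omega
  omega

end Cfsg.Agent.S0685
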