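import Cfsg.Statements.S0688
import Cfsg.Agent.S0685
import Cfsg.Agent.Lib.PermMod.MinNormal

set_option autoImplicit false
open Cfsg

namespace Cfsg.Agent.S0688

open Subgroup MulAction
open scoped commutatorElement
open Cfsg.Agent.Lib.PermMod.RegLin Cfsg.Agent.Lib.PermMod.QuatClass
  Cfsg.Agent.Lib.PermMod.MinNormal

variable {p : ℕ} [hp : Fact p.Prime] {V : Type*} [AddCommGroup V] [Module (ZMod p) V] [Finite V]
  {H : Subgroup (V ≃ₗ[ZMod p] V)}

theorem exists_max_abelian (H : Subgroup (V ≃ₗ[ZMod p] V)) :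
    ∃ A : Subgroup H, A.Normal ∧ IsMulCommutative A ∧
      ∀ B : Subgroup H, B.Normal → IsMulCommutative B → A ≤ B → B = A := by
  classical
  haveI := finite_H H
  haveI : Finite (Subgroup H) := Finite.of_injective (fun U => (U : Set H)) SetLike.coe_injective
  let s : Set (Subgroup H) := {B | B.Normal ∧ IsMulCommutative B}
  have h0 : (⊥ : Subgroup H) ∈ s := ⟨inferInstance, inferInstance⟩
  obtain ⟨A, hA⟩ := (Set.toFinite s).exists_maximal ⟨⊥, h0⟩
  refine ⟨A, hA.1.1, hA.1.2, fun B hB hBc hle => ?_⟩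
  exact le_antisymm (hA.2 ⟨hB, hBc⟩ hle) hle

theorem exists_min_nonabelian (H : Subgroup (V ≃ₗ[ZMod p] V)) (C : Subgroup H) (hCn : C.Normal)
    (hC : ¬ IsMulCommutative C) :
    ∃ N : Subgroup H, N.Normal ∧ N ≤ C ∧ ¬ IsMulCommutative N ∧
      ∀ M : Subgroup H, M.Normal → M ≤ N → ¬ IsMulCommutative M → M = N := by
  classical
  haveI := finite_H H
  haveI : Finite (Subgroup H) := Finite.of_injective (fun U => (U : Set H)) SetLike.coe_injective
  let s : Set (Subgroup H) := {B | B.Normal ∧ B ≤ C ∧ ¬ IsMulCommutative B}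
  obtain ⟨N, hN⟩ := (Set.toFinite s).exists_minimal ⟨C, hCn, le_refl _, hC⟩
  refine ⟨N, hN.1.1, hN.1.2.1, hN.1.2.2, fun M hM hle hMc => ?_⟩
  exact le_antisymm hle (hN.2 ⟨hM, hle.trans hN.1.2.1, hMc⟩ hle)

theorem commutator_comm_of_solvable [Group.IsSolvable H] {N : Subgroup H} (hNn : N.Normal)
    (hNna : ¬ IsMulCommutative N)
    (hNmin : ∀ M : Subgroup H, M.Normal → M ≤ N → ¬ IsMulCommutative M → M = N) :
    IsMulCommutative (⁅N, N⁆ : Subgroup H) := by
  by_contra hcon
  haveI := hNn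
  have h1 : ⁅N, N⁆ = N := hNmin _ inferInstance (Subgroup.commutator_le_left N N) hcon
  have h2 : ∀ n, N ≤ derivedSeries H n := by
    intro n
    induction n with
    | zero => exact le_top
    | succ n ih =>
      rw [derivedSeries_succ, ← h1]
      exact Subgroup.commutator_mono ih ih
  obtain ⟨n, hn⟩ := (isSolvable_def H).mp inferInstance
  have h3 := h2 n
  rw [hn, le_bot_iff] at h3
  apply hNna
  rw [h3]
  infer_instance

theorem no_sq_root {p : ℕ} (hp3 : p = 3) (c : ZMod p) : c ^ 2 + 1 ≠ 0 := by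
  subst hp3
  revert c
  decide


theorem ne_two_of_two_ne_zero {p : ℕ} (h2 : (2 : ZMod p) ≠ 0) : p ≠ 2 := by
  rintro rfl
  exact h2 (by decide)

theorem q8_a2 : (QuaternionGroup.a 1 : QuaternionGroup 2) ^ 2 ≠ 1 := by decide
theorem q8_a4 : (QuaternionGroup.a 1 : QuaternionGroup 2) ^ 4 = 1 := by decide
theorem q8_x2 : (QuaternionGroup.xa 0 : QuaternionGroup 2) ^ 2 = (QuaternionGroup.a 1) ^ 2 := by decide
theorem q8_conj : (QuaternionGroup.xa 0 : QuaternionGroup 2) * (QuaternionGroup.a 1) * (QuaternionGroup.xa 0)⁻¹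
    = (QuaternionGroup.a 1)⁻¹ := by decide

/-- Degrees of the soluble exceptional sharply doubly transitive groups: if a solvable linear group over the prime field is regular on the non-zero vectors of `V` and has no irreducible cyclic normal subgroup, then `V` has 25, 49, 121 or 529 elements. -/
theorem result {p : ℕ} [Fact p.Prime] {V : Type*} [AddCommGroup V] [Module (ZMod p) V] [Finite V] (H : Subgroup (V ≃ₗ[ZMod p] V)) (hreg : ∀ v w : V, v ≠ 0 → w ≠ 0 → ∃! h : H, (h : V ≃ₗ[ZMod p] V) v = w) (hI : ∀ A : Subgroup H, A.Normal → IsCyclic A → ∃ W : Submodule (ZMod p) V, W ≠ ⊥ ∧ W ≠ ⊤ ∧ ∀ a ∈ A, ∀ v ∈ W, ((a : H) : V ≃ₗ[ZMod p] V) v ∈ W) (hsolv : Group.IsSolvable H) : Nat.card V = 25 ∨ Nat.card V = 49 ∨ Nat.card V = 121 ∨ Nat.card V = 529 := by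
  classical
  have hreg' : Reg H := hreg
  haveI := finite_H H
  haveI hsolv' : Group.IsSolvable H := hsolv
  obtain ⟨A, hAn, hAc, hAmax⟩ := exists_max_abelian H
  obtain ⟨-, hCnc⟩ := Cfsg.Agent.S0685.result H hreg hI A hAn hAc hAmax
  haveI := hAn
  obtain ⟨N, hNn, hNle, hNna, hNmin⟩ :=
    exists_min_nonabelian H (centralizer (A : Set H)) inferInstance hCnc
  haveI := nontrivial_of_not_comm hNna
  haveI := hNn
  obtain ⟨φ⟩ := quat_of_commutator_comm hreg' hAn hAc hAmax hNn hNle hNna hNmin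
    (commutator_comm_of_solvable hNn hNna hNmin)
  -- elements
  let ψ : QuaternionGroup 2 →* H := N.subtype.comp φ.toMonoidHom
  have hψ : Function.Injective ψ := N.subtype_injective.comp φ.injective
  let a₀ : H := ψ (QuaternionGroup.a 1)
  let x₀ : H := ψ (QuaternionGroup.xa 0)
  have ha2 : a₀ ^ 2 ≠ 1 := by
    intro h
    apply q8_a2
    apply hψ
    rw [map_pow, map_one]
    exact h
  have ha4 : a₀ ^ 4 = 1 := by
    change ψ _ ^ 4 = 1
    rw [← map_pow, q8_a4, map_one]
  have hx2 : x₀ ^ 2 = a₀ ^ 2 := by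
    change ψ _ ^ 2 = ψ _ ^ 2
    rw [← map_pow, q8_x2, map_pow]
  have hconj : x₀ * a₀ * x₀⁻¹ = a₀⁻¹ := by
    change ψ _ * ψ _ * (ψ _)⁻¹ = (ψ _)⁻¹
    rw [← map_inv, ← map_mul, ← map_mul, q8_conj, map_inv]
  have ha₀N : a₀ ∈ N := (φ _).2
  have hx₀N : x₀ ∈ N := (φ _).2
  obtain ⟨T, hT, hTg⟩ := exists_half hreg' ha2 ha4 hx2 hconj
  -- dimensions
  set m := Module.finrank (ZMod p) (LinearMap.ker T) with hm
  set n := Module.finrank (ZMod p) V with hn
  haveI : Module.Finite (ZMod p) V := Module.Finite.of_finite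
  have hnm : n = m + m := by
    have := LinearMap.finrank_range_add_finrank_ker T
    rw [hT] at this
    exact this.symm
  have hn0 : 0 < n := Module.finrank_pos
  have hm0 : m ≠ 0 := by omega
  -- the centraliser
  let f : H →* MulAut N := MulAut.conjNormal
  have hker : ∀ g ∈ f.ker, ∀ y ∈ N, Commute g y := by
    intro g hg y hy
    have h1 : f g = 1 := hg
    have h2 := MulAut.conjNormal_apply (H := N) g ⟨y, hy⟩
    change (((f g) ⟨y, hy⟩ : N) : H) = _ at h2
    rw [h1] at h2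
    have h3 : y = g * y * g⁻¹ := h2
    rw [eq_mul_inv_iff_mul_eq] at h3
    exact h3.symm
  have hinvT : Inv f.ker (LinearMap.ker T) := by
    intro g hg v hv
    rw [LinearMap.mem_ker] at hv ⊢
    rw [hTg g (hker g hg _ ha₀N) (hker g hg _ hx₀N), hv, map_zero]
  have hCdvd : Nat.card f.ker ∣ p ^ m - 1 := card_dvd hreg' f.ker hinvT
  have hidx : f.ker.index ∣ 24 := by
    rw [Subgroup.index_ker]
    refine (Subgroup.card_subgroup_dvd_card f.range).trans ?_
    rw [Nat.card_congr (MulAut.congr φ).symm.toEquiv]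
    exact card_mulAut_quaternion_dvd
  have hcardH : Nat.card f.ker * f.ker.index = p ^ n - 1 := by
    rw [Subgroup.card_mul_index, card_H hreg']
  -- arithmetic
  have hp2 : 2 ≤ p := (Fact.out : p.Prime).two_le
  have hp3 : 3 ≤ p := by
    have hzz : (a₀ ^ 2) ^ 2 = 1 := by rw [← pow_mul]; exact ha4
    have h2ne : (2 : ZMod p) ≠ 0 := two_ne_zero_of_involution hreg' hzz ha2
    have := ne_two_of_two_ne_zero h2ne
    omega
  set q := p ^ m with hq
  have hq3 : 3 ≤ q := by
    calc 3 ≤ p := hp3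
      _ = p ^ 1 := (pow_one p).symm
      _ ≤ p ^ m := Nat.pow_le_pow_right (by omega) (by omega)
  have hpn : p ^ n = q * q := by
    rw [hnm, pow_add]
  have hcardV : Nat.card V = q * q := by
    rw [Module.natCard_eq_pow_finrank (K := ZMod p), Nat.card_zmod, hpn]
  have hq24 : q + 1 ∣ 24 := by
    obtain ⟨e, he⟩ := hCdvd
    have hC0 : 0 < Nat.card f.ker := Nat.card_pos
    have h1 : q * q - 1 = (q - 1) * (q + 1) := by
      obtain ⟨r, hr⟩ : ∃ r, q = r + 1 := ⟨q - 1, by omega⟩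
      rw [hr]
      simp only [Nat.add_sub_cancel]
      have : (r + 1) * (r + 1) = r * (r + 1 + 1) + 1 := by ring
      omega
    rw [hpn, h1, he, mul_assoc] at hcardH
    have h2 : f.ker.index = e * (q + 1) := Nat.eq_of_mul_eq_mul_left hC0 hcardH
    exact (Dvd.intro_left _ h2.symm).trans hidx
  have hq23 : q ≠ 3 := by
    intro hq3'
    -- `p = 3`, `m = 1`
    have hpdvd : p ∣ 3 := by
      rw [← hq3', hq]
      exact dvd_pow_self p hm0
    have hp3' : p = 3 := (Nat.prime_dvd_prime_iff_eq (Fact.out) Nat.prime_three).mp hpdvd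
    have hm1 : m = 1 := by
      rw [hq3', hp3'] at hq
      have h3 : 3 ^ m = 3 ^ 1 := by rw [← hq]; rfl
      exact Nat.pow_right_injective (by norm_num : 2 ≤ 3) h3
    have hn2 : n = 2 := by omega
    have hcard8 : Nat.card H = 8 := by
      rw [card_H hreg', ← hn, hpn, hq3']
    have ho : orderOf a₀ = 4 := by
      apply orderOf_eq_prime_pow (p := 2) (n := 1)
      · simpa using ha2
      · simpa using ha4
    have hindex : (zpowers a₀).index = 2 := by
      have h1 := Subgroup.card_mul_index (zpowers a₀)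
      rw [Nat.card_zpowers, ho, hcard8] at h1
      omega
    have hnorm : (zpowers a₀).Normal := Subgroup.normal_of_index_eq_two hindex
    obtain ⟨W, hW1, hW2, hW3⟩ := hI (zpowers a₀) hnorm inferInstance
    have hfinW : Module.finrank (ZMod p) W = 1 := by
      have h1 : 1 ≤ Module.finrank (ZMod p) W := Submodule.one_le_finrank_iff.mpr hW1
      have h2 : Module.finrank (ZMod p) W < n := Submodule.finrank_lt hW2
      omega
    obtain ⟨w, hwW, hw0⟩ := Submodule.exists_mem_ne_zero_of_ne_bot hW1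
    have hw' : (⟨w, hwW⟩ : W) ≠ 0 := fun h => hw0 (congrArg Subtype.val h)
    have hspan := (finrank_eq_one_iff_of_nonzero' (⟨w, hwW⟩ : W) hw').mp hfinW
    obtain ⟨c, hc⟩ := hspan ⟨(a₀ : V ≃ₗ[ZMod p] V) w, hW3 a₀ (mem_zpowers a₀) w hwW⟩
    have hc' : c • w = (a₀ : V ≃ₗ[ZMod p] V) w := congrArg Subtype.val hc
    have hzz : (a₀ ^ 2) ^ 2 = 1 := by rw [← pow_mul]; exact ha4
    have h1 : ((a₀ ^ 2 : H) : V ≃ₗ[ZMod p] V) w = -w := involution_eq_neg hreg' hzz ha2 w
    have h2 : ((a₀ ^ 2 : H) : V ≃ₗ[ZMod p] V) w = (a₀ : V ≃ₗ[ZMod p] V) ((a₀ : V ≃ₗ[ZMod p] V) w) := by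
      rw [pow_two]
      rfl
    rw [h2, ← hc', map_smul, ← hc', smul_smul] at h1
    have h3 : (c * c + 1) • w = 0 := by
      rw [add_smul, h1, one_smul, neg_add_cancel]
    rcases smul_eq_zero.mp h3 with h4 | h4
    · apply no_sq_root hp3' c
      rw [pow_two]
      exact h4
    · exact hw0 h4
  have hle : q ≤ 23 := by
    have := Nat.le_of_dvd (by norm_num) hq24
    omega
  rw [hcardV]
  clear_value q
  interval_cases q <;> first | omega | (exfalso; revert hq24; decide) | simp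

end Cfsg.Agent.S0688
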