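import Cfsg.Statements.S2622
import Cfsg.Agent.Lib.QuadDisc.Basic

set_option autoImplicit false
open Cfsg

namespace Cfsg.Agent.S2622

universe v

open Module LinearMap.BilinForm Cfsg.Agent.Lib.QuadDisc.Basic in
theorem aux {F : Type*} [Field F] [Finite F] [CharP F 2] (n : ℕ) : ∀ (V : Type v) [AddCommGroup V] [Module F V]
    [FiniteDimensional F V] (_ : Module.finrank F V = n) (B : LinearMap.BilinForm F V) (_ : B.IsSymm)
    (_ : B.Nondegenerate) (_ : ∃ v : V, B v v ≠ 0),
    ∃ b : Module.Basis (Fin n) F V, ∀ i j, B (b i) (b j) = if i = j then 1 else 0 := by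
  classical
  haveI := Fintype.ofFinite F
  have hch : ringChar F = 2 := ringChar.eq F 2
  have h20 : (2 : F) = 0 := by exact_mod_cast CharP.cast_eq_zero F 2
  induction n with
  | zero =>
    intro V _ _ _ hV B hS hB hna
    exact ⟨Module.finBasisOfFinrankEq F V hV, fun i => i.elim0⟩
  | succ n ih =>
    intro V _ _ _ hV B hS hB ⟨v₀, hv₀⟩
    -- a vector of norm one
    obtain ⟨v, hv⟩ : ∃ v, B v v = 1 := by
      obtain ⟨s, hs⟩ := FiniteField.isSquare_of_char_two hch (B v₀ v₀)
      have hs0 : s ≠ 0 := by
        rintro rfl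
        exact hv₀ (by simpa using hs)
      refine ⟨s⁻¹ • v₀, ?_⟩
      simp only [map_smul, LinearMap.smul_apply, smul_eq_mul, hs]
      field_simp
    have hv' : B v v ≠ 0 := by rw [hv]; exact one_ne_zero
    have hdimv := finrank_perp B v hv'
    -- the right vector
    obtain ⟨u, hu, hnext⟩ : ∃ u, B u u = 1 ∧ (n = 0 ∨ ∃ w ∈ perp B u, B w w ≠ 0) := by
      by_cases hn : n = 0
      · exact ⟨v, hv, Or.inl hn⟩
      by_cases hw : ∃ w ∈ perp B v, B w w ≠ 0
      · exact ⟨v, hv, Or.inr hw⟩
      push Not at hw
      have hnd := restrict_nondegenerate B hB hS v hv'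
      have hpos : 0 < finrank F (perp B v) := by omega
      haveI : Nontrivial (perp B v) := Module.nontrivial_of_finrank_pos (R := F) hpos
      obtain ⟨x, hx⟩ := exists_ne (0 : perp B v)
      obtain ⟨y, hy⟩ : ∃ y : perp B v, B (x : V) (y : V) ≠ 0 := by
        by_contra hcon
        push Not at hcon
        exact hx (hnd.1 x (fun y => hcon y))
      have hvx : B v (x : V) = 0 := (mem_perp B v _).mp x.2
      have hvy : B v (y : V) = 0 := (mem_perp B v _).mp y.2
      have hxv : B (x : V) v = 0 := by rw [hS.eq]; simpa using hvx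
      have hyv : B (y : V) v = 0 := by rw [hS.eq]; simpa using hvy
      have hxx : B (x : V) (x : V) = 0 := hw x x.2
      have hyy : B (y : V) (y : V) = 0 := hw y y.2
      set t := (B (x : V) (y : V))⁻¹ with ht
      have hxy : B (x : V) (t • (y : V)) = 1 := by
        rw [map_smul, smul_eq_mul, ht]
        field_simp
      refine ⟨v + x, ?_, Or.inr ⟨v + t • (y : V), ?_, ?_⟩⟩
      · simp [hv, hvx, hxv, hxx]
      · rw [mem_perp]
        simp only [map_add, LinearMap.add_apply, map_smul, LinearMap.smul_apply, smul_eq_mul, hv, hvy, hxv, hxy]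
        have hxy' : B (x : V) (y : V) * t = 1 := by
          rw [ht]
          field_simp
        simp only [mul_zero, add_zero, zero_add]
        rw [mul_comm t, hxy']
        have : (1 : F) + 1 = 2 := by norm_num
        rw [this, h20]
      · simp [hv, hvy, hyv, hyy]
    have hu' : B u u ≠ 0 := by rw [hu]; exact one_ne_zero
    have hdim := finrank_perp B u hu'
    have hdim' : finrank F (perp B u) = n := by omega
    obtain ⟨b', hb'⟩ : ∃ b' : Module.Basis (Fin n) F (perp B u), ∀ i j, B (b' i : V) (b' j : V) = if i = j then 1 else 0 := by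
      rcases hnext with rfl | ⟨w, hwp, hw⟩
      · exact ⟨Module.finBasisOfFinrankEq F _ hdim', fun i => i.elim0⟩
      · obtain ⟨b', hb'⟩ := ih (perp B u) hdim' (B.restrict (perp B u)) (restrict_isSymm B hS _)
          (restrict_nondegenerate B hB hS u hu') ⟨⟨w, hwp⟩, hw⟩
        exact ⟨b', fun i j => hb' i j⟩
    refine ⟨consBasis B u hu' b', ?_⟩
    rw [consBasis_apply]
    intro i j
    refine Fin.cases ?_ (fun i => ?_) i <;> refine Fin.cases ?_ (fun j => ?_) j
    · simp [hu]
    · have : B u (b' j : V) = 0 := (mem_perp B u _).mp (b' j).2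
      simp [this, (Fin.succ_ne_zero j).symm]
    · have h1 : B u (b' i : V) = 0 := (mem_perp B u _).mp (b' i).2
      have h2 : B (b' i : V) u = 0 := by rw [hS.eq]; simpa using h1
      simp [h2]
    · simp [hb', Fin.succ_inj]


/-- Over a finite field of characteristic two, a non-degenerate symmetric bilinear form that is not alternating (some vector v has B(v, v) ≠ 0) admits an orthonormal basis. -/
theorem result {F V : Type*} [Field F] [Finite F] [CharP F 2] [AddCommGroup V] [Module F V] [FiniteDimensional F V] {n : ℕ} (hV : Module.finrank F V = n) (B : LinearMap.BilinForm F V) (hS : B.IsSymm) (hB : B.Nondegenerate) (hna : ∃ v : V, B v v ≠ 0) : ∃ b : Module.Basis (Fin n) F V, ∀ i j, B (b i) (b j) = if i = j then 1 else 0 := by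
  exact aux n V hV B hS hB hna

end Cfsg.Agent.S2622
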