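import Cfsg.Statements.S0953
import Cfsg.Agent.Lib.BlockT.NormalSylow
import Cfsg.Agent.S0920
import Cfsg.Agent.S0912

set_option autoImplicit false
open Cfsg

namespace Cfsg.Agent.S0953

open Cfsg.Agent.Lib.BlockT.NormalSylow
open Cfsg.Agent.Lib.Blocks.Local Cfsg.Agent.Lib.Blocks.Central Cfsg.Agent.Lib.Blocks.Induced
open Cfsg.Agent.Lib.Blocks.Defect2

set_option linter.style.haveILetI false

/-- Let P be a Sylow p-subgroup of the finite group G with normalizer N, and fix a maximal ideal M of the algebraic integers containing p. The number of blocks of G having P as a defect group equals the number of conjugacy classes of N consisting of elements of order prime to p that centralize P. -/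
theorem result {G : Type*} [Group G] [Finite G] (p : ℕ) [Fact p.Prime] (M : Ideal Cfsg.AlgInt) (hM : Cfsg.IsPModular p M) (P : Sylow p G) : Nat.card {B : Set (Cfsg.IrrCharacter G) // Cfsg.IsPBlock M B ∧ Cfsg.IsDefectGroup p M B (P : Subgroup G)} = Nat.card {C : ConjClasses (Subgroup.normalizer ((P : Subgroup G) : Set G)) // ∀ n : Subgroup.normalizer ((P : Subgroup G) : Set G), ConjClasses.mk n = C → ¬ p ∣ orderOf n ∧ (n : G) ∈ Subgroup.centralizer ((P : Subgroup G) : Set G)} := by
  classical
  cases nonempty_fintype G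
  haveI := isPrime_of_pModular hM
  have := Cfsg.Agent.Lib.Char.Ortho.finite_irrCharacter (G := G)
  letI := Fintype.ofFinite (IrrCharacter G)
  set N := Subgroup.normalizer ((P : Subgroup G) : Set G) with hN
  letI : Fintype N := Fintype.ofFinite _
  have := Cfsg.Agent.Lib.Char.Ortho.finite_irrCharacter (G := N)
  letI := Fintype.ofFinite (IrrCharacter N)
  have hle : (P : Subgroup G) ≤ N := Subgroup.le_normalizer
  let Q : Sylow p N := P.subtype hle
  have hQcoe : (Q : Subgroup N) = (P : Subgroup G).subgroupOf N := Sylow.coe_subtype P hle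
  have hQn : (Q : Subgroup N).Normal := by
    rw [hQcoe]
    exact Subgroup.normal_in_normalizer
  have hpg : IsPGroup p (P : Subgroup G) := P.isPGroup'
  have fmt := Cfsg.Agent.S0920.result p M hM (P : Subgroup G) hpg
  -- all blocks of `N` have defect group `Q`
  have hdefN : ∀ b : Set (IrrCharacter N), IsPBlock M b →
      IsDefectGroup p M b ((P : Subgroup G).subgroupOf N) := by
    intro b hb
    obtain ⟨D, hD⟩ := exists_isDefectGroup (p := p) hb
    have h1 := Cfsg.Agent.S0912.result p M hM b hb D hD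
    have h2 : (Q : Subgroup N) ≤ Cfsg.pCore p N :=
      Cfsg.Agent.Lib.Core.Basic.le_pCore hQn Q.isPGroup'
    have h3 := Q.is_maximal' (isDefectGroup_isPGroup hD) (h2.trans h1)
    rw [← hQcoe, ← h3]
    exact hD
  -- the bijection
  have h1 : Nat.card {B : Set (IrrCharacter G) // IsPBlock M B ∧ IsDefectGroup p M B (P : Subgroup G)} =
      Nat.card {b : Set (IrrCharacter N) // IsPBlock M b} := by
    have hex : ∀ B : {B : Set (IrrCharacter G) // IsPBlock M B ∧ IsDefectGroup p M B (P : Subgroup G)},
        ∃ b : {b : Set (IrrCharacter N) // IsPBlock M b}, IsInducedBlock M N b.1 B.1 := by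
      intro B
      obtain ⟨b, hb, -⟩ := fmt.2 B.1 B.2.1 B.2.2
      exact ⟨⟨b, hb.1⟩, hb.2.2⟩
    choose F hF using hex
    refine Nat.card_eq_of_bijective F ⟨?_, ?_⟩
    · intro B B' hBB
      apply Subtype.ext
      have h2 := hF B
      have h3 := hF B'
      rw [← hBB] at h3
      exact IsInducedBlock.unique N h2 h3
    · intro b
      obtain ⟨B, hB1, hB2, hB3⟩ := fmt.1 b.1 b.2 (hdefN b.1 b.2)
      refine ⟨⟨B, hB1, hB2⟩, ?_⟩
      apply Subtype.ext
      have h2 := hF ⟨B, hB1, hB2⟩
      obtain ⟨b', -, huniq⟩ := fmt.2 B hB1 hB2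
      have e1 := huniq (F ⟨B, hB1, hB2⟩).1 ⟨(F ⟨B, hB1, hB2⟩).2, hdefN _ (F ⟨B, hB1, hB2⟩).2, h2⟩
      have e2 := huniq b.1 ⟨b.2, hdefN _ b.2, hB3⟩
      rw [e1, e2]
  rw [h1, card_blocks_eq hM Q hQn]
  refine Nat.card_congr (Equiv.subtypeEquivRight fun C => ?_)
  refine forall_congr' fun n => imp_congr_right fun _ => and_congr_right fun _ => ?_
  rw [hQcoe, Subgroup.mem_centralizer_iff, Subgroup.mem_centralizer_iff]
  constructor
  · intro h x hx
    have h2 := h ⟨x, hle hx⟩ (Subgroup.mem_subgroupOf.mpr hx)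
    exact congrArg Subtype.val h2
  · intro h x hx
    apply Subtype.ext
    exact h x (Subgroup.mem_subgroupOf.mp hx)

end Cfsg.Agent.S0953
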