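import Cfsg.Statements.S4652
import Cfsg.Agent.Lib.Blocks.Central
import Cfsg.Agent.Lib.BlockH.Basic
import Cfsg.Agent.Lib.BlockT.SylowIn
import Cfsg.Agent.Lib.CharX.Fixed

set_option autoImplicit false
open Cfsg

namespace Cfsg.Agent.S4652

open Cfsg.Agent.Lib.Blocks.Local Cfsg.Agent.Lib.Blocks.Central in
/-- In the principal block, a defect class has size prime to `p`. -/
lemma not_dvd_index_of_defectClass {G : Type*} [Group G] [Fintype G] (p : ℕ) [Fact p.Prime]
    (M : Ideal Cfsg.AlgInt) (hM : Cfsg.IsPModular p M) {g : G}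
    (hg : Cfsg.IsDefectClass M (Cfsg.principalBlock M G) g) :
    ¬ p ∣ (Subgroup.centralizer ({g} : Set G)).index := by
  haveI := isPrime_of_pModular hM
  intro hd
  have h1 : (⟨fun _ => (1 : ℂ), Cfsg.Agent.Lib.CharX.Fixed.isIrrCharacter_one⟩ : Cfsg.IrrCharacter G)
      ∈ Cfsg.principalBlock M G := sameBlock_refl _
  apply hg.2.2 _ h1
  have h2 : Cfsg.centralChar (fun _ : G => (1 : ℂ)) g = ((Subgroup.centralizer ({g} : Set G)).index : ℂ) := by
    simp [Cfsg.centralChar]
  change MemLocalIdeal M (Cfsg.centralChar (fun _ : G => (1 : ℂ)) g)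
  rw [h2]
  exact (natCast_memLocalIdeal_iff hM _).mpr hd

/-- A defect class stays a defect class under conjugation. -/
lemma isDefectClass_conj {G : Type*} [Group G] [Fintype G] (M : Ideal Cfsg.AlgInt)
    {B : Set (Cfsg.IrrCharacter G)} {g : G} (hg : Cfsg.IsDefectClass M B g) (x : G) :
    Cfsg.IsDefectClass M B (x * g * x⁻¹) := by
  obtain ⟨h1, h2, h3⟩ := hg
  haveI := Cfsg.Agent.Lib.Char.Ortho.finite_irrCharacter (G := G)
  letI := Fintype.ofFinite (Cfsg.IrrCharacter G)
  rw [Cfsg.IsDefectClass, Cfsg.Agent.Lib.Blocks.Central.blockCoeff_conj_invariant]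
  refine ⟨h1, h2, fun χ hχ => ?_⟩
  rw [Cfsg.Agent.Lib.BlockH.Basic.centralChar_conj
    (Cfsg.Agent.Lib.Char.Basic.isClassFunction_of_isIrrCharacter χ.2)]
  exact h3 χ hχ

/-- Fix a prime p and a maximal ideal M of the algebraic integers containing p. The defect groups of the principal p-block of a finite group G are exactly the Sylow p-subgroups of G: a subgroup D is a defect group of the principal block if and only if D is a Sylow p-subgroup. -/
theorem result {G : Type*} [Group G] [Fintype G] (p : ℕ) [Fact p.Prime] (M : Ideal Cfsg.AlgInt) (hM : Cfsg.IsPModular p M) (D : Subgroup G) : Cfsg.IsDefectGroup p M (Cfsg.principalBlock M G) D ↔ ∃ S : Sylow p G, (S : Subgroup G) = D := by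
  classical
  haveI := Cfsg.Agent.Lib.Blocks.Local.isPrime_of_pModular hM
  have hB : Cfsg.IsPBlock M (Cfsg.principalBlock M G) :=
    ⟨⟨fun _ => (1 : ℂ), Cfsg.Agent.Lib.CharX.Fixed.isIrrCharacter_one⟩, rfl⟩
  constructor
  · rintro ⟨g, hg, P, rfl⟩
    have hind := not_dvd_index_of_defectClass p M hM hg
    have hT : IsPGroup p ((P : Subgroup _).map (Subgroup.centralizer ({g} : Set G)).subtype) :=
      P.2.map _
    exact ⟨hT.toSylow (Cfsg.Agent.Lib.BlockH.Basic.not_dvd_index_map_sylow hind P), rfl⟩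
  · rintro ⟨S, rfl⟩
    obtain ⟨g, hg⟩ := Cfsg.Agent.Lib.Blocks.Central.exists_isDefectClass hB
    have hind := not_dvd_index_of_defectClass p M hM hg
    obtain ⟨x, hx⟩ := Cfsg.Agent.Lib.BlockH.Basic.exists_conj_mem_centralizer_of_not_dvd_index hind S
    have hg' := isDefectClass_conj M hg x⁻¹
    simp only [inv_inv] at hg'
    refine ⟨_, hg', ?_⟩
    refine Cfsg.Agent.Lib.BlockH.Basic.exists_sylow_map_eq S ?_
    intro a ha
    rw [Subgroup.mem_centralizer_singleton_iff]
    have := Subgroup.mem_centralizer_iff.mp hx a ha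
    exact this

end Cfsg.Agent.S4652
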