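import Cfsg.Statements.S2167

set_option autoImplicit false
open Cfsg

namespace Cfsg.Agent.S2167

open Matrix Module

section AltRank

universe v

variable {F : Type*} [Field F]

/-- Alternating forms have even rank (stated as parity of dim + dim of radical). -/
theorem even_finrank_add_ker_of_alt :
    ∀ (n : ℕ) {V : Type v} [AddCommGroup V] [Module F V] [FiniteDimensional F V]
      (B : V →ₗ[F] V →ₗ[F] F), (∀ v, B v v = 0) → finrank F V = n →
      Even (finrank F V + finrank F (LinearMap.ker B)) := by
  intro n
  induction n using Nat.strong_induction_on with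
  | _ n ih =>
    intro V _ _ _ B hB hn
    by_cases hzero : B = 0
    · subst hzero
      have : LinearMap.ker (0 : V →ₗ[F] V →ₗ[F] F) = ⊤ := LinearMap.ker_zero
      rw [this, finrank_top]
      exact ⟨_, rfl⟩
    · -- find a hyperbolic pair
      have hanti : ∀ u v, B u v = - B v u := by
        intro u v
        have h := hB (u + v)
        simp only [map_add, LinearMap.add_apply, hB, zero_add, add_zero] at h
        exact eq_neg_of_add_eq_zero_right h
      obtain ⟨u₀, w, huw₀⟩ : ∃ u w, B u w ≠ 0 := by
        by_contra hcon
        push Not at hcon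
        apply hzero
        ext u w
        simpa using hcon u w
      let c := (B u₀ w)⁻¹
      let u := c • u₀
      have huw : B u w = 1 := by
        simp only [u, c, map_smul, LinearMap.smul_apply, smul_eq_mul]
        exact inv_mul_cancel₀ huw₀
      have hwu : B w u = -1 := by rw [hanti, huw]
      -- the map to F × F
      let T : V →ₗ[F] F × F := (B u).prod (B w)
      have hTsurj : Function.Surjective T := by
        rintro ⟨a, b⟩
        refine ⟨a • w + (-b) • u, ?_⟩
        simp [T, hB, huw, hwu]
      have hTrank : finrank F (LinearMap.ker T) + 2 = finrank F V := by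
        have h1 := LinearMap.finrank_range_add_finrank_ker T
        rw [LinearMap.range_eq_top.mpr hTsurj, finrank_top] at h1
        have h2 : finrank F (F × F) = 2 := by simp
        omega
      -- restrict
      let W := LinearMap.ker T
      let B' : W →ₗ[F] W →ₗ[F] F := (B.domRestrict W).compr₂ₛₗ (LinearMap.id) |>.flip.domRestrict W |>.flip
      have hB'apply : ∀ x y : W, B' x y = B x y := fun x y => rfl
      have hB'alt : ∀ v, B' v v = 0 := fun v => hB v
      have hWn : finrank F W < n := by
        have : finrank F W + 2 = n := hn ▸ hTrank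
        omega
      have hrec := ih (finrank F W) hWn B' hB'alt rfl
      -- kernels agree
      have hker : finrank F (LinearMap.ker B') = finrank F (LinearMap.ker B) := by
        -- the equivalence
        let ι : LinearMap.ker B' →ₗ[F] LinearMap.ker B :=
          { toFun := fun x => ⟨(x.1 : V), by
              have hx : B' x.1 = 0 := x.2
              have hxW : T (x.1 : V) = 0 := x.1.2
              have hxu : B u (x.1 : V) = 0 := congrArg Prod.fst hxW
              have hxw : B w (x.1 : V) = 0 := congrArg Prod.snd hxW
              show B (x.1 : V) = 0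
              ext z
              -- decompose z
              have hz : T (z - (-(B w z)) • u - (B u z) • w) = 0 := by
                simp [T, hB, huw, hwu]
              have h3 : B' x.1 ⟨z - (-(B w z)) • u - (B u z) • w, hz⟩ = 0 := by
                rw [hx]; rfl
              rw [hB'apply] at h3
              simp only [map_sub, map_smul, smul_eq_mul] at h3
              have h4 : B (x.1 : V) u = 0 := by rw [hanti, hxu, neg_zero]
              have h5 : B (x.1 : V) w = 0 := by rw [hanti, hxw, neg_zero]
              rw [h4, h5] at h3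
              simpa using h3⟩
            map_add' := fun x y => rfl
            map_smul' := fun c x => rfl }
        have hι : Function.Bijective ι := by
          constructor
          · intro x y hxy
            apply Subtype.ext
            apply Subtype.ext
            exact congrArg (fun z : LinearMap.ker B => (z : V)) hxy
          · rintro ⟨x, hx⟩
            have hx' : B x = 0 := hx
            have hxW : x ∈ W := by
              show T x = 0
              have h1 : B u x = 0 := by rw [hanti, hx']; simp
              have h2 : B w x = 0 := by rw [hanti, hx']; simp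
              simp [T, h1, h2]
            refine ⟨⟨⟨x, hxW⟩, ?_⟩, rfl⟩
            show B' ⟨x, hxW⟩ = 0
            ext y
            rw [hB'apply]
            show B x y = 0
            rw [hx']; rfl
        exact LinearEquiv.finrank_eq (LinearEquiv.ofBijective ι hι)
      rw [hker] at hrec
      rw [← hTrank]
      have : finrank F (LinearMap.ker T) = finrank F W := rfl
      rw [this]
      have h6 : finrank F W + 2 + finrank F (LinearMap.ker B) = (finrank F W + finrank F (LinearMap.ker B)) + 2 := by ring
      rw [h6]
      exact hrec.add (by decide)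

end AltRank

variable {F : Type*} [Field F] {m : ℕ}

lemma symp_apply (u v : Fin m ⊕ Fin m → F) :
    sympForm m F u v = ∑ i, (u (Sum.inr i) * v (Sum.inl i) - u (Sum.inl i) * v (Sum.inr i)) := by
  unfold sympForm
  simp only [dotProduct, Matrix.mulVec, Matrix.J, Fintype.sum_sum_type, Matrix.fromBlocks_apply₁₁,
    Matrix.fromBlocks_apply₁₂, Matrix.fromBlocks_apply₂₁, Matrix.fromBlocks_apply₂₂,
    Matrix.zero_apply, zero_mul, Finset.sum_const_zero, zero_add, add_zero, Matrix.neg_apply,
    Matrix.one_apply]
  simp only [Finset.sum_sub_distrib, ite_mul, one_mul, zero_mul, mul_ite, mul_one, mul_zero, neg_mul,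
    mul_neg, Finset.sum_neg_distrib, Finset.mem_univ, if_true, Finset.sum_ite_eq, Finset.sum_ite_eq',
    if_neg, neg_zero, sub_eq_add_neg, add_comm, Finset.sum_add_distrib]

lemma symp_self (v : Fin m ⊕ Fin m → F) : sympForm m F v v = 0 := by
  rw [symp_apply]
  apply Finset.sum_eq_zero
  intro i _
  ring

lemma symp_add_left (u u' v : Fin m ⊕ Fin m → F) :
    sympForm m F (u + u') v = sympForm m F u v + sympForm m F u' v := by
  unfold sympForm; rw [add_dotProduct]

lemma symp_add_right (u v v' : Fin m ⊕ Fin m → F) :
    sympForm m F u (v + v') = sympForm m F u v + sympForm m F u v' := by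
  unfold sympForm; rw [Matrix.mulVec_add, dotProduct_add]

lemma symp_smul_left (c : F) (u v : Fin m ⊕ Fin m → F) :
    sympForm m F (c • u) v = c * sympForm m F u v := by
  unfold sympForm; rw [smul_dotProduct, smul_eq_mul]

lemma symp_smul_right (c : F) (u v : Fin m ⊕ Fin m → F) :
    sympForm m F u (c • v) = c * sympForm m F u v := by
  unfold sympForm; rw [Matrix.mulVec_smul, dotProduct_smul, smul_eq_mul]

lemma symp_anti (u v : Fin m ⊕ Fin m → F) : sympForm m F u v = - sympForm m F v u := by
  rw [symp_apply, symp_apply, ← Finset.sum_neg_distrib]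
  apply Finset.sum_congr rfl
  intro i _
  ring

lemma symp_pres (A : Matrix (Fin m ⊕ Fin m) (Fin m ⊕ Fin m) F)
    (hA : A ∈ Matrix.symplecticGroup (Fin m) F) (u v : Fin m ⊕ Fin m → F) :
    sympForm m F (A *ᵥ u) (A *ᵥ v) = sympForm m F u v := by
  unfold sympForm
  have h := SymplecticGroup.transpose_mem hA
  rw [SymplecticGroup.mem_iff, Matrix.transpose_transpose] at h
  rw [← Matrix.vecMul_transpose A u, ← Matrix.dotProduct_mulVec, Matrix.mulVec_mulVec,
    Matrix.mulVec_mulVec, h]

variable [Fintype F] [CharP F 2]

/-- The form `φ v = f(v, a v)` as an additive map. -/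
def phi (A : Matrix (Fin m ⊕ Fin m) (Fin m ⊕ Fin m) F)
    (hA : A ∈ Matrix.symplecticGroup (Fin m) F) (hA2 : A * A = 1) :
    (Fin m ⊕ Fin m → F) →+ F where
  toFun v := sympForm m F v (A *ᵥ v)
  map_zero' := by simp [sympForm]
  map_add' u v := by
    rw [Matrix.mulVec_add, symp_add_left, symp_add_right, symp_add_right]
    have h : sympForm m F v (A *ᵥ u) = - sympForm m F u (A *ᵥ v) := by
      have h1 := symp_pres A hA v (A *ᵥ u)
      rw [Matrix.mulVec_mulVec, hA2, Matrix.one_mulVec] at h1
      rw [← h1, symp_anti]
    rw [h]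
    ring

lemma squares_surj (x : F) : ∃ y : F, y ^ 2 = x := by
  have hp : Fact (Nat.Prime 2) := ⟨Nat.prime_two⟩
  have := Finite.surjective_of_injective (frobenius_inj F 2) x
  obtain ⟨y, hy⟩ := this
  exact ⟨y, by simpa [frobenius_def] using hy⟩

theorem main (hm : 2 ≤ m) (A : Matrix (Fin m ⊕ Fin m) (Fin m ⊕ Fin m) F)
    (hA : A ∈ Matrix.symplecticGroup (Fin m) F) (hA2 : A * A = 1) :
    (Nat.card {v : Fin m ⊕ Fin m → F // Cfsg.sympForm m F v (A *ᵥ v) = 0} = Fintype.card F ^ (2 * m) ∨
     Nat.card {v : Fin m ⊕ Fin m → F // Cfsg.sympForm m F v (A *ᵥ v) = 0} * Fintype.card F = Fintype.card F ^ (2 * m)) ∧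
    ((∀ v : Fin m ⊕ Fin m → F, Cfsg.sympForm m F v (A *ᵥ v) = 0) → Even (A - 1).rank) := by
  constructor
  · have hV : Nat.card (Fin m ⊕ Fin m → F) = Fintype.card F ^ (2 * m) := by
      rw [Nat.card_eq_fintype_card, Fintype.card_fun]
      simp [two_mul]
    set φ := phi A hA hA2 with hφ
    have hker : Nat.card {v : Fin m ⊕ Fin m → F // Cfsg.sympForm m F v (A *ᵥ v) = 0} = Nat.card φ.ker := by
      apply Nat.card_congr
      exact Equiv.subtypeEquivRight (fun v => by simp [AddMonoidHom.mem_ker, hφ, phi])
    rw [hker, ← hV]
    by_cases h0 : ∀ v, φ v = 0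
    · left
      have : φ.ker = ⊤ := by
        ext v
        simp [AddMonoidHom.mem_ker, h0]
      rw [this]
      simp
    · right
      push Not at h0
      obtain ⟨v₀, hv₀⟩ := h0
      have hrange : φ.range = ⊤ := by
        ext z
        simp only [AddMonoidHom.mem_range, AddSubgroup.mem_top, iff_true]
        obtain ⟨c, hc⟩ := squares_surj (z * (φ v₀)⁻¹)
        refine ⟨c • v₀, ?_⟩
        show sympForm m F (c • v₀) (A *ᵥ (c • v₀)) = z
        rw [Matrix.mulVec_smul, symp_smul_left, symp_smul_right]
        have h1 : φ v₀ = sympForm m F v₀ (A *ᵥ v₀) := rfl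
        rw [← h1, ← mul_assoc, ← pow_two, hc, mul_assoc, inv_mul_cancel₀ hv₀, mul_one]
      have h1 := AddSubgroup.card_mul_index φ.ker
      rw [AddSubgroup.index_ker, hrange] at h1
      have h2 : Nat.card (⊤ : AddSubgroup F) = Fintype.card F := by
        simp [Nat.card_eq_fintype_card]
      rw [h2] at h1
      exact h1
  · intro hv
    -- the alternating form
    let Nl : (Fin m ⊕ Fin m → F) →ₗ[F] (Fin m ⊕ Fin m → F) := Matrix.mulVecLin (A - 1)
    let B : (Fin m ⊕ Fin m → F) →ₗ[F] (Fin m ⊕ Fin m → F) →ₗ[F] F :=
      LinearMap.mk₂ F (fun u v => sympForm m F (Nl u) v)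
        (fun u u' v => by rw [map_add, symp_add_left])
        (fun c u v => by rw [map_smul, symp_smul_left, smul_eq_mul])
        (fun u v v' => by rw [symp_add_right])
        (fun c u v => by rw [symp_smul_right, smul_eq_mul])
    have hBalt : ∀ v, B v v = 0 := by
      intro v
      show sympForm m F ((A - 1) *ᵥ v) v = 0
      rw [Matrix.sub_mulVec, Matrix.one_mulVec, sub_eq_add_neg, symp_add_left]
      have h1 : sympForm m F (-v) v = 0 := by
        have : -v = (-1 : F) • v := by simp
        rw [this, symp_smul_left, symp_self, mul_zero]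
      rw [h1, add_zero, symp_anti, hv v, neg_zero]
    have hev := even_finrank_add_ker_of_alt (F := F) _ B hBalt rfl
    have hkerB : LinearMap.ker B = LinearMap.ker Nl := by
      ext u
      simp only [LinearMap.mem_ker]
      constructor
      · intro h
        -- nondegeneracy
        have h2 : ∀ v, sympForm m F (Nl u) v = 0 := fun v => by
          have := congrArg (fun f => f v) h
          simpa [B] using this
        funext i
        rcases i with i | i
        · have := h2 (Pi.single (Sum.inr i) (-1))
          rw [symp_apply] at this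
          simpa [Pi.single_apply, Finset.sum_ite_eq'] using this
        · have := h2 (Pi.single (Sum.inl i) 1)
          rw [symp_apply] at this
          simpa [Pi.single_apply, Finset.sum_ite_eq'] using this
      · intro h
        ext v
        show sympForm m F (Nl u) _ = 0
        rw [h]
        simp [sympForm]
    rw [hkerB] at hev
    have hrk := LinearMap.finrank_range_add_finrank_ker Nl
    have hrk2 : (A - 1).rank = finrank F (LinearMap.range Nl) := rfl
    rw [hrk2]
    rw [← hrk] at hev
    have : finrank F (LinearMap.range Nl) + finrank F (LinearMap.ker Nl) + finrank F (LinearMap.ker Nl)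
        = finrank F (LinearMap.range Nl) + 2 * finrank F (LinearMap.ker Nl) := by ring
    rw [this] at hev
    have h3 := (Nat.even_add.mp hev)
    exact h3.mpr (even_two_mul _)

/-- The statement. -/
theorem result {F : Type*} [Field F] [Fintype F] [CharP F 2] {m : ℕ} (hm : 2 ≤ m) (a : ↥(Matrix.symplecticGroup (Fin m) F)) (ha : orderOf a = 2) :
    (Nat.card {v : Fin m ⊕ Fin m → F // Cfsg.sympForm m F v (Matrix.mulVec ((a : ↥(Matrix.symplecticGroup (Fin m) F)) : Matrix (Fin m ⊕ Fin m) (Fin m ⊕ Fin m) F) v) = 0} = Fintype.card F ^ (2 * m) ∨ Nat.card {v : Fin m ⊕ Fin m → F // Cfsg.sympForm m F v (Matrix.mulVec ((a : ↥(Matrix.symplecticGroup (Fin m) F)) : Matrix (Fin m ⊕ Fin m) (Fin m ⊕ Fin m) F) v) = 0} * Fintype.card F = Fintype.card F ^ (2 * m)) ∧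
    ((∀ v : Fin m ⊕ Fin m → F, Cfsg.sympForm m F v (Matrix.mulVec ((a : ↥(Matrix.symplecticGroup (Fin m) F)) : Matrix (Fin m ⊕ Fin m) (Fin m ⊕ Fin m) F) v) = 0) → Even (((a : ↥(Matrix.symplecticGroup (Fin m) F)) : Matrix (Fin m ⊕ Fin m) (Fin m ⊕ Fin m) F) - 1).rank) := by
  have haa : a ^ 2 = 1 := by rw [← ha]; exact pow_orderOf_eq_one a
  have hA2 : (a : Matrix (Fin m ⊕ Fin m) (Fin m ⊕ Fin m) F) * (a : Matrix (Fin m ⊕ Fin m) (Fin m ⊕ Fin m) F) = 1 := by
    rw [pow_two] at haa
    exact congrArg Subtype.val haa
  exact main hm (a : Matrix (Fin m ⊕ Fin m) (Fin m ⊕ Fin m) F) a.2 hA2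

end Cfsg.Agent.S2167
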