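import Cfsg.Statements.S0680
import Cfsg.Agent.Lib.Perm.Normal

set_option autoImplicit false
open Cfsg

namespace Cfsg.Agent.S0680

/-- A finite sharply doubly transitive permutation group has degree a prime power `p ^ j`; a Sylow `p`-subgroup is normal, elementary abelian and regular, and consists of the identity together with the elements without fixed points. (Frobenius' Theorem is not needed.) -/
theorem result {α : Type*} [Fintype α] [DecidableEq α] (G : Subgroup (Equiv.Perm α)) [MulAction.IsMultiplyPretransitive G α 2] (hsharp : ∀ x : Fin 2 ↪ α, MulAction.stabilizer G x = ⊥) (h2 : 2 ≤ Fintype.card α) : ∃ p j : ℕ, p.Prime ∧ 1 ≤ j ∧ Fintype.card α = p ^ j ∧ ∀ (hp : Fact p.Prime) (P : Sylow p G), (P : Subgroup G).Normal ∧ IsMulCommutative (P : Subgroup G) ∧ (∀ x ∈ (P : Subgroup G), x ^ p = 1) ∧ MulAction.IsPretransitive (P : Subgroup G) α ∧ (∀ a : α, MulAction.stabilizer (P : Subgroup G) a = ⊥) ∧ ∀ g : G, g ∈ (P : Subgroup G) ↔ g = 1 ∨ ∀ a : α, g • a ≠ a := by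
  open Cfsg.Agent.Lib.Perm.SharplyTwo in
  have S : Sharp2 G α := by
    constructor
    · intro a b c d hab hcd
      exact (MulAction.is_two_pretransitive_iff.mp inferInstance) hab hcd
    · intro x a b hab ha hb
      have h := hsharp (Function.Embedding.embFinTwo hab)
      have hx : x ∈ MulAction.stabilizer G (Function.Embedding.embFinTwo hab) := by
        rw [MulAction.mem_stabilizer_iff]
        ext i
        by_cases hi : i = 0
        · subst hi
          exact ha
        · rw [Fin.eq_one_of_ne_zero i hi]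
          exact hb
      rw [h, Subgroup.mem_bot] at hx
      exact hx
  haveI : Nontrivial α := Fintype.one_lt_card_iff_nontrivial.mp h2
  obtain ⟨p, j, hp, hj, hα, hcomm, hexp, hsyl⟩ := Cfsg.Agent.Lib.Perm.SharplyTwo.Sharp2.structure S
  refine ⟨p, j, hp, hj, hα, fun hf P => ?_⟩
  rw [hsyl hf P]
  exact ⟨Cfsg.Agent.Lib.Perm.SharplyTwo.fpfSubgroup_normal S, hcomm, hexp,
    Cfsg.Agent.Lib.Perm.SharplyTwo.fpfSubgroup_isPretransitive S,
    Cfsg.Agent.Lib.Perm.SharplyTwo.fpfSubgroup_stabilizer S, fun g => Iff.rfl⟩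

end Cfsg.Agent.S0680
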