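import Cfsg.Statements.S0730
import Cfsg.Agent.Lib.Zass.Sharp3Odd

set_option autoImplicit false
open Cfsg

namespace Cfsg.Agent.S0730

open Cfsg.Agent.Lib.Zass.Sharp3 Cfsg.Agent.Lib.Zass.Sharp3Odd

/-- A sharply triply transitive group of degree `p^f + 1`, `p` an odd prime and `f` odd, is isomorphic to the projective general linear group of degree 2 over the field with `p^f` elements (for even `f` there is a second, twisted, group). -/
theorem result {α : Type*} [Fintype α] [DecidableEq α] {p f : ℕ} (hp : p.Prime) (hp2 : p ≠ 2) (hfo : Odd f) (hα : Fintype.card α = p ^ f + 1) (G : Subgroup (Equiv.Perm α)) (h3 : MulAction.IsMultiplyPretransitive G α 3) (hsharp : ∀ x : Fin 3 ↪ α, MulAction.stabilizer G x = ⊥) : ∃ (F : Type) (_ : Field F) (_ : Fintype F), Fintype.card F = p ^ f ∧ Nonempty (G ≃* Matrix.ProjGenLinGroup (Fin 2) F) := by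
  classical
  have S := sharp3_of_subgroup G h3 hsharp
  have faith : ∀ g g' : G, (∀ y : α, g • y = g' • y) → g = g' := by
    intro g g' h
    apply Subtype.ext
    apply Equiv.ext
    exact h
  have hf0 : f ≠ 0 := by
    rintro rfl
    exact (Nat.not_odd_iff_even.mpr Even.zero) hfo
  have hp3 : 3 ≤ p := by
    have := hp.two_le
    omega
  have h3card : 2 < Fintype.card α := by
    have : p ≤ p ^ f := Nat.le_self_pow hf0 p
    omega
  obtain ⟨inf, o, c, hio, hic, hoc⟩ := Fintype.two_lt_card_iff.mp h3card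
  obtain ⟨A, instA, instF, R, q, j, hR1, hR2, hq, hj, hcard, hcardA, hexp⟩ :=
    S.exists_rootData faith (inf := inf) (o := o) (c := c) (Ne.symm hio) (Ne.symm hic) hoc
  have hpow : q ^ j = p ^ f := by omega
  have hqp : q = p := by
    have h1 : q ∣ p ^ f := by rw [← hpow]; exact dvd_pow_self q (by omega)
    exact (Nat.prime_dvd_prime_iff_eq hq hp).mp (hq.dvd_of_dvd_pow h1)
  subst hqp
  exact main_odd S R hp hp2 hfo hexp (hcardA.trans hpow)

end Cfsg.Agent.S0730
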