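import Cfsg.Statements.S0436

set_option autoImplicit false
open Cfsg

namespace Cfsg.Agent.S0436

/-- If `(x * y) ^ 3 = 1` with `x, y` involutions, then `x * y * x = y * x * y`. -/
theorem braid_of_cube {G : Type*} [Group G] {x y : G} (hx : x * x = 1) (hy : y * y = 1)
    (h : (x * y) ^ 3 = 1) : x * y * x = y * x * y := by
  have h1 : x * y * (x * y) * (x * y) = 1 := by simpa [pow_succ] using h
  have h2 : x * y * x = (y * x * y)⁻¹ := by
    rw [eq_inv_iff_mul_eq_one]
    calc x * y * x * (y * x * y) = x * y * (x * y) * (x * y) := by group
      _ = 1 := h1
  rw [h2]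
  simp only [mul_inv_rev, mul_assoc]
  have hxi : x⁻¹ = x := inv_eq_of_mul_eq_one_left hx
  have hyi : y⁻¹ = y := inv_eq_of_mul_eq_one_left hy
  rw [hxi, hyi]

/-- For distinct commuting members a, b of a set of 3-transpositions E, a member e of E centralises the product a * b if and only if it centralises both a and b. -/
theorem result {G : Type*} [Group G] {E : Set G} (hE : Cfsg.IsThreeTranspositionSet E) {a b e : G} (ha : a ∈ E) (hb : b ∈ E) (he : e ∈ E) (hab : a ≠ b) (hcomm : Commute a b) : Commute e (a * b) ↔ (Commute e a ∧ Commute e b) := by
  obtain ⟨h2, h3⟩ := hE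
  have invol : ∀ d ∈ E, d * d = 1 := fun d hd => by
    have := pow_orderOf_eq_one d
    rw [h2 d hd] at this
    simpa [pow_two] using this
  have haa := invol a ha
  have hbb := invol b hb
  have hee := invol e he
  constructor
  · intro hc
    -- if e commutes with a then it commutes with b and conversely
    have key_a : Commute e a → Commute e b := fun hea => by
      have : b = a⁻¹ * (a * b) := by group
      rw [this]
      exact (hea.inv_right).mul_right hc
    have key_b : Commute e b → Commute e a := fun heb => by
      have : a = (a * b) * b⁻¹ := by group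
      rw [this]
      exact hc.mul_right heb.inv_right
    -- (e a)^2 = 1 means commute
    have comm_of_sq : ∀ d : G, d * d = 1 → (e * d) ^ 2 = 1 → Commute e d := fun d hd h => by
      have h1 : e * d * (e * d) = 1 := by simpa [pow_two] using h
      have hei : e⁻¹ = e := inv_eq_of_mul_eq_one_left hee
      have hdi : d⁻¹ = d := inv_eq_of_mul_eq_one_left hd
      have : e * d = (e * d)⁻¹ := eq_inv_of_mul_eq_one_left h1
      rw [Commute, SemiconjBy]
      rw [mul_inv_rev, hei, hdi] at this
      exact this
    rcases h3 e he a ha with h | h
    · have hea := comm_of_sq a haa h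
      exact ⟨hea, key_a hea⟩
    rcases h3 e he b hb with h' | h'
    · have heb := comm_of_sq b hbb h'
      exact ⟨key_b heb, heb⟩
    · -- both cubes
      exfalso
      have b1 := braid_of_cube hee haa h
      have b2 := braid_of_cube hee hbb h'
      -- (e a e)(e b e) = e (ab) e = a b ; (a e a)(b e b) = a e (ab) e b = a (ab) b = 1
      have hc' : e * (a * b) * e = a * b := by
        have : e * (a * b) = a * b * e := hc
        rw [this, mul_assoc, hee, mul_one]
      have l : (e * a * e) * (e * b * e) = e * (a * b) * e := by
        calc (e * a * e) * (e * b * e) = e * a * (e * e) * b * e := by group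
          _ = e * (a * b) * e := by rw [hee]; group
      have r : (a * e * a) * (b * e * b) = a * (e * (a * b) * e) * b := by group
      rw [b1, b2] at l
      rw [hc'] at l r
      rw [l] at r
      -- a * b = a * (a * b) * b
      apply hab
      have h1 : a * (a * b) * b = 1 := by
        calc a * (a * b) * b = (a * a) * (b * b) := by group
          _ = 1 := by rw [haa, hbb, one_mul]
      rw [h1] at r
      have : a * b = 1 := r
      calc a = a * (b * b) := by rw [hbb, mul_one]
        _ = (a * b) * b := by group
        _ = b := by rw [this, one_mul]
  · rintro ⟨h1, h2⟩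
    exact h1.mul_right h2

end Cfsg.Agent.S0436
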