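import Cfsg.Statements.S3949

set_option autoImplicit false
open Cfsg

namespace Cfsg.Agent.S3949

private lemma iterate_inverted {G : Type*} [Group G] (α : MulAut G) (n : ℕ) :
    ∀ y : G, α y = y⁻¹ → ((fun c : G => c * (α c)⁻¹)^[n]) y = y ^ (2 ^ n) := by
  induction n with
  | zero => intro y _; simp
  | succ n ih =>
    intro y hy
    rw [Function.iterate_succ_apply]
    have h1 : y * (α y)⁻¹ = y ^ 2 := by
      rw [hy, inv_inv, pow_two]
    have h2 : α (y ^ 2) = (y ^ 2)⁻¹ := by
      rw [map_pow, hy, inv_pow]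
    show ((fun c : G => c * (α c)⁻¹)^[n]) (y * (α y)⁻¹) = _
    rw [h1, ih _ h2, ← pow_mul, pow_succ' 2 n]

/-- Let G be a finite group and α an automorphism of G of order 2 such that the elements g·α(g)⁻¹ generate G. Let j be a positive integer such that 2^j divides the order of no element inverted by α. Then the set of values of the j-th iterate of the map c ↦ c·α(c)⁻¹ is exactly the set of elements of odd order inverted by α. -/
theorem result {G : Type*} [Group G] [Finite G] (α : MulAut G) (hα : orderOf α = 2) (hG : Subgroup.closure (Set.range (fun c : G => c * (α c)⁻¹)) = ⊤)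
    (j : ℕ) (hj : ∀ g : G, α g = g⁻¹ → ¬ 2 ^ j ∣ orderOf g) :
    Set.range ((fun c : G => c * (α c)⁻¹)^[j]) = {g : G | Odd (orderOf g) ∧ α g = g⁻¹} := by
  have hαα : ∀ c : G, α (α c) = c := by
    intro c
    have h : α ^ 2 = 1 := by rw [← hα]; exact pow_orderOf_eq_one α
    have := congrArg (fun φ : MulAut G => φ c) h
    simpa [pow_two] using this
  have hj0 : j ≠ 0 := by
    rintro rfl
    exact hj 1 (by simp) (by simp)
  obtain ⟨k, rfl⟩ := Nat.exists_eq_succ_of_ne_zero hj0
  ext g
  simp only [Set.mem_range, Set.mem_ofPred_eq]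
  constructor
  · rintro ⟨c, rfl⟩
    rw [Function.iterate_succ_apply]
    set y : G := c * (α c)⁻¹ with hy
    have hyinv : α y = y⁻¹ := by
      rw [hy, map_mul, map_inv, hαα]
      group
    rw [iterate_inverted α k y hyinv]
    refine ⟨?_, by rw [map_pow, hyinv, inv_pow]⟩
    -- odd order
    have hn0 : orderOf y ≠ 0 := (orderOf_pos y).ne'
    obtain ⟨a, m, hm, hnm⟩ := Nat.exists_eq_two_pow_mul_odd hn0
    have hak : a ≤ k := by
      by_contra hak
      apply hj y hyinv
      rw [hnm]
      exact Dvd.dvd.mul_right (pow_dvd_pow 2 (by omega)) _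
    have hpow : (y ^ 2 ^ k) ^ m = 1 := by
      obtain ⟨b, rfl⟩ := Nat.exists_eq_add_of_le hak
      have : 2 ^ (a + b) * m = (2 ^ a * m) * 2 ^ b := by ring
      rw [← pow_mul, this, ← hnm, pow_mul, pow_orderOf_eq_one, one_pow]
    have hdvd := orderOf_dvd_of_pow_eq_one hpow
    exact hm.of_dvd_nat hdvd
  · rintro ⟨hodd, hinv⟩
    have hcop : Nat.Coprime (2 ^ (k + 1)) (orderOf g) :=
      (Nat.coprime_two_left.mpr hodd).pow_left _
    by_cases ho : orderOf g = 1
    · rw [orderOf_eq_one_iff] at ho
      subst ho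
      refine ⟨1, ?_⟩
      rw [iterate_inverted α _ 1 (by simp)]
      simp
    · have ho1 : 1 < orderOf g := by
        have := orderOf_pos g
        omega
      obtain ⟨t, -, ht⟩ := Nat.exists_mul_mod_eq_one_of_coprime hcop ho1
      refine ⟨g ^ t, ?_⟩
      rw [iterate_inverted α _ (g ^ t) (by rw [map_pow, hinv, inv_pow])]
      rw [← pow_mul, mul_comm t, ← pow_mod_orderOf, ht, pow_one]

end Cfsg.Agent.S3949
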