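import Cfsg.Statements.S0019
import Cfsg.Agent.Lib.Solvable.Basic

set_option autoImplicit false
open Cfsg

namespace Cfsg.Agent.S0019

universe u

/-- A `q`-subgroup `N` normalized by `H₁` with `G = H₁ H` and `q ∤ |G : H|` lies in `H`. -/
theorem le_of_factorization {G : Type u} [Group G] [Finite G] (q : ℕ) [hq : Fact q.Prime]
    (N H₁ H : Subgroup G) (hN : IsPGroup q N) (hN₁ : H₁ ≤ Subgroup.normalizer (N : Set G))
    (hfac : ∀ g : G, ∃ x ∈ H₁, ∃ y ∈ H, g = x * y) (hidx : ¬ q ∣ H.index) : N ≤ H := by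
  obtain ⟨c, hc⟩ := hN.nonempty_fixed_point_of_prime_not_dvd_card (G ⧸ H) hidx
  induction c using QuotientGroup.induction_on
  rename_i g
  have hfix : ∀ n ∈ N, g⁻¹ * n * g ∈ H := by
    intro n hn
    have h1 := hc ⟨n, hn⟩
    have h2 : ((n * g : G) : G ⧸ H) = (g : G ⧸ H) := h1
    rw [QuotientGroup.eq] at h2
    have h3 : (n * g)⁻¹ * g ∈ H := h2
    have h4 : g⁻¹ * n * g = ((n * g)⁻¹ * g)⁻¹ := by simp [mul_assoc]
    rw [h4]
    exact H.inv_mem h3
  obtain ⟨x, hx, y, hy, rfl⟩ := hfac g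
  intro n hn
  have hxn : x * n * x⁻¹ ∈ N := (Subgroup.mem_normalizer_iff.1 (hN₁ hx) n).1 hn
  have h1 := hfix _ hxn
  have h2 : (x * y)⁻¹ * (x * n * x⁻¹) * (x * y) = y⁻¹ * n * y := by
    simp [mul_assoc]
  rw [h2] at h1
  have h3 : n = y * (y⁻¹ * n * y) * y⁻¹ := by simp [mul_assoc]
  rw [h3]
  exact H.mul_mem (H.mul_mem hy h1) (H.inv_mem hy)

/-- The normal closure of `N` lies in `H`. -/
theorem normalClosure_le {G : Type u} [Group G] (N H₁ H : Subgroup G)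
    (hN₁ : H₁ ≤ Subgroup.normalizer (N : Set G))
    (hfac : ∀ g : G, ∃ x ∈ H₁, ∃ y ∈ H, g = x * y) (hNH : N ≤ H) :
    Subgroup.normalClosure (N : Set G) ≤ H := by
  rw [Subgroup.normalClosure, Subgroup.closure_le]
  intro z hz
  obtain ⟨n, hn, hnz⟩ := Group.mem_conjugatesOfSet_iff.1 hz
  obtain ⟨g, rfl⟩ := isConj_iff.1 hnz
  obtain ⟨x, hx, y, hy, hg⟩ := hfac g⁻¹
  have hg' : g = y⁻¹ * x⁻¹ := by
    rw [← inv_inj, hg]; simp
  have hxn : x⁻¹ * n * x ∈ N := by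
    have h1 := (Subgroup.mem_normalizer_iff.1 (hN₁ (H₁.inv_mem hx)) n).1 hn
    simpa using h1
  have h2 : g * n * g⁻¹ = y⁻¹ * (x⁻¹ * n * x) * y := by
    rw [hg']; simp [mul_assoc]
  change g * n * g⁻¹ ∈ H
  rw [h2]
  exact H.mul_mem (H.mul_mem (H.inv_mem hy) (hNH hxn)) hy

theorem main : ∀ (n : ℕ) (G : Type u) [Group G] [Finite G] (H₁ H₂ H₃ : Subgroup G),
    Nat.card G = n →
    Group.IsSolvable H₁ → Group.IsSolvable H₂ → Group.IsSolvable H₃ →
    (∀ g : G, ∃ x ∈ H₁, ∃ y ∈ H₂, g = x * y) → (∀ g : G, ∃ x ∈ H₁, ∃ y ∈ H₃, g = x * y) →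
    H₂.index.Coprime H₃.index → Group.IsSolvable G := by
  intro n
  induction n using Nat.strong_induction_on with
  | _ n ih =>
  intro G _ _ H₁ H₂ H₃ hn h₁ h₂ h₃ h12 h13 hcop
  by_cases hbot : H₁ = ⊥
  · -- then `H₂ = G`
    have htop : H₂ = ⊤ := by
      rw [eq_top_iff]
      intro g _
      obtain ⟨x, hx, y, hy, rfl⟩ := h12 g
      rw [hbot] at hx
      have : x = 1 := hx
      simpa [this] using hy
    subst htop
    exact Group.isSolvable_of_surjective (f := (⊤ : Subgroup G).subtype) (fun g => ⟨⟨g, trivial⟩, rfl⟩)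
  haveI := h₁
  haveI := h₂
  haveI := h₃
  haveI : Nontrivial H₁ := (Subgroup.nontrivial_iff_ne_bot H₁).2 hbot
  obtain ⟨N₀, q, hq, hmin, -, hexp⟩ := Cfsg.Agent.Lib.Solvable.Basic.exists_normal_elemAbelian (G := H₁)
  haveI : Fact q.Prime := ⟨hq⟩
  haveI : N₀.Normal := hmin.1
  let N : Subgroup G := N₀.map H₁.subtype
  have hNp : IsPGroup q N := (Cfsg.Agent.Lib.Solvable.Basic.isPGroup_of_pow_eq_one hexp).map H₁.subtype
  have hNne : N ≠ ⊥ := by
    intro h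
    apply hmin.2.1
    exact (Subgroup.map_eq_bot_iff_of_injective _ H₁.subtype_injective).1 h
  have hN₁ : H₁ ≤ Subgroup.normalizer (N : Set G) := by
    have h1 := Subgroup.le_normalizer_map (H := N₀) H₁.subtype
    rw [Subgroup.normalizer_eq_top_iff.2 ‹_›, ← MonoidHom.range_eq_map, Subgroup.range_subtype] at h1
    exact h1
  have hidx : ¬ q ∣ H₂.index ∨ ¬ q ∣ H₃.index := by
    by_contra hcon
    push Not at hcon
    have := Nat.dvd_gcd hcon.1 hcon.2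
    rw [Nat.Coprime.gcd_eq_one hcop] at this
    exact hq.one_lt.ne' (Nat.dvd_one.1 this)
  obtain ⟨H, hHs, hfac, hidx'⟩ : ∃ H : Subgroup G, Group.IsSolvable H ∧
      (∀ g : G, ∃ x ∈ H₁, ∃ y ∈ H, g = x * y) ∧ ¬ q ∣ H.index := by
    rcases hidx with h | h
    · exact ⟨H₂, h₂, h12, h⟩
    · exact ⟨H₃, h₃, h13, h⟩
  have hNH := le_of_factorization q N H₁ H hNp hN₁ hfac hidx'
  have hMH := normalClosure_le N H₁ H hN₁ hfac hNH
  let M : Subgroup G := Subgroup.normalClosure (N : Set G)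
  have hNM : N ≤ M := Subgroup.le_normalClosure
  have hMne : M ≠ ⊥ := fun h => hNne (le_bot_iff.1 (h ▸ hNM))
  haveI hMs : Group.IsSolvable M :=
    Group.isSolvable_of_isSolvable_injective (f := Subgroup.inclusion hMH)
      (Subgroup.inclusion_injective hMH)
  let π : G →* G ⧸ M := QuotientGroup.mk' M
  have hπ : Function.Surjective π := QuotientGroup.mk'_surjective _
  have hlt : Nat.card (G ⧸ M) < n := by
    rw [← hn]
    have h1 : Nat.card (G ⧸ M) * Nat.card M = Nat.card G := by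
      rw [mul_comm]; exact Subgroup.card_mul_index M
    have h2 : 1 < Nat.card M := (Subgroup.one_lt_card_iff_ne_bot M).2 hMne
    have h3 : 0 < Nat.card (G ⧸ M) := Nat.card_pos
    rw [← h1]
    exact lt_mul_of_one_lt_right h3 h2
  have himg : ∀ L : Subgroup G, Group.IsSolvable L → Group.IsSolvable (L.map π) := by
    intro L hL
    exact Group.isSolvable_of_surjective (f := π.subgroupMap L) (π.subgroupMap_surjective L)
  have hfacimg : ∀ L₁ L₂ : Subgroup G, (∀ g : G, ∃ x ∈ L₁, ∃ y ∈ L₂, g = x * y) →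
      (∀ z : G ⧸ M, ∃ x ∈ L₁.map π, ∃ y ∈ L₂.map π, z = x * y) := by
    intro L₁ L₂ hL z
    obtain ⟨g, rfl⟩ := hπ z
    obtain ⟨x, hx, y, hy, rfl⟩ := hL g
    exact ⟨π x, ⟨x, hx, rfl⟩, π y, ⟨y, hy, rfl⟩, map_mul π x y⟩
  have hquot : Group.IsSolvable (G ⧸ M) :=
    ih _ hlt (G ⧸ M) (H₁.map π) (H₂.map π) (H₃.map π) rfl (himg _ h₁) (himg _ h₂) (himg _ h₃)
      (hfacimg _ _ h12) (hfacimg _ _ h13)
      (Nat.Coprime.coprime_dvd_left (Subgroup.index_map_dvd _ hπ)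
        (Nat.Coprime.coprime_dvd_right (Subgroup.index_map_dvd _ hπ) hcop))
  exact (Group.isSolvable_iff_subgroup_quotient M).2 ⟨hMs, hquot⟩

/-- A finite group that factorises as H₁H₂ and as H₁H₃ with all three subgroups solvable and the indices of H₂ and H₃ coprime is solvable. -/
theorem result {G : Type*} [Group G] [Finite G] (H₁ H₂ H₃ : Subgroup G)
    (h₁ : Group.IsSolvable H₁) (h₂ : Group.IsSolvable H₂) (h₃ : Group.IsSolvable H₃)
    (h12 : ∀ g : G, ∃ x ∈ H₁, ∃ y ∈ H₂, g = x * y) (h13 : ∀ g : G, ∃ x ∈ H₁, ∃ y ∈ H₃, g = x * y)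
    (hcop : H₂.index.Coprime H₃.index) : Group.IsSolvable G :=
  main _ G H₁ H₂ H₃ rfl h₁ h₂ h₃ h12 h13 hcop

end Cfsg.Agent.S0019
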