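import Cfsg.Statements.S0107
import Cfsg.Agent.S0111
import Mathlib.GroupTheory.SpecificGroups.Dihedral

set_option autoImplicit false
open Cfsg

namespace Cfsg.Agent.S0107

open DihedralGroup

/-- The rotation subgroup of a dihedral group. -/
def rot (m : ℕ) : Subgroup (DihedralGroup m) where
  carrier := {x | ∃ i, x = r i}
  mul_mem' := by
    rintro _ _ ⟨i, rfl⟩ ⟨j, rfl⟩
    exact ⟨i + j, by simp⟩
  one_mem' := ⟨0, rfl⟩
  inv_mem' := by
    rintro _ ⟨i, rfl⟩
    exact ⟨-i, by simp⟩

theorem two_torsion_unique {n : ℕ} (hn : 1 ≤ n) (i j : ZMod (2 ^ n)) (hi : i + i = 0)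
    (hi0 : i ≠ 0) (hj : j + j = 0) (hj0 : j ≠ 0) : i = j := by
  have key : ∀ k : ZMod (2 ^ n), k + k = 0 → k ≠ 0 → k.val = 2 ^ (n - 1) := by
    intro k hk hk0
    have h1 : ((2 * k.val : ℕ) : ZMod (2 ^ n)) = 0 := by
      push_cast
      rw [ZMod.natCast_zmod_val, two_mul, hk]
    rw [ZMod.natCast_eq_zero_iff] at h1
    obtain ⟨m, rfl⟩ : ∃ m, n = m + 1 := ⟨n - 1, by omega⟩
    have hlt : k.val < 2 ^ (m + 1) := ZMod.val_lt k
    have hne : k.val ≠ 0 := by
      rwa [Ne, ZMod.val_eq_zero]
    obtain ⟨c, hc⟩ := h1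
    have h2 : k.val = 2 ^ m * c := by
      have : 2 * k.val = 2 * (2 ^ m * c) := by rw [hc]; ring
      omega
    have hc0 : c ≠ 0 := by
      rintro rfl
      simp at h2
      exact hk0 h2
    have hc1 : c < 2 := by
      by_contra hcon
      have h3 : 2 ^ (m + 1) ≤ k.val := by
        rw [h2, pow_succ]
        exact Nat.mul_le_mul_left _ (by omega)
      omega
    have : c = 1 := by omega
    simp [h2, this]
  have h1 := key i hi hi0
  have h2 := key j hj hj0
  exact ZMod.val_injective _ (h1.trans h2.symm)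

theorem not_normal_index_two {G : Type*} [Group G] [Finite G]
    (hO : Cfsg.pResidual 2 G = ⊤) (M : Subgroup G) (hM : M.Normal) (hi : M.index = 2) : False := by
  have h1 : Cfsg.pResidual 2 G ≤ M := by
    rw [Cfsg.pResidual, Subgroup.closure_le]
    intro g hg
    have hg' : Nat.Coprime (orderOf g) 2 := hg
    have hodd : Odd (orderOf g) := Nat.Coprime.odd_of_right hg'
    obtain ⟨k, hk⟩ := hodd
    have hsq : g ^ 2 ∈ M := by
      have := M.pow_index_mem g
      rwa [hi] at this
    have h2 : g = (g ^ 2) ^ (k + 1) := by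
      rw [← pow_mul]
      have : 2 * (k + 1) = orderOf g + 1 := by omega
      rw [this, pow_succ, pow_orderOf_eq_one, one_mul]
    rw [h2]
    exact Subgroup.pow_mem _ hsq _
  rw [hO] at h1
  have h2 : M = ⊤ := top_le_iff.1 h1
  rw [h2, Subgroup.index_top] at hi
  omega

/-- A finite group with no nontrivial 2-group quotient and dihedral Sylow 2-subgroups of order at least 8 has a single class of involutions. -/
theorem result {G : Type*} [Group G] [Finite G] (T : Sylow 2 G) (n : ℕ) (hn : 2 ≤ n) (hT : Nonempty ((T : Subgroup G) ≃* DihedralGroup (2 ^ n))) (hO : Cfsg.pResidual 2 G = ⊤) (x y : G) (hx : orderOf x = 2) (hy : orderOf y = 2) : ∃ g : G, g * x * g⁻¹ = y := by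
  obtain ⟨e⟩ := hT
  let Q' : Subgroup (T : Subgroup G) := (rot (2 ^ n)).comap e.toMonoidHom
  let Q : Subgroup G := Q'.map (T : Subgroup G).subtype
  have hQle : Q ≤ (T : Subgroup G) := Subgroup.map_subtype_le _
  have hmemQ : ∀ t : (T : Subgroup G), (t : G) ∈ Q ↔ ∃ i, e t = r i := by
    intro t
    constructor
    · rintro ⟨s, hs, hst⟩
      have : s = t := Subtype.ext hst
      rw [← this]
      exact hs
    · intro h
      exact ⟨t, h, rfl⟩
  have hQi : Q.relIndex (T : Subgroup G) = 2 := by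
    rw [Subgroup.relIndex_eq_two_iff]
    refine ⟨(e.symm (sr 0) : (T : Subgroup G)), (e.symm (sr 0) : (T : Subgroup G)).2, ?_⟩
    intro b hb
    have h1 := hmemQ ⟨b, hb⟩
    have h2 := hmemQ (⟨b, hb⟩ * e.symm (sr 0))
    simp only [Subgroup.coe_mul] at h2
    rw [h1, h2, map_mul, MulEquiv.apply_symm_apply]
    rcases hd : e ⟨b, hb⟩ with i | i
    · simp [xor_iff_or_and_not_and]
    · simp [xor_iff_or_and_not_and]
  -- involutions in Q are unique
  have hQuniq : ∀ a ∈ Q, ∀ b ∈ Q, orderOf a = 2 → orderOf b = 2 → a = b := by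
    intro a ha b hb hoa hob
    have haT := hQle ha
    have hbT := hQle hb
    obtain ⟨i, hi⟩ := (hmemQ ⟨a, haT⟩).1 ha
    obtain ⟨j, hj⟩ := (hmemQ ⟨b, hbT⟩).1 hb
    have hoa' : orderOf (r i) = 2 := by
      rw [← hi, MulEquiv.orderOf_eq, Subgroup.orderOf_mk, hoa]
    have hob' : orderOf (r j) = 2 := by
      rw [← hj, MulEquiv.orderOf_eq, Subgroup.orderOf_mk, hob]
    have hi2 : i + i = 0 := by
      have h3 : (r i : DihedralGroup (2 ^ n)) ^ 2 = 1 := by
        have := pow_orderOf_eq_one (r i : DihedralGroup (2 ^ n))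
        rwa [hoa'] at this
      rw [pow_two, r_mul_r, one_def, r.injEq] at h3
      exact h3
    have hj2 : j + j = 0 := by
      have h3 : (r j : DihedralGroup (2 ^ n)) ^ 2 = 1 := by
        have := pow_orderOf_eq_one (r j : DihedralGroup (2 ^ n))
        rwa [hob'] at this
      rw [pow_two, r_mul_r, one_def, r.injEq] at h3
      exact h3
    have hi0 : i ≠ 0 := by
      rintro rfl
      rw [← one_def, orderOf_one] at hoa'
      omega
    have hj0 : j ≠ 0 := by
      rintro rfl
      rw [← one_def, orderOf_one] at hob'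
      omega
    have hij := two_torsion_unique (by omega) i j hi2 hi0 hj2 hj0
    have : (⟨a, haT⟩ : (T : Subgroup G)) = ⟨b, hbT⟩ := by
      apply e.injective
      rw [hi, hj, hij]
    exact congrArg Subtype.val this
  -- every involution of G is conjugate into Q
  have hconj : ∀ u : G, orderOf u = 2 → ∃ g : G, g * u * g⁻¹ ∈ Q := by
    intro u hu
    -- conjugate u into T
    have hup : IsPGroup 2 (Subgroup.zpowers u) := by
      apply IsPGroup.of_card (n := 1)
      rw [Nat.card_zpowers, hu, pow_one]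
    obtain ⟨R, hR⟩ := hup.exists_le_sylow
    obtain ⟨g, hg⟩ := MulAction.exists_smul_eq G R T
    have huT : g * u * g⁻¹ ∈ (T : Subgroup G) := by
      rw [← hg, Sylow.coe_subgroup_smul, Subgroup.mem_pointwise_smul_iff_inv_smul_mem]
      have : u ∈ (R : Subgroup G) := hR (Subgroup.mem_zpowers u)
      simpa [MulAut.smul_def, mul_assoc] using this
    have hu' : orderOf (g * u * g⁻¹) = 2 := by
      have := (MulAut.conj g).orderOf_eq u
      rwa [MulAut.conj_apply, hu] at this
    by_cases huQ : g * u * g⁻¹ ∈ Q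
    · exact ⟨g, huQ⟩
    · rcases Cfsg.Agent.S0111.result T Q hQle hQi _ hu' huT huQ with ⟨M, hM, hMi, -⟩ | ⟨k, hk⟩
      · exact (not_normal_index_two hO M hM hMi).elim
      · refine ⟨k * g, ?_⟩
        have : k * g * u * (k * g)⁻¹ = k * (g * u * g⁻¹) * k⁻¹ := by group
        rw [this]
        exact hk
  obtain ⟨a, ha⟩ := hconj x hx
  obtain ⟨b, hb⟩ := hconj y hy
  have hoa : orderOf (a * x * a⁻¹) = 2 := by
    have := (MulAut.conj a).orderOf_eq x
    rwa [MulAut.conj_apply, hx] at this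
  have hob : orderOf (b * y * b⁻¹) = 2 := by
    have := (MulAut.conj b).orderOf_eq y
    rwa [MulAut.conj_apply, hy] at this
  have heq := hQuniq _ ha _ hb hoa hob
  refine ⟨b⁻¹ * a, ?_⟩
  have : b⁻¹ * a * x * (b⁻¹ * a)⁻¹ = b⁻¹ * (a * x * a⁻¹) * b := by group
  rw [this, heq]
  group

end Cfsg.Agent.S0107
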