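import Cfsg.Statements.S4057
import Cfsg.Agent.Lib.PCentral.Basic
import Cfsg.Agent.Lib.PCentral.Patterson

set_option autoImplicit false
open Cfsg

namespace Cfsg.Agent.S4057

open Subgroup
open Cfsg.Agent.Lib.PCentral.Basic Cfsg.Agent.Lib.PCentral.Patterson

/-- The linear statement in abstract form. -/
theorem exists_generators_of_linear {p : ℕ} [hpf : Fact p.Prime] {X : Type*} [Group X] [Finite X]
    (hX : IsPGroup p X) {V : Type*} [AddCommGroup V] [Module (ZMod p) V] [Finite V]
    (ρ : X →* (V →ₗ[ZMod p] V)) (K : Subgroup X) (hK : ∀ x, ρ x = 1 → x ∈ K) :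
    ∃ n : ℕ, Nat.card V = p ^ n ∧
      (∀ T : Finset V, Submodule.span (ZMod p) (T : Set V) = ⊤ → n ≤ T.card) ∧
      ∃ S : Finset X, S.card ≤ n * n / 4 ∧ closure (S : Set X) ⊔ K = ⊤ := by
  classical
  haveI : Module.Finite (ZMod p) V := Module.Finite.of_finite
  refine ⟨Module.finrank (ZMod p) V, ?_, ?_, exists_generators_mod_ker_linear hX ρ K hK⟩
  · have h1 : Nat.card V = Nat.card (ZMod p) ^ Module.finrank (ZMod p) V :=
      Module.natCard_eq_pow_finrank
    rw [Nat.card_eq_fintype_card (α := ZMod p), ZMod.card] at h1
    exact h1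
  · intro T hT
    have h1 := finrank_span_finset_le_card (R := ZMod p) T
    rw [Set.finrank, hT, finrank_top] at h1
    exact h1

/-- The conjugation action on an elementary abelian group is linear. -/
theorem exists_generators_of_mulAut {p : ℕ} [hpf : Fact p.Prime] {X : Type*} [Group X] [Finite X]
    (hX : IsPGroup p X) {W : Type*} [CommGroup W] [Finite W] (hW : ∀ w : W, w ^ p = 1)
    (φ : X →* MulAut W) (K : Subgroup X) (hK : ∀ x, φ x = 1 → x ∈ K) :
    ∃ n : ℕ, Nat.card W = p ^ n ∧ (∀ T : Finset W, closure (T : Set W) = ⊤ → n ≤ T.card) ∧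
      ∃ S : Finset X, S.card ≤ n * n / 4 ∧ closure (S : Set X) ⊔ K = ⊤ := by
  classical
  obtain ⟨hmod⟩ : Nonempty (Module (ZMod p) (Additive W)) := ⟨AddCommGroup.zmodModule (n := p) (by
    intro v
    show Additive.ofMul (Additive.toMul v ^ p) = 0
    rw [hW]; rfl)⟩
  haveI := hmod
  let ρ : X →* (Additive W →ₗ[ZMod p] Additive W) :=
    { toFun := fun x => (MonoidHom.toAdditive (φ x).toMonoidHom).toZModLinearMap p
      map_one' := by
        refine LinearMap.ext fun v => ?_
        show Additive.ofMul ((φ 1) (Additive.toMul v)) = v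
        rw [map_one]; rfl
      map_mul' := by
        intro a b
        refine LinearMap.ext fun v => ?_
        show Additive.ofMul ((φ (a * b)) (Additive.toMul v)) =
          Additive.ofMul ((φ a) ((φ b) (Additive.toMul v)))
        rw [map_mul]; rfl }
  haveI : Finite (Additive W) := inferInstanceAs (Finite W)
  obtain ⟨n, h1, h2, h3⟩ := exists_generators_of_linear hX ρ K (by
    intro x hx
    apply hK
    ext w
    have h1 := LinearMap.congr_fun hx (Additive.ofMul w)
    exact congrArg Additive.toMul h1)
  refine ⟨n, h1, ?_, h3⟩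
  intro T hT
  have hspan : Submodule.span (ZMod p)
      ((T.image Additive.ofMul : Finset (Additive W)) : Set (Additive W)) = ⊤ := by
    rw [eq_top_iff, SetLike.le_def]
    have hall : ∀ w : W, w ∈ closure (T : Set W) → Additive.ofMul w ∈ Submodule.span (ZMod p)
        ((T.image Additive.ofMul : Finset (Additive W)) : Set (Additive W)) := by
      intro w hw
      induction hw using closure_induction with
      | mem u hu =>
        apply Submodule.subset_span
        simp only [Finset.coe_image]
        exact ⟨u, hu, rfl⟩
      | one => exact Submodule.zero_mem _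
      | mul a b _ _ iha ihb => exact Submodule.add_mem _ iha ihb
      | inv a _ iha => exact Submodule.neg_mem _ iha
    intro v _
    exact hall (Additive.toMul v) (hT ▸ mem_top _)
  exact (h2 _ hspan).trans Finset.card_image_le

/-- Let p be an odd prime and P a finite p-group in which every normal abelian subgroup can be generated by k elements. Then every subgroup of P can be generated by at most ⌊k(k+4)/4⌋ elements. -/
theorem result {P : Type*} [Group P] [Finite P] {p : ℕ} [Fact p.Prime]
    (hp : p ≠ 2) (hP : IsPGroup p P) (k : ℕ)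
    (hab : ∀ A : Subgroup P, A.Normal → IsMulCommutative A → ∃ S : Finset P, S.card ≤ k ∧ Subgroup.closure (S : Set P) = A) :
    ∀ H : Subgroup P, ∃ S : Finset P, S.card ≤ k * (k + 4) / 4 ∧ Subgroup.closure (S : Set P) = H := by
  classical
  intro H
  -- a maximal normal elementary abelian subgroup
  obtain ⟨E, -, hEmax⟩ := (Set.toFinite {E : Subgroup P | E.Normal ∧ IsMulCommutative E ∧
      ∀ a ∈ E, a ^ p = 1}).exists_le_maximal
    (a := (⊥ : Subgroup P)) ⟨inferInstance, ⟨⟨by
      intro a b
      exact Subsingleton.elim _ _⟩⟩, by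
      intro a ha
      rw [mem_bot] at ha
      rw [ha, one_pow]⟩
  obtain ⟨⟨hEn, hEc, hEp⟩, hEm⟩ := hEmax
  haveI := hEn
  have hOmega := mem_of_mem_centralizer hp hP E hEn hEc hEp
    (fun T hT1 hT2 hT3 hET => hEm ⟨hT1, hT2, hT3⟩ hET)
  -- `E` as a commutative group
  letI instE : CommGroup E :=
    { (inferInstance : Group E) with
      mul_comm := fun a b => hEc.is_comm.comm a b }
  -- the action of `H`
  let φ : H →* MulAut E := (MulAut.conjNormal (H := E)).comp H.subtype
  let K : Subgroup H := (centralizer (E : Set P)).subgroupOf H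
  have hKmem : ∀ x : H, x ∈ K ↔ (x : P) ∈ centralizer (E : Set P) := fun x => mem_subgroupOf
  obtain ⟨n, hn, hnT, S₁, hS₁, hS₁c⟩ := exists_generators_of_mulAut (hP.to_subgroup H)
    (W := E) (by
      intro w
      apply Subtype.ext
      simpa using hEp w.1 w.2) φ K (by
      intro x hx
      rw [hKmem, mem_centralizer_iff]
      intro e he
      have h1 := congrArg (fun f : MulAut E => (f ⟨e, he⟩ : E)) hx
      have h2 : (x : P) * e * (x : P)⁻¹ = e := by
        simpa [φ, MulAut.conjNormal_apply] using congrArg Subtype.val h1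
      rw [mul_inv_eq_iff_eq_mul] at h2
      exact h2.symm)
  -- the bound `n ≤ k`
  have hnk : n ≤ k := by
    obtain ⟨S, hS, hSc⟩ := hab E hEn hEc
    refine le_trans (hnT (S.subtype (· ∈ E)) ?_) ((Finset.card_subtype _ _).le.trans
      ((Finset.card_filter_le _ _).trans hS))
    apply Subgroup.map_injective E.subtype_injective
    rw [MonoidHom.map_closure, ← MonoidHom.range_eq_map, range_subtype, ← hSc]
    congr 1
    ext y
    simp only [Set.mem_image, Finset.mem_coe, Finset.mem_subtype, subtype_apply]
    constructor
    · rintro ⟨z, hz, rfl⟩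
      exact hz
    · intro hy
      refine ⟨⟨y, ?_⟩, hy, rfl⟩
      exact Subgroup.subset_closure hy
  -- the kernel is `p`-central
  have hKcentral : IsPCentral p K := by
    intro x hx
    have hxp : ((x : H) : P) ^ p = 1 := by
      have := congrArg (fun y : K => ((y : H) : P)) hx
      simpa using this
    have hxC : ((x : H) : P) ∈ centralizer (E : Set P) := (hKmem _).mp x.2
    have hxE := hOmega _ hxC hxp
    rw [mem_center_iff]
    intro g
    have hgC := (hKmem _).mp g.2
    rw [mem_centralizer_iff] at hgC
    apply Subtype.ext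
    apply Subtype.ext
    exact (hgC _ hxE).symm
  have hKcard : Nat.card {x : K // x ^ p = 1} ≤ p ^ n := by
    rw [← hn]
    refine Nat.card_le_card_of_injective (fun x => (⟨((x.1 : H) : P), by
      refine hOmega _ ((hKmem _).mp x.1.2) ?_
      have := congrArg (fun y : K => ((y : H) : P)) x.2
      simpa using this⟩ : E)) ?_
    intro a b hab'
    have := congrArg (fun y : E => (y : P)) hab'
    exact Subtype.ext (Subtype.ext (Subtype.ext this))
  obtain ⟨S₂, hS₂, hS₂c⟩ := exists_generators hp ((hP.to_subgroup H).to_subgroup K) hKcentral n hKcard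
  -- assembling the generators
  refine ⟨S₁.image (fun x : H => (x : P)) ∪ S₂.image (fun x : K => ((x : H) : P)), ?_, ?_⟩
  · have h1 : (S₁.image (fun x : H => (x : P)) ∪ S₂.image (fun x : K => ((x : H) : P))).card
        ≤ n * n / 4 + n :=
      (Finset.card_union_le _ _).trans
        (add_le_add (Finset.card_image_le.trans hS₁) (Finset.card_image_le.trans hS₂))
    have h2 : k * (k + 4) / 4 = k * k / 4 + k := by
      rw [mul_add, mul_comm k 4, Nat.add_mul_div_left _ _ (by norm_num)]
    rw [h2]
    have h3 : n * n / 4 ≤ k * k / 4 := Nat.div_le_div_right (Nat.mul_le_mul hnk hnk)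
    omega
  · apply le_antisymm
    · rw [closure_le]
      intro y hy
      simp only [Finset.coe_union, Finset.coe_image, Set.mem_union, Set.mem_image,
        Finset.mem_coe] at hy
      rcases hy with ⟨x, -, rfl⟩ | ⟨x, -, rfl⟩
      · exact x.2
      · exact x.1.2
    · set L := closure ((S₁.image (fun x : H => (x : P)) ∪
        S₂.image (fun x : K => ((x : H) : P)) : Finset P) : Set P) with hL
      have h1 : closure (S₁ : Set H) ≤ L.subgroupOf H := by
        rw [closure_le]
        intro x hx
        rw [SetLike.mem_coe, mem_subgroupOf]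
        apply Subgroup.subset_closure
        simp only [Finset.coe_union, Finset.coe_image]
        exact Or.inl ⟨x, hx, rfl⟩
      have h2 : K ≤ L.subgroupOf H := by
        intro x hx
        rw [mem_subgroupOf]
        have hmem : (⟨x, hx⟩ : K) ∈ closure (S₂ : Set K) := hS₂c ▸ mem_top _
        have hle : closure (S₂ : Set K) ≤ (L.subgroupOf H).subgroupOf K := by
          rw [closure_le]
          intro y hy
          rw [SetLike.mem_coe, mem_subgroupOf, mem_subgroupOf]
          apply Subgroup.subset_closure
          simp only [Finset.coe_union, Finset.coe_image]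
          exact Or.inr ⟨y, hy, rfl⟩
        have := hle hmem
        rwa [mem_subgroupOf, mem_subgroupOf] at this
      have h3 : (⊤ : Subgroup H) ≤ L.subgroupOf H := by
        rw [← hS₁c]
        exact sup_le h1 h2
      intro y hy
      have := h3 (mem_top (⟨y, hy⟩ : H))
      rwa [mem_subgroupOf] at this

end Cfsg.Agent.S4057
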