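import Cfsg.Statements.S0122
import Cfsg.Agent.S4057
import Cfsg.Agent.Lib.PGroups.NormalRankTwo

set_option autoImplicit false
open Cfsg

namespace Cfsg.Agent.S0122

open Subgroup
open scoped commutatorElement
open Cfsg.Agent.Lib.PCentral.Basic

theorem card_lt_of_inj {α β : Type*} [Finite β] (f : α → β) (hf : Function.Injective f) {b : β}
    (hb : b ∉ Set.range f) : Nat.card α < Nat.card β := by
  classical
  haveI := Finite.of_injective f hf
  letI := Fintype.ofFinite α
  letI := Fintype.ofFinite β
  rw [Nat.card_eq_fintype_card, Nat.card_eq_fintype_card]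
  exact Fintype.card_lt_of_injective_of_notMem f hf hb

theorem card_inf_mul_relIndex {G : Type*} [Group G] (H K : Subgroup G) :
    Nat.card ↥(H ⊓ K) * H.relIndex K = Nat.card K := by
  have h1 := (H.subgroupOf K).card_mul_index
  have h2 : Nat.card ↥(H.subgroupOf K) = Nat.card ↥(H ⊓ K) := by
    rw [← inf_subgroupOf_right]
    exact Nat.card_congr (subgroupOfEquivOfLe inf_le_right).toEquiv
  rw [h2] at h1
  exact h1

/-- A quotient of an elementary abelian group generated by `S`. -/
theorem index_le_of_sup_eq_top {p : ℕ} [hpf : Fact p.Prime] {X : Type*} [CommGroup X] [Finite X]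
    (hX : ∀ x : X, x ^ p = 1) (S : Finset X) (K : Subgroup X)
    (h : closure (S : Set X) ⊔ K = ⊤) : K.index ≤ p ^ S.card := by
  classical
  have hY : ∀ y : X ⧸ K, y ^ p = 1 := by
    intro y
    obtain ⟨x, rfl⟩ := QuotientGroup.mk_surjective y
    rw [← QuotientGroup.mk_pow, hX, QuotientGroup.mk_one]
  have hYp : IsPGroup p (X ⧸ K) := fun y => ⟨1, by rw [pow_one]; exact hY y⟩
  obtain ⟨n, hn, hT, -⟩ := Cfsg.Agent.S4057.exists_generators_of_mulAut (X := X ⧸ K) hYp
    (W := X ⧸ K) hY 1 ⊤ (fun _ _ => mem_top _)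
  have hcl : closure ((S.image (QuotientGroup.mk' K) : Finset (X ⧸ K)) : Set (X ⧸ K)) = ⊤ := by
    rw [Finset.coe_image, ← MonoidHom.map_closure]
    have h2 := congrArg (Subgroup.map (QuotientGroup.mk' K)) h
    rw [Subgroup.map_sup, QuotientGroup.map_mk'_self, sup_bot_eq,
      map_top_of_surjective _ (QuotientGroup.mk'_surjective K)] at h2
    exact h2
  have h3 := (hT _ hcl).trans Finset.card_image_le
  have h4 : K.index = Nat.card (X ⧸ K) := rfl
  rw [h4, hn]
  exact Nat.pow_le_pow_right hpf.out.pos h3

theorem main {G : Type*} [Group G] [Finite G] {p : ℕ} [hpf : Fact p.Prime] (hp : p ≠ 2)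
    (hG : IsPGroup p G) (A : Subgroup G) (hAc : IsMulCommutative A) (hAp : ∀ a ∈ A, a ^ p = 1)
    (hA4 : Nat.card A = p ^ 4) :
    ∃ B : Subgroup G, B.Normal ∧ Cfsg.IsElementaryAbelian p B ∧ Nat.card B = p ^ 4 := by
  classical
  have hp2 : 2 ≤ p := hpf.out.two_le
  have hppos : 0 < p := hpf.out.pos
  -- a maximal normal elementary abelian subgroup
  obtain ⟨E, -, hEmax⟩ := (Set.toFinite {E : Subgroup G | E.Normal ∧ IsMulCommutative E ∧
      ∀ a ∈ E, a ^ p = 1}).exists_le_maximal
    (a := (⊥ : Subgroup G)) ⟨inferInstance, ⟨⟨by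
      intro a b
      exact Subsingleton.elim _ _⟩⟩, by
      intro a ha
      rw [mem_bot] at ha
      rw [ha, one_pow]⟩
  obtain ⟨⟨hEn, hEc, hEp⟩, hEm⟩ := hEmax
  haveI := hEn
  have hOmega := mem_of_mem_centralizer hp hG E hEn hEc hEp
    (fun T hT1 hT2 hT3 hET => hEm ⟨hT1, hT2, hT3⟩ hET)
  have hcommE : ∀ a ∈ E, ∀ b ∈ E, a * b = b * a := fun a ha b hb =>
    congrArg Subtype.val (hEc.is_comm.comm (⟨a, ha⟩ : E) ⟨b, hb⟩)
  have hcommA : ∀ a ∈ A, ∀ b ∈ A, a * b = b * a := fun a ha b hb =>
    congrArg Subtype.val (hAc.is_comm.comm (⟨a, ha⟩ : A) ⟨b, hb⟩)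
  by_cases hbig : p ^ 4 ≤ Nat.card E
  · -- a normal subgroup of `E` of order `p ^ 4`
    obtain ⟨e, he⟩ := (hG.to_subgroup E).exists_card_eq
    have hdvd : p ^ 4 ∣ Nat.card E := by
      rw [he]
      refine pow_dvd_pow p ?_
      rw [he] at hbig
      exact (Nat.pow_le_pow_iff_right hpf.out.one_lt).mp hbig
    obtain ⟨L, hLn, hLE, hLc⟩ :=
      Cfsg.Agent.Lib.PGroups.NormalRankTwo.exists_normal_le_card_eq hG E 4 hdvd
    refine ⟨L, hLn, ⟨⟨⟨?_⟩⟩, fun a ha => hEp a (hLE ha)⟩, hLc⟩
    intro a b
    exact Subtype.ext (hcommE a.1 (hLE a.2) b.1 (hLE b.2))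
  · refine ⟨A, ?_, ⟨hAc, hAp⟩, hA4⟩
    rw [not_le] at hbig
    -- the action of `A` on `E`
    letI instE : CommGroup E :=
      { (inferInstance : Group E) with
        mul_comm := fun a b => hEc.is_comm.comm a b }
    letI instA : CommGroup A :=
      { (inferInstance : Group A) with
        mul_comm := fun a b => hAc.is_comm.comm a b }
    let φ : A →* MulAut E := (MulAut.conjNormal (H := E)).comp A.subtype
    let K : Subgroup A := (centralizer (E : Set G)).subgroupOf A
    have hKmem : ∀ x : A, x ∈ K ↔ (x : G) ∈ centralizer (E : Set G) := fun x => mem_subgroupOf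
    obtain ⟨n, hn, -, S, hS, hSc⟩ := Cfsg.Agent.S4057.exists_generators_of_mulAut
      (hG.to_subgroup A) (W := E) (by
        intro w
        apply Subtype.ext
        simpa using hEp w.1 w.2) φ K (by
        intro x hx
        rw [hKmem, mem_centralizer_iff]
        intro e he
        have h1 := congrArg (fun f : MulAut E => (f ⟨e, he⟩ : E)) hx
        have h2 : (x : G) * e * (x : G)⁻¹ = e := by
          simpa [φ, MulAut.conjNormal_apply] using congrArg Subtype.val h1
        rw [mul_inv_eq_iff_eq_mul] at h2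
        exact h2.symm)
    have hidx : K.index ≤ p ^ (n * n / 4) := by
      refine (index_le_of_sup_eq_top (X := A) (by
        intro x
        apply Subtype.ext
        simpa using hAp x.1 x.2) S K hSc).trans ?_
      exact Nat.pow_le_pow_right hppos hS
    have hn3 : n ≤ 3 := by
      rw [hn] at hbig
      have := (Nat.pow_lt_pow_iff_right hpf.out.one_lt).mp hbig
      omega
    set W := A ⊓ E with hW
    have hKW : Nat.card K ≤ Nat.card W := by
      refine Nat.card_le_card_of_injective (fun x => (⟨((x : A) : G), (x : A).2, ?_⟩ : W)) ?_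
      · exact hOmega _ ((hKmem _).mp x.2) (hAp _ (x : A).2)
      · intro a b hab
        have h := congrArg (fun y : W => (y : G)) hab
        exact Subtype.ext (Subtype.ext h)
    have hprod : Nat.card K * K.index = p ^ 4 := by
      rw [K.card_mul_index, hA4]
    have hWE : W ≠ E := by
      intro h
      have hEA : E ≤ A := by
        rw [← h]; exact inf_le_left
      have hAC : A ≤ E := by
        intro a ha
        refine hOmega a ?_ (hAp a ha)
        rw [mem_centralizer_iff]
        intro e he
        exact hcommA e (hEA he) a ha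
      have := Subgroup.card_le_of_le hAC
      omega
    have hWltE : W < E := lt_of_le_of_ne inf_le_right hWE
    obtain ⟨r, hr⟩ := (hG.to_subgroup W).exists_card_eq
    have hrn : r < n := by
      have := Cfsg.Agent.Lib.PGroups.Basic.card_lt_of_lt hWltE
      rw [hr, hn] at this
      exact (Nat.pow_lt_pow_iff_right hpf.out.one_lt).mp this
    have h4 : p ^ 4 ≤ p ^ (r + n * n / 4) := by
      rw [pow_add, ← hprod, ← hr]
      exact Nat.mul_le_mul hKW hidx
    have h4' : 4 ≤ r + n * n / 4 := (Nat.pow_le_pow_iff_right hpf.out.one_lt).mp h4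
    have hn' : n = 3 ∧ r = 2 := by
      interval_cases n <;> simp at h4' <;> omega
    obtain ⟨rfl, rfl⟩ := hn'
    have hidx2 : K.index = p ^ 2 := by
      have h5 : K.index ≤ p ^ 2 := by simpa using hidx
      have h6 : Nat.card K ≤ p ^ 2 := hr ▸ hKW
      have h7 : p ^ 4 = p ^ 2 * p ^ 2 := by ring
      have hpos : 0 < p ^ 2 := by positivity
      rw [h7] at hprod
      by_contra hne
      have h8 : K.index < p ^ 2 := lt_of_le_of_ne h5 hne
      have := Nat.mul_lt_mul_of_le_of_lt h6 h8 hpos
      omega
    -- subgroups between `W` and `E`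
    have hbetween : ∀ T : Subgroup G, W ≤ T → T ≤ E → ∀ m ∈ T, m ∉ W → T = E := by
      intro T hWT hTE m hmT hmW
      have hlt : W < T := lt_of_le_of_ne hWT (fun h => hmW (h ▸ hmT))
      have h1 := Cfsg.Agent.Lib.PGroups.Basic.card_lt_of_lt hlt
      obtain ⟨t, ht⟩ := (hG.to_subgroup T).exists_card_eq
      have h2 := Subgroup.card_le_of_le hTE
      rw [hr, ht] at h1
      rw [hn, ht] at h2
      have h3 := (Nat.pow_lt_pow_iff_right hpf.out.one_lt).mp h1
      have h4 := (Nat.pow_le_pow_iff_right hpf.out.one_lt).mp h2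
      have ht3 : t = 3 := by omega
      apply Subgroup.eq_of_le_of_card_ge hTE
      rw [hn, ht, ht3]
    have hstab : ∀ m ∈ E, m ∉ W → ∀ b ∈ A, b * m = m * b → b ∈ centralizer (E : Set G) := by
      intro m hm hmW b hb hbm
      have hmc : m ∈ centralizer ({b} : Set G) := by
        rw [mem_centralizer_singleton_iff]
        exact hbm.symm
      have h1 := hbetween (E ⊓ centralizer {b}) (le_inf inf_le_right (by
        intro w hw
        show w ∈ centralizer ({b} : Set G)
        rw [mem_centralizer_singleton_iff]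
        exact hcommA w hw.1 b hb)) inf_le_left m ⟨hm, hmc⟩ hmW
      rw [mem_centralizer_iff]
      intro e he
      have h2 : e ∈ E ⊓ centralizer ({b} : Set G) := by
        rw [h1]; exact he
      have h3 : e ∈ centralizer ({b} : Set G) := h2.2
      rw [mem_centralizer_singleton_iff] at h3
      exact h3
    -- injectivity of the orbit map
    have hinj : ∀ m ∈ E, m ∉ W → ∀ q q' : A ⧸ K,
        ((Quotient.out q : A) : G) * m * ((Quotient.out q : A) : G)⁻¹ =
          ((Quotient.out q' : A) : G) * m * ((Quotient.out q' : A) : G)⁻¹ → q = q' := by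
      intro m hm hmW q q' h
      set a : A := Quotient.out q with ha
      set a' : A := Quotient.out q' with ha'
      have hq : (a : A ⧸ K) = q := QuotientGroup.out_eq' q
      have hq' : (a' : A ⧸ K) = q' := QuotientGroup.out_eq' q'
      rw [← hq, ← hq', QuotientGroup.eq, hKmem]
      apply hstab m hm hmW
      · exact (a⁻¹ * a').2
      · have h1 : (a : G)⁻¹ * a' * m = m * ((a : G)⁻¹ * a') := by
          have h2 : (a' : G) * m = (a : G) * m * (a : G)⁻¹ * a' := by
            rw [h]; group
          rw [mul_assoc, h2]; group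
        simpa using h1
    -- `W` is normal
    obtain ⟨M, hMn, hME, hMc⟩ := Cfsg.Agent.Lib.PGroups.NormalRankTwo.exists_normal_le_card_eq hG E 2
      (show p ^ 2 ∣ Nat.card E by rw [hn]; exact pow_dvd_pow p (by norm_num))
    have hWM : M = W := by
      have hMW : M ≤ W := by
        intro m hm
        by_contra hmW
        have hlt : Nat.card (A ⧸ K) < Nat.card M := by
          refine card_lt_of_inj
            (fun q : A ⧸ K => (⟨((Quotient.out q : A) : G) * m * ((Quotient.out q : A) : G)⁻¹,
              hMn.conj_mem m hm _⟩ : M)) ?_ (b := 1) ?_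
          · intro q q' h
            exact hinj m (hME hm) hmW q q' (congrArg Subtype.val h)
          · rintro ⟨q, hq⟩
            have h1 := congrArg Subtype.val hq
            have h2 : m = 1 := by
              have h3 : ((Quotient.out q : A) : G) * m * ((Quotient.out q : A) : G)⁻¹ = 1 := h1
              rwa [mul_inv_eq_one, mul_eq_left] at h3
            exact hmW (h2 ▸ W.one_mem)
        have h5 : Nat.card (A ⧸ K) = p ^ 2 := hidx2
        omega
      apply Subgroup.eq_of_le_of_card_ge hMW
      rw [hr, hMc]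
    have hWn : W.Normal := hWM ▸ hMn
    haveI := hWn
    -- the quotient `E / W` is central
    have hS2 : ∀ e ∈ E, ∀ g : G, e⁻¹ * (g * e * g⁻¹) ∈ W := by
      have hmapn : (E.map (QuotientGroup.mk' W)).Normal :=
        hEn.map _ (QuotientGroup.mk'_surjective W)
      have hmapne : E.map (QuotientGroup.mk' W) ≠ ⊥ := by
        intro h
        apply hWE
        apply le_antisymm inf_le_right
        intro c hc
        have : (QuotientGroup.mk' W) c ∈ E.map (QuotientGroup.mk' W) := ⟨c, hc, rfl⟩
        rw [h, mem_bot] at this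
        exact (QuotientGroup.eq_one_iff c).mp this
      have hne := Cfsg.Agent.Lib.Involutions2.NormalFour.inf_center_ne_bot (hG.to_quotient W)
        (E.map (QuotientGroup.mk' W)) hmapne
      have hex : ∃ m ∈ E, m ∉ W ∧ (QuotientGroup.mk' W) m ∈ center (G ⧸ W) := by
        by_contra hcon
        push Not at hcon
        apply hne
        rw [eq_bot_iff]
        rintro y ⟨⟨v, hv, rfl⟩, hy⟩
        rw [mem_bot]
        by_contra hvne
        have hvW : v ∉ W := fun h => hvne ((QuotientGroup.eq_one_iff v).mpr h)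
        exact hcon v hv hvW hy
      obtain ⟨m, hmE, hmW, hmc⟩ := hex
      have hT := hbetween (E ⊓ (center (G ⧸ W)).comap (QuotientGroup.mk' W))
        (le_inf inf_le_right (by
          intro w hw
          show (QuotientGroup.mk' W) w ∈ center (G ⧸ W)
          have : (QuotientGroup.mk' W) w = 1 := (QuotientGroup.eq_one_iff w).mpr hw
          rw [this]
          exact one_mem _)) inf_le_left m ⟨hmE, hmc⟩ hmW
      intro e he g
      have he' : e ∈ E ⊓ (center (G ⧸ W)).comap (QuotientGroup.mk' W) := by
        rw [hT]; exact he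
      have hcen : (QuotientGroup.mk' W) e ∈ center (G ⧸ W) := he'.2
      rw [mem_center_iff] at hcen
      rw [← QuotientGroup.eq_one_iff]
      have h3' : (g : G ⧸ W) * e = e * g := hcen (QuotientGroup.mk' W g)
      rw [QuotientGroup.mk_mul, QuotientGroup.mk_mul, QuotientGroup.mk_inv, QuotientGroup.mk_mul,
        h3', QuotientGroup.mk_inv]
      group
    -- a fixed element of `E` outside `W`
    obtain ⟨e₀, he₀E, he₀W⟩ : ∃ e ∈ E, e ∉ W := by
      by_contra hcon
      push Not at hcon
      exact hWE (le_antisymm inf_le_right hcon)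
    have hsurj : ∀ w ∈ W, ∃ a ∈ A, e₀⁻¹ * (a * e₀ * a⁻¹) = w := by
      let f : A ⧸ K → W := fun q =>
        ⟨e₀⁻¹ * (((Quotient.out q : A) : G) * e₀ * ((Quotient.out q : A) : G)⁻¹), hS2 e₀ he₀E _⟩
      have hf : Function.Injective f := by
        intro q q' h
        apply hinj e₀ he₀E he₀W
        exact mul_left_cancel (congrArg Subtype.val h)
      have hb := hf.bijective_of_nat_card_le (by
        rw [hr]
        exact hidx2.ge)
      intro w hw
      obtain ⟨q, hq⟩ := hb.2 ⟨w, hw⟩
      exact ⟨_, (Quotient.out q : A).2, congrArg Subtype.val hq⟩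
    have hrep : ∀ b : G, (∀ w ∈ W, b * w = w * b) → ∃ a ∈ A, a⁻¹ * b ∈ centralizer (E : Set G) := by
      intro b hb
      obtain ⟨a, ha, hab⟩ := hsurj _ (hS2 e₀ he₀E b)
      refine ⟨a, ha, ?_⟩
      have hcomm : (a⁻¹ * b) * e₀ = e₀ * (a⁻¹ * b) := by
        have h1 : a * e₀ * a⁻¹ = b * e₀ * b⁻¹ := mul_left_cancel hab
        have h2 : b * e₀ = a * e₀ * a⁻¹ * b := by
          rw [h1]; group
        rw [mul_assoc, h2]; group
      have hmc : e₀ ∈ centralizer ({a⁻¹ * b} : Set G) := by
        rw [mem_centralizer_singleton_iff]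
        exact hcomm.symm
      have h1 := hbetween (E ⊓ centralizer {a⁻¹ * b}) (le_inf inf_le_right (by
        intro w hw
        show w ∈ centralizer ({a⁻¹ * b} : Set G)
        rw [mem_centralizer_singleton_iff]
        have h3 : a⁻¹ * w = w * a⁻¹ := by
          have := hcommA a ha w hw.1
          rw [eq_mul_inv_iff_mul_eq, mul_assoc, ← this]
          group
        calc w * (a⁻¹ * b) = a⁻¹ * (w * b) := by
              rw [← mul_assoc, ← h3, mul_assoc]
          _ = a⁻¹ * (b * w) := by rw [hb w hw]
          _ = a⁻¹ * b * w := by group)) inf_le_left e₀ ⟨he₀E, hmc⟩ he₀W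
      rw [mem_centralizer_iff]
      intro e he
      have h2 : e ∈ E ⊓ centralizer ({a⁻¹ * b} : Set G) := by
        rw [h1]; exact he
      have h3 : e ∈ centralizer ({a⁻¹ * b} : Set G) := h2.2
      rw [mem_centralizer_singleton_iff] at h3
      exact h3
    -- the index of `A` in `A ⊔ E`
    have hrel : A.relIndex (A ⊔ E) = p := by
      have h1 := card_inf_mul_relIndex E A
      have hEA : Nat.card ↥(E ⊓ A) = p ^ 2 := by rw [inf_comm, hr]
      rw [hEA, hA4] at h1
      have h2 := card_inf_mul_relIndex E (A ⊔ E)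
      rw [inf_eq_left.mpr (le_sup_right : E ≤ A ⊔ E), relIndex_sup_right, hn] at h2
      have h3 := card_inf_mul_relIndex A (A ⊔ E)
      rw [inf_eq_left.mpr (le_sup_left : A ≤ A ⊔ E), hA4, ← h2] at h3
      have h4 : E.relIndex A = p ^ 2 := by
        have hpos : 0 < p ^ 2 := by positivity
        apply Nat.eq_of_mul_eq_mul_left hpos
        rw [h1]; ring
      rw [h4] at h3
      have hpos : 0 < p ^ 4 := by positivity
      apply Nat.eq_of_mul_eq_mul_left hpos
      rw [h3]; ring
    -- uniqueness of `A` in `A ⊔ E`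
    have hkey : ∀ F : Subgroup G, F ≤ A ⊔ E → IsMulCommutative F → (∀ x ∈ F, x ^ p = 1) →
        Nat.card F = p ^ 4 → F ≤ A := by
      intro F hFB hFc hFp hFcard x hxF
      by_contra hxA
      have hx := hFB hxF
      rw [← SetLike.mem_coe, Subgroup.mul_normal] at hx
      obtain ⟨a, ha, e', he', rfl⟩ := Set.mem_mul.mp hx
      have he'A : e' ∉ A := fun h => hxA (A.mul_mem ha h)
      have he'W : e' ∉ W := fun h => he'A h.1
      have hFA : A ⊓ F ≤ W := by
        intro b hb
        refine ⟨hb.1, hOmega b ?_ (hAp b hb.1)⟩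
        apply hstab e' he' he'W b hb.1
        have h1 : b * (a * e') = (a * e') * b :=
          congrArg Subtype.val (hFc.is_comm.comm (⟨b, hb.2⟩ : F) ⟨_, hxF⟩)
        have h2 : b * a = a * b := hcommA b hb.1 a ha
        rw [← mul_assoc, h2, mul_assoc, mul_assoc] at h1
        exact mul_left_cancel h1
      have h1 := card_inf_mul_relIndex A F
      have h2 : A.relIndex F ≤ p := by
        rw [← hrel]
        refine relIndex_le_of_le_right hFB ?_
        rw [hrel]
        exact hppos.ne'
      have h3 : Nat.card ↥(A ⊓ F) ≤ p ^ 2 := by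
        rw [← hr]
        exact Subgroup.card_le_of_le hFA
      have h4 := Nat.mul_le_mul h3 h2
      rw [h1, hFcard] at h4
      have h5 : p ^ 2 * p = p ^ 3 := by ring
      rw [h5] at h4
      have := (Nat.pow_le_pow_iff_right hpf.out.one_lt).mp h4
      omega
    -- the normalizer tower
    have hnorm : normalizer (A : Set G) = ⊤ := by
      by_contra hne
      haveI := hG.isNilpotent
      have hcond := Group.normalizerCondition_of_isNilpotent (G := G) (normalizer (A : Set G))
        (lt_top_iff_ne_top.mpr hne)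
      obtain ⟨g, hgN, hgA⟩ := SetLike.exists_of_lt hcond
      set N := normalizer (A : Set G) with hN
      have hAN : A ≤ N := Subgroup.le_normalizer
      let F : Subgroup G := A.map (MulAut.conj g).toMonoidHom
      have hFmem : ∀ x, x ∈ F ↔ g⁻¹ * x * g ∈ A := by
        intro x
        constructor
        · rintro ⟨a, ha, rfl⟩
          have : g⁻¹ * ((MulAut.conj g).toMonoidHom a) * g = a := by
            simp [mul_assoc]
          rwa [this]
        · intro hx
          refine ⟨_, hx, ?_⟩
          simp [mul_assoc]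
      have hgN' : ∀ h, h ∈ N ↔ g * h * g⁻¹ ∈ N := mem_normalizer_iff.mp hgN
      have hgN'' : ∀ h, h ∈ N ↔ g⁻¹ * h * g ∈ N := by
        have h1 := mem_normalizer_iff.mp ((normalizer (N : Set G)).inv_mem hgN)
        intro h
        simpa using h1 h
      have hFc : ∀ x ∈ F, ∀ y ∈ F, x * y = y * x := by
        intro x hx y hy
        have h1 := hcommA _ ((hFmem x).mp hx) _ ((hFmem y).mp hy)
        have h2 : g⁻¹ * x * g * (g⁻¹ * y * g) = g⁻¹ * (x * y) * g := by group
        have h3 : g⁻¹ * y * g * (g⁻¹ * x * g) = g⁻¹ * (y * x) * g := by group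
        rw [h2, h3] at h1
        exact mul_left_cancel (mul_right_cancel h1)
      have hFN : F ≤ N := by
        intro x hx
        rw [hgN'']
        exact hAN ((hFmem x).mp hx)
      have hFp : ∀ x ∈ F, x ^ p = 1 := by
        intro x hx
        have h1 := hAp _ ((hFmem x).mp hx)
        rw [show g⁻¹ * x * g = g⁻¹ * x * g⁻¹⁻¹ by group, conj_pow, conj_eq_one_iff] at h1
        exact h1
      have hFcard : Nat.card F = p ^ 4 := by
        rw [← hA4]
        exact (Nat.card_congr (A.equivMapOfInjective _ (MulAut.conj g).injective).toEquiv).symm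
      have hAnormF : ∀ c ∈ A, ∀ x ∈ F, c * x * c⁻¹ ∈ F := by
        intro c hc x hx
        rw [hFmem]
        have hc' : g⁻¹ * c * g ∈ N := (hgN'' c).mp (hAN hc)
        have h1 := (mem_normalizer_iff.mp hc' _).mp ((hFmem x).mp hx)
        have h2 : g⁻¹ * c * g * (g⁻¹ * x * g) * (g⁻¹ * c * g)⁻¹ = g⁻¹ * (c * x * c⁻¹) * g := by
          group
        rwa [h2] at h1
      have hFle : F ≤ A ⊔ E := by
        intro b hb
        have hbW : ∀ w ∈ W, b * w = w * b := by
          intro w hw
          have hw' : g⁻¹ * w * g ∈ W := by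
            have := hWn.conj_mem w hw g⁻¹
            rwa [inv_inv] at this
          have h1 := hcommA _ ((hFmem b).mp hb) _ hw'.1
          have h2 : g⁻¹ * b * g * (g⁻¹ * w * g) = g⁻¹ * (b * w) * g := by group
          have h3 : g⁻¹ * w * g * (g⁻¹ * b * g) = g⁻¹ * (w * b) * g := by group
          rw [h2, h3] at h1
          exact mul_left_cancel (mul_right_cancel h1)
        obtain ⟨a, ha, hab⟩ := hrep b hbW
        have hcA : ⁅b, a⁻¹⁆ ∈ A := by
          rw [commutatorElement_def]
          have h1 := (mem_normalizer_iff.mp (hFN hb) a⁻¹).mp (A.inv_mem ha)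
          have h2 := A.mul_mem h1 (A.inv_mem (A.inv_mem ha))
          exact h2
        have hcF : ⁅b, a⁻¹⁆ ∈ F := by
          have h1 := hAnormF a⁻¹ (A.inv_mem ha) b⁻¹ (F.inv_mem hb)
          have h2 := F.mul_mem hb h1
          have h3 : b * (a⁻¹ * b⁻¹ * a⁻¹⁻¹) = ⁅b, a⁻¹⁆ := by
            rw [commutatorElement_def]; group
          rwa [h3] at h2
        have hpow : (a⁻¹ * b) ^ p = 1 := by
          rw [mul_pow_prime_of_comm hp (hcommA _ hcA _ (A.inv_mem ha)) (hFc _ hcF _ hb)
            (hAp _ hcA), inv_pow, hAp a ha, hFp b hb]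
          simp
        have hE' := hOmega _ hab hpow
        have h4 : b = a * (a⁻¹ * b) := by group
        rw [h4]
        exact mul_mem (mem_sup_left ha) (mem_sup_right hE')
      have hFA : F ≤ A := hkey F hFle ⟨⟨fun x y => Subtype.ext (hFc _ x.2 _ y.2)⟩⟩ hFp hFcard
      have hFeq : F = A := Subgroup.eq_of_le_of_card_ge hFA (by rw [hA4, hFcard])
      apply hgA
      rw [hN, mem_normalizer_iff]
      intro h
      constructor
      · intro hh
        apply hFA
        rw [hFmem]
        have : g⁻¹ * (g * h * g⁻¹) * g = h := by group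
        rwa [this]
      · intro hh
        rw [← hFeq, hFmem] at hh
        have : g⁻¹ * (g * h * g⁻¹) * g = h := by group
        rwa [this] at hh
    constructor
    intro n hn' g
    have : g ∈ normalizer (A : Set G) := hnorm ▸ mem_top g
    exact (mem_normalizer_iff.mp this n).mp hn'

/-- For odd p, a p-group containing an elementary abelian subgroup of order p^4 has a normal elementary abelian subgroup of order p^4. -/
theorem result {G : Type*} [Group G] [Finite G] {p : ℕ} [Fact p.Prime] (hp : p ≠ 2) (hG : IsPGroup p G) (E : Subgroup G) (hE : Cfsg.IsElementaryAbelian p E) (hE4 : Nat.card E = p ^ 4) : ∃ A : Subgroup G, A.Normal ∧ Cfsg.IsElementaryAbelian p A ∧ Nat.card A = p ^ 4 :=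
  main hp hG E hE.1 hE.2 hE4

end Cfsg.Agent.S0122
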