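import Cfsg.Statements.S0219
import Cfsg.Agent.Lib.Involutions2.Sign
import Mathlib

set_option autoImplicit false
open Cfsg

namespace Cfsg.Agent.S0219


/-- If a finite group has even order and a cyclic Sylow 2-subgroup, then it has a subgroup of index 2 (consider the parity of permutations in the regular representation). -/
theorem result {G : Type*} [Group G] [Finite G] (heven : Even (Nat.card G)) (T : Sylow 2 G) (hT : IsCyclic (T : Subgroup G)) : ∃ H : Subgroup G, H.index = 2 := by
  have : Fact (Nat.Prime 2) := ⟨Nat.prime_two⟩
  obtain ⟨t, ht⟩ := hT.exists_generator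
  have h1 : orderOf t = Nat.card (T : Subgroup G) := orderOf_eq_card_of_forall_mem_zpowers ht
  rw [T.card_eq_multiplicity] at h1
  have hne : Nat.card G ≠ 0 := Nat.card_pos.ne'
  have hk : 0 < (Nat.card G).factorization 2 :=
    Nat.Prime.factorization_pos_of_dvd Nat.prime_two hne heven.two_dvd
  have ht' : orderOf t.1 = 2 ^ (Nat.card G).factorization 2 := by
    rw [← h1]
    simp
  apply Cfsg.Agent.Lib.Involutions2.Sign.exists_index_two_of_orderOf hk ht'
  rw [← Nat.not_even_iff_odd, even_iff_two_dvd]
  exact Nat.not_dvd_ordCompl Nat.prime_two hne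

end Cfsg.Agent.S0219
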