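import Mathlib
import Cfsg.Statements.S0255
import Cfsg.Agent.Lib.Classical.SLBasic
import Cfsg.Agent.Lib.Classical.Transvections
import Cfsg.Agent.S0495
-- import your own Cfsg.Agent.* helpers here

set_option autoImplicit false
open Cfsg

namespace Cfsg.Agent.S0255

/-- PSL_2(7) is isomorphic to PSL_3(2). -/
theorem result {F K : Type*} [Field F] [Fintype F] [Field K] [Fintype K] (hF : Fintype.card F = 7) (hK : Fintype.card K = 2) : Nonempty (Matrix.ProjectiveSpecialLinearGroup (Fin 2) F ≃* Matrix.ProjectiveSpecialLinearGroup (Fin 3) K) := by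
  open Cfsg.Agent.Lib.Classical in
  have hs : IsSimpleGroup (Matrix.ProjectiveSpecialLinearGroup (Fin 3) K) :=
    Transvections.psl_isSimpleGroup (by simp)
  have h := SLBasic.card_gl_eq_gcd_mul_card_psl (F := K) (ι := Fin 3)
  have hgl : Nat.card (Matrix.GeneralLinearGroup (Fin 3) K) = 168 := by
    rw [Matrix.card_GL_field (𝔽 := K) 3, hK]
    decide +kernel
  rw [hgl, hK] at h
  have hc : Nat.card (Matrix.ProjectiveSpecialLinearGroup (Fin 3) K) = 168 := by
    simpa using h.symm
  obtain ⟨e⟩ := Cfsg.Agent.S0495.result hc hF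
  exact ⟨e.symm⟩

end Cfsg.Agent.S0255
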