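import Mathlib
import Cfsg.Statements.S0281
-- import your own Cfsg.Agent.* helpers here

set_option autoImplicit false
open Cfsg

set_option linter.unusedSectionVars false

open scoped MatrixGroups

namespace Cfsg.Agent.S0281

open Matrix Cfsg

section main

variable {F K : Type*} [Field F] [Fintype F] [Field K] [Fintype K] {q : ℕ}

/-- The data: the `q`-power map is a ring homomorphism and an involution, and `K` embeds as its fixed field. -/
structure Data (F K : Type*) [Field F] [Field K] (q : ℕ) where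
  /-- The Frobenius. -/
  σ : F →+* F
  hσ : ∀ x, σ x = x ^ q
  hσσ : ∀ x, σ (σ x) = x
  /-- The embedding. -/
  ι : K →+* F
  hι : ∀ y, σ y = y ↔ ∃ x, ι x = y

lemma exists_data (hF : Fintype.card F = q ^ 2) (hK : Fintype.card K = q) : Nonempty (Data F K q) := by
  classical
  obtain ⟨p, hp⟩ := CharP.exists K
  obtain ⟨k, hpp, hk⟩ := FiniteField.card K p
  obtain ⟨p', hp'⟩ := CharP.exists F
  obtain ⟨n, hpp', hn⟩ := FiniteField.card F p'
  have hpe : p = p' := by
    by_contra hne
    have hcop := Nat.coprime_pow_primes (2 * k : ℕ) (n : ℕ) hpp hpp' hne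
    rw [pow_mul', ← hk, hK, ← hF, hn, Nat.coprime_self] at hcop
    have h1 : Fintype.card F = 1 := by rw [hn]; exact hcop
    have h2 : 1 < Fintype.card F := Fintype.one_lt_card
    omega
  subst hpe
  have : Fact p.Prime := ⟨hpp⟩
  let _ : Algebra (ZMod p) K := ZMod.algebra _ _
  let _ : Algebra (ZMod p) F := ZMod.algebra _ _
  have hq1 : 1 < q := by rw [← hK]; exact Fintype.one_lt_card
  -- the embedding
  have hfK : p ^ Module.finrank (ZMod p) K = Fintype.card K := FiniteField.pow_finrank_eq_card p K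
  have hfF : p ^ Module.finrank (ZMod p) F = Fintype.card F := FiniteField.pow_finrank_eq_card p F
  have hdvd : Module.finrank (ZMod p) K ∣ Module.finrank (ZMod p) F := by
    have : p ^ Module.finrank (ZMod p) F = p ^ (Module.finrank (ZMod p) K * 2) := by
      rw [hfF, pow_mul, hfK, hK, hF]
    rw [Nat.pow_right_injective hpp.two_le this]
    exact dvd_mul_right _ _
  obtain ⟨ι'⟩ := FiniteField.nonempty_algHom_of_finrank_dvd hdvd
  let ι : K →+* F := ι'.toRingHom
  have hιinj : Function.Injective ι := ι.injective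
  let σ : F →+* F := iterateFrobenius F p k
  have hσ : ∀ x, σ x = x ^ q := by
    intro x
    rw [← hK, hk]
    exact iterateFrobenius_def p k x
  have hq2 : ∀ x : F, (x ^ q) ^ q = x := by
    intro x
    rw [← pow_mul, ← pow_two, ← hF]
    exact FiniteField.pow_card x
  refine ⟨⟨σ, hσ, fun x => by rw [hσ, hσ, hq2], ι, ?_⟩⟩
  intro y
  constructor
  · intro hy
    rw [hσ] at hy
    -- counting roots of X^q - X
    let P : Polynomial F := Polynomial.X ^ q - Polynomial.X
    have hdeg : P.natDegree = q := FiniteField.X_pow_card_sub_X_natDegree_eq F hq1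
    have hP0 : P ≠ 0 := FiniteField.X_pow_card_sub_X_ne_zero F hq1
    have hroot : ∀ z : F, z ^ q = z → z ∈ P.roots.toFinset := by
      intro z hz
      simp [P, Polynomial.mem_roots hP0 , Polynomial.IsRoot, hz]
    have hle : P.roots.toFinset.card ≤ q := by
      calc P.roots.toFinset.card ≤ Multiset.card P.roots := Multiset.toFinset_card_le _
        _ ≤ P.natDegree := Polynomial.card_roots' _
        _ = q := hdeg
    have hsub : (Finset.univ.image ι) ⊆ P.roots.toFinset := by
      intro z hz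
      obtain ⟨x, -, rfl⟩ := Finset.mem_image.mp hz
      apply hroot
      rw [← map_pow, ← hK, FiniteField.pow_card]
    have hcard : (Finset.univ.image ι).card = q := by
      rw [Finset.card_image_of_injective _ hιinj, Finset.card_univ, hK]
    have heq := Finset.eq_of_subset_of_card_le hsub (by rw [hcard]; exact hle)
    have hyin := hroot y hy
    rw [← heq] at hyin
    obtain ⟨x, -, hx⟩ := Finset.mem_image.mp hyin
    exact ⟨x, hx⟩
  · rintro ⟨x, rfl⟩
    rw [hσ, ← map_pow, ← hK, FiniteField.pow_card]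


/-- The matrix `J`. -/
def matJ (F : Type*) [Field F] : Matrix (Fin 2) (Fin 2) F := !![0, 1; -1, 0]

lemma mem_SU_iff (D : Data F K q) (g : SpecialLinearGroup (Fin 2) F) :
    g ∈ Cfsg.SU 2 F q ↔ D.σ.mapMatrix (g : Matrix (Fin 2) (Fin 2) F) * matJ F = matJ F * g := by
  have hdet : (g : Matrix (Fin 2) (Fin 2) F) 0 0 * g.1 1 1 - g.1 0 1 * g.1 1 0 = 1 := by
    have := g.2
    rwa [Matrix.det_fin_two] at this
  have hq : ∀ x : F, x ^ q = D.σ x := fun x => (D.hσ x).symm
  constructor
  · intro h
    have h' : ∀ u v, hermForm 2 F q (g.1 *ᵥ u) (g.1 *ᵥ v) = hermForm 2 F q u v := h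
    have e00 := h' ![1, 0] ![1, 0]
    have e01 := h' ![1, 0] ![0, 1]
    have e10 := h' ![0, 1] ![1, 0]
    have e11 := h' ![0, 1] ![0, 1]
    simp only [hermForm, Fin.sum_univ_two, Matrix.mulVec, dotProduct, hq, map_add, map_mul,
      Matrix.cons_val_zero, Matrix.cons_val_one, mul_one, mul_zero, add_zero, zero_add, map_one,
      map_zero] at e00 e01 e10 e11
    have hsa : D.σ (g.1 0 0) = g.1 1 1 := by
      linear_combination -D.σ (g.1 0 0) * hdet + g.1 1 1 * e00 - g.1 1 0 * e10
    have hsb : D.σ (g.1 0 1) = - g.1 1 0 := by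
      linear_combination -D.σ (g.1 0 1) * hdet + g.1 1 1 * e01 - g.1 1 0 * e11
    have hsc : D.σ (g.1 1 0) = - g.1 0 1 := by
      linear_combination -D.σ (g.1 1 0) * hdet + g.1 0 0 * e10 - g.1 0 1 * e00
    have hsd : D.σ (g.1 1 1) = g.1 0 0 := by
      linear_combination -D.σ (g.1 1 1) * hdet + g.1 0 0 * e11 - g.1 0 1 * e01
    ext i j
    fin_cases i <;> fin_cases j <;>
      simp [matJ, Matrix.mul_apply, Fin.sum_univ_two, hsa, hsb, hsc, hsd]
  · intro h
    have h00 := congrFun (congrFun h 0) 0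
    have h01 := congrFun (congrFun h 0) 1
    have h10 := congrFun (congrFun h 1) 0
    have h11 := congrFun (congrFun h 1) 1
    simp [matJ, Matrix.mul_apply, Fin.sum_univ_two] at h00 h01 h10 h11
    intro u v
    show hermForm 2 F q (g.1 *ᵥ u) (g.1 *ᵥ v) = hermForm 2 F q u v
    simp only [hermForm, Fin.sum_univ_two, Matrix.mulVec, dotProduct, hq, map_add, map_mul]
    have hb : D.σ (g.1 0 1) = - g.1 1 0 := by linear_combination -h00
    rw [h01, h10, h11, hb]
    linear_combination (u 0 * D.σ (v 0) + u 1 * D.σ (v 1)) * hdet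

lemma exists_kappa (D : Data F K q) (hF : Fintype.card F = q ^ 2) :
    ∃ κ : F, κ ≠ 0 ∧ D.σ κ * κ = -1 := by
  classical
  by_cases h2 : ringChar F = 2
  · refine ⟨1, one_ne_zero, ?_⟩
    haveI : CharP F 2 := by rw [← h2]; exact ringChar.charP F
    simp [CharTwo.neg_eq]
  · obtain ⟨g, hg⟩ := FiniteField.exists_nonsquare h2
    have hg0 : g ≠ 0 := by
      rintro rfl
      exact hg (IsSquare.zero)
    have hodd := FiniteField.odd_card_of_char_ne_two h2
    have hqodd : q % 2 = 1 := by
      rw [hF, Nat.pow_mod] at hodd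
      rcases Nat.mod_two_eq_zero_or_one q with h | h
      · rw [h] at hodd; simp at hodd
      · exact h
    obtain ⟨m, hm⟩ : ∃ m, q = 2 * m + 1 := ⟨q / 2, by omega⟩
    have hcard2 : Fintype.card F / 2 = m * (q + 1) := by
      rw [hF, hm]
      have : (2 * m + 1) ^ 2 = 2 * (m * (2 * m + 1 + 1)) + 1 := by ring
      omega
    have hpow : g ^ (Fintype.card F / 2) = -1 := by
      have := FiniteField.isSquare_iff h2 hg0
      rcases FiniteField.pow_dichotomy h2 hg0 with h | h
      · exact absurd (this.mpr h) hg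
      · exact h
    refine ⟨g ^ m, pow_ne_zero _ hg0, ?_⟩
    rw [D.hσ, ← pow_mul, ← pow_add, ← hpow, hcard2]
    congr 1

lemma exists_tau (D : Data F K q) (hF : Fintype.card F = q ^ 2) (hK : Fintype.card K = q) :
    ∃ τ : F, D.σ τ ≠ τ := by
  classical
  by_contra hcon
  push_neg at hcon
  have hsurj : Function.Surjective D.ι := fun y => (D.hι y).1 (hcon y)
  have hbij : Function.Bijective D.ι := ⟨D.ι.injective, hsurj⟩
  have hc := Fintype.card_of_bijective hbij
  rw [hF, hK] at hc
  have hq1 : 1 < q := by rw [← hK]; exact Fintype.one_lt_card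
  nlinarith

lemma exists_C (D : Data F K q) (hF : Fintype.card F = q ^ 2) (hK : Fintype.card K = q) :
    ∃ (C C' : Matrix (Fin 2) (Fin 2) F) (κ : F), κ ≠ 0 ∧ C * C' = 1 ∧ C' * C = 1 ∧
      D.σ.mapMatrix C * matJ F = κ • C ∧ matJ F * C' = κ • D.σ.mapMatrix C' := by
  classical
  obtain ⟨κ, hκ0, hκ⟩ := exists_kappa D hF
  obtain ⟨τ, hτ⟩ := exists_tau D hF hK
  let C : Matrix (Fin 2) (Fin 2) F := !![1, κ⁻¹; τ, D.σ τ * κ⁻¹]
  have hdet : C.det ≠ 0 := by
    rw [Matrix.det_fin_two]
    simp only [C, Matrix.of_apply, Matrix.cons_val', Matrix.cons_val_zero, Matrix.cons_val_one,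
      Matrix.cons_val_fin_one, one_mul]
    intro h
    apply hτ
    have : (D.σ τ - τ) * κ⁻¹ = 0 := by linear_combination h
    rcases mul_eq_zero.mp this with h' | h'
    · exact sub_eq_zero.mp h'
    · exact absurd h' (inv_ne_zero hκ0)
  let CU : GL (Fin 2) F := Matrix.GeneralLinearGroup.mkOfDetNeZero C hdet
  have hσκ : D.σ κ = -κ⁻¹ := by
    field_simp
    linear_combination hκ
  have hσκ0 : D.σ κ ≠ 0 := by
    rw [hσκ]; exact neg_ne_zero.mpr (inv_ne_zero hκ0)
  have h1 : D.σ.mapMatrix C * matJ F = κ • C := by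
    ext i j
    fin_cases i <;> fin_cases j <;>
      simp [C, matJ, Matrix.mul_apply, Fin.sum_univ_two, hσκ, hκ0, D.hσσ]
    · ring
    · field_simp
  have hCC' : C * (CU⁻¹ : GL (Fin 2) F).1 = 1 := by
    have := CU.mul_inv; exact this
  have hC'C : (CU⁻¹ : GL (Fin 2) F).1 * C = 1 := by
    have := CU.inv_mul; exact this
  refine ⟨C, (CU⁻¹ : GL (Fin 2) F).1, κ, hκ0, hCC', hC'C, h1, ?_⟩
  set C' := (CU⁻¹ : GL (Fin 2) F).1 with hC'
  have hbar : D.σ.mapMatrix C' * D.σ.mapMatrix C = 1 := by
    rw [← map_mul, hC'C, map_one]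
  calc matJ F * C' = D.σ.mapMatrix C' * D.σ.mapMatrix C * matJ F * C' := by
        rw [hbar, one_mul]
    _ = D.σ.mapMatrix C' * (D.σ.mapMatrix C * matJ F) * C' := by
        simp only [Matrix.mul_assoc]
    _ = D.σ.mapMatrix C' * (κ • C) * C' := by rw [h1]
    _ = κ • D.σ.mapMatrix C' := by
        rw [Matrix.mul_smul, Matrix.smul_mul, Matrix.mul_assoc, hCC', Matrix.mul_one]

/-- The isomorphism, as a monoid hom from `SL₂(K)` to `SU₂`. -/
noncomputable def phi (D : Data F K q) (C C' : Matrix (Fin 2) (Fin 2) F) (hC1 : C * C' = 1)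
    (hC2 : C' * C = 1) : SpecialLinearGroup (Fin 2) K →* SpecialLinearGroup (Fin 2) F where
  toFun x := ⟨C' * (SpecialLinearGroup.map D.ι x).1 * C, by
    rw [Matrix.det_mul, Matrix.det_mul, (SpecialLinearGroup.map D.ι x).2, mul_one, ← Matrix.det_mul,
      hC2, Matrix.det_one]⟩
  map_one' := by
    ext i j
    simp [hC2]
  map_mul' x y := by
    apply Subtype.ext
    show C' * ((SpecialLinearGroup.map D.ι (x * y)).1) * C =
      (C' * (SpecialLinearGroup.map D.ι x).1 * C) * (C' * (SpecialLinearGroup.map D.ι y).1 * C)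
    rw [map_mul]
    show C' * ((SpecialLinearGroup.map D.ι x).1 * (SpecialLinearGroup.map D.ι y).1) * C = _
    calc C' * ((SpecialLinearGroup.map D.ι x).1 * (SpecialLinearGroup.map D.ι y).1) * C
        = C' * (SpecialLinearGroup.map D.ι x).1 * 1 * (SpecialLinearGroup.map D.ι y).1 * C := by
          simp only [Matrix.mul_assoc, Matrix.mul_one]
      _ = _ := by
          rw [← hC1]; simp only [Matrix.mul_assoc]

lemma phi_coe (D : Data F K q) (C C' : Matrix (Fin 2) (Fin 2) F) (hC1 : C * C' = 1)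
    (hC2 : C' * C = 1) (x : SpecialLinearGroup (Fin 2) K) :
    (phi D C C' hC1 hC2 x).1 = C' * (SpecialLinearGroup.map D.ι x).1 * C := rfl

lemma bar_map (D : Data F K q) (x : SpecialLinearGroup (Fin 2) K) :
    D.σ.mapMatrix (SpecialLinearGroup.map D.ι x).1 = (SpecialLinearGroup.map D.ι x).1 := by
  ext i j
  simp only [SpecialLinearGroup.map_apply_coe, RingHom.mapMatrix_apply, Matrix.map_apply]
  exact (D.hι _).2 ⟨_, rfl⟩

end main

/-- SU_2(q) is isomorphic to SL_2(q). -/
theorem result {F K : Type*} [Field F] [Fintype F] [Field K] [Fintype K] {q : ℕ} (hF : Fintype.card F = q ^ 2) (hK : Fintype.card K = q) : Nonempty (Cfsg.SU 2 F q ≃* Matrix.SpecialLinearGroup (Fin 2) K) := by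
  classical
  obtain ⟨D⟩ := exists_data hF hK
  obtain ⟨C, C', κ, hκ0, hC1, hC2, hJ1, hJ2⟩ := exists_C D hF hK
  let φ := phi D C C' hC1 hC2
  have hmem : ∀ x, φ x ∈ Cfsg.SU 2 F q := by
    intro x
    rw [mem_SU_iff D, phi_coe]
    rw [map_mul, map_mul, bar_map]
    calc D.σ.mapMatrix C' * (SpecialLinearGroup.map D.ι x).1 * D.σ.mapMatrix C * matJ F
        = D.σ.mapMatrix C' * (SpecialLinearGroup.map D.ι x).1 * (D.σ.mapMatrix C * matJ F) := by
          simp only [Matrix.mul_assoc]
      _ = κ • (D.σ.mapMatrix C' * (SpecialLinearGroup.map D.ι x).1 * C) := by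
          rw [hJ1, Matrix.mul_smul]
      _ = (κ • D.σ.mapMatrix C') * (SpecialLinearGroup.map D.ι x).1 * C := by
          rw [Matrix.smul_mul, Matrix.smul_mul]
      _ = matJ F * (C' * (SpecialLinearGroup.map D.ι x).1 * C) := by
          rw [← hJ2]; simp only [Matrix.mul_assoc]
  let ψ : SpecialLinearGroup (Fin 2) K →* Cfsg.SU 2 F q := φ.codRestrict _ hmem
  have hinj : Function.Injective ψ := by
    intro x y hxy
    have h0 : (φ x).1 = (φ y).1 := congrArg (fun z => z.1.1) hxy
    rw [phi_coe, phi_coe] at h0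
    have h1 : (SpecialLinearGroup.map D.ι x).1 = (SpecialLinearGroup.map D.ι y).1 := by
      have := congrArg (fun M => C * M * C') h0
      have e : ∀ M : Matrix (Fin 2) (Fin 2) F, C * (C' * M * C) * C' = M := by
        intro M
        calc C * (C' * M * C) * C' = (C * C') * M * (C * C') := by simp only [Matrix.mul_assoc]
          _ = M := by rw [hC1, Matrix.one_mul, Matrix.mul_one]
      exact (e _).symm.trans (this.trans (e _))
    ext i j
    have := congrFun (congrFun h1 i) j
    simp only [SpecialLinearGroup.map_apply_coe, RingHom.mapMatrix_apply, Matrix.map_apply] at this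
    exact D.ι.injective this
  have hsurj : Function.Surjective ψ := by
    rintro ⟨g, hg⟩
    rw [mem_SU_iff D] at hg
    set h : Matrix (Fin 2) (Fin 2) F := C * g.1 * C' with hh
    have hbarC' : D.σ.mapMatrix C' * D.σ.mapMatrix C = 1 := by rw [← map_mul, hC2, map_one]
    have hsmul : κ • D.σ.mapMatrix h = κ • h := by
      rw [hh, map_mul, map_mul]
      calc κ • (D.σ.mapMatrix C * D.σ.mapMatrix g.1 * D.σ.mapMatrix C')
          = D.σ.mapMatrix C * D.σ.mapMatrix g.1 * (κ • D.σ.mapMatrix C') := by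
            rw [Matrix.mul_smul]
        _ = D.σ.mapMatrix C * (D.σ.mapMatrix g.1 * matJ F) * C' := by
            rw [← hJ2]; simp only [Matrix.mul_assoc]
        _ = (D.σ.mapMatrix C * matJ F) * g.1 * C' := by
            rw [hg]; simp only [Matrix.mul_assoc]
        _ = κ • (C * g.1 * C') := by
            rw [hJ1, Matrix.smul_mul, Matrix.smul_mul]
    have hfix : D.σ.mapMatrix h = h := smul_right_injective _ hκ0 hsmul
    have hex : ∀ i j, ∃ x, D.ι x = h i j := by
      intro i j
      apply (D.hι _).1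
      have := congrFun (congrFun hfix i) j
      simpa using this
    choose X hX using hex
    let XM : Matrix (Fin 2) (Fin 2) K := Matrix.of X
    have hXM : D.ι.mapMatrix XM = h := by
      ext i j
      simp [XM, hX]
    have hdetX : XM.det = 1 := by
      apply D.ι.injective
      rw [map_one, RingHom.map_det, hXM, hh, Matrix.det_mul, Matrix.det_mul, g.2, mul_one,
        ← Matrix.det_mul, hC1, Matrix.det_one]
    refine ⟨⟨XM, hdetX⟩, ?_⟩
    apply Subtype.ext
    apply Subtype.ext
    show C' * (SpecialLinearGroup.map D.ι ⟨XM, hdetX⟩).1 * C = g.1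
    have : (SpecialLinearGroup.map D.ι ⟨XM, hdetX⟩).1 = h := hXM
    rw [this, hh]
    calc C' * (C * g.1 * C') * C = (C' * C) * g.1 * (C' * C) := by simp only [Matrix.mul_assoc]
      _ = g.1 := by rw [hC2, Matrix.one_mul, Matrix.mul_one]
  exact ⟨(MulEquiv.ofBijective ψ ⟨hinj, hsurj⟩).symm⟩

end Cfsg.Agent.S0281
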