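import Cfsg.Statements.S0437
import Cfsg.Agent.S0436

set_option autoImplicit false
open Cfsg

namespace Cfsg.Agent.S0437

/-- Word lemma: three commuting involutions `a b c` and an involution `e` braiding with each, with
`e` commuting with `a * b * c`, forces `e = c`. -/
theorem word_eq {G : Type*} [Group G] {a b c e : G} (haa : a * a = 1) (hbb : b * b = 1)
    (hcc : c * c = 1) (hee : e * e = 1) (hab : a * b = b * a) (hac : a * c = c * a)
    (hbc : b * c = c * b) (hez : e * (a * b * c) = (a * b * c) * e)
    (ba : e * a * e = a * e * a) (bb : e * b * e = b * e * b) (bc : e * c * e = c * e * c) :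
    e = c := by
  set z := a * b * c with hzdef
  -- z commutes with a, b
  have hza : z * a = a * z := by
    simp only [hzdef]
    calc a * b * c * a = a * b * (c * a) := by group
      _ = a * b * (a * c) := by rw [hac]
      _ = a * (b * a) * c := by group
      _ = a * (a * b) * c := by rw [hab]
      _ = a * (a * b * c) := by group
  have hzb : z * b = b * z := by
    simp only [hzdef]
    calc a * b * c * b = a * b * (c * b) := by group
      _ = a * b * (b * c) := by rw [hbc]
      _ = (a * b) * b * c := by group
      _ = (b * a) * b * c := by rw [hab]
      _ = b * (a * b * c) := by group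
  have hzz : z * z = 1 := by
    simp only [hzdef]
    calc a * b * c * (a * b * c) = a * b * (c * a) * (b * c) := by group
      _ = a * b * (a * c) * (c * b) := by rw [hac, hbc]
      _ = a * b * a * (c * c) * b := by group
      _ = (a * b) * a * b := by rw [hcc]; group
      _ = (b * a) * a * b := by rw [hab]
      _ = b * (a * a) * b := by group
      _ = 1 := by rw [haa, mul_one, hbb]
  have hc : z * a * b = c := by
    simp only [hzdef]
    calc a * b * c * a * b = a * b * (c * a) * b := by group
      _ = a * b * (a * c) * b := by rw [hac]
      _ = a * (b * a) * (c * b) := by group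
      _ = a * (a * b) * (b * c) := by rw [hab, hbc]
      _ = (a * a) * (b * b) * c := by group
      _ = c := by rw [haa, hbb]; group
  have hz_ab : z * (a * b) = (a * b) * z := by
    calc z * (a * b) = (z * a) * b := by group
      _ = (a * z) * b := by rw [hza]
      _ = a * (z * b) := by group
      _ = a * (b * z) := by rw [hzb]
      _ = (a * b) * z := by group
  -- e c e
  have h1 : e * c * e = z * (a * e * a) * (b * e * b) := by
    calc e * c * e = e * (z * a * b) * e := by rw [hc]
      _ = (e * z) * a * b * e := by group
      _ = (z * e) * a * b * e := by rw [hez]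
      _ = z * (e * a * (e * e) * b * e) := by rw [hee]; group
      _ = z * ((e * a * e) * (e * b * e)) := by group
      _ = z * ((a * e * a) * (b * e * b)) := by rw [ba, bb]
      _ = z * (a * e * a) * (b * e * b) := by group
  -- c e c
  have h2 : c * e * c = a * b * e * a * b := by
    calc c * e * c = (z * a * b) * e * (z * a * b) := by rw [hc]
      _ = z * (a * b) * (e * z) * a * b := by group
      _ = z * (a * b) * (z * e) * a * b := by rw [hez]
      _ = z * (a * b * z) * e * a * b := by group
      _ = z * (z * (a * b)) * e * a * b := by rw [← hz_ab]
      _ = (z * z) * (a * b) * e * a * b := by group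
      _ = a * b * e * a * b := by rw [hzz, one_mul]
  have h3 : z * (a * e * a) * (b * e * b) = a * b * e * a * b := by
    rw [← h1, bc, h2]
  -- solve for z
  have h4 : z = a * b * e * a * b * (b * e * b) * (a * e * a) := by
    rw [← h3]
    have hX : (a * e * a) * (a * e * a) = 1 := by
      calc (a * e * a) * (a * e * a) = a * e * (a * a) * e * a := by group
        _ = a * (e * e) * a := by rw [haa]; group
        _ = 1 := by rw [hee, mul_one, haa]
    have hY : (b * e * b) * (b * e * b) = 1 := by
      calc (b * e * b) * (b * e * b) = b * e * (b * b) * e * b := by group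
        _ = b * (e * e) * b := by rw [hbb]; group
        _ = 1 := by rw [hee, mul_one, hbb]
    calc z = z * ((a * e * a) * ((b * e * b) * (b * e * b)) * (a * e * a)) := by
            rw [hY, mul_one, hX, mul_one]
      _ = z * (a * e * a) * (b * e * b) * (b * e * b) * (a * e * a) := by group
  have h5 : z = e * b * a := by
    rw [h4]
    calc a * b * e * a * b * (b * e * b) * (a * e * a)
        = a * b * e * a * (b * b) * e * b * a * e * a := by group
      _ = a * b * (e * a * e) * b * a * e * a := by rw [hbb]; group
      _ = a * b * (a * e * a) * b * a * e * a := by rw [ba]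
      _ = (a * b * a) * e * (a * b * a) * e * a := by group
      _ = (b * a * a) * e * (b * a * a) * e * a := by rw [hab]
      _ = b * (a * a) * e * (b * (a * a)) * e * a := by group
      _ = (b * e * b) * e * a := by rw [haa]; group
      _ = (e * b * e) * e * a := by rw [bb]
      _ = e * b * (e * e) * a := by group
      _ = e * b * a := by rw [hee, mul_one]
  calc e = e * (b * b) * (a * a) := by rw [hbb, haa]; group
    _ = (e * b * a) * (a * b) := by
        calc e * (b * b) * (a * a) = e * b * (b * a) * a := by group
          _ = e * b * (a * b) * a := by rw [hab]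
          _ = e * b * a * (b * a) := by group
          _ = e * b * a * (a * b) := by rw [hab]
    _ = z * (a * b) := by rw [← h5]
    _ = c := by rw [← hc]; group

/-- For three distinct, pairwise commuting members a, b, c of a set of 3-transpositions E, a member e of E centralises a * b * c if and only if it centralises each of a, b and c. -/
theorem result {G : Type*} [Group G] {E : Set G} (hE : Cfsg.IsThreeTranspositionSet E) {a b c e : G} (ha : a ∈ E) (hb : b ∈ E) (hc : c ∈ E) (he : e ∈ E) (hab : a ≠ b) (hac : a ≠ c) (hbc : b ≠ c) (h₁ : Commute a b) (h₂ : Commute a c) (h₃ : Commute b c) : Commute e (a * b * c) ↔ (Commute e a ∧ Commute e b ∧ Commute e c) := by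
  have invol : ∀ d ∈ E, d * d = 1 := fun d hd => by
    have := pow_orderOf_eq_one d
    rw [hE.1 d hd] at this
    simpa [pow_two] using this
  have haa := invol a ha
  have hbb := invol b hb
  have hcc := invol c hc
  have hee := invol e he
  have comm_of_sq : ∀ d : G, d * d = 1 → (e * d) ^ 2 = 1 → Commute e d := fun d hd h => by
    have h1 : e * d * (e * d) = 1 := by simpa [pow_two] using h
    have hei : e⁻¹ = e := inv_eq_of_mul_eq_one_left hee
    have hdi : d⁻¹ = d := inv_eq_of_mul_eq_one_left hd
    have : e * d = (e * d)⁻¹ := eq_inv_of_mul_eq_one_left h1
    rw [Commute, SemiconjBy]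
    rw [mul_inv_rev, hei, hdi] at this
    exact this
  constructor
  · intro hz
    -- dichotomy for each of a, b, c
    by_cases hea : Commute e a
    · -- e commutes with b * c
      have h : Commute e (b * c) := by
        have : b * c = a⁻¹ * (a * b * c) := by group
        rw [this]
        exact hea.inv_right.mul_right hz
      have := (Cfsg.Agent.S0436.result hE hb hc he hbc h₃).1 h
      exact ⟨hea, this.1, this.2⟩
    by_cases heb : Commute e b
    · have h : Commute e (a * c) := by
        have : a * c = b⁻¹ * (a * b * c) := by
          calc a * c = b⁻¹ * (b * a) * c := by group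
            _ = b⁻¹ * (a * b) * c := by rw [h₁.eq]
            _ = b⁻¹ * (a * b * c) := by group
        rw [this]
        exact heb.inv_right.mul_right hz
      have := (Cfsg.Agent.S0436.result hE ha hc he hac h₂).1 h
      exact ⟨this.1, heb, this.2⟩
    by_cases hec : Commute e c
    · have h : Commute e (a * b) := by
        have : a * b = (a * b * c) * c⁻¹ := by group
        rw [this]
        exact hz.mul_right hec.inv_right
      have := (Cfsg.Agent.S0436.result hE ha hb he hab h₁).1 h
      exact ⟨this.1, this.2, hec⟩
    -- all three cubes
    exfalso
    have cube : ∀ d ∈ E, ¬ Commute e d → e * d * e = d * e * d := fun d hd hn => by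
      rcases hE.2 e he d hd with h | h
      · exact absurd (comm_of_sq d (invol d hd) h) hn
      · exact Cfsg.Agent.S0436.braid_of_cube hee (invol d hd) h
    have := word_eq haa hbb hcc hee h₁.eq h₂.eq h₃.eq hz (cube a ha hea) (cube b hb heb)
      (cube c hc hec)
    rw [this] at hea
    exact hea h₂.symm
  · rintro ⟨h1, h2, h3⟩
    exact (h1.mul_right h2).mul_right h3

end Cfsg.Agent.S0437
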