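import Cfsg.Statements.S0438
import Cfsg.Agent.S0436

set_option autoImplicit false
open Cfsg

namespace Cfsg.Agent.S0438

/-- Let E be a set of 3-transpositions closed under conjugation, and x an involutory automorphism of the group mapping E to itself. If some a in E fails to commute with its image x a, then x fixes an element of E. -/
theorem result {G : Type*} [Group G] {E : Set G} (hE : Cfsg.IsThreeTranspositionSet E) (hconj : ∀ g : G, ∀ d ∈ E, g * d * g⁻¹ ∈ E) (x : G ≃* G) (hx : ∀ g : G, x (x g) = g) (hxE : ∀ d ∈ E, x d ∈ E) {a : G} (ha : a ∈ E) (h : ¬ Commute a (x a)) : ∃ d ∈ E, x d = d := by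
  have invol : ∀ d ∈ E, d * d = 1 := fun d hd => by
    have := pow_orderOf_eq_one d
    rw [hE.1 d hd] at this
    simpa [pow_two] using this
  have hb := hxE a ha
  have haa := invol a ha
  have hbb := invol _ hb
  have hai : a⁻¹ = a := inv_eq_of_mul_eq_one_left haa
  have hcube : (a * x a) ^ 3 = 1 := by
    rcases hE.2 a ha (x a) hb with h2 | h3
    · exfalso
      apply h
      have h1 : a * x a * (a * x a) = 1 := by simpa [pow_two] using h2
      have hbi : (x a)⁻¹ = x a := inv_eq_of_mul_eq_one_left hbb
      have : a * x a = (a * x a)⁻¹ := eq_inv_of_mul_eq_one_left h1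
      rw [Commute, SemiconjBy]
      rw [mul_inv_rev, hai, hbi] at this
      exact this
    · exact h3
  have hbr := Cfsg.Agent.S0436.braid_of_cube haa hbb hcube
  refine ⟨a * x a * a, ?_, ?_⟩
  · have := hconj a (x a) hb
    rwa [hai] at this
  · rw [map_mul, map_mul, hx a, hbr]

end Cfsg.Agent.S0438
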