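import Cfsg.Statements.S0472
import Cfsg.Agent.Lib.TC.D.Fi23Z.Main

set_option autoImplicit false
open Cfsg

namespace Cfsg.Agent.S0472

/-- The Fischer group of order 4089470473293004800 exists as a 3-transposition group: a simple group of that order generated by a conjugacy class of 31671 3-transpositions, the centraliser of each being a non-split double cover of a simple group of order 64561751654400. -/
theorem result : ∃ (G : Type) (_ : Group G) (_ : Finite G), Cfsg.IsFi23 G ∧ ∃ D : Set G, Cfsg.IsThreeTranspositionClass D ∧ Nat.card D = 31671 ∧ ∀ d ∈ D, ∃ (K : Type) (_ : Group K), Cfsg.IsFi22 K ∧ Cfsg.IsNonsplitDoubleCover (Subgroup.centralizer ({d} : Set G)) K := by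
  have hfin := Cfsg.Agent.Lib.TC.D.Fi23Z.hfin
  obtain ⟨h1, h2, h3⟩ := Cfsg.Agent.Lib.TC.D.Fi23Z.hmain
  refine ⟨Cfsg.Spor.Fi23, inferInstance, hfin, Cfsg.Agent.Lib.TC.D.Fi23Chain.Main.simple_card, conjugatesOf Cfsg.Agent.Lib.TC.D.Fi23Z.z, h2, h3, ?_⟩
  intro d hd
  obtain ⟨g, rfl⟩ := isConj_iff.1 hd
  refine ⟨Cfsg.Spor.Fi22, inferInstance, Cfsg.Agent.Lib.TC.D.Fi22Chain.Main.simple_card, ?_⟩
  have h4 : Cfsg.IsNonsplitDoubleCover (Subgroup.centralizer ({Cfsg.Agent.Lib.TC.D.Fi23Z.z} : Set (PresentedGroup Cfsg.Agent.Lib.TC.G.Fi23.Rel)))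
      (PresentedGroup Cfsg.Agent.Lib.TC.G.Fi22.Rel) := by
    rw [h1]
    exact Cfsg.Agent.Lib.TC.D.Fi23Z.main
  exact Cfsg.Agent.Lib.TC.Tra.nsdc_congr (Cfsg.Agent.Lib.TC.Tra.centConj g Cfsg.Agent.Lib.TC.D.Fi23Z.z) h4

end Cfsg.Agent.S0472
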