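import Cfsg.Statements.S0473
import Cfsg.Agent.Lib.TC.D.Fi24Chain.Main

set_option autoImplicit false
open Cfsg

namespace Cfsg.Agent.S0473

/-- The largest Fischer 3-transposition group: a group of order 2 · 1255205709190661721292800 generated by a conjugacy class of 306936 3-transpositions, in which a transposition centraliser has order 2 · 4089470473293004800 and contains a simple subgroup of order 4089470473293004800; its subgroup of index 2 is simple and contains simple subgroups of orders 4089470473293004800 and 4030387200. -/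
theorem result : ∃ (G : Type) (_ : Group G) (_ : Finite G), Nat.card G = 2 * 1255205709190661721292800 ∧ ∃ D : Set G, Cfsg.IsThreeTranspositionClass D ∧ Nat.card D = 306936 ∧ (∀ d ∈ D, Nat.card (Subgroup.centralizer ({d} : Set G)) = 2 * 4089470473293004800 ∧ ∃ K : Subgroup G, K ≤ Subgroup.centralizer ({d} : Set G) ∧ Cfsg.IsFi23 K) ∧ ∃ H : Subgroup G, H.index = 2 ∧ Cfsg.IsFi24' H ∧ (∃ K : Subgroup H, Cfsg.IsFi23 K) ∧ (∃ K : Subgroup H, Cfsg.IsHe K) := by
  exact Cfsg.Agent.Lib.TC.D.Fi24Chain.Main.main

end Cfsg.Agent.S0473
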