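-- Proof of S0502 (four-connected 2-groups with a normal E8).
import Cfsg.Statements.S0502

set_option autoImplicit false
open Cfsg

namespace Cfsg.Agent.S0502

/-- The adjacency relation in the commuting graph on four-subgroups. -/
abbrev Adj {S : Type*} [Group S] (A B : Subgroup S) : Prop :=
  IsKleinFour A ∧ IsKleinFour B ∧ ∀ a ∈ A, ∀ b ∈ B, a * b = b * a

/-- A Klein four subgroup from two commuting distinct involutions. -/
lemma exists_four {P : Type*} [Group P] (a b : P) (ha : a ^ 2 = 1) (hb : b ^ 2 = 1)
    (hab : a * b = b * a) (ha1 : a ≠ 1) (hb1 : b ≠ 1) (hne : a ≠ b) :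
    ∃ W : Subgroup P, IsKleinFour W ∧ a ∈ W ∧ b ∈ W ∧
      ∀ x ∈ W, x = 1 ∨ x = a ∨ x = b ∨ x = a * b := by
  have ha' : a * a = 1 := by rw [← pow_two]; exact ha
  have hb' : b * b = 1 := by rw [← pow_two]; exact hb
  have hainv : a⁻¹ = a := by rw [inv_eq_iff_mul_eq_one]; exact ha'
  have hbinv : b⁻¹ = b := by rw [inv_eq_iff_mul_eq_one]; exact hb'
  have hab1 : a * b ≠ 1 := by
    intro h
    have : a = b := by
      have h2 : a = b⁻¹ := eq_inv_of_mul_eq_one_left h
      rw [hbinv] at h2; exact h2
    exact hne this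
  have haba : a * b ≠ a := by
    intro h; exact hb1 (by simpa using h)
  have habb : a * b ≠ b := by
    intro h; exact ha1 (by simpa using h)
  -- the subgroup
  let W : Subgroup P :=
    { carrier := {x | x = 1 ∨ x = a ∨ x = b ∨ x = a * b}
      one_mem' := Or.inl rfl
      mul_mem' := by
        intro x y hx hy
        have e1 : a * (a * b) = b := by rw [← mul_assoc, ha', one_mul]
        have e2 : b * (a * b) = a := by rw [hab, ← mul_assoc, hb', one_mul]
        have e3 : a * b * a = b := by rw [hab, mul_assoc, ha', mul_one]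
        have e4 : a * b * b = a := by rw [mul_assoc, hb', mul_one]
        have e5 : a * b * (a * b) = 1 := by
          calc a * b * (a * b) = a * (b * a) * b := by simp only [mul_assoc]
            _ = a * (a * b) * b := by rw [hab]
            _ = (a * a) * (b * b) := by simp only [mul_assoc]
            _ = 1 := by rw [ha', hb', one_mul]
        change x = 1 ∨ x = a ∨ x = b ∨ x = a * b at hx
        change y = 1 ∨ y = a ∨ y = b ∨ y = a * b at hy
        change x * y = 1 ∨ x * y = a ∨ x * y = b ∨ x * y = a * b
        rcases hx with hx | hx | hx | hx <;> rcases hy with hy | hy | hy | hy <;> rw [hx, hy] <;>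
          simp only [one_mul, mul_one, ha', hb', e1, e2, e3, e4, e5, hab.symm, true_or, or_true]
      inv_mem' := by
        intro x hx
        change x = 1 ∨ x = a ∨ x = b ∨ x = a * b at hx
        change x⁻¹ = 1 ∨ x⁻¹ = a ∨ x⁻¹ = b ∨ x⁻¹ = a * b
        rcases hx with hx | hx | hx | hx <;> rw [hx]
        · left; simp
        · right; left; exact hainv
        · right; right; left; exact hbinv
        · right; right; right
          rw [mul_inv_rev, hainv, hbinv, hab] }
  refine ⟨W, ?_, Or.inr (Or.inl rfl), Or.inr (Or.inr (Or.inl rfl)), fun x hx => hx⟩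
  have hcard : Nat.card W = 4 := by
    classical
    have : (W : Set P) = ((({1, a, b, a * b} : Finset P)) : Set P) := by
      ext x
      simp [W]
    have h1 : Nat.card W = Nat.card (W : Set P) := rfl
    rw [h1, this, Nat.card_coe_set_eq, Set.ncard_coe_finset]
    rw [Finset.card_insert_of_notMem, Finset.card_insert_of_notMem, Finset.card_insert_of_notMem,
      Finset.card_singleton]
    · simp only [Finset.mem_singleton]; exact fun h => habb h.symm
    · simp only [Finset.mem_insert, Finset.mem_singleton, not_or]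
      exact ⟨hne, fun h => haba h.symm⟩
    · simp only [Finset.mem_insert, Finset.mem_singleton, not_or]
      exact ⟨fun h => ha1 h.symm, fun h => hb1 h.symm, fun h => hab1 h.symm⟩
  have hsq : ∀ x : W, x ^ 2 = 1 := by
    rintro ⟨x, hx⟩
    apply Subtype.ext
    simp only [Subgroup.coe_pow, Subgroup.coe_one]
    rcases hx with rfl | rfl | rfl | rfl
    · simp
    · exact ha
    · exact hb
    · calc (a * b) ^ 2 = a * (b * a) * b := by simp only [pow_two, mul_assoc]
        _ = a * (a * b) * b := by rw [hab]
        _ = (a * a) * (b * b) := by simp only [mul_assoc]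
        _ = 1 := by rw [ha', hb', one_mul]
  refine ⟨hcard, ?_⟩
  -- exponent two
  have hne1 : (⟨a, Or.inr (Or.inl rfl)⟩ : W) ≠ 1 := by
    intro h; exact ha1 (congrArg Subtype.val h)
  have hexp : Monoid.exponent W ∣ 2 := Monoid.exponent_dvd_of_forall_pow_eq_one hsq
  have hle := Nat.le_of_dvd (by norm_num) hexp
  have hpos : Monoid.exponent W ≠ 1 := by
    intro h
    have := Monoid.pow_exponent_eq_one (⟨a, Or.inr (Or.inl rfl)⟩ : W)
    rw [h, pow_one] at this
    exact hne1 this
  have h0 : Monoid.exponent W ≠ 0 := by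
    intro h; rw [h] at hexp; simp at hexp
  omega

/-- Nontrivial normal subgroups of a finite 2-group contain a central involution-like element:
a non-identity element of `E` commuting with everything. -/
lemma exists_central {P : Type*} [Group P] [Finite P] (hP : IsPGroup 2 P)
    (E : Subgroup P) [E.Normal] (hE8 : 8 ≤ Nat.card E) :
    ∃ z ∈ E, z ≠ 1 ∧ ∀ g : P, g * z = z * g := by
  classical
  haveI : Fact (Nat.Prime 2) := ⟨Nat.prime_two⟩
  have hP' : IsPGroup 2 (ConjAct P) := hP
  have hmod := hP'.card_modEq_card_fixedPoints (α := E)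
  have hEp : IsPGroup 2 E := hP.to_subgroup E
  obtain ⟨n, hn⟩ := IsPGroup.iff_card.mp hEp
  have hn0 : n ≠ 0 := by
    rintro rfl; rw [pow_zero] at hn; omega
  have heven : 2 ∣ Nat.card E := by
    rw [hn]; exact dvd_pow_self 2 hn0
  have hfix : 2 ∣ Nat.card (MulAction.fixedPoints (ConjAct P) E) := by
    have := (Nat.modEq_zero_iff_dvd.mp ((hmod.symm).trans (Nat.modEq_zero_iff_dvd.mpr heven)))
    exact this
  have h1mem : (1 : E) ∈ MulAction.fixedPoints (ConjAct P) E := by
    intro g
    simp
  have hnontriv : 1 < Nat.card (MulAction.fixedPoints (ConjAct P) E) := by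
    have hpos : 0 < Nat.card (MulAction.fixedPoints (ConjAct P) E) :=
      Nat.card_pos_iff.mpr ⟨⟨⟨1, h1mem⟩⟩, inferInstance⟩
    have : 2 ≤ Nat.card (MulAction.fixedPoints (ConjAct P) E) := Nat.le_of_dvd hpos hfix
    omega
  haveI := Finite.one_lt_card_iff_nontrivial.mp hnontriv
  obtain ⟨⟨x, hx⟩, hx1⟩ := exists_ne (⟨1, h1mem⟩ : MulAction.fixedPoints (ConjAct P) E)
  refine ⟨x, x.2, ?_, ?_⟩
  · intro h
    apply hx1
    apply Subtype.ext
    apply Subtype.ext
    exact h
  · intro g
    have := hx (ConjAct.toConjAct g)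
    have h2 := congrArg Subtype.val this
    simp only [ConjAct.Subgroup.val_conj_smul, ConjAct.smul_def, ConjAct.ofConjAct_toConjAct] at h2
    calc g * x = g * x * g⁻¹ * g := by group
      _ = x * g := by rw [h2]

/-- The centralizer in an elementary abelian `E` of an involution has at least three elements. -/
lemma exists_pair {P : Type*} [Group P] [Finite P] (a : P) (ha : a ^ 2 = 1)
    (E : Subgroup P) [hEn : E.Normal] (hE : IsMulCommutative E) (hE2 : ∀ e ∈ E, e ^ 2 = 1)
    (hE8 : 8 ≤ Nat.card E) :
    ∃ c ∈ E, ∃ d ∈ E, c ≠ 1 ∧ d ≠ 1 ∧ c ≠ d ∧ a * c = c * a ∧ a * d = d * a := by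
  classical
  have hcomm : ∀ x y : E, x * y = y * x := fun x y => mul_comm' x y
  have ha' : a⁻¹ = a := by
    rw [inv_eq_iff_mul_eq_one, ← pow_two]; exact ha
  -- the conjugation by `a`
  let c : E → E := fun e => ⟨a * e * a⁻¹, hEn.conj_mem e e.2 a⟩
  have hcc : ∀ e, c (c e) = e := by
    intro e; apply Subtype.ext
    simp only [c]
    rw [ha']
    calc a * (a * (e : P) * a) * a = (a * a) * e * (a * a) := by simp only [mul_assoc]
      _ = e := by
        rw [← pow_two, ha]; simp
  have hcm : ∀ x y, c (x * y) = c x * c y := by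
    intro x y; apply Subtype.ext
    simp only [c, Subgroup.coe_mul]
    group
  let φ : E →* E := MonoidHom.mk' (fun e => e * c e) (by
    intro x y
    rw [hcm]
    calc x * y * (c x * c y) = x * (y * c x) * c y := by simp only [mul_assoc]
      _ = x * (c x * y) * c y := by rw [hcomm y (c x)]
      _ = x * c x * (y * c y) := by simp only [mul_assoc])
  let C : Subgroup E := (Subgroup.centralizer ({a} : Set P)).subgroupOf E
  have hmemC : ∀ e : E, e ∈ C ↔ c e = e := by
    intro e
    simp only [C, Subgroup.mem_subgroupOf, Subgroup.mem_centralizer_singleton_iff, c]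
    constructor
    · intro h; apply Subtype.ext; simp only; rw [← h]; group
    · intro h
      have := congrArg Subtype.val h
      simp only at this
      exact (mul_inv_eq_iff_eq_mul.mp this).symm
  have hinv : ∀ e : E, e⁻¹ = e := by
    intro e
    rw [inv_eq_iff_mul_eq_one]
    apply Subtype.ext
    simp only [Subgroup.coe_mul, Subgroup.coe_one]
    rw [← pow_two]; exact hE2 _ e.2
  have hker : φ.ker ≤ C := by
    intro e he
    rw [MonoidHom.mem_ker] at he
    rw [hmemC]
    have : e * c e = 1 := he
    have h2 : c e = e⁻¹ := by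
      exact (eq_inv_of_mul_eq_one_right this)
    rw [h2, hinv]
  have hrange : φ.range ≤ C := by
    rintro _ ⟨e, rfl⟩
    rw [hmemC]
    change c (e * c e) = e * c e
    rw [hcm, hcc, hcomm]
  have hcardE : Nat.card E = Nat.card φ.ker * Nat.card φ.range := by
    rw [← Subgroup.index_ker, Subgroup.card_mul_index]
  have hC3 : 2 < Nat.card C := by
    by_contra hlt
    rw [not_lt] at hlt
    have h1 : Nat.card φ.ker ≤ Nat.card C := Subgroup.card_le_of_le hker
    have h2 : Nat.card φ.range ≤ Nat.card C := Subgroup.card_le_of_le hrange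
    have : Nat.card E ≤ 2 * 2 := by
      rw [hcardE]; exact Nat.mul_le_mul (h1.trans hlt) (h2.trans hlt)
    omega
  haveI : Fintype C := Fintype.ofFinite _
  rw [Nat.card_eq_fintype_card, Fintype.two_lt_card_iff] at hC3
  obtain ⟨x, y, z, hxy, hxz, hyz⟩ := hC3
  have key : ∀ u : C, a * ((u : E) : P) = ((u : E) : P) * a := by
    intro u
    have := u.2
    simp only [C, Subgroup.mem_subgroupOf, Subgroup.mem_centralizer_singleton_iff] at this
    exact this.symm
  have hne : ∀ u v : C, u ≠ v → ((u : E) : P) ≠ ((v : E) : P) := by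
    intro u v huv h
    exact huv (Subtype.ext (Subtype.ext h))
  by_cases hx1 : ((x : E) : P) = 1
  · refine ⟨_, (y : E).2, _, (z : E).2, ?_, ?_, hne _ _ hyz, key y, key z⟩
    · intro h; exact hne _ _ hxy (hx1.trans h.symm)
    · intro h; exact hne _ _ hxz (hx1.trans h.symm)
  · by_cases hy1 : ((y : E) : P) = 1
    · refine ⟨_, (x : E).2, _, (z : E).2, hx1, ?_, hne _ _ hxz, key x, key z⟩
      intro h; exact hne _ _ hyz (hy1.trans h.symm)
    · exact ⟨_, (x : E).2, _, (y : E).2, hx1, hy1, hne _ _ hxy, key x, key y⟩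

/-- If a finite 2-group has a normal elementary abelian subgroup of order at least 8, then any two of its Klein
four-subgroups are joined by a chain of Klein four-subgroups with consecutive members commuting elementwise. -/
theorem result {P : Type*} [Group P] [Finite P] (hP : IsPGroup 2 P)
    (E : Subgroup P) [E.Normal] (hE : IsMulCommutative E) (hE2 : ∀ e ∈ E, e ^ 2 = 1) (hE8 : 8 ≤ Nat.card E) :
    Cfsg.IsFourConnected P := by
  classical
  obtain ⟨z, hzE, hz1, hzc⟩ := exists_central hP E hE8
  have hz2 : z ^ 2 = 1 := hE2 z hzE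
  have hcommE : ∀ x ∈ E, ∀ y ∈ E, x * y = y * x := by
    intro x hx y hy
    have := mul_comm' (⟨x, hx⟩ : E) ⟨y, hy⟩
    exact congrArg Subtype.val this
  -- step 1: every four-group is connected to a four-group in `E`
  have step : ∀ U : Subgroup P, IsKleinFour U →
      ∃ W : Subgroup P, IsKleinFour W ∧ W ≤ E ∧
        Relation.ReflTransGen (Adj (S := P)) U W := by
    intro U hU
    -- pick `a ∈ U` with `a ≠ 1`, `a ≠ z`
    have hcardU : Nat.card U = 4 := IsKleinFour.card_four
    have hexp : Monoid.exponent U = 2 := IsKleinFour.exponent_two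
    have hUsq : ∀ u ∈ U, u ^ 2 = 1 := by
      intro u hu
      have := Monoid.pow_exponent_eq_one (⟨u, hu⟩ : U)
      rw [hexp] at this
      exact congrArg Subtype.val this
    haveI : Fintype U := Fintype.ofFinite _
    have : 2 < Fintype.card U := by
      rw [← Nat.card_eq_fintype_card, hcardU]; norm_num
    obtain ⟨a', b', c', hab', hac', hbc'⟩ := Fintype.two_lt_card_iff.mp this
    obtain ⟨a, haU, ha1, haz⟩ : ∃ a ∈ U, a ≠ 1 ∧ a ≠ z := by
      by_cases h1 : (a' : P) = 1
      · by_cases h2 : (b' : P) = z
        · refine ⟨c', c'.2, ?_, ?_⟩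
          · intro h; exact hac' (Subtype.ext (h1.trans h.symm))
          · intro h; exact hbc' (Subtype.ext (h2.trans h.symm))
        · refine ⟨b', b'.2, ?_, h2⟩
          intro h; exact hab' (Subtype.ext (h1.trans h.symm))
      · by_cases h2 : (a' : P) = z
        · by_cases h3 : (b' : P) = 1
          · refine ⟨c', c'.2, ?_, ?_⟩
            · intro h; exact hbc' (Subtype.ext (h3.trans h.symm))
            · intro h; exact hac' (Subtype.ext (h2.trans h.symm))
          · refine ⟨b', b'.2, h3, ?_⟩
            intro h; exact hab' (Subtype.ext (h2.trans h.symm))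
        · exact ⟨a', a'.2, h1, h2⟩
    have ha2 : a ^ 2 = 1 := hUsq a haU
    have hUcomm : ∀ x ∈ U, ∀ y ∈ U, x * y = y * x := by
      intro x hx y hy
      have h1 := hUsq _ (U.mul_mem hx hy)
      have hxx : x * x = 1 := by rw [← pow_two]; exact hUsq x hx
      have hyy : y * y = 1 := by rw [← pow_two]; exact hUsq y hy
      have h2 : (x * y)⁻¹ = x * y := inv_eq_of_mul_eq_one_left (by rw [← pow_two]; exact h1)
      rw [mul_inv_rev, inv_eq_of_mul_eq_one_left hxx, inv_eq_of_mul_eq_one_left hyy] at h2
      exact h2.symm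
    obtain ⟨U', hU', haU', hzU', hU'mem⟩ := exists_four a z ha2 hz2 (hzc a) ha1 hz1 haz
    obtain ⟨c, hcE, d, hdE, hc1, hd1, hcd, hac, had⟩ := exists_pair a ha2 E hE hE2 hE8
    obtain ⟨W₀, hW₀, hcW, hdW, hWmem⟩ := exists_four c d (hE2 c hcE) (hE2 d hdE) (hcommE c hcE d hdE)
      hc1 hd1 hcd
    have hW₀E : W₀ ≤ E := by
      intro x hx
      rcases hWmem x hx with rfl | rfl | rfl | rfl
      · exact E.one_mem
      · exact hcE
      · exact hdE
      · exact E.mul_mem hcE hdE
    refine ⟨W₀, hW₀, hW₀E, ?_⟩
    refine Relation.ReflTransGen.head (b := U') ⟨hU, hU', ?_⟩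
      (Relation.ReflTransGen.head (b := W₀) ⟨hU', hW₀, ?_⟩ Relation.ReflTransGen.refl)
    · -- `U` commutes with `{1, a, z, a z}`
      intro x hx y hy
      rcases hU'mem y hy with rfl | rfl | rfl | rfl
      · simp
      · exact hUcomm x hx _ haU
      · exact (hzc x)
      · calc x * (a * z) = (x * a) * z := by rw [mul_assoc]
          _ = (a * x) * z := by rw [hUcomm x hx a haU]
          _ = a * (x * z) := by rw [mul_assoc]
          _ = a * (z * x) := by rw [hzc x]
          _ = a * z * x := by rw [mul_assoc]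
    · -- `{1, a, z, a z}` commutes with `W₀`
      have hcm : ∀ y ∈ W₀, a * y = y * a ∧ z * y = y * z := by
        intro y hy
        refine ⟨?_, (hzc y).symm⟩
        rcases hWmem y hy with rfl | rfl | rfl | rfl
        · simp
        · exact hac
        · exact had
        · calc a * (c * d) = (a * c) * d := by rw [mul_assoc]
            _ = (c * a) * d := by rw [hac]
            _ = c * (a * d) := by rw [mul_assoc]
            _ = c * (d * a) := by rw [had]
            _ = c * d * a := by rw [mul_assoc]
      intro x hx y hy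
      obtain ⟨h1, h2⟩ := hcm y hy
      rcases hU'mem x hx with rfl | rfl | rfl | rfl
      · simp
      · exact h1
      · exact h2
      · calc a * z * y = a * (z * y) := by rw [mul_assoc]
          _ = a * (y * z) := by rw [h2]
          _ = (a * y) * z := by rw [mul_assoc]
          _ = (y * a) * z := by rw [h1]
          _ = y * (a * z) := by rw [mul_assoc]
  -- symmetric closure
  have hsymm : ∀ {A B : Subgroup P}, Adj A B → Adj B A := by
    rintro A B ⟨hA, hB, h⟩
    exact ⟨hB, hA, fun b hb a ha => (h a ha b hb).symm⟩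
  have hrev : ∀ {A B : Subgroup P}, Relation.ReflTransGen (Adj (S := P)) A B →
      Relation.ReflTransGen (Adj (S := P)) B A := by
    intro A B h
    induction h with
    | refl => exact Relation.ReflTransGen.refl
    | tail _ hbc ih => exact Relation.ReflTransGen.head (hsymm hbc) ih
  intro U V hU hV
  obtain ⟨W₁, hW₁, hW₁E, h₁⟩ := step U hU
  obtain ⟨W₂, hW₂, hW₂E, h₂⟩ := step V hV
  have hmid : Adj W₁ W₂ := ⟨hW₁, hW₂, fun a ha b hb => hcommE a (hW₁E ha) b (hW₂E hb)⟩
  exact (h₁.tail hmid).trans (hrev h₂)

end Cfsg.Agent.S0502
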