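-- Proof of S0520: connectivity of the commuting graph on four-subgroups and the 2-generated core.
import Cfsg.Statements.S0520
import Cfsg.Agent.S0502

set_option autoImplicit false
open Cfsg

namespace Cfsg.Agent.S0520

open Cfsg.Agent.S0502 (Adj exists_four)

section basics

variable {G : Type*} [Group G]

/-- conjugate subgroup -/
abbrev conjS (g : G) (U : Subgroup G) : Subgroup G := U.map (MulAut.conj g).toMonoidHom

lemma mem_conjS {g x : G} {U : Subgroup G} : x ∈ conjS g U ↔ g⁻¹ * x * g ∈ U := by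
  constructor
  · rintro ⟨u, hu, rfl⟩
    simpa [mul_assoc] using hu
  · intro h
    exact ⟨_, h, by simp [mul_assoc]⟩

lemma conj_mem_conjS {g u : G} {U : Subgroup G} (hu : u ∈ U) : g * u * g⁻¹ ∈ conjS g U :=
  ⟨u, hu, rfl⟩

lemma conjS_mul (g h : G) (U : Subgroup G) : conjS (g * h) U = conjS g (conjS h U) := by
  ext x; simp [mem_conjS, mul_assoc]

lemma conjS_one (U : Subgroup G) : conjS (1 : G) U = U := by
  ext x; simp [mem_conjS]

lemma conjS_le {g : G} {U V : Subgroup G} (h : U ≤ V) : conjS g U ≤ conjS g V :=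
  Subgroup.map_mono h

lemma isKleinFour_iff' {H : Type*} [Group H] :
    IsKleinFour H ↔ Nat.card H = 4 ∧ ∀ x : H, x ^ 2 = 1 := by
  constructor
  · intro h
    refine ⟨IsKleinFour.card_four, fun x => ?_⟩
    have := Monoid.pow_exponent_eq_one x
    rwa [IsKleinFour.exponent_two] at this
  · rintro ⟨h4, hsq⟩
    refine ⟨h4, ?_⟩
    have hexp : Monoid.exponent H ∣ 2 := Monoid.exponent_dvd_of_forall_pow_eq_one hsq
    have hle := Nat.le_of_dvd (by norm_num) hexp
    have h0 : Monoid.exponent H ≠ 0 := by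
      intro h; rw [h] at hexp; simp at hexp
    have h1 : Monoid.exponent H ≠ 1 := by
      intro h
      have hsub : Subsingleton H := Monoid.exp_eq_one_iff.mp h
      have : Nat.card H = 1 := Nat.card_of_subsingleton (1 : H)
      omega
    omega

lemma klein_map {H K : Type*} [Group H] [Group K] (f : H →* K) (hf : Function.Injective f)
    (U : Subgroup H) (hU : IsKleinFour U) : IsKleinFour (U.map f) := by
  rw [isKleinFour_iff'] at hU ⊢
  refine ⟨?_, ?_⟩
  · rw [← hU.1]
    exact Nat.card_congr (Subgroup.equivMapOfInjective U f hf).toEquiv.symm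
  · rintro ⟨x, u, hu, rfl⟩
    apply Subtype.ext
    have := hU.2 ⟨u, hu⟩
    have h2 : u ^ 2 = 1 := congrArg Subtype.val this
    simp [← map_pow, h2]

lemma klein_conj (g : G) (U : Subgroup G) (hU : IsKleinFour U) : IsKleinFour (conjS g U) :=
  klein_map _ (MulAut.conj g).injective U hU

lemma klein_subgroupOf (U S : Subgroup G) (h : U ≤ S) (hU : IsKleinFour U) :
    IsKleinFour (U.subgroupOf S) := by
  rw [isKleinFour_iff'] at hU ⊢
  refine ⟨?_, ?_⟩
  · rw [← hU.1]
    exact Nat.card_congr (Subgroup.subgroupOfEquivOfLe h).toEquiv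
  · rintro ⟨⟨x, hxS⟩, hx⟩
    apply Subtype.ext
    apply Subtype.ext
    have hxU : x ∈ U := hx
    have := congrArg Subtype.val (hU.2 ⟨x, hxU⟩)
    simpa using this

/-- Reachability in the commuting graph of four-subgroups. -/
abbrev Reach (U V : Subgroup G) : Prop := Relation.ReflTransGen (Adj (S := G)) U V

lemma adj_symm {A B : Subgroup G} (h : Adj A B) : Adj B A := by
  obtain ⟨hA, hB, h⟩ := h
  exact ⟨hB, hA, fun b hb a ha => (h a ha b hb).symm⟩

lemma reach_symm {A B : Subgroup G} (h : Reach A B) : Reach B A := by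
  induction h with
  | refl => exact Relation.ReflTransGen.refl
  | tail _ hbc ih => exact Relation.ReflTransGen.head (adj_symm hbc) ih

lemma adj_conj (g : G) {A B : Subgroup G} (h : Adj A B) : Adj (conjS g A) (conjS g B) := by
  obtain ⟨hA, hB, h⟩ := h
  refine ⟨klein_conj g A hA, klein_conj g B hB, ?_⟩
  rintro _ ⟨a, ha, rfl⟩ _ ⟨b, hb, rfl⟩
  have := h a ha b hb
  simp only [MulEquiv.coe_toMonoidHom, MulAut.conj_apply]
  calc g * a * g⁻¹ * (g * b * g⁻¹) = g * (a * b) * g⁻¹ := by group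
    _ = g * (b * a) * g⁻¹ := by rw [this]
    _ = g * b * g⁻¹ * (g * a * g⁻¹) := by group

lemma reach_conj (g : G) {A B : Subgroup G} (h : Reach A B) : Reach (conjS g A) (conjS g B) := by
  induction h with
  | refl => exact Relation.ReflTransGen.refl
  | tail _ hbc ih => exact Relation.ReflTransGen.tail ih (adj_conj g hbc)

/-- `Q` contains a four-group. -/
def FourIn (Q : Subgroup G) : Prop := ∃ U : Subgroup G, U ≤ Q ∧ IsKleinFour U

lemma not_rank_of_fourIn {Q : Subgroup G} (h : FourIn Q) : ¬ Cfsg.PRankLE 2 1 Q := by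
  obtain ⟨U, hUQ, hU⟩ := h
  intro hr
  have hk := klein_subgroupOf U Q hUQ hU
  have hsq := (isKleinFour_iff'.mp hk).2
  have hc := (isKleinFour_iff'.mp hk).1
  have hcomm : IsMulCommutative (U.subgroupOf Q) := by
    refine ⟨⟨fun x y => ?_⟩⟩
    have h1 := hsq (x * y)
    have hx := hsq x
    have hy := hsq y
    have hxx : x * x = 1 := by rw [← pow_two]; exact hx
    have hyy : y * y = 1 := by rw [← pow_two]; exact hy
    have h2 : (x * y)⁻¹ = x * y := inv_eq_of_mul_eq_one_left (by rw [← pow_two]; exact h1)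
    rw [mul_inv_rev, inv_eq_of_mul_eq_one_left hxx, inv_eq_of_mul_eq_one_left hyy] at h2
    exact h2.symm
  have := hr (U.subgroupOf Q) hcomm (fun a ha => congrArg Subtype.val (hsq ⟨a, ha⟩))
  rw [hc] at this
  omega

lemma fourIn_of_not_rank' {H : Type*} [Group H] [Finite H] (h : ¬ Cfsg.PRankLE 2 1 H) :
    ∃ U : Subgroup H, IsKleinFour U := by
  classical
  unfold Cfsg.PRankLE at h
  rw [not_forall] at h
  obtain ⟨A, hA⟩ := h
  rw [not_forall] at hA
  obtain ⟨hc, hA⟩ := hA
  rw [not_forall] at hA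
  obtain ⟨hsq, hA⟩ := hA
  have hlt : 2 < Nat.card A := by
    rw [not_le] at hA; simpa using hA
  haveI : Fintype A := Fintype.ofFinite _
  rw [Nat.card_eq_fintype_card, Fintype.two_lt_card_iff] at hlt
  obtain ⟨x, y, z, hxy, hxz, hyz⟩ := hlt
  have hne : ∀ u v : A, u ≠ v → (u : H) ≠ (v : H) := fun u v huv h => huv (Subtype.ext h)
  have key : ∃ c ∈ A, ∃ d ∈ A, c ≠ 1 ∧ d ≠ 1 ∧ c ≠ d := by
    by_cases hx1 : (x : H) = 1
    · refine ⟨_, y.2, _, z.2, ?_, ?_, hne _ _ hyz⟩
      · intro h; exact hne _ _ hxy (hx1.trans h.symm)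
      · intro h; exact hne _ _ hxz (hx1.trans h.symm)
    · by_cases hy1 : (y : H) = 1
      · refine ⟨_, x.2, _, z.2, hx1, ?_, hne _ _ hxz⟩
        intro h; exact hne _ _ hyz (hy1.trans h.symm)
      · exact ⟨_, x.2, _, y.2, hx1, hy1, hne _ _ hxy⟩
  obtain ⟨c, hcA, d, hdA, hc1, hd1, hcd⟩ := key
  have hcomm : c * d = d * c := congrArg Subtype.val (mul_comm' (⟨c, hcA⟩ : A) ⟨d, hdA⟩)
  obtain ⟨W, hW, -, -, -⟩ := exists_four c d (hsq c hcA) (hsq d hdA) hcomm hc1 hd1 hcd
  exact ⟨W, hW⟩

lemma fourIn_of_not_rank [Finite G] {Q : Subgroup G} (h : ¬ Cfsg.PRankLE 2 1 Q) : FourIn Q := by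
  obtain ⟨U, hU⟩ := fourIn_of_not_rank' h
  refine ⟨U.map Q.subtype, ?_, klein_map _ Subtype.val_injective U hU⟩
  rintro _ ⟨u, -, rfl⟩
  exact u.2

lemma card_lt_of_lt [Finite G] {H K : Subgroup G} (h : H < K) : Nat.card H < Nat.card K := by
  have h1 : (H : Set G) ⊂ (K : Set G) := by
    exact_mod_cast h
  have := Set.ncard_lt_ncard h1 (Set.toFinite _)
  rw [← Nat.card_coe_set_eq, ← Nat.card_coe_set_eq] at this
  exact this

lemma exists_normalizer_step [Finite G] {P Q : Subgroup G} (hP : IsPGroup 2 P) (h : Q < P) :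
    ∃ x ∈ P, x ∉ Q ∧ x ∈ Subgroup.normalizer (Q : Set G) := by
  classical
  haveI : Group.IsNilpotent P := by
    haveI : Fact (Nat.Prime 2) := ⟨Nat.prime_two⟩
    exact hP.isNilpotent
  have hcond := Group.normalizerCondition_of_isNilpotent (G := P)
  have hlt : Q.subgroupOf P < ⊤ := by
    rw [lt_top_iff_ne_top]
    intro heq
    have : P ≤ Q := by
      intro x hx
      have : (⟨x, hx⟩ : P) ∈ Q.subgroupOf P := by rw [heq]; trivial
      exact this
    exact absurd (lt_of_lt_of_le h this) (lt_irrefl _)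
  have h2 := hcond _ hlt
  obtain ⟨⟨x, hxP⟩, hx, hxQ⟩ := SetLike.exists_of_lt h2
  refine ⟨x, hxP, hxQ, ?_⟩
  rw [Subgroup.mem_normalizer_iff] at hx ⊢
  intro y
  constructor
  · intro hy
    have hyP : y ∈ P := h.le hy
    have := (hx ⟨y, hyP⟩).mp hy
    exact this
  · intro hy
    have hyP : y ∈ P := by
      have hin : x * y * x⁻¹ ∈ P := h.le hy
      have : y = x⁻¹ * (x * y * x⁻¹) * x := by group
      rw [this]
      exact P.mul_mem (P.mul_mem (P.inv_mem hxP) hin) hxP
    have := (hx ⟨y, hyP⟩).mpr hy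
    exact this

end basics

local instance fact2 : Fact (Nat.Prime 2) := ⟨Nat.prime_two⟩

section alperin

variable {G : Type*} [Group G] [Finite G]


lemma mem_smul_sylow {g x : G} {P : Sylow 2 G} :
    x ∈ ((g • P : Sylow 2 G) : Subgroup G) ↔ g⁻¹ * x * g ∈ (P : Subgroup G) := by
  have h : ((g • P : Sylow 2 G) : Subgroup G) = conjS g (P : Subgroup G) := by
    rw [Sylow.coe_subgroup_smul]
    rfl
  rw [h, mem_conjS]

lemma sylow_eq_of_le {P P' : Sylow 2 G} (h : (P : Subgroup G) ≤ P') : P = P' := by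
  apply Sylow.ext
  exact (P.3 P'.2 h).symm

/-- The Alperin-type conjugation statement. -/
lemma alperin (S : Sylow 2 G) (M : Subgroup G)
    (hM : ∀ Q : Subgroup G, Q ≤ (S : Subgroup G) → FourIn Q →
      Subgroup.normalizer (Q : Set G) ≤ M) :
    ∀ (k : ℕ) (S' : Sylow 2 G),
      Nat.card (S : Subgroup G) - Nat.card ((S : Subgroup G) ⊓ (S' : Subgroup G) : Subgroup G) = k →
      FourIn ((S : Subgroup G) ⊓ (S' : Subgroup G)) → ∃ m ∈ M, m • S' = S := by
  intro k
  induction k using Nat.strong_induction_on with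
  | _ k ih =>
    intro S' hk hfour
    by_cases hSS : S' = S
    · exact ⟨1, M.one_mem, by rw [hSS, one_smul]⟩
    -- notation
    set Q : Subgroup G := (S : Subgroup G) ⊓ (S' : Subgroup G) with hQ
    have hQS : Q < (S : Subgroup G) := by
      refine lt_of_le_of_ne inf_le_left ?_
      intro h
      have : (S : Subgroup G) ≤ S' := by
        rw [← h]; exact inf_le_right
      exact hSS (sylow_eq_of_le this).symm
    have hQS' : Q < (S' : Subgroup G) := by
      refine lt_of_le_of_ne inf_le_right ?_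
      intro h
      have : (S' : Subgroup G) ≤ S := by
        rw [← h]; exact inf_le_left
      exact hSS (sylow_eq_of_le this)
    obtain ⟨x₁, hx₁S, hx₁Q, hx₁N⟩ := exists_normalizer_step S.2 hQS
    obtain ⟨x₂, hx₂S, hx₂Q, hx₂N⟩ := exists_normalizer_step S'.2 hQS'
    -- the normalizer
    set N : Subgroup G := Subgroup.normalizer (Q : Set G) with hN
    have hNM : N ≤ M := hM Q hQS.le hfour
    have hQN : Q ≤ N := Subgroup.le_normalizer
    have hT1 : IsPGroup 2 ((S : Subgroup G).subgroupOf N) :=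
      S.2.comap_of_injective N.subtype Subtype.val_injective
    have hT2 : IsPGroup 2 ((S' : Subgroup G).subgroupOf N) :=
      S'.2.comap_of_injective N.subtype Subtype.val_injective
    obtain ⟨R1, hR1⟩ := hT1.exists_le_sylow
    obtain ⟨R2, hR2⟩ := hT2.exists_le_sylow
    obtain ⟨n, hn⟩ : ∃ n : N, n • R2 = R1 := MulAction.exists_smul_eq N R2 R1
    have hR1G : IsPGroup 2 ((R1 : Subgroup N).map N.subtype) := R1.2.map _
    obtain ⟨S1, hS1⟩ := hR1G.exists_le_sylow
    -- elements of `S ⊓ N` lie in `S1`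
    have hS_S1 : ∀ y ∈ (S : Subgroup G), y ∈ N → y ∈ (S1 : Subgroup G) := by
      intro y hy hyN
      apply hS1
      exact ⟨⟨y, hyN⟩, hR1 hy, rfl⟩
    have hQS1 : Q ≤ (S : Subgroup G) ⊓ (S1 : Subgroup G) := by
      intro q hq
      exact ⟨hQS.le hq, hS_S1 q (hQS.le hq) (hQN hq)⟩
    have hlt1 : Q < (S : Subgroup G) ⊓ (S1 : Subgroup G) := by
      refine lt_of_le_of_ne hQS1 ?_
      intro h
      apply hx₁Q
      rw [h]
      exact ⟨hx₁S, hS_S1 x₁ hx₁S hx₁N⟩
    have hcard1 := card_lt_of_lt hlt1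
    have hcardQ := card_lt_of_lt hQS
    have hcardle1 : Nat.card ((S : Subgroup G) ⊓ (S1 : Subgroup G) : Subgroup G) ≤
        Nat.card (S : Subgroup G) := Subgroup.card_le_of_le inf_le_left
    obtain ⟨U, hUQ, hU⟩ := hfour
    obtain ⟨m₁, hm₁M, hm₁⟩ := ih _ (by omega) S1 rfl ⟨U, hUQ.trans hQS1, hU⟩
    -- second step
    set S'' : Sylow 2 G := (m₁ * (n : G)) • S' with hS''
    have hS''mem : ∀ y ∈ (S' : Subgroup G), y ∈ N →
        (m₁ * n) * y * (m₁ * n)⁻¹ ∈ (S : Subgroup G) ⊓ (S'' : Subgroup G) := by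
      intro y hy hyN
      refine Subgroup.mem_inf.mpr ⟨?_, ?_⟩
      · -- in `S`
        have h1 : (⟨y, hyN⟩ : N) ∈ (R2 : Subgroup N) := hR2 hy
        have h2 : ((n : N) * ⟨y, hyN⟩ * n⁻¹) ∈ (R1 : Subgroup N) := by
          have h3 : ((n : N) * ⟨y, hyN⟩ * n⁻¹) ∈ ((n • R2 : Sylow 2 N) : Subgroup N) := by
            rw [mem_smul_sylow]
            simpa [mul_assoc] using h1
          rwa [hn] at h3
        have h3 : (n : G) * y * (n : G)⁻¹ ∈ (S1 : Subgroup G) := by
          apply hS1
          exact ⟨_, h2, by simp⟩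
        have h4 : (m₁ * n) * y * (m₁ * n)⁻¹ ∈ ((m₁ • S1 : Sylow 2 G) : Subgroup G) := by
          rw [mem_smul_sylow]
          simpa [mul_assoc] using h3
        rwa [hm₁] at h4
      · rw [hS'', mem_smul_sylow]
        simpa [mul_assoc] using hy
    have hconjQ : conjS (m₁ * n) Q ≤ (S : Subgroup G) ⊓ (S'' : Subgroup G) := by
      rintro _ ⟨q, hq, rfl⟩
      exact hS''mem q (hQS'.le hq) (hQN hq)
    have hlt2 : conjS (m₁ * n) Q < (S : Subgroup G) ⊓ (S'' : Subgroup G) := by
      refine lt_of_le_of_ne hconjQ ?_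
      intro h
      have hmem := hS''mem x₂ hx₂S hx₂N
      rw [← h, mem_conjS] at hmem
      apply hx₂Q
      have : (m₁ * n)⁻¹ * ((m₁ * n) * x₂ * (m₁ * n)⁻¹) * (m₁ * n) = x₂ := by group
      rwa [this] at hmem
    have hcard2 := card_lt_of_lt hlt2
    have hcardconj : Nat.card (conjS (m₁ * (n : G)) Q) = Nat.card Q :=
      Nat.card_congr (Subgroup.equivMapOfInjective Q _ (MulAut.conj (m₁ * (n : G))).injective).toEquiv.symm
    have hcardle2 : Nat.card ((S : Subgroup G) ⊓ (S'' : Subgroup G) : Subgroup G) ≤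
        Nat.card (S : Subgroup G) := Subgroup.card_le_of_le inf_le_left
    obtain ⟨m₂, hm₂M, hm₂⟩ := ih _ (by omega) S'' rfl
      ⟨conjS (m₁ * (n : G)) U, (conjS_le hUQ).trans hconjQ, klein_conj _ U hU⟩
    refine ⟨m₂ * (m₁ * n), M.mul_mem hm₂M (M.mul_mem hm₁M (hNM n.2)), ?_⟩
    rw [mul_smul]
    exact hm₂

end alperin

section main

variable {G : Type*} [Group G] [Finite G]


lemma reach_in_sylow (S : Sylow 2 G) (hS : Cfsg.IsFourConnected (S : Subgroup G))
    {U V : Subgroup G} (hUS : U ≤ S) (hVS : V ≤ S) (hU : IsKleinFour U) (hV : IsKleinFour V) :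
    Reach U V := by
  have h := hS (U.subgroupOf S) (V.subgroupOf S) (klein_subgroupOf U S hUS hU)
    (klein_subgroupOf V S hVS hV)
  have hlift : ∀ {A B : Subgroup (S : Subgroup G)},
      Relation.ReflTransGen
        (fun A B : Subgroup (S : Subgroup G) => IsKleinFour A ∧ IsKleinFour B ∧
          ∀ a ∈ A, ∀ b ∈ B, a * b = b * a) A B →
      Reach (A.map (S : Subgroup G).subtype) (B.map (S : Subgroup G).subtype) := by
    intro A B hAB
    induction hAB with
    | refl => exact Relation.ReflTransGen.refl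
    | @tail B C _ hBC ih =>
      refine Relation.ReflTransGen.tail ih ?_
      obtain ⟨hA, hB, h⟩ := hBC
      refine ⟨klein_map _ Subtype.val_injective B hA, klein_map _ Subtype.val_injective C hB, ?_⟩
      rintro _ ⟨a, ha, rfl⟩ _ ⟨b, hb, rfl⟩
      exact congrArg Subtype.val (h a ha b hb)
  have := hlift h
  rwa [Subgroup.map_subgroupOf_eq_of_le hUS, Subgroup.map_subgroupOf_eq_of_le hVS] at this

/-- Every 2-subgroup is conjugate into `S`. -/
lemma exists_conj_le (S : Sylow 2 G) {U : Subgroup G} (hU : IsPGroup 2 U) :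
    ∃ g : G, conjS g U ≤ S := by
  obtain ⟨S', hS'⟩ := hU.exists_le_sylow
  obtain ⟨g, hg⟩ : ∃ g : G, g • S' = S := MulAction.exists_smul_eq G S' S
  refine ⟨g, ?_⟩
  rintro _ ⟨u, hu, rfl⟩
  rw [← hg, mem_smul_sylow]
  simpa [mul_assoc] using hS' hu

lemma klein_isPGroup {U : Subgroup G} (hU : IsKleinFour U) : IsPGroup 2 U := by
  have := (isKleinFour_iff'.mp hU).2
  intro x
  exact ⟨1, by simpa using this x⟩

end main

/-- Let G be a finite group of 2-rank at least 2 and S a Sylow 2-subgroup whose commuting graph of Klein four-subgroups is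
connected. Then the commuting graph of Klein four-subgroups of G is disconnected if and only if the 2-generated core — the
subgroup generated by the normalizers N_G(Q) of the subgroups Q of S that contain a Klein four-group — is a proper
subgroup of G. -/
theorem result {G : Type*} [Group G] [Finite G] (h2 : ¬ Cfsg.PRankLE 2 1 G)
    (S : Sylow 2 G) (hS : Cfsg.IsFourConnected (S : Subgroup G)) :
    ¬ Cfsg.IsFourConnected G ↔
      (⨆ Q : {Q : Subgroup G // Q ≤ (S : Subgroup G) ∧ ¬ Cfsg.PRankLE 2 1 Q},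
          Subgroup.normalizer ((Q : Subgroup G) : Set G)) ≠ ⊤ := by
  classical
  set M : Subgroup G := ⨆ Q : {Q : Subgroup G // Q ≤ (S : Subgroup G) ∧ ¬ Cfsg.PRankLE 2 1 Q},
          Subgroup.normalizer ((Q : Subgroup G) : Set G) with hMdef
  have hM : ∀ Q : Subgroup G, Q ≤ (S : Subgroup G) → FourIn Q →
      Subgroup.normalizer (Q : Set G) ≤ M := by
    intro Q hQS hQ
    exact le_iSup (fun Q : {Q : Subgroup G // Q ≤ (S : Subgroup G) ∧ ¬ Cfsg.PRankLE 2 1 Q} =>
      Subgroup.normalizer ((Q : Subgroup G) : Set G)) ⟨Q, hQS, not_rank_of_fourIn hQ⟩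
  have hAlp : ∀ S' : Sylow 2 G, FourIn ((S : Subgroup G) ⊓ (S' : Subgroup G)) →
      ∃ m ∈ M, m • S' = S := fun S' h => alperin S M hM _ S' rfl h
  -- a base point
  obtain ⟨U₁, hU₁⟩ := fourIn_of_not_rank' h2
  obtain ⟨g₁, hg₁⟩ := exists_conj_le S (klein_isPGroup hU₁)
  set U₀ : Subgroup G := conjS g₁ U₁ with hU₀def
  have hU₀ : IsKleinFour U₀ := klein_conj g₁ U₁ hU₁
  have hU₀S : U₀ ≤ S := hg₁
  -- the stabilizer
  let K : Subgroup G :=
    { carrier := {g | Reach U₀ (conjS g U₀)}
      one_mem' := by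
        change Reach U₀ (conjS 1 U₀)
        rw [conjS_one]
      mul_mem' := by
        intro g h hg hh
        change Reach U₀ (conjS (g * h) U₀)
        rw [conjS_mul]
        exact Relation.ReflTransGen.trans hg (reach_conj g hh)
      inv_mem' := by
        intro g hg
        change Reach U₀ (conjS g⁻¹ U₀)
        have := reach_conj g⁻¹ (reach_symm hg)
        rwa [← conjS_mul, inv_mul_cancel, conjS_one] at this }
  have hMK : M ≤ K := by
    refine iSup_le ?_
    rintro ⟨Q, hQS, hQ⟩ g hg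
    obtain ⟨U, hUQ, hU⟩ := fourIn_of_not_rank hQ
    have hgU : conjS g U ≤ Q := by
      rintro _ ⟨u, hu, rfl⟩
      exact (Subgroup.mem_normalizer_iff.mp hg u).mp (hUQ hu)
    change Reach U₀ (conjS g U₀)
    have h1 : Reach U₀ U := reach_in_sylow S hS hU₀S (hUQ.trans hQS) hU₀ hU
    have h2 : Reach U (conjS g U) :=
      reach_in_sylow S hS (hUQ.trans hQS) (hgU.trans hQS) hU (klein_conj g U hU)
    exact h1.trans (h2.trans (reach_conj g (reach_symm h1)))
  -- Fact D
  have hD : ∀ V : Subgroup G, Reach U₀ V → ∃ m ∈ M, conjS m V ≤ S := by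
    intro V hV
    induction hV with
    | refl => exact ⟨1, M.one_mem, by rwa [conjS_one]⟩
    | @tail V W _ hVW ih =>
      obtain ⟨m, hmM, hm⟩ := ih
      obtain ⟨hVk, hWk, hcomm⟩ := adj_conj m hVW
      have hsup : IsPGroup 2 (conjS m V ⊔ conjS m W : Subgroup G) := by
        apply IsPGroup.to_sup_of_normal_right' (klein_isPGroup hVk) (klein_isPGroup hWk)
        intro x hx
        rw [Subgroup.mem_normalizer_iff]
        intro y
        have hxy : ∀ y ∈ conjS m W, x * y * x⁻¹ = y := by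
          intro y hy
          rw [hcomm x hx y hy]; group
        constructor
        · intro hy; rwa [hxy y hy]
        · intro hy
          have h3 : y = x⁻¹ * (x * y * x⁻¹) * x := by group
          have h5 : x⁻¹ * (x * y * x⁻¹) * x = x * y * x⁻¹ := by
            rw [mul_assoc, ← hcomm x hx _ hy]; group
          rw [h3, h5]
          exact hy
      obtain ⟨S', hS'⟩ := hsup.exists_le_sylow
      have hfour : FourIn ((S : Subgroup G) ⊓ (S' : Subgroup G)) :=
        ⟨conjS m V, le_inf hm (le_sup_left.trans hS'), hVk⟩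
      obtain ⟨m', hm'M, hm'⟩ := hAlp S' hfour
      refine ⟨m' * m, M.mul_mem hm'M hmM, ?_⟩
      rw [conjS_mul]
      rintro _ ⟨w, hw, rfl⟩
      rw [← hm', mem_smul_sylow]
      have : w ∈ (S' : Subgroup G) := hS' (le_sup_right (a := conjS m V) hw)
      simpa [mul_assoc] using this
  constructor
  · -- not connected implies M proper
    intro hnc htop
    apply hnc
    have hKtop : ∀ g : G, Reach U₀ (conjS g U₀) := by
      intro g
      have : g ∈ M := by rw [htop]; trivial
      exact hMK this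
    have hall : ∀ U : Subgroup G, IsKleinFour U → Reach U₀ U := by
      intro U hU
      obtain ⟨g, hg⟩ := exists_conj_le S (klein_isPGroup hU)
      have h1 : Reach U₀ (conjS g U) := reach_in_sylow S hS hU₀S hg hU₀ (klein_conj g U hU)
      have h2 := reach_conj g⁻¹ h1
      have h3 : conjS g⁻¹ (conjS g U) = U := by rw [← conjS_mul, inv_mul_cancel, conjS_one]
      rw [h3] at h2
      exact (hKtop g⁻¹).trans h2
    intro U V hU hV
    exact (reach_symm (hall U hU)).trans (hall V hV)
  · -- M proper implies not connected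
    intro hne hconn
    apply hne
    rw [eq_top_iff]
    intro g _
    have h1 : Reach U₀ (conjS g U₀) := hconn U₀ (conjS g U₀) hU₀ (klein_conj g U₀ hU₀)
    obtain ⟨m, hmM, hm⟩ := hD _ h1
    rw [← conjS_mul] at hm
    set h := m * g with hh
    -- `S ⊓ h • S` contains a four-group
    have hfour : FourIn ((S : Subgroup G) ⊓ ((h • S : Sylow 2 G) : Subgroup G)) := by
      refine ⟨conjS h U₀, le_inf hm ?_, klein_conj h U₀ hU₀⟩
      rintro _ ⟨u, hu, rfl⟩
      rw [mem_smul_sylow]
      simpa [mul_assoc] using hU₀S hu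
    obtain ⟨m', hm'M, hm'⟩ := hAlp _ hfour
    have hnorm : m' * h ∈ Subgroup.normalizer ((S : Subgroup G) : Set G) := by
      rw [← mul_smul] at hm'
      exact Sylow.smul_eq_iff_mem_normalizer.mp hm'
    have hNS : Subgroup.normalizer ((S : Subgroup G) : Set G) ≤ M :=
      hM S le_rfl ⟨U₀, hU₀S, hU₀⟩
    have h3 : m' * h ∈ M := hNS hnorm
    have h4 : h ∈ M := by
      have : h = m'⁻¹ * (m' * h) := by group
      rw [this]
      exact M.mul_mem (M.inv_mem hm'M) h3
    have : g = m⁻¹ * h := by rw [hh]; group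
    rw [this]
    exact M.mul_mem (M.inv_mem hmM) h4

end Cfsg.Agent.S0520
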