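import Cfsg.Statements.S0645
import Cfsg.Agent.Lib.PGroups.Basic

set_option autoImplicit false
open Cfsg

namespace Cfsg.Agent.S0645

open Subgroup Cfsg.Agent.Lib.PGroups.Basic

section group

variable {G : Type*} [Group G]

theorem conj_pow_eq {g a : G} {s : ℕ} (h : g * a * g⁻¹ = a ^ s) (k : ℕ) :
    g * a ^ k * g⁻¹ = a ^ (s * k) := by
  rw [← conj_pow, h, ← pow_mul]

theorem pow_conj_eq {g a : G} {s : ℕ} (h : g * a * g⁻¹ = a ^ s) (k : ℕ) :
    g ^ k * a * (g ^ k)⁻¹ = a ^ (s ^ k) := by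
  induction k with
  | zero => simp
  | succ k ih =>
    calc g ^ (k + 1) * a * (g ^ (k + 1))⁻¹ = g * (g ^ k * a * (g ^ k)⁻¹) * g⁻¹ := by
          rw [pow_succ']; group
      _ = a ^ (s ^ (k + 1)) := by
          rw [ih, conj_pow_eq h, pow_succ']

/-- The power formula in a cyclic extension. -/
theorem mul_pow_formula {h y : G} {r : ℕ} (H : h * y * h⁻¹ = y ^ r) (k : ℕ) :
    (y * h) ^ k = y ^ (∑ i ∈ Finset.range k, r ^ i) * h ^ k := by
  induction k with
  | zero => simp
  | succ k ih =>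
    rw [pow_succ', ih, geom_sum_succ, pow_succ' h k]
    have h1 : h * y ^ (∑ i ∈ Finset.range k, r ^ i) * h⁻¹ =
        y ^ (r * ∑ i ∈ Finset.range k, r ^ i) := conj_pow_eq H _
    calc y * h * (y ^ (∑ i ∈ Finset.range k, r ^ i) * h ^ k)
        = y * (h * y ^ (∑ i ∈ Finset.range k, r ^ i) * h⁻¹) * (h * h ^ k) := by group
      _ = _ := by
        rw [h1, ← pow_succ']

/-- Common setup for groups with a cyclic subgroup of prime index. -/
theorem setup [Finite G] {p m : ℕ} [Fact p.Prime] (hG : Nat.card G = p ^ (m + 1))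
    (C : Subgroup G) (hC : IsCyclic C) (hCi : C.index = p) (hna : ∃ x y : G, x * y ≠ y * x) :
    ∃ a g : G, orderOf a = p ^ m ∧ g ∉ zpowers a ∧ g ^ p ∈ zpowers a ∧
      (∃ s : ℕ, g * a * g⁻¹ = a ^ s) ∧ g * a ≠ a * g := by
  have hp : p.Prime := Fact.out
  have hPG : IsPGroup p G := IsPGroup.of_card hG
  have hcoat : IsCoatom C := isCoatom_of_index_prime (by rw [hCi]; exact hp)
  have hnorm : C.Normal := normal_of_isCoatom hPG hcoat
  obtain ⟨⟨a, haC⟩, hgen⟩ := hC.exists_generator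
  have hCz : C = zpowers a := by
    apply le_antisymm
    · intro x hx
      obtain ⟨k, hk⟩ := Subgroup.mem_zpowers_iff.mp (hgen ⟨x, hx⟩)
      exact Subgroup.mem_zpowers_iff.mpr ⟨k, by simpa using congrArg Subtype.val hk⟩
    · exact (Subgroup.zpowers_le).mpr haC
  have hcard : Nat.card C = p ^ m := by
    have h1 := Subgroup.card_mul_index C
    rw [hCi, hG, pow_succ] at h1
    exact Nat.eq_of_mul_eq_mul_right hp.pos h1
  have hord : orderOf a = p ^ m := by
    have h1 := orderOf_eq_card_of_forall_mem_zpowers hgen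
    rw [Subgroup.orderOf_mk] at h1
    rw [h1, hcard]
  have hne : C ≠ ⊤ := hcoat.1
  obtain ⟨g, hg⟩ : ∃ g, g ∉ C := by
    by_contra hcon
    push Not at hcon
    exact hne (eq_top_iff.mpr fun x _ => hcon x)
  refine ⟨a, g, hord, hCz ▸ hg, hCz ▸ (by simpa [hCi] using C.pow_index_mem g), ?_, ?_⟩
  · have : g * a * g⁻¹ ∈ zpowers a := hCz ▸ hnorm.conj_mem a haC g
    rw [← mem_powers_iff_mem_zpowers] at this
    obtain ⟨s, hs⟩ := this
    exact ⟨s, hs.symm⟩
  · intro hcomm
    -- then `a` is central and `G / Z(G)` is cyclic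
    have hcentr : centralizer ({a} : Set G) = ⊤ := by
      apply hcoat.2
      refine lt_of_le_of_ne ?_ ?_
      · rw [hCz, Subgroup.zpowers_le, Subgroup.mem_centralizer_singleton_iff]
      · rintro rfl
        exact hg (Subgroup.mem_centralizer_singleton_iff.mpr hcomm)
    have hacen : a ∈ center G := by
      rw [Subgroup.mem_center_iff]
      intro x
      have : x ∈ centralizer ({a} : Set G) := by rw [hcentr]; trivial
      exact Subgroup.mem_centralizer_singleton_iff.mp this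
    have hCle : C ≤ center G := by
      rw [hCz, Subgroup.zpowers_le]; exact hacen
    have hidx : (center G).index ∣ p := hCi ▸ Subgroup.index_dvd_of_le hCle
    have hcyc : IsCyclic (G ⧸ center G) := by
      rcases (Nat.dvd_prime hp).mp hidx with h | h
      · rw [Subgroup.index_eq_one] at h
        have : Subsingleton (G ⧸ center G) := by
          rw [h]; exact QuotientGroup.subsingleton_quotient_top
        exact isCyclic_of_subsingleton
      · have : Fact (Nat.card (G ⧸ center G)).Prime := ⟨by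
          rw [← Subgroup.index_eq_card, h]; exact hp⟩
        exact isCyclic_of_prime_card rfl
    obtain ⟨x, y, hxy⟩ := hna
    have hker : (QuotientGroup.mk' (center G)).ker ≤ center G := by
      rw [QuotientGroup.ker_mk']
    exact hxy (((QuotientGroup.mk' (center G)).isMulCommutative_of_isCyclic_of_ker_le_center
      hker).is_comm.comm x y)

end group

section number

/-- Number theory behind the exponent. -/
theorem exponent_form {p : ℕ} [Fact p.Prime] (hp2 : p ≠ 2) (m s : ℕ)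
    (h1 : s ^ p ≡ 1 [MOD p ^ (m + 2)]) (h2 : ¬ s ≡ 1 [MOD p ^ (m + 2)]) :
    ∃ t, s = 1 + p ^ (m + 1) * t ∧ ¬ p ∣ t := by
  have hp : p.Prime := Fact.out
  have hodd : Odd p := hp.odd_of_ne_two hp2
  have hp1 : 1 < p ^ (m + 2) := Nat.one_lt_pow (by omega) hp.one_lt
  have hs0 : s ≠ 0 := by
    rintro rfl
    rw [zero_pow hp.ne_zero] at h1
    have h3 : p ^ (m + 2) ∣ 1 := (Nat.modEq_iff_dvd' (Nat.zero_le 1)).mp h1
    have := Nat.le_of_dvd one_pos h3
    omega
  have hs1 : s ≠ 1 := by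
    rintro rfl
    exact h2 rfl
  have hs : 1 < s := by omega
  have hmodp : s ^ p ≡ 1 [MOD p] := h1.of_dvd (dvd_pow_self p (by omega))
  have hfer : (s : ZMod p) = 1 := by
    have h3 : ((s ^ p : ℕ) : ZMod p) = ((1 : ℕ) : ZMod p) := (ZMod.natCast_eq_natCast_iff _ _ _).mpr hmodp
    push_cast at h3
    rwa [ZMod.pow_card] at h3
  have hdvd1 : p ∣ s - 1 := by
    have h3 : ((s : ℕ) : ZMod p) = ((1 : ℕ) : ZMod p) := by simpa using hfer
    have h4 := (ZMod.natCast_eq_natCast_iff _ _ _).mp h3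
    exact (Nat.modEq_iff_dvd' (by omega)).mp h4.symm
  have hnds : ¬ p ∣ s := by
    intro hd
    have : p ∣ 1 := by
      have h5 := (Nat.dvd_sub hd hdvd1)
      have h6 : s - (s - 1) = 1 := by omega
      rwa [h6] at h5
    exact hp.one_lt.ne' (Nat.dvd_one.mp this)
  have hLTE := Nat.emultiplicity_pow_sub_pow hp hodd (x := s) (y := 1) hdvd1 hnds p
  rw [one_pow, Nat.Prime.emultiplicity_self hp] at hLTE
  have hdvd2 : p ^ (m + 2) ∣ s ^ p - 1 :=
    (Nat.modEq_iff_dvd' (Nat.one_le_pow _ _ (by omega))).mp h1.symm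
  have hle : ((m + 2 : ℕ) : ℕ∞) ≤ emultiplicity p (s - 1) + 1 := by
    rw [← hLTE]
    exact pow_dvd_iff_le_emultiplicity.mp hdvd2
  have hle' : ((m + 1 : ℕ) : ℕ∞) ≤ emultiplicity p (s - 1) := by
    have : ((m + 2 : ℕ) : ℕ∞) = ((m + 1 : ℕ) : ℕ∞) + 1 := by push_cast; ring
    rw [this] at hle
    exact (ENat.add_le_add_iff_right (by simp)).mp hle
  have hdvd3 : p ^ (m + 1) ∣ s - 1 := pow_dvd_iff_le_emultiplicity.mpr hle'
  obtain ⟨t, ht⟩ := hdvd3
  refine ⟨t, by omega, ?_⟩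
  intro hpt
  apply h2
  obtain ⟨w, rfl⟩ := hpt
  apply Nat.ModEq.symm
  refine (Nat.modEq_iff_dvd' (by omega)).mpr ⟨w, ?_⟩
  rw [ht]
  ring

theorem pow_one_add {q t : ℕ} (u : ℕ) : ∃ c, (1 + q * t) ^ u = 1 + u * (q * t) + q * q * c := by
  induction u with
  | zero => exact ⟨0, by simp⟩
  | succ u ih =>
    obtain ⟨c, hc⟩ := ih
    refine ⟨c + u * t * t + q * c * t, ?_⟩
    rw [pow_succ, hc]
    ring

theorem geom_sum_one_add (q k : ℕ) :
    ∃ c, ∑ i ∈ Finset.range k, (1 + q) ^ i = k + q * k.choose 2 + q * q * c := by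
  induction k with
  | zero => exact ⟨0, by simp⟩
  | succ k ih =>
    obtain ⟨c, hc⟩ := ih
    obtain ⟨d, hd⟩ := pow_one_add (q := q) (t := 1) k
    refine ⟨c + d, ?_⟩
    rw [Finset.sum_range_succ, hc, Nat.choose_succ_succ' k 1, Nat.choose_one_right]
    rw [mul_one] at hd
    rw [hd]
    ring

end number

/-- Classification of p-groups with a cyclic maximal subgroup, odd p: a non-abelian one of order p^n has generators a of order p^(n-1) and b of order p, b outside the cyclic subgroup generated by a, with b a b⁻¹ = a^(1 + p^(n-2)). -/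
theorem result {G : Type*} [Group G] [Finite G] {p : ℕ} [Fact p.Prime] (hp : p ≠ 2) (n : ℕ) (hn : 3 ≤ n) (hG : Nat.card G = p ^ n) (C : Subgroup G) (hC : IsCyclic C) (hCi : C.index = p) (hna : ∃ x y : G, x * y ≠ y * x) : ∃ a b : G, orderOf a = p ^ (n - 1) ∧ orderOf b = p ∧ b ∉ Subgroup.zpowers a ∧ b * a * b⁻¹ = a ^ (1 + p ^ (n - 2)) := by
  have hpp : p.Prime := Fact.out
  obtain ⟨m, rfl⟩ : ∃ m, n = m + 3 := ⟨n - 3, by omega⟩
  obtain ⟨a, g, ha, hg, hgp, ⟨s, hs⟩, hnc⟩ := setup (m := m + 2) hG C hC hCi hna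
  have e1 : m + 3 - 1 = m + 2 := rfl
  have e2 : m + 3 - 2 = m + 1 := rfl
  rw [e1, e2]
  set q := p ^ (m + 1) with hq
  have hM : p ^ (m + 2) = p * q := by rw [hq]; ring
  have hpq : p ∣ q := dvd_pow_self p (by omega)
  have hqpos : 0 < q := pow_pos hpp.pos _
  have hmod : ∀ x y : ℕ, a ^ x = a ^ y ↔ x ≡ y [MOD p * q] := by
    intro x y
    rw [pow_eq_pow_iff_modEq, ha, hM]
  -- `s ^ p ≡ 1`.
  have h1 : s ^ p ≡ 1 [MOD p * q] := by
    rw [← hmod, pow_one]
    have h2 := pow_conj_eq hs p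
    have h3 : g ^ p * a * (g ^ p)⁻¹ = a := by
      obtain ⟨k, hk⟩ := Subgroup.mem_zpowers_iff.mp hgp
      rw [← hk]
      have : Commute (a ^ k) a := (Commute.refl a).zpow_left k
      rw [this.eq, mul_inv_cancel_right]
    rw [← h2, h3]
  have h2 : ¬ s ≡ 1 [MOD p * q] := by
    intro h
    have := (hmod s 1).mpr h
    rw [pow_one] at this
    apply hnc
    rw [← hs] at this
    rw [mul_inv_eq_iff_eq_mul] at this
    exact this
  obtain ⟨t, ht, hpt⟩ := exponent_form hp m s (hM ▸ h1) (hM ▸ h2)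
  rw [← hq] at ht
  -- normalize the exponent.
  obtain ⟨u, -, hu⟩ := Nat.exists_mul_mod_eq_one_of_coprime
    ((Nat.Prime.coprime_iff_not_dvd hpp).mpr hpt).symm hpp.one_lt
  set h := g ^ u with hh
  have hconj : h * a * h⁻¹ = a ^ (1 + q) := by
    rw [hh, pow_conj_eq hs u, ht, hmod]
    obtain ⟨c, hc⟩ := pow_one_add (q := q) (t := t) u
    rw [hc]
    obtain ⟨q', hq'⟩ := hpq
    obtain ⟨w, hw⟩ : ∃ w, t * u = w * p + 1 := by
      refine ⟨t * u / p, ?_⟩
      have := Nat.div_add_mod (t * u) p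
      rw [hu] at this
      nth_rw 1 [← this]
      ring
    have : 1 + u * (q * t) + q * q * c = 1 + q + p * q * (w + q' * c) := by
      have h5 : u * (q * t) = q * (t * u) := by ring
      rw [h5, hw]
      nth_rw 3 [hq']
      ring
    rw [this]
    exact ((Nat.modEq_iff_dvd' (by omega)).mpr ⟨w + q' * c, by omega⟩).symm
  -- `h ^ p` is a power of `a`.
  have hhp : h ^ p ∈ zpowers a := by
    rw [hh, ← pow_mul, mul_comm, pow_mul]
    exact Subgroup.pow_mem _ hgp u
  rw [← mem_powers_iff_mem_zpowers] at hhp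
  obtain ⟨m₀, hm₀'⟩ := hhp
  have hm₀ : a ^ m₀ = h ^ p := hm₀'
  have hm₀p : p ∣ m₀ := by
    have h3 := conj_pow_eq hconj m₀
    rw [hm₀] at h3
    have h4 : h * h ^ p * h⁻¹ = h ^ p := by
      rw [← pow_succ', pow_succ, mul_inv_cancel_right]
    rw [h4, ← hm₀, hmod] at h3
    have h5 : p * q ∣ (1 + q) * m₀ - m₀ := (Nat.modEq_iff_dvd' (Nat.le_mul_of_pos_left _ (by omega))).mp h3
    have h6 : (1 + q) * m₀ - m₀ = q * m₀ := by
      rw [add_mul, one_mul, Nat.add_sub_cancel_left]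
    rw [h6, mul_comm p q] at h5
    exact Nat.dvd_of_mul_dvd_mul_left hqpos h5
  obtain ⟨m', rfl⟩ := hm₀p
  obtain ⟨j, hj⟩ : ∃ j, j + m' = p * q * m' := by
    refine ⟨p * q * m' - m', Nat.sub_add_cancel ?_⟩
    exact Nat.le_mul_of_pos_left _ (Nat.mul_pos hpp.pos hqpos)
  have hpow : (a ^ j * h) ^ p = 1 := by
    have hy : h * a ^ j * h⁻¹ = (a ^ j) ^ (1 + q) := by
      rw [conj_pow_eq hconj, ← pow_mul, mul_comm]
    rw [mul_pow_formula hy p, ← hm₀, ← pow_mul, ← pow_add]
    obtain ⟨c, hc⟩ := geom_sum_one_add q p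
    obtain ⟨w', hw'⟩ := hpp.dvd_choose_self (k := 2) (by omega)
      (lt_of_le_of_ne hpp.two_le (Ne.symm hp))
    obtain ⟨q', hq'⟩ := hpq
    rw [hc, hw']
    apply pow_eq_one_iff_modEq.mpr
    rw [ha, hM]
    apply (Nat.modEq_zero_iff_dvd).mpr
    refine ⟨p * m' + j * (w' + q' * c), ?_⟩
    have h7 : j * (p + q * (p * w') + q * q * c) + p * m' =
        p * (j + m') + p * q * (j * w') + j * (q * q * c) := by ring
    rw [h7, hj]
    nth_rw 3 [hq']
    ring
  have hcomm : ∀ x ∈ zpowers a, x * a = a * x := by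
    intro x hx
    obtain ⟨k, rfl⟩ := Subgroup.mem_zpowers_iff.mp hx
    exact ((Commute.refl a).zpow_left k).eq
  have hnb : a ^ j * h ∉ zpowers a := by
    intro hb
    have hhz : h ∈ zpowers a := by
      have : h = (a ^ j)⁻¹ * (a ^ j * h) := by group
      rw [this]
      exact Subgroup.mul_mem _ (Subgroup.inv_mem _ (Subgroup.pow_mem _ (Subgroup.mem_zpowers a) j)) hb
    have h3 : a ^ (1 + q) = a ^ 1 := by
      rw [← hconj, hcomm h hhz, pow_one, mul_inv_cancel_right]
    rw [hmod] at h3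
    have h4 : p * q ∣ 1 + q - 1 := (Nat.modEq_iff_dvd' (by omega)).mp h3.symm
    rw [Nat.add_sub_cancel_left] at h4
    have := Nat.le_of_dvd hqpos h4
    have h5 : 2 * q ≤ p * q := Nat.mul_le_mul_right _ hpp.two_le
    omega
  refine ⟨a, a ^ j * h, ha, ?_, hnb, ?_⟩
  · apply orderOf_eq_prime hpow
    intro hone
    exact hnb (hone ▸ Subgroup.one_mem _)
  · have h3 : a ^ j * h * a * (a ^ j * h)⁻¹ = a ^ j * (h * a * h⁻¹) * (a ^ j)⁻¹ := by group
    rw [h3, hconj, (Commute.pow_pow_self a j (1 + q)).eq, mul_inv_cancel_right]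

end Cfsg.Agent.S0645
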