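import Cfsg.Statements.S0646
import Cfsg.Agent.S0645

set_option autoImplicit false
open Cfsg

namespace Cfsg.Agent.S0646

open Subgroup
open Cfsg.Agent.S0645 (setup conj_pow_eq pow_conj_eq mul_pow_formula)

/-- The square roots of one modulo a power of two. -/
theorem exponent_cases (e s : ℕ) (h1 : s ^ 2 ≡ 1 [MOD 2 ^ (e + 2)]) (h2 : ¬ s ≡ 1 [MOD 2 ^ (e + 2)]) :
    (∃ c, s + 1 = 2 ^ (e + 1) * (2 * c + 2)) ∨ (1 ≤ e ∧ ∃ c, s = 1 + 2 ^ (e + 1) * (2 * c + 1)) ∨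
      (1 ≤ e ∧ ∃ c, s + 1 = 2 ^ (e + 1) * (2 * c + 1)) := by
  have hodd : Odd s := by
    by_contra hs
    rw [Nat.not_odd_iff_even] at hs
    have h3 : s ^ 2 ≡ 1 [MOD 2] := h1.of_dvd (dvd_pow_self 2 (by omega))
    have h4 : Even (s ^ 2) := hs.pow_of_ne_zero (by omega)
    obtain ⟨r, hr⟩ := h4
    have h5 := h3
    unfold Nat.ModEq at h5
    omega
  obtain ⟨k, rfl⟩ := hodd
  have hs2 : (2 * k + 1) ^ 2 = 4 * (k * (k + 1)) + 1 := by ring
  have hd : 2 ^ (e + 2) ∣ (2 * k + 1) ^ 2 - 1 :=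
    (Nat.modEq_iff_dvd' (by rw [hs2]; omega)).mp h1.symm
  rw [hs2, Nat.add_sub_cancel, show 2 ^ (e + 2) = 4 * 2 ^ e by ring] at hd
  have hd2 : 2 ^ e ∣ k * (k + 1) := Nat.dvd_of_mul_dvd_mul_left (by norm_num) hd
  have hq : 2 ^ (e + 1) = 2 * 2 ^ e := by ring
  rcases Nat.even_or_odd k with hk | hk
  · have hcop : Nat.Coprime (2 ^ e) (k + 1) :=
      Nat.Coprime.pow_left _ ((Nat.coprime_two_left).mpr hk.add_one)
    obtain ⟨c, hc⟩ := hcop.dvd_of_dvd_mul_right hd2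
    rcases Nat.even_or_odd' c with ⟨d, rfl | rfl⟩
    · exfalso
      apply h2
      apply Nat.ModEq.symm
      refine (Nat.modEq_iff_dvd' (by omega)).mpr ⟨d, ?_⟩
      rw [Nat.add_sub_cancel, hc, show 2 ^ (e + 2) = 4 * 2 ^ e by ring]
      ring
    · by_cases he : e = 0
      · subst he
        left
        refine ⟨d, ?_⟩
        rw [hc]
        ring
      · right; left
        refine ⟨by omega, d, ?_⟩
        rw [hc, hq]
        ring
  · have hk' : Nat.Coprime 2 k := (Nat.coprime_two_left).mpr hk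
    have hcop : Nat.Coprime (2 ^ e) k := Nat.Coprime.pow_left _ hk'
    obtain ⟨c, hc⟩ := hcop.dvd_of_dvd_mul_left hd2
    rcases Nat.even_or_odd' c with ⟨d, rfl | rfl⟩
    · rcases d with _ | d
      · simp at hc
      · left
        refine ⟨d, ?_⟩
        rw [show 2 * k + 1 + 1 = 2 * (k + 1) by ring, hc, hq]
        ring
    · by_cases he : e = 0
      · subst he
        exfalso
        apply h2
        apply Nat.ModEq.symm
        refine (Nat.modEq_iff_dvd' (by omega)).mpr ⟨d, ?_⟩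
        simp at hc
        simp
        omega
      · right; right
        refine ⟨by omega, d, ?_⟩
        rw [show 2 * k + 1 + 1 = 2 * (k + 1) by ring, hc, hq]
        ring

/-- Classification of non-abelian 2-groups with a cyclic maximal subgroup: dihedral, generalized quaternion, and for order at least 16 the modular group and the semidihedral group, each given by generators a (of index 2) and b with the stated relations. -/
theorem result {G : Type*} [Group G] [Finite G] (n : ℕ) (hn : 3 ≤ n) (hG : Nat.card G = 2 ^ n) (C : Subgroup G) (hC : IsCyclic C) (hCi : C.index = 2) (hna : ∃ x y : G, x * y ≠ y * x) : ∃ a b : G, orderOf a = 2 ^ (n - 1) ∧ b ∉ Subgroup.zpowers a ∧ ((b ^ 2 = 1 ∧ b * a * b⁻¹ = a⁻¹) ∨ (b ^ 2 = a ^ (2 ^ (n - 2)) ∧ b * a * b⁻¹ = a⁻¹) ∨ (4 ≤ n ∧ b ^ 2 = 1 ∧ b * a * b⁻¹ = a ^ (1 + 2 ^ (n - 2))) ∨ (4 ≤ n ∧ b ^ 2 = 1 ∧ b * a * b⁻¹ = a ^ (2 ^ (n - 2) - 1))) := by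
  obtain ⟨e, rfl⟩ : ∃ e, n = e + 3 := ⟨n - 3, by omega⟩
  obtain ⟨a, g, ha, hg, hgp, ⟨s, hs⟩, hnc⟩ := setup (p := 2) (m := e + 2) hG C hC hCi hna
  rw [show e + 3 - 1 = e + 2 from rfl, show e + 3 - 2 = e + 1 from rfl]
  have hM : 2 ^ (e + 2) = 2 * 2 ^ (e + 1) := by ring
  have hexp := exponent_cases e s
  set q := 2 ^ (e + 1) with hq
  have hqpos : 0 < q := by positivity
  have ha' := ha
  rw [hM] at ha hexp
  have hmod : ∀ x y : ℕ, a ^ x = a ^ y ↔ x ≡ y [MOD 2 * q] := by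
    intro x y
    rw [pow_eq_pow_iff_modEq, ha]
  have h2q : a ^ (2 * q) = 1 := by rw [← ha]; exact pow_orderOf_eq_one a
  have hcomz : ∀ x ∈ zpowers a, x * a = a * x := by
    intro x hx
    obtain ⟨k, rfl⟩ := Subgroup.mem_zpowers_iff.mp hx
    exact ((Commute.refl a).zpow_left k).eq
  -- `s ^ 2 ≡ 1`.
  have h1 : s ^ 2 ≡ 1 [MOD 2 * q] := by
    rw [← hmod, pow_one]
    have h2 := pow_conj_eq hs 2
    rw [← h2, hcomz _ hgp, mul_inv_cancel_right]
  have h2 : ¬ s ≡ 1 [MOD 2 * q] := by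
    intro h
    have := (hmod s 1).mpr h
    rw [pow_one] at this
    apply hnc
    rw [← hs] at this
    rw [mul_inv_eq_iff_eq_mul] at this
    exact this
  have hg2 := hgp
  rw [← mem_powers_iff_mem_zpowers] at hg2
  obtain ⟨m₀, hm₀'⟩ := hg2
  have hm₀ : a ^ m₀ = g ^ 2 := hm₀'
  -- conjugation on `g ^ 2`
  have hcom : ∀ r : ℕ, g * a * g⁻¹ = a ^ r → a ^ (r * m₀) = a ^ m₀ := by
    intro r hr
    rw [← conj_pow_eq hr, hm₀, ← pow_succ', pow_succ, mul_inv_cancel_right]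
  have hnot : ∀ j : ℕ, a ^ j * g ∉ zpowers a := by
    intro j hb
    apply hg
    have : g = (a ^ j)⁻¹ * (a ^ j * g) := by group
    rw [this]
    exact Subgroup.mul_mem _ (Subgroup.inv_mem _ (Subgroup.pow_mem _ (Subgroup.mem_zpowers a) j)) hb
  have hconjb : ∀ (j r : ℕ), g * a * g⁻¹ = a ^ r → (a ^ j * g) * a * (a ^ j * g)⁻¹ = a ^ r := by
    intro j r hr
    have h3 : a ^ j * g * a * (a ^ j * g)⁻¹ = a ^ j * (g * a * g⁻¹) * (a ^ j)⁻¹ := by group
    rw [h3, hr, (Commute.pow_pow_self a j r).eq, mul_inv_cancel_right]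
  have hsq : ∀ (j r : ℕ), g * a * g⁻¹ = a ^ r → (a ^ j * g) ^ 2 = a ^ (j * (1 + r) + m₀) := by
    intro j r hr
    have hy : g * a ^ j * g⁻¹ = (a ^ j) ^ r := by
      rw [conj_pow_eq hr, ← pow_mul, mul_comm]
    rw [mul_pow_formula hy 2, ← hm₀, ← pow_mul, ← pow_add]
    simp [Finset.sum_range_succ]
  rcases hexp h1 h2 with ⟨c, hc⟩ | ⟨he, c, hc⟩ | ⟨he, c, hc⟩
  · -- dihedral or quaternion
    have hinv : g * a * g⁻¹ = a⁻¹ := by
      rw [hs, eq_inv_iff_mul_eq_one, ← pow_succ, hc]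
      have : q * (2 * c + 2) = 2 * q * (c + 1) := by ring
      rw [this, pow_mul, h2q, one_pow]
    have h3 : a ^ (2 * m₀) = 1 := by
      have h4 : (a⁻¹) ^ m₀ = a ^ m₀ := by
        rw [← hinv, conj_pow, hm₀, ← pow_succ', pow_succ, mul_inv_cancel_right]
      rw [two_mul, pow_add]
      nth_rw 1 [← h4]
      rw [inv_pow, inv_mul_cancel]
    have h5 : 2 * q ∣ 2 * m₀ := by
      rw [← ha]; exact orderOf_dvd_of_pow_eq_one h3
    have h6 : q ∣ m₀ := Nat.dvd_of_mul_dvd_mul_left (by norm_num) h5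
    obtain ⟨c', rfl⟩ := h6
    rcases Nat.even_or_odd' c' with ⟨d, rfl | rfl⟩
    · refine ⟨a, g, ha', hg, Or.inl ⟨?_, hinv⟩⟩
      rw [← hm₀, show q * (2 * d) = 2 * q * d by ring, pow_mul, h2q, one_pow]
    · refine ⟨a, g, ha', hg, Or.inr (Or.inl ⟨?_, hinv⟩)⟩
      rw [← hm₀, show q * (2 * d + 1) = 2 * q * d + q by ring, pow_add, pow_mul, h2q, one_pow, one_mul]
  · -- modular
    have hr : g * a * g⁻¹ = a ^ (1 + q) := by
      rw [hs, hmod, hc]
      refine ((Nat.modEq_iff_dvd' (by nlinarith)).mpr ⟨c, ?_⟩).symm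
      rw [show 1 + q * (2 * c + 1) - (1 + q) = q * (2 * c) by
        have : q * (2 * c + 1) = q * (2 * c) + q := by ring
        omega]
      ring
    have h3 := hcom _ hr
    rw [hmod] at h3
    have h4 : 2 * q ∣ (1 + q) * m₀ - m₀ :=
      (Nat.modEq_iff_dvd' (Nat.le_mul_of_pos_left _ (by omega))).mp h3.symm
    rw [show (1 + q) * m₀ - m₀ = q * m₀ by rw [add_mul, one_mul, Nat.add_sub_cancel_left],
      mul_comm 2 q] at h4
    obtain ⟨m', rfl⟩ := Nat.dvd_of_mul_dvd_mul_left hqpos h4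
    -- `q = 4 * (v + 1)`
    obtain ⟨v, hv⟩ : ∃ v, q = 4 * (v + 1) := by
      obtain ⟨e', rfl⟩ : ∃ e', e = e' + 1 := ⟨e - 1, by omega⟩
      refine ⟨2 ^ e' - 1, ?_⟩
      have : 1 ≤ 2 ^ e' := Nat.one_le_two_pow
      rw [Nat.sub_add_cancel this, hq]
      ring
    refine ⟨a, a ^ (m' * (2 * v + 3) * (4 * v + 3)) * g, ha', hnot _, Or.inr (Or.inr (Or.inl ⟨by omega, ?_, hconjb _ _ hr⟩))⟩
    rw [hsq _ _ hr, show m' * (2 * v + 3) * (4 * v + 3) * (1 + (1 + q)) + 2 * m' =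
      2 * q * (m' * (v + 1) * (4 * v + 7)) by rw [hv]; ring, pow_mul, h2q, one_pow]
  · -- semidihedral
    obtain ⟨v, hv⟩ : ∃ v, q = 4 * (v + 1) := by
      obtain ⟨e', rfl⟩ : ∃ e', e = e' + 1 := ⟨e - 1, by omega⟩
      refine ⟨2 ^ e' - 1, ?_⟩
      have : 1 ≤ 2 ^ e' := Nat.one_le_two_pow
      rw [Nat.sub_add_cancel this, hq]
      ring
    have hr : g * a * g⁻¹ = a ^ (4 * v + 3) := by
      rw [hs]
      have h3 : a ^ s * a = a ^ q := by
        rw [← pow_succ, hc, show q * (2 * c + 1) = 2 * q * c + q by ring, pow_add, pow_mul, h2q,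
          one_pow, one_mul]
      have h4 : a ^ (4 * v + 3) * a = a ^ q := by
        rw [← pow_succ, hv]; congr 1
      exact mul_right_cancel (h3.trans h4.symm)
    have h3 := hcom _ hr
    rw [hmod] at h3
    have h4 : 2 * q ∣ (4 * v + 3) * m₀ - m₀ :=
      (Nat.modEq_iff_dvd' (Nat.le_mul_of_pos_left _ (by omega))).mp h3.symm
    have h5 : (4 * v + 3) * m₀ - m₀ = 2 * ((2 * v + 1) * m₀) := by
      have : (4 * v + 3) * m₀ = 2 * ((2 * v + 1) * m₀) + m₀ := by ring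
      omega
    rw [h5] at h4
    have h6 : q ∣ (2 * v + 1) * m₀ := Nat.dvd_of_mul_dvd_mul_left (by norm_num) h4
    have hcop : Nat.Coprime q (2 * v + 1) := by
      rw [hq]
      apply Nat.Coprime.pow_left
      rw [Nat.coprime_two_left]
      exact odd_two_mul_add_one v
    obtain ⟨c', rfl⟩ := hcop.dvd_of_dvd_mul_left h6
    have hq1 : 2 ^ (e + 1) - 1 = 4 * v + 3 := by
      rw [← hq, hv]; omega
    rw [hq1]
    rcases Nat.even_or_odd' c' with ⟨d, rfl | rfl⟩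
    · refine ⟨a, g, ha', hg, Or.inr (Or.inr (Or.inr ⟨by omega, ?_, hr⟩))⟩
      rw [← hm₀, show q * (2 * d) = 2 * q * d by ring, pow_mul, h2q, one_pow]
    · refine ⟨a, a ^ 1 * g, ha', hnot 1, Or.inr (Or.inr (Or.inr ⟨by omega, ?_, hconjb _ _ hr⟩))⟩
      rw [hsq _ _ hr, show 1 * (1 + (4 * v + 3)) + q * (2 * d + 1) = 2 * q * (d + 1) by rw [hv]; ring,
        pow_mul, h2q, one_pow]

end Cfsg.Agent.S0646
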