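import Cfsg.Statements.S0720
import Cfsg.Agent.Lib.Wielandt.Final
import Cfsg.Agent.Lib.Perm.JordanThree
import Mathlib

set_option autoImplicit false
open Cfsg

namespace Cfsg.Agent.S0720

open MulAction
open Cfsg.Agent.Lib.Wielandt.Kernel

/-- Coordinates for a semiregular element of order `p` on `2p` points. -/
lemma exists_coord {p : ℕ} [Fact p.Prime] {α : Type*} [Fintype α] [DecidableEq α] {G : Type*} [Group G]
    [MulAction G α] (hcard : Fintype.card α = 2 * p) (x : G) (hxp : x ^ p = 1)
    (hfree : ∀ y : α, x • y ≠ y) : Nonempty (Coord p α G) := by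
  have hp : p.Prime := Fact.out
  have hp1 : Fact (1 < p) := ⟨hp.one_lt⟩
  -- powers
  let P : ZMod p → α → α := fun j y => x ^ j.val • y
  have hPn : ∀ (n : ℕ) (y : α), x ^ n • y = P (n : ZMod p) y := by
    intro n y
    show x ^ n • y = x ^ ((n : ZMod p).val) • y
    rw [ZMod.val_natCast, ← pow_eq_pow_mod n hxp]
  have hPx : ∀ (j : ZMod p) (y : α), x • P j y = P (j + 1) y := by
    intro j y
    have h1 : (j + 1) = ((j.val + 1 : ℕ) : ZMod p) := by simp
    rw [h1, ← hPn, pow_succ', mul_smul]
  have hdvd : ∀ (n : ℕ) (y : α), x ^ n • y = y → p ∣ n := by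
    intro n y hn
    by_contra hnd
    have hcop : Nat.Coprime n p := ((Nat.Prime.coprime_iff_not_dvd hp).mpr hnd).symm
    obtain ⟨a, b, hab⟩ := Nat.isCoprime_iff_coprime.mpr hcop
    have h1 : x ^ n ∈ stabilizer G y := hn
    have h2 : x ^ p ∈ stabilizer G y := by rw [hxp]; exact Subgroup.one_mem _
    have h3 : x = (x ^ n) ^ a * (x ^ p) ^ b := by
      rw [← zpow_natCast, ← zpow_natCast, ← zpow_mul, ← zpow_mul, ← zpow_add, mul_comm (n : ℤ), mul_comm (p : ℤ), hab, zpow_one]
    have h4 : x ∈ stabilizer G y := by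
      rw [h3]
      exact Subgroup.mul_mem _ (Subgroup.zpow_mem _ h1 _) (Subgroup.zpow_mem _ h2 _)
    exact hfree y h4
  have hne : Nonempty α := by
    rw [← Fintype.card_pos_iff, hcard]
    have := hp.pos
    omega
  obtain ⟨y₀⟩ := hne
  obtain ⟨y₁, hy₁⟩ : ∃ y₁, ∀ j, P j y₀ ≠ y₁ := by
    by_contra hcon
    push Not at hcon
    have hsurj : Function.Surjective fun j => P j y₀ := fun y => hcon y
    have h1 := Fintype.card_le_of_surjective _ hsurj
    rw [hcard, ZMod.card] at h1
    have := hp.pos
    omega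
  let Y : Fin 2 → α := ![y₀, y₁]
  let f : ZMod p × Fin 2 → α := fun q => P q.1 (Y q.2)
  -- moving everything to one side
  have hmove : ∀ (i j : ZMod p) (y z : α), P i y = P j z → ∃ n : ℕ, z = x ^ n • y ∧ (n : ZMod p) = i - j := by
    intro i j y z h
    refine ⟨p - j.val + i.val, ?_, ?_⟩
    · have h1 : x ^ (p - j.val) • x ^ j.val • z = z := by
        rw [← mul_smul, ← pow_add, Nat.sub_add_cancel (ZMod.val_lt j).le, hxp, one_smul]
      have h2 : x ^ j.val • z = x ^ i.val • y := h.symm
      rw [h2] at h1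
      rw [pow_add, mul_smul]
      exact h1.symm
    · push_cast [Nat.cast_sub (ZMod.val_lt j).le]
      simp
      ring
  have hinj : Function.Injective f := by
    rintro ⟨i, b⟩ ⟨j, c⟩ h
    have hbc : b = c := by
      by_contra hne
      have hcases : (b = 0 ∧ c = 1) ∨ (b = 1 ∧ c = 0) := by
        fin_cases b <;> fin_cases c <;> simp_all
      rcases hcases with ⟨rfl, rfl⟩ | ⟨rfl, rfl⟩
      · obtain ⟨n, hn, -⟩ := hmove i j (Y 0) (Y 1) h
        apply hy₁ (n : ZMod p)
        rw [← hPn]
        exact hn.symm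
      · obtain ⟨n, hn, -⟩ := hmove j i (Y 0) (Y 1) h.symm
        apply hy₁ (n : ZMod p)
        rw [← hPn]
        exact hn.symm
    subst hbc
    obtain ⟨n, hn, hn'⟩ := hmove i j (Y b) (Y b) h
    have h1 := hdvd n (Y b) hn.symm
    have h2 : (n : ZMod p) = 0 := (ZMod.natCast_eq_zero_iff n p).mpr h1
    rw [h2] at hn'
    have h3 : i = j := (sub_eq_zero.mp hn'.symm)
    rw [h3]
  have hbij : Function.Bijective f := by
    rw [Fintype.bijective_iff_injective_and_card]
    refine ⟨hinj, ?_⟩
    rw [hcard, Fintype.card_prod, ZMod.card, Fintype.card_fin, mul_comm]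
  exact ⟨⟨Equiv.ofBijective f hbij, x, fun j b => hPx j (Y b)⟩⟩

/-- Wielandt's Theorem on primitive groups of degree `2p`: such a group is doubly transitive, or it has rank 3, `p = 2a² + 2a + 1`, and subdegrees `a(2a+1)` and `(a+1)(2a+1)`. -/
theorem result {α : Type*} [Fintype α] [DecidableEq α] {p : ℕ} (hp : p.Prime) (hα : Fintype.card α = 2 * p) (G : Subgroup (Equiv.Perm α)) (hG : MulAction.IsPreprimitive G α) (a₀ : α) : MulAction.IsMultiplyPretransitive G α 2 ∨ (Nat.card (MulAction.orbitRel.Quotient (MulAction.stabilizer G a₀) α) = 3 ∧ ∃ a : ℕ, 0 < a ∧ p = 2 * a ^ 2 + 2 * a + 1 ∧ ∀ b : α, b ≠ a₀ → Nat.card (MulAction.orbit (MulAction.stabilizer G a₀) b) = a * (2 * a + 1) ∨ Nat.card (MulAction.orbit (MulAction.stabilizer G a₀) b) = (a + 1) * (2 * a + 1)) := by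
  classical
  have hfact : Fact p.Prime := ⟨hp⟩
  haveI : Fintype G := Fintype.ofFinite _
  have hpre : IsPreprimitive G α := hG
  have hdvd : p ∣ Nat.card G := by
    have h1 := MulAction.card_orbit_mul_card_stabilizer_eq_card_group G a₀
    have h2 : orbit G a₀ = Set.univ := orbit_eq_univ G a₀
    have h3 : Fintype.card (orbit G a₀) = Fintype.card α := by
      rw [← Nat.card_eq_fintype_card, h2]
      simp
    rw [h3, hα] at h1
    rw [Nat.card_eq_fintype_card]
    exact ⟨2 * Fintype.card (stabilizer G a₀), by rw [← h1]; ring⟩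
  obtain ⟨x, hx⟩ := exists_prime_orderOf_dvd_card' p hdvd
  set σ : Equiv.Perm α := (x : Equiv.Perm α) with hσ
  have hσord : orderOf σ = p := by
    rw [hσ, Subgroup.orderOf_coe, hx]
  have hσp : (orderOf σ).Prime := by rw [hσord]; exact hp
  obtain ⟨n, hn⟩ := Equiv.Perm.cycleType_prime_order hσp
  have hsupp : σ.support.card = (n + 1) * p := by
    rw [← Equiv.Perm.sum_cycleType, hn, hσord]
    simp
    ring
  have hle : σ.support.card ≤ 2 * p := by
    rw [← hα]
    exact Finset.card_le_univ _
  have hpos := hp.pos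
  have hn1 : n = 0 ∨ n = 1 := by
    rw [hsupp] at hle
    have : n + 1 ≤ 2 := Nat.le_of_mul_le_mul_right hle hpos
    omega
  rcases hn1 with rfl | rfl
  · -- a `p`-cycle: a small Jordan set
    left
    have hcyc : σ.IsCycle := by
      rw [← Equiv.Perm.card_cycleType_eq_one, hn]
      simp
    have hsupp' : σ.support.card = p := by
      rw [hsupp]
      ring
    have h3 : IsMultiplyPretransitive G α 3 := by
      refine Cfsg.Agent.Lib.Perm.JordanThree.three_transitive hpre (σ.support : Set α) ?_ ?_ ?_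
      · rw [Set.ncard_coe_finset, hsupp']
        exact hp.one_lt
      · rw [Set.ncard_coe_finset, hsupp', Nat.card_eq_fintype_card, hα]
      · intro u hu w hw
        have hu' : σ u ≠ u := Equiv.Perm.mem_support.mp (Finset.mem_coe.mp hu)
        have hw' : σ w ≠ w := Equiv.Perm.mem_support.mp (Finset.mem_coe.mp hw)
        obtain ⟨i, hi⟩ := hcyc.exists_pow_eq hu' hw'
        refine ⟨x ^ i, ?_, ?_⟩
        · intro z hz
          have hz' : σ z = z := by
            by_contra h
            exact hz (Finset.mem_coe.mpr (Equiv.Perm.mem_support.mpr h))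
          show ((x ^ i : G) : Equiv.Perm α) z = z
          rw [Subgroup.coe_pow]
          exact Function.IsFixedPt.perm_pow hz' i
        · show ((x ^ i : G) : Equiv.Perm α) u = w
          rw [Subgroup.coe_pow]
          exact hi
    haveI := h3
    have h2le := hp.two_le
    exact isMultiplyPretransitive_of_le (n := 3) (by norm_num) (by
      rw [Nat.card_eq_fintype_card, hα]
      omega)
  · -- two `p`-cycles: semiregular
    have hfree : ∀ y : α, x • y ≠ y := by
      intro y hy
      have huniv : σ.support = Finset.univ := by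
        apply Finset.eq_univ_of_card
        rw [hsupp, hα]
      have h1 : y ∈ σ.support := by
        rw [huniv]
        exact Finset.mem_univ y
      exact Equiv.Perm.mem_support.mp h1 hy
    have hxp : x ^ p = 1 := by
      rw [← hx]
      exact pow_orderOf_eq_one x
    obtain ⟨C⟩ := exists_coord (G := G) hα x hxp hfree
    exact Cfsg.Agent.Lib.Wielandt.Final.main C a₀

end Cfsg.Agent.S0720
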