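import Cfsg.Statements.S0968
import Cfsg.Agent.Lib.BlockT.CenterP

set_option autoImplicit false
open Cfsg

namespace Cfsg.Agent.S0968

open Cfsg.Agent.Lib.BlockT.CenterP Cfsg.Agent.Lib.BlockT.Inflate2 Cfsg.Agent.Lib.BlockT.SylowIn
open Cfsg.Agent.Lib.BlockT.Inflate Cfsg.Agent.Lib.BlockT.NormalP
open Cfsg.Agent.Lib.Blocks.Local Cfsg.Agent.Lib.Blocks.Central Cfsg.Agent.Lib.Blocks.PPart
open Cfsg.Agent.Lib.Blocks.Defect2
open Cfsg.Agent.Lib.Char.Basic Cfsg.Agent.Lib.Char.Ortho Cfsg.Agent.Lib.Char.Complete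
open Cfsg.Agent.Lib.Char.Linear
open scoped ComplexConjugate

set_option linter.style.haveILetI false
set_option linter.unusedVariables false

section Aux

variable {G : Type*} [Group G] [Fintype G] {P : Subgroup G} [Fintype P] {M : Ideal AlgInt} {p : ℕ}

/-- A character whose degree has the full `p`-part is alone in its block. -/
theorem blockOf_eq_singleton {H : Type*} [Group H] [Fintype H] [hp : Fact p.Prime]
    (hM : IsPModular p M) {φ : IrrCharacter H}
    (h : (charDegree (φ : H → ℂ)).factorization p = (Nat.card H).factorization p) :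
    blockOf M (φ : H → ℂ) ⊆ {φ} := by
  classical
  haveI := isPrime_of_pModular hM
  have := Cfsg.Agent.Lib.Char.Ortho.finite_irrCharacter (G := H)
  letI := Fintype.ofFinite (IrrCharacter H)
  refine blockOf_subset_of_forall_memLocalRing (fun g => ?_) (Set.mem_singleton φ)
  rw [blockCoeff_eq_sum, Finset.sum_eq_single φ]
  · rw [if_pos (Set.mem_singleton φ), ← mul_assoc]
    have hd := Cfsg.Agent.Lib.Char.Degree.charDegree_natCast (isCharacter_of_isIrrCharacter φ.2)
    rw [← hd]
    refine memLocalRing_mul ?_ (memLocalRing_of_isIntegral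
      (map_isIntegral_int (starRingEnd ℂ) (isIntegral_irr φ g)))
    have h1 := Cfsg.Agent.Lib.BlockP.InducedDeg.memLocalRing_div hM
      (Cfsg.Agent.Lib.Char.Degree.charDegree_pos φ.2).ne' (Nat.card_pos (α := H)).ne' h.ge
    rwa [div_eq_inv_mul] at h1
  · intro ψ _ hψ
    rw [if_neg (by simpa using hψ)]
  · intro h
    exact absurd (Finset.mem_univ _) h

/-- Degree of a character trivial on a normal defect group. -/
theorem factorization_deg [hp : Fact p.Prime] (hM : IsPModular p M) (hN : P.Normal) (hpg : IsPGroup p P)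
    (hC : ∃ k : ℕ, (Subgroup.centralizer (P : Set G)).index = p ^ k)
    {B : Set (IrrCharacter G)} (hB : IsPBlock M B) (hD : IsDefectGroup p M B P)
    {θ : IrrCharacter G} (hθB : θ ∈ B) [Fintype (G ⧸ P)] {φ : IrrCharacter (G ⧸ P)}
    (hθφ : (θ : G → ℂ) = (φ : G ⧸ P → ℂ) ∘ QuotientGroup.mk) :
    (charDegree (φ : G ⧸ P → ℂ)).factorization p = (Nat.card (G ⧸ P)).factorization p := by
  classical
  haveI := isPrime_of_pModular hM
  obtain ⟨g, hg, hs⟩ := isDefectGroup_isSylowIn hD
  have hreg : ¬ p ∣ orderOf g := fun hd => hg.2.1 (by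
    rw [blockCoeff_eq_zero hM hB hd]
    exact memLocalIdeal_zero)
  have hidx := index_centralizer_mk hM.1 hN hpg hC hreg
  have hcen : centralChar (φ : G ⧸ P → ℂ) (QuotientGroup.mk g) = centralChar (θ : G → ℂ) g := by
    rw [centralChar, centralChar, hidx, hθφ]
    simp
  have h1 : ¬ MemLocalIdeal M (centralChar (φ : G ⧸ P → ℂ) (QuotientGroup.mk g)) := by
    rw [hcen]
    exact hg.2.2 θ hθB
  have h2 := Cfsg.Agent.Lib.BlockP.Defect.blockDefect_le_factorization_centralizer hM
    (B := blockOf M (φ : G ⧸ P → ℂ)) ⟨φ, rfl⟩ (mem_blockOf_self φ) h1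
  -- numerics
  have c1 := (Subgroup.centralizer ({g} : Set G)).card_mul_index
  have c2 := (Subgroup.centralizer ({(QuotientGroup.mk g : G ⧸ P)} : Set (G ⧸ P))).card_mul_index
  have c3 := P.card_mul_index
  have hcP : Nat.card P = p ^ (Nat.card (Subgroup.centralizer ({g} : Set G))).factorization p := hs.card_eq
  have f1 := congrArg (fun m => m.factorization p) c1
  have f2 := congrArg (fun m => m.factorization p) c2
  have f3 := congrArg (fun m => m.factorization p) c3
  simp only [Nat.factorization_mul (Nat.card_pos).ne' (Subgroup.index_ne_zero_of_finite),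
    Finsupp.add_apply] at f1 f2 f3
  rw [hidx] at f2
  have hfP : (Nat.card P).factorization p = (Nat.card (Subgroup.centralizer ({g} : Set G))).factorization p := by
    rw [hcP, Nat.factorization_pow, Finsupp.smul_apply, hM.1.factorization_self]
    simp
  have hidx2 : P.index = Nat.card (G ⧸ P) := rfl
  rw [hidx2] at f3
  have hzero : blockDefect p (blockOf M (φ : G ⧸ P → ℂ)) = 0 := by omega
  have hle := Cfsg.Agent.Lib.BlockP.Defect.minExp_le p (mem_blockOf_self (M := M) φ)
  have hdef : (Nat.card (G ⧸ P)).factorization p - Cfsg.Agent.Lib.BlockP.Defect.minExp p (blockOf M (φ : G ⧸ P → ℂ)) = 0 :=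
    hzero
  have hdvd := Cfsg.Agent.Lib.Char.Degree.charDegree_dvd_card φ.2
  have hle2 := (Nat.factorization_le_iff_dvd (Cfsg.Agent.Lib.Char.Degree.charDegree_pos φ.2).ne'
    (Nat.card_pos).ne').mpr hdvd p
  omega

end Aux

section Main

variable {G : Type*} [Group G] [Fintype G] {P : Subgroup G} [Fintype P] {M : Ideal AlgInt} {p : ℕ}

theorem card_block [hp' : Fact p.Prime] (hM : IsPModular p M) (hP : IsPGroup p P)
    (hG : P ⊔ Subgroup.centralizer (P : Set G) = ⊤)
    (B : Set (IrrCharacter G)) (hB : IsPBlock M B) (hD : IsDefectGroup p M B P)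
    {θ : IrrCharacter G} (hθB : θ ∈ B) (hθ : ∀ n : P, (θ : G → ℂ) n = (θ : G → ℂ) 1)
    (huniq : ∀ θ' ∈ B, (∀ n : P, (θ' : G → ℂ) n = (θ' : G → ℂ) 1) → θ' = θ) :
    Nat.card B = Nat.card (ConjClasses P) := by
  classical
  haveI := isPrime_of_pModular hM
  have hN : P.Normal := normal_of_sup hG
  have hI : IsInnerAct P := isInnerAct_of_sup hG
  have hC := index_centralizer_of_sup hP hG
  have := Cfsg.Agent.Lib.Char.Ortho.finite_irrCharacter (G := G)
  letI := Fintype.ofFinite (IrrCharacter G)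
  have hBθ : B = blockOf M (θ : G → ℂ) := isPBlock_eq_blockOf hB hθB
  have hex : ∀ χ : B, ∃ β : IrrCharacter P, classInner (fun n : P => ((χ : IrrCharacter G) : G → ℂ) n) (β : P → ℂ) ≠ 0 :=
    fun χ => exists_constituent (N := P) (χ : IrrCharacter G)
  choose f hf using hex
  rw [← card_irr_eq_card_conjClasses]
  refine Nat.card_eq_of_bijective f ⟨?_, ?_⟩
  · rintro ⟨χ, hχ⟩ ⟨χ', hχ'⟩ hff
    have h1 := hf ⟨χ, hχ⟩
    have h2 := hf ⟨χ', hχ'⟩
    rw [← hff] at h2
    set β := f ⟨χ, hχ⟩ with hβ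
    obtain ⟨c, hc⟩ := exists_scalar hM hN hP hC (χ := χ) (θ := θ) (hBθ ▸ hχ) hθ (fun θ' h => huniq θ' (hBθ ▸ h))
    obtain ⟨c', hc'⟩ := exists_scalar hM hN hP hC (χ := χ') (θ := θ) (hBθ ▸ hχ') hθ (fun θ' h => huniq θ' (hBθ ▸ h))
    have hvan : ∀ ξ ∈ B, ∀ g x : G, IsPPart p g x → x ∉ P → (ξ : G → ℂ) g = 0 := by
      intro ξ hξ g x hx hxP
      apply Cfsg.Agent.Lib.Blocks.Sections.char_eq_zero_of_forall_notMem_defect hM ξ hx
      intro D hDD hxD
      rw [← isPBlock_eq_blockOf hB hξ] at hDD
      obtain ⟨t, rfl⟩ := isDefectGroup_exists_conj_eq hM hB hD hDD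
      obtain ⟨u, hu, rfl⟩ := hxD
      exact hxP (hN.conj_mem u hu t)
    have hrel : ∀ g : G, c' * (χ : G → ℂ) g = c * (χ' : G → ℂ) g := by
      intro g
      obtain ⟨x, y, hxy, hcomm, hxo, hyo⟩ := exists_pPart_y (p := p) g
      by_cases hxP : x ∈ P
      · have hyC := mem_centralizer_of_regular hM.1 hN hC hyo
        have e1 := value_formula hN hI h1 hyC ⟨x, hxP⟩
        have e2 := value_formula hN hI h2 hyC ⟨x, hxP⟩
        simp only at e1 e2
        rw [← hxy, e1, e2, hc y hyo, hc' y hyo]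
        ring
      · have hx : IsPPart p g x := ⟨y, hxy, hcomm, hxo, hyo⟩
        rw [hvan χ hχ g x hx hxP, hvan χ' hχ' g x hx hxP, mul_zero, mul_zero]
    have hχ1 := irr_one_ne_zero χ.2
    have hχ'1 := irr_one_ne_zero χ'.2
    have e3 : (χ : G → ℂ) 1 = c * (θ : G → ℂ) 1 := hc 1 (by simpa using hM.1.one_lt.ne')
    have e4 : (χ' : G → ℂ) 1 = c' * (θ : G → ℂ) 1 := hc' 1 (by simpa using hM.1.one_lt.ne')
    have hc0 : c ≠ 0 := fun h => hχ1 (by rw [e3, h, zero_mul])
    have hc'0 : c' ≠ 0 := fun h => hχ'1 (by rw [e4, h, zero_mul])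
    have hfun : (χ : G → ℂ) = (c / c') • (χ' : G → ℂ) := by
      funext g
      rw [Pi.smul_apply, smul_eq_mul]
      have := hrel g
      field_simp
      linear_combination this
    have hinn : classInner (χ : G → ℂ) (χ' : G → ℂ) = c / c' := by
      conv_lhs => rw [hfun]
      rw [classInner_def]
      simp only [Pi.smul_apply, smul_eq_mul]
      have := classInner_irr χ'.2 χ'.2
      rw [if_pos rfl, classInner_def] at this
      calc (Nat.card G : ℂ)⁻¹ * ∑ g : G, c / c' * (χ' : G → ℂ) g * conj ((χ' : G → ℂ) g)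
          = c / c' * ((Nat.card G : ℂ)⁻¹ * ∑ g : G, (χ' : G → ℂ) g * conj ((χ' : G → ℂ) g)) := by
            have e5 : ∑ g : G, c / c' * (χ' : G → ℂ) g * conj ((χ' : G → ℂ) g) =
                c / c' * ∑ g : G, (χ' : G → ℂ) g * conj ((χ' : G → ℂ) g) := by
              rw [Finset.mul_sum]
              refine Finset.sum_congr rfl fun g _ => ?_
              ring
            rw [e5]
            ring
        _ = c / c' := by rw [this, mul_one]
    rw [classInner_irr χ.2 χ'.2] at hinn
    by_cases heq : (χ : G → ℂ) = (χ' : G → ℂ)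
    · apply Subtype.ext
      exact Subtype.ext heq
    · rw [if_neg heq] at hinn
      exact absurd hinn.symm (div_ne_zero hc0 hc'0)
  · intro β
    have hne : ∃ χ ∈ B, classInner (fun n : P => (χ : G → ℂ) n) (β : P → ℂ) ≠ 0 := by
      by_contra hcon
      push Not at hcon
      -- the sum over `P` of `β ⋅ e_B`
      have h1 : ∑ x : P, (β : P → ℂ) x * blockCoeff B (x : G) = blockCoeff B 1 * (β : P → ℂ) 1 := by
        rw [Finset.sum_eq_single (1 : P)]
        · simp [mul_comm]
        · intro x _ hx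
          have hx1 : (x : G) ≠ 1 := fun h => hx (Subtype.ext h)
          obtain ⟨k, hk⟩ := hP x
          have hk' : (x : G) ^ p ^ k = 1 := by
            have := congrArg Subtype.val hk
            simpa using this
          have hd : p ∣ orderOf (x : G) := by
            have h2 := orderOf_dvd_of_pow_eq_one hk'
            obtain ⟨j, -, hj⟩ := (Nat.dvd_prime_pow hM.1).mp h2
            have hj0 : j ≠ 0 := by
              rintro rfl
              rw [pow_zero, orderOf_eq_one_iff] at hj
              exact hx1 hj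
            rw [hj]
            exact dvd_pow_self p hj0
          rw [blockCoeff_eq_zero hM hB hd, mul_zero]
        · intro h
          exact absurd (Finset.mem_univ _) h
      have h2 : ∑ x : P, (β : P → ℂ) x * blockCoeff B (x : G) = 0 := by
        simp only [blockCoeff_eq_sum]
        have e : ∀ x : P, (β : P → ℂ) x * ((Nat.card G : ℂ)⁻¹ *
            ∑ χ : IrrCharacter G, if χ ∈ B then (χ : G → ℂ) 1 * conj ((χ : G → ℂ) x) else 0) =
            (Nat.card G : ℂ)⁻¹ * ∑ χ : IrrCharacter G, if χ ∈ B then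
              (χ : G → ℂ) 1 * ((β : P → ℂ) x * conj ((χ : G → ℂ) x)) else 0 := by
          intro x
          rw [mul_left_comm, Finset.mul_sum]
          congr 1
          refine Finset.sum_congr rfl fun χ _ => ?_
          split_ifs
          · ring
          · simp
        simp only [e]
        rw [← Finset.mul_sum, Finset.sum_comm]
        have e2 : ∀ χ : IrrCharacter G, ∑ x : P, (if χ ∈ B then (χ : G → ℂ) 1 *
            ((β : P → ℂ) x * conj ((χ : G → ℂ) x)) else 0) = 0 := by
          intro χ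
          split_ifs with hχ
          · rw [← Finset.mul_sum]
            have h3 := hcon χ hχ
            rw [classInner_def] at h3
            have hP0 : (Nat.card P : ℂ)⁻¹ ≠ 0 := inv_ne_zero (Nat.cast_ne_zero.mpr Nat.card_pos.ne')
            have h4 := (mul_eq_zero.mp h3).resolve_left hP0
            have h5 := congrArg (starRingEnd ℂ) h4
            rw [map_sum, map_zero] at h5
            have h6 : ∑ x : P, (β : P → ℂ) x * conj ((χ : G → ℂ) x) = 0 := by
              rw [← h5]
              refine Finset.sum_congr rfl fun x _ => ?_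
              rw [map_mul, Complex.conj_conj, mul_comm]
            rw [h6, mul_zero]
          · simp
        simp only [e2, Finset.sum_const_zero, mul_zero]
      rw [h2] at h1
      have hβ1 := irr_one_ne_zero β.2
      have h3 : blockCoeff B 1 = 0 := (mul_eq_zero.mp h1.symm).resolve_right hβ1
      rw [blockCoeff_eq_sum] at h3
      have hG0 : (Nat.card G : ℂ)⁻¹ ≠ 0 := inv_ne_zero (Nat.cast_ne_zero.mpr Nat.card_pos.ne')
      have h4 := (mul_eq_zero.mp h3).resolve_left hG0
      have h5 : ∀ χ : IrrCharacter G, (if χ ∈ B then (χ : G → ℂ) 1 * conj ((χ : G → ℂ) 1) else 0) =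
          (((if χ ∈ B then charDegree (χ : G → ℂ) ^ 2 else 0 : ℕ)) : ℂ) := by
        intro χ
        split_ifs
        · have hd := Cfsg.Agent.Lib.Char.Degree.charDegree_natCast (isCharacter_of_isIrrCharacter χ.2)
          rw [← hd]
          simp [sq]
        · simp
      simp only [h5] at h4
      have h6 : (∑ χ : IrrCharacter G, (if χ ∈ B then charDegree (χ : G → ℂ) ^ 2 else 0) : ℕ) = 0 := by
        exact_mod_cast h4
      have h7 := Finset.sum_eq_zero_iff.mp h6 θ (Finset.mem_univ _)
      rw [if_pos hθB] at h7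
      exact (Cfsg.Agent.Lib.Char.Degree.charDegree_pos θ.2).ne' (by simpa using h7)
    obtain ⟨χ, hχ, hcon⟩ := hne
    exact ⟨⟨χ, hχ⟩, constituent_unique hN hI (hf ⟨χ, hχ⟩) hcon⟩

end Main

/-- Let P be a p-subgroup of the finite group G with P ⊔ C_G(P) = G, and let B be a block with defect group P relative to a maximal ideal M of the algebraic integers containing p. Then there is exactly one θ ∈ B with θ x = θ 1 for all x ∈ P; for this θ the exponent of p in θ(1) equals the exponent of p in the index of P; and the number of members of B equals the number of conjugacy classes of P. -/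
theorem result {G : Type*} [Group G] [Finite G] (p : ℕ) [Fact p.Prime] (M : Ideal Cfsg.AlgInt) (hM : Cfsg.IsPModular p M) (P : Subgroup G) (hP : IsPGroup p P) (hG : P ⊔ Subgroup.centralizer (P : Set G) = ⊤) (B : Set (Cfsg.IrrCharacter G)) (hB : Cfsg.IsPBlock M B) (hD : Cfsg.IsDefectGroup p M B P) : (∃! θ : Cfsg.IrrCharacter G, θ ∈ B ∧ ∀ x ∈ P, (θ : G → ℂ) x = (θ : G → ℂ) 1) ∧ (∀ θ ∈ B, (∀ x ∈ P, (θ : G → ℂ) x = (θ : G → ℂ) 1) → (Cfsg.charDegree (θ : G → ℂ)).factorization p = P.index.factorization p) ∧ Nat.card B = Nat.card (ConjClasses P) := by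
  classical
  cases nonempty_fintype G
  letI : Fintype P := Fintype.ofFinite P
  letI : Fintype (G ⧸ P) := Fintype.ofFinite _
  haveI := isPrime_of_pModular hM
  have hN : P.Normal := normal_of_sup hG
  haveI := hN
  have hC := index_centralizer_of_sup hP hG
  have hsurj : Function.Surjective (QuotientGroup.mk' P) := QuotientGroup.mk'_surjective P
  have hdesc : ∀ θ : IrrCharacter G, (∀ n : P, (θ : G → ℂ) n = (θ : G → ℂ) 1) →
      ∃ φ : IrrCharacter (G ⧸ P), (θ : G → ℂ) = (φ : G ⧸ P → ℂ) ∘ QuotientGroup.mk := by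
    intro θ hθ
    have hker : ∀ k ∈ (QuotientGroup.mk' P).ker, (θ : G → ℂ) k = (θ : G → ℂ) 1 := by
      intro k hk
      rw [QuotientGroup.ker_mk'] at hk
      exact hθ ⟨k, hk⟩
    obtain ⟨φ, hφ, hθφ⟩ := isIrrCharacter_descend (QuotientGroup.mk' P) hsurj θ.2 hker
    exact ⟨⟨φ, hφ⟩, hθφ⟩
  obtain ⟨θ, hθB, hθ⟩ := exists_trivial_mem_block hM hN hP hB
  have huniq : ∀ θ' ∈ B, (∀ n : P, (θ' : G → ℂ) n = (θ' : G → ℂ) 1) → θ' = θ := by
    intro θ' hθ' htr
    obtain ⟨φ, hφ⟩ := hdesc θ hθ
    obtain ⟨φ', hφ'⟩ := hdesc θ' htr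
    have hdeg := factorization_deg hM hN hP hC hB hD hθB hφ
    have hsing := blockOf_eq_singleton hM hdeg
    have hsame : SameBlock M (θ : G → ℂ) (θ' : G → ℂ) := by
      have : θ' ∈ blockOf M (θ : G → ℂ) := by
        rw [← isPBlock_eq_blockOf hB hθB]
        exact hθ'
      exact this
    rw [hφ, hφ'] at hsame
    have h1 := (Cfsg.Agent.S0941.result p M hM P hP hC).1 φ φ' |>.mpr hsame
    have h2 : φ' = φ := hsing h1
    apply Subtype.ext
    rw [hφ, hφ', h2]
  refine ⟨⟨θ, ⟨hθB, fun x hx => hθ ⟨x, hx⟩⟩, fun θ' h => huniq θ' h.1 (fun n => h.2 n n.2)⟩, ?_, ?_⟩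
  · intro θ' hθ' htr
    obtain ⟨φ, hφ⟩ := hdesc θ' (fun n => htr n n.2)
    have hdeg := factorization_deg hM hN hP hC hB hD hθ' hφ
    have e : charDegree (θ' : G → ℂ) = charDegree (φ : G ⧸ P → ℂ) := by
      rw [hφ, charDegree, charDegree]
      simp
    rw [e, hdeg]
    rfl
  · exact card_block hM hP hG B hB hD hθB hθ huniq

end Cfsg.Agent.S0968
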