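import Cfsg.Statements.S0981
import Cfsg.Agent.Lib.Small.Ord4080

set_option autoImplicit false
open Cfsg

namespace Cfsg.Agent.S0981

/-- A simple group of order 4080 is isomorphic to the projective special linear group of dimension 2 over the field with 16 elements. -/
theorem result {G : Type*} [Group G] [Finite G] [IsSimpleGroup G] (h : Nat.card G = 4080) {F : Type*} [Field F] [Fintype F] (hF : Fintype.card F = 16) : Nonempty (G ≃* Matrix.ProjectiveSpecialLinearGroup (Fin 2) F) := by
  exact Cfsg.Agent.Lib.Small.Ord4080.nonempty_mulEquiv h hF

end Cfsg.Agent.S0981
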