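import Cfsg.Statements.S1075
import Cfsg.Agent.Lib.Twisted.Ree3
import Cfsg.Agent.S1011

set_option autoImplicit false
open Cfsg

namespace Cfsg.Agent.S1075

open Cfsg.Agent.Lib.Twisted.Ree3 in
/-- The derived subgroup of ²G₂(3) (θ = identity over the field with three elements) has order 504 = 1512/3 and is isomorphic to PSL₂ over the field with eight elements. -/
theorem result {L : Type*} [Field L] [Fintype L] (hL : Fintype.card L = 8) :
    Nat.card ↥(commutator ↥(Cfsg.Lie.twistedG2 (ZMod 3) 1)) = 504 ∧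
      Nonempty (↥(commutator ↥(Cfsg.Lie.twistedG2 (ZMod 3) 1)) ≃* Matrix.ProjectiveSpecialLinearGroup (Fin 2) L) := by
  obtain ⟨e⟩ := nonempty_commutator_equiv
  have hc : Nat.card ↥Ag = 504 := card_Ag
  have hfin : Finite ↥Ag := Nat.finite_of_card_ne_zero (by rw [hc]; norm_num)
  haveI := isSimple_Ag
  obtain ⟨f⟩ := Cfsg.Agent.S1011.result (G := ↥Ag) hc hL
  exact ⟨(Nat.card_congr e.toEquiv).trans hc, ⟨e.trans f⟩⟩

end Cfsg.Agent.S1075
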