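import Cfsg.Statements.S1299
import Cfsg.Agent.Lib.Signal.Closure
import Cfsg.Agent.Lib.Signal.KBalance2

set_option autoImplicit false
set_option linter.style.haveILetI false
set_option linter.unusedSectionVars false
open Cfsg

namespace Cfsg.Agent.S1299

open Subgroup Cfsg.Agent.Lib.Signal.KBalance2 Cfsg.Agent.Lib.Signal.BalanceFor Cfsg.Agent.Lib.Signal.Closure

section Aux

variable {G : Type*} [Group G] [Finite G] {p : ℕ} [Fact p.Prime]

theorem ea_of_le {A D : Subgroup G} (hA : IsElementaryAbelian p A) (hD : D ≤ A) :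
    IsElementaryAbelian p D := by
  refine ⟨⟨⟨?_⟩⟩, fun a ha => hA.2 a (hD ha)⟩
  rintro ⟨x, hx⟩ ⟨y, hy⟩
  apply Subtype.ext
  exact (congrArg Subtype.val (hA.1.is_comm.comm ⟨x, hD hx⟩ ⟨y, hD hy⟩) :)

theorem comm_of_mem {A : Subgroup G} (hA : IsElementaryAbelian p A) {x y : G} (hx : x ∈ A)
    (hy : y ∈ A) : x * y = y * x :=
  congrArg Subtype.val (hA.1.is_comm.comm ⟨x, hx⟩ ⟨y, hy⟩)

theorem orderOf_of_mem {A : Subgroup G} (hA : IsElementaryAbelian p A) {x : G} (hx : x ∈ A)
    (h1 : x ≠ 1) : orderOf x = p :=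
  orderOf_eq_prime (hA.2 x hx) h1

theorem mem_core_of_mem_delta {E : Subgroup G} {x e : G} (hx : x ∈ signalizerDelta p E)
    (he : e ∈ E) (he1 : e ≠ 1) : x ∈ centralizerPPrimeCore p e := by
  rw [signalizerDelta, mem_iInf] at hx
  exact hx ⟨e, he, he1⟩

theorem centralizes_of_mem_delta {E : Subgroup G} {x e : G} (hx : x ∈ signalizerDelta p E)
    (he : e ∈ E) : x * e = e * x := by
  by_cases he1 : e = 1
  · rw [he1, one_mul, mul_one]
  · have h := Cfsg.Agent.Lib.Core.PSolvable2.centralizerPPrimeCore_le_centralizer e (mem_core_of_mem_delta hx he he1)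
    exact (mem_centralizer_iff.mp h e (Set.mem_singleton e)).symm

/-- `A` normalizes `Δ(E)` for `E ≤ A`. -/
theorem conj_mem_delta {A E : Subgroup G} (hA : IsElementaryAbelian p A) (hE : E ≤ A) {b x : G}
    (hb : b ∈ A) (hx : x ∈ signalizerDelta p E) : b * x * b⁻¹ ∈ signalizerDelta p E := by
  rw [signalizerDelta, mem_iInf]
  rintro ⟨e, he, he1⟩
  have h := conj_mem_centralizerCore (p := p) (x := e) (g := b) (mem_core_of_mem_delta hx he he1)
  have e1 : b * e * b⁻¹ = e := by
    rw [comm_of_mem hA hb (hE he)]; group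
  rwa [e1] at h

/-- `k`-balance for a subgroup `E` of order at least `p ^ k` of `A`. -/
theorem delta_inf_le_core {k : ℕ} (hbal : IsKBalanced p k G) {A E : Subgroup G}
    (hA : IsElementaryAbelian p A) (hE : E ≤ A) (hEk : p ^ k ≤ Nat.card E) {f x : G} (hf : f ∈ A)
    (hf1 : f ≠ 1) (hx : x ∈ signalizerDelta p E) (hxf : x * f = f * x) :
    x ∈ centralizerPPrimeCore p f := by
  obtain ⟨D, hDE, hDea, hDc⟩ := exists_subgroup_card (ea_of_le hA hE) hEk
  refine hbal D hDea hDc f (orderOf_of_mem hA hf hf1) (fun a ha => comm_of_mem hA (hE (hDE ha)) hf)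
    ⟨delta_anti hDE hx, mem_centralizer_iff.mpr ?_⟩
  rintro _ rfl
  exact hxf.symm

/-- `Δ(E) ∩ C(f) ≤ Δ(⟨E, f⟩)`. -/
theorem delta_inf_le_delta {k : ℕ} (hbal : IsKBalanced p k G) {A E F : Subgroup G}
    (hA : IsElementaryAbelian p A) (hE : E ≤ A) (hF : F ≤ A) (hEF : E ≤ F) (hEk : p ^ k ≤ Nat.card E) {x : G}
    (hx : x ∈ signalizerDelta p E) (hxF : ∀ f ∈ F, x * f = f * x) : x ∈ signalizerDelta p F := by
  rw [signalizerDelta, mem_iInf]
  rintro ⟨f, hf, hf1⟩
  exact delta_inf_le_core hbal hA hE hEk (hF hf) hf1 hx (hxF f hf)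

/-- The subgroup generated by the `Δ(E)`, `B ≤ E ≤ A`, `|E| ≥ p ^ k`. -/
def bigTheta (p k : ℕ) (A B : Subgroup G) : Subgroup G :=
  ⨆ E : {E : Subgroup G // E ≤ A ∧ B ≤ E ∧ p ^ k ≤ Nat.card E}, signalizerDelta p (E : Subgroup G)

theorem delta_le_bigTheta {k : ℕ} {A B E : Subgroup G} (hE : E ≤ A) (hB : B ≤ E)
    (hk : p ^ k ≤ Nat.card E) : signalizerDelta p E ≤ bigTheta p k A B :=
  le_iSup (fun E : {E : Subgroup G // E ≤ A ∧ B ≤ E ∧ p ^ k ≤ Nat.card E} =>
    signalizerDelta p (E : Subgroup G)) ⟨E, hE, hB, hk⟩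

omit [Finite G] [Fact p.Prime] in
theorem bigTheta_anti {k : ℕ} {A B₁ B₂ : Subgroup G} (h : B₁ ≤ B₂) :
    bigTheta p k A B₂ ≤ bigTheta p k A B₁ := by
  apply iSup_le
  rintro ⟨E, hE, hB, hk⟩
  exact le_iSup (fun E : {E : Subgroup G // E ≤ A ∧ B₁ ≤ E ∧ p ^ k ≤ Nat.card E} =>
    signalizerDelta p (E : Subgroup G)) ⟨E, hE, h.trans hB, hk⟩

/-- `bigTheta p k A B ≤ O_{p'}(C(b))` for `1 ≠ b ∈ B`. -/
theorem bigTheta_le_core {k : ℕ} {A B : Subgroup G} {b : G} (hb : b ∈ B) (hb1 : b ≠ 1) :
    bigTheta p k A B ≤ centralizerPPrimeCore p b := by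
  apply iSup_le
  rintro ⟨E, hE, hB, hk⟩ x hx
  exact mem_core_of_mem_delta hx (hB hb) hb1

theorem bigTheta_commute {k : ℕ} {A B : Subgroup G} {b x : G} (hb : b ∈ B)
    (hx : x ∈ bigTheta p k A B) : x * b = b * x := by
  by_cases hb1 : b = 1
  · rw [hb1, one_mul, mul_one]
  · have h := Cfsg.Agent.Lib.Core.PSolvable2.centralizerPPrimeCore_le_centralizer b (bigTheta_le_core hb hb1 hx)
    exact (mem_centralizer_iff.mp h b (Set.mem_singleton b)).symm

theorem conj_mem_bigTheta {k : ℕ} {A B : Subgroup G} (hA : IsElementaryAbelian p A) {b x : G}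
    (hb : b ∈ A) (hx : x ∈ bigTheta p k A B) : b * x * b⁻¹ ∈ bigTheta p k A B := by
  have hle : bigTheta p k A B ≤ (bigTheta p k A B).comap (MulAut.conj b).toMonoidHom := by
    apply iSup_le
    rintro ⟨E, hE, hB, hk⟩ y hy
    exact delta_le_bigTheta hE hB hk (conj_mem_delta hA hE hb hy)
  exact hle hx

theorem not_dvd_card_core (a : G) : ¬ p ∣ Nat.card (centralizerPPrimeCore p a) := by
  have h := Cfsg.Agent.Lib.Core.Basic.pPrimeCore_coprime (p := p) (G := ↥(centralizer ({a} : Set G)))
  intro hd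
  have e : Nat.card (centralizerPPrimeCore p a) = Nat.card (pPrimeCore p ↥(centralizer ({a} : Set G))) :=
    Subgroup.card_map_of_injective (Subgroup.subtype_injective _)
  rw [e] at hd
  have h2 := Nat.Coprime.coprime_dvd_left hd h
  have hp : p.Prime := Fact.out
  rw [Nat.coprime_self] at h2
  exact hp.one_lt.ne' h2

/-- A complement in an elementary abelian group. -/
theorem exists_complement {A B : Subgroup G} (hA : IsElementaryAbelian p A) (hB : B ≤ A) :
    ∃ C : Subgroup G, C ≤ A ∧ C ⊓ B = ⊥ ∧ ∀ x ∈ A, ∃ b ∈ B, ∃ c ∈ C, x = b * c := by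
  classical
  have hp : p.Prime := Fact.out
  let P : Subgroup G → Prop := fun C => C ≤ A ∧ C ⊓ B = ⊥
  have hP0 : P ⊥ := ⟨bot_le, bot_inf_eq _⟩
  obtain ⟨C, -, hC⟩ := Finite.exists_le_maximal (p := P) hP0
  refine ⟨C, hC.prop.1, hC.prop.2, ?_⟩
  by_contra hcon
  push Not at hcon
  obtain ⟨x, hxA, hx⟩ := hcon
  have hxC : x ∉ C := fun h => hx 1 B.one_mem x h (by rw [one_mul])
  have hP' : P (C ⊔ zpowers x) := by
    refine ⟨sup_le hC.prop.1 ((zpowers_le).mpr hxA), ?_⟩
    rw [eq_bot_iff]
    rintro y ⟨hy1, hy2⟩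
    -- `y = c * x ^ i`
    have hcn : zpowers x ≤ normalizer (C : Set G) := by
      rw [zpowers_le, mem_normalizer_iff]
      intro z
      constructor
      · intro hz
        have : x * z * x⁻¹ = z := by
          rw [comm_of_mem hA hxA (hC.prop.1 hz)]; group
        rwa [this]
      · intro hz
        have : x * z * x⁻¹ ∈ A := A.mul_mem (A.mul_mem hxA (by
          have hz' : x⁻¹ * (x * z * x⁻¹) * x ∈ A := A.mul_mem (A.mul_mem (A.inv_mem hxA) (hC.prop.1 hz)) hxA
          have e : x⁻¹ * (x * z * x⁻¹) * x = z := by group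
          rwa [e] at hz')) (A.inv_mem hxA)
        have hzA : z ∈ A := by
          have hz' : x⁻¹ * (x * z * x⁻¹) * x ∈ A := A.mul_mem (A.mul_mem (A.inv_mem hxA) this) hxA
          have e : x⁻¹ * (x * z * x⁻¹) * x = z := by group
          rwa [e] at hz'
        have e : x * z * x⁻¹ = z := by
          rw [comm_of_mem hA hxA hzA]; group
        rwa [e] at hz
    obtain ⟨c, hc, w, hw, hyeq⟩ := Cfsg.Agent.Lib.Coprime.Action.exists_mul_of_mem_sup hcn hy1
    obtain ⟨i, rfl⟩ := mem_zpowers_iff.mp hw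
    have hy2' : y ∈ B := hy2
    by_cases hi : x ^ i = 1
    · rw [hi, mul_one] at hyeq
      have : y ∈ C ⊓ B := ⟨by rw [hyeq]; exact hc, hy2'⟩
      rw [hC.prop.2] at this
      exact this
    · exfalso
      -- `x` is a power of `x ^ i`
      have hord : orderOf x = p := orderOf_eq_prime (hA.2 x hxA) (by
        rintro rfl
        exact hi (one_zpow i))
      have hzi : zpowers (x ^ i) = zpowers x := by
        have hcard : Nat.card (zpowers (x ^ i)) = p := by
          rw [Nat.card_zpowers]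
          exact orderOf_eq_prime (by
            rw [← zpow_natCast, ← zpow_mul, mul_comm, zpow_mul, zpow_natCast, hA.2 x hxA, one_zpow]) hi
        have hcard2 : Nat.card (zpowers x) = p := by rw [Nat.card_zpowers, hord]
        have hle : zpowers (x ^ i) ≤ zpowers x := by
          rw [zpowers_le]; exact zpow_mem (mem_zpowers x) i
        exact Subgroup.eq_of_le_of_card_ge hle (by rw [hcard, hcard2])
      have hxm : x ∈ zpowers (x ^ i) := by rw [hzi]; exact mem_zpowers x
      obtain ⟨j, hj⟩ := mem_zpowers_iff.mp hxm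
      have hxi : x ^ i = c⁻¹ * y := by rw [hyeq]; group
      have hyA : y ∈ A := hB hy2'
      have hcA : c ∈ A := hC.prop.1 hc
      have hcomm : Commute c⁻¹ y := (show Commute c y from comm_of_mem hA hcA hyA).inv_left
      have key : x = y ^ j * (c⁻¹) ^ j := by
        calc x = (x ^ i) ^ j := hj.symm
          _ = (c⁻¹ * y) ^ j := by rw [hxi]
          _ = (c⁻¹) ^ j * y ^ j := hcomm.mul_zpow j
          _ = y ^ j * (c⁻¹) ^ j := comm_of_mem hA (zpow_mem (A.inv_mem hcA) j) (zpow_mem hyA j)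
      exact hx _ (zpow_mem hy2' j) _ (zpow_mem (C.inv_mem hc) j) key
  have hge := hC.le_of_ge hP' le_sup_left
  exact hxC (hge (mem_sup_right (mem_zpowers x)))

theorem bigTheta_le_delta {k : ℕ} {A B : Subgroup G} : bigTheta p k A B ≤ signalizerDelta p B := by
  apply iSup_le
  rintro ⟨E, hE, hB, hk⟩
  exact delta_anti hB

theorem card_le_of_complement {A B C : Subgroup G}
    (h : ∀ x ∈ A, ∃ b ∈ B, ∃ c ∈ C, x = b * c) : Nat.card A ≤ Nat.card B * Nat.card C := by
  classical
  rw [← Nat.card_prod]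
  have hs : ∀ x : A, ∃ y : B × C, (y.1 : G) * y.2 = x := by
    rintro ⟨x, hx⟩
    obtain ⟨b, hb, c, hc, rfl⟩ := h x hx
    exact ⟨⟨⟨b, hb⟩, ⟨c, hc⟩⟩, rfl⟩
  choose f hf using hs
  have hinj : Function.Injective f := by
    intro x y hxy
    apply Subtype.ext
    rw [← hf x, ← hf y, hxy]
  exact Nat.card_le_card_of_injective f hinj

/-- The main induction. -/
theorem key {k : ℕ} (hbal : IsKBalanced p k G) {A : Subgroup G} (hA : IsElementaryAbelian p A)
    (hAk : p ^ (k + 2) ≤ Nat.card A) (hk1 : 1 ≤ k)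
    (hsolv : ∀ a ∈ A, a ≠ 1 → Group.IsSolvable (centralizerPPrimeCore p a)) (B : Subgroup G) :
    B ≤ A → B ≠ ⊥ → ∀ e ∈ A, ∀ x ∈ bigTheta p k A B, x * e = e * x →
      x ∈ bigTheta p k A (B ⊔ zpowers e) := by
  have hp : p.Prime := Fact.out
  induction B using WellFoundedGT.induction with
  | ind B ih =>
  intro hBA hB1 e he x hx hxe
  have heq1 : ∀ b ∈ B, x * b = b * x := fun b hb => bigTheta_commute hb hx
  by_cases hBk : p ^ k ≤ Nat.card B
  · -- the top case
    set F := B ⊔ zpowers e with hF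
    have hFA : F ≤ A := sup_le hBA ((zpowers_le).mpr he)
    have hFk : p ^ k ≤ Nat.card F := hBk.trans (Subgroup.card_le_of_le le_sup_left)
    refine delta_le_bigTheta hFA le_rfl hFk ?_
    refine delta_inf_le_delta hbal hA hBA hFA le_sup_left hBk (bigTheta_le_delta hx) ?_
    intro f hf
    have hle : F ≤ centralizer ({x} : Set G) := by
      apply sup_le
      · intro b hb
        rw [mem_centralizer_iff]
        rintro _ rfl
        exact heq1 b hb
      · rw [zpowers_le, mem_centralizer_iff]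
        rintro _ rfl
        exact hxe
    exact mem_centralizer_iff.mp (hle hf) x (Set.mem_singleton x)
  · push Not at hBk
    obtain ⟨C, hCA, hCB, hdec⟩ := exists_complement hA hBA
    -- sizes
    have hBp : IsPGroup p B :=
      Cfsg.Agent.Lib.Coprime.Generation2.isPGroup_of_isElementaryAbelian (ea_of_le hA hBA)
    obtain ⟨m, hm⟩ := IsPGroup.iff_card.mp hBp
    have hmk : m < k := by
      rw [hm] at hBk
      exact (Nat.pow_lt_pow_iff_right hp.one_lt).mp hBk
    have hC3 : p ^ 3 ≤ Nat.card C := by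
      have h1 := card_le_of_complement hdec
      have h2 : p ^ (k + 2) ≤ p ^ m * Nat.card C := by
        rw [← hm]; exact hAk.trans h1
      have h3 : p ^ m * p ^ 3 ≤ p ^ (k + 2) := by
        rw [← pow_add]
        exact Nat.pow_le_pow_right hp.pos (by omega)
      exact Nat.le_of_mul_le_mul_left (h3.trans h2) (pow_pos hp.pos m)
    let θ' : G → Subgroup G := fun g => bigTheta p k A (B ⊔ zpowers g)
    have hCea : IsElementaryAbelian p C := ea_of_le hA hCA
    have hnotB : ∀ c ∈ C, c ≠ 1 → c ∉ B := by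
      intro c hc hc1 hcB
      have : c ∈ C ⊓ B := ⟨hc, hcB⟩
      rw [hCB] at this
      exact hc1 this
    have hclo : signalizerClosure C θ' = bigTheta p k A B := by
      apply le_antisymm
      · apply iSup_le
        rintro ⟨c, hc, hc1⟩
        exact bigTheta_anti le_sup_left
      · apply iSup_le
        rintro ⟨E, hE, hBE, hEk⟩
        obtain ⟨e', he'E, he'B⟩ : ∃ e' ∈ E, e' ∉ B := by
          by_contra hcon
          push Not at hcon
          have : Nat.card E ≤ Nat.card B := Subgroup.card_le_of_le hcon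
          omega
        obtain ⟨b, hb, c, hc, hbc⟩ := hdec e' (hE he'E)
        have hc1 : c ≠ 1 := by
          rintro rfl
          rw [mul_one] at hbc
          exact he'B (hbc ▸ hb)
        have hcE : c ∈ E := by
          have : c = b⁻¹ * e' := by rw [hbc]; group
          rw [this]
          exact E.mul_mem (E.inv_mem (hBE hb)) he'E
        refine le_trans ?_ (le_iSup (fun a : {a : G // a ∈ C ∧ a ≠ 1} => θ' (a : G)) ⟨c, hc, hc1⟩)
        exact delta_le_bigTheta hE (sup_le hBE ((zpowers_le).mpr hcE)) hEk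
    have hfun : IsSignalizerFunctor p C θ' := by
      refine ⟨?_, ?_, ?_, ?_⟩
      · intro a _ _ y hy
        rw [mem_centralizer_iff]
        rintro _ rfl
        exact (bigTheta_commute (mem_sup_right (mem_zpowers _)) hy).symm
      · intro a _ ha1 hd
        have hle : θ' a ≤ centralizerPPrimeCore p a :=
          bigTheta_le_core (mem_sup_right (mem_zpowers a)) ha1
        exact not_dvd_card_core (p := p) a (hd.trans (Subgroup.card_dvd_of_le hle))
      · intro a _ _ b hb y hy
        exact conj_mem_bigTheta hA (hCA hb) hy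
      · rintro a ha ha1 b hb hb1 y ⟨hy, hyc⟩
        have hlt : B < B ⊔ zpowers a := by
          refine lt_of_le_of_ne le_sup_left ?_
          intro h
          apply hnotB a ha ha1
          rw [h]
          exact mem_sup_right (mem_zpowers a)
        have h1 := ih (B ⊔ zpowers a) hlt (sup_le hBA ((zpowers_le).mpr (hCA ha)))
          (fun h => hB1 (le_bot_iff.mp (h ▸ le_sup_left))) b (hCA hb) y hy
          (mem_centralizer_iff.mp hyc b (Set.mem_singleton b)).symm
        exact bigTheta_anti (sup_le_sup_right le_sup_left _) h1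
    obtain ⟨⟨b₀, hb₀⟩, hb₀ne⟩ := Subgroup.ne_bot_iff_exists_ne_one.mp hB1
    have hb₀1 : b₀ ≠ 1 := fun h => hb₀ne (Subtype.ext h)
    have hcore : bigTheta p k A B ≤ centralizerPPrimeCore p b₀ := bigTheta_le_core hb₀ hb₀1
    have hs : Group.IsSolvable (signalizerClosure C θ') := by
      rw [hclo]
      haveI := hsolv b₀ (hBA hb₀) hb₀1
      exact Group.isSolvable_of_isSolvable_injective (f := Subgroup.inclusion hcore) (Subgroup.inclusion_injective hcore)
    have hpc : ¬ p ∣ Nat.card (signalizerClosure C θ') := by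
      rw [hclo]
      intro hd
      exact not_dvd_card_core (p := p) b₀ (hd.trans (Subgroup.card_dvd_of_le hcore))
    obtain ⟨b, hb, c, hc, rfl⟩ := hdec e he
    by_cases hc1 : c = 1
    · subst hc1
      rw [mul_one] at hxe ⊢
      rw [sup_eq_left.mpr ((zpowers_le).mpr hb)]
      exact hx
    · have hxc : x * c = c * x := by
        have h1 := heq1 b hb
        have : x * (b * c) = b * (x * c) := by rw [← mul_assoc, h1, mul_assoc]
        rw [this] at hxe
        have h2 : b * c * x = b * (c * x) := mul_assoc _ _ _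
        rw [h2] at hxe
        exact mul_left_cancel hxe
      have h1 := mem_of_mem_closure hCea hC3 hfun hs hpc hc hc1 (hclo.symm ▸ hx)
        (mem_centralizer_iff.mpr (by rintro _ rfl; exact hxc.symm))
      refine bigTheta_anti ?_ h1
      exact sup_le le_sup_left ((zpowers_le).mpr
        (mul_mem (mem_sup_left hb) (mem_sup_right (mem_zpowers c))))

end Aux

/-- Let G be finite and k-balanced for the prime p (k ≥ 1), A an elementary abelian p-subgroup of order at least p^(k+2) such that O_{p'}(C_G(a)) is solvable for every non-identity a ∈ A. For a ∈ A put θ a = the subgroup generated by the Δ_G(D) ∩ C_G(a) over the subgroups D ≤ A of order p^k. Then θ is an A-signalizer functor. -/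
theorem result {G : Type*} [Group G] [Finite G] (p k : ℕ) [Fact p.Prime] (hk : 1 ≤ k) (hbal : Cfsg.IsKBalanced p k G) (A : Subgroup G) (hA : Cfsg.IsElementaryAbelian p A) (hAk : p ^ (k + 2) ≤ Nat.card ↥A) (hsolv : ∀ a ∈ A, a ≠ 1 → Group.IsSolvable ↥(Cfsg.centralizerPPrimeCore p a)) : Cfsg.IsSignalizerFunctor p A (fun a => ⨆ D : {D : Subgroup G // D ≤ A ∧ Nat.card ↥D = p ^ k}, Cfsg.signalizerDelta p (D : Subgroup G) ⊓ Subgroup.centralizer {a}) := by
  classical
  have hp : p.Prime := Fact.out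
  refine ⟨?_, ?_, ?_, ?_⟩
  · intro a _ _
    exact iSup_le fun D => inf_le_right
  · intro a ha ha1 hd
    have hle : (⨆ D : {D : Subgroup G // D ≤ A ∧ Nat.card ↥D = p ^ k}, Cfsg.signalizerDelta p (D : Subgroup G) ⊓ Subgroup.centralizer {a}) ≤ centralizerPPrimeCore p a := by
      apply iSup_le
      rintro ⟨D, hD, hDc⟩
      refine hbal D (ea_of_le hA hD) hDc a (orderOf_of_mem hA ha ha1) fun d hd => comm_of_mem hA (hD hd) ha
    exact not_dvd_card_core (p := p) a (hd.trans (Subgroup.card_dvd_of_le hle))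
  · intro a ha _ b hb x hx
    have hle : (⨆ D : {D : Subgroup G // D ≤ A ∧ Nat.card ↥D = p ^ k}, Cfsg.signalizerDelta p (D : Subgroup G) ⊓ Subgroup.centralizer {a}) ≤
        (⨆ D : {D : Subgroup G // D ≤ A ∧ Nat.card ↥D = p ^ k}, Cfsg.signalizerDelta p (D : Subgroup G) ⊓ Subgroup.centralizer {a}).comap (MulAut.conj b).toMonoidHom := by
      apply iSup_le
      rintro ⟨D, hD, hDc⟩ y ⟨hy, hyc⟩
      refine le_iSup (fun D : {D : Subgroup G // D ≤ A ∧ Nat.card ↥D = p ^ k} => Cfsg.signalizerDelta p (D : Subgroup G) ⊓ Subgroup.centralizer {a}) ⟨D, hD, hDc⟩ ?_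
      refine ⟨conj_mem_delta hA hD hb hy, mem_centralizer_iff.mpr ?_⟩
      intro g hg
      rw [Set.mem_singleton_iff] at hg
      rw [hg]
      have h1 : a * y = y * a := mem_centralizer_iff.mp hyc _ (Set.mem_singleton _)
      have h2 : a * b = b * a := comm_of_mem hA ha hb
      have h3 : b⁻¹ * a = a * b⁻¹ := by
        calc b⁻¹ * a = b⁻¹ * (a * b) * b⁻¹ := by group
          _ = b⁻¹ * (b * a) * b⁻¹ := by rw [h2]
          _ = a * b⁻¹ := by group
      calc a * (b * y * b⁻¹) = (a * b) * y * b⁻¹ := by group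
        _ = b * (a * y) * b⁻¹ := by rw [h2]; group
        _ = b * (y * a) * b⁻¹ := by rw [h1]
        _ = b * y * (a * b⁻¹) := by group
        _ = b * y * (b⁻¹ * a) := by rw [h3]
        _ = b * y * b⁻¹ * a := by group
    exact hle hx
  · rintro a ha ha1 b hb hb1 x ⟨hx, hxb⟩
    have h1 : (⨆ D : {D : Subgroup G // D ≤ A ∧ Nat.card ↥D = p ^ k}, Cfsg.signalizerDelta p (D : Subgroup G) ⊓ Subgroup.centralizer {a}) ≤ bigTheta p k A (zpowers a) := by
      apply iSup_le
      rintro ⟨D, hD, hDc⟩ y ⟨hy, hyc⟩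
      have hFA : D ⊔ zpowers a ≤ A := sup_le hD ((zpowers_le).mpr ha)
      refine delta_le_bigTheta hFA le_sup_right (hDc.ge.trans (Subgroup.card_le_of_le le_sup_left)) ?_
      refine delta_inf_le_delta hbal hA hD hFA le_sup_left hDc.ge hy ?_
      intro f hf
      have hle : D ⊔ zpowers a ≤ centralizer ({y} : Set G) := by
        apply sup_le
        · intro d hd
          rw [mem_centralizer_iff]
          rintro _ rfl
          exact centralizes_of_mem_delta hy hd
        · rw [zpowers_le, mem_centralizer_iff]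
          rintro _ rfl
          exact (mem_centralizer_iff.mp hyc a (Set.mem_singleton a)).symm
      exact mem_centralizer_iff.mp (hle hf) y (Set.mem_singleton y)
    have h2 := key hbal hA hAk hk hsolv (zpowers a) ((zpowers_le).mpr ha)
      (by rw [Ne, zpowers_eq_bot]; exact ha1) b hb x (h1 hx)
      (mem_centralizer_iff.mp hxb b (Set.mem_singleton b)).symm
    have h3 := bigTheta_anti (le_sup_right : zpowers b ≤ zpowers a ⊔ zpowers b) h2
    revert h3
    apply iSup_le (f := fun E : {E : Subgroup G // E ≤ A ∧ zpowers b ≤ E ∧ p ^ k ≤ Nat.card E} => signalizerDelta p (E : Subgroup G))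
    rintro ⟨E, hE, hbE, hEk⟩ y hy
    obtain ⟨D, hDE, -, hDc⟩ := exists_subgroup_card (ea_of_le hA hE) hEk
    refine le_iSup (fun D : {D : Subgroup G // D ≤ A ∧ Nat.card ↥D = p ^ k} => Cfsg.signalizerDelta p (D : Subgroup G) ⊓ Subgroup.centralizer {b}) ⟨D, hDE.trans hE, hDc⟩ ?_
    refine ⟨delta_anti hDE hy, mem_centralizer_iff.mpr ?_⟩
    intro g hg
    rw [Set.mem_singleton_iff] at hg
    rw [hg]
    exact (centralizes_of_mem_delta hy (hbE (mem_zpowers b))).symm

end Cfsg.Agent.S1299
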