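import Cfsg.Statements.S1302
import Cfsg.Agent.Lib.Signal.Baer
import Cfsg.Agent.Lib.Core.Constrained
import Cfsg.Agent.Lib.Coprime.Quotient
import Cfsg.Agent.Lib.Core.Residual

set_option autoImplicit false
open Cfsg

namespace Cfsg.Agent.S1302

open Subgroup Cfsg Cfsg.Agent.Lib Cfsg.Agent.Lib.Core.Basic


/-- Let X be a finite p-constrained group, p an odd prime, and A an abelian p-subgroup of X containing every element of order p of C_X(A). Then every subgroup of X of order prime to p that is normalized by A lies in O_{p'}(X). -/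
theorem result {X : Type*} [Group X] [Finite X] (p : ℕ) [Fact p.Prime] (hp : p ≠ 2) (hX : Cfsg.IsPConstrained p X) (A : Subgroup X) (hA : IsMulCommutative ↥A) (hAp : IsPGroup p ↥A) (hΩ : ∀ x ∈ Subgroup.centralizer (A : Set X), orderOf x = p → x ∈ A) (Q : Subgroup X) (hQ : ¬ p ∣ Nat.card ↥Q) (hAQ : A ≤ Subgroup.normalizer (Q : Set X)) : Q ≤ Cfsg.pPrimeCore p X := by
  have hpp : p.Prime := Fact.out
  set N := pPrimeCore p X with hN
  haveI hNn : N.Normal := pPrimeCore_normal p X
  have hNc : (Nat.card N).Coprime p := pPrimeCore_coprime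
  have hChar := Core.Constrained.isPConstrained_iff.mp hX
  set π : X →* X ⧸ N := QuotientGroup.mk' N with hπ
  set Rb := pCore p (X ⧸ N) with hRbdef
  set Qb := Q.map π with hQbdef
  set Ab := A.map π with hAbdef
  have hQb : ¬ p ∣ Nat.card Qb := fun h => hQ (h.trans (Subgroup.card_map_dvd Q π))
  have hAb : IsPGroup p Ab := hAp.map π
  have hAQb : Ab ≤ normalizer (Qb : Set (X ⧸ N)) :=
    (Subgroup.map_mono hAQ).trans (Subgroup.le_normalizer_map π)
  have hRb : IsPGroup p Rb := pCore_isPGroup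
  haveI hRbn : Rb.Normal := pCore_normal p _
  have hRbQ : Qb ≤ normalizer (Rb : Set (X ⧸ N)) := by
    intro x _
    rw [mem_normalizer_iff]
    intro y
    exact ⟨fun h => hRbn.conj_mem _ h x, fun h => by simpa [mul_assoc] using hRbn.conj_mem _ h x⁻¹⟩
  have hRbA : Ab ≤ normalizer (Rb : Set (X ⧸ N)) := by
    intro x _
    rw [mem_normalizer_iff]
    intro y
    exact ⟨fun h => hRbn.conj_mem _ h x, fun h => by simpa [mul_assoc] using hRbn.conj_mem _ h x⁻¹⟩
  have hinf : Qb ⊓ Rb = ⊥ := by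
    apply Subgroup.inf_eq_bot_of_coprime
    obtain ⟨k, hk⟩ := IsPGroup.iff_card.mp hRb
    rw [hk]
    exact Nat.Coprime.pow_right _ ((Nat.Prime.coprime_iff_not_dvd hpp).mpr hQb).symm
  have hkey : Rb ≤ centralizer (Qb : Set (X ⧸ N)) := by
    apply Signal.Baer.lemma_N hp Qb Ab hQb hAb hAQb Rb hRb hRbQ hRbA
    intro w hwR hwC hwo
    rw [Coprime.Quotient.centralizer_map_mk_eq N hNc A hAp] at hwC
    obtain ⟨y, hy, rfl⟩ := hwC
    obtain ⟨a, b, hab, -, ⟨k, hk⟩, hb, ha', hb'⟩ :=
      Core.Residual.exists_pPart_pPrimePart p y (isOfFinOrder_of_finite y)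
    have hzc : ∀ c ∈ zpowers y, c ∈ centralizer (A : Set X) := by
      intro c hc
      obtain ⟨i, rfl⟩ := Subgroup.mem_zpowers_iff.mp hc
      exact Subgroup.zpow_mem _ hy _
    have hπb : π b = 1 := by
      obtain ⟨i, rfl⟩ := Subgroup.mem_zpowers_iff.mp hb'
      have h1 : (π (y ^ i)) ^ p = 1 := by
        rw [map_zpow, ← zpow_natCast, zpow_comm, zpow_natCast]
        have : (π y) ^ p = 1 := hwo ▸ pow_orderOf_eq_one _
        rw [this, one_zpow]
      have h2 : (π (y ^ i)) ^ orderOf (y ^ i) = 1 := by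
        rw [← map_pow, pow_orderOf_eq_one, map_one]
      rw [← orderOf_eq_one_iff]
      exact Nat.eq_one_of_dvd_coprimes hb.symm (orderOf_dvd_of_pow_eq_one h1)
        (orderOf_dvd_of_pow_eq_one h2)
    have hπa : π a = π y := by
      rw [← hab, map_mul, hπb, mul_one]
    have haC := hzc a ha'
    have ha1 : a ^ p = 1 := by
      have h1 : a ^ p ∈ N := by
        rw [← QuotientGroup.ker_mk' N, MonoidHom.mem_ker, map_pow, hπa, ← hwo]
        exact pow_orderOf_eq_one _
      have h2 : orderOf (a ^ p) ∣ Nat.card N := by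
        have := Subgroup.orderOf_dvd_natCard N h1
        exact this
      have h3 : orderOf (a ^ p) ∣ p ^ k := by
        apply orderOf_dvd_of_pow_eq_one
        rw [← pow_mul, mul_comm, pow_mul, hk, one_pow]
      rw [← orderOf_eq_one_iff]
      exact Nat.eq_one_of_dvd_coprimes (Nat.Coprime.pow_right _ hNc) h2 h3
    have hao : orderOf a = p := by
      apply orderOf_eq_prime ha1
      rintro rfl
      rw [map_one] at hπa
      rw [← hπa, orderOf_one] at hwo
      exact hpp.one_lt.ne hwo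
    have haA : a ∈ A := hΩ a haC hao
    have hwAb : π y ∈ Ab := ⟨a, haA, hπa⟩
    rw [Subgroup.mem_centralizer_iff]
    intro q hq
    have h1 : q * π y * q⁻¹ * (π y)⁻¹ ∈ Qb ⊓ Rb := by
      constructor
      · have h2 : π y * q⁻¹ * (π y)⁻¹ ∈ Qb :=
          (mem_normalizer_iff.mp (hAQb hwAb) _).mp (Qb.inv_mem hq)
        have : q * π y * q⁻¹ * (π y)⁻¹ = q * (π y * q⁻¹ * (π y)⁻¹) := by group
        rw [this]
        exact Qb.mul_mem hq h2
      · have h2 : q * π y * q⁻¹ ∈ Rb := hRbn.conj_mem _ hwR q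
        exact Rb.mul_mem h2 (Rb.inv_mem hwR)
    rw [hinf, Subgroup.mem_bot] at h1
    have h2 := mul_inv_eq_one.mp h1
    exact mul_inv_eq_iff_eq_mul.mp h2
  have hQb2 : Qb ≤ Rb := by
    refine le_trans ?_ hChar
    rw [Subgroup.le_centralizer_iff]
    exact hkey
  have hQb3 : Qb = ⊥ := by
    rw [← le_bot_iff, ← hinf]
    exact le_inf le_rfl hQb2
  have := (Subgroup.map_eq_bot_iff Q).mp hQb3
  rwa [QuotientGroup.ker_mk'] at this

end Cfsg.Agent.S1302
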