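import Cfsg.Statements.S1312
import Cfsg.Agent.Lib.Components.Bender

set_option autoImplicit false
open Cfsg

namespace Cfsg.Agent.S1312

/-- Let G be a non-abelian finite simple group and M ≠ N maximal subgroups of G with F*(M) ≤ N and F*(N) ≤ M. Then there is a prime p such that F*(M) and F*(N) are both p-groups. -/
theorem result {G : Type*} [Group G] [Finite G] [IsSimpleGroup G] (hna : ¬ IsMulCommutative G) (M N : Subgroup G) (hM : IsCoatom M) (hN : IsCoatom N) (hMN : M ≠ N) (h1 : (Cfsg.generalizedFittingSubgroup ↥M).map M.subtype ≤ N) (h2 : (Cfsg.generalizedFittingSubgroup ↥N).map N.subtype ≤ M) : ∃ p : ℕ, p.Prime ∧ IsPGroup p ↥(Cfsg.generalizedFittingSubgroup ↥M) ∧ IsPGroup p ↥(Cfsg.generalizedFittingSubgroup ↥N) := by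
  open Cfsg.Agent.Lib.Components.Bender Cfsg.Agent.Lib.Components.Rel Cfsg.Agent.Lib.CharP.Basic in
  have hP : ∀ A : Subgroup G, A ≠ ⊥ → A ≤ M ⊓ N →
      (M ≤ Subgroup.normalizer (A : Set G) → N ⊓ Subgroup.normalizer (A : Set G) = M ⊓ N) ∧
      (N ≤ Subgroup.normalizer (A : Set G) → M ⊓ Subgroup.normalizer (A : Set G) = M ⊓ N) := by
    intro A hA hle
    have hnt : Subgroup.normalizer (A : Set G) ≠ ⊤ := by
      intro h
      have hn : A.Normal := Subgroup.normalizer_eq_top_iff.mp h
      rcases hn.eq_bot_or_eq_top with h1 | h1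
      · exact hA h1
      · apply hM.1
        rw [eq_top_iff, ← h1]
        exact hle.trans inf_le_left
    refine ⟨fun h => ?_, fun h => ?_⟩
    · have : Subgroup.normalizer (A : Set G) = M := by
        by_contra hne
        exact hnt (hM.2 _ (lt_of_le_of_ne h (Ne.symm hne)))
      rw [this, inf_comm]
    · have : Subgroup.normalizer (A : Set G) = N := by
        by_contra hne
        exact hnt (hN.2 _ (lt_of_le_of_ne h (Ne.symm hne)))
      rw [this]
  obtain ⟨p, hp, e1, e2⟩ := bender hMN hP h1 h2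
  have : Fact p.Prime := ⟨hp⟩
  have key : ∀ X : Subgroup G, FsIn X = OpIn p X → IsPGroup p ↥(Cfsg.generalizedFittingSubgroup ↥X) := by
    intro X h
    have h3 : IsPGroup p (FsIn X) := h ▸ OpIn_isPGroup p X
    exact h3.of_equiv ((Cfsg.generalizedFittingSubgroup ↥X).equivMapOfInjective X.subtype X.subtype_injective).symm
  exact ⟨p, hp, key M e1, key N e2⟩

end Cfsg.Agent.S1312
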