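import Cfsg.Statements.S1313
import Cfsg.Agent.Lib.Components.Layer

set_option autoImplicit false
open Cfsg

namespace Cfsg.Agent.S1313

/-- Conjugation action of `G` on the non-identity elements of a normal subgroup. -/
def conjPerm {G : Type*} [Group G] (N : Subgroup G) [N.Normal] :
    G →* Equiv.Perm {x : N // x ≠ 1} where
  toFun g := Equiv.subtypeEquiv (MulAut.conjNormal g).toEquiv (by
    intro a
    have : (MulAut.conjNormal g).toEquiv a = MulAut.conjNormal g a := rfl
    rw [this, ne_eq, ne_eq, EmbeddingLike.map_eq_one_iff])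
  map_one' := by
    ext x
    simp
  map_mul' g h := by
    ext x
    simp [mul_assoc]

theorem mem_ker_conjPerm {G : Type*} [Group G] (N : Subgroup G) [N.Normal] {g : G}
    (hg : g ∈ (conjPerm N).ker) : g ∈ Subgroup.centralizer (N : Set G) := by
  rw [Subgroup.mem_centralizer_iff]
  intro x hx
  by_cases hx1 : x = 1
  · simp [hx1]
  · have hne : (⟨x, hx⟩ : N) ≠ 1 := by
      intro h
      exact hx1 (congrArg Subtype.val h)
    have h1 := congrArg (fun φ => ((φ ⟨⟨x, hx⟩, hne⟩ : {x : N // x ≠ 1}) : N)) (MonoidHom.mem_ker.mp hg)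
    have h2 : g * x * g⁻¹ = x := by
      have h3 : MulAut.conjNormal g (⟨x, hx⟩ : N) = ⟨x, hx⟩ := h1
      have h4 := congrArg Subtype.val h3
      simpa using h4
    rw [mul_inv_eq_iff_eq_mul] at h2
    exact h2.symm

/-- For a finite group H, |H| ≤ |F*(H)|!. -/
theorem result {H : Type*} [Group H] [Finite H] : Nat.card H ≤ Nat.factorial (Nat.card ↥(Cfsg.generalizedFittingSubgroup H)) := by
  open Cfsg.Agent.Lib.Components.GenFitting Subgroup in
  classical
  set N := Cfsg.generalizedFittingSubgroup H with hN
  have hker : (conjPerm N).ker ≤ N :=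
    le_trans (fun g hg => mem_ker_conjPerm N hg) centralizer_generalizedFitting_le
  have h1 : Nat.card (conjPerm N).ker ≤ Nat.card N :=
    Subgroup.card_le_of_le hker
  have h2 : Nat.card (conjPerm N).range ≤ (Nat.card N - 1).factorial := by
    calc Nat.card (conjPerm N).range ≤ Nat.card (Equiv.Perm {x : N // x ≠ 1}) :=
          Subgroup.card_le_card_group _
      _ = (Nat.card {x : N // x ≠ 1}).factorial := Nat.card_perm
      _ = (Nat.card N - 1).factorial := by
          congr 1
          have : Fintype N := Fintype.ofFinite N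
          rw [Nat.card_eq_fintype_card, Nat.card_eq_fintype_card]
          simp [Fintype.card_subtype_compl]
  have h3 : Nat.card H = Nat.card (conjPerm N).ker * Nat.card (conjPerm N).range := by
    rw [← Subgroup.index_ker, Subgroup.card_mul_index]
  have hpos : 0 < Nat.card N := Nat.card_pos
  calc Nat.card H = Nat.card (conjPerm N).ker * Nat.card (conjPerm N).range := h3
    _ ≤ Nat.card N * (Nat.card N - 1).factorial := Nat.mul_le_mul h1 h2
    _ = (Nat.card N).factorial := Nat.mul_factorial_pred (Nat.pos_iff_ne_zero.mp hpos)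

end Cfsg.Agent.S1313
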