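import Cfsg.Statements.S1349
import Cfsg.Agent.Lib.Dihedral2.Basic
import Cfsg.Agent.Lib.Involutions.Dihedral
import Cfsg.Agent.Lib.CoprimeGen.Basic
-- import your own Cfsg.Agent.* helpers here

set_option autoImplicit false
open Cfsg

namespace Cfsg.Agent.S1349

open Subgroup
open Cfsg.Agent.Lib.Coprime.Action Cfsg.Agent.Lib.Dihedral2.Basic

variable {G : Type*} [Group G]

/-- the elements of an abelian subgroup inverted by `a`. -/
def invertedIn (a : G) (T : Subgroup G) (hTc : ∀ x ∈ T, ∀ y ∈ T, x * y = y * x) : Subgroup G where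
  carrier := {w | w ∈ T ∧ a * w * a⁻¹ = w⁻¹}
  one_mem' := ⟨T.one_mem, by simp⟩
  mul_mem' := by
    rintro x y ⟨hx, hx'⟩ ⟨hy, hy'⟩
    refine ⟨T.mul_mem hx hy, ?_⟩
    have e : a * (x * y) * a⁻¹ = (a * x * a⁻¹) * (a * y * a⁻¹) := by group
    rw [e, hx', hy', mul_inv_rev]
    exact hTc _ (T.inv_mem hx) _ (T.inv_mem hy)
  inv_mem' := by
    rintro x ⟨hx, hx'⟩
    refine ⟨T.inv_mem hx, ?_⟩
    have e : a * x⁻¹ * a⁻¹ = (a * x * a⁻¹)⁻¹ := by group
    rw [e, hx']

theorem exists_inverted_eig [Finite G] {A T : Subgroup G} (hA : Cfsg.IsElementaryAbelian 2 A)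
    (hTc : ∀ x ∈ T, ∀ y ∈ T, x * y = y * x) (hTodd : Odd (Nat.card T))
    (hAT : A ≤ normalizer (T : Set G)) {a : G} (ha : a ∈ A) (hat : a ∉ centralizer (T : Set G)) :
    ∃ x ∈ T, x ≠ 1 ∧ a * x * a⁻¹ = x⁻¹ ∧ ∀ c ∈ A, Eig c x := by
  classical
  have hAcomm : ∀ x ∈ A, ∀ y ∈ A, x * y = y * x := by
    intro x hx y hy
    exact congrArg Subtype.val (hA.1.is_comm.comm ⟨x, hx⟩ ⟨y, hy⟩)
  have ha2 : a * a = 1 := by
    have := hA.2 a ha
    rwa [pow_two] at this
  have hai : a⁻¹ = a := inv_eq_of_mul_eq_one_left ha2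
  set W := invertedIn a T hTc with hW
  have hWT : W ≤ T := fun x hx => hx.1
  have hWc : ∀ x ∈ W, ∀ y ∈ W, x * y = y * x := fun x hx y hy => hTc x hx.1 y hy.1
  have hWodd : Odd (Nat.card W) := Odd.of_dvd_nat hTodd (card_dvd_of_le hWT)
  have hW1 : W ≠ ⊥ := by
    intro hbot
    apply hat
    refine mem_centralizer_iff.mpr ?_
    intro t ht
    have hat' : a * t * a⁻¹ ∈ T := conj_mem_of_le_normalizer hAT ha ht
    have hava : a * (a * t * a⁻¹) * a⁻¹ = t := by
      calc a * (a * t * a⁻¹) * a⁻¹ = (a * a) * t * (a * a)⁻¹ := by group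
        _ = t := by rw [ha2]; simp
    have hz : t⁻¹ * (a * t * a⁻¹) ∈ W := by
      refine ⟨T.mul_mem (T.inv_mem ht) hat', ?_⟩
      have e : a * (t⁻¹ * (a * t * a⁻¹)) * a⁻¹ =
          (a * t * a⁻¹)⁻¹ * (a * (a * t * a⁻¹) * a⁻¹) := by group
      rw [e, hava]
      group
    rw [hbot, mem_bot] at hz
    have h1 : a * t * a⁻¹ = t := by
      have := congrArg (fun z => t * z) hz
      simpa using this
    calc t * a = (a * t * a⁻¹) * a := by rw [h1]
      _ = a * t := by group
  have hAW : A ≤ normalizer (W : Set G) := by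
    rw [le_normalizer_iff]
    rintro c hc w ⟨hw, hw'⟩
    refine ⟨conj_mem_of_le_normalizer hAT hc hw, ?_⟩
    have hac : a * c = c * a := hAcomm a ha c hc
    calc a * (c * w * c⁻¹) * a⁻¹ = (a * c) * w * (a * c)⁻¹ := by group
      _ = (c * a) * w * (c * a)⁻¹ := by rw [hac]
      _ = c * (a * w * a⁻¹) * c⁻¹ := by group
      _ = c * w⁻¹ * c⁻¹ := by rw [hw']
      _ = (c * w * c⁻¹)⁻¹ := by group
  obtain ⟨x, hx, hx1, hxeig⟩ := exists_eig hA hWc hWodd hW1 hAW
  exact ⟨x, hx.1, hx1, hx.2, hxeig⟩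

theorem exists_dual_family [Finite G] {A T : Subgroup G} (hA : Cfsg.IsElementaryAbelian 2 A)
    (hTc : ∀ x ∈ T, ∀ y ∈ T, x * y = y * x) (hTodd : Odd (Nat.card T))
    (hAT : A ≤ normalizer (T : Set G)) (hfaith : ∀ a ∈ A, a ≠ 1 → a ∉ centralizer (T : Set G)) :
    ∀ k : ℕ, ∀ B : Subgroup G, B ≤ A → Nat.card B = 2 ^ k →
    ∃ (a x : Fin k → G), (∀ i, a i ∈ B) ∧ (∀ i, x i ∈ T ∧ x i ≠ 1 ∧ ∀ c ∈ A, Eig c (x i)) ∧
      (∀ i, a i * x i * (a i)⁻¹ = (x i)⁻¹) ∧ (∀ i j, i ≠ j → a j * x i * (a j)⁻¹ = x i) ∧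
      (⨆ i, zpowers (a i)) = B := by
  classical
  have hAcomm : ∀ x ∈ A, ∀ y ∈ A, x * y = y * x := by
    intro x hx y hy
    exact congrArg Subtype.val (hA.1.is_comm.comm ⟨x, hx⟩ ⟨y, hy⟩)
  have hAa2 : ∀ a ∈ A, a * a = 1 := by
    intro a ha
    have := hA.2 a ha
    rwa [pow_two] at this
  intro k
  induction k with
  | zero =>
    intro B _ hB
    have hB1 : B = ⊥ := by
      rw [pow_zero] at hB
      exact Subgroup.eq_bot_of_card_eq _ hB
    refine ⟨Fin.elim0, Fin.elim0, fun i => i.elim0, fun i => i.elim0, fun i => i.elim0,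
      fun i => i.elim0, ?_⟩
    rw [hB1]
    exact iSup_of_empty _
  | succ k ih =>
    intro B hBA hB
    -- pick c ≠ 1 in B
    have hB_ne : B ≠ ⊥ := by
      intro h
      rw [h, Subgroup.card_bot] at hB
      have : 1 < 2 ^ (k + 1) := Nat.one_lt_two_pow (by omega)
      omega
    obtain ⟨⟨c, hcB⟩, hc1⟩ := Subgroup.ne_bot_iff_exists_ne_one.mp hB_ne
    have hc1' : c ≠ 1 := fun h => hc1 (Subtype.ext h)
    obtain ⟨x₀, hx₀T, hx₀1, hcx₀, hx₀eig⟩ :=
      exists_inverted_eig hA hTc hTodd hAT (hBA hcB) (hfaith c (hBA hcB) hc1')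
    have hx₀odd : Odd (orderOf x₀) := odd_orderOf_of_mem hTodd hx₀T
    -- the kernel
    set B' : Subgroup G := B ⊓ centralizer ({x₀} : Set G) with hB'
    have hmemB' : ∀ b, b ∈ B → b * x₀ * b⁻¹ = x₀ → b ∈ B' := by
      intro b hb hbx
      refine Subgroup.mem_inf.mpr ⟨hb, ?_⟩
      refine mem_centralizer_iff.mpr ?_
      intro y hy
      rw [Set.mem_singleton_iff] at hy
      subst hy
      calc y * b = (b * y * b⁻¹) * b := by rw [hbx]
        _ = b * y := by group
    have hB'conj : ∀ b, b ∈ B' → b * x₀ * b⁻¹ = x₀ := by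
      intro b hb
      have := mem_centralizer_iff.mp hb.2 x₀ (Set.mem_singleton x₀)
      calc b * x₀ * b⁻¹ = x₀ * b * b⁻¹ := by rw [← this]
        _ = x₀ := by group
    have hcB' : c ∉ B' := by
      intro h
      have h1 := hB'conj c h
      rw [hcx₀] at h1
      -- x₀⁻¹ = x₀ impossible
      have h2 : x₀ ^ 2 = 1 := by
        rw [pow_two]
        nth_rewrite 1 [← h1]
        simp
      exact hx₀1 (eq_one_of_sq hx₀odd h2)
    have hall : ∀ b ∈ B, b ∈ B' ⊔ zpowers c := by
      intro b hb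
      rcases hx₀eig b (hBA hb) with h | h
      · exact mem_sup_left (hmemB' b hb h)
      · have h1 : (b * c) * x₀ * (b * c)⁻¹ = x₀ := by
          have e : (b * c) * x₀ * (b * c)⁻¹ = b * (c * x₀ * c⁻¹) * b⁻¹ := by group
          rw [e, hcx₀]
          have e2 : b * x₀⁻¹ * b⁻¹ = (b * x₀ * b⁻¹)⁻¹ := by group
          rw [e2, h, inv_inv]
        have h2 : b * c ∈ B' := hmemB' _ (B.mul_mem hb hcB) h1
        have e : b = (b * c) * c⁻¹ := by group
        rw [e]
        exact mul_mem (mem_sup_left h2) (mem_sup_right (inv_mem (mem_zpowers c)))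
    have hidx : B'.relIndex B = 2 := by
      have h1 : B'.relIndex B ≤ 2 :=
        Cfsg.Agent.Lib.CoprimeGen.Basic.relIndex_le_of_forall_mem_sup (by norm_num)
          (by
            constructor
            constructor
            rintro ⟨x, hx⟩ ⟨y, hy⟩
            apply Subtype.ext
            exact hAcomm x (hBA hx) y (hBA hy))
          inf_le_left hcB (hA.2 c (hBA hcB)) hall
      have h2 : B'.relIndex B ≠ 1 := by
        intro h
        exact hcB' (relIndex_eq_one.mp h hcB)
      have h3 : B'.relIndex B ≠ 0 := by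
        have := Nat.card_pos (α := ↥B)
        intro h
        have hd := relIndex_dvd_card B' B
        rw [h, zero_dvd_iff] at hd
        omega
      omega
    have hB'card : Nat.card B' = 2 ^ k := by
      have e := card_eq_card_mul_relIndex (show B' ≤ B from inf_le_left)
      rw [hidx, hB, pow_succ] at e
      omega
    obtain ⟨a', x', ha'B, hx', hinv', hdual', hgen'⟩ := ih B' (inf_le_left.trans hBA) hB'card
    -- adjust c
    have hadj : ∀ S : Finset (Fin k), ∃ a₀ ∈ B, a₀ * x₀ * a₀⁻¹ = x₀⁻¹ ∧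
        ∀ i ∈ S, a₀ * x' i * a₀⁻¹ = x' i := by
      intro S
      induction S using Finset.induction_on with
      | empty => exact ⟨c, hcB, hcx₀, by simp⟩
      | insert i S hiS ih2 =>
        obtain ⟨a₀, ha₀B, ha₀x, ha₀S⟩ := ih2
        rcases (hx' i).2.2 a₀ (hBA ha₀B) with h | h
        · refine ⟨a₀, ha₀B, ha₀x, ?_⟩
          intro j hj
          rcases Finset.mem_insert.mp hj with rfl | hj
          · exact h
          · exact ha₀S j hj
        · have hai : a' i ∈ B' := ha'B i
          refine ⟨a₀ * a' i, B.mul_mem ha₀B hai.1, ?_, ?_⟩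
          · have e : (a₀ * a' i) * x₀ * (a₀ * a' i)⁻¹ = a₀ * (a' i * x₀ * (a' i)⁻¹) * a₀⁻¹ := by group
            rw [e, hB'conj _ hai, ha₀x]
          · intro j hj
            have e : (a₀ * a' i) * x' j * (a₀ * a' i)⁻¹ = a₀ * (a' i * x' j * (a' i)⁻¹) * a₀⁻¹ := by group
            rw [e]
            rcases Finset.mem_insert.mp hj with rfl | hj
            · rw [hinv']
              have e2 : a₀ * (x' j)⁻¹ * a₀⁻¹ = (a₀ * x' j * a₀⁻¹)⁻¹ := by group
              rw [e2, h, inv_inv]
            · have hji : j ≠ i := fun h => hiS (h ▸ hj)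
              rw [hdual' j i hji, ha₀S j hj]
    obtain ⟨a₀, ha₀B, ha₀x, ha₀all⟩ := hadj Finset.univ
    have ha₀all' : ∀ i, a₀ * x' i * a₀⁻¹ = x' i := fun i => ha₀all i (Finset.mem_univ i)
    refine ⟨Fin.cons a₀ a', Fin.cons x₀ x', ?_, ?_, ?_, ?_, ?_⟩
    · intro i
      refine Fin.cases ?_ (fun i => ?_) i
      · exact ha₀B
      · exact (ha'B i).1
    · intro i
      refine Fin.cases ?_ (fun i => ?_) i
      · exact ⟨hx₀T, hx₀1, hx₀eig⟩
      · exact hx' i
    · intro i
      refine Fin.cases ?_ (fun i => ?_) i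
      · exact ha₀x
      · exact hinv' i
    · intro i j
      refine Fin.cases ?_ (fun i => ?_) i
      · refine Fin.cases ?_ (fun j => ?_) j
        · intro h; exact absurd rfl h
        · intro _
          exact hB'conj _ (ha'B j)
      · refine Fin.cases ?_ (fun j => ?_) j
        · intro _
          exact ha₀all' i
        · intro h
          exact hdual' i j (fun hij => h (by rw [hij]))
    · apply le_antisymm
      · apply iSup_le
        intro i
        rw [zpowers_le]
        refine Fin.cases ?_ (fun i => ?_) i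
        · exact ha₀B
        · exact (ha'B i).1
      · intro b hb
        set J := ⨆ i, zpowers ((Fin.cons a₀ a' : Fin (k + 1) → G) i) with hJ
        have hB'J : B' ≤ J := by
          rw [← hgen']
          apply iSup_le
          intro i
          have : zpowers (a' i) = zpowers ((Fin.cons a₀ a' : Fin (k + 1) → G) i.succ) := by simp
          rw [this]
          exact le_iSup (fun i => zpowers ((Fin.cons a₀ a' : Fin (k + 1) → G) i)) i.succ
        have ha₀J : a₀ ∈ J := by
          have : zpowers a₀ = zpowers ((Fin.cons a₀ a' : Fin (k + 1) → G) 0) := by simp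
          apply (le_iSup (fun i => zpowers ((Fin.cons a₀ a' : Fin (k + 1) → G) i)) 0)
          rw [← this]
          exact mem_zpowers a₀
        rcases hx₀eig b (hBA hb) with h | h
        · exact hB'J (hmemB' b hb h)
        · have h1 : (b * a₀) * x₀ * (b * a₀)⁻¹ = x₀ := by
            have e : (b * a₀) * x₀ * (b * a₀)⁻¹ = b * (a₀ * x₀ * a₀⁻¹) * b⁻¹ := by group
            rw [e, ha₀x]
            have e2 : b * x₀⁻¹ * b⁻¹ = (b * x₀ * b⁻¹)⁻¹ := by group
            rw [e2, h, inv_inv]
          have h2 : b * a₀ ∈ B' := hmemB' _ (B.mul_mem hb ha₀B) h1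
          have e : b = (b * a₀) * a₀⁻¹ := by group
          rw [e]
          exact J.mul_mem (hB'J h2) (J.inv_mem ha₀J)

/-- Let G be finite, L ≤ G solvable of odd order, and A an elementary abelian 2-subgroup of order 2^d (d ≥ 1) normalizing L with C_A(L) = 1. Then there are subgroups A_1, …, A_d of A of order 2 generating A and subgroups L_1, …, L_d of L such that each A_i ⊔ L_i is dihedral of order 2 n_i with n_i odd and at least 3, and A_i ⊔ L_i commutes elementwise with A_j ⊔ L_j for i ≠ j. -/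
theorem result {G : Type*} [Group G] [Finite G] (L A : Subgroup G) (hLs : Group.IsSolvable ↥L) (hLodd : Odd (Nat.card ↥L)) (hA : Cfsg.IsElementaryAbelian 2 A) (d : ℕ) (hd : 1 ≤ d) (hAd : Nat.card ↥A = 2 ^ d) (hAL : A ≤ Subgroup.normalizer (L : Set G)) (hfaith : A ⊓ Subgroup.centralizer (L : Set G) = ⊥) : ∃ (Ai : Fin d → Subgroup G) (Li : Fin d → Subgroup G) (n : Fin d → ℕ), (∀ i, Ai i ≤ A ∧ Nat.card ↥(Ai i) = 2 ∧ Li i ≤ L ∧ Odd (n i) ∧ 3 ≤ n i ∧ Nonempty (↥(Ai i ⊔ Li i) ≃* DihedralGroup (n i))) ∧ (⨆ i, Ai i) = A ∧ ∀ i j, i ≠ j → ∀ x ∈ Ai i ⊔ Li i, ∀ y ∈ Ai j ⊔ Li j, x * y = y * x := by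
  classical
  haveI := hLs
  -- the Fitting subgroup of L, inside G
  set F : Subgroup G := (Cfsg.fittingSubgroup ↥L).map L.subtype with hF
  have hFL : F ≤ L := map_subtype_le _
  have hFnil : Group.IsNilpotent ↥F := by
    haveI : Group.IsNilpotent ↥(Cfsg.fittingSubgroup ↥L) :=
      Cfsg.Agent.Lib.Core.Basic.fittingSubgroup_isNilpotent
    exact Group.nilpotent_of_mulEquiv
      ((Cfsg.fittingSubgroup ↥L).equivMapOfInjective L.subtype L.subtype_injective)
  have hFodd : Odd (Nat.card F) := Odd.of_dvd_nat hLodd (card_dvd_of_le hFL)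
  have hLF : L ≤ normalizer (F : Set G) := by
    rw [le_normalizer_iff]
    rintro l hl _ ⟨x, hx, rfl⟩
    have hnorm : (Cfsg.fittingSubgroup ↥L).Normal :=
      Cfsg.Agent.Lib.Core.Basic.fittingSubgroup_normal
    exact ⟨⟨l, hl⟩ * x * (⟨l, hl⟩ : ↥L)⁻¹, hnorm.conj_mem x hx _, rfl⟩
  have hAF : A ≤ normalizer (F : Set G) := by
    rw [le_normalizer_iff]
    rintro a ha _ ⟨x, hx, rfl⟩
    have hchar : (Cfsg.fittingSubgroup ↥L).Characteristic :=
      Cfsg.Agent.Lib.Core.Basic.fittingSubgroup_characteristic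
    have hfix := hchar.fixed (L.normalizerMonoidHom ⟨a, hAL ha⟩)
    have hx' : x ∈ (Cfsg.fittingSubgroup ↥L).comap
        (L.normalizerMonoidHom ⟨a, hAL ha⟩).toMonoidHom := by
      rw [hfix]; exact hx
    exact ⟨_, hx', rfl⟩
  have hCLF : L ⊓ centralizer (F : Set G) ≤ F := by
    rintro l ⟨hl, hlc⟩
    have hlayer : Cfsg.layer ↥L = ⊥ := by
      rw [eq_bot_iff]
      apply sSup_le
      intro K hK
      exfalso
      exact Cfsg.Agent.Lib.Components.Basic.quasisimple_not_solvable hK.2 (by infer_instance)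
    have hcen := Cfsg.Agent.Lib.Components.GenFitting.centralizer_generalizedFitting_le (G := ↥L)
    rw [Cfsg.generalizedFittingSubgroup, hlayer, bot_sup_eq] at hcen
    have : (⟨l, hl⟩ : ↥L) ∈ centralizer (Cfsg.fittingSubgroup ↥L : Set ↥L) := by
      refine mem_centralizer_iff.mpr ?_
      intro y hy
      apply Subtype.ext
      have h1 : (y : G) ∈ F := ⟨y, hy, rfl⟩
      exact mem_centralizer_iff.mp hlc _ h1
    exact ⟨_, hcen this, rfl⟩
  obtain ⟨T, hTF, hTc, hAT, hFT, hCFT⟩ := exists_selfCentralizing_abelian hA hFnil hFodd hAF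
  have hTodd : Odd (Nat.card T) := Odd.of_dvd_nat hFodd (card_dvd_of_le hTF)
  have hfaith' : ∀ a ∈ A, a ≠ 1 → a ∉ centralizer (T : Set G) := by
    intro a ha ha1 hat
    have ha2 : a * a = 1 := by
      have := hA.2 a ha
      rwa [pow_two] at this
    have h1 : a ∈ centralizer (F : Set G) :=
      mem_centralizer_of_mem_centralizer ha2 hFodd (hAF ha) hFT hTF hat hCFT
    have h2 : a ∈ centralizer (L : Set G) :=
      mem_centralizer_of_mem_centralizer ha2 hLodd (hAL ha) hLF hFL h1 hCLF
    have h3 : a ∈ A ⊓ centralizer (L : Set G) := ⟨ha, h2⟩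
    rw [hfaith, mem_bot] at h3
    exact ha1 h3
  obtain ⟨a, x, haA, hx, hinv, hdual, hgen⟩ := exists_dual_family hA hTc hTodd hAT hfaith' d A le_rfl hAd
  have hxL : ∀ i, x i ∈ L := fun i => hFL (hTF (hx i).1)
  have hxodd : ∀ i, Odd (orderOf (x i)) := fun i => odd_orderOf_of_mem hLodd (hxL i)
  have ha2 : ∀ i, a i ^ 2 = 1 := fun i => hA.2 _ (haA i)
  have hane : ∀ i, a i ≠ 1 := by
    intro i h
    have h1 := hinv i
    rw [h] at h1
    simp only [one_mul, inv_one, mul_one] at h1
    have h2 : x i ^ 2 = 1 := by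
      rw [pow_two]
      nth_rewrite 1 [h1]
      simp
    exact (hx i).2.1 (eq_one_of_sq (hxodd i) h2)
  have hao : ∀ i, orderOf (a i) = 2 := fun i => orderOf_eq_prime (ha2 i) (hane i)
  have hAcomm : ∀ u ∈ A, ∀ v ∈ A, u * v = v * u := by
    intro u hu v hv
    exact congrArg Subtype.val (hA.1.is_comm.comm ⟨u, hu⟩ ⟨v, hv⟩)
  refine ⟨fun i => zpowers (a i), fun i => zpowers (x i), fun i => orderOf (x i), ?_, hgen, ?_⟩
  · intro i
    refine ⟨by rw [zpowers_le]; exact haA i, ?_, by rw [zpowers_le]; exact hxL i, hxodd i, ?_, ?_⟩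
    · rw [Nat.card_zpowers, hao i]
    · -- order ≥ 3
      have h1 : orderOf (x i) ≠ 1 := fun h => (hx i).2.1 (orderOf_eq_one_iff.mp h)
      obtain ⟨k, hk⟩ := hxodd i
      show 3 ≤ orderOf (x i)
      omega
    · -- the dihedral group
      set y := a i * x i with hy
      have hy2 : y ^ 2 = 1 := by
        rw [pow_two, hy]
        have h := hinv i
        have ha3 : a i * a i = 1 := by rw [← pow_two]; exact ha2 i
        have hai : (a i)⁻¹ = a i := inv_eq_of_mul_eq_one_left ha3
        rw [hai] at h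
        calc a i * x i * (a i * x i) = (a i * x i * a i) * x i := by group
          _ = (x i)⁻¹ * x i := by rw [h]
          _ = 1 := by group
      have hyne : y ≠ 1 := by
        intro h
        have h1 : x i = (a i)⁻¹ := by
          rw [eq_inv_iff_mul_eq_one]
          have h2 : a i * x i = 1 := h
          have ha3 : a i * a i = 1 := by rw [← pow_two]; exact ha2 i
          have hai : (a i)⁻¹ = a i := inv_eq_of_mul_eq_one_left ha3
          calc x i * a i = (a i)⁻¹ * (a i * x i) * a i := by group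
            _ = 1 := by rw [h2, hai]; simpa using ha3
        have h3 : x i ^ 2 = 1 := by
          rw [h1]
          have : (a i)⁻¹ ^ 2 = ((a i) ^ 2)⁻¹ := by group
          rw [this, ha2 i, inv_one]
        exact (hx i).2.1 (eq_one_of_sq (hxodd i) h3)
      have hyo : orderOf y = 2 := orderOf_eq_prime hy2 hyne
      obtain ⟨e⟩ := Cfsg.Agent.Lib.Involutions.Dihedral.nonempty_closure_equiv (hao i) hyo
      have hprod : a i * y = x i := by
        rw [hy, ← mul_assoc, ← pow_two, ha2 i, one_mul]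
      rw [hprod] at e
      have hclosure : Subgroup.closure ({a i, y} : Set G) = zpowers (a i) ⊔ zpowers (x i) := by
        apply le_antisymm
        · rw [closure_le]
          rintro z (rfl | rfl)
          · exact mem_sup_left (mem_zpowers _)
          · exact mul_mem (mem_sup_left (mem_zpowers _)) (mem_sup_right (mem_zpowers _))
        · apply sup_le
          · rw [zpowers_le]
            exact subset_closure (by simp)
          · rw [zpowers_le, ← hprod]
            exact mul_mem (subset_closure (by simp)) (subset_closure (by simp))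
      exact ⟨(MulEquiv.subgroupCongr hclosure.symm).trans e⟩
  · -- commuting
    intro i j hij u hu v hv
    have hc1 : a i * a j = a j * a i := hAcomm _ (haA i) _ (haA j)
    have hc2 : a i * x j = x j * a i := by
      have h := hdual j i (Ne.symm hij)
      calc a i * x j = (a i * x j * (a i)⁻¹) * a i := by group
        _ = x j * a i := by rw [h]
    have hc3 : x i * a j = a j * x i := by
      have h := hdual i j hij
      calc x i * a j = (a j * x i * (a j)⁻¹) * a j := by rw [h]
        _ = a j * x i := by group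
    have hc4 : x i * x j = x j * x i := hTc _ (hx i).1 _ (hx j).1
    have hlem : ∀ g p q : G, g * p = p * g → g * q = q * g →
        g ∈ centralizer ((zpowers p ⊔ zpowers q : Subgroup G) : Set G) := by
      intro g p q hp hq
      have hle : zpowers p ⊔ zpowers q ≤ centralizer ({g} : Set G) := by
        apply sup_le
        · rw [zpowers_le]
          refine mem_centralizer_iff.mpr ?_
          intro h hh
          rw [Set.mem_singleton_iff] at hh
          subst hh
          exact hp
        · rw [zpowers_le]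
          refine mem_centralizer_iff.mpr ?_
          intro h hh
          rw [Set.mem_singleton_iff] at hh
          subst hh
          exact hq
      refine mem_centralizer_iff.mpr ?_
      intro y hy
      exact (mem_centralizer_iff.mp (hle hy) g (Set.mem_singleton g)).symm
    have h1 : zpowers (a i) ⊔ zpowers (x i) ≤ centralizer ((zpowers (a j) ⊔ zpowers (x j) : Subgroup G) : Set G) := by
      apply sup_le
      · rw [zpowers_le]
        exact hlem _ _ _ hc1 hc2
      · rw [zpowers_le]
        exact hlem _ _ _ hc3 hc4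
    exact (mem_centralizer_iff.mp (h1 hu) v hv).symm

end Cfsg.Agent.S1349
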