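import Cfsg.Statements.S1615
import Cfsg.Agent.Lib.ThreeT.LocalO3Count
import Cfsg.Agent.Lib.Signal.Basic

set_option autoImplicit false
open Cfsg

namespace Cfsg.Agent.S1615

open Cfsg.Agent.Lib.ThreeT.Basic Cfsg.Agent.Lib.ThreeT.DxConn Cfsg.Agent.Lib.ThreeT.LocalO3
open Cfsg.Agent.Lib.ThreeT.LocalO3Count Cfsg.Agent.Lib.ThreeT.Class

/-- If O(⟨D_x⟩) is not central in ⟨D_x⟩ for some transposition x, the 3-transposition group is the symmetric group of degree 5. -/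
theorem result {G : Type*} [Group G] [Finite G] (hsol : ∀ N : Subgroup G, N.Normal → Group.IsSolvable ↥N → N = ⊥) (hperf : ⁅commutator G, commutator G⁆ = commutator G) {D : Set G} (hD : Cfsg.IsThreeTranspositionClass D) (x : G) (hx : x ∈ D) (h : ¬ Cfsg.oddCore ↥(Subgroup.closure {y : G | y ∈ D ∧ y ≠ x ∧ Commute x y}) ≤ Subgroup.center ↥(Subgroup.closure {y : G | y ∈ D ∧ y ≠ x ∧ Commute x y})) : Nonempty (G ≃* Equiv.Perm (Fin 5)) := by
  have : Fact (Nat.Prime 2) := ⟨Nat.prime_two⟩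
  have : Fact (Nat.Prime 3) := ⟨Nat.prime_three⟩
  have hO : ∀ (p : ℕ) [Fact p.Prime], Cfsg.pCore p G = ⊥ := by
    intro p _
    exact hsol _ (Cfsg.pCore_normal p G)
      (Cfsg.Agent.Lib.Signal.Basic.isSolvable_of_isPGroup (Cfsg.Agent.Lib.Core.Basic.pCore_isPGroup (p := p) (G := G)))
  have h2 : Cfsg.pCore 2 G ≤ Subgroup.center G := by rw [hO 2]; exact bot_le
  have h3 : Cfsg.pCore 3 G ≤ Subgroup.center G := by rw [hO 3]; exact bot_le
  have hG := isGroup_of_isClass hD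
  have hS := hG.1
  have hconj := hG.2.1
  change ¬ Cfsg.oddCore ↥(Subgroup.closure (Dx D x)) ≤ Subgroup.center ↥(Subgroup.closure (Dx D x)) at h
  set H := Subgroup.closure (Dx D x) with hH
  have hsub : Dx D x ⊆ H := Subgroup.subset_closure
  have hcx : ∀ g ∈ H, Commute x g := fun g hg =>
    Cfsg.Agent.Lib.ThreeT.Rank3.commute_of_mem_closure (fun y hy => hy.2.2) hg
  have hconjH : ∀ g ∈ H, ∀ y ∈ Dx D x, g * y * g⁻¹ ∈ Dx D x := by
    intro g hg y hy
    have := mem_Dx_conj_iff (g := g) hconj hy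
    rwa [(hcx g hg).symm.eq, mul_inv_cancel_right] at this
  set O : Subgroup G := (Cfsg.oddCore H).map H.subtype with hOdef
  have hOn : ∀ g ∈ H, ∀ o ∈ O, g * o * g⁻¹ ∈ O := by
    rintro g hg _ ⟨q, hq, rfl⟩
    exact ⟨_, (Cfsg.pPrimeCore_normal 2 H).conj_mem q hq ⟨g, hg⟩, rfl⟩
  have hOodd : ∀ o ∈ O, o * o = 1 → o = 1 := by
    rintro _ ⟨q, hq, rfl⟩ hoo
    have hq2 : (q : H) ^ 2 = 1 := by
      apply Subtype.ext
      rw [pow_two]
      exact hoo
    have hcop : (Nat.card (Cfsg.pPrimeCore 2 H)).Coprime 2 :=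
      Cfsg.Agent.Lib.Core.Basic.pPrimeCore_coprime
    have h4 : orderOf (⟨q, hq⟩ : Cfsg.pPrimeCore 2 H) ∣ 2 := by
      apply orderOf_dvd_of_pow_eq_one
      apply Subtype.ext
      exact hq2
    have h5 : orderOf (⟨q, hq⟩ : Cfsg.pPrimeCore 2 H) ∣ Nat.card (Cfsg.pPrimeCore 2 H) :=
      orderOf_dvd_natCard _
    have h6 : orderOf (⟨q, hq⟩ : Cfsg.pPrimeCore 2 H) = 1 :=
      Nat.eq_one_of_dvd_coprimes hcop.symm h4 h5
    have h7 := orderOf_eq_one_iff.1 h6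
    have h8 : q = 1 := congrArg Subtype.val h7
    rw [h8]
    rfl
  -- a pair in the `O`-class
  obtain ⟨d, hd, o, ho, hnc⟩ : ∃ d ∈ Dx D x, ∃ o ∈ O, ¬ Commute d o := by
    by_contra hno
    push Not at hno
    apply h
    intro q hq
    rw [Subgroup.mem_center_iff]
    rintro ⟨g, hg⟩
    apply Subtype.ext
    have hc : Commute (q : G) g := by
      refine Cfsg.Agent.Lib.ThreeT.Rank3.commute_of_mem_closure (fun y hy => ?_) hg
      exact (hno y hy _ ⟨q, hq, rfl⟩).symm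
    exact hc.eq.symm
  have hoH : o ∈ H := by
    obtain ⟨q, -, rfl⟩ := ho
    exact q.2
  have hb := hconjH o hoH d hd
  have hdi := inv_of_mem hS hd.1
  have hdO : d * (o * d * o⁻¹) ∈ O := by
    have h1 := hOn d (hsub hd) o ho
    have h2 := O.mul_mem h1 (O.inv_mem ho)
    rw [hdi] at h2
    have e : d * o * d * o⁻¹ = d * (o * d * o⁻¹) := by group
    rwa [e] at h2
  have hdne : d ≠ o * d * o⁻¹ := by
    intro e
    apply hnc
    show d * o = o * d
    calc d * o = (o * d * o⁻¹) * o := by rw [← e]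
      _ = o * d := by group
  have hD2 : ∃ a ∈ D, ∃ b ∈ D, a ≠ b := ⟨d, hd.1, _, hb.1, hdne⟩
  have hw : ∃ a ∈ D, ∃ b ∈ D, a ≠ b ∧ Commute a b := ⟨x, hx, d, hd.1, hd.2.1.symm, hd.2.2⟩
  have hprim := Cfsg.Agent.Lib.ThreeT.Rank3.prim_of_sol hD hsol hperf hD2
  have hconn := Cfsg.Agent.Lib.ThreeT.Prim2.connected_of_prim hG hprim hw
  have hpart : ∀ p ∈ Dx D x, ∃ q ∈ Dx D x, q ≠ p ∧ p * q ∈ O := by
    intro p hp
    obtain ⟨g, hg, e⟩ := exists_conj_closure hD h2 h3 hx hd hp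
    refine ⟨g * (o * d * o⁻¹) * g⁻¹, hconjH g hg _ hb, ?_, ?_⟩
    · intro e2
      rw [← e] at e2
      apply hdne
      have := mul_left_cancel (mul_right_cancel e2)
      exact this.symm
    · have := hOn g hg _ hdO
      have e3 : g * (d * (o * d * o⁻¹)) * g⁻¹ = (g * d * g⁻¹) * (g * (o * d * o⁻¹) * g⁻¹) := by group
      rwa [e3, e] at this
  -- no commuting pair at `x`
  have htfx : ∀ p ∈ Dx D x, ∀ q ∈ Dx D x, p ≠ q → ¬ Commute p q := fun p hp q hq hpq =>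
    trifree hG hprim hconn hx hOn hOodd hpart hp hq hpq
  have htf : ∀ x' ∈ D, ∀ p ∈ Dx D x', ∀ q ∈ Dx D x', p ≠ q → ¬ Commute p q := by
    intro x' hx' p hp q hq hpq hc
    obtain ⟨g, rfl⟩ := hprim.1 x hx x' hx'
    have hp' := mem_Dx_conj_inv hconj hp
    have hq' := mem_Dx_conj_inv hconj hq
    refine htfx _ hp' _ hq' ?_ ?_
    · intro e
      apply hpq
      have := mul_left_cancel (mul_right_cancel e)
      exact this
    · exact (Cfsg.Agent.Lib.ThreeT.Rank3.commute_conj_iff g⁻¹ p q).2 hc |> fun hh => by simpa using hh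
  obtain ⟨-, h10⟩ := petersen hG hprim hconn (hO 3) htf hx hd hb hdne
  -- the path
  obtain ⟨p, hp, q, hq, hpq⟩ : ∃ p ∈ Dx D x, ∃ q ∈ Dx D x, p ≠ q ∧ p * q ∈ O := ⟨d, hd, _, hb, hdne, hdO⟩
  obtain ⟨a, ha, e, he, y, hy, hpa, hpe, hae, hye', hye, hya⟩ :=
    exists_mixed hG hprim hconn hx hOn hOodd hp hq hpq.1 hpq.2
  have hpi := inv_of_mem hS hp.1
  have haeO : a * e ∈ O := by
    have h1 := O.inv_mem hpa
    rw [mul_inv_rev, hpi, inv_of_mem hS ha.1] at h1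
    have h2 := O.mul_mem h1 hpe
    have e4 : a * p * (p * e) = a * (p * p) * e := by group
    rwa [e4, mul_self_of_mem hS hp.1, mul_one] at h2
  have hxy := not_comm_x hG hOn hOodd ha he hy haeO hye' hye hya
  have hnae := htfx a ha e he hae
  obtain ⟨φ, hinj, h0, -, -, -⟩ := Cfsg.Agent.Lib.ThreeT.S5.exists_injective_hom hS hx hy ha.1 he.1 hxy
    (fun h => hya h) hnae ha.2.2 he.2.2 hye
  have hsurj := surjective_of_ten hconj hG.2.2 h10 hinj (by rw [h0]; exact hx)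
  exact ⟨(MulEquiv.ofBijective φ ⟨hinj, hsurj⟩).symm⟩

end Cfsg.Agent.S1615
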