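import Cfsg.Statements.S1666
import Cfsg.Agent.Lib.HSRec.Model
import Cfsg.Agent.Lib.HSRec.M22Sub
import Cfsg.Agent.Lib.HSRec.Rank3
import Cfsg.Agent.Lib.SteinerUniq.Srg100

set_option autoImplicit false
open Cfsg

namespace Cfsg.Agent.S1666

open MulAction Cfsg.Agent.Lib.HSRec

/-- The transitivity of the stabiliser of two points on the remaining points of the suborbit. -/
theorem transitivity {Ω : Type*} (G : Subgroup (Equiv.Perm Ω)) (a : Ω)
    (e : stabilizer G a ≃* Cfsg.Spor.M22) (b : Ω)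
    (hb : (orbit (stabilizer G a) b).ncard = 22) (x y : Ω)
    (hx : x ∈ orbit (stabilizer G a) b) (hy : y ∈ orbit (stabilizer G a) b)
    (hxb : x ≠ b) (hyb : y ≠ b) :
    ∃ u : G, u • a = a ∧ u • b = b ∧ u • x = y := by
  classical
  let φ : stabilizer G a →* Equiv.Perm GolayPt := Cfsg.Spor.M22.subtype.comp e.toMonoidHom
  have hφ : Function.Injective φ := by
    intro p q hpq
    exact e.injective (Subtype.ext hpq)
  have hφM : ∀ h, φ h ∈ Cfsg.Spor.M22 := fun h => (e h).2
  let U : Subgroup (Equiv.Perm GolayPt) := (stabilizer (stabilizer G a) b).map φ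
  have hUle : U ≤ Cfsg.Spor.M22 := by
    rintro _ ⟨h, -, rfl⟩
    exact hφM h
  have hcard : Nat.card U = 20160 := by
    have h1 : Nat.card U = Nat.card (stabilizer (stabilizer G a) b) :=
      Nat.card_congr (Subgroup.equivMapOfInjective _ _ hφ).symm.toEquiv
    have h2 := (stabilizer (stabilizer G a) b).card_mul_index
    rw [index_stabilizer, hb] at h2
    have h3 : Nat.card (stabilizer G a) = 443520 :=
      (Nat.card_congr e.toEquiv).trans Cfsg.Agent.Lib.Golay.OutGroups.card_M22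
    rw [h3] at h2
    rw [h1]
    omega
  obtain ⟨p, hp, hpU⟩ := M22Sub.eq_stab hUle hcard
  -- membership
  have hmem : ∀ h : stabilizer G a, φ h p = p ↔ h • b = b := by
    intro h
    rw [← hpU _ (hφM h)]
    constructor
    · rintro ⟨h', hh', heq⟩
      rw [← hφ heq]
      exact hh'
    · intro hh
      exact ⟨h, hh, rfl⟩
  have hAl : ∀ h : stabilizer G a, M22Sub.Al (φ h p) := by
    intro h
    constructor
    · intro h1
      have h2 := M22Sub.fix_none (hφM h)
      exact hp.1 ((φ h).injective (h1.trans h2.symm))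
    · intro h1
      have h2 := M22Sub.fix_zero (hφM h)
      exact hp.2 ((φ h).injective (h1.trans h2.symm))
  obtain ⟨h₁, rfl⟩ := mem_orbit_iff.1 hx
  obtain ⟨h₂, rfl⟩ := mem_orbit_iff.1 hy
  have hne : ∀ h : stabilizer G a, h • b ≠ b → p ≠ φ h p := by
    intro h hh h1
    exact hh ((hmem h).1 h1.symm)
  obtain ⟨σ, hσ, hσ1, hσ2⟩ := M22Sub.exists_map2 hp (hAl h₁) (hAl h₂) (hne h₁ hxb) (hne h₂ hyb)
  -- the element
  have hσU : σ ∈ U := (hpU σ hσ).2 hσ1
  obtain ⟨u, huS, rfl⟩ := hσU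
  have hub : u • b = b := huS
  have hk : φ (h₂⁻¹ * u * h₁) p = p := by
    rw [map_mul, map_mul, map_inv]
    show (φ h₂)⁻¹ (φ u (φ h₁ p)) = p
    rw [hσ2]
    simp
  have hk2 := (hmem _).1 hk
  have hk3 : u • (h₁ • b) = h₂ • b := by
    rw [mul_smul, mul_smul, inv_smul_eq_iff] at hk2
    exact hk2
  refine ⟨u.1, u.2, hub, ?_⟩
  exact hk3

/-- Recognition of the Higman–Sims group as a rank 3 permutation group: a transitive permutation group on 100 points in which the stabiliser of a point is isomorphic to the Mathieu group M₂₂ and has two further orbits, of sizes 22 and 77, is isomorphic to the Higman–Sims group. -/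
theorem result {Ω : Type*} [Fintype Ω] [DecidableEq Ω] (hΩ : Fintype.card Ω = 100) (G : Subgroup (Equiv.Perm Ω)) [MulAction.IsPretransitive G Ω] (a : Ω)  (e : MulAction.stabilizer G a ≃* Cfsg.Spor.M22) (b c : Ω) (hb : (MulAction.orbit (MulAction.stabilizer G a) b).ncard = 22) (hc : (MulAction.orbit (MulAction.stabilizer G a) c).ncard = 77) : Cfsg.Spor.IsoHS G := by
  classical
  have hS : Rank3.Setup G a b c 22 77 :=
    ⟨hb, hc, by rw [hΩ], by norm_num, by norm_num, by norm_num⟩
  have hsw := Rank3.exists_swap hS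
  have hab := Rank3.a_ne_b hS
  have hsrg0 := Rank3.isSRG (hsw := hsw) (hab := hab) hS
  rw [hΩ] at hsrg0
  have hsrg : (Rank3.graph hsw hab).IsSRGWith 100 22 0 6 := by
    rcases Rank3.ell_cases (hsw := hsw) (hab := hab) hS
      (fun x y hx hy hxb hyb => transitivity G a e b hb x y hx hy hxb hyb) with h | h
    · rw [h] at hsrg0
      have h1 := SimpleGraph.IsSRGWith.param_eq _ hsrg0 (by norm_num)
      have h2 : ((Rank3.graph hsw hab).commonNeighbors a c).ncard = 6 := by omega
      rwa [h2] at hsrg0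
    · rw [h] at hsrg0
      have := Rank3.dvd_of_srg hsrg0 (by norm_num)
      norm_num at this
  -- the isomorphism with the explicit graph
  obtain ⟨ι⟩ := Cfsg.Agent.Lib.SteinerUniq.Srg100.iso_pb hsrg a
  have hα := Cfsg.Agent.Lib.SteinerUniq.Srg100.card_pts hsrg a
  have hB := Cfsg.Agent.Lib.SteinerUniq.Srg100.steiner hsrg a
  obtain ⟨θ, hθ⟩ := Cfsg.Agent.Lib.HS.Graph.exists_theta hα hB
  let ψ : Rank3.graph hsw hab ≃g Cfsg.Agent.Lib.HS.Graph.Γ₀ :=
    RelIso.trans ι (Cfsg.Agent.Lib.HS.Graph.ψG θ hθ)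
  let c₀ : Equiv.Perm Ω ≃* Equiv.Perm (Fin 100) := Equiv.permCongrHom ψ.toEquiv
  let R : Subgroup (Equiv.Perm (Fin 100)) := G.map c₀.toMonoidHom
  have e2 : G ≃* R := Subgroup.equivMapOfInjective _ _ c₀.injective
  have hRle : R ≤ Cfsg.Agent.Lib.HS.Graph.autS := by
    rintro _ ⟨g, hg, rfl⟩ u v
    obtain ⟨u, rfl⟩ := ψ.toEquiv.surjective u
    obtain ⟨v, rfl⟩ := ψ.toEquiv.surjective v
    have h1 : ∀ w, c₀.toMonoidHom g (ψ.toEquiv w) = ψ.toEquiv (g w) := fun w => by
      show ψ.toEquiv (g (ψ.toEquiv.symm (ψ.toEquiv w))) = ψ.toEquiv (g w)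
      rw [Equiv.symm_apply_apply]
    rw [h1, h1]
    have h2 := Rank3.adj_smul (hsw := hsw) (hab := hab) (⟨g, hg⟩ : G) (u := u) (v := v)
    show _root_.id _ ↔ _root_.id _
    simp only [_root_.id]
    have h3 := ψ.map_adj_iff (v := g u) (w := g v)
    have h4 := ψ.map_adj_iff (v := u) (w := v)
    exact h3.trans (h2.trans h4.symm)
  have hcG : Nat.card G = 44352000 := by
    have h1 := (stabilizer G a).card_mul_index
    rw [index_stabilizer_of_transitive, Nat.card_eq_fintype_card (α := Ω), hΩ,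
      (Nat.card_congr e.toEquiv).trans Cfsg.Agent.Lib.Golay.OutGroups.card_M22] at h1
    omega
  have hRc : Nat.card R = 44352000 := (Nat.card_congr e2.symm.toEquiv).trans hcG
  have hRH := Model.eq_HH_of_le hRle hRc (Model.card_autS hα hB)
  rw [hRH] at e2
  obtain ⟨e3⟩ := Model.iso_HH hα hB
  exact ⟨e2.trans e3.symm⟩

end Cfsg.Agent.S1666
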