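import Cfsg.Statements.S1668
import Cfsg.Agent.Lib.SuzRec.Core
import Cfsg.Agent.Lib.SuzRec.KL2

set_option autoImplicit false
set_option maxRecDepth 100000
open Cfsg

namespace Cfsg.Agent.S1668

open MulAction
open Cfsg.Agent.Lib.HSRec Cfsg.Agent.Lib.SuzRec Cfsg.Agent.Lib.SuzRec.Graph Cfsg.Agent.Lib.SuzRec.Core
open Cfsg.Agent.Lib.SuzRec.Basic Cfsg.Agent.Lib.PermComp.Core
open Cfsg.Agent.Lib.G24J2 (Model p0 exists_trans)
open Cfsg.Agent.Lib.TC.D.SuzH.Ok (Rp)

local notation "PP" => Equiv.Perm (Fin 416)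

/-- The data of the two groups. -/
theorem exists_env : ∃ E : Env, Nonempty (PresentedGroup Rp ≃* E.P) ∧ Nonempty (Cfsg.Spor.Suz ≃* E.H) ∧
    IsSimpleGroup E.H := by
  obtain ⟨P, hP, ⟨e⟩, hg⟩ := Models.exists_modelP
  obtain ⟨H, Tp, ⟨e'⟩, hc, hs, hT, hH⟩ := Models.exists_modelH
  refine ⟨⟨P, hP, hg, H, Tp, ?_, hH, hc⟩, ⟨e⟩, ⟨e'⟩, hs⟩
  intro c hc' x
  rw [← hT c hc' x]
  exact Nat.eq_of_beq_eq_true (allN_spec (allN_spec Checks.tc_ok c hc') x x.2)

/-- Recognition of the sporadic Suzuki group as a rank 3 permutation group: a transitive permutation group on 1782 points in which the stabiliser of a point is isomorphic to the Chevalley group G₂(4) and has two further orbits, of sizes 416 and 1365, is isomorphic to the sporadic Suzuki group. -/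
theorem result {Ω : Type*} [Fintype Ω] [DecidableEq Ω] (hΩ : Fintype.card Ω = 1782) (G : Subgroup (Equiv.Perm Ω)) [MulAction.IsPretransitive G Ω] (a : Ω) (K : Type) [Field K] [Fintype K] (hK : Fintype.card K = 4) (e : MulAction.stabilizer G a ≃* Cfsg.Lie.chevG2.group K) (b c : Ω) (hb : (MulAction.orbit (MulAction.stabilizer G a) b).ncard = 416) (hc : (MulAction.orbit (MulAction.stabilizer G a) c).ncard = 1365) : Cfsg.Spor.IsoSuz G := by
  classical
  have hS : Rank3.Setup G a b c 416 1365 :=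
    ⟨hb, hc, by rw [hΩ], by norm_num, by norm_num, by norm_num⟩
  have hsw := Rank3.exists_swap hS
  have hab := Rank3.a_ne_b hS
  have hsrg0 := Rank3.isSRG (hsw := hsw) (hab := hab) hS
  rw [hΩ] at hsrg0
  -- the groups
  obtain ⟨E, ⟨e3⟩, ⟨e4⟩, hHs⟩ := exists_env
  obtain ⟨e1⟩ := Cfsg.Agent.Lib.Chev.FieldCongr.nonempty_group_equiv Cfsg.Lie.chevG2
    (FiniteField.ringEquivOfCardEq (K := K) (K' := Cfsg.Agent.Lib.PrimeGraph.G24Field.K4)
      (by rw [hK, Cfsg.Agent.Lib.PrimeGraph.G24Field.K4.card_eq]))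
  obtain ⟨e2⟩ := Cfsg.Agent.Lib.TC.D.SuzH.Tgt.equiv_T
  let e' : stabilizer G a ≃* E.P := e.trans (e1.trans (e2.symm.trans e3))
  -- the action
  let κ : E.P →* Equiv.Perm Ω := G.subtype.comp ((stabilizer G a).subtype.comp e'.symm.toMonoidHom)
  have hκ : ∀ (g : E.P) (x : Ω), κ g x = (e'.symm g).1 • x := fun _ _ => rfl
  have hκe : ∀ (h : stabilizer G a) (x : Ω), κ (e' h) x = h.1 • x := by
    intro h x
    rw [hκ, MulEquiv.symm_apply_apply]
  have hcP : Nat.card (stabilizer G a) = 251596800 := (Nat.card_congr e'.toEquiv).trans E.hP.card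
  -- the stabilizer of the point in `G₂(4)`
  let H' : Subgroup PP := (stabilizer (stabilizer G a) b).map (E.P.subtype.comp e'.toMonoidHom)
  have hH'P : H' ≤ E.P := by
    rintro _ ⟨s, -, rfl⟩
    exact (e' s).2
  have hinj : Function.Injective (E.P.subtype.comp e'.toMonoidHom) := fun x y h =>
    e'.injective (Subtype.ext h)
  have hH'c : Nat.card H' = 604800 := by
    have h1 : Nat.card H' = Nat.card (stabilizer (stabilizer G a) b) :=
      (Nat.card_congr (Subgroup.equivMapOfInjective _ _ hinj).toEquiv).symm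
    have h2 := (stabilizer (stabilizer G a) b).card_mul_index
    rw [index_stabilizer, hb, hcP] at h2
    rw [h1]
    omega
  obtain ⟨q, hq⟩ := KL2.index416 E.hP hH'P hH'c
  have hqb : ∀ h : E.P, κ h b = b ↔ h.1 q = q := by
    intro h
    constructor
    · intro h1
      have h2 : (e'.symm h) ∈ stabilizer (stabilizer G a) b := h1
      have h3 : h.1 ∈ H' := ⟨e'.symm h, h2, by
        show ((e' (e'.symm h) : E.P) : PP) = h.1
        rw [MulEquiv.apply_symm_apply]⟩
      rw [hq] at h3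
      exact h3.2
    · intro h1
      have h3 : h.1 ∈ H' := by
        rw [hq]
        exact ⟨h.2, h1⟩
      obtain ⟨s, hs, hse⟩ := h3
      have h4 : e' s = h := Subtype.ext hse
      rw [← h4, hκe]
      exact hs
  -- moving the point to the base point
  obtain ⟨t₀, ht₀, ht₀q⟩ := exists_trans E.hP q
  let t : E.P := ⟨t₀⁻¹, inv_mem ht₀⟩
  have htq : t.1 q = p0 := by
    show t₀⁻¹ q = p0
    rw [Equiv.Perm.inv_eq_iff_eq, ht₀q]
  let b' : Ω := κ t b
  have hb' : ∀ g : E.P, κ g b' = b' ↔ g.1 p0 = p0 := by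
    intro g
    have h1 := hqb (t⁻¹ * g * t)
    have h2 : κ (t⁻¹ * g * t) b = b ↔ κ g b' = b' := by
      rw [map_mul, map_mul, map_inv]
      show (κ t)⁻¹ (κ g (κ t b)) = b ↔ _
      rw [Equiv.Perm.inv_eq_iff_eq]
    have h3 : (t⁻¹ * g * t : E.P).1 q = q ↔ g.1 p0 = p0 := by
      show t.1⁻¹ (g.1 (t.1 q)) = q ↔ _
      rw [Equiv.Perm.inv_eq_iff_eq, htq, ← htq]
    exact h2.symm.trans (h1.trans h3)
  -- the graph
  let Γ := Rank3.graph hsw hab
  have hadj : ∀ (g : E.P) (x y : Ω), Γ.Adj (κ g x) (κ g y) ↔ Γ.Adj x y := fun g x y =>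
    Rank3.adj_smul (hsw := hsw) (hab := hab) (e'.symm g).1
  have hfa : ∀ g : E.P, κ g a = a := fun g => (e'.symm g).2
  have hadj_a : ∀ {x : Ω}, Γ.Adj a x ↔ x ∈ orbit (stabilizer G a) b := Rank3.adj_a_iff
  have C : Ctx E Γ κ a b' c _ _ :=
    { hadj := hadj
      hsrg := hsrg0
      ha := hfa
      hab := hadj_a.2 ⟨e'.symm t, rfl⟩
      hNa := by
        intro x hx
        obtain ⟨h, rfl⟩ := hadj_a.1 hx
        refine ⟨e' h * t⁻¹, ?_⟩
        show κ (e' h * t⁻¹) (κ t b) = h • b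
        rw [map_mul, map_inv, Equiv.Perm.mul_apply]
        have h1 : (κ t)⁻¹ (κ t b) = b := by simp
        rw [h1, hκe]
        rfl
      hD := by
        intro x hx hx'
        rcases Rank3.partition hS x with h | h | h
        · exact absurd h hx
        · exact absurd (hadj_a.2 h) hx'
        · obtain ⟨h, rfl⟩ := h
          exact ⟨e' h, hκe h c⟩
      hca := by
        intro h
        have := Rank3.a_not_mem_c hS
        rw [← h] at this
        exact this (mem_orbit_self c)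
      hnac := by
        intro h
        exact Set.disjoint_left.1 (Rank3.disj hS) (hadj_a.1 h) (mem_orbit_self c)
      hb := hb' }
  obtain ⟨φ, hφ⟩ := Core.main C
  -- the image of the group
  let c₀ : Equiv.Perm Ω ≃* Equiv.Perm (Fin 1782) := Equiv.permCongrHom φ
  let R : Subgroup (Equiv.Perm (Fin 1782)) := G.map c₀.toMonoidHom
  have e5 : G ≃* R := Subgroup.equivMapOfInjective _ _ c₀.injective
  have hRle : R ≤ AS E := by
    rintro _ ⟨g, hg, rfl⟩ u v
    obtain ⟨u, rfl⟩ := φ.surjective u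
    obtain ⟨v, rfl⟩ := φ.surjective v
    have h1 : ∀ w, c₀.toMonoidHom g (φ w) = φ (g w) := fun w => by
      show φ (g (φ.symm (φ w))) = φ (g w)
      rw [Equiv.symm_apply_apply]
    rw [h1, h1]
    have h2 : Γ.Adj (g u) (g v) ↔ Γ.Adj u v := Rank3.adj_smul (hsw := hsw) (hab := hab) (⟨g, hg⟩ : G) (u := u) (v := v)
    exact (hφ _ _).symm.trans (h2.trans (hφ _ _))
  have hcG : Nat.card G = 448345497600 := by
    have h1 := (stabilizer G a).card_mul_index
    rw [index_stabilizer_of_transitive, Nat.card_eq_fintype_card (α := Ω), hΩ, hcP] at h1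
    omega
  have hRc : Nat.card R = 448345497600 := (Nat.card_congr e5.symm.toEquiv).trans hcG
  have hRH := eq_H E hHs hRle hRc
  exact ⟨e5.trans ((MulEquiv.subgroupCongr hRH).trans e4.symm)⟩

end Cfsg.Agent.S1668
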