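import Cfsg.Statements.S1701
import Cfsg.Agent.Lib.TC.D.HNC.Ord
import Cfsg.Agent.Lib.TC.D.HNL.Simple
import Cfsg.Agent.Lib.TC.D.HNO.PtOk
import Cfsg.Agent.Lib.TC.D.HNO.Cnt

set_option autoImplicit false
open Cfsg

namespace Cfsg.Agent.S1701

/-- The presented Harada–Norton group is simple of the expected order (that is, it is a simple group of the order of the Harada–Norton group). -/
theorem result : Cfsg.IsHN Cfsg.Spor.HN := by
  exact Cfsg.Agent.Lib.TC.D.HNL.Simple.simple_card Cfsg.Agent.Lib.TC.D.HNO.PtOk.hgood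
    Cfsg.Agent.Lib.TC.D.HNC.Ord.card_KK3 Cfsg.Agent.Lib.TC.D.HNC.Ord.card_KK
    Cfsg.Agent.Lib.TC.D.HNO.Orb.hlab Cfsg.Agent.Lib.TC.D.HNO.Cnt.hb Cfsg.Agent.Lib.TC.D.HNO.Cnt.hsize

end Cfsg.Agent.S1701
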