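import Cfsg.Statements.S1707
import Cfsg.Agent.Lib.TC.D.HNC.Ord
import Cfsg.Agent.Lib.TC.D.HNL.Main
import Cfsg.Agent.Lib.TC.D.HNO.PtOk

set_option autoImplicit false
open Cfsg

namespace Cfsg.Agent.S1707

/-- In the presented Harada–Norton group (generators x, y, z, t), the subgroup generated by the images of x, y, z has index 1539000. -/
theorem result : (((Subgroup.closure ({Cfsg.Spor.HN.x, Cfsg.Spor.HN.y, Cfsg.Spor.HN.z} : Set (FreeGroup Cfsg.Spor.HN.Gen))).map (PresentedGroup.mk (Cfsg.Spor.coxRelators Cfsg.Spor.HN.edges ∪ {r | r ∈ Cfsg.Spor.HN.extra})))).index = 1539000 := by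
  open Cfsg.Agent.Lib.TC.Core Cfsg.Agent.Lib.TC.Chain Cfsg.Agent.Lib.TC.G.HN Cfsg.Agent.Lib.TC.D.HNC.Ord in
  have h1 : (Subgroup.closure ({Cfsg.Spor.HN.x, Cfsg.Spor.HN.y, Cfsg.Spor.HN.z} : Set (FreeGroup Cfsg.Spor.HN.Gen))).map (PresentedGroup.mk (Cfsg.Spor.coxRelators Cfsg.Spor.HN.edges ∪ {r | r ∈ Cfsg.Spor.HN.extra})) = KK := by
    apply le_antisymm
    · rw [MonoidHom.map_closure]
      apply (Subgroup.closure_le _).2
      rintro _ ⟨g, hg, rfl⟩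
      simp only [Set.mem_insert_iff, Set.mem_singleton_iff] at hg
      rcases hg with rfl | rfl | rfl
      · exact Subgroup.subset_closure ⟨0, by decide, (Cfsg.Agent.Lib.TC.Pres.Cols.E_col valid Cfsg.Spor.HN.Gen.x)⟩
      · exact Subgroup.subset_closure ⟨2, by decide, (Cfsg.Agent.Lib.TC.Pres.Cols.E_col valid Cfsg.Spor.HN.Gen.y)⟩
      · exact Subgroup.subset_closure ⟨4, by decide, (Cfsg.Agent.Lib.TC.Pres.Cols.E_col valid Cfsg.Spor.HN.Gen.z)⟩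
    · rw [MonoidHom.map_closure]
      apply (Subgroup.closure_le _).2
      have hx : e 0 ∈ Subgroup.closure ((PresentedGroup.mk (Cfsg.Spor.coxRelators Cfsg.Spor.HN.edges ∪ {r | r ∈ Cfsg.Spor.HN.extra})) '' ({Cfsg.Spor.HN.x, Cfsg.Spor.HN.y, Cfsg.Spor.HN.z} : Set (FreeGroup Cfsg.Spor.HN.Gen))) :=
        Subgroup.subset_closure ⟨Cfsg.Spor.HN.x, by simp, (Cfsg.Agent.Lib.TC.Pres.Cols.E_col valid Cfsg.Spor.HN.Gen.x).symm⟩
      have hy : e 2 ∈ Subgroup.closure ((PresentedGroup.mk (Cfsg.Spor.coxRelators Cfsg.Spor.HN.edges ∪ {r | r ∈ Cfsg.Spor.HN.extra})) '' ({Cfsg.Spor.HN.x, Cfsg.Spor.HN.y, Cfsg.Spor.HN.z} : Set (FreeGroup Cfsg.Spor.HN.Gen))) :=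
        Subgroup.subset_closure ⟨Cfsg.Spor.HN.y, by simp, (Cfsg.Agent.Lib.TC.Pres.Cols.E_col valid Cfsg.Spor.HN.Gen.y).symm⟩
      have hz : e 4 ∈ Subgroup.closure ((PresentedGroup.mk (Cfsg.Spor.coxRelators Cfsg.Spor.HN.edges ∪ {r | r ∈ Cfsg.Spor.HN.extra})) '' ({Cfsg.Spor.HN.x, Cfsg.Spor.HN.y, Cfsg.Spor.HN.z} : Set (FreeGroup Cfsg.Spor.HN.Gen))) :=
        Subgroup.subset_closure ⟨Cfsg.Spor.HN.z, by simp, (Cfsg.Agent.Lib.TC.Pres.Cols.E_col valid Cfsg.Spor.HN.Gen.z).symm⟩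
      rintro _ ⟨c, hc, rfl⟩
      simp only [Set.mem_setOf_eq, List.mem_cons, List.not_mem_nil, or_false] at hc
      rcases hc with rfl | rfl | rfl | rfl | rfl
      · exact hx
      · rw [e1]
        exact Subgroup.inv_mem _ hx
      · exact hy
      · rw [e3]
        exact Subgroup.inv_mem _ hy
      · exact hz
  rw [h1]
  exact Cfsg.Agent.Lib.TC.D.HNL.Main.main_index Cfsg.Agent.Lib.TC.D.HNO.PtOk.hgood card_KK3 card_KK

end Cfsg.Agent.S1707
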