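import Cfsg.Statements.S1892
import Cfsg.Agent.Lib.Core.PSolvable
import Cfsg.Agent.Lib.Coprime.Action
import Cfsg.Agent.Lib.Core.ThreeNorm

set_option autoImplicit false
open Cfsg

namespace Cfsg.Agent.S1892

/-- Let S be a finite p-solvable group with no nontrivial normal subgroup of order prime to p, A a p-subgroup of S, and Q a nontrivial A-invariant subgroup of order prime to p with [A, Q] = Q. Then the commutator [O_p(S), A, Q] is nontrivial. -/
theorem result {S : Type*} [Group S] [Finite S] {p : ℕ} [Fact p.Prime]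
    (hS : Cfsg.IsPSolvable p S) (hred : Cfsg.pPrimeCore p S = ⊥)
    (A Q : Subgroup S) (hA : IsPGroup p A) (hQ : ¬ p ∣ Nat.card Q) (hQ1 : Q ≠ ⊥)
    (hinv : ∀ a ∈ A, ∀ x ∈ Q, a * x * a⁻¹ ∈ Q) (hAQ : ⁅A, Q⁆ = Q) :
    ⁅⁅Cfsg.pCore p S, A⁆, Q⁆ ≠ ⊥ := by
  intro h
  set V := Cfsg.pCore p S with hV
  haveI hVn : V.Normal := inferInstance
  have hVp : IsPGroup p V := Cfsg.Agent.Lib.Core.Basic.pCore_isPGroup
  have hQc : (Nat.card Q).Coprime p := ((Nat.Prime.coprime_iff_not_dvd Fact.out).mpr hQ).symm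
  have hnV : ∀ X : Subgroup S, X ≤ Subgroup.normalizer (V : Set S) := fun X => by
    rw [Subgroup.normalizer_eq_top]; exact le_top
  set W := ⁅V, A⁆ with hW
  have hVW : V ≤ Subgroup.normalizer (W : Set S) :=
    Cfsg.Agent.Lib.Coprime.Action.le_normalizer_commutator_left V A
  have hAW : A ≤ Subgroup.normalizer (W : Set S) :=
    Cfsg.Agent.Lib.Coprime.Action.le_normalizer_commutator_right V A
  have hQcent : Q ≤ Subgroup.centralizer (W : Set S) := by
    rw [Subgroup.le_centralizer_iff, ← Subgroup.commutator_eq_bot_iff_le_centralizer]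
    exact h
  have hQW : Q ≤ Subgroup.normalizer (W : Set S) :=
    hQcent.trans (Subgroup.centralizer_le_normalizer _)
  have hAQn : A ≤ Subgroup.normalizer (Q : Set S) := by
    rw [Subgroup.le_normalizer_iff]; exact hinv
  -- `[A, Q, V] ≤ W`
  have key : ⁅⁅A, Q⁆, V⁆ ≤ W := by
    refine Cfsg.Agent.Lib.Core.ThreeNorm.three_le_of_le_normalizer hAW hQW hVW ?_ ?_
    · -- `[[Q, V], A] ≤ [V, A]`
      refine (Subgroup.commutator_mono ?_ le_rfl)
      exact Cfsg.Agent.Lib.Coprime.Action.commutator_le_of_le_normalizer (hnV Q) |> fun h => by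
        rw [Subgroup.commutator_comm]; exact h
    · -- `[[V, A], Q] = 1`
      rw [h]; exact bot_le
  rw [hAQ, Subgroup.commutator_comm] at key
  -- `[V, Q, Q] = 1`
  have h2 : ⁅⁅V, Q⁆, Q⁆ = ⊥ := by
    rw [eq_bot_iff, ← h]
    exact Subgroup.commutator_mono key le_rfl
  have hcop : (Nat.card Q).Coprime (Nat.card V) := by
    obtain ⟨n, hn⟩ := IsPGroup.iff_card.mp hVp
    rw [hn]; exact hQc.pow_right n
  have h3 := Cfsg.Agent.Lib.Coprime.Action.commutator_commutator_eq (hnV Q) hcop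
    (Or.inr (by haveI := hVp.isNilpotent; infer_instance))
  rw [h2] at h3
  have h4 : Q ≤ Subgroup.centralizer (V : Set S) := by
    rw [Subgroup.le_centralizer_iff, ← Subgroup.commutator_eq_bot_iff_le_centralizer]
    exact h3.symm
  have h5 : Q ≤ V := h4.trans (Cfsg.Agent.Lib.Core.PSolvable.centralizer_pCore_le_of_isPSolvable hS hred)
  apply hQ1
  have h6 := Cfsg.Agent.Lib.Core.Basic.inf_eq_bot_of_isPGroup_of_coprime hVp hQc
  rw [inf_eq_right.mpr h5] at h6
  exact h6

end Cfsg.Agent.S1892
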