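import Cfsg.Statements.S1894
import Cfsg.Agent.Lib.PGroups.Basic

set_option autoImplicit false
open Cfsg

namespace Cfsg.Agent.S1894

/-- Let P be a finite p-group, A a normal subgroup of P and B an abelian subgroup of A that is normal in P. Then some subgroup C of A containing B is normal in P and is self-centralizing and normal in A (C ∈ SCN(A)). -/
theorem result {P : Type*} [Group P] [Finite P] {p : ℕ} [Fact p.Prime] (hP : IsPGroup p P)
    (A : Subgroup P) [A.Normal] (B : Subgroup P) [B.Normal] (hBA : B ≤ A) (hB : IsMulCommutative B) :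
    ∃ C : Subgroup P, C.Normal ∧ B ≤ C ∧ Cfsg.IsSCN A C := by
  classical
  let F : Set (Subgroup P) := {C | C.Normal ∧ B ≤ C ∧ C ≤ A ∧ ∀ x ∈ C, ∀ y ∈ C, x * y = y * x}
  have hBF : B ∈ F := by
    refine ⟨inferInstance, le_rfl, hBA, ?_⟩
    intro x hx y hy
    have := hB.is_comm.comm ⟨x, hx⟩ ⟨y, hy⟩
    simpa [Subtype.ext_iff] using this
  obtain ⟨C, hC⟩ := (Set.toFinite F).exists_maximal ⟨B, hBF⟩
  obtain ⟨⟨hCn, hBC, hCA, hCc⟩, hmax⟩ := hC
  refine ⟨C, hCn, hBC, hCA, ?_, ?_⟩
  · rw [Subgroup.normalizer_eq_top_iff.mpr hCn]; exact le_top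
  · have hCD : C ≤ A ⊓ Subgroup.centralizer (C : Set P) := by
      refine le_inf hCA ?_
      intro x hx
      rw [Subgroup.mem_centralizer_iff]
      intro y hy
      exact hCc y hy x hx
    have hDn : (A ⊓ Subgroup.centralizer (C : Set P)).Normal := by
      have : (Subgroup.centralizer (C : Set P)).Normal := inferInstance
      exact Subgroup.normal_inf_normal _ _
    by_contra hne
    have hlt : C < A ⊓ Subgroup.centralizer (C : Set P) := lt_of_le_of_ne hCD (Ne.symm hne)
    obtain ⟨L, hLn, hCL, hLD, hi⟩ :=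
      Cfsg.Agent.Lib.PGroups.Basic.exists_normal_relIndex_above hP hlt
    -- L is abelian
    have hLcomm : ∀ x ∈ L, ∀ y ∈ L, x * y = y * x := by
      have hcard : Nat.card (L ⧸ C.subgroupOf L) = p := by
        rw [← hi, Subgroup.relIndex]
        rfl
      haveI : Fact (Nat.card (L ⧸ C.subgroupOf L)).Prime := by rw [hcard]; infer_instance
      haveI : IsCyclic (L ⧸ C.subgroupOf L) := isCyclic_of_prime_card rfl
      have hker : (QuotientGroup.mk' (C.subgroupOf L)).ker ≤ Subgroup.center L := by
        rw [QuotientGroup.ker_mk']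
        intro c hc
        rw [Subgroup.mem_center_iff]
        intro y
        have hc' : (c : P) ∈ C := hc
        have hy' : (y : P) ∈ Subgroup.centralizer (C : Set P) := (hLD y.2).2
        have := Subgroup.mem_centralizer_iff.mp hy' c hc'
        ext
        simpa using this.symm
      intro x hx y hy
      have := ((QuotientGroup.mk' (C.subgroupOf L)).isMulCommutative_of_isCyclic_of_ker_le_center
        hker).is_comm.comm ⟨x, hx⟩ ⟨y, hy⟩
      simpa [Subtype.ext_iff] using this
    have hLF : L ∈ F := ⟨hLn, hBC.trans hCL, (hLD.trans inf_le_left), hLcomm⟩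
    have hLC : L ≤ C := hmax hLF hCL
    have : C = L := le_antisymm hCL hLC
    subst this
    rw [Subgroup.relIndex_self] at hi
    exact (Fact.out : p.Prime).one_lt.ne hi

end Cfsg.Agent.S1894
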