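import Cfsg.Statements.S1897
import Mathlib

set_option autoImplicit false
set_option linter.unusedSectionVars false
set_option linter.style.haveILetI false
open Cfsg

namespace Cfsg.Agent.S1897

/-! ### Coding the field with nine elements: `a + 3 b` stands for `a + b i`. -/

def cEnc (p q : ℕ) : ℕ := p % 3 + 3 * (q % 3)
def cA (x y : ℕ) : ℕ := cEnc (x % 3 + y % 3) (x / 3 + y / 3)
def cM (x y : ℕ) : ℕ := cEnc (x % 3 * (y % 3) + 2 * (x / 3 * (y / 3))) (x % 3 * (y / 3) + x / 3 * (y % 3))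
def cC (x : ℕ) : ℕ := cEnc x (2 * (x / 3))

structure M9 where
  (a b c d e f g h k : ℕ)
  deriving DecidableEq

def mM (m n : M9) : M9 :=
  ⟨cA (cA (cM m.a n.a) (cM m.b n.d)) (cM m.c n.g),
   cA (cA (cM m.a n.b) (cM m.b n.e)) (cM m.c n.h),
   cA (cA (cM m.a n.c) (cM m.b n.f)) (cM m.c n.k),
   cA (cA (cM m.d n.a) (cM m.e n.d)) (cM m.f n.g),
   cA (cA (cM m.d n.b) (cM m.e n.e)) (cM m.f n.h),
   cA (cA (cM m.d n.c) (cM m.e n.f)) (cM m.f n.k),
   cA (cA (cM m.g n.a) (cM m.h n.d)) (cM m.k n.g),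
   cA (cA (cM m.g n.b) (cM m.h n.e)) (cM m.k n.h),
   cA (cA (cM m.g n.c) (cM m.h n.f)) (cM m.k n.k)⟩

def mI : M9 := ⟨1, 0, 0, 0, 1, 0, 0, 0, 1⟩
def mS : M9 := ⟨1, 7, 1, 4, 0, 8, 1, 5, 1⟩
def mT : M9 := ⟨1, 1, 7, 4, 8, 0, 2, 2, 7⟩
def mD : M9 := ⟨2, 1, 7, 8, 8, 0, 2, 1, 5⟩

/-- Transpose. -/
def mTr (m : M9) : M9 := ⟨m.a, m.d, m.g, m.b, m.e, m.h, m.c, m.f, m.k⟩

/-- Entrywise Frobenius. -/
def mC (m : M9) : M9 :=
  ⟨cC m.a, cC m.b, cC m.c, cC m.d, cC m.e, cC m.f, cC m.g, cC m.h, cC m.k⟩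

/-- Determinant (`2 = -1`). -/
def mDet (m : M9) : ℕ :=
  cA (cA (cA (cA (cA (cM (cM m.a m.e) m.k) (cM 2 (cM (cM m.a m.f) m.h)))
    (cM 2 (cM (cM m.b m.d) m.k))) (cM (cM m.b m.f) m.g)) (cM (cM m.c m.d) m.h))
    (cM 2 (cM (cM m.c m.e) m.g))

def rE : Fin 3 → M9 := ![mS, mT, mD]

def evE (l : List (Fin 3)) : M9 := l.foldr (fun g m => mM (rE g) m) mI

abbrev Z7 := ZMod 7

def lg (x : Z7) : ℕ := ![0, 0, 2, 1, 4, 5, 3] x

def word (a b c d : Z7) : List (Fin 3) :=
  if c = 0 then List.replicate (lg a) 2 ++ List.replicate (b * a ^ 5).val 1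
  else List.replicate (a * c ^ 5).val 1 ++ List.replicate (lg (-(c ^ 5))) 2 ++ [0] ++
    List.replicate (d * c ^ 5).val 1

structure Q4 where
  (a b c d : Z7)
  deriving DecidableEq

def mulQ (x y : Q4) : Q4 :=
  ⟨x.a * y.a + x.b * y.c, x.a * y.b + x.b * y.d, x.c * y.a + x.d * y.c, x.c * y.b + x.d * y.d⟩

def genQ : Fin 3 → Q4 := ![⟨0, 1, -1, 0⟩, ⟨1, 1, 0, 1⟩, ⟨3, 0, 0, 5⟩]

def evQ (l : List (Fin 3)) : Q4 := l.foldr (fun g m => mulQ (genQ g) m) ⟨1, 0, 0, 1⟩

def w (x : Q4) : List (Fin 3) := word x.a x.b x.c x.d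

theorem check1 : ∀ a b c d : Z7, a * d - b * c = 1 → evQ (w ⟨a, b, c, d⟩) = ⟨a, b, c, d⟩ := by
  decide +kernel

theorem check2 : ∀ a b c d : Z7, a * d - b * c = 1 → ∀ g : Fin 3,
    evE (w (mulQ ⟨a, b, c, d⟩ (genQ g))) = mM (evE (w ⟨a, b, c, d⟩)) (rE g) := by
  decide +kernel

theorem check3 : ∀ s : Z7, s ^ 2 = 1 → evE (w ⟨s, 0, 0, s⟩) = mI := by
  decide +kernel

theorem check_det : ∀ g : Fin 3, mDet (rE g) = 1 := by decide +kernel

theorem check_unit : ∀ g : Fin 3, mM (mTr (rE g)) (mC (rE g)) = mI := by decide +kernel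

theorem w_gen0 : w (genQ 0) = [0] := by decide +kernel
theorem w_gen1 : w (genQ 1) = [1] := by decide +kernel

theorem comm_ne : (mM mT mS).a = 0 ∧ (mM mS mT).a = 2 := by decide +kernel

/-! ### Evaluation in a field -/

section Field

variable {F : Type*} [Field F] [CharP F 3]

lemma three_eq_zero : (3 : F) = 0 := by
  have := CharP.cast_eq_zero F 3
  exact_mod_cast this

lemma cast_mod3 (n : ℕ) : ((n % 3 : ℕ) : F) = (n : F) := (CharP.cast_eq_mod F 3 n).symm

/-- The evaluation of a code. -/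
def ev (i : F) (x : ℕ) : F := ((x % 3 : ℕ) : F) + ((x / 3 : ℕ) : F) * i

lemma ev_enc (i : F) (p q : ℕ) : ev i (cEnc p q) = (p : F) + (q : F) * i := by
  have h1 : cEnc p q % 3 = p % 3 := by unfold cEnc; omega
  have h2 : cEnc p q / 3 = q % 3 := by unfold cEnc; omega
  unfold ev
  rw [h1, h2, cast_mod3, cast_mod3]

lemma ev_add (i : F) (x y : ℕ) : ev i (cA x y) = ev i x + ev i y := by
  unfold cA
  rw [ev_enc]
  unfold ev
  push_cast
  ring

lemma ev_mul (i : F) (hi : i ^ 2 = -1) (x y : ℕ) : ev i (cM x y) = ev i x * ev i y := by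
  unfold cM
  rw [ev_enc]
  unfold ev
  push_cast
  have h3 := three_eq_zero (F := F)
  linear_combination (-(((x / 3 : ℕ) : F) * ((y / 3 : ℕ) : F))) * hi
    + (((x / 3 : ℕ) : F) * ((y / 3 : ℕ) : F)) * h3

/-- The matrix of a code. -/
def toF (i : F) (m : M9) : Matrix (Fin 3) (Fin 3) F :=
  !![ev i m.a, ev i m.b, ev i m.c; ev i m.d, ev i m.e, ev i m.f; ev i m.g, ev i m.h, ev i m.k]

lemma toF_mul (i : F) (hi : i ^ 2 = -1) (m n : M9) : toF i (mM m n) = toF i m * toF i n := by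
  unfold toF mM
  rw [Matrix.mul_fin_three]
  simp only [ev_add, ev_mul i hi]

lemma ev_zero (i : F) : ev i 0 = 0 := by simp [ev]
lemma ev_one (i : F) : ev i 1 = 1 := by simp [ev]
lemma ev_two (i : F) : ev i 2 = -1 := by
  have h3 := three_eq_zero (F := F)
  simp [ev]
  linear_combination h3

lemma toF_one (i : F) : toF i mI = 1 := by
  unfold toF mI
  simp only [ev_zero, ev_one]
  ext a b
  fin_cases a <;> fin_cases b <;> simp

lemma toF_det (i : F) (hi : i ^ 2 = -1) (m : M9) : (toF i m).det = ev i (mDet m) := by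
  unfold mDet
  simp only [ev_add, ev_mul i hi, ev_two, Matrix.det_fin_three, toF]
  simp
  ring

lemma ev_conj [Fact (Nat.Prime 3)] (i : F) (hi : i ^ 2 = -1) (x : ℕ) :
    frobenius F 3 (ev i x) = ev i (cC x) := by
  unfold cC
  rw [ev_enc]
  unfold ev
  rw [map_add, map_mul, map_natCast, map_natCast, frobenius_def, cast_mod3]
  push_cast
  have h3 := three_eq_zero (F := F)
  linear_combination (((x / 3 : ℕ) : F) * i) * hi - (((x / 3 : ℕ) : F) * i) * h3

lemma toF_conj [Fact (Nat.Prime 3)] (i : F) (hi : i ^ 2 = -1) (m : M9) :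
    (toF i m).map (frobenius F 3) = toF i (mC m) := by
  ext a b
  fin_cases a <;> fin_cases b <;> simp [toF, mC, ev_conj i hi]

lemma toF_tr (i : F) (m : M9) : (toF i m).transpose = toF i (mTr m) := by
  ext a b
  fin_cases a <;> fin_cases b <;> simp [toF, mTr]

lemma herm_pres [Fact (Nat.Prime 3)] (A : Matrix (Fin 3) (Fin 3) F)
    (hA : A.transpose * A.map (frobenius F 3) = 1) (u v : Fin 3 → F) :
    hermForm 3 F 3 (A.mulVec u) (A.mulVec v) = hermForm 3 F 3 u v := by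
  have key : ∀ v : Fin 3 → F, (fun k => (A.mulVec v) k ^ 3) =
      (A.map (frobenius F 3)).mulVec (fun k => v k ^ 3) := by
    intro v
    funext k
    have := RingHom.map_mulVec (frobenius F 3) A v k
    rw [frobenius_def] at this
    rw [this]
    congr 1
  have e1 : hermForm 3 F 3 (A.mulVec u) (A.mulVec v) =
      dotProduct (A.mulVec u) (fun k => (A.mulVec v) k ^ 3) := rfl
  have e2 : hermForm 3 F 3 u v = dotProduct u (fun k => v k ^ 3) := rfl
  rw [e1, e2, key, ← Matrix.vecMul_transpose, ← Matrix.dotProduct_mulVec, Matrix.mulVec_mulVec,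
    hA, Matrix.one_mulVec]

end Field

section Main

variable {F : Type*} [Field F] [CharP F 3] [Fact (Nat.Prime 3)] (i : F) (hi : i ^ 2 = -1)

include hi in
lemma det_gen (g : Fin 3) : (toF i (rE g)).det = 1 := by
  rw [toF_det i hi, check_det, ev_one]

include hi in
lemma unit_gen (g : Fin 3) : (toF i (rE g)).transpose * (toF i (rE g)).map (frobenius F 3) = 1 := by
  rw [toF_tr, toF_conj i hi, ← toF_mul i hi, check_unit, toF_one]

/-- Generators in `SU`. -/
def rSU (g : Fin 3) : SU 3 F 3 :=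
  ⟨⟨toF i (rE g), det_gen i hi g⟩, fun u v => herm_pres _ (unit_gen i hi g) u v⟩

lemma rSU_coe (g : Fin 3) : ((rSU i hi g : SU 3 F 3) : Matrix.SpecialLinearGroup (Fin 3) F).1
    = toF i (rE g) := rfl

/-- The value of a word. -/
def phi0 (l : List (Fin 3)) : SU 3 F 3 := (l.map (rSU i hi)).prod

lemma phi0_coe (l : List (Fin 3)) :
    ((phi0 i hi l : SU 3 F 3) : Matrix.SpecialLinearGroup (Fin 3) F).1 = toF i (evE l) := by
  induction l with
  | nil => simpa [phi0, evE] using (toF_one i).symm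
  | cons g l ih =>
    have : phi0 i hi (g :: l) = rSU i hi g * phi0 i hi l := by simp [phi0]
    rw [this]
    have e : evE (g :: l) = mM (rE g) (evE l) := rfl
    rw [e, toF_mul i hi, ← ih, ← rSU_coe i hi g]
    rfl

lemma phi0_eq_iff {l l' : List (Fin 3)} (h : evE l = evE l') : phi0 i hi l = phi0 i hi l' := by
  apply Subtype.ext
  apply Subtype.ext
  rw [phi0_coe, phi0_coe, h]

/-- The entries of a matrix in `SL₂`. -/
def qOf (x : Matrix.SpecialLinearGroup (Fin 2) Z7) : Q4 := ⟨x.1 0 0, x.1 0 1, x.1 1 0, x.1 1 1⟩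

lemma qOf_mul (x y : Matrix.SpecialLinearGroup (Fin 2) Z7) : qOf (x * y) = mulQ (qOf x) (qOf y) := by
  simp [qOf, mulQ, Matrix.mul_apply, Fin.sum_univ_two]

lemma qOf_inj {x y : Matrix.SpecialLinearGroup (Fin 2) Z7} (h : qOf x = qOf y) : x = y := by
  have h' := Q4.mk.inj h
  ext a b
  fin_cases a <;> fin_cases b
  · exact h'.1
  · exact h'.2.1
  · exact h'.2.2.1
  · exact h'.2.2.2

lemma qOf_det (x : Matrix.SpecialLinearGroup (Fin 2) Z7) :
    (qOf x).a * (qOf x).d - (qOf x).b * (qOf x).c = 1 := by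
  have := x.2
  rw [Matrix.det_fin_two] at this
  exact this

theorem gen_det : ∀ g : Fin 3, (genQ g).a * (genQ g).d - (genQ g).b * (genQ g).c = 1 := by
  decide +kernel

/-- The generators of `SL₂(7)`. -/
def genSL (g : Fin 3) : Matrix.SpecialLinearGroup (Fin 2) Z7 :=
  ⟨!![(genQ g).a, (genQ g).b; (genQ g).c, (genQ g).d], by
    rw [Matrix.det_fin_two_of]; exact gen_det g⟩

lemma qOf_gen (g : Fin 3) : qOf (genSL g) = genQ g := rfl

lemma qOf_prod (l : List (Fin 3)) : qOf (l.map genSL).prod = evQ l := by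
  induction l with
  | nil =>
    simp [qOf, evQ]
  | cons g l ih =>
    have : evQ (g :: l) = mulQ (genQ g) (evQ l) := rfl
    rw [List.map_cons, List.prod_cons, qOf_mul, this, qOf_gen, ih]

lemma prod_word (x : Matrix.SpecialLinearGroup (Fin 2) Z7) :
    ((w (qOf x)).map genSL).prod = x := by
  apply qOf_inj
  rw [qOf_prod]
  exact check1 _ _ _ _ (qOf_det x)

/-- The map on `SL₂(7)`. -/
def phi1 (x : Matrix.SpecialLinearGroup (Fin 2) Z7) : SU 3 F 3 := phi0 i hi (w (qOf x))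

lemma phi1_gen (x : Matrix.SpecialLinearGroup (Fin 2) Z7) (g : Fin 3) :
    phi1 i hi (x * genSL g) = phi1 i hi x * rSU i hi g := by
  apply Subtype.ext
  apply Subtype.ext
  show ((phi0 i hi (w (qOf (x * genSL g))) : SU 3 F 3) : Matrix.SpecialLinearGroup (Fin 3) F).1 =
    ((phi0 i hi (w (qOf x)) : SU 3 F 3) : Matrix.SpecialLinearGroup (Fin 3) F).1 *
      ((rSU i hi g : SU 3 F 3) : Matrix.SpecialLinearGroup (Fin 3) F).1
  rw [phi0_coe, phi0_coe, rSU_coe, ← toF_mul i hi, qOf_mul, qOf_gen]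
  exact congrArg (toF i) (check2 _ _ _ _ (qOf_det x) g)

lemma phi1_list (l : List (Fin 3)) (x : Matrix.SpecialLinearGroup (Fin 2) Z7) :
    phi1 i hi (x * (l.map genSL).prod) = phi1 i hi x * (l.map (rSU i hi)).prod := by
  induction l generalizing x with
  | nil => simp
  | cons g l ih =>
    rw [List.map_cons, List.prod_cons, ← mul_assoc, ih, phi1_gen, List.map_cons, List.prod_cons,
      mul_assoc]

lemma phi1_mul (x y : Matrix.SpecialLinearGroup (Fin 2) Z7) :
    phi1 i hi (x * y) = phi1 i hi x * phi1 i hi y := by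
  conv_lhs => rw [← prod_word y]
  rw [phi1_list]
  rfl

/-- The homomorphism on `SL₂(7)`. -/
def phi : Matrix.SpecialLinearGroup (Fin 2) Z7 →* SU 3 F 3 :=
  MonoidHom.mk' (phi1 i hi) (phi1_mul i hi)

lemma phi_gen0 : phi i hi (genSL 0) = rSU i hi 0 := by
  show phi0 i hi (w (qOf (genSL 0))) = _
  rw [qOf_gen, w_gen0]
  simp [phi0]

lemma phi_gen1 : phi i hi (genSL 1) = rSU i hi 1 := by
  show phi0 i hi (w (qOf (genSL 1))) = _
  rw [qOf_gen, w_gen1]
  simp [phi0]

lemma phi_scalar (x : Matrix.SpecialLinearGroup (Fin 2) Z7)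
    (hx : x ∈ Subgroup.center (Matrix.SpecialLinearGroup (Fin 2) Z7)) : phi i hi x = 1 := by
  obtain ⟨s, hs, hsx⟩ := Matrix.SpecialLinearGroup.mem_center_iff.1 hx
  have hq : qOf x = ⟨s, 0, 0, s⟩ := by
    have h : x.1 = Matrix.scalar (Fin 2) s := hsx.symm
    simp [qOf, h, Matrix.scalar_apply]
  show phi0 i hi (w (qOf x)) = 1
  rw [hq]
  have : phi0 i hi (w ⟨s, 0, 0, s⟩) = phi0 i hi [] :=
    phi0_eq_iff i hi (check3 s (by simpa using hs))
  rw [this]
  rfl

include hi in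
lemma not_central : ¬ (rSU i hi 1 ∈ Subgroup.center (SU 3 F 3)) := by
  intro h
  have h1 := (Subgroup.mem_center_iff.1 h) (rSU i hi 0)
  have h2 : toF i mS * toF i mT = toF i mT * toF i mS := by
    have := congrArg (fun z : SU 3 F 3 => (z : Matrix.SpecialLinearGroup (Fin 3) F).1) h1
    exact this
  rw [← toF_mul i hi, ← toF_mul i hi] at h2
  have h3 := congrFun (congrFun h2 0) 0
  have h4 : ev i (mM mS mT).a = ev i (mM mT mS).a := h3
  rw [comm_ne.1, comm_ne.2, ev_zero, ev_two] at h4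
  have : (1 : F) = 0 := by linear_combination -h4
  exact one_ne_zero this

end Main

/-- The projective special unitary group PSU₃(3) (realised over the field with 9 elements) has a subgroup isomorphic to PSL₂(7). -/
theorem result {F : Type*} [Field F] [Fintype F] (hF : Fintype.card F = 9)
    {K : Type*} [Field K] [Fintype K] (hK : Fintype.card K = 7) :
    ∃ H : Subgroup (Cfsg.PSU 3 F 3), Nonempty (H ≃* Matrix.ProjectiveSpecialLinearGroup (Fin 2) K) := by
  classical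
  -- the characteristic of `F`
  haveI : Fact (Nat.Prime 3) := ⟨Nat.prime_three⟩
  haveI : CharP F 3 := by
    obtain ⟨p, hp⟩ := CharP.exists F
    haveI := hp
    obtain ⟨n, hpp, hn⟩ := FiniteField.card F p
    have hd : p ∣ 3 ^ 2 := by
      have : p ^ (n : ℕ) = 3 ^ 2 := by rw [← hn, hF]; norm_num
      rw [← this]
      exact dvd_pow_self p n.ne_zero
    have hp3 : p = 3 := (Nat.prime_dvd_prime_iff_eq hpp Nat.prime_three).1
      (hpp.dvd_of_dvd_pow hd)
    rw [hp3] at hp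
    exact hp
  -- a square root of `-1`
  obtain ⟨i, hi'⟩ : IsSquare (-1 : F) := FiniteField.isSquare_neg_one_iff.2 (by rw [hF]; norm_num)
  have hi : i ^ 2 = -1 := by rw [hi']; ring
  -- the field `K`
  let e : Z7 ≃+* K := ZMod.ringEquivOfPrime K (by norm_num) hK
  let mapK : Matrix.SpecialLinearGroup (Fin 2) K →* Matrix.SpecialLinearGroup (Fin 2) Z7 :=
    Matrix.SpecialLinearGroup.map (e.symm : K →+* Z7)
  let mapZ : Matrix.SpecialLinearGroup (Fin 2) Z7 →* Matrix.SpecialLinearGroup (Fin 2) K :=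
    Matrix.SpecialLinearGroup.map (e : Z7 →+* K)
  have hmap : ∀ x, mapK (mapZ x) = x := by
    intro x
    ext a b
    show e.symm (e (x.1 a b)) = x.1 a b
    exact e.symm_apply_apply _
  have hcen : ∀ x ∈ Subgroup.center (Matrix.SpecialLinearGroup (Fin 2) K),
      mapK x ∈ Subgroup.center (Matrix.SpecialLinearGroup (Fin 2) Z7) := by
    intro x hx
    rw [Subgroup.mem_center_iff]
    intro y
    have h1 := (Subgroup.mem_center_iff.1 hx) (mapZ y)
    have h2 := congrArg mapK h1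
    rwa [map_mul, map_mul, hmap] at h2
  let Φ₀ : Matrix.SpecialLinearGroup (Fin 2) K →* Cfsg.PSU 3 F 3 :=
    (QuotientGroup.mk' (Subgroup.center (SU 3 F 3))).comp ((phi i hi).comp mapK)
  have hΦ₀ : ∀ x ∈ Subgroup.center (Matrix.SpecialLinearGroup (Fin 2) K), Φ₀ x = 1 := by
    intro x hx
    show QuotientGroup.mk' _ (phi i hi (mapK x)) = 1
    rw [phi_scalar i hi _ (hcen x hx), map_one]
  let Φ : Matrix.ProjectiveSpecialLinearGroup (Fin 2) K →* Cfsg.PSU 3 F 3 :=
    QuotientGroup.lift _ Φ₀ hΦ₀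
  haveI hs : IsSimpleGroup (Matrix.ProjectiveSpecialLinearGroup (Fin 2) K) :=
    Matrix.ProjectiveSpecialLinearGroup.rank_two_simple
      (by rw [Nat.card_eq_fintype_card, hK]; norm_num)
  have hinj : Function.Injective Φ := by
    rcases IsSimpleGroup.eq_bot_or_eq_top_of_normal Φ.ker inferInstance with h | h
    · exact (MonoidHom.ker_eq_bot_iff Φ).1 h
    · exfalso
      have h1 : Φ (QuotientGroup.mk (mapZ (genSL 1))) = 1 := by
        rw [← MonoidHom.mem_ker, h]; trivial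
      have h2 : Φ₀ (mapZ (genSL 1)) = 1 := h1
      have h3 : phi i hi (genSL 1) ∈ Subgroup.center (SU 3 F 3) := by
        have h4 : QuotientGroup.mk' (Subgroup.center (SU 3 F 3)) (phi i hi (mapK (mapZ (genSL 1)))) = 1 := h2
        rw [hmap] at h4
        exact (QuotientGroup.eq_one_iff _).1 h4
      rw [phi_gen1] at h3
      exact not_central i hi h3
  exact ⟨Φ.range, ⟨(MonoidHom.ofInjective hinj).symm⟩⟩

end Cfsg.Agent.S1897
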