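import Cfsg.Statements.S1898
import Cfsg.Agent.Lib.PGroups.ClassTwo

set_option autoImplicit false
open Cfsg

namespace Cfsg.Agent.S1898

open Cfsg.Agent.Lib.PGroups.ClassTwo
open scoped commutatorElement

variable {X : Type*} [Group X]

theorem comm_mem (x y : X) : ⁅x, y⁆ ∈ commutator X := by
  rw [commutator_def]
  exact Subgroup.commutator_mem_commutator (Subgroup.mem_top x) (Subgroup.mem_top y)

/-- Let X be a finite 2-group whose derived subgroup is elementary abelian and central. Then the subgroup generated by the elements of order dividing 4 has exponent dividing 4, and every automorphism of X fixing each element of order dividing 4 has 2-power order. -/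
theorem result {X : Type*} [Group X] [Finite X] (hX : IsPGroup 2 X)
    (hel : Cfsg.IsElementaryAbelian 2 (commutator X)) (hcen : commutator X ≤ Subgroup.center X) :
    (∀ x ∈ Subgroup.closure {g : X | g ^ 4 = 1}, x ^ 4 = 1) ∧
      ∀ φ : MulAut X, (∀ g : X, g ^ 4 = 1 → φ g = g) → ∃ k : ℕ, φ ^ (2 ^ k) = 1 := by
  classical
  have hc : ∀ a b : X, ⁅a, b⁆ ∈ Subgroup.center X := fun a b => hcen (comm_mem a b)
  have hc2 : ∀ a b : X, ⁅a, b⁆ ^ 2 = 1 := fun a b => hel.2 _ (comm_mem a b)
  have hmul4 : ∀ x y : X, (x * y) ^ 4 = x ^ 4 * y ^ 4 := by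
    intro x y
    rw [Cfsg.Agent.Lib.PGroups.ClassTwo.mul_pow hc]
    have : Nat.choose 4 2 = 2 * 3 := by decide
    rw [this, pow_mul, hc2, one_pow, mul_one]
  constructor
  · intro x hx
    induction hx using Subgroup.closure_induction with
    | mem x hx => exact hx
    | one => simp
    | mul x y _ _ hx hy => rw [hmul4, hx, hy, mul_one]
    | inv x _ hx => rw [inv_pow, hx, inv_one]
  · intro φ hφ
    obtain ⟨k, m, hm, hk⟩ := Nat.exists_eq_two_pow_mul_odd (n := orderOf φ) (orderOf_pos φ).ne'
    refine ⟨k, ?_⟩
    set β := φ ^ (2 ^ k) with hβ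
    have hβm : β ^ m = 1 := by
      rw [hβ, ← pow_mul, ← hk, pow_orderOf_eq_one]
    have hβ4 : ∀ g : X, g ^ 4 = 1 → β g = g := by
      intro g hg
      rw [hβ]
      generalize 2 ^ k = n
      induction n with
      | zero => simp
      | succ n ih => rw [pow_succ, MulAut.mul_apply, hφ g hg, ih]
    -- β fixes everything
    have key : ∀ j : ℕ, ∀ x : X, x ^ (2 ^ j) = 1 → β x = x := by
      intro j
      induction j with
      | zero =>
        intro x hx
        apply hβ4
        rw [pow_zero, pow_one] at hx
        simp [hx]
      | succ j ih =>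
        intro x hx
        have h1 : β (x ^ 2) = x ^ 2 := by
          apply ih
          rw [← pow_mul, ← pow_succ']
          exact hx
        rw [map_pow] at h1
        set y := x⁻¹ * β x with hy
        have hy2 : y ^ 2 = ⁅β x, x⁻¹⁆ := by
          rw [hy, Cfsg.Agent.Lib.PGroups.ClassTwo.mul_pow hc, h1]
          simp
        have hy4 : y ^ 4 = 1 := by
          rw [show 4 = 2 * 2 by norm_num, pow_mul, hy2, hc2]
        have hβy : β y = y := hβ4 y hy4
        have hbx : β x = x * y := by rw [hy]; group
        have hi : ∀ i : ℕ, (β ^ i) x = x * y ^ i := by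
          intro i
          induction i with
          | zero => simp
          | succ i ih' =>
            rw [pow_succ', MulAut.mul_apply, ih', map_mul, map_pow, hβy, hbx, pow_succ', mul_assoc]
        have hym : y ^ m = 1 := by
          have := hi m
          rw [hβm] at this
          simpa using this.symm
        have hy1 : y = 1 := by
          have h2 : orderOf y ∣ Nat.gcd m 4 := Nat.dvd_gcd (orderOf_dvd_of_pow_eq_one hym)
            (orderOf_dvd_of_pow_eq_one hy4)
          have h3 : Nat.gcd m 4 = 1 := by
            have h4 : Nat.Coprime m (2 ^ 2) := Nat.Coprime.pow_right 2 (Nat.coprime_two_right.mpr hm)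
            exact h4
          rw [h3, Nat.dvd_one, orderOf_eq_one_iff] at h2
          exact h2
        rw [hbx, hy1, mul_one]
    ext x
    obtain ⟨j, hj⟩ := hX x
    simpa using key j x hj

end Cfsg.Agent.S1898
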