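import Cfsg.Statements.S1899

set_option autoImplicit false
open Cfsg

namespace Cfsg.Agent.S1899

/-- Let a dihedral group of order 2n, n odd and n > 1, act on a finite abelian 2-group A through automorphisms d and t with d^n = 1, t² = 1 and t d t⁻¹ = d⁻¹, and suppose that d fixes only the identity. Then A is the internal direct product of C_A(t) and its image under d. -/
theorem result {A : Type*} [CommGroup A] [Finite A] (hA : IsPGroup 2 A)
    {n : ℕ} (hn : Odd n) (hn1 : 1 < n) (d t : MulAut A) (hd : d ^ n = 1) (ht : t ^ 2 = 1) (hdt : t * d * t⁻¹ = d⁻¹)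
    (hfix : ∀ a : A, d a = a → a = 1) :
    (MulEquiv.toMonoidHom t).eqLocus (MonoidHom.id A) ⊓ ((MulEquiv.toMonoidHom t).eqLocus (MonoidHom.id A)).map d.toMonoidHom = ⊥ ∧
      (MulEquiv.toMonoidHom t).eqLocus (MonoidHom.id A) ⊔ ((MulEquiv.toMonoidHom t).eqLocus (MonoidHom.id A)).map d.toMonoidHom = ⊤ := by
  classical
  -- basic relations
  have ht' : ∀ a, t (t a) = a := by
    intro a
    have := congrArg (fun f : MulAut A => f a) ht
    simpa [pow_two, MulAut.mul_apply] using this
  have htinv : t⁻¹ = t := by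
    rw [inv_eq_iff_mul_eq_one, ← pow_two, ht]
  have hdt' : ∀ a, t (d a) = d⁻¹ (t a) := by
    intro a
    have := congrArg (fun f : MulAut A => f (t a)) hdt
    simpa [MulAut.mul_apply, htinv, ht'] using this
  have hdt'' : ∀ a, t (d⁻¹ a) = d (t a) := by
    intro a
    have h1 := hdt' (d⁻¹ a)
    have h2 : d (d⁻¹ a) = a := by simp
    rw [h2] at h1
    conv_rhs => rw [h1]
    simp
  have hd2 : ∀ a, d (d a) = a → a = 1 := by
    intro a ha
    -- d^2 fixes a, n odd so d fixes a
    obtain ⟨m, rfl⟩ := hn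
    have hd2m : ∀ k : ℕ, (d ^ (2 * k)) a = a := by
      intro k
      induction k with
      | zero => simp
      | succ k ih =>
        rw [show 2 * (k + 1) = 2 * k + 2 by ring, pow_add, MulAut.mul_apply]
        simp [pow_two, MulAut.mul_apply, ha, ih]
    apply hfix
    have h1 : (d ^ (2 * m + 1)) a = a := by simp [hd]
    rw [pow_succ', MulAut.mul_apply, hd2m m] at h1
    exact h1
  -- the map s
  let s : A →* A :=
    { toFun := fun a => d a * (d⁻¹ a)⁻¹
      map_one' := by simp
      map_mul' := by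
        intro a b
        simp only [map_mul, mul_inv_rev]
        rw [mul_comm ((d⁻¹ b)⁻¹)]
        simp only [mul_assoc]
        rw [mul_left_comm (d b)] }
  have hs : ∀ a, s a = d a * (d⁻¹ a)⁻¹ := fun _ => rfl
  have hsinj : Function.Injective s := by
    rw [injective_iff_map_eq_one]
    intro a ha
    rw [hs, mul_inv_eq_one] at ha
    apply hd2
    have := congrArg d ha
    simpa using this
  have hssurj : Function.Surjective s := Finite.surjective_of_injective hsinj
  have hst : ∀ a, t (s a) = (s (t a))⁻¹ := by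
    intro a
    rw [hs, hs, map_mul, map_inv, hdt', hdt'']
    simp [mul_comm]
  have hmemC : ∀ a, a ∈ (MulEquiv.toMonoidHom t).eqLocus (MonoidHom.id A) ↔ t a = a := by
    intro a; rfl
  constructor
  · rw [eq_bot_iff]
    rintro x ⟨hx, c, hc, rfl⟩
    have hc' : t c = c := hc
    have hx' : t (d c) = d c := hx
    have h1 : t (d c) = d⁻¹ c := by rw [hdt', hc']
    rw [h1] at hx'
    have h2 : s c = 1 := by rw [hs, ← hx']; simp
    have h3 : c = 1 := hsinj (by rw [h2, map_one])
    simp [h3]
  · rw [eq_top_iff]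
    intro a _
    obtain ⟨c, hc⟩ := hssurj (a * (t a)⁻¹)
    have h1 : t c = c := by
      apply hsinj
      have h2 := hst c
      rw [hc, map_mul, map_inv, ht'] at h2
      have h3 : s (t c) = a * (t a)⁻¹ := by
        have := congrArg (·⁻¹) h2
        simpa [mul_comm] using this.symm
      rw [h3, hc]
    have h2 : a * (d c)⁻¹ ∈ (MulEquiv.toMonoidHom t).eqLocus (MonoidHom.id A) := by
      rw [hmemC, map_mul, map_inv, hdt', h1]
      have h3 : d c * (d⁻¹ c)⁻¹ = a * (t a)⁻¹ := hc
      have h4 : t a * (d⁻¹ c)⁻¹ = a * (d c)⁻¹ := by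
        rw [← div_eq_mul_inv, ← div_eq_mul_inv, div_eq_div_iff_mul_eq_mul] at h3 ⊢
        rw [mul_comm (t a), h3]
      exact h4
    have h5 : d c ∈ ((MulEquiv.toMonoidHom t).eqLocus (MonoidHom.id A)).map d.toMonoidHom :=
      ⟨c, (hmemC c).mpr h1, rfl⟩
    have h6 := Subgroup.mul_mem_sup h2 h5
    simpa using h6

end Cfsg.Agent.S1899
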