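import Cfsg.Statements.S1901
import Cfsg.Agent.Lib.Core.PSolvable3

set_option autoImplicit false
open Cfsg

namespace Cfsg.Agent.S1901

/-- Let G be a finite p-solvable group and Q a subgroup of order prime to p such that p divides the index of C_G(Q) in N_G(Q). Then Q normalizes no Sylow p-subgroup of G. -/
theorem result {G : Type*} [Group G] [Finite G] {p : ℕ} [Fact p.Prime]
    (hG : Cfsg.IsPSolvable p G) (Q : Subgroup G) (hQ : ¬ p ∣ Nat.card Q)
    (hA : p ∣ (Subgroup.centralizer (Q : Set G)).relIndex (Subgroup.normalizer (Q : Set G)))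
    (P : Sylow p G) : ¬ Q ≤ Subgroup.normalizer ((P : Subgroup G) : Set G) := by
  intro h
  have hp : p.Prime := Fact.out
  have hQc : (Nat.card Q).Coprime p := ((Nat.Prime.coprime_iff_not_dvd hp).mpr hQ).symm
  have hQP : ∀ y ∈ Q, ∀ u ∈ (P : Subgroup G), y * u * y⁻¹ ∈ (P : Subgroup G) :=
    Subgroup.le_normalizer_iff.mp h
  obtain ⟨S⟩ : Nonempty (Sylow p (Subgroup.normalizer (Q : Set G))) := inferInstance
  have hle : (S : Subgroup (Subgroup.normalizer (Q : Set G))) ≤
      (Subgroup.centralizer (Q : Set G)).subgroupOf (Subgroup.normalizer (Q : Set G)) := by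
    intro s hs
    rw [Subgroup.mem_subgroupOf, Subgroup.mem_centralizer_iff]
    intro y hy
    obtain ⟨k, hk⟩ := S.isPGroup' ⟨s, hs⟩
    refine (Cfsg.Agent.Lib.Core.PSolvable3.commute_of_normalize_sylow _ G le_rfl hG Q P hQc hQP
      (s : G) ⟨k, ?_⟩ (fun z hz => (Subgroup.mem_normalizer_iff.mp s.2 z).mp hz) y hy).symm
    have := congrArg (fun t => ((t : Subgroup.normalizer (Q : Set G)) : G)) (congrArg Subtype.val hk)
    simpa using this
  exact S.not_dvd_index (hA.trans (Subgroup.index_dvd_of_le hle))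

end Cfsg.Agent.S1901
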