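import Cfsg.Statements.S1902
import Mathlib
import Cfsg.Agent.S1302
import Cfsg.Agent.Lib.Core.PSolvable

set_option autoImplicit false
open Cfsg

namespace Cfsg.Agent.S1902


/-- Let p be an odd prime, G a finite p-solvable group, and B an elementary abelian subgroup of order p² such that B is the subgroup generated by the elements of order p of some Sylow p-subgroup of C_G(b₀), for some nontrivial b₀ ∈ B. Then every B-invariant subgroup of G of order prime to p lies in O_{p'}(G). -/
theorem result {G : Type*} [Group G] [Finite G] {p : ℕ} [Fact p.Prime] (hp : p ≠ 2)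
    (hG : Cfsg.IsPSolvable p G) (B : Subgroup G) (hB : Cfsg.IsElementaryAbelian p B) (hBc : Nat.card B = p ^ 2)
    (b₀ : G) (hb₀ : b₀ ∈ B) (hb₁ : b₀ ≠ 1) (P : Sylow p ↥(Subgroup.centralizer ({b₀} : Set G)))
    (hBP : B = Subgroup.closure {x : G | x ∈ ((P : Subgroup ↥(Subgroup.centralizer ({b₀} : Set G))).map
      (Subgroup.centralizer ({b₀} : Set G)).subtype : Subgroup G) ∧ orderOf x = p})
    (Q : Subgroup G) (hQ : ¬ p ∣ Nat.card Q) (hinv : ∀ b ∈ B, ∀ x ∈ Q, b * x * b⁻¹ ∈ Q) :
    Q ≤ Cfsg.pPrimeCore p G := by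
  classical
  have hpp : p.Prime := Fact.out
  have hBab : IsMulCommutative ↥B := hB.1
  have hAp : IsPGroup p ↥B := IsPGroup.of_card hBc
  refine Cfsg.Agent.S1302.result p hp (Cfsg.Agent.Lib.Core.PSolvable.isPConstrained_of_isPSolvable hG) B hBab hAp ?_ Q hQ ?_
  · intro x hxC hxo
    have hcx : ∀ y ∈ B, y * x = x * y := fun y hy => (Subgroup.mem_centralizer_iff.mp hxC) y hy
    have hx1 : IsPGroup p ↥(Subgroup.zpowers x) := by
      apply IsPGroup.of_card (n := 1)
      rw [Nat.card_zpowers, hxo, pow_one]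
    have hxN : Subgroup.zpowers x ≤ Subgroup.normalizer (B : Set G) := by
      rw [Subgroup.zpowers_le, Subgroup.mem_normalizer_iff]
      intro y
      constructor
      · intro hy
        have : x * y * x⁻¹ = y := by rw [← hcx y hy]; group
        rwa [this]
      · intro hy
        have h3 := hcx _ hy
        have : y = x * y * x⁻¹ := by
          have h4 : x⁻¹ * (x * y * x⁻¹ * x) = x⁻¹ * (x * (x * y * x⁻¹)) := by rw [h3]
          have h5 : x⁻¹ * (x * y * x⁻¹ * x) = y := by group
          have h6 : x⁻¹ * (x * (x * y * x⁻¹)) = x * y * x⁻¹ := by group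
          rw [h5, h6] at h4; exact h4
        rw [this]; exact hy
    have hDp : IsPGroup p ↥(Subgroup.zpowers x ⊔ B) := IsPGroup.to_sup_of_normal_right' hx1 hAp hxN
    have hDC : Subgroup.zpowers x ⊔ B ≤ (Subgroup.centralizer ({b₀} : Set G)) := by
      apply sup_le
      · rw [Subgroup.zpowers_le, Subgroup.mem_centralizer_iff]
        intro y hy
        rw [Set.mem_singleton_iff.mp hy]
        exact hcx b₀ hb₀
      · intro y hy
        rw [Subgroup.mem_centralizer_iff]
        intro z hz
        rw [Set.mem_singleton_iff.mp hz]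
        have := hBab.is_comm.comm ⟨b₀, hb₀⟩ ⟨y, hy⟩
        exact congrArg Subtype.val this
    let D : Subgroup ↥(Subgroup.centralizer ({b₀} : Set G)) := (Subgroup.zpowers x ⊔ B).subgroupOf (Subgroup.centralizer ({b₀} : Set G))
    have hDp' : IsPGroup p ↥D := by
      have : Nat.card D = Nat.card ↥(Subgroup.zpowers x ⊔ B) :=
        Nat.card_congr (Subgroup.subgroupOfEquivOfLe hDC).toEquiv
      obtain ⟨n, hn⟩ := IsPGroup.iff_card.mp hDp
      exact IsPGroup.of_card (n := n) (this.trans hn)
    obtain ⟨S, hS⟩ := hDp'.exists_le_sylow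
    obtain ⟨c, hc⟩ := MulAction.exists_smul_eq ↥(Subgroup.centralizer ({b₀} : Set G)) P S
    have hkey : ∀ y : G, ∀ hy : y ∈ (Subgroup.centralizer ({b₀} : Set G)), (⟨y, hy⟩ : ↥(Subgroup.centralizer ({b₀} : Set G))) ∈ (S : Subgroup ↥(Subgroup.centralizer ({b₀} : Set G))) → orderOf y = p →
        (c : G)⁻¹ * y * (c : G) ∈ B := by
      intro y hy hyS hyo
      have h1 : (c⁻¹ * ⟨y, hy⟩ * c : ↥(Subgroup.centralizer ({b₀} : Set G))) ∈ (P : Subgroup ↥(Subgroup.centralizer ({b₀} : Set G))) := by
        rw [← hc, Sylow.smul_def, Sylow.pointwise_smul_def, Subgroup.mem_pointwise_smul_iff_inv_smul_mem] at hyS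
        simpa [MulAut.smul_def, MulAut.conj_inv_apply] using hyS
      rw [hBP]
      apply Subgroup.subset_closure
      refine ⟨?_, ?_⟩
      · exact ⟨_, h1, rfl⟩
      · have : orderOf ((c : G)⁻¹ * y * (c : G)) = orderOf y := by
          have h0 : (c : G)⁻¹ * y * (c : G) = (MulAut.conj (c : G)⁻¹) y := by
            simp [MulAut.conj_apply]
          rw [h0]
          exact MulEquiv.orderOf_eq _ y
        rw [this, hyo]
    have hBS : ∀ y ∈ B, (c : G)⁻¹ * y * (c : G) ∈ B := by
      intro y hyB
      by_cases hy1 : y = 1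
      · simp [hy1, B.one_mem]
      have hyC : y ∈ (Subgroup.centralizer ({b₀} : Set G)) := hDC (Subgroup.mem_sup_right hyB)
      have hyS : (⟨y, hyC⟩ : ↥(Subgroup.centralizer ({b₀} : Set G))) ∈ (S : Subgroup ↥(Subgroup.centralizer ({b₀} : Set G))) := hS (Subgroup.mem_subgroupOf.mpr (Subgroup.mem_sup_right hyB))
      have hyo : orderOf y = p := orderOf_eq_prime (hB.2 y hyB) hy1
      exact hkey y hyC hyS hyo
    let f : ↥B → ↥B := fun y => ⟨(c : G)⁻¹ * y * (c : G), hBS y y.2⟩
    have hf : Function.Injective f := by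
      intro a b hab
      have := congrArg Subtype.val hab
      simp only [f] at this
      apply Subtype.ext
      have h2 : (c : G)⁻¹ * (a : G) * (c : G) = (c : G)⁻¹ * (b : G) * (c : G) := this
      simpa using h2
    have hsurj : Function.Surjective f := Finite.surjective_of_injective hf
    have hxC' : x ∈ (Subgroup.centralizer ({b₀} : Set G)) := hDC (Subgroup.mem_sup_left (Subgroup.mem_zpowers x))
    have hxS : (⟨x, hxC'⟩ : ↥(Subgroup.centralizer ({b₀} : Set G))) ∈ (S : Subgroup ↥(Subgroup.centralizer ({b₀} : Set G))) := hS (Subgroup.mem_subgroupOf.mpr (Subgroup.mem_sup_left (Subgroup.mem_zpowers x)))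
    have hxB := hkey x hxC' hxS hxo
    obtain ⟨y, hy⟩ := hsurj ⟨_, hxB⟩
    have h3 : (c : G)⁻¹ * (y : G) * (c : G) = (c : G)⁻¹ * x * (c : G) := congrArg Subtype.val hy
    have h4 : (y : G) = x := by simpa using h3
    rw [← h4]; exact y.2
  · intro b hb
    rw [Subgroup.mem_normalizer_iff]
    intro y
    constructor
    · intro hy; exact hinv b hb y hy
    · intro hy
      have hb' : b⁻¹ ∈ B := B.inv_mem hb
      have := hinv b⁻¹ hb' _ hy
      simpa [mul_assoc] using this

end Cfsg.Agent.S1902
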