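import Cfsg.Statements.S1903
import Cfsg.Agent.Lib.H1903.Struct
import Cfsg.Agent.Lib.H1903.Mat
import Mathlib

set_option autoImplicit false

open Cfsg

namespace Cfsg.Agent.S1903

open Cfsg.Agent.Lib.H1903

/-- A finite group of order 320 whose derived subgroup has order 64 and has centre a Klein four-group is isomorphic to the centralizer of an involution in PSU₃(4). -/
theorem result {G : Type*} [Group G] [Finite G] (hG : Nat.card G = 320) (hD : Nat.card (commutator G) = 64)
    (hZ : IsKleinFour (Subgroup.center (commutator G)))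
    {F : Type*} [Field F] [Fintype F] (hF : Fintype.card F = 16) :
    ∃ t : Cfsg.PSU 3 F 4, orderOf t = 2 ∧ Nonempty (G ≃* Subgroup.centralizer ({t} : Set (Cfsg.PSU 3 F 4))) := by
  haveI : Fact (Fintype.card F = 16) := ⟨hF⟩
  obtain ⟨a, y, r, g⟩ := exists_gens hG hD hZ
  obtain ⟨hc, hd, hk⟩ := hyp_Cn (F := F)
  obtain ⟨b, z, r', g'⟩ := exists_gens hc hd hk
  obtain ⟨E⟩ := nonempty_equiv_of_rel hG hc r r' g g'
  refine ⟨psuEquiv (tt (F := F)), ?_, ⟨E.trans (centralizerEquiv psuEquiv (tt (F := F)))⟩⟩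
  rw [MulEquiv.orderOf_eq, orderOf_tt]

end Cfsg.Agent.S1903
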