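import Cfsg.Statements.S1904
import Cfsg.Agent.Lib.NGP.Final3

set_option autoImplicit false
open Cfsg

namespace Cfsg.Agent.S1904

/-- Let X be a finite nonabelian 2-group with no normal abelian subgroup that is self-centralizing and contains an elementary abelian subgroup of order 8. Suppose a group A of automorphisms of X of odd order satisfies [X, A] = X. Then X is the quaternion group of order 8, or X is special of order 64 with exactly three involutions, all central, or X is extraspecial of order 32 with exactly eleven involutions (the central product of a quaternion group and a dihedral group of order 8). -/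
theorem result {X : Type*} [Group X] [Finite X] (hX : IsPGroup 2 X) (hna : ¬ IsMulCommutative X)
    (hscn : ¬ ∃ A : Subgroup X, A.Normal ∧ Subgroup.centralizer (A : Set X) = A ∧
      ∃ E : Subgroup X, E ≤ A ∧ Cfsg.IsElementaryAbelian 2 E ∧ Nat.card E = 8)
    (A : Subgroup (MulAut X)) (hA : Odd (Nat.card A))
    (hXA : Subgroup.closure {g : X | ∃ φ ∈ A, ∃ x : X, g = x⁻¹ * φ x} = ⊤) :
    Nonempty (X ≃* QuaternionGroup 2) ∨
      (Cfsg.IsSpecial 2 X ∧ Nat.card X = 64 ∧ Nat.card {x : X // orderOf x = 2} = 3 ∧
        ∀ x : X, orderOf x = 2 → x ∈ Subgroup.center X) ∨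
      (Cfsg.IsExtraspecial 2 X ∧ Nat.card X = 32 ∧ Nat.card {x : X // orderOf x = 2} = 11) := by
  have S : Cfsg.Agent.Lib.NGP.Setup A := by
    refine ⟨hX, hA, hXA, ?_⟩
    exact Cfsg.Agent.Lib.NGP.noE8_of_hscn hX hscn
  have hna' : ∃ a b : X, a * b ≠ b * a := by
    by_contra hcon
    push Not at hcon
    exact hna ⟨⟨hcon⟩⟩
  exact Cfsg.Agent.Lib.NGP.final S hna'
end Cfsg.Agent.S1904
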