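import Cfsg.Statements.S1905
import Cfsg.Agent.Lib.StrongEmb.Basic
import Cfsg.Agent.Lib.Involutions.Dihedral
import Cfsg.Agent.Lib.Coprime.Action

set_option autoImplicit false
open Cfsg

namespace Cfsg.Agent.S1905

open Subgroup Cfsg.Agent.Lib.Involutions.Dihedral Cfsg.Agent.Lib.StrongEmb.Basic
open Cfsg.Agent.Lib.Coprime.Action Cfsg.Agent.Lib.Coprime.SchurZassenhaus
open scoped Pointwise

section Part1

variable {S : Type*} [Group S] [Finite S] {M : Subgroup S}

omit [Finite S] in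
theorem mem_of_commute (hC : ∀ i ∈ M, orderOf i = 2 → Subgroup.centralizer ({i} : Set S) ≤ M)
    {i c : S} (hi : i ∈ M) (hi2 : orderOf i = 2) (hc : Commute c i) : c ∈ M :=
  hC i hi hi2 (Subgroup.mem_centralizer_singleton_iff.mpr hc)

theorem odd_of_mem_not_mem (hC : ∀ i ∈ M, orderOf i = 2 → Subgroup.centralizer ({i} : Set S) ≤ M)
    {a b : S} (ha : a ∈ M) (ha2 : orderOf a = 2) (hb : b ∉ M) (hb2 : orderOf b = 2) :
    Odd (orderOf (a * b)) := by
  by_contra hodd
  rw [Nat.not_odd_iff_even] at hodd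
  obtain ⟨hw, hwa, hwb⟩ := central_involution (sq_of_orderOf_two ha2) (sq_of_orderOf_two hb2) hodd
  have h1 := mem_of_commute hC ha ha2 hwa
  exact hb (mem_of_commute hC h1 hw hwb.symm)

theorem exists_involution_mem (hM : Even (Nat.card M)) : ∃ i ∈ M, orderOf i = 2 := by
  have : Fact (Nat.Prime 2) := ⟨Nat.prime_two⟩
  obtain ⟨x, hx⟩ := exists_prime_orderOf_dvd_card' (G := M) 2 hM.two_dvd
  exact ⟨x, x.2, by rwa [Subgroup.orderOf_coe]⟩

theorem exists_involution_not_mem (hM : Even (Nat.card M))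
    (hcore : Odd (Nat.card M.normalCore)) : ∃ u, u ∉ M ∧ orderOf u = 2 := by
  obtain ⟨i, hi, hi2⟩ := exists_involution_mem hM
  by_contra hall
  push Not at hall
  have hcoreM : i ∈ M.normalCore := by
    intro g
    by_contra hg
    exact hall _ hg (by rw [orderOf_conj', hi2]) 
  have h1 : 2 ∣ Nat.card M.normalCore := by
    rw [← hi2]
    exact Subgroup.orderOf_dvd_natCard _ hcoreM
  exact (Nat.not_even_iff_odd.mpr hcore) (even_iff_two_dvd.mpr h1)

theorem all_conj (hM : Even (Nat.card M))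
    (hC : ∀ i ∈ M, orderOf i = 2 → Subgroup.centralizer ({i} : Set S) ≤ M)
    (hcore : Odd (Nat.card M.normalCore)) {x y : S} (hx : orderOf x = 2) (hy : orderOf y = 2) :
    IsConj x y := by
  obtain ⟨i, hi, hi2⟩ := exists_involution_mem hM
  obtain ⟨u, hu, hu2⟩ := exists_involution_not_mem hM hcore
  have key : ∀ {a b : S}, a ∈ M → orderOf a = 2 → b ∉ M → orderOf b = 2 → IsConj a b := by
    intro a b ha ha2 hb hb2
    obtain ⟨d, -, hd⟩ := exists_conj_of_odd (sq_of_orderOf_two ha2) (sq_of_orderOf_two hb2)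
      (odd_of_mem_not_mem hC ha ha2 hb hb2)
    exact isConj_iff.mpr ⟨d, hd⟩
  have toU : ∀ {a : S}, orderOf a = 2 → IsConj a u := by
    intro a ha
    by_cases haM : a ∈ M
    · exact key haM ha hu hu2
    · exact (key hi hi2 haM ha).symm.trans (key hi hi2 hu hu2)
  exact (toU hx).trans (toU hy).symm

end Part1

section Part2

variable {S : Type*} [Group S] [Finite S] {M : Subgroup S}

theorem card_of_fibers {K Y : Type*} [Group K] [Finite K] (L : Subgroup K) (φ : K → Y)
    (hs : Function.Surjective φ) (hf : ∀ a b, φ a = φ b ↔ a⁻¹ * b ∈ L) :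
    Nat.card K = Nat.card Y * Nat.card L := by
  have e : K ⧸ L ≃ Y := Equiv.ofBijective
    (Quotient.lift φ (fun a b hab => (hf a b).mpr (QuotientGroup.leftRel_apply.mp hab))) (by
      constructor
      · intro p q
        induction p using QuotientGroup.induction_on with
        | H a =>
        induction q using QuotientGroup.induction_on with
        | H b =>
          intro he
          exact QuotientGroup.eq.mpr ((hf a b).mp he)
      · intro y
        obtain ⟨k, rfl⟩ := hs y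
        exact ⟨(k : K ⧸ L), rfl⟩)
  rw [← Nat.card_congr e]
  exact Subgroup.card_eq_card_quotient_mul_card_subgroup L

omit [Finite S] in
theorem conj_eq_iff (a b z : S) :
    a * z * a⁻¹ = b * z * b⁻¹ ↔ a⁻¹ * b ∈ centralizer ({z} : Set S) := by
  rw [Subgroup.mem_centralizer_singleton_iff]
  constructor
  · intro h
    calc (a⁻¹ * b) * z = a⁻¹ * (b * z * b⁻¹) * b := by group
      _ = a⁻¹ * (a * z * a⁻¹) * b := by rw [h]
      _ = _ := by group
  · intro h
    calc a * z * a⁻¹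
        = a * ((z * (a⁻¹ * b)) * (a⁻¹ * b)⁻¹) * a⁻¹ := by group
      _ = a * (((a⁻¹ * b) * z) * (a⁻¹ * b)⁻¹) * a⁻¹ := by rw [h]
      _ = _ := by group

theorem card_subgroupOf' (A B : Subgroup S) :
    Nat.card (A.subgroupOf B) = Nat.card (A ⊓ B : Subgroup S) := by
  rw [← Subgroup.subgroupOf_map_subtype]
  exact (Subgroup.card_map_of_injective B.subtype_injective).symm

/-- involutions of `M` are `M`-conjugate to `I`. -/
theorem exists_conj_in (hM : Even (Nat.card M))
    (hC : ∀ i ∈ M, orderOf i = 2 → Subgroup.centralizer ({i} : Set S) ≤ M)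
    (hcore : Odd (Nat.card M.normalCore)) (X : Sylow 2 M) {I' : S} (hI2 : orderOf I' = 2)
    (hXc : ∀ x ∈ (X : Subgroup M).map M.subtype, x * I' = I' * x)
    (hN : Subgroup.normalizer (((X : Subgroup M).map M.subtype : Subgroup S) : Set S) ≤ M)
    {i : S} (hi : i ∈ M) (hi2 : orderOf i = 2) : ∃ h ∈ M, h * I' * h⁻¹ = i := by
  have : Fact (Nat.Prime 2) := ⟨Nat.prime_two⟩
  obtain ⟨g, rfl⟩ := isConj_iff.mp (all_conj hM hC hcore hI2 hi2)
  refine ⟨g, ?_, rfl⟩
  set Xh := (X : Subgroup M).map M.subtype with hXh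
  have hs1 : IsSylowIn 2 Xh M := isSylowIn_map X
  have hX2M : MulAut.conj g • Xh ≤ M := by
    intro y hy
    rw [mem_conj_smul_iff] at hy
    refine hC _ hi hi2 ?_
    rw [Subgroup.mem_centralizer_singleton_iff]
    have h1 := hXc _ hy
    calc y * (g * I' * g⁻¹) = g * ((g⁻¹ * y * g) * I') * g⁻¹ := by group
      _ = g * (I' * (g⁻¹ * y * g)) * g⁻¹ := by rw [h1]
      _ = g * I' * g⁻¹ * y := by group
  have hs2 : IsSylowIn 2 (MulAut.conj g • Xh) M := by
    refine ⟨hX2M, hs1.2.1.map _, ?_⟩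
    rw [relIndex_eq_of_card_eq hX2M hs1.1 (card_conj_smul g Xh)]
    exact hs1.2.2
  obtain ⟨m, hmM, hm⟩ := hs2.exists_conj hs1
  have hmg : m * g ∈ normalizer (Xh : Set S) := by
    apply mem_normalizer_of_conj_smul_eq
    rw [conj_mul_smul]
    exact hm
  have := M.mul_mem (M.inv_mem hmM) (hN hmg)
  simpa using this

/-- `M` is strongly embedded. -/
theorem isStronglyEmbedded (hM : Even (Nat.card M))
    (hC : ∀ i ∈ M, orderOf i = 2 → Subgroup.centralizer ({i} : Set S) ≤ M)
    (hcore : Odd (Nat.card M.normalCore)) {I' : S} (hIM : I' ∈ M) (hI2 : orderOf I' = 2)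
    (hconj : ∀ i ∈ M, orderOf i = 2 → ∃ h ∈ M, h * I' * h⁻¹ = i) : IsStronglyEmbedded M := by
  obtain ⟨u, hu, -⟩ := exists_involution_not_mem hM hcore
  refine ⟨fun h => hu (by rw [h]; trivial), hM, ?_⟩
  intro g hg
  by_contra hodd
  rw [Nat.not_odd_iff_even] at hodd
  obtain ⟨i, hi, hi2⟩ := exists_involution_mem hodd
  have hi1 : i ∈ M := hi.1
  have hi3 : g⁻¹ * i * g ∈ M := mem_map_conj_iff.mp hi.2
  have hi4 : orderOf (g⁻¹ * i * g) = 2 := by
    have := orderOf_conj' g⁻¹ i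
    rw [inv_inv] at this
    rw [this, hi2]
  obtain ⟨h, hh, e1⟩ := hconj i hi1 hi2
  obtain ⟨h', hh', e2⟩ := hconj _ hi3 hi4
  have e3 : h * I' * h⁻¹ = (g * h') * I' * (g * h')⁻¹ := by
    rw [e1]
    calc i = g * (g⁻¹ * i * g) * g⁻¹ := by group
      _ = g * (h' * I' * h'⁻¹) * g⁻¹ := by rw [e2]
      _ = _ := by group
  have h4 := hC I' hIM hI2 ((conj_eq_iff _ _ _).mp e3)
  apply hg
  have e4 : g = h * (h⁻¹ * (g * h')) * h'⁻¹ := by group
  rw [e4]
  exact M.mul_mem (M.mul_mem hh h4) (M.inv_mem hh')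

theorem main_factor (hSE : IsStronglyEmbedded M) {I' : S} (hIM : I' ∈ M) (hI2 : orderOf I' = 2)
    (hC : centralizer ({I'} : Set S) ≤ M)
    (hconj : ∀ i ∈ M, orderOf i = 2 → ∃ h ∈ M, h * I' * h⁻¹ = i) :
    ∃ M₀ : Subgroup S, M₀ ≤ M ∧ Odd (Nat.card M₀) ∧
      ∀ m ∈ M, ∃ a ∈ M₀, ∃ c ∈ centralizer ({I'} : Set S), m = a * c := by
  classical
  -- choice of `g₀`
  have hne : Nonempty {g : S // g ∉ M} := by
    obtain ⟨g, hg⟩ : ∃ g, g ∉ M := by
      by_contra hall
      push Not at hall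
      exact hSE.1 (eq_top_iff.mpr fun x _ => hall x)
    exact ⟨⟨g, hg⟩⟩
  obtain ⟨⟨g₀, hg₀⟩, hmax⟩ := Finite.exists_max
    (fun g : {g : S // g ∉ M} => Nat.card (M ⊓ M.map (MulAut.conj (g : S)).toMonoidHom : Subgroup S))
  set M₀ : Subgroup S := M ⊓ M.map (MulAut.conj g₀).toMonoidHom with hM₀
  have hM₀M : M₀ ≤ M := inf_le_left
  set C := centralizer ({I'} : Set S) with hCdef
  let α : S ⧸ M := ((1 : S) : S ⧸ M)
  let β : S ⧸ M := (g₀ : S ⧸ M)
  let β' : S ⧸ M := I' • β
  have hαβ : α ≠ β := by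
    intro h
    apply hg₀
    have := (mk_eq_mk_iff (H := M) 1 g₀).mp h
    simpa using this
  have hIα : I' • α = α := by
    show I' • (((1 : S) : S ⧸ M)) = _
    rw [smul_mk_eq_mk_iff]
    simpa using hIM
  have hββ' : β ≠ β' := by
    intro h
    exact hαβ (fixed_unique hSE hI2 hIα h.symm)
  have hI'β' : I' • β' = β := by
    show I' • I' • β = β
    rw [smul_smul, mul_self_of_sq (sq_of_orderOf_two hI2), one_smul]
  -- the two point stabilizer
  let T : Subgroup S := MulAction.stabilizer S β ⊓ MulAction.stabilizer S β'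
  have hTcard : Nat.card T ≤ Nat.card M₀ := by
    set g₁ := g₀⁻¹ * I' * g₀ with hg₁
    have hg₁M : g₁ ∉ M := by
      intro h
      apply hββ'
      show (g₀ : S ⧸ M) = I' • (g₀ : S ⧸ M)
      show (g₀ : S ⧸ M) = ((I' * g₀ : S) : S ⧸ M)
      rw [mk_eq_mk_iff, ← mul_assoc]
      exact h
    have h1 := hmax ⟨g₁, hg₁M⟩
    refine le_trans ?_ h1
    have h2 : T.map (MulAut.conj g₀⁻¹).toMonoidHom ≤ M ⊓ M.map (MulAut.conj g₁).toMonoidHom := by
      rintro _ ⟨d, hd, rfl⟩
      have hd1 : d • β = β := hd.1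
      have hd2 : d • β' = β' := hd.2
      have h3 : g₀⁻¹ * d * g₀ ∈ M := (smul_mk_eq_mk_iff d g₀).mp hd1
      have h4 : (I' * g₀)⁻¹ * d * (I' * g₀) ∈ M := (smul_mk_eq_mk_iff d (I' * g₀)).mp hd2
      have e : (MulAut.conj g₀⁻¹).toMonoidHom d = g₀⁻¹ * d * g₀ := by
        simp [MulAut.conj_apply]
      rw [e]
      refine ⟨h3, mem_map_conj_iff.mpr ?_⟩
      convert h4 using 1
      rw [hg₁]
      group
    have h3 := Subgroup.card_le_of_le h2
    rwa [Subgroup.card_map_of_injective (MulAut.conj g₀⁻¹).injective] at h3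
  -- counts
  let Inv : Type _ := {t : S // orderOf t = 2 ∧ t ∈ M}
  have hcount1 : Nat.card M = Nat.card Inv * Nat.card C := by
    have hmem : ∀ m : M, orderOf ((m : S) * I' * (m : S)⁻¹) = 2 ∧ (m : S) * I' * (m : S)⁻¹ ∈ M := by
      intro m
      exact ⟨by rw [orderOf_conj', hI2], M.mul_mem (M.mul_mem m.2 hIM) (M.inv_mem m.2)⟩
    have := card_of_fibers (K := M) (C.subgroupOf M) (fun m => (⟨(m : S) * I' * (m : S)⁻¹, hmem m⟩ : Inv))
      (by
        rintro ⟨i, hi2, hi⟩
        obtain ⟨h, hh, e⟩ := hconj i hi hi2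
        exact ⟨⟨h, hh⟩, Subtype.ext e⟩)
      (by
        intro a b
        rw [Subtype.ext_iff, Subgroup.mem_subgroupOf]
        exact conj_eq_iff _ _ _)
    rwa [card_subgroupOf_of_le hC] at this
  let Sw : Type _ := {i : S // orderOf i = 2 ∧ i • β = β'}
  have hSw : Nat.card Sw = Nat.card Inv := card_swap hSE hββ'
  have hcount2 : Nat.card T = Nat.card Sw * Nat.card (C ⊓ T : Subgroup S) := by
    have hmem : ∀ t : T, orderOf ((t : S) * I' * (t : S)⁻¹) = 2 ∧ ((t : S) * I' * (t : S)⁻¹) • β = β' := by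
      intro t
      refine ⟨by rw [orderOf_conj', hI2], ?_⟩
      have h1 : (t : S) • β = β := t.2.1
      have h2 : (t : S) • β' = β' := t.2.2
      have h3 : (t : S)⁻¹ • β = β := by
        conv_lhs => rw [← h1]
        rw [inv_smul_smul]
      rw [mul_smul, mul_smul, h3]
      show (t : S) • β' = β'
      exact h2
    have := card_of_fibers (K := T) (C.subgroupOf T) (fun t => (⟨(t : S) * I' * (t : S)⁻¹, hmem t⟩ : Sw))
      (by
        rintro ⟨i, hi2, hi⟩
        have hI2' := sq_of_orderOf_two hI2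
        have hi2' := sq_of_orderOf_two hi2
        have hiβ' : i • β' = β := by rw [← hi, smul_smul, mul_self_of_sq hi2', one_smul]
        have hr1 : (I' * i) • β = β := by rw [mul_smul, hi]; exact hI'β'
        have hr2 : (I' * i) • β' = β' := by rw [mul_smul, hiβ']
        obtain ⟨k, hk⟩ := odd_orderOf_of_fix_two hSE hββ' hr1 hr2
        have hrT : I' * i ∈ T := ⟨hr1, hr2⟩
        refine ⟨⟨(I' * i) ^ (-((k : ℤ) + 1)), T.zpow_mem hrT _⟩, Subtype.ext ?_⟩
        show (I' * i) ^ (-((k : ℤ) + 1)) * I' * ((I' * i) ^ (-((k : ℤ) + 1)))⁻¹ = i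
        rw [conj_rot hI2' hi2']
        have h1 : (I' * i) ^ (-(2 * -((k : ℤ) + 1))) = I' * i := by
          have h5 : (-(2 * -((k : ℤ) + 1))) = ((orderOf (I' * i) : ℕ) : ℤ) + 1 := by
            rw [hk]; push_cast; ring
          rw [h5, zpow_add, zpow_natCast, pow_orderOf_eq_one, one_mul, zpow_one]
        rw [h1, ← mul_assoc, mul_self_of_sq hI2', one_mul])
      (by
        intro a b
        rw [Subtype.ext_iff, Subgroup.mem_subgroupOf]
        exact conj_eq_iff _ _ _)
    rwa [card_subgroupOf' C T] at this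
  have hinf : C ⊓ T = C ⊓ M₀ := by
    ext x
    constructor
    · rintro ⟨hxC, hxT⟩
      refine ⟨hxC, hC hxC, mem_map_conj_iff.mpr ?_⟩
      exact (smul_mk_eq_mk_iff x g₀).mp hxT.1
    · rintro ⟨hxC, -, hx⟩
      have hx1 : x • β = β := (smul_mk_eq_mk_iff x g₀).mpr (mem_map_conj_iff.mp hx)
      refine ⟨hxC, hx1, ?_⟩
      show x • I' • β = I' • β
      have hcomm : x * I' = I' * x := Subgroup.mem_centralizer_singleton_iff.mp hxC
      rw [smul_smul, hcomm, mul_smul, hx1]
  -- cosets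
  let A : Subgroup M := M₀.subgroupOf M
  have hAcard : Nat.card A = Nat.card M₀ := card_subgroupOf_of_le hM₀M
  let ψ : C → M ⧸ A := fun c => ((⟨c, hC c.2⟩ : M) : M ⧸ A)
  let Y : Set (M ⧸ A) := Set.range ψ
  have hcount3 : Nat.card C = Nat.card Y * Nat.card (C ⊓ M₀ : Subgroup S) := by
    have := card_of_fibers (K := C) (M₀.subgroupOf C)
      (fun c => (⟨ψ c, c, rfl⟩ : Y))
      (by rintro ⟨_, c, rfl⟩; exact ⟨c, rfl⟩)
      (by
        intro a b
        rw [Subtype.ext_iff]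
        show (((⟨a, hC a.2⟩ : M) : M ⧸ A) = ((⟨b, hC b.2⟩ : M) : M ⧸ A)) ↔ _
        rw [QuotientGroup.eq]
        rfl)
    rw [card_subgroupOf' M₀ C, inf_comm] at this
    exact this
  have hQ : Nat.card M = Nat.card (M ⧸ A) * Nat.card M₀ := by
    rw [← hAcard]
    exact Subgroup.card_eq_card_quotient_mul_card_subgroup A
  have hpos : 0 < Nat.card M₀ := Nat.card_pos
  have hle : Nat.card (M ⧸ A) ≤ Nat.card Y := by
    have h1 : Nat.card (M ⧸ A) * Nat.card M₀ ≤ Nat.card Y * Nat.card M₀ := by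
      rw [← hQ, hcount1, hcount3, ← hSw]
      rw [hinf] at hcount2
      calc Nat.card Sw * (Nat.card Y * Nat.card (C ⊓ M₀ : Subgroup S))
          = Nat.card Y * (Nat.card Sw * Nat.card (C ⊓ M₀ : Subgroup S)) := by ring
        _ = Nat.card Y * Nat.card T := by rw [hcount2]
        _ ≤ Nat.card Y * Nat.card M₀ := Nat.mul_le_mul_left _ hTcard
    exact Nat.le_of_mul_le_mul_right h1 hpos
  have hY : Y = Set.univ := by
    apply Set.eq_of_subset_of_ncard_le (Set.subset_univ _)
    rw [Set.ncard_univ]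
    exact hle
  refine ⟨M₀, hM₀M, ?_, ?_⟩
  · exact hSE.2.2 g₀ hg₀
  · intro m hm
    have h1 : (((⟨m, hm⟩ : M)⁻¹ : M) : M ⧸ A) ∈ Y := by rw [hY]; trivial
    obtain ⟨c, hc⟩ := h1
    have h2 := QuotientGroup.eq.mp hc
    have h3 : (c : S)⁻¹ * m⁻¹ ∈ M₀ := h2
    refine ⟨((c : S)⁻¹ * m⁻¹)⁻¹, M₀.inv_mem h3, (c : S)⁻¹, C.inv_mem c.2, ?_⟩
    group

end Part2

/-- Let M be a subgroup of even order of a finite group S such that M contains the centralizer in S of each of its involutions and the normal core of M in S has odd order. Then all involutions of S are conjugate. If moreover N_S(X) ≤ M for a Sylow 2-subgroup X of M and I is an involution in the centre of X, then all involutions of M are conjugate in M and M = M₀ C_M(I) for some subgroup M₀ of M of odd order. -/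
theorem result {S : Type*} [Group S] [Finite S] (M : Subgroup S) (hM : Even (Nat.card M))
    (hC : ∀ i ∈ M, orderOf i = 2 → Subgroup.centralizer ({i} : Set S) ≤ M) (hcore : Odd (Nat.card M.normalCore)) :
    (∀ x y : S, orderOf x = 2 → orderOf y = 2 → IsConj x y) ∧
      ∀ (X : Sylow 2 M) (I : M), I ∈ (Subgroup.center ↥(X : Subgroup ↥M)).map (X : Subgroup ↥M).subtype → orderOf I = 2 →
        Subgroup.normalizer (((X : Subgroup M).map M.subtype : Subgroup S) : Set S) ≤ M →
        (∀ x y : M, orderOf x = 2 → orderOf y = 2 → IsConj x y) ∧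
          ∃ M₀ : Subgroup M, Odd (Nat.card M₀) ∧
            ∀ m : M, ∃ a ∈ M₀, ∃ c ∈ Subgroup.centralizer ({I} : Set M), m = a * c := by
  refine ⟨fun x y hx hy => all_conj hM hC hcore hx hy, ?_⟩
  intro X I hI hI2 hN
  have hI2' : orderOf (I : S) = 2 := by rwa [Subgroup.orderOf_coe]
  have hXc : ∀ x ∈ (X : Subgroup M).map M.subtype, x * (I : S) = (I : S) * x := by
    rintro _ ⟨x, hx, rfl⟩
    obtain ⟨w, hw, rfl⟩ := hI
    have h3 := Subgroup.mem_center_iff.mp hw ⟨x, hx⟩
    have h4 := congrArg (fun y : X => ((y : M) : S)) h3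
    exact h4
  have hconj := fun i hi hi2 => exists_conj_in hM hC hcore X hI2' hXc hN (i := i) hi hi2
  have hSE := isStronglyEmbedded hM hC hcore I.2 hI2' hconj
  refine ⟨?_, ?_⟩
  · have key : ∀ x : M, orderOf x = 2 → IsConj I x := by
      intro x hx
      obtain ⟨h, hh, e⟩ := hconj x x.2 (by rwa [Subgroup.orderOf_coe])
      exact isConj_iff.mpr ⟨⟨h, hh⟩, Subtype.ext e⟩
    intro x y hx hy
    exact (key x hx).symm.trans (key y hy)
  · obtain ⟨M₀, hM₀M, hodd, hfac⟩ := main_factor hSE I.2 hI2' (hC I I.2 hI2') hconj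
    refine ⟨M₀.subgroupOf M, ?_, ?_⟩
    · rwa [card_subgroupOf_of_le hM₀M]
    · intro m
      obtain ⟨a, ha, c, hc, e⟩ := hfac m m.2
      have hcM : c ∈ M := hC I I.2 hI2' hc
      have haM : a ∈ M := hM₀M ha
      refine ⟨⟨a, haM⟩, ha, ⟨c, hcM⟩, ?_, Subtype.ext e⟩
      rw [Subgroup.mem_centralizer_singleton_iff]
      apply Subtype.ext
      exact Subgroup.mem_centralizer_singleton_iff.mp hc

end Cfsg.Agent.S1905
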