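import Cfsg.Statements.S1906
import Mathlib
import Cfsg.Agent.Lib.GL3Syl.Line

set_option autoImplicit false
open Cfsg

namespace Cfsg.Agent.S1906

/-- Let G be a finite group with no subgroup of index 2 whose Sylow 2-subgroup X embeds in GL₃(F) for a finite field F of odd order. If X contains an elementary abelian subgroup of order 8, then X is abelian. -/
theorem result {G : Type*} [Group G] [Finite G] (hG : ∀ H : Subgroup G, H.index ≠ 2) (X : Sylow 2 G)
    {F : Type*} [Field F] [Fintype F] (hF : Odd (Fintype.card F))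
    (f : ↥(X : Subgroup G) →* GL (Fin 3) F) (hf : Function.Injective f)
    (E : Subgroup G) (hE : E ≤ (X : Subgroup G)) (hEa : Cfsg.IsElementaryAbelian 2 E) (hE8 : Nat.card E = 8) :
    IsMulCommutative (X : Subgroup G) := by
  classical
  have hodd : Odd (Nat.card F) := by rwa [Nat.card_eq_fintype_card]
  let ρ : ↥(X : Subgroup G) →* Module.End F (Fin 3 → F) :=
    { toFun := fun x => Matrix.toLin' (f x : Matrix (Fin 3) (Fin 3) F)
      map_one' := by
        simp only [map_one, Units.val_one, Matrix.toLin'_one]
        rfl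
      map_mul' := fun a b => by
        rw [map_mul, Units.val_mul, Matrix.toLin'_mul]
        rfl }
  have hρ : ∀ x, ρ x = 1 → x = 1 := by
    intro x hx
    apply hf
    rw [map_one]
    apply Units.ext
    apply Matrix.toLin'.injective
    rw [Units.val_one, Matrix.toLin'_one]
    exact hx
  obtain ⟨χ, ψ, hinj⟩ := Cfsg.Agent.Lib.GL3Syl.Line.exists_block X.isPGroup' hodd (V := Fin 3 → F) (by simp) ρ hρ
  exact Cfsg.Agent.Lib.GL3Syl.Linear.comm_of_block hG X (Cfsg.Agent.Lib.GL3Syl.Line.two_ne_zero_of_odd hodd) χ ψ hinj E hE hEa hE8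

end Cfsg.Agent.S1906
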