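import Cfsg.Agent.Lib.InvolChar.TransferTwo
import Cfsg.Agent.Lib.Core.Residual
-- Template for statement S1924 (row 1924; see /opt/grader/pristine/manifest.json for weights).
-- Copy to Cfsg/Agent/S1924.lean and replace the sorry. The statement below is byte-identical to the frozen
-- statement Cfsg.CfsgFrozen.S1924 (Cfsg/Statements/S1924.lean; the theorem Cfsg.lsp3_thompson_transfer_dihedral_complement);
-- the grader kernel-checks Cfsg.Agent.S1924.result against that frozen type. Keep the theorem IN THIS FILE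
-- (a `result` declared elsewhere and merely imported here is not credited); helpers may live anywhere
-- under Cfsg/Agent/.
import Cfsg.Statements.S1924
-- import your own Cfsg.Agent.* helpers here

set_option autoImplicit false
open Cfsg

namespace Cfsg.Agent.S1924


set_option autoImplicit false

open Cfsg.Agent.Lib.InvolChar.TransferTwo Cfsg.Agent.Lib.Core.Residual

/-- A permutation of even period `2^(j+1)` whose `2^j`-th power has no fixed point, on a set of size `2^(j+1) * odd`, is an odd permutation. -/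
theorem sign_eq_neg_one {α : Type*} [Fintype α] [DecidableEq α] (σ : Equiv.Perm α) (j m : ℕ)
    (hord : σ ^ (2 ^ (j + 1)) = 1) (hfree : ∀ a : α, (σ ^ (2 ^ j)) a ≠ a)
    (hm : Odd m) (hcard : Fintype.card α = 2 ^ (j + 1) * m) :
    Equiv.Perm.sign σ = -1 := by
  classical
  have hlen : ∀ n ∈ σ.cycleType, n = 2 ^ (j + 1) := by
    intro n hn
    have hdvd : n ∣ 2 ^ (j + 1) :=
      (Equiv.Perm.dvd_of_mem_cycleType hn).trans (orderOf_dvd_of_pow_eq_one hord)
    obtain ⟨i, hi, rfl⟩ := (Nat.dvd_prime_pow Nat.prime_two).1 hdvd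
    rcases Nat.lt_or_ge i (j + 1) with hij | hij
    · exfalso
      rw [Equiv.Perm.mem_cycleType_iff] at hn
      obtain ⟨c, τ, hσ, hd, hc, hcard'⟩ := hn
      have hne : c.support.Nonempty := by
        rw [Finset.nonempty_iff_ne_empty]
        intro h
        rw [h] at hcard'
        simp at hcard'
        have := pow_pos (show 0 < 2 by norm_num) i
        omega
      obtain ⟨a, ha⟩ := hne
      have hca : c ^ (2 ^ i) = 1 := by
        rw [← hcard', ← hc.orderOf, pow_orderOf_eq_one]
      have hτ : τ a = a := by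
        exact (hd a).resolve_left (Equiv.Perm.mem_support.1 ha)
      have hcomm : Commute c τ := hd.commute
      have h1 : (σ ^ (2 ^ j)) a = a := by
        rw [hσ, hcomm.mul_pow]
        have : c ^ (2 ^ j) = 1 := by
          have hdv : 2 ^ i ∣ 2 ^ j := pow_dvd_pow 2 (by omega)
          obtain ⟨t, ht⟩ := hdv
          rw [ht, pow_mul, hca, one_pow]
        rw [this, one_mul]
        have hτa : (τ ^ (2 ^ j)) a = a := by
          have : Function.IsFixedPt τ a := hτ
          exact (this.iterate (2 ^ j)) |> fun h => by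
            rw [Equiv.Perm.iterate_eq_pow] at h
            exact h
        exact hτa
      exact hfree a h1
    · have : i = j + 1 := by omega
      rw [this]
  have hsupp : σ.support = Finset.univ := by
    ext a
    simp only [Equiv.Perm.mem_support, Finset.mem_univ, iff_true]
    intro h
    apply hfree a
    have : Function.IsFixedPt σ a := h
    have h2 := this.iterate (2 ^ j)
    rw [Equiv.Perm.iterate_eq_pow] at h2
    exact h2
  have hsum : σ.cycleType.sum = Fintype.card α := by
    rw [Equiv.Perm.sum_cycleType, hsupp, Finset.card_univ]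
  have hrep : σ.cycleType = Multiset.replicate (Multiset.card σ.cycleType) (2 ^ (j + 1)) :=
    Multiset.eq_replicate.2 ⟨rfl, hlen⟩
  have hcount : Multiset.card σ.cycleType = m := by
    have h3 : σ.cycleType.sum = Multiset.card σ.cycleType * 2 ^ (j + 1) := by
      conv_lhs => rw [hrep]
      simp
    rw [hsum, hcard] at h3
    have hpos : 0 < 2 ^ (j + 1) := pow_pos (by norm_num) _
    have : 2 ^ (j + 1) * m = 2 ^ (j + 1) * Multiset.card σ.cycleType := by
      rw [h3]; ring
    exact (Nat.eq_of_mul_eq_mul_left hpos this).symm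
  rw [Equiv.Perm.sign_of_cycleType, hsum, hcount, hcard]
  have heven : Even (2 ^ (j + 1) * m + m) ∨ True := Or.inr trivial
  have hoddt : Odd (2 ^ (j + 1) * m + m) := by
    have h2 : Even (2 ^ (j + 1) * m) := ((Nat.even_pow.2 ⟨even_two, by omega⟩)).mul_right m
    exact h2.add_odd hm
  exact hoddt.neg_one_pow

/-- One step: `H` has a subgroup of index two excluding `u` and containing all elements of odd order. -/
theorem step {G : Type*} [Group G] [Finite G] (H T : Subgroup G) (hTH : T ≤ H) (u : G) (hu : u ∈ H)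
    (j m : ℕ) (huord : u ^ (2 ^ (j + 1)) = 1)
    (hfree : ∀ g : G, g * u ^ (2 ^ j) * g⁻¹ ∉ T) (hm : Odd m)
    (hidx : T.relIndex H = 2 ^ (j + 1) * m) :
    ∃ H' : Subgroup G, H' ≤ H ∧ H'.relIndex H = 2 ∧ u ∉ H' ∧
      (∀ x ∈ H, Odd (orderOf x) → x ∈ H') ∧ (∀ x ∈ H, x ^ 2 ∈ H') := by
  classical
  let T' : Subgroup H := T.subgroupOf H
  have := Fintype.ofFinite (H ⧸ T')
  let ρ : H →* Equiv.Perm (H ⧸ T') := MulAction.toPermHom H (H ⧸ T')
  let sgn : H →* ℤˣ := Equiv.Perm.sign.comp ρ
  let u' : H := ⟨u, hu⟩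
  have hsg : sgn u' = -1 := by
    refine sign_eq_neg_one (ρ u') j m ?_ ?_ hm ?_
    · rw [← map_pow]
      have : u' ^ (2 ^ (j + 1)) = 1 := Subtype.ext (by simpa [u'] using huord)
      rw [this, map_one]
    · intro a
      induction a using QuotientGroup.induction_on with
      | H g =>
        intro hfix
        rw [← map_pow] at hfix
        change ((u' ^ (2 ^ j) * g : H) : H ⧸ T') = (g : H ⧸ T') at hfix
        rw [QuotientGroup.eq] at hfix
        apply hfree (g : G)⁻¹
        have h3 : (((u' ^ (2 ^ j) * g : H)⁻¹ * g : H) : G) ∈ T := hfix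
        have h4 := T.inv_mem h3
        simpa [u', mul_assoc] using h4
    · rw [← Nat.card_eq_fintype_card]
      exact hidx
  have hmem : ∀ x : H, x ∈ sgn.ker ↔ sgn x = 1 := fun x => MonoidHom.mem_ker
  have hsq : ∀ e : ℤˣ, e = 1 ∨ e = -1 := Int.units_eq_one_or
  refine ⟨sgn.ker.map H.subtype, Subgroup.map_subtype_le _, ?_, ?_, ?_, ?_⟩
  · have h1 : (sgn.ker.map H.subtype).relIndex H = sgn.ker.index := by
      rw [Subgroup.relIndex, Subgroup.subgroupOf,
        Subgroup.comap_map_eq_self_of_injective H.subtype_injective]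
    rw [h1, Subgroup.index_ker]
    have h2 : sgn.range = ⊤ := by
      rw [eq_top_iff]
      intro e _
      rcases hsq e with rfl | rfl
      · exact Subgroup.one_mem _
      · exact ⟨u', hsg⟩
    rw [h2]
    simp
  · rintro ⟨x, hx, hxe⟩
    have : x = u' := Subtype.ext hxe
    rw [SetLike.mem_coe, hmem, this, hsg] at hx
    exact absurd hx (by decide)
  · intro x hx hodd
    refine ⟨⟨x, hx⟩, ?_, rfl⟩
    rw [SetLike.mem_coe, hmem]
    have h5 : (sgn ⟨x, hx⟩) ^ orderOf x = 1 := by
      rw [← map_pow]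
      have : (⟨x, hx⟩ : H) ^ orderOf x = 1 := Subtype.ext (by simp [pow_orderOf_eq_one])
      rw [this, map_one]
    rcases hsq (sgn ⟨x, hx⟩) with h6 | h6
    · exact h6
    · rw [h6, hodd.neg_one_pow] at h5
      exact absurd h5 (by decide)
  · intro x hx
    refine ⟨⟨x, hx⟩ ^ 2, ?_, by simp⟩
    rw [SetLike.mem_coe, hmem, map_pow]
    rcases hsq (sgn ⟨x, hx⟩) with h6 | h6 <;> rw [h6] <;> decide

theorem descend {G : Type*} [Group G] [Finite G] (T : Subgroup G) (hT : T ≤ Cfsg.pResidual 2 G) :
    ∀ (j : ℕ) (H : Subgroup G) (u : G) (m : ℕ), Cfsg.pResidual 2 G ≤ H → u ∈ H →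
      u ^ (2 ^ j) = 1 → (∀ i, j = i + 1 → ∀ g : G, g * u ^ (2 ^ i) * g⁻¹ ∉ T) → Odd m →
      T.relIndex H = 2 ^ j * m → Odd (T.relIndex (Cfsg.pResidual 2 G)) := by
  intro j
  induction j with
  | zero =>
    intro H u m hK _ _ _ hm hidx
    have h1 := Subgroup.relIndex_mul_relIndex T (Cfsg.pResidual 2 G) H hT hK
    have h2 : T.relIndex H = m := by simpa using hidx
    rw [h2] at h1
    rw [← h1] at hm
    exact (Nat.odd_mul.1 hm).1
  | succ j ih =>
    intro H u m hK hu huord hfree hm hidx
    obtain ⟨H', hH'H, hH'i, hu', hodd, hsq⟩ := step H T (hT.trans hK) u hu j m huord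
      (hfree j rfl) hm hidx
    have hK' : Cfsg.pResidual 2 G ≤ H' := by
      refine (Subgroup.closure_le _).2 ?_
      intro x hx
      have hxK : x ∈ Cfsg.pResidual 2 G := Subgroup.subset_closure hx
      refine hodd x (hK hxK) ?_
      exact Nat.Coprime.odd_of_right hx
    refine ih H' (u ^ 2) m hK' (hsq u hu) ?_ ?_ hm ?_
    · rw [← pow_mul]
      rw [← huord]
      congr 1
      rw [pow_succ]
      ring
    · intro i hi g
      have := hfree j rfl g
      rwa [hi, pow_succ, pow_mul, show (u ^ (2 ^ i)) ^ 2 = (u ^ 2) ^ (2 ^ i) by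
        rw [← pow_mul, ← pow_mul, mul_comm]] at this
    · have h1 := Subgroup.relIndex_mul_relIndex T H' H (hT.trans hK') hH'H
      rw [hH'i, hidx] at h1
      have : T.relIndex H' * 2 = 2 ^ j * m * 2 := by
        rw [h1]; ring
      exact Nat.eq_of_mul_eq_mul_right (by norm_num) this

/-- Outside a cyclic subgroup of index two of a dihedral group there are only involutions. -/
theorem dihedral_outside {n : ℕ} (hn : 2 ≤ n) (C : Subgroup (DihedralGroup n)) (hC : IsCyclic C)
    (hcC : Nat.card C = n) (x : DihedralGroup n) (hx : x ∉ C) : orderOf x = 2 := by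
  classical
  have hne : NeZero n := ⟨by omega⟩
  obtain ⟨g, hg⟩ := hC
  have hoC : orderOf (g : DihedralGroup n) = n := by
    have h1 : orderOf g = Nat.card C := orderOf_eq_card_of_forall_mem_zpowers hg
    exact (Subgroup.orderOf_coe g).trans (h1.trans hcC)
  have hgC : (g : DihedralGroup n) ∈ C := g.2
  generalize hge : (g : DihedralGroup n) = g' at hoC hgC
  cases x with
  | sr j => exact DihedralGroup.orderOf_sr j
  | r j =>
    cases g' with
    | sr i =>
      have h2 : n = 2 := by rw [← hoC]; exact DihedralGroup.orderOf_sr i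
      subst h2
      have hj : j ≠ 0 := by
        rintro rfl
        exact hx (by simpa [← DihedralGroup.one_def] using C.one_mem)
      have hj1 : j = 1 := by
        clear hx
        revert hj
        revert j
        decide
      rw [hj1]
      exact DihedralGroup.orderOf_r_one
    | r i =>
      exfalso
      apply hx
      have h3 : Subgroup.zpowers (DihedralGroup.r i : DihedralGroup n) =
          Subgroup.zpowers (DihedralGroup.r 1 : DihedralGroup n) := by
        apply Subgroup.eq_of_le_of_card_ge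
        · rw [Subgroup.zpowers_le]
          refine ⟨(i.val : ℤ), ?_⟩
          simp only [zpow_natCast]
          rw [DihedralGroup.r_one_pow]
          simp
        · rw [Nat.card_zpowers, Nat.card_zpowers, hoC, DihedralGroup.orderOf_r_one]
      have h4 : (DihedralGroup.r j : DihedralGroup n) ∈ Subgroup.zpowers (DihedralGroup.r 1 : DihedralGroup n) := by
        refine ⟨(j.val : ℤ), ?_⟩
        simp only [zpow_natCast]
        rw [DihedralGroup.r_one_pow]
        simp
      rw [← h3] at h4
      exact (Subgroup.zpowers_le.2 hgC) h4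

theorem card_rel {G : Type*} [Group G] [Finite G] {H K : Subgroup G} (h : H ≤ K) :
    H.relIndex K * Nat.card H = Nat.card K := by
  have h1 := Subgroup.relIndex_mul_index h
  have h2 := Subgroup.index_mul_card H
  have h3 := Subgroup.index_mul_card K
  have hK : 0 < K.index := Nat.pos_of_ne_zero Subgroup.index_ne_zero_of_finite
  apply Nat.eq_of_mul_eq_mul_left hK
  calc K.index * (H.relIndex K * Nat.card H) = (H.relIndex K * K.index) * Nat.card H := by ring
    _ = K.index * Nat.card K := by rw [h1, h2, h3]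

theorem pow_eq_of_odd {a b r s : ℕ} (hr : Odd r) (hs : Odd s) (h : r * 2 ^ a = s * 2 ^ b) : a = b := by
  have key : ∀ {a b r s : ℕ}, Odd s → r * 2 ^ a = s * 2 ^ b → a ≤ b := by
    intro a b r s hs h
    have h1 : 2 ^ a ∣ s * 2 ^ b := ⟨r, by rw [← h]; ring⟩
    have hc : Nat.Coprime (2 ^ a) s := Nat.Coprime.pow_left _ ((Nat.coprime_two_left).2 hs)
    have h2 := hc.dvd_of_dvd_mul_left h1
    exact (Nat.pow_dvd_pow_iff_le_right (by norm_num)).1 h2
  exact le_antisymm (key hs h) (key hr h.symm)

theorem main {G : Type*} [Group G] [Finite G] (L T S D C : Subgroup G) (hL : Cfsg.pResidual 2 ↥L = ⊤)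
    (hTL : T ≤ L) (hT2 : IsPGroup 2 T) (hTsyl : ¬ 2 ∣ T.relIndex L)
    (hS2 : IsPGroup 2 S) (hSsyl : ¬ 2 ∣ S.index) (hTS : T ≤ S)
    (hDS : D ≤ S) (hDih : ∃ n : ℕ, 2 ≤ n ∧ Nonempty (↥D ≃* DihedralGroup n)) (hDT : D ⊓ T = ⊥) (hTD : T ⊔ D = S) (hTDc : Nat.card T * Nat.card D = Nat.card S)
    (hCD : C ≤ D) (hC : IsCyclic ↥C) (hCi : C.relIndex D = 2)
    (h1 : ∀ x ∈ D, x ∉ C → orderOf x = 2 → ∀ g : G, g * x * g⁻¹ ∈ T ⊔ C → False)
    (h2 : ∀ c ∈ C, orderOf c = 2 → ∀ g : G, g * c * g⁻¹ ∈ T → False) :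
    ∃ K : Subgroup G, K.Normal ∧ K ⊔ D = ⊤ ∧
      ∀ T' : Subgroup G, T' ≤ L → IsPGroup 2 T' → ¬ 2 ∣ T'.relIndex L → T' ≤ K ∧ ¬ 2 ∣ T'.relIndex K := by
  classical
  haveI : Fact (Nat.Prime 2) := ⟨Nat.prime_two⟩
  set K : Subgroup G := Cfsg.pResidual 2 G with hKdef
  have hKn : K.Normal := inferInstance
  have hLK : L ≤ K := by
    intro x hx
    have h3 : x ∈ (Cfsg.pResidual 2 ↥L).map L.subtype := by
      rw [hL]
      exact ⟨⟨x, hx⟩, Subgroup.mem_top _, rfl⟩
    exact map_pResidual_subtype_le L h3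
  have hTK : T ≤ K := hTL.trans hLK
  have hcDC : Nat.card D = 2 * Nat.card C := by
    have := card_rel hCD
    rw [hCi] at this
    exact this.symm
  -- elements of D outside C are involutions
  obtain ⟨n, hn, ⟨e⟩⟩ := hDih
  have hcDn : Nat.card D = 2 * n := by
    rw [Nat.card_congr e.toEquiv, DihedralGroup.nat_card]
  have hcCn : Nat.card C = n := by omega
  have hinv : ∀ x ∈ D, x ∉ C → orderOf x = 2 := by
    intro x hxD hxC
    let f : C →* DihedralGroup n := e.toMonoidHom.comp (Subgroup.inclusion hCD)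
    have hfi : Function.Injective f := by
      intro a b hab
      exact Subgroup.inclusion_injective hCD (e.injective hab)
    have hcyc : IsCyclic f.range := isCyclic_of_surjective f.rangeRestrict f.rangeRestrict_surjective
    have hcr : Nat.card f.range = n := by
      rw [Nat.card_congr (MonoidHom.ofInjective hfi).toEquiv.symm, hcCn]
    have hnot : e ⟨x, hxD⟩ ∉ f.range := by
      rintro ⟨y, hy⟩
      have : Subgroup.inclusion hCD y = ⟨x, hxD⟩ := e.injective hy
      have h5 : (y : G) = x := congrArg Subtype.val this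
      exact hxC (h5 ▸ y.2)
    have := dihedral_outside hn f.range hcyc hcr _ hnot
    rw [MulEquiv.orderOf_eq] at this
    rwa [Subgroup.orderOf_mk] at this
  -- an element outside C
  obtain ⟨x₀, hx₀D, hx₀C⟩ : ∃ x ∈ D, x ∉ C := by
    by_contra hcon
    push Not at hcon
    have : C.relIndex D = 1 := Subgroup.relIndex_eq_one.2 hcon
    omega
  set Q : Subgroup G := T ⊔ C with hQdef
  have hQS : Q ≤ S := sup_le hTS (hCD.trans hDS)
  have hcardQ : Nat.card T * Nat.card C ≤ Nat.card Q := by
    rw [← Nat.card_prod]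
    let m : T × C → Q := fun p => ⟨(p.1 : G) * (p.2 : G), Q.mul_mem (Subgroup.mem_sup_left p.1.2)
      (Subgroup.mem_sup_right p.2.2)⟩
    refine Nat.card_le_card_of_injective m ?_
    rintro ⟨a, b⟩ ⟨a', b'⟩ hab
    have h3 : (a : G) * b = a' * b' := congrArg Subtype.val hab
    have h4 : (a' : G)⁻¹ * a = b' * (b : G)⁻¹ := by
      rw [inv_mul_eq_iff_eq_mul, ← mul_assoc]
      exact eq_mul_inv_of_mul_eq h3
    have h5 : (b' : G) * (b : G)⁻¹ ∈ D ⊓ T := ⟨hCD (C.mul_mem b'.2 (C.inv_mem b.2)),
      h4 ▸ T.mul_mem (T.inv_mem a'.2) a.2⟩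
    rw [hDT, Subgroup.mem_bot] at h5
    have h6 : (a' : G)⁻¹ * a = 1 := h4.trans h5
    have h7 : (a : G) = a' := by
      rw [inv_mul_eq_one] at h6
      exact h6.symm
    have h8 : (b' : G) = b := by rwa [mul_inv_eq_one] at h5
    exact Prod.ext (Subtype.ext h7) (Subtype.ext h8.symm)
  have hx₀Q : x₀ ∉ Q := by
    intro h
    refine h1 x₀ hx₀D hx₀C (hinv x₀ hx₀D hx₀C) 1 ?_
    simpa using h
  have hQi : Q.relIndex S = 2 := by
    have h3 := card_rel hQS
    have hTpos : 0 < Nat.card T := Nat.card_pos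
    have hQpos : 0 < Nat.card Q := Nat.card_pos
    rw [← hTDc, hcDC] at h3
    have h4 : Q.relIndex S ≠ 1 := by
      intro h
      have := Subgroup.relIndex_eq_one.1 h
      exact hx₀Q (this (hDS hx₀D))
    have h5 : Q.relIndex S ≠ 0 := by
      intro h
      rw [h] at h3
      have hCpos : 0 < Nat.card C := Nat.card_pos
      have : 0 < Nat.card T * (2 * Nat.card C) := by positivity
      omega
    have h6 : Q.relIndex S ≤ 2 := by
      by_contra hlt
      push Not at hlt
      have : 3 * Nat.card Q ≤ Q.relIndex S * Nat.card Q := Nat.mul_le_mul_right _ hlt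
      have hCpos : 0 < Nat.card C := Nat.card_pos
      have : Nat.card T * (2 * Nat.card C) = 2 * (Nat.card T * Nat.card C) := by ring
      have : 0 < Nat.card T * Nat.card C := by positivity
      omega
    omega
  let P : Sylow 2 G := hS2.toSylow hSsyl
  have hPS : (P : Subgroup G) = S := rfl
  obtain ⟨K₁, hK₁n, hK₁i, hK₁⟩ := exists_ker_transfer P Q hQS hQi 1 (by
    intro y _ hyQ
    have : y ≠ 1 := fun h => hyQ (h ▸ Q.one_mem)
    have h3 : orderOf y ≠ 1 := fun h => this (orderOf_eq_one_iff.1 h)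
    have h4 : 0 < orderOf y := orderOf_pos y
    simp only [Nat.add_one_sub_one, pow_zero]
    omega)
  have hoff : ∀ x ∈ D, x ∉ C → x ∉ K₁ := by
    intro x hxD hxC
    refine hK₁ x (hDS hxD) (by rw [pow_one]; exact hinv x hxD hxC) ?_
    intro g hg
    exact h1 x hxD hxC (hinv x hxD hxC) g hg
  have hK₁2 : K₁.index = 2 := by
    have h3 : K₁.index ≠ 1 := by
      intro h
      rw [Subgroup.index_eq_one] at h
      exact hoff x₀ hx₀D hx₀C (h ▸ Subgroup.mem_top _)
    have h4 := Nat.le_of_dvd (by norm_num) hK₁i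
    have h5 : K₁.index ≠ 0 := Subgroup.index_ne_zero_of_finite
    omega
  have hKK₁ : K ≤ K₁ := by
    refine (Subgroup.closure_le _).2 ?_
    intro x hx
    have hodd : Odd (orderOf x) := Nat.Coprime.odd_of_right hx
    obtain ⟨t, ht⟩ := hodd
    have h3 : x ^ 2 ∈ K₁ := Subgroup.sq_mem_of_index_two hK₁2 x
    have h4 : x = (x ^ 2) ^ (t + 1) := by
      rw [← pow_mul]
      have : 2 * (t + 1) = orderOf x + 1 := by omega
      rw [this, pow_succ, pow_orderOf_eq_one, one_mul]
    rw [SetLike.mem_coe, h4]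
    exact K₁.pow_mem h3 _
  have hCK₁ : C ≤ K₁ := by
    intro c hc
    by_contra hcn
    have h3 : x₀ * c ∈ K₁ := by
      rw [Subgroup.mul_mem_iff_of_index_two hK₁2]
      exact iff_of_false (hoff x₀ hx₀D hx₀C) hcn
    refine hoff (x₀ * c) (D.mul_mem hx₀D (hCD hc)) ?_ h3
    intro h4
    exact hx₀C (by simpa using C.mul_mem h4 (C.inv_mem hc))
  -- the generator
  obtain ⟨u, hu⟩ := hC
  have huC : (u : G) ∈ C := u.2
  have hoU : orderOf (u : G) = Nat.card C := by
    have h3 : orderOf u = Nat.card C := orderOf_eq_card_of_forall_mem_zpowers hu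
    exact (Subgroup.orderOf_coe u).trans h3
  have hC2 : IsPGroup 2 C := hS2.to_le (hCD.trans hDS)
  obtain ⟨k, hk⟩ := IsPGroup.iff_card.1 hC2
  have hk0 : k ≠ 0 := by
    rintro rfl
    rw [pow_zero] at hk
    omega
  obtain ⟨j, rfl⟩ := Nat.exists_eq_succ_of_ne_zero hk0
  have hfree : ∀ g : G, g * (u : G) ^ (2 ^ j) * g⁻¹ ∉ T := by
    intro g hg
    refine h2 _ (C.pow_mem huC _) ?_ g hg
    have hnp : Nat.Prime 2 := Nat.prime_two
    have hord : orderOf ((u : G) ^ (2 ^ j)) = 2 := by
      rw [orderOf_pow' _ (by positivity), hoU, hk]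
      have h3 : Nat.gcd (2 ^ j.succ) (2 ^ j) = 2 ^ j := by
        rw [Nat.gcd_eq_right_iff_dvd]
        exact pow_dvd_pow 2 (Nat.le_succ j)
      rw [h3, pow_succ, Nat.mul_div_cancel_left _ (by positivity)]
    exact hord
  have hSodd : Odd S.index := Nat.odd_iff.2 (by
    rcases Nat.mod_two_eq_zero_or_one S.index with h | h
    · exact absurd (Nat.dvd_of_mod_eq_zero h) hSsyl
    · exact h)
  have hidx : T.relIndex K₁ = 2 ^ (j + 1) * S.index := by
    have h3 := card_rel (hTK.trans hKK₁)
    have h4 := Subgroup.index_mul_card K₁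
    have h5 := Subgroup.index_mul_card S
    rw [hK₁2] at h4
    rw [← hTDc, hcDC, hk] at h5
    have hTpos : 0 < Nat.card T := Nat.card_pos
    have : 2 * Nat.card T * T.relIndex K₁ = 2 * Nat.card T * (2 ^ (j + 1) * S.index) := by
      calc 2 * Nat.card T * T.relIndex K₁ = 2 * (T.relIndex K₁ * Nat.card T) := by ring
        _ = 2 * Nat.card K₁ := by rw [h3]
        _ = S.index * (Nat.card T * (2 * 2 ^ j.succ)) := by rw [h4, h5]
        _ = 2 * Nat.card T * (2 ^ (j + 1) * S.index) := by
          simp only [Nat.succ_eq_add_one]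
          ring
    exact Nat.eq_of_mul_eq_mul_left (by positivity) this
  have hoddK : Odd (T.relIndex K) := descend T hTK (j + 1) K₁ (u : G) S.index hKK₁ (hCK₁ huC)
    (by rw [← hk, ← hoU, pow_orderOf_eq_one])
    (by
      intro i hi g
      have hij : j = i := by omega
      subst hij
      exact hfree g) hSodd hidx
  refine ⟨K, hKn, ?_, ?_⟩
  · rw [eq_top_iff, ← sylow_sup_pResidual P]
    refine sup_le ?_ le_sup_left
    rw [hPS, ← hTD]
    exact sup_le (hTK.trans le_sup_left) le_sup_right
  · intro T' hT'L hT'2 hT's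
    have hT'K : T' ≤ K := hT'L.trans hLK
    refine ⟨hT'K, ?_⟩
    obtain ⟨a, ha⟩ := IsPGroup.iff_card.1 hT'2
    obtain ⟨b, hb⟩ := IsPGroup.iff_card.1 hT2
    have hodd1 : Odd (T'.relIndex L) := Nat.odd_iff.2 (by
      rcases Nat.mod_two_eq_zero_or_one (T'.relIndex L) with h | h
      · exact absurd (Nat.dvd_of_mod_eq_zero h) hT's
      · exact h)
    have hodd2 : Odd (T.relIndex L) := Nat.odd_iff.2 (by
      rcases Nat.mod_two_eq_zero_or_one (T.relIndex L) with h | h
      · exact absurd (Nat.dvd_of_mod_eq_zero h) hTsyl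
      · exact h)
    have h3 := card_rel hT'L
    have h4 := card_rel hTL
    have hab : a = b := by
      apply pow_eq_of_odd hodd1 hodd2
      rw [← ha, ← hb, h3, h4]
    have hcc : Nat.card T' = Nat.card T := by rw [ha, hb, hab]
    have h5 := card_rel hT'K
    have h6 := card_rel hTK
    have hTpos : 0 < Nat.card T := Nat.card_pos
    have h7 : T'.relIndex K = T.relIndex K := by
      apply Nat.eq_of_mul_eq_mul_right hTpos
      rw [h6, ← hcc, h5]
    rw [h7]
    rcases hoddK with ⟨t, ht⟩
    omega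

/-- A consequence of Thompson's transfer lemma. Let G be a finite group, L a subgroup with O²(L) = L, T a Sylow 2-subgroup of L and S a Sylow 2-subgroup of G containing T. Suppose D ≤ S is a dihedral subgroup of order at least 4 (the four-group counts) with D ∩ T = 1 and S = TD as a set of products (so |S| = |T|·|D|), and C ≤ D is cyclic of index 2 in D. If no involution of D outside C is G-conjugate to an involution of the subgroup generated by T and C, and the involution of C is not G-conjugate to any involution of T, then G has a normal subgroup K, containing every Sylow 2-subgroup of L as a Sylow 2-subgroup, with G = KD. -/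
theorem result {G : Type*} [Group G] [Finite G] (L T S D C : Subgroup G) (hL : Cfsg.pResidual 2 ↥L = ⊤)
    (hTL : T ≤ L) (hT2 : IsPGroup 2 T) (hTsyl : ¬ 2 ∣ T.relIndex L)
    (hS2 : IsPGroup 2 S) (hSsyl : ¬ 2 ∣ S.index) (hTS : T ≤ S)
    (hDS : D ≤ S) (hDih : ∃ n : ℕ, 2 ≤ n ∧ Nonempty (↥D ≃* DihedralGroup n)) (hDT : D ⊓ T = ⊥) (hTD : T ⊔ D = S) (hTDc : Nat.card T * Nat.card D = Nat.card S)
    (hCD : C ≤ D) (hC : IsCyclic ↥C) (hCi : C.relIndex D = 2)
    (h1 : ∀ x ∈ D, x ∉ C → orderOf x = 2 → ∀ g : G, g * x * g⁻¹ ∈ T ⊔ C → False)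
    (h2 : ∀ c ∈ C, orderOf c = 2 → ∀ g : G, g * c * g⁻¹ ∈ T → False) :
    ∃ K : Subgroup G, K.Normal ∧ K ⊔ D = ⊤ ∧
      ∀ T' : Subgroup G, T' ≤ L → IsPGroup 2 T' → ¬ 2 ∣ T'.relIndex L → T' ≤ K ∧ ¬ 2 ∣ T'.relIndex K := by
  classical
  exact main L T S D C hL hTL hT2 hTsyl hS2 hSsyl hTS hDS hDih hDT hTD hTDc hCD hC hCi h1 h2

end Cfsg.Agent.S1924
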