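import Cfsg.Statements.S1939

set_option autoImplicit false
open Cfsg

namespace Cfsg.Agent.S1939

open scoped Pointwise in
theorem mem_smul_sylow {G : Type*} [Group G] {p : ℕ} (S : Sylow p G) (g y : G) :
    y ∈ ((g • S : Sylow p G) : Subgroup G) ↔ g⁻¹ * y * g ∈ (S : Subgroup G) := by
  rw [Sylow.smul_def, Sylow.pointwise_smul_def, Subgroup.mem_pointwise_smul_iff_inv_smul_mem,
    MulAut.smul_def, MulAut.conj_inv_apply]

/-- Let S be a Sylow p-subgroup of the finite group G and a an element of S that is the only G-conjugate of a lying in S. Then every power of a has the same property: for every n, the only G-conjugate of a^n lying in S is a^n. -/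
theorem result {G : Type*} [Group G] [Finite G] {p : ℕ} [Fact p.Prime] (S : Sylow p G) (a : G)
    (haS : a ∈ (S : Subgroup G)) (hwc : ∀ g : G, g * a * g⁻¹ ∈ (S : Subgroup G) → g * a * g⁻¹ = a) (n : ℕ) :
    ∀ g : G, g * a ^ n * g⁻¹ ∈ (S : Subgroup G) → g * a ^ n * g⁻¹ = a ^ n := by
  classical
  intro g hg
  -- a is central in S
  have hcen : ∀ s ∈ (S : Subgroup G), s * a = a * s := by
    intro s hs
    have h1 : s * a * s⁻¹ ∈ (S : Subgroup G) :=
      (S : Subgroup G).mul_mem ((S : Subgroup G).mul_mem hs haS) ((S : Subgroup G).inv_mem hs)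
    have h2 := hwc s h1
    calc s * a = s * a * s⁻¹ * s := by group
      _ = a * s := by rw [h2]
  set s : G := g * a ^ n * g⁻¹ with hs
  -- the centralizer of s
  set C : Subgroup G := Subgroup.centralizer {s} with hC
  -- a commutes with s
  have has : a ∈ C := by
    rw [hC, Subgroup.mem_centralizer_singleton_iff]
    exact (hcen s hg).symm
  -- the conjugate of S by g lies in the centralizer of s
  have hTC : ((g • S : Sylow p G) : Subgroup G) ≤ C := by
    intro y hy
    rw [mem_smul_sylow] at hy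
    have hx' := hcen _ hy
    have hxn : Commute (g⁻¹ * y * g) (a ^ n) := (show Commute (g⁻¹ * y * g) a from hx').pow_right n
    rw [hC, Subgroup.mem_centralizer_singleton_iff, hs]
    have h3 : (g⁻¹ * y * g) * a ^ n = a ^ n * (g⁻¹ * y * g) := hxn
    calc y * (g * a ^ n * g⁻¹) = g * ((g⁻¹ * y * g) * a ^ n) * g⁻¹ := by group
      _ = g * (a ^ n * (g⁻¹ * y * g)) * g⁻¹ := by rw [h3]
      _ = g * a ^ n * g⁻¹ * y := by group
  -- the p-element a lies in a Sylow subgroup of C
  have hapg : IsPGroup p (Subgroup.zpowers (⟨a, has⟩ : C)) := by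
    obtain ⟨k, hk⟩ := S.isPGroup' ⟨a, haS⟩
    have hk' : a ^ p ^ k = 1 := by simpa [Subtype.ext_iff] using hk
    rintro ⟨x, m, rfl⟩
    refine ⟨k, ?_⟩
    ext
    simp only [SubmonoidClass.coe_pow, Subgroup.coe_one, zpow_natCast, zpow_ofNat]
    simp only [Subgroup.coe_zpow]
    rw [← zpow_natCast, ← zpow_mul, mul_comm, zpow_mul, zpow_natCast, hk', one_zpow]
  obtain ⟨Q, hQ⟩ := hapg.exists_le_sylow
  obtain ⟨h, hh⟩ := MulAction.exists_smul_eq C ((g • S).subtype hTC) Q
  have haQ : (⟨a, has⟩ : C) ∈ (Q : Subgroup C) := hQ (Subgroup.mem_zpowers _)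
  have haQ' : (⟨a, has⟩ : C) ∈ (((h • (g • S)).subtype (Sylow.smul_le hTC h) : Sylow p C) : Subgroup C) := by
    rw [← Sylow.smul_subtype (hP := hTC), hh]; exact haQ
  rw [Sylow.coe_subtype, Subgroup.mem_subgroupOf, Subgroup.smul_def, mem_smul_sylow,
    mem_smul_sylow] at haQ'
  have h4 : ((h : G) * g)⁻¹ * a * ((h : G) * g) ∈ (S : Subgroup G) := by
    have : ((h : G) * g)⁻¹ * a * ((h : G) * g) = g⁻¹ * ((h : G)⁻¹ * a * (h : G)) * g := by group
    rw [this]; exact haQ'
  have h5 := hwc ((h : G) * g)⁻¹ (by simpa using h4)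
  have h6 : Commute ((h : G) * g) a := by
    have h7 : ((h : G) * g)⁻¹ * a * ((h : G) * g) = a := by simpa using h5
    have : a * ((h : G) * g) = ((h : G) * g) * a := by
      rw [← mul_inv_eq_iff_eq_mul] 
      calc a * ((h : G) * g) * a⁻¹ = ((h : G) * g) * (((h : G) * g)⁻¹ * a * ((h : G) * g)) * a⁻¹ := by group
        _ = (h : G) * g := by rw [h7]; group
      
    exact this.symm
  have h8 : Commute ((h : G) * g) (a ^ n) := h6.pow_right n
  have h9 : (h : G) * s = s * (h : G) := by
    exact Subgroup.mem_centralizer_singleton_iff.mp h.2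
  have h10 : (h : G) * s * (h : G)⁻¹ = a ^ n := by
    have h11 : (h : G) * s * (h : G)⁻¹ = ((h : G) * g) * a ^ n * ((h : G) * g)⁻¹ := by
      rw [hs]; group
    rw [h11, h8.eq, mul_inv_cancel_right]
  rw [h9, mul_inv_cancel_right] at h10
  exact h10

end Cfsg.Agent.S1939
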