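import Cfsg.Statements.S1940

set_option autoImplicit false
open Cfsg

namespace Cfsg.Agent.S1940

/-- Let the finite group L act by automorphisms on the finite abelian group M, and let N be an L-invariant subgroup of M such that M/N is a p-group on which L acts trivially (every l • m lies in the coset mN). If every element of M is a product of an element of N and an element fixed by a Sylow p-subgroup T of L, then every element of M is a product of an element of N and an element fixed by all of L. -/
theorem result {L : Type*} [Group L] [Finite L] {M : Type*} [CommGroup M] [Finite M] [MulDistribMulAction L M]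
    {p : ℕ} [Fact p.Prime] (N : Subgroup M) (hN : ∀ (l : L) (m : M), m ∈ N → l • m ∈ N)
    (hquot : IsPGroup p (M ⧸ N)) (htriv : ∀ (l : L) (m : M), (l • m) * m⁻¹ ∈ N) (T : Sylow p L)
    (hT : ∀ m : M, ∃ n ∈ N, ∃ c : M, (∀ t ∈ (T : Subgroup L), t • c = c) ∧ m = n * c) :
    ∀ m : M, ∃ n ∈ N, ∃ c : M, (∀ l : L, l • c = c) ∧ m = n * c := by
  classical
  letI := Fintype.ofFinite (L ⧸ (T : Subgroup L))
  intro m
  obtain ⟨n₀, hn₀, c, hc, rfl⟩ := hT m
  -- the norm of c from T to L
  let f : L ⧸ (T : Subgroup L) → M := fun q => q.out • c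
  have hf : ∀ (t : L) (q : L ⧸ (T : Subgroup L)), t • f q = f (t • q) := by
    intro t q
    obtain ⟨u, hu⟩ : ∃ u : (T : Subgroup L), (t • q).out * u = t * q.out := by
      have : QuotientGroup.mk (t * q.out) = t • q := by
        conv_rhs => rw [← q.out_eq]
        rfl
      have h2 : (t • q).out⁻¹ * (t * q.out) ∈ (T : Subgroup L) := by
        rw [← QuotientGroup.eq, this, QuotientGroup.out_eq']
      exact ⟨⟨_, h2⟩, by simp⟩
    simp only [f]
    rw [← mul_smul, ← hu, mul_smul, hc u u.2]
  let d : M := ∏ q, f q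
  have hd : ∀ t : L, t • d = d := by
    intro t
    have h1 : t • d = ∏ q, t • f q := by
      exact map_prod (MulDistribMulAction.toMonoidHom M t) f Finset.univ
    rw [h1]
    simp only [hf]
    exact Equiv.prod_comp (MulAction.toPerm t) f
  -- d is c^k modulo N
  let k := Fintype.card (L ⧸ (T : Subgroup L))
  have hdc : d * (c ^ k)⁻¹ ∈ N := by
    have : d * (c ^ k)⁻¹ = ∏ q, (f q * c⁻¹) := by
      simp [Finset.prod_mul_distrib, d, k, Finset.card_univ]
    rw [this]
    exact Subgroup.prod_mem _ (fun q _ => htriv q.out c)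
  have hkcop : (k).Coprime p := by
    have h1 : ¬ p ∣ (T : Subgroup L).index := T.not_dvd_index
    have h2 : k = (T : Subgroup L).index := by
      rw [Subgroup.index_eq_card, Nat.card_eq_fintype_card]
    rw [h2]
    exact ((Nat.Prime.coprime_iff_not_dvd Fact.out).mpr h1).symm
  obtain ⟨e, he⟩ := hquot (QuotientGroup.mk c)
  obtain ⟨a, ha⟩ : ∃ a : ℕ, ((QuotientGroup.mk c : M ⧸ N) ^ k) ^ a = QuotientGroup.mk c := by
    rcases eq_or_ne e 0 with rfl | he0
    · refine ⟨0, ?_⟩
      simpa using he.symm
    · have h1 : 1 < p ^ e := Nat.one_lt_pow he0 (Nat.Prime.one_lt Fact.out)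
      obtain ⟨a, -, ha⟩ := Nat.exists_mul_mod_eq_one_of_coprime (hkcop.pow_right e) h1
      refine ⟨a, ?_⟩
      rw [← pow_mul, pow_eq_pow_mod _ he, ha, pow_one]
  have hmem : c * (d ^ a)⁻¹ ∈ N := by
    rw [← QuotientGroup.eq_one_iff]
    have h1 : (QuotientGroup.mk d : M ⧸ N) = (QuotientGroup.mk c) ^ k := by
      have := (QuotientGroup.eq_one_iff _).mpr hdc
      rw [QuotientGroup.mk_mul, QuotientGroup.mk_inv, QuotientGroup.mk_pow, mul_inv_eq_one] at this
      exact this
    rw [QuotientGroup.mk_mul, QuotientGroup.mk_inv, QuotientGroup.mk_pow, h1, ha, mul_inv_cancel]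
  refine ⟨n₀ * (c * (d ^ a)⁻¹), N.mul_mem hn₀ hmem, d ^ a, ?_, by simp [mul_assoc]⟩
  intro l
  rw [smul_pow', hd]

end Cfsg.Agent.S1940
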