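import Cfsg.Statements.S1941
import Cfsg.Agent.Lib.Components.Central
import Cfsg.Agent.Lib.Core.Basic

set_option autoImplicit false
open Cfsg

namespace Cfsg.Agent.S1941

/-- Vanishing of `H¹` when the index of a subgroup on which the cocycle is trivial is coprime to the
order of the module. -/
theorem coboundary_of_cocycle {Γ A : Type*} [Group Γ] [Finite Γ] [CommGroup A] [Finite A]
    (c : Γ →* MulAut A) (d : Γ → A) (T : Subgroup Γ)
    (hd : ∀ g h, d (g * h) = d g * c g (d h)) (hT : ∀ t ∈ T, d t = 1)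
    (hcop : (Nat.card A).Coprime T.index) : ∃ w : A, ∀ g, d g = w * (c g w)⁻¹ := by
  classical
  have : Fintype (Γ ⧸ T) := Fintype.ofFinite _
  have hconst : ∀ a b : Γ, (a : Γ ⧸ T) = b → d a = d b := by
    intro a b h
    have h1 : a⁻¹ * b ∈ T := QuotientGroup.eq.mp h
    have h2 : b = a * (a⁻¹ * b) := by group
    rw [h2, hd, hT _ h1, map_one, mul_one]
  set dq : Γ ⧸ T → A := fun q => d q.out with hdq
  set e : A := ∏ q, dq q with he
  have hstep : ∀ (g : Γ) (q : Γ ⧸ T), c g (dq q) = (d g)⁻¹ * dq (g • q) := by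
    intro g q
    have h1 : d (g * q.out) = d g * c g (d q.out) := hd _ _
    have h2 : ((g * q.out : Γ) : Γ ⧸ T) = ((g • q).out : Γ) := by
      rw [QuotientGroup.out_eq']
      conv_rhs => rw [← QuotientGroup.out_eq' q]
      rfl
    have h3 := hconst _ _ h2
    simp only [hdq]
    rw [← h3, h1, inv_mul_cancel_left]
  have hcard : Nat.card (Γ ⧸ T) = T.index := rfl
  have he2 : ∀ g, c g e = ((d g)⁻¹) ^ T.index * e := by
    intro g
    rw [he, map_prod]
    simp_rw [hstep g]
    rw [Finset.prod_mul_distrib, Finset.prod_const, Finset.card_univ, ← Nat.card_eq_fintype_card, hcard]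
    congr 1
    exact Equiv.prod_comp (MulAction.toPerm g) dq
  set w : A := (powCoprime hcop).symm e with hw
  have hwe : w ^ T.index = e := by
    have := (powCoprime hcop).apply_symm_apply e
    rwa [powCoprime_apply] at this
  refine ⟨w, fun g => ?_⟩
  apply (powCoprime hcop).injective
  rw [powCoprime_apply, powCoprime_apply, mul_pow, inv_pow, ← map_pow (c g), hwe, he2 g, inv_pow,
    mul_inv_rev, inv_inv, mul_inv_cancel_left]

/-- Let G be a finite group with no nontrivial normal subgroup of order prime to p, T a Sylow p-subgroup of G and E(G) the layer of G (the subgroup generated by its components). An automorphism of G of p-power order that fixes T and E(G) elementwise is inner. -/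
theorem result {G : Type*} [Group G] [Finite G] {p : ℕ} [Fact p.Prime] (hcore : Cfsg.pPrimeCore p G = ⊥)
    (T : Sylow p G) (α : MulAut G) (hα : ∃ j : ℕ, orderOf α = p ^ j) (hfixT : ∀ x ∈ (T : Subgroup G), α x = x)
    (hfixE : ∀ x ∈ Cfsg.layer G, α x = x) : ∃ g : G, ∀ x : G, α x = g * x * g⁻¹ := by
  classical
  open Subgroup Cfsg.Agent.Lib.Components.Basic Cfsg.Agent.Lib.Components.GenFitting
    Cfsg.Agent.Lib.Core.Basic in
  -- `F(G) ≤ T`
  have hFit : Cfsg.fittingSubgroup G ≤ Cfsg.pCore p G := by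
    rw [fittingSubgroup_eq_iSup_pCore]
    apply iSup_le
    intro q
    by_cases hq : (q : ℕ) = p
    · rw [hq]
    · have : Fact (q : ℕ).Prime := ⟨q.2⟩
      have h1 : Cfsg.pCore q G ≤ Cfsg.pPrimeCore p G := by
        apply le_pPrimeCore inferInstance
        obtain ⟨k, hk⟩ := exists_card_pCore (p := q) (G := G)
        rw [hk]
        exact Nat.Coprime.pow_left _ ((Nat.coprime_primes q.2 Fact.out).2 hq)
      rw [hcore] at h1
      exact h1.trans bot_le
  have hFT : Cfsg.fittingSubgroup G ≤ (T : Subgroup G) := hFit.trans (pCore_le_sylow T)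
  have hfix : Cfsg.generalizedFittingSubgroup G ≤ (α.toMonoidHom).eqLocus (MonoidHom.id G) :=
    sup_le (fun x hx => hfixE x hx) (fun x hx => hfixT x (hFT hx))
  have hfix' : ∀ x ∈ Cfsg.generalizedFittingSubgroup G, α x = x := fun x hx => hfix hx
  have hgFn : (Cfsg.generalizedFittingSubgroup G).Normal := Cfsg.Agent.Lib.Components.Basic.generalizedFitting_normal
  set gF := Cfsg.generalizedFittingSubgroup G with hgF
  set Z : Subgroup G := gF ⊓ centralizer (gF : Set G) with hZ
  have hCn : (centralizer (gF : Set G)).Normal := by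
    constructor
    intro z hz g
    rw [mem_centralizer_iff] at hz ⊢
    intro f hf
    have h1 := hz (g⁻¹ * f * g) (by
      have := hgFn.conj_mem f hf g⁻¹
      simpa using this)
    calc f * (g * z * g⁻¹) = g * ((g⁻¹ * f * g) * z) * g⁻¹ := by group
      _ = g * (z * (g⁻¹ * f * g)) * g⁻¹ := by rw [h1]
      _ = g * z * g⁻¹ * f := by group
  have hZn : Z.Normal := inferInstance
  have hZcomm : ∀ a b : Z, a * b = b * a := by
    intro a b
    apply Subtype.ext
    exact (mem_centralizer_iff.mp b.2.2 a a.2.1)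
  let : CommGroup Z := { (inferInstance : Group Z) with mul_comm := hZcomm }
  have hZF : Z ≤ Cfsg.fittingSubgroup G := le_fittingSubgroup hZn inferInstance
  have hZp : IsPGroup p Z := (pCore_isPGroup (p := p) (G := G)).to_le (hZF.trans hFit)
  have hcop : (Nat.card Z).Coprime (T : Subgroup G).index := by
    obtain ⟨k, hk⟩ := IsPGroup.iff_card.mp hZp
    rw [hk]
    exact Nat.Coprime.pow_left _ ((Nat.Prime.coprime_iff_not_dvd Fact.out).2 T.not_dvd_index)
  -- the cocycle
  have hdmem : ∀ g : G, α g * g⁻¹ ∈ Z := by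
    intro g
    have hc : α g * g⁻¹ ∈ centralizer (gF : Set G) := by
      rw [mem_centralizer_iff]
      intro f hf
      have hf1 : g⁻¹ * f * g ∈ gF := by
        have := hgFn.conj_mem f hf g⁻¹
        simpa using this
      have h1 := hfix' _ hf1
      rw [map_mul, map_mul, hfix' f hf, map_inv] at h1
      have h2 : f = α g * (g⁻¹ * f * g) * (α g)⁻¹ := by
        rw [← h1]; group
      calc f * (α g * g⁻¹) = (α g * (g⁻¹ * f * g) * (α g)⁻¹) * (α g * g⁻¹) := by rw [← h2]
        _ = α g * g⁻¹ * f := by group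
    exact ⟨centralizer_generalizedFitting_le hc, hc⟩
  let d : G → Z := fun g => ⟨α g * g⁻¹, hdmem g⟩
  let c : G →* MulAut Z := MulAut.conjNormal
  have hd : ∀ g h, d (g * h) = d g * c g (d h) := by
    intro g h
    apply Subtype.ext
    show α (g * h) * (g * h)⁻¹ = (α g * g⁻¹) * (g * (α h * h⁻¹) * g⁻¹)
    rw [map_mul]; group
  have hT : ∀ t ∈ (T : Subgroup G), d t = 1 := by
    intro t ht
    apply Subtype.ext
    show α t * t⁻¹ = 1
    rw [hfixT t ht]; group
  obtain ⟨w, hw⟩ := coboundary_of_cocycle c d (T : Subgroup G) hd hT hcop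
  refine ⟨w, fun x => ?_⟩
  have h1 := congrArg Subtype.val (hw x)
  have h2 : α x * x⁻¹ = (w : G) * (x * (w : G) * x⁻¹)⁻¹ := h1
  rw [mul_inv_eq_iff_eq_mul] at h2
  rw [h2]; group

end Cfsg.Agent.S1941
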