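import Cfsg.Statements.S1948
import Cfsg.Agent.Lib.Core.SylowFacts

set_option autoImplicit false
open Cfsg

namespace Cfsg.Agent.S1948

open Subgroup Cfsg.Agent.Lib.Core.Basic Cfsg.Agent.Lib.Core.Series Cfsg.Agent.Lib.Core.Constrained
  Cfsg.Agent.Lib.Core.SylowFacts

/-- Let S be a Sylow p-subgroup of the finite group G. Then G = N_G(S)·O_{p'}(G) if and only if G is p-constrained and N_G(S) controls fusion in S, in the sense that whenever a subgroup Q of S has a conjugate g Q g⁻¹ inside S, the element g is a product n c with n normalizing S and c centralizing Q. -/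
theorem result {G : Type*} [Group G] [Finite G] {p : ℕ} [Fact p.Prime] (S : Sylow p G) :
    Subgroup.normalizer ((S : Subgroup G) : Set G) ⊔ Cfsg.pPrimeCore p G = ⊤ ↔
      (Cfsg.IsPConstrained p G ∧
        ∀ Q : Subgroup G, Q ≤ (S : Subgroup G) → ∀ g : G, Q.map (MulAut.conj g).toMonoidHom ≤ (S : Subgroup G) →
          ∃ n ∈ Subgroup.normalizer ((S : Subgroup G) : Set G), ∃ c ∈ Subgroup.centralizer (Q : Set G), g = n * c) := by
  have hSN : (S : Subgroup G) ⊓ pPrimeCore p G = ⊥ :=
    inf_eq_bot_of_isPGroup_of_coprime S.isPGroup' pPrimeCore_coprime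
  constructor
  · intro htop
    have hfact : ∀ g : G, ∃ n ∈ Subgroup.normalizer ((S : Subgroup G) : Set G),
        ∃ x ∈ pPrimeCore p G, g = n * x := by
      intro g
      have hg : g ∈ ((Subgroup.normalizer ((S : Subgroup G) : Set G) ⊔ pPrimeCore p G : Subgroup G) : Set G) := by
        rw [htop]; trivial
      rw [Subgroup.mul_normal] at hg
      obtain ⟨n, hn, x, hx, hnx⟩ := Set.mem_mul.mp hg
      exact ⟨n, hn, x, hx, hnx.symm⟩
    refine ⟨?_, ?_⟩
    · -- constraint
      rw [isPConstrained_iff]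
      set f := QuotientGroup.mk' (pPrimeCore p G) with hf
      have hfs : Function.Surjective f := QuotientGroup.mk_surjective
      let Sb : Subgroup (G ⧸ pPrimeCore p G) := (S : Subgroup G).map f
      have hSbn : Sb.Normal := by
        constructor
        rintro _ ⟨u, hu, rfl⟩ y
        obtain ⟨g, rfl⟩ := hfs y
        obtain ⟨n, hn, x, hx, rfl⟩ := hfact g
        have hx1 : f x = 1 := (QuotientGroup.eq_one_iff x).mpr hx
        have hn' := (Subgroup.mem_normalizer_iff.mp hn u).mp hu
        refine ⟨n * u * n⁻¹, hn', ?_⟩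
        simp [hx1]
      have hSbp : IsPGroup p Sb := S.isPGroup'.map f
      have hSbi : ¬ p ∣ Sb.index := fun h =>
        S.not_dvd_index (h.trans (Subgroup.index_map_dvd _ hfs))
      have hSbeq : Sb = pCore p (G ⧸ pPrimeCore p G) := by
        apply le_antisymm (le_pCore hSbn hSbp)
        exact pCore_le_sylow (hSbp.toSylow hSbi)
      have := centralizer_le_of_normal_sylow (p := p) (G := G ⧸ pPrimeCore p G)
        pPrimeCore_quotient_eq_bot Sb hSbp hSbi
      rw [hSbeq] at this
      exact this
    · -- fusion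
      intro Q hQ g hg
      obtain ⟨n, hn, x, hx, rfl⟩ := hfact g
      refine ⟨n, hn, x, ?_, rfl⟩
      rw [Subgroup.mem_centralizer_iff]
      intro u hu
      have hu' : (u : G) ∈ Q := hu
      have h1 : (n * x) * u * (n * x)⁻¹ ∈ (S : Subgroup G) := hg ⟨u, hu', rfl⟩
      have h2 : x * u * x⁻¹ ∈ (S : Subgroup G) := by
        have hn2 := (Subgroup.mem_normalizer_iff.mp hn (x * u * x⁻¹)).mpr
        apply hn2
        have : n * (x * u * x⁻¹) * n⁻¹ = (n * x) * u * (n * x)⁻¹ := by group
        rw [this]; exact h1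
      have h3 : x * u * x⁻¹ * u⁻¹ ∈ (S : Subgroup G) ⊓ pPrimeCore p G := by
        constructor
        · exact (S : Subgroup G).mul_mem h2 ((S : Subgroup G).inv_mem (hQ hu'))
        · have : x * u * x⁻¹ * u⁻¹ = x * (u * x⁻¹ * u⁻¹) := by group
          rw [this]
          exact (pPrimeCore p G).mul_mem hx
            ((pPrimeCore_normal p G).conj_mem _ ((pPrimeCore p G).inv_mem hx) u)
      rw [hSN, Subgroup.mem_bot] at h3
      have h4 : x * u * x⁻¹ = u := by
        calc x * u * x⁻¹ = (x * u * x⁻¹ * u⁻¹) * u := by group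
          _ = u := by rw [h3, one_mul]
      calc u * x = (x * u * x⁻¹) * x := by rw [h4]
        _ = x * u := by group
  · rintro ⟨hc, hfus⟩
    let K := pPrimePCore p G
    let P₀ : Sylow p K := sylowOfNormal S K
    let Q : Subgroup G := (P₀ : Subgroup K).map K.subtype
    have hQS : Q ≤ (S : Subgroup G) := by
      rw [show Q = (S : Subgroup G) ⊓ K from map_sylowOfNormal S K]
      exact inf_le_left
    have hQK : Q ≤ K := Subgroup.map_subtype_le _
    have hL1 : Q ≤ Subgroup.normalizer ((S : Subgroup G) : Set G) :=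
      hQS.trans Subgroup.le_normalizer
    -- `K ≤ Q ⊔ N`
    have hKle : K ≤ Subgroup.normalizer ((S : Subgroup G) : Set G) ⊔ pPrimeCore p G := by
      intro x hx
      have hmap := map_sylow_pPrimePCore P₀
      have hx' : (QuotientGroup.mk' (pPrimeCore p G)) x ∈ pCore p (G ⧸ pPrimeCore p G) := hx
      rw [← hmap] at hx'
      obtain ⟨u, hu, hux⟩ := hx'
      have h1 : u⁻¹ * x ∈ pPrimeCore p G := QuotientGroup.eq.mp hux
      have h2 : x = u * (u⁻¹ * x) := by group
      rw [h2]
      exact Subgroup.mul_mem _ (Subgroup.mem_sup_left (hL1 hu)) (Subgroup.mem_sup_right h1)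
    -- Frattini
    have hfr := Sylow.normalizer_sup_eq_top P₀
    rw [eq_top_iff, ← hfr]
    refine sup_le ?_ hKle
    intro a ha
    have hconj : Q.map (MulAut.conj a).toMonoidHom ≤ (S : Subgroup G) := by
      rintro _ ⟨u, hu, rfl⟩
      exact hQS ((Subgroup.mem_normalizer_iff.mp ha u).mp hu)
    obtain ⟨n, hn, c, hc', rfl⟩ := hfus Q hQS a hconj
    have hcK : c ∈ K := hc P₀ hc'
    exact Subgroup.mul_mem _ (Subgroup.mem_sup_left hn) (hKle hcK)

end Cfsg.Agent.S1948
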