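import Cfsg.Statements.S1949
import Cfsg.Agent.Lib.Transfer.SmallCritical

set_option autoImplicit false
open Cfsg

namespace Cfsg.Agent.S1949

/-- Let P be a finite p-group and G a group of automorphisms of P containing the inner automorphisms. Then there is a G-invariant subgroup D of P, contained in the subgroup generated by the elements x⁻¹α(x) with x in P and α in O^p(G), of exponent dividing p when p is odd and dividing 4 when p = 2, with [D, P] ≤ Z(D), such that every automorphism in G of order prime to p that fixes D elementwise is the identity; moreover every maximal abelian subgroup A of D is normal in P and every automorphism in G fixing A elementwise has p-power order. -/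
theorem result {P : Type*} [Group P] [Finite P] {p : ℕ} [Fact p.Prime] (hP : IsPGroup p P)
    (G : Subgroup (MulAut P)) (hG : Cfsg.Inn P ≤ G) :
    ∃ D : Subgroup P,
      (∀ α ∈ G, D.map α.toMonoidHom = D) ∧
      D ≤ Subgroup.closure {y : P | ∃ α ∈ Cfsg.pResidual p ↥G, ∃ x : P, y = x⁻¹ * (α : MulAut P) x} ∧
      (∀ d ∈ D, d ^ p = 1 ∨ (p = 2 ∧ d ^ 4 = 1)) ∧
      ⁅D, (⊤ : Subgroup P)⁆ ≤ D ⊓ Subgroup.centralizer (D : Set P) ∧
      (∀ α ∈ G, (orderOf α).Coprime p → (∀ d ∈ D, α d = d) → α = 1) ∧
      ∀ A : Subgroup P, A ≤ D → IsMulCommutative ↥A →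
        (∀ B : Subgroup P, A ≤ B → B ≤ D → IsMulCommutative ↥B → B = A) →
        A.Normal ∧ ∀ α ∈ G, (∀ a ∈ A, α a = a) → ∃ k : ℕ, orderOf α = p ^ k := by
  exact Cfsg.Agent.Lib.Transfer.SmallCritical.exists_small_subgroup hP G hG

end Cfsg.Agent.S1949
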