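import Cfsg.Statements.S1954
import Cfsg.Agent.Lib.StrongSec.NormalCtl

set_option autoImplicit false
open Cfsg

namespace Cfsg.Agent.S1954

/-- Let N be a normal subgroup of the finite group G, P a Sylow p-subgroup of G, and V a subgroup of P ∩ N normal in P ∩ N such that N_N(V) controls strong fusion in P ∩ N with respect to N (whenever a subgroup A of P ∩ N has n A n⁻¹ ≤ P ∩ N for some n in N, then n = h c with h in N_N(V) and c in C_N(A)). Let W be the subgroup generated by the conjugates of V under N_G(P ∩ N). Then N_G(W) controls strong fusion in P with respect to G. -/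
theorem result {G : Type*} [Group G] [Finite G] {p : ℕ} [Fact p.Prime] (N : Subgroup G) [N.Normal] (P : Sylow p G) (V : Subgroup G)
    (hV : V ≤ (P : Subgroup G) ⊓ N) (hVn : ∀ x ∈ (P : Subgroup G) ⊓ N, V.map (MulAut.conj x).toMonoidHom = V)
    (hctrl : ∀ A : Subgroup G, A ≤ (P : Subgroup G) ⊓ N → ∀ n ∈ N, A.map (MulAut.conj n).toMonoidHom ≤ (P : Subgroup G) ⊓ N →
      ∃ h ∈ N ⊓ Subgroup.normalizer (V : Set G), ∃ c ∈ N ⊓ Subgroup.centralizer (A : Set G), n = h * c)
    (W : Subgroup G) (hW : W = Subgroup.closure (⋃ x ∈ Subgroup.normalizer (((P : Subgroup G) ⊓ N : Subgroup G) : Set G),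
      ((V.map (MulAut.conj x).toMonoidHom : Subgroup G) : Set G))) :
    ∀ A : Subgroup G, A ≤ (P : Subgroup G) → ∀ g : G, A.map (MulAut.conj g).toMonoidHom ≤ (P : Subgroup G) →
        ∃ h ∈ Subgroup.normalizer (W : Set G), ∃ c ∈ Subgroup.centralizer (A : Set G), g = h * c := by
  exact Cfsg.Agent.Lib.StrongSec.NormalCtl.s1954 N P V hV hVn hctrl W hW

end Cfsg.Agent.S1954
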