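import Cfsg.Statements.S1956
import Cfsg.Agent.Lib.ConjFam.WellPlaced

set_option autoImplicit false
open Cfsg

namespace Cfsg.Agent.S1956

/-- Let P be a Sylow p-subgroup of the finite group G such that every element of P of order dividing p (dividing 4 when p = 2) is central in P. Then the fusion of these elements is controlled by N_G(P): if such an element a of P has g a g⁻¹ in P, then g = n c with n normalizing P and c commuting with a. -/
theorem result {G : Type*} [Group G] [Finite G] {p : ℕ} [Fact p.Prime] (P : Sylow p G)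
    (hcen : ∀ a ∈ (P : Subgroup G), (a ^ p = 1 ∨ (p = 2 ∧ a ^ 4 = 1)) → ∀ y ∈ (P : Subgroup G), a * y = y * a) :
    ∀ a ∈ (P : Subgroup G), (a ^ p = 1 ∨ (p = 2 ∧ a ^ 4 = 1)) → ∀ g : G, g * a * g⁻¹ ∈ (P : Subgroup G) →
      ∃ n ∈ Subgroup.normalizer ((P : Subgroup G) : Set G), ∃ c : G, c * a = a * c ∧ g = n * c := by
  open Cfsg.Agent.Lib.ConjFam.Basic Cfsg.Agent.Lib.ConjFam.WellPlaced in
  intro a ha hao g hg
  have hPp : IsPGroup p (P : Subgroup G) := P.isPGroup'
  -- `a' = g a g⁻¹` is central in `P`.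
  set a' := g * a * g⁻¹ with ha'
  have hao' : a' ^ p = 1 ∨ (p = 2 ∧ a' ^ 4 = 1) := by
    have hpow : ∀ n : ℕ, a' ^ n = g * a ^ n * g⁻¹ := fun n => by rw [ha', conj_pow]
    rcases hao with h | ⟨h1, h2⟩
    · left; rw [hpow, h]; group
    · right; exact ⟨h1, by rw [hpow, h2]; group⟩
  have hC1 : (P : Subgroup G) ≤ Subgroup.centralizer ({a'} : Set G) := by
    intro y hy
    rw [Subgroup.mem_centralizer_iff]
    intro x hx
    rw [Set.mem_singleton_iff] at hx
    subst hx
    exact hcen a' hg hao' y hy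
  have hC2 : cj g (P : Subgroup G) ≤ Subgroup.centralizer ({a'} : Set G) := by
    rintro _ ⟨y, hy, rfl⟩
    rw [Subgroup.mem_centralizer_iff]
    intro x hx
    rw [Set.mem_singleton_iff] at hx
    subst hx
    have := hcen a ha hao y hy
    simp only [MulEquiv.coe_toMonoidHom, MulAut.conj_apply, ha']
    calc g * a * g⁻¹ * (g * y * g⁻¹) = g * (a * y) * g⁻¹ := by group
      _ = g * (y * a) * g⁻¹ := by rw [this]
      _ = _ := by group
  have hidx : ¬ p ∣ (P : Subgroup G).relIndex (Subgroup.centralizer ({a'} : Set G)) := by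
    have := not_dvd_relIndex_of_sylow_le P _ hC1
    rwa [inf_eq_left.2 hC1] at this
  obtain ⟨x, hx, hxQ⟩ := exists_conj_le_of_sylowIn _ _ _ hC1 hPp hidx hC2 (isPGroup_cj hPp g)
  have hn : cj (x * g) (P : Subgroup G) = P := by
    rw [← cj_cj]
    refine Subgroup.eq_of_le_of_card_ge hxQ ?_
    rw [card_cj, card_cj]
  have hxa : x * a' = a' * x := by
    have := Subgroup.mem_centralizer_iff.1 hx a' rfl
    exact this.symm
  refine ⟨x * g, mem_normalizer_iff_cj.2 hn, (x * g)⁻¹ * g, ?_, by group⟩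
  have : x⁻¹ * a' * x = a' := by
    rw [mul_assoc, ← hxa]; group
  have h2 : (x * g)⁻¹ * g * a * ((x * g)⁻¹ * g)⁻¹ = g⁻¹ * (x⁻¹ * a' * x) * g := by
    rw [ha']; group
  have h3 : (x * g)⁻¹ * g * a * ((x * g)⁻¹ * g)⁻¹ = a := by
    rw [h2, this, ha']; group
  calc (x * g)⁻¹ * g * a = (x * g)⁻¹ * g * a * ((x * g)⁻¹ * g)⁻¹ * ((x * g)⁻¹ * g) := by group
    _ = a * ((x * g)⁻¹ * g) := by rw [h3]

end Cfsg.Agent.S1956
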