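import Cfsg.Statements.S2015
import Cfsg.Agent.Lib.KInf.Transfer
-- import your own Cfsg.Agent.* helpers here

set_option autoImplicit false
universe u
open Cfsg

namespace Cfsg.Agent.S2015

/-- For p ≥ 5, every finite p-group P has a characteristic subgroup K containing Z(P), depending only on P, whose normalizer controls transfer wherever P is a Sylow subgroup: for every finite group G and every embedding ι of P onto a Sylow p-subgroup of G, the intersection of ι(P) with the derived subgroup of G equals its intersection with the derived subgroup of N_G(ι(K)). -/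
theorem result (p : ℕ) [Fact p.Prime] (hp : 5 ≤ p) (P : Type u) [Group P] [Finite P] (hP : IsPGroup p P) : ∃ K : Subgroup P, K.Characteristic ∧ Subgroup.center P ≤ K ∧ ∀ (G : Type u) [Group G] [Finite G] (ι : P →* G), Function.Injective ι → (∃ T : Sylow p G, (T : Subgroup G) = ι.range) → ι.range ⊓ commutator G = ι.range ⊓ (commutator ↥(Subgroup.normalizer ((K.map ι : Subgroup G) : Set G))).map (Subgroup.normalizer ((K.map ι : Subgroup G) : Set G)).subtype := by
  classical
  refine ⟨Cfsg.kInfLower P, ?_, Cfsg.Agent.Lib.KInf.Transfer.center_le_kInfLower P, ?_⟩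
  · constructor
    intro φ
    apply le_antisymm
    · intro x hx
      have h := Cfsg.Agent.Lib.KInf.Chain.map_kInfLower_equiv φ
      have h1 : φ x ∈ (Cfsg.kInfLower P).map φ.toMonoidHom := by
        rw [h]
        exact hx
      obtain ⟨y, hy, hyx⟩ := h1
      have : y = x := φ.injective hyx
      rwa [← this]
    · intro x hx
      have h := Cfsg.Agent.Lib.KInf.Chain.map_kInfLower_equiv φ
      have h1 : φ x ∈ (Cfsg.kInfLower P).map φ.toMonoidHom := ⟨x, hx, rfl⟩
      rw [h] at h1
      exact h1
  · intro G _ _ ι hι ⟨T, hT⟩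
    have hC := Cfsg.Agent.Lib.KInf.Transfer.eq_of_ctl
      (Cfsg.Agent.Lib.KInf.Transfer.ctl_kInfLower (X := G) hp) T
    have hK : Cfsg.inducedFunctor Cfsg.kInfLower (T : Subgroup G) = (Cfsg.kInfLower P).map ι := by
      rw [hT]
      show (Cfsg.kInfLower ↥ι.range).map ι.range.subtype = _
      rw [← Cfsg.Agent.Lib.KInf.Chain.map_kInfLower_equiv (MonoidHom.ofInjective hι), Subgroup.map_map]
      rfl
    rw [hK, hT] at hC
    rw [Subgroup.map_subtype_commutator]
    exact hC

end Cfsg.Agent.S2015
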