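import Cfsg.Statements.S2089
import Cfsg.Agent.Lib.SUStem.Main
import Cfsg.Agent.S0279

set_option autoImplicit false
open Cfsg

namespace Cfsg.Agent.S2089

open Subgroup Matrix Cfsg.Agent.Lib.Schur.SLnStem Cfsg.Agent.Lib.SUStem

/-- Schur multipliers of the unitary groups: for n ≥ 3 and a field F with q² elements, (n, q) ≠ (3, 2), apart from the exceptional pairs (n, q) = (4, 2), (4, 3), (6, 2), the Schur multiplier of PSU_n(q) is cyclic of order gcd(n, q + 1); here the Schur multiplier is described through stem extensions, as in the definitions. -/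
theorem result {F : Type*} [Field F] [Fintype F] (n q : ℕ) (hF : Fintype.card F = q ^ 2) (hn : 3 ≤ n) (h3 : ¬ (n = 3 ∧ q = 2)) (hexc : (n, q) ∉ ({(4, 2), (4, 3), (6, 2)} : Set (ℕ × ℕ))) : Cfsg.HasCyclicSchurMultiplier (Cfsg.PSU n F q) (Nat.gcd n (q + 1)) := by
  classical
  let π : ↥(Cfsg.SU n F q) →* Cfsg.PSU n F q := QuotientGroup.mk' _
  have hk : π.ker = center _ := QuotientGroup.ker_mk' _
  have hperf : commutator ↥(Cfsg.SU n F q) = ⊤ := perfect_SU hF n hn h3
  have hcard : Nat.card π.ker = Nat.gcd n (q + 1) := by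
    rw [hk]
    exact Cfsg.Agent.S0279.result hF n hn
  have hcyc : IsCyclic π.ker := by
    rw [hk]
    obtain ⟨c, hc⟩ := Cfsg.Agent.Lib.PresU.center_zpowers hF n (by omega)
    rw [hc]
    infer_instance
  have hstem : IsStemExtension π :=
    ⟨QuotientGroup.mk'_surjective _, by rw [hk], by rw [hperf]; exact le_top⟩
  exact hasCyclic_of_cover π hstem (stem_SU hF n hn h3 hexc) hperf hcyc hcard

end Cfsg.Agent.S2089
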