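import Cfsg.Statements.S2133
import Cfsg.Agent.Lib.M24Data.CommTree

set_option autoImplicit false
open Cfsg

namespace Cfsg.Agent.S2133

open scoped Pointwise
open Cfsg.Agent.Lib.Golay.Core Cfsg.Agent.Lib.Golay.Perm Cfsg.Agent.Lib.Golay.Chain Cfsg.Agent.Lib.Golay.M24
  Cfsg.Agent.Lib.M24Data.OctadPairs Cfsg.Agent.Lib.M24Data.Tree Cfsg.Agent.Lib.M24Data.CommTree

/-- The octad fixed pointwise by the involution. -/
def Om : ℕ := 2019456
/-- The involution. -/
def Zc : ℕ := 881053436996218731795188336786738537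
/-- The coordinates of the points off the octad. -/
def Ct : ℕ := 636624272647882072034365950917574370
/-- The coordinate hyperplanes. -/
def HmL : List ℕ := [8455014, 14757759, 10554382, 14688364, 10558]

theorem Zc_check : checkAut Zc = true := by decide +kernel
theorem Zc_valid : validPerm Zc = true := checkAut_valid Zc_check
theorem Zc_mem : g Zc ∈ M24 := g_mem_M24 Zc_check

/-- The vector with the given bits. -/
def vv (v : ℕ) : Fin 5 → ZMod 2 := fun j => if bit v j.val = 1 then 1 else 0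

/-- The coordinate vector of a point. -/
def cc (p : GolayPt) : Fin 5 → ZMod 2 := vv (img Ct (idx p))

/-- The dot product of two masks. -/
def dotB (w v : ℕ) : ℕ := Nat.mod (pop (Nat.land w v)) 2

theorem vv_dot : ∀ w < 32, ∀ v < 32, dotProduct (vv w) (vv v) = if dotB w v = 1 then 1 else 0 := by
  decide +kernel

/-- `x` is the hyperplane of the form `w`. -/
def isHyp (x w : ℕ) : Bool :=
  allUpTo (fun k => Nat.beq (bit Om k) 1 || Nat.beq (bit x k) (dotB w (img Ct k))) 24

/-- `x` is a hyperplane. -/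
def exW (x : ℕ) : Bool := !(allUpTo (fun w => !(isHyp x w)) 32)

theorem exW_spec {x : ℕ} (h : exW x = true) :
    ∃ w < 32, ∀ k < 24, bit Om k = 1 ∨ bit x k = dotB w (img Ct k) := by
  by_contra hc
  have : allUpTo (fun w => !(isHyp x w)) 32 = true := by
    apply allUpTo_iff.mpr
    intro w hw
    cases hi : isHyp x w with
    | false => rfl
    | true =>
      exfalso
      apply hc
      refine ⟨w, hw, fun k hk => ?_⟩
      have := allUpTo_iff.mp hi k hk
      simp only [Bool.or_eq_true] at this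
      rcases this with h1 | h1
      · exact Or.inl (Nat.eq_of_beq_eq_true h1)
      · exact Or.inr (Nat.eq_of_beq_eq_true h1)
  simp [exW, this] at h

theorem T1 : allUpTo (fun m => !(Nat.beq (pop (code m)) 8 && Nat.beq (Nat.land (code m) Om) 0) || exW (code m)) 4096 = true := by
  decide +kernel

theorem Hm_spec : ∀ i < 5, i ≠ 1 → HmL.getD i 0 < 2 ^ 24 ∧ isCode (HmL.getD i 0) = true ∧ pop (HmL.getD i 0) = 8 := by
  decide +kernel

theorem Hm_bit : ∀ i < 5, ∀ k < 24, bit (HmL.getD i 0) k = bit (img Ct k) i := by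
  decide +kernel

theorem off_O_spec : ∀ k < 24, bit Om k = 1 ∨ (bit (img Ct k) 1 = 1 ∧ dotB 2 (img Ct k) = 1) := by
  decide +kernel

theorem fix_check : ∀ k < 24, (img Zc k = k ↔ bit Om k = 1) := by decide +kernel

theorem mem_O_iff (p : GolayPt) : p ∈ setOf Om ↔ bit Om (idx p) = 1 := by
  rw [mem_setOf, bit_eq_one_iff]

theorem fix_iff (p : GolayPt) : g Zc p = p ↔ p ∈ setOf Om := by
  rw [mem_O_iff, ← fix_check _ (idx_lt p), g_apply Zc_valid]
  constructor
  · intro h
    have := congrArg idx h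
    rwa [idx_pt (valid_img_lt Zc_valid (idx_lt p))] at this
  · intro h
    rw [h, pt_idx]

theorem preserves {a : Equiv.Perm GolayPt} (h : a * g Zc = g Zc * a) (p : GolayPt) :
    a p ∈ setOf Om ↔ p ∈ setOf Om := by
  rw [← fix_iff, ← fix_iff]
  have e : g Zc (a p) = a (g Zc p) := by
    have := congrArg (fun f : Equiv.Perm GolayPt => f p) h
    simpa using this.symm
  rw [e]
  exact a.injective.eq_iff

theorem exists_row {a : Equiv.Perm GolayPt} (ha : a ∈ M24) (hO : ∀ p, a p ∈ setOf Om ↔ p ∈ setOf Om)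
    (i : Fin 5) : ∃ w : Fin 5 → ZMod 2, ∀ p, p ∉ setOf Om → cc (a p) i = dotProduct w (cc p) := by
  by_cases hi : i.val = 1
  · refine ⟨vv 2, fun p hp => ?_⟩
    have h1 : bit Om (idx p) ≠ 1 := fun h => hp ((mem_O_iff p).mpr h)
    have h2 : bit Om (idx (a p)) ≠ 1 := fun h => hp ((hO p).mp ((mem_O_iff _).mpr h))
    have h3 := (off_O_spec _ (idx_lt p)).resolve_left h1
    have h4 := (off_O_spec _ (idx_lt (a p))).resolve_left h2
    rw [cc, cc, vv_dot 2 (by norm_num) _ (img_lt _ _), if_pos h3.2]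
    simp only [vv, hi, h4.1, if_true]
  · obtain ⟨hlt, hcode, hpop⟩ := Hm_spec i.val i.isLt hi
    have hoct : setOf (HmL.getD i.val 0) ∈ octads := (setOf_mem_octads_iff hlt).mpr ⟨hcode, hpop⟩
    have hX := smul_mem_octads (M24.inv_mem ha) hoct
    obtain ⟨m, hm, hpop8, hXe⟩ := mem_octads_iff.mp hX
    have hmem : ∀ q, q ∈ setOf (code m) ↔ a q ∈ setOf (HmL.getD i.val 0) := by
      intro q
      rw [← hXe, Finset.mem_inv_smul_finset_iff]
      rfl
    have hbitq : ∀ q, q ∈ setOf (code m) ↔ bit (img Ct (idx (a q))) i.val = 1 := by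
      intro q
      rw [hmem, mem_setOf, ← bit_eq_one_iff, Hm_bit _ i.isLt _ (idx_lt _)]
    have hdis : Nat.land (code m) Om = 0 := by
      have hlt2 : Nat.land (code m) Om < 2 ^ 24 := lt_of_le_of_lt Nat.and_le_left (code_lt hm)
      apply eq_of_setOf_eq hlt2 (by norm_num)
      ext q
      constructor
      · intro hq
        have hq' : q ∈ setOf (code m &&& Om) := hq
        rw [setOf_inter, Finset.mem_inter] at hq'
        exfalso
        have h5 := (hbitq q).mp hq'.1
        have h6 := (hO q).mpr hq'.2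
        have h7 := (mem_O_iff _).mp h6
        have h8 := Hm_bit i.val i.isLt _ (idx_lt (a q))
        have h9 : bit Om (idx (a q)) = 1 → bit (img Ct (idx (a q))) i.val = 1 → False := by
          have key : ∀ k < 24, ∀ j < 5, bit Om k = 1 → bit (img Ct k) j = 1 → False := by decide +kernel
          exact key _ (idx_lt _) _ i.isLt
        exact h9 h7 h5
      · intro hq
        rw [mem_setOf] at hq
        simp at hq
    have hT := allUpTo_iff.mp T1 m hm
    simp only [hpop8, hdis, Bool.or_eq_true, Bool.not_eq_eq_eq_not, Bool.not_true] at hT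
    have hT' : exW (code m) = true := by
      rcases hT with h | h
      · simp [Nat.beq_refl] at h
      · exact h
    obtain ⟨w, hw, hkey⟩ := exW_spec hT'
    refine ⟨vv w, fun p hp => ?_⟩
    have h1 : bit Om (idx p) ≠ 1 := fun h => hp ((mem_O_iff p).mpr h)
    have h2 := (hkey _ (idx_lt p)).resolve_left h1
    rw [cc, cc, vv_dot w hw _ (img_lt _ _), ← h2]
    simp only [vv]
    apply if_congr _ rfl rfl
    exact ((bit_eq_one_iff.trans mem_setOf.symm).trans (hbitq p)).symm

theorem exists_mat {a : Equiv.Perm GolayPt} (ha : a ∈ M24) (hO : ∀ p, a p ∈ setOf Om ↔ p ∈ setOf Om) :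
    ∃ m : Matrix (Fin 5) (Fin 5) (ZMod 2), ∀ p, p ∉ setOf Om → m.mulVec (cc p) = cc (a p) := by
  choose w hw using exists_row ha hO
  refine ⟨Matrix.of w, fun p hp => ?_⟩
  funext i
  exact (hw i p hp).symm

theorem off_pts : pt 0 ∉ setOf Om ∧ pt 9 ∉ setOf Om ∧ pt 10 ∉ setOf Om ∧ pt 22 ∉ setOf Om ∧ pt 4 ∉ setOf Om := by
  decide +kernel

theorem single_eq :
    Pi.single (0 : Fin 5) (1 : ZMod 2) = cc (pt 9) + cc (pt 0) ∧
    Pi.single (1 : Fin 5) (1 : ZMod 2) = cc (pt 0) ∧
    Pi.single (2 : Fin 5) (1 : ZMod 2) = cc (pt 10) + cc (pt 0) ∧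
    Pi.single (3 : Fin 5) (1 : ZMod 2) = cc (pt 22) + cc (pt 0) ∧
    Pi.single (4 : Fin 5) (1 : ZMod 2) = cc (pt 4) + cc (pt 0) := by
  decide +kernel

theorem ext_on {m m' : Matrix (Fin 5) (Fin 5) (ZMod 2)}
    (h : ∀ p, p ∉ setOf Om → m.mulVec (cc p) = m'.mulVec (cc p)) : m = m' := by
  obtain ⟨o1, o2, o3, o4, o5⟩ := off_pts
  obtain ⟨s1, s2, s3, s4, s5⟩ := single_eq
  apply Matrix.ext_of_mulVec_single
  intro j
  fin_cases j
  · show m.mulVec (Pi.single (0 : Fin 5) 1) = m'.mulVec (Pi.single (0 : Fin 5) 1)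
    rw [s1, Matrix.mulVec_add, Matrix.mulVec_add, h _ o1, h _ o2]
  · show m.mulVec (Pi.single (1 : Fin 5) 1) = m'.mulVec (Pi.single (1 : Fin 5) 1)
    rw [s2, h _ o1]
  · show m.mulVec (Pi.single (2 : Fin 5) 1) = m'.mulVec (Pi.single (2 : Fin 5) 1)
    rw [s3, Matrix.mulVec_add, Matrix.mulVec_add, h _ o1, h _ o3]
  · show m.mulVec (Pi.single (3 : Fin 5) 1) = m'.mulVec (Pi.single (3 : Fin 5) 1)
    rw [s4, Matrix.mulVec_add, Matrix.mulVec_add, h _ o1, h _ o4]
  · show m.mulVec (Pi.single (4 : Fin 5) 1) = m'.mulVec (Pi.single (4 : Fin 5) 1)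
    rw [s5, Matrix.mulVec_add, Matrix.mulVec_add, h _ o1, h _ o5]

theorem cc_inj {p q : GolayPt} (hp : p ∉ setOf Om) (hq : q ∉ setOf Om) (h : cc p = cc q) : p = q := by
  have key : ∀ i < 24, ∀ j < 24, bit Om i = 1 ∨ bit Om j = 1 ∨ (vv (img Ct i) = vv (img Ct j) → i = j) := by
    decide +kernel
  have h1 := key _ (idx_lt p) _ (idx_lt q)
  have h2 := h1.resolve_left (fun h => hp ((mem_O_iff p).mpr h))
  have h3 := h2.resolve_left (fun h => hq ((mem_O_iff q).mpr h))
  exact idx_injective (h3 h)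

theorem s_cc : ∀ k < 24, bit Om k = 1 ∨
    (Matrix.transvection (0 : Fin 5) 1 (1 : ZMod 2)).mulVec (vv (img Ct k)) = vv (img Ct (img Zc k)) := by
  decide +kernel

theorem s_cc' (p : GolayPt) (hp : p ∉ setOf Om) :
    (Matrix.transvection (0 : Fin 5) 1 (1 : ZMod 2)).mulVec (cc p) = cc (g Zc p) := by
  have h1 := (s_cc _ (idx_lt p)).resolve_left (fun h => hp ((mem_O_iff p).mpr h))
  rw [cc, h1, cc, idx_g Zc_valid]

/-- The involution as an element of the group. -/
noncomputable def z0 : ↥M24 := ⟨g Zc, Zc_mem⟩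

/-- The centraliser. -/
noncomputable abbrev CZ : Subgroup ↥M24 := Subgroup.centralizer ({z0} : Set ↥M24)

theorem comm_of {a : ↥M24} (ha : a ∈ CZ) : (a : Equiv.Perm GolayPt) * g Zc = g Zc * a := by
  have h := Subgroup.mem_centralizer_singleton_iff.mp ha
  exact congrArg Subtype.val h

theorem pres (a : CZ) (p : GolayPt) : a.1.1 p ∈ setOf Om ↔ p ∈ setOf Om := preserves (comm_of a.2) p

/-- The matrix of an element of the centraliser. -/
noncomputable def Ma (a : CZ) : Matrix (Fin 5) (Fin 5) (ZMod 2) :=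
  Classical.choose (exists_mat a.1.2 (pres a))

theorem Ma_spec (a : CZ) (p : GolayPt) (hp : p ∉ setOf Om) : (Ma a).mulVec (cc p) = cc (a.1.1 p) :=
  Classical.choose_spec (exists_mat a.1.2 (pres a)) p hp

theorem Ma_one : Ma 1 = 1 := ext_on fun p hp => by
  rw [Ma_spec _ p hp, Matrix.one_mulVec]
  rfl

theorem Ma_mul (a b : CZ) : Ma (a * b) = Ma a * Ma b := ext_on fun p hp => by
  have hb : b.1.1 p ∉ setOf Om := fun h => hp ((pres b p).mp h)
  rw [Ma_spec _ p hp, ← Matrix.mulVec_mulVec, Ma_spec b p hp, Ma_spec a _ hb]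
  rfl

theorem Ma_det (a : CZ) : (Ma a).det = 1 := by
  have h : (Ma a).det * (Ma a⁻¹).det = 1 := by
    rw [← Matrix.det_mul, ← Ma_mul, mul_inv_cancel, Ma_one, Matrix.det_one]
  have key : ∀ x y : ZMod 2, x * y = 1 → x = 1 := by decide
  exact key _ _ h

theorem Ma_comm (a : CZ) :
    Ma a * Matrix.transvection (0 : Fin 5) 1 (1 : ZMod 2) = Matrix.transvection (0 : Fin 5) 1 (1 : ZMod 2) * Ma a :=
  ext_on fun p hp => by
    have h1 : g Zc p ∉ setOf Om := by
      intro h
      apply hp
      rw [← fix_iff] at h ⊢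
      exact (g Zc).injective h
    have h2 : a.1.1 p ∉ setOf Om := fun h => hp ((pres a p).mp h)
    rw [← Matrix.mulVec_mulVec, ← Matrix.mulVec_mulVec, s_cc' p hp, Ma_spec a _ h1, Ma_spec a p hp, s_cc' _ h2]
    have := congrArg (fun f : Equiv.Perm GolayPt => f p) (comm_of a.2)
    simp only [Equiv.Perm.mul_apply] at this
    rw [this]

theorem Ma_inj (a : CZ) (h : Ma a = 1) : a = 1 := by
  have hfix : ∀ x ∈ [4, 5, 3, 2, 1, 0, 23], a.1.1 (pt x) = pt x := by
    intro x hx
    have hlt : x < 24 := by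
      simp only [List.mem_cons, List.not_mem_nil, or_false] at hx
      omega
    have hx' : bit Om x ≠ 1 := by
      have key : ∀ x ∈ [4, 5, 3, 2, 1, 0, 23], bit Om x ≠ 1 := by decide +kernel
      exact key x hx
    have hp : pt x ∉ setOf Om := by
      rw [mem_O_iff, idx_pt hlt]
      exact hx'
    have h2 : a.1.1 (pt x) ∉ setOf Om := fun h => hp ((pres a _).mp h)
    have h3 := Ma_spec a _ hp
    rw [h, Matrix.one_mulVec] at h3
    exact (cc_inj hp h2 h3).symm
  have hF : a.1.1 ∈ Fix [4, 5, 3, 2, 1, 0, 23] := ⟨a.1.2, hfix⟩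
  rw [Fix_base] at hF
  have h1 : a.1.1 = 1 := hF
  exact Subtype.ext (Subtype.ext h1)

section target

variable (s : Matrix.SpecialLinearGroup (Fin 5) (ZMod 2))
  (hs : (s : Matrix (Fin 5) (Fin 5) (ZMod 2)) = Matrix.transvection 0 1 1)

/-- The matrix, in the special linear group. -/
noncomputable def slOf (a : CZ) : Matrix.SpecialLinearGroup (Fin 5) (ZMod 2) := ⟨Ma a, Ma_det a⟩

include hs in
theorem phi_mem (a : CZ) : slOf a ∈
    Subgroup.centralizer ({s} : Set (Matrix.SpecialLinearGroup (Fin 5) (ZMod 2))) := by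
  apply Subgroup.mem_centralizer_singleton_iff.mpr
  apply Subtype.ext
  show Ma a * (s : Matrix (Fin 5) (Fin 5) (ZMod 2)) = (s : Matrix (Fin 5) (Fin 5) (ZMod 2)) * Ma a
  rw [hs]
  exact Ma_comm a

/-- The homomorphism. -/
noncomputable def phi : CZ →* Subgroup.centralizer ({s} : Set (Matrix.SpecialLinearGroup (Fin 5) (ZMod 2))) :=
  MonoidHom.mk' (fun a => ⟨slOf a, phi_mem s hs a⟩) (by
    intro a b
    apply Subtype.ext
    apply Subtype.ext
    exact Ma_mul a b)

theorem phi_inj : Function.Injective (phi s hs) := by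
  rw [injective_iff_map_eq_one]
  intro a h
  apply Ma_inj
  have h1 : slOf a = 1 := congrArg Subtype.val h
  exact congrArg Subtype.val h1

/-- The shape of a matrix commuting with the transvection. -/
structure Shape (m : Matrix (Fin 5) (Fin 5) (ZMod 2)) : Prop where
  c1 : m 1 0 = 0
  c2 : m 2 0 = 0
  c3 : m 3 0 = 0
  c4 : m 4 0 = 0
  r0 : m 1 0 = 0
  r2 : m 1 2 = 0
  r3 : m 1 3 = 0
  r4 : m 1 4 = 0
  d : m 0 0 = m 1 1

theorem shape_of {m : Matrix (Fin 5) (Fin 5) (ZMod 2)}
    (h : m * Matrix.transvection 0 1 1 = Matrix.transvection 0 1 1 * m) : Shape m := by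
  have h' : m * Matrix.single (0 : Fin 5) (1 : Fin 5) (1 : ZMod 2) = Matrix.single (0 : Fin 5) (1 : Fin 5) (1 : ZMod 2) * m := by
    have h2 := h
    rw [Matrix.transvection, Matrix.mul_add, Matrix.add_mul, Matrix.mul_one, Matrix.one_mul] at h2
    exact add_left_cancel h2
  have e : ∀ i j : Fin 5, (m * Matrix.single (0 : Fin 5) (1 : Fin 5) (1 : ZMod 2)) i j
      = (Matrix.single (0 : Fin 5) (1 : Fin 5) (1 : ZMod 2) * m) i j := fun i j => by rw [h']
  have a1 := e 1 1
  have a2 := e 2 1
  have a3 := e 3 1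
  have a4 := e 4 1
  have b2 := e 0 2
  have b3 := e 0 3
  have b4 := e 0 4
  have d1 := e 0 1
  simp [Matrix.mul_apply, Matrix.single_apply] at a1 a2 a3 a4 b2 b3 b4 d1
  exact ⟨a1, a2, a3, a4, a1, b2.symm, b3.symm, b4.symm, d1⟩

/-- The central three by three block. -/
def blk (m : Matrix (Fin 5) (Fin 5) (ZMod 2)) : Matrix (Fin 3) (Fin 3) (ZMod 2) :=
  fun i j => m (Fin.natAdd 2 i) (Fin.natAdd 2 j)

theorem blk_mul {m n : Matrix (Fin 5) (Fin 5) (ZMod 2)} (hm : Shape m) (hn : Shape n) :
    blk (m * n) = blk m * blk n := by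
  ext i j
  have h1 : ∀ i : Fin 3, m (Fin.natAdd 2 i) 0 = 0 := by
    intro i; fin_cases i
    · exact hm.c2
    · exact hm.c3
    · exact hm.c4
  have h2 : ∀ j : Fin 3, n 1 (Fin.natAdd 2 j) = 0 := by
    intro j; fin_cases j
    · exact hn.r2
    · exact hn.r3
    · exact hn.r4
  simp only [blk, Matrix.mul_apply, Fin.sum_univ_five, Fin.sum_univ_three, h1, h2, zero_mul, mul_zero, zero_add]
  rfl

theorem blk_one : blk 1 = 1 := by decide +kernel

end target

theorem card_CZ' (s : Matrix.SpecialLinearGroup (Fin 5) (ZMod 2))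
    (hs : (s : Matrix (Fin 5) (Fin 5) (ZMod 2)) = Matrix.transvection 0 1 1) :
    Nat.card (Subgroup.centralizer ({s} : Set (Matrix.SpecialLinearGroup (Fin 5) (ZMod 2)))) ≤ 21504 := by
  set C' := Subgroup.centralizer ({s} : Set (Matrix.SpecialLinearGroup (Fin 5) (ZMod 2))) with hC'
  have hshape : ∀ x : C', Shape ((x.1 : Matrix.SpecialLinearGroup (Fin 5) (ZMod 2)) : Matrix (Fin 5) (Fin 5) (ZMod 2)) := by
    intro x
    apply shape_of
    have h := Subgroup.mem_centralizer_singleton_iff.mp x.2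
    have h2 := congrArg (fun y : Matrix.SpecialLinearGroup (Fin 5) (ZMod 2) => (y : Matrix (Fin 5) (Fin 5) (ZMod 2))) h
    simp only [Matrix.SpecialLinearGroup.coe_mul, hs] at h2
    exact h2
  have hinvmul : ∀ x : C', ((x.1 : Matrix.SpecialLinearGroup (Fin 5) (ZMod 2)) : Matrix (Fin 5) (Fin 5) (ZMod 2)) *
      ((x⁻¹).1 : Matrix.SpecialLinearGroup (Fin 5) (ZMod 2)) = 1 := by
    intro x
    have h1 : ((x * x⁻¹ : C') : Matrix.SpecialLinearGroup (Fin 5) (ZMod 2)) = ((1 : C') : Matrix.SpecialLinearGroup (Fin 5) (ZMod 2)) := by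
      rw [mul_inv_cancel]
    rw [Subgroup.coe_mul, Subgroup.coe_one] at h1
    rw [← Matrix.SpecialLinearGroup.coe_mul, h1, Matrix.SpecialLinearGroup.coe_one]
  have hd : ∀ x : C', ((x.1 : Matrix.SpecialLinearGroup (Fin 5) (ZMod 2)) : Matrix (Fin 5) (Fin 5) (ZMod 2)) 0 0 = 1 := by
    intro x
    have h1 := congrFun (congrFun (hinvmul x) 0) 0
    have h2 := hshape x⁻¹
    simp only [Matrix.mul_apply, Fin.sum_univ_five, h2.c1, h2.c2, h2.c3, h2.c4, mul_zero, add_zero] at h1
    have key : ∀ a b : ZMod 2, a * b = 1 → a = 1 := by decide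
    exact key _ _ h1
  let B : C' → (Matrix (Fin 3) (Fin 3) (ZMod 2))ˣ := fun x =>
    ⟨blk (x.1 : Matrix.SpecialLinearGroup (Fin 5) (ZMod 2)), blk ((x⁻¹).1 : Matrix.SpecialLinearGroup (Fin 5) (ZMod 2)),
      by rw [← blk_mul (hshape x) (hshape x⁻¹), hinvmul, blk_one],
      by
        have h := hinvmul x⁻¹
        rw [inv_inv] at h
        rw [← blk_mul (hshape x⁻¹) (hshape x), h, blk_one]⟩
  let F : C' → (Matrix (Fin 3) (Fin 3) (ZMod 2))ˣ × (Fin 4 → ZMod 2) × (Fin 3 → ZMod 2) := fun x =>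
    (B x, fun j => (x.1 : Matrix.SpecialLinearGroup (Fin 5) (ZMod 2)).1 0 (Fin.natAdd 1 j),
      fun i => (x.1 : Matrix.SpecialLinearGroup (Fin 5) (ZMod 2)).1 (Fin.natAdd 2 i) 1)
  have hF : Function.Injective F := by
    intro x y hxy
    apply Subtype.ext
    apply Subtype.ext
    have h1 : B x = B y := congrArg Prod.fst hxy
    have h2 : (fun j : Fin 4 => (x.1 : Matrix.SpecialLinearGroup (Fin 5) (ZMod 2)).1 0 (Fin.natAdd 1 j)) =
        (fun j : Fin 4 => (y.1 : Matrix.SpecialLinearGroup (Fin 5) (ZMod 2)).1 0 (Fin.natAdd 1 j)) :=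
      congrArg (fun t => t.2.1) hxy
    have h3 : (fun i : Fin 3 => (x.1 : Matrix.SpecialLinearGroup (Fin 5) (ZMod 2)).1 (Fin.natAdd 2 i) 1) =
        (fun i : Fin 3 => (y.1 : Matrix.SpecialLinearGroup (Fin 5) (ZMod 2)).1 (Fin.natAdd 2 i) 1) :=
      congrArg (fun t => t.2.2) hxy
    have h1' : blk (x.1 : Matrix.SpecialLinearGroup (Fin 5) (ZMod 2)) = blk (y.1 : Matrix.SpecialLinearGroup (Fin 5) (ZMod 2)) :=
      congrArg Units.val h1
    have hsx := hshape x
    have hsy := hshape y
    have hdx := hd x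
    have hdy := hd y
    have hb : ∀ i j : Fin 3, (x.1 : Matrix.SpecialLinearGroup (Fin 5) (ZMod 2)).1 (Fin.natAdd 2 i) (Fin.natAdd 2 j) =
        (y.1 : Matrix.SpecialLinearGroup (Fin 5) (ZMod 2)).1 (Fin.natAdd 2 i) (Fin.natAdd 2 j) := fun i j =>
      congrFun (congrFun h1' i) j
    have hr : ∀ j : Fin 4, (x.1 : Matrix.SpecialLinearGroup (Fin 5) (ZMod 2)).1 0 (Fin.natAdd 1 j) =
        (y.1 : Matrix.SpecialLinearGroup (Fin 5) (ZMod 2)).1 0 (Fin.natAdd 1 j) := fun j => congrFun h2 j
    have hc : ∀ i : Fin 3, (x.1 : Matrix.SpecialLinearGroup (Fin 5) (ZMod 2)).1 (Fin.natAdd 2 i) 1 =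
        (y.1 : Matrix.SpecialLinearGroup (Fin 5) (ZMod 2)).1 (Fin.natAdd 2 i) 1 := fun i => congrFun h3 i
    ext i j
    have hdx' := hsx.d
    have hdy' := hsy.d
    rw [hdx] at hdx'
    rw [hdy] at hdy'
    fin_cases i <;> fin_cases j
    · exact hdx.trans hdy.symm
    · exact hr 0
    · exact hr 1
    · exact hr 2
    · exact hr 3
    · exact hsx.c1.trans hsy.c1.symm
    · exact hdx'.symm.trans hdy'
    · exact hsx.r2.trans hsy.r2.symm
    · exact hsx.r3.trans hsy.r3.symm
    · exact hsx.r4.trans hsy.r4.symm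
    · exact hsx.c2.trans hsy.c2.symm
    · exact hc 0
    · exact hb 0 0
    · exact hb 0 1
    · exact hb 0 2
    · exact hsx.c3.trans hsy.c3.symm
    · exact hc 1
    · exact hb 1 0
    · exact hb 1 1
    · exact hb 1 2
    · exact hsx.c4.trans hsy.c4.symm
    · exact hc 2
    · exact hb 2 0
    · exact hb 2 1
    · exact hb 2 2
  have hle := Nat.card_le_card_of_injective F hF
  have hGL : Nat.card (Matrix (Fin 3) (Fin 3) (ZMod 2))ˣ = 168 := by
    have h := Matrix.card_GL_field (n := 3) (𝔽 := ZMod 2)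
    rw [show Nat.card (Matrix (Fin 3) (Fin 3) (ZMod 2))ˣ = Nat.card (Matrix.GeneralLinearGroup (Fin 3) (ZMod 2)) from rfl, h]
    simp [ZMod.card, Fin.prod_univ_three]
  rw [Nat.card_prod, Nat.card_prod, hGL] at hle
  have h4 : Nat.card (Fin 4 → ZMod 2) = 16 := by simp [Nat.card_eq_fintype_card, ZMod.card]
  have h3 : Nat.card (Fin 3 → ZMod 2) = 8 := by simp [Nat.card_eq_fintype_card, ZMod.card]
  rw [h4, h3] at hle
  simpa using hle

/-! ## The lower bound for the order of the centraliser -/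

/-- The centraliser, in the symmetric group. -/
def CT : Subgroup (Equiv.Perm GolayPt) where
  carrier := {c | c ∈ M24 ∧ c * g Zc = g Zc * c}
  one_mem' := ⟨M24.one_mem, by simp⟩
  mul_mem' := by
    rintro a b ⟨ha, ha'⟩ ⟨hb, hb'⟩
    refine ⟨M24.mul_mem ha hb, ?_⟩
    rw [mul_assoc, hb', ← mul_assoc, ha', mul_assoc]
  inv_mem' := by
    rintro a ⟨ha, ha'⟩
    refine ⟨M24.inv_mem ha, ?_⟩
    rw [inv_mul_eq_iff_eq_mul, ← mul_assoc, ha', mul_assoc, mul_inv_cancel, mul_one]

theorem card_CZ_eq : Nat.card CZ = Nat.card CT := by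
  have hinj : Function.Injective (M24.subtype) := Subtype.val_injective
  have hmap : CZ.map M24.subtype = CT := by
    ext c
    constructor
    · rintro ⟨a, ha, rfl⟩
      exact ⟨a.2, comm_of ha⟩
    · rintro ⟨h1, h2⟩
      refine ⟨⟨c, h1⟩, ?_, rfl⟩
      apply Subgroup.mem_centralizer_singleton_iff.mpr
      exact Subtype.ext h2
  rw [← hmap]
  exact (Subgroup.card_map_of_injective hinj).symm

theorem step_le (H : Subgroup (Equiv.Perm GolayPt)) (b : ℕ) (Tr : List ℕ)
    (hTr : ∀ P ∈ Tr, g P ∈ H) (hv : ∀ P ∈ Tr, validPerm P = true) (hb : b < 24)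
    (hnd : (Tr.map fun P => img P b).Nodup) :
    Tr.length * Nat.card ↥(H ⊓ MulAction.stabilizer (Equiv.Perm GolayPt) (pt b)) ≤ Nat.card H := by
  have h := Cfsg.Agent.Lib.Golay.Chain.card_eq_mul_card_inf H (pt b)
    {q | ∃ σ ∈ H, σ (pt b) = q} (fun σ hσ => ⟨σ, hσ, rfl⟩) (fun q hq => hq)
  rw [h]
  apply Nat.mul_le_mul_right
  have hsub : (↑(Tr.map fun P => pt (img P b)).toFinset : Set GolayPt) ⊆ {q | ∃ σ ∈ H, σ (pt b) = q} := by
    intro q hq
    simp only [List.coe_toFinset, List.mem_map, Set.mem_ofPred_eq] at hq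
    obtain ⟨P, hP, rfl⟩ := hq
    exact ⟨g P, hTr P hP, g_pt (hv P hP) hb⟩
  have h1 := Set.ncard_le_ncard hsub (Set.toFinite _)
  rw [Set.ncard_coe_finset] at h1
  refine le_trans (le_of_eq ?_) h1
  rw [List.toFinset_card_of_nodup]
  · simp
  · have hinj : List.Nodup ((Tr.map fun P => img P b).map pt) := by
      refine (List.nodup_map_iff_inj_on hnd).mpr ?_
      intro x hx y hy hxy
      obtain ⟨P, hP, rfl⟩ := List.mem_map.mp hx
      obtain ⟨Q, hQ, rfl⟩ := List.mem_map.mp hy
      exact pt_injOn (valid_img_lt (hv P hP) hb) (valid_img_lt (hv Q hQ) hb) hxy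
    simpa [List.map_map, Function.comp_def] using hinj

def TrA : List ℕ := [69270075318565783315592294377921024, 17258610599167707129097245807414529, 30240302996717203089939668715013634, 21143723143494028821610599616798051, 6873924016351237614605204563772068, 5581958880764791133849497265079397, 13364380489308992996988205653132710, 1672762119474375736439007413974120, 44606824007099449895701743862011017, 30240542308154110753013056285018474, 21157787460969021259394655124658603, 2970837540313754557714611965141357, 5573405908606402976169903149766736, 1679107793954216605840113148201301, 13361611176425999260716302629778806, 10775758672503254653449412298190551]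
def TrB : List ℕ := [113063840957165894544243336704865312, 58875061069365650276099324528377920, 47199012162662053221700243172349024, 69262708530663549967262420064865408, 62769605400191512921316323919727776, 48490467427358490566398340935979200, 70558194441359026029919883668919552, 71858857240108672341479483200182592, 93607687025646170684258234527990112, 52393559666346760863844442813700512, 69270075318565783315592294377921024, 62773274770445157732381204053432992, 62772221090082441813037626865409728, 54981160271857389782724386571885280]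
def TrC : List ℕ := [195060547441476976679033738498246688, 174286175311208391995488599423388704, 103990946543242041709157945852563488, 110482651916260031296715684820980768, 170388016501669547886524283529926688, 96201353442791951713535656671191072, 93608686275299024174849813841979424, 113063840957165894544243336704865312, 88409266273398203838491974830473248, 89704758980554452775011174981555232, 169083768527853326064642486300792864, 100093112793216995019571836909968416]
def TrD : List ℕ := [984818244535754528103549039458486304, 444610170142328297188851916301502496, 901814541958420924862668610790852640, 236800286945862178090600553424980000, 693593173482015883964538934678095904, 568781373644774459374926598072535072, 361036334538613488121321721131272224, 195060547441476976679033738498246688]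

theorem TrA_ok : allL (fun P => checkAut P && commB Zc Zc P) TrA = true ∧ (TrA.map fun P => img P 0).Nodup ∧ TrA.length = 16 := by
  decide +kernel
theorem TrB_ok : allL (fun P => checkAut P && commB Zc Zc P && Nat.beq (img P 0) 0) TrB = true ∧ (TrB.map fun P => img P 1).Nodup ∧ TrB.length = 14 := by
  decide +kernel
theorem TrC_ok : allL (fun P => checkAut P && commB Zc Zc P && Nat.beq (img P 0) 0 && Nat.beq (img P 1) 1) TrC = true ∧ (TrC.map fun P => img P 2).Nodup ∧ TrC.length = 12 := by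
  decide +kernel
theorem TrD_ok : allL (fun P => checkAut P && commB Zc Zc P && Nat.beq (img P 0) 0 && Nat.beq (img P 1) 1 && Nat.beq (img P 2) 2) TrD = true ∧ (TrD.map fun P => img P 4).Nodup ∧ TrD.length = 8 := by
  decide +kernel

theorem mem_CT {P : ℕ} (h1 : checkAut P = true) (h2 : commB Zc Zc P = true) : g P ∈ CT :=
  ⟨g_mem_M24 h1, of_commB Zc_valid Zc_valid (checkAut_valid h1) h2⟩

theorem mem_stab {P b : ℕ} (h1 : checkAut P = true) (hb : b < 24) (h2 : Nat.beq (img P b) b = true) :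
    g P ∈ MulAction.stabilizer (Equiv.Perm GolayPt) (pt b) := by
  show g P (pt b) = pt b
  rw [g_pt (checkAut_valid h1) hb, Nat.eq_of_beq_eq_true h2]

theorem card_CT_ge : 21504 ≤ Nat.card CT := by
  have s1 := step_le CT 0 TrA (fun P hP => by
      have h := allL_iff.mp TrA_ok.1 P hP
      simp only [Bool.and_eq_true] at h
      exact mem_CT h.1 h.2)
    (fun P hP => by
      have h := allL_iff.mp TrA_ok.1 P hP
      simp only [Bool.and_eq_true] at h
      exact checkAut_valid h.1) (by norm_num) TrA_ok.2.1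
  have s2 := step_le (CT ⊓ MulAction.stabilizer (Equiv.Perm GolayPt) (pt 0)) 1 TrB (fun P hP => by
      have h := allL_iff.mp TrB_ok.1 P hP
      simp only [Bool.and_eq_true] at h
      exact ⟨mem_CT h.1.1 h.1.2, mem_stab h.1.1 (by norm_num) h.2⟩)
    (fun P hP => by
      have h := allL_iff.mp TrB_ok.1 P hP
      simp only [Bool.and_eq_true] at h
      exact checkAut_valid h.1.1) (by norm_num) TrB_ok.2.1
  have s3 := step_le ((CT ⊓ MulAction.stabilizer (Equiv.Perm GolayPt) (pt 0)) ⊓ MulAction.stabilizer (Equiv.Perm GolayPt) (pt 1)) 2 TrC (fun P hP => by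
      have h := allL_iff.mp TrC_ok.1 P hP
      simp only [Bool.and_eq_true] at h
      exact ⟨⟨mem_CT h.1.1.1 h.1.1.2, mem_stab h.1.1.1 (by norm_num) h.1.2⟩, mem_stab h.1.1.1 (by norm_num) h.2⟩)
    (fun P hP => by
      have h := allL_iff.mp TrC_ok.1 P hP
      simp only [Bool.and_eq_true] at h
      exact checkAut_valid h.1.1.1) (by norm_num) TrC_ok.2.1
  have s4 := step_le (((CT ⊓ MulAction.stabilizer (Equiv.Perm GolayPt) (pt 0)) ⊓ MulAction.stabilizer (Equiv.Perm GolayPt) (pt 1)) ⊓ MulAction.stabilizer (Equiv.Perm GolayPt) (pt 2)) 4 TrD (fun P hP => by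
      have h := allL_iff.mp TrD_ok.1 P hP
      simp only [Bool.and_eq_true] at h
      exact ⟨⟨⟨mem_CT h.1.1.1.1 h.1.1.1.2, mem_stab h.1.1.1.1 (by norm_num) h.1.1.2⟩, mem_stab h.1.1.1.1 (by norm_num) h.1.2⟩, mem_stab h.1.1.1.1 (by norm_num) h.2⟩)
    (fun P hP => by
      have h := allL_iff.mp TrD_ok.1 P hP
      simp only [Bool.and_eq_true] at h
      exact checkAut_valid h.1.1.1.1) (by norm_num) TrD_ok.2.1
  rw [TrA_ok.2.2] at s1
  rw [TrB_ok.2.2] at s2
  rw [TrC_ok.2.2] at s3
  rw [TrD_ok.2.2] at s4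
  have hpos : 1 ≤ Nat.card ↥((((CT ⊓ MulAction.stabilizer (Equiv.Perm GolayPt) (pt 0)) ⊓ MulAction.stabilizer (Equiv.Perm GolayPt) (pt 1)) ⊓ MulAction.stabilizer (Equiv.Perm GolayPt) (pt 2)) ⊓ MulAction.stabilizer (Equiv.Perm GolayPt) (pt 4)) :=
    Nat.card_pos
  omega

theorem z0_order : orderOf z0 = 2 := by
  have hsq : z0 ^ 2 = 1 := by
    apply Subtype.ext
    show g Zc ^ 2 = 1
    ext1 p
    have key : ∀ k < 24, img Zc (img Zc k) = k := by decide +kernel
    rw [pow_two, Equiv.Perm.mul_apply, g_apply Zc_valid, g_apply Zc_valid,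
      idx_pt (valid_img_lt Zc_valid (idx_lt p)), key _ (idx_lt p), pt_idx]
    rfl
  have hne : z0 ≠ 1 := by
    intro h
    have h1 : g Zc = 1 := congrArg Subtype.val h
    have h2 : g Zc (pt 0) = pt 0 := by rw [h1]; rfl
    rw [g_pt Zc_valid (by norm_num)] at h2
    have h3 := pt_injOn (valid_img_lt Zc_valid (by norm_num)) (by norm_num) h2
    exact absurd h3 (by decide +kernel)
  exact orderOf_eq_prime hsq hne


/-- The Mathieu group M₂₄ (the automorphism group of the length-24 binary code) has an involution whose centraliser is isomorphic to the centraliser of a transvection in SL(5, 2) (a group of shape 2^{1+6}:GL(3, 2)). -/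
theorem result (s : Matrix.SpecialLinearGroup (Fin 5) (ZMod 2)) (hs : (s : Matrix (Fin 5) (Fin 5) (ZMod 2)) = Matrix.transvection 0 1 1) : ∃ z : ↥Cfsg.M24, orderOf z = 2 ∧ Nonempty (↥(Subgroup.centralizer ({z} : Set ↥Cfsg.M24)) ≃* ↥(Subgroup.centralizer ({s} : Set (Matrix.SpecialLinearGroup (Fin 5) (ZMod 2))))) := by
  refine ⟨z0, z0_order, ?_⟩
  have hinj := phi_inj s hs
  have hbij := hinj.bijective_of_nat_card_le (by
    refine (card_CZ' s hs).trans ?_
    rw [card_CZ_eq]
    exact card_CT_ge)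
  exact ⟨MulEquiv.ofBijective (phi s hs) hbij⟩

end Cfsg.Agent.S2133
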