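-- Statement S2134.
import Cfsg.Statements.S2134
import Cfsg.Agent.Lib.TC.D.HeChain.Main
import Cfsg.Agent.Lib.PermComp.OutP.Pres
import Cfsg.Agent.Lib.PermComp.OutP.HeC.Thm
import Cfsg.Agent.Lib.PermComp.G24
import Cfsg.Agent.S2133

set_option autoImplicit false
set_option maxRecDepth 100000
set_option maxHeartbeats 0
open Cfsg

namespace Cfsg.Agent.S2134

open Cfsg.Agent.Lib.PermComp Cfsg.Agent.Lib.PermComp.OutP
open Cfsg.Agent.Lib.PermComp.Kron (rangeAll)
open Cfsg.Agent.Lib.Golay.Perm Cfsg.Agent.Lib.Golay.Core Cfsg.Agent.Lib.Golay.M24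
  Cfsg.Agent.Lib.M24Data.CommTree
open Cfsg.Agent.S2133 (Zc CT CZ z0 phi phi_inj card_CZ' card_CZ_eq comm_of mem_CT)

private noncomputable abbrev pt := Cfsg.Agent.Lib.TC.D.HeSp44.Tab.pt

private theorem ck (H : Subgroup (Equiv.Perm (Fin 2058)))
    (hH : ∀ c < 7, ∃ e ∈ H, ∀ (p : Nat) (hp : p < 2058), pt.T c p = (e ⟨p, hp⟩ : Fin 2058))
    (j : Nat) (hj : j < 7)
    (h : rangeAll (fun q => Nat.beq (OutP.HeC.F j q) (pt.T j q)) 0 2058 = true) :
    Has (n := 2058) OutP.HeC.F H j := by
  obtain ⟨e, he, hg⟩ := hH j hj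
  refine ⟨e, he, fun p hp => ?_⟩
  have h1 := Nat.eq_of_beq_eq_true (Kron.rangeAll_spec h p (Nat.zero_le _) (by omega))
  rw [h1]
  exact hg p hp

/-- The two generators in the Mathieu group. -/
def P0 : Nat := 973127967085457120795012782630375446
/-- The two generators in the Mathieu group. -/
def P1 : Nat := 13367952740525726223483872554505281
theorem P0_ok : checkAut P0 = true := by decide +kernel
theorem P1_ok : checkAut P1 = true := by decide +kernel
theorem P0_c : commB Zc Zc P0 = true := by decide +kernel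
theorem P1_c : commB Zc Zc P1 = true := by decide +kernel

/-- The generators. -/
noncomputable def bb : Fin 2 → Equiv.Perm GolayPt := fun i => if i.val = 0 then g P0 else g P1

theorem bb_mem (i : Fin 2) : bb i ∈ CT := by
  fin_cases i
  · exact mem_CT P0_ok P0_c
  · exact mem_CT P1_ok P1_c

theorem rep0 : Core.Rep 9 511 G24.e24 (OutP.HeC.mcF 0) (g P0) := by
  intro a
  rw [g_apply (checkAut_valid P0_ok)]
  revert a
  decide +kernel

theorem rep1 : Core.Rep 9 511 G24.e24 (OutP.HeC.mcF 1) (g P1) := by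
  intro a
  rw [g_apply (checkAut_valid P1_ok)]
  revert a
  decide +kernel

theorem hrb (i : Fin 2) : Core.Rep 9 511 G24.e24 (OutP.HeC.mcF i) (bb i) := by
  fin_cases i
  · exact rep0
  · exact rep1

theorem card_bb : Nat.card (famCl bb) = 21504 := by
  rw [card_famCl_of_check (e := G24.e24) bb OutP.HeC.mcF hrb OutP.HeC.cM_check, OutP.HeC.cM_order]

/-- The Held group (presented on seven involutions, as in the definitions) has an involution whose centraliser is isomorphic to the centraliser of a transvection in SL(5, 2) (a group of shape 2^{1+6}:GL(3, 2)). -/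
theorem result (s : Matrix.SpecialLinearGroup (Fin 5) (ZMod 2)) (hs : (s : Matrix (Fin 5) (Fin 5) (ZMod 2)) = Matrix.transvection 0 1 1) : ∃ z : Cfsg.Spor.He, orderOf z = 2 ∧ Nonempty (↥(Subgroup.centralizer ({z} : Set Cfsg.Spor.He)) ≃* ↥(Subgroup.centralizer ({s} : Set (Matrix.SpecialLinearGroup (Fin 5) (ZMod 2))))) := by
  obtain ⟨hs', hc⟩ := Cfsg.Agent.Lib.TC.D.HeChain.Main.simple_card
  obtain ⟨H, ⟨e⟩, hH, hgen⟩ := exists_model Cfsg.Agent.Lib.TC.D.HeSp44.Ok.ok hs' hc (c0 := 0) (i0 := 18) (by decide +kernel) (by decide +kernel) (by decide +kernel)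
  have hX : ∀ g < 7, Has (n := 2058) OutP.HeC.F H g := by
    intro g hg
    interval_cases g
    · exact ck H hgen 0 (by decide) (by decide +kernel)
    · exact ck H hgen 1 (by decide) (by decide +kernel)
    · exact ck H hgen 2 (by decide) (by decide +kernel)
    · exact ck H hgen 3 (by decide) (by decide +kernel)
    · exact ck H hgen 4 (by decide) (by decide +kernel)
    · exact ck H hgen 5 (by decide) (by decide +kernel)
    · exact ck H hgen 6 (by decide) (by decide +kernel)
  obtain ⟨z, hz, -, h2, h1, hiso⟩ := OutP.HeC.cent_main hH hX G24.e24 bb hrb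
  -- the group generated is the whole centralizer
  have hphi := phi_inj s hs
  have hCZ : Nat.card CZ ≤ 21504 := (Nat.card_le_card_of_injective _ hphi).trans (card_CZ' s hs)
  have hle : famCl bb ≤ CT := (Subgroup.closure_le _).2 (by
    rintro _ ⟨i, rfl⟩
    exact bb_mem i)
  have hCT : Nat.card CT ≤ 21504 := by rw [← card_CZ_eq]; exact hCZ
  have heq : famCl bb = CT := Subgroup.eq_of_le_of_card_ge hle (by rw [card_bb]; exact hCT)
  have hCZ2 : Nat.card (Subgroup.centralizer ({s} : Set (Matrix.SpecialLinearGroup (Fin 5) (ZMod 2)))) ≤ Nat.card CZ := by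
    refine (card_CZ' s hs).trans ?_
    rw [card_CZ_eq, ← heq, card_bb]
  have hbij := hphi.bijective_of_nat_card_le hCZ2
  have hmap : CZ.map Cfsg.M24.subtype = CT := by
    ext c
    constructor
    · rintro ⟨a, ha, rfl⟩
      exact ⟨a.2, comm_of ha⟩
    · rintro ⟨h3, h4⟩
      refine ⟨⟨c, h3⟩, ?_, rfl⟩
      apply Subgroup.mem_centralizer_singleton_iff.mpr
      exact Subtype.ext h4
  have e4 : CT ≃* CZ := (MulEquiv.subgroupCongr hmap.symm).trans
    (Subgroup.equivMapOfInjective CZ Cfsg.M24.subtype Subtype.val_injective).symm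
  let w : H := ⟨z, hz⟩
  have hw2 : w ^ 2 = 1 := by
    rw [pow_two]
    exact Subtype.ext h2
  have hw1 : w ≠ 1 := fun h => h1 (congrArg Subtype.val h)
  have : Fact (Nat.Prime 2) := ⟨Nat.prime_two⟩
  refine ⟨e.symm w, ?_, ?_⟩
  · rw [MulEquiv.orderOf_eq]
    exact orderOf_eq_prime hw2 hw1
  · obtain ⟨h3⟩ := hiso
    exact cent_transfer e w ⟨h3.trans ((MulEquiv.subgroupCongr heq).trans (e4.trans (MulEquiv.ofBijective _ hbij)))⟩

end Cfsg.Agent.S2134
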