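-- Statement S2135.
import Cfsg.Statements.S2135
import Cfsg.Agent.Lib.PermComp.Spor.J3.Thm2
import Cfsg.Agent.Lib.PermComp.OutP.J3C.Thm

set_option autoImplicit false
set_option maxRecDepth 100000
set_option maxHeartbeats 0
open Cfsg

namespace Cfsg.Agent.S2135

open Cfsg.Agent.Lib.PermComp Cfsg.Agent.Lib.PermComp.OutP
open Cfsg.Agent.Lib.PermComp.Kron (rangeAll)

private theorem ck (H : Subgroup (Equiv.Perm (Fin 6156)))
    (hH : ∀ j < 2, ∃ e ∈ H, ∀ (p : Nat) (hp : p < 6156), Spor.J3.T1.tab j p = (e ⟨p, hp⟩ : Fin 6156))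
    (j : Nat) (hj : j < 2)
    (h : rangeAll (fun q => Nat.beq (OutP.J3.F (66 + j) q) (Spor.J3.T1.tab j q)) 0 6156 = true) :
    Has (n := 6156) OutP.J3.F H (66 + j) := by
  obtain ⟨e, he, hg⟩ := hH j hj
  refine ⟨e, he, fun p hp => ?_⟩
  have h1 := Nat.eq_of_beq_eq_true (Kron.rangeAll_spec h p (Nat.zero_le _) (by omega))
  rw [h1]
  exact hg p hp

/-- For any field with 4 elements and any element ω of it with ω² + ω + 1 = 0: in the Janko group J₃ (the group generated by explicit 9 × 9 matrices over that field built from ω, taken modulo its centre) all involutions are conjugate, and the centraliser C of an involution has a normal extraspecial subgroup Q of order 32 containing no elementary abelian subgroup of order 8, complemented in C, with C / Q isomorphic to the alternating group of degree 5 (shape 2^{1+4}_-:A₅). -/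
theorem result {F : Type*} [Field F] [Fintype F] (hF : Fintype.card F = 4) (ω : F) (hω : ω ^ 2 + ω + 1 = 0) : (∀ x y : Cfsg.Spor.J3 F ω, orderOf x = 2 → orderOf y = 2 → IsConj x y) ∧ ∃ t : Cfsg.Spor.J3 F ω, orderOf t = 2 ∧ ∃ (Q : Subgroup ↥(Subgroup.centralizer ({t} : Set (Cfsg.Spor.J3 F ω)))) (_ : Q.Normal), Cfsg.IsExtraspecial 2 Q ∧ Nat.card Q = 32 ∧ (∀ E : Subgroup Q, Cfsg.IsElementaryAbelian 2 E → Nat.card E ≤ 2 ^ 2) ∧ (∃ H : Subgroup ↥(Subgroup.centralizer ({t} : Set (Cfsg.Spor.J3 F ω))), Q.IsComplement' H) ∧ Nonempty (↥(Subgroup.centralizer ({t} : Set (Cfsg.Spor.J3 F ω))) ⧸ Q ≃* ↥(alternatingGroup (Fin 5))) := by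
  obtain ⟨H, hc, -, -, ⟨e⟩, hH⟩ := Spor.J3.main2 (Spor.J3.two_eq_zero_of_card hF) hω
  have hX : ∀ g, 66 ≤ g → g < 68 → Has (n := 6156) OutP.J3.F H g := by
    intro g h1 h2
    have hg : g = 66 ∨ g = 67 := by omega
    rcases hg with rfl | rfl
    · exact ck H hH 0 (by norm_num) (by decide +kernel)
    · exact ck H hH 1 (by norm_num) (by decide +kernel)
  obtain ⟨t, ht, ht2, ht1, hall, a, hra, hiso⟩ := OutP.J3C.main_shape hc hX
  have : Fact (Nat.Prime 2) := ⟨Nat.prime_two⟩
  constructor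
  · -- all involutions are conjugate
    have key : ∀ x : Cfsg.Spor.J3 F ω, orderOf x = 2 → IsConj x (e.symm ⟨t, ht⟩) := by
      intro x hx
      have h1 : ((e x : H) : Equiv.Perm (Fin 6156)) * (e x : H) = 1 := by
        rw [← Subgroup.coe_mul, ← map_mul, ← pow_two, ← hx, pow_orderOf_eq_one, map_one]
        rfl
      have h2 : ((e x : H) : Equiv.Perm (Fin 6156)) ≠ 1 := by
        intro h3
        have h4 : e x = 1 := Subtype.ext h3
        have h5 : x = 1 := by simpa using h4
        rw [h5, orderOf_one] at hx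
        norm_num at hx
      obtain ⟨y, hy, e1⟩ := hall _ (e x).2 h1 h2
      rw [isConj_iff]
      refine ⟨e.symm ⟨y, hy⟩, ?_⟩
      apply e.injective
      rw [map_mul, map_mul, map_inv, e.apply_symm_apply, e.apply_symm_apply]
      exact Subtype.ext e1
    intro x y hx hy
    exact (key x hx).trans (key y hy).symm
  · let w : H := ⟨t, ht⟩
    have hw2 : w ^ 2 = 1 := by
      rw [pow_two]
      exact Subtype.ext ht2
    have hw1 : w ≠ 1 := fun h => ht1 (congrArg Subtype.val h)
    refine ⟨e.symm w, ?_, ?_⟩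
    · rw [MulEquiv.orderOf_eq]
      exact orderOf_eq_prime hw2 hw1
    · obtain ⟨φ⟩ := cent_transfer e w hiso
      exact OutP.J3C.shape_K a hra φ

end Cfsg.Agent.S2135
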