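import Cfsg.Statements.S2162
import Cfsg.Agent.Lib.Invol2.SquareZero

set_option autoImplicit false
open Cfsg

namespace Cfsg.Agent.S2162

open Matrix Module Cfsg.Agent.Lib.Invol2.SquareZero

variable {F : Type*} [Field F] [Fintype F] [CharP F 2] {n : ℕ}

lemma sq_zero (a : Matrix.SpecialLinearGroup (Fin n) F) (ha : orderOf a = 2) :
    ((a : Matrix (Fin n) (Fin n) F) - 1) * ((a : Matrix (Fin n) (Fin n) F) - 1) = 0 := by
  have haa : a ^ 2 = 1 := by rw [← ha]; exact pow_orderOf_eq_one a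
  have hA2 : (a : Matrix (Fin n) (Fin n) F) * (a : Matrix (Fin n) (Fin n) F) = 1 := by
    rw [pow_two] at haa
    exact congrArg Subtype.val haa
  have h2 : (a : Matrix (Fin n) (Fin n) F) + (a : Matrix (Fin n) (Fin n) F) = 0 := by
    ext i j
    exact CharTwo.add_self_eq_zero _
  have h3 : (1 : Matrix (Fin n) (Fin n) F) + 1 = 0 := by
    ext i j
    exact CharTwo.add_self_eq_zero _
  calc ((a : Matrix (Fin n) (Fin n) F) - 1) * ((a : Matrix (Fin n) (Fin n) F) - 1)
      = (a : Matrix (Fin n) (Fin n) F) * (a : Matrix (Fin n) (Fin n) F) + 1 - ((a : Matrix (Fin n) (Fin n) F) + (a : Matrix (Fin n) (Fin n) F)) := by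
        rw [sub_mul, mul_sub, mul_sub]
        simp only [mul_one, one_mul]
        abel
    _ = 0 := by rw [hA2, h2, h3]; simp

lemma squares_surj (x : F) : ∃ y : F, y ^ 2 = x := by
  have hp : Fact (Nat.Prime 2) := ⟨Nat.prime_two⟩
  have := Finite.surjective_of_injective (frobenius_inj F 2) x
  obtain ⟨y, hy⟩ := this
  exact ⟨y, by simpa [frobenius_def] using hy⟩

theorem result {F : Type*} [Field F] [Fintype F] [CharP F 2] {n : ℕ} (hn : 3 ≤ n) (a b : Matrix.SpecialLinearGroup (Fin n) F) (ha : orderOf a = 2) (hb : orderOf b = 2) :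
    IsConj a b ↔ ((a : Matrix (Fin n) (Fin n) F) - 1).rank = ((b : Matrix (Fin n) (Fin n) F) - 1).rank := by
  constructor
  · intro h
    obtain ⟨c, hc⟩ := isConj_iff.mp h
    have h1 : (b : Matrix (Fin n) (Fin n) F) - 1
        = (c : Matrix (Fin n) (Fin n) F) * ((a : Matrix (Fin n) (Fin n) F) - 1) * ((c⁻¹ : Matrix.SpecialLinearGroup (Fin n) F) : Matrix (Fin n) (Fin n) F) := by
      rw [← hc]
      have hcc : (c : Matrix (Fin n) (Fin n) F) * ((c⁻¹ : Matrix.SpecialLinearGroup (Fin n) F) : Matrix (Fin n) (Fin n) F) = 1 := by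
        have := congrArg Subtype.val (mul_inv_cancel c)
        exact this
      rw [mul_sub, sub_mul, mul_one, hcc]
      rfl
    rw [h1]
    have hdet1 : IsUnit (c : Matrix (Fin n) (Fin n) F).det := by
      rw [c.2]; exact isUnit_one
    have hdet2 : IsUnit ((c⁻¹ : Matrix.SpecialLinearGroup (Fin n) F) : Matrix (Fin n) (Fin n) F).det := by
      rw [(c⁻¹ : Matrix.SpecialLinearGroup (Fin n) F).2]; exact isUnit_one
    rw [Matrix.rank_mul_eq_left_of_isUnit_det _ _ hdet2, Matrix.rank_mul_eq_right_of_isUnit_det _ _ hdet1]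
  · intro hr
    have hNa : (mulVecLin ((a : Matrix (Fin n) (Fin n) F) - 1)) ∘ₗ (mulVecLin ((a : Matrix (Fin n) (Fin n) F) - 1)) = 0 := by
      rw [← Matrix.mulVecLin_mul, sq_zero a ha]
      simp
    have hNb : (mulVecLin ((b : Matrix (Fin n) (Fin n) F) - 1)) ∘ₗ (mulVecLin ((b : Matrix (Fin n) (Fin n) F) - 1)) = 0 := by
      rw [← Matrix.mulVecLin_mul, sq_zero b hb]
      simp
    obtain ⟨g, hg⟩ := exists_conj _ _ hNa hNb hr
    -- a ≠ 1
    have hane : mulVecLin ((a : Matrix (Fin n) (Fin n) F) - 1) ≠ 0 := by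
      intro h0
      have h1 : (a : Matrix (Fin n) (Fin n) F) - 1 = 0 := by
        apply Matrix.toLin'.injective
        rw [Matrix.toLin'_apply', h0, map_zero]
      have h2 : a = 1 := Subtype.ext (sub_eq_zero.mp h1)
      rw [h2] at ha
      simp at ha
    -- adjust determinant
    have hdg : LinearMap.det (g : (Fin n → F) →ₗ[F] (Fin n → F)) ≠ 0 := by
      exact (LinearEquiv.isUnit_det' g).ne_zero
    obtain ⟨y, hy⟩ := squares_surj ((LinearMap.det (g : (Fin n → F) →ₗ[F] (Fin n → F)))⁻¹)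
    have hy0 : y ≠ 0 := by
      rintro rfl
      rw [zero_pow two_ne_zero] at hy
      exact inv_ne_zero hdg hy.symm
    obtain ⟨c, hc1, hc2⟩ := exists_centralizer_det _ hNa hane (Units.mk0 y hy0)
    let g' : (Fin n → F) ≃ₗ[F] (Fin n → F) := c.trans g
    have hg'det : LinearMap.det (g' : (Fin n → F) →ₗ[F] (Fin n → F)) = 1 := by
      have : (g' : (Fin n → F) →ₗ[F] (Fin n → F)) = (g : (Fin n → F) →ₗ[F] (Fin n → F)) ∘ₗ (c : (Fin n → F) →ₗ[F] (Fin n → F)) := rfl
      rw [this, LinearMap.det_comp, hc2]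
      simp only [Units.val_mk0]
      rw [hy]
      exact mul_inv_cancel₀ hdg
    have hg'comm : ∀ v, g' (((a : Matrix (Fin n) (Fin n) F) - 1) *ᵥ v) = ((b : Matrix (Fin n) (Fin n) F) - 1) *ᵥ (g' v) := by
      intro v
      show g (c (mulVecLin _ v)) = mulVecLin _ (g (c v))
      rw [hc1, hg]
    let h : Matrix.SpecialLinearGroup (Fin n) F := ⟨LinearMap.toMatrix' (g' : (Fin n → F) →ₗ[F] (Fin n → F)), by
      rw [LinearMap.det_toMatrix']; exact hg'det⟩
    have hmul : (h : Matrix (Fin n) (Fin n) F) * (a : Matrix (Fin n) (Fin n) F) = (b : Matrix (Fin n) (Fin n) F) * (h : Matrix (Fin n) (Fin n) F) := by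
      have h1 : (h : Matrix (Fin n) (Fin n) F) * ((a : Matrix (Fin n) (Fin n) F) - 1) = ((b : Matrix (Fin n) (Fin n) F) - 1) * (h : Matrix (Fin n) (Fin n) F) := by
        apply Matrix.toLin'.injective
        ext1 i
        ext j
        simp only [LinearMap.comp_apply, Matrix.toLin'_apply, LinearMap.single_apply]
        rw [← Matrix.mulVec_mulVec, ← Matrix.mulVec_mulVec]
        have h2 : ∀ v, (h : Matrix (Fin n) (Fin n) F) *ᵥ v = g' v := fun v => by
          show LinearMap.toMatrix' _ *ᵥ v = _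
          rw [LinearMap.toMatrix'_mulVec]
          rfl
        rw [h2, h2, hg'comm]
      simpa [mul_sub, sub_mul] using h1
    refine isConj_iff.mpr ⟨h, ?_⟩
    rw [mul_inv_eq_iff_eq_mul]
    exact Subtype.ext hmul

end Cfsg.Agent.S2162
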