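import Cfsg.Statements.S2163

set_option autoImplicit false
open Cfsg

namespace Cfsg.Agent.S2163

variable {F : Type*} [Field F] {n : ℕ}

/-- The nilpotent part. -/
def nilp (F : Type*) [Field F] (n ℓ : ℕ) : Matrix (Fin n) (Fin n) F :=
  Matrix.of (fun i j : Fin n => if j.val < ℓ ∧ i.val = j.val + (n - ℓ) then (1 : F) else 0)

def matP (F : Type*) [Field F] (n ℓ : ℕ) : Matrix (Fin n) (Fin ℓ) F :=
  Matrix.of (fun i k => if i.val = k.val + (n - ℓ) then (1 : F) else 0)

def matQ (F : Type*) [Field F] (n ℓ : ℕ) : Matrix (Fin ℓ) (Fin n) F :=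
  Matrix.of (fun k j => if j.val = k.val then (1 : F) else 0)

lemma nilp_eq (ℓ : ℕ) : nilp F n ℓ = matP F n ℓ * matQ F n ℓ := by
  ext i j
  simp only [nilp, matP, matQ, Matrix.of_apply, Matrix.mul_apply]
  by_cases hj : j.val < ℓ
  · rw [Finset.sum_eq_single (⟨j.val, hj⟩ : Fin ℓ)]
    · simp [hj]
    · intro b _ hb
      have : j.val ≠ b.val := fun h => hb (Fin.ext h.symm)
      simp [this]
    · simp
  · rw [Finset.sum_eq_zero]
    · simp [hj]
    · intro b _
      have : j.val ≠ b.val := fun h => hj (h ▸ b.isLt)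
      simp [this]

lemma P_transpose_P (ℓ : ℕ) (h2 : 2 * ℓ ≤ n) : (matP F n ℓ).transpose * matP F n ℓ = 1 := by
  ext k l
  simp only [matP, Matrix.mul_apply, Matrix.transpose_apply, Matrix.of_apply]
  have hk : k.val + (n - ℓ) < n := by have := k.isLt; omega
  rw [Finset.sum_eq_single (⟨k.val + (n - ℓ), hk⟩ : Fin n)]
  · by_cases hkl : k = l
    · subst hkl; simp
    · have : k.val ≠ l.val := fun h => hkl (Fin.ext h)
      simp [hkl, this]
  · intro b _ hb
    have : b.val ≠ k.val + (n - ℓ) := fun h => hb (Fin.ext h)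
    simp [this]
  · simp

lemma Q_Q_transpose (ℓ : ℕ) (h2 : 2 * ℓ ≤ n) : matQ F n ℓ * (matQ F n ℓ).transpose = 1 := by
  ext k l
  simp only [matQ, Matrix.mul_apply, Matrix.transpose_apply, Matrix.of_apply]
  have hk : k.val < n := by have := k.isLt; omega
  rw [Finset.sum_eq_single (⟨k.val, hk⟩ : Fin n)]
  · by_cases hkl : k = l
    · subst hkl; simp
    · have : k.val ≠ l.val := fun h => hkl (Fin.ext h)
      simp [hkl, this]
  · intro b _ hb
    have : b.val ≠ k.val := fun h => hb (Fin.ext h)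
    simp [this]
  · simp

lemma nilp_rank (ℓ : ℕ) (h2 : 2 * ℓ ≤ n) : (nilp F n ℓ).rank = ℓ := by
  apply le_antisymm
  · rw [nilp_eq ℓ]
    refine (Matrix.rank_mul_le_left _ _).trans ?_
    simpa using Matrix.rank_le_width (matP F n ℓ)
  · have h : (matP F n ℓ).transpose * nilp F n ℓ * (matQ F n ℓ).transpose = 1 := by
      rw [nilp_eq ℓ, Matrix.mul_assoc, Matrix.mul_assoc, Q_Q_transpose ℓ h2, Matrix.mul_one,
        P_transpose_P ℓ h2]
    have h3 : ((1 : Matrix (Fin ℓ) (Fin ℓ) F)).rank = ℓ := by simp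
    calc ℓ = ((matP F n ℓ).transpose * nilp F n ℓ * (matQ F n ℓ).transpose).rank := by rw [h, h3]
      _ ≤ ((matP F n ℓ).transpose * nilp F n ℓ).rank := Matrix.rank_mul_le_left _ _
      _ ≤ (nilp F n ℓ).rank := Matrix.rank_mul_le_right _ _

lemma nilp_sq (ℓ : ℕ) (h2 : 2 * ℓ ≤ n) : nilp F n ℓ * nilp F n ℓ = 0 := by
  rw [nilp_eq ℓ, Matrix.mul_assoc, ← Matrix.mul_assoc (matQ F n ℓ)]
  have : matQ F n ℓ * matP F n ℓ = 0 := by
    ext k l
    simp only [matP, matQ, Matrix.mul_apply, Matrix.of_apply, Matrix.zero_apply]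
    apply Finset.sum_eq_zero
    intro b _
    by_cases h : b.val = k.val
    · have hl := l.isLt; have hk := k.isLt
      have : b.val ≠ l.val + (n - ℓ) := by omega
      simp [this]
    · simp [h]
  rw [this]
  simp

/-- The statement. -/
theorem result {F : Type*} [Field F] [Fintype F] [CharP F 2] {n : ℕ} (hn : 3 ≤ n) (ℓ : ℕ) (h1 : 1 ≤ ℓ) (h2 : 2 * ℓ ≤ n) :
    ∃ a : Matrix.SpecialLinearGroup (Fin n) F, (a : Matrix (Fin n) (Fin n) F) = 1 + Matrix.of (fun i j : Fin n => if j.val < ℓ ∧ i.val = j.val + (n - ℓ) then (1 : F) else 0) ∧ orderOf a = 2 ∧ ((a : Matrix (Fin n) (Fin n) F) - 1).rank = ℓ := by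
  have hsq : (1 + nilp F n ℓ) * (1 + nilp F n ℓ) = 1 := by
    rw [add_mul, mul_add, mul_add, nilp_sq ℓ h2]
    simp only [mul_one, one_mul, add_zero]
    have h2N : nilp F n ℓ + nilp F n ℓ = 0 := by
      ext i j
      exact CharTwo.add_self_eq_zero _
    rw [add_assoc, h2N, add_zero]
  have hdet : (1 + nilp F n ℓ).det = 1 := by
    have h := congrArg Matrix.det hsq
    rw [Matrix.det_mul, Matrix.det_one] at h
    have h' : ((1 + nilp F n ℓ).det + 1) * ((1 + nilp F n ℓ).det + 1) = 0 := by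
      have : ((1 + nilp F n ℓ).det + 1) * ((1 + nilp F n ℓ).det + 1)
          = (1 + nilp F n ℓ).det * (1 + nilp F n ℓ).det + 1 + ((1 + nilp F n ℓ).det + (1 + nilp F n ℓ).det) := by ring
      rw [this, h, CharTwo.add_self_eq_zero, CharTwo.add_self_eq_zero]
      simp
    have h'' := mul_self_eq_zero.mp h'
    have := CharTwo.add_eq_zero.mp h''
    exact this
  let a : Matrix.SpecialLinearGroup (Fin n) F := ⟨1 + nilp F n ℓ, hdet⟩
  have haa : a * a = 1 := Subtype.ext hsq
  refine ⟨a, rfl, ?_, ?_⟩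
  · apply orderOf_eq_prime
    · rw [pow_two]
      exact haa
    · intro h
      have h4 : 1 + nilp F n ℓ = 1 := congrArg (fun g : Matrix.SpecialLinearGroup (Fin n) F => (g : Matrix (Fin n) (Fin n) F)) h
      have h5 : nilp F n ℓ = 0 := by simpa using h4
      have h6 := nilp_rank (F := F) ℓ h2
      rw [h5] at h6
      simp at h6
      omega
  · have : 1 + nilp F n ℓ - 1 = nilp F n ℓ := by simp
    show (1 + nilp F n ℓ - 1).rank = ℓ
    rw [this]
    exact nilp_rank ℓ h2

end Cfsg.Agent.S2163
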