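import Cfsg.Statements.S2165

set_option autoImplicit false
open Cfsg

namespace Cfsg.Agent.S2165

open Matrix

variable {F : Type*} [Field F] {n : ℕ}

/-- the swap on indices -/
def swapFn (n ℓ : ℕ) (h2 : 2 * ℓ ≤ n) (i : Fin n) : Fin n :=
  if h : i.val < ℓ then ⟨i.val + (n - ℓ), by omega⟩
  else if h' : n - ℓ ≤ i.val then ⟨i.val - (n - ℓ), by omega⟩
  else i

lemma swapFn_invol (n ℓ : ℕ) (h2 : 2 * ℓ ≤ n) (h1 : 1 ≤ ℓ) : Function.Involutive (swapFn n ℓ h2) := by
  intro i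
  apply Fin.ext
  have hi := i.isLt
  unfold swapFn
  by_cases h : i.val < ℓ
  · have h3 : ¬ (i.val + (n - ℓ) < ℓ) := by omega
    have h4 : n - ℓ ≤ i.val + (n - ℓ) := by omega
    simp [h, h3, h4]
  · by_cases h' : n - ℓ ≤ i.val
    · have h5 : i.val - (n - ℓ) < ℓ := by omega
      have h6 : (⟨i.val - (n - ℓ), by omega⟩ : Fin n).val < ℓ := h5
      rw [dif_neg h, dif_pos h', dif_pos h6]
      simp only
      omega
    · simp [h, h']

/-- the matrix -/
def aMat (F : Type*) [Field F] (n ℓ : ℕ) : Matrix (Fin n) (Fin n) F :=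
  Matrix.of (fun i j : Fin n => if (j.val < ℓ ∧ i.val = j.val + (n - ℓ)) ∨ (i.val < ℓ ∧ j.val = i.val + (n - ℓ)) ∨ (i = j ∧ ℓ ≤ i.val ∧ i.val < n - ℓ) then (1 : F) else 0)

lemma aMat_apply_iff (n ℓ : ℕ) (h2 : 2 * ℓ ≤ n) (h1 : 1 ≤ ℓ) (i j : Fin n) :
    ((j.val < ℓ ∧ i.val = j.val + (n - ℓ)) ∨ (i.val < ℓ ∧ j.val = i.val + (n - ℓ)) ∨ (i = j ∧ ℓ ≤ i.val ∧ i.val < n - ℓ))
      ↔ j = swapFn n ℓ h2 i := by
  have hi := i.isLt
  have hj := j.isLt
  unfold swapFn
  constructor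
  · rintro (⟨h, h'⟩ | ⟨h, h'⟩ | ⟨h, h', h''⟩)
    · have h3 : ¬ (i.val < ℓ) := by omega
      have h4 : n - ℓ ≤ i.val := by omega
      simp only [h3, h4, dite_false, dite_true]
      apply Fin.ext
      simp only
      omega
    · simp only [h, dite_true]
      apply Fin.ext
      simp only
      omega
    · subst h
      have h3 : ¬ (i.val < ℓ) := by omega
      have h4 : ¬ (n - ℓ ≤ i.val) := by omega
      simp [h3, h4]
  · intro h
    subst h
    by_cases h : i.val < ℓ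
    · right; left
      simp [h]
    · by_cases h' : n - ℓ ≤ i.val
      · left
        rw [dif_neg h, dif_pos h']
        simp only
        omega
      · right; right
        rw [dif_neg h, dif_neg h']
        exact ⟨rfl, by omega, by omega⟩

lemma aMat_mulVec (ℓ : ℕ) (h2 : 2 * ℓ ≤ n) (h1 : 1 ≤ ℓ) (v : Fin n → F) :
    aMat F n ℓ *ᵥ v = v ∘ swapFn n ℓ h2 := by
  ext i
  simp only [Matrix.mulVec, dotProduct, aMat, Matrix.of_apply, Function.comp]
  simp_rw [aMat_apply_iff n ℓ h2 h1 i]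
  simp

lemma aMat_sq (ℓ : ℕ) (h2 : 2 * ℓ ≤ n) (h1 : 1 ≤ ℓ) : aMat F n ℓ * aMat F n ℓ = 1 := by
  apply Matrix.toLin'.injective
  ext1 v
  ext k
  simp only [LinearMap.comp_apply, Matrix.toLin'_apply, LinearMap.single_apply]
  rw [← Matrix.mulVec_mulVec, aMat_mulVec ℓ h2 h1, aMat_mulVec ℓ h2 h1]
  simp only [Function.comp_apply, swapFn_invol n ℓ h2 h1 _]
  simp [Matrix.one_apply, Pi.single_apply, eq_comm]

lemma sum_aux (ℓ : ℕ) (h2 : 2 * ℓ ≤ n) (i : Fin n) (g : Fin ℓ → F) :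
    ∑ k : Fin ℓ, ((if i.val = k.val then (1 : F) else 0) + (if i.val = k.val + (n - ℓ) then (1 : F) else 0)) * g k
    = if h : i.val < ℓ then g ⟨i.val, h⟩ else if h' : n - ℓ ≤ i.val then g ⟨i.val - (n - ℓ), by have := i.isLt; omega⟩ else 0 := by
  have hi := i.isLt
  by_cases h : i.val < ℓ
  · rw [dif_pos h, Finset.sum_eq_single (⟨i.val, h⟩ : Fin ℓ)]
    · have : ¬ (i.val = i.val + (n - ℓ)) := by omega
      rw [if_pos rfl, if_neg this]
      simp
    · intro b _ hb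
      have h3 : i.val ≠ b.val := fun h => hb (Fin.ext h.symm)
      have h4 : i.val ≠ b.val + (n - ℓ) := by have := b.isLt; omega
      simp [h3, h4]
    · simp
  · rw [dif_neg h]
    by_cases h' : n - ℓ ≤ i.val
    · rw [dif_pos h', Finset.sum_eq_single (⟨i.val - (n - ℓ), by omega⟩ : Fin ℓ)]
      · have h3 : i.val ≠ i.val - (n - ℓ) := by omega
        have h4 : i.val = i.val - (n - ℓ) + (n - ℓ) := by omega
        simp only [h3, if_false, zero_add]
        rw [if_pos h4, one_mul]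
      · intro b _ hb
        have h3 : i.val ≠ b.val := by have := b.isLt; omega
        have h4 : i.val ≠ b.val + (n - ℓ) := fun h => hb (Fin.ext (by simp only; omega))
        simp [h3, h4]
      · simp
    · rw [dif_neg h']
      apply Finset.sum_eq_zero
      intro b _
      have h3 : i.val ≠ b.val := by have := b.isLt; omega
      have h4 : i.val ≠ b.val + (n - ℓ) := by omega
      simp [h3, h4]

/-- factor P -/
def matP (F : Type*) [Field F] (n ℓ : ℕ) : Matrix (Fin n) (Fin ℓ) F :=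
  Matrix.of (fun i k => (if i.val = k.val then (1 : F) else 0) + (if i.val = k.val + (n - ℓ) then (1 : F) else 0))

/-- factor Q -/
def matQ (F : Type*) [Field F] (n ℓ : ℕ) : Matrix (Fin ℓ) (Fin n) F :=
  Matrix.of (fun k j => (if j.val = k.val then (1 : F) else 0) + (if j.val = k.val + (n - ℓ) then (1 : F) else 0))

/-- left section -/
def secL (F : Type*) [Field F] (n ℓ : ℕ) : Matrix (Fin ℓ) (Fin n) F :=
  Matrix.of (fun k i => (if i.val = k.val then (1 : F) else 0))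

/-- right section -/
def secR (F : Type*) [Field F] (n ℓ : ℕ) : Matrix (Fin n) (Fin ℓ) F :=
  Matrix.of (fun j k => (if j.val = k.val + (n - ℓ) then (1 : F) else 0))

lemma factor [CharP F 2] (ℓ : ℕ) (h2 : 2 * ℓ ≤ n) (h1 : 1 ≤ ℓ) : aMat F n ℓ - 1 = matP F n ℓ * matQ F n ℓ := by
  ext i j
  have hi := i.isLt
  have hj := j.isLt
  rw [Matrix.mul_apply]
  simp only [matP, matQ, Matrix.of_apply]
  rw [sum_aux ℓ h2 i (fun k => (if j.val = k.val then (1 : F) else 0) + (if j.val = k.val + (n - ℓ) then (1 : F) else 0))]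
  simp only [aMat, Matrix.sub_apply, Matrix.of_apply, Matrix.one_apply, Fin.ext_iff]
  split_ifs <;> first
    | omega
    | simp [CharTwo.sub_eq_add, CharTwo.add_self_eq_zero]

lemma sec_eq [CharP F 2] (ℓ : ℕ) (h2 : 2 * ℓ ≤ n) (h1 : 1 ≤ ℓ) :
    secL F n ℓ * (aMat F n ℓ - 1) * secR F n ℓ = 1 := by
  ext k l
  have hk := k.isLt
  have hl := l.isLt
  have hkn : k.val < n := by omega
  have hln : l.val + (n - ℓ) < n := by omega
  rw [Matrix.mul_apply]
  rw [Finset.sum_eq_single (⟨l.val + (n - ℓ), hln⟩ : Fin n)]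
  · rw [Matrix.mul_apply]
    rw [Finset.sum_eq_single (⟨k.val, hkn⟩ : Fin n)]
    · simp only [secL, secR, aMat, Matrix.of_apply, Matrix.sub_apply, Matrix.one_apply, Fin.ext_iff]
      split_ifs <;> first
        | omega
        | simp [CharTwo.sub_eq_add, CharTwo.add_self_eq_zero]
    · intro b _ hb
      have : b.val ≠ k.val := fun h => hb (Fin.ext h)
      simp [secL, this]
    · simp
  · intro b _ hb
    have : b.val ≠ l.val + (n - ℓ) := fun h => hb (Fin.ext h)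
    simp [secR, this]
  · simp

lemma rank_eq [CharP F 2] (ℓ : ℕ) (h2 : 2 * ℓ ≤ n) (h1 : 1 ≤ ℓ) : (aMat F n ℓ - 1).rank = ℓ := by
  apply le_antisymm
  · rw [factor ℓ h2 h1]
    refine (Matrix.rank_mul_le_left _ _).trans ?_
    simpa using Matrix.rank_le_width (matP F n ℓ)
  · have h3 : ((1 : Matrix (Fin ℓ) (Fin ℓ) F)).rank = ℓ := by simp
    calc ℓ = (secL F n ℓ * (aMat F n ℓ - 1) * secR F n ℓ).rank := by rw [sec_eq ℓ h2 h1, h3]
      _ ≤ (secL F n ℓ * (aMat F n ℓ - 1)).rank := Matrix.rank_mul_le_left _ _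
      _ ≤ (aMat F n ℓ - 1).rank := Matrix.rank_mul_le_right _ _

/-- The statement. -/
theorem result {F : Type*} [Field F] [Fintype F] [CharP F 2] {n q : ℕ} (hF : Fintype.card F = q ^ 2) (hn : 3 ≤ n) (ℓ : ℕ) (h1 : 1 ≤ ℓ) (h2 : 2 * ℓ ≤ n) :
    ∃ a : ↥(Cfsg.SU n F q), (((a : Matrix.SpecialLinearGroup (Fin n) F) : Matrix (Fin n) (Fin n) F) = Matrix.of (fun i j : Fin n => if (j.val < ℓ ∧ i.val = j.val + (n - ℓ)) ∨ (i.val < ℓ ∧ j.val = i.val + (n - ℓ)) ∨ (i = j ∧ ℓ ≤ i.val ∧ i.val < n - ℓ) then (1 : F) else 0)) ∧ orderOf a = 2 ∧ ((((a : Matrix.SpecialLinearGroup (Fin n) F) : Matrix (Fin n) (Fin n) F)) - 1).rank = ℓ := by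
  have hsq : aMat F n ℓ * aMat F n ℓ = 1 := aMat_sq ℓ h2 h1
  have hdet : (aMat F n ℓ).det = 1 := by
    have h := congrArg Matrix.det hsq
    rw [Matrix.det_mul, Matrix.det_one] at h
    have h' : ((aMat F n ℓ).det + 1) * ((aMat F n ℓ).det + 1) = 0 := by
      have : ((aMat F n ℓ).det + 1) * ((aMat F n ℓ).det + 1)
          = (aMat F n ℓ).det * (aMat F n ℓ).det + 1 + ((aMat F n ℓ).det + (aMat F n ℓ).det) := by ring
      rw [this, h, CharTwo.add_self_eq_zero, CharTwo.add_self_eq_zero]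
      simp
    exact CharTwo.add_eq_zero.mp (mul_self_eq_zero.mp h')
  let a0 : Matrix.SpecialLinearGroup (Fin n) F := ⟨aMat F n ℓ, hdet⟩
  have ha0 : a0 ∈ Cfsg.SU n F q := by
    intro u v
    show hermForm n F q (aMat F n ℓ *ᵥ u) (aMat F n ℓ *ᵥ v) = hermForm n F q u v
    rw [aMat_mulVec ℓ h2 h1, aMat_mulVec ℓ h2 h1]
    unfold hermForm
    exact Equiv.sum_comp (Function.Involutive.toPerm _ (swapFn_invol n ℓ h2 h1)) (fun i => u i * v i ^ q)
  let a : ↥(Cfsg.SU n F q) := ⟨a0, ha0⟩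
  have haa : a * a = 1 := Subtype.ext (Subtype.ext hsq)
  refine ⟨a, rfl, ?_, rank_eq ℓ h2 h1⟩
  apply orderOf_eq_prime
  · rw [pow_two]
    exact haa
  · intro h
    have h4 : aMat F n ℓ = 1 := congrArg (fun g : ↥(Cfsg.SU n F q) => ((g : Matrix.SpecialLinearGroup (Fin n) F) : Matrix (Fin n) (Fin n) F)) h
    have h6 := rank_eq (F := F) ℓ h2 h1
    rw [h4] at h6
    simp at h6
    omega

end Cfsg.Agent.S2165
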