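import Cfsg.Statements.S2173
import Cfsg.Agent.Lib.Inv2.Lie2

set_option autoImplicit false
open Cfsg

namespace Cfsg.Agent.S2173

/-- For the quadratic form Σ x_i y_i + (z₁² + c z₁ z₂ + d z₂²) in dimension 2m with anisotropic binary part over a finite field F of characteristic two, m ≥ 4 (minus type): two involutions of the commutator subgroup Ω that are conjugate in the full isometry group O are conjugate by an element of Ω (no class of involutions of O inside Ω splits). -/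
theorem result {F : Type*} [Field F] [Fintype F] [CharP F 2] {m : ℕ} (hm : 4 ≤ m) (c d : F) (hcd : ∀ z₁ z₂ : F, z₁ ^ 2 + c * z₁ * z₂ + d * z₂ ^ 2 = 0 → z₁ = 0 ∧ z₂ = 0) (t s : ↥(Cfsg.isometryGroup F (Cfsg.quadFormMinus (m - 1) F c d))) (ht : orderOf t = 2) (hs : orderOf s = 2) (htO : t ∈ Cfsg.Omega F (Cfsg.quadFormMinus (m - 1) F c d)) (hsO : s ∈ Cfsg.Omega F (Cfsg.quadFormMinus (m - 1) F c d)) (hconj : IsConj t s) :
    ∃ g ∈ Cfsg.Omega F (Cfsg.quadFormMinus (m - 1) F c d), g * t * g⁻¹ = s := by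
  obtain ⟨k, rfl⟩ : ∃ k, m = k + 1 := ⟨m - 1, by omega⟩
  have H := Cfsg.Agent.Lib.Inv2.Models.frames_minus (F := F) k hcd
  have h : Fintype.card F ≠ 2 ∨ Fintype.card ((Fin k ⊕ Fin k) ⊕ Fin 2) ≠ 4 := Or.inr (by simp; omega)
  refine Cfsg.Agent.Lib.Inv2.Lie2.omega_conj_nonsplit (Cfsg.Agent.Lib.Orth.Forms.minusForm k F c d) H h t s ht hs hconj ?_
  rintro ⟨h1, h2⟩
  have h3 := (Cfsg.Agent.Lib.Inv2.Lie2.alt_iff (Cfsg.Agent.Lib.Orth.Forms.minusForm k F c d) t).mp h2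
  have h4 := Cfsg.Agent.Lib.Inv2.Orth.ts_range (Cfsg.Agent.Lib.Inv2.Lie2.lin_mem (Cfsg.Agent.Lib.Orth.Forms.minusForm k F c d) t) h3
  have h5 := H.ts _ h4
  have h6 := Cfsg.Agent.Lib.Inv2.ThreeTrans.rank_sub_one_eq (Cfsg.Agent.Lib.Orth.Forms.minusForm k F c d) t
  have h7 : Module.finrank F ↥(LinearMap.range (Cfsg.Agent.Lib.Inv2.Group.nOf (Cfsg.Agent.Lib.Inv2.Lie2.lin (Cfsg.Agent.Lib.Orth.Forms.minusForm k F c d) t))) = k + 1 := h6.symm.trans h1
  omega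

end Cfsg.Agent.S2173
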