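import Cfsg.Statements.S2177
import Cfsg.Agent.Lib.Steinberg.InvG2

set_option autoImplicit false
open Cfsg

namespace Cfsg.Agent.S2177

/-- Conjugacy classes of involutions in the Chevalley group of type G₂ over a finite field F of characteristic two with at least four elements (the matrix group generated by the root elements x_r(t)). In this problem's root numbering for type G₂ (the Chevalley data module; p₁ = a short, p₂ = b long; roots indexed by coefficient vectors in increasing order) let 11 be the highest root 3a + 2b (long) and 9 the short root 2a + b; consider x_{3a+2b}(1) and x_{2a+b}(1). Then: each invertible matrix equal to one of these two products lies in the group and has order 2; every element of order 2 of the group is conjugate in the group to one of them; and no two of them are conjugate in the group (so, the two matrices being distinct, the group has exactly two conjugacy classes of involutions). -/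
theorem result {F : Type*} [Field F] [Fintype F] [CharP F 2] (hF : 4 ≤ Fintype.card F) :
    (∀ y : GL Cfsg.Lie.chevG2.Idx F, ((y : GL Cfsg.Lie.chevG2.Idx F) : Matrix Cfsg.Lie.chevG2.Idx Cfsg.Lie.chevG2.Idx F) ∈ [Cfsg.Lie.chevG2.x F 11 1, Cfsg.Lie.chevG2.x F 9 1] → y ∈ Cfsg.Lie.chevG2.group F ∧ orderOf y = 2) ∧
    (∀ g ∈ Cfsg.Lie.chevG2.group F, orderOf g = 2 → ∃ y ∈ Cfsg.Lie.chevG2.group F, ((y : GL Cfsg.Lie.chevG2.Idx F) : Matrix Cfsg.Lie.chevG2.Idx Cfsg.Lie.chevG2.Idx F) ∈ [Cfsg.Lie.chevG2.x F 11 1, Cfsg.Lie.chevG2.x F 9 1] ∧ ∃ h ∈ Cfsg.Lie.chevG2.group F, h * g * h⁻¹ = y) ∧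
    (∀ y₁ ∈ Cfsg.Lie.chevG2.group F, ∀ y₂ ∈ Cfsg.Lie.chevG2.group F, ((y₁ : GL Cfsg.Lie.chevG2.Idx F) : Matrix Cfsg.Lie.chevG2.Idx Cfsg.Lie.chevG2.Idx F) ∈ [Cfsg.Lie.chevG2.x F 11 1, Cfsg.Lie.chevG2.x F 9 1] → ((y₂ : GL Cfsg.Lie.chevG2.Idx F) : Matrix Cfsg.Lie.chevG2.Idx Cfsg.Lie.chevG2.Idx F) ∈ [Cfsg.Lie.chevG2.x F 11 1, Cfsg.Lie.chevG2.x F 9 1] →
      (∃ h ∈ Cfsg.Lie.chevG2.group F, h * y₁ * h⁻¹ = y₂) → ((y₁ : GL Cfsg.Lie.chevG2.Idx F) : Matrix Cfsg.Lie.chevG2.Idx Cfsg.Lie.chevG2.Idx F) = ((y₂ : GL Cfsg.Lie.chevG2.Idx F) : Matrix Cfsg.Lie.chevG2.Idx Cfsg.Lie.chevG2.Idx F)) := by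
  exact Cfsg.Agent.Lib.Steinberg.InvG2.stmt

end Cfsg.Agent.S2177
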