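import Cfsg.Statements.S2178
import Cfsg.Agent.Lib.KS71.ChevCent

set_option autoImplicit false
open Cfsg

namespace Cfsg.Agent.S2178

/-- Centralizers of the long and the short root involutions in the Chevalley group G of type F₄ over a finite field F of characteristic two (this problem's root numbering for type F₄, from the Chevalley data module: fundamental roots p₁, p₂ short, p₃, p₄ long, with indices 33, 27, 25, 24, their negatives 14, 20, 22, 23; highest root 47, highest short root 44; U the subgroup generated by the positive root subgroups). For an element t of G with matrix x_47(1): the centralizer of t in G is the subgroup generated by U and the root subgroups X_{−p₁}, X_{−p₂}, X_{−p₃} (the unipotent radical of the maximal parabolic subgroup whose Levi factor has fundamental roots p₁, p₂, p₃, together with that Levi factor's root subgroups; the Levi factor is of type C₃). For an element u of G with matrix x_44(1): the centralizer of u in G is generated by U and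 X_{−p₂}, X_{−p₃}, X_{−p₄} (the same construction for the Levi factor with fundamental roots p₂, p₃, p₄, of type B₃). -/
theorem result {F : Type*} [Field F] [Fintype F] [CharP F 2] (t u : GL Cfsg.Lie.chevF4.Idx F) (ht : (t : Matrix Cfsg.Lie.chevF4.Idx Cfsg.Lie.chevF4.Idx F) = Cfsg.Lie.chevF4.x F 47 1) (hu : (u : Matrix Cfsg.Lie.chevF4.Idx Cfsg.Lie.chevF4.Idx F) = Cfsg.Lie.chevF4.x F 44 1) :
    Cfsg.Lie.chevF4.group F ⊓ Subgroup.centralizer {t} = Cfsg.Lie.chevF4.posUnipotent F ⊔ Cfsg.Lie.chevF4.rootSubgroup F 14 ⊔ Cfsg.Lie.chevF4.rootSubgroup F 20 ⊔ Cfsg.Lie.chevF4.rootSubgroup F 22 ∧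
    Cfsg.Lie.chevF4.group F ⊓ Subgroup.centralizer {u} = Cfsg.Lie.chevF4.posUnipotent F ⊔ Cfsg.Lie.chevF4.rootSubgroup F 20 ⊔ Cfsg.Lie.chevF4.rootSubgroup F 22 ⊔ Cfsg.Lie.chevF4.rootSubgroup F 23 := by
  classical
  open Cfsg.Agent.Lib.KS71.ChevCent Cfsg.Agent.Lib.Chev.AxBasic in
  have key : ∀ (r k a b c : ℕ), centChk Cfsg.Lie.chevF4 r k = true →
      ((List.range Cfsg.Lie.chevF4.rank).all (fun j => decide (j = k) || decide (Cfsg.Lie.chevF4.neg (Cfsg.Lie.chevF4.simple j) ∈ [a, b, c])) = true) →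
      ([a, b, c].all (fun s => (List.range Cfsg.Lie.chevF4.rank).any (fun j => decide (j ≠ k) && decide (s = Cfsg.Lie.chevF4.neg (Cfsg.Lie.chevF4.simple j)))) = true) →
      ∀ (t : GL Cfsg.Lie.chevF4.Idx F), (t : Matrix Cfsg.Lie.chevF4.Idx Cfsg.Lie.chevF4.Idx F) = Cfsg.Lie.chevF4.x F r 1 →
      Cfsg.Lie.chevF4.group F ⊓ Subgroup.centralizer {t} = Cfsg.Lie.chevF4.posUnipotent F ⊔ Cfsg.Lie.chevF4.rootSubgroup F a ⊔ Cfsg.Lie.chevF4.rootSubgroup F b ⊔ Cfsg.Lie.chevF4.rootSubgroup F c := by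
    intro r k a b c hchk hL2 hL1 t ht
    have hD7 : Cfsg.Lie.chevF4 ∈ [Cfsg.Lie.chevG2, Cfsg.Lie.chevB2, Cfsg.Lie.chevD4, Cfsg.Lie.chevF4, Cfsg.Lie.chevE6, Cfsg.Lie.chevE7, Cfsg.Lie.chevE8] := by
      simp
    have h1 := Cfsg.Agent.Lib.Chev.Tables.tab_of_mem hD7
    have h12 := Cfsg.Agent.Lib.Chev.Tables2.tab2_of_mem hD7
    have ax : Cfsg.Agent.Lib.Chev.AxBasic.Ax Cfsg.Lie.chevF4 F := Cfsg.Agent.Lib.Lie.AxOf.ax_of_mem hD7
    have e : t = xG ax r 1 := Units.ext (by rw [ht, xG_val])
    rw [e, centralizer_eq_of_chk ax h1 h12 hchk]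
    simp only [List.all_eq_true, List.any_eq_true, Bool.and_eq_true, decide_eq_true_eq, List.mem_range, Bool.or_eq_true] at hL1 hL2
    have hmemR : ∀ s c', s ∈ [a, b, c] → xG ax s c' ∈ Cfsg.Lie.chevF4.posUnipotent F ⊔ Cfsg.Lie.chevF4.rootSubgroup F a ⊔ Cfsg.Lie.chevF4.rootSubgroup F b ⊔ Cfsg.Lie.chevF4.rootSubgroup F c := by
      intro s c' hs
      have hgen : ∀ s' : ℕ, xG ax s' c' ∈ Cfsg.Lie.chevF4.rootSubgroup F s' :=
        fun s' => Subgroup.subset_closure ⟨c', xG_val ax _ _⟩
      simp only [List.mem_cons, List.not_mem_nil, or_false] at hs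
      rcases hs with rfl | rfl | rfl
      · exact SetLike.le_def.mp (le_sup_of_le_left (le_sup_of_le_left le_sup_right)) (hgen _)
      · exact SetLike.le_def.mp (le_sup_of_le_left le_sup_right) (hgen _)
      · exact SetLike.le_def.mp le_sup_right (hgen _)
    apply le_antisymm
    · apply rootClosure_le
      rintro s c' (hs | ⟨j, hj, hjk, rfl⟩)
      · refine SetLike.le_def.mp (le_sup_of_le_left (le_sup_of_le_left le_sup_left)) ?_
        rw [posUnipotent_eq ax]
        exact xG_mem_rootClosure ax hs c'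
      · rcases hL2 j hj with h3 | h3
        · exact (hjk h3).elim
        · exact hmemR _ _ h3
    · have hle : ∀ s, s ∈ [a, b, c] → Cfsg.Lie.chevF4.rootSubgroup F s ≤ MJ ax {j | j ≠ k} := by
        intro s hs
        rw [Cfsg.Lie.ChevalleyDatum.rootSubgroup, Subgroup.closure_le]
        rintro g ⟨c', hg⟩
        obtain ⟨j, hj, hjk, rfl⟩ := hL1 s hs
        have e2 : g = xG ax (Cfsg.Lie.chevF4.neg (Cfsg.Lie.chevF4.simple j)) c' := Units.ext (by rw [hg, xG_val])
        rw [e2]
        exact xG_mem_rootClosure ax (Or.inr ⟨j, hj, hjk, rfl⟩) c'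
      refine sup_le (sup_le (sup_le (U_le_MJ ax h1 h12 _) (hle a (by simp))) (hle b (by simp))) (hle c (by simp))
  exact ⟨key 47 3 14 20 22 (by decide +kernel) (by decide +kernel) (by decide +kernel) t ht,
    key 44 0 20 22 23 (by decide +kernel) (by decide +kernel) (by decide +kernel) u hu⟩

end Cfsg.Agent.S2178
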