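import Cfsg.Statements.S2179
import Cfsg.Agent.Lib.KS71.WeylTabF4

set_option autoImplicit false
open Cfsg

namespace Cfsg.Agent.S2179

/-- Centralizers of the two remaining classes of involutions in the Chevalley group G of type F₄ over a finite field F of characteristic two (this problem's root numbering for type F₄, from the Chevalley data module: p₁, p₂ short, p₃, p₄ long with indices 33, 27, 25, 24 and negatives 14, 20, 22, 23; U generated by the positive root subgroups). For an element of G with matrix x_47(1)x_44(1) (highest root times highest short root): its centralizer in G is generated by U, X_{−p₂} and X_{−p₃}. For an element of G with matrix x_39(1)x_45(1) (roots (1,2,2,1) and (2,4,2,1), an orthogonal short/long pair): its centralizer in G is generated by X_{p₁}, X_{−p₁}, X_{p₄}, X_{−p₄} and the root subgroups of all positive roots other than p₂ (27), p₃ (25), p₁ + p₂ (34) and p₃ + p₄ (26). -/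
theorem result {F : Type*} [Field F] [Fintype F] [CharP F 2] (w v : GL Cfsg.Lie.chevF4.Idx F) (hw : (w : Matrix Cfsg.Lie.chevF4.Idx Cfsg.Lie.chevF4.Idx F) = Cfsg.Lie.chevF4.x F 47 1 * Cfsg.Lie.chevF4.x F 44 1) (hv : (v : Matrix Cfsg.Lie.chevF4.Idx Cfsg.Lie.chevF4.Idx F) = Cfsg.Lie.chevF4.x F 39 1 * Cfsg.Lie.chevF4.x F 45 1) :
    Cfsg.Lie.chevF4.group F ⊓ Subgroup.centralizer {w} = Cfsg.Lie.chevF4.posUnipotent F ⊔ Cfsg.Lie.chevF4.rootSubgroup F 20 ⊔ Cfsg.Lie.chevF4.rootSubgroup F 22 ∧
    Cfsg.Lie.chevF4.group F ⊓ Subgroup.centralizer {v} = Cfsg.Lie.chevF4.rootSubgroup F 33 ⊔ Cfsg.Lie.chevF4.rootSubgroup F 14 ⊔ Cfsg.Lie.chevF4.rootSubgroup F 24 ⊔ Cfsg.Lie.chevF4.rootSubgroup F 23 ⊔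
      Subgroup.closure {g : GL Cfsg.Lie.chevF4.Idx F | ∃ (r : ℕ) (c : F), Cfsg.Lie.chevF4.IsPosRoot r ∧ r ∉ [27, 25, 34, 26] ∧ (g : Matrix Cfsg.Lie.chevF4.Idx Cfsg.Lie.chevF4.Idx F) = Cfsg.Lie.chevF4.x F r c} := by
  classical
  open Cfsg.Agent.Lib.KS71.ChevCent Cfsg.Agent.Lib.KS71.ChevAb Cfsg.Agent.Lib.KS71.ChevWeyl Cfsg.Agent.Lib.Chev.AxBasic Cfsg.Agent.Lib.Chev.Products in
  have hD7 : Cfsg.Lie.chevF4 ∈ [Cfsg.Lie.chevG2, Cfsg.Lie.chevB2, Cfsg.Lie.chevD4, Cfsg.Lie.chevF4, Cfsg.Lie.chevE6, Cfsg.Lie.chevE7, Cfsg.Lie.chevE8] := by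
    simp
  have h1 := Cfsg.Agent.Lib.Chev.Tables.tab_of_mem hD7
  have h12 := Cfsg.Agent.Lib.Chev.Tables2.tab2_of_mem hD7
  have ax : Cfsg.Agent.Lib.Chev.AxBasic.Ax Cfsg.Lie.chevF4 F := Cfsg.Agent.Lib.Lie.AxOf.ax_of_mem hD7
  have hgen : ∀ (s' : ℕ) (c' : F), xG ax s' c' ∈ Cfsg.Lie.chevF4.rootSubgroup F s' :=
    fun s' c' => Subgroup.subset_closure ⟨c', xG_val ax _ _⟩
  have hsub : ∀ (s' : ℕ) (K : Subgroup (GL Cfsg.Lie.chevF4.Idx F)), (∀ c', xG ax s' c' ∈ K) → Cfsg.Lie.chevF4.rootSubgroup F s' ≤ K := by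
    intro s' K hK
    rw [Cfsg.Lie.ChevalleyDatum.rootSubgroup, Subgroup.closure_le]
    rintro g ⟨c', hg⟩
    have e2 : g = xG ax s' c' := Units.ext (by rw [hg, xG_val])
    rw [e2]
    exact hK c'
  have hS : ∀ i ∈ Cfsg.Lie.chevF4.posRoots, True := fun _ _ => trivial
  constructor
  · -- the element `x_47(1) x_44(1)`
    have HH : AbHyp Cfsg.Lie.chevF4 [44, 47] [44, 47] :=
      { good := { sorted := by decide, pos := by decide +kernel, closed := by decide +kernel }
        sub := by decide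
        even := by decide +kernel
        cl := by decide +kernel }
    have hcomm := commF_of ax h1 HH
    have e : w = wordL ax [44, 47] (ind [44, 47]) := by
      apply Units.ext
      rw [hw]
      have e1 : wordL ax [44, 47] (ind [44, 47]) = xG ax 47 1 * xG ax 44 1 := by
        simp only [wordL_cons, wordL_nil, mul_one]
        rw [ind_mem (by decide), ind_mem (by decide)]
        exact hcomm 44 47 (by decide) (by decide) 1 1
      rw [e1]
      simp [xG_val]
    have hW : WeylCond Cfsg.Lie.chevF4 [44, 47] [44, 47] {j | j ∈ [1, 2]} :=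
      weylCond_of_table (Tb := Cfsg.Agent.Lib.KS71.WeylTabF4.table) (gens := Cfsg.Agent.Lib.KS71.WeylTabF4.gens)
        (Jw := [[], [1], [2], [1, 2], [2, 1], [1, 2, 1], [2, 1, 2], [1, 2, 1, 2]]) h1
        Cfsg.Agent.Lib.KS71.WeylTabF4.id_chk Cfsg.Agent.Lib.KS71.WeylTabF4.closed_chk Cfsg.Agent.Lib.KS71.WeylTabF4.gens_chk
        (by decide +kernel) (by decide +kernel) (by decide +kernel)
    have hc : detCert Cfsg.Lie.chevF4 [1, 2] [(0, [(44, 1)]), (3, [(47, 1)])] [44, 47] := by decide +kernel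
    rw [e, centralizer_eq_MJ_chk ax h1 h12 HH hW hc (by decide +kernel) (by decide +kernel)]
    apply le_antisymm
    · apply rootClosure_le
      rintro s c' (hs | ⟨j, hj, hjk, rfl⟩)
      · refine SetLike.le_def.mp (le_sup_of_le_left le_sup_left) ?_
        rw [posUnipotent_eq ax]
        exact xG_mem_rootClosure ax hs c'
      · simp only [Set.mem_setOf_eq, List.mem_cons, List.not_mem_nil, or_false] at hjk
        rcases hjk with rfl | rfl
        · exact SetLike.le_def.mp (le_sup_of_le_left le_sup_right) (hgen _ _)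
        · exact SetLike.le_def.mp le_sup_right (hgen _ _)
    · refine sup_le (sup_le (U_le_MJ ax h1 h12 _) (hsub _ _ fun c' => ?_)) (hsub _ _ fun c' => ?_)
      · exact xG_mem_rootClosure ax (Or.inr ⟨1, by decide, by simp, by decide⟩) c'
      · exact xG_mem_rootClosure ax (Or.inr ⟨2, by decide, by simp, by decide⟩) c'
  · -- the element `x_39(1) x_45(1)`
    have e : v = wordL ax [39, 40, 44, 45, 46, 47] (ind [39, 45]) := by
      apply Units.ext
      rw [hv]
      simp [wordL_cons, wordL_nil, ind, xG_zero, xG_val]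
    have K : AbChk Cfsg.Lie.chevF4 [39, 40, 44, 45, 46, 47] [39, 45] [0, 3] [33, 14, 24, 23, 24, 28, 29, 30, 31, 32, 33, 35, 36, 37, 38, 39, 40, 41, 42, 43, 44, 45, 46, 47] [25, 26, 27, 28, 29, 30, 31, 32, 34, 35, 36, 37, 38, 39, 40, 41, 42, 43, 44, 45, 46, 47]
        [(27, 39, 40), (34, 39, 44), (25, 45, 46), (26, 45, 47)] :=
      { H := { good := { sorted := by decide, pos := by decide +kernel, closed := by decide +kernel }
               sub := by decide
               even := by decide +kernel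
               cl := by decide +kernel }
        cs0 := by decide +kernel
        csc := by decide +kernel
        csJ := by decide +kernel
        le := { sorted := by decide, pos := by decide +kernel, closed := by decide +kernel }
        le0 := by decide +kernel
        le1 := by decide +kernel
        tabS := by decide +kernel
        letab := by decide +kernel }
    have hW : WeylCond Cfsg.Lie.chevF4 [39, 40, 44, 45, 46, 47] [39, 45] {j | j ∈ [0, 3]} :=
      weylCond_of_table (Tb := Cfsg.Agent.Lib.KS71.WeylTabF4.table) (gens := Cfsg.Agent.Lib.KS71.WeylTabF4.gens)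
        (Jw := [[], [0], [3], [3, 0]]) h1
        Cfsg.Agent.Lib.KS71.WeylTabF4.id_chk Cfsg.Agent.Lib.KS71.WeylTabF4.closed_chk Cfsg.Agent.Lib.KS71.WeylTabF4.gens_chk
        (by decide +kernel) (by decide +kernel) (by decide +kernel)
    have hc : detCert Cfsg.Lie.chevF4 [0, 3] [(1, [(39, 1), (45, 1)]), (2, [(39, 2), (45, 1)])] [39, 45] := by decide +kernel
    rw [e, centralizer_eq_chk ax h1 h12 K hW hc]
    apply le_antisymm
    · apply rootClosure_le
      intro s c' hs
      by_cases hs4 : s ∈ [33, 14, 24, 23]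
      · simp only [List.mem_cons, List.not_mem_nil, or_false] at hs4
        rcases hs4 with rfl | rfl | rfl | rfl
        · exact SetLike.le_def.mp (le_sup_of_le_left (le_sup_of_le_left (le_sup_of_le_left le_sup_left))) (hgen _ _)
        · exact SetLike.le_def.mp (le_sup_of_le_left (le_sup_of_le_left (le_sup_of_le_left le_sup_right))) (hgen _ _)
        · exact SetLike.le_def.mp (le_sup_of_le_left (le_sup_of_le_left le_sup_right)) (hgen _ _)
        · exact SetLike.le_def.mp (le_sup_of_le_left le_sup_right) (hgen _ _)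
      · refine SetLike.le_def.mp le_sup_right (Subgroup.subset_closure ⟨s, c', ?_, ?_, xG_val ax _ _⟩)
        · have h3 : ∀ s' ∈ [33, 14, 24, 23, 24, 28, 29, 30, 31, 32, 33, 35, 36, 37, 38, 39, 40, 41, 42, 43, 44, 45, 46, 47], s' ∉ [33, 14, 24, 23] → Cfsg.Lie.chevF4.IsPosRoot s' ∧ s' ∉ [27, 25, 34, 26] := by decide +kernel
          exact (h3 s hs hs4).1
        · have h3 : ∀ s' ∈ [33, 14, 24, 23, 24, 28, 29, 30, 31, 32, 33, 35, 36, 37, 38, 39, 40, 41, 42, 43, 44, 45, 46, 47], s' ∉ [33, 14, 24, 23] → Cfsg.Lie.chevF4.IsPosRoot s' ∧ s' ∉ [27, 25, 34, 26] := by decide +kernel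
          exact (h3 s hs hs4).2
    · refine sup_le (sup_le (sup_le (sup_le (hsub _ _ fun c' => ?_) (hsub _ _ fun c' => ?_)) (hsub _ _ fun c' => ?_)) (hsub _ _ fun c' => ?_)) ?_
      · exact xG_mem_rootClosure ax (by decide) c'
      · exact xG_mem_rootClosure ax (by decide) c'
      · exact xG_mem_rootClosure ax (by decide) c'
      · exact xG_mem_rootClosure ax (by decide) c'
      · rw [Subgroup.closure_le]
        rintro g ⟨r, c', hr1, hr2, hg⟩
        have e2 : g = xG ax r c' := Units.ext (by rw [hg, xG_val])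
        rw [e2]
        refine xG_mem_rootClosure ax ?_ c'
        have h3 : ∀ r' ∈ Cfsg.Lie.chevF4.posRoots, r' ∉ [27, 25, 34, 26] → r' ∈ [33, 14, 24, 23, 24, 28, 29, 30, 31, 32, 33, 35, 36, 37, 38, 39, 40, 41, 42, 43, 44, 45, 46, 47] := by decide +kernel
        exact h3 r (Cfsg.Agent.Lib.Chev.Products2.mem_posRoots.mpr hr1) hr2

end Cfsg.Agent.S2179
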