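import Cfsg.Statements.S2180
import Cfsg.Agent.Lib.KS71.WeylTabG2

set_option autoImplicit false
open Cfsg

namespace Cfsg.Agent.S2180

/-- Centralizers of involutions in the Chevalley group G of type G₂ over a finite field F of characteristic two with at least four elements (this problem's root numbering for type G₂, from the Chevalley data module: a = p₁ short with index 7, b = p₂ long with index 6, −a = 4, −b = 5, 2a + b = 9, 3a + b = 10, 3a + 2b = 11; U generated by the positive root subgroups). For an element z of G with matrix x_{3a+2b}(1): the centralizer of z in G is generated by U and X_{−a}. For an element t of G with matrix x_{2a+b}(1): the centralizer of t in G is generated by X_{2a+b}, X_{3a+b}, X_{3a+2b}, X_b and X_{−b}. -/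
theorem result {F : Type*} [Field F] [Fintype F] [CharP F 2] (hF : 4 ≤ Fintype.card F) (z t : GL Cfsg.Lie.chevG2.Idx F) (hz : (z : Matrix Cfsg.Lie.chevG2.Idx Cfsg.Lie.chevG2.Idx F) = Cfsg.Lie.chevG2.x F 11 1) (ht : (t : Matrix Cfsg.Lie.chevG2.Idx Cfsg.Lie.chevG2.Idx F) = Cfsg.Lie.chevG2.x F 9 1) :
    Cfsg.Lie.chevG2.group F ⊓ Subgroup.centralizer {z} = Cfsg.Lie.chevG2.posUnipotent F ⊔ Cfsg.Lie.chevG2.rootSubgroup F 4 ∧
    Cfsg.Lie.chevG2.group F ⊓ Subgroup.centralizer {t} = Cfsg.Lie.chevG2.rootSubgroup F 9 ⊔ Cfsg.Lie.chevG2.rootSubgroup F 10 ⊔ Cfsg.Lie.chevG2.rootSubgroup F 11 ⊔ Cfsg.Lie.chevG2.rootSubgroup F 6 ⊔ Cfsg.Lie.chevG2.rootSubgroup F 5 := by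
  classical
  open Cfsg.Agent.Lib.KS71.ChevCent Cfsg.Agent.Lib.KS71.ChevAb Cfsg.Agent.Lib.KS71.ChevWeyl Cfsg.Agent.Lib.Chev.AxBasic Cfsg.Agent.Lib.Chev.Products in
  have hD7 : Cfsg.Lie.chevG2 ∈ [Cfsg.Lie.chevG2, Cfsg.Lie.chevB2, Cfsg.Lie.chevD4, Cfsg.Lie.chevF4, Cfsg.Lie.chevE6, Cfsg.Lie.chevE7, Cfsg.Lie.chevE8] := by
    simp
  have h1 := Cfsg.Agent.Lib.Chev.Tables.tab_of_mem hD7
  have h12 := Cfsg.Agent.Lib.Chev.Tables2.tab2_of_mem hD7
  have ax : Cfsg.Agent.Lib.Chev.AxBasic.Ax Cfsg.Lie.chevG2 F := Cfsg.Agent.Lib.Lie.AxOf.ax_of_mem hD7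
  have hgen : ∀ (s' : ℕ) (c' : F), xG ax s' c' ∈ Cfsg.Lie.chevG2.rootSubgroup F s' :=
    fun s' c' => Subgroup.subset_closure ⟨c', xG_val ax _ _⟩
  have hsub : ∀ (s' : ℕ) (K : Subgroup (GL Cfsg.Lie.chevG2.Idx F)), (∀ c', xG ax s' c' ∈ K) → Cfsg.Lie.chevG2.rootSubgroup F s' ≤ K := by
    intro s' K hK
    rw [Cfsg.Lie.ChevalleyDatum.rootSubgroup, Subgroup.closure_le]
    rintro g ⟨c', hg⟩
    have e2 : g = xG ax s' c' := Units.ext (by rw [hg, xG_val])
    rw [e2]
    exact hK c'
  constructor
  · have e : z = xG ax 11 1 := Units.ext (by rw [hz, xG_val])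
    rw [e, centralizer_eq_of_chk ax h1 h12 (r := 11) (k := 1) (by decide +kernel)]
    apply le_antisymm
    · apply rootClosure_le
      rintro s c' (hs | ⟨j, hj, hjk, rfl⟩)
      · refine SetLike.le_def.mp le_sup_left ?_
        rw [posUnipotent_eq ax]
        exact xG_mem_rootClosure ax hs c'
      · have hj0 : j = 0 := by
          have h3 : j < 2 := hj
          have h4 : j ≠ 1 := hjk
          omega
        subst hj0
        exact SetLike.le_def.mp le_sup_right (hgen _ _)
    · refine sup_le (U_le_MJ ax h1 h12 _) (hsub _ _ fun c' => ?_)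
      exact xG_mem_rootClosure ax (Or.inr ⟨0, by decide, by simp, by decide⟩) c'
  · have e : t = wordL ax [9, 10, 11] (ind [9]) := by
      apply Units.ext
      rw [ht]
      simp [wordL_cons, wordL_nil, ind, xG_zero, xG_val]
    have K : AbChk Cfsg.Lie.chevG2 [9, 10, 11] [9] [1] [9, 10, 11, 6, 5] [7, 8, 9, 10, 11] [(7, 9, 10), (8, 9, 11)] :=
      { H := { good := { sorted := by decide, pos := by decide +kernel, closed := by decide +kernel }
               sub := by decide
               even := by decide +kernel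
               cl := by decide +kernel }
        cs0 := by decide +kernel
        csc := by decide +kernel
        csJ := by decide +kernel
        le := { sorted := by decide, pos := by decide +kernel, closed := by decide +kernel }
        le0 := by decide +kernel
        le1 := by decide +kernel
        tabS := by decide +kernel
        letab := by decide +kernel }
    have hW : WeylCond Cfsg.Lie.chevG2 [9, 10, 11] [9] {j | j ∈ [1]} :=
      weylCond_of_table (Tb := Cfsg.Agent.Lib.KS71.WeylTabG2.table) (gens := Cfsg.Agent.Lib.KS71.WeylTabG2.gens) (Jw := [[], [1]]) h1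
        Cfsg.Agent.Lib.KS71.WeylTabG2.id_chk Cfsg.Agent.Lib.KS71.WeylTabG2.closed_chk Cfsg.Agent.Lib.KS71.WeylTabG2.gens_chk
        (by decide +kernel) (by decide +kernel) (by decide +kernel)
    have hc : detCert Cfsg.Lie.chevG2 [1] [(0, [(9, 1)])] [9] := by decide +kernel
    rw [e, centralizer_eq_chk ax h1 h12 K hW hc]
    apply le_antisymm
    · apply rootClosure_le
      intro s c' hs
      simp only [List.mem_cons, List.not_mem_nil, or_false] at hs
      rcases hs with rfl | rfl | rfl | rfl | rfl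
      · exact SetLike.le_def.mp (le_sup_of_le_left (le_sup_of_le_left (le_sup_of_le_left le_sup_left))) (hgen _ _)
      · exact SetLike.le_def.mp (le_sup_of_le_left (le_sup_of_le_left (le_sup_of_le_left le_sup_right))) (hgen _ _)
      · exact SetLike.le_def.mp (le_sup_of_le_left (le_sup_of_le_left le_sup_right)) (hgen _ _)
      · exact SetLike.le_def.mp (le_sup_of_le_left le_sup_right) (hgen _ _)
      · exact SetLike.le_def.mp le_sup_right (hgen _ _)
    · refine sup_le (sup_le (sup_le (sup_le (hsub _ _ fun c' => ?_) (hsub _ _ fun c' => ?_)) (hsub _ _ fun c' => ?_)) (hsub _ _ fun c' => ?_)) (hsub _ _ fun c' => ?_) <;>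
        exact xG_mem_rootClosure ax (by simp) c'

end Cfsg.Agent.S2180
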