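import Cfsg.Statements.S2209
import Cfsg.Agent.Lib.KS71.ChevCent

set_option autoImplicit false
open Cfsg

namespace Cfsg.Agent.S2209

/-- Centralizer of a long root involution in the Chevalley groups of type E₆, E₇, E₈ over a finite field F of characteristic two. Let G be the group generated by the root elements, U the subgroup generated by the positive root subgroups, r the highest root (the last root index: 71, 125, 239 respectively), and t the element of G with matrix x_r(1). Then the centralizer of t in G is the subgroup generated by U together with the root subgroups X_{−p} for the fundamental roots p orthogonal to r — all fundamental roots except p₂ for E₆, except p₁ for E₇, except p₈ for E₈ (numbering with p₁–p₃–p₄–…–p_l the long chain and p₂ joined to p₄); the indices of these negative fundamental roots are 15, 29, 32, 34, 35 (E₆), 47, 52, 56, 59, 61, 62 (E₇), 77, 98, 104, 109, 113, 116, 118 (E₈). (This is the unipotent radical of the corresponding maximal parabolic subgroup extended by the root subgroups of its Levi factor,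 of type A₅, D₆, E₇ respectively.) -/
theorem result {F : Type*} [Field F] [Fintype F] [CharP F 2] (d : Cfsg.Lie.ChevalleyDatum × List ℕ)
    (hd : d ∈ [(Cfsg.Lie.chevE6, [15, 29, 32, 34, 35]), (Cfsg.Lie.chevE7, [47, 52, 56, 59, 61, 62]), (Cfsg.Lie.chevE8, [77, 98, 104, 109, 113, 116, 118])])
    (t : GL d.1.Idx F) (ht : (t : Matrix d.1.Idx d.1.Idx F) = d.1.x F (d.1.nroots - 1) 1) :
    d.1.group F ⊓ Subgroup.centralizer {t} = d.1.posUnipotent F ⊔ Subgroup.closure {g : GL d.1.Idx F | ∃ s ∈ d.2, ∃ c : F, (g : Matrix d.1.Idx d.1.Idx F) = d.1.x F s c} := by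
  classical
  open Cfsg.Agent.Lib.KS71.ChevCent Cfsg.Agent.Lib.Chev.AxBasic in
  have key : ∀ (D : Cfsg.Lie.ChevalleyDatum) (L : List ℕ) (k : ℕ),
      D ∈ [Cfsg.Lie.chevE6, Cfsg.Lie.chevE7, Cfsg.Lie.chevE8] → centChk D (D.nroots - 1) k = true →
      (L.all (fun s => (List.range D.rank).any (fun j => decide (j ≠ k) && decide (s = D.neg (D.simple j)))) = true) →
      ((List.range D.rank).all (fun j => decide (j = k) || decide (D.neg (D.simple j) ∈ L)) = true) →
      ∀ (t : GL D.Idx F), (t : Matrix D.Idx D.Idx F) = D.x F (D.nroots - 1) 1 →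
      D.group F ⊓ Subgroup.centralizer {t} = D.posUnipotent F ⊔ Subgroup.closure {g : GL D.Idx F | ∃ s ∈ L, ∃ c : F, (g : Matrix D.Idx D.Idx F) = D.x F s c} := by
    intro D L k hD hchk hL1 hL2 t ht
    have hD7 : D ∈ [Cfsg.Lie.chevG2, Cfsg.Lie.chevB2, Cfsg.Lie.chevD4, Cfsg.Lie.chevF4, Cfsg.Lie.chevE6, Cfsg.Lie.chevE7, Cfsg.Lie.chevE8] := by
      simp only [List.mem_cons, List.not_mem_nil, or_false] at hD ⊢
      rcases hD with h | h | h <;> simp [h]
    have h1 := Cfsg.Agent.Lib.Chev.Tables.tab_of_mem hD7
    have h12 := Cfsg.Agent.Lib.Chev.Tables2.tab2_of_mem hD7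
    have ax : Cfsg.Agent.Lib.Chev.AxBasic.Ax D F := Cfsg.Agent.Lib.Lie.AxOf.ax_of_mem hD7
    have e : t = xG ax (D.nroots - 1) 1 := Units.ext (by rw [ht, xG_val])
    rw [e, centralizer_eq_of_chk ax h1 h12 hchk]
    simp only [List.all_eq_true, List.any_eq_true, Bool.and_eq_true, decide_eq_true_eq, List.mem_range, Bool.or_eq_true] at hL1 hL2
    apply le_antisymm
    · apply rootClosure_le
      rintro s c (hs | ⟨j, hj, hjk, rfl⟩)
      · apply (le_sup_left : D.posUnipotent F ≤ _)
        rw [posUnipotent_eq ax]
        exact xG_mem_rootClosure ax hs c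
      · apply (le_sup_right : Subgroup.closure _ ≤ _)
        apply Subgroup.subset_closure
        rcases hL2 j hj with h3 | h3
        · exact (hjk h3).elim
        · exact ⟨_, h3, c, xG_val ax _ _⟩
    · apply sup_le
      · exact U_le_MJ ax h1 h12 _
      · rw [Subgroup.closure_le]
        rintro g ⟨s, hs, c, hg⟩
        obtain ⟨j, hj, hjk, rfl⟩ := hL1 s hs
        have e2 : g = xG ax (D.neg (D.simple j)) c := Units.ext (by rw [hg, xG_val])
        rw [e2]
        exact xG_mem_rootClosure ax (Or.inr ⟨j, hj, hjk, rfl⟩) c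
  simp only [List.mem_cons, List.not_mem_nil, or_false] at hd
  rcases hd with rfl | rfl | rfl
  · exact key Cfsg.Lie.chevE6 _ 1 (by simp) (by decide +kernel) (by decide +kernel) (by decide +kernel) t ht
  · exact key Cfsg.Lie.chevE7 _ 0 (by simp) (by decide +kernel) (by decide +kernel) (by decide +kernel) t ht
  · exact key Cfsg.Lie.chevE8 _ 7 (by simp) (by decide +kernel) (by decide +kernel) (by decide +kernel) t ht

end Cfsg.Agent.S2209
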