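import Cfsg.Statements.S2221
import Cfsg.Agent.Lib.SylAlt.Family

set_option autoImplicit false
open Cfsg

namespace Cfsg.Agent.S2221


open Subgroup Cfsg.Agent.Lib.SpWreath.PermTower Cfsg.Agent.Lib.SpWreath.AltTower
open Cfsg.Agent.Lib.SylAlt.Indec Cfsg.Agent.Lib.SylAlt.Level Cfsg.Agent.Lib.SylAlt.Family
open scoped Nat

lemma iff_dec {G : Type*} [Group G] (P : Subgroup G) :
    (∃ S₁ S₂ : Subgroup G, S₁ ≠ ⊥ ∧ S₂ ≠ ⊥ ∧ Cfsg.IsInternalDirectProduct S₁ S₂ P) ↔ Dec ↥P := by
  constructor
  · rintro ⟨S₁, S₂, h1, h2, h3, h4, h5, h6, h7⟩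
    refine ⟨S₁.subgroupOf P, S₂.subgroupOf P, ?_, ?_, ?_, ?_, ?_⟩
    · intro h
      apply h1
      have := Subgroup.map_subgroupOf_eq_of_le h3
      rw [h, Subgroup.map_bot] at this
      exact this.symm
    · intro h
      apply h2
      have := Subgroup.map_subgroupOf_eq_of_le h4
      rw [h, Subgroup.map_bot] at this
      exact this.symm
    · intro a ha b hb
      exact Subtype.ext (h5 a ha b hb)
    · rw [eq_bot_iff]
      rintro a ⟨ha, hb⟩
      have : (a : G) ∈ S₁ ⊓ S₂ := ⟨ha, hb⟩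
      rw [h6, Subgroup.mem_bot] at this
      exact Subgroup.mem_bot.2 (Subtype.ext this)
    · rw [← Subgroup.subgroupOf_sup h3 h4, h7, Subgroup.subgroupOf_self]
  · rintro ⟨X, Y, hX, hY, hc, hi, hs⟩
    refine ⟨X.map P.subtype, Y.map P.subtype, ?_, ?_, Subgroup.map_subtype_le _, Subgroup.map_subtype_le _, ?_, ?_, ?_⟩
    · intro h
      exact hX ((Subgroup.map_eq_bot_iff_of_injective _ P.subtype_injective).1 h)
    · intro h
      exact hY ((Subgroup.map_eq_bot_iff_of_injective _ P.subtype_injective).1 h)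
    · rintro _ ⟨a, ha, rfl⟩ _ ⟨b, hb, rfl⟩
      exact congrArg Subtype.val (hc a ha b hb)
    · rw [← Subgroup.map_inf _ _ _ P.subtype_injective, hi, Subgroup.map_bot]
    · rw [← Subgroup.map_sup, hs, ← MonoidHom.range_eq_map, Subgroup.range_subtype]

lemma four_dvd_sum (T : Finset ℕ) (hT : ∀ a ∈ T, 1 ≤ a) : 4 ∣ ∑ a ∈ T, 2 ^ (a + 1) := by
  apply Finset.dvd_sum
  intro a ha
  obtain ⟨b, rfl⟩ : ∃ b, a = b + 1 := ⟨a - 1, by have := hT a ha; omega⟩
  exact ⟨2 ^ b, by rw [pow_succ, pow_succ]; ring⟩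

lemma sum_ne_pow (T : Finset ℕ) (hT : 2 ≤ T.card) (r : ℕ) : ∑ a ∈ T, 2 ^ (a + 1) ≠ 2 ^ r := by
  intro h
  have hne : T.Nonempty := Finset.card_pos.1 (by omega)
  set M := T.max' hne with hM
  have hMm : M ∈ T := Finset.max'_mem _ _
  have hlt : ∀ k ∈ T, k < M + 1 := fun k hk => Nat.lt_succ_of_le (Finset.le_max' _ _ hk)
  have h1 : ∑ a ∈ T, 2 ^ a < 2 ^ (M + 1) := Nat.geomSum_lt (le_refl 2) hlt
  have e : ∑ a ∈ T, 2 ^ (a + 1) = 2 * ∑ a ∈ T, 2 ^ a := by
    rw [Finset.mul_sum]
    exact Finset.sum_congr rfl fun a _ => by rw [pow_succ]; ring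
  have h2 : ∑ a ∈ T, 2 ^ (a + 1) < 2 ^ (M + 2) := by
    rw [e, pow_succ 2 (M + 1)]
    omega
  have h3 : 2 ^ (M + 1) < ∑ a ∈ T, 2 ^ (a + 1) := by
    obtain ⟨b, hb, hbM⟩ := Finset.exists_mem_ne (by omega : 1 < T.card) M
    have hsub : ({M, b} : Finset ℕ) ⊆ T := by
      intro x hx
      simp only [Finset.mem_insert, Finset.mem_singleton] at hx
      rcases hx with rfl | rfl
      · exact hMm
      · exact hb
    have h4 : ∑ a ∈ ({M, b} : Finset ℕ), 2 ^ (a + 1) ≤ ∑ a ∈ T, 2 ^ (a + 1) :=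
      Finset.sum_le_sum_of_subset hsub
    rw [Finset.sum_pair hbM.symm] at h4
    have : 0 < 2 ^ (b + 1) := by positivity
    omega
  rw [h] at h2 h3
  have h5 := (Nat.pow_lt_pow_iff_right (by norm_num : 1 < 2)).1 h2
  have h6 := (Nat.pow_lt_pow_iff_right (by norm_num : 1 < 2)).1 h3
  omega

lemma card_ker_mul_two {D : Type*} [Group D] [Finite D] (τ : D →* ℤˣ) (t : D) (ht : τ t = -1) :
    Nat.card D = Nat.card τ.ker * 2 := by
  have hrange : Nat.card τ.range = 2 := by
    have : τ.range = ⊤ := by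
      rw [eq_top_iff]
      intro u _
      rcases Int.units_eq_one_or u with rfl | rfl
      · exact one_mem _
      · exact ⟨t, ht⟩
    rw [this, Subgroup.card_top, Nat.card_eq_fintype_card, Fintype.card_units_int]
  rw [← hrange, ← Subgroup.index_ker, Subgroup.card_mul_index]

theorem main_result (n : ℕ) (hn : 4 ≤ n)
    (P : Sylow 2 (alternatingGroup (Fin n))) :
    (∃ S₁ S₂ : Subgroup (alternatingGroup (Fin n)), S₁ ≠ ⊥ ∧ S₂ ≠ ⊥ ∧
        Cfsg.IsInternalDirectProduct S₁ S₂ (P : Subgroup (alternatingGroup (Fin n)))) ↔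
      (n = 4 ∨ n = 5 ∨ ((n % 4 = 2 ∨ n % 4 = 3) ∧ ∀ r : ℕ, 4 * (n / 4) ≠ 2 ^ r)) := by
  classical
  haveI : Fact (Nat.Prime 2) := ⟨Nat.prime_two⟩
  rw [iff_dec]
  obtain ⟨A, hA1, hA2⟩ := bits n
  have hAne : A.Nonempty := by
    rw [Finset.nonempty_iff_ne_empty]
    rintro rfl
    simp at hA1
    omega
  choose z t hz hc hZ ht h0 h0' h1 h2 h3 h4 using fun i : ↥A => (lv_good i.1).rest
  have hp : ∀ i : ↥A, IsPGroup 2 (WW A i) := fun i => IsPGroup.of_card (lv_good i.1).cardD
  -- the group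
  obtain ⟨a₀, ha₀⟩ := hAne
  have htot : signHom (rr A n) (Pi.mulSingle ⟨a₀, ha₀⟩ (t ⟨a₀, ha₀⟩)) = -1 := by
    rw [signHom_rr, tot_single]
    exact ht _
  obtain ⟨e⟩ := equiv_sylow (rr A n) (rr_injective A n) n (card_LL A n hA1) (card_WW A n hA2) (by omega) _ htot P
  rw [signHom_rr] at e
  have hDec : Dec ↥(P : Subgroup (alternatingGroup (Fin n))) ↔ Dec (Ev (ss A)) :=
    ⟨Dec.of_equiv e.symm, Dec.of_equiv e⟩
  rw [hDec]
  by_cases h00 : 0 ∈ A
  · -- a factor of order two
    have hT : ∀ a ∈ A.erase 0, 1 ≤ a := by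
      intro a ha
      have := Finset.ne_of_mem_erase ha
      omega
    have hsum : ∑ a ∈ A, 2 ^ (a + 1) = 2 + ∑ a ∈ A.erase 0, 2 ^ (a + 1) := by
      rw [← Finset.add_sum_erase A _ h00]
      rfl
    obtain ⟨q, hq⟩ := four_dvd_sum _ hT
    have hn4 : n / 4 = q := by omega
    have hn5 : n % 4 = 2 ∨ n % 4 = 3 := by omega
    have hne : 1 ≤ (A.erase 0).card := by
      rw [Nat.one_le_iff_ne_zero, Finset.card_ne_zero, Finset.nonempty_iff_ne_empty]
      intro h
      rw [h] at hq
      simp at hq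
      omega
    by_cases hcard : (A.erase 0).card = 1
    · -- `P` is indecomposable
      obtain ⟨a, ha⟩ := Finset.card_eq_one.1 hcard
      have ham : a ∈ A.erase 0 := by rw [ha]; simp
      have ham' : a ∈ A := Finset.mem_of_mem_erase ham
      have ha1 : 1 ≤ a := hT a ham
      have hq2 : 4 * (n / 4) = 2 ^ (a + 1) := by
        rw [hn4, ← hq, ha]
        simp
      have hnot : ¬ (n = 4 ∨ n = 5 ∨ ((n % 4 = 2 ∨ n % 4 = 3) ∧ ∀ r : ℕ, 4 * (n / 4) ≠ 2 ^ r)) := by
        rintro (rfl | rfl | ⟨-, h⟩)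
        · simp at hn5
        · simp at hn5
        · exact h _ hq2
      refine iff_of_false ?_ hnot
      refine not_dec_two hp (⟨0, h00⟩ : ↥A) ⟨a, ham'⟩ ?_ ?_ (h0' ⟨0, h00⟩ rfl) ht (z ⟨a, ham'⟩) (h1 ⟨a, ham'⟩ ha1) (hZ ⟨a, ham'⟩)
      · intro h
        have := congrArg Subtype.val h
        simp only at this
        omega
      · rintro ⟨k, hk⟩
        by_cases hk0 : k = 0
        · subst hk0
          exact Or.inl rfl
        · right
          have : k ∈ A.erase 0 := Finset.mem_erase.2 ⟨hk0, hk⟩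
          rw [ha, Finset.mem_singleton] at this
          subst this
          rfl
    · -- `P` decomposes
      have hcard2 : 2 ≤ (A.erase 0).card := by omega
      have hr : ∀ r : ℕ, 4 * (n / 4) ≠ 2 ^ r := by
        intro r
        rw [hn4, ← hq]
        exact sum_ne_pow _ hcard2 r
      refine iff_of_true ?_ (Or.inr (Or.inr ⟨hn5, hr⟩))
      obtain ⟨a, ha, b, hb, hab⟩ := Finset.one_lt_card.1 (by omega : 1 < (A.erase 0).card)
      have ha' := Finset.mem_of_mem_erase ha
      have hb' := Finset.mem_of_mem_erase hb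
      have ha1 := hT a ha
      have hb1 := hT b hb
      refine dec_of_three (⟨0, h00⟩ : ↥A) ⟨a, ha'⟩ ⟨b, hb'⟩ ?_ ?_ ?_ (h0' ⟨0, h00⟩ rfl) (t _) (ht _) (z _) (h1 _ ha1) (hz _)
        (z _) (h1 _ hb1) (hz _)
      · intro h
        have := congrArg Subtype.val h
        simp only at this
        omega
      · intro h
        have := congrArg Subtype.val h
        simp only at this
        omega
      · intro h
        exact hab (congrArg Subtype.val h).symm
  · -- no factor of order two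
    have hT : ∀ a ∈ A, 1 ≤ a := by
      intro a ha
      have : a ≠ 0 := fun h => h00 (h ▸ ha)
      omega
    obtain ⟨q, hq⟩ := four_dvd_sum _ hT
    have hn5 : ¬ (n % 4 = 2 ∨ n % 4 = 3) := by omega
    have hrest : (n = 4 ∨ n = 5 ∨ ((n % 4 = 2 ∨ n % 4 = 3) ∧ ∀ r : ℕ, 4 * (n / 4) ≠ 2 ^ r)) ↔ (n = 4 ∨ n = 5) := by
      constructor
      · rintro (h | h | ⟨h, -⟩)
        · exact Or.inl h
        · exact Or.inr h
        · exact absurd h hn5
      · rintro (h | h)
        · exact Or.inl h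
        · exact Or.inr (Or.inl h)
    rw [hrest]
    by_cases hcard : A.card = 1
    · obtain ⟨a, ha⟩ := Finset.card_eq_one.1 hcard
      have ham : a ∈ A := by rw [ha]; simp
      have ha1 : 1 ≤ a := hT a ham
      have hsum : ∑ b ∈ A, 2 ^ (b + 1) = 2 ^ (a + 1) := by
        rw [ha]
        simp
      have hIk : ∀ k : ↥A, k = ⟨a, ham⟩ := by
        rintro ⟨k, hk⟩
        rw [ha, Finset.mem_singleton] at hk
        subst hk
        rfl
      by_cases ha2 : a = 1
      · subst ha2
        have hnn : n = 4 ∨ n = 5 := by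
          rw [hsum] at hA1
          omega
        refine iff_of_true ?_ hnn
        set i₀ : ↥A := ⟨1, ham⟩ with hi₀
        obtain ⟨y, hy1, hy2, hy3, hy4, hy5⟩ := h3 i₀ rfl
        have hcard4 : Nat.card (Ev (ss A)) = 4 := by
          have h8 : Nat.card (∀ i, WW A i) = 8 := by
            have := card_WW A n hA2
            rw [this]
            have h9 : padicValNat 2 n ! = 3 := by
              rw [← hA2, ha]
              simp only [Finset.sum_singleton]
              have := level_val 2 1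
              rw [← this]
              simp
            rw [h9]
            rfl
          have h10 := card_ker_mul_two (tot (ss A)) (Pi.mulSingle i₀ (t i₀)) (by rw [tot_single]; exact ht _)
          rw [h8] at h10
          change 8 = Nat.card (Ev (ss A)) * 2 at h10
          omega
        have hsngeq : ∀ (u v : WW A i₀) (hu : ss A i₀ u = 1) (hv : ss A i₀ v = 1), u = v → sng (ss A) i₀ u hu = sng (ss A) i₀ v hv := by
          rintro u v hu hv rfl
          rfl
        refine dec_of_card_four hcard4 (sng (ss A) i₀ y hy5) (sng (ss A) i₀ (z i₀) (h1 i₀ (le_refl _))) ?_ ?_ ?_ ?_ ?_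
        · intro h
          have := congrArg (fun u : Ev (ss A) => u.1 i₀) h
          exact hy1 (by simpa using this)
        · intro h
          have := congrArg (fun u : Ev (ss A) => u.1 i₀) h
          exact hz i₀ (by simpa using this)
        · intro h
          have := congrArg (fun u : Ev (ss A) => u.1 i₀) h
          exact hy2 (by simpa using this)
        · apply Subtype.ext
          funext k
          rw [hIk k]
          change (sng (ss A) i₀ y hy5).1 i₀ * (sng (ss A) i₀ y hy5).1 i₀ = 1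
          simpa using hy3
        · apply Subtype.ext
          funext k
          rw [hIk k]
          change (sng (ss A) i₀ (z i₀) _).1 i₀ * (sng (ss A) i₀ (z i₀) _).1 i₀ = 1
          simpa using hy4
      · have ha3 : 2 ≤ a := by omega
        have hnn : ¬ (n = 4 ∨ n = 5) := by
          rw [hsum] at hA1
          obtain ⟨b, rfl⟩ : ∃ b, a = b + 2 := ⟨a - 2, by omega⟩
          have : 2 ^ (b + 2 + 1) = 8 * 2 ^ b := by ring
          have h2b : 0 < 2 ^ b := by positivity
          omega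
        refine iff_of_false ?_ hnn
        exact not_dec_single hp ⟨a, ham⟩ hIk (z _) (h1 _ ha1) (h4 _ ha3)
    · have hcard2 : 1 < A.card := by
        have : 0 < A.card := Finset.card_pos.2 ⟨a₀, ha₀⟩
        omega
      obtain ⟨a, ha, b, hb, hab⟩ := Finset.one_lt_card.1 hcard2
      have hnn : ¬ (n = 4 ∨ n = 5) := by
        have hsub : ({a, b} : Finset ℕ) ⊆ A := by
          intro x hx
          simp only [Finset.mem_insert, Finset.mem_singleton] at hx
          rcases hx with rfl | rfl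
          · exact ha
          · exact hb
        have h5 : ∑ c ∈ ({a, b} : Finset ℕ), 2 ^ (c + 1) ≤ ∑ c ∈ A, 2 ^ (c + 1) :=
          Finset.sum_le_sum_of_subset hsub
        rw [Finset.sum_pair hab] at h5
        have h6 : ∀ c, 1 ≤ c → 4 ≤ 2 ^ (c + 1) := by
          intro c hc
          calc 4 = 2 ^ 2 := by norm_num
            _ ≤ _ := Nat.pow_le_pow_right (by norm_num) (by omega)
        have h7 := h6 a (hT a ha)
        have h8 := h6 b (hT b hb)
        have h9 : 8 ≤ 2 ^ (a + 1) ∨ 8 ≤ 2 ^ (b + 1) := by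
          rcases lt_or_gt_of_ne hab with h | h
          · right
            calc 8 = 2 ^ 3 := by norm_num
              _ ≤ _ := Nat.pow_le_pow_right (by norm_num) (by have := hT a ha; omega)
          · left
            calc 8 = 2 ^ 3 := by norm_num
              _ ≤ _ := Nat.pow_le_pow_right (by norm_num) (by have := hT b hb; omega)
        omega
      refine iff_of_false ?_ hnn
      have hy : ∀ i : ↥A, ∃ y w, Fac (ss A i) (z i) (t i) y w := fun i => h2 i (hT i.1 i.2)
      choose y w hF using hy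
      refine not_dec_family hF hp ?_
      intro i
      by_cases hi : i.1 = a
      · exact ⟨⟨b, hb⟩, fun h => hab (by rw [← hi, ← h])⟩
      · exact ⟨⟨a, ha⟩, fun h => hi (by rw [← h])⟩



/-- Direct decomposability of the Sylow 2-subgroups of the alternating groups. Let n ≥ 4 and let P be a Sylow 2-subgroup of the alternating group of degree n. Then P is the internal direct product of two nontrivial subgroups if and only if n = 4, n = 5, or n ≡ 2, 3 (mod 4) with 4⌊n/4⌋ not a power of 2. In the remaining cases (n ≡ 0, 1 (mod 4) with n ≥ 8, or n ≡ 2, 3 (mod 4) with 4⌊n/4⌋ a power of 2) P is directly indecomposable. -/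
theorem result (n : ℕ) (hn : 4 ≤ n)
    (P : Sylow 2 (alternatingGroup (Fin n))) :
    (∃ S₁ S₂ : Subgroup (alternatingGroup (Fin n)), S₁ ≠ ⊥ ∧ S₂ ≠ ⊥ ∧
        Cfsg.IsInternalDirectProduct S₁ S₂ (P : Subgroup (alternatingGroup (Fin n)))) ↔
      (n = 4 ∨ n = 5 ∨ ((n % 4 = 2 ∨ n % 4 = 3) ∧ ∀ r : ℕ, 4 * (n / 4) ≠ 2 ^ r)) := by
  exact main_result n hn P

end Cfsg.Agent.S2221
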