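import Cfsg.Statements.S2222
import Cfsg.Agent.Lib.PronormAlt.AltSylow
import Cfsg.Agent.Lib.PronormAlt.Five

set_option autoImplicit false
open Cfsg

namespace Cfsg.Agent.S2222

/-- In the alternating group of degree n ≥ 5 every subgroup H of odd index is pronormal: for every element g, the subgroups H and gHg⁻¹ are conjugate by an element of the subgroup they generate. -/
theorem result (n : ℕ) (hn : 5 ≤ n)
    (H : Subgroup (alternatingGroup (Fin n))) (hH : Odd H.index) : Cfsg.IsPronormal H := by
  obtain h | h : n = 5 ∨ 6 ≤ n := by omega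
  · subst h
    exact Cfsg.Agent.Lib.PronormAlt.Five.isPronormal_five H hH
  · obtain ⟨S, hS⟩ := Cfsg.Agent.Lib.PronormAlt.Basic.exists_sylow_le_of_coprime_index (p := 2) H
      (Nat.coprime_two_left.mpr hH)
    refine Cfsg.Agent.Lib.PronormAlt.Basic.isPronormal_of_normalizer_le S H hS ?_
    exact le_trans (Cfsg.Agent.Lib.PronormAlt.AltSylow.normalizer_le (by simpa using h) S) hS

end Cfsg.Agent.S2222
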