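import Cfsg.Statements.S2231
import Cfsg.Agent.Lib.Invol2.QdFree
import Cfsg.Agent.Lib.Classical.SL2Sylow

set_option autoImplicit false
open Cfsg

namespace Cfsg.Agent.S2231

open Matrix Cfsg.Agent.Lib.Invol2.QdFree Cfsg.Agent.Lib.Classical.SL2Sylow

theorem result {p : ℕ} [Fact p.Prime] (hp : p ≠ 2) {K : Type*} [Field K] [Fintype K] [CharP K p] : ¬ Cfsg.Involves ↥(Cfsg.qd p) (Matrix.ProjectiveSpecialLinearGroup (Fin 2) K) := by
  refine not_involves_of_sylow_comm hp ?_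
  intro P
  let π := QuotientGroup.mk' (Subgroup.center (Matrix.SpecialLinearGroup (Fin 2) K))
  have hπ : Function.Surjective π := QuotientGroup.mk'_surjective _
  let S := (sylowUS (F := K) p).mapSurjective hπ
  refine sylow_comm_of_conj S ?_ P
  rintro _ ⟨x, hx, rfl⟩ _ ⟨y, hy, rfl⟩
  rw [← map_mul, ← map_mul]
  congr 1
  obtain ⟨s, rfl⟩ := mem_US_iff.mp hx
  obtain ⟨t, rfl⟩ := mem_US_iff.mp hy
  rw [← upS_add, ← upS_add, add_comm]

end Cfsg.Agent.S2231
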