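import Cfsg.Statements.S2232
import Cfsg.Agent.Lib.SU3Local.Basic

set_option autoImplicit false
open Cfsg

namespace Cfsg.Agent.S2232

/-- Let p be an odd prime, q a power of p and K a finite field with q² elements. Then Qd(p) (the natural semidirect product of an elementary abelian group of order p² by SL₂(p)) is not involved in the projective special unitary group PSU₃(q) realised over K. -/
theorem result {p : ℕ} [Fact p.Prime] (hp : p ≠ 2) {K : Type*} [Field K] [Fintype K] [CharP K p] (n : ℕ) (hn : 1 ≤ n) (hK : Fintype.card K = (p ^ n) ^ 2) : ¬ Cfsg.Involves ↥(Cfsg.qd p) (Cfsg.PSU 3 K (p ^ n)) := by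
  classical
  intro hinv
  have hq : p ^ n ≠ 0 := pow_ne_zero _ (Fact.out : p.Prime).ne_zero
  have h1 : Cfsg.Involves ↥(Cfsg.qd p) (Cfsg.SU 3 K (p ^ n)) :=
    Cfsg.Agent.Lib.ZJ.QdSection.involves_of_surjective hinv (QuotientGroup.mk' _) (QuotientGroup.mk'_surjective _)
  have h2 : Cfsg.Involves ↥(Cfsg.qd p) (Cfsg.Agent.Lib.Classical.HermBasic.suGroup (Cfsg.hermForm 3 K (p ^ n))) :=
    Cfsg.Agent.Lib.ZJ.QdSection.involves_of_surjective h1
      (Cfsg.Agent.Lib.Classical.HermBridge.suEquiv 3 (p ^ n)).symm.toMonoidHom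
      (Cfsg.Agent.Lib.Classical.HermBridge.suEquiv 3 (p ^ n)).symm.surjective
  haveI : Finite (Fin 3 → K) := inferInstance
  haveI : Finite ((Fin 3 → K) ≃ₗ[K] (Fin 3 → K)) :=
    Finite.of_injective (fun g : (Fin 3 → K) ≃ₗ[K] (Fin 3 → K) => (g : (Fin 3 → K) → (Fin 3 → K)))
      DFunLike.coe_injective
  refine Cfsg.Agent.Lib.SU3Local.Section.qd_not_involves_of_local (fun R hR hRp => ?_) h2
  exact Cfsg.Agent.Lib.SU3Local.Basic.hloc_suGroup hp (Cfsg.Agent.Lib.Classical.HermBridge.hform hK 3)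
    (Cfsg.Agent.Lib.Classical.HermBridge.invol_frob hK) (by simp) R hR hRp

end Cfsg.Agent.S2232
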