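import Cfsg.Statements.S2240
import Cfsg.Agent.Lib.SuzukiX.Central
import Cfsg.Agent.Lib.LocalEven.Util

set_option autoImplicit false
open Cfsg

namespace Cfsg.Agent.S2240

open Cfsg.Agent.Lib.Suzuki.Core Cfsg.Agent.Lib.Suzuki.Elements Cfsg.Agent.Lib.Suzuki.Stab
open Cfsg.Agent.Lib.Suzuki.Group Cfsg.Agent.Lib.Suzuki.Simple Cfsg.Agent.Lib.Suzuki.Sylow2
open Cfsg.Agent.Lib.Suzuki.Count Cfsg.Agent.Lib.SuzukiX.Central

section Field

variable {F : Type*} [Field F] [CharP F 2]

/-- The elements of the subfield of order `2 ^ n`. -/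
def KK (F : Type*) [Field F] [CharP F 2] (n : ℕ) (hn : n ≠ 0) : AddSubgroup F where
  carrier := {x | x ^ (2 ^ n) = x}
  add_mem' := by
    intro x y hx hy
    have : ExpChar F 2 := ExpChar.prime Nat.prime_two
    show (x + y) ^ (2 ^ n) = x + y
    rw [add_pow_expChar_pow, hx, hy]
  zero_mem' := by
    show (0 : F) ^ (2 ^ n) = 0
    exact zero_pow (by positivity)
  neg_mem' := by
    intro x hx
    show (-x) ^ (2 ^ n) = -x
    rw [neg_eq']
    exact hx

variable {n : ℕ} {hn : n ≠ 0}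

lemma mem_KK {x : F} : x ∈ KK F n hn ↔ x ^ (2 ^ n) = x := Iff.rfl

lemma mul_mem_KK {x y : F} (hx : x ∈ KK F n hn) (hy : y ∈ KK F n hn) : x * y ∈ KK F n hn := by
  rw [mem_KK] at *
  rw [mul_pow, hx, hy]

lemma inv_mem_KK {x : F} (hx : x ∈ KK F n hn) : x⁻¹ ∈ KK F n hn := by
  rw [mem_KK] at *
  rw [inv_pow, hx]

omit [CharP F 2] in
lemma pow_succ_of (y : F) {k N : ℕ} (hN : N = k + 1) (h : y ^ k = 1) : y ^ N = y := by
  subst hN
  rw [pow_succ, h, one_mul]

lemma card_KK [Fintype F] {f : ℕ} (hF : Fintype.card F = 2 ^ f) (hnf : n ∣ f) :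
    Nat.card (KK F n hn) = 2 ^ n := by
  classical
  have hunits : Nat.card Fˣ = 2 ^ f - 1 := by
    rw [Nat.card_eq_fintype_card, Fintype.card_units, hF]
  have hdvd : 2 ^ n - 1 ∣ 2 ^ f - 1 := by
    obtain ⟨d, rfl⟩ := hnf
    have := Nat.sub_dvd_pow_sub_pow (2 ^ n) 1 d
    rwa [one_pow, ← pow_mul] at this
  have hker : Nat.card (powMonoidHom (2 ^ n - 1) : Fˣ →* Fˣ).ker = 2 ^ n - 1 := by
    rw [IsCyclic.card_powMonoidHom_ker, hunits]
    exact Nat.gcd_eq_right hdvd
  have hpos : 1 ≤ 2 ^ n := Nat.one_le_two_pow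
  have hsplit : 2 ^ n = (2 ^ n - 1) + 1 := by omega
  let φ : Option (powMonoidHom (2 ^ n - 1) : Fˣ →* Fˣ).ker → KK F n hn := fun o =>
    match o with
    | none => ⟨0, (KK F n hn).zero_mem⟩
    | some u => ⟨((u : Fˣ) : F), by
        rw [mem_KK]
        have h1 : ((u : Fˣ)) ^ (2 ^ n - 1) = 1 := u.2
        have h2 : (((u : Fˣ)) : F) ^ (2 ^ n - 1) = 1 := by
          have := congrArg Units.val h1
          simpa using this
        exact pow_succ_of _ hsplit h2⟩
  have hφ : Function.Bijective φ := by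
    constructor
    · rintro (_ | u) (_ | v) h
      · rfl
      · exact absurd (congrArg Subtype.val h).symm (v : Fˣ).ne_zero
      · exact absurd (congrArg Subtype.val h) (u : Fˣ).ne_zero
      · have h1 : ((u : Fˣ) : F) = ((v : Fˣ) : F) := congrArg Subtype.val h
        have h2 : u = v := Subtype.ext (Units.ext h1)
        rw [h2]
    · rintro ⟨x, hx⟩
      by_cases h0 : x = 0
      · subst h0
        exact ⟨none, rfl⟩
      · refine ⟨some ⟨Units.mk0 x h0, ?_⟩, rfl⟩
        rw [MonoidHom.mem_ker]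
        apply Units.ext
        have hx' : x ^ (2 ^ n) = x := hx
        show x ^ (2 ^ n - 1) = 1
        have h3 : x ^ (2 ^ n - 1) * x = 1 * x := by
          rw [← pow_succ, ← hsplit, hx', one_mul]
        exact mul_right_cancel₀ h0 h3
  rw [← Nat.card_congr (Equiv.ofBijective φ hφ), Finite.card_option, hker]
  omega

end Field

section Main

variable {F : Type*} [Field F] [Fintype F] [CharP F 2] {m : ℕ} (hc : Ctx F m)

include hc in
/-- `E` is a TI subgroup when `A` is a subfield. -/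
theorem ti_of_subfield {A : AddSubgroup F}
    (hmul : ∀ {x y : F}, x ∈ A → y ∈ A → x * y ∈ A) (hinv : ∀ {x : F}, x ∈ A → x⁻¹ ∈ A)
    (x : Cfsg.Sz F m)
    (h : EA hc A ⊓ (EA hc A).map (MulAut.conj x).toMonoidHom ≠ ⊥) :
    x ∈ Subgroup.normalizer ((EA hc A : Subgroup (Cfsg.Sz F m)) : Set (Cfsg.Sz F m)) := by
  obtain ⟨⟨y, hy⟩, hy1'⟩ := (Subgroup.ne_bot_iff_exists_ne_one.1 h)
  have hy1 : y ≠ 1 := fun h => hy1' (Subtype.ext h)
  obtain ⟨⟨b, hb, hyb⟩, z, ⟨b', hb', rfl⟩, hz⟩ := hy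
  have hz' : x * uS hc 0 b' * x⁻¹ = y := hz
  have hb0 : b' ≠ 0 := by
    rintro rfl
    apply hy1
    rw [← hz', uS_zero]
    group
  have hu1 : uS hc 0 b' ≠ 1 := by
    rw [← uS_zero hc]
    intro h2
    exact hb0 (uS_injective hc h2).2
  have hfix : x • (infO : OO F m) = infO :=
    fix_of_Usub_conj hc (uS_mem hc 0 b') hu1 (by rw [hz', hyb]; exact uS_mem hc 0 b)
  have hfix' : x • suzukiPointInfinity F = suzukiPointInfinity F := congrArg Subtype.val hfix
  obtain ⟨a₁, b₁, l, rfl⟩ := stab_inf_decomp hc hfix'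
  rw [conj_central, hyb] at hz'
  have h3 := (uS_injective hc hz').2
  set lam : F := (l : F) * th m (l : F) with hlam
  have hlamA : lam ∈ A := by
    have : lam = b * b'⁻¹ := by
      rw [← h3]
      field_simp
    rw [this]
    exact hmul hb (hinv hb')
  apply Cfsg.Agent.Lib.LocalEven.Util.mem_normalizer_of_conj_le
  rintro _ ⟨d, hd, rfl⟩
  rw [conj_central]
  exact ⟨_, hmul hlamA hd, rfl⟩

include hc in
/-- From a TI subgroup to a subfield. -/
theorem dvd_of_ti {E : Subgroup (Cfsg.Sz F m)} {n : ℕ} (hn : 2 ≤ n) (hea : IsElementaryAbelian 2 E)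
    (hcard : Nat.card E = 2 ^ n)
    (hti : ∀ x : Cfsg.Sz F m, E ⊓ E.map (MulAut.conj x).toMonoidHom ≠ ⊥ →
      x ∈ Subgroup.normalizer ((E : Subgroup (Cfsg.Sz F m)) : Set (Cfsg.Sz F m))) :
    n ∣ 2 * m + 1 := by
  classical
  have hp : IsPGroup 2 E := IsPGroup.of_card hcard
  obtain ⟨Q, hEQ⟩ := hp.exists_le_sylow
  obtain ⟨c, hcQ⟩ := MulAction.exists_smul_eq (Cfsg.Sz F m) Q (UU hc)
  have hinU : ∀ g ∈ E, ∃ b : F, c * g * c⁻¹ = uS hc 0 b := by
    intro g hg
    have hmem : c * g * c⁻¹ ∈ Usub hc := by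
      rw [← coe_UU hc, ← hcQ, Sylow.coe_subgroup_smul]
      exact Subgroup.smul_mem_pointwise_smul g (MulAut.conj c) _ (hEQ hg)
    obtain ⟨a, b, hab⟩ := hmem
    have hg2 : g ^ 2 = 1 := hea.2 g hg
    have h2 : uS hc a b * uS hc a b = 1 := by
      rw [← hab, ← pow_two]
      have e : (c * g * c⁻¹) ^ 2 = c * g ^ 2 * c⁻¹ := by
        rw [pow_two, pow_two]; group
      rw [e, hg2]
      group
    rw [uS_sq, ← uS_zero hc] at h2
    have h3 := (uS_injective hc h2).2
    have ha : a = 0 := by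
      rcases mul_eq_zero.1 h3 with h | h
      · exact th_eq_zero.1 h
      · exact h
    exact ⟨b, by rw [hab, ha]⟩
  -- the additive subgroup
  let A : AddSubgroup F :=
    { carrier := {b | c⁻¹ * uS hc 0 b * c ∈ E}
      add_mem' := by
        intro x y hx hy
        show c⁻¹ * uS hc 0 (x + y) * c ∈ E
        rw [← uS_zero_mul]
        have e : c⁻¹ * (uS hc 0 x * uS hc 0 y) * c = (c⁻¹ * uS hc 0 x * c) * (c⁻¹ * uS hc 0 y * c) := by
          group
        rw [e]
        exact E.mul_mem hx hy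
      zero_mem' := by
        show c⁻¹ * uS hc 0 0 * c ∈ E
        rw [uS_zero]
        have e : c⁻¹ * 1 * c = 1 := by group
        rw [e]
        exact E.one_mem
      neg_mem' := by
        intro x hx
        show c⁻¹ * uS hc 0 (-x) * c ∈ E
        rw [neg_eq']
        exact hx }
  have hmemA : ∀ {b : F}, b ∈ A ↔ c⁻¹ * uS hc 0 b * c ∈ E := Iff.rfl
  have hcardA : Nat.card A = 2 ^ n := by
    rw [← hcard]
    refine Nat.card_congr (Equiv.ofBijective (fun b : A => (⟨c⁻¹ * uS hc 0 b * c, b.2⟩ : E)) ⟨?_, ?_⟩)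
    · intro x y h
      have h1 : c⁻¹ * uS hc 0 (x : F) * c = c⁻¹ * uS hc 0 (y : F) * c := congrArg Subtype.val h
      have h2 : uS hc 0 (x : F) = uS hc 0 (y : F) :=
        mul_left_cancel (mul_right_cancel h1)
      exact Subtype.ext (uS_injective hc h2).2
    · rintro ⟨g, hg⟩
      obtain ⟨b, hb⟩ := hinU g hg
      have e : c⁻¹ * uS hc 0 b * c = g := by
        rw [← hb]; group
      refine ⟨⟨b, ?_⟩, Subtype.ext e⟩
      rw [hmemA, e]
      exact hg
  -- the TI property on the field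
  have hTI : ∀ {lam a b : F}, lam ≠ 0 → a ∈ A → a ≠ 0 → lam * a ∈ A → b ∈ A → lam * b ∈ A := by
    intro lam a b hlam ha ha0 hla hb
    obtain ⟨t, ht⟩ := exists_unit hc hlam
    set x : Cfsg.Sz F m := c⁻¹ * hS hc t * c with hx
    have hconj : ∀ d : F, x * (c⁻¹ * uS hc 0 d * c) * x⁻¹ = c⁻¹ * uS hc 0 (lam * d) * c := by
      intro d
      have e : x * (c⁻¹ * uS hc 0 d * c) * x⁻¹ = c⁻¹ * (hS hc t * uS hc 0 d * (hS hc t)⁻¹) * c := by
        rw [hx]; group
      rw [e, hS_conj_uS, mul_zero, ht]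
    have hne : E ⊓ E.map (MulAut.conj x).toMonoidHom ≠ ⊥ := by
      rw [Subgroup.ne_bot_iff_exists_ne_one]
      refine ⟨⟨c⁻¹ * uS hc 0 (lam * a) * c, hla, ⟨_, ha, hconj a⟩⟩, ?_⟩
      intro h1
      have h2 : c⁻¹ * uS hc 0 (lam * a) * c = 1 := congrArg Subtype.val h1
      have h3 : uS hc 0 (lam * a) = uS hc 0 0 := by
        rw [uS_zero]
        have e : uS hc 0 (lam * a) = c * (c⁻¹ * uS hc 0 (lam * a) * c) * c⁻¹ := by group
        rw [e, h2]
        group
      exact mul_ne_zero hlam ha0 (uS_injective hc h3).2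
    have hnorm := hti x hne
    have h4 := (Subgroup.mem_normalizer_iff.1 hnorm (c⁻¹ * uS hc 0 b * c)).1 hb
    rw [hconj] at h4
    exact h4
  -- a nonzero element
  have hnt : 1 < Nat.card A := by
    rw [hcardA]
    exact Nat.one_lt_two_pow (by omega)
  have := Finite.one_lt_card_iff_nontrivial.1 hnt
  obtain ⟨⟨b₀, hb₀⟩, hb₀1⟩ := exists_ne (0 : A)
  have hb₀0 : b₀ ≠ 0 := fun h => hb₀1 (Subtype.ext h)
  -- the subfield
  let K : Subfield F :=
    { carrier := {x | x * b₀ ∈ A}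
      mul_mem' := by
        intro x y hx hy
        show x * y * b₀ ∈ A
        by_cases h0 : x = 0
        · rw [h0, zero_mul, zero_mul]; exact A.zero_mem
        rw [mul_assoc]
        exact hTI h0 hb₀ hb₀0 hx hy
      one_mem' := by
        show 1 * b₀ ∈ A
        rw [one_mul]; exact hb₀
      add_mem' := by
        intro x y hx hy
        show (x + y) * b₀ ∈ A
        rw [add_mul]
        exact A.add_mem hx hy
      zero_mem' := by
        show 0 * b₀ ∈ A
        rw [zero_mul]; exact A.zero_mem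
      neg_mem' := by
        intro x hx
        show -x * b₀ ∈ A
        rw [neg_mul]
        exact A.neg_mem hx
      inv_mem' := by
        intro x hx
        show x⁻¹ * b₀ ∈ A
        by_cases h0 : x = 0
        · rw [h0, inv_zero, zero_mul]; exact A.zero_mem
        have hx' : x * b₀ ∈ A := hx
        refine hTI (inv_ne_zero h0) hx' (mul_ne_zero h0 hb₀0) ?_ hb₀
        rw [← mul_assoc, inv_mul_cancel₀ h0, one_mul]
        exact hb₀ }
  have hcardK : Nat.card K = 2 ^ n := by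
    rw [← hcardA]
    refine Nat.card_congr (Equiv.ofBijective (fun x : K => (⟨(x : F) * b₀, x.2⟩ : A)) ⟨?_, ?_⟩)
    · intro x y h
      have h1 : (x : F) * b₀ = (y : F) * b₀ := congrArg Subtype.val h
      exact Subtype.ext (mul_right_cancel₀ hb₀0 h1)
    · rintro ⟨a, ha⟩
      refine ⟨⟨a * b₀⁻¹, ?_⟩, ?_⟩
      · show a * b₀⁻¹ * b₀ ∈ A
        rw [mul_assoc, inv_mul_cancel₀ hb₀0, mul_one]
        exact ha
      · apply Subtype.ext
        show a * b₀⁻¹ * b₀ = a
        rw [mul_assoc, inv_mul_cancel₀ hb₀0, mul_one]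
  have hfin := Module.natCard_eq_pow_finrank (K := K) (V := F)
  rw [hcardK, Nat.card_eq_fintype_card, hc.hcard, ← pow_mul] at hfin
  have := Nat.pow_right_injective (le_refl 2) hfin
  exact ⟨_, this⟩

end Main

/-- Elementary abelian TI-subgroups of the Suzuki group: let q = 2^(2m+1) with m ≥ 1, the group realised as the stabiliser in SL₄ of the Suzuki–Tits ovoid, and n ≥ 2. There is an elementary abelian 2-subgroup E of order 2^n that is a TI-subgroup (every conjugate of E meeting E nontrivially is E itself) if and only if n divides 2m + 1. -/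
theorem result {F : Type*} [Field F] [Fintype F] {m : ℕ} (hm : 1 ≤ m) (hF : Fintype.card F = 2 ^ (2 * m + 1)) (n : ℕ) (hn : 2 ≤ n) :
    (∃ E : Subgroup ↥(Cfsg.Sz F m), Cfsg.IsElementaryAbelian 2 E ∧ Nat.card ↥E = 2 ^ n ∧
      ∀ x : ↥(Cfsg.Sz F m), E ⊓ E.map (MulAut.conj x).toMonoidHom ≠ ⊥ → x ∈ Subgroup.normalizer (E : Set ↥(Cfsg.Sz F m))) ↔ n ∣ 2 * m + 1 := by
  have := charP_two_of_card hF
  have hc : Ctx F m := ctx_of_card hm hF
  constructor
  · rintro ⟨E, hea, hcard, hti⟩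
    exact dvd_of_ti hc hn hea hcard hti
  · intro hd
    have hn0 : n ≠ 0 := by omega
    refine ⟨EA hc (KK F n hn0), isElementaryAbelian_EA hc _, ?_, ?_⟩
    · rw [card_EA, card_KK hF hd]
    · intro x h
      exact ti_of_subfield hc (fun hx hy => mul_mem_KK hx hy) (fun hx => inv_mem_KK hx) x h

end Cfsg.Agent.S2240
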