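import Cfsg.Statements.S2241
import Cfsg.Agent.Lib.Suzuki.Sylow2
import Cfsg.Agent.Lib.Suzuki.Count

set_option autoImplicit false
open Cfsg

namespace Cfsg.Agent.S2241

open Cfsg.Agent.Lib.Suzuki.Core Cfsg.Agent.Lib.Suzuki.Elements Cfsg.Agent.Lib.Suzuki.Stab
open Cfsg.Agent.Lib.Suzuki.Group Cfsg.Agent.Lib.Suzuki.Simple Cfsg.Agent.Lib.Suzuki.Sylow2
open Cfsg.Agent.Lib.Suzuki.Count

/-- `θ s + s = 1` has no solution. -/
theorem th_add_ne_one {F : Type*} [Field F] [CharP F 2] {m : ℕ}
    (hth : ∀ x : F, th m (th m x) = x ^ 2) (s : F) : th m s + s ≠ 1 := by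
  intro h
  have h1 : th m s = s + 1 := by
    have h2 : th m s + s + s = 1 + s := by rw [h]
    rw [add_assoc, add_self', add_zero] at h2
    rw [h2, add_comm]
  have h3 : th m (th m s) = s := by
    rw [h1, th_add, h1, th_one, add_assoc, add_self', add_zero]
  have h4 := hth s
  rw [h3] at h4
  have h5 : s * (s - 1) = 0 := by
    rw [mul_sub, ← sq, ← h4]; ring
  have h6 : th m s = s := by
    rcases mul_eq_zero.mp h5 with h | h
    · rw [h, th_zero]
    · rw [sub_eq_zero.mp h, th_one]
  rw [h6, add_self'] at h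
  exact zero_ne_one h

variable {F : Type*} [Field F] [Fintype F] [CharP F 2] {m : ℕ} (hc : Ctx F m)

include hc in
/-- An element of `U` conjugate to its inverse is an involution or trivial. -/
theorem a_eq_zero {a b : F} {t : Cfsg.Sz F m} (ht : t * uS hc a b * t⁻¹ = (uS hc a b)⁻¹)
    (hne : uS hc a b ≠ 1) : a = 0 := by
  by_contra ha
  -- `t` fixes infinity
  have hinv : (uS hc a b)⁻¹ ∈ Usub hc := (Usub hc).inv_mem (uS_mem hc a b)
  have hfix : t • (infO : OO F m) = infO :=
    fix_of_Usub_conj hc (uS_mem hc a b) hne (by rw [ht]; exact hinv)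
  have hfix' : t • suzukiPointInfinity F = suzukiPointInfinity F := congrArg Subtype.val hfix
  obtain ⟨a', b', l, rfl⟩ := stab_inf_decomp hc hfix'
  have e : (uS hc a' b' * hS hc l) * uS hc a b * (uS hc a' b' * hS hc l)⁻¹ =
      uS hc a' b' * (hS hc l * uS hc a b * (hS hc l)⁻¹) * (uS hc a' b')⁻¹ := by group
  rw [e, hS_conj_uS, uS_inv, uS_inv, uS_mul, uS_mul] at ht
  obtain ⟨h1, h2⟩ := uS_injective hc ht
  have hl : (l : F) = 1 := by
    have h3 : a' + (l : F) * a + a' = (l : F) * a := by
      rw [add_comm a', add_assoc, add_self', add_zero]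
    rw [h3] at h1
    exact mul_right_cancel₀ ha (h1.trans (one_mul a).symm)
  rw [hl] at h2
  simp only [th_one, one_mul, mul_one, th_add] at h2
  have hth0 : th m a ≠ 0 := th_ne_zero m ha
  have hs : th m (a' / a) + a' / a = 1 := by
    have h4 : th m a' * a + th m a * a' = th m a * a := by
      have h5 : b' + b + th m a' * a + (b' + th m a' * a') + (th m a' + th m a) * a' =
          b + (th m a' * a + th m a * a') + (b' + b') + (th m a' * a' + th m a' * a') := by ring
      rw [h5, add_self', add_self', add_zero, add_zero] at h2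
      exact add_left_cancel h2
    have h6 : th m (a' / a) = th m a' / th m a := by
      rw [div_eq_mul_inv, th_mul, th_inv, div_eq_mul_inv]
    rw [h6]
    field_simp
    linear_combination h4
  exact th_add_ne_one hc.hth _ hs

/-- Real 2-elements of the Suzuki group: with q = 2^(2m+1), m ≥ 1, and the group realised as the stabiliser in SL₄ of the Suzuki–Tits ovoid, a non-identity element of a Sylow 2-subgroup is conjugate to its inverse if and only if it is an involution; in particular no element of order 4 is conjugate to its inverse. -/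
theorem result {F : Type*} [Field F] [Fintype F] {m : ℕ} (hm : 1 ≤ m) (hF : Fintype.card F = 2 ^ (2 * m + 1)) (P : Sylow 2 ↥(Cfsg.Sz F m)) (g : ↥(Cfsg.Sz F m)) (hg : g ∈ (P : Subgroup ↥(Cfsg.Sz F m))) (h1 : g ≠ 1) :
    IsConj g g⁻¹ ↔ orderOf g = 2 := by
  have := charP_two_of_card hF
  have hc : Ctx F m := ctx_of_card hm hF
  constructor
  · intro hconj
    -- conjugate into `U`
    obtain ⟨c, hcP⟩ := MulAction.exists_smul_eq (Cfsg.Sz F m) P (UU hc)
    have hmem : c * g * c⁻¹ ∈ Usub hc := by
      rw [← coe_UU hc, ← hcP, Sylow.coe_subgroup_smul]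
      exact Subgroup.smul_mem_pointwise_smul g (MulAut.conj c) _ hg
    obtain ⟨a, b, hab⟩ := hmem
    have hne : uS hc a b ≠ 1 := by
      rw [← hab]
      intro h
      apply h1
      have e : g = c⁻¹ * (c * g * c⁻¹) * c := by group
      rw [e, h]
      group
    obtain ⟨t, ht⟩ := isConj_iff.1 hconj
    have ht2 : (c * t * c⁻¹) * uS hc a b * (c * t * c⁻¹)⁻¹ = (uS hc a b)⁻¹ := by
      rw [← hab]
      calc (c * t * c⁻¹) * (c * g * c⁻¹) * (c * t * c⁻¹)⁻¹ = c * (t * g * t⁻¹) * c⁻¹ := by group
        _ = c * g⁻¹ * c⁻¹ := by rw [ht]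
        _ = (c * g * c⁻¹)⁻¹ := by group
    have ha := a_eq_zero hc ht2 hne
    subst ha
    have h2 : uS hc (0 : F) b ^ 2 = 1 := by
      rw [pow_two, uS_sq, th_zero, zero_mul, uS_zero]
    have h3 : orderOf (uS hc (0 : F) b) = 2 := orderOf_eq_prime (hp := ⟨Nat.prime_two⟩) h2 hne
    rw [← hab] at h3
    have h4 : orderOf (c * g * c⁻¹) = orderOf g := by
      have := MulEquiv.orderOf_eq (MulAut.conj c) g
      rwa [MulAut.conj_apply] at this
    rwa [h4] at h3
  · intro h2
    have h3 : g⁻¹ = g := by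
      rw [inv_eq_iff_mul_eq_one, ← pow_two, ← h2]
      exact pow_orderOf_eq_one g
    rw [h3]

end Cfsg.Agent.S2241
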