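import Cfsg.Statements.S2245
import Cfsg.Agent.Lib.PermSylow.TwoMax

set_option autoImplicit false
open Cfsg

namespace Cfsg.Agent.S2245

open Equiv Equiv.Perm Cfsg.Agent.Lib.PermSylow.Basic Cfsg.Agent.Lib.PermSylow.OnePoint
  Cfsg.Agent.Lib.PermSylow.TwoMax

theorem main_iff {α : Type*} [Fintype α] [DecidableEq α] {G : Type*} [Group G] [Finite G]
    (ι : G →* Perm α) (hι : Function.Injective ι)
    (hA : ι.range = alternatingGroup α ∨ ι.range = ⊤) (hn : 5 ≤ Fintype.card α)
    (hsimp : Fintype.card α = 5 → IsSimpleGroup (alternatingGroup α)) (R : Sylow 2 G) :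
    (∃! M : Subgroup G, IsCoatom M ∧ (R : Subgroup G) ≤ M) ↔
      ∃ k : ℕ, 2 ≤ k ∧ Fintype.card α = 2 ^ k + 1 := by
  have hS := syl_of_sylow ι hι R
  constructor
  · intro huniq
    by_contra hno
    push Not at hno
    obtain ⟨j, hj⟩ : ∃ j, j = Nat.log 2 (Fintype.card α) := ⟨_, rfl⟩
    have h1 : 2 ^ j ≤ Fintype.card α := by
      rw [hj]; exact Nat.pow_log_le_self 2 (by omega)
    have h2 : Fintype.card α < 2 ^ (j + 1) := by
      rw [hj]; exact Nat.lt_pow_succ_log_self (by norm_num) _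
    obtain ⟨b, hb⟩ : ∃ b, Fintype.card α = 2 ^ j + b := ⟨Fintype.card α - 2 ^ j, by omega⟩
    have hba : b < 2 ^ j := by
      rw [pow_succ] at h2; omega
    have hkey : ∃ H₁ H₂ : Subgroup (Perm α), (R : Subgroup G).map ι ≤ H₁ ∧
        (R : Subgroup G).map ι ≤ H₂ ∧ H₁ ≤ ι.range ∧ H₂ ≤ ι.range ∧ H₁ ≠ ι.range ∧ H₂ ≠ ι.range ∧
        ∀ M : Subgroup (Perm α), H₁ ≤ M → H₂ ≤ M → M ≤ ι.range → M = ι.range := by
      have hcases : b = 0 ∨ 2 ≤ b := by
        by_contra hcon
        have hb1 : b = 1 := by omega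
        have hj2 : 2 ≤ j := by
          by_contra hj2
          have : j = 0 ∨ j = 1 := by omega
          rcases this with rfl | rfl <;> omega
        exact hno j hj2 (by rw [hb, hb1])
      rcases hcases with rfl | hb2
      · have hj3 : 3 ≤ j := by
          by_contra hj3
          have : j = 0 ∨ j = 1 ∨ j = 2 := by omega
          rcases this with rfl | rfl | rfl <;> omega
        exact no_even hA hS j hj3 (by omega)
      · exact no_mixed hA hS j b hb2 hba hb
    obtain ⟨H₁, H₂, h1, h2, h3, h4, h5, h6, h7⟩ := hkey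
    exact not_existsUnique_coatom ι hι _ H₁ H₂ h1 h2 h3 h4 h5 h6 h7 huniq
  · rintro ⟨k, hk, hnk⟩
    rcases hA with hA | hA
    · rw [hA] at hS
      obtain ⟨S, h1, h2, h3⟩ := yes_alt hS k hk hnk hsimp
      refine existsUnique_coatom ι hι _ S h1 (by rwa [hA]) ?_
      rw [hA]
      exact h3
    · rw [hA] at hS
      obtain ⟨S, h1, h2, h3⟩ := yes_perm hS k hk hnk
      refine existsUnique_coatom ι hι _ S h1 (by rwa [hA]) ?_
      rw [hA]
      exact h3

/-- For n ≥ 5 with n ≠ 6, a Sylow 2-subgroup of the alternating group A_n lies in exactly one maximal subgroup of A_n if and only if n = 2^k + 1 for some k ≥ 2; the same holds for the symmetric group S_n. -/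
theorem result (n : ℕ) (hn : 5 ≤ n) (h6 : n ≠ 6) :
    ((∀ R : Sylow 2 ↥(alternatingGroup (Fin n)), (∃! M : Subgroup ↥(alternatingGroup (Fin n)), IsCoatom M ∧ (R : Subgroup ↥(alternatingGroup (Fin n))) ≤ M) ↔ ∃ k : ℕ, 2 ≤ k ∧ n = 2 ^ k + 1) ∧
    (∀ R : Sylow 2 (Equiv.Perm (Fin n)), (∃! M : Subgroup (Equiv.Perm (Fin n)), IsCoatom M ∧ (R : Subgroup (Equiv.Perm (Fin n))) ≤ M) ↔ ∃ k : ℕ, 2 ≤ k ∧ n = 2 ^ k + 1)) := by
  have hc : Fintype.card (Fin n) = n := Fintype.card_fin n
  have hsimp : Fintype.card (Fin n) = 5 → IsSimpleGroup (alternatingGroup (Fin n)) := by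
    intro h
    rw [hc] at h
    subst h
    exact alternatingGroup.isSimpleGroup (by simp)
  constructor
  · intro R
    have := main_iff (alternatingGroup (Fin n)).subtype Subtype.val_injective
      (Or.inl (Subgroup.range_subtype _)) (by rw [hc]; exact hn) hsimp R
    rwa [hc] at this
  · intro R
    have := main_iff (MonoidHom.id (Equiv.Perm (Fin n))) Function.injective_id
      (Or.inr (MonoidHom.range_eq_top.mpr Function.surjective_id)) (by rw [hc]; exact hn) hsimp R
    rwa [hc] at this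

end Cfsg.Agent.S2245
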