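import Cfsg.Statements.S2253
import Cfsg.Agent.Lib.NilpPerm.Final

set_option autoImplicit false
open Cfsg

namespace Cfsg.Agent.S2253

theorem result  (n : ℕ) (hn : n % 4 ≠ 3)
    (N : Subgroup (Equiv.Perm (Fin n))) (hN : Group.IsNilpotent N)
    (P : Sylow 2 (Equiv.Perm (Fin n))) :
    Nat.card N ≤ Nat.card P := by

  rw [Cfsg.Agent.Lib.NilpPerm.Final.card_sylow_perm]
  have h := Cfsg.Agent.Lib.NilpPerm.Final.perm_bound N
  rwa [Cfsg.Agent.Lib.NilpPerm.Num.bS, if_neg hn] at h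

end Cfsg.Agent.S2253
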