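import Cfsg.Statements.S2254
import Cfsg.Agent.Lib.NilpPerm.Exist

set_option autoImplicit false
open Cfsg

namespace Cfsg.Agent.S2254

open Cfsg.Agent.Lib.NilpPerm.Num in
theorem result  (n : ℕ) (hn : n % 4 = 3)
    (P : Sylow 2 (Equiv.Perm (Fin (n - 3)))) :
    (∀ N : Subgroup (Equiv.Perm (Fin n)), Group.IsNilpotent N → Nat.card N ≤ 3 * Nat.card P) ∧
    (∃ M : Subgroup (Equiv.Perm (Fin n)), Group.IsNilpotent M ∧ Nat.card M = 3 * Nat.card P ∧
      Nonempty (M ≃* (↥(P : Subgroup (Equiv.Perm (Fin (n - 3)))) × Multiplicative (ZMod 3)))) ∧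
    (∀ N₁ N₂ : Subgroup (Equiv.Perm (Fin n)), Group.IsNilpotent N₁ → Group.IsNilpotent N₂ →
      Nat.card N₁ = 3 * Nat.card P → Nat.card N₂ = 3 * Nat.card P →
      ∃ g : Equiv.Perm (Fin n), N₂ = N₁.map (MulAut.conj g).toMonoidHom) := by

  have hcP : Nat.card P = aa (n - 3) := Cfsg.Agent.Lib.NilpPerm.Final.card_sylow_perm P
  have hcP' : Nat.card P = 2 ^ vv (n - 3) := hcP
  have hB : ∀ N : Subgroup (Equiv.Perm (Fin n)), Group.IsNilpotent N →
      Nat.card N ≤ 3 * 2 ^ vv (n - 3) := by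
    intro N hN
    have h := Cfsg.Agent.Lib.NilpPerm.Final.perm_bound N
    rwa [bS, if_pos hn] at h
  refine ⟨?_, Cfsg.Agent.Lib.NilpPerm.Exist.exists_perm (by omega) P, ?_⟩
  · intro N hN
    rw [hcP']
    exact hB N hN
  · intro N₁ N₂ h₁ h₂ c₁ c₂
    rw [hcP'] at c₁ c₂
    refine Cfsg.Agent.Lib.NilpPerm.Unique.unique_general (vv (n - 3)) hB
      (fun c => c.IsThreeCycle) ?_ ?_ N₁ N₂ h₁ h₂ c₁ c₂
    · refine Cfsg.Agent.Lib.NilpPerm.Unique.isThreeCycle_perm _ ?_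
      intro h4
      have h5 := four_mul_pred_le (k := n - 3) (by omega) (by omega)
      rw [show n - 3 - 1 = n - 4 by omega] at h5
      have h6 := aa_pos (n - 4)
      have h7 : aa (n - 3) = 2 ^ vv (n - 3) := rfl
      omega
    · intro a b ha hb
      exact Equiv.Perm.isConj_iff_cycleType_eq.2 (ha.trans hb.symm)

end Cfsg.Agent.S2254
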