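import Cfsg.Statements.S2255
import Cfsg.Agent.Lib.NilpPerm.Final

set_option autoImplicit false
open Cfsg

namespace Cfsg.Agent.S2255

theorem result  (n : ℕ) (hn : n % 4 ≠ 3)
    (h5 : n ≠ 5) (h6 : n ≠ 6) (h9 : n ≠ 9)
    (N : Subgroup (alternatingGroup (Fin n))) (hN : Group.IsNilpotent N)
    (P : Sylow 2 (alternatingGroup (Fin n))) :
    Nat.card N ≤ Nat.card P := by

  have h := Cfsg.Agent.Lib.NilpPerm.Final.alt_bound N
  by_cases h1 : n ≤ 1
  · rw [Cfsg.Agent.Lib.NilpPerm.Final.card_sylow_alt_small h1]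
    have : Cfsg.Agent.Lib.NilpPerm.Num.tt n = 1 := by
      unfold Cfsg.Agent.Lib.NilpPerm.Num.tt
      rw [if_pos (by omega)]
    omega
  · rw [Cfsg.Agent.Lib.NilpPerm.Final.card_sylow_alt (by omega)]
    rw [Cfsg.Agent.Lib.NilpPerm.Num.tt_of_not_exc (by
      unfold Cfsg.Agent.Lib.NilpPerm.Num.IsExc
      omega), if_neg hn] at h
    exact h

end Cfsg.Agent.S2255
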