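import Cfsg.Statements.S2256
import Cfsg.Agent.Lib.NilpPerm.Exist

set_option autoImplicit false
open Cfsg

namespace Cfsg.Agent.S2256

open Cfsg.Agent.Lib.NilpPerm.Num in
theorem result  (n : ℕ) (hn : n % 4 = 3) (h7 : 7 ≤ n)
    (P : Sylow 2 (alternatingGroup (Fin (n - 3)))) :
    (∀ N : Subgroup (alternatingGroup (Fin n)), Group.IsNilpotent N → Nat.card N ≤ 3 * Nat.card P) ∧
    (∃ M : Subgroup (alternatingGroup (Fin n)), Group.IsNilpotent M ∧ Nat.card M = 3 * Nat.card P ∧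
      Nonempty (M ≃* (↥(P : Subgroup (alternatingGroup (Fin (n - 3)))) × Multiplicative (ZMod 3)))) ∧
    (∀ N₁ N₂ : Subgroup (alternatingGroup (Fin n)), Group.IsNilpotent N₁ → Group.IsNilpotent N₂ →
      Nat.card N₁ = 3 * Nat.card P → Nat.card N₂ = 3 * Nat.card P →
      ∃ g : alternatingGroup (Fin n), N₂ = N₁.map (MulAut.conj g).toMonoidHom) := by

  have hcP2 := Cfsg.Agent.Lib.NilpPerm.Final.two_mul_card_sylow_alt (n := n - 3) (by omega) P
  have hv : 1 ≤ vv (n - 3) := by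
    by_contra hc
    have h0 : vv (n - 3) = 0 := by omega
    have h1 : aa (n - 3) = 1 := by simp [aa, h0]
    omega
  obtain ⟨k, hk⟩ : ∃ k, vv (n - 3) = k + 1 := ⟨vv (n - 3) - 1, by omega⟩
  have hcP' : Nat.card P = 2 ^ k := by
    have h1 : aa (n - 3) = 2 ^ vv (n - 3) := rfl
    rw [h1, hk, pow_succ] at hcP2
    omega
  have hB : ∀ N : Subgroup (alternatingGroup (Fin n)), Group.IsNilpotent N →
      Nat.card N ≤ 3 * 2 ^ k := by
    intro N hN
    have h := Cfsg.Agent.Lib.NilpPerm.Final.alt_bound N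
    rw [tt_of_not_exc (by unfold IsExc; omega), if_pos hn,
      ← Cfsg.Agent.Lib.NilpPerm.Final.card_sylow_alt (n := n - 3) (by omega) P, hcP'] at h
    exact h
  refine ⟨?_, Cfsg.Agent.Lib.NilpPerm.Exist.exists_alt (by omega) P, ?_⟩
  · intro N hN
    rw [hcP']
    exact hB N hN
  · intro N₁ N₂ h₁ h₂ c₁ c₂
    rw [hcP'] at c₁ c₂
    refine Cfsg.Agent.Lib.NilpPerm.Unique.unique_general k hB
      (fun c => (c : Equiv.Perm (Fin n)).IsThreeCycle) ?_ ?_ N₁ N₂ h₁ h₂ c₁ c₂
    · refine Cfsg.Agent.Lib.NilpPerm.Unique.isThreeCycle_alt _ ?_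
      intro h4
      have h5 := four_mul_pred_le (k := n - 3) (by omega) (by omega)
      rw [show n - 3 - 1 = n - 4 by omega] at h5
      have h6 := aa_pos (n - 4)
      have h7 : aa (n - 3) = 2 ^ vv (n - 3) := rfl
      rw [hk, pow_succ] at h7
      omega
    · intro a b ha hb
      exact alternatingGroup.isThreeCycle_isConj (by rw [Nat.card_fin]; omega) ha hb

end Cfsg.Agent.S2256
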