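import Cfsg.Statements.S2257
import Cfsg.Agent.Lib.Solub.Even

set_option autoImplicit false
open Cfsg

namespace Cfsg.Agent.S2257

open Cfsg.Agent.Lib.Solub.Even Cfsg.Agent.Lib.Solub.Basic Cfsg.Agent.Lib.Classical.SL2.Precise
open Matrix

attribute [local instance] Cfsg.Agent.Lib.Classical.SL2.Dickson.pslAct

lemma charP_two {F : Type*} [Field F] [Fintype F] {p : ℕ} (hp : p.Prime)
    (hF : Fintype.card F = 2 ^ p) : CharP F 2 := by
  obtain ⟨r, hr⟩ := CharP.exists F
  have hrp : r.Prime := CharP.char_is_prime F r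
  haveI : Fact r.Prime := ⟨hrp⟩
  obtain ⟨n, -, hn⟩ := FiniteField.card F r
  have h1 : r ∣ 2 ^ p := by
    rw [← hF, hn]
    exact dvd_pow_self r n.pos.ne'
  have h2 : r = 2 := (Nat.prime_dvd_prime_iff_eq hrp Nat.prime_two).1 (hrp.dvd_of_dvd_pow h1)
  rwa [h2] at hr

lemma order_aux {q d : ℕ} (hq : Odd (q - 1)) (hq1 : 1 < q) (h1 : d ∣ q - 1) (h2 : d ∣ q + 1) :
    d = 1 := by
  have h3 : d ∣ 2 := by
    have : q + 1 = (q - 1) + 2 := by omega
    rw [this] at h2
    exact (Nat.dvd_add_right h1).1 h2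
  rcases (Nat.dvd_prime Nat.prime_two).1 h3 with h | h
  · exact h
  · exfalso
    rw [h] at h1
    exact (Nat.not_even_iff_odd.2 hq) (even_iff_two_dvd.2 h1)

theorem result (p : ℕ) (hp : p.Prime) {F : Type*} [Field F] [Fintype F]
    (hF : Fintype.card F = 2 ^ p) (x : Matrix.ProjectiveSpecialLinearGroup (Fin 2) F) :
    (orderOf x = 2 → Nat.card {y : Matrix.ProjectiveSpecialLinearGroup (Fin 2) F // Group.IsSolvable ↥(Subgroup.closure ({x, y} : Set (Matrix.ProjectiveSpecialLinearGroup (Fin 2) F)))} = 3 * 2 ^ p * (2 ^ p - 1)) ∧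
    (x ≠ 1 → orderOf x ∣ 2 ^ p - 1 → Nat.card {y : Matrix.ProjectiveSpecialLinearGroup (Fin 2) F // Group.IsSolvable ↥(Subgroup.closure ({x, y} : Set (Matrix.ProjectiveSpecialLinearGroup (Fin 2) F)))} = 2 * 2 ^ p * (2 ^ p - 1)) ∧
    (x ≠ 1 → orderOf x ∣ 2 ^ p + 1 → Nat.card {y : Matrix.ProjectiveSpecialLinearGroup (Fin 2) F // Group.IsSolvable ↥(Subgroup.closure ({x, y} : Set (Matrix.ProjectiveSpecialLinearGroup (Fin 2) F)))} = 2 * (2 ^ p + 1)) := by

  classical
  haveI := charP_two hp hF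
  let E := AlgebraicClosure F
  haveI : CharP E 2 := charP_of_injective_algebraMap (algebraMap F E).injective 2
  have hq2 : 2 ≤ 2 ^ p := by
    calc 2 = 2 ^ 1 := by norm_num
      _ ≤ 2 ^ p := Nat.pow_le_pow_right (by norm_num) hp.one_lt.le
  have hodd1 : Odd (2 ^ p - 1) := by
    have : Even (2 ^ p) := (Nat.even_pow' hp.ne_zero).2 (by decide)
    obtain ⟨k, hk⟩ := this
    exact ⟨k - 1, by omega⟩
  have hodd2 : Odd (2 ^ p + 1) := by
    have : Even (2 ^ p) := (Nat.even_pow' hp.ne_zero).2 (by decide)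
    exact this.add_one
  have hg : Nat.gcd 2 (Fintype.card F - 1) = 1 := by
    rw [hF]
    exact Nat.coprime_two_left.2 hodd1
  refine ⟨fun hx => ?_, fun hx h1 => ?_, fun hx h1 => ?_⟩
  · rw [count_inv E hg hx, hF]
  · have hoddx : Odd (orderOf x) := hodd1.of_dvd_nat h1
    obtain ⟨b, c, hbc, h, hs⟩ := fixes_of_odd (E := E) hx hoddx
    rcases hs with hs | hs
    · rw [count_split hg hx hoddx h hs, hF]
    · exfalso
      have hT : x ∈ (TT b c : Subgroup (ProjectiveSpecialLinearGroup (Fin 2) F)) := ⟨h.left, h.right⟩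
      have h2 := Subgroup.orderOf_dvd_natCard _ hT
      rw [card_TT_nonsplit hg hs, hF] at h2
      have := order_aux hodd1 (by omega) h1 h2
      exact hx (orderOf_eq_one_iff.1 this)
  · have hoddx : Odd (orderOf x) := hodd2.of_dvd_nat h1
    obtain ⟨b, c, hbc, h, hs⟩ := fixes_of_odd (E := E) hx hoddx
    rcases hs with hs | hs
    · exfalso
      have hT : x ∈ (TT b c : Subgroup (ProjectiveSpecialLinearGroup (Fin 2) F)) := ⟨h.left, h.right⟩
      have h2 := Subgroup.orderOf_dvd_natCard _ hT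
      rw [card_TT_split hg hs, hF] at h2
      have := order_aux hodd1 (by omega) h2 h1
      exact hx (orderOf_eq_one_iff.1 this)
    · rw [count_nonsplit hg hx hoddx h hs, hF]

end Cfsg.Agent.S2257
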