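import Cfsg.Statements.S2258
import Cfsg.Agent.Lib.Solub.OddSemi
import Cfsg.Agent.Lib.Solub.OddInv

set_option autoImplicit false
open Cfsg

namespace Cfsg.Agent.S2258

open Cfsg.Agent.Lib.Solub.Odd Cfsg.Agent.Lib.Solub.Basic

lemma charP_three {F : Type*} [Field F] [Fintype F] {p : ℕ} (hp : p.Prime)
    (hF : Fintype.card F = 3 ^ p) : CharP F 3 := by
  obtain ⟨r, hr⟩ := CharP.exists F
  have hrp : r.Prime := CharP.char_is_prime F r
  haveI : Fact r.Prime := ⟨hrp⟩
  obtain ⟨n, -, hn⟩ := FiniteField.card F r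
  have h1 : r ∣ 3 ^ p := by
    rw [← hF, hn]
    exact dvd_pow_self r n.pos.ne'
  have h2 : r = 3 := (Nat.prime_dvd_prime_iff_eq hrp Nat.prime_three).1 (hrp.dvd_of_dvd_pow h1)
  rwa [h2] at hr

/-- Let G = PSL_2(F) with F a field of order q = 3^p, p an odd prime, and for x ∈ G call the solubilizer of x the set of y ∈ G such that x and y generate a solvable subgroup. Then the solubilizer of an involution has q(q + 1) elements; that of an element of order 3 has q(q + 5)/2 elements; that of an element of order neither 1 nor 2 dividing q − 1 has q(q − 1) elements; and that of an element of order neither 1 nor 2 dividing q + 1 has q + 1 elements. -/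
theorem result (p : ℕ) (hp : p.Prime) (hodd : Odd p) {F : Type*} [Field F] [Fintype F]
    (hF : Fintype.card F = 3 ^ p) (x : Matrix.ProjectiveSpecialLinearGroup (Fin 2) F) :
    (orderOf x = 2 → Nat.card {y : Matrix.ProjectiveSpecialLinearGroup (Fin 2) F // Group.IsSolvable ↥(Subgroup.closure ({x, y} : Set (Matrix.ProjectiveSpecialLinearGroup (Fin 2) F)))} = 3 ^ p * (3 ^ p + 1)) ∧
    (orderOf x = 3 → 2 * Nat.card {y : Matrix.ProjectiveSpecialLinearGroup (Fin 2) F // Group.IsSolvable ↥(Subgroup.closure ({x, y} : Set (Matrix.ProjectiveSpecialLinearGroup (Fin 2) F)))} = 3 ^ p * (3 ^ p + 5)) ∧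
    (x ≠ 1 → orderOf x ≠ 2 → orderOf x ∣ 3 ^ p - 1 → Nat.card {y : Matrix.ProjectiveSpecialLinearGroup (Fin 2) F // Group.IsSolvable ↥(Subgroup.closure ({x, y} : Set (Matrix.ProjectiveSpecialLinearGroup (Fin 2) F)))} = 3 ^ p * (3 ^ p - 1)) ∧
    (x ≠ 1 → orderOf x ≠ 2 → orderOf x ∣ 3 ^ p + 1 → Nat.card {y : Matrix.ProjectiveSpecialLinearGroup (Fin 2) F // Group.IsSolvable ↥(Subgroup.closure ({x, y} : Set (Matrix.ProjectiveSpecialLinearGroup (Fin 2) F)))} = 3 ^ p + 1) := by
  classical
  haveI := charP_three hp hF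
  let E := AlgebraicClosure F
  haveI : CharP E 3 := charP_of_injective_algebraMap (algebraMap F E).injective 3
  have hq8 : Fintype.card F % 8 = 3 := by
    rw [hF]
    obtain ⟨k, rfl⟩ := hodd
    rw [pow_succ, pow_mul, Nat.mul_mod, Nat.pow_mod]
    simp
  have h3 : 3 ∣ Fintype.card F := by
    rw [hF]
    exact dvd_pow_self 3 hp.ne_zero
  refine ⟨fun hx => ?_, fun hx => ?_, fun hx h2 hd => ?_, fun hx h2 hd => ?_⟩
  · have hx1 : x ≠ 1 := by
      rintro rfl
      simp at hx
    have hxx : x * x = 1 := by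
      have := pow_orderOf_eq_one x
      rwa [hx, pow_two] at this
    rw [count_inv' E hq8 h3 hx1 hxx, hF]
  · have hx1 : x ≠ 1 := by
      rintro rfl
      simp at hx
    have hx3 : x ^ 3 = 1 := by
      have := pow_orderOf_eq_one x
      rwa [hx] at this
    obtain ⟨c₀, hc₀⟩ := exists_rational_fix (E := E) hq8 h3 hx1 hx3
    rw [count_three hc₀ hq8 hx1 hx3, hF]
  · rw [← hF] at hd ⊢
    exact clause_split E hq8 h3 hx h2 hd
  · rw [← hF] at hd ⊢
    exact clause_nonsplit E hq8 h3 hx h2 hd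

end Cfsg.Agent.S2258
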