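import Cfsg.Statements.S2268

set_option autoImplicit false
open Cfsg

namespace Cfsg.Agent.S2268

open scoped Pointwise in
lemma mem_smul_sylow {G : Type*} [Group G] {p : ℕ} (P : Sylow p G) (g x : G) :
    x ∈ ((g • P : Sylow p G) : Subgroup G) ↔ g⁻¹ * x * g ∈ (P : Subgroup G) := by
  rw [Sylow.coe_subgroup_smul]
  rw [Subgroup.mem_pointwise_smul_iff_inv_smul_mem]
  simp

lemma frattini {G : Type*} [Group G] [Finite G] {p : ℕ} [Fact p.Prime]
    (P : Sylow p G) (hP : IsMulCommutative (P : Subgroup G)) (Q : Subgroup G)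
    (hQ : Q ≤ (P : Subgroup G)) (g : G) (hg : g ∈ Subgroup.normalizer (Q : Set G)) :
    ∃ c ∈ Subgroup.centralizer (Q : Set G),
      c * g ∈ Subgroup.normalizer (Q : Set G) ⊓ Subgroup.normalizer ((P : Subgroup G) : Set G) := by
  set C := Subgroup.centralizer (Q : Set G) with hC
  have hPC : (P : Subgroup G) ≤ C := by
    intro x hx
    rw [hC, Subgroup.mem_centralizer_iff]
    intro y hy
    have := hP.is_comm.comm (⟨y, hQ hy⟩ : (P : Subgroup G)) ⟨x, hx⟩
    simpa using congrArg Subtype.val this
  have hgPC : ((g • P : Sylow p G) : Subgroup G) ≤ C := by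
    intro x hx
    rw [mem_smul_sylow] at hx
    have h1 := hPC hx
    rw [hC, Subgroup.mem_centralizer_iff] at h1 ⊢
    intro y hy
    have hy' : g⁻¹ * y * g ∈ Q := by
      have hg' : g⁻¹ ∈ Subgroup.normalizer (Q : Set G) := inv_mem hg
      have := (Subgroup.mem_normalizer_iff.mp hg' y).mp hy
      simpa using this
    have := h1 _ hy'
    have h2 : g * (g⁻¹ * y * g * (g⁻¹ * x * g)) * g⁻¹ = g * (g⁻¹ * x * g * (g⁻¹ * y * g)) * g⁻¹ := by
      rw [this]
    simpa [mul_assoc] using h2
  obtain ⟨c, hc⟩ := MulAction.exists_smul_eq C ((g • P).subtype hgPC) (P.subtype hPC)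
  refine ⟨c, c.2, ?_, ?_⟩
  · exact mul_mem (Subgroup.centralizer_le_normalizer _ c.2) hg
  · rw [Sylow.smul_subtype] at hc
    have h3 : ((c : G)) • (g • P) = P := by
      have h4 := congrArg (fun R : Sylow p C => (R : Subgroup C).map C.subtype) hc
      simp only [Sylow.coe_subtype] at h4
      rw [Subgroup.subgroupOf_map_subtype, Subgroup.subgroupOf_map_subtype,
        inf_of_le_left (Sylow.smul_le hgPC c), inf_of_le_left hPC] at h4
      exact Sylow.ext h4
    exact Sylow.smul_eq_iff_mem_normalizer.mp (by rw [mul_smul]; exact h3)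

theorem result {G : Type*} [Group G] [Finite G] {p : ℕ} [Fact p.Prime]
    (P : Sylow p G) (hP : IsMulCommutative (P : Subgroup G)) (Q : Subgroup G) (hQ : Q ≤ (P : Subgroup G)) :
    Subgroup.normalizer (Q : Set G) =
      (Subgroup.normalizer (Q : Set G) ⊓ Subgroup.normalizer ((P : Subgroup G) : Set G)) ⊔ Subgroup.centralizer (Q : Set G) ∧
    ((Subgroup.centralizer (Q : Set G)).subgroupOf (Subgroup.normalizer (Q : Set G))).index ∣ ((Subgroup.centralizer ((P : Subgroup G) : Set G)).subgroupOf (Subgroup.normalizer ((P : Subgroup G) : Set G))).index := by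
  set A := Subgroup.normalizer (Q : Set G) with hA
  set B := Subgroup.normalizer ((P : Subgroup G) : Set G) with hB
  set C := Subgroup.centralizer (Q : Set G) with hC
  set D := Subgroup.centralizer ((P : Subgroup G) : Set G) with hD
  have hCA : C ≤ A := Subgroup.centralizer_le_normalizer _
  have hDB : D ≤ B := Subgroup.centralizer_le_normalizer _
  have hDC : D ≤ C := Subgroup.centralizer_le hQ
  have hsup : A = (A ⊓ B) ⊔ C := by
    apply le_antisymm
    · intro g hg
      obtain ⟨c, hc, hcg⟩ := frattini P hP Q hQ g hg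
      have : g = c⁻¹ * (c * g) := by group
      rw [this]
      exact mul_mem (Subgroup.mem_sup_right (inv_mem hc)) (Subgroup.mem_sup_left hcg)
    · exact sup_le inf_le_left hCA
  refine ⟨hsup, ?_⟩
  -- the index computation
  change C.relIndex A ∣ D.relIndex B
  set K := A ⊓ B with hK
  have hKA : K ≤ A := inf_le_left
  have hKB : K ≤ B := inf_le_right
  have hDK : D ≤ K := le_inf (hDC.trans hCA) hDB
  have h1 : C.relIndex A = C.relIndex K := by
    have hN : (C.subgroupOf A).Normal := Subgroup.normal_subgroupOf_centralizer_normalizer _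
    have htop : K.subgroupOf A ⊔ C.subgroupOf A = ⊤ := by
      rw [← Subgroup.subgroupOf_sup hKA hCA, ← hsup, Subgroup.subgroupOf_self]
    have h2 := Subgroup.relIndex_sup_right (H := K.subgroupOf A) (K := C.subgroupOf A)
    rw [htop, Subgroup.relIndex_top_right] at h2
    rw [Subgroup.relIndex, h2, Subgroup.relIndex_subgroupOf hKA]
  rw [h1]
  have h3 : C.relIndex K ∣ D.relIndex K := Subgroup.relIndex_dvd_of_le_left K hDC
  have h4 : D.relIndex K ∣ D.relIndex B := ⟨K.relIndex B, (Subgroup.relIndex_mul_relIndex _ _ _ hDK hKB).symm⟩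
  exact h3.trans h4

end Cfsg.Agent.S2268
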