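import Cfsg.Statements.S2269
import Cfsg.Agent.Lib.PermAb.Inversion

set_option autoImplicit false
open Cfsg

namespace Cfsg.Agent.S2269

open Equiv Equiv.Perm
open Cfsg.Agent.Lib.PermAb.Inversion (rep rep_spec invFun invFun_eq t t_apply t_sq t_inv t_conj
  two_dvd_index_of_mem)
open scoped Nat

section cut
variable {α : Type*}

open _root_.Classical in
/-- `f` on `S`, the identity off `S`. -/
noncomputable def cut (S : Set α) (f : Perm α) (hf : ∀ x, f x ∈ S ↔ x ∈ S) : Perm α :=
  ofSubtype (f.subtypePerm hf)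

lemma cut_mem {S : Set α} {f : Perm α} (hf : ∀ x, f x ∈ S ↔ x ∈ S) {x : α} (hx : x ∈ S) :
    cut S f hf x = f x := by
  classical
  unfold cut
  rw [ofSubtype_apply_of_mem _ hx]
  rfl

lemma cut_not_mem {S : Set α} {f : Perm α} (hf : ∀ x, f x ∈ S ↔ x ∈ S) {x : α} (hx : x ∉ S) :
    cut S f hf x = x := by
  classical
  unfold cut
  rw [ofSubtype_apply_of_not_mem _ hx]

lemma pow_mem_set {S : Set α} {f : Perm α} (hf : ∀ x, f x ∈ S ↔ x ∈ S) (m : ℕ) {x : α}
    (hx : x ∈ S) : (f ^ m) x ∈ S := by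
  induction m with
  | zero => simpa using hx
  | succ k ih =>
    rw [pow_succ', Perm.mul_apply]
    exact (hf _).2 ih

lemma cut_pow_mem {S : Set α} {f : Perm α} (hf : ∀ x, f x ∈ S ↔ x ∈ S) (m : ℕ) {x : α}
    (hx : x ∈ S) : ((cut S f hf) ^ m) x = (f ^ m) x := by
  induction m with
  | zero => simp
  | succ k ih =>
    rw [pow_succ', Perm.mul_apply, ih, cut_mem hf (pow_mem_set hf k hx), pow_succ', Perm.mul_apply]

lemma cut_pow_not_mem {S : Set α} {f : Perm α} (hf : ∀ x, f x ∈ S ↔ x ∈ S) (m : ℕ) {x : α}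
    (hx : x ∉ S) : ((cut S f hf) ^ m) x = x := by
  induction m with
  | zero => simp
  | succ k ih =>
    rw [pow_succ', Perm.mul_apply, ih, cut_not_mem hf hx]

lemma cut_pow_eq_one {S : Set α} {f : Perm α} (hf : ∀ x, f x ∈ S ↔ x ∈ S) {m : ℕ}
    (hm : f ^ m = 1) : (cut S f hf) ^ m = 1 := by
  ext x
  by_cases hx : x ∈ S
  · rw [cut_pow_mem hf m hx, hm]
  · rw [cut_pow_not_mem hf m hx]; simp

lemma cut_inv_mem {S : Set α} {f : Perm α} (hf : ∀ x, f x ∈ S ↔ x ∈ S) {x : α} (hx : x ∈ S) :
    (cut S f hf)⁻¹ x = f⁻¹ x := by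
  have h1 : f⁻¹ x ∈ S := by
    rw [← hf]; simpa using hx
  rw [Perm.inv_eq_iff_eq, cut_mem hf h1]
  simp

lemma cut_inv_not_mem {S : Set α} {f : Perm α} (hf : ∀ x, f x ∈ S ↔ x ∈ S) {x : α} (hx : x ∉ S) :
    (cut S f hf)⁻¹ x = x := by
  rw [Perm.inv_eq_iff_eq, cut_not_mem hf hx]

end cut

section odd
variable {α : Type*} [Fintype α] [DecidableEq α] {p : ℕ} [hp : Fact p.Prime]

lemma mem_t_orbit (Q : Subgroup (Perm α)) (hQ : IsMulCommutative Q) (x : α) :
    ∃ h ∈ Q, t Q hQ x = h x := by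
  obtain ⟨g, hg, hgx⟩ := rep_spec Q x
  refine ⟨g⁻¹ * g⁻¹, mul_mem (inv_mem hg) (inv_mem hg), ?_⟩
  rw [t_apply, invFun_eq Q hQ x hg hgx, Perm.mul_apply]
  congr 1
  rw [Perm.eq_inv_iff_eq]
  exact hgx

/-- The image of a Sylow subgroup of the alternating group. -/
def img (P : Sylow p (alternatingGroup α)) : Subgroup (Perm α) :=
  (P : Subgroup (alternatingGroup α)).map (alternatingGroup α).subtype

lemma mem_img {P : Sylow p (alternatingGroup α)} {g : Perm α} :
    g ∈ img P ↔ ∃ hg : g ∈ alternatingGroup α, (⟨g, hg⟩ : alternatingGroup α) ∈ P := by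
  unfold img
  rw [Subgroup.mem_map]
  constructor
  · rintro ⟨x, hx, rfl⟩
    exact ⟨x.2, hx⟩
  · rintro ⟨hg, h⟩
    exact ⟨_, h, rfl⟩

lemma img_comm (P : Sylow p (alternatingGroup α))
    (hP : IsMulCommutative (P : Subgroup (alternatingGroup α))) : IsMulCommutative (img P) := by
  refine ⟨⟨?_⟩⟩
  rintro ⟨a, ha⟩ ⟨b, hb⟩
  obtain ⟨ha', ha''⟩ := mem_img.1 ha
  obtain ⟨hb', hb''⟩ := mem_img.1 hb
  have := hP.is_comm.comm ⟨_, ha''⟩ ⟨_, hb''⟩
  have h2 := congrArg (fun x => ((x : alternatingGroup α) : Perm α)) (congrArg Subtype.val this)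
  exact Subtype.ext h2

lemma img_pow (P : Sylow p (alternatingGroup α)) {g : Perm α} (hg : g ∈ img P) :
    ∃ k : ℕ, g ^ (p ^ k) = 1 := by
  obtain ⟨hg', hg''⟩ := mem_img.1 hg
  obtain ⟨k, hk⟩ := P.isPGroup' ⟨_, hg''⟩
  refine ⟨k, ?_⟩
  have := congrArg (fun x => (((x : P) : alternatingGroup α) : Perm α)) hk
  simpa using this

lemma sign_of_pow (hodd : p ≠ 2) {g : Perm α} {k : ℕ} (h : g ^ (p ^ k) = 1) : sign g = 1 := by
  have h1 : (sign g) ^ (p ^ k) = 1 := by rw [← map_pow, h, map_one]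
  have hoddk : Odd (p ^ k) := (hp.out.odd_of_ne_two hodd).pow
  rcases Int.units_eq_one_or (sign g) with h2 | h2
  · exact h2
  · rw [h2, hoddk.neg_one_pow] at h1
    exact absurd h1 (by decide)

/-- Key lemma: the restriction of an element of the image to an invariant set is in the image. -/
lemma cut_mem_img (hodd : p ≠ 2) (P : Sylow p (alternatingGroup α))
    (hP : IsMulCommutative (P : Subgroup (alternatingGroup α))) {S : Set α}
    {g : Perm α} (hg : g ∈ img P) (hS : ∀ h ∈ img P, ∀ x, h x ∈ S ↔ x ∈ S) :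
    cut S g (hS g hg) ∈ img P := by
  obtain ⟨k, hk⟩ := img_pow P hg
  set c := cut S g (hS g hg) with hc
  have hck : c ^ (p ^ k) = 1 := cut_pow_eq_one _ hk
  have hsign : c ∈ alternatingGroup α := by
    rw [Equiv.Perm.mem_alternatingGroup]
    exact sign_of_pow hodd hck
  have hcomm := img_comm P hP
  have hc1 : ∀ h ∈ img P, h * c = c * h := by
    intro h hh
    have hgh : g * h = h * g := congrArg Subtype.val (hcomm.is_comm.comm ⟨g, hg⟩ ⟨h, hh⟩)
    ext x
    simp only [Perm.mul_apply]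
    by_cases hx : x ∈ S
    · rw [hc, cut_mem _ hx, cut_mem _ ((hS h hh x).2 hx)]
      have := congrArg (fun f : Perm α => f x) hgh
      simpa [Perm.mul_apply] using this.symm
    · rw [hc, cut_not_mem _ hx, cut_not_mem _ (by rwa [hS h hh x])]
  set c' : alternatingGroup α := ⟨c, hsign⟩ with hc'
  have hpg : IsPGroup p (Subgroup.zpowers c') := by
    rw [IsPGroup.iff_card, Nat.card_zpowers]
    have h0 : c' ^ (p ^ k) = 1 := Subtype.ext hck
    obtain ⟨j, -, hj⟩ := (Nat.dvd_prime_pow hp.out).1 (orderOf_dvd_of_pow_eq_one h0)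
    exact ⟨j, hj⟩
  have hnorm : c' ∈ Subgroup.normalizer ((P : Subgroup (alternatingGroup α)) : Set (alternatingGroup α)) := by
    apply Subgroup.mem_normalizer_fintype
    intro h hh
    have hh' : ((h : alternatingGroup α) : Perm α) ∈ img P :=
      mem_img.2 ⟨h.2, hh⟩
    have := hc1 _ hh'
    have h3 : c' * h * c'⁻¹ = h := by
      apply Subtype.ext
      simp only [Subgroup.coe_mul, Subgroup.coe_inv]
      rw [hc', ← this]
      simp
    rw [h3]
    exact hh
  have hmem : c' ∈ Subgroup.zpowers c' ⊓ Subgroup.normalizer ((P : Subgroup (alternatingGroup α)) : Set (alternatingGroup α)) :=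
    ⟨Subgroup.mem_zpowers c', hnorm⟩
  have hmem2 : c' ∈ Subgroup.zpowers c' ⊓ (P : Subgroup (alternatingGroup α)) := by
    have h := hpg.inf_normalizer_sylow P
    rw [← h]
    exact hmem
  exact mem_img.2 ⟨hsign, hmem2.2⟩

/-- If the restriction of the inverting involution to an invariant set `S` is even, and
the group moves a point of `S`, the automizer has even order. -/
lemma two_dvd_of_even_cut (hodd : p ≠ 2) (P : Sylow p (alternatingGroup α))
    (hP : IsMulCommutative (P : Subgroup (alternatingGroup α))) {S : Set α}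
    (hS : ∀ h ∈ img P, ∀ x, h x ∈ S ↔ x ∈ S)
    (ht : ∀ x, t (img P) (img_comm P hP) x ∈ S ↔ x ∈ S)
    (hsign : sign (cut S (t (img P) (img_comm P hP)) ht) = 1)
    {g₀ : Perm α} (hg₀ : g₀ ∈ img P) {x₀ : α} (hx₀ : x₀ ∈ S) (hne : g₀ x₀ ≠ x₀) :
    2 ∣ ((Subgroup.centralizer ((P : Subgroup (alternatingGroup α)) : Set (alternatingGroup α))).subgroupOf
      (Subgroup.normalizer ((P : Subgroup (alternatingGroup α)) : Set (alternatingGroup α)))).index := by
  set Q := img P with hQ
  have hQc := img_comm P hP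
  set τ := t Q hQc with hτ
  set s := cut S τ ht with hs
  have hτ2 : ∀ x, τ (τ x) = x := by
    intro x
    have := congrArg (fun f : Perm α => f x) (t_sq Q hQc)
    simpa using this
  have hs2 : s * s = 1 := by
    ext x
    simp only [Perm.mul_apply, Perm.one_apply]
    by_cases hx : x ∈ S
    · rw [hs, cut_mem _ hx, cut_mem _ ((ht x).2 hx), hτ2]
    · rw [hs, cut_not_mem _ hx, cut_not_mem _ hx]
  have hsinv : s⁻¹ = s := inv_eq_of_mul_eq_one_left hs2
  have hconj : ∀ g, ∀ hg : g ∈ Q, s * g * s⁻¹ =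
      (cut S g (hS g hg))⁻¹ * (cut S g (hS g hg))⁻¹ * g := by
    intro g hg
    rw [hsinv]
    ext x
    simp only [Perm.mul_apply]
    have hτg : τ (g (τ x)) = g⁻¹ x := by
      have := congrArg (fun f : Perm α => f x) (t_conj Q hQc hg)
      simp only [Perm.mul_apply, t_inv] at this
      exact this
    by_cases hx : x ∈ S
    · have h1 : g x ∈ S := (hS g hg x).2 hx
      have h2 : g⁻¹ (g x) = x := by simp
      have hgτ : g (τ x) ∈ S := (hS g hg _).2 ((ht x).2 hx)
      rw [hs, cut_mem _ hx, cut_mem _ hgτ, hτg, cut_inv_mem _ h1, h2, cut_inv_mem _ hx]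
    · have h1 : g x ∉ S := by rwa [hS g hg x]
      rw [hs, cut_not_mem _ hx, cut_not_mem _ h1, cut_inv_not_mem _ h1, cut_inv_not_mem _ h1]
  have hsA : s ∈ alternatingGroup α := Equiv.Perm.mem_alternatingGroup.2 hsign
  have hmem : ∀ g ∈ Q, s * g * s⁻¹ ∈ Q := by
    intro g hg
    rw [hconj g hg]
    have := cut_mem_img hodd P hP hg hS
    exact mul_mem (mul_mem (inv_mem this) (inv_mem this)) hg
  refine two_dvd_index_of_mem _ (⟨s, hsA⟩ : alternatingGroup α) ?_ ?_ ?_
  · apply Subgroup.mem_normalizer_fintype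
    intro h hh
    have hh' : ((h : alternatingGroup α) : Perm α) ∈ Q := mem_img.2 ⟨h.2, hh⟩
    obtain ⟨h1, h2⟩ := mem_img.1 (hmem _ hh')
    exact h2
  · have : (⟨s, hsA⟩ : alternatingGroup α) * ⟨s, hsA⟩ = 1 := Subtype.ext hs2
    rw [this]
    exact one_mem _
  · intro hcen
    obtain ⟨hg0A, hg0P⟩ := mem_img.1 hg₀
    have h1 := Subgroup.mem_centralizer_iff.1 hcen _ hg0P
    have h1' : g₀ * s = s * g₀ := congrArg Subtype.val h1
    have h2 : s * g₀ * s⁻¹ = g₀ := by
      rw [← h1']; simp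
    rw [hconj g₀ hg₀] at h2
    set c := cut S g₀ (hS g₀ hg₀) with hc
    have h3 : c * c = 1 := by
      have h4 : c⁻¹ * c⁻¹ = 1 := by
        have := congrArg (fun f => f * g₀⁻¹) h2
        simpa using this
      have : (c * c)⁻¹ = 1 := by
        rw [_root_.mul_inv_rev]; exact h4
      exact inv_eq_one.1 this
    obtain ⟨k, hk⟩ := img_pow P hg₀
    have h5 : c ^ (p ^ k) = 1 := cut_pow_eq_one _ hk
    have h6 : c ^ 2 = 1 := by rw [pow_two]; exact h3
    have hodd' : Odd (p ^ k) := (hp.out.odd_of_ne_two hodd).pow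
    have hcop : Nat.Coprime 2 (p ^ k) := by
      exact Nat.coprime_two_left.2 hodd'
    have h7 : c = 1 := by
      have := (pow_gcd_eq_one (a := c)).2 ⟨h6, h5⟩
      rw [hcop] at this
      simpa using this
    apply hne
    have : c x₀ = x₀ := by rw [h7]; rfl
    rwa [hc, cut_mem _ hx₀] at this

/-- The numerical statement. -/
lemma cyclic_of_card_le (hodd : p ≠ 2) (P : Sylow p (alternatingGroup α))
    [Nontrivial α]
    (hc : Nat.card (P : Subgroup (alternatingGroup α)) ≤ Fintype.card α) :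
    IsCyclic (P : Subgroup (alternatingGroup α)) := by
  obtain ⟨v, hv⟩ := IsPGroup.iff_card.1 P.isPGroup'
  rcases v with _ | _ | v
  · have : Subsingleton (P : Subgroup (alternatingGroup α)) := by
      rw [pow_zero] at hv
      exact (Nat.card_eq_one_iff_unique.1 hv).1
    exact isCyclic_of_subsingleton
  · rw [zero_add, pow_one] at hv
    exact isCyclic_of_prime_card hv
  · exfalso
    set N := Fintype.card α with hN
    have hp2 := hp.out.two_le
    have hlt : p ^ (v + 1) < p ^ (v + 2) := Nat.pow_lt_pow_right (by omega) (by omega)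
    have hle : p ^ (v + 2) ≤ N := hv ▸ hc
    have hd1 : p ^ (v + 2) * p ^ (v + 1) ∣ N ! := by
      have h1 : (p ^ (v + 2))! ∣ N ! := Nat.factorial_dvd_factorial hle
      refine dvd_trans ?_ h1
      have hpos : 0 < p ^ (v + 2) := by positivity
      obtain ⟨m, hm⟩ : ∃ m, p ^ (v + 2) = m + 1 := ⟨p ^ (v + 2) - 1, by omega⟩
      rw [hm, Nat.factorial_succ]
      apply mul_dvd_mul_left
      apply Nat.dvd_factorial (by positivity)
      omega
    have hd2 : p ^ (v + 2 + 1) ∣ N ! := by
      refine dvd_trans ?_ hd1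
      rw [← pow_add]
      exact pow_dvd_pow _ (by omega)
    have hd3 : p ^ (v + 2 + 1) ∣ Nat.card (alternatingGroup α) := by
      have h2 := two_mul_nat_card_alternatingGroup (α := α)
      rw [Nat.card_perm, Nat.card_eq_fintype_card (α := α)] at h2
      rw [← h2] at hd2
      have hcop : Nat.Coprime (p ^ (v + 2 + 1)) 2 := by
        apply Nat.Coprime.symm
        exact Nat.coprime_two_left.2 (hp.out.odd_of_ne_two hodd).pow
      exact hcop.dvd_of_dvd_mul_left hd2
    have hd4 := P.pow_dvd_card_of_pow_dvd_card hd3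
    have hv2 : Nat.card (P : Subgroup (alternatingGroup α)) = p ^ (v + 2) := hv
    rw [hv2] at hd4
    have := Nat.le_of_dvd (by positivity) hd4
    have h5 : p ^ (v + 2) < p ^ (v + 2 + 1) := Nat.pow_lt_pow_right (by omega) (by omega)
    omega

/-- The whole odd case. -/
theorem odd_case (hodd : p ≠ 2) (P : Sylow p (alternatingGroup α)) [Nontrivial α]
    (hP : IsMulCommutative (P : Subgroup (alternatingGroup α))) :
    2 ∣ ((Subgroup.centralizer ((P : Subgroup (alternatingGroup α)) : Set (alternatingGroup α))).subgroupOf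
      (Subgroup.normalizer ((P : Subgroup (alternatingGroup α)) : Set (alternatingGroup α)))).index ∨
      IsCyclic (P : Subgroup (alternatingGroup α)) := by
  by_cases htriv : ∀ g ∈ img P, g = 1
  · right
    have : Subsingleton (P : Subgroup (alternatingGroup α)) := by
      refine ⟨?_⟩
      rintro ⟨a, ha⟩ ⟨b, hb⟩
      have h1 := htriv _ (mem_img.2 ⟨a.2, ha⟩)
      have h2 := htriv _ (mem_img.2 ⟨b.2, hb⟩)
      apply Subtype.ext
      apply Subtype.ext
      rw [h1, h2]
    exact isCyclic_of_subsingleton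
  push Not at htriv
  obtain ⟨g₀, hg₀, hne⟩ := htriv
  obtain ⟨x₀, hx₀⟩ : ∃ x, g₀ x ≠ x := by
    by_contra h
    push Not at h
    exact hne (Equiv.ext h)
  set Q := img P with hQ
  have hQc := img_comm P hP
  -- the orbit of x₀
  let O : Set α := {y | ∃ g ∈ Q, g x₀ = y}
  have hO : ∀ h ∈ Q, ∀ x, h x ∈ O ↔ x ∈ O := by
    intro h hh x
    constructor
    · rintro ⟨g, hg, hgx⟩
      refine ⟨h⁻¹ * g, mul_mem (inv_mem hh) hg, ?_⟩
      rw [Perm.mul_apply, hgx]; simp
    · rintro ⟨g, hg, hgx⟩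
      exact ⟨h * g, mul_mem hh hg, by rw [Perm.mul_apply, hgx]⟩
  have hOc : ∀ h ∈ Q, ∀ x, h x ∈ Oᶜ ↔ x ∈ Oᶜ := by
    intro h hh x
    exact not_congr (hO h hh x)
  have hx₀O : x₀ ∈ O := ⟨1, one_mem _, rfl⟩
  set τ := t Q hQc with hτ
  have htO : ∀ x, τ x ∈ O ↔ x ∈ O := by
    intro x
    obtain ⟨h, hh, e⟩ := mem_t_orbit Q hQc x
    rw [e]
    exact hO h hh x
  have htOc : ∀ x, τ x ∈ Oᶜ ↔ x ∈ Oᶜ := fun x => not_congr (htO x)
  have htU : ∀ x, τ x ∈ (Set.univ : Set α) ↔ x ∈ (Set.univ : Set α) := by simp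
  have hU : ∀ h ∈ Q, ∀ x, h x ∈ (Set.univ : Set α) ↔ x ∈ (Set.univ : Set α) := by simp
  by_cases h1 : sign (cut O τ htO) = 1
  · left
    exact two_dvd_of_even_cut hodd P hP hO htO h1 hg₀ hx₀O hx₀
  have h1' : sign (cut O τ htO) = -1 := (Int.units_eq_one_or _).resolve_left h1
  have hprod : cut O τ htO * cut Oᶜ τ htOc = cut Set.univ τ htU := by
    ext x
    simp only [Perm.mul_apply]
    rw [cut_mem _ (Set.mem_univ x)]
    by_cases hx : x ∈ O
    · have hx' : x ∉ Oᶜ := by simpa using hx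
      rw [cut_not_mem htOc hx', cut_mem htO hx]
    · have hx' : x ∈ Oᶜ := hx
      have hx'' : τ x ∉ O := by rwa [htO]
      rw [cut_mem htOc hx', cut_not_mem htO hx'']
  by_cases h2 : sign (cut Oᶜ τ htOc) = 1
  · by_cases h3 : ∃ g ∈ Q, ∃ x, x ∈ Oᶜ ∧ g x ≠ x
    · left
      obtain ⟨g, hg, x, hx, hgx⟩ := h3
      exact two_dvd_of_even_cut hodd P hP hOc htOc h2 hg hx hgx
    · push Not at h3
      right
      apply cyclic_of_card_le hodd P
      have hinj : Function.Injective
          (fun a : (P : Subgroup (alternatingGroup α)) => ((a : alternatingGroup α) : Perm α) x₀) := by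
        rintro ⟨a, ha⟩ ⟨b, hb⟩ hab
        simp only at hab
        apply Subtype.ext
        apply Subtype.ext
        have ha' : (a : Perm α) ∈ Q := mem_img.2 ⟨a.2, ha⟩
        have hb' : (b : Perm α) ∈ Q := mem_img.2 ⟨b.2, hb⟩
        ext y
        by_cases hy : y ∈ O
        · obtain ⟨k, hk, rfl⟩ := hy
          have h4 : (a : Perm α) * k = k * a := congrArg Subtype.val (hQc.is_comm.comm ⟨_, ha'⟩ ⟨_, hk⟩)
          have h5 : (b : Perm α) * k = k * b := congrArg Subtype.val (hQc.is_comm.comm ⟨_, hb'⟩ ⟨_, hk⟩)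
          rw [← Perm.mul_apply, ← Perm.mul_apply, h4, h5, Perm.mul_apply, Perm.mul_apply, hab]
        · rw [h3 _ ha' y hy, h3 _ hb' y hy]
      have := Nat.card_le_card_of_injective _ hinj
      rwa [Nat.card_eq_fintype_card (α := α)] at this
  · left
    have h2' : sign (cut Oᶜ τ htOc) = -1 := (Int.units_eq_one_or _).resolve_left h2
    refine two_dvd_of_even_cut hodd P hP hU htU ?_ hg₀ (Set.mem_univ x₀) hx₀
    rw [← hprod, map_mul, h1', h2']
    decide

end odd

section two
open Function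

/-- The witnesses for non-commutativity on six points. -/
def x6 : Perm (Fin 6) := swap 0 1 * swap 1 2 * swap 2 3 * swap 4 5
/-- The witnesses for non-commutativity on six points. -/
def y6 : Perm (Fin 6) := swap 0 2 * swap 4 5

lemma rel6 : sign x6 = 1 ∧ sign y6 = 1 ∧ x6 ^ 4 = 1 ∧ y6 ^ 2 = 1 ∧ y6 * x6 * y6⁻¹ = x6⁻¹ ∧
    x6 ^ 2 ≠ 1 := by decide

theorem not_comm_two {n : ℕ} (hn : 6 ≤ n) (P : Sylow 2 (alternatingGroup (Fin n)))
    (hP : IsMulCommutative (P : Subgroup (alternatingGroup (Fin n)))) : False := by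
  obtain ⟨h1, h2, h3, h4, h5, h6⟩ := rel6
  let ι : Fin 6 ↪ Fin n := Fin.castLEEmb hn
  let F : Perm (Fin 6) →* Perm (Fin n) := viaEmbeddingHom ι
  have hF : Injective F := viaEmbeddingHom_injective ι
  have hs : ∀ e : Perm (Fin 6), sign (F e) = sign e := by
    intro e
    exact @sign_extendDomain (Fin 6) _ (Fin n) _ _ _ e _ (fun a => _root_.Classical.propDecidable _) _
  let x : alternatingGroup (Fin n) := ⟨F x6, by rw [Equiv.Perm.mem_alternatingGroup, hs, h1]⟩
  let y : alternatingGroup (Fin n) := ⟨F y6, by rw [Equiv.Perm.mem_alternatingGroup, hs, h2]⟩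
  have hx4 : x ^ 4 = 1 := by
    apply Subtype.ext
    change F x6 ^ 4 = 1
    rw [← map_pow, h3, map_one]
  have hy2 : y ^ 2 = 1 := by
    apply Subtype.ext
    change F y6 ^ 2 = 1
    rw [← map_pow, h4, map_one]
  have hyx : y * x * y⁻¹ = x⁻¹ := by
    apply Subtype.ext
    change F y6 * F x6 * (F y6)⁻¹ = (F x6)⁻¹
    rw [← map_mul, ← map_inv, ← map_mul, h5, map_inv]
  have hx2 : x ^ 2 ≠ 1 := by
    intro h
    have : F x6 ^ 2 = 1 := congrArg Subtype.val h
    rw [← map_pow] at this
    exact h6 (hF (this.trans (map_one F).symm))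
  have hpx : IsPGroup 2 (Subgroup.zpowers x) := by
    rw [IsPGroup.iff_card, Nat.card_zpowers]
    obtain ⟨j, -, hj⟩ := (Nat.dvd_prime_pow Nat.prime_two).1
      (orderOf_dvd_of_pow_eq_one (show x ^ (2 ^ 2) = 1 from hx4))
    exact ⟨j, hj⟩
  have hpy : IsPGroup 2 (Subgroup.zpowers y) := by
    rw [IsPGroup.iff_card, Nat.card_zpowers]
    obtain ⟨j, -, hj⟩ := (Nat.dvd_prime_pow Nat.prime_two).1
      (orderOf_dvd_of_pow_eq_one (show y ^ (2 ^ 1) = 1 from hy2))
    exact ⟨j, hj⟩
  have hnorm : Subgroup.zpowers y ≤ Subgroup.normalizer (Subgroup.zpowers x : Set (alternatingGroup (Fin n))) := by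
    rw [Subgroup.zpowers_le]
    apply Subgroup.mem_normalizer_fintype
    rintro _ ⟨k, rfl⟩
    simp only
    rw [← conj_zpow, hyx]
    exact zpow_mem (inv_mem (Subgroup.mem_zpowers x)) k
  have hD := hpy.to_sup_of_normal_right' hpx hnorm
  obtain ⟨Q, hQ⟩ := hD.exists_le_sylow
  obtain ⟨c, hc⟩ := MulAction.exists_smul_eq (alternatingGroup (Fin n)) Q P
  have hmem : ∀ a ∈ (Q : Subgroup (alternatingGroup (Fin n))),
      c * a * c⁻¹ ∈ (P : Subgroup (alternatingGroup (Fin n))) := by
    intro a ha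
    rw [← hc]
    exact Subgroup.smul_mem_pointwise_smul a (MulAut.conj c) (Q : Subgroup (alternatingGroup (Fin n))) ha
  have hxQ : x ∈ (Q : Subgroup (alternatingGroup (Fin n))) :=
    hQ (Subgroup.mem_sup_right (Subgroup.mem_zpowers x))
  have hyQ : y ∈ (Q : Subgroup (alternatingGroup (Fin n))) :=
    hQ (Subgroup.mem_sup_left (Subgroup.mem_zpowers y))
  have hcomm := hP.is_comm.comm ⟨_, hmem x hxQ⟩ ⟨_, hmem y hyQ⟩
  have hcomm' : (c * x * c⁻¹) * (c * y * c⁻¹) = (c * y * c⁻¹) * (c * x * c⁻¹) :=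
    congrArg Subtype.val hcomm
  have hcomm2 : x * y = y * x := by
    have h7 : c * (x * y) * c⁻¹ = c * (y * x) * c⁻¹ := by
      calc c * (x * y) * c⁻¹ = (c * x * c⁻¹) * (c * y * c⁻¹) := by group
        _ = (c * y * c⁻¹) * (c * x * c⁻¹) := hcomm'
        _ = c * (y * x) * c⁻¹ := by group
    exact mul_left_cancel (mul_right_cancel h7)
  apply hx2
  have h8 : x⁻¹ = x := by
    rw [← hyx, ← hcomm2]
    simp
  rw [pow_two]
  nth_rewrite 1 [← h8]
  simp

/-- The Klein four-group on the first four points. -/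
def v1 : Perm (Fin 5) := swap 0 1 * swap 2 3
/-- The Klein four-group on the first four points. -/
def v2 : Perm (Fin 5) := swap 0 2 * swap 1 3
/-- The Klein four-group on the first four points. -/
def v3 : Perm (Fin 5) := swap 0 3 * swap 1 2
/-- The elements of the Klein four-group. -/
def LL : List (Perm (Fin 5)) := [1, v1, v2, v3]

set_option maxRecDepth 100000 in
lemma LL_mul : ∀ a ∈ LL, ∀ b ∈ LL, a * b ∈ LL := by decide
set_option maxRecDepth 100000 in
lemma LL_inv : ∀ a ∈ LL, a⁻¹ ∈ LL := by decide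
set_option maxRecDepth 100000 in
lemma LL_sq : ∀ a ∈ LL, a * a = 1 := by decide
lemma LL_one : (1 : Perm (Fin 5)) ∈ LL := by simp [LL]
set_option maxRecDepth 100000 in
lemma LL_sign : ∀ a ∈ LL, sign a = 1 := by decide

/-- The Klein four-group as a subgroup of `A₅`. -/
def VV : Subgroup (alternatingGroup (Fin 5)) where
  carrier := {g | (g : Perm (Fin 5)) ∈ LL}
  mul_mem' := fun ha hb => LL_mul _ ha _ hb
  one_mem' := LL_one
  inv_mem' := fun ha => LL_inv _ ha

lemma mem_VV {g : alternatingGroup (Fin 5)} : g ∈ VV ↔ (g : Perm (Fin 5)) ∈ LL := Iff.rfl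

lemma card_of_pred (W : Subgroup (alternatingGroup (Fin 5)))
    (pred : alternatingGroup (Fin 5) → Prop) [DecidablePred pred]
    (h : ∀ g, g ∈ W ↔ pred g) :
    Nat.card W = (Finset.univ.filter pred).card := by
  classical
  rw [Nat.card_eq_fintype_card, Fintype.card_subtype]
  congr 1
  ext g
  simp [h]

set_option maxRecDepth 100000 in
lemma cnt_V : (Finset.univ.filter (fun g : alternatingGroup (Fin 5) => (g : Perm (Fin 5)) ∈ LL)).card = 4 := by
  decide

set_option maxRecDepth 100000 in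
lemma cnt_C : (Finset.univ.filter (fun g : alternatingGroup (Fin 5) =>
    ∀ h ∈ LL, h * (g : Perm (Fin 5)) = (g : Perm (Fin 5)) * h)).card = 4 := by
  decide

set_option maxRecDepth 100000 in
lemma cnt_N : (Finset.univ.filter (fun g : alternatingGroup (Fin 5) =>
    ∀ h ∈ LL, (g : Perm (Fin 5)) * h * (g : Perm (Fin 5))⁻¹ ∈ LL)).card = 12 := by
  decide

lemma card_VV : Nat.card VV = 4 := by
  rw [card_of_pred VV _ (fun g => mem_VV), cnt_V]

lemma card_C : Nat.card (Subgroup.centralizer (VV : Set (alternatingGroup (Fin 5)))) = 4 := by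
  rw [card_of_pred _ (fun g : alternatingGroup (Fin 5) =>
    ∀ h ∈ LL, h * (g : Perm (Fin 5)) = (g : Perm (Fin 5)) * h), cnt_C]
  intro g
  rw [Subgroup.mem_centralizer_iff]
  constructor
  · intro h a ha
    have := h ⟨a, Equiv.Perm.mem_alternatingGroup.2 (LL_sign a ha)⟩ ha
    exact congrArg Subtype.val this
  · intro h a ha
    exact Subtype.ext (h _ ha)

lemma card_N : Nat.card (Subgroup.normalizer (VV : Set (alternatingGroup (Fin 5)))) = 12 := by
  rw [card_of_pred _ (fun g : alternatingGroup (Fin 5) =>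
    ∀ h ∈ LL, (g : Perm (Fin 5)) * h * (g : Perm (Fin 5))⁻¹ ∈ LL), cnt_N]
  intro g
  constructor
  · intro h a ha
    have hN := (Subgroup.mem_normalizer_iff.1 h) ⟨a, Equiv.Perm.mem_alternatingGroup.2 (LL_sign a ha)⟩
    exact hN.1 ha
  · intro h
    apply Subgroup.mem_normalizer_fintype
    intro a ha
    exact h _ ha

lemma fact_60 : (Nat.card (alternatingGroup (Fin 5))).factorization 2 = 2 := by
  have h60 : Nat.card (alternatingGroup (Fin 5)) = 2 ^ 2 * 15 := by
    rw [nat_card_alternatingGroup, Nat.card_fin]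
    rfl
  rw [h60, Nat.factorization_mul (by norm_num) (by norm_num), Nat.Prime.factorization_pow Nat.prime_two]
  simp [Nat.factorization_eq_zero_of_not_dvd (show ¬ 2 ∣ 15 by norm_num)]

theorem five (P : Sylow 2 (alternatingGroup (Fin 5))) :
    ((Subgroup.centralizer ((P : Subgroup (alternatingGroup (Fin 5))) : Set (alternatingGroup (Fin 5)))).subgroupOf
      (Subgroup.normalizer ((P : Subgroup (alternatingGroup (Fin 5))) : Set (alternatingGroup (Fin 5))))).index = 3 ∧
    IsKleinFour (P : Subgroup (alternatingGroup (Fin 5))) := by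
  let S : Sylow 2 (alternatingGroup (Fin 5)) := Sylow.ofCard VV (by rw [card_VV, fact_60]; rfl)
  obtain ⟨c, hc⟩ := MulAction.exists_smul_eq (alternatingGroup (Fin 5)) S P
  let f : alternatingGroup (Fin 5) ≃* alternatingGroup (Fin 5) := MulAut.conj c
  have hfinj : Function.Injective f.toMonoidHom := f.injective
  have hPS : (P : Subgroup (alternatingGroup (Fin 5))) = VV.map f.toMonoidHom := by
    rw [← hc]
    rfl
  have hcardP : Nat.card (P : Subgroup (alternatingGroup (Fin 5))) = 4 := by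
    rw [hPS, ← card_VV]
    exact Nat.card_congr (Subgroup.equivMapOfInjective VV _ hfinj).symm.toEquiv
  have hNP : Nat.card (Subgroup.normalizer ((P : Subgroup (alternatingGroup (Fin 5))) : Set (alternatingGroup (Fin 5)))) = 12 := by
    rw [hPS, ← Subgroup.map_equiv_normalizer_eq, ← card_N]
    exact Nat.card_congr (Subgroup.equivMapOfInjective _ _ hfinj).symm.toEquiv
  have hCP : Nat.card (Subgroup.centralizer ((P : Subgroup (alternatingGroup (Fin 5))) : Set (alternatingGroup (Fin 5)))) = 4 := by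
    have hmap : Subgroup.centralizer ((P : Subgroup (alternatingGroup (Fin 5))) : Set (alternatingGroup (Fin 5))) =
        (Subgroup.centralizer (VV : Set (alternatingGroup (Fin 5)))).map f.toMonoidHom := by
      rw [hPS]
      ext x
      rw [Subgroup.mem_map_equiv, Subgroup.mem_centralizer_iff, Subgroup.mem_centralizer_iff]
      constructor
      · intro h a ha
        have := h (f a) (Subgroup.mem_map_of_mem f.toMonoidHom ha)
        apply f.injective
        rw [map_mul, map_mul]
        rw [MulEquiv.apply_symm_apply]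
        exact this
      · rintro h _ ⟨a, ha, rfl⟩
        have := h a ha
        have h2 := congrArg f this
        rw [map_mul, map_mul, MulEquiv.apply_symm_apply] at h2
        exact h2
    rw [hmap, ← card_C]
    exact Nat.card_congr (Subgroup.equivMapOfInjective _ _ hfinj).symm.toEquiv
  have hsq : ∀ a ∈ (P : Subgroup (alternatingGroup (Fin 5))), a * a = 1 := by
    rw [hPS]
    rintro _ ⟨a, ha, rfl⟩
    have : a * a = 1 := Subtype.ext (LL_sq _ ha)
    change f a * f a = 1
    rw [← map_mul, this, map_one]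
  have hle : Subgroup.centralizer ((P : Subgroup (alternatingGroup (Fin 5))) : Set (alternatingGroup (Fin 5))) ≤
      Subgroup.normalizer ((P : Subgroup (alternatingGroup (Fin 5))) : Set (alternatingGroup (Fin 5))) := by
    intro g hg
    apply Subgroup.mem_normalizer_fintype
    intro a ha
    have := Subgroup.mem_centralizer_iff.1 hg a ha
    rw [← this]
    simpa using ha
  constructor
  · set C := Subgroup.centralizer ((P : Subgroup (alternatingGroup (Fin 5))) : Set (alternatingGroup (Fin 5))) with hC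
    set N := Subgroup.normalizer ((P : Subgroup (alternatingGroup (Fin 5))) : Set (alternatingGroup (Fin 5))) with hN
    have h1 := Subgroup.card_mul_index (C.subgroupOf N)
    have h2 : Nat.card (C.subgroupOf N) = Nat.card C :=
      Nat.card_congr (Subgroup.subgroupOfEquivOfLe hle).toEquiv
    rw [h2, hCP, hNP] at h1
    omega
  · have : Nontrivial (P : Subgroup (alternatingGroup (Fin 5))) := by
      rw [← Finite.one_lt_card_iff_nontrivial, hcardP]
      norm_num
    refine ⟨hcardP, ?_⟩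
    rw [Monoid.exponent_eq_prime_iff Nat.prime_two]
    intro g hg
    apply orderOf_eq_prime _ hg
    apply Subtype.ext
    rw [pow_two]
    exact hsq _ g.2

end two

theorem result (n : ℕ) (hn : 5 ≤ n) {p : ℕ} [Fact p.Prime]
    (P : Sylow p (alternatingGroup (Fin n))) (hP : IsMulCommutative (P : Subgroup (alternatingGroup (Fin n)))) :
    (¬ (n = 5 ∧ p = 2) → 2 ∣ ((Subgroup.centralizer ((P : Subgroup (alternatingGroup (Fin n))) : Set (alternatingGroup (Fin n)))).subgroupOf (Subgroup.normalizer ((P : Subgroup (alternatingGroup (Fin n))) : Set (alternatingGroup (Fin n))))).index ∨ IsCyclic (P : Subgroup (alternatingGroup (Fin n)))) ∧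
    ((n = 5 ∧ p = 2) → ((Subgroup.centralizer ((P : Subgroup (alternatingGroup (Fin n))) : Set (alternatingGroup (Fin n)))).subgroupOf (Subgroup.normalizer ((P : Subgroup (alternatingGroup (Fin n))) : Set (alternatingGroup (Fin n))))).index = 3 ∧ IsKleinFour (P : Subgroup (alternatingGroup (Fin n)))) := by
  refine ⟨?_, ?_⟩
  · intro h
    by_cases hp2 : p = 2
    · subst hp2
      exfalso
      have hn6 : 6 ≤ n := by
        by_contra h6
        exact h ⟨by omega, rfl⟩
      exact not_comm_two hn6 P hP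
    · have : Nontrivial (Fin n) := Fin.nontrivial_iff_two_le.2 (by omega)
      exact odd_case hp2 P hP
  · rintro ⟨rfl, rfl⟩
    exact five P

end Cfsg.Agent.S2269
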