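import Cfsg.Statements.S2270
import Cfsg.Agent.Lib.PermAb.Inversion

set_option autoImplicit false
open Cfsg

namespace Cfsg.Agent.S2270

open Cfsg.Agent.Lib.PermAb.Inversion

/-- An element `g ≠ 1` of a `p`-group, `p` odd, is not its own inverse. -/
lemma ne_inv_of_odd {G : Type*} [Group G] {p : ℕ} [Fact p.Prime] (hp : p ≠ 2) (P : Subgroup G)
    (hP : IsPGroup p P) {g : G} (hg : g ∈ P) (h1 : g ≠ 1) : g⁻¹ ≠ g := by
  intro h
  obtain ⟨k, hk⟩ := hP ⟨g, hg⟩
  have hk' : g ^ (p ^ k) = 1 := by simpa using congrArg Subtype.val hk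
  have h2 : g ^ 2 = 1 := by
    rw [pow_two]
    nth_rewrite 1 [← h]
    simp
  have hcop : Nat.Coprime (p ^ k) 2 := by
    apply Nat.Coprime.pow_left
    exact (Nat.coprime_primes Fact.out Nat.prime_two).mpr hp
  have h3 : orderOf g ∣ Nat.gcd (p ^ k) 2 :=
    Nat.dvd_gcd (orderOf_dvd_of_pow_eq_one hk') (orderOf_dvd_of_pow_eq_one h2)
  rw [hcop.gcd_eq_one, Nat.dvd_one, orderOf_eq_one_iff] at h3
  exact h1 h3

theorem result (n : ℕ) (hn : 3 ≤ n) {p : ℕ} [Fact p.Prime] (hp : p ≠ 2) (hpn : p ≤ n)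
    (P : Sylow p (Equiv.Perm (Fin n))) (hP : IsMulCommutative (P : Subgroup (Equiv.Perm (Fin n)))) :
    2 ∣ ((Subgroup.centralizer ((P : Subgroup (Equiv.Perm (Fin n))) : Set (Equiv.Perm (Fin n)))).subgroupOf (Subgroup.normalizer ((P : Subgroup (Equiv.Perm (Fin n))) : Set (Equiv.Perm (Fin n))))).index := by
  obtain ⟨t, ht1, ht2⟩ := exists_inverting_involution (P : Subgroup (Equiv.Perm (Fin n))) hP
  have hbot : (P : Subgroup (Equiv.Perm (Fin n))) ≠ ⊥ := by
    apply Sylow.ne_bot_of_dvd_card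
    rw [Nat.card_perm, Nat.card_fin]
    exact Nat.dvd_factorial (Fact.out : p.Prime).pos hpn
  obtain ⟨g, hg, hg1⟩ := (Subgroup.bot_or_exists_ne_one (P : Subgroup (Equiv.Perm (Fin n)))).resolve_left hbot
  apply two_dvd_index_of_mem _ t
  · rw [Subgroup.mem_normalizer_iff]
    intro h
    constructor
    · intro hh
      have := ht2 h hh
      rw [this]
      exact inv_mem hh
    · intro hh
      have h2 := ht2 _ hh
      have h3 : t⁻¹ = t := inv_eq_of_mul_eq_one_left ht1
      have h4 : t * (t * h * t⁻¹) * t⁻¹ = h := by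
        simp only [h3]
        rw [show t * (t * h * t) * t = (t * t) * h * (t * t) by group, ht1]
        simp
      rw [h2] at h4
      rw [← h4]
      exact inv_mem hh
  · rw [ht1]
    exact one_mem _
  · intro hc
    rw [Subgroup.mem_centralizer_iff] at hc
    have h5 := hc g hg
    have h6 := ht2 g hg
    have h7 : t * g * t⁻¹ = g := by
      rw [← h5]
      group
    rw [h7] at h6
    exact ne_inv_of_odd hp _ P.isPGroup' hg hg1 h6.symm

end Cfsg.Agent.S2270
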