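import Cfsg.Statements.S2280
import Cfsg.Agent.Lib.RegUnip.Small3
import Cfsg.Agent.Lib.RegUnip.Three

set_option autoImplicit false
open Cfsg

namespace Cfsg.Agent.S2280

/-- Let F be a finite field and n ≥ 3. Then SL_n(F) is generated by three conjugate regular unipotent elements: there are u with u − 1 nilpotent and (u − 1)^(n−1) ≠ 0, and g, h, such that u, g u g⁻¹ and h u h⁻¹ generate SL_n(F). -/
theorem result {F : Type*} [Field F] [Fintype F] (n : ℕ) (hn : 3 ≤ n) :
    ∃ u g h : Matrix.SpecialLinearGroup (Fin n) F, (IsNilpotent ((u : Matrix (Fin n) (Fin n) F) - 1) ∧ ((u : Matrix (Fin n) (Fin n) F) - 1) ^ (n - 1) ≠ 0) ∧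
      Subgroup.closure ({u, g * u * g⁻¹, h * u * h⁻¹} : Set (Matrix.SpecialLinearGroup (Fin n) F)) = ⊤ := by
  by_cases h3 : n = 3
  · subst h3
    obtain ⟨u, g, h1, h2, h4⟩ := Cfsg.Agent.Lib.RegUnip.Small3.exists_conj_all (F := F)
    refine ⟨u, g, 1, ⟨h1, h2⟩, ?_⟩
    have h5 : (1 : Matrix.SpecialLinearGroup (Fin 3) F) * u * 1⁻¹ = u := by simp
    rw [h5, eq_top_iff, ← h4]
    refine Subgroup.closure_mono ?_
    intro x hx
    rcases hx with rfl | rfl
    · simp
    · simp
  · exact Cfsg.Agent.Lib.RegUnip.Three.exists_three (by omega)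

end Cfsg.Agent.S2280
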