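import Cfsg.Statements.S2284
import Cfsg.Agent.Lib.PresAlt.A6
import Cfsg.Agent.Lib.PresAlt.Tietze
import Cfsg.Agent.Lib.PresAlt.Small

set_option autoImplicit false
open Cfsg

namespace Cfsg.Agent.S2284

/-- For every n, the symmetric group S_n and the alternating group A_n each have a presentation with 2 generators and at most 8 relations. -/
theorem result (n : ℕ) : (∃ rels : Finset (FreeGroup (Fin 2)), rels.card ≤ 8 ∧ Nonempty (PresentedGroup (↑rels : Set (FreeGroup (Fin 2))) ≃* Equiv.Perm (Fin n))) ∧ (∃ rels : Finset (FreeGroup (Fin 2)), rels.card ≤ 8 ∧ Nonempty (PresentedGroup (↑rels : Set (FreeGroup (Fin 2))) ≃* ↥(alternatingGroup (Fin n)))) := by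
  have hfmt : ∀ (G : Type) [Group G], Cfsg.Agent.Lib.PresAlt.Final.CoreFmt G →
      ∃ rels : Finset (FreeGroup (Fin 2)), rels.card ≤ 8 ∧
        Nonempty (PresentedGroup (↑rels : Set (FreeGroup (Fin 2))) ≃* G) := by
    intro G _ h
    obtain ⟨rels, hc, e, W, hW⟩ := h
    obtain ⟨rels', hc', h'⟩ := Cfsg.Agent.Lib.PresAlt.Tietze.subst rels e W hW
    exact ⟨rels', by omega, h'⟩
  by_cases h5 : 5 ≤ n
  · constructor
    · exact hfmt _ (Cfsg.Agent.Lib.PresAlt.Final.sym_core n h5)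
    · apply hfmt
      by_cases h6 : n = 6
      · subst h6
        exact Cfsg.Agent.Lib.PresAlt.A6.alt_six
      · exact Cfsg.Agent.Lib.PresAlt.Final.alt_core n h5 h6
  · have h : n = 0 ∨ n = 1 ∨ n = 2 ∨ n = 3 ∨ n = 4 := by omega
    rcases h with rfl | rfl | rfl | rfl | rfl
    · exact ⟨Cfsg.Agent.Lib.PresAlt.Small.trivial_case _, Cfsg.Agent.Lib.PresAlt.Small.trivial_case _⟩
    · exact ⟨Cfsg.Agent.Lib.PresAlt.Small.trivial_case _, Cfsg.Agent.Lib.PresAlt.Small.trivial_case _⟩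
    · refine ⟨Cfsg.Agent.Lib.PresAlt.Small.sym2, ?_⟩
      haveI : Subsingleton (alternatingGroup (Fin 2)) := by
        have h0 : ∀ g : Equiv.Perm (Fin 2), Equiv.Perm.sign g = 1 → g = 1 := by decide
        refine ⟨fun a b => Subtype.ext ?_⟩
        rw [h0 a a.2, h0 b b.2]
      exact Cfsg.Agent.Lib.PresAlt.Small.trivial_case _
    · exact ⟨Cfsg.Agent.Lib.PresAlt.Small.sym3, Cfsg.Agent.Lib.PresAlt.Small.alt3⟩
    · exact ⟨Cfsg.Agent.Lib.PresAlt.Small.sym4, Cfsg.Agent.Lib.PresAlt.Small.alt4⟩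

end Cfsg.Agent.S2284
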