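import Cfsg.Statements.S2289
import Cfsg.Agent.Lib.PresSU3.Final
import Cfsg.Agent.Lib.Classical.HermOrders
import Cfsg.Agent.Lib.PresSLn.Quot

set_option autoImplicit false
open Cfsg

namespace Cfsg.Agent.S2289

/-- Let F be a field with q² elements, q ∉ {2, 3, 5}, and SU_3(q), PSU_3(q) the special unitary group of the standard Hermitian form and its central quotient. Then SU_3(q) has a presentation with 3 generators and at most 23 relations, and PSU_3(q) one with 3 generators and at most 24 relations. -/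
theorem result {F : Type*} [Field F] [Fintype F] (q : ℕ) (hF : Fintype.card F = q ^ 2) (h2 : q ≠ 2) (h3 : q ≠ 3) (h5 : q ≠ 5) :
    (∃ rels : Finset (FreeGroup (Fin 3)), rels.card ≤ 23 ∧ Nonempty (PresentedGroup (↑rels : Set (FreeGroup (Fin 3))) ≃* ↥(Cfsg.SU 3 F q))) ∧ (∃ rels : Finset (FreeGroup (Fin 3)), rels.card ≤ 24 ∧ Nonempty (PresentedGroup (↑rels : Set (FreeGroup (Fin 3))) ≃* Cfsg.PSU 3 F q)) := by
  classical
  have hq := Lib.HermCount.Field.two_le hF
  obtain ⟨R, hR, ⟨e⟩⟩ := Lib.PresSU3.su3_pres hF h2 h5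
  obtain ⟨e2⟩ := Lib.PresSU3.exists_iso hF hq
  let E : PresentedGroup (↑R : Set (FreeGroup (Fin 3))) ≃* ↥(Cfsg.SU 3 F q) := e.trans e2
  refine ⟨⟨R, by omega, ⟨E⟩⟩, ?_⟩
  have hcard := Lib.Classical.HermOrders.card_center_SU hF 3 (by norm_num)
  haveI : Fact (Nat.Prime 3) := ⟨Nat.prime_three⟩
  haveI hcyc : IsCyclic (Subgroup.center (Cfsg.SU 3 F q)) := by
    apply isCyclic_of_card_dvd_prime (p := 3)
    rw [hcard]
    exact Nat.gcd_dvd_left _ _
  obtain ⟨g, hg⟩ := IsCyclic.exists_generator (α := Subgroup.center (Cfsg.SU 3 F q))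
  have hc : Subgroup.center (Cfsg.SU 3 F q) = Subgroup.zpowers (g : Cfsg.SU 3 F q) := by
    ext x
    constructor
    · intro hx
      obtain ⟨k, hk⟩ := Subgroup.mem_zpowers_iff.1 (hg ⟨x, hx⟩)
      exact Subgroup.mem_zpowers_iff.2 ⟨k, by
        have := congrArg Subtype.val hk
        simpa using this⟩
    · intro hx
      obtain ⟨k, rfl⟩ := Subgroup.mem_zpowers_iff.1 hx
      exact zpow_mem g.2 k
  obtain ⟨R', hR', he'⟩ := Lib.PresSLn.Quot.pres_quot R E (Subgroup.center (Cfsg.SU 3 F q)) (g : Cfsg.SU 3 F q) hc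
  exact ⟨R', by omega, he'⟩

end Cfsg.Agent.S2289
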