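import Cfsg.Statements.S2290
import Cfsg.Agent.S2286
import Cfsg.Agent.Lib.PresSLn.TwoGen
import Cfsg.Agent.Lib.PresSLn.Quot

set_option autoImplicit false
open Cfsg

namespace Cfsg.Agent.S2290

/-- For every finite field F with q elements and n ≥ 2, with q ≥ 4 when n = 2, the simple group PSL_n(F) has a presentation with 2 generators and at most 80 relations. -/
theorem result {F : Type*} [Field F] [Fintype F] (n : ℕ) (hn : 2 ≤ n) (h2 : n = 2 → 4 ≤ Fintype.card F) :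
    ∃ rels : Finset (FreeGroup (Fin 2)), rels.card ≤ 80 ∧ Nonempty (PresentedGroup (↑rels : Set (FreeGroup (Fin 2))) ≃* Matrix.ProjectiveSpecialLinearGroup (Fin n) F) := by
  classical
  haveI : NeZero n := ⟨by omega⟩
  obtain ⟨u, v, huv⟩ := Cfsg.Agent.Lib.PresSLn.TwoGen.two_gen_psl (F := F) n hn h2
  have key : ∃ (k : ℕ) (R : Finset (FreeGroup (Fin k))), R.card ≤ 38 ∧
      Nonempty (PresentedGroup (↑R : Set (FreeGroup (Fin k))) ≃*
        Matrix.ProjectiveSpecialLinearGroup (Fin n) F) := by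
    by_cases h22 : n = 2
    · subst h22
      obtain ⟨-, ⟨R, hR, hE⟩, -⟩ := Cfsg.Agent.S2286.result (F := F)
      exact ⟨3, R, by omega, hE⟩
    by_cases h33 : n = 3
    · subst h33
      obtain ⟨R, hR, ⟨E⟩⟩ := Cfsg.Agent.Lib.PresSLn.Pres.sl3_pres (F := F)
      obtain ⟨R', hR', hE⟩ := Cfsg.Agent.Lib.PresSLn.Quot.psl_of_sl 3 F R E
      exact ⟨4, R', by omega, hE⟩
    · obtain ⟨k, R, hR, ⟨E⟩⟩ := Cfsg.Agent.Lib.PresSLn.Pres.sl_pres (F := F) n (by omega)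
      obtain ⟨R', hR', hE⟩ := Cfsg.Agent.Lib.PresSLn.Quot.psl_of_sl n F R E
      exact ⟨k, R', by omega, hE⟩
  obtain ⟨k, R, hR, ⟨E⟩⟩ := key
  obtain ⟨R', hR', E', -, -⟩ := Cfsg.Agent.Lib.PresAlt.Tietze.pair R E u v huv
  exact ⟨R', by omega, ⟨E'⟩⟩

end Cfsg.Agent.S2290
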