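import Cfsg.Statements.S2291
import Cfsg.Agent.Lib.PresU.Conc2

set_option autoImplicit false
open Cfsg

namespace Cfsg.Agent.S2291

/-- Let F be a field with q² elements and n ≥ 3 with (n, q) ≠ (3, 2). Then the simple group PSU_n(q) (for the standard Hermitian form) has a presentation with 2 generators and at most 80 relations. -/
theorem result {F : Type*} [Field F] [Fintype F] (q n : ℕ) (hF : Fintype.card F = q ^ 2) (hn : 3 ≤ n) (h32 : ¬ (n = 3 ∧ q = 2)) :
    ∃ rels : Finset (FreeGroup (Fin 2)), rels.card ≤ 80 ∧ Nonempty (PresentedGroup (↑rels : Set (FreeGroup (Fin 2))) ≃* Cfsg.PSU n F q) := by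
  classical
  obtain ⟨a, R, hR, ⟨E⟩⟩ := Lib.PresU.su_all (F := F) hF n hn
  obtain ⟨R', hR', hE⟩ := Lib.PresU.psu_of_su hF n hn h32 R E
  exact ⟨R', by omega, hE⟩

end Cfsg.Agent.S2291
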