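import Cfsg.Statements.S2293
import Cfsg.Agent.Lib.PresSp.Theta
import Cfsg.Agent.S2286
import Cfsg.Agent.Lib.PresSLn.ShortP

set_option autoImplicit false
open Cfsg

namespace Cfsg.Agent.S2293

/-- For every finite field F, Sp_4(F) has a presentation with 6 generators and at most 35 relations, and PSp_4(F) one with 6 generators and at most 36 relations. -/
theorem result {F : Type*} [Field F] [Fintype F] : (∃ rels : Finset (FreeGroup (Fin 6)), rels.card ≤ 35 ∧ Nonempty (PresentedGroup (↑rels : Set (FreeGroup (Fin 6))) ≃* Matrix.symplecticGroup (Fin 2) F)) ∧ (∃ rels : Finset (FreeGroup (Fin 6)), rels.card ≤ 36 ∧ Nonempty (PresentedGroup (↑rels : Set (FreeGroup (Fin 6))) ≃* Cfsg.PSp 2 F)) := by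
  classical
  obtain ⟨ζ, hζ⟩ := Lib.PresSp.Theta.exists_zeta (F := F)
  obtain ⟨⟨R2, hR2, ⟨E2⟩⟩, -, -⟩ := Cfsg.Agent.S2286.result (F := F)
  obtain ⟨R, hR, ⟨E⟩⟩ := Lib.PresSp.Theta.sp_one hζ R2 E2 R2 E2
  obtain ⟨R', hR', ⟨E'⟩⟩ := Lib.PresSLn.ShortP.to_fin R E
  refine ⟨⟨R', by omega, ⟨E'⟩⟩, ?_⟩
  obtain ⟨R'', hR'', hE''⟩ := Lib.PresSp.Theta.psp_of_sp (m := 2) (by norm_num) R' E'
  exact ⟨R'', by omega, hE''⟩

end Cfsg.Agent.S2293
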