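import Cfsg.Statements.S2296
import Cfsg.Agent.Lib.PresSp.Theta
import Cfsg.Agent.S2286
import Cfsg.Agent.Lib.PresSLn.ShortF

set_option autoImplicit false
open Cfsg

namespace Cfsg.Agent.S2296

/-- Let F be a finite field. Sp_2n(F) has a presentation with 10 generators and at most 58 relations for n ≥ 4, with 9 generators and at most 57 relations for n = 4 or 5, and with 8 generators and at most 52 relations for n = 3; in each case PSp_2n(F) has a presentation with the same number of generators and at most one more relation. -/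
theorem result {F : Type*} [Field F] [Fintype F] (n : ℕ) :
    (4 ≤ n → (∃ rels : Finset (FreeGroup (Fin 10)), rels.card ≤ 58 ∧ Nonempty (PresentedGroup (↑rels : Set (FreeGroup (Fin 10))) ≃* Matrix.symplecticGroup (Fin n) F)) ∧ (∃ rels : Finset (FreeGroup (Fin 10)), rels.card ≤ 59 ∧ Nonempty (PresentedGroup (↑rels : Set (FreeGroup (Fin 10))) ≃* Cfsg.PSp n F))) ∧
    ((n = 4 ∨ n = 5) → (∃ rels : Finset (FreeGroup (Fin 9)), rels.card ≤ 57 ∧ Nonempty (PresentedGroup (↑rels : Set (FreeGroup (Fin 9))) ≃* Matrix.symplecticGroup (Fin n) F)) ∧ (∃ rels : Finset (FreeGroup (Fin 9)), rels.card ≤ 58 ∧ Nonempty (PresentedGroup (↑rels : Set (FreeGroup (Fin 9))) ≃* Cfsg.PSp n F))) ∧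
    (n = 3 → (∃ rels : Finset (FreeGroup (Fin 8)), rels.card ≤ 52 ∧ Nonempty (PresentedGroup (↑rels : Set (FreeGroup (Fin 8))) ≃* Matrix.symplecticGroup (Fin n) F)) ∧ (∃ rels : Finset (FreeGroup (Fin 8)), rels.card ≤ 53 ∧ Nonempty (PresentedGroup (↑rels : Set (FreeGroup (Fin 8))) ≃* Cfsg.PSp n F))) := by
  classical
  obtain ⟨ζ, hζ⟩ := Lib.PresSp.Theta.exists_zeta (F := F)
  obtain ⟨⟨R2, hR2, ⟨E2⟩⟩, -, -⟩ := Cfsg.Agent.S2286.result (F := F)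
  refine ⟨fun hn => ?_, fun hn => ?_, fun hn => ?_⟩
  · obtain ⟨m, rfl⟩ : ∃ m, n = m + 1 := ⟨n - 1, by omega⟩
    obtain ⟨RA, hRA, ⟨EA⟩⟩ := Lib.PresSLn.ShortF.sl_seven (F := F) (m + 1) hn
    obtain ⟨R, hR, ⟨E⟩⟩ := Lib.PresSp.Theta.sp_ge (by omega) hζ RA EA R2 E2
    obtain ⟨R', hR', ⟨E'⟩⟩ := Lib.PresSLn.ShortP.to_fin R E
    refine ⟨⟨R', by omega, ⟨E'⟩⟩, ?_⟩
    obtain ⟨R'', hR'', hE''⟩ := Lib.PresSp.Theta.psp_of_sp (m := m + 1) (by omega) R' E'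
    exact ⟨R'', by omega, hE''⟩
  · rcases hn with rfl | rfl
    · obtain ⟨RA, hRA, ⟨EA⟩⟩ := Lib.PresSLn.ShortF.sl_four (F := F)
      obtain ⟨R, hR, ⟨E⟩⟩ := Lib.PresSp.Theta.sp_ge (m := 3) (by omega) hζ RA EA R2 E2
      obtain ⟨R', hR', ⟨E'⟩⟩ := Lib.PresSLn.ShortP.to_fin R E
      refine ⟨⟨R', by omega, ⟨E'⟩⟩, ?_⟩
      obtain ⟨R'', hR'', hE''⟩ := Lib.PresSp.Theta.psp_of_sp (m := 4) (by omega) R' E'
      exact ⟨R'', by omega, hE''⟩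
    · obtain ⟨RA, hRA, ⟨EA⟩⟩ := Lib.PresSLn.ShortF.sl_five (F := F)
      obtain ⟨R, hR, ⟨E⟩⟩ := Lib.PresSp.Theta.sp_ge (m := 4) (by omega) hζ RA EA R2 E2
      obtain ⟨R', hR', ⟨E'⟩⟩ := Lib.PresSLn.ShortP.to_fin R E
      refine ⟨⟨R', by omega, ⟨E'⟩⟩, ?_⟩
      obtain ⟨R'', hR'', hE''⟩ := Lib.PresSp.Theta.psp_of_sp (m := 5) (by omega) R' E'
      exact ⟨R'', by omega, hE''⟩
  · subst hn
    obtain ⟨RA, hRA, ⟨EA⟩⟩ := Lib.PresSLn.Pres.sl3_pres (F := F)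
    obtain ⟨R, hR, ⟨E⟩⟩ := Lib.PresSp.Theta.sp_ge (m := 2) (by omega) hζ RA EA R2 E2
    obtain ⟨R1, hR1, ⟨E1⟩⟩ := Lib.PresSLn.ShortP.to_fin R E
    obtain ⟨R2', hR2', ⟨E2'⟩⟩ := Lib.PresSLn.ShortP.add_dummy R1 E1
    obtain ⟨R', hR', ⟨E'⟩⟩ := Lib.PresSLn.ShortP.to_fin R2' E2'
    refine ⟨⟨R', by omega, ⟨E'⟩⟩, ?_⟩
    obtain ⟨R'', hR'', hE''⟩ := Lib.PresSp.Theta.psp_of_sp (m := 3) (by omega) R' E'
    exact ⟨R'', by omega, hE''⟩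

end Cfsg.Agent.S2296
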