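import Cfsg.Statements.S2292
import Cfsg.Agent.Lib.PresSp.Two4
import Cfsg.Agent.Lib.PresAlt.Tietze
import Cfsg.Agent.S2293
import Cfsg.Agent.S2296

set_option autoImplicit false
open Cfsg

namespace Cfsg.Agent.S2292

/-- Let F be a finite field with q elements and m ≥ 2 with (m, q) ≠ (2, 2). Then the simple group PSp_2m(F) has a presentation with 2 generators and at most 80 relations. -/
theorem result {F : Type*} [Field F] [Fintype F] (m : ℕ) (hm : 2 ≤ m) (h22 : ¬ (m = 2 ∧ Fintype.card F = 2)) :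
    ∃ rels : Finset (FreeGroup (Fin 2)), rels.card ≤ 80 ∧ Nonempty (PresentedGroup (↑rels : Set (FreeGroup (Fin 2))) ≃* Cfsg.PSp m F) := by
  classical
  obtain ⟨l, rfl⟩ : ∃ l, m = l + 1 := ⟨m - 1, by omega⟩
  have hq : l = 1 → ∃ d : F, d ≠ 0 ∧ d ≠ 1 := by
    intro h1
    subst h1
    have hc : Fintype.card F ≠ 2 := fun h => h22 ⟨rfl, h⟩
    by_contra hcon
    apply hc
    rw [← Finset.card_univ, Finset.card_eq_two]
    refine ⟨0, 1, zero_ne_one, ?_⟩
    ext d
    simp only [Finset.mem_insert, Finset.mem_singleton, Finset.mem_univ, true_iff]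
    by_contra hd
    push Not at hd
    exact hcon ⟨d, hd.1, hd.2⟩
  obtain ⟨a, b, hab⟩ := Lib.PresSp.Two.two_gen_sp (F := F) (m := l) (by omega) hq
  have hP : ∃ (k : ℕ) (R : Finset (FreeGroup (Fin k))), R.card ≤ 59 ∧
      Nonempty (PresentedGroup (↑R : Set (FreeGroup (Fin k))) ≃* Cfsg.PSp (l + 1) F) := by
    by_cases h1 : l = 1
    · subst h1
      obtain ⟨R, hR, he⟩ := (Cfsg.Agent.S2293.result (F := F)).2
      exact ⟨6, R, by omega, he⟩
    · by_cases h2 : l = 2
      · subst h2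
        obtain ⟨R, hR, he⟩ := ((Cfsg.Agent.S2296.result (F := F) 3).2.2 rfl).2
        exact ⟨8, R, by omega, he⟩
      · obtain ⟨R, hR, he⟩ := ((Cfsg.Agent.S2296.result (F := F) (l + 1)).1 (by omega)).2
        exact ⟨10, R, hR, he⟩
  obtain ⟨k, R, hR, ⟨e⟩⟩ := hP
  let π := QuotientGroup.mk' (Subgroup.center (Matrix.symplecticGroup (Fin (l + 1)) F))
  have hπ : Function.Surjective π := QuotientGroup.mk'_surjective _
  have hgen : Subgroup.closure ({π a, π b} : Set (Cfsg.PSp (l + 1) F)) = ⊤ := by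
    have := MonoidHom.map_closure π ({a, b} : Set _)
    rw [hab, Set.image_pair] at this
    rw [← this]
    exact (Subgroup.map_top_of_surjective _ hπ)
  obtain ⟨R', hR', e', -, -⟩ := Lib.PresAlt.Tietze.pair R e (π a) (π b) hgen
  exact ⟨R', by omega, ⟨e'⟩⟩

end Cfsg.Agent.S2292
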