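import Cfsg.Statements.S2295
import Cfsg.Agent.Lib.PresOm.Thm

set_option autoImplicit false
open Cfsg

namespace Cfsg.Agent.S2295

/-- Let F be a finite field and n ≥ 4, and let Ω⁺_2n(F) be the commutator subgroup of the orthogonal group of the hyperbolic quadratic form Σ x_i y_i, with PΩ⁺_2n(F) its central quotient. Then Ω⁺_2n(F) has a presentation with 8 generators and at most 31 relations (at most 29 if n = 4 or 5), and PΩ⁺_2n(F) one with 8 generators and at most 32 relations (at most 30 if n = 4 or 5). -/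
theorem result {F : Type*} [Field F] [Fintype F] (n : ℕ) (hn : 4 ≤ n) :
    (∃ rels : Finset (FreeGroup (Fin 8)), rels.card ≤ 31 ∧ Nonempty (PresentedGroup (↑rels : Set (FreeGroup (Fin 8))) ≃* ↥(Cfsg.Omega F (Cfsg.quadFormPlus n F)))) ∧ (∃ rels : Finset (FreeGroup (Fin 8)), rels.card ≤ 32 ∧ Nonempty (PresentedGroup (↑rels : Set (FreeGroup (Fin 8))) ≃* Cfsg.POmega F (Cfsg.quadFormPlus n F))) ∧
    (n ≤ 5 → (∃ rels : Finset (FreeGroup (Fin 8)), rels.card ≤ 29 ∧ Nonempty (PresentedGroup (↑rels : Set (FreeGroup (Fin 8))) ≃* ↥(Cfsg.Omega F (Cfsg.quadFormPlus n F)))) ∧ (∃ rels : Finset (FreeGroup (Fin 8)), rels.card ≤ 30 ∧ Nonempty (PresentedGroup (↑rels : Set (FreeGroup (Fin 8))) ≃* Cfsg.POmega F (Cfsg.quadFormPlus n F)))) := by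
  classical
  obtain ⟨k, rfl⟩ : ∃ k, n = k + 2 := ⟨n - 2, by omega⟩
  have hk : 2 ≤ k := by omega
  have hn7 : 7 ≤ Fintype.card (Fin (k + 2) ⊕ Fin (k + 2)) := by
    simp
    omega
  have six : ∀ (R6 : Finset (FreeGroup (Fin 6))),
      (PresentedGroup (↑R6 : Set (FreeGroup (Fin 6))) ≃* Matrix.SpecialLinearGroup (Fin (k + 2)) F) →
      ∃ rels : Finset (FreeGroup (Fin 8)), rels.card ≤ R6.card + ((if 3 ≤ k then 2 else 3) + 4) + 1 ∧
        Nonempty (PresentedGroup (↑rels : Set (FreeGroup (Fin 8))) ≃* ↥(Cfsg.Omega F (Cfsg.quadFormPlus (k + 2) F))) := by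
    intro R6 E6
    obtain ⟨R, hR, ⟨E⟩⟩ := Lib.PresOm.om_pres hk R6 E6
    obtain ⟨R1, hR1, ⟨E1⟩⟩ := Lib.PresSLn.ShortP.to_fin R E
    obtain ⟨R2, hR2, ⟨E2⟩⟩ := Lib.PresSLn.ShortP.add_dummy R1 E1
    obtain ⟨R3, hR3, ⟨E3⟩⟩ := Lib.PresSLn.ShortP.to_fin R2 E2
    exact ⟨R3, by omega, ⟨E3⟩⟩
  have key : ∃ rels : Finset (FreeGroup (Fin 8)), rels.card ≤ (if k ≤ 3 then 29 else 31) ∧
      Nonempty (PresentedGroup (↑rels : Set (FreeGroup (Fin 8))) ≃* ↥(Cfsg.Omega F (Cfsg.quadFormPlus (k + 2) F))) := by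
    by_cases h2 : k = 2
    · subst h2
      obtain ⟨R6, hR6, ⟨E6⟩⟩ := Lib.PresSLn.ShortF.sl_four (F := F)
      obtain ⟨R, hR, hE⟩ := six R6 E6
      refine ⟨R, ?_, hE⟩
      simp at hR ⊢
      omega
    by_cases h3 : k = 3
    · subst h3
      obtain ⟨R6, hR6, ⟨E6⟩⟩ := Lib.PresSLn.ShortF.sl_five (F := F)
      obtain ⟨R, hR, hE⟩ := six R6 E6
      refine ⟨R, ?_, hE⟩
      simp at hR ⊢
      omega
    · obtain ⟨RA, hRA, ⟨EA⟩⟩ := Lib.PresSLn.ShortF.sl_seven (F := F) (k + 2) hn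
      obtain ⟨R, hR, ⟨E⟩⟩ := Lib.PresOm.om_pres hk RA EA
      obtain ⟨R', hR', hE⟩ := Lib.PresSLn.ShortP.to_fin R E
      refine ⟨R', ?_, hE⟩
      rw [if_neg (by omega)]
      rw [if_pos (by omega)] at hR
      omega
  obtain ⟨R, hR, ⟨E⟩⟩ := key
  obtain ⟨R', hR', hE'⟩ := Lib.PresOm.pom_of_om _ hn7 R E
  have hR31 : R.card ≤ 31 := by
    split_ifs at hR <;> omega
  refine ⟨⟨R, hR31, ⟨E⟩⟩, ⟨R', by omega, hE'⟩, fun h5 => ?_⟩
  rw [if_pos (by omega)] at hR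
  exact ⟨⟨R, hR, ⟨E⟩⟩, ⟨R', by omega, hE'⟩⟩

end Cfsg.Agent.S2295
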