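import Cfsg.Statements.S2336
import Cfsg.Agent.Lib.WeilPerm.SLVec

set_option autoImplicit false
open Cfsg

namespace Cfsg.Agent.S2336

/-- Let F be a finite field with q elements and n ≥ 3. The permutation character of SL_n(F) on the non-zero vectors of F^n (the function sending a matrix to the number of non-zero vectors it fixes) is the sum of the principal character and q − 1 pairwise distinct irreducible complex characters. -/
theorem result {F : Type*} [Field F] [Fintype F] [DecidableEq F] (n : ℕ) (hn : 3 ≤ n) :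
    ∃ χ : Fin (Fintype.card F - 1) → (Matrix.SpecialLinearGroup (Fin n) F → ℂ),
      (∀ i, Cfsg.IsIrrCharacter (Matrix.SpecialLinearGroup (Fin n) F) (χ i)) ∧ Function.Injective χ ∧
      ∀ g : Matrix.SpecialLinearGroup (Fin n) F,
        (Nat.card {v : Fin n → F // v ≠ 0 ∧ (g : Matrix (Fin n) (Fin n) F).mulVec v = v} : ℂ) = 1 + ∑ i, χ i g := by
  classical
  letI : Fintype (Matrix.SpecialLinearGroup (Fin n) F) := Fintype.ofFinite _
  letI : Fintype (Cfsg.Agent.Lib.WeilPerm.SLVec.NZ n F) := Fintype.ofFinite _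
  haveI : MulAction.IsPretransitive (Matrix.SpecialLinearGroup (Fin n) F)
      (Cfsg.Agent.Lib.WeilPerm.SLVec.NZ n F) :=
    ⟨Cfsg.Agent.Lib.WeilPerm.SLVec.pretrans (by omega)⟩
  haveI : NeZero n := ⟨by omega⟩
  obtain ⟨a⟩ : Nonempty (Cfsg.Agent.Lib.WeilPerm.SLVec.NZ n F) := inferInstance
  have hr : Nat.card (MulAction.orbitRel.Quotient
      (MulAction.stabilizer (Matrix.SpecialLinearGroup (Fin n) F) a)
      (Cfsg.Agent.Lib.WeilPerm.SLVec.NZ n F)) = Fintype.card F := by
    let Φ : MulAction.orbitRel.Quotient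
        (MulAction.stabilizer (Matrix.SpecialLinearGroup (Fin n) F) a)
        (Cfsg.Agent.Lib.WeilPerm.SLVec.NZ n F) → Option Fˣ :=
      Quotient.lift (Cfsg.Agent.Lib.WeilPerm.SLVec.phi a) (by
        intro y z hyz
        obtain ⟨g, hg⟩ := hyz
        exact ((Cfsg.Agent.Lib.WeilPerm.SLVec.phi_iff hn a z y).mpr ⟨g.1, g.2, hg⟩).symm)
    have hΦ : Function.Bijective Φ := by
      constructor
      · intro y z
        induction y using Quotient.inductionOn with | _ y =>
        induction z using Quotient.inductionOn with | _ z =>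
        intro h
        obtain ⟨g, hg, hgz⟩ := (Cfsg.Agent.Lib.WeilPerm.SLVec.phi_iff hn a z y).mp h.symm
        exact Quotient.sound ⟨⟨g, hg⟩, hgz⟩
      · intro o
        obtain ⟨y, hy⟩ := Cfsg.Agent.Lib.WeilPerm.SLVec.phi_surj hn a o
        exact ⟨Quotient.mk'' y, hy⟩
    rw [Nat.card_congr (Equiv.ofBijective Φ hΦ), Nat.card_eq_fintype_card, Fintype.card_option,
      Fintype.card_units]
    have : 1 < Fintype.card F := Fintype.one_lt_card
    omega
  obtain ⟨χ, hχ1, hχ2, hχ3⟩ := Cfsg.Agent.Lib.WeilPerm.Gelfand.exists_decomp a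
    (Cfsg.Agent.Lib.WeilPerm.Gelfand.comm_of_gelfand Cfsg.Agent.Lib.WeilPerm.SLVec.tau
      (Cfsg.Agent.Lib.WeilPerm.SLVec.gelfand hn)) (Fintype.card F) hr
  refine ⟨χ, hχ1, hχ2, fun g => ?_⟩
  rw [← hχ3 g]
  congr 1
  refine Nat.card_congr ⟨fun v => ⟨⟨v.1, v.2.1⟩, Subtype.ext v.2.2⟩, fun x => ⟨x.1.1, x.1.2,
    congrArg Subtype.val x.2⟩, fun _ => rfl, fun _ => rfl⟩

end Cfsg.Agent.S2336
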