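import Cfsg.Statements.S2337
import Cfsg.Agent.Lib.SzDeg.Basic
-- import your own Cfsg.Agent.* helpers here

set_option autoImplicit false
open Cfsg

namespace Cfsg.Agent.S2337

/-- For the Suzuki group Sz(q), q = 2^(2m+1) with m ≥ 1 (realised inside Sp₄ over the field with q elements), every irreducible complex representation of degree at least 2 has degree at least 2^m·(q − 1). -/
theorem result {F : Type*} [Field F] [Fintype F] (m : ℕ) (hm : 1 ≤ m) (hF : Fintype.card F = 2 ^ (2 * m + 1)) :
    (∀ (k : ℕ) (ρ : Representation ℂ (Cfsg.Lie.Sz F (2 ^ (m + 1))) (Fin k → ℂ)), ρ.IsIrreducible → 2 ≤ k → 2 ^ m * (2 ^ (2 * m + 1) - 1) ≤ k) := by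
  intro k ρ hirr hk
  have hc := Cfsg.Agent.Lib.Suzuki.Stab.ctx_of_card hm hF
  haveI : CharP F 2 := Cfsg.Agent.Lib.Suzuki.Elements.charP_two_of_card hF
  let ρ' : Representation ℂ (Cfsg.Sz F m) (Fin k → ℂ) :=
    MonoidHom.comp ρ (Cfsg.Agent.Lib.SzIso.Basic.equivSz hc).toMonoidHom
  have hρ' : ∃ g, ρ' g ≠ 1 := by
    by_contra hcon
    push Not at hcon
    have htriv : ∀ g, ρ g = 1 := by
      intro g
      have := hcon ((Cfsg.Agent.Lib.SzIso.Basic.equivSz hc).symm g)
      simpa [ρ'] using this
    let e0 : Fin k → ℂ := Pi.single ⟨0, by omega⟩ 1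
    have he0 : e0 ≠ 0 := by
      intro h
      have := congrFun h ⟨0, by omega⟩
      simp [e0] at this
    let L : Subrepresentation ρ := ⟨Submodule.span ℂ {e0}, fun g v hv => by
      rw [htriv g]; simpa using hv⟩
    have hL := hirr.eq_bot_or_eq_top L
    rcases hL with hL | hL
    · have h1 : L.toSubmodule = ⊥ := congrArg Subrepresentation.toSubmodule hL
      have h2 : e0 ∈ L.toSubmodule := Submodule.mem_span_singleton_self e0
      rw [h1, Submodule.mem_bot] at h2
      exact he0 h2
    · have h1 : L.toSubmodule = ⊤ := congrArg Subrepresentation.toSubmodule hL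
      have h2 : Module.finrank ℂ L.toSubmodule = 1 := finrank_span_singleton he0
      rw [h1, finrank_top] at h2
      simp at h2
      omega
  have := Cfsg.Agent.Lib.SzDeg.Basic.main hc ρ' hρ'
  simpa using this

end Cfsg.Agent.S2337
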