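import Cfsg.Statements.S2338
import Cfsg.Agent.Lib.MinG2.Top

set_option autoImplicit false
open Cfsg

namespace Cfsg.Agent.S2338

/-- Lower bounds for the degrees of non-linear irreducible complex representations of the Chevalley group of type G₂ over a finite field with q elements: the degree is at least q³ + 1 when q ≡ 1 (mod 3) and q > 4, at least q³ − 1 when q ≡ 2 (mod 3) and q > 2, and at least q⁴ + q² + 1 when q ≡ 0 (mod 3) and q > 3. -/
theorem result {F : Type*} [Field F] [Fintype F] (k : ℕ) (ρ : Representation ℂ (Cfsg.Lie.chevG2.group F) (Fin k → ℂ)) (hρ : ρ.IsIrreducible) (hk : 2 ≤ k) :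
    (Fintype.card F % 3 = 1 → 4 < Fintype.card F → Fintype.card F ^ 3 + 1 ≤ k) ∧
    (Fintype.card F % 3 = 2 → 2 < Fintype.card F → Fintype.card F ^ 3 - 1 ≤ k) ∧
    (Fintype.card F % 3 = 0 → 3 < Fintype.card F → Fintype.card F ^ 4 + Fintype.card F ^ 2 + 1 ≤ k) := by
  exact Cfsg.Agent.Lib.MinG2.main k ρ hρ hk

end Cfsg.Agent.S2338
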