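import Cfsg.Statements.S2344
import Cfsg.Agent.Lib.OddDeg.Top

set_option autoImplicit false
open Cfsg

namespace Cfsg.Agent.S2344

/-- For a finite field F of odd order q > 3 and n ≥ 3, every irreducible complex representation of degree at least 2 of Ω_{2n+1}(F) (the commutator subgroup of the isometry group of the quadratic form x₀² + x₁y₁ + ⋯ + x_ny_n) has degree at least (q^{2n} − 1)/(q² − 1). -/
theorem result {F : Type*} [Field F] [Fintype F] (n : ℕ) (hn : 3 ≤ n) (hodd : Odd (Fintype.card F)) (h3 : 3 < Fintype.card F) :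
    (∀ (k : ℕ) (ρ : Representation ℂ (Cfsg.Omega F (Cfsg.quadFormOdd n F)) (Fin k → ℂ)), ρ.IsIrreducible → 2 ≤ k → (Fintype.card F ^ (2 * n) - 1) / (Fintype.card F ^ 2 - 1) ≤ k) := by
  intro k ρ hirr hk
  exact Cfsg.Agent.Lib.OddDeg.main_bound hodd h3 n hn k ρ hirr hk

end Cfsg.Agent.S2344
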