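import Cfsg.Statements.S2345
import Cfsg.Agent.Lib.OmDeg.PlusClass
import Cfsg.Agent.Lib.OmDeg.PlusConj
-- import your own Cfsg.Agent.* helpers here

set_option autoImplicit false
open Cfsg

namespace Cfsg.Agent.S2345

/-- For a finite field F with q > 3 elements and n ≥ 4, every irreducible complex representation of degree at least 2 of Ω⁺_{2n}(F) (the commutator subgroup of the isometry group of the hyperbolic quadratic form x₁y₁ + ⋯ + x_ny_n) has degree at least (q^n − 1)(q^{n−1} + q)/(q² − 1). -/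
theorem result {F : Type*} [Field F] [Fintype F] (n : ℕ) (hn : 4 ≤ n) (h3 : 3 < Fintype.card F) :
    (∀ (k : ℕ) (ρ : Representation ℂ (Cfsg.Omega F (Cfsg.quadFormPlus n F)) (Fin k → ℂ)), ρ.IsIrreducible → 2 ≤ k → (Fintype.card F ^ n - 1) * (Fintype.card F ^ (n - 1) + Fintype.card F) / (Fintype.card F ^ 2 - 1) ≤ k) := by
  intro k ρ hirr hk
  obtain ⟨m, rfl⟩ : ∃ m, n = m + 4 := ⟨n - 4, by omega⟩
  let a : Fin (m + 4) := ⟨0, by omega⟩
  let b : Fin (m + 4) := ⟨1, by omega⟩
  let c : Fin (m + 4) := ⟨2, by omega⟩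
  have hab : a ≠ b := by simp [a, b, Fin.ext_iff]
  have hac : a ≠ c := by simp [a, c, Fin.ext_iff]
  have hbc : b ≠ c := by simp [b, c, Fin.ext_iff]
  have hlt : a < b := by simp [a, b, Fin.lt_def]
  have hnt := Cfsg.Agent.Lib.SLDeg.Main.exists_ne_one_of_irr ρ hirr hk
  have hO : (Cfsg.Omega F (Cfsg.quadFormPlus (m + 4) F)).Normal := by
    unfold Cfsg.Omega
    infer_instance
  have hclass := Cfsg.Agent.Lib.OmDeg.PlusClass.class_count (F := F) (n := m + 4) (by omega) hab
  rw [Cfsg.Agent.Lib.OmDeg.PlusCount.card_PP (F := F) (by omega)] at hclass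
  have hq0 : 0 < Fintype.card F := Fintype.card_pos
  have hM : (Subgroup.centralizer ({Cfsg.Agent.Lib.OmDeg.PlusClass.x00 a b} : Set (Cfsg.isometryGroup F (Cfsg.quadFormPlus (m + 4) F)))).index *
      ((Fintype.card F - 1) * (Fintype.card F + 1)) =
      (Fintype.card F ^ (m + 4) - 1) * (Fintype.card F ^ (m + 3) + 1) *
        ((Fintype.card F ^ (m + 3) - 1) * (Fintype.card F ^ (m + 2) + 1)) := by
    apply Nat.eq_of_mul_eq_mul_left hq0
    simp only [show m + 4 - 1 = m + 3 from rfl, show m + 4 - 2 = m + 2 from rfl] at hclass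
    linarith
  have := Cfsg.Agent.Lib.OmDeg.Abs.main_abs (V := Fin k → ℂ) (hirr := hirr) h3 (Cfsg.Agent.Lib.OmDeg.Plus.plusSD h3 (by omega : 1 ≤ m + 4)) ρ hnt hlt
    (Cfsg.Agent.Lib.OmDeg.PlusConj.conj_root h3 (by omega) hab hac hbc)
    (fun h => Cfsg.Agent.Lib.OmDeg.PlusConj.triv_of_u h3 (by omega) hab hac hbc ρ h) _
    (Cfsg.Agent.Lib.OmDeg.PlusClass.index_centralizer_dvd _ _) hM
  rw [Module.finrank_fin_fun] at this
  simpa using this

end Cfsg.Agent.S2345
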