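import Cfsg.Statements.S2346
import Cfsg.Agent.Lib.MinDeg.Final
-- import your own Cfsg.Agent.* helpers here

set_option autoImplicit false
open Cfsg

namespace Cfsg.Agent.S2346

/-- For a finite field F with q elements, n ≥ 4, and a, b ∈ F with z₁² + a z₁z₂ + b z₂² anisotropic, every irreducible complex representation of degree at least 2 of Ω⁻_{2n}(F) (the commutator subgroup of the isometry group of x₁y₁ + ⋯ + x_{n−1}y_{n−1} + z₁² + a z₁z₂ + b z₂²) has degree at least (q^n + 1)(q^{n−1} − q)/(q² − 1). -/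
theorem result {F : Type*} [Field F] [Fintype F] (n : ℕ) (hn : 4 ≤ n) (a b : F) (hab : ∀ z₁ z₂ : F, z₁ ^ 2 + a * z₁ * z₂ + b * z₂ ^ 2 = 0 → z₁ = 0 ∧ z₂ = 0) :
    (∀ (k : ℕ) (ρ : Representation ℂ (Cfsg.Omega F (Cfsg.quadFormMinus (n - 1) F a b)) (Fin k → ℂ)), ρ.IsIrreducible → 2 ≤ k → (Fintype.card F ^ n + 1) * (Fintype.card F ^ (n - 1) - Fintype.card F) / (Fintype.card F ^ 2 - 1) ≤ k) := by
  intro k ρ hirr hk
  obtain ⟨m, rfl⟩ : ∃ m, n = m + 4 := ⟨n - 4, by omega⟩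
  have hq : 2 ≤ Fintype.card F := Fintype.one_lt_card
  have hnt := Cfsg.Agent.Lib.SLDeg.Main.exists_ne_one_of_irr ρ hirr hk
  have hz : ρ (Cfsg.Agent.Lib.MinDeg.Ind.ZZ (m + 1) hab) ≠ 1 := by
    intro h0
    obtain ⟨g, hg⟩ := hnt
    apply hg
    exact Cfsg.Agent.Lib.MinDeg.Gen.triv_of_z (Cfsg.Agent.Lib.MinDeg.Minus.heM (m + 2) F a b) (Cfsg.Agent.Lib.MinDeg.Minus.heM (m + 1) F a b)
      (Cfsg.Agent.Lib.MinDeg.Minus.nd_minus hab) (Cfsg.Agent.Lib.MinDeg.Minus.nd_minus hab) (Cfsg.Agent.Lib.MinDeg.Minus.nd_minus hab)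
      (Cfsg.Agent.Lib.MinDeg.Minus.perp_minus hab) (Cfsg.Agent.Lib.MinDeg.Minus.perp_minus hab) (Cfsg.Agent.Lib.MinDeg.Minus.univ_minus hab)
      (Cfsg.Agent.Lib.MinDeg.Minus.univ_minus hab) _ (Cfsg.Agent.Lib.MinDeg.Ind.card_i m) h0 g
  have := Cfsg.Agent.Lib.MinDeg.Final.good_all hab m (Fin k → ℂ) ρ hz
  rw [Module.finrank_fin_fun] at this
  exact this

end Cfsg.Agent.S2346
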