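-- Proof of statement S2352 (row 2352).
import Cfsg.Statements.S2352
import Cfsg.Agent.Lib.Laws.PingPong
import Cfsg.Agent.Lib.Laws.AltEmbed
import Mathlib

set_option autoImplicit false
open Cfsg

namespace Cfsg.Agent.S2352

open Cfsg.Agent.Lib.Laws.PingPong Cfsg.Agent.Lib.Laws.AltEmbed

theorem result (w : FreeGroup ℕ) (hw : w ≠ 1) :
    ∃ N : ℕ, ∀ n : ℕ, N ≤ n → ∃ f : ℕ → alternatingGroup (Fin n), FreeGroup.lift f w ≠ 1 := by
  obtain ⟨p, hp1, hp2⟩ := Nat.exists_infinite_primes (cost w.toWord + 1)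
  haveI : Fact p.Prime := ⟨hp2⟩
  obtain ⟨s, hs⟩ := exists_good_s (F := ZMod p) w hw (by rw [ZMod.card]; omega)
  refine ⟨2 * Nat.card (Matrix.SpecialLinearGroup (Fin 2) (ZMod p)), ?_⟩
  intro n hn
  obtain ⟨ι, hι⟩ := exists_embedding (Matrix.SpecialLinearGroup (Fin 2) (ZMod p)) n hn
  refine ⟨fun i => ι (xEl s i), ?_⟩
  have h1 : FreeGroup.lift (fun i => ι (xEl s i)) w = ι (FreeGroup.lift (xEl s) w) := by
    have : (FreeGroup.lift (fun i => ι (xEl s i))) = ι.comp (FreeGroup.lift (xEl s)) := by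
      apply FreeGroup.ext_hom
      intro a
      simp
    rw [this]
    rfl
  rw [h1]
  intro h2
  have h3 : FreeGroup.lift (xEl s) w = 1 := hι (by rw [h2, map_one])
  have h4 := lift_not_scalar s w hs 1
  apply h4
  rw [h3]
  simp

end Cfsg.Agent.S2352
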