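-- Proof of statement S2353 (row 2353).
import Cfsg.Statements.S2353
import Cfsg.Agent.Lib.Laws.PingPong
import Mathlib

set_option autoImplicit false
open Cfsg

namespace Cfsg.Agent.S2353

open Cfsg.Agent.Lib.Laws.PingPong

theorem result (w : FreeGroup ℕ) (hw : w ≠ 1) :
    ∃ N : ℕ, ∀ (F : Type*) [Field F] [Fintype F], N ≤ Fintype.card F →
      ∃ f : ℕ → Matrix.ProjectiveSpecialLinearGroup (Fin 2) F, FreeGroup.lift f w ≠ 1 := by
  refine ⟨cost w.toWord + 1, ?_⟩
  intro F _ _ hF
  obtain ⟨s, hs⟩ := exists_good_s (F := F) w hw (by omega)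
  let π : Matrix.SpecialLinearGroup (Fin 2) F →* Matrix.ProjectiveSpecialLinearGroup (Fin 2) F :=
    QuotientGroup.mk' _
  refine ⟨fun i => π (xEl s i), ?_⟩
  have h1 : FreeGroup.lift (fun i => π (xEl s i)) w = π (FreeGroup.lift (xEl s) w) := by
    have : (FreeGroup.lift (fun i => π (xEl s i))) = π.comp (FreeGroup.lift (xEl s)) := by
      apply FreeGroup.ext_hom
      intro a
      simp
    rw [this]
    rfl
  rw [h1]
  intro h2
  have h3 : FreeGroup.lift (xEl s) w ∈ Subgroup.center (Matrix.SpecialLinearGroup (Fin 2) F) :=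
    (QuotientGroup.eq_one_iff _).1 h2
  obtain ⟨r, _, hr⟩ := Matrix.SpecialLinearGroup.mem_center_iff.1 h3
  exact lift_not_scalar s w hs r hr.symm

end Cfsg.Agent.S2353
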