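-- Proof of statement S2354 (row 2354).
import Cfsg.Statements.S2354
import Cfsg.Agent.Lib.Laws.SuzukiWord
import Mathlib

set_option autoImplicit false
open Cfsg

namespace Cfsg.Agent.S2354

open Cfsg.Agent.Lib.Laws.SuzukiWord Cfsg.Agent.Lib.Laws.SuzukiPoly
open Cfsg.Agent.Lib.Laws.PingPong (cost)

theorem result (w : FreeGroup ℕ) (hw : w ≠ 1) :
    ∃ N : ℕ, ∀ (F : Type*) [Field F] [Fintype F] (m : ℕ), 1 ≤ m → N ≤ m →
      Fintype.card F = 2 ^ (2 * m + 1) →
      ∃ f : ℕ → ↥(Cfsg.Lie.Sz F (2 ^ (m + 1))), FreeGroup.lift f w ≠ 1 := by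
  refine ⟨cost w.toWord + 2, ?_⟩
  intro F _ _ m hm hN hcard
  -- characteristic two
  have h2 : (2 : F) = 0 := by
    have h1 : ((Fintype.card F : ℕ) : F) = 0 := Nat.cast_card_eq_zero F
    rw [hcard] at h1
    push_cast at h1
    exact pow_eq_zero_iff (by omega) |>.1 h1
  set e := 2 ^ (m + 1) with he_def
  have he : e ≠ 0 := by positivity
  have he1 : 1 ≤ e := Nat.one_le_iff_ne_zero.2 he
  have hθ : ∀ x : F, (x ^ e) ^ e = x ^ 2 := by
    intro x
    have h1 : e * e = Fintype.card F * 2 := by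
      rw [hcard, he_def, ← pow_add, ← pow_succ]
      congr 1
      omega
    rw [← pow_mul, h1, pow_mul, FiniteField.pow_card]
  -- the polynomial
  have hne : w.toWord ≠ [] := fun h => hw (FreeGroup.toWord_eq_nil_iff.1 h)
  have hred := FreeGroup.isReduced_toWord (x := w)
  have h0 := vecS_d_ne_zero (F := F) e he1 hred hne
  have hbnd := (bnd_vecS (F := F) e w.toWord).2.2.2
  -- the degree is small
  have hlt : cost w.toWord * (e + 2) < Fintype.card F := by
    rw [hcard]
    have h3 : cost w.toWord < 2 ^ (m - 1) := by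
      have := Nat.lt_two_pow_self (n := m - 1)
      omega
    have h4 : e + 2 ≤ 2 ^ (m + 2) := by
      have h5 : 2 ≤ 2 ^ (m + 1) := by
        calc 2 = 2 ^ 1 := rfl
          _ ≤ 2 ^ (m + 1) := Nat.pow_le_pow_right (by norm_num) (by omega)
      rw [he_def, pow_succ 2 (m + 1)]
      omega
    calc cost w.toWord * (e + 2) ≤ cost w.toWord * 2 ^ (m + 2) := Nat.mul_le_mul_left _ h4
      _ < 2 ^ (m - 1) * 2 ^ (m + 2) := Nat.mul_lt_mul_of_pos_right h3 (by positivity)
      _ = 2 ^ (2 * m + 1) := by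
        rw [← pow_add]
        congr 1
        omega
  obtain ⟨s, hs⟩ := Polynomial.exists_eval_ne_zero_of_natDegree_lt_card _ h0 (by
    calc (((vecS (F := F) e w.toWord).d).natDegree : Cardinal)
        ≤ ((cost w.toWord * (e + 2) : ℕ) : Cardinal) := by exact_mod_cast hbnd
      _ < (Fintype.card F : Cardinal) := by exact_mod_cast hlt
      _ = Cardinal.mk F := by simp)
  exact lift_ne_one h2 e he hθ s w hs

end Cfsg.Agent.S2354
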