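import Cfsg.Statements.S2355
import Cfsg.Agent.Lib.Laws.Unitary

set_option autoImplicit false
open Cfsg

namespace Cfsg.Agent.S2355

open Cfsg.Agent.Lib.Laws.PingPong Cfsg.Agent.Lib.Laws.Core Cfsg.Agent.Lib.Laws.Families
  Cfsg.Agent.Lib.Laws.Unitary

/-- A non-trivial law is satisfied by only finitely many finite simple groups that are alternating or classical, up to isomorphism: for every non-trivial element w of the free group on countably many generators there is a bound N such that every alternating group of degree ≥ 5 and every simple classical group (linear, symplectic, unitary or orthogonal, in this problem's sense) in which w is a law has order at most N. -/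
theorem result (w : FreeGroup ℕ) (hw : w ≠ 1) :
    ∃ N : ℕ, ∀ (G : Type*) [Group G] [Finite G],
      (Cfsg.IsAlternating G ∨ Cfsg.IsPSL G ∨ Cfsg.IsPSp G ∨ Cfsg.IsPSU G ∨ Cfsg.IsPOmegaOdd G ∨
          Cfsg.IsPOmegaPlus G ∨ Cfsg.IsPOmegaMinus G) →
      (∀ f : ℕ → G, FreeGroup.lift f w = 1) → Nat.card G ≤ N := by
  obtain ⟨N₁, hN₁⟩ := exists_alt_bound w hw
  set R := max N₁ 5 with hR
  have hR1 : ∀ n, R ≤ n → NoLaw (alternatingGroup (Fin n)) w := fun n hn =>
    hN₁ n (le_trans (le_max_left _ _) hn)
  have hR5 : 5 ≤ R := le_max_right _ _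
  set c := cost w.toWord with hc
  set B := ((c + 1) ^ 2) ^ ((2 * R + 2) ^ 2) with hB
  refine ⟨R.factorial + B, ?_⟩
  intro G _ _ hfam hlaw
  have hB1 : 1 ≤ (c + 1) ^ 2 := Nat.one_le_pow _ _ (by omega)
  have hsmall : ∀ m, m ≤ c → m ≤ (c + 1) ^ 2 := fun m hm => by nlinarith
  rcases hfam with ⟨n, _, ⟨e⟩⟩ | ⟨F, _, _, n, hn, -, ⟨e⟩⟩ | ⟨F, _, _, m, hm, -, ⟨e⟩⟩ |
    ⟨F, _, _, n, q, hq, hn, -, ⟨e⟩⟩ | ⟨F, _, _, m, hm, -, ⟨e⟩⟩ | ⟨F, _, _, m, hm, ⟨e⟩⟩ |
    ⟨F, _, _, m, a, b, hm, -, ⟨e⟩⟩
  · -- alternating
    have hnR : n < R := by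
      by_contra h
      obtain ⟨f, hf⟩ := hR1 n (not_lt.1 h)
      apply hf
      have hn5 : 5 ≤ n := (le_max_right _ _).trans (not_lt.1 h)
      have h1 := hlaw (fun i => e.symm (f i))
      have h2 := lift_comp e.symm.toMonoidHom f w
      simp only [MulEquiv.coe_toMonoidHom] at h2
      rw [h2] at h1
      have h3 := e.symm.map_eq_one_iff.1 h1
      rw [h3]
      exact Subgroup.one_mem _
    have h1 : Nat.card G = Nat.card (alternatingGroup (Fin n)) := Nat.card_congr e.toEquiv
    have h2 : Nat.card (alternatingGroup (Fin n)) ≤ Nat.card (Equiv.Perm (Fin n)) :=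
      Subgroup.card_le_card_group _
    have h3 : Nat.card (Equiv.Perm (Fin n)) = n.factorial := by
      rw [Nat.card_eq_fintype_card, Fintype.card_perm, Fintype.card_fin]
    have h4 : n.factorial ≤ R.factorial := Nat.factorial_le hnR.le
    omega
  · -- linear
    have hnl := not_noLaw_of_law e hlaw
    have hnR : n < R := by
      by_contra h
      exact hnl (noLaw_SL_of_rank w (hR1 n (not_lt.1 h)))
    have hFc : Fintype.card F ≤ c := by
      by_contra h
      exact hnl (noLaw_SL_of_field w hw (not_le.1 h) hn)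
    have := card_of_law _ e (B := B) (card_matrix_le (D := 2 * R + 2) (by simp; omega) (hsmall _ hFc) hB1
      (fun x : Matrix.SpecialLinearGroup (Fin n) F => x.1) Subtype.val_injective)
    omega
  · -- symplectic
    have hnl := not_noLaw_of_law e hlaw
    have hnR : m < R := by
      by_contra h
      exact hnl (noLaw_Sp_of_rank w (hR1 m (not_lt.1 h)))
    have hFc : Fintype.card F ≤ c := by
      by_contra h
      exact hnl (noLaw_Sp_of_field w hw (not_le.1 h) hm)
    have := card_of_law _ e (B := B) (card_matrix_le (D := 2 * R + 2) (by simp; omega) (hsmall _ hFc) hB1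
      (fun x : Matrix.symplecticGroup (Fin m) F => x.1) Subtype.val_injective)
    omega
  · -- unitary
    have hnl := not_noLaw_of_law e hlaw
    have hnR : n < R := by
      by_contra h
      exact hnl (noLaw_SU_of_rank q (hR1 n (not_lt.1 h)))
    have hFc : q ≤ c := by
      by_contra h
      exact hnl (noLaw_SU_of_field hq (by omega) w hw (not_le.1 h))
    have hFc2 : Fintype.card F ≤ (c + 1) ^ 2 := by
      rw [hq]
      exact Nat.pow_le_pow_left (by omega) 2
    have := card_of_law _ e (B := B) (card_matrix_le (D := 2 * R + 2) (by simp; omega) hFc2 hB1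
      (fun x : SU n F q => x.1.1) (fun a b h => Subtype.ext (Subtype.ext h)))
    omega
  · -- odd orthogonal
    have hnl := not_noLaw_of_law e hlaw
    have hnR : m < R := by
      by_contra h
      exact hnl (noLaw_omega_of_alt (isoOdd m F) (isoOdd_injective m) (hR5.trans (not_lt.1 h))
        (hR1 m (not_lt.1 h)))
    have hFc : Fintype.card F ≤ c := by
      by_contra h
      exact hnl (noLaw_omega_of_field (isoOdd m F) (isoOdd_injective m) hm w hw (not_le.1 h))
    have := card_of_law _ e (B := B) (card_matrix_le (D := 2 * R + 2) (by simp; omega) (hsmall _ hFc) hB1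
      (fun x : Omega F (quadFormOdd m F) => x.1.1.1)
      (fun a b h => Subtype.ext (Subtype.ext (Units.ext h))))
    omega
  · -- plus orthogonal
    have hnl := not_noLaw_of_law e hlaw
    have hnR : m < R := by
      by_contra h
      exact hnl (noLaw_omega_of_alt (isoPlus m F) (isoPlus_injective m) (hR5.trans (not_lt.1 h))
        (hR1 m (not_lt.1 h)))
    have hFc : Fintype.card F ≤ c := by
      by_contra h
      exact hnl (noLaw_omega_of_field (isoPlus m F) (isoPlus_injective m) (by omega) w hw (not_le.1 h))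
    have := card_of_law _ e (B := B) (card_matrix_le (D := 2 * R + 2) (by simp; omega) (hsmall _ hFc) hB1
      (fun x : Omega F (quadFormPlus m F) => x.1.1.1)
      (fun a b h => Subtype.ext (Subtype.ext (Units.ext h))))
    omega
  · -- minus orthogonal
    have hnl := not_noLaw_of_law e hlaw
    have hnR : m - 1 < R := by
      by_contra h
      exact hnl (noLaw_omega_of_alt (isoMinus (m - 1) F a b) (isoMinus_injective _ a b)
        (hR5.trans (not_lt.1 h)) (hR1 _ (not_lt.1 h)))
    have hFc : Fintype.card F ≤ c := by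
      by_contra h
      exact hnl (noLaw_omega_of_field (isoMinus (m - 1) F a b) (isoMinus_injective _ a b) (by omega) w hw (not_le.1 h))
    have := card_of_law _ e (B := B) (card_matrix_le (D := 2 * R + 2) (by simp; omega) (hsmall _ hFc) hB1
      (fun x : Omega F (quadFormMinus (m - 1) F a b) => x.1.1.1)
      (fun a b h => Subtype.ext (Subtype.ext (Units.ext h))))
    omega

end Cfsg.Agent.S2355
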