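import Cfsg.Statements.S2356
import Cfsg.Agent.Lib.Witt.SU3Graph
import Cfsg.Agent.Lib.Classical.SympSimple

set_option autoImplicit false
open Cfsg

namespace Cfsg.Agent.S2356

/-- Let q be odd, F the field with q² elements, S = SU_3(F) (determinant-one isometries of the standard Hermitian form) and t an involution of S. Then: exactly q(q−1) involutions other than t commute with t; exactly q(q−2)(q²−1) involutions do not commute with t but commute with some involution commuting with t; exactly (q+1)(q²−1) involutions x do not commute with t and admit no involution commuting with both t and x; and every involution can be reached from t in at most three steps, each step going to an involution that commutes with the previous one (the commuting involution graph is connected of diameter 3). -/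
theorem result {F : Type*} [Field F] [Fintype F] {q : ℕ} (hq : Odd q)
    (hF : Fintype.card F = q ^ 2) (t : ↥(Cfsg.SU 3 F q)) (ht : t ≠ 1) (ht2 : t * t = 1) :
    Nat.card {x : ↥(Cfsg.SU 3 F q) // x ≠ 1 ∧ x * x = 1 ∧ x ≠ t ∧ Commute t x} = q * (q - 1) ∧
    Nat.card {x : ↥(Cfsg.SU 3 F q) // x ≠ 1 ∧ x * x = 1 ∧ ¬ Commute t x ∧
        ∃ y : ↥(Cfsg.SU 3 F q), y ≠ 1 ∧ y * y = 1 ∧ Commute t y ∧ Commute y x} = q * (q - 2) * (q ^ 2 - 1) ∧
    Nat.card {x : ↥(Cfsg.SU 3 F q) // x ≠ 1 ∧ x * x = 1 ∧ ¬ Commute t x ∧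
        ∀ y : ↥(Cfsg.SU 3 F q), y ≠ 1 → y * y = 1 → ¬ (Commute t y ∧ Commute y x)} = (q + 1) * (q ^ 2 - 1) ∧
    ∀ x : ↥(Cfsg.SU 3 F q), x ≠ 1 → x * x = 1 →
      ∃ y z : ↥(Cfsg.SU 3 F q), y ≠ 1 ∧ y * y = 1 ∧ z ≠ 1 ∧ z * z = 1 ∧
        Commute t y ∧ Commute y z ∧ Commute z x := by
  have h2 : (2 : F) ≠ 0 := by
    intro h
    have hev := (Cfsg.Agent.Lib.Classical.SympSimple.two_eq_zero_iff_even_card (F := F)).1 h
    rw [hF] at hev
    exact (Nat.not_even_iff_odd.2 (hq.pow)) hev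
  obtain ⟨u, hu, rfl⟩ := Cfsg.Agent.Lib.Witt.SU3Invol.exists_refl hF h2 t ht2 ht
  obtain ⟨P, hP⟩ := Cfsg.Agent.Lib.Witt.SU3Invol.conj_to_t₀ hF u hu
  have hφ : Cfsg.Agent.Lib.Witt.SU3Invol.refl hF u hu =
      (MulAut.conj P) (Cfsg.Agent.Lib.Witt.SU3Invol.t₀ hF) := by
    rw [hP]
    rfl
  rw [hφ]
  refine ⟨?_, ?_, ?_, ?_⟩
  · rw [Cfsg.Agent.Lib.Witt.SU3Graph.transport_one]
    exact Cfsg.Agent.Lib.Witt.SU3Graph.count_one hF h2
  · rw [Cfsg.Agent.Lib.Witt.SU3Graph.transport_two]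
    exact Cfsg.Agent.Lib.Witt.SU3Graph.count_two hF h2
  · rw [Cfsg.Agent.Lib.Witt.SU3Graph.transport_three]
    exact Cfsg.Agent.Lib.Witt.SU3Graph.count_three hF h2
  · intro x hx hx2
    have hx' := (Cfsg.Agent.Lib.Witt.SU3Graph.inv_map (MulAut.conj P) ((MulAut.conj P).symm x))
    simp only [MulEquiv.apply_symm_apply] at hx'
    obtain ⟨hx1', hx2'⟩ := hx'.1 ⟨hx, hx2⟩
    obtain ⟨y, z, hy1, hy2, hz1, hz2, h1, h3, h4⟩ :=
      Cfsg.Agent.Lib.Witt.SU3Graph.path_t₀ hF h2 _ hx1' hx2'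
    have hy := (Cfsg.Agent.Lib.Witt.SU3Graph.inv_map (MulAut.conj P) y).2 ⟨hy1, hy2⟩
    have hz := (Cfsg.Agent.Lib.Witt.SU3Graph.inv_map (MulAut.conj P) z).2 ⟨hz1, hz2⟩
    refine ⟨MulAut.conj P y, MulAut.conj P z, hy.1, hy.2, hz.1, hz.2, ?_, ?_, ?_⟩
    · exact (Cfsg.Agent.Lib.Witt.SU3Graph.comm_map _ _ _).2 h1
    · exact (Cfsg.Agent.Lib.Witt.SU3Graph.comm_map _ _ _).2 h3
    · have := (Cfsg.Agent.Lib.Witt.SU3Graph.comm_map (MulAut.conj P) z ((MulAut.conj P).symm x)).2 h4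
      rwa [MulEquiv.apply_symm_apply] at this

end Cfsg.Agent.S2356
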