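import Cfsg.Statements.S2444
import Cfsg.Agent.Lib.SLComm.Q2

set_option autoImplicit false
open Cfsg

namespace Cfsg.Agent.S2444

/-- In the special linear group SL(n,F) over a finite field F, with n ≥ 2 and (n, |F|) not (2,2) or (2,3), every element is a commutator a·b·a⁻¹·b⁻¹ of two elements of SL(n,F). -/
theorem result {F : Type*} [Field F] [Fintype F] (n : ℕ) (hn : 2 ≤ n) (hex : n = 2 → 4 ≤ Fintype.card F) :
    ∀ g : Matrix.SpecialLinearGroup (Fin n) F, ∃ a b : Matrix.SpecialLinearGroup (Fin n) F, g = a * b * a⁻¹ * b⁻¹ := by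
  intro g
  have hdet : (Matrix.toLin' g.1).det = 1 := by
    rw [LinearMap.det_toLin']
    exact g.2
  obtain ⟨x, y, hx, hy, hxy⟩ := Cfsg.Agent.Lib.SLComm.commP_final
    (Cfsg.Agent.Lib.SLComm.obOf (Matrix.toLin' g.1)) hdet
    (by
      intro h
      apply hex
      have e : Module.finrank F (Fin n → F) = n := by simp
      exact e.symm.trans h)
    (by
      have e : Module.finrank F (Fin n → F) = n := by simp
      exact hn.trans_eq e.symm)
  change (Fin n → F) →ₗ[F] (Fin n → F) at x y
  have hx' : (LinearMap.toMatrix' x).det = 1 := by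
    rw [← hx, LinearMap.det_toMatrix']
  have hy' : (LinearMap.toMatrix' y).det = 1 := by
    rw [← hy, LinearMap.det_toMatrix']
  refine ⟨⟨LinearMap.toMatrix' x, hx'⟩, ⟨LinearMap.toMatrix' y, hy'⟩, ?_⟩
  set A : Matrix.SpecialLinearGroup (Fin n) F := ⟨LinearMap.toMatrix' x, hx'⟩ with hA
  set B : Matrix.SpecialLinearGroup (Fin n) F := ⟨LinearMap.toMatrix' y, hy'⟩ with hB
  have key : g * B * A = A * B := by
    apply Subtype.ext
    show g.1 * LinearMap.toMatrix' y * LinearMap.toMatrix' x =
      LinearMap.toMatrix' x * LinearMap.toMatrix' y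
    have hxy' : Matrix.toLin' g.1 ∘ₗ y ∘ₗ x = x ∘ₗ y := hxy
    have := congrArg LinearMap.toMatrix' hxy'
    rw [LinearMap.toMatrix'_comp, LinearMap.toMatrix'_comp, LinearMap.toMatrix'_comp,
      LinearMap.toMatrix'_toLin'] at this
    rw [mul_assoc]
    exact this
  have : g = A * B * (B * A)⁻¹ := by
    rw [← key]
    group
  rw [this, mul_inv_rev]
  group

end Cfsg.Agent.S2444
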