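import Cfsg.Statements.S2450
import Cfsg.Agent.Lib.SLn.Basic
-- import your own Cfsg.Agent.* helpers here

set_option autoImplicit false
open Cfsg

namespace Cfsg.Agent.S2450

section aux

open Matrix Cfsg.Agent.Lib.SLn.Basic

variable {F : Type*} [Field F]

local notation "SL2" => Matrix.SpecialLinearGroup (Fin 2) F

/-- A non-scalar element has a conjugate with non-zero lower left entry. -/
lemma exists_conj_ne (X : SL2) (hX : ¬ ∃ c : F, (X : Matrix (Fin 2) (Fin 2) F) = Matrix.scalar (Fin 2) c) :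
    ∃ U : SL2, ((U * X * U⁻¹ : SL2) : Matrix (Fin 2) (Fin 2) F) 1 0 ≠ 0 := by
  by_cases h10 : (X : Matrix (Fin 2) (Fin 2) F) 1 0 = 0
  · by_cases h01 : (X : Matrix (Fin 2) (Fin 2) F) 0 1 = 0
    · have hne : (X : Matrix (Fin 2) (Fin 2) F) 0 0 ≠ (X : Matrix (Fin 2) (Fin 2) F) 1 1 := by
        intro he
        apply hX
        refine ⟨(X : Matrix (Fin 2) (Fin 2) F) 0 0, ?_⟩
        ext i j
        fin_cases i <;> fin_cases j <;> simp [h10, h01, ← he]
      let U : SL2 := ⟨!![1, 0; 1, 1], by simp [det_fin_two]⟩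
      refine ⟨U, ?_⟩
      rw [Matrix.SpecialLinearGroup.coe_mul, Matrix.SpecialLinearGroup.coe_mul,
        Matrix.SpecialLinearGroup.coe_inv, Matrix.adjugate_fin_two]
      simp [U, Matrix.mul_apply, Fin.sum_univ_two, Matrix.vecMul, dotProduct, h10, h01]
      intro h
      exact hne (by linear_combination h)
    · let U : SL2 := ⟨!![0, 1; -1, 0], by simp [det_fin_two]⟩
      refine ⟨U, ?_⟩
      rw [Matrix.SpecialLinearGroup.coe_mul, Matrix.SpecialLinearGroup.coe_mul,
        Matrix.SpecialLinearGroup.coe_inv, Matrix.adjugate_fin_two]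
      simp [U, Matrix.mul_apply, Fin.sum_univ_two, Matrix.vecMul, dotProduct, h10, h01]
  · refine ⟨1, ?_⟩
    simpa using h10

/-- upper unitriangular -/
def uUp (y : F) : SL2 := ⟨!![1, y; 0, 1], by simp [det_fin_two]⟩

lemma uUp_neg (y : F) : uUp (-y) = (uUp y)⁻¹ := by
  rw [eq_inv_iff_mul_eq_one]
  apply Subtype.ext
  rw [Matrix.SpecialLinearGroup.coe_mul, Matrix.SpecialLinearGroup.coe_one]
  ext i j
  fin_cases i <;> fin_cases j <;> simp [uUp, Matrix.mul_apply, Fin.sum_univ_two]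

/-- Conjugate elements of `PSL₂` have traces with equal squares. -/
lemma trace_sq_eq {C Z : SL2} (h : IsConj (toPSL C) (toPSL Z)) :
    (Matrix.trace (Z : Matrix (Fin 2) (Fin 2) F)) ^ 2 = (Matrix.trace (C : Matrix (Fin 2) (Fin 2) F)) ^ 2 := by
  rw [isConj_iff] at h
  obtain ⟨w, hw⟩ := h
  obtain ⟨W, rfl⟩ := toPSL_surjective w
  have h1 : toPSL (Z⁻¹ * (W * C * W⁻¹)) = 1 := by
    rw [map_mul, map_inv, map_mul, map_mul, map_inv, hw]
    simp
  rw [toPSL_eq_one_iff] at h1
  obtain ⟨r, hr⟩ := h1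
  have hdet : r ^ 2 = 1 := by
    have := congrArg Matrix.det hr
    rw [Matrix.SpecialLinearGroup.det_coe, Matrix.scalar_apply, Matrix.det_diagonal] at this
    simpa [Fin.prod_univ_two, pow_two] using this.symm
  have h2 : (W * C * W⁻¹ : SL2) = Z * (Z⁻¹ * (W * C * W⁻¹)) := by group
  have h3 : Matrix.trace ((W * C * W⁻¹ : SL2) : Matrix (Fin 2) (Fin 2) F) = Matrix.trace (C : Matrix (Fin 2) (Fin 2) F) := by
    rw [Matrix.SpecialLinearGroup.coe_mul, Matrix.SpecialLinearGroup.coe_mul, Matrix.trace_mul_comm,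
      ← Matrix.mul_assoc, ← Matrix.SpecialLinearGroup.coe_mul, inv_mul_cancel]
    simp
  have h4 : Matrix.trace ((W * C * W⁻¹ : SL2) : Matrix (Fin 2) (Fin 2) F) = r * Matrix.trace (Z : Matrix (Fin 2) (Fin 2) F) := by
    rw [h2, Matrix.SpecialLinearGroup.coe_mul, hr, Matrix.scalar_apply]
    simp [Matrix.trace_fin_two, Matrix.mul_apply, Fin.sum_univ_two, Matrix.diagonal_apply]
    ring
  rw [← h3, h4, mul_pow, hdet, one_mul]

lemma trace_formula (A B : Matrix (Fin 2) (Fin 2) F) (y : F) :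
    Matrix.trace (A * (!![1, y; 0, 1] * B * !![1, -y; 0, 1])) =
      (-(A 1 0 * B 1 0)) * y ^ 2 + (A 0 0 * B 1 0 - A 1 0 * B 0 0 + A 1 0 * B 1 1 - A 1 1 * B 1 0) * y +
        (A 0 0 * B 0 0 + A 0 1 * B 1 0 + A 1 0 * B 0 1 + A 1 1 * B 1 1) := by
  simp [Matrix.trace_fin_two, Matrix.mul_apply, Fin.sum_univ_two, Matrix.vecMul, dotProduct]
  ring

open Polynomial in
lemma card_le_natDegree [Fintype F] [DecidableEq F] (P : F[X]) (hP : P ≠ 0) (h : ∀ y, P.eval y = 0) :
    Fintype.card F ≤ P.natDegree := by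
  have h1 : (Finset.univ : Finset F) ⊆ P.roots.toFinset := by
    intro y _
    rw [Multiset.mem_toFinset, Polynomial.mem_roots hP]
    exact h y
  calc Fintype.card F = (Finset.univ : Finset F).card := rfl
    _ ≤ P.roots.toFinset.card := Finset.card_le_card h1
    _ ≤ P.roots.card := Multiset.toFinset_card_le _
    _ ≤ P.natDegree := Polynomial.card_roots' P

open Polynomial in
lemma quad_contra [Fintype F] (h4 : 4 ≤ Fintype.card F) (α β γ τ : F) (hα : α ≠ 0)
    (h : ∀ y : F, (α * y ^ 2 + β * y + γ) ^ 2 = τ ^ 2) : False := by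
  classical
  by_cases h2 : (2 : F) = 0
  · have h3 : ∀ y : F, α * y ^ 2 + β * y + γ = τ := by
      intro y
      have h5 : (α * y ^ 2 + β * y + γ - τ) ^ 2 = 0 := by
        have := h y
        linear_combination this + (τ ^ 2 - (α * y ^ 2 + β * y + γ) * τ) * h2
      exact sub_eq_zero.mp (pow_eq_zero_iff (two_ne_zero)|>.mp h5)
    let P : F[X] := C α * X ^ 2 + C β * X + C (γ - τ)
    have hd : P.natDegree = 2 := by
      simp only [P]
      compute_degree!
    have hP : P ≠ 0 := by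
      intro h0
      rw [h0] at hd
      simp at hd
    have := card_le_natDegree P hP (fun y => by
      simp only [P, eval_add, eval_mul, eval_C, eval_pow, eval_X]
      linear_combination h3 y)
    omega
  · have h5 : 5 ≤ Fintype.card F := by
      by_contra hcon
      have hq : Fintype.card F = 4 := by omega
      have h6 : ((Fintype.card F : ℕ) : F) = 0 := Nat.cast_card_eq_zero F
      rw [hq] at h6
      apply h2
      have h7 : (2 : F) * 2 = 0 := by
        have : ((4 : ℕ) : F) = 2 * 2 := by norm_num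
        rw [← this]
        exact h6
      simpa using h7
    let P : F[X] := (C α * X ^ 2 + C β * X + C γ) ^ 2 - C (τ ^ 2)
    have hd : P.natDegree = 4 := by
      simp only [P]
      compute_degree!
    have hP : P ≠ 0 := by
      intro h0
      rw [h0] at hd
      simp at hd
    have := card_le_natDegree P hP (fun y => by
      simp only [P, eval_sub, eval_pow, eval_add, eval_mul, eval_C, eval_X]
      linear_combination h y)
    omega

end aux

/-- The Arad–Herzog conjecture for PSL(2,q): let F be a finite field with q ≥ 4 elements. For any two non-identity elements a, b of PSL(2,F), the set of products of a conjugate of a with a conjugate of b is not a single conjugacy class. -/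
theorem result {F : Type*} [Field F] [Fintype F] (h4 : 4 ≤ Fintype.card F)
    (a b : Matrix.ProjectiveSpecialLinearGroup (Fin 2) F) (ha : a ≠ 1) (hb : b ≠ 1) (c : Matrix.ProjectiveSpecialLinearGroup (Fin 2) F) :
    {g : Matrix.ProjectiveSpecialLinearGroup (Fin 2) F | ∃ u v : Matrix.ProjectiveSpecialLinearGroup (Fin 2) F, g = (u * a * u⁻¹) * (v * b * v⁻¹)} ≠ {g | IsConj c g} := by
  intro heq
  open Lib.SLn.Basic in
  obtain ⟨A, rfl⟩ := toPSL_surjective a
  open Lib.SLn.Basic in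
  obtain ⟨B, rfl⟩ := toPSL_surjective b
  open Lib.SLn.Basic in
  obtain ⟨C, rfl⟩ := toPSL_surjective c
  have hA : ¬ ∃ c : F, (A : Matrix (Fin 2) (Fin 2) F) = Matrix.scalar (Fin 2) c := by
    rw [← Lib.SLn.Basic.toPSL_eq_one_iff]
    exact ha
  have hB : ¬ ∃ c : F, (B : Matrix (Fin 2) (Fin 2) F) = Matrix.scalar (Fin 2) c := by
    rw [← Lib.SLn.Basic.toPSL_eq_one_iff]
    exact hb
  obtain ⟨U₁, hU₁⟩ := exists_conj_ne A hA
  obtain ⟨U₂, hU₂⟩ := exists_conj_ne B hB
  set A' := U₁ * A * U₁⁻¹ with hA'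
  set B' := U₂ * B * U₂⁻¹ with hB'
  have key : ∀ y : F, (Matrix.trace ((A' * (uUp y * B' * uUp (-y)) : Matrix.SpecialLinearGroup (Fin 2) F) : Matrix (Fin 2) (Fin 2) F)) ^ 2 =
      (Matrix.trace (C : Matrix (Fin 2) (Fin 2) F)) ^ 2 := by
    intro y
    apply trace_sq_eq
    have : Lib.SLn.Basic.toPSL (A' * (uUp y * B' * uUp (-y))) ∈ {g : Matrix.ProjectiveSpecialLinearGroup (Fin 2) F | ∃ u v : Matrix.ProjectiveSpecialLinearGroup (Fin 2) F, g = (u * (Lib.SLn.Basic.toPSL A) * u⁻¹) * (v * (Lib.SLn.Basic.toPSL B) * v⁻¹)} := by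
      refine ⟨Lib.SLn.Basic.toPSL U₁, Lib.SLn.Basic.toPSL (uUp y * U₂), ?_⟩
      rw [hA', hB', uUp_neg]
      simp only [map_mul, map_inv]
      group
    rw [heq] at this
    exact this
  have key2 : ∀ y : F, ((-((A' : Matrix (Fin 2) (Fin 2) F) 1 0 * (B' : Matrix (Fin 2) (Fin 2) F) 1 0)) * y ^ 2 + ((A' : Matrix (Fin 2) (Fin 2) F) 0 0 * (B' : Matrix (Fin 2) (Fin 2) F) 1 0 - (A' : Matrix (Fin 2) (Fin 2) F) 1 0 * (B' : Matrix (Fin 2) (Fin 2) F) 0 0 + (A' : Matrix (Fin 2) (Fin 2) F) 1 0 * (B' : Matrix (Fin 2) (Fin 2) F) 1 1 - (A' : Matrix (Fin 2) (Fin 2) F) 1 1 * (B' : Matrix (Fin 2) (Fin 2) F) 1 0) * y +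
        ((A' : Matrix (Fin 2) (Fin 2) F) 0 0 * (B' : Matrix (Fin 2) (Fin 2) F) 0 0 + (A' : Matrix (Fin 2) (Fin 2) F) 0 1 * (B' : Matrix (Fin 2) (Fin 2) F) 1 0 + (A' : Matrix (Fin 2) (Fin 2) F) 1 0 * (B' : Matrix (Fin 2) (Fin 2) F) 0 1 + (A' : Matrix (Fin 2) (Fin 2) F) 1 1 * (B' : Matrix (Fin 2) (Fin 2) F) 1 1)) ^ 2 = (Matrix.trace (C : Matrix (Fin 2) (Fin 2) F)) ^ 2 := by
    intro y
    rw [← trace_formula]
    exact key y
  exact quad_contra h4 _ _ _ _ (neg_ne_zero.mpr (mul_ne_zero hU₁ hU₂)) key2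

end Cfsg.Agent.S2450
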