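import Cfsg.Statements.S2455
import Cfsg.Agent.Lib.SLn.OreSL2
-- import your own Cfsg.Agent.* helpers here

set_option autoImplicit false
open Cfsg

namespace Cfsg.Agent.S2455

/-- A strong covering result in the direction of Thompson's conjecture (non-identity elements) for PSL(2,q), q odd: let F be a finite field of odd characteristic p with at least 5 elements and let x ∈ PSL(2,F) have order greater than 2 and not divisible by p (so x is not unipotent). Then every non-identity element of PSL(2,F) is a product of two conjugates of x. -/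
theorem result {F : Type*} [Field F] [Fintype F] (p : ℕ) [Fact p.Prime] [CharP F p] (hp : p ≠ 2) (h5 : 5 ≤ Fintype.card F)
    (x : Matrix.ProjectiveSpecialLinearGroup (Fin 2) F) (hx2 : 2 < orderOf x) (hxp : ¬ p ∣ orderOf x) : ∀ g : Matrix.ProjectiveSpecialLinearGroup (Fin 2) F, g ≠ 1 → ∃ u v : Matrix.ProjectiveSpecialLinearGroup (Fin 2) F, g = (u * x * u⁻¹) * (v * x * v⁻¹) := by
  intro g hg
  obtain ⟨X, rfl⟩ := Lib.SLn.Basic.toPSL_surjective x
  obtain ⟨G, rfl⟩ := Lib.SLn.Basic.toPSL_surjective g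
  have hp' : p.Prime := Fact.out
  have h2 : (2 : F) ≠ 0 := by
    intro h
    have h3 : ((2 : ℕ) : F) = 0 := by exact_mod_cast h
    have h4 := (CharP.cast_eq_zero_iff F p 2).mp h3
    exact hp ((Nat.prime_dvd_prime_iff_eq hp' Nat.prime_two).mp h4)
  have hs4 : (Lib.GL2.SL2Classes.tr X) ^ 2 ≠ 4 := by
    intro h
    have h1 := Lib.SLn.SL2PSL.toPSL_pow_char p X h
    have h3 := orderOf_dvd_of_pow_eq_one h1
    rcases (Nat.dvd_prime hp').mp h3 with h5 | h5
    · omega
    · exact hxp (by rw [h5])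
  have hs0 : Lib.GL2.SL2Classes.tr X ≠ 0 := by
    intro h
    have h1 := Lib.GL2.SL2Classes.sq_eq_tr X
    rw [h, zero_smul, zero_sub] at h1
    have h3 : (Lib.SLn.Basic.toPSL X) ^ 2 = 1 := by
      rw [← map_pow, Lib.SLn.Basic.toPSL_eq_one_iff]
      refine ⟨-1, ?_⟩
      rw [pow_two, Matrix.SpecialLinearGroup.coe_mul, h1]
      ext i j
      fin_cases i <;> fin_cases j <;> simp [Matrix.scalar_apply]
    have h5 := Nat.le_of_dvd (by norm_num) (orderOf_dvd_of_pow_eq_one h3)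
    omega
  obtain ⟨e, a, b, he, hc⟩ : ∃ e a b : F, (e = 1 ∨ e = -1) ∧
      a ^ 2 + b ^ 2 - Lib.GL2.SL2Classes.tr G * a * b - Lib.GL2.SL2Classes.tr X * a + e * Lib.GL2.SL2Classes.tr X * b + 1 = 0 := by
    by_cases ht : (Lib.GL2.SL2Classes.tr G) ^ 2 = 4
    · obtain ⟨e, a, b, -, he, hc⟩ := Lib.SLn.OreSL2.exists_conic_of_eq_odd (Lib.GL2.SL2Classes.tr X) _ h2 hs0 ht
      exact ⟨e, a, b, he, hc⟩
    · obtain ⟨a, b, hc⟩ := Lib.SLn.OreSL2.exists_conic_of_ne (Lib.GL2.SL2Classes.tr X) _ ht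
      exact ⟨1, a, b, Or.inl rfl, hc⟩
  exact Lib.SLn.OreSL2.ore_of_conic X G hg hs4 e a b he hc

end Cfsg.Agent.S2455
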