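import Cfsg.Statements.S2456
import Cfsg.Agent.Lib.SLn.OreSL2
-- import your own Cfsg.Agent.* helpers here

set_option autoImplicit false
open Cfsg

namespace Cfsg.Agent.S2456

/-- A strong covering result in the direction of Thompson's conjecture (non-identity elements) for PSL(2,q), q even: let F be a finite field of characteristic 2 with q ≥ 4 elements and let x ∈ PSL(2,F) have order greater than 2 and not dividing q + 1. Then every non-identity element of PSL(2,F) is a product of two conjugates of x. -/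
theorem result {F : Type*} [Field F] [Fintype F] [CharP F 2] (h4 : 4 ≤ Fintype.card F)
    (x : Matrix.ProjectiveSpecialLinearGroup (Fin 2) F) (hx2 : 2 < orderOf x) (hxq : ¬ orderOf x ∣ Fintype.card F + 1) : ∀ g : Matrix.ProjectiveSpecialLinearGroup (Fin 2) F, g ≠ 1 → ∃ u v : Matrix.ProjectiveSpecialLinearGroup (Fin 2) F, g = (u * x * u⁻¹) * (v * x * v⁻¹) := by
  intro g hg
  obtain ⟨X, rfl⟩ := Lib.SLn.Basic.toPSL_surjective x
  obtain ⟨G, rfl⟩ := Lib.SLn.Basic.toPSL_surjective g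
  have h2 : (2 : F) = 0 := by exact_mod_cast CharP.cast_eq_zero F 2
  have hs4 : (Lib.GL2.SL2Classes.tr X) ^ 2 ≠ 4 := by
    intro h
    have h1 := Lib.SLn.SL2PSL.toPSL_pow_char 2 X h
    have h5 := Nat.le_of_dvd (by norm_num) (orderOf_dvd_of_pow_eq_one h1)
    omega
  obtain ⟨r, hr⟩ : ∃ r : F, r ^ 2 - Lib.GL2.SL2Classes.tr X * r + 1 = 0 := by
    by_contra hno
    push Not at hno
    apply hxq
    obtain ⟨a, ha⟩ := Lib.Classical.SL2Tori.exists_irred (F := F)
    haveI : Fact (∀ r : F, r ^ 2 ≠ a + 1 * r) := ⟨ha⟩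
    obtain ⟨u, hu⟩ := Lib.SLn.SL2Gen.exists_normOne_tr (a := a) (b := 1) hno
    have hc := Lib.SLn.SL2Gen.isConj_of_tr_eq (g := X) (g' := Lib.Classical.SL2Tori.regHom a 1 u) hu.symm hs4
    have h1 := orderOf_dvd_of_pow_eq_one (Lib.SLn.SL2PSL.toPSL_conj_pow_eq_one hc _ (Lib.SLn.SL2PSL.reg_pow u))
    exact h1.trans (Nat.div_dvd_of_dvd (by
      rw [← Lib.SLn.SL2PSL.gcd_two_add_eq _ (by have := Fintype.one_lt_card (α := F); omega)]
      exact Nat.gcd_dvd_right _ _))
  obtain ⟨a, b, hc⟩ : ∃ a b : F,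
      a ^ 2 + b ^ 2 - Lib.GL2.SL2Classes.tr G * a * b - Lib.GL2.SL2Classes.tr X * a + 1 * Lib.GL2.SL2Classes.tr X * b + 1 = 0 := by
    by_cases ht : (Lib.GL2.SL2Classes.tr G) ^ 2 = 4
    · have h0 : Lib.GL2.SL2Classes.tr G = 0 := by
        have h6 : (Lib.GL2.SL2Classes.tr G) ^ 2 = 0 := by
          rw [ht]
          linear_combination (2 : F) * h2
        simpa using h6
      rw [h0]
      exact Lib.SLn.OreSL2.exists_conic_of_zero_even _ r h2 hr
    · exact Lib.SLn.OreSL2.exists_conic_of_ne (Lib.GL2.SL2Classes.tr X) _ ht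
  exact Lib.SLn.OreSL2.ore_of_conic X G hg hs4 1 a b (Or.inl rfl) hc

end Cfsg.Agent.S2456
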