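import Cfsg.Statements.S2459
import Cfsg.Agent.Lib.SLn.SL33Cert
import Cfsg.Agent.Lib.SLn.Gauss3
import Cfsg.Agent.Lib.SLn.Basic
import Cfsg.Agent.Lib.Classical.FieldTransfer
import Cfsg.Agent.Lib.Classical.NormalSL
-- import your own Cfsg.Agent.* helpers here

set_option autoImplicit false
open Cfsg

namespace Cfsg.Agent.S2459

open Cfsg.Agent.Lib.SLn.Basic in
lemma case_three {F : Type*} [Field F] [Fintype F] (p : ℕ) [Fact p.Prime] [CharP F p] (h3 : Fintype.card F = 3) :
    ∃ x : Matrix.ProjectiveSpecialLinearGroup (Fin 3) F, ¬ p ∣ orderOf x ∧ ∀ g : Matrix.ProjectiveSpecialLinearGroup (Fin 3) F, g ≠ 1 → ∃ u v : Matrix.ProjectiveSpecialLinearGroup (Fin 3) F, g = (u * x * u⁻¹) * (v * x * v⁻¹) := by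
  have hp : p = 3 := by
    have h1 : p ∣ Fintype.card F := by
      rw [← CharP.cast_eq_zero_iff F p]
      exact Nat.cast_card_eq_zero F
    rw [h3] at h1
    exact (Nat.prime_dvd_prime_iff_eq Fact.out Nat.prime_three).mp h1
  subst hp
  let e : ZMod 3 ≃+* F := ZMod.ringEquivOfPrime F Nat.prime_three h3
  let φ : Matrix.ProjectiveSpecialLinearGroup (Fin 3) (ZMod 3) ≃* Matrix.ProjectiveSpecialLinearGroup (Fin 3) F :=
    Lib.Classical.FieldTransfer.pslCongr e
  let x₀ := Lib.SLn.SL33Cert.x₀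
  refine ⟨φ (toPSL x₀), ?_, ?_⟩
  · have h4 : φ (toPSL x₀) ^ 4 = 1 := by
      rw [← map_pow, ← map_pow, Lib.SLn.SL33Cert.x₀_pow]
      simp
    have := orderOf_dvd_of_pow_eq_one h4
    intro h
    have h34 : 3 ∣ 4 := h.trans this
    omega
  · intro g hg
    obtain ⟨X, hX⟩ := toPSL_surjective (φ.symm g)
    have hX1 : X ≠ 1 := by
      rintro rfl
      rw [map_one] at hX
      apply hg
      have := congrArg φ hX
      simpa using this.symm
    obtain ⟨U, V, h⟩ := Lib.SLn.SL33Cert.exists_prod_conj X hX1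
    refine ⟨φ (toPSL U), φ (toPSL V), ?_⟩
    have hg' : g = φ (toPSL X) := by rw [hX]; simp
    rw [hg', h]
    simp only [map_mul, map_inv]
    rfl

open Cfsg.Agent.Lib.SLn.Basic in
lemma case_four {F : Type*} [Field F] [Fintype F] (p : ℕ) [Fact p.Prime] [CharP F p] (h4 : 4 ≤ Fintype.card F) :
    ∃ x : Matrix.ProjectiveSpecialLinearGroup (Fin 3) F, ¬ p ∣ orderOf x ∧ ∀ g : Matrix.ProjectiveSpecialLinearGroup (Fin 3) F, g ≠ 1 → ∃ u v : Matrix.ProjectiveSpecialLinearGroup (Fin 3) F, g = (u * x * u⁻¹) * (v * x * v⁻¹) := by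
  obtain ⟨ζ, hζ0, hζ⟩ := Lib.Classical.NormalSL.exists_ne_zero_sq_ne_one (F := F) (by rwa [Nat.card_eq_fintype_card])
  let x := Lib.SLn.Gauss3.hh ζ hζ0
  refine ⟨toPSL x, ?_, ?_⟩
  · have h1 : x ^ (Fintype.card F - 1) = 1 := by
      apply Subtype.ext
      have hz : ζ ^ (Fintype.card F - 1) = 1 := FiniteField.pow_card_sub_one_eq_one ζ hζ0
      have hzi : (ζ⁻¹) ^ (Fintype.card F - 1) = 1 := by rw [inv_pow, hz, inv_one]
      rw [Matrix.SpecialLinearGroup.coe_pow]
      show (Matrix.diagonal ![1, ζ, ζ⁻¹]) ^ (Fintype.card F - 1) = _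
      rw [Matrix.diagonal_pow, Matrix.SpecialLinearGroup.coe_one, ← Matrix.diagonal_one]
      congr 1
      funext i
      fin_cases i <;> simp [hz, hzi]
    have h2 : (toPSL x) ^ (Fintype.card F - 1) = 1 := by rw [← map_pow, h1, map_one]
    have h3 := orderOf_dvd_of_pow_eq_one h2
    intro h
    have h5 : p ∣ Fintype.card F - 1 := h.trans h3
    have h6 : p ∣ Fintype.card F := by
      rw [← CharP.cast_eq_zero_iff F p]
      exact Nat.cast_card_eq_zero F
    have h7 : p ∣ 1 := by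
      have := Nat.dvd_sub h6 h5
      have e : Fintype.card F - (Fintype.card F - 1) = 1 := by omega
      rwa [e] at this
    exact (Fact.out : p.Prime).one_lt.ne' (Nat.dvd_one.mp h7)
  · intro g hg
    obtain ⟨X, rfl⟩ := toPSL_surjective g
    have hX : ¬ ∃ c, (X : Matrix (Fin 3) (Fin 3) F) = Matrix.scalar (Fin 3) c := by
      rw [← toPSL_eq_one_iff]
      exact hg
    obtain ⟨U, V, h⟩ := Lib.SLn.Gauss3.exists_prod_conj ζ hζ0 hζ X hX
    refine ⟨toPSL U, toPSL V, ?_⟩
    rw [h]
    simp only [map_mul, map_inv]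
    rfl

/-- A form of Thompson's conjecture for PSL(3,q), q > 2 (covering the non-identity elements), with a semisimple class: for F a finite field of characteristic p with more than 2 elements there is an element x of PSL(3,F) of order prime to p such that every non-identity element of PSL(3,F) is a product of two conjugates of x. -/
theorem result {F : Type*} [Field F] [Fintype F] (p : ℕ) [Fact p.Prime] [CharP F p] (h3 : 3 ≤ Fintype.card F) :
    ∃ x : Matrix.ProjectiveSpecialLinearGroup (Fin 3) F, ¬ p ∣ orderOf x ∧ ∀ g : Matrix.ProjectiveSpecialLinearGroup (Fin 3) F, g ≠ 1 → ∃ u v : Matrix.ProjectiveSpecialLinearGroup (Fin 3) F, g = (u * x * u⁻¹) * (v * x * v⁻¹) := by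
  rcases (by omega : Fintype.card F = 3 ∨ 4 ≤ Fintype.card F) with h | h
  · exact case_three p h
  · exact case_four p h

end Cfsg.Agent.S2459
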