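import Cfsg.Statements.S2460
import Cfsg.Agent.Lib.SpCover.Bridge
import Cfsg.Agent.Lib.SpCover.Param
import Cfsg.Agent.Lib.Classical.SympSimple

set_option autoImplicit false
open Cfsg

namespace Cfsg.Agent.S2460

open Matrix
open scoped MatrixGroups
open Cfsg.Agent.Lib.Classical.SympForm Cfsg.Agent.Lib.Classical.SympSimple
open Cfsg.Agent.Lib.SpCover.Vec Cfsg.Agent.Lib.SpCover.Mat Cfsg.Agent.Lib.SpCover.Bridge
  Cfsg.Agent.Lib.SpCover.Param

section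
variable {F : Type*} [Field F]

/-- Every non-central element, up to sign, is a product of two conjugates. -/
theorem prod2_main {τ δ : F} (hδ : δ ≠ 0) (hD : (δ - 1) * (τ ^ 2 - (δ + 1) ^ 2) ≠ 0)
    (hJ : (2 : F) ≠ 0 → ∃ P Q : GL (Fin 2) F,
        P * compGL τ δ hδ * P⁻¹ * (Q * (compGL τ δ hδ)⁻¹ * Q⁻¹) = jGL F)
    (g : symplecticGroup (Fin 2) F) (h1 : g ≠ 1) (h2 : g ≠ negOne 2 F) :
    Prod2 (mS (compGL τ δ hδ)) g ∨ Prod2 (mS (compGL τ δ hδ)) (negOne 2 F * g) := by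
  have hcell : ∀ (g : symplecticGroup (Fin 2) F) (A : GL (Fin 2) F),
      (∃ P Q : GL (Fin 2) F,
        P * compGL τ δ hδ * P⁻¹ * (Q * (compGL τ δ hδ)⁻¹ * Q⁻¹) = A) →
      (∃ (e₁ e₂ f₁ f₂ : VV F) (c₁₁ c₁₂ c₂₁ c₂₂ : F), Std (om F) e₁ e₂ f₁ f₂ ∧
        g.1 *ᵥ e₁ = A.1 0 0 • e₁ + A.1 1 0 • e₂ + c₁₁ • f₁ + c₂₁ • f₂ ∧
        g.1 *ᵥ e₂ = A.1 0 1 • e₁ + A.1 1 1 • e₂ + c₁₂ • f₁ + c₂₂ • f₂) →
      Prod2 (mS (compGL τ δ hδ)) g := by
    intro g A hA hc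
    obtain ⟨P₀, Q₀, rfl⟩ := hA
    obtain ⟨e₁, e₂, f₁, f₂, c₁₁, c₁₂, c₂₁, c₂₂, hs, h1, h2⟩ := hc
    obtain ⟨P, C, B, hC, hB, hg⟩ := cell_of_std g _ hs h1 h2
    rw [hg]
    exact (prod2_cell τ δ hδ hD P₀ Q₀ C B hC hB).conj P
  have hone : ∀ (g : symplecticGroup (Fin 2) F), Good (om F) (mulVecLin g.1) →
      Prod2 (mS (compGL τ δ hδ)) g := by
    intro g hg
    obtain ⟨e₁, e₂, f₁, f₂, c₁₁, c₁₂, c₂₁, c₂₂, hs, h1, h2⟩ := hg
    refine hcell g 1 ⟨1, 1, by group⟩ ⟨e₁, e₂, f₁, f₂, c₁₁, c₁₂, c₂₁, c₂₂, hs, ?_, ?_⟩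
    · have : g.1 *ᵥ e₁ = mulVecLin g.1 e₁ := rfl
      rw [this, h1]
      simp
    · have : g.1 *ᵥ e₂ = mulVecLin g.1 e₂ := rfl
      rw [this, h2]
      simp
  have hv1 : ∃ v, mulVecLin g.1 v ≠ v := by
    by_contra hc
    push_neg at hc
    apply h1
    apply Subtype.ext
    apply Matrix.ext_iff_mulVec.2
    intro v
    simpa using hc v
  have hv2 : ∃ v, mulVecLin g.1 v ≠ -v := by
    by_contra hc
    push_neg at hc
    apply h2
    apply Subtype.ext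
    apply Matrix.ext_iff_mulVec.2
    intro v
    simpa [negOne, Matrix.neg_mulVec] using hc v
  rcases good_or_tt (sy F) (iso g) hv1 hv2 with h | h | ⟨h20, ht⟩
  · exact Or.inl (hone g h)
  · right
    apply hone
    obtain ⟨e₁, e₂, f₁, f₂, c₁₁, c₁₂, c₂₁, c₂₂, hs, h1, h2⟩ := h
    refine ⟨e₁, e₂, f₁, f₂, c₁₁, c₁₂, c₂₁, c₂₂, hs, ?_, ?_⟩
    · rw [← h1]
      simp [negOne, Matrix.neg_mulVec]
    · rw [← h2]
      simp [negOne, Matrix.neg_mulVec]
  · left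
    obtain ⟨E₁, E₂, F₁, F₂, hs, h1, h2⟩ := tt_cell (sy F) (iso g) h20 ht
    refine hcell g (jGL F) (hJ h20) ⟨E₁, E₂, F₁, F₂, 0, 2, -2, 0, hs, ?_, ?_⟩
    · have : g.1 *ᵥ E₁ = mulVecLin g.1 E₁ := rfl
      rw [this, h1]
      simp [jGL]
    · have : g.1 *ᵥ E₂ = mulVecLin g.1 E₂ := rfl
      rw [this, h2]
      simp [jGL]

end

/-- A form of Thompson's conjecture for the simple groups PSp(4,q), q ≥ 3 (covering the non-identity elements), with a semisimple class: for F a finite field of characteristic p with at least 3 elements there is an element x of PSp(4,F) of order prime to p such that every non-identity element of PSp(4,F) is a product of two conjugates of x. -/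
theorem result {F : Type*} [Field F] [Fintype F] (p : ℕ) [Fact p.Prime] [CharP F p] (h3 : 3 ≤ Fintype.card F) :
    ∃ x : Cfsg.PSp 2 F, ¬ p ∣ orderOf x ∧ ∀ g : Cfsg.PSp 2 F, g ≠ 1 → ∃ u v : Cfsg.PSp 2 F, g = (u * x * u⁻¹) * (v * x * v⁻¹) := by
  obtain ⟨τ, δ, hδ, hroot, hδ1, hJ⟩ := exists_params h3
  have hD : (δ - 1) * (τ ^ 2 - (δ + 1) ^ 2) ≠ 0 := by
    refine mul_ne_zero (sub_ne_zero.2 hδ1) ?_
    intro h0
    have h1 := hroot 1
    have h2 := hroot (-1)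
    have : ((1 : F) ^ 2 - τ * 1 + δ) * ((-1 : F) ^ 2 - τ * (-1) + δ) = 0 := by
      linear_combination (-1 : F) * h0
    rcases mul_eq_zero.1 this with h | h
    · exact h1 h
    · exact h2 h
  obtain ⟨N, hN, haN⟩ := comp_pow p hδ hroot
  refine ⟨QuotientGroup.mk (mS (compGL τ δ hδ)), ?_, ?_⟩
  · intro hdvd
    apply hN
    refine hdvd.trans (orderOf_dvd_of_pow_eq_one ?_)
    rw [← QuotientGroup.mk_pow, ← map_pow, haN, map_one]
    rfl
  · intro g hg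
    obtain ⟨g, rfl⟩ := QuotientGroup.mk_surjective g
    have hg' : g ∉ Subgroup.center (symplecticGroup (Fin 2) F) := by
      intro hc
      exact hg ((QuotientGroup.eq_one_iff g).2 hc)
    rw [mem_center_symplecticGroup_iff (by norm_num)] at hg'
    push_neg at hg'
    have hneg : (QuotientGroup.mk (negOne 2 F * g) : Cfsg.PSp 2 F) = QuotientGroup.mk g := by
      rw [QuotientGroup.eq]
      have hc : (negOne 2 F)⁻¹ ∈ Subgroup.center (symplecticGroup (Fin 2) F) :=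
        inv_mem ((mem_center_symplecticGroup_iff (by norm_num) _).2 (Or.inr rfl))
      have : (negOne 2 F * g)⁻¹ * g = (negOne 2 F)⁻¹ := by
        rw [_root_.mul_inv_rev, mul_assoc, ← Subgroup.mem_center_iff.1 hc g, inv_mul_cancel_left]
      rw [this]
      exact hc
    have hfin : ∀ g' : symplecticGroup (Fin 2) F, Prod2 (mS (compGL τ δ hδ)) g' →
        ∃ u v : Cfsg.PSp 2 F, (QuotientGroup.mk g' : Cfsg.PSp 2 F) =
          (u * QuotientGroup.mk (mS (compGL τ δ hδ)) * u⁻¹) *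
            (v * QuotientGroup.mk (mS (compGL τ δ hδ)) * v⁻¹) := by
      rintro g' ⟨u, v, rfl⟩
      exact ⟨QuotientGroup.mk u, QuotientGroup.mk v, rfl⟩
    rcases prod2_main hδ hD hJ g hg'.1 hg'.2 with h | h
    · exact hfin g h
    · rw [← hneg]
      exact hfin _ h

end Cfsg.Agent.S2460
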