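import Mathlib
import Cfsg.Statements.S2466
import Cfsg.Agent.Lib.Alt.Orders
-- import your own Cfsg.Agent.* helpers here

set_option autoImplicit false
open Cfsg

namespace Cfsg.Agent.S2466

/-- Adjacency of odd primes in the prime graph of the alternating groups: let r ≠ s be odd primes at most n. The alternating group of degree n has an element of order r·s if and only if r + s ≤ n. -/
theorem result (n r s : ℕ) (hr : r.Prime) (hs : s.Prime) (hr2 : r ≠ 2) (hs2 : s ≠ 2) (hrs : r ≠ s) (hrn : r ≤ n) (hsn : s ≤ n) :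
    (r * s ∈ Set.range (orderOf : alternatingGroup (Fin n) → ℕ)) ↔ r + s ≤ n := by
  open Cfsg.Agent.Lib.Alt.Orders in
  rw [mem_range_orderOf_iff]
  have hr3 : 3 ≤ r := by have := hr.two_le; omega
  have hs3 : 3 ≤ s := by have := hs.two_le; omega
  have hrodd : Odd r := hr.odd_of_ne_two hr2
  have hsodd : Odd s := hs.odd_of_ne_two hs2
  constructor
  · rintro ⟨c, h2, hsum, -, hlcm⟩
    obtain ⟨a, ha, hra⟩ := exists_mem_dvd_of_prime_dvd_lcm hr (hlcm ▸ Dvd.intro _ rfl)
    obtain ⟨b, hb, hsb⟩ := exists_mem_dvd_of_prime_dvd_lcm hs (hlcm ▸ Dvd.intro_left _ rfl)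
    have ha0 : 0 < a := by have := h2 a ha; omega
    have hb0 : 0 < b := by have := h2 b hb; omega
    have hle : r ≤ a := Nat.le_of_dvd ha0 hra
    have hle' : s ≤ b := Nat.le_of_dvd hb0 hsb
    by_cases hab : a = b
    · subst hab
      have hcop : Nat.Coprime r s := (Nat.coprime_primes hr hs).mpr hrs
      have hd : r * s ∣ a := hcop.mul_dvd_of_dvd_of_dvd hra hsb
      have h1 : r * s ≤ a := Nat.le_of_dvd ha0 hd
      have h3 : a ≤ c.sum := Multiset.le_sum_of_mem ha
      have h4 : r + s ≤ r * s := by nlinarith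
      omega
    · obtain ⟨c₁, rfl⟩ := Multiset.exists_cons_of_mem ha
      have hb' : b ∈ c₁ := by
        rcases Multiset.mem_cons.mp hb with h | h
        · exact absurd h.symm hab
        · exact h
      obtain ⟨c₂, rfl⟩ := Multiset.exists_cons_of_mem hb'
      simp only [Multiset.sum_cons] at hsum
      omega
  · intro h
    refine ⟨{r, s}, ?_, ?_, ?_, ?_⟩
    · intro a ha
      simp only [Multiset.insert_eq_cons, Multiset.mem_cons, Multiset.mem_singleton] at ha
      rcases ha with rfl | rfl <;> omega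
    · simpa using h
    · simp [sgn_of_odd hrodd, sgn_of_odd hsodd]
    · have hcop : Nat.Coprime r s := (Nat.coprime_primes hr hs).mpr hrs
      simp only [Multiset.insert_eq_cons, Multiset.lcm_cons, Multiset.lcm_singleton, normalize_eq, lcm_eq_nat_lcm]
      exact hcop.lcm_eq_mul


end Cfsg.Agent.S2466
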