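import Mathlib
import Cfsg.Statements.S2467
import Cfsg.Agent.Lib.Alt.Orders
-- import your own Cfsg.Agent.* helpers here

set_option autoImplicit false
open Cfsg

namespace Cfsg.Agent.S2467

/-- Adjacency of 2 and an odd prime in the prime graph of the alternating groups: let r be an odd prime at most n, with n ≥ 4. The alternating group of degree n has an element of order 2r if and only if r + 4 ≤ n. -/
theorem result (n r : ℕ) (hn : 4 ≤ n) (hr : r.Prime) (hr2 : r ≠ 2) (hrn : r ≤ n) :
    (2 * r ∈ Set.range (orderOf : alternatingGroup (Fin n) → ℕ)) ↔ r + 4 ≤ n := by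
  open Cfsg.Agent.Lib.Alt.Orders in
  rw [mem_range_orderOf_iff]
  have hr3 : 3 ≤ r := by have := hr.two_le; omega
  have hrodd : Odd r := hr.odd_of_ne_two hr2
  constructor
  · rintro ⟨c, h2, hsum, hp, hlcm⟩
    obtain ⟨a, ha, hra⟩ := exists_mem_dvd_of_prime_dvd_lcm hr (hlcm ▸ Dvd.intro_left _ rfl)
    have ha0 : 0 < a := by have := h2 a ha; omega
    have hle : r ≤ a := Nat.le_of_dvd ha0 hra
    obtain ⟨c₁, rfl⟩ := Multiset.exists_cons_of_mem ha
    have hc₁ : ∀ x ∈ c₁, 2 ≤ x := fun x hx => h2 x (Multiset.mem_cons_of_mem hx)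
    simp only [Multiset.map_cons, Multiset.prod_cons, Multiset.sum_cons] at hp hsum
    rcases Nat.even_or_odd a with hae | hao
    · -- the cycle of length divisible by `r` is even: another even cycle exists
      rw [sgn_of_even hae] at hp
      have hp' : (c₁.map sgn).prod = -1 := by
        have := congrArg (fun x => (-1 : ℤˣ) * x) hp
        simpa using this
      obtain ⟨d, hd, -⟩ := exists_even_of_prod_neg hp'
      have hd2 := hc₁ d hd
      have h1 : d ≤ c₁.sum := Multiset.le_sum_of_mem hd
      have hcop : Nat.Coprime 2 r := (Nat.coprime_primes Nat.prime_two hr).mpr (Ne.symm hr2)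
      have h3 : 2 * r ∣ a := hcop.mul_dvd_of_dvd_of_dvd hae.two_dvd hra
      have h4 := Nat.le_of_dvd ha0 h3
      omega
    · -- the cycle is odd: there is an even cycle `b`, and then one more
      rw [sgn_of_odd hao, one_mul] at hp
      have h2dvd : 2 ∣ (a ::ₘ c₁).lcm := hlcm ▸ Dvd.intro _ rfl
      obtain ⟨b, hb, h2b⟩ := exists_mem_dvd_of_prime_dvd_lcm Nat.prime_two h2dvd
      have hb' : b ∈ c₁ := by
        rcases Multiset.mem_cons.mp hb with h | h
        · subst h
          exact absurd hao (Nat.not_odd_iff_even.mpr (even_iff_two_dvd.mpr h2b))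
        · exact h
      obtain ⟨c₂, rfl⟩ := Multiset.exists_cons_of_mem hb'
      simp only [Multiset.map_cons, Multiset.prod_cons, Multiset.sum_cons] at hp hsum
      rw [sgn_of_even (even_iff_two_dvd.mpr h2b)] at hp
      have hp' : (c₂.map sgn).prod = -1 := by
        have := congrArg (fun x => (-1 : ℤˣ) * x) hp
        simpa using this
      obtain ⟨d, hd, -⟩ := exists_even_of_prod_neg hp'
      have hd2 := hc₁ d (Multiset.mem_cons_of_mem hd)
      have h1 : d ≤ c₂.sum := Multiset.le_sum_of_mem hd
      have hb2 := hc₁ b (Multiset.mem_cons_self _ _)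
      omega
  · intro h
    refine ⟨{r, 2, 2}, ?_, ?_, ?_, ?_⟩
    · intro a ha
      simp only [Multiset.insert_eq_cons, Multiset.mem_cons, Multiset.mem_singleton] at ha
      rcases ha with rfl | rfl | rfl <;> omega
    · simp only [Multiset.insert_eq_cons, Multiset.sum_cons, Multiset.sum_singleton]
      omega
    · have h2e : Even 2 := even_two
      simp [sgn_of_odd hrodd, sgn_of_even h2e]
    · have hcop : Nat.Coprime 2 r := (Nat.coprime_primes Nat.prime_two hr).mpr (Ne.symm hr2)
      simp only [Multiset.insert_eq_cons, Multiset.lcm_cons, Multiset.lcm_singleton, normalize_eq, lcm_eq_nat_lcm, Nat.lcm_self]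
      rw [Nat.lcm_comm]
      exact hcop.lcm_eq_mul


end Cfsg.Agent.S2467
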