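import Cfsg.Statements.S2471
import Cfsg.Agent.Lib.SLn.SL2Gen
-- import your own Cfsg.Agent.* helpers here

set_option autoImplicit false
open Cfsg

namespace Cfsg.Agent.S2471

section aux

open Cfsg.Agent.Lib.SLn.SL2Gen Cfsg.Agent.Lib.SLn.Basic Cfsg.Agent.Lib.GL2.Unipotent

variable {F : Type*} [Field F]

lemma add_smul_pow (N : Matrix (Fin 2) (Fin 2) F) (hN : N * N = 0) (a b : F) (k : ℕ) :
    (a • (1 : Matrix (Fin 2) (Fin 2) F) + b • N) ^ k = a ^ k • 1 + ((k : F) * a ^ (k - 1) * b) • N := by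
  induction' k with k ih
  · simp
  · rw [pow_succ, ih]
    have h1 : (a ^ k • (1 : Matrix (Fin 2) (Fin 2) F) + ((k : F) * a ^ (k - 1) * b) • N) * (a • 1 + b • N)
        = (a ^ k * a) • 1 + ((a ^ k * b) + ((k : F) * a ^ (k - 1) * b * a)) • N := by
      simp only [add_mul, mul_add, smul_mul_smul_comm, mul_one, one_mul, hN, smul_zero, add_zero, add_smul]
      abel
    rw [h1, Nat.add_sub_cancel, pow_succ]
    congr 2
    rcases k with _ | k
    · simp
    · simp only [Nat.add_sub_cancel]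
      rw [pow_succ]
      push_cast
      ring

end aux

/-- In PSL(2,q) with q odd, the characteristic p is isolated from 2 in the prime graph: for F a finite field of odd characteristic p with at least 5 elements, PSL(2,F) has no element of order 2p. -/
theorem result {F : Type*} [Field F] [Fintype F] (p : ℕ) [Fact p.Prime] [CharP F p] (hp : p ≠ 2) (h5 : 5 ≤ Fintype.card F) (g : Matrix.ProjectiveSpecialLinearGroup (Fin 2) F) :
    orderOf g ≠ 2 * p := by
  intro hord
  open Cfsg.Agent.Lib.SLn.SL2Gen Cfsg.Agent.Lib.SLn.Basic Cfsg.Agent.Lib.GL2.Unipotent in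
  obtain ⟨X, rfl⟩ := toPSL_surjective g
  have hp' : p.Prime := Fact.out
  have hpodd : Odd p := hp'.odd_of_ne_two hp
  set M : Matrix (Fin 2) (Fin 2) F := (X : Matrix (Fin 2) (Fin 2) F) with hM
  -- the power `2p` is scalar
  have h1 : Lib.SLn.Basic.toPSL (X ^ (2 * p)) = 1 := by
    rw [map_pow, ← hord, pow_orderOf_eq_one]
  rw [Lib.SLn.Basic.toPSL_eq_one_iff] at h1
  obtain ⟨c, hc⟩ := h1
  have hc2 : c ^ 2 = 1 := by
    have := congrArg Matrix.det hc
    rw [Matrix.SpecialLinearGroup.det_coe, Matrix.scalar_apply, Matrix.det_diagonal] at this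
    simpa [Fin.prod_univ_two, pow_two] using this.symm
  rw [Matrix.SpecialLinearGroup.coe_pow, ← hM] at hc
  -- the unipotent element
  set Z : Matrix (Fin 2) (Fin 2) F := c • (M * M) with hZ
  have hZp : Z ^ p = 1 := by
    rw [hZ, smul_pow, ← pow_two, ← pow_mul, hc, Matrix.scalar_apply]
    obtain ⟨r, hr⟩ := hpodd
    have hcp : c ^ p * c = 1 := by
      rw [hr, pow_succ, pow_mul, hc2, one_pow, one_mul, ← pow_two, hc2]
    ext i j
    fin_cases i <;> fin_cases j <;> simp [hcp]
  have hsq : (Z - 1) ^ 2 = 0 := Lib.GL2.Unipotent.sq_sub_one_eq_zero_of_pow (p := p) hZp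
  have hcomm : M * Z = Z * M := by
    rw [hZ, Matrix.mul_smul, Matrix.smul_mul, ← Matrix.mul_assoc, Matrix.mul_assoc M M M]
  -- `Z` is not scalar
  have hns : ¬ (Z 0 1 = 0 ∧ Z 1 0 = 0 ∧ Z 0 0 = Z 1 1) := by
    rintro ⟨h01, h10, h00⟩
    have hMM : M * M = c • Z := by
      have hcc : c * c = 1 := by rw [← pow_two]; exact hc2
      rw [hZ, smul_smul, hcc, one_smul]
    have h2 : (Lib.SLn.Basic.toPSL X) ^ 2 = 1 := by
      rw [← map_pow, Lib.SLn.Basic.toPSL_eq_one_iff]
      refine ⟨c * Z 0 0, ?_⟩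
      rw [Matrix.SpecialLinearGroup.coe_pow, ← hM, pow_two, hMM, Matrix.scalar_apply]
      ext i j
      fin_cases i <;> fin_cases j <;> simp [h01, h10, ← h00]
    have h3 := orderOf_dvd_of_pow_eq_one h2
    rw [hord] at h3
    have := Nat.le_of_dvd (by norm_num) h3
    have := hp'.one_lt
    omega
  obtain ⟨x, y, hxy⟩ := Lib.SLn.SL2Gen.exists_eq_add_smul Z M hns hcomm
  set N := Z - 1 with hN
  have hNN : N * N = 0 := by rw [← pow_two]; exact hsq
  have hform : M = (x + y) • 1 + y • N := by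
    rw [hxy, hN, smul_sub, add_smul]
    abel
  have hpow : M ^ p = ((x + y) ^ p) • 1 := by
    rw [hform, add_smul_pow N hNN]
    have hp0 : (p : F) = 0 := CharP.cast_eq_zero F p
    simp [hp0]
  have h2 : (Lib.SLn.Basic.toPSL X) ^ p = 1 := by
    rw [← map_pow, Lib.SLn.Basic.toPSL_eq_one_iff]
    refine ⟨(x + y) ^ p, ?_⟩
    rw [Matrix.SpecialLinearGroup.coe_pow, ← hM, hpow, Matrix.scalar_apply]
    ext i j
    fin_cases i <;> fin_cases j <;> simp
  have h3 := orderOf_dvd_of_pow_eq_one h2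
  rw [hord] at h3
  have := Nat.le_of_dvd hp'.pos h3
  have := hp'.pos
  omega

end Cfsg.Agent.S2471
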