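import Cfsg.Statements.S2474
import Cfsg.Agent.Lib.PGBC.Lower
import Cfsg.Agent.Lib.PGBC.Sp

set_option autoImplicit false
open Cfsg

namespace Cfsg.Agent.S2474

/-- For q odd and n ≥ 3 the simple groups PΩ(2n+1,q) and PSp(2n,q) (which have the same order but different sets of element orders) have the same prime graph: for all distinct primes r, s, one of them has an element of order r·s if and only if the other does. -/
theorem result {F : Type*} [Field F] [Fintype F] (hodd : Odd (Fintype.card F)) (n : ℕ) (hn : 3 ≤ n) (r s : ℕ) (hr : r.Prime) (hs : s.Prime) (hrs : r ≠ s) :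
    (r * s ∈ Set.range (orderOf : Cfsg.POmega F (Cfsg.quadFormOdd n F) → ℕ)) ↔ (r * s ∈ Set.range (orderOf : Cfsg.PSp n F → ℕ)) := by
  classical
  obtain ⟨p, hpc⟩ := CharP.exists F
  have hpp : p.Prime := by
    rcases CharP.char_is_prime_or_zero F p with h | h
    · exact h
    · subst h
      exact absurd (CharP.charP_to_charZero F) (fun h0 => not_finite F)
  have : Fact p.Prime := ⟨hpp⟩
  have h2 : (2 : F) ≠ 0 := by
    intro h
    have h3 : ringChar F = 2 := by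
      exact CharP.ringChar_of_prime_eq_zero Nat.prime_two (by exact_mod_cast h)
    have := FiniteField.even_card_iff_char_two.mp h3
    rw [Nat.odd_iff] at hodd
    omega
  have hp2 : p ≠ 2 := Cfsg.Agent.Lib.SpSpec.FormAlg.char_ne_two p h2
  have hn1 : 1 ≤ n := by omega
  have iff_oo : ∀ {r s : ℕ}, r.Prime → s.Prime → r ≠ 2 → s ≠ 2 → r ≠ p → s ≠ p → r ≠ s →
      ((r * s ∈ Set.range (orderOf : Cfsg.POmega F (Cfsg.quadFormOdd n F) → ℕ)) ↔
        (r * s ∈ Set.range (orderOf : Cfsg.PSp n F → ℕ))) := by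
    intro r s hr hs hr2 hs2 hrp hsp hrs
    constructor
    · rintro ⟨x, hx⟩
      obtain ⟨y, hy⟩ := Cfsg.Agent.Lib.PGBC.Om.exists_lift_om h2 hn x
      have h3 := Cfsg.Agent.Lib.PGBC.Om.upper_oo_omega p h2 y hr hs hr2 hs2 hrp hsp hrs (hy.trans hx)
      exact Cfsg.Agent.Lib.PGBC.Sp.lower_oo_sp p hn1 hr hs hr2 hs2 hrs h3
    · rintro ⟨x, hx⟩
      have h3 := Cfsg.Agent.Lib.PGBC.Sp.upper_oo_sp p hn1 x hr hs hr2 hs2 hrp hsp hrs hx
      exact Cfsg.Agent.Lib.PGBC.Lower.lower_oo_om p h2 hn hr hs hr2 hs2 hrs h3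
  have iff_op : ∀ {r : ℕ}, r.Prime → r ≠ 2 → r ≠ p →
      ((p * r ∈ Set.range (orderOf : Cfsg.POmega F (Cfsg.quadFormOdd n F) → ℕ)) ↔
        (p * r ∈ Set.range (orderOf : Cfsg.PSp n F → ℕ))) := by
    intro r hr hr2 hrp
    constructor
    · rintro ⟨x, hx⟩
      obtain ⟨y, hy⟩ := Cfsg.Agent.Lib.PGBC.Om.exists_lift_om h2 hn x
      have h3 := Cfsg.Agent.Lib.PGBC.Om.upper_op_omega p h2 hn1 y hr hr2 hrp (hy.trans hx)
      exact Cfsg.Agent.Lib.PGBC.Sp.lower_op_sp p hn1 hr hr2 hrp h3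
    · rintro ⟨x, hx⟩
      have h3 := Cfsg.Agent.Lib.PGBC.Sp.upper_op_sp p hp2 hn1 x hr hr2 hrp hx
      exact Cfsg.Agent.Lib.PGBC.Lower.lower_op_om p h2 hn hr hr2 hrp h3
  have iff_to : ∀ {s : ℕ}, s.Prime → s ≠ 2 → s ≠ p →
      ((2 * s ∈ Set.range (orderOf : Cfsg.POmega F (Cfsg.quadFormOdd n F) → ℕ)) ↔
        (2 * s ∈ Set.range (orderOf : Cfsg.PSp n F → ℕ))) := by
    intro s hs hs2 hsp
    constructor
    · rintro ⟨x, hx⟩
      obtain ⟨y, hy⟩ := Cfsg.Agent.Lib.PGBC.Om.exists_lift_om h2 hn x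
      have h3 := Cfsg.Agent.Lib.PGBC.Om.upper_to_omega p h2 hn y hs hs2 hsp (hy.trans hx)
      exact Cfsg.Agent.Lib.PGBC.Sp.lower_to_sp p h2 hn1 hs hs2 h3
    · rintro ⟨x, hx⟩
      have h3 := Cfsg.Agent.Lib.PGBC.Sp.upper_to_sp' p h2 hn1 x hs hs2 hsp hx
      exact Cfsg.Agent.Lib.PGBC.Lower.lower_to_om p h2 hn hs hs2 h3
  have iff_tp : ((2 * p ∈ Set.range (orderOf : Cfsg.POmega F (Cfsg.quadFormOdd n F) → ℕ)) ↔
      (2 * p ∈ Set.range (orderOf : Cfsg.PSp n F → ℕ))) :=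
    ⟨fun _ => Cfsg.Agent.Lib.PGBC.Sp.lower_tp_sp p h2 (by omega),
      fun _ => Cfsg.Agent.Lib.PGBC.Lower.lower_tp_om p h2 hn⟩
  by_cases hr2 : r = 2
  · subst hr2
    by_cases hsp : s = p
    · subst hsp
      exact iff_tp
    · exact iff_to hs (Ne.symm hrs) hsp
  by_cases hs2 : s = 2
  · subst hs2
    rw [mul_comm]
    by_cases hrp : r = p
    · subst hrp
      exact iff_tp
    · exact iff_to hr hr2 hrp
  by_cases hrp : r = p
  · subst hrp
    exact iff_op hs hs2 (Ne.symm hrs)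
  by_cases hsp : s = p
  · subst hsp
    rw [mul_comm]
    exact iff_op hr hr2 hrp
  exact iff_oo hr hs hr2 hs2 hrp hsp hrs

end Cfsg.Agent.S2474
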