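import Cfsg.Statements.S2475
import Cfsg.Agent.Lib.SLn.SL2PSL
-- import your own Cfsg.Agent.* helpers here

set_option autoImplicit false
open Cfsg

namespace Cfsg.Agent.S2475

section aux

open Cfsg.Agent.Lib.SLn.SL2PSL Cfsg.Agent.Lib.SLn.Basic Cfsg.Agent.Lib.SLn.SL2Gen Cfsg.Agent.Lib.GL2.SL2
open Cfsg.Agent.Lib.Classical.SL2Tori Cfsg.Agent.Lib.Classical.QuadExt Cfsg.Agent.Lib.Classical

/-- a divisor of the order is the order of a power -/
lemma exists_order_of_dvd {G : Type*} [Group G] (y : G) {m n : ℕ} (h : orderOf y = n) (hn : 0 < n) (hm : m ∣ n) :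
    ∃ z : G, orderOf z = m := by
  obtain ⟨c, rfl⟩ := hm
  have hc : c ≠ 0 := by
    rintro rfl
    simp at hn
  have hm0 : 0 < m := Nat.pos_of_ne_zero (by rintro rfl; simp at hn)
  refine ⟨y ^ c, ?_⟩
  rw [orderOf_pow_of_dvd hc (by rw [h]; exact dvd_mul_left _ _), h]
  exact Nat.mul_div_cancel _ (Nat.pos_of_ne_zero hc)

end aux

/-- The set of element orders of PSL(2,q): let F be a finite field of characteristic p with q ≥ 4 elements and d = gcd(2, q − 1). The orders of elements of PSL(2,F) are exactly the divisors of p, of (q − 1)/d and of (q + 1)/d. -/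
theorem result {F : Type*} [Field F] [Fintype F] (p : ℕ) [Fact p.Prime] [CharP F p] (h4 : 4 ≤ Fintype.card F) :
    Set.range (orderOf : Matrix.ProjectiveSpecialLinearGroup (Fin 2) F → ℕ) =
      {m : ℕ | m ∣ p ∨ m ∣ (Fintype.card F - 1) / Nat.gcd 2 (Fintype.card F - 1) ∨ m ∣ (Fintype.card F + 1) / Nat.gcd 2 (Fintype.card F - 1)} := by
  have hq : 1 < Fintype.card F := Fintype.one_lt_card
  obtain ⟨a, ha⟩ := Lib.Classical.SL2Tori.exists_irred (F := F)
  haveI : Fact (∀ r : F, r ^ 2 ≠ a + 1 * r) := ⟨ha⟩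
  have hp' : p.Prime := Fact.out
  ext m
  constructor
  · rintro ⟨g, rfl⟩
    obtain ⟨X, rfl⟩ := Lib.SLn.Basic.toPSL_surjective g
    rcases Lib.SLn.SL2PSL.tr_cases X with h | ⟨x, -, hx⟩ | h
    · left
      exact orderOf_dvd_of_pow_eq_one (Lib.SLn.SL2PSL.toPSL_pow_char p X h)
    · right; left
      exact orderOf_dvd_of_pow_eq_one (Lib.SLn.SL2PSL.toPSL_conj_pow_eq_one hx _ (Lib.SLn.SL2PSL.diag_pow x))
    · right; right
      have ht := Lib.SLn.SL2Gen.tr_sq_ne_of_no_root h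
      obtain ⟨u, hu⟩ := Lib.SLn.SL2Gen.exists_normOne_tr (a := a) (b := 1) h
      have hc := Lib.SLn.SL2Gen.isConj_of_tr_eq (g := X) (g' := Lib.Classical.SL2Tori.regHom a 1 u) hu.symm ht
      exact orderOf_dvd_of_pow_eq_one (Lib.SLn.SL2PSL.toPSL_conj_pow_eq_one hc _ (Lib.SLn.SL2PSL.reg_pow u))
  · rintro (h | h | h)
    · rcases (Nat.dvd_prime hp').mp h with rfl | rfl
      · exact ⟨1, orderOf_one⟩
      · refine ⟨Lib.SLn.Basic.toPSL (Lib.GL2.SL2.uu 1), ?_⟩
        apply orderOf_eq_prime (Lib.SLn.SL2PSL.toPSL_pow_char m _ ?_)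
        · rw [Ne, Lib.SLn.Basic.toPSL_eq_one_iff]
          rintro ⟨c, hc⟩
          have h1 := congrFun (congrFun hc 0) 1
          simp [Lib.GL2.SL2.uu, Matrix.scalar_apply] at h1
        · simp [Lib.GL2.SL2Classes.tr, Lib.GL2.SL2.uu]
          norm_num
    · obtain ⟨x, hx⟩ := IsCyclic.exists_ofOrder_eq_natCard (α := Fˣ)
      rw [Lib.Classical.SLBasic.card_units_eq] at hx
      have h1 := Lib.SLn.SL2PSL.orderOf_toPSL_of (Lib.Classical.SL2Tori.diagHom : Fˣ →* Lib.GL2.SL2.SL2 F) Lib.SLn.SL2PSL.toPSL_diag_eq_one_iff x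
      rw [hx] at h1
      have hpos : 0 < (Fintype.card F - 1) / Nat.gcd 2 (Fintype.card F - 1) :=
        Nat.div_pos (Nat.le_of_dvd (by omega) (Nat.gcd_dvd_right _ _)) (Nat.gcd_pos_of_pos_left _ (by norm_num))
      exact exists_order_of_dvd _ h1 hpos h
    · obtain ⟨u, hu, -⟩ := Lib.SLn.SL2Gen.exists_gen a 1
      have h1 := Lib.SLn.SL2PSL.orderOf_toPSL_of (Lib.Classical.SL2Tori.regHom a 1) Lib.SLn.SL2PSL.toPSL_reg_eq_one_iff u
      rw [hu, Lib.SLn.SL2PSL.gcd_two_add_eq _ (by omega)] at h1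
      have hpos : 0 < (Fintype.card F + 1) / Nat.gcd 2 (Fintype.card F - 1) :=
        Nat.div_pos (Nat.le_of_dvd (by omega) (by
          rw [← Lib.SLn.SL2PSL.gcd_two_add_eq _ (by omega)]
          exact Nat.gcd_dvd_right _ _)) (Nat.gcd_pos_of_pos_left _ (by norm_num))
      exact exists_order_of_dvd _ h1 hpos h

end Cfsg.Agent.S2475
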