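import Cfsg.Statements.S2479
import Cfsg.Agent.Lib.ClassNum.SLcount

set_option autoImplicit false
open Cfsg

namespace Cfsg.Agent.S2479

/-- The number of conjugacy classes of SL(n,q): for F a finite field with q elements, the number k of conjugacy classes of SL(n,F) satisfies q^(n−1) < k and k ≤ (5/2)·q^(n−1) for n ≥ 2, and k ≤ q^(n−1) + 3q^(n−2) for n ≥ 3. -/
theorem result {F : Type*} [Field F] [Fintype F] (n : ℕ) (hn : 2 ≤ n) :
    Fintype.card F ^ (n - 1) < Nat.card (ConjClasses (Matrix.SpecialLinearGroup (Fin n) F)) ∧ 2 * Nat.card (ConjClasses (Matrix.SpecialLinearGroup (Fin n) F)) ≤ 5 * Fintype.card F ^ (n - 1) ∧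
      (3 ≤ n → Nat.card (ConjClasses (Matrix.SpecialLinearGroup (Fin n) F)) ≤ Fintype.card F ^ (n - 1) + 3 * Fintype.card F ^ (n - 2)) := by
  have hq : 2 ≤ Fintype.card F := Fintype.one_lt_card
  refine ⟨?_, ?_, fun h => Cfsg.Agent.Lib.ClassNum.SL_ge_three h⟩
  · obtain ⟨m, rfl⟩ : ∃ m, n = m + 1 := ⟨n - 1, by omega⟩
    simpa using Cfsg.Agent.Lib.ClassNum.SL_lower (F := F) m (by omega)
  · rcases (by omega : n = 2 ∨ 3 ≤ n) with rfl | h
    · have h1 := Cfsg.Agent.Lib.ClassNum.SL_two (F := F)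
      simp only [Nat.add_one_sub_one, pow_one, Nat.reduceSub]
      by_cases h2 : 2 ∣ Fintype.card F - 1
      · rw [if_pos h2] at h1
        have h3 : 3 ≤ Fintype.card F := by
          have := Nat.le_of_dvd (by omega) h2
          omega
        omega
      · rw [if_neg h2] at h1
        omega
    · have h1 := Cfsg.Agent.Lib.ClassNum.SL_ge_three (F := F) h
      have h2 : n - 1 = n - 2 + 1 := by omega
      rw [h2, pow_succ] at h1 ⊢
      have h3 : 0 < Fintype.card F ^ (n - 2) := by positivity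
      nlinarith

end Cfsg.Agent.S2479
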