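import Cfsg.Statements.S2485
import Mathlib
import Cfsg.Agent.Lib.Classical.SLBasic

set_option autoImplicit false
open scoped Pointwise
open Cfsg


namespace Cfsg.Agent.S2485

open Matrix

variable {F : Type*} [Field F]

/-- The quotient map from `GL₂`. -/
abbrev π : GL (Fin 2) F →* GL (Fin 2) F ⧸ Subgroup.center (GL (Fin 2) F) := QuotientGroup.mk' _

/-- Square roots of `-1` in `GL₂`. -/
def IsJ (t : GL (Fin 2) F) : Prop := (t : Matrix (Fin 2) (Fin 2) F) * t = -1

theorem eq_of_tau (hneg : ∀ u : F, u * u ≠ -1) {a b c a' b' c' : F}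
    (h : a * a + b * c = -1) (h' : a' * a' + b' * c' = -1)
    (ht : 2 * a * a' + b * c' + c * b' = -2) : a' = a ∧ b' = b ∧ c' = c := by
  obtain ⟨x, hx⟩ : ∃ x, x = a - a' := ⟨_, rfl⟩
  obtain ⟨y, hy⟩ : ∃ y, y = b - b' := ⟨_, rfl⟩
  obtain ⟨w, hw⟩ : ∃ w, w = c - c' := ⟨_, rfl⟩
  have h1 : x * x + y * w = 0 := by
    rw [hx, hy, hw]
    linear_combination h + h' - ht
  have h2 : 2 * a * x + b * w + c * y = 0 := by
    rw [hx, hy, hw]
    linear_combination 2 * h - ht
  have hy0 : y = 0 := by
    by_contra hy0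
    have h3 : (b * x - a * y) * (b * x - a * y) + y * y = 0 := by
      linear_combination (b * b) * h1 - b * y * h2 + y * y * h
    apply hneg ((b * x - a * y) / y)
    field_simp
    linear_combination h3
  have hx0 : x = 0 := by
    rw [hy0, zero_mul, add_zero] at h1
    exact mul_self_eq_zero.mp h1
  have hw0 : w = 0 := by
    by_contra hw0
    rw [hx0, hy0] at h2
    have hb : b = 0 := by
      have : b * w = 0 := by linear_combination h2
      exact (mul_eq_zero.mp this).resolve_right hw0
    apply hneg a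
    rw [hb] at h
    linear_combination h
  refine ⟨?_, ?_, ?_⟩
  · linear_combination hx - hx0
  · linear_combination hy - hy0
  · linear_combination hw - hw0

theorem two_ne (hneg : ∀ u : F, u * u ≠ -1) : (2 : F) ≠ 0 := by
  intro h
  apply hneg 1
  linear_combination h

theorem IsJ.coords (hneg : ∀ u : F, u * u ≠ -1) {t : GL (Fin 2) F} (ht : IsJ t) :
    (t : Matrix (Fin 2) (Fin 2) F) 1 1 = - (t : Matrix (Fin 2) (Fin 2) F) 0 0 ∧
      (t : Matrix (Fin 2) (Fin 2) F) 0 0 * (t : Matrix (Fin 2) (Fin 2) F) 0 0 +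
        (t : Matrix (Fin 2) (Fin 2) F) 0 1 * (t : Matrix (Fin 2) (Fin 2) F) 1 0 = -1 := by
  have h00 := congrFun (congrFun ht 0) 0
  have h01 := congrFun (congrFun ht 0) 1
  have h10 := congrFun (congrFun ht 1) 0
  simp only [Matrix.mul_apply, Fin.sum_univ_two, Matrix.neg_apply, Matrix.one_apply_eq,
    Matrix.one_apply_ne (show (0 : Fin 2) ≠ 1 by decide),
    Matrix.one_apply_ne (show (1 : Fin 2) ≠ 0 by decide)] at h00 h01 h10
  refine ⟨?_, h00⟩
  by_contra hd
  have hd' : (t : Matrix (Fin 2) (Fin 2) F) 0 0 + (t : Matrix (Fin 2) (Fin 2) F) 1 1 ≠ 0 := by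
    intro h
    exact hd (by linear_combination h)
  have hb : (t : Matrix (Fin 2) (Fin 2) F) 0 1 = 0 := by
    have : (t : Matrix (Fin 2) (Fin 2) F) 0 1 *
        ((t : Matrix (Fin 2) (Fin 2) F) 0 0 + (t : Matrix (Fin 2) (Fin 2) F) 1 1) = 0 := by
      rw [neg_zero] at h01
      linear_combination h01
    exact (mul_eq_zero.mp this).resolve_right hd'
  rw [hb, zero_mul, add_zero] at h00
  exact hneg _ h00

theorem neg_one_mem : (-1 : GL (Fin 2) F) ∈ Subgroup.center (GL (Fin 2) F) := by
  rw [Subgroup.mem_center_iff]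
  intro g
  simp

theorem π_neg_one : π (-1 : GL (Fin 2) F) = 1 := by
  rw [← MonoidHom.mem_ker, QuotientGroup.ker_mk']
  exact neg_one_mem

theorem π_neg (t : GL (Fin 2) F) : π (-t) = π t := by
  have : -t = -1 * t := by simp
  rw [this, map_mul, π_neg_one, one_mul]

theorem π_ne_one (hneg : ∀ u : F, u * u ≠ -1) {t : GL (Fin 2) F} (ht : IsJ t) : π t ≠ 1 := by
  intro h
  rw [← MonoidHom.mem_ker, QuotientGroup.ker_mk',
    Matrix.GeneralLinearGroup.mem_center_iff_val_mem_range_scalar] at h
  obtain ⟨c, hc⟩ := h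
  have h00 := congrFun (congrFun ht 0) 0
  have : (t : Matrix (Fin 2) (Fin 2) F) = Matrix.scalar (Fin 2) c := hc.symm
  rw [this] at h00
  simp [Matrix.mul_apply, Fin.sum_univ_two] at h00
  exact hneg c h00

theorem anticomm {t t' : Matrix (Fin 2) (Fin 2) F} (ht : t * t = -1) :
    (t * t' - t' * t) * t = - (t * (t * t' - t' * t)) := by
  have h1 : t' * t * t = - t' := by rw [mul_assoc, ht]; simp
  have h2 : t * (t * t') = - t' := by rw [← mul_assoc, ht]; simp
  simp only [sub_mul, mul_sub, h1, h2, ← mul_assoc]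
  abel

theorem anticomm' {t t' : Matrix (Fin 2) (Fin 2) F} (ht : t' * t' = -1) :
    (t * t' - t' * t) * t' = - (t' * (t * t' - t' * t)) := by
  have h1 : t * t' * t' = - t := by rw [mul_assoc, ht]; simp
  have h2 : t' * (t' * t) = - t := by rw [← mul_assoc, ht]; simp
  simp only [sub_mul, mul_sub, h1, h2, ← mul_assoc]
  abel

theorem mem_cent {G : Type*} [Group G] {a y : G} : y ∈ Subgroup.centralizer {a} ↔ y * a = a * y := by
  rw [Subgroup.mem_centralizer_iff]
  simp only [Set.mem_singleton_iff, forall_eq]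
  exact eq_comm

/-- The key lemma: for two square roots of `-1`, the centralizers in `PGL₂` meet. -/
theorem inter_ne_bot (hneg : ∀ u : F, u * u ≠ -1) {t t' : GL (Fin 2) F} (ht : IsJ t) (ht' : IsJ t') :
    Subgroup.centralizer {π t} ⊓ Subgroup.centralizer {π t'} ≠ ⊥ := by
  have same : ∀ t'' : GL (Fin 2) F, π t'' = π t →
      Subgroup.centralizer {π t} ⊓ Subgroup.centralizer {π t''} ≠ ⊥ := by
    intro t'' h h0
    rw [h] at h0
    have h1 : π t ∈ Subgroup.centralizer {π t} ⊓ Subgroup.centralizer {π t} :=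
      Subgroup.mem_inf.mpr ⟨mem_cent.mpr rfl, mem_cent.mpr rfl⟩
    rw [h0, Subgroup.mem_bot] at h1
    exact π_ne_one hneg ht h1
  obtain ⟨hd, hdet⟩ := ht.coords hneg
  obtain ⟨hd', hdet'⟩ := ht'.coords hneg
  set a := (t : Matrix (Fin 2) (Fin 2) F) 0 0 with ha
  set b := (t : Matrix (Fin 2) (Fin 2) F) 0 1 with hb
  set c := (t : Matrix (Fin 2) (Fin 2) F) 1 0 with hc
  set a' := (t' : Matrix (Fin 2) (Fin 2) F) 0 0 with ha'
  set b' := (t' : Matrix (Fin 2) (Fin 2) F) 0 1 with hb'
  set c' := (t' : Matrix (Fin 2) (Fin 2) F) 1 0 with hc'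
  let z : Matrix (Fin 2) (Fin 2) F := (t : Matrix (Fin 2) (Fin 2) F) * t' - t' * t
  have hdetz : z.det = 4 - (2 * a * a' + b * c' + c * b') ^ 2 := by
    simp only [z, Matrix.det_fin_two, Matrix.sub_apply, Matrix.mul_apply, Fin.sum_univ_two, hd, hd']
    rw [← ha, ← hb, ← hc, ← ha', ← hb', ← hc']
    linear_combination 4 * (a' * a' + b' * c') * hdet + 4 * (-1 : F) * hdet'
  by_cases hz : z.det = 0
  · rw [hz] at hdetz
    have h2 : (2 * a * a' + b * c' + c * b' + 2) * (2 * a * a' + b * c' + c * b' - 2) = 0 := by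
      linear_combination hdetz
    rcases mul_eq_zero.mp h2 with h3 | h3
    · obtain ⟨e1, e2, e3⟩ := eq_of_tau hneg hdet hdet' (by linear_combination h3)
      have : t' = t := by
        apply Units.ext
        refine Matrix.ext fun i j => ?_
        fin_cases i <;> fin_cases j
        · exact e1
        · exact e2
        · exact e3
        · show (t' : Matrix (Fin 2) (Fin 2) F) 1 1 = (t : Matrix (Fin 2) (Fin 2) F) 1 1
          rw [hd, hd', e1]
      rw [this]
      exact same t rfl
    · obtain ⟨e1, e2, e3⟩ := eq_of_tau hneg (a' := - a') (b' := - b') (c' := - c') hdet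
        (by linear_combination hdet') (by linear_combination - h3)
      have : t' = -t := by
        apply Units.ext
        refine Matrix.ext fun i j => ?_
        rw [Units.val_neg, Matrix.neg_apply]
        fin_cases i <;> fin_cases j
        · show a' = - a
          linear_combination - e1
        · show b' = - b
          linear_combination - e2
        · show c' = - c
          linear_combination - e3
        · show (t' : Matrix (Fin 2) (Fin 2) F) 1 1 = - (t : Matrix (Fin 2) (Fin 2) F) 1 1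
          rw [hd, hd']
          linear_combination e1
      rw [this]
      exact same (-t) (π_neg t)
  · let Z : GL (Fin 2) F := Matrix.GeneralLinearGroup.mkOfDetNeZero z hz
    have hZ1 : Z * t = -1 * (t * Z) := by
      apply Units.ext
      show ((t : Matrix (Fin 2) (Fin 2) F) * t' - t' * t) * (t : Matrix (Fin 2) (Fin 2) F) =
        -1 * ((t : Matrix (Fin 2) (Fin 2) F) * ((t : Matrix (Fin 2) (Fin 2) F) * t' - t' * t))
      rw [anticomm ht]
      simp
    have hZ2 : Z * t' = -1 * (t' * Z) := by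
      apply Units.ext
      show ((t : Matrix (Fin 2) (Fin 2) F) * t' - t' * t) * (t' : Matrix (Fin 2) (Fin 2) F) =
        -1 * ((t' : Matrix (Fin 2) (Fin 2) F) * ((t : Matrix (Fin 2) (Fin 2) F) * t' - t' * t))
      rw [anticomm' ht']
      simp
    intro h0
    have hmem : π Z ∈ Subgroup.centralizer {π t} ⊓ Subgroup.centralizer {π t'} := by
      refine Subgroup.mem_inf.mpr ⟨mem_cent.mpr ?_, mem_cent.mpr ?_⟩
      · rw [← map_mul, ← map_mul, hZ1, map_mul, π_neg_one, one_mul]
      · rw [← map_mul, ← map_mul, hZ2, map_mul, π_neg_one, one_mul]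
    rw [h0, Subgroup.mem_bot, ← MonoidHom.mem_ker, QuotientGroup.ker_mk', Subgroup.mem_center_iff] at hmem
    have h1 := hmem t
    rw [hZ1] at h1
    have h2 : (-1 : GL (Fin 2) F) = 1 := by
      have : (-1 : GL (Fin 2) F) * (t * Z) = 1 * (t * Z) := by rw [← h1, one_mul]
      exact mul_right_cancel this
    have h3 := congrArg (fun g : GL (Fin 2) F => (g : Matrix (Fin 2) (Fin 2) F) 0 0) h2
    simp at h3
    apply hneg 1
    linear_combination - h3

/-- Conjugation of a centralizer. -/
theorem conj_centralizer {G : Type*} [Group G] (g a : G) :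
    MulAut.conj g • Subgroup.centralizer {a} = Subgroup.centralizer {g * a * g⁻¹} := by
  ext y
  rw [Subgroup.mem_pointwise_smul_iff_inv_smul_mem, mem_cent, mem_cent]
  have hsm : (MulAut.conj g)⁻¹ • y = g⁻¹ * y * g := by
    simp [MulAut.smul_def]
  rw [hsm]
  constructor
  · intro h
    have : g * (g⁻¹ * y * g * a) * g⁻¹ = g * (a * (g⁻¹ * y * g)) * g⁻¹ := by rw [h]
    simpa [mul_assoc] using this
  · intro h
    have : g⁻¹ * (y * (g * a * g⁻¹)) * g = g⁻¹ * (g * a * g⁻¹ * y) * g := by rw [h]
    simpa [mul_assoc] using this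

theorem IsJ.conj {t : GL (Fin 2) F} (ht : IsJ t) (g : GL (Fin 2) F) : IsJ (g * t * g⁻¹) := by
  have h1 : ((g * t * g⁻¹ : GL (Fin 2) F) : Matrix (Fin 2) (Fin 2) F) * ((g * t * g⁻¹ : GL (Fin 2) F) : Matrix (Fin 2) (Fin 2) F) =
      ((g : Matrix (Fin 2) (Fin 2) F) * ((t : Matrix (Fin 2) (Fin 2) F) * t)) * ((g⁻¹ : GL (Fin 2) F) : Matrix (Fin 2) (Fin 2) F) := by
    simp only [Units.val_mul, mul_assoc]
    congr 2
    rw [← mul_assoc (((g⁻¹ : GL (Fin 2) F) : Matrix (Fin 2) (Fin 2) F)), ← Units.val_mul]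
    simp
  rw [IsJ, h1, ht]
  simp

/-- The standard element. -/
noncomputable def t₀ : GL (Fin 2) F :=
  Matrix.GeneralLinearGroup.mkOfDetNeZero !![0, -1; 1, 0] (by simp [Matrix.det_fin_two_of])

theorem t₀_val : (t₀ : GL (Fin 2) F).val = !![0, -1; 1, 0] := rfl

theorem isJ_t₀ : IsJ (t₀ : GL (Fin 2) F) := by
  rw [IsJ, t₀_val]
  ext i j
  fin_cases i <;> fin_cases j <;> simp [Matrix.mul_apply, Fin.sum_univ_two]

/-- Membership in the preimage of the centralizer of `t₀`. -/
theorem mem_comap_iff (hneg : ∀ u : F, u * u ≠ -1) (g : GL (Fin 2) F) :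
    g ∈ (Subgroup.centralizer {π (t₀ : GL (Fin 2) F)}).comap π ↔
      ((g : Matrix (Fin 2) (Fin 2) F) 1 1 = (g : Matrix (Fin 2) (Fin 2) F) 0 0 ∧
        (g : Matrix (Fin 2) (Fin 2) F) 1 0 = - (g : Matrix (Fin 2) (Fin 2) F) 0 1) ∨
      ((g : Matrix (Fin 2) (Fin 2) F) 1 1 = - (g : Matrix (Fin 2) (Fin 2) F) 0 0 ∧
        (g : Matrix (Fin 2) (Fin 2) F) 1 0 = (g : Matrix (Fin 2) (Fin 2) F) 0 1) := by
  have h2 := two_ne hneg
  rw [Subgroup.mem_comap, mem_cent]
  constructor
  · intro h
    have h1 : π ((t₀ * g)⁻¹ * (g * t₀)) = 1 := by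
      rw [map_mul, map_inv, map_mul, map_mul, h]
      simp
    rw [← MonoidHom.mem_ker, QuotientGroup.ker_mk',
      Matrix.GeneralLinearGroup.mem_center_iff_val_mem_range_scalar] at h1
    obtain ⟨c, hc⟩ := h1
    have hm : ((g * t₀ : GL (Fin 2) F) : Matrix (Fin 2) (Fin 2) F) =
        ((t₀ * g : GL (Fin 2) F) : Matrix (Fin 2) (Fin 2) F) * Matrix.scalar (Fin 2) c := by
      have h5 : g * t₀ = (t₀ * g) * ((t₀ * g)⁻¹ * (g * t₀)) := by group
      conv_lhs => rw [h5]
      rw [Units.val_mul, ← hc]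
    have e00 := congrFun (congrFun hm 0) 0
    have e01 := congrFun (congrFun hm 0) 1
    have e10 := congrFun (congrFun hm 1) 0
    have e11 := congrFun (congrFun hm 1) 1
    simp [t₀_val, Matrix.mul_apply, Fin.sum_univ_two, Matrix.scalar_apply, Matrix.diagonal_apply, Matrix.vecMul, dotProduct] at e00 e01 e10 e11
    have hdet := (Matrix.isUnit_iff_isUnit_det _).mp g.isUnit
    rw [Matrix.det_fin_two] at hdet
    have hc2 : c * c = 1 := by
      by_contra hne
      have hne' : 1 - c * c ≠ 0 := fun h => hne (by linear_combination - h)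
      have hp : (g : Matrix (Fin 2) (Fin 2) F) 0 0 = 0 := by
        have : (g : Matrix (Fin 2) (Fin 2) F) 0 0 * (1 - c * c) = 0 := by
          linear_combination e01 + c * e10
        exact (mul_eq_zero.mp this).resolve_right hne'
      have hr : (g : Matrix (Fin 2) (Fin 2) F) 0 1 = 0 := by
        have : (g : Matrix (Fin 2) (Fin 2) F) 0 1 * (1 - c * c) = 0 := by
          linear_combination e00 + c * e11
        exact (mul_eq_zero.mp this).resolve_right hne'
      rw [hp, hr] at hdet
      simp at hdet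
    have hc3 : (c - 1) * (c + 1) = 0 := by linear_combination hc2
    rcases mul_eq_zero.mp hc3 with h5 | h5
    · have hc1 : c = 1 := by linear_combination h5
      subst hc1
      left
      constructor
      · linear_combination e10
      · linear_combination - e11
    · have hc1 : c = -1 := by linear_combination h5
      subst hc1
      right
      constructor
      · linear_combination e10
      · linear_combination - e11
  · rintro (⟨h1, h2⟩ | ⟨h1, h2⟩)
    · have : g * t₀ = t₀ * g := by
        apply Units.ext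
        refine Matrix.ext fun i j => ?_
        fin_cases i <;> fin_cases j <;>
          simp [t₀_val, Matrix.mul_apply, Fin.sum_univ_two, h1, h2]
      rw [← map_mul, ← map_mul, this]
    · have : g * t₀ = -1 * (t₀ * g) := by
        apply Units.ext
        refine Matrix.ext fun i j => ?_
        fin_cases i <;> fin_cases j <;>
          simp [t₀_val, Matrix.mul_apply, Fin.sum_univ_two, Matrix.vecMul, dotProduct, h1, h2]
      rw [← map_mul, ← map_mul, this, map_mul, π_neg_one, one_mul]

/-- A parametrization of the preimage of the centralizer. -/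
def parMat (p r : F) (b : Bool) : Matrix (Fin 2) (Fin 2) F :=
  if b then !![p, r; -r, p] else !![p, r; r, -p]

theorem sum_sq_ne (hneg : ∀ u : F, u * u ≠ -1) {p r : F} (h : (p, r) ≠ (0, 0)) : p * p + r * r ≠ 0 := by
  intro h0
  by_cases hr : r = 0
  · rw [hr, mul_zero, add_zero] at h0
    have hp : p = 0 := mul_self_eq_zero.mp h0
    exact h (by rw [hp, hr])
  · apply hneg (p / r)
    field_simp
    linear_combination h0

theorem det_parMat (hneg : ∀ u : F, u * u ≠ -1) {p r : F} (h : (p, r) ≠ (0, 0)) (b : Bool) :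
    (parMat p r b).det ≠ 0 := by
  have h1 := sum_sq_ne hneg h
  cases b
  · simp only [parMat, if_false, Bool.false_eq_true, Matrix.det_fin_two_of]
    intro h0
    exact h1 (by linear_combination - h0)
  · simp only [parMat, if_true, Matrix.det_fin_two_of]
    intro h0
    exact h1 (by linear_combination h0)

/-- The parametrization as a map to `GL₂`. -/
noncomputable def par (hneg : ∀ u : F, u * u ≠ -1) (v : {v : F × F // v ≠ (0, 0)}) (b : Bool) :
    GL (Fin 2) F :=
  Matrix.GeneralLinearGroup.mkOfDetNeZero (parMat v.1.1 v.1.2 b) (det_parMat hneg v.2 b)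

theorem par_val (hneg : ∀ u : F, u * u ≠ -1) (v : {v : F × F // v ≠ (0, 0)}) (b : Bool) :
    (par hneg v b).val = parMat v.1.1 v.1.2 b := rfl

theorem card_comap [Fintype F] (hneg : ∀ u : F, u * u ≠ -1) :
    Nat.card ((Subgroup.centralizer {π (t₀ : GL (Fin 2) F)}).comap π) =
      (Fintype.card F * Fintype.card F - 1) * 2 := by
  classical
  have h2 := two_ne hneg
  let Φ : {v : F × F // v ≠ (0, 0)} × Bool → (Subgroup.centralizer {π (t₀ : GL (Fin 2) F)}).comap π :=
    fun x => ⟨par hneg x.1 x.2, by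
      rw [mem_comap_iff hneg, par_val]
      obtain ⟨⟨⟨p, r⟩, hv⟩, b⟩ := x
      cases b
      · right
        simp [parMat]
      · left
        simp [parMat]⟩
  have hΦ : Function.Bijective Φ := by
    constructor
    · rintro ⟨⟨⟨p, r⟩, hv⟩, b⟩ ⟨⟨⟨p', r'⟩, hv'⟩, b'⟩ h
      have h0 : parMat p r b = parMat p' r' b' := congrArg (fun y => (y.1 : GL (Fin 2) F).val) h
      have h00 := congrFun (congrFun h0 0) 0
      have h01 := congrFun (congrFun h0 0) 1
      have h10 := congrFun (congrFun h0 1) 0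
      have h11 := congrFun (congrFun h0 1) 1
      have hp : p = p' := by
        cases b <;> cases b' <;> simpa [parMat] using h00
      have hr : r = r' := by
        cases b <;> cases b' <;> simpa [parMat] using h01
      subst hp hr
      have hb : b = b' := by
        cases b <;> cases b'
        · rfl
        · exfalso
          simp [parMat] at h10 h11
          apply hv
          have h3 : (2 : F) * r = 0 := by linear_combination h10
          have h4 : (2 : F) * p = 0 := by linear_combination - h11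
          rw [(mul_eq_zero.mp h3).resolve_left h2, (mul_eq_zero.mp h4).resolve_left h2]
        · exfalso
          simp [parMat] at h10 h11
          apply hv
          have h3 : (2 : F) * r = 0 := by linear_combination - h10
          have h4 : (2 : F) * p = 0 := by linear_combination h11
          rw [(mul_eq_zero.mp h3).resolve_left h2, (mul_eq_zero.mp h4).resolve_left h2]
        · rfl
      subst hb
      rfl
    · rintro ⟨g, hg⟩
      have hdet := (Matrix.isUnit_iff_isUnit_det _).mp g.isUnit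
      rw [Matrix.det_fin_two] at hdet
      have hne : ((g : Matrix (Fin 2) (Fin 2) F) 0 0, (g : Matrix (Fin 2) (Fin 2) F) 0 1) ≠ (0, 0) := by
        intro h0
        simp only [Prod.mk.injEq] at h0
        rw [h0.1, h0.2] at hdet
        simp at hdet
      rcases (mem_comap_iff hneg g).mp hg with ⟨h1, h2'⟩ | ⟨h1, h2'⟩
      · refine ⟨⟨⟨_, hne⟩, true⟩, ?_⟩
        apply Subtype.ext
        apply Units.ext
        refine Matrix.ext fun i j => ?_
        show parMat _ _ true i j = _
        fin_cases i <;> fin_cases j <;> simp [parMat, h1, h2']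
      · refine ⟨⟨⟨_, hne⟩, false⟩, ?_⟩
        apply Subtype.ext
        apply Units.ext
        refine Matrix.ext fun i j => ?_
        show parMat _ _ false i j = _
        fin_cases i <;> fin_cases j <;> simp [parMat, h1, h2']
  rw [← Nat.card_eq_of_bijective Φ hΦ, Nat.card_prod, Nat.card_eq_fintype_card, Nat.card_eq_fintype_card]
  congr 1
  · rw [Fintype.card_subtype_compl, Fintype.card_prod]
    simp

theorem sylow_C₀ [Fintype F] {k : ℕ} (hk : Fintype.card F + 1 = 2 ^ k) (h4 : Fintype.card F % 4 = 3)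
    (hneg : ∀ u : F, u * u ≠ -1) :
    ∃ P : Sylow 2 (GL (Fin 2) F ⧸ Subgroup.center (GL (Fin 2) F)),
      (P : Subgroup _) = Subgroup.centralizer {π (t₀ : GL (Fin 2) F)} := by
  obtain ⟨m, hm⟩ : ∃ m, Fintype.card F = 4 * m + 3 := ⟨Fintype.card F / 4, by omega⟩
  set C₀ := Subgroup.centralizer {π (t₀ : GL (Fin 2) F)} with hC₀
  have h1 := card_comap hneg
  have h2 : (C₀.comap π).index = C₀.index :=
    Subgroup.index_comap_of_surjective _ (QuotientGroup.mk'_surjective _)
  have h3 := (C₀.comap π).card_mul_index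
  have h5 : Nat.card (GL (Fin 2) F) = (Fintype.card F ^ 2 - 1) * (Fintype.card F ^ 2 - Fintype.card F) := by
    rw [Matrix.card_GL_field, Fin.prod_univ_two]
    simp
  have h6 := C₀.card_mul_index
  have h7 := Subgroup.card_eq_card_quotient_mul_card_subgroup (Subgroup.center (GL (Fin 2) F))
  rw [Cfsg.Agent.Lib.Classical.SLBasic.card_center_gl] at h7
  rw [h1, h2, h5, hm] at h3
  rw [h5, hm] at h7
  have e1 : (4 * m + 3) * (4 * m + 3) - 1 = (4 * m + 2) * (4 * m + 4) := by
    have : (4 * m + 3) * (4 * m + 3) = (4 * m + 2) * (4 * m + 4) + 1 := by ring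
    omega
  have e2 : (4 * m + 3) ^ 2 - 1 = (4 * m + 2) * (4 * m + 4) := by
    rw [pow_two, e1]
  have e3 : (4 * m + 3) ^ 2 - (4 * m + 3) = (4 * m + 3) * (4 * m + 2) := by
    have : (4 * m + 3) ^ 2 = (4 * m + 3) * (4 * m + 2) + (4 * m + 3) := by ring
    omega
  have e4 : 4 * m + 3 - 1 = 4 * m + 2 := by omega
  rw [e1, e2, e3] at h3
  rw [e2, e3, e4] at h7
  have hA : 0 < (4 * m + 2) * (4 * m + 4) := by positivity
  have hi : C₀.index * 2 = (4 * m + 3) * (4 * m + 2) := by
    have : (4 * m + 2) * (4 * m + 4) * (C₀.index * 2) =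
        (4 * m + 2) * (4 * m + 4) * ((4 * m + 3) * (4 * m + 2)) := by
      rw [← h3]
      ring
    exact Nat.eq_of_mul_eq_mul_left hA this
  have hi' : C₀.index = (4 * m + 3) * (2 * m + 1) := by
    have : C₀.index * 2 = (4 * m + 3) * (2 * m + 1) * 2 := by rw [hi]; ring
    omega
  have hipos : 0 < C₀.index := by
    rw [hi']
    positivity
  have hcard : Nat.card C₀ = 2 ^ (k + 1) := by
    have h8 : Nat.card C₀ * (4 * m + 2) = (4 * m + 4) * 2 * (4 * m + 2) := by
      have : C₀.index * (Nat.card C₀ * (4 * m + 2)) = C₀.index * ((4 * m + 4) * 2 * (4 * m + 2)) := by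
        have h9 : C₀.index * (Nat.card C₀ * (4 * m + 2)) = (Nat.card C₀ * C₀.index) * (4 * m + 2) := by ring
        rw [h9, h6, ← h7, hi']
        ring
      exact Nat.eq_of_mul_eq_mul_left hipos this
    have h9 : Nat.card C₀ = (4 * m + 4) * 2 := Nat.eq_of_mul_eq_mul_right (by omega) h8
    rw [h9, pow_succ, ← hk, hm]
  have hP : IsPGroup 2 C₀ := IsPGroup.of_card hcard
  have hnd : ¬ 2 ∣ C₀.index := by
    rw [hi', Nat.Prime.dvd_mul Nat.prime_two]
    omega
  exact ⟨hP.toSylow hnd, rfl⟩

theorem main [Fintype F] {k : ℕ} (hk : Fintype.card F + 1 = 2 ^ k) (h4 : Fintype.card F % 4 = 3)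
    (hneg : ∀ u : F, u * u ≠ -1) (H : Sylow 2 (GL (Fin 2) F ⧸ Subgroup.center (GL (Fin 2) F)))
    (x : GL (Fin 2) F ⧸ Subgroup.center (GL (Fin 2) F)) :
    (H : Subgroup (GL (Fin 2) F ⧸ Subgroup.center (GL (Fin 2) F))) ⊓ MulAut.conj x • (H : Subgroup _) ≠ ⊥ := by
  obtain ⟨P, hP⟩ := sylow_C₀ hk h4 hneg
  obtain ⟨g, hg⟩ := MulAction.exists_smul_eq (GL (Fin 2) F ⧸ Subgroup.center (GL (Fin 2) F)) P H
  obtain ⟨g', rfl⟩ := QuotientGroup.mk'_surjective _ g
  obtain ⟨x', rfl⟩ := QuotientGroup.mk'_surjective _ x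
  have hH : (H : Subgroup _) = Subgroup.centralizer {π (g' * t₀ * g'⁻¹)} := by
    rw [← hg, Sylow.coe_subgroup_smul, hP]
    show MulAut.conj _ • _ = _
    rw [conj_centralizer]
    simp
  rw [hH, conj_centralizer]
  have := inter_ne_bot hneg (isJ_t₀.conj g') ((isJ_t₀.conj g').conj x')
  simpa [map_mul] using this


/-- Let q = 2^k − 1 ≥ 7 be a prime and let G = PGL(2,q), the general linear group of degree 2 over the field with q elements modulo its centre. Then any two Sylow 2-subgroups of G have a non-trivial intersection: for a Sylow 2-subgroup H and every x ∈ G, H ∩ H^x ≠ 1. -/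
theorem result {q k : ℕ} [Fact q.Prime] (hk : q + 1 = 2 ^ k) (hq : 7 ≤ q)
    (H : Sylow 2 (GL (Fin 2) (ZMod q) ⧸ Subgroup.center (GL (Fin 2) (ZMod q))))
    (x : GL (Fin 2) (ZMod q) ⧸ Subgroup.center (GL (Fin 2) (ZMod q))) :
    (H : Subgroup (GL (Fin 2) (ZMod q) ⧸ Subgroup.center (GL (Fin 2) (ZMod q)))) ⊓ MulAut.conj x • (H : Subgroup _) ≠ ⊥ := by
  have : NeZero q := ⟨(Fact.out : q.Prime).ne_zero⟩
  have hc : Fintype.card (ZMod q) = q := ZMod.card q
  have h4 : q % 4 = 3 := by
    have hk2 : 2 ≤ k := by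
      by_contra h
      have : k = 0 ∨ k = 1 := by omega
      rcases this with rfl | rfl <;> omega
    obtain ⟨j, rfl⟩ := Nat.exists_eq_add_of_le hk2
    rw [pow_add] at hk
    omega
  have hneg : ∀ u : ZMod q, u * u ≠ -1 := by
    intro u hu
    exact ZMod.mod_four_ne_three_of_sq_eq_neg_one (y := u) (by rw [pow_two, hu]) h4
  exact main (F := ZMod q) (k := k) (by rw [hc]; exact hk) (by rw [hc]; exact h4) hneg H x

end Cfsg.Agent.S2485
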