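import Cfsg.Statements.S2488
import Mathlib
import Cfsg.Agent.Lib.PGroups.Basic

set_option autoImplicit false
open scoped Pointwise
open Cfsg


namespace Cfsg.Agent.S2488


/-- Permutations of six points. -/
abbrev P6 := Equiv.Perm (Fin 6)

/-- The double transpositions. -/
def Inv45 : List P6 :=
  ((List.finRange 6).flatMap fun a => (List.finRange 6).flatMap fun b =>
    (List.finRange 6).flatMap fun c => (List.finRange 6).flatMap fun d =>
    if a < b ∧ c < d ∧ a < c ∧ a ≠ c ∧ a ≠ d ∧ b ≠ c ∧ b ≠ d then [Equiv.swap a b * Equiv.swap c d] else [])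

/-- A standard involution. -/
def a₀ : P6 := Equiv.swap 0 1 * Equiv.swap 2 3

/-- A permutation from a list of transpositions. -/
def mkP (l : List (Fin 6 × Fin 6)) : P6 := (l.map fun p => Equiv.swap p.1 p.2).prod

/-- Conjugators. -/
def Cj : List P6 := [mkP [],
  mkP [(4,3)],
  mkP [(4,5),(5,3)],
  mkP [(4,3),(3,2)],
  mkP [(4,5),(5,3),(3,2)],
  mkP [(4,2),(5,3)],
  mkP [(2,1)],
  mkP [(2,1),(4,3)],
  mkP [(2,1),(4,5),(5,3)],
  mkP [(4,3),(3,2),(2,1)],
  mkP [(4,5),(5,3),(3,2),(2,1)],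
  mkP [(4,2),(2,1),(5,3)],
  mkP [(2,3),(3,1)],
  mkP [(2,4),(4,3),(3,1)],
  mkP [(2,4),(4,5),(5,3),(3,1)],
  mkP [(4,3),(3,1)],
  mkP [(4,5),(5,3),(3,1)],
  mkP [(4,2),(2,5),(5,3),(3,1)],
  mkP [(2,3),(3,4),(4,1)],
  mkP [(2,4),(4,1)],
  mkP [(2,4),(4,1),(5,3)],
  mkP [(4,1)],
  mkP [(4,1),(5,3)],
  mkP [(4,1),(5,3),(3,2)],
  mkP [(2,3),(3,4),(4,5),(5,1)],
  mkP [(2,4),(4,5),(5,1)],
  mkP [(2,4),(4,3),(3,5),(5,1)],
  mkP [(4,5),(5,1)],
  mkP [(4,3),(3,5),(5,1)],
  mkP [(4,3),(3,2),(2,5),(5,1)],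
  mkP [(4,3),(3,2),(2,1),(1,0)],
  mkP [(4,5),(5,3),(3,2),(2,1),(1,0)],
  mkP [(4,2),(2,1),(1,0),(5,3)],
  mkP [(4,3),(3,1),(1,0)],
  mkP [(4,5),(5,3),(3,1),(1,0)],
  mkP [(4,2),(2,5),(5,3),(3,1),(1,0)],
  mkP [(4,1),(1,0)],
  mkP [(4,1),(1,0),(5,3)],
  mkP [(4,1),(1,0),(5,3),(3,2)],
  mkP [(4,5),(5,1),(1,0)],
  mkP [(4,3),(3,5),(5,1),(1,0)],
  mkP [(4,3),(3,2),(2,5),(5,1),(1,0)],
  mkP [(4,2),(2,0),(5,3),(3,1)],
  mkP [(4,1),(1,5),(5,3),(3,2),(2,0)],
  mkP [(4,3),(3,2),(2,0),(5,1)]]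

/-- The order of an element, if it is at most five. -/
def ordf {X : Type*} [Group X] [DecidableEq X] (y : X) : ℕ :=
  if y ^ 1 = 1 then 1 else if y ^ 2 = 1 then 2 else if y ^ 3 = 1 then 3 else if y ^ 4 = 1 then 4 else 5

theorem ordf_mem {X : Type*} [Group X] [DecidableEq X] (y : X) : ordf y ∈ [1, 2, 3, 4, 5] := by
  unfold ordf
  split_ifs <;> simp

theorem ordf_eq {X Y : Type*} [Group X] [DecidableEq X] [Group Y] [DecidableEq Y] {y : X} {y' : Y}
    (h : ∀ k, y ^ k = 1 ↔ y' ^ k = 1) : ordf y = ordf y' := by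
  simp only [ordf, h]

theorem chkT : ∀ m ∈ [1, 2, 3, 4, 5], (Inv45.filter fun w => ordf (a₀ * w) = m).length < 32 := by
  decide +kernel

theorem chkC : ((Finset.univ : Finset P6).filter (fun y => y * a₀ = a₀ * y ∧ Equiv.Perm.sign y = 1)).card ≤ 8 := by
  decide +kernel

theorem chkI : ∀ a : P6, Equiv.Perm.sign a = 1 ∧ a ^ 2 = 1 ∧ a ≠ 1 → a ∈ Inv45 := by
  decide +kernel

theorem chkJ : ∀ a ∈ Inv45, ∃ g ∈ Cj, g * a * g⁻¹ = a₀ := by
  decide +kernel

theorem card_A6 : Nat.card (alternatingGroup (Fin 6)) = 360 := by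
  have h := two_mul_nat_card_alternatingGroup (α := Fin 6)
  rw [Nat.card_perm, Nat.card_eq_fintype_card (α := Fin 6), Fintype.card_fin] at h
  have h2 : Nat.factorial 6 = 720 := rfl
  omega

theorem mem_cent {G : Type*} [Group G] {a y : G} : y ∈ Subgroup.centralizer {a} ↔ y * a = a * y := by
  rw [Subgroup.mem_centralizer_iff]
  simp only [Set.mem_singleton_iff, forall_eq]
  exact eq_comm

theorem conj_centralizer {G : Type*} [Group G] (g a : G) :
    MulAut.conj g • Subgroup.centralizer {a} = Subgroup.centralizer {g * a * g⁻¹} := by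
  ext y
  rw [Subgroup.mem_pointwise_smul_iff_inv_smul_mem, mem_cent, mem_cent]
  have hsm : (MulAut.conj g)⁻¹ • y = g⁻¹ * y * g := by
    simp [MulAut.smul_def]
  rw [hsm]
  constructor
  · intro h
    have : g * (g⁻¹ * y * g * a) * g⁻¹ = g * (a * (g⁻¹ * y * g)) * g⁻¹ := by rw [h]
    simpa [mul_assoc] using this
  · intro h
    have : g⁻¹ * (y * (g * a * g⁻¹)) * g = g⁻¹ * (g * a * g⁻¹ * y) * g := by rw [h]
    simpa [mul_assoc] using this

theorem main {G : Type*} [Group G] [Finite G] (N : Subgroup G) [N.Normal]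
    (e : N ≃* alternatingGroup (Fin 6)) (hidx : N.index = 4) (H : Sylow 2 G) (x : G) :
    (H : Subgroup G) ⊓ MulAut.conj x • (H : Subgroup G) ≠ ⊥ := by
  classical
  have hN : Nat.card N = 360 := (Nat.card_congr e.toEquiv).trans card_A6
  have hG : Nat.card G = 1440 := by
    have := N.card_mul_index
    rw [hN, hidx] at this
    omega
  have hH : Nat.card H = 32 := by
    obtain ⟨n, hn⟩ := IsPGroup.iff_card.mp H.isPGroup'
    have h1 := (H : Subgroup G).card_mul_index
    have h2 := H.not_dvd_index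
    rw [hG, hn] at h1
    rw [hn]
    have hn11 : n < 11 := by
      by_contra hc
      have h3 : 2 ^ 11 ≤ 2 ^ n := Nat.pow_le_pow_right (by norm_num) (by omega)
      have h4 : 0 < (H : Subgroup G).index := Nat.pos_of_ne_zero (by
        intro h
        rw [h] at h1
        omega)
      have h5 : 2 ^ n * 1 ≤ 2 ^ n * (H : Subgroup G).index := Nat.mul_le_mul_left _ h4
      omega
    interval_cases n <;> first | rfl | (exfalso; omega)
  -- a central involution in `N`
  have hne : N.subgroupOf (H : Subgroup G) ≠ ⊥ := by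
    intro h
    have h1 : N.relIndex (H : Subgroup G) ∣ N.index := Subgroup.relIndex_dvd_index_of_normal N _
    have h2 : N.relIndex (H : Subgroup G) = Nat.card H := by
      rw [Subgroup.relIndex, h, Subgroup.index_bot]
    rw [h2, hH, hidx] at h1
    omega
  obtain ⟨z₀, hzN₀, hzc, hzo⟩ := Cfsg.Agent.Lib.PGroups.Basic.exists_central_orderOf_eq
    (G := H) H.isPGroup' (N.subgroupOf (H : Subgroup G)) hne
  have hzN : (z₀ : G) ∈ N := hzN₀
  obtain ⟨z, hzdef⟩ : ∃ z : G, z = z₀ := ⟨_, rfl⟩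
  have hzNz : z ∈ N := hzdef ▸ hzN
  have hz2 : z ^ 2 = 1 := by
    rw [hzdef]
    have := pow_orderOf_eq_one z₀
    rw [hzo] at this
    exact_mod_cast congrArg (Subtype.val) this
  have hz1 : z ≠ 1 := by
    rw [hzdef]
    intro h
    have : z₀ = 1 := Subtype.ext h
    rw [this, orderOf_one] at hzo
    omega
  have hzH : ∀ h ∈ (H : Subgroup G), h * z = z * h := by
    intro h hh
    rw [hzdef]
    have := Subgroup.mem_center_iff.mp hzc ⟨h, hh⟩
    exact congrArg Subtype.val this
  -- the embedding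
  let ι₀ : N →* P6 := (alternatingGroup (Fin 6)).subtype.comp e.toMonoidHom
  have hι₀_inj : Function.Injective ι₀ := by
    intro a b h
    exact e.injective (Subtype.ext h)
  have hι₀_sign : ∀ y, Equiv.Perm.sign (ι₀ y) = 1 := fun y => (e y).2
  have hinv₀ : ∀ y : N, (y : G) ^ 2 = 1 → (y : G) ≠ 1 → ι₀ y ∈ Inv45 := by
    intro y h1 h2
    apply chkI
    refine ⟨hι₀_sign y, ?_, ?_⟩
    · rw [← map_pow]
      have : y ^ 2 = 1 := Subtype.ext h1
      rw [this, map_one]
    · intro h
      apply h2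
      have : y = 1 := hι₀_inj (by rw [h, map_one])
      rw [this]
      rfl
  obtain ⟨g, -, hg⟩ := chkJ _ (hinv₀ ⟨z, hzNz⟩ hz2 hz1)
  let ι : N →* P6 := (MulAut.conj g).toMonoidHom.comp ι₀
  have hιa : ∀ y, ι y = g * ι₀ y * g⁻¹ := fun y => rfl
  have hι_inj : Function.Injective ι := by
    intro a b h
    apply hι₀_inj
    rw [hιa, hιa] at h
    simpa using h
  have hι_sign : ∀ y, Equiv.Perm.sign (ι y) = 1 := by
    intro y
    rw [hιa, map_mul, map_mul, hι₀_sign, map_inv]
    simp [mul_comm]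
  have hinv : ∀ y : N, (y : G) ^ 2 = 1 → (y : G) ≠ 1 → ι y ∈ Inv45 := by
    intro y h1 h2
    apply chkI
    refine ⟨hι_sign y, ?_, ?_⟩
    · rw [← map_pow]
      have : y ^ 2 = 1 := Subtype.ext h1
      rw [this, map_one]
    · intro h
      apply h2
      have : y = 1 := hι_inj (by rw [h, map_one])
      rw [this]
      rfl
  have hιz : ι ⟨z, hzNz⟩ = a₀ := hg
  have hordι : ∀ (y : N), ordf (ι y) = ordf (y : G) := by
    intro y
    apply ordf_eq
    intro k
    rw [← map_pow]
    constructor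
    · intro h
      have : y ^ k = 1 := hι_inj (by rw [h, map_one])
      exact_mod_cast congrArg Subtype.val this
    · intro h
      have : y ^ k = 1 := Subtype.ext (by exact_mod_cast h)
      rw [this, map_one]
  -- the centralizer of `z` is `H`
  set C := Subgroup.centralizer {z}
  have hHC : (H : Subgroup G) ≤ C := fun h hh => mem_cent.mpr (hzH h hh)
  have hCN : Nat.card (N.subgroupOf C) ≤ 8 := by
    let f : N.subgroupOf C → {y : P6 // y ∈ (Finset.univ : Finset P6).filter
        (fun y => y * a₀ = a₀ * y ∧ Equiv.Perm.sign y = 1)} := fun c =>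
      ⟨ι ⟨c.1.1, c.2⟩, by
        rw [Finset.mem_filter]
        refine ⟨Finset.mem_univ _, ?_, hι_sign _⟩
        rw [← hιz, ← map_mul, ← map_mul]
        congr 1
        exact Subtype.ext (mem_cent.mp c.1.2)⟩
    have hf : Function.Injective f := by
      intro c d h
      have h1 : ι ⟨c.1.1, c.2⟩ = ι ⟨d.1.1, d.2⟩ := congrArg Subtype.val h
      have h2 := hι_inj h1
      have h3 : c.1.1 = d.1.1 := congrArg (fun y : N => (y : G)) h2
      exact Subtype.ext (Subtype.ext h3)
    have h1 := Nat.card_le_card_of_injective f hf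
    rw [Nat.card_eq_fintype_card (α := {y : P6 // y ∈ _}), Fintype.card_coe] at h1
    exact h1.trans chkC
  have hCcard : Nat.card C ≤ 32 := by
    have h1 := (N.subgroupOf C).card_mul_index
    have h2 : N.relIndex C ∣ N.index := Subgroup.relIndex_dvd_index_of_normal N _
    rw [hidx] at h2
    have h3 : (N.subgroupOf C).index ≤ 4 := Nat.le_of_dvd (by norm_num) h2
    rw [← h1]
    calc _ ≤ 8 * 4 := Nat.mul_le_mul hCN h3
      _ = 32 := by norm_num
  have hHeq : (H : Subgroup G) = C :=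
    Subgroup.eq_of_le_of_card_ge hHC (by rw [hH]; exact hCcard)
  -- the contradiction
  intro hbot
  rw [hHeq, conj_centralizer] at hbot
  set z' := x * z * x⁻¹ with hz'
  have hz'N : z' ∈ N := (inferInstance : N.Normal).conj_mem z hzNz x
  have hz'2 : z' ^ 2 = 1 := by
    rw [hz', pow_two]
    have : x * z * x⁻¹ * (x * z * x⁻¹) = x * (z ^ 2) * x⁻¹ := by
      rw [pow_two]
      group
    rw [this, hz2]
    group
  have hz'1 : z' ≠ 1 := by
    intro h
    apply hz1
    have : z = x⁻¹ * z' * x := by rw [hz']; group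
    rw [this, h]
    group
  let m := ordf (z * z')
  have hmm := chkT m (ordf_mem _)
  let T := Inv45.filter fun w => ordf (a₀ * w) = m
  have hconjN : ∀ h : G, h * z' * h⁻¹ ∈ N := fun h => (inferInstance : N.Normal).conj_mem z' hz'N h
  let f : ↥(H : Subgroup G) → {w : P6 // w ∈ T} := fun h =>
    ⟨ι ⟨h.1 * z' * h.1⁻¹, hconjN h.1⟩, by
      rw [List.mem_filter]
      constructor
      · apply hinv
        · show (h.1 * z' * h.1⁻¹) ^ 2 = 1
          have : (h.1 * z' * h.1⁻¹) ^ 2 = h.1 * (z' ^ 2) * h.1⁻¹ := by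
            rw [pow_two, pow_two]
            group
          rw [this, hz'2]
          group
        · show h.1 * z' * h.1⁻¹ ≠ 1
          intro h0
          apply hz'1
          have : z' = h.1⁻¹ * (h.1 * z' * h.1⁻¹) * h.1 := by group
          rw [this, h0]
          group
      · simp only [decide_eq_true_eq]
        rw [← hιz, ← map_mul, hordι]
        show ordf (z * (h.1 * z' * h.1⁻¹)) = m
        have h1 : z * (h.1 * z' * h.1⁻¹) = h.1 * (z * z') * h.1⁻¹ := by
          have h2 : z * h.1 = h.1 * z := (hzH h.1 h.2).symm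
          calc z * (h.1 * z' * h.1⁻¹) = (z * h.1) * z' * h.1⁻¹ := by group
            _ = (h.1 * z) * z' * h.1⁻¹ := by rw [h2]
            _ = _ := by group
        rw [h1]
        apply ordf_eq
        intro k
        rw [conj_pow]
        constructor
        · intro h3
          have : (z * z') ^ k = h.1⁻¹ * (h.1 * (z * z') ^ k * h.1⁻¹) * h.1 := by group
          rw [this, h3]
          group
        · intro h3
          rw [h3]
          group⟩
  have hf : Function.Injective f := by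
    intro h₁ h₂ hf
    have h1 : ι ⟨h₁.1 * z' * h₁.1⁻¹, hconjN h₁.1⟩ = ι ⟨h₂.1 * z' * h₂.1⁻¹, hconjN h₂.1⟩ :=
      congrArg Subtype.val hf
    have h2 : h₁.1 * z' * h₁.1⁻¹ = h₂.1 * z' * h₂.1⁻¹ := congrArg Subtype.val (hι_inj h1)
    have h3 : h₂.1⁻¹ * h₁.1 ∈ C ⊓ Subgroup.centralizer {z'} := by
      refine Subgroup.mem_inf.mpr ⟨?_, mem_cent.mpr ?_⟩
      · rw [← hHeq]
        exact mul_mem (inv_mem h₂.2) h₁.2
      · have h4 : h₁.1 * z' = h₂.1 * z' * h₂.1⁻¹ * h₁.1 := by
          rw [← h2]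
          group
        calc h₂.1⁻¹ * h₁.1 * z' = h₂.1⁻¹ * (h₁.1 * z') := by group
          _ = h₂.1⁻¹ * (h₂.1 * z' * h₂.1⁻¹ * h₁.1) := by rw [h4]
          _ = _ := by group
    rw [hbot, Subgroup.mem_bot] at h3
    apply Subtype.ext
    have : h₁.1 = h₂.1 * (h₂.1⁻¹ * h₁.1) := by group
    rw [this, h3, mul_one]
  have h1 := Nat.card_le_card_of_injective f hf
  have h2 : Nat.card {w : P6 // w ∈ T} = T.toFinset.card := by
    rw [Nat.card_eq_fintype_card]
    exact Fintype.card_of_subtype _ (by simp)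
  have h3 : T.toFinset.card ≤ T.length := List.toFinset_card_le T
  have h4 : T.length < 32 := hmm
  rw [hH] at h1
  omega


/-- Let G be a finite group with a normal subgroup N of index 4 isomorphic to the alternating group of degree 6 and with trivial centralizer in G (so G is the full automorphism group of A₆). Then any two Sylow 2-subgroups of G have a non-trivial intersection: for a Sylow 2-subgroup H and every x ∈ G, H ∩ H^x ≠ 1. -/
theorem result {G : Type*} [Group G] [Finite G] (N : Subgroup G) [N.Normal]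
    (e : N ≃* alternatingGroup (Fin 6)) (hidx : N.index = 4)
    (hC : Subgroup.centralizer (N : Set G) = ⊥)
    (H : Sylow 2 G) (x : G) :
    (H : Subgroup G) ⊓ MulAut.conj x • (H : Subgroup G) ≠ ⊥ := by
  exact main N e hidx H x

end Cfsg.Agent.S2488
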