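import Cfsg.Statements.S2493
import Cfsg.Agent.Lib.Ore2An.Cover

set_option autoImplicit false
open Cfsg

namespace Cfsg.Agent.S2493

/-- Let n ≥ 5 and let G be a finite perfect group whose centre has order 2 with G/Z(G) isomorphic to the alternating group of degree n (the double cover of the alternating group). Then every element of G is a commutator. -/
theorem result {G : Type*} [Group G] [Finite G] (hperf : commutator G = ⊤) {n : ℕ} (hn : 5 ≤ n)
    (hZ : Nat.card (Subgroup.center G) = 2) (e : G ⧸ Subgroup.center G ≃* alternatingGroup (Fin n))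
    (g : G) :
    ∃ a b : G, a * b * a⁻¹ * b⁻¹ = g := by
  classical
  obtain ⟨z₀, hz₀, huniq⟩ := (Nat.card_eq_two_iff' (1 : Subgroup.center G)).1 hZ
  set z : G := (z₀ : G) with hz
  have hz1 : z ≠ 1 := fun h => hz₀ (Subtype.ext h)
  have hzc : z ∈ Subgroup.center G := z₀.2
  let F : G →* Equiv.Perm (Fin n) :=
    (alternatingGroup (Fin n)).subtype.comp
      (e.toMonoidHom.comp (QuotientGroup.mk' (Subgroup.center G)))
  have hFa : ∀ u, F u = (e (u : G ⧸ Subgroup.center G) : Equiv.Perm (Fin n)) := fun u => rfl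
  have hker : ∀ u, F u = 1 ↔ u ∈ Subgroup.center G := by
    intro u
    rw [hFa]
    constructor
    · intro h
      have h1 : e (u : G ⧸ Subgroup.center G) = 1 := Subtype.ext h
      rw [map_eq_one_iff e e.injective] at h1
      exact (QuotientGroup.eq_one_iff u).1 h1
    · intro h
      have h1 : (u : G ⧸ Subgroup.center G) = 1 := (QuotientGroup.eq_one_iff u).2 h
      rw [h1, map_one]
      rfl
  have hzz : z * z = 1 := by
    by_contra h
    have h1 : (z₀ * z₀ : Subgroup.center G) ≠ 1 := fun h' => h (congrArg Subtype.val h')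
    have h2 := huniq _ h1
    have h3 : z * z = z := congrArg Subtype.val h2
    exact hz1 (mul_left_cancel (a := z) (b := z) (c := 1) (by rw [h3, mul_one]))
  have hDC : Cfsg.Agent.Lib.Ore2An.Cover.DC F z := by
    refine ⟨⟨fun u hu => (hker u).1 hu, ?_, ?_⟩, hz1, hzz, (hker z).2 hzc, ?_⟩
    · intro w hw
      obtain ⟨v, hv⟩ := QuotientGroup.mk_surjective (e.symm ⟨w, hw⟩)
      refine ⟨v, ?_⟩
      rw [hFa, hv, e.apply_symm_apply]
    · intro v
      rw [hFa]
      exact (e (v : G ⧸ Subgroup.center G)).2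
    · intro u hu
      have hu' := (hker u).1 hu
      by_cases h1 : u = 1
      · exact Or.inl h1
      · right
        have h2 : (⟨u, hu'⟩ : Subgroup.center G) ≠ 1 := fun h' => h1 (congrArg Subtype.val h')
        exact congrArg Subtype.val (huniq _ h2)
  let p₀ : Fin n := ⟨0, by omega⟩
  let p₁ : Fin n := ⟨1, by omega⟩
  let pt : ℕ → Fin n := fun k => if hk : k + 2 < n then ⟨k + 2, hk⟩ else p₀
  have hptv : ∀ k, k < n - 2 → ((pt k : Fin n) : ℕ) = k + 2 := by
    intro k hk
    have : k + 2 < n := by omega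
    simp [pt, this]
  refine Cfsg.Agent.Lib.Ore2An.Cover.main hDC hperf (n - 2) (by simp; omega) (by omega) p₀ p₁ pt
    ?_ ?_ ?_ ?_ ?_ g
  · intro h
    have := congrArg Fin.val h
    simp [p₀, p₁] at this
  · intro k hk h
    have := congrArg Fin.val h
    rw [hptv k hk] at this
    simp [p₀] at this
  · intro k hk h
    have := congrArg Fin.val h
    rw [hptv k hk] at this
    simp [p₁] at this
  · intro j hj k hk hjk h
    have := congrArg Fin.val h
    rw [hptv j hj, hptv k hk] at this
    omega
  · intro y hy0 hy1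
    have h0 : (y : ℕ) ≠ 0 := fun h => hy0 (Fin.ext h)
    have h1 : (y : ℕ) ≠ 1 := fun h => hy1 (Fin.ext h)
    have hy := y.2
    refine ⟨(y : ℕ) - 2, by omega, Fin.ext ?_⟩
    rw [hptv _ (by omega)]
    omega

end Cfsg.Agent.S2493
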