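import Cfsg.Statements.S2495
import Cfsg.Agent.Lib.SLn.SchurField

set_option autoImplicit false
open Cfsg

namespace Cfsg.Agent.S2495

section aux

open Module

lemma sub_one_mul_geom (q h : ℕ) (hq : 1 ≤ q) : (q - 1) * ∑ i ∈ Finset.range h, q ^ i = q ^ h - 1 := by
  obtain ⟨t, rfl⟩ : ∃ t, q = t + 1 := ⟨q - 1, by omega⟩
  have h1 : ((((t + 1 - 1) * ∑ i ∈ Finset.range h, (t + 1) ^ i : ℕ)) : ℤ) =
      (((t + 1) ^ h - 1 : ℕ) : ℤ) := by
    rw [Nat.cast_sub (Nat.one_le_pow _ _ (by omega))]
    push_cast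
    have := mul_geom_sum ((t : ℤ) + 1) h
    simpa using this
  exact_mod_cast h1

lemma dvd_geom_iff (q h M : ℕ) (hq : 1 ≤ q) (hM : M ∣ q - 1) :
    M ∣ ∑ i ∈ Finset.range h, q ^ i ↔ M ∣ h := by
  have h1 : (q : ZMod M) = 1 := by
    obtain ⟨t, rfl⟩ : ∃ t, q = t + 1 := ⟨q - 1, by omega⟩
    have : ((t : ℕ) : ZMod M) = 0 := by
      rw [ZMod.natCast_eq_zero_iff]
      simpa using hM
    push_cast
    rw [this, zero_add]
  rw [← ZMod.natCast_eq_zero_iff, ← ZMod.natCast_eq_zero_iff h M]
  push_cast
  simp [h1]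

end aux

/-- Let q be an odd prime power, n ≥ 4 even, and L = PSL(n,q). Then L has an element of order q^(n/2) + 1 if and only if the 2-part of n exceeds the 2-part of q − 1. -/
theorem result {F : Type*} [Field F] [Fintype F] {q : ℕ} (hF : Fintype.card F = q) (hodd : Odd q)
    {n : ℕ} (hn : 4 ≤ n) (heven : Even n) :
    (∃ g : Matrix.ProjectiveSpecialLinearGroup (Fin n) F, orderOf g = q ^ (n / 2) + 1) ↔
      padicValNat 2 (q - 1) < padicValNat 2 n := by
  classical
  subst hF
  set q := Fintype.card F with hq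
  have hq2 : 2 ≤ q := Fintype.one_lt_card
  obtain ⟨p, hchar⟩ := CharP.exists F
  have hpp : p.Prime := by
    rcases CharP.char_is_prime_or_zero F p with h | h
    · exact h
    · subst h
      have := CharP.charP_to_charZero F
      exact absurd (inferInstance : Finite F) (by
        intro _
        exact not_finite F)
  have hfp : Fact p.Prime := ⟨hpp⟩
  obtain ⟨h, hh⟩ := heven
  have hn2 : n / 2 = h := by omega
  rw [hn2]
  have hh0 : 0 < h := by omega
  have hn0 : n ≠ 0 := by omega
  set a := padicValNat 2 (q - 1) with ha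
  have hq10 : q - 1 ≠ 0 := by omega
  have h2a : 2 ^ a ∣ q - 1 := pow_padicValNat_dvd
  set S := ∑ i ∈ Finset.range h, q ^ i with hS
  set N := q ^ h + 1 with hN
  have hqS : (q - 1) * S = q ^ h - 1 := sub_one_mul_geom q h (by omega)
  have hqh1 : 1 ≤ q ^ h := Nat.one_le_pow _ _ (by omega)
  have hfac : q ^ n - 1 = (q - 1) * (S * N) := by
    rw [← mul_assoc, hqS, hh, pow_add, hN]
    obtain ⟨t, ht⟩ : ∃ t, q ^ h = t + 1 := ⟨q ^ h - 1, by omega⟩
    rw [ht]
    simp only [Nat.add_sub_cancel]
    ring_nf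
    omega
  -- the numerical criterion
  have hiff : a < padicValNat 2 n ↔ 2 ^ a ∣ S := by
    rw [hS, dvd_geom_iff q h _ (by omega) h2a, ← Nat.succ_le_iff,
      ← padicValNat_dvd_iff_le (p := 2) hn0, pow_succ, hh, ← two_mul]
    rw [mul_comm (2 ^ a) 2]
    exact Nat.mul_dvd_mul_iff_left (by norm_num)
  rw [hiff]
  have hNeven : 2 ∣ N := by
    have h1 : Odd (q ^ h) := hodd.pow
    obtain ⟨t, ht⟩ := h1
    exact ⟨t + 1, by rw [hN, ht]; ring⟩
  constructor
  · -- existence implies the divisibility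
    rintro ⟨g, hg⟩
    obtain ⟨T, hdet, ⟨c, hc, hT⟩, hmin⟩ := Lib.SLn.PrimeGraph.exists_lift hn0 g
    rw [hg] at hT hmin
    obtain ⟨t, htp, ht1, hprim⟩ := Lib.Zsig.Basic.zsigmondy q n (by omega) (by omega)
      (by
        rintro ⟨h1, -⟩
        rw [h1] at hodd
        exact absurd hodd (by decide))
      (by
        rintro ⟨h1, -⟩
        omega)
    have hft : Fact t.Prime := ⟨htp⟩
    have htN : t ∣ N := by
      have h1 : q ^ n - 1 = (q ^ h - 1) * N := by
        rw [hfac, ← hqS]
        ring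
      rw [h1] at ht1
      rcases htp.dvd_mul.mp ht1 with h2 | h2
      · exact absurd h2 (hprim h hh0 (by omega))
      · exact h2
    obtain ⟨M, hM⟩ := htN
    have hNpos : 0 < N := by omega
    have hMpos : 0 < M := by
      rcases Nat.eq_zero_or_pos M with rfl | h1
      · omega
      · exact h1
    have hY₀ : (T ^ M) ^ t = algebraMap F _ c := by
      rw [← pow_mul, mul_comm, ← hM, hT]
    have hY₀' : ∀ c' : F, T ^ M ≠ algebraMap F _ c' := by
      intro c' hc'
      have h1 := hmin M c' hc'
      have h2 := Nat.le_of_dvd hMpos h1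
      have h3 := htp.two_le
      nlinarith
    have hcop : Nat.Coprime t (q - 1) := by
      rw [htp.coprime_iff_not_dvd]
      intro h1
      exact hprim 1 (by omega) (by omega) (by simpa using h1)
    obtain ⟨d, hd, hdr⟩ := Lib.SLn.PrimeGraph.exists_root hcop hc
    have hY := Lib.SLn.PrimeGraph.smul_pow_eq_one hd hdr hY₀
    have hY1 := Lib.SLn.PrimeGraph.smul_ne_one hd hY₀'
    set Y := d⁻¹ • T ^ M with hYdef
    let u : (Module.End F (Fin n → F))ˣ := Units.ofPowEqOne Y t hY htp.ne_zero
    have hu : u ^ t = 1 := by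
      apply Units.ext
      simpa [u] using hY
    have hu1 : u ≠ 1 := by
      intro h1
      apply hY1
      have := congrArg Units.val h1
      simpa [u] using this
    have hfr : Module.finrank F (Fin n → F) = n := Module.finrank_fin_fun F
    have hirr := Lib.Singer.Basic.irreducible_of_primitive u htp hfr ht1 hprim hu hu1
    have hne : Nonempty (Fin n) := ⟨⟨0, by omega⟩⟩
    have hcomm : ∀ m, Commute (T ^ m) Y := fun m =>
      ((Commute.refl T).pow_pow m M).smul_right _
    have hs := Lib.SLn.SchurField.schur_field (Y := Y) hirr (T := T) (by simpa using hcomm 1)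
    have hA : (q ^ n - 1) / (q - 1) = S * N :=
      Nat.div_eq_of_eq_mul_right (by omega) hfac
    rw [hfr, hA, hdet, map_one] at hs
    have hT1 : T ^ (S * N) = 1 := hs.1
    have hT2 : T ^ (N * (q - 1)) = 1 := by
      rw [pow_mul, hT, ← map_pow, FiniteField.pow_card_sub_one_eq_one c hc, map_one]
    have hT3 : T ^ (N * Nat.gcd (q - 1) S) = 1 := by
      rw [← Nat.gcd_mul_left]
      exact pow_gcd_eq_one.mpr ⟨hT2, by rw [mul_comm]; exact hT1⟩
    obtain ⟨E, hE⟩ := Nat.gcd_dvd_left (q - 1) S
    by_cases hEodd : Odd E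
    · have h1 : Nat.Coprime (2 ^ a) E := Nat.Coprime.pow_left _ (Nat.coprime_two_left.mpr hEodd)
      have h2 : 2 ^ a ∣ Nat.gcd (q - 1) S * E := by rw [← hE]; exact h2a
      exact (h1.dvd_of_dvd_mul_right h2).trans (Nat.gcd_dvd_right _ _)
    · exfalso
      obtain ⟨E', hE'⟩ := Nat.not_odd_iff_even.mp hEodd
      obtain ⟨N', hN'⟩ := hNeven
      have h1 : (T ^ N') ^ (q - 1) = 1 := by
        have h2 : N' * (q - 1) = (N * Nat.gcd (q - 1) S) * E' := by
          have h3 : q - 1 = Nat.gcd (q - 1) S * (E' + E') := by rw [← hE', ← hE]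
          rw [hN']
          calc N' * (q - 1) = N' * (Nat.gcd (q - 1) S * (E' + E')) := by rw [← h3]
            _ = _ := by ring
        rw [← pow_mul, h2, pow_mul, hT3, one_pow]
      have hs2 := Lib.SLn.SchurField.schur_field (Y := Y) hirr (T := T ^ N') (hcomm N')
      obtain ⟨c', hc'⟩ := hs2.2 h1
      have h2 := hmin N' c' hc'
      have hN'pos : 0 < N' := by omega
      have h3 := Nat.le_of_dvd hN'pos h2
      omega
  · -- construction
    rintro ⟨S', hS'⟩
    have hfz : NeZero n := ⟨hn0⟩
    let K := FiniteField.Extension F p n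
    obtain ⟨τ, hτ⟩ := IsCyclic.exists_ofOrder_eq_natCard (α := Kˣ)
    have hτord : orderOf τ = (q - 1) * S' * (2 ^ a * N) := by
      rw [hτ, Nat.card_units, FiniteField.natCard_extension, Nat.card_eq_fintype_card, hfac, hS']
      ring
    have he0 : (q - 1) * S' ≠ 0 := by
      intro h1
      rw [h1, zero_mul] at hτord
      exact (orderOf_pos τ).ne' hτord
    have hS'0 : S' ≠ 0 := by
      rintro rfl
      simp at he0
    have hword : orderOf (τ ^ ((q - 1) * S')) = 2 ^ a * N := by
      rw [orderOf_pow_of_dvd he0 ⟨2 ^ a * N, hτord⟩, hτord]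
      exact Nat.mul_div_cancel_left _ (Nat.pos_of_ne_zero he0)
    set w : K := ((τ ^ ((q - 1) * S') : Kˣ) : K) with hw
    have hword' : orderOf w = 2 ^ a * N := by
      rw [hw, orderOf_units, hword]
    have hw0 : w ≠ 0 := Units.ne_zero _
    obtain ⟨u, hu⟩ := h2a
    have hw2 : w ^ (N * (q - 1)) = 1 := by
      rw [← orderOf_dvd_iff_pow_eq_one, hword', hu, mul_comm (2 ^ a) N]
      exact ⟨u, by ring⟩
    have hfr : Module.finrank F K = n := FiniteField.finrank_extension F p n
    refine Lib.SLn.PrimeGraph.exists_psl_order (F := F) (R := K) hfr w ?_ N ?_ ?_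
    · -- norm
      rw [hw, Units.val_pow_eq_pow_val, map_pow, pow_mul]
      have h1 : Algebra.norm F (τ : K) ≠ 0 := Algebra.norm_ne_zero_iff.mpr (Units.ne_zero _)
      rw [FiniteField.pow_card_sub_one_eq_one _ h1, one_pow]
    · apply Lib.SLn.SchurField.exists_scalar_of_pow (F := F)
      rw [← pow_mul, hw2]
    · intro m c hc
      have hc0 : c ≠ 0 := by
        rintro rfl
        rw [map_zero] at hc
        exact pow_ne_zero m hw0 hc
      have h1 : w ^ (m * (q - 1)) = 1 := by
        rw [pow_mul, hc, ← map_pow, FiniteField.pow_card_sub_one_eq_one c hc0, map_one]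
      have h2 := orderOf_dvd_of_pow_eq_one h1
      rw [hword', hu] at h2
      have h3 : N ∣ m * u := by
        have h4 : 2 ^ a * N ∣ 2 ^ a * (m * u) := by
          convert h2 using 1
          ring
        exact Nat.dvd_of_mul_dvd_mul_left (by positivity) h4
      have huodd : Odd u := by
        rw [← Nat.not_even_iff_odd]
        rintro ⟨u', hu'⟩
        have h4 : 2 ^ (a + 1) ∣ q - 1 := by
          rw [hu, hu', pow_succ]
          exact ⟨u', by ring⟩
        exact pow_succ_padicValNat_not_dvd hq10 h4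
      have hcop : Nat.Coprime N u := by
        have h4 : Nat.gcd N u ∣ 2 := by
          have h5 : Nat.gcd N u ∣ N := Nat.gcd_dvd_left _ _
          have h6 : Nat.gcd N u ∣ q ^ h - 1 := by
            rw [← hqS, hu]
            exact ((Nat.gcd_dvd_right N u).trans (Dvd.intro_left _ rfl)).trans (Dvd.intro _ rfl)
          have h7 := Nat.dvd_sub h5 h6
          have h8 : N - (q ^ h - 1) = 2 := by
            rw [hN]
            omega
          rwa [h8] at h7
        have h5 : Nat.Coprime 2 u := Nat.coprime_two_left.mpr huodd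
        have h6 : Nat.gcd N u ∣ Nat.gcd 2 u := Nat.dvd_gcd h4 (Nat.gcd_dvd_right _ _)
        rw [h5] at h6
        exact Nat.dvd_one.mp h6
      exact hcop.dvd_of_dvd_mul_right h3

end Cfsg.Agent.S2495
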