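import Cfsg.Statements.S2496
import Cfsg.Agent.Lib.SUSpec.HalfTorus

set_option autoImplicit false
open Cfsg

namespace Cfsg.Agent.S2496

open Lib.SUSpec.HermAlg

/-- the half torus numbers -/
lemma numbers {q h : ℕ} (hq : 2 ≤ q) (hh : 1 ≤ h) {N : ℕ}
    (hN : N = if Even h then q ^ h + 1 else q ^ h - 1) :
    M' q (2 * h) = M' q h * N ∧ (N = M' q h * (q + 1) + 2 ∨ M' q h * (q + 1) = N + 2) := by
  have hone : 2 ≤ q ^ h := le_trans hq (Nat.le_self_pow (by omega) q)
  have hall : q ^ (2 * h) - 1 = (q ^ h - 1) * (q ^ h + 1) := by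
    obtain ⟨b, hb⟩ : ∃ b, q ^ h = b + 1 := ⟨q ^ h - 1, by omega⟩
    rw [two_mul, pow_add, hb]
    simp only [Nat.add_sub_cancel]
    have : (b + 1) * (b + 1) = b * (b + 1 + 1) + 1 := by ring
    omega
  have h1 := M'_mul_even (q := q) (even_two_mul h) (by omega)
  rw [hall] at h1
  rcases Nat.even_or_odd h with hev | hodd
  · rw [if_pos hev] at hN
    have h2 := M'_mul_even (q := q) hev (by omega)
    refine ⟨?_, Or.inl (by omega)⟩
    apply Nat.eq_of_mul_eq_mul_right (by omega : 0 < q + 1)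
    rw [h1, hN, ← h2]
    ring
  · rw [if_neg (Nat.not_even_iff_odd.mpr hodd)] at hN
    have h2 := M'_mul_odd (q := q) hodd
    refine ⟨?_, Or.inr (by omega)⟩
    apply Nat.eq_of_mul_eq_mul_right (by omega : 0 < q + 1)
    rw [h1, hN, ← h2]
    ring

/-- the `2`-part of the cofactor -/
lemma two_pow_dvd_iff {q n h : ℕ} (hn : n = 2 * h) (hn0 : n ≠ 0) :
    padicValNat 2 (q + 1) < padicValNat 2 n ↔ 2 ^ padicValNat 2 (q + 1) ∣ M' q h := by
  set a := padicValNat 2 (q + 1) with ha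
  have h2a : 2 ^ a ∣ q + 1 := pow_padicValNat_dvd
  have h1 : a < padicValNat 2 n ↔ 2 ^ a ∣ h := by
    rw [← Nat.succ_le_iff, ← padicValNat_dvd_iff_le (p := 2) hn0, pow_succ, hn, mul_comm (2 ^ a) 2]
    exact Nat.mul_dvd_mul_iff_left (by norm_num)
  rw [h1]
  obtain ⟨k, hk⟩ := (altS_modEq q h).dvd
  have h2 : ((2 : ℤ) ^ a) ∣ ((q : ℤ) + 1) := by
    have : (((2 ^ a : ℕ) : ℤ)) ∣ (((q + 1 : ℕ)) : ℤ) := Int.natCast_dvd_natCast.mpr h2a
    simpa using this
  have h3 : 2 ^ a ∣ M' q h ↔ ((2 : ℤ) ^ a) ∣ altS q h := by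
    unfold M'
    rw [← Int.natCast_dvd]
    simp
  have h4 : 2 ^ a ∣ h ↔ ((2 : ℤ) ^ a) ∣ (h : ℤ) := by
    have : 2 ^ a ∣ h ↔ (((2 ^ a : ℕ) : ℤ)) ∣ (h : ℤ) := Int.natCast_dvd_natCast.symm
    simpa using this
  rw [h3, h4]
  have h5 : (h : ℤ) = altS q h + ((q : ℤ) + 1) * k := by linarith
  constructor
  · intro h6
    have h7 : altS q h = (h : ℤ) - ((q : ℤ) + 1) * k := by linarith
    rw [h7]
    exact dvd_sub h6 (h2.mul_right _)
  · intro h6
    rw [h5]
    exact dvd_add h6 (h2.mul_right _)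

/-- the primitive prime divisor -/
lemma exists_prime {q h N : ℕ} (hodd : Odd q) (hq : 2 ≤ q) (hh : 2 ≤ h)
    (hN : N = if Even h then q ^ h + 1 else q ^ h - 1) :
    ∃ t : ℕ, t.Prime ∧ t ∣ N ∧ ¬ t ∣ q ^ 2 - 1 ∧ ¬ t ∣ q ∧
      (∀ d : ℕ, t ∣ q ^ (2 * d) - 1 → h ∣ d) ∧ (Odd h → ¬ t ∣ q ^ h + 1) := by
  have hq3 : q ≠ 2 := by
    rintro rfl
    exact absurd hodd (by decide)
  have hone : 1 ≤ q ^ h := Nat.one_le_pow _ _ (by omega)
  have hnotq : ∀ {t m : ℕ}, t.Prime → m ≠ 0 → t ∣ q ^ m - 1 → ¬ t ∣ q := by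
    intro t m ht hm h1 h2
    have h3 : t ∣ q ^ m := dvd_pow h2 hm
    have h4 : 1 ≤ q ^ m := Nat.one_le_pow _ _ (by omega)
    have h5 : t ∣ q ^ m - (q ^ m - 1) := Nat.dvd_sub h3 h1
    have h6 : q ^ m - (q ^ m - 1) = 1 := by omega
    rw [h6] at h5
    exact ht.one_lt.ne' (Nat.dvd_one.mp h5)
  rcases Nat.even_or_odd h with hev | hodd'
  · rw [if_pos hev] at hN
    obtain ⟨t, ht, ht1, hprim⟩ := Lib.Zsig.Basic.zsigmondy q (2 * h) (by omega) (by omega)
      (fun h1 => hq3 h1.1) (by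
        rintro ⟨h1, -⟩
        omega)
    refine ⟨t, ht, ?_, hprim 2 (by omega) (by omega), hnotq ht (by omega) ht1, ?_, ?_⟩
    · have hall : q ^ (2 * h) - 1 = (q ^ h - 1) * (q ^ h + 1) := by
        obtain ⟨b, hb⟩ : ∃ b, q ^ h = b + 1 := ⟨q ^ h - 1, by omega⟩
        rw [two_mul, pow_add, hb]
        simp only [Nat.add_sub_cancel]
        have : (b + 1) * (b + 1) = b * (b + 1 + 1) + 1 := by ring
        omega
      rw [hall] at ht1
      rw [hN]
      rcases ht.dvd_mul.mp ht1 with h2 | h2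
      · exact absurd h2 (hprim h (by omega) (by omega))
      · exact h2
    · intro d hd
      rcases Nat.eq_zero_or_pos d with rfl | hd0
      · exact dvd_zero _
      have h1 : t ∣ Nat.gcd (q ^ (2 * h) - 1) (q ^ (2 * d) - 1) := Nat.dvd_gcd ht1 hd
      rw [Nat.pow_sub_one_gcd_pow_sub_one] at h1
      have h2 : 0 < Nat.gcd (2 * h) (2 * d) := Nat.gcd_pos_of_pos_left _ (by omega)
      have h3 : ¬ Nat.gcd (2 * h) (2 * d) < 2 * h := fun h4 => hprim _ h2 h4 h1
      have h4 : Nat.gcd (2 * h) (2 * d) ∣ 2 * h := Nat.gcd_dvd_left _ _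
      have h5 := Nat.le_of_dvd (by omega) h4
      have h6 : Nat.gcd (2 * h) (2 * d) = 2 * h := by omega
      have h7 : 2 * h ∣ 2 * d := by
        rw [← h6]
        exact Nat.gcd_dvd_right _ _
      exact Nat.dvd_of_mul_dvd_mul_left (by norm_num) h7
    · intro h1
      exact absurd hev (Nat.not_even_iff_odd.mpr h1)
  · rw [if_neg (Nat.not_even_iff_odd.mpr hodd')] at hN
    have hh3 : 3 ≤ h := by
      obtain ⟨b, hb⟩ := hodd'
      omega
    obtain ⟨t, ht, ht1, hprim⟩ := Lib.Zsig.Basic.zsigmondy q h (by omega) (by omega)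
      (fun h1 => hq3 h1.1) (by
        rintro ⟨h1, -⟩
        omega)
    have ht2 : ¬ t ∣ q ^ 2 - 1 := hprim 2 (by omega) (by omega)
    refine ⟨t, ht, by rw [hN]; exact ht1, ht2, hnotq ht (by omega) ht1, ?_, ?_⟩
    · intro d hd
      have h1 : t ∣ Nat.gcd (q ^ h - 1) (q ^ (2 * d) - 1) := Nat.dvd_gcd ht1 hd
      rw [Nat.pow_sub_one_gcd_pow_sub_one] at h1
      have h2 : 0 < Nat.gcd h (2 * d) := Nat.gcd_pos_of_pos_left _ (by omega)
      have h3 : ¬ Nat.gcd h (2 * d) < h := fun h4 => hprim _ h2 h4 h1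
      have h4 : Nat.gcd h (2 * d) ∣ h := Nat.gcd_dvd_left _ _
      have h5 := Nat.le_of_dvd (by omega) h4
      have h6 : Nat.gcd h (2 * d) = h := by omega
      have h7 : h ∣ 2 * d := by
        nth_rewrite 1 [← h6]
        exact Nat.gcd_dvd_right _ _
      exact (Nat.Coprime.dvd_of_dvd_mul_left (Nat.coprime_two_right.mpr hodd') h7)
    · intro _ h1
      have h3 : t ∣ q ^ h + 1 - (q ^ h - 1) := Nat.dvd_sub h1 ht1
      have h4 : q ^ h + 1 - (q ^ h - 1) = 2 := by omega
      rw [h4] at h3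
      have h5 : t = 2 := (Nat.prime_dvd_prime_iff_eq ht Nat.prime_two).mp h3
      apply ht2
      rw [h5]
      have h6 : Odd (q ^ 2) := hodd.pow
      obtain ⟨b, hb⟩ := h6
      exact ⟨b, by omega⟩

/-- Let q be an odd prime power, n ≥ 4 even, and U = PSU(n,q) (realised over the field with q² elements). Then U has an element of order q^(n/2) + (−1)^(n/2) — that is, q^(n/2) + 1 when n/2 is even and q^(n/2) − 1 when n/2 is odd — if and only if the 2-part of n exceeds the 2-part of q + 1. -/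
theorem result {F : Type*} [Field F] [Fintype F] {q : ℕ} (hF : Fintype.card F = q ^ 2) (hodd : Odd q)
    {n : ℕ} (hn : 4 ≤ n) (heven : Even n) :
    (∃ g : Cfsg.PSU n F q, orderOf g = if Even (n / 2) then q ^ (n / 2) + 1 else q ^ (n / 2) - 1) ↔
      padicValNat 2 (q + 1) < padicValNat 2 n := by
  classical
  have hq2 : 2 ≤ q := Lib.HermCount.Field.two_le hF
  obtain ⟨p, hchar⟩ := CharP.exists F
  have hpp : p.Prime := by
    rcases CharP.char_is_prime_or_zero F p with h | h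
    · exact h
    · subst h
      have := CharP.charP_to_charZero F
      exact absurd (inferInstance : Finite F) (by
        intro _
        exact not_finite F)
  have hfp : Fact p.Prime := ⟨hpp⟩
  obtain ⟨a, hq⟩ : ∃ a : ℕ, q = p ^ a := by
    obtain ⟨f, -, hf⟩ := FiniteField.card F p
    have h1 : q ∣ p ^ (f : ℕ) := ⟨q, by rw [← hf, hF, pow_two]⟩
    obtain ⟨a, -, ha⟩ := (Nat.dvd_prime_pow hpp).mp h1
    exact ⟨a, ha⟩
  obtain ⟨h, hh⟩ := heven
  have hn2h : n = 2 * h := by omega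
  have hn2 : n / 2 = h := by omega
  have hh2 : 2 ≤ h := by omega
  have hn0 : n ≠ 0 := by omega
  rw [hn2]
  set N := if Even h then q ^ h + 1 else q ^ h - 1 with hN
  obtain ⟨hM, hNN⟩ := numbers hq2 (by omega : 1 ≤ h) hN
  rw [← hn2h] at hM
  have hNeven : 2 ∣ N := by
    have h1 : Odd (q ^ h) := hodd.pow
    obtain ⟨b, hb⟩ := h1
    rw [hN]
    split_ifs
    · exact ⟨b + 1, by omega⟩
    · exact ⟨b, by omega⟩
  have hN0 : 0 < N := by
    have h1 : 2 ≤ q ^ h := le_trans hq2 (Nat.le_self_pow (by omega) q)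
    rw [hN]
    split_ifs <;> omega
  rw [two_pow_dvd_iff hn2h hn0]
  constructor
  · rintro ⟨g, hg⟩
    obtain ⟨t, ht, htN, htq, htq', hprim, hself⟩ := exists_prime hodd hq2 hh2 hN
    exact Lib.SUSpec.HalfTorus.dvd_of_exists_order p hF hq hodd hn2h hh2 g hg ht htN htq htq' hprim hself
      hNeven hM hN0
  · intro h2S
    set A := padicValNat 2 (q + 1) with hA
    have h2a : 2 ^ A ∣ q + 1 := pow_padicValNat_dvd
    obtain ⟨u, hu⟩ := h2a
    have hh0 : h ≠ 0 := by omega
    haveI : NeZero h := ⟨hh0⟩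
    have hcard : (q ^ 2) ^ h = q ^ n := by rw [hn2h, pow_mul]
    have hmul := M'_mul_even (q := q) (n := n) (by rw [hn2h]; exact even_two_mul h) (by omega)
    obtain ⟨y, hy0, hy⟩ := Lib.SLn.PrimeGraph.exists_ext_elem (F := F) p h (d := 2 ^ A * N) (by
      rw [hF, hcard, ← hmul, hM, hu]
      exact ⟨M' q h * u, by ring⟩)
    have hyo : y ^ (2 ^ A * N) = 1 := by
      rw [← hy]
      exact pow_orderOf_eq_one y
    have hyN : (y ^ N) ^ (q + 1) = 1 := by
      rw [hu, ← pow_mul, show N * (2 ^ A * u) = (2 ^ A * N) * u by ring, pow_mul, hyo, one_pow]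
    have hq21 : q ^ 2 - 1 = (q + 1) * (q - 1) := by
      obtain ⟨t, rfl⟩ : ∃ t, q = t + 1 := ⟨q - 1, by omega⟩
      simp only [Nat.add_sub_cancel]
      have : (t + 1) ^ 2 = (t + 1 + 1) * t + 1 := by ring
      omega
    obtain ⟨S', hS'⟩ := h2S
    refine Lib.SUSpec.HalfTorus.exists_order_split p hF hq hn2h hh0 hy0 ?_ N ?_ ?_
    · rw [hM, hS', show 2 ^ A * S' * N = (2 ^ A * N) * S' by ring, pow_mul, hyo, one_pow]
    · obtain ⟨c, hc⟩ := Lib.SLn.SchurField.exists_scalar_of_pow (F := F) (y := y ^ N) (by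
        rw [hF, hq21, pow_mul, hyN, one_pow])
      refine ⟨c, hc, ?_⟩
      apply (algebraMap F (FiniteField.Extension F p h)).injective
      rw [map_pow, ← hc, hyN, map_one]
    · intro j c hc hcq
      have h1 : y ^ (j * (q + 1)) = 1 := by
        rw [pow_mul, hc, ← map_pow, hcq, map_one]
      have h2 := orderOf_dvd_of_pow_eq_one h1
      rw [hy, hu] at h2
      have h3 : N ∣ j * u := by
        have h4 : 2 ^ A * N ∣ 2 ^ A * (j * u) := by
          convert h2 using 1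
          ring
        exact Nat.dvd_of_mul_dvd_mul_left (by positivity) h4
      have huodd : Odd u := by
        rw [← Nat.not_even_iff_odd]
        rintro ⟨u', hu'⟩
        have h4 : 2 ^ (A + 1) ∣ q + 1 := by
          rw [hu, hu', pow_succ]
          exact ⟨u', by ring⟩
        exact pow_succ_padicValNat_not_dvd (by omega) h4
      have hcop : Nat.Coprime N u := by
        have h5 : Nat.gcd N u ∣ N := Nat.gcd_dvd_left _ _
        have h6 : Nat.gcd N u ∣ M' q h * (q + 1) := by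
          rw [hu]
          exact (Nat.gcd_dvd_right N u).trans ⟨M' q h * 2 ^ A, by ring⟩
        have h7 : Nat.gcd N u ∣ 2 := by
          rcases hNN with h8 | h8
          · have h8' : Nat.gcd N u ∣ M' q h * (q + 1) + 2 := by
              rw [← h8]
              exact h5
            exact (Nat.dvd_add_right h6).mp h8'
          · have h8' : Nat.gcd N u ∣ N + 2 := by
              rw [← h8]
              exact h6
            exact (Nat.dvd_add_right h5).mp h8'
        have h8 : Nat.Coprime 2 u := Nat.coprime_two_left.mpr huodd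
        have h9 : Nat.gcd N u ∣ Nat.gcd 2 u := Nat.dvd_gcd h7 (Nat.gcd_dvd_right _ _)
        rw [h8] at h9
        exact Nat.dvd_one.mp h9
      exact hcop.dvd_of_dvd_mul_right h3

end Cfsg.Agent.S2496
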