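import Cfsg.Statements.S2503
import Cfsg.Agent.Lib.SLn.PSL2Class
-- import your own Cfsg.Agent.* helpers here

set_option autoImplicit false
open Cfsg

namespace Cfsg.Agent.S2503

section aux

open Matrix
open Cfsg.Agent.Lib.GL2.SL2 Cfsg.Agent.Lib.SLn.SL2Gen Cfsg.Agent.Lib.SLn.Basic
open Cfsg.Agent.Lib.Classical.QuadExt Cfsg.Agent.Lib.Classical.SL2Tori Cfsg.Agent.Lib.Classical.SL2Sylow
open QuadraticAlgebra

variable {F : Type*} [Field F] {a : F}

/-- The general `2 × 2` matrix in terms of the quadratic extension. -/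
def MM (u v : QuadraticAlgebra F a 1) : Matrix (Fin 2) (Fin 2) F :=
  regMat u + regMat v * starMat 1

lemma MM_det (u v : QuadraticAlgebra F a 1) : (MM u v).det = QuadraticAlgebra.norm u - QuadraticAlgebra.norm v := by
  simp [MM, regMat, starMat, Matrix.det_fin_two, Matrix.mul_apply, Fin.sum_univ_two, QuadraticAlgebra.norm_def]
  ring

lemma MM_conj (x y u v : QuadraticAlgebra F a 1) :
    regMat x * MM u v * regMat y = MM (x * u * y) (x * v * star y) := by
  have h1 : starMat (1 : F) * regMat y = regMat (star y) * starMat 1 := by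
    rw [← starMat_conj, Matrix.mul_assoc (starMat 1 * regMat y), starMat_sq, Matrix.mul_one]
  simp only [MM, regMat_mul, Matrix.mul_add, Matrix.add_mul]
  congr 1
  calc regMat x * (regMat v * starMat 1) * regMat y = regMat x * regMat v * (starMat 1 * regMat y) := by
        simp only [Matrix.mul_assoc]
    _ = _ := by
        rw [h1]
        simp only [Matrix.mul_assoc]

lemma exists_MM (h2 : (2 : F) = 0) (g : Matrix (Fin 2) (Fin 2) F) :
    ∃ u v : QuadraticAlgebra F a 1, g = MM u v := by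
  refine ⟨⟨g 0 0 + (g 0 1 + a * g 1 0), g 0 0 + g 1 1⟩, ⟨g 0 1 + a * g 1 0, g 1 0 + (g 0 0 + g 1 1)⟩, ?_⟩
  ext i j
  fin_cases i <;> fin_cases j <;>
    simp [MM, regMat, starMat, Matrix.mul_apply, Fin.sum_univ_two]
  · linear_combination (-(g 0 1 + a * g 1 0)) * h2
  · ring
  · linear_combination (-(g 0 0 + g 1 1)) * h2
  · linear_combination (-(g 0 0)) * h2

lemma regMat_alg (x : F) : regMat (algebraMap F (QuadraticAlgebra F a 1) x) = x • (1 : Matrix (Fin 2) (Fin 2) F) :=
  regMat_scalar x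

lemma upS_eq_MM (h2 : (2 : F) = 0) (t : F) :
    ((upS t : SL2 F) : Matrix (Fin 2) (Fin 2) F) =
      MM (algebraMap F (QuadraticAlgebra F a 1) (1 + t)) (algebraMap F (QuadraticAlgebra F a 1) t) := by
  rw [MM, regMat_alg, regMat_alg]
  ext i j
  fin_cases i <;> fin_cases j <;>
    simp [upS, starMat, Matrix.mul_apply, Fin.sum_univ_two, Matrix.one_apply]
  linear_combination (-t) * h2

lemma norm_alg (x : F) : QuadraticAlgebra.norm (algebraMap F (QuadraticAlgebra F a 1) x) = x ^ 2 := by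
  simp [QuadraticAlgebra.norm_def, pow_two]

variable [Fintype F] [hab : Fact (∀ r : F, r ^ 2 ≠ a + 1 * r)]

lemma norm_ne_zero {u : QuadraticAlgebra F a 1} (hu : u ≠ 0) : QuadraticAlgebra.norm u ≠ 0 := by
  intro h
  have h1 := algebraMap_norm_eq_mul_star u
  rw [h, map_zero] at h1
  rcases mul_eq_zero.mp h1.symm with h3 | h3
  · exact hu h3
  · apply hu
    have := congrArg star h3
    simpa using this

/-- The factorisation. -/
theorem exists_decomp (h2 : (2 : F) = 0) (g : SL2 F) :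
    ∃ (x y : normOne F a 1) (t : F), g = regHom a 1 x * upS t * regHom a 1 y := by
  obtain ⟨u, v, hg⟩ := exists_MM (a := a) h2 (g : Matrix (Fin 2) (Fin 2) F)
  have hdet : QuadraticAlgebra.norm u - QuadraticAlgebra.norm v = 1 := by
    rw [← MM_det, ← hg]
    exact g.2
  have key : ∀ (x y : normOne F a 1) (t : F),
      (x.1 : QuadraticAlgebra F a 1) * algebraMap F _ (1 + t) * y.1 = u →
      (x.1 : QuadraticAlgebra F a 1) * algebraMap F _ t * star (y.1 : QuadraticAlgebra F a 1) = v →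
      g = regHom a 1 x * upS t * regHom a 1 y := by
    intro x y t h3 h4
    apply Subtype.ext
    rw [hg, Matrix.SpecialLinearGroup.coe_mul, Matrix.SpecialLinearGroup.coe_mul, regHom_coe, regHom_coe, upS_eq_MM (a := a) h2, MM_conj, h3, h4]
  have hc2 : ringChar F = 2 := by
    have h5 : ringChar F ∣ 2 := ringChar.dvd (by exact_mod_cast h2)
    exact (Nat.prime_dvd_prime_iff_eq (CharP.char_is_prime F (ringChar F)) Nat.prime_two).mp h5
  obtain ⟨r, hr⟩ := FiniteField.isSquare_of_char_two hc2 (QuadraticAlgebra.norm u)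
  have hr2 : QuadraticAlgebra.norm u = r ^ 2 := by rw [hr, pow_two]
  have hv2 : QuadraticAlgebra.norm v = (1 + r) ^ 2 := by
    have : QuadraticAlgebra.norm v = QuadraticAlgebra.norm u - 1 := by linear_combination -hdet
    rw [this, hr2]
    linear_combination (-1 - r) * h2
  by_cases hu : u = 0
  · have hv1 : QuadraticAlgebra.norm v = 1 := by
      rw [hu, QuadraticAlgebra.norm_zero] at hdet
      linear_combination -hdet - h2
    refine ⟨mkOne v hv1, 1, 1, key _ _ _ ?_ ?_⟩
    · rw [hu]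
      have : (1 + 1 : F) = 0 := by linear_combination h2
      rw [this, map_zero]
      simp
    · simp [mkOne]
  by_cases hv : v = 0
  · have hu1 : QuadraticAlgebra.norm u = 1 := by
      rw [hv, QuadraticAlgebra.norm_zero] at hdet
      linear_combination hdet
    refine ⟨mkOne u hu1, 1, 0, key _ _ _ ?_ ?_⟩
    · simp [mkOne]
    · rw [hv]
      simp
  -- the general case
  have hr0 : r ≠ 0 := by
    rintro rfl
    apply norm_ne_zero hu
    rw [hr2]
    ring
  have hr1 : 1 + r ≠ 0 := by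
    intro h
    apply norm_ne_zero hv
    rw [hv2, h]
    ring
  have hrK : algebraMap F (QuadraticAlgebra F a 1) r ≠ 0 := by
    intro h
    apply hr0
    have := congrArg QuadraticAlgebra.re h
    simpa using this
  have hr1K : algebraMap F (QuadraticAlgebra F a 1) (1 + r) ≠ 0 := by
    intro h
    apply hr1
    have := congrArg QuadraticAlgebra.re h
    simpa using this
  have hns : QuadraticAlgebra.norm (u / algebraMap F (QuadraticAlgebra F a 1) r) = 1 := by
    have h5 : (u / algebraMap F (QuadraticAlgebra F a 1) r) * algebraMap F (QuadraticAlgebra F a 1) r = u := div_mul_cancel₀ _ hrK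
    have h6 := congrArg QuadraticAlgebra.norm h5
    rw [map_mul, norm_alg, hr2] at h6
    exact mul_right_cancel₀ (pow_ne_zero 2 hr0) (by rw [h6, one_mul])
  have hnρ : QuadraticAlgebra.norm (v / algebraMap F (QuadraticAlgebra F a 1) (1 + r)) = 1 := by
    have h5 : (v / algebraMap F (QuadraticAlgebra F a 1) (1 + r)) * algebraMap F (QuadraticAlgebra F a 1) (1 + r) = v := div_mul_cancel₀ _ hr1K
    have h6 := congrArg QuadraticAlgebra.norm h5
    rw [map_mul, norm_alg, hv2] at h6
    exact mul_right_cancel₀ (pow_ne_zero 2 hr1) (by rw [h6, one_mul])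
  set s := mkOne _ hns with hs
  set ρ := mkOne _ hnρ with hρ
  have hcop : (Nat.card (normOne F a 1)).Coprime 2 := by
    rw [card_normOne]
    rw [Nat.coprime_two_right]
    have : Fintype.card F % 2 = 0 := FiniteField.even_card_iff_char_two.mp hc2
    rw [Nat.odd_iff]
    omega
  let e := powCoprime hcop
  have hsq : ∀ z : normOne F a 1, e z = z ^ 2 := fun _ => rfl
  obtain ⟨x, hx⟩ := e.surjective (s * ρ)
  obtain ⟨y, hy⟩ := e.surjective (s * ρ⁻¹)
  rw [hsq] at hx hy
  have hxy : x * y = s := by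
    apply e.injective
    rw [hsq, hsq, mul_pow, hx, hy]
    rw [pow_two]
    calc s * ρ * (s * ρ⁻¹) = s * s * (ρ * ρ⁻¹) := by
          rw [mul_mul_mul_comm]
      _ = s * s := by rw [mul_inv_cancel, mul_one]
  have hxy' : x * y⁻¹ = ρ := by
    apply e.injective
    rw [hsq, hsq, mul_pow, inv_pow, hx, hy]
    rw [pow_two, mul_inv, inv_inv]
    calc s * ρ * (s⁻¹ * ρ) = s * s⁻¹ * (ρ * ρ) := by
          rw [mul_mul_mul_comm]
      _ = ρ * ρ := by rw [mul_inv_cancel, one_mul]
  have e1 : (x.1 : QuadraticAlgebra F a 1) * y.1 = s.1 := by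
    have := congrArg (fun z : normOne F a 1 => ((z.1 : (QuadraticAlgebra F a 1)ˣ) : QuadraticAlgebra F a 1)) hxy
    exact this
  have e2 : (x.1 : QuadraticAlgebra F a 1) * star (y.1 : QuadraticAlgebra F a 1) = ρ.1 := by
    rw [star_val]
    have := congrArg (fun z : normOne F a 1 => ((z.1 : (QuadraticAlgebra F a 1)ˣ) : QuadraticAlgebra F a 1)) hxy'
    exact this
  have e3 : ((s.1 : (QuadraticAlgebra F a 1)ˣ) : QuadraticAlgebra F a 1) = u / algebraMap F (QuadraticAlgebra F a 1) r := rfl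
  have e4 : ((ρ.1 : (QuadraticAlgebra F a 1)ˣ) : QuadraticAlgebra F a 1) = v / algebraMap F (QuadraticAlgebra F a 1) (1 + r) := rfl
  refine ⟨x, y, 1 + r, key _ _ _ ?_ ?_⟩
  · have : (1 + (1 + r) : F) = r := by linear_combination h2
    rw [this, mul_right_comm, e1, e3]
    field_simp
  · rw [mul_right_comm, e2, e4]
    field_simp

end aux

/-- Let F be a finite field with q = 2^t ≥ 4 elements and L = PSL(2,F). Then L has a cyclic subgroup A of order q + 1 and an elementary abelian 2-subgroup B of order q such that L = ABA: every element of L is a product a·b·a' with a, a' ∈ A and b ∈ B. -/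
theorem result {F : Type*} [Field F] [Fintype F]
    (h2 : 2 ∣ Fintype.card F) (h4 : 4 ≤ Fintype.card F) :
    ∃ A B : Subgroup (Matrix.ProjectiveSpecialLinearGroup (Fin 2) F),
      IsCyclic A ∧ Nat.card A = Fintype.card F + 1 ∧ IsMulCommutative B ∧ (∀ b ∈ B, b * b = 1) ∧
        Nat.card B = Fintype.card F ∧
        ∀ g : Matrix.ProjectiveSpecialLinearGroup (Fin 2) F, ∃ a ∈ A, ∃ b ∈ B, ∃ c ∈ A, g = a * b * c := by
  have hc2 : ringChar F = 2 := FiniteField.even_card_iff_char_two.mpr (Nat.mod_eq_zero_of_dvd h2)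
  have h20 : (2 : F) = 0 := by
    have h3 : ((ringChar F : ℕ) : F) = 0 := CharP.cast_eq_zero F (ringChar F)
    rw [hc2] at h3
    exact_mod_cast h3
  obtain ⟨a, ha⟩ := Lib.Classical.SL2Tori.exists_irred (F := F)
  haveI : Fact (∀ r : F, r ^ 2 ≠ a + 1 * r) := ⟨ha⟩
  have hinj : Function.Injective (Lib.SLn.Basic.toPSL : Matrix.SpecialLinearGroup (Fin 2) F →* _) := by
    rw [injective_iff_map_eq_one]
    intro X hX
    rw [Lib.SLn.Basic.toPSL_eq_one_iff] at hX
    obtain ⟨c, hc⟩ := hX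
    have hdet := X.2
    rw [hc, Matrix.det_fin_two] at hdet
    simp [Matrix.scalar_apply] at hdet
    have hc1 : c = 1 := by
      have h5 : (c - 1) ^ 2 = 0 := by
        linear_combination (1 : F) * (by simpa [pow_two] using hdet : c * c = 1) + (1 - c) * h20
      exact sub_eq_zero.mp (pow_eq_zero_iff (two_ne_zero) |>.mp h5)
    apply Subtype.ext
    rw [hc, hc1]
    ext i j
    fin_cases i <;> fin_cases j <;> simp [Matrix.scalar_apply]
  refine ⟨(Lib.SLn.SL2Gen.nsT a 1).map Lib.SLn.Basic.toPSL, (Lib.Classical.SL2Sylow.US F).map Lib.SLn.Basic.toPSL, ?_, ?_, ?_, ?_, ?_, ?_⟩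
  · have : IsCyclic (Lib.SLn.SL2Gen.nsT a 1) := inferInstance
    exact isCyclic_of_surjective (MonoidHom.subgroupMap Lib.SLn.Basic.toPSL (Lib.SLn.SL2Gen.nsT a 1)) (MonoidHom.subgroupMap_surjective _ _)
  · rw [Subgroup.card_map_of_injective hinj, Lib.SLn.SL2Gen.card_nsT]
  · refine ⟨⟨?_⟩⟩
    rintro ⟨_, x, hx, rfl⟩ ⟨_, y, hy, rfl⟩
    obtain ⟨s, rfl⟩ := Lib.Classical.SL2Sylow.mem_US_iff.mp hx
    obtain ⟨t, rfl⟩ := Lib.Classical.SL2Sylow.mem_US_iff.mp hy
    apply Subtype.ext
    show Lib.SLn.Basic.toPSL _ * Lib.SLn.Basic.toPSL _ = Lib.SLn.Basic.toPSL _ * Lib.SLn.Basic.toPSL _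
    rw [← map_mul, ← map_mul, ← Lib.Classical.SL2Sylow.upS_add, ← Lib.Classical.SL2Sylow.upS_add, add_comm]
  · rintro _ ⟨x, hx, rfl⟩
    obtain ⟨s, rfl⟩ := Lib.Classical.SL2Sylow.mem_US_iff.mp hx
    rw [← map_mul, ← Lib.Classical.SL2Sylow.upS_add]
    have : s + s = 0 := by linear_combination s * h20
    rw [this, Lib.Classical.SL2Sylow.upS_zero, map_one]
  · rw [Subgroup.card_map_of_injective hinj, Lib.Classical.SL2Sylow.card_US, Nat.card_eq_fintype_card]
  · intro g
    obtain ⟨G, rfl⟩ := Lib.SLn.Basic.toPSL_surjective g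
    obtain ⟨x, y, t, rfl⟩ := exists_decomp (a := a) h20 G
    refine ⟨_, ⟨_, ⟨x, rfl⟩, rfl⟩, _, ⟨_, Lib.Classical.SL2Sylow.mem_US_iff.mpr ⟨t, rfl⟩, rfl⟩, _, ⟨_, ⟨y, rfl⟩, rfl⟩, ?_⟩
    simp only [map_mul]

end Cfsg.Agent.S2503
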