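import Cfsg.Statements.S2506
import Cfsg.Agent.Lib.PermAb.Max
-- import your own Cfsg.Agent.* helpers here

set_option autoImplicit false
open scoped Pointwise
open Cfsg

namespace Cfsg.Agent.S2506

section aux

open Equiv MulAction
open Cfsg.Agent.Lib.PermAb.Max

section numerics

lemma h_pos (n : ℕ) : 0 < h n := by
  induction' n using Nat.strong_induction_on with n ih
  by_cases ha : 9 ≤ n
  · obtain ⟨c, rfl⟩ := Nat.exists_eq_add_of_le' ha
    have h1 := ih (c + 6) (by omega)
    have e1 : h (c + 9) = 3 * h (c + 6) := by rw [h]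
    omega
  · have ha' : n < 9 := by omega
    interval_cases n <;> decide

lemma f_lt_h (m : ℕ) (hm : 1 ≤ m) : f m < h (m + 2) := by
  induction' m using Nat.strong_induction_on with m ih
  by_cases ha : 9 ≤ m
  · obtain ⟨c, rfl⟩ := Nat.exists_eq_add_of_le' ha
    have h1 := ih (c + 6) (by omega) (by omega)
    have e1 : f (c + 9) = 3 * f (c + 6) := by
      have : c + 9 = (c + 4) + 5 := by omega
      rw [this, f]
    have e2 : h (c + 9 + 2) = 3 * h (c + 6 + 2) := by
      have : c + 9 + 2 = (c + 2) + 9 := by omega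
      rw [this, h]
    omega
  · have ha' : m < 9 := by omega
    interval_cases m <;> first | decide | omega

lemma h_lt_succ (m : ℕ) (hm : 2 ≤ m) : h m < h (m + 1) := by
  induction' m using Nat.strong_induction_on with m ih
  by_cases ha : 9 ≤ m
  · obtain ⟨c, rfl⟩ := Nat.exists_eq_add_of_le' ha
    have h1 := ih (c + 6) (by omega) (by omega)
    have e1 : h (c + 9) = 3 * h (c + 6) := by rw [h]
    have e2 : h (c + 9 + 1) = 3 * h (c + 6 + 1) := by
      have : c + 9 + 1 = (c + 1) + 9 := by omega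
      rw [this, h, add_right_comm]
    omega
  · have ha' : m < 9 := by omega
    interval_cases m <;> first | decide | omega

lemma five_lt (m : ℕ) (hm : 1 ≤ m) : 5 * h m < h (5 + m) := by
  induction' m using Nat.strong_induction_on with m ih
  by_cases ha : 9 ≤ m
  · obtain ⟨c, rfl⟩ := Nat.exists_eq_add_of_le' ha
    have h1 := ih (c + 6) (by omega) (by omega)
    have e1 : h (c + 9) = 3 * h (c + 6) := by rw [h]
    have e2 : h (5 + (c + 9)) = 3 * h (5 + (c + 6)) := by
      have : 5 + (c + 9) = (c + 5) + 9 := by omega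
      rw [this, h]
      congr 2 <;> omega
    omega
  · have ha' : m < 9 := by omega
    interval_cases m <;> first | decide | omega

lemma lt_h (o : ℕ) (ho : 6 ≤ o) : o < h o := by
  induction' o using Nat.strong_induction_on with o ih
  by_cases ha : 9 ≤ o
  · obtain ⟨c, rfl⟩ := Nat.exists_eq_add_of_le' ha
    have h1 := ih (c + 6) (by omega) (by omega)
    have e1 : h (c + 9) = 3 * h (c + 6) := by rw [h]
    omega
  · have ha' : o < 9 := by omega
    interval_cases o <;> first | decide | omega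

lemma tight_numeric (o m : ℕ) (h1 : 1 ≤ o) (h2 : o ≠ 2) (he : o * h m = h (o + m)) (h3 : 3 ≤ o + m)
    (h5 : o + m ≠ 5) : o = 3 ∨ o = 4 := by
  by_contra hcon
  push Not at hcon
  obtain ⟨hc3, hc4⟩ := hcon
  have hp := h_pos m
  rcases (by omega : o = 1 ∨ o = 5 ∨ 6 ≤ o) with rfl | rfl | ho
  · have := h_lt_succ m (by omega)
    rw [one_mul] at he
    rw [add_comm] at he
    omega
  · have := five_lt m (by omega)
    omega
  · have h6 := lt_h o ho
    have h7 := h_mul_le o m
    have h8 : o * h m < h o * h m := Nat.mul_lt_mul_of_pos_right h6 hp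
    omega

end numerics

variable {X : Type*} [Fintype X] [DecidableEq X]

/-- abelian groups of even permutations of the largest order -/
structure IsMax (A : Subgroup (Perm X)) : Prop where
  comm : IsMulCommutative A
  even : ∀ a ∈ A, Perm.sign a = 1
  card : Nat.card A = h (Fintype.card X)

omit [Fintype X] [DecidableEq X] in
lemma smul_def' {A : Subgroup (Perm X)} (a : A) (x : X) : a • x = (a : Perm X) x := rfl

omit [Fintype X] [DecidableEq X] in
lemma mem_orbit_iff' {A : Subgroup (Perm X)} {x y : X} : y ∈ orbit A x ↔ ∃ a ∈ A, a x = y := by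
  constructor
  · rintro ⟨a, rfl⟩
    exact ⟨a, a.2, rfl⟩
  · rintro ⟨a, ha, rfl⟩
    exact ⟨⟨a, ha⟩, rfl⟩

omit [Fintype X] [DecidableEq X] in
lemma orbit_eq_of_mem {A : Subgroup (Perm X)} {x y : X} (h : y ∈ orbit A x) : orbit A y = orbit A x :=
  orbit_eq_iff.mpr h

omit [Fintype X] [DecidableEq X] in
/-- an element of an abelian group fixing a point fixes the orbit of that point -/
lemma fix_orbit {A : Subgroup (Perm X)} (hc : IsMulCommutative A) {a : Perm X} (ha : a ∈ A) {x y : X}
    (hx : a x = x) (hy : y ∈ orbit A x) : a y = y := by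
  obtain ⟨k, hk, rfl⟩ := mem_orbit_iff'.mp hy
  have := hc.is_comm.comm ⟨a, ha⟩ ⟨k, hk⟩
  have h2 : a * k = k * a := congrArg Subtype.val this
  show (a * k) x = k x
  rw [h2]
  show k (a x) = k x
  rw [hx]

omit [Fintype X] [DecidableEq X] in
lemma apply_mem_orbit {A : Subgroup (Perm X)} {a : Perm X} (ha : a ∈ A) {x y : X} (hy : y ∈ orbit A x) :
    a y ∈ orbit A x := by
  obtain ⟨k, hk, rfl⟩ := mem_orbit_iff'.mp hy
  exact mem_orbit_iff'.mpr ⟨a * k, A.mul_mem ha hk, rfl⟩

omit [Fintype X] [DecidableEq X] in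
lemma apply_mem_orbit_iff {A : Subgroup (Perm X)} {a : Perm X} (ha : a ∈ A) (x y : X) :
    a y ∈ orbit A x ↔ y ∈ orbit A x := by
  constructor
  · intro h
    have := apply_mem_orbit (A.inv_mem ha) h
    simpa using this
  · exact apply_mem_orbit ha

section transport

variable {O : Set X} {k : ℕ}

/-- a permutation preserving `O`, carried to `Fin k` -/
noncomputable def toFin (e : O ≃ Fin k) (g : Perm X) (hg : ∀ y, g y ∈ O ↔ y ∈ O) : Perm (Fin k) :=
  e.permCongr (g.subtypePerm hg)

omit [Fintype X] [DecidableEq X] in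
lemma toFin_apply (e : O ≃ Fin k) (g : Perm X) (hg : ∀ y, g y ∈ O ↔ y ∈ O) (y : X) (hy : y ∈ O) :
    toFin e g hg (e ⟨y, hy⟩) = e ⟨g y, (hg y).2 hy⟩ := by
  simp [toFin, Equiv.permCongr_apply]

omit [Fintype X] [DecidableEq X] in
lemma toFin_alt (e : O ≃ Fin k) (g : Perm X) (hg : ∀ y, g y ∈ O ↔ y ∈ O)
    (hs : ∀ x ∈ O, g x = x → ∀ y ∈ O, g y = y) :
    toFin e g hg = 1 ∨ ∀ i, toFin e g hg i ≠ i := by
  by_cases h : ∀ i, toFin e g hg i ≠ i
  · exact Or.inr h
  · left
    push Not at h
    obtain ⟨i, hi⟩ := h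
    obtain ⟨⟨x, hx⟩, rfl⟩ := e.surjective i
    rw [toFin_apply] at hi
    have h1 : g x = x := congrArg Subtype.val (e.injective hi)
    ext j
    obtain ⟨⟨y, hy⟩, rfl⟩ := e.surjective j
    rw [toFin_apply]
    have h2 := hs x hx h1 y hy
    simp [h2]

lemma dec3 : ∀ (g g' : Perm (Fin 3)), (g = 1 ∨ ∀ y, g y ≠ y) → (g' = 1 ∨ ∀ y, g' y ≠ y) →
    ∀ x, g x = g' x → g = g' := by decide +kernel

set_option synthInstance.maxSize 1000 in
set_option synthInstance.maxHeartbeats 200000 in
lemma dec4 : ∀ (g g' : Perm (Fin 4)), (g = 1 ∨ ∀ y, g y ≠ y) → (g' = 1 ∨ ∀ y, g' y ≠ y) → g * g = 1 → g' * g' = 1 →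
    ∀ x, g x = g' x → g = g' := by decide +kernel

lemma dec4' : ∀ g : Perm (Fin 4), Perm.sign g = 1 → (g = 1 ∨ ∀ y, g y ≠ y) → g * g = 1 := by decide +kernel

omit [Fintype X] [DecidableEq X] in
lemma agree3 (hO : O.ncard = 3) {g g' : Perm X} (hg : ∀ y, g y ∈ O ↔ y ∈ O) (hg' : ∀ y, g' y ∈ O ↔ y ∈ O)
    (hs : ∀ x ∈ O, g x = x → ∀ y ∈ O, g y = y) (hs' : ∀ x ∈ O, g' x = x → ∀ y ∈ O, g' y = y)
    {x : X} (hx : x ∈ O) (h : g x = g' x) : ∀ y ∈ O, g y = g' y := by
  have hcard : Nat.card O = 3 := by rw [Nat.card_coe_set_eq, hO]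
  have : Finite O := Nat.finite_of_card_ne_zero (by omega)
  let e : O ≃ Fin 3 := Finite.equivFinOfCardEq hcard
  have key := dec3 (toFin e g hg) (toFin e g' hg') (toFin_alt e g hg hs) (toFin_alt e g' hg' hs') (e ⟨x, hx⟩)
    (by rw [toFin_apply, toFin_apply]; simp [h])
  intro y hy
  have h1 := toFin_apply e g hg y hy
  have h2 := toFin_apply e g' hg' y hy
  rw [key, h2] at h1
  exact (congrArg Subtype.val (e.injective h1)).symm

omit [Fintype X] [DecidableEq X] in
lemma agree4 (hO : O.ncard = 4) {g g' : Perm X} (hg : ∀ y, g y ∈ O ↔ y ∈ O) (hg' : ∀ y, g' y ∈ O ↔ y ∈ O)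
    (hs : ∀ x ∈ O, g x = x → ∀ y ∈ O, g y = y) (hs' : ∀ x ∈ O, g' x = x → ∀ y ∈ O, g' y = y)
    (hq : ∀ y ∈ O, g (g y) = y) (hq' : ∀ y ∈ O, g' (g' y) = y)
    {x : X} (hx : x ∈ O) (h : g x = g' x) : ∀ y ∈ O, g y = g' y := by
  have hcard : Nat.card O = 4 := by rw [Nat.card_coe_set_eq, hO]
  have : Finite O := Nat.finite_of_card_ne_zero (by omega)
  let e : O ≃ Fin 4 := Finite.equivFinOfCardEq hcard
  have sq : ∀ (g : Perm X) (hg : ∀ y, g y ∈ O ↔ y ∈ O) (hq : ∀ y ∈ O, g (g y) = y), toFin e g hg * toFin e g hg = 1 := by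
    intro g hg hq
    ext j
    obtain ⟨⟨y, hy⟩, rfl⟩ := e.surjective j
    rw [Perm.mul_apply, toFin_apply, toFin_apply]
    simp [hq y hy]
  have key := dec4 (toFin e g hg) (toFin e g' hg') (toFin_alt e g hg hs) (toFin_alt e g' hg' hs')
    (sq g hg hq) (sq g' hg' hq') (e ⟨x, hx⟩)
    (by rw [toFin_apply, toFin_apply]; simp [h])
  intro y hy
  have h1 := toFin_apply e g hg y hy
  have h2 := toFin_apply e g' hg' y hy
  rw [key, h2] at h1
  exact (congrArg Subtype.val (e.injective h1)).symm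

lemma sq_of_sign (hO : O.ncard = 4) {g : Perm X} (hg : ∀ y, g y ∈ O ↔ y ∈ O)
    (hs : ∀ x ∈ O, g x = x → ∀ y ∈ O, g y = y) (hsupp : ∀ y, g y ≠ y → y ∈ O)
    (hsign : Perm.sign g = 1) : ∀ y ∈ O, g (g y) = y := by
  classical
  have hcard : Nat.card O = 4 := by rw [Nat.card_coe_set_eq, hO]
  have : Finite O := Nat.finite_of_card_ne_zero (by omega)
  let e : O ≃ Fin 4 := Finite.equivFinOfCardEq hcard
  have h1 : Perm.sign (toFin e g hg) = 1 := by
    have h2 : Perm.sign (g.subtypePerm hg) = Perm.sign g := Perm.sign_subtypePerm g hg hsupp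
    rw [toFin, Perm.sign_permCongr, h2, hsign]
  have h2 := dec4' _ h1 (toFin_alt e g hg hs)
  intro y hy
  have h3 := congrArg (fun f : Perm (Fin 4) => f (e ⟨y, hy⟩)) h2
  simp only [Perm.mul_apply, Perm.one_apply] at h3
  rw [toFin_apply, toFin_apply] at h3
  exact congrArg Subtype.val (e.injective h3)

end transport

section orbits

variable {A : Subgroup (Perm X)}

lemma no_two (hA : IsMax A) (hn : 3 ≤ Fintype.card X) (x : X) : (orbit A x).ncard ≠ 2 := by
  intro h2
  obtain ⟨m, e, hm⟩ := card_le_f_of_orbit_two A hA.comm hA.even x h2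
  rw [Nat.card_eq_fintype_card] at e
  have := f_lt_h m (by omega)
  rw [hA.card, e] at hm
  omega

lemma bot_eq (hA : IsMax A) (x : X) : stabilizer A x ⊓ fixingSubgroup A (orbit A x)ᶜ = ⊥ := by
  rw [eq_bot_iff]
  intro g hg
  obtain ⟨h1, h2⟩ := Subgroup.mem_inf.mp hg
  rw [mem_fixingSubgroup_iff] at h2
  rw [Subgroup.mem_bot]
  apply Subtype.ext
  ext y
  by_cases hy : y ∈ orbit A x
  · have := fix_orbit hA.comm g.2 (x := x) h1 hy
    rw [this]
    rfl
  · exact h2 y hy

/-- the tightness of the orbit bound -/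
lemma tight (hA : IsMax A) (hn : 3 ≤ Fintype.card X) (x : X) :
    (orbit A x).ncard * h (orbit A x)ᶜ.ncard = h (Fintype.card X) ∧
      Nat.card (fixingSubgroup A (orbit A x)ᶜ) = (orbit A x).ncard := by
  set O := orbit A x with hO
  set K := fixingSubgroup A Oᶜ with hK
  have hsum : O.ncard + Oᶜ.ncard = Fintype.card X := by
    have := Set.ncard_add_ncard_compl O (Set.toFinite _) (Set.toFinite _)
    rwa [Nat.card_eq_fintype_card] at this
  have h1 : K.index ≤ h Oᶜ.ncard :=
    index_fixingSubgroup_le (G := A) (X := X) (comm_of A hA.comm) h (fun o => o ≠ 2) (by decide)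
      (fun o m ho => mul_h_le o m ho) (no_two hA hn) Oᶜ (compl_invariant x)
  have h2 : Nat.card A ≤ O.ncard * K.index := by
    have := Subgroup.index_inf_le (H := stabilizer A x) (K := K)
    rwa [hK, bot_eq hA x, Subgroup.index_bot, index_stabilizer] at this
  have h3 : O.ncard ≠ 2 := no_two hA hn x
  have h4 : O.ncard * h Oᶜ.ncard ≤ h (O.ncard + Oᶜ.ncard) := mul_h_le _ _ h3
  rw [hsum] at h4
  have hOpos : 0 < O.ncard := (Set.ncard_pos (Set.toFinite _)).mpr ⟨x, mem_orbit_self x⟩
  have h5 : O.ncard * K.index ≤ O.ncard * h Oᶜ.ncard := Nat.mul_le_mul_left _ h1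
  rw [hA.card] at h2
  have h6 : O.ncard * h Oᶜ.ncard = h (Fintype.card X) := by omega
  refine ⟨h6, ?_⟩
  have h7 : O.ncard * K.index = O.ncard * h Oᶜ.ncard := by omega
  have h8 : K.index = h Oᶜ.ncard := Nat.eq_of_mul_eq_mul_left hOpos h7
  have h9 := Subgroup.card_mul_index K
  rw [hA.card, h8, ← h6] at h9
  exact Nat.eq_of_mul_eq_mul_right (h_pos _) h9

lemma orbit_size (hA : IsMax A) (hn : 3 ≤ Fintype.card X) (hn5 : Fintype.card X ≠ 5) (x : X) :
    (orbit A x).ncard = 3 ∨ (orbit A x).ncard = 4 := by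
  have hsum : (orbit A x).ncard + (orbit A x)ᶜ.ncard = Fintype.card X := by
    have := Set.ncard_add_ncard_compl (orbit A x) (Set.toFinite _) (Set.toFinite _)
    rwa [Nat.card_eq_fintype_card] at this
  have hOpos : 0 < (orbit A x).ncard := (Set.ncard_pos (Set.toFinite _)).mpr ⟨x, mem_orbit_self x⟩
  have := (tight hA hn x).1
  rw [← hsum] at this
  exact tight_numeric _ _ hOpos (no_two hA hn x) this (by omega) (by omega)

/-- the fixer of the complement is regular on the orbit -/
lemma exists_mem_fix (hA : IsMax A) (hn : 3 ≤ Fintype.card X) (x : X) (a : Perm X) (ha : a ∈ A) :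
    ∃ c : A, c ∈ fixingSubgroup A (orbit A x)ᶜ ∧ (c : Perm X) x = a x := by
  set O := orbit A x with hO
  set K := fixingSubgroup A Oᶜ with hK
  have hcard := (tight hA hn x).2
  let φ : K → O := fun k => ⟨(k : A) • x, ⟨k, rfl⟩⟩
  have hinj : Function.Injective φ := by
    intro k k' hkk
    have h1 : (k : A) • x = (k' : A) • x := congrArg Subtype.val hkk
    have h2 : (k'⁻¹ * k : K) = 1 := by
      have h3 : ((k'⁻¹ * k : K) : A) ∈ stabilizer A x ⊓ K := by
        refine Subgroup.mem_inf.mpr ⟨?_, (k'⁻¹ * k).2⟩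
        rw [mem_stabilizer_iff]
        show ((k' : A)⁻¹ * (k : A)) • x = x
        rw [mul_smul, h1, inv_smul_smul]
      have hb : stabilizer A x ⊓ K = ⊥ := bot_eq hA x
      have h4 : ((k'⁻¹ * k : K) : A) ∈ (⊥ : Subgroup A) := hb ▸ h3
      rw [Subgroup.mem_bot] at h4
      exact Subtype.ext h4
    have : k = k' := by
      rw [inv_mul_eq_one] at h2
      exact h2.symm
    exact this
  have hbij : Function.Bijective φ := by
    refine hinj.bijective_of_nat_card_le ?_
    rw [hcard, Nat.card_coe_set_eq]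
  obtain ⟨k, hk⟩ := hbij.2 ⟨a x, mem_orbit_iff'.mpr ⟨a, ha, rfl⟩⟩
  refine ⟨k, k.2, ?_⟩
  exact congrArg Subtype.val hk

lemma sq_of_four (hA : IsMax A) (hn : 3 ≤ Fintype.card X) (x : X) (h4 : (orbit A x).ncard = 4)
    (a : Perm X) (ha : a ∈ A) : a (a x) = x := by
  obtain ⟨c, hcK, hc⟩ := exists_mem_fix hA hn x a ha
  rw [mem_fixingSubgroup_iff] at hcK
  have hcO : ∀ y ∈ orbit A x, (c : Perm X) y = a y := by
    -- `a⁻¹ c` fixes `x`
    intro y hy
    have h1 : (a⁻¹ * (c : Perm X)) x = x := by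
      rw [Perm.mul_apply, hc]
      simp
    have h2 := fix_orbit hA.comm (A.mul_mem (A.inv_mem ha) c.2) h1 hy
    rw [Perm.mul_apply, Perm.inv_eq_iff_eq] at h2
    exact h2.symm ▸ rfl
  have hsq := sq_of_sign (O := orbit A x) h4 (g := (c : Perm X)) (fun y => apply_mem_orbit_iff c.2 x y)
    (fun z hz hzc y hy => by
      have e : orbit A z = orbit A x := orbit_eq_of_mem hz
      exact fix_orbit hA.comm c.2 hzc (by rw [e]; exact hy))
    (fun y hy => by
      by_contra hcon
      exact hy (hcK y hcon))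
    (hA.even _ c.2) x (mem_orbit_self x)
  rw [hc] at hsq
  have : a x ∈ orbit A x := mem_orbit_iff'.mpr ⟨a, ha, rfl⟩
  rw [← hcO _ this]
  exact hsq

end orbits

section same

variable {A B : Subgroup (Perm X)}

/-- Two maximal groups with the same orbits coincide. -/
theorem eq_of_same_orbits (hA : IsMax A) (hB : IsMax B) (hn : 3 ≤ Fintype.card X) (hn5 : Fintype.card X ≠ 5)
    (hs : ∀ x : X, orbit A x = orbit B x) : A = B := by
  have hcomm : ∀ a ∈ A, ∀ b ∈ B, a * b = b * a := by
    intro a ha b hb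
    ext y
    show a (b y) = b (a y)
    have hy : a y ∈ orbit B y := by
      rw [← hs]
      exact mem_orbit_iff'.mpr ⟨a, ha, rfl⟩
    obtain ⟨b', hb', hby⟩ := mem_orbit_iff'.mp hy
    have hagree : ∀ z ∈ orbit B y, a z = b' z := by
      have hga : ∀ z, a z ∈ orbit B y ↔ z ∈ orbit B y := by
        intro z
        rw [← hs]
        exact apply_mem_orbit_iff ha y z
      have hgb : ∀ z, b' z ∈ orbit B y ↔ z ∈ orbit B y := apply_mem_orbit_iff hb' y
      have hsa : ∀ x ∈ orbit B y, a x = x → ∀ z ∈ orbit B y, a z = z := by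
        intro x hx hax z hz
        have e : orbit A x = orbit B y := by rw [hs, orbit_eq_of_mem hx]
        exact fix_orbit hA.comm ha hax (by rw [e]; exact hz)
      have hsb : ∀ x ∈ orbit B y, b' x = x → ∀ z ∈ orbit B y, b' z = z := by
        intro x hx hax z hz
        have e : orbit B x = orbit B y := orbit_eq_of_mem hx
        exact fix_orbit hB.comm hb' hax (by rw [e]; exact hz)
      rcases orbit_size hB hn hn5 y with h3 | h4
      · exact agree3 h3 hga hgb hsa hsb (mem_orbit_self y) hby.symm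
      · have hqa : ∀ z ∈ orbit B y, a (a z) = z := by
          intro z hz
          have e : orbit A z = orbit B y := by rw [hs, orbit_eq_of_mem hz]
          exact sq_of_four hA hn z (by rw [e]; exact h4) a ha
        have hqb : ∀ z ∈ orbit B y, b' (b' z) = z := by
          intro z hz
          have e : orbit B z = orbit B y := orbit_eq_of_mem hz
          exact sq_of_four hB hn z (by rw [e]; exact h4) b' hb'
        exact agree4 h4 hga hgb hsa hsb hqa hqb (mem_orbit_self y) hby.symm
    have hby' : b y ∈ orbit B y := mem_orbit_iff'.mpr ⟨b, hb, rfl⟩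
    rw [hagree _ hby', ← hby]
    have := hB.comm.is_comm.comm ⟨b', hb'⟩ ⟨b, hb⟩
    have h2 : b' * b = b * b' := congrArg Subtype.val this
    exact congrFun (congrArg (fun f : Perm X => (f : X → X)) h2) y
  let C := Subgroup.closure ((A : Set (Perm X)) ∪ B)
  have hCcomm : IsMulCommutative C := by
    apply Subgroup.isMulCommutative_closure
    rintro x (hx | hx) y (hy | hy)
    · exact congrArg Subtype.val (hA.comm.is_comm.comm ⟨x, hx⟩ ⟨y, hy⟩)
    · exact hcomm x hx y hy
    · exact (hcomm y hy x hx).symm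
    · exact congrArg Subtype.val (hB.comm.is_comm.comm ⟨x, hx⟩ ⟨y, hy⟩)
  have hCeven : ∀ c ∈ C, Perm.sign c = 1 := by
    have hle : C ≤ alternatingGroup X := by
      rw [Subgroup.closure_le]
      rintro x (hx | hx)
      · exact hA.even x hx
      · exact hB.even x hx
    intro c hc
    exact hle hc
  have hCcard : Nat.card C ≤ h (Fintype.card X) := by
    have := card_le_h C hCcomm hCeven
    have e : Nat.card X = Fintype.card X := Nat.card_eq_fintype_card
    rwa [e] at this
  have h1 : A = C := Subgroup.eq_of_le_of_card_ge (fun a ha => Subgroup.subset_closure (Or.inl ha))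
    (by rw [hA.card]; exact hCcard)
  have h2 : B = C := Subgroup.eq_of_le_of_card_ge (fun a ha => Subgroup.subset_closure (Or.inr ha))
    (by rw [hB.card]; exact hCcard)
  rw [h1, h2]

end same

section count

variable (A : Subgroup (Perm X))

/-- the orbit map -/
def orb : X → orbitRel.Quotient A X := Quotient.mk''

omit [Fintype X] [DecidableEq X] in
lemma orb_eq_iff {x y : X} : orb A x = orb A y ↔ x ∈ orbit A y := by
  unfold orb
  rw [Quotient.eq'']
  exact orbitRel_apply

/-- the size of an orbit -/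
noncomputable def size (ω : orbitRel.Quotient A X) : ℕ := Nat.card {x // orb A x = ω}

omit [Fintype X] [DecidableEq X] in
lemma size_orb (x : X) : size A (orb A x) = (orbit A x).ncard := by
  unfold size
  rw [← Nat.card_coe_set_eq]
  exact Nat.card_congr (Equiv.subtypeEquivRight (fun y => orb_eq_iff A))

omit [Fintype X] [DecidableEq X] in
lemma orb_surjective (ω : orbitRel.Quotient A X) : ∃ x, orb A x = ω := by
  obtain ⟨x, hx⟩ := Quotient.exists_rep ω
  exact ⟨x, hx⟩

variable {A}

lemma size_cases (hA : IsMax A) (hn : 3 ≤ Fintype.card X) (hn5 : Fintype.card X ≠ 5) (ω : orbitRel.Quotient A X) :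
    size A ω = 3 ∨ size A ω = 4 := by
  obtain ⟨x, rfl⟩ := orb_surjective A ω
  rw [size_orb]
  exact orbit_size hA hn hn5 x

lemma card_eq_sum (hA : IsMax A) (hn : 3 ≤ Fintype.card X) (hn5 : Fintype.card X ≠ 5) :
    Fintype.card X = 3 * Nat.card {ω // size A ω = 3} + 4 * Nat.card {ω // size A ω = 4} := by
  classical
  have : Fintype (orbitRel.Quotient A X) := Fintype.ofFinite _
  have h1 : Fintype.card X = ∑ ω, size A ω := by
    rw [← Fintype.card_congr (Equiv.sigmaFiberEquiv (orb A)), Fintype.card_sigma]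
    refine Finset.sum_congr rfl fun ω _ => ?_
    rw [size, Nat.card_eq_fintype_card]
  have h2 : ∑ ω, size A ω = ∑ ω, (if size A ω = 3 then 3 else 4) := by
    refine Finset.sum_congr rfl fun ω _ => ?_
    rcases size_cases hA hn hn5 ω with h | h <;> simp [h]
  rw [h1, h2, Finset.sum_ite, Finset.sum_const, Finset.sum_const, smul_eq_mul, smul_eq_mul,
    Nat.card_eq_fintype_card, Nat.card_eq_fintype_card, Fintype.card_subtype, Fintype.card_subtype]
  have h3 : (Finset.univ.filter fun ω => ¬ size A ω = 3) = Finset.univ.filter fun ω => size A ω = 4 := by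
    ext ω
    simp only [Finset.mem_filter, Finset.mem_univ, true_and]
    rcases size_cases hA hn hn5 ω with h | h <;> simp [h]
  rw [h3]
  ring

omit [DecidableEq X] [Fintype X] in
lemma disjoint_orbits {x y : X} (h : orb A x ≠ orb A y) : Disjoint (orbit A x) (orbit A y) := by
  rw [Set.disjoint_left]
  intro z hz hz'
  apply h
  have h1 : orb A z = orb A x := (orb_eq_iff A).mpr hz
  have h2 : orb A z = orb A y := (orb_eq_iff A).mpr hz'
  rw [← h1, h2]

/-- there are at most two orbits of size four -/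
lemma not_three (hA : IsMax A) (hn : 3 ≤ Fintype.card X) (x₁ x₂ x₃ : X)
    (h₁ : (orbit A x₁).ncard = 4) (h₂ : (orbit A x₂).ncard = 4) (h₃ : (orbit A x₃).ncard = 4)
    (h12 : orb A x₁ ≠ orb A x₂) (h13 : orb A x₁ ≠ orb A x₃) (h23 : orb A x₂ ≠ orb A x₃) : False := by
  set S := orbit A x₁ ∪ orbit A x₂ ∪ orbit A x₃ with hS
  have hcardS : S.ncard = 12 := by
    rw [hS, Set.ncard_union_eq _ (Set.toFinite _) (Set.toFinite _),
      Set.ncard_union_eq (disjoint_orbits h12) (Set.toFinite _) (Set.toFinite _), h₁, h₂, h₃]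
    rw [Set.disjoint_union_left]
    exact ⟨disjoint_orbits h13, disjoint_orbits h23⟩
  have hsum : 12 + Sᶜ.ncard = Fintype.card X := by
    have := Set.ncard_add_ncard_compl S (Set.toFinite _) (Set.toFinite _)
    rwa [Nat.card_eq_fintype_card, hcardS] at this
  have hinv : ∀ (g : A), ∀ y ∈ S, g • y ∈ S := by
    rintro g y ((hy | hy) | hy)
    · exact Or.inl (Or.inl (apply_mem_orbit g.2 hy))
    · exact Or.inl (Or.inr (apply_mem_orbit g.2 hy))
    · exact Or.inr (apply_mem_orbit g.2 hy)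
  have hinv' : ∀ (g : A), ∀ y ∈ Sᶜ, g • y ∈ Sᶜ := by
    intro g y hy hgy
    apply hy
    have := hinv g⁻¹ _ hgy
    simpa using this
  have h1 : (fixingSubgroup A Sᶜ).index ≤ h Sᶜ.ncard :=
    index_fixingSubgroup_le (G := A) (X := X) (comm_of A hA.comm) h (fun o => o ≠ 2) (by decide)
      (fun o m ho => mul_h_le o m ho) (no_two hA hn) Sᶜ hinv'
  have hbot : stabilizer A x₁ ⊓ (stabilizer A x₂ ⊓ (stabilizer A x₃ ⊓ fixingSubgroup A Sᶜ)) = ⊥ := by
    rw [eq_bot_iff]
    intro g hg
    obtain ⟨g1, hg⟩ := Subgroup.mem_inf.mp hg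
    obtain ⟨g2, hg⟩ := Subgroup.mem_inf.mp hg
    obtain ⟨g3, g4⟩ := Subgroup.mem_inf.mp hg
    rw [mem_fixingSubgroup_iff] at g4
    rw [Subgroup.mem_bot]
    apply Subtype.ext
    ext y
    by_cases hy : y ∈ S
    · rcases hy with (hy | hy) | hy
      · have := fix_orbit hA.comm g.2 (x := x₁) g1 hy
        rw [this]; rfl
      · have := fix_orbit hA.comm g.2 (x := x₂) g2 hy
        rw [this]; rfl
      · have := fix_orbit hA.comm g.2 (x := x₃) g3 hy
        rw [this]; rfl
    · exact g4 y hy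
  have h2 : Nat.card A ≤ 4 * (4 * (4 * h Sᶜ.ncard)) := by
    rw [← Subgroup.index_bot, ← hbot]
    refine Subgroup.index_inf_le.trans (Nat.mul_le_mul ?_ (Subgroup.index_inf_le.trans (Nat.mul_le_mul ?_
      (Subgroup.index_inf_le.trans (Nat.mul_le_mul ?_ h1)))))
    · rw [index_stabilizer, h₁]
    · rw [index_stabilizer, h₂]
    · rw [index_stabilizer, h₃]
  rw [hA.card, ← hsum] at h2
  have h3 := h_mul_le 12 Sᶜ.ncard
  have h4 : h 12 = 81 := by decide
  have h5 := h_pos Sᶜ.ncard
  rw [h4] at h3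
  omega

lemma card_four_le (hA : IsMax A) (hn : 3 ≤ Fintype.card X) : Nat.card {ω // size A ω = 4} ≤ 2 := by
  classical
  have : Fintype (orbitRel.Quotient A X) := Fintype.ofFinite _
  by_contra hcon
  push Not at hcon
  rw [Nat.card_eq_fintype_card, Fintype.two_lt_card_iff] at hcon
  obtain ⟨⟨ω₁, h1⟩, ⟨ω₂, h2⟩, ⟨ω₃, h3⟩, h12, h13, h23⟩ := hcon
  obtain ⟨x₁, rfl⟩ := orb_surjective A ω₁
  obtain ⟨x₂, rfl⟩ := orb_surjective A ω₂
  obtain ⟨x₃, rfl⟩ := orb_surjective A ω₃
  rw [size_orb] at h1 h2 h3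
  exact not_three hA hn x₁ x₂ x₃ h1 h2 h3 (fun h => h12 (Subtype.ext h)) (fun h => h13 (Subtype.ext h))
    (fun h => h23 (Subtype.ext h))

lemma counts_eq {B : Subgroup (Perm X)} (hA : IsMax A) (hB : IsMax B) (hn : 3 ≤ Fintype.card X)
    (hn5 : Fintype.card X ≠ 5) (c : ℕ) : Nat.card {ω // size A ω = c} = Nat.card {ω // size B ω = c} := by
  have h1 := card_eq_sum hA hn hn5
  have h2 := card_eq_sum hB hn hn5
  have h3 := card_four_le hA hn
  have h4 := card_four_le hB hn
  by_cases hc3 : c = 3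
  · subst hc3
    omega
  by_cases hc4 : c = 4
  · subst hc4
    omega
  have e1 : IsEmpty {ω // size A ω = c} := ⟨fun ⟨ω, hω⟩ => by
    rcases size_cases hA hn hn5 ω with h | h <;> omega⟩
  have e2 : IsEmpty {ω // size B ω = c} := ⟨fun ⟨ω, hω⟩ => by
    rcases size_cases hB hn hn5 ω with h | h <;> omega⟩
  rw [Nat.card_of_isEmpty, Nat.card_of_isEmpty]

/-- A permutation carrying orbits to orbits. -/
theorem exists_perm_orbits {B : Subgroup (Perm X)} (hA : IsMax A) (hB : IsMax B) (hn : 3 ≤ Fintype.card X)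
    (hn5 : Fintype.card X ≠ 5) :
    ∃ σ : Perm X, ∀ x x' : X, x' ∈ orbit A x ↔ σ x' ∈ orbit B (σ x) := by
  classical
  let τ : orbitRel.Quotient A X ≃ orbitRel.Quotient B X :=
    Equiv.ofFiberEquiv (f := size A) (g := size B)
      (fun c => (Finite.card_eq.mp (counts_eq hA hB hn hn5 c)).some)
  have hτ : ∀ ω, size B (τ ω) = size A ω := fun ω => Equiv.ofFiberEquiv_map _ ω
  have hcard : ∀ c, Nat.card {x // τ (orb A x) = c} = Nat.card {y // orb B y = c} := by
    intro c
    have e1 : Nat.card {x // τ (orb A x) = c} = size A (τ.symm c) := by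
      refine Nat.card_congr (Equiv.subtypeEquivRight (fun x => ?_))
      rw [Equiv.eq_symm_apply]
    rw [e1, ← hτ, Equiv.apply_symm_apply]
    rfl
  let σ : X ≃ X := Equiv.ofFiberEquiv (f := fun x => τ (orb A x)) (g := orb B)
      (fun c => (Finite.card_eq.mp (hcard c)).some)
  have hσ : ∀ x, orb B (σ x) = τ (orb A x) := fun x => Equiv.ofFiberEquiv_map _ x
  refine ⟨σ, fun x x' => ?_⟩
  rw [← orb_eq_iff, ← orb_eq_iff, hσ, hσ, τ.apply_eq_iff_eq]

/-- conjugates of maximal groups are maximal -/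
lemma IsMax.map (hA : IsMax A) (σ : Perm X) : IsMax (A.map (MulAut.conj σ).toMonoidHom) := by
  refine ⟨⟨⟨?_⟩⟩, ?_, ?_⟩
  · rintro ⟨_, ⟨x, hx, rfl⟩⟩ ⟨_, ⟨y, hy, rfl⟩⟩
    apply Subtype.ext
    show (MulAut.conj σ).toMonoidHom x * (MulAut.conj σ).toMonoidHom y = (MulAut.conj σ).toMonoidHom y * (MulAut.conj σ).toMonoidHom x
    rw [← map_mul, ← map_mul]
    congr 1
    exact congrArg Subtype.val (hA.comm.is_comm.comm ⟨x, hx⟩ ⟨y, hy⟩)
  · rintro _ ⟨x, hx, rfl⟩
    have := hA.even x hx
    simp only [MulEquiv.toMonoidHom_eq_coe, MonoidHom.coe_coe, MulAut.conj_apply]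
    rw [Perm.sign_mul, Perm.sign_mul, this, Perm.sign_inv]
    rw [mul_one]
    have h2 : Perm.sign σ * Perm.sign σ = 1 := by
      rcases Int.units_eq_one_or (Perm.sign σ) with h | h <;> simp [h]
    exact h2
  · rw [Subgroup.card_map_of_injective (MulEquiv.injective _)]
    exact hA.card

omit [DecidableEq X] [Fintype X] in
lemma mem_orbit_map {σ : Perm X} {y z : X} :
    z ∈ orbit (A.map (MulAut.conj σ).toMonoidHom) y ↔ σ⁻¹ z ∈ orbit A (σ⁻¹ y) := by
  rw [mem_orbit_iff', mem_orbit_iff']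
  constructor
  · rintro ⟨_, ⟨a, ha, rfl⟩, rfl⟩
    refine ⟨a, ha, ?_⟩
    show a (σ⁻¹ y) = σ⁻¹ ((σ * a * σ⁻¹) y)
    simp [Perm.mul_apply]
  · rintro ⟨a, ha, h⟩
    refine ⟨_, ⟨a, ha, rfl⟩, ?_⟩
    show (σ * a * σ⁻¹) y = z
    rw [Perm.mul_apply, Perm.mul_apply, h]
    simp

/-- The main theorem for `n ≥ 3`, `n ≠ 5`. -/
theorem exists_even_conj {B : Subgroup (Perm X)} (hA : IsMax A) (hB : IsMax B) (hn : 3 ≤ Fintype.card X)
    (hn5 : Fintype.card X ≠ 5) : ∃ σ : Perm X, Perm.sign σ = 1 ∧ A.map (MulAut.conj σ).toMonoidHom = B := by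
  obtain ⟨σ, hσ⟩ := exists_perm_orbits hA hB hn hn5
  have h1 : A.map (MulAut.conj σ).toMonoidHom = B := by
    refine eq_of_same_orbits (hA.map σ) hB hn hn5 fun y => ?_
    ext z
    rw [mem_orbit_map, hσ]
    simp
  rcases Int.units_eq_one_or (Perm.sign σ) with hs | hs
  · exact ⟨σ, hs, h1⟩
  · -- use a transposition inside an orbit
    have hne : Nonempty X := by
      rw [← Fintype.card_pos_iff]
      omega
    obtain ⟨x₀⟩ := hne
    have hsz : 3 ≤ (orbit B x₀).ncard := by
      rcases orbit_size hB hn hn5 x₀ with h | h <;> omega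
    obtain ⟨y, hy, hyne⟩ : ∃ y ∈ orbit B x₀, y ≠ x₀ := by
      by_contra hcon
      push Not at hcon
      have : orbit B x₀ ⊆ {x₀} := fun y hy => hcon y hy
      have h2 := Set.ncard_le_ncard this (Set.toFinite _)
      rw [Set.ncard_singleton] at h2
      omega
    let t : Perm X := swap x₀ y
    have hpres : ∀ u : X, t u ∈ orbit B u := by
      intro u
      by_cases h1 : u = x₀
      · subst h1
        simp only [t, swap_apply_left]
        exact hy
      by_cases h2 : u = y
      · subst h2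
        simp only [t, swap_apply_right]
        rw [orbit_eq_of_mem hy]
        exact mem_orbit_self _
      · simp only [t, swap_apply_of_ne_of_ne h1 h2]
        exact mem_orbit_self _
    have htB : B.map (MulAut.conj t).toMonoidHom = B := by
      refine eq_of_same_orbits (hB.map t) hB hn hn5 fun w => ?_
      ext z
      rw [mem_orbit_map]
      have ht : t⁻¹ = t := swap_inv _ _
      rw [ht]
      have e1 : orbit B (t w) = orbit B w := orbit_eq_of_mem (hpres w)
      have e2 : orbit B (t z) = orbit B z := orbit_eq_of_mem (hpres z)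
      rw [e1]
      constructor
      · intro h
        have h3 : orbit B (t z) = orbit B w := orbit_eq_of_mem h
        rw [e2] at h3
        rw [← h3]
        exact mem_orbit_self _
      · intro h
        have h3 : orbit B z = orbit B w := orbit_eq_of_mem h
        rw [← h3, ← e2]
        exact mem_orbit_self _
    refine ⟨t * σ, ?_, ?_⟩
    · rw [Perm.sign_mul, hs, Perm.sign_swap hyne.symm]
      rfl
    · have e : A.map (MulAut.conj (t * σ)).toMonoidHom = (A.map (MulAut.conj σ).toMonoidHom).map (MulAut.conj t).toMonoidHom := by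
        rw [Subgroup.map_map]
        congr 1
      rw [e, h1, htB]

end count

section final

lemma exists_card_eq (n : ℕ) : ∃ C : Subgroup (alternatingGroup (Fin n)), IsMulCommutative C ∧ Nat.card C = h n := by
  have hn : n % 3 = 0 ∨ n % 3 = 1 ∨ n % 3 = 2 := by omega
  rcases hn with hn | hn | hn
  · obtain ⟨k, rfl⟩ : ∃ k, n = 3 * k := ⟨n / 3, by omega⟩
    rw [h_three_mul]
    exact (isGreatest_alt_zero k).1
  · obtain ⟨k, rfl⟩ : ∃ k, n = 3 * k + 1 := ⟨n / 3, by omega⟩
    by_cases hk : k = 0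
    · subst hk
      exact ⟨⊥, inferInstance, by simp; rfl⟩
    · rw [h_three_mul_add_one _ (by omega)]
      exact (isGreatest_alt_one k (by omega)).1
  · obtain ⟨k, rfl⟩ : ∃ k, n = 3 * k + 2 := ⟨n / 3, by omega⟩
    by_cases hk : 2 ≤ k
    · rw [h_three_mul_add_two _ hk]
      exact (isGreatest_alt_two k hk).1
    · obtain rfl | rfl : k = 0 ∨ k = 1 := by omega
      · exact ⟨⊥, inferInstance, by simp; rfl⟩
      · show ∃ C : Subgroup (alternatingGroup (Fin 5)), IsMulCommutative C ∧ Nat.card C = 5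
        have hc5 : finRotate 5 ∈ alternatingGroup (Fin 5) := Perm.mem_alternatingGroup.mpr (by decide)
        let c : alternatingGroup (Fin 5) := ⟨finRotate 5, hc5⟩
        refine ⟨Subgroup.zpowers c, inferInstance, ?_⟩
        rw [Nat.card_zpowers]
        have h5 : c ^ 5 = 1 := Subtype.ext (by show (finRotate 5) ^ 5 = 1; decide)
        have hc : c ≠ 1 := fun h => absurd (congrArg Subtype.val h) (by show finRotate 5 ≠ 1; decide)
        have : Fact (Nat.Prime 5) := ⟨by norm_num⟩
        exact orderOf_eq_prime h5 hc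

lemma card_of_max {n : ℕ} (A : Subgroup (alternatingGroup (Fin n))) (hA : IsMulCommutative A)
    (hAmax : ∀ C : Subgroup (alternatingGroup (Fin n)), IsMulCommutative C → Nat.card C ≤ Nat.card A) :
    Nat.card A = h n := by
  obtain ⟨C, hC, hCc⟩ := exists_card_eq n
  have h1 := hAmax C hC
  have h2 := card_le_h_alt A hA
  omega

lemma isMax_of {n : ℕ} (A : Subgroup (alternatingGroup (Fin n))) (hA : IsMulCommutative A)
    (hc : Nat.card A = h n) : IsMax (A.map (alternatingGroup (Fin n)).subtype) := by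
  refine ⟨⟨⟨?_⟩⟩, ?_, ?_⟩
  · rintro ⟨_, ⟨x, hx, rfl⟩⟩ ⟨_, ⟨y, hy, rfl⟩⟩
    apply Subtype.ext
    have := hA.is_comm.comm ⟨x, hx⟩ ⟨y, hy⟩
    exact congrArg (fun z : A => ((z : alternatingGroup (Fin n)) : Perm (Fin n))) this
  · rintro _ ⟨x, -, rfl⟩
    exact x.2
  · rw [Subgroup.card_map_of_injective (Subgroup.subtype_injective _), hc, Fintype.card_fin]

end final

end aux

/-- In the alternating group of any degree, any two abelian subgroups of the largest possible order (among abelian subgroups) are conjugate. -/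
theorem result (n : ℕ)
    (A B : Subgroup (alternatingGroup (Fin n))) (hA : IsMulCommutative A) (hB : IsMulCommutative B)
    (hAmax : ∀ C : Subgroup (alternatingGroup (Fin n)), IsMulCommutative C → Nat.card C ≤ Nat.card A)
    (hBmax : ∀ C : Subgroup (alternatingGroup (Fin n)), IsMulCommutative C → Nat.card C ≤ Nat.card B) :
    ∃ g : alternatingGroup (Fin n), B = MulAut.conj g • A := by
  have hca := card_of_max A hA hAmax
  have hcb := card_of_max B hB hBmax
  by_cases hn2 : n ≤ 2
  · have h1 : Lib.PermAb.Max.h n = 1 := by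
      interval_cases n <;> rfl
    have hA1 : A = ⊥ := Subgroup.eq_bot_of_card_eq A (by rw [hca, h1])
    have hB1 : B = ⊥ := Subgroup.eq_bot_of_card_eq B (by rw [hcb, h1])
    refine ⟨1, ?_⟩
    rw [hA1, hB1]
    simp
  by_cases hn5 : n = 5
  · subst hn5
    have hG : Nat.card (alternatingGroup (Fin 5)) = 60 := by
      have := two_mul_nat_card_alternatingGroup (α := Fin 5)
      rw [Nat.card_perm, Nat.card_fin] at this
      have e : Nat.factorial 5 = 120 := rfl
      omega
    have h5 : Lib.PermAb.Max.h 5 = 5 := rfl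
    rw [h5] at hca hcb
    have : Fact (Nat.Prime 5) := ⟨by norm_num⟩
    have hf : (Nat.card (alternatingGroup (Fin 5))).factorization 5 = 1 := by
      rw [hG]
      have e : (60 : ℕ) = 5 ^ 1 * 12 := by norm_num
      rw [e, Nat.factorization_mul (by norm_num) (by norm_num), Nat.Prime.factorization_pow (by norm_num)]
      have : Nat.factorization 12 5 = 0 := Nat.factorization_eq_zero_of_not_dvd (by norm_num)
      simp [this]
    let P : Sylow 5 (alternatingGroup (Fin 5)) := Sylow.ofCard A (by rw [hca, hf]; rfl)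
    let Q : Sylow 5 (alternatingGroup (Fin 5)) := Sylow.ofCard B (by rw [hcb, hf]; rfl)
    obtain ⟨g, hg⟩ := MulAction.exists_smul_eq (alternatingGroup (Fin 5)) P Q
    refine ⟨g, ?_⟩
    have h1 : ((g • P : Sylow 5 _) : Subgroup (alternatingGroup (Fin 5))) = MulAut.conj g • A := by
      rw [Sylow.coe_subgroup_smul]
      rfl
    rw [← h1, hg]
    rfl
  · have hn3 : 3 ≤ Fintype.card (Fin n) := by
      rw [Fintype.card_fin]
      omega
    have hn5' : Fintype.card (Fin n) ≠ 5 := by
      rw [Fintype.card_fin]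
      exact hn5
    obtain ⟨σ, hσ, he⟩ := exists_even_conj (isMax_of A hA hca) (isMax_of B hB hcb) hn3 hn5'
    refine ⟨⟨σ, hσ⟩, ?_⟩
    ext y
    rw [Subgroup.mem_smul_pointwise_iff_exists]
    have hy : (y : Equiv.Perm (Fin n)) ∈ (B.map (alternatingGroup (Fin n)).subtype) ↔ y ∈ B := by
      constructor
      · rintro ⟨z, hz, hzy⟩
        have : z = y := Subtype.ext hzy
        rwa [← this]
      · intro hyB
        exact ⟨y, hyB, rfl⟩
    rw [← hy, ← he]
    constructor
    · rintro ⟨_, ⟨x, hx, rfl⟩, hxy⟩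
      refine ⟨x, hx, ?_⟩
      apply Subtype.ext
      exact hxy
    · rintro ⟨x, hx, rfl⟩
      exact ⟨x, ⟨x, hx, rfl⟩, rfl⟩

end Cfsg.Agent.S2506
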