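import Cfsg.Statements.S2507
import Cfsg.Agent.Lib.SLn.PSL2Class
-- import your own Cfsg.Agent.* helpers here

set_option autoImplicit false
open Cfsg

namespace Cfsg.Agent.S2507

section aux

open Matrix
open Cfsg.Agent.Lib.GL2.SL2 Cfsg.Agent.Lib.GL2.SL2Classes Cfsg.Agent.Lib.SLn.Basic Cfsg.Agent.Lib.SLn.SL2Gen
open Cfsg.Agent.Lib.SLn.SL2PSL Cfsg.Agent.Lib.SLn.OreSL2 Cfsg.Agent.Lib.SLn.PSL2Class
open Cfsg.Agent.Lib.Classical.QuadExt Cfsg.Agent.Lib.Classical.SL2Tori Cfsg.Agent.Lib.Classical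

lemma arith_q (q : ℕ) (hq : 1 ≤ q) : q * (q ^ 2 - 1) = q * (q + 1) * (q - 1) := by
  obtain ⟨k, rfl⟩ : ∃ k, q = k + 1 := ⟨q - 1, by omega⟩
  simp only [Nat.add_sub_cancel]
  have : (k + 1) ^ 2 - 1 = (k + 1 + 1) * k := by
    have : (k + 1) ^ 2 = (k + 1 + 1) * k + 1 := by ring
    omega
  rw [this]
  ring

lemma arith_q' (q : ℕ) (hq : 1 ≤ q) : q * (q ^ 2 - 1) = q * (q - 1) * (q + 1) := by
  rw [arith_q q hq]
  ring

end aux

/-- Let F be a finite field with q = 2^f ≥ 4 elements. The conjugacy class sizes of PSL(2,F) are exactly 1, q(q − 1), q² − 1 and q(q + 1). -/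
theorem result {F : Type*} [Field F] [Fintype F]
    (h2 : 2 ∣ Fintype.card F) (h4 : 4 ≤ Fintype.card F) :
    Set.range (fun g : (Matrix.ProjectiveSpecialLinearGroup (Fin 2) F) => (Subgroup.centralizer ({g} : Set (Matrix.ProjectiveSpecialLinearGroup (Fin 2) F))).index) =
      {1, Fintype.card F * (Fintype.card F - 1), Fintype.card F ^ 2 - 1, Fintype.card F * (Fintype.card F + 1)} := by
  have hq : 1 < Fintype.card F := Fintype.one_lt_card
  have h20 : (2 : F) = 0 := by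
    have h1 : ringChar F = 2 := FiniteField.even_card_iff_char_two.mpr (Nat.mod_eq_zero_of_dvd h2)
    have h3 : ((ringChar F : ℕ) : F) = 0 := CharP.cast_eq_zero F (ringChar F)
    rw [h1] at h3
    exact_mod_cast h3
  have hright : ∀ G : Lib.GL2.SL2.SL2 F, (Subgroup.centralizer ({Lib.SLn.Basic.toPSL G} : Set (Matrix.ProjectiveSpecialLinearGroup (Fin 2) F))).index *
      Nat.card (Subgroup.centralizer ({G} : Set (Lib.GL2.SL2.SL2 F))) = Fintype.card F * (Fintype.card F ^ 2 - 1) :=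
    fun G => Lib.SLn.PSL2Class.index_mul_card G (Or.inr h20)
  ext m
  constructor
  · rintro ⟨g, rfl⟩
    obtain ⟨G, rfl⟩ := Lib.SLn.Basic.toPSL_surjective g
    simp only
    by_cases hG : Lib.SLn.Basic.toPSL G = 1
    · rw [hG, Lib.SLn.PSL2Class.index_one]
      simp
    have hidx := hright G
    by_cases ht : (Lib.GL2.SL2Classes.tr G) ^ 2 = 4
    · rw [Lib.SLn.PSL2Class.card_C_of_sq G hG ht, Lib.GL2.SL2.card_sqrt_one_of_two_eq_zero h20, one_mul, mul_comm] at hidx
      right; right; left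
      exact Nat.eq_of_mul_eq_mul_left (by omega) hidx
    by_cases hr : ∃ r : F, r ^ 2 - Lib.GL2.SL2Classes.tr G * r + 1 = 0
    · obtain ⟨r, hr⟩ := hr
      rw [Lib.SLn.PSL2Class.card_C_of_root G ht hr, arith_q _ (by omega)] at hidx
      right; right; right
      exact Nat.eq_of_mul_eq_mul_right (by omega) hidx
    · push Not at hr
      rw [Lib.SLn.PSL2Class.card_C_of_no_root G hr, arith_q' _ (by omega)] at hidx
      right; left
      exact Nat.eq_of_mul_eq_mul_right (by omega) hidx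
  · rintro (rfl | rfl | rfl | rfl)
    · exact ⟨1, Lib.SLn.PSL2Class.index_one⟩
    · obtain ⟨a, ha⟩ := Lib.Classical.SL2Tori.exists_irred (F := F)
      haveI : Fact (∀ r : F, r ^ 2 ≠ a + 1 * r) := ⟨ha⟩
      obtain ⟨u, -, hu⟩ := Lib.SLn.SL2Gen.exists_gen a 1
      refine ⟨Lib.SLn.Basic.toPSL (Lib.Classical.SL2Tori.regHom a 1 u), ?_⟩
      have hidx := hright (Lib.Classical.SL2Tori.regHom a 1 u)
      rw [Lib.SLn.PSL2Class.card_C_reg u hu, arith_q' _ (by omega)] at hidx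
      exact Nat.eq_of_mul_eq_mul_right (by omega) hidx
    · refine ⟨Lib.SLn.Basic.toPSL (Lib.GL2.SL2.uu 1), ?_⟩
      have hne : Lib.SLn.Basic.toPSL (Lib.GL2.SL2.uu (1 : F)) ≠ 1 := by
        rw [Ne, Lib.SLn.Basic.toPSL_eq_one_iff]
        rintro ⟨c, hc⟩
        have h1 := congrFun (congrFun hc 0) 1
        simp [Lib.GL2.SL2.uu, Matrix.scalar_apply] at h1
      have hidx := hright (Lib.GL2.SL2.uu 1)
      rw [Lib.SLn.PSL2Class.card_C_of_sq _ hne (by simp [Lib.GL2.SL2Classes.tr, Lib.GL2.SL2.uu]; norm_num),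
        Lib.GL2.SL2.card_sqrt_one_of_two_eq_zero h20, one_mul, mul_comm] at hidx
      exact Nat.eq_of_mul_eq_mul_left (by omega) hidx
    · obtain ⟨x, hx⟩ := IsCyclic.exists_ofOrder_eq_natCard (α := Fˣ)
      rw [Lib.Classical.SLBasic.card_units_eq] at hx
      refine ⟨Lib.SLn.Basic.toPSL (Lib.Classical.SL2Tori.diagHom x), ?_⟩
      have hx2 : (x : F) ^ 2 ≠ 1 := by
        intro h
        have h3 : x ^ 2 = 1 := Units.ext (by simpa using h)
        have h4 := Nat.le_of_dvd (by norm_num) (orderOf_dvd_of_pow_eq_one h3)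
        omega
      have hidx := hright (Lib.Classical.SL2Tori.diagHom x)
      rw [Lib.SLn.PSL2Class.card_C_diag x hx2, arith_q _ (by omega)] at hidx
      exact Nat.eq_of_mul_eq_mul_right (by omega) hidx

end Cfsg.Agent.S2507
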