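import Cfsg.Statements.S2508
import Cfsg.Agent.Lib.SLn.PSL2Class
-- import your own Cfsg.Agent.* helpers here

set_option autoImplicit false
open Cfsg

namespace Cfsg.Agent.S2508

section aux

open Matrix
open Cfsg.Agent.Lib.GL2.SL2 Cfsg.Agent.Lib.GL2.SL2Classes Cfsg.Agent.Lib.SLn.Basic Cfsg.Agent.Lib.SLn.SL2Gen
open Cfsg.Agent.Lib.SLn.SL2PSL Cfsg.Agent.Lib.SLn.OreSL2 Cfsg.Agent.Lib.SLn.PSL2Class
open Cfsg.Agent.Lib.Classical.QuadExt Cfsg.Agent.Lib.Classical.SL2Tori Cfsg.Agent.Lib.Classical

lemma arith_q (q : ℕ) (hq : 1 ≤ q) : q * (q ^ 2 - 1) = q * (q + 1) * (q - 1) := by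
  obtain ⟨k, rfl⟩ : ∃ k, q = k + 1 := ⟨q - 1, by omega⟩
  simp only [Nat.add_sub_cancel]
  have : (k + 1) ^ 2 - 1 = (k + 1 + 1) * k := by
    have : (k + 1) ^ 2 = (k + 1 + 1) * k + 1 := by ring
    omega
  rw [this]
  ring

lemma arith_q' (q : ℕ) (hq : 1 ≤ q) : q * (q ^ 2 - 1) = q * (q - 1) * (q + 1) := by
  rw [arith_q q hq]
  ring

variable {F : Type*} [Field F] [Fintype F]

lemma two_ne_of_odd (hodd : ¬ 2 ∣ Fintype.card F) : (2 : F) ≠ 0 := by
  intro h
  have h1 : ((2 : ℕ) : F) = 0 := by exact_mod_cast h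
  have h3 := (CharP.cast_eq_zero_iff F (ringChar F) 2).mp h1
  have h4 : ringChar F = 2 := (Nat.prime_dvd_prime_iff_eq (CharP.char_is_prime F (ringChar F)) Nat.prime_two).mp h3
  exact hodd (Nat.dvd_of_mod_eq_zero (FiniteField.even_card_iff_char_two.mp h4))

lemma val_sq (G : SL2 F) (h2 : (2 : F) ≠ 0) (hG : toPSL G ≠ 1) (ht : (tr G) ^ 2 = 4) :
    2 * (Subgroup.centralizer ({toPSL G} : Set (Matrix.ProjectiveSpecialLinearGroup (Fin 2) F))).index = Fintype.card F ^ 2 - 1 := by
  have ht0 : tr G ≠ 0 := by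
    intro h
    rw [h] at ht
    apply h2
    have : (2 : F) * 2 = 0 := by linear_combination -ht
    simpa using this
  have hidx := index_mul_card G (Or.inl ht0)
  rw [card_C_of_sq G hG ht, card_sqrt_one_of_two_ne_zero h2] at hidx
  have hq : 0 < Fintype.card F := Fintype.card_pos
  apply Nat.eq_of_mul_eq_mul_left hq
  rw [← hidx]
  ring

lemma val_root (G : SL2 F) (h0 : tr G ≠ 0) (ht : (tr G) ^ 2 ≠ 4) {r : F} (hr : r ^ 2 - tr G * r + 1 = 0)
    (hq : 1 < Fintype.card F - 1) :
    (Subgroup.centralizer ({toPSL G} : Set (Matrix.ProjectiveSpecialLinearGroup (Fin 2) F))).index =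
      Fintype.card F * (Fintype.card F + 1) := by
  have hidx := index_mul_card G (Or.inl h0)
  rw [card_C_of_root G ht hr, arith_q _ (by omega)] at hidx
  exact Nat.eq_of_mul_eq_mul_right (by omega) hidx

lemma val_no_root (G : SL2 F) (h0 : tr G ≠ 0) (hr : ∀ r : F, r ^ 2 - tr G * r + 1 ≠ 0) :
    (Subgroup.centralizer ({toPSL G} : Set (Matrix.ProjectiveSpecialLinearGroup (Fin 2) F))).index =
      Fintype.card F * (Fintype.card F - 1) := by
  have hq : 0 < Fintype.card F := Fintype.card_pos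
  have hidx := index_mul_card G (Or.inl h0)
  rw [card_C_of_no_root G hr, arith_q' _ (by omega)] at hidx
  exact Nat.eq_of_mul_eq_mul_right (by omega) hidx

lemma val_zero_root (G : SL2 F) (h2 : (2 : F) ≠ 0) (h0 : tr G = 0) {r : F} (hr : r ^ 2 - tr G * r + 1 = 0)
    (hq : 1 < Fintype.card F - 1) :
    2 * (Subgroup.centralizer ({toPSL G} : Set (Matrix.ProjectiveSpecialLinearGroup (Fin 2) F))).index =
      Fintype.card F * (Fintype.card F + 1) := by
  have ht : (tr G) ^ 2 ≠ 4 := by
    rw [h0]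
    intro h
    apply h2
    have : (2 : F) * 2 = 0 := by linear_combination -h
    simpa using this
  have hidx := two_index_mul_card G h0 h2
  rw [card_C_of_root G ht hr, arith_q _ (by omega)] at hidx
  exact Nat.eq_of_mul_eq_mul_right (by omega) hidx

lemma val_zero_no_root (G : SL2 F) (h2 : (2 : F) ≠ 0) (h0 : tr G = 0) (hr : ∀ r : F, r ^ 2 - tr G * r + 1 ≠ 0) :
    2 * (Subgroup.centralizer ({toPSL G} : Set (Matrix.ProjectiveSpecialLinearGroup (Fin 2) F))).index =
      Fintype.card F * (Fintype.card F - 1) := by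
  have hq : 0 < Fintype.card F := Fintype.card_pos
  have hidx := two_index_mul_card G h0 h2
  rw [card_C_of_no_root G hr, arith_q' _ (by omega)] at hidx
  exact Nat.eq_of_mul_eq_mul_right (by omega) hidx

/-- trace zero implies fourth power one -/
lemma pow_four_of_tr (G : SL2 F) (h0 : tr G = 0) : G ^ 4 = 1 := by
  have h1 := sq_eq_tr G
  rw [h0, zero_smul, zero_sub] at h1
  apply Subtype.ext
  rw [Matrix.SpecialLinearGroup.coe_pow, show 4 = 2 + 2 by norm_num, pow_add, pow_two, h1]
  simp

/-- the element of the split torus -/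
lemma val_diag (h2 : (2 : F) ≠ 0) (hq : 4 < Fintype.card F - 1) :
    ∃ g : Matrix.ProjectiveSpecialLinearGroup (Fin 2) F,
      (Subgroup.centralizer ({g} : Set (Matrix.ProjectiveSpecialLinearGroup (Fin 2) F))).index =
        Fintype.card F * (Fintype.card F + 1) := by
  obtain ⟨x, hx⟩ := IsCyclic.exists_ofOrder_eq_natCard (α := Fˣ)
  rw [Lib.Classical.SLBasic.card_units_eq] at hx
  refine ⟨toPSL (diagHom x), ?_⟩
  have hx2 : (x : F) ^ 2 ≠ 1 := by
    intro h
    have h3 : x ^ 2 = 1 := Units.ext (by simpa using h)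
    have h4 := Nat.le_of_dvd (by norm_num) (orderOf_dvd_of_pow_eq_one h3)
    omega
  have h0 : tr (diagHom x : SL2 F) ≠ 0 := by
    intro h
    have h3 := pow_four_of_tr _ h
    rw [← map_pow] at h3
    have h5 : x ^ 4 = 1 := by
      have h6 : (diagHom (x ^ 4) : SL2 F) = diagHom 1 := by rw [h3, map_one]
      have h7 := congrFun (congrFun (congrArg Subtype.val h6) 0) 0
      have e : ∀ y : Fˣ, ((diagHom y : SL2 F) : Matrix (Fin 2) (Fin 2) F) = !![(y : F), 0; 0, ((y⁻¹ : Fˣ) : F)] := fun _ => rfl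
      rw [e, e] at h7
      exact Units.ext (by simpa using h7)
    have h4 := Nat.le_of_dvd (by norm_num) (orderOf_dvd_of_pow_eq_one h5)
    omega
  have hidx := index_mul_card (diagHom x : SL2 F) (Or.inl h0)
  rw [card_C_diag x hx2, arith_q _ (by omega)] at hidx
  exact Nat.eq_of_mul_eq_mul_right (by omega) hidx

/-- the element of the non-split torus -/
lemma val_reg (h2 : (2 : F) ≠ 0) (hq : 4 < Fintype.card F + 1) :
    ∃ g : Matrix.ProjectiveSpecialLinearGroup (Fin 2) F,
      (Subgroup.centralizer ({g} : Set (Matrix.ProjectiveSpecialLinearGroup (Fin 2) F))).index =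
        Fintype.card F * (Fintype.card F - 1) := by
  obtain ⟨a, ha⟩ := exists_irred (F := F)
  haveI : Fact (∀ r : F, r ^ 2 ≠ a + 1 * r) := ⟨ha⟩
  obtain ⟨u, hu1, hu⟩ := exists_gen a 1
  refine ⟨toPSL (regHom a 1 u), ?_⟩
  have h0 : tr (regHom a 1 u : SL2 F) ≠ 0 := by
    intro h
    have h3 := pow_four_of_tr _ h
    rw [← map_pow] at h3
    have h5 : u ^ 4 = 1 := by
      apply regHom_inj (a := a) (b := 1)
      rw [h3, map_one]
    have h4 := Nat.le_of_dvd (by norm_num) (orderOf_dvd_of_pow_eq_one h5)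
    omega
  have hidx := index_mul_card (regHom a 1 u : SL2 F) (Or.inl h0)
  rw [card_C_reg u hu, arith_q' _ (by omega)] at hidx
  exact Nat.eq_of_mul_eq_mul_right (by omega) hidx

lemma toPSL_uu_ne : toPSL (uu (1 : F)) ≠ 1 := by
  rw [Ne, toPSL_eq_one_iff]
  rintro ⟨c, hc⟩
  have h1 := congrFun (congrFun hc 0) 1
  simp [uu, Matrix.scalar_apply] at h1

lemma tr_uu : (tr (uu (1 : F))) ^ 2 = 4 := by
  simp [tr, uu]
  norm_num

lemma tr_comp : tr (Lib.GL2.SL2.comp (0 : F)) = 0 := by
  simp [tr, Lib.GL2.SL2.comp]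

end aux

/-- Let F be a finite field with q elements, q odd and q ≥ 7. If q ≡ 1 (mod 4) the conjugacy class sizes of PSL(2,F) are exactly 1, (q² − 1)/2, q(q + 1)/2, q(q − 1) and q(q + 1); if q ≡ 3 (mod 4) they are exactly 1, (q² − 1)/2, q(q − 1)/2, q(q + 1) and q(q − 1). -/
theorem result {F : Type*} [Field F] [Fintype F]
    (hodd : ¬ 2 ∣ Fintype.card F) (h7 : 7 ≤ Fintype.card F) :
    (Fintype.card F % 4 = 1 →
      Set.range (fun g : (Matrix.ProjectiveSpecialLinearGroup (Fin 2) F) => (Subgroup.centralizer ({g} : Set (Matrix.ProjectiveSpecialLinearGroup (Fin 2) F))).index) =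
        {1, (Fintype.card F ^ 2 - 1) / 2, Fintype.card F * (Fintype.card F + 1) / 2,
          Fintype.card F * (Fintype.card F - 1), Fintype.card F * (Fintype.card F + 1)}) ∧
    (Fintype.card F % 4 = 3 →
      Set.range (fun g : (Matrix.ProjectiveSpecialLinearGroup (Fin 2) F) => (Subgroup.centralizer ({g} : Set (Matrix.ProjectiveSpecialLinearGroup (Fin 2) F))).index) =
        {1, (Fintype.card F ^ 2 - 1) / 2, Fintype.card F * (Fintype.card F - 1) / 2,
          Fintype.card F * (Fintype.card F + 1), Fintype.card F * (Fintype.card F - 1)}) := by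
  have h20 := two_ne_of_odd hodd
  have hmain : ∀ G : Lib.GL2.SL2.SL2 F, Lib.SLn.Basic.toPSL G ≠ 1 →
      (2 * (Subgroup.centralizer ({Lib.SLn.Basic.toPSL G} : Set (Matrix.ProjectiveSpecialLinearGroup (Fin 2) F))).index = Fintype.card F ^ 2 - 1) ∨
      ((Subgroup.centralizer ({Lib.SLn.Basic.toPSL G} : Set (Matrix.ProjectiveSpecialLinearGroup (Fin 2) F))).index = Fintype.card F * (Fintype.card F + 1)) ∨
      ((Subgroup.centralizer ({Lib.SLn.Basic.toPSL G} : Set (Matrix.ProjectiveSpecialLinearGroup (Fin 2) F))).index = Fintype.card F * (Fintype.card F - 1)) ∨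
      (Lib.GL2.SL2Classes.tr G = 0 ∧ (2 * (Subgroup.centralizer ({Lib.SLn.Basic.toPSL G} : Set (Matrix.ProjectiveSpecialLinearGroup (Fin 2) F))).index = Fintype.card F * (Fintype.card F + 1) ∨
          2 * (Subgroup.centralizer ({Lib.SLn.Basic.toPSL G} : Set (Matrix.ProjectiveSpecialLinearGroup (Fin 2) F))).index = Fintype.card F * (Fintype.card F - 1))) := by
    intro G hG
    by_cases ht : (Lib.GL2.SL2Classes.tr G) ^ 2 = 4
    · exact Or.inl (val_sq G h20 hG ht)
    by_cases h0 : Lib.GL2.SL2Classes.tr G = 0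
    · right; right; right
      refine ⟨h0, ?_⟩
      by_cases hr : ∃ r : F, r ^ 2 - Lib.GL2.SL2Classes.tr G * r + 1 = 0
      · obtain ⟨r, hr⟩ := hr
        exact Or.inl (val_zero_root G h20 h0 hr (by omega))
      · push Not at hr
        exact Or.inr (val_zero_no_root G h20 h0 hr)
    · by_cases hr : ∃ r : F, r ^ 2 - Lib.GL2.SL2Classes.tr G * r + 1 = 0
      · obtain ⟨r, hr⟩ := hr
        exact Or.inr (Or.inl (val_root G h0 ht hr (by omega)))
      · push Not at hr
        exact Or.inr (Or.inr (Or.inl (val_no_root G h0 hr)))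
  have hg1 : ∃ g : Matrix.ProjectiveSpecialLinearGroup (Fin 2) F,
      2 * (Subgroup.centralizer ({g} : Set (Matrix.ProjectiveSpecialLinearGroup (Fin 2) F))).index = Fintype.card F ^ 2 - 1 :=
    ⟨Lib.SLn.Basic.toPSL (Lib.GL2.SL2.uu 1), val_sq _ h20 toPSL_uu_ne tr_uu⟩
  constructor
  · intro h4
    have hroot : (0 : F) ^ 2 + 1 = 0 ∨ True := Or.inr trivial
    obtain ⟨i, hi⟩ : IsSquare (-1 : F) := FiniteField.isSquare_neg_one_iff.mpr (by omega)
    have hroot : ∀ G : Lib.GL2.SL2.SL2 F, Lib.GL2.SL2Classes.tr G = 0 → i ^ 2 - Lib.GL2.SL2Classes.tr G * i + 1 = 0 := by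
      intro G hG
      rw [hG]
      linear_combination -hi
    ext m
    constructor
    · rintro ⟨g, rfl⟩
      obtain ⟨G, rfl⟩ := Lib.SLn.Basic.toPSL_surjective g
      simp only
      by_cases hG : Lib.SLn.Basic.toPSL G = 1
      · rw [hG, Lib.SLn.PSL2Class.index_one]
        simp
      rcases hmain G hG with h | h | h | ⟨h0, h | h⟩
      · right; left; omega
      · right; right; right; right; exact h
      · right; right; right; left; exact h
      · right; right; left; omega
      · exfalso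
        have h' := val_zero_root G h20 h0 (hroot G h0) (by omega)
        rw [h] at h'
        have h1 : Fintype.card F * (Fintype.card F - 1) < Fintype.card F * (Fintype.card F + 1) :=
          Nat.mul_lt_mul_of_pos_left (by omega) (by omega)
        omega
    · rintro (rfl | rfl | rfl | rfl | rfl)
      · exact ⟨1, Lib.SLn.PSL2Class.index_one⟩
      · obtain ⟨g, hg⟩ := hg1
        exact ⟨g, by simp only; omega⟩
      · refine ⟨Lib.SLn.Basic.toPSL (Lib.GL2.SL2.comp 0), ?_⟩
        have h' := val_zero_root _ h20 tr_comp (hroot _ tr_comp) (by omega)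
        simp only
        omega
      · exact val_reg h20 (by omega)
      · exact val_diag h20 (by omega)
  · intro h4
    have hnr : ∀ G : Lib.GL2.SL2.SL2 F, Lib.GL2.SL2Classes.tr G = 0 → ∀ r : F, r ^ 2 - Lib.GL2.SL2Classes.tr G * r + 1 ≠ 0 := by
      intro G hG r hr
      rw [hG] at hr
      have : IsSquare (-1 : F) := ⟨r, by linear_combination -hr⟩
      exact (FiniteField.isSquare_neg_one_iff.mp this) h4
    ext m
    constructor
    · rintro ⟨g, rfl⟩
      obtain ⟨G, rfl⟩ := Lib.SLn.Basic.toPSL_surjective g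
      simp only
      by_cases hG : Lib.SLn.Basic.toPSL G = 1
      · rw [hG, Lib.SLn.PSL2Class.index_one]
        simp
      rcases hmain G hG with h | h | h | ⟨h0, h | h⟩
      · right; left; omega
      · right; right; right; left; exact h
      · right; right; right; right; exact h
      · exfalso
        have h' := val_zero_no_root G h20 h0 (hnr G h0)
        rw [h] at h'
        have h1 : Fintype.card F * (Fintype.card F - 1) < Fintype.card F * (Fintype.card F + 1) :=
          Nat.mul_lt_mul_of_pos_left (by omega) (by omega)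
        omega
      · right; right; left; omega
    · rintro (rfl | rfl | rfl | rfl | rfl)
      · exact ⟨1, Lib.SLn.PSL2Class.index_one⟩
      · obtain ⟨g, hg⟩ := hg1
        exact ⟨g, by simp only; omega⟩
      · refine ⟨Lib.SLn.Basic.toPSL (Lib.GL2.SL2.comp 0), ?_⟩
        have h' := val_zero_no_root _ h20 tr_comp (hnr _ tr_comp)
        simp only
        omega
      · exact val_diag h20 (by omega)
      · exact val_reg h20 (by omega)

end Cfsg.Agent.S2508
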