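import Cfsg.Statements.S2510
import Cfsg.Agent.Lib.SLn.Spec

set_option autoImplicit false
open Cfsg

namespace Cfsg.Agent.S2510

section aux

open Lib.SLn.Spec

lemma nat_eq_of_dvd_iff {a b : ℕ} (h : ∀ k, a ∣ k ↔ b ∣ k) : a = b :=
  Nat.dvd_antisymm ((h b).mpr dvd_rfl) ((h a).mp dvd_rfl)

lemma coprime_mul_dvd_iff {a b k : ℕ} (h : Nat.Coprime a b) : a * b ∣ k ↔ a ∣ k ∧ b ∣ k :=
  ⟨fun h1 => ⟨(Dvd.intro _ rfl).trans h1, (Dvd.intro_left _ rfl).trans h1⟩,
    fun h1 => h.mul_dvd_of_dvd_of_dvd h1.1 h1.2⟩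

section groups

variable {G : Type*} [Group G] [Finite G]

lemma exists_of_dvd (g : G) {m : ℕ} (h : m ∣ orderOf g) : ∃ y : G, orderOf y = m :=
  ⟨g ^ (orderOf g / m), orderOf_pow_orderOf_div (orderOf_pos g).ne' h⟩

lemma exists_lcm_ppow {p u v : ℕ} {y₁ y₂ : G} (h₁ : orderOf y₁ = p ^ u) (h₂ : orderOf y₂ = p ^ v)
    (hp : 0 < p) : ∃ y : G, orderOf y = Nat.lcm (p ^ u) (p ^ v) := by
  rcases le_total u v with h | h
  · exact ⟨y₂, by rw [h₂, Nat.lcm_eq_right (pow_dvd_pow p h)]⟩
  · exact ⟨y₁, by rw [h₁, Nat.lcm_eq_left (pow_dvd_pow p h)]⟩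

end groups

variable {F : Type*} [Field F] [Fintype F] (p : ℕ) [Fact p.Prime] [CharP F p]

/-- each element either absorbs an element of order `r`, or has a restricted order -/
lemma element_cases {n r : ℕ} (hn : n ≠ 0) (hr : r.Prime) {l : F} (hl : orderOf l = r) (hrn : ¬ r ∣ n)
    (x : Matrix.ProjectiveSpecialLinearGroup (Fin n) F) (hrx : ¬ r ∣ orderOf x) :
    (∃ y : Matrix.ProjectiveSpecialLinearGroup (Fin n) F, orderOf y = orderOf x * r) ∨
    (∀ c, n ≤ p ^ c → orderOf x ∣ expoM (Fintype.card F) n * p ^ c) := by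
  obtain ⟨X, rfl⟩ := Lib.SLn.Basic.toPSL_surjective x
  rcases dichotomy hn X.1 with ⟨E, E', hc, hE, hE', hinv, hinv'⟩ | ⟨π, hπ, hm, e, he⟩
  · left
    obtain ⟨Z, hcomm, hZ⟩ := exists_commuting_of_decomp X hc hE hE' hinv hinv' hr hl hrn
    refine ⟨Lib.SLn.Basic.toPSL X * Lib.SLn.Basic.toPSL Z, ?_⟩
    rw [hcomm.orderOf_mul_eq_mul_orderOf_of_coprime (by
      rw [hZ]
      exact ((Nat.Prime.coprime_iff_not_dvd hr).mpr hrx).symm), hZ]
  · right
    intro c hc
    have hde : π.natDegree * e = n := by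
      have h1 : X.1.charpoly.natDegree = n := by simpa using Matrix.charpoly_natDegree_eq_dim X.1
      rw [he, hm.natDegree_pow] at h1
      rw [mul_comm]
      exact h1
    have he1 : e ≤ n := by
      have := hπ.natDegree_pos
      rw [← hde]
      exact Nat.le_mul_of_pos_left e this
    obtain ⟨w, hw⟩ := pow_scalar_of_charpoly p hn X.1 X.2 hπ hm he (he1.trans hc)
    apply orderOf_dvd_of_pow_eq_one
    rw [← map_pow, Lib.SLn.Basic.toPSL_eq_one_iff]
    refine ⟨w, ?_⟩
    rw [Matrix.SpecialLinearGroup.coe_pow]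
    exact hw

lemma coprime_expoM_char {n : ℕ} (hn : n ≠ 0) :
    Nat.Coprime p (expoM (Fintype.card F) n) := by
  have hp : p.Prime := Fact.out
  obtain ⟨f, hf, hq⟩ := Lib.SLn.PrimeGraph.card_eq (F := F) p
  have hq2 : 2 ≤ Fintype.card F := Fintype.one_lt_card
  rw [hp.coprime_iff_not_dvd]
  intro h
  have h1 : p ∣ ∑ i ∈ Finset.range n, Fintype.card F ^ i := by
    rw [← expoM_mul _ n (by omega)]
    exact h.trans (dvd_mul_left _ _)
  have h2 : p ∣ Fintype.card F ^ n - 1 := by
    rw [← sub_one_mul_geom _ n (by omega)]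
    exact h1.trans (dvd_mul_left _ _)
  have h3 : p ∣ Fintype.card F ^ n := by
    rw [hq]
    exact dvd_pow (dvd_pow_self p hf) hn
  have h4 : p ∣ Fintype.card F ^ n - (Fintype.card F ^ n - 1) := Nat.dvd_sub h3 h2
  have h5 : 1 ≤ Fintype.card F ^ n := Nat.one_le_pow _ _ (by omega)
  have h6 : Fintype.card F ^ n - (Fintype.card F ^ n - 1) = 1 := by omega
  rw [h6] at h4
  exact hp.one_lt.ne' (Nat.dvd_one.mp h4)

/-- the `p'`-part of the order of a restricted element divides `M` -/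
lemma ordCompl_dvd {G : Type*} [Group G] [Finite G] (x : G) {M : ℕ} {c : ℕ}
    (h : orderOf x ∣ M * p ^ c) : ordCompl[p] (orderOf x) ∣ M := by
  have hp : p.Prime := Fact.out
  have h0 : orderOf x ≠ 0 := (orderOf_pos x).ne'
  have h1 : ordCompl[p] (orderOf x) ∣ M * p ^ c := (Nat.ordCompl_dvd _ _).trans h
  have h2 : Nat.Coprime (ordCompl[p] (orderOf x)) (p ^ c) :=
    Nat.Coprime.pow_right _ (Nat.coprime_ordCompl hp h0).symm
  exact h2.dvd_of_dvd_mul_right h1

lemma ordProj_dvd_of {G : Type*} [Group G] [Finite G] (x : G) {M : ℕ} {c : ℕ} (hM : Nat.Coprime p M)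
    (h : orderOf x ∣ M * p ^ c) : ordProj[p] (orderOf x) ∣ p ^ c := by
  have h1 : ordProj[p] (orderOf x) ∣ M * p ^ c := (Nat.ordProj_dvd _ _).trans h
  have h2 : Nat.Coprime (ordProj[p] (orderOf x)) M := Nat.Coprime.pow_left _ hM
  exact h2.dvd_of_dvd_mul_left h1

lemma order_dvd_iff {G : Type*} [Group G] [Finite G] (x : G) (k : ℕ) :
    orderOf x ∣ k ↔ ordProj[p] (orderOf x) ∣ k ∧ ordCompl[p] (orderOf x) ∣ k := by
  have hp : p.Prime := Fact.out
  have h0 : orderOf x ≠ 0 := (orderOf_pos x).ne'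
  have h1 : Nat.Coprime (ordProj[p] (orderOf x)) (ordCompl[p] (orderOf x)) :=
    Nat.Coprime.pow_left _ (Nat.coprime_ordCompl hp h0)
  conv_lhs => rw [← Nat.ordProj_mul_ordCompl_eq_self (orderOf x) p]
  exact coprime_mul_dvd_iff h1

end aux

/-- Let F be a finite field with q = p^a elements, n ≥ 2 (with q ≥ 4 when n = 2), L = PSL(n, F), and let r be a prime dividing q − 1 and not dividing n. Then for every m the direct product L × L × L × (ℤ/r)^m has the same set of element orders as L × L × L; and if n − 1 ≠ p^j for every j ≥ 0 (so never when n = 2, since 1 = p^0), then already L × L × (ℤ/r)^m has the same set of element orders as L × L. -/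
theorem result {F : Type*} [Field F] [Fintype F] (p a n r m : ℕ) (hp : p.Prime) (ha : 1 ≤ a) (hF : Fintype.card F = p ^ a)
    (hn : 2 ≤ n) (hn2 : n = 2 → 4 ≤ Fintype.card F) (hr : r.Prime) (hrq : r ∣ Fintype.card F - 1) (hrn : ¬ r ∣ n) :
    Set.range (orderOf : Matrix.ProjectiveSpecialLinearGroup (Fin n) F × Matrix.ProjectiveSpecialLinearGroup (Fin n) F × Matrix.ProjectiveSpecialLinearGroup (Fin n) F × Multiplicative (Fin m → ZMod r) → ℕ) =
      Set.range (orderOf : Matrix.ProjectiveSpecialLinearGroup (Fin n) F × Matrix.ProjectiveSpecialLinearGroup (Fin n) F × Matrix.ProjectiveSpecialLinearGroup (Fin n) F → ℕ) ∧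
    ((¬ ∃ j : ℕ, n - 1 = p ^ j) →
      Set.range (orderOf : Matrix.ProjectiveSpecialLinearGroup (Fin n) F × Matrix.ProjectiveSpecialLinearGroup (Fin n) F × Multiplicative (Fin m → ZMod r) → ℕ) =
        Set.range (orderOf : Matrix.ProjectiveSpecialLinearGroup (Fin n) F × Matrix.ProjectiveSpecialLinearGroup (Fin n) F → ℕ)) := by
  classical
  have hfp : Fact p.Prime := ⟨hp⟩
  have hfr : Fact r.Prime := ⟨hr⟩
  have hchar : CharP F p := by
    obtain ⟨c, hc⟩ := CharP.exists F
    have hcp : c.Prime := by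
      rcases CharP.char_is_prime_or_zero F c with h | h
      · exact h
      · subst h
        have := CharP.charP_to_charZero F
        exact absurd (inferInstance : Finite F) (by
          intro _
          exact not_finite F)
    obtain ⟨f, -, hf⟩ := FiniteField.card F c
    have h1 : c ∣ p ^ a := by
      rw [← hF, hf]
      exact dvd_pow_self c f.ne_zero
    have h2 : c = p := (Nat.prime_dvd_prime_iff_eq hcp hp).mp (hcp.dvd_of_dvd_pow h1)
    rwa [h2] at hc
  have hq2 : 2 ≤ Fintype.card F := Fintype.one_lt_card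
  have hrp : r ≠ p := by
    rintro rfl
    exact (hr.coprime_iff_not_dvd.mp (Lib.SLn.PrimeGraph.coprime_char (F := F) r)) hrq
  have hn0 : n ≠ 0 := by omega
  obtain ⟨l, hl0, hl⟩ := Lib.SLn.PrimeGraph.exists_order (K := F) (d := r)
    (by rwa [Nat.card_eq_fintype_card])
  obtain ⟨g₀, hg₀⟩ := Lib.SLn.Spec.exists_order_expoM (F := F) p hn0
  obtain ⟨g₁, hg₁⟩ := Lib.SLn.Spec.exists_order_rp (F := F) p hn hr hrp hrq hrn
  -- an element of order `r`
  obtain ⟨gr, hgr⟩ := exists_of_dvd g₁ (m := r) (by rw [hg₁]; exact dvd_mul_right _ _)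
  set M := Lib.SLn.Spec.expoM (Fintype.card F) n with hM
  have hvord : ∀ v : Multiplicative (Fin m → ZMod r), orderOf v = 1 ∨ orderOf v = r := by
    intro v
    have h1 : v ^ r = 1 := by
      apply Multiplicative.toAdd.injective
      ext i
      simp [toAdd_pow]
    exact (Nat.dvd_prime hr).mp (orderOf_dvd_of_pow_eq_one h1)
  have hpp := hp.pos
  have hcn : n ≤ p ^ n := (Nat.lt_pow_self hp.one_lt).le
  refine ⟨?_, ?_⟩
  · -- three factors
    ext N
    constructor
    · rintro ⟨⟨x₁, x₂, x₃, v⟩, rfl⟩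
      have hform : ∀ k, orderOf (x₁, x₂, x₃, v) ∣ k ↔
          orderOf x₁ ∣ k ∧ orderOf x₂ ∣ k ∧ orderOf x₃ ∣ k ∧ orderOf v ∣ k := by
        intro k
        simp only [Prod.orderOf, Nat.lcm_dvd_iff]
      rcases hvord v with hv | hv
      · refine ⟨(x₁, x₂, x₃), nat_eq_of_dvd_iff fun k => ?_⟩
        rw [hform, hv]
        simp only [Prod.orderOf, Nat.lcm_dvd_iff, one_dvd, and_true]
      · rw [hv] at hform
        by_cases h1 : r ∣ orderOf x₁
        · refine ⟨(x₁, x₂, x₃), nat_eq_of_dvd_iff fun k => ?_⟩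
          rw [hform]
          simp only [Prod.orderOf, Nat.lcm_dvd_iff]
          constructor
          · rintro ⟨a, b, c⟩
            exact ⟨a, b, c, h1.trans a⟩
          · rintro ⟨a, b, c, -⟩
            exact ⟨a, b, c⟩
        by_cases h2 : r ∣ orderOf x₂
        · refine ⟨(x₁, x₂, x₃), nat_eq_of_dvd_iff fun k => ?_⟩
          rw [hform]
          simp only [Prod.orderOf, Nat.lcm_dvd_iff]
          constructor
          · rintro ⟨a, b, c⟩
            exact ⟨a, b, c, h2.trans b⟩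
          · rintro ⟨a, b, c, -⟩
            exact ⟨a, b, c⟩
        by_cases h3 : r ∣ orderOf x₃
        · refine ⟨(x₁, x₂, x₃), nat_eq_of_dvd_iff fun k => ?_⟩
          rw [hform]
          simp only [Prod.orderOf, Nat.lcm_dvd_iff]
          constructor
          · rintro ⟨a, b, c⟩
            exact ⟨a, b, c, h3.trans c⟩
          · rintro ⟨a, b, c, -⟩
            exact ⟨a, b, c⟩
        have hcop : ∀ x : Matrix.ProjectiveSpecialLinearGroup (Fin n) F, ¬ r ∣ orderOf x →
            Nat.Coprime (orderOf x) r := fun x hx =>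
          ((Nat.Prime.coprime_iff_not_dvd hr).mpr hx).symm
        rcases element_cases p hn0 hr hl hrn x₁ h1 with ⟨y, hy⟩ | hP₁
        · refine ⟨(y, x₂, x₃), nat_eq_of_dvd_iff fun k => ?_⟩
          rw [hform]
          simp only [Prod.orderOf, Nat.lcm_dvd_iff]
          rw [hy, coprime_mul_dvd_iff (hcop x₁ h1)]
          tauto
        rcases element_cases p hn0 hr hl hrn x₂ h2 with ⟨y, hy⟩ | hP₂
        · refine ⟨(x₁, y, x₃), nat_eq_of_dvd_iff fun k => ?_⟩
          rw [hform]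
          simp only [Prod.orderOf, Nat.lcm_dvd_iff]
          rw [hy, coprime_mul_dvd_iff (hcop x₂ h2)]
          tauto
        rcases element_cases p hn0 hr hl hrn x₃ h3 with ⟨y, hy⟩ | hP₃
        · refine ⟨(x₁, x₂, y), nat_eq_of_dvd_iff fun k => ?_⟩
          rw [hform]
          simp only [Prod.orderOf, Nat.lcm_dvd_iff]
          rw [hy, coprime_mul_dvd_iff (hcop x₃ h3)]
        -- all three are restricted
        have ha₁ := ordCompl_dvd p x₁ (hP₁ n hcn)
        have ha₂ := ordCompl_dvd p x₂ (hP₂ n hcn)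
        have ha₃ := ordCompl_dvd p x₃ (hP₃ n hcn)
        set A := Nat.lcm (ordCompl[p] (orderOf x₁)) (Nat.lcm (ordCompl[p] (orderOf x₂)) (ordCompl[p] (orderOf x₃))) with hA
        have hAM : A ∣ M := Nat.lcm_dvd ha₁ (Nat.lcm_dvd ha₂ ha₃)
        obtain ⟨y₁, hy₁⟩ := exists_of_dvd g₀ (m := A) (by rw [hg₀]; exact hAM)
        have hpart : ∀ x : Matrix.ProjectiveSpecialLinearGroup (Fin n) F,
            ∃ y : Matrix.ProjectiveSpecialLinearGroup (Fin n) F, orderOf y = ordProj[p] (orderOf x) :=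
          fun x => exists_of_dvd x (Nat.ordProj_dvd _ _)
        obtain ⟨w₁, hw₁⟩ := hpart x₁
        obtain ⟨w₂, hw₂⟩ := hpart x₂
        obtain ⟨w₃, hw₃⟩ := hpart x₃
        obtain ⟨y₂, hy₂⟩ := exists_lcm_ppow hw₂ hw₃ hpp
        obtain ⟨y₂', hy₂'⟩ : ∃ y : Matrix.ProjectiveSpecialLinearGroup (Fin n) F,
            orderOf y = Nat.lcm (ordProj[p] (orderOf x₁))
              (Nat.lcm (ordProj[p] (orderOf x₂)) (ordProj[p] (orderOf x₃))) := by
          rcases le_total ((orderOf x₂).factorization p) ((orderOf x₃).factorization p) with h | h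
          · rw [Nat.lcm_eq_right (pow_dvd_pow p h)]
            exact exists_lcm_ppow hw₁ hw₃ hpp
          · rw [Nat.lcm_eq_left (pow_dvd_pow p h)]
            exact exists_lcm_ppow hw₁ hw₂ hpp
        refine ⟨(y₁, y₂', gr), nat_eq_of_dvd_iff fun k => ?_⟩
        rw [hform]
        simp only [Prod.orderOf, Nat.lcm_dvd_iff]
        rw [hy₁, hy₂', hgr, hA]
        simp only [Nat.lcm_dvd_iff]
        rw [order_dvd_iff p x₁, order_dvd_iff p x₂, order_dvd_iff p x₃]
        tauto
    · rintro ⟨⟨x₁, x₂, x₃⟩, rfl⟩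
      refine ⟨(x₁, x₂, x₃, 1), nat_eq_of_dvd_iff fun k => ?_⟩
      simp only [Prod.orderOf, Nat.lcm_dvd_iff, orderOf_one, one_dvd, and_true]
  · -- two factors
    intro hnp
    have hc' : n ≤ p ^ Nat.clog p (n - 1) := by
      have h1 := Nat.le_pow_clog hp.one_lt (n - 1)
      have h2 : n - 1 ≠ p ^ Nat.clog p (n - 1) := fun h => hnp ⟨_, h⟩
      omega
    have hMc : Nat.Coprime p M := coprime_expoM_char p hn0
    ext N
    constructor
    · rintro ⟨⟨x₁, x₂, v⟩, rfl⟩
      have hform : ∀ k, orderOf (x₁, x₂, v) ∣ k ↔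
          orderOf x₁ ∣ k ∧ orderOf x₂ ∣ k ∧ orderOf v ∣ k := by
        intro k
        simp only [Prod.orderOf, Nat.lcm_dvd_iff]
      rcases hvord v with hv | hv
      · refine ⟨(x₁, x₂), nat_eq_of_dvd_iff fun k => ?_⟩
        rw [hform, hv]
        simp only [Prod.orderOf, Nat.lcm_dvd_iff, one_dvd, and_true]
      · rw [hv] at hform
        by_cases h1 : r ∣ orderOf x₁
        · refine ⟨(x₁, x₂), nat_eq_of_dvd_iff fun k => ?_⟩
          rw [hform]
          simp only [Prod.orderOf, Nat.lcm_dvd_iff]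
          constructor
          · rintro ⟨a, b⟩
            exact ⟨a, b, h1.trans a⟩
          · rintro ⟨a, b, -⟩
            exact ⟨a, b⟩
        by_cases h2 : r ∣ orderOf x₂
        · refine ⟨(x₁, x₂), nat_eq_of_dvd_iff fun k => ?_⟩
          rw [hform]
          simp only [Prod.orderOf, Nat.lcm_dvd_iff]
          constructor
          · rintro ⟨a, b⟩
            exact ⟨a, b, h2.trans b⟩
          · rintro ⟨a, b, -⟩
            exact ⟨a, b⟩
        have hcop : ∀ x : Matrix.ProjectiveSpecialLinearGroup (Fin n) F, ¬ r ∣ orderOf x →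
            Nat.Coprime (orderOf x) r := fun x hx =>
          ((Nat.Prime.coprime_iff_not_dvd hr).mpr hx).symm
        rcases element_cases p hn0 hr hl hrn x₁ h1 with ⟨y, hy⟩ | hP₁
        · refine ⟨(y, x₂), nat_eq_of_dvd_iff fun k => ?_⟩
          rw [hform]
          simp only [Prod.orderOf, Nat.lcm_dvd_iff]
          rw [hy, coprime_mul_dvd_iff (hcop x₁ h1)]
          tauto
        rcases element_cases p hn0 hr hl hrn x₂ h2 with ⟨y, hy⟩ | hP₂
        · refine ⟨(x₁, y), nat_eq_of_dvd_iff fun k => ?_⟩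
          rw [hform]
          simp only [Prod.orderOf, Nat.lcm_dvd_iff]
          rw [hy, coprime_mul_dvd_iff (hcop x₂ h2)]
        -- both are restricted
        have ha₁ := ordCompl_dvd p x₁ (hP₁ _ hc')
        have ha₂ := ordCompl_dvd p x₂ (hP₂ _ hc')
        have hb₁ := ordProj_dvd_of p x₁ hMc (hP₁ _ hc')
        have hb₂ := ordProj_dvd_of p x₂ hMc (hP₂ _ hc')
        set A := Nat.lcm (ordCompl[p] (orderOf x₁)) (ordCompl[p] (orderOf x₂)) with hA
        have hAM : A ∣ M := Nat.lcm_dvd ha₁ ha₂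
        obtain ⟨y₁, hy₁⟩ := exists_of_dvd g₀ (m := A) (by rw [hg₀]; exact hAM)
        set B := Nat.lcm (ordProj[p] (orderOf x₁)) (ordProj[p] (orderOf x₂)) with hB
        have hBp : B ∣ p ^ Nat.clog p (n - 1) := Nat.lcm_dvd hb₁ hb₂
        obtain ⟨y₂, hy₂⟩ := exists_of_dvd g₁ (m := r * B) (by
          rw [hg₁]
          exact Nat.mul_dvd_mul_left r hBp)
        have hcopB : Nat.Coprime r B :=
          Nat.Coprime.coprime_dvd_right hBp (Nat.Coprime.pow_right _ ((Nat.coprime_primes hr hp).mpr hrp))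
        refine ⟨(y₁, y₂), nat_eq_of_dvd_iff fun k => ?_⟩
        rw [hform]
        simp only [Prod.orderOf, Nat.lcm_dvd_iff]
        rw [hy₁, hy₂, coprime_mul_dvd_iff hcopB, hA, hB]
        simp only [Nat.lcm_dvd_iff]
        rw [order_dvd_iff p x₁, order_dvd_iff p x₂]
        tauto
    · rintro ⟨⟨x₁, x₂⟩, rfl⟩
      refine ⟨(x₁, x₂, 1), nat_eq_of_dvd_iff fun k => ?_⟩
      simp only [Prod.orderOf, Nat.lcm_dvd_iff, orderOf_one, one_dvd, and_true]

end Cfsg.Agent.S2510
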