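import Cfsg.Statements.S2511
import Cfsg.Agent.Lib.SUSpec.Structure

set_option autoImplicit false
open Cfsg

namespace Cfsg.Agent.S2511

open Lib.SUSpec.HermAlg in
lemma char_eq {F : Type*} [Field F] [Fintype F] {p a q : ℕ} (hp : p.Prime) (ha : 1 ≤ a) (hq : q = p ^ a)
    (hF : Fintype.card F = q ^ 2) : CharP F p := by
  obtain ⟨c, hc⟩ := CharP.exists F
  have hcp : c.Prime := by
    rcases CharP.char_is_prime_or_zero F c with h | h
    · exact h
    · subst h
      have := CharP.charP_to_charZero F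
      exact absurd (inferInstance : Finite F) (by
        intro _
        exact not_finite F)
  obtain ⟨f, -, hf⟩ := FiniteField.card F c
  have h1 : c ∣ (p ^ a) ^ 2 := by
    rw [← hq, ← hF, hf]
    exact dvd_pow_self c f.ne_zero
  have h2 : c = p := (Nat.prime_dvd_prime_iff_eq hcp hp).mp (hcp.dvd_of_dvd_pow (hcp.dvd_of_dvd_pow h1))
  rwa [h2] at hc

/-- `p` does not divide `M`. -/
lemma coprime_M {p a q n : ℕ} (hp : p.Prime) (ha : 1 ≤ a) (hq : q = p ^ a) (hn : 1 ≤ n) :
    Nat.Coprime p (Lib.SUSpec.HermAlg.M q n) := by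
  have hq2 : 2 ≤ q := by
    rw [hq]
    exact hp.two_le.trans (Nat.le_self_pow (by omega) p)
  rw [hp.coprime_iff_not_dvd]
  intro h
  have h1 : p ∣ Lib.SUSpec.HermAlg.M' q n := h.trans (Lib.SUSpec.HermAlg.M_dvd_M' q n)
  have hpq : p ∣ q := by
    rw [hq]
    exact dvd_pow_self p (by omega)
  have hpqn : p ∣ q ^ n := dvd_pow hpq (by omega)
  have hone : 1 ≤ q ^ n := Nat.one_le_pow _ _ (by omega)
  rcases Nat.even_or_odd n with hev | hodd
  · have h2 := Lib.SUSpec.HermAlg.M'_mul_even (q := q) hev (by omega)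
    have h3 : p ∣ q ^ n - 1 := by
      rw [← h2]
      exact h1.trans (dvd_mul_right _ _)
    have h4 : p ∣ q ^ n - (q ^ n - 1) := Nat.dvd_sub hpqn h3
    have h5 : q ^ n - (q ^ n - 1) = 1 := by omega
    rw [h5] at h4
    exact hp.one_lt.ne' (Nat.dvd_one.mp h4)
  · have h2 := Lib.SUSpec.HermAlg.M'_mul_odd (q := q) hodd
    have h3 : p ∣ q ^ n + 1 := by
      rw [← h2]
      exact h1.trans (dvd_mul_right _ _)
    have h4 : p ∣ 1 := (Nat.dvd_add_right hpqn).mp h3
    exact hp.one_lt.ne' (Nat.dvd_one.mp h4)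

/-- Let F be a finite field with q² elements, q = p^a, n ≥ 3 with (n, q) ≠ (3, 2), L = PSU(n, q) realised over F, and let r be a prime dividing q + 1 and not dividing n. Then for every m the direct product L × L × L × (ℤ/r)^m has the same set of element orders as L × L × L; and if n − 1 is not a power of p, then already L × L × (ℤ/r)^m has the same set of element orders as L × L. -/
theorem result {F : Type*} [Field F] [Fintype F] (p a n q r m : ℕ) (hp : p.Prime) (ha : 1 ≤ a) (hq : q = p ^ a) (hF : Fintype.card F = q ^ 2)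
    (hn : 3 ≤ n) (hn3 : ¬ (n = 3 ∧ q = 2)) (hr : r.Prime) (hrq : r ∣ q + 1) (hrn : ¬ r ∣ n) :
    Set.range (orderOf : Cfsg.PSU n F q × Cfsg.PSU n F q × Cfsg.PSU n F q × Multiplicative (Fin m → ZMod r) → ℕ) = Set.range (orderOf : Cfsg.PSU n F q × Cfsg.PSU n F q × Cfsg.PSU n F q → ℕ) ∧
    ((¬ ∃ j : ℕ, n - 1 = p ^ j) →
      Set.range (orderOf : Cfsg.PSU n F q × Cfsg.PSU n F q × Multiplicative (Fin m → ZMod r) → ℕ) = Set.range (orderOf : Cfsg.PSU n F q × Cfsg.PSU n F q → ℕ)) := by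
  classical
  have hfp : Fact p.Prime := ⟨hp⟩
  have hfr : Fact r.Prime := ⟨hr⟩
  have hchar : CharP F p := char_eq hp ha hq hF
  have hq2 : 2 ≤ q := Lib.HermCount.Field.two_le hF
  have hpq : p ∣ q := by
    rw [hq]
    exact dvd_pow_self p (by omega)
  have hrp : r ≠ p := by
    rintro rfl
    have h4 : r ∣ 1 := (Nat.dvd_add_right hpq).mp hrq
    exact hp.one_lt.ne' (Nat.dvd_one.mp h4)
  have hqq : q + 1 ∣ Nat.card F - 1 := by
    rw [Nat.card_eq_fintype_card, hF]
    refine ⟨q - 1, ?_⟩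
    obtain ⟨t, rfl⟩ : ∃ t, q = t + 1 := ⟨q - 1, by omega⟩
    simp only [Nat.add_sub_cancel]
    have : (t + 1) ^ 2 = (t + 1 + 1) * t + 1 := by ring
    omega
  obtain ⟨l, hl0, hl⟩ := Lib.SLn.PrimeGraph.exists_order (K := F) (d := r) (hrq.trans hqq)
  have hlq : l ^ (q + 1) = 1 := by
    obtain ⟨t, ht⟩ := hrq
    rw [ht, pow_mul, ← hl, pow_orderOf_eq_one, one_pow]
  refine Lib.SLn.SpecAbstract.absorb (L := Cfsg.PSU n F q) p r m hr hrp (M := Lib.SUSpec.HermAlg.M q n)
    (N₀ := n) (c₁ := Nat.clog p (n - 1)) (coprime_M hp ha hq (by omega)) ?_ ?_ ?_ |>.imp_right ?_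
  · rcases Nat.even_or_odd n with hev | hodd
    · exact Lib.SUSpec.HermAlg.exists_order_M_even p hF hq hev (by omega)
    · exact Lib.SUSpec.HermAlg.exists_order_M_odd p hF hq hodd (by omega)
  · exact Lib.SUSpec.HermAlg.exists_order_rp p hF (by omega) hr hrp hrq hrn
  · intro x hx
    obtain ⟨X, rfl⟩ := QuotientGroup.mk_surjective x
    rcases Lib.SUSpec.Structure.su_cases q p hF hq (by omega) hr hrn hl hlq X with ⟨Z, hcomm, hZ, hZc⟩ | hall
    · left
      have hzne : (QuotientGroup.mk Z : Cfsg.PSU n F q) ≠ 1 := by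
        rw [Ne, QuotientGroup.eq_one_iff]
        exact hZc
      have hz2 : (QuotientGroup.mk Z : Cfsg.PSU n F q) ^ r = 1 := by
        rw [← QuotientGroup.mk_pow, hZ]
        rfl
      have hzo : orderOf (QuotientGroup.mk Z : Cfsg.PSU n F q) = r := orderOf_eq_prime hz2 hzne
      have hc : Commute (QuotientGroup.mk X : Cfsg.PSU n F q) (QuotientGroup.mk Z : Cfsg.PSU n F q) := by
        change _ * _ = _ * _
        rw [← QuotientGroup.mk_mul, ← QuotientGroup.mk_mul, hcomm.eq]
      refine ⟨QuotientGroup.mk X * QuotientGroup.mk Z, ?_⟩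
      rw [hc.orderOf_mul_eq_mul_orderOf_of_coprime (by
        rw [hzo]
        exact ((Nat.Prime.coprime_iff_not_dvd hr).mpr hx).symm), hzo]
    · right
      intro c hc
      apply orderOf_dvd_of_pow_eq_one
      rw [← QuotientGroup.mk_pow, QuotientGroup.eq_one_iff]
      exact hall c hc
  · intro h hnp
    apply h
    have h1 := Nat.le_pow_clog hp.one_lt (n - 1)
    have h2 : n - 1 ≠ p ^ Nat.clog p (n - 1) := fun h => hnp ⟨_, h⟩
    omega

end Cfsg.Agent.S2511
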