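import Cfsg.Statements.S2512
import Cfsg.Agent.Lib.SpSpec.Orders

set_option autoImplicit false
open Cfsg

namespace Cfsg.Agent.S2512

/-- Let F be a finite field of odd order q = p^a, n ≥ 2 (with q ≥ 3 automatic), and L = PSp(2n, F). Then for every m the direct product L × L × L × (ℤ/2)^m has the same set of element orders as L × L × L; and if 2n − 1 is not a power of p, then already L × L × (ℤ/2)^m has the same set of element orders as L × L. -/
theorem result {F : Type*} [Field F] [Fintype F] (p a n m : ℕ) (hp : p.Prime) (ha : 1 ≤ a) (hF : Fintype.card F = p ^ a) (hodd : Odd (Fintype.card F))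
    (hn : 2 ≤ n) :
    Set.range (orderOf : Cfsg.PSp n F × Cfsg.PSp n F × Cfsg.PSp n F × Multiplicative (Fin m → ZMod 2) → ℕ) = Set.range (orderOf : Cfsg.PSp n F × Cfsg.PSp n F × Cfsg.PSp n F → ℕ) ∧
    ((¬ ∃ j : ℕ, 2 * n - 1 = p ^ j) →
      Set.range (orderOf : Cfsg.PSp n F × Cfsg.PSp n F × Multiplicative (Fin m → ZMod 2) → ℕ) = Set.range (orderOf : Cfsg.PSp n F × Cfsg.PSp n F → ℕ)) := by
  classical
  have hfp : Fact p.Prime := ⟨hp⟩
  have hchar : CharP F p := by
    obtain ⟨c, hc⟩ := CharP.exists F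
    have hcp : c.Prime := by
      rcases CharP.char_is_prime_or_zero F c with h | h
      · exact h
      · subst h
        have := CharP.charP_to_charZero F
        exact absurd (inferInstance : Finite F) (by
          intro _
          exact not_finite F)
    obtain ⟨f, -, hf⟩ := FiniteField.card F c
    have h1 : c ∣ p ^ a := by
      rw [← hF, hf]
      exact dvd_pow_self c f.ne_zero
    have h2 : c = p := (Nat.prime_dvd_prime_iff_eq hcp hp).mp (hcp.dvd_of_dvd_pow h1)
    rwa [h2] at hc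
  have h2F : (2 : F) ≠ 0 := by
    intro h
    exact (Nat.not_even_iff_odd.mpr hodd) (Lib.Classical.SympSimple.two_eq_zero_iff_even_card.mp h)
  have hp2 : p ≠ 2 := Lib.SpSpec.FormAlg.char_ne_two p h2F
  have hn0 : n ≠ 0 := by omega
  have hn1 : 1 ≤ n := by omega
  have hmain := Lib.SLn.SpecAbstract.absorb (L := Cfsg.PSp n F) p 2 m Nat.prime_two
    (Ne.symm hp2) (M := Lib.SpSpec.Orders.wM (Fintype.card F) n) (N₀ := 2 * n)
    (c₁ := Nat.clog p (2 * (n - 1)))
    (Lib.SpSpec.Orders.coprime_wM p h2F hn0)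
    (Lib.SpSpec.Orders.exists_order_wM p h2F hn1)
    (by
      obtain ⟨g, hg⟩ := Lib.SpSpec.FormAlg.exists_order_absorb_minus (F := F) p h2F (n := n) (t := 1)
        (a := 1) le_rfl (by omega) (one_dvd _) odd_one
      exact ⟨g, by rw [hg, mul_one]⟩)
    (fun x hx => Lib.SpSpec.Orders.order_cases p h2F hn1 x hx)
  refine ⟨hmain.1, fun hnp => hmain.2 ?_⟩
  -- the bound on the characteristic part
  have h1 := Nat.le_pow_clog hp.one_lt (2 * (n - 1))
  have h2 : Odd (p ^ Nat.clog p (2 * (n - 1))) := (hp.odd_of_ne_two hp2).pow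
  have h3 : 2 * n - 1 ≠ p ^ Nat.clog p (2 * (n - 1)) := fun h => hnp ⟨_, h⟩
  have h4 : 2 * (n - 1) ≠ p ^ Nat.clog p (2 * (n - 1)) := by
    intro h
    rw [← h] at h2
    exact (Nat.not_even_iff_odd.mpr h2) (even_two_mul _)
  omega

end Cfsg.Agent.S2512
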