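import Mathlib
import Cfsg.Statements.S2513
import Cfsg.Agent.Lib.SLn.Basic
-- import your own Cfsg.Agent.* helpers here

set_option autoImplicit false
open Cfsg

namespace Cfsg.Agent.S2513

open Polynomial Cfsg.Agent.Lib.SLn.Basic

/-- a prime power dividing the lcm of a family of positive numbers divides a member -/
lemma exists_pow_dvd_of_dvd_lcm {ι : Type*} {p e : ℕ} (hp : p.Prime) (he : e ≠ 0) (s : Finset ι) (f : ι → ℕ)
    (hf : ∀ i ∈ s, f i ≠ 0) (h : p ^ e ∣ s.lcm f) : ∃ i ∈ s, p ^ e ∣ f i := by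
  classical
  induction s using Finset.induction_on with
  | empty =>
    simp only [Finset.lcm_empty] at h
    have := Nat.dvd_one.mp h
    rw [Nat.pow_eq_one] at this
    rcases this with h1 | h1
    · exact absurd h1 hp.one_lt.ne'
    · exact absurd h1 he
  | insert a s ha ih =>
    rw [Finset.lcm_insert] at h
    have hlcm : s.lcm f ≠ 0 := by
      rw [Ne, Finset.lcm_eq_zero_iff]
      simp only [Set.mem_image, Finset.mem_coe, not_exists, not_and]
      intro x hx
      exact hf x (Finset.mem_insert_of_mem hx)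
    have ha0 : f a ≠ 0 := hf a (Finset.mem_insert_self _ _)
    have h2 : p ^ e ∣ Nat.lcm (f a) (s.lcm f) := h
    have h3 := (Nat.Prime.pow_dvd_iff_le_factorization hp (Nat.lcm_ne_zero ha0 hlcm)).mp h2
    rw [Nat.factorization_lcm ha0 hlcm] at h3
    simp only [Finsupp.sup_apply] at h3
    rcases le_sup_iff.mp h3 with h4 | h4
    · exact ⟨a, Finset.mem_insert_self _ _, (Nat.Prime.pow_dvd_iff_le_factorization hp ha0).mpr h4⟩
    · obtain ⟨i, hi, hi'⟩ := ih (fun i hi => hf i (Finset.mem_insert_of_mem hi))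
        ((Nat.Prime.pow_dvd_iff_le_factorization hp hlcm).mpr h4)
      exact ⟨i, Finset.mem_insert_of_mem hi, hi'⟩

/-- the abstract step: if the order of a tuple is a multiple of all element orders, the spectrum of powers stabilises -/
theorem spectrum_stable {L : Type*} [Group L] [Finite L] {k₀ k : ℕ} (hk : k₀ ≤ k) (c : Fin k₀ → L)
    (hc : ∀ g : L, orderOf g ∣ orderOf c) :
    Set.range (orderOf : (Fin k → L) → ℕ) = Set.range (orderOf : (Fin k₀ → L) → ℕ) := by
  classical
  ext m
  constructor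
  · rintro ⟨f, rfl⟩
    -- every entry's order divides `orderOf c`
    have hm : orderOf f ∣ orderOf c := by
      apply orderOf_dvd_of_pow_eq_one
      funext i
      simpa using orderOf_dvd_iff_pow_eq_one.mp (hc (f i))
    have hpos : 0 < orderOf f := orderOf_pos f
    let a : Fin k₀ → ℕ := fun j => orderOf (c j)
    have hapos : ∀ j, a j ≠ 0 := fun j => (orderOf_pos (c j)).ne'
    let b : Fin k₀ → L := fun j => c j ^ (a j / Nat.gcd (orderOf f) (a j))
    have hb : ∀ j, orderOf (b j) = Nat.gcd (orderOf f) (a j) := by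
      intro j
      have hg : Nat.gcd (orderOf f) (a j) ∣ a j := Nat.gcd_dvd_right _ _
      have hg0 : 0 < Nat.gcd (orderOf f) (a j) := Nat.gcd_pos_of_pos_left _ hpos
      show orderOf (c j ^ (a j / Nat.gcd (orderOf f) (a j))) = Nat.gcd (orderOf f) (a j)
      generalize Nat.gcd (orderOf f) (a j) = g at hg hg0 ⊢
      obtain ⟨t, ht⟩ := hg
      have ht0 : t ≠ 0 := by
        rintro rfl
        exact hapos j (by rw [ht]; simp)
      have e1 : a j / g = t := Nat.div_eq_of_eq_mul_right hg0 ht
      have ht' : orderOf (c j) = g * t := ht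
      rw [e1, orderOf_pow_of_dvd ht0 ⟨g, by rw [ht', mul_comm]⟩, ht']
      exact Nat.mul_div_cancel _ (Nat.pos_of_ne_zero ht0)
    refine ⟨b, ?_⟩
    apply Nat.dvd_antisymm
    · apply orderOf_dvd_of_pow_eq_one
      funext j
      have : orderOf (b j) ∣ orderOf f := by rw [hb]; exact Nat.gcd_dvd_left _ _
      simpa using orderOf_dvd_iff_pow_eq_one.mp this
    · rw [Nat.dvd_iff_prime_pow_dvd_dvd]
      intro p e hp hpe
      by_cases he : e = 0
      · subst he; simp
      have h1 : p ^ e ∣ orderOf c := hpe.trans hm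
      rw [Pi.orderOf] at h1
      obtain ⟨j, -, hj⟩ := exists_pow_dvd_of_dvd_lcm hp he _ _ (fun j _ => hapos j) h1
      have h2 : p ^ e ∣ orderOf (b j) := by
        rw [hb]
        exact Nat.dvd_gcd hpe hj
      exact h2.trans (orderOf_apply_dvd_orderOf j)
  · rintro ⟨b, rfl⟩
    let f : Fin k → L := fun i => if h : i.val < k₀ then b ⟨i.val, h⟩ else 1
    refine ⟨f, ?_⟩
    apply Nat.dvd_antisymm
    · apply orderOf_dvd_of_pow_eq_one
      funext i
      simp only [Pi.pow_apply, Pi.one_apply]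
      by_cases h : i.val < k₀
      · simp only [f, h, dif_pos]
        have := congrFun (pow_orderOf_eq_one b) ⟨i.val, h⟩
        simpa using this
      · simp only [f, h, dif_neg, not_false_eq_true, one_pow]
    · apply orderOf_dvd_of_pow_eq_one
      funext j
      have hj : j.val < k := lt_of_lt_of_le j.2 hk
      have h1 := congrFun (pow_orderOf_eq_one f) ⟨j.val, hj⟩
      have h2 : f ⟨j.val, hj⟩ = b j := by
        simp only [f, j.2, dif_pos]
      simp only [Pi.pow_apply, Pi.one_apply] at h1 ⊢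
      rwa [h2] at h1

variable {F : Type*} [Field F] [Fintype F]

lemma eq_one_of_ne_zero (hF : Fintype.card F = 2) (a : F) (ha : a ≠ 0) : a = 1 := by
  classical
  by_contra h
  have : ({0, 1, a} : Finset F).card ≤ Fintype.card F := Finset.card_le_univ _
  rw [hF, Finset.card_eq_three.mpr ⟨0, 1, a, zero_ne_one, ha.symm, Ne.symm h, rfl⟩] at this
  omega

lemma charP_two (hF : Fintype.card F = 2) : CharP F 2 := by
  obtain ⟨p, hp⟩ := CharP.exists F
  obtain ⟨n, hpp, hn⟩ := FiniteField.card F p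
  rw [hF] at hn
  have h1 : p ∣ 2 := by
    rw [hn]
    exact dvd_pow_self p n.ne_zero
  have h2 : p = 2 := (Nat.prime_dvd_prime_iff_eq hpp Nat.prime_two).mp h1
  subst h2
  exact hp

/-- from a commutative algebra to an element of `PSL_n(F₂)` of the same order -/
theorem exists_psl_of_algebra (hF : Fintype.card F = 2) {n : ℕ} {R : Type*} [CommRing R] [Algebra F R]
    [Module.Finite F R] (h : Module.finrank F R = n) (u : R) (hu : orderOf u ≠ 0) :
    ∃ g : Matrix.ProjectiveSpecialLinearGroup (Fin n) F, orderOf g = orderOf u := by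
  obtain ⟨ι, hι, hdet⟩ := exists_embed h
  have hunit : IsUnit u := by
    have h1 : IsOfFinOrder u := orderOf_ne_zero_iff.mp hu
    exact h1.isUnit
  have hdet1 : (ι u).det = 1 := by
    apply eq_one_of_ne_zero hF
    have : IsUnit (ι u) := hunit.map ι
    exact ((Matrix.isUnit_iff_isUnit_det _).mp this).ne_zero
  let X : Matrix.SpecialLinearGroup (Fin n) F := ⟨ι u, hdet1⟩
  have hinj : Function.Injective (toPSL : Matrix.SpecialLinearGroup (Fin n) F →* _) := by
    rw [injective_iff_map_eq_one]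
    intro Y hY
    obtain ⟨c, hc⟩ := (toPSL_eq_one_iff Y).mp hY
    by_cases hn0 : n = 0
    · subst hn0
      exact Subsingleton.elim _ _
    have hc0 : c ≠ 0 := by
      rintro rfl
      have h2 := Y.2
      rw [hc, map_zero] at h2
      have : Nonempty (Fin n) := ⟨⟨0, Nat.pos_of_ne_zero hn0⟩⟩
      rw [Matrix.det_zero] at h2
      exact zero_ne_one h2
    have hc1 : c = 1 := eq_one_of_ne_zero hF c hc0
    apply Subtype.ext
    rw [hc, hc1]
    simp
  refine ⟨toPSL X, ?_⟩
  rw [orderOf_injective _ hinj]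
  apply orderOf_eq_orderOf_iff.mpr
  intro m
  constructor
  · intro hX
    have : ((X ^ m : Matrix.SpecialLinearGroup (Fin n) F) : Matrix (Fin n) (Fin n) F) = 1 := by
      rw [hX]; rfl
    rw [Matrix.SpecialLinearGroup.coe_pow] at this
    apply hι
    rw [map_pow, map_one]
    exact this
  · intro hm
    apply Subtype.ext
    rw [Matrix.SpecialLinearGroup.coe_pow]
    show (ι u) ^ m = 1
    rw [← map_pow, hm, map_one]

/-- a regular unipotent element of order `2 ^ clog 2 n` -/
theorem exists_unipotent (hF : Fintype.card F = 2) {n : ℕ} (hn : 2 ≤ n) :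
    ∃ g : Matrix.ProjectiveSpecialLinearGroup (Fin n) F, orderOf g = 2 ^ Nat.clog 2 n := by
  classical
  have hchar := charP_two hF
  let P : F[X] := X ^ n
  have hP : P.Monic := monic_X_pow n
  have hdegP : P.natDegree = n := natDegree_X_pow n
  let R := AdjoinRoot P
  have hP0 : P ≠ 0 := hP.ne_zero
  let pb := AdjoinRoot.powerBasis hP0
  haveI : Module.Finite F R := pb.finite
  have hfr : Module.finrank F R = n := by
    rw [PowerBasis.finrank pb]
    simp [pb, AdjoinRoot.powerBasis_dim, hdegP]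
  let x : R := AdjoinRoot.root P
  have hxk : ∀ k, x ^ k = 0 ↔ n ≤ k := by
    intro k
    have : x ^ k = AdjoinRoot.mk P (X ^ k) := by simp [x]
    rw [this, AdjoinRoot.mk_eq_zero]
    exact pow_dvd_pow_iff X_ne_zero not_isUnit_X
  have : Nontrivial R := ⟨⟨x ^ 0, 0, by rw [Ne, hxk]; omega⟩⟩
  have hcharR : CharP R 2 := charP_of_injective_algebraMap (algebraMap F R).injective 2
  have hfact : Fact (Nat.Prime 2) := ⟨Nat.prime_two⟩
  let u : R := 1 + x
  have hupow : ∀ j, u ^ (2 ^ j) = 1 + x ^ (2 ^ j) := by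
    intro j
    show (1 + x) ^ (2 ^ j) = _
    rw [add_pow_char_pow, one_pow]
  have ht : Nat.clog 2 n ≠ 0 := (Nat.clog_pos (by norm_num) (by omega)).ne'
  obtain ⟨t, ht'⟩ : ∃ t, Nat.clog 2 n = t + 1 := ⟨Nat.clog 2 n - 1, by omega⟩
  have hord : orderOf u = 2 ^ (t + 1) := by
    apply orderOf_eq_prime_pow
    · rw [hupow]
      intro h
      have h1 : x ^ 2 ^ t = 0 := by simpa using h
      rw [hxk] at h1
      have h2 := Nat.pow_pred_clog_lt_self (b := 2) (by norm_num) (x := n) (by omega)
      rw [ht'] at h2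
      simp only [Nat.pred_succ] at h2
      omega
    · rw [hupow]
      have h2 := Nat.le_pow_clog (b := 2) (by norm_num) n
      rw [ht'] at h2
      have h3 : x ^ 2 ^ (t + 1) = 0 := (hxk _).mpr h2
      rw [h3, add_zero]
  obtain ⟨g, hg⟩ := exists_psl_of_algebra hF hfr u (by rw [hord]; positivity)
  exact ⟨g, by rw [hg, hord, ht']⟩

/-- an element of order `2 ^ i - 1` (Singer cycle on a subspace of dimension `i`) -/
theorem exists_singer (hF : Fintype.card F = 2) {n i : ℕ} (hi : 1 ≤ i) (hin : i ≤ n) :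
    ∃ g : Matrix.ProjectiveSpecialLinearGroup (Fin n) F, orderOf g = 2 ^ i - 1 := by
  classical
  have hchar := charP_two hF
  have hfact : Fact (Nat.Prime 2) := ⟨Nat.prime_two⟩
  have hne : NeZero i := ⟨by omega⟩
  let K := FiniteField.Extension F 2 i
  have hfrK : Module.finrank F K = i := FiniteField.finrank_extension F 2 i
  have hcardK : Nat.card K = 2 ^ i := by
    have := FiniteField.natCard_extension F 2 i
    rw [Nat.card_eq_fintype_card (α := F), hF] at this
    exact this
  have : Fintype K := Fintype.ofFinite K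
  obtain ⟨ζ, hζ⟩ := IsCyclic.exists_generator (α := Kˣ)
  have hordζ : orderOf ζ = 2 ^ i - 1 := by
    rw [orderOf_eq_card_of_forall_mem_zpowers hζ, Nat.card_eq_fintype_card, Fintype.card_units,
      ← Nat.card_eq_fintype_card, hcardK]
  let R := K × (Fin (n - i) → F)
  have hfr : Module.finrank F R = n := by
    rw [Module.finrank_prod, hfrK, Module.finrank_fin_fun]
    omega
  let u : R := ((ζ : K), 1)
  have hord : orderOf u = 2 ^ i - 1 := by
    show orderOf (((ζ : K), (1 : Fin (n - i) → F)) : K × (Fin (n - i) → F)) = _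
    rw [Prod.orderOf_mk, orderOf_one, Nat.lcm_one_right, orderOf_units, hordζ]
  have h0 : orderOf u ≠ 0 := by
    rw [hord]
    have : 1 < 2 ^ i := Nat.one_lt_two_pow (by omega)
    omega
  obtain ⟨g, hg⟩ := exists_psl_of_algebra hF hfr u h0
  exact ⟨g, by rw [hg, hord]⟩

lemma exists_multiple {n : ℕ} : ∀ (m d : ℕ), n - d = m → 1 ≤ d → d ≤ n → ∃ e, 1 ≤ e ∧ n < 2 * (d * e) ∧ d * e ≤ n := by
  intro m
  induction m using Nat.strong_induction_on with
  | _ m ih =>
    intro d hm hd hdn
    by_cases h : n < 2 * d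
    · exact ⟨1, le_rfl, by simpa using h, by simpa using hdn⟩
    · obtain ⟨e, he1, he2, he3⟩ := ih (n - 2 * d) (by omega) (2 * d) rfl (by omega) (by omega)
      refine ⟨2 * e, by omega, ?_, ?_⟩
      · have : 2 * d * e = d * (2 * e) := by ring
        omega
      · have : 2 * d * e = d * (2 * e) := by ring
        omega


/-- Let F be the field with two elements, n ≥ 2, L = PSL(n, F) and k₀ = ⌊(n + 3)/2⌋. Then for every k ≥ k₀ the direct product of k copies of L has the same set of element orders as the direct product of k₀ copies of L. -/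
theorem result {F : Type*} [Field F] [Fintype F] (hF : Fintype.card F = 2) (n k : ℕ) (hn : 2 ≤ n) (hk : (n + 3) / 2 ≤ k) :
    Set.range (orderOf : (Fin k → Matrix.ProjectiveSpecialLinearGroup (Fin n) F) → ℕ) = Set.range (orderOf : (Fin ((n + 3) / 2) → Matrix.ProjectiveSpecialLinearGroup (Fin n) F) → ℕ) := by
  classical
  have hchar := charP_two hF
  have hfact : Fact (Nat.Prime 2) := ⟨Nat.prime_two⟩
  obtain ⟨y, hy⟩ := exists_unipotent (F := F) hF hn
  have hx : ∀ i, ∃ g : Matrix.ProjectiveSpecialLinearGroup (Fin n) F, 1 ≤ i → i ≤ n → orderOf g = 2 ^ i - 1 := by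
    intro i
    by_cases hi : 1 ≤ i ∧ i ≤ n
    · obtain ⟨g, hg⟩ := exists_singer (F := F) hF hi.1 hi.2
      exact ⟨g, fun _ _ => hg⟩
    · exact ⟨1, fun h1 h2 => absurd ⟨h1, h2⟩ hi⟩
  choose x hx using hx
  let c : Fin ((n + 3) / 2) → Matrix.ProjectiveSpecialLinearGroup (Fin n) F :=
    fun j => if j.val = 0 then y else x (n + 1 - j.val)
  apply spectrum_stable hk c
  intro g
  set Λ := orderOf c with hΛ
  have hΛ0 : Λ ≠ 0 := (orderOf_pos c).ne'
  have h2t : 2 ^ Nat.clog 2 n ∣ Λ := by
    have h0 : 0 < (n + 3) / 2 := by omega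
    have := orderOf_apply_dvd_orderOf (x := c) ⟨0, h0⟩
    simpa [c, hy] using this
  have hd : ∀ d, 1 ≤ d → d ≤ n → (2 ^ d - 1) ∣ Λ := by
    intro d hd1 hdn
    obtain ⟨e, he1, he2, he3⟩ := exists_multiple (n := n) _ d rfl hd1 hdn
    have hdvd : (2 ^ d - 1) ∣ (2 ^ (d * e) - 1) := by
      have := Nat.sub_dvd_pow_sub_pow (2 ^ d) 1 e
      simpa [pow_mul] using this
    have hj : n + 1 - d * e < (n + 3) / 2 := by omega
    have hj0 : (n + 1 - d * e) ≠ 0 := by omega
    have h1 := orderOf_apply_dvd_orderOf (x := c) ⟨n + 1 - d * e, hj⟩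
    have h2 : c ⟨n + 1 - d * e, hj⟩ = x (d * e) := by
      simp only [c, hj0, if_false]
      congr 1
      omega
    rw [h2, hx _ (Nat.mul_pos hd1 he1) he3] at h1
    exact hdvd.trans h1
  obtain ⟨s, N, hNodd, hN⟩ := Nat.exists_eq_two_pow_mul_odd hΛ0
  have hcop : ∀ a : ℕ, Odd a → Nat.Coprime a (2 ^ s) := fun a ha =>
    Nat.Coprime.pow_right _ (Nat.coprime_two_right.mpr ha)
  have hts : Nat.clog 2 n ≤ s := by
    have h1 : 2 ^ Nat.clog 2 n ∣ 2 ^ s := by
      rw [hN] at h2t
      exact (Nat.Coprime.pow_left _ (Nat.coprime_two_left.mpr hNodd)).dvd_of_dvd_mul_right h2t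
    exact (Nat.pow_dvd_pow_iff_le_right (by norm_num)).mp h1
  have hns : n ≤ 2 ^ s := (Nat.le_pow_clog (by norm_num) n).trans (Nat.pow_le_pow_right (by norm_num) hts)
  have hNd : ∀ d, 1 ≤ d → d ≤ n → (Fintype.card F ^ d - 1) ∣ N := by
    intro d hd1 hdn
    rw [hF]
    have h1 := hd d hd1 hdn
    rw [hN] at h1
    have hodd : Odd (2 ^ d - 1) := by
      obtain ⟨d', rfl⟩ : ∃ d', d = d' + 1 := ⟨d - 1, by omega⟩
      have : 0 < 2 ^ d' := by positivity
      refine ⟨2 ^ d' - 1, ?_⟩
      rw [pow_succ]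
      omega
    exact (hcop _ hodd).dvd_of_dvd_mul_left h1
  obtain ⟨X, rfl⟩ := toPSL_surjective g
  have hne : Nonempty (Fin n) := ⟨⟨0, by omega⟩⟩
  have hA := pow_sub_one_pow_card_eq_zero (X : Matrix (Fin n) (Fin n) F) (by rw [X.2]; exact one_ne_zero) N hNd
  have hA2 : ((X : Matrix (Fin n) (Fin n) F) ^ N - 1) ^ (2 ^ s) = 0 := pow_eq_zero_of_le hns hA
  rw [sub_pow_char_pow_of_commute 2 s (Commute.one_right _), one_pow, sub_eq_zero, ← pow_mul] at hA2
  have hX : X ^ Λ = 1 := by
    apply Subtype.ext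
    rw [Matrix.SpecialLinearGroup.coe_pow, hN, mul_comm]
    simpa using hA2
  apply orderOf_dvd_of_pow_eq_one
  rw [← map_pow, hX, map_one]


end Cfsg.Agent.S2513
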