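import Mathlib
import Cfsg.Statements.S2514
-- import your own Cfsg.Agent.* helpers here

set_option autoImplicit false
open Cfsg

namespace Cfsg.Agent.S2514

variable {X : Type*} [Group X]

/-- the set of element orders -/
local notation "ω" X => Set.range (orderOf : X → ℕ)

lemma mem_omega_of_dvd {a b : ℕ} (hb : b ∈ Set.range (orderOf : X → ℕ)) (hab : a ∣ b) (hb0 : b ≠ 0) :
    a ∈ Set.range (orderOf : X → ℕ) := by
  obtain ⟨x, rfl⟩ := hb
  obtain ⟨c, hc⟩ := hab
  have hc0 : c ≠ 0 := by
    rintro rfl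
    simp at hc
    exact hb0 (by simpa using hc)
  refine ⟨x ^ c, ?_⟩
  rw [orderOf_pow_of_dvd hc0 ⟨a, by rw [hc]; ring⟩, hc]
  exact Nat.mul_div_cancel _ (Nat.pos_of_ne_zero hc0)

lemma exists_maximal_above [Finite X] (a : ℕ) (ha : a ∈ Set.range (orderOf : X → ℕ)) :
    ∃ m, (m ∈ Set.range (orderOf : X → ℕ) ∧ ∀ m' ∈ Set.range (orderOf : X → ℕ), m ∣ m' → m' = m) ∧ a ∣ m := by
  have hfin : (Set.range (orderOf : X → ℕ)).Finite := Set.finite_range _
  have hS : ({m ∈ Set.range (orderOf : X → ℕ) | a ∣ m}).Finite := hfin.subset (fun x hx => hx.1)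
  have hne : ({m ∈ Set.range (orderOf : X → ℕ) | a ∣ m}).Nonempty := ⟨a, ha, dvd_rfl⟩
  obtain ⟨m, hm, hmax⟩ := Set.exists_max_image _ id hS hne
  refine ⟨m, ⟨hm.1, ?_⟩, hm.2⟩
  intro m' hm' hdvd
  have h1 : m' ≤ m := hmax m' ⟨hm', hm.2.trans hdvd⟩
  obtain ⟨x, hx⟩ := hm'
  have h0 : 0 < m' := by rw [← hx]; exact orderOf_pos x
  exact le_antisymm h1 (Nat.le_of_dvd h0 hdvd)

lemma orderOf_ne_zero' [Finite X] {b : ℕ} (hb : b ∈ Set.range (orderOf : X → ℕ)) : b ≠ 0 := by
  obtain ⟨x, rfl⟩ := hb
  exact (orderOf_pos x).ne'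

/-- order of a function with a marked entry removed and the entry put in the last factor -/
lemma orderOf_succAbove_pair {Y : Type*} [Group Y] {k : ℕ} (f : Fin (k + 1) → X) (i : Fin (k + 1)) (y : Y)
    (hy : orderOf y = orderOf (f i)) :
    orderOf ((fun j => f (i.succAbove j), y) : (Fin k → X) × Y) = orderOf f := by
  rw [Prod.orderOf_mk]
  apply Nat.dvd_antisymm
  · apply Nat.lcm_dvd
    · apply orderOf_dvd_of_pow_eq_one
      funext j
      have : f ^ orderOf f = 1 := pow_orderOf_eq_one f
      simpa using congrFun this (i.succAbove j)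
    · rw [hy]
      apply orderOf_dvd_of_pow_eq_one
      have : f ^ orderOf f = 1 := pow_orderOf_eq_one f
      simpa using congrFun this i
  · apply orderOf_dvd_of_pow_eq_one
    funext j
    set n := Nat.lcm (orderOf (fun j => f (i.succAbove j))) (orderOf y) with hn
    rcases Fin.eq_self_or_eq_succAbove i j with h | ⟨j', h⟩
    · subst h
      have : orderOf (f j) ∣ n := by rw [← hy]; exact Nat.dvd_lcm_right _ _
      simpa using orderOf_dvd_iff_pow_eq_one.mp this
    · subst h
      have h1 : orderOf (fun j => f (i.succAbove j)) ∣ n := Nat.dvd_lcm_left _ _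
      have h2 := orderOf_dvd_iff_pow_eq_one.mp h1
      simpa using congrFun h2 j'


/-- For a finite group X write μ(X) for the set of element orders of X that are maximal under divisibility. Let G and H be finite groups and k ≥ 1 such that μ(H) ⊆ μ(G) and μ(G) has fewer than k elements outside μ(H). Then the direct product of k copies of G has the same set of element orders as the direct product of k − 1 copies of G with H. -/
theorem result {G H : Type*} [Group G] [Finite G] [Group H] [Finite H] (k : ℕ) (hk : 1 ≤ k)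
    (hsub : {n : ℕ | n ∈ Set.range (orderOf : H → ℕ) ∧ ∀ m ∈ Set.range (orderOf : H → ℕ), n ∣ m → m = n} ⊆ {n : ℕ | n ∈ Set.range (orderOf : G → ℕ) ∧ ∀ m ∈ Set.range (orderOf : G → ℕ), n ∣ m → m = n})
    (hfew : ({n : ℕ | n ∈ Set.range (orderOf : G → ℕ) ∧ ∀ m ∈ Set.range (orderOf : G → ℕ), n ∣ m → m = n} \ {n : ℕ | n ∈ Set.range (orderOf : H → ℕ) ∧ ∀ m ∈ Set.range (orderOf : H → ℕ), n ∣ m → m = n}).ncard < k) :
    Set.range (orderOf : (Fin k → G) → ℕ) = Set.range (orderOf : (Fin (k - 1) → G) × H → ℕ) := by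
  classical
  obtain ⟨k', rfl⟩ : ∃ k', k = k' + 1 := ⟨k - 1, by omega⟩
  show Set.range (orderOf : (Fin (k' + 1) → G) → ℕ) = Set.range (orderOf : (Fin k' → G) × H → ℕ)
  ext n
  constructor
  · -- from `G^k` to `G^(k-1) × H`
    rintro ⟨f, rfl⟩
    have hm : ∀ i, ∃ m, (m ∈ Set.range (orderOf : G → ℕ) ∧ ∀ m' ∈ Set.range (orderOf : G → ℕ), m ∣ m' → m' = m) ∧ orderOf (f i) ∣ m :=
      fun i => exists_maximal_above _ ⟨f i, rfl⟩
    choose m hm1 hm2 using hm
    by_cases hcase : ∃ i, (m i ∈ Set.range (orderOf : H → ℕ) ∧ ∀ m' ∈ Set.range (orderOf : H → ℕ), m i ∣ m' → m' = m i)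
    · obtain ⟨i, hi⟩ := hcase
      obtain ⟨y, hy⟩ := mem_omega_of_dvd hi.1 (hm2 i) (orderOf_ne_zero' hi.1)
      exact ⟨_, orderOf_succAbove_pair f i y hy⟩
    · push Not at hcase
      -- pigeonhole
      set S : Set ℕ := ({n : ℕ | n ∈ Set.range (orderOf : G → ℕ) ∧ ∀ m ∈ Set.range (orderOf : G → ℕ), n ∣ m → m = n} \ {n : ℕ | n ∈ Set.range (orderOf : H → ℕ) ∧ ∀ m ∈ Set.range (orderOf : H → ℕ), n ∣ m → m = n}) with hS
      have hSfin : S.Finite := (Set.finite_range (orderOf : G → ℕ)).subset (fun x hx => hx.1.1)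
      have hcard : hSfin.toFinset.card < Fintype.card (Fin (k' + 1)) := by
        rw [Fintype.card_fin, ← Set.ncard_eq_toFinset_card S hSfin]
        exact hfew
      have hmaps : ∀ i ∈ (Finset.univ : Finset (Fin (k' + 1))), m i ∈ hSfin.toFinset := by
        intro i _
        rw [Set.Finite.mem_toFinset]
        refine ⟨hm1 i, ?_⟩
        rintro ⟨h1, h2⟩
        obtain ⟨m', hm', hdvd, hne⟩ := hcase i h1
        exact hne (h2 m' hm' hdvd)
      obtain ⟨i, -, j, -, hij, hmij⟩ := Finset.exists_ne_map_eq_of_card_lt_of_maps_to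
        (by simpa using hcard) hmaps
      -- merge the entries `i` and `j`
      have hlcm : Nat.lcm (orderOf (f i)) (orderOf (f j)) ∣ m i :=
        Nat.lcm_dvd (hm2 i) (hmij ▸ hm2 j)
      obtain ⟨x, hx⟩ := mem_omega_of_dvd (hm1 i).1 hlcm (orderOf_ne_zero' (hm1 i).1)
      let f' : Fin (k' + 1) → G := Function.update f i x
      have hf'j : f' j = f j := Function.update_of_ne hij.symm _ _
      refine ⟨(fun l => f' (j.succAbove l), (1 : H)), ?_⟩
      rw [Prod.orderOf_mk, orderOf_one, Nat.lcm_one_right]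
      apply Nat.dvd_antisymm
      · apply orderOf_dvd_of_pow_eq_one
        funext l
        by_cases hl : j.succAbove l = i
        · simp only [Pi.pow_apply, Pi.one_apply, hl]
          have : orderOf (f' i) ∣ orderOf f := by
            simp only [f', Function.update_self, hx]
            exact Nat.lcm_dvd (orderOf_dvd_of_pow_eq_one (by
              have := congrFun (pow_orderOf_eq_one f) i
              simpa using this)) (orderOf_dvd_of_pow_eq_one (by
              have := congrFun (pow_orderOf_eq_one f) j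
              simpa using this))
          exact orderOf_dvd_iff_pow_eq_one.mp this
        · have : f' (j.succAbove l) = f (j.succAbove l) := Function.update_of_ne hl _ _
          simp only [Pi.pow_apply, Pi.one_apply, this]
          have := congrFun (pow_orderOf_eq_one f) (j.succAbove l)
          simpa using this
      · apply orderOf_dvd_of_pow_eq_one
        funext l
        set N := orderOf (fun l => f' (j.succAbove l)) with hN
        have hN1 : ∀ l', f' (j.succAbove l') ^ N = 1 := by
          intro l'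
          have := congrFun (pow_orderOf_eq_one (fun l => f' (j.succAbove l))) l'
          simpa using this
        have hi' : (f' i) ^ N = 1 := by
          obtain ⟨l₀, hl₀⟩ := Fin.exists_succAbove_eq hij
          rw [← hl₀]; exact hN1 l₀
        have hdvd : Nat.lcm (orderOf (f i)) (orderOf (f j)) ∣ N := by
          rw [← hx]
          have : f' i = x := Function.update_self _ _ _
          rw [← this]
          exact orderOf_dvd_of_pow_eq_one hi'
        simp only [Pi.pow_apply, Pi.one_apply]
        by_cases hli : l = i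
        · subst hli
          exact orderOf_dvd_iff_pow_eq_one.mp ((Nat.dvd_lcm_left _ _).trans hdvd)
        · by_cases hlj : l = j
          · subst hlj
            exact orderOf_dvd_iff_pow_eq_one.mp ((Nat.dvd_lcm_right _ _).trans hdvd)
          · obtain ⟨l₀, hl₀⟩ := Fin.exists_succAbove_eq hlj
            have : f' l = f l := Function.update_of_ne hli _ _
            rw [← this, ← hl₀]
            exact hN1 l₀
  · -- from `G^(k-1) × H` to `G^k`
    rintro ⟨⟨g, h⟩, rfl⟩
    obtain ⟨m, hm, hdvd⟩ := exists_maximal_above (orderOf h) ⟨h, rfl⟩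
    have hmG := hsub hm
    obtain ⟨y, hy⟩ := mem_omega_of_dvd hmG.1 hdvd (orderOf_ne_zero' hmG.1)
    refine ⟨Fin.cons y g, ?_⟩
    have := orderOf_succAbove_pair (Y := H) (Fin.cons y g : Fin (k' + 1) → G) 0 h (by simpa using hy.symm)
    rw [← this]
    simp


end Cfsg.Agent.S2514
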