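import Cfsg.Statements.S2515
import Cfsg.Agent.Lib.PrimeGraph.PSL2Spec
import Cfsg.Agent.Lib.PrimeGraph.Lift

set_option autoImplicit false
open Cfsg

namespace Cfsg.Agent.S2515

open Matrix Polynomial
open scoped MatrixGroups
open Cfsg.Agent.Lib.PrimeGraph.SL2 Cfsg.Agent.Lib.PrimeGraph.PSL2Spec Cfsg.Agent.Lib.PrimeGraph.Lift

section generic
variable {S W : Type*} [Group S] [AddCommGroup W]
  (act : S → W → W) (h1 : ∀ w, act 1 w = w)
  (hm : ∀ a b w, act (a * b) w = act a (act b w))
  (ha : ∀ s x y, act s (x + y) = act s x + act s y)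

theorem pow_eq_one_of_nofix (h : SD act h1 hm ha) (n : ℕ) (hn : h.right ^ n = 1)
    (hfix : ∀ w, act h.right w = w → w = 0) : h ^ n = 1 := by
  have hc : h * h ^ n = h ^ n * h := by rw [← pow_succ', pow_succ]
  have h2 := congrArg (fun z : SD act h1 hm ha => Multiplicative.toAdd z.left) hc
  simp only [left_mul] at h2
  rw [right_pow, hn, h1, add_comm] at h2
  have h3 := hfix _ (add_right_cancel h2)
  apply SemidirectProduct.ext
  · apply Multiplicative.toAdd.injective
    rw [h3]
    rfl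
  · rw [right_pow, hn]
    rfl

theorem pow_three_of_right (h3 : ∀ w : W, w + w + w = 0) (h : SD act h1 hm ha)
    (hr : h.right = 1) : h ^ 3 = 1 := by
  apply SemidirectProduct.ext
  · apply Multiplicative.toAdd.injective
    have : h ^ 3 = h * h * h := by rw [pow_succ, pow_two]
    rw [this, left_mul, left_mul]
    rw [hr, h1]
    have hr2 : (h * h).right = 1 := by
      rw [SemidirectProduct.mul_right, hr, one_mul]
    rw [hr2, h1]
    exact h3 _
  · rw [right_pow, hr, one_pow]
    rfl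

end generic

section field

variable {F : Type} [Field F] [Fintype F] [CharP F 3]

/-- The twisted transpose. -/
noncomputable def tauM (g : Matrix (Fin 2) (Fin 2) F) : Matrix (Fin 2) (Fin 2) F :=
  ((frobenius F 3).mapMatrix g)ᵀ

theorem tauM_apply (g : Matrix (Fin 2) (Fin 2) F) (i j : Fin 2) : tauM g i j = (g j i) ^ 3 := by
  simp [tauM, frobenius_def]

theorem tauM_mul (g h : Matrix (Fin 2) (Fin 2) F) : tauM (g * h) = tauM h * tauM g := by
  simp [tauM, map_mul, transpose_mul]

theorem tauM_one : tauM (1 : Matrix (Fin 2) (Fin 2) F) = 1 := by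
  simp [tauM]

/-- The action of `SL₂`. -/
noncomputable def actS (g : SL(2, F)) (X : Matrix (Fin 2) (Fin 2) F) : Matrix (Fin 2) (Fin 2) F :=
  (g : Matrix (Fin 2) (Fin 2) F) * X * tauM (g : Matrix (Fin 2) (Fin 2) F)

theorem actS_one (X : Matrix (Fin 2) (Fin 2) F) : actS 1 X = X := by
  simp [actS, tauM_one]

theorem actS_mul (a b : SL(2, F)) (X : Matrix (Fin 2) (Fin 2) F) :
    actS (a * b) X = actS a (actS b X) := by
  simp only [actS, Matrix.SpecialLinearGroup.coe_mul, tauM_mul]
  simp only [Matrix.mul_assoc]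

theorem actS_add (s : SL(2, F)) (x y : Matrix (Fin 2) (Fin 2) F) :
    actS s (x + y) = actS s x + actS s y := by
  simp [actS, Matrix.mul_add, Matrix.add_mul]

theorem actS_smul (s : SL(2, F)) (c : F) (x : Matrix (Fin 2) (Fin 2) F) :
    actS s (c • x) = c • actS s x := by
  simp [actS, Matrix.mul_smul, Matrix.smul_mul]

/-- The action as a homomorphism. -/
noncomputable def rhoS : SL(2, F) →* MulAut (Multiplicative (Matrix (Fin 2) (Fin 2) F)) :=
  actHom actS actS_one actS_mul actS_add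

theorem actS_scalar (g : SL(2, F)) (c : F) (hc : c ^ 2 = 1)
    (h : (g : Matrix (Fin 2) (Fin 2) F) = c • 1) (X : Matrix (Fin 2) (Fin 2) F) :
    actS g X = X := by
  have h3 : tauM (c • (1 : Matrix (Fin 2) (Fin 2) F)) = c ^ 3 • 1 := by
    ext i j
    rw [tauM_apply]
    fin_cases i <;> fin_cases j <;> simp [Matrix.one_apply, mul_pow]
  rw [actS, h, h3, Matrix.smul_mul, Matrix.one_mul, Matrix.mul_smul, Matrix.mul_one, smul_smul]
  have : c ^ 3 * c = 1 := by
    calc c ^ 3 * c = (c ^ 2) ^ 2 := by ring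
      _ = 1 := by rw [hc, one_pow]
  rw [this, one_smul]

theorem center_le_ker : Subgroup.center (SL(2, F)) ≤ (rhoS (F := F)).ker := by
  intro g hg
  rw [Matrix.SpecialLinearGroup.mem_center_iff] at hg
  obtain ⟨r, hr, hg⟩ := hg
  rw [MonoidHom.mem_ker]
  apply MulEquiv.ext
  intro x
  have hc : r ^ 2 = 1 := by simpa using hr
  have h2 : (g : Matrix (Fin 2) (Fin 2) F) = r • 1 := by
    rw [← hg]
    ext i j
    simp [Matrix.one_apply, Matrix.diagonal_apply]
  apply Multiplicative.toAdd.injective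
  exact actS_scalar g r hc h2 _

/-- The action of the projective group. -/
noncomputable def rhoL : L F →* MulAut (Multiplicative (Matrix (Fin 2) (Fin 2) F)) :=
  QuotientGroup.lift _ rhoS center_le_ker

/-- The action of the projective group on matrices. -/
noncomputable def act0 (x : L F) (X : Matrix (Fin 2) (Fin 2) F) : Matrix (Fin 2) (Fin 2) F :=
  Multiplicative.toAdd (rhoL x (Multiplicative.ofAdd X))

theorem act0_mk (g : SL(2, F)) (X : Matrix (Fin 2) (Fin 2) F) : act0 (mkL g) X = actS g X := rfl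

theorem act0_one (X : Matrix (Fin 2) (Fin 2) F) : act0 1 X = X := by
  simp [act0]

theorem act0_mul (a b : L F) (X : Matrix (Fin 2) (Fin 2) F) :
    act0 (a * b) X = act0 a (act0 b X) := by
  simp [act0]

theorem act0_add (s : L F) (x y : Matrix (Fin 2) (Fin 2) F) :
    act0 s (x + y) = act0 s x + act0 s y := by
  obtain ⟨g, rfl⟩ := QuotientGroup.mk_surjective s
  exact actS_add g x y

theorem act0_smul (s : L F) (c : F) (x : Matrix (Fin 2) (Fin 2) F) :
    act0 s (c • x) = c • act0 s x := by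
  obtain ⟨g, rfl⟩ := QuotientGroup.mk_surjective s
  exact actS_smul g c x

/-- The sign. -/
def sgn (ε : ℤˣ) : F := ((ε : ℤ) : F)

theorem sgn_one : sgn (1 : ℤˣ) = (1 : F) := by simp [sgn]

theorem sgn_mul (a b : ℤˣ) : sgn (a * b) = (sgn a * sgn b : F) := by simp [sgn]

theorem sgn_sq (a : ℤˣ) : (sgn a : F) ^ 2 = 1 := by
  rcases Int.units_eq_one_or a with rfl | rfl <;> simp [sgn]

/-- The action of the group `±1 × L`. -/
noncomputable def actT (p : ℤˣ × L F) (X : Matrix (Fin 2) (Fin 2) F) : Matrix (Fin 2) (Fin 2) F :=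
  (sgn p.1 : F) • act0 p.2 X

theorem actT_one (X : Matrix (Fin 2) (Fin 2) F) : actT 1 X = X := by
  simp [actT, act0_one, sgn_one]

theorem actT_mul (a b : ℤˣ × L F) (X : Matrix (Fin 2) (Fin 2) F) :
    actT (a * b) X = actT a (actT b X) := by
  simp only [actT, Prod.fst_mul, Prod.snd_mul, act0_mul, act0_smul, sgn_mul, smul_smul]

theorem actT_add (s : ℤˣ × L F) (x y : Matrix (Fin 2) (Fin 2) F) :
    actT s (x + y) = actT s x + actT s y := by
  simp [actT, act0_add, smul_add]

/-- The group. -/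
abbrev HH (F : Type) [Field F] [Fintype F] [CharP F 3] : Type :=
  SD (S := ℤˣ × L F) (W := Matrix (Fin 2) (Fin 2) F) actT actT_one actT_mul actT_add

theorem three_add (w : Matrix (Fin 2) (Fin 2) F) : w + w + w = 0 := by
  have h3 : (3 : F) = 0 := by
    have := CharP.cast_eq_zero F 3
    exact_mod_cast this
  ext i j
  simp only [Matrix.add_apply, Matrix.zero_apply]
  linear_combination (w i j) * h3


theorem minor2 (X : Matrix (Fin 2) (Fin 2) F) (hdet : X.det = 0) (i j k l : Fin 2) :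
    X k l * X i j = X k j * X i l := by
  rw [Matrix.det_fin_two] at hdet
  fin_cases i <;> fin_cases j <;> fin_cases k <;> fin_cases l <;> simp <;>
    first
      | ring1
      | linear_combination hdet
      | linear_combination -hdet

theorem three_eq_zero : (3 : F) = 0 := by
  have := CharP.cast_eq_zero F 3
  exact_mod_cast this

theorem fix_cases_rank1 (hneg : ∀ x : F, x ^ 2 ≠ -1) (e : F) (he : e ^ 2 = 1) (g : SL(2, F))
    (X : Matrix (Fin 2) (Fin 2) F) (hdet : X.det = 0) (i j : Fin 2) (hij : X i j ≠ 0)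
    (hfix : e • ((g : Matrix (Fin 2) (Fin 2) F) * X * tauM (g : Matrix (Fin 2) (Fin 2) F)) = X) :
    e = 1 ∧ (tr2 (g : Matrix (Fin 2) (Fin 2) F)) ^ 2 = 1 := by
  set G : Matrix (Fin 2) (Fin 2) F := (g : Matrix (Fin 2) (Fin 2) F) with hG
  set T : Matrix (Fin 2) (Fin 2) F := tauM G with hT
  have hgdet : G 0 0 * G 1 1 - G 0 1 * G 1 0 = 1 := by
    have := g.2
    rwa [Matrix.det_fin_two] at this
  set u : Fin 2 → F := fun k => X k j with hu
  set v : Fin 2 → F := fun l => X i l with hv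
  set D : F := X i j with hD
  have minor := minor2 X hdet i j
  set Gu : Fin 2 → F := fun k => G k 0 * u 0 + G k 1 * u 1 with hGu
  set Y : Fin 2 → F := fun l => v 0 * T 0 l + v 1 * T 1 l with hY
  have hE : ∀ k l, e * (Gu k * Y l) = u k * v l := by
    intro k l
    have h1 := congrFun (congrFun hfix k) l
    simp only [Matrix.smul_apply, smul_eq_mul, Matrix.mul_apply, Fin.sum_univ_two] at h1
    have h2 : X k l * D = u k * v l := minor k l
    rw [← h2, ← h1]
    have m00 := minor 0 0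
    have m01 := minor 0 1
    have m10 := minor 1 0
    have m11 := minor 1 1
    simp only [hGu, hY]
    have hD1 : (u 0 * v 0) = X 0 0 * D := m00.symm
    have hD2 : (u 0 * v 1) = X 0 1 * D := m01.symm
    have hD3 : (u 1 * v 0) = X 1 0 * D := m10.symm
    have hD4 : (u 1 * v 1) = X 1 1 * D := m11.symm
    linear_combination
      (e * G k 0 * T 0 l) * hD1 + (e * G k 1 * T 0 l) * hD3 + (e * G k 0 * T 1 l) * hD2 +
        (e * G k 1 * T 1 l) * hD4
  have hui : u i = D := rfl
  have hvj : v j = D := rfl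
  have hii := hE i j
  rw [hui, hvj] at hii
  have hDD : D * D ≠ 0 := mul_ne_zero hij hij
  have hGi : Gu i ≠ 0 := by
    intro h0
    rw [h0, zero_mul, mul_zero] at hii
    exact hDD hii.symm
  have hYj : Y j ≠ 0 := by
    intro h0
    rw [h0, mul_zero, mul_zero] at hii
    exact hDD hii.symm
  have he0 : e ≠ 0 := by
    intro h0
    rw [h0, zero_mul] at hii
    exact hDD hii.symm
  set lam : F := Gu i / D with hlam
  have hlam0 : lam ≠ 0 := div_ne_zero hGi hij
  have hGilam : Gu i = lam * D := by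
    rw [hlam]
    field_simp
  have hGueig : ∀ k, Gu k = lam * u k := by
    intro k
    have h1 := hE k j
    rw [hvj] at h1
    -- `Gu k * (e * Y j) = u k * D` and `Gu i * (e * Y j) = D * D`
    have h2 : Gu k * (D * D) = Gu i * (u k * D) := by
      rw [← h1, ← hii]
      ring
    have h3 : D * (Gu k * D - lam * u k * D) = 0 := by
      rw [hGilam] at h2
      linear_combination h2
    have h4 := (mul_eq_zero.1 h3).resolve_left hij
    have h5 : (Gu k - lam * u k) * D = 0 := by linear_combination h4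
    have h6 := (mul_eq_zero.1 h5).resolve_right hij
    exact sub_eq_zero.1 h6
  set mu : F := e * lam⁻¹ with hmu
  have hYeig : ∀ l, Y l = mu * v l := by
    intro l
    have h1 := hE i l
    rw [hui, hGilam] at h1
    have h2 : D * (e * lam * Y l - v l) = 0 := by linear_combination h1
    have h3 := (mul_eq_zero.1 h2).resolve_left hij
    rw [hmu]
    field_simp
    have h4 : e * e = 1 := by rw [← pow_two]; exact he
    linear_combination e * h3 + (- Y l * lam) * h4
  have hlamroot : lam ^ 2 - tr2 G * lam + 1 = 0 := by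
    have h0 := hGueig 0
    have h1 := hGueig 1
    simp only [hGu] at h0 h1
    have hP0 : (lam ^ 2 - tr2 G * lam + 1) * u 0 = 0 := by
      simp only [tr2]
      linear_combination (G 1 1 - lam) * h0 - G 0 1 * h1 - u 0 * hgdet
    have hP1 : (lam ^ 2 - tr2 G * lam + 1) * u 1 = 0 := by
      simp only [tr2]
      linear_combination (G 0 0 - lam) * h1 - G 1 0 * h0 - u 1 * hgdet
    have hui' : u i ≠ 0 := hij
    by_contra hne
    have h0' := (mul_eq_zero.1 hP0).resolve_left hne
    have h1' := (mul_eq_zero.1 hP1).resolve_left hne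
    fin_cases i
    · exact hui' h0'
    · exact hui' h1'
  have hmuroot : mu ^ 2 - (tr2 G) ^ 3 * mu + 1 = 0 := by
    have h0 := hYeig 0
    have h1 := hYeig 1
    simp only [hY] at h0 h1
    have hT00 : T 0 0 = (G 0 0) ^ 3 := tauM_apply G 0 0
    have hT01 : T 0 1 = (G 1 0) ^ 3 := tauM_apply G 0 1
    have hT10 : T 1 0 = (G 0 1) ^ 3 := tauM_apply G 1 0
    have hT11 : T 1 1 = (G 1 1) ^ 3 := tauM_apply G 1 1
    rw [hT00, hT10] at h0
    rw [hT01, hT11] at h1
    have hdet3 : (G 0 0) ^ 3 * (G 1 1) ^ 3 - (G 0 1) ^ 3 * (G 1 0) ^ 3 = 1 := by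
      have : (G 0 0 * G 1 1 - G 0 1 * G 1 0) ^ 3 = 1 := by rw [hgdet, one_pow]
      rw [sub_pow_char] at this
      rw [← this]
      ring
    have htr3 : (tr2 G) ^ 3 = (G 0 0) ^ 3 + (G 1 1) ^ 3 := by
      simp only [tr2]
      rw [add_pow_char]
    rw [htr3]
    have hP0 : (mu ^ 2 - ((G 0 0) ^ 3 + (G 1 1) ^ 3) * mu + 1) * v 0 = 0 := by
      linear_combination ((G 1 1) ^ 3 - mu) * h0 - (G 0 1) ^ 3 * h1 - v 0 * hdet3
    have hP1 : (mu ^ 2 - ((G 0 0) ^ 3 + (G 1 1) ^ 3) * mu + 1) * v 1 = 0 := by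
      linear_combination ((G 0 0) ^ 3 - mu) * h1 - (G 1 0) ^ 3 * h0 - v 1 * hdet3
    have hvj' : v j ≠ 0 := hij
    by_contra hne
    have h0' := (mul_eq_zero.1 hP0).resolve_left hne
    have h1' := (mul_eq_zero.1 hP1).resolve_left hne
    fin_cases j
    · exact hvj' h0'
    · exact hvj' h1'
  -- the arithmetic
  have ht : tr2 G = lam + lam⁻¹ := by
    field_simp
    linear_combination -hlamroot
  have ht3 : (tr2 G) ^ 3 = lam ^ 3 + (lam⁻¹) ^ 3 := by
    rw [ht, add_pow_char]
  have hfac : (mu - lam ^ 3) * (mu - (lam⁻¹) ^ 3) = 0 := by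
    have h1 : lam ^ 3 * (lam⁻¹) ^ 3 = 1 := by
      rw [← mul_pow, mul_inv_cancel₀ hlam0, one_pow]
    rw [ht3] at hmuroot
    linear_combination hmuroot + h1
  have hee : e = 1 ∨ e = -1 := by
    have : (e - 1) * (e + 1) = 0 := by linear_combination he
    rcases mul_eq_zero.1 this with h | h
    · exact Or.inl (sub_eq_zero.1 h)
    · exact Or.inr (eq_neg_of_add_eq_zero_left h)
  have h1lam : lam * lam⁻¹ = 1 := mul_inv_cancel₀ hlam0
  have hcase : lam ^ 4 = e ∨ lam ^ 2 = e := by
    rcases mul_eq_zero.1 hfac with h | h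
    · left
      have h2 : e * lam⁻¹ = lam ^ 3 := sub_eq_zero.1 h
      calc lam ^ 4 = lam ^ 3 * lam := by ring
        _ = e * lam⁻¹ * lam := by rw [h2]
        _ = e := by field_simp
    · right
      have h2 : e * lam⁻¹ = (lam⁻¹) ^ 3 := sub_eq_zero.1 h
      have h4 : e * e = 1 := by rw [← pow_two]; exact he
      have h3 : e * lam ^ 2 = 1 := by
        calc e * lam ^ 2 = (e * lam⁻¹) * lam ^ 3 := by field_simp
          _ = (lam⁻¹) ^ 3 * lam ^ 3 := by rw [h2]
          _ = 1 := by rw [← mul_pow, inv_mul_cancel₀ hlam0, one_pow]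
      linear_combination e * h3 - (lam ^ 2) * h4
  have hconcl : e = 1 ∧ lam ^ 2 = 1 := by
    rcases hee with rfl | rfl
    · refine ⟨rfl, ?_⟩
      rcases hcase with h | h
      · have : (lam ^ 2 - 1) * (lam ^ 2 + 1) = 0 := by linear_combination h
        rcases mul_eq_zero.1 this with h2 | h2
        · exact sub_eq_zero.1 h2
        · exact absurd (eq_neg_of_add_eq_zero_left h2) (hneg lam)
      · exact h
    · exfalso
      rcases hcase with h | h
      · exact hneg (lam ^ 2) (by rw [← pow_mul]; exact h)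
      · exact hneg lam h
  refine ⟨hconcl.1, ?_⟩
  have hli : lam⁻¹ = lam := by
    have := hconcl.2
    field_simp
    linear_combination -this
  rw [ht, hli]
  have h3 : (3 : F) = 0 := three_eq_zero
  linear_combination 4 * hconcl.2 + h3

theorem fix_cases_full (hneg : ∀ x : F, x ^ 2 ≠ -1) (e : F) (he : e ^ 2 = 1) (g : SL(2, F))
    (X : Matrix (Fin 2) (Fin 2) F) (hdet : X.det ≠ 0)
    (hfix : e • ((g : Matrix (Fin 2) (Fin 2) F) * X * tauM (g : Matrix (Fin 2) (Fin 2) F)) = X) :
    tr2 (g : Matrix (Fin 2) (Fin 2) F) = 0 ∨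
      (e = 1 ∧ (tr2 (g : Matrix (Fin 2) (Fin 2) F)) ^ 2 = 1) := by
  set G : Matrix (Fin 2) (Fin 2) F := (g : Matrix (Fin 2) (Fin 2) F) with hG
  set T : Matrix (Fin 2) (Fin 2) F := tauM G with hT
  set t := tr2 G with ht
  set Gi : Matrix (Fin 2) (Fin 2) F := ((g⁻¹ : SL(2, F)) : Matrix (Fin 2) (Fin 2) F) with hGi
  have hGiG : Gi * G = 1 := by
    rw [hGi, hG, ← Matrix.SpecialLinearGroup.coe_mul, inv_mul_cancel]
    rfl
  have hGtr : Matrix.trace Gi = t := by
    rw [hGi, Matrix.SpecialLinearGroup.coe_inv, Matrix.adjugate_fin_two, Matrix.trace_fin_two]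
    simp [ht, tr2, hG, add_comm]
  have hXi : X⁻¹ * X = 1 := Matrix.nonsing_inv_mul X (isUnit_iff_ne_zero.2 hdet)
  have hXi' : X * X⁻¹ = 1 := Matrix.mul_nonsing_inv X (isUnit_iff_ne_zero.2 hdet)
  have h2 : G * X * T = e • X := by
    calc G * X * T = (e * e) • (G * X * T) := by
          rw [← pow_two, he, one_smul]
      _ = e • (e • (G * X * T)) := by rw [smul_smul]
      _ = e • X := by rw [hfix]
  have h3 : T = e • (X⁻¹ * Gi * X) := by
    calc T = X⁻¹ * (Gi * G) * X * T := by rw [hGiG, Matrix.mul_one, hXi, Matrix.one_mul]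
      _ = X⁻¹ * Gi * (G * X * T) := by simp only [Matrix.mul_assoc]
      _ = e • (X⁻¹ * Gi * X) := by rw [h2, Matrix.mul_smul]
  have h4 : Matrix.trace T = e * t := by
    rw [h3, Matrix.trace_smul, Matrix.mul_assoc, Matrix.trace_mul_comm, Matrix.mul_assoc, hXi',
      Matrix.mul_one, hGtr, smul_eq_mul]
  have h5 : Matrix.trace T = t ^ 3 := by
    rw [Matrix.trace_fin_two, hT, tauM_apply, tauM_apply, ht]
    simp only [tr2]
    rw [add_pow_char]
  rw [h5] at h4
  have h6 : t * (t ^ 2 - e) = 0 := by linear_combination h4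
  rcases mul_eq_zero.1 h6 with h7 | h7
  · exact Or.inl h7
  · right
    have h8 : t ^ 2 = e := sub_eq_zero.1 h7
    have hee : e = 1 ∨ e = -1 := by
      have : (e - 1) * (e + 1) = 0 := by linear_combination he
      rcases mul_eq_zero.1 this with h | h
      · exact Or.inl (sub_eq_zero.1 h)
      · exact Or.inr (eq_neg_of_add_eq_zero_left h)
    rcases hee with h9 | h9
    · exact ⟨h9, by rw [h8, h9]⟩
    · exact absurd (by rw [h8, h9]) (hneg t)

theorem fix_cases (hneg : ∀ x : F, x ^ 2 ≠ -1) (e : F) (he : e ^ 2 = 1) (g : SL(2, F))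
    (X : Matrix (Fin 2) (Fin 2) F) (hX : X ≠ 0)
    (hfix : e • ((g : Matrix (Fin 2) (Fin 2) F) * X * tauM (g : Matrix (Fin 2) (Fin 2) F)) = X) :
    tr2 (g : Matrix (Fin 2) (Fin 2) F) = 0 ∨
      (e = 1 ∧ (tr2 (g : Matrix (Fin 2) (Fin 2) F)) ^ 2 = 1) := by
  by_cases hdet : X.det = 0
  · have : ∃ i j, X i j ≠ 0 := by
      by_contra hcon
      push Not at hcon
      exact hX (by ext i j; exact hcon i j)
    obtain ⟨i, j, hij⟩ := this
    exact Or.inr (fix_cases_rank1 hneg e he g X hdet i j hij hfix)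
  · exact fix_cases_full hneg e he g X hdet hfix


theorem trace_zero_sq (g : SL(2, F)) (ht : tr2 (g : Matrix (Fin 2) (Fin 2) F) = 0) :
    (mkL g) ^ 2 = 1 := by
  rw [mkL_pow_eq_one_iff]
  refine ⟨-1, by ring, ?_⟩
  rw [pow_two, sq_eq, ht, zero_smul, zero_sub]
  simp

theorem trace_sq_cube (g : SL(2, F)) (ht : (tr2 (g : Matrix (Fin 2) (Fin 2) F)) ^ 2 = 1) :
    (mkL g) ^ 3 = 1 := by
  refine case_unip 3 g (-(tr2 (g : Matrix (Fin 2) (Fin 2) F))) ?_ ?_
  · have h3 : (3 : F) = 0 := three_eq_zero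
    linear_combination 2 * ht + h3
  · refine eq_inv_of_mul_eq_one_left ?_
    linear_combination ht

theorem two_ne_zero' : (2 : F) ≠ 0 := by
  intro h
  have h3 : (3 : F) = 0 := three_eq_zero
  have : (1 : F) = 0 := by linear_combination h3 - h
  exact one_ne_zero this

theorem sgn_eq_one (ε : ℤˣ) (h : (sgn ε : F) = 1) : ε = 1 := by
  rcases Int.units_eq_one_or ε with rfl | rfl
  · rfl
  · exfalso
    have h2 : (-1 : F) = 1 := by simpa [sgn] using h
    exact two_ne_zero' (F := F) (by linear_combination -h2)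

theorem units_pow_even (ε : ℤˣ) (n : ℕ) (hn : Even n) : ε ^ n = 1 := by
  obtain ⟨k, rfl⟩ := hn
  rw [← two_mul, pow_mul, Int.units_sq, one_pow]

theorem HH_cases (hneg : ∀ x : F, x ^ 2 ≠ -1) (hbe : Even (bN F)) (h : HH F) :
    h ^ 6 = 1 ∨ h ^ 9 = 1 ∨ h ^ (2 * aN F) = 1 ∨ h ^ bN F = 1 := by
  set s : ℤˣ × L F := h.right with hs
  obtain ⟨g, hg⟩ := QuotientGroup.mk_surjective s.2
  have hg' : s.2 = mkL g := hg.symm
  by_cases hfix : ∀ w, actT s w = w → w = 0
  · rcases pow_cases 3 s.2 with h1 | h1 | h1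
    · right; right; left
      apply pow_eq_one_of_nofix _ _ _ _ h _ _ hfix
      apply Prod.ext
      · exact units_pow_even _ _ (even_two_mul _)
      · change s.2 ^ (2 * aN F) = 1
        rw [mul_comm, pow_mul, h1, one_pow]
    · right; right; right
      apply pow_eq_one_of_nofix _ _ _ _ h _ _ hfix
      apply Prod.ext
      · exact units_pow_even _ _ hbe
      · exact h1
    · left
      apply pow_eq_one_of_nofix _ _ _ _ h _ _ hfix
      apply Prod.ext
      · exact units_pow_even _ _ (by decide)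
      · change s.2 ^ 6 = 1
        rw [show 6 = 3 * 2 from rfl, pow_mul, h1, one_pow]
  · push Not at hfix
    obtain ⟨X, hX1, hX0⟩ := hfix
    have hX2 : (sgn s.1 : F) • ((g : Matrix (Fin 2) (Fin 2) F) * X *
        tauM (g : Matrix (Fin 2) (Fin 2) F)) = X := by
      have : actT s X = (sgn s.1 : F) • act0 (mkL g) X := by
        rw [actT, hg']
      rw [this, act0_mk] at hX1
      exact hX1
    rcases fix_cases hneg _ (sgn_sq s.1) g X hX0 hX2 with ht | ⟨he, ht⟩
    · left
      have h2 := trace_zero_sq g ht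
      have hr : (h ^ 2).right = 1 := by
        rw [right_pow]
        apply Prod.ext
        · exact units_pow_even _ _ (by decide)
        · change s.2 ^ 2 = 1
          rw [hg', h2]
      have := pow_three_of_right _ _ _ _ three_add (h ^ 2) hr
      rw [← pow_mul] at this
      exact this
    · right; left
      have h2 := trace_sq_cube g ht
      have he1 := sgn_eq_one _ he
      have hr : (h ^ 3).right = 1 := by
        rw [right_pow]
        apply Prod.ext
        · change s.1 ^ 3 = 1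
          rw [he1, one_pow]
        · change s.2 ^ 3 = 1
          rw [hg', h2]
      have := pow_three_of_right _ _ _ _ three_add (h ^ 3) hr
      rw [← pow_mul] at this
      exact this

theorem exists_order_of_S (s : ℤˣ × L F) : ∃ h : HH F, orderOf h = orderOf s :=
  ⟨SemidirectProduct.inr s, orderOf_injective _ SemidirectProduct.inr_injective s⟩

theorem orderOf_neg_one_units : orderOf (-1 : ℤˣ) = 2 := by
  have : Fact (Nat.Prime 2) := ⟨Nat.prime_two⟩
  exact orderOf_eq_prime (by decide) (by decide)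

/-- The unipotent element. -/
def uu : SL(2, F) := ⟨!![1, 1; 0, 1], by simp [Matrix.det_fin_two]⟩

theorem actS_uu (X : Matrix (Fin 2) (Fin 2) F) :
    actS (uu (F := F)) X 0 0 = X 0 0 + X 0 1 + X 1 0 + X 1 1 ∧
    actS (uu (F := F)) X 0 1 = X 0 1 + X 1 1 ∧
    actS (uu (F := F)) X 1 0 = X 1 0 + X 1 1 ∧
    actS (uu (F := F)) X 1 1 = X 1 1 := by
  have h00 : tauM ((uu (F := F)) : Matrix (Fin 2) (Fin 2) F) 0 0 = 1 := by
    rw [tauM_apply]; simp [uu]
  have h01 : tauM ((uu (F := F)) : Matrix (Fin 2) (Fin 2) F) 0 1 = 0 := by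
    rw [tauM_apply]; simp [uu]
  have h10 : tauM ((uu (F := F)) : Matrix (Fin 2) (Fin 2) F) 1 0 = 1 := by
    rw [tauM_apply]; simp [uu]
  have h11 : tauM ((uu (F := F)) : Matrix (Fin 2) (Fin 2) F) 1 1 = 1 := by
    rw [tauM_apply]; simp [uu]
  simp only [actS, Matrix.mul_apply, Fin.sum_univ_two, h00, h01, h10, h11]
  simp [uu]
  ring

/-- An element of order nine. -/
theorem exists_order_nine : ∃ h : HH F, orderOf h = 9 := by
  let X0 : Matrix (Fin 2) (Fin 2) F := !![0, 0; 0, 1]
  let s : ℤˣ × L F := (1, mkL (uu (F := F)))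
  let h : HH F := ⟨Multiplicative.ofAdd X0, s⟩
  have hu3 : (mkL (uu (F := F))) ^ 3 = 1 := by
    apply trace_sq_cube
    have h3 : (3 : F) = 0 := three_eq_zero
    have : tr2 ((uu (F := F)) : Matrix (Fin 2) (Fin 2) F) = 2 := by
      simp [tr2, uu]
      norm_num
    rw [this]
    linear_combination h3
  have hs3 : h.right ^ 3 = 1 := by
    apply Prod.ext
    · change (1 : ℤˣ) ^ 3 = 1
      rw [one_pow]
    · exact hu3
  have h9 : h ^ 3 ^ 2 = 1 := by
    have hr : (h ^ 3).right = 1 := by rw [right_pow, hs3]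
    have := pow_three_of_right _ _ _ _ three_add (h ^ 3) hr
    rw [← pow_mul] at this
    exact this
  have h3ne : ¬ h ^ 3 ^ 1 = 1 := by
    intro hcon
    have hcon' : h ^ 3 = 1 := by simpa using hcon
    have hp : h ^ 3 = h * h * h := by rw [pow_succ, pow_two]
    have hsact : ∀ X, actT s X = actS (uu (F := F)) X := by
      intro X
      change (sgn (1 : ℤˣ) : F) • act0 (mkL (uu (F := F))) X = _
      rw [sgn_one, one_smul, act0_mk]
    have hl : Multiplicative.toAdd (h ^ 3).left =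
        X0 + actS (uu (F := F)) X0 + actS (uu (F := F)) (actS (uu (F := F)) X0) := by
      rw [hp, left_mul, left_mul]
      have hr2 : (h * h).right = s * s := rfl
      rw [hr2, actT_mul]
      change X0 + actT s X0 + actT s (actT s X0) = _
      simp only [hsact]
    rw [hcon'] at hl
    have h00 := congrFun (congrFun hl 0) 0
    obtain ⟨a1, a2, a3, a4⟩ := actS_uu (F := F) X0
    obtain ⟨b1, -, -, -⟩ := actS_uu (F := F) (actS (uu (F := F)) X0)
    simp only [Matrix.add_apply] at h00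
    rw [b1, a1, a2, a3, a4] at h00
    have hx00 : X0 0 0 = 0 := rfl
    have hx01 : X0 0 1 = 0 := rfl
    have hx10 : X0 1 0 = 0 := rfl
    have hx11 : X0 1 1 = 1 := rfl
    rw [hx00, hx01, hx10, hx11] at h00
    have hz : (Multiplicative.toAdd (1 : HH F).left) 0 0 = 0 := rfl
    rw [hz] at h00
    apply two_ne_zero' (F := F)
    have h3 : (3 : F) = 0 := three_eq_zero
    linear_combination -h00 - h3
  exact ⟨h, orderOf_eq_prime_pow h3ne h9⟩

theorem exists_normal_three : ∃ P : Subgroup (HH F), P.Normal ∧ P ≠ ⊥ ∧ IsPGroup 3 ↥P := by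
  let P : Subgroup (HH F) := (SemidirectProduct.inl (G := ℤˣ × L F)
    (φ := actHom actT actT_one actT_mul actT_add)).range
  refine ⟨P, ?_, ?_, ?_⟩
  · change (SemidirectProduct.inl (G := ℤˣ × L F)
      (φ := actHom actT actT_one actT_mul actT_add)).range.Normal
    rw [SemidirectProduct.range_inl_eq_ker_rightHom]
    exact MonoidHom.normal_ker _
  · intro hP
    let X0 : Matrix (Fin 2) (Fin 2) F := !![0, 0; 0, 1]
    have h1 : SemidirectProduct.inl (G := ℤˣ × L F)
        (φ := actHom actT actT_one actT_mul actT_add) (Multiplicative.ofAdd X0) ∈ P := ⟨_, rfl⟩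
    rw [hP, Subgroup.mem_bot] at h1
    have h2 := congrArg (fun z : HH F => (Multiplicative.toAdd z.left) 1 1) h1
    have h3 : (Multiplicative.toAdd (1 : HH F).left) 1 1 = 0 := rfl
    have h4 : (1 : F) = 0 := h2.trans h3
    exact one_ne_zero h4
  · rintro ⟨x, w, rfl⟩
    refine ⟨1, ?_⟩
    apply Subtype.ext
    have := pow_three_of_right _ _ _ _ three_add (SemidirectProduct.inl (G := ℤˣ × L F)
        (φ := actHom actT actT_one actT_mul actT_add) w) (SemidirectProduct.right_inl w)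
    simpa using this

end field

theorem arith_mod (α : ℕ) (hodd : Odd α) : 3 ^ α % 8 = 3 := by
  obtain ⟨k, rfl⟩ := hodd
  rw [pow_succ, pow_mul]
  have : (3 ^ 2) ^ k % 8 = 1 := by
    rw [Nat.pow_mod]
    norm_num
  omega

/-- Let q = 3^α with α ≥ 3 odd. There is a finite group H having a non-trivial normal 3-subgroup and whose element orders maximal under divisibility are exactly 6, 9, q − 1 and (q + 1)/2. -/
theorem result (α : ℕ) (hα : 3 ≤ α) (hodd : Odd α) :
    ∃ (H : Type) (_ : Group H) (_ : Fintype H), (∃ P : Subgroup H, P.Normal ∧ P ≠ ⊥ ∧ IsPGroup 3 ↥P) ∧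
      {n : ℕ | n ∈ Set.range (orderOf : H → ℕ) ∧ ∀ m ∈ Set.range (orderOf : H → ℕ), n ∣ m → m = n} = ({6, 9, 3 ^ α - 1, (3 ^ α + 1) / 2} : Set ℕ) := by
  classical
  let F := GaloisField 3 α
  letI : Fintype F := Fintype.ofFinite F
  have hcard : Fintype.card F = 3 ^ α := by
    rw [← Nat.card_eq_fintype_card]
    exact GaloisField.card 3 α (by omega)
  set Q := 3 ^ α with hQ
  have hQ8 : Q % 8 = 3 := arith_mod α hodd
  have hQ27 : 27 ≤ Q := by
    calc 27 = 3 ^ 3 := by norm_num
      _ ≤ 3 ^ α := Nat.pow_le_pow_right (by norm_num) hα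
  have hQ3 : 3 ∣ Q := dvd_pow_self 3 (by omega)
  obtain ⟨k, hk⟩ : ∃ k, Q = 8 * k + 3 := ⟨Q / 8, by omega⟩
  have hgcd : Nat.gcd 2 (Fintype.card F - 1) = 2 := by
    rw [hcard, hk]
    apply Nat.gcd_eq_left
    exact ⟨4 * k + 1, by omega⟩
  have haN : aN F = 4 * k + 1 := by
    rw [aN, hgcd, hcard, hk]
    omega
  have hbN : bN F = 4 * k + 2 := by
    rw [bN, hgcd, hcard, hk]
    omega
  have hneg : ∀ x : F, x ^ 2 ≠ -1 := by
    intro x hx
    have hx0 : x ≠ 0 := by
      rintro rfl
      have : (0 : F) = -1 := by simpa using hx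
      exact one_ne_zero (neg_eq_zero.1 this.symm)
    have h1 : x ^ (Fintype.card F - 1) = 1 := FiniteField.pow_card_sub_one_eq_one x hx0
    have h2 : Fintype.card F - 1 = 2 * (4 * k + 1) := by
      rw [hcard, hk]
      omega
    rw [h2, pow_mul, hx] at h1
    have h3 : (-1 : F) ^ (4 * k + 1) = -1 := Odd.neg_one_pow ⟨2 * k, by ring⟩
    rw [h3] at h1
    exact two_ne_zero' (F := F) (by linear_combination -h1)
  have hfin : Finite (HH F) := by
    let e : HH F ≃ Multiplicative (Matrix (Fin 2) (Fin 2) F) × (ℤˣ × L F) :=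
      SemidirectProduct.equivProd
    exact Finite.of_equiv _ e.symm
  have hbe : Even (bN F) := by
    rw [hbN]
    exact ⟨2 * k + 1, by ring⟩
  have h2aN : 2 * aN F = Q - 1 := by
    rw [haN, hk]
    omega
  have hbN' : bN F = (Q + 1) / 2 := by
    rw [hbN, hk]
    omega
  have f1 : ∀ h : HH F, orderOf h ∣ 6 ∨ orderOf h ∣ 9 ∨ orderOf h ∣ Q - 1 ∨ orderOf h ∣ (Q + 1) / 2 := by
    intro h
    rcases HH_cases hneg hbe h with h1 | h1 | h1 | h1
    · exact Or.inl (orderOf_dvd_of_pow_eq_one h1)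
    · exact Or.inr (Or.inl (orderOf_dvd_of_pow_eq_one h1))
    · rw [h2aN] at h1
      exact Or.inr (Or.inr (Or.inl (orderOf_dvd_of_pow_eq_one h1)))
    · rw [hbN'] at h1
      exact Or.inr (Or.inr (Or.inr (orderOf_dvd_of_pow_eq_one h1)))
  have e6 : ∃ h : HH F, orderOf h = 6 := by
    obtain ⟨x, hx⟩ := exists_order_p (F := F) 3
    obtain ⟨h, hh⟩ := exists_order_of_S ((-1, x) : ℤˣ × L F)
    refine ⟨h, ?_⟩
    rw [hh, Prod.orderOf_mk, orderOf_neg_one_units, hx]
    rfl
  have e9 := exists_order_nine (F := F)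
  have eQ : ∃ h : HH F, orderOf h = Q - 1 := by
    obtain ⟨x, hx⟩ := exists_order_a (F := F)
    obtain ⟨h, hh⟩ := exists_order_of_S ((-1, x) : ℤˣ × L F)
    refine ⟨h, ?_⟩
    rw [hh, Prod.orderOf_mk, orderOf_neg_one_units, hx, ← h2aN, haN]
    apply Nat.Coprime.lcm_eq_mul
    exact Nat.coprime_two_left.2 ⟨2 * k, by ring⟩
  have eB : ∃ h : HH F, orderOf h = (Q + 1) / 2 := by
    obtain ⟨x, hx⟩ := exists_order_b (F := F) 3
    obtain ⟨h, hh⟩ := exists_order_of_S ((1, x) : ℤˣ × L F)
    refine ⟨h, ?_⟩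
    rw [hh, Prod.orderOf_mk, orderOf_one, hx, Nat.lcm_one_left, hbN']
  refine ⟨HH F, inferInstance, Fintype.ofFinite _, exists_normal_three, ?_⟩
  -- arithmetic on the four numbers
  have hB : (Q + 1) / 2 = 4 * k + 2 := by
    rw [hk]
    omega
  have hQ1 : Q - 1 = 8 * k + 2 := by
    rw [hk]
    omega
  have hk3 : 3 ≤ k := by omega
  have h3k : (8 * k + 3) % 3 = 0 := by
    rw [← hk]
    exact Nat.mod_eq_zero_of_dvd hQ3
  rw [hB, hQ1]
  have f1' : ∀ h : HH F, orderOf h ∣ 6 ∨ orderOf h ∣ 9 ∨ orderOf h ∣ 8 * k + 2 ∨ orderOf h ∣ 4 * k + 2 := by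
    intro h
    have := f1 h
    rwa [hB, hQ1] at this
  obtain ⟨h6, hh6⟩ := e6
  obtain ⟨h9, hh9⟩ := e9
  obtain ⟨hq, hhq⟩ := eQ
  rw [hQ1] at hhq
  obtain ⟨hb, hhb⟩ := eB
  rw [hB] at hhb
  have hnd : ∀ a b : ℕ, a ∈ ({6, 9, 8 * k + 2, 4 * k + 2} : Set ℕ) →
      b ∈ ({6, 9, 8 * k + 2, 4 * k + 2} : Set ℕ) → a ∣ b → a = b := by
    have hd3 : ∀ m, 3 ∣ m → m ∣ 8 * k + 2 → False := by
      intro m h1 h2
      have h4 : 3 ∣ 8 * k + 2 := h1.trans h2
      omega
    have hd4 : ∀ m, 3 ∣ m → m ∣ 4 * k + 2 → False := by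
      intro m h1 h2
      have h4 : 3 ∣ 4 * k + 2 := h1.trans h2
      omega
    intro a b ha hb hab
    simp only [Set.mem_insert_iff, Set.mem_singleton_iff] at ha hb
    rcases ha with rfl | rfl | rfl | rfl <;> rcases hb with rfl | rfl | rfl | rfl
    · rfl
    · omega
    · exact (hd3 6 (by norm_num) hab).elim
    · exact (hd4 6 (by norm_num) hab).elim
    · omega
    · rfl
    · exact (hd3 9 (by norm_num) hab).elim
    · exact (hd4 9 (by norm_num) hab).elim
    · have := Nat.le_of_dvd (by norm_num) hab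
      omega
    · have := Nat.le_of_dvd (by norm_num) hab
      omega
    · rfl
    · have := Nat.le_of_dvd (by omega) hab
      omega
    · have := Nat.le_of_dvd (by norm_num) hab
      omega
    · have := Nat.le_of_dvd (by norm_num) hab
      omega
    · exfalso
      -- `4k + 2 ∣ 8k + 2` forces `4k + 2 ∣ 2`
      have h1 : 4 * k + 2 ∣ 2 * (4 * k + 2) := dvd_mul_left _ _
      have h2 : 4 * k + 2 ∣ 2 := by
        have h3 : 2 * (4 * k + 2) = (8 * k + 2) + 2 := by ring
        rw [h3] at h1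
        exact (Nat.dvd_add_right hab).1 h1
      have := Nat.le_of_dvd (by norm_num) h2
      omega
    · rfl
  have hinS : ∀ h : HH F, ∃ b ∈ ({6, 9, 8 * k + 2, 4 * k + 2} : Set ℕ), orderOf h ∣ b := by
    intro h
    rcases f1' h with h1 | h1 | h1 | h1
    · exact ⟨6, by simp, h1⟩
    · exact ⟨9, by simp, h1⟩
    · exact ⟨8 * k + 2, by simp, h1⟩
    · exact ⟨4 * k + 2, by simp, h1⟩
  have hSin : ∀ b ∈ ({6, 9, 8 * k + 2, 4 * k + 2} : Set ℕ), b ∈ Set.range (orderOf : HH F → ℕ) := by
    intro b hb'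
    simp only [Set.mem_insert_iff, Set.mem_singleton_iff] at hb'
    rcases hb' with rfl | rfl | rfl | rfl
    · exact ⟨h6, hh6⟩
    · exact ⟨h9, hh9⟩
    · exact ⟨hq, hhq⟩
    · exact ⟨hb, hhb⟩
  ext n
  constructor
  · rintro ⟨⟨h, rfl⟩, hmax⟩
    obtain ⟨b, hb', hdvd⟩ := hinS h
    have := hmax b (hSin b hb') hdvd
    rwa [this] at hb'
  · intro hn
    refine ⟨hSin n hn, ?_⟩
    rintro m ⟨h, rfl⟩ hdvd
    obtain ⟨b, hb', hdvd2⟩ := hinS h
    have h1 := hnd n b hn hb' (hdvd.trans hdvd2)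
    subst h1
    exact Nat.dvd_antisymm hdvd2 hdvd

end Cfsg.Agent.S2515
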