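import Cfsg.Statements.S2516
-- import your own Cfsg.Agent.* helpers here

set_option autoImplicit false
open Cfsg

namespace Cfsg.Agent.S2516

/-- Let F be a field of characteristic p > 0, V a non-zero finite-dimensional F-vector space, G a finite group and ρ a representation of G on V; form the semidirect product V ⋊ G. For g ∈ G of order k, the coset Vg contains an element of order pk if and only if the minimal polynomial of ρ(g) does not divide 1 + X + ⋯ + X^(k−1). -/
theorem result {F : Type*} [Field F] (p : ℕ) [Fact p.Prime] [CharP F p] {V : Type*} [AddCommGroup V] [Module F V] [FiniteDimensional F V] [Nontrivial V]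
    {G : Type*} [Group G] [Finite G] (ρ : Representation F G V) (g : G) :
    (∃ x : Multiplicative V ⋊[(MulAutMultiplicative V).symm.toMonoidHom.comp
        ((DistribMulAction.toAddAut ((V →ₗ[F] V)ˣ) V).comp ρ.asGroupHom)] G,
        x.right = g ∧ orderOf x = p * orderOf g) ↔
      ¬ (minpoly F (ρ g) ∣ ∑ i ∈ Finset.range (orderOf g), (Polynomial.X : Polynomial F) ^ i) := by
  classical
  set φ : G →* MulAut (Multiplicative V) := (MulAutMultiplicative V).symm.toMonoidHom.comp
        ((DistribMulAction.toAddAut ((V →ₗ[F] V)ˣ) V).comp ρ.asGroupHom) with hφ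
  have hφ_apply : ∀ (g : G) (v : V), φ g (Multiplicative.ofAdd v) = Multiplicative.ofAdd (ρ g v) := by
    intro g v
    rfl
  have hpow : ∀ (v : V) (n : ℕ), ((⟨Multiplicative.ofAdd v, g⟩ : Multiplicative V ⋊[φ] G) ^ n) =
      ⟨Multiplicative.ofAdd (∑ i ∈ Finset.range n, ((ρ g) ^ i) v), g ^ n⟩ := by
    intro v n
    induction n with
    | zero => 
      simp only [pow_zero, Finset.range_zero, Finset.sum_empty]
      rfl
    | succ n ih =>
      rw [pow_succ, ih]
      apply SemidirectProduct.ext
      · simp only [SemidirectProduct.mul_left]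
        have hgn : ∀ w : V, φ (g ^ n) (Multiplicative.ofAdd w) = Multiplicative.ofAdd (((ρ g) ^ n) w) := by
          intro w
          rw [hφ_apply, map_pow]
        rw [hgn, ← ofAdd_add, Finset.sum_range_succ]
      · show g ^ n * g = g ^ (n + 1)
        rw [pow_succ]
  set k := orderOf g with hk
  have hk0 : 0 < k := orderOf_pos g
  set S : V →ₗ[F] V := ∑ i ∈ Finset.range k, (ρ g) ^ i with hS
  have hSapply : ∀ v, S v = ∑ i ∈ Finset.range k, ((ρ g) ^ i) v := by
    intro v
    simp [hS, LinearMap.sum_apply]
  have haeval : Polynomial.aeval (ρ g) (∑ i ∈ Finset.range k, (Polynomial.X : Polynomial F) ^ i) = S := by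
    simp [hS, map_sum]
  have hdvd_iff : minpoly F (ρ g) ∣ ∑ i ∈ Finset.range k, (Polynomial.X : Polynomial F) ^ i ↔ S = 0 := by
    constructor
    · rintro ⟨q, hq⟩
      rw [← haeval, hq, map_mul, minpoly.aeval, zero_mul]
    · intro h
      apply minpoly.dvd
      rw [haeval, h]
  have hxk : ∀ v : V, ((⟨Multiplicative.ofAdd v, g⟩ : Multiplicative V ⋊[φ] G) ^ k) =
      ⟨Multiplicative.ofAdd (S v), 1⟩ := by
    intro v
    rw [hpow, hk, pow_orderOf_eq_one, hSapply, hk]
  have hone : ∀ w : V, ((⟨Multiplicative.ofAdd w, 1⟩ : Multiplicative V ⋊[φ] G) = 1) ↔ w = 0 := by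
    intro w
    constructor
    · intro h
      have := congrArg SemidirectProduct.left h
      simpa using this
    · rintro rfl
      rfl
  constructor
  · rintro ⟨x, hxr, hxo⟩ hdvd
    have hS0 : S = 0 := hdvd_iff.mp hdvd
    obtain ⟨l, r⟩ := x
    simp only at hxr
    subst hxr
    have h1 : ((⟨l, r⟩ : Multiplicative V ⋊[φ] G) ^ orderOf r) = 1 := by
      have := hxk (Multiplicative.toAdd l)
      simp only [ofAdd_toAdd] at this
      rw [hk] at this
      rw [this, hS0]
      exact (hone 0).mpr rfl
    have h2 := orderOf_dvd_of_pow_eq_one h1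
    rw [hxo] at h2
    have h3 : p * orderOf r ≤ orderOf r := Nat.le_of_dvd hk0 h2
    have hp2 : 2 ≤ p := (Fact.out : p.Prime).two_le
    have : 2 * orderOf r ≤ p * orderOf r := Nat.mul_le_mul_right _ hp2
    have hk0' : 0 < orderOf r := hk0
    omega
  · intro hndvd
    have hS0 : S ≠ 0 := fun h => hndvd (hdvd_iff.mpr h)
    obtain ⟨v, hv⟩ : ∃ v, S v ≠ 0 := by
      by_contra hcon
      push Not at hcon
      exact hS0 (LinearMap.ext hcon)
    refine ⟨⟨Multiplicative.ofAdd v, g⟩, rfl, ?_⟩
    set x : Multiplicative V ⋊[φ] G := ⟨Multiplicative.ofAdd v, g⟩ with hx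
    have hxkv := hxk v
    have hxp : (x ^ k) ^ p = 1 := by
      rw [hxkv]
      have hw : ∀ (w : V) (n : ℕ), ((⟨Multiplicative.ofAdd w, 1⟩ : Multiplicative V ⋊[φ] G) ^ n) =
          ⟨Multiplicative.ofAdd (n • w), 1⟩ := by
        intro w n
        induction n with
        | zero => 
          simp only [pow_zero, zero_smul]
          rfl
        | succ n ih =>
          rw [pow_succ, ih]
          apply SemidirectProduct.ext
          · simp only [SemidirectProduct.mul_left]
            have h1 : φ (1 : G) (Multiplicative.ofAdd w) = Multiplicative.ofAdd w := by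
              rw [map_one]; rfl
            rw [h1, ← ofAdd_add, succ_nsmul]
          · show (1 : G) * 1 = 1
            rw [mul_one]
      rw [hw]
      have : p • (S v) = 0 := by
        rw [← Nat.cast_smul_eq_nsmul F p (S v), CharP.cast_eq_zero F p, zero_smul]
      rw [this]
      exact (hone 0).mpr rfl
    have hdvd1 : orderOf x ∣ k * p := by
      apply orderOf_dvd_of_pow_eq_one
      rw [pow_mul, hxp]
    have hdvd2 : k ∣ orderOf x := by
      have : orderOf (SemidirectProduct.rightHom x) ∣ orderOf x := orderOf_map_dvd _ _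
      simpa [hx] using this
    obtain ⟨d, hd⟩ := hdvd2
    have hdp : d ∣ p := by
      rw [hd] at hdvd1
      exact Nat.dvd_of_mul_dvd_mul_left hk0 hdvd1
    have hp : p.Prime := Fact.out
    rcases (Nat.dvd_prime hp).mp hdp with rfl | rfl
    · exfalso
      have h1 : x ^ k = 1 := by
        have : orderOf x = k := by rw [hd, mul_one]
        rw [← this]; exact pow_orderOf_eq_one x
      rw [hxkv] at h1
      exact hv ((hone _).mp h1)
    · rw [hd, mul_comm]


end Cfsg.Agent.S2516
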