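import Cfsg.Statements.S2518
import Cfsg.Agent.Lib.G23.PSL213

set_option autoImplicit false
open Cfsg

namespace Cfsg.Agent.S2518

/-- Let F₃ be the field with 3 elements and F₁₃ the field with 13 elements. The Chevalley group G₂(F₃) and PSL(2, F₁₃) have the same prime graph: the same prime divisors of their orders, and for distinct primes r, s an element of order rs in one iff in the other. -/
theorem result {F : Type*} [Field F] [Fintype F] (hF : Fintype.card F = 3) {E : Type*} [Field E] [Fintype E] (hE : Fintype.card E = 13) :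
    ((∀ r : ℕ, r.Prime → (r ∣ Nat.card ↥(Cfsg.Lie.chevG2.group F) ↔ r ∣ Nat.card (Matrix.ProjectiveSpecialLinearGroup (Fin 2) E))) ∧
      (∀ r s : ℕ, r.Prime → s.Prime → r ≠ s → ((∃ x : ↥(Cfsg.Lie.chevG2.group F), orderOf x = r * s) ↔ (∃ y : (Matrix.ProjectiveSpecialLinearGroup (Fin 2) E), orderOf y = r * s)))) := by
  have h1 := Cfsg.Agent.Lib.G23.Main.pg_field (F := F) hF
  have h2 := Cfsg.Agent.Lib.G23.PSL213.pg_field (E := E) hE
  refine ⟨fun r hr => ?_, fun r s hr hs hrs => ?_⟩
  · rw [h1.1 r hr, h2.1 r hr]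
  · rw [h1.2 r s hr hs hrs, h2.2 r s hr hs hrs]

end Cfsg.Agent.S2518
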