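import Cfsg.Statements.S2521
-- import your own Cfsg.Agent.* helpers here

set_option autoImplicit false
open Cfsg

namespace Cfsg.Agent.S2521

/-- Let B be a finite group that is the semidirect product of a nilpotent normal subgroup U by an abelian subgroup T (U ∩ T = 1, UT = B), and let t ∈ T have centralizer exactly T. Then every element of the coset tU is conjugate to t in B: for each u ∈ U there is b ∈ B with b t b⁻¹ = t u. -/
theorem result {B : Type*} [Group B] [Finite B] (U T : Subgroup B) [U.Normal] (hU : Group.IsNilpotent ↥U) (hT : IsMulCommutative ↥T)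
    (hcompl : Subgroup.IsComplement' U T) (t : B) (ht : t ∈ T) (hreg : Subgroup.centralizer ({t} : Set B) = T) (u : B) (hu : u ∈ U) :
    ∃ b : B, b * t * b⁻¹ = t * u := by
  classical
  haveI : Fintype U := Fintype.ofFinite U
  -- the map b ↦ t⁻¹ b t b⁻¹ on U
  let f : U → U := fun b => ⟨t⁻¹ * b * t * (b : B)⁻¹, by
    have h1 : t⁻¹ * (b : B) * t ∈ U := by
      have := (inferInstance : U.Normal).conj_mem (b : B) b.2 t⁻¹
      simpa using this
    exact U.mul_mem h1 (U.inv_mem b.2)⟩
  have hinj : Function.Injective f := by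
    intro b c hbc
    have h : t⁻¹ * (b : B) * t * (b : B)⁻¹ = t⁻¹ * (c : B) * t * (c : B)⁻¹ := congrArg Subtype.val hbc
    have h2 : (b : B) * t * (b : B)⁻¹ = (c : B) * t * (c : B)⁻¹ := by
      have : t * (t⁻¹ * (b : B) * t * (b : B)⁻¹) = t * (t⁻¹ * (c : B) * t * (c : B)⁻¹) := by rw [h]
      simpa [mul_assoc] using this
    have h3 : (c : B)⁻¹ * b ∈ Subgroup.centralizer ({t} : Set B) := by
      rw [Subgroup.mem_centralizer_iff]
      intro x hx
      rw [Set.mem_singleton_iff] at hx
      subst hx
      have h4 : x * (b : B) = (b : B) * ((b : B)⁻¹ * x * b) := by group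
      have : (c : B)⁻¹ * (b : B) * x = x * ((c : B)⁻¹ * (b : B)) := by
        have e : (b : B) * x = (c : B) * x * (c : B)⁻¹ * b := by
          rw [← h2]; group
        calc (c : B)⁻¹ * (b : B) * x = (c : B)⁻¹ * ((b : B) * x) := by group
          _ = (c : B)⁻¹ * ((c : B) * x * (c : B)⁻¹ * b) := by rw [e]
          _ = x * ((c : B)⁻¹ * (b : B)) := by group
      exact this.symm
    rw [hreg] at h3
    have h5 : (c : B)⁻¹ * b ∈ U := U.mul_mem (U.inv_mem c.2) b.2
    have h6 : (c : B)⁻¹ * b = 1 := by
      have := Subgroup.disjoint_def.mp hcompl.disjoint h5 h3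
      exact this
    have h7 : (b : B) = c := by
      have : (c : B) * ((c : B)⁻¹ * b) = c := by rw [h6, mul_one]
      simpa using this
    exact Subtype.ext h7
  have hsurj : Function.Surjective f := Finite.surjective_of_injective hinj
  obtain ⟨b, hb⟩ := hsurj ⟨u, hu⟩
  refine ⟨b, ?_⟩
  have h : t⁻¹ * (b : B) * t * (b : B)⁻¹ = u := congrArg Subtype.val hb
  rw [← h]
  group


end Cfsg.Agent.S2521
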