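import Cfsg.Statements.S2522
import Cfsg.Agent.Lib.LUReg.Conj

set_option autoImplicit false
open Cfsg

namespace Cfsg.Agent.S2522

/-- Let K be a field with at least four elements (finite or infinite), n ≥ 3, and J ∈ GL(n, K) the regular unipotent matrix (ones on the diagonal and the superdiagonal, zeros elsewhere). Then every non-scalar g ∈ GL(n, K) with det g = 1 is a product of two GL(n, K)-conjugates of J. -/
theorem result {K : Type*} [Field K] (hK : 4 ≤ Cardinal.mk K) (n : ℕ) (hn : 3 ≤ n) (J g : GL (Fin n) K)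
    (hJ : ∀ i j : Fin n, (J : Matrix (Fin n) (Fin n) K) i j = if i = j then 1 else if j.val = i.val + 1 then 1 else 0)
    (hg : ¬ ∃ c : K, (g : Matrix (Fin n) (Fin n) K) = c • (1 : Matrix (Fin n) (Fin n) K))
    (hdet : (g : Matrix (Fin n) (Fin n) K).det = 1) :
    ∃ x y : GL (Fin n) K, g = (x * J * x⁻¹) * (y * J * y⁻¹) := by
  classical
  obtain ⟨d, rfl⟩ : ∃ d, n = d + 1 := ⟨n - 1, by omega⟩
  set A : Module.End K (Fin (d + 1) → K) := Matrix.toLin' (g : Matrix (Fin (d + 1)) (Fin (d + 1)) K)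
    with hA
  have hAdet : LinearMap.det A = 1 := by rw [hA, LinearMap.det_toLin', hdet]
  have hfin : Module.finrank K (Fin (d + 1) → K) = d + 1 := by simp
  have key : ∃ a b : Module.End K (Fin (d + 1) → K), A = a * b ∧ (a - 1) ^ (d + 1) = 0 ∧
      (b - 1) ^ (d + 1) = 0 ∧ (a - 1) ^ d ≠ 0 ∧ (b - 1) ^ d ≠ 0 := by
    by_cases hnil : IsNilpotent (A - 1)
    · exact Lib.LUReg.Rec.unip_rec hK d _ hfin A hnil
    · have hns : ∀ a : K, A ≠ a • 1 := by
        intro a ha
        apply hg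
        refine ⟨a, ?_⟩
        have h1 := congrArg LinearMap.toMatrix' ha
        rw [hA, LinearMap.toMatrix'_toLin', map_smul] at h1
        rw [h1]
        congr 1
        exact LinearMap.toMatrix'_one
      set r : Module.Dual K (Fin (d + 1) → K) := LinearMap.proj 0 with hr
      have hr0 : r ≠ 0 := by
        intro h0
        have := congrArg (fun f => f (Pi.single 0 1)) h0
        simp [hr] at this
      have hc0 : (Pi.single 0 1 : Fin (d + 1) → K) ≠ 0 := by
        intro h0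
        have := congrFun h0 0
        simp at this
      obtain ⟨L, U, hfac, hL, hU, hLc, x0, hx0⟩ := Lib.LUReg.Rec.lu_rec hK d _ hfin A hAdet
        (fun _ => ⟨hns, hnil⟩) r hr0 _ hc0
      refine ⟨L, U, hfac, hL, hU, fun h => hLc (by rw [h]; simp), fun h => hx0 ?_⟩
      rw [h]
      simp
  obtain ⟨a, b, hab, ha1, hb1, ha2, hb2⟩ := key
  obtain ⟨x, hxu, hx⟩ := Lib.LUReg.Conj.exists_conj_J (J : Matrix _ _ K) hJ a ha1 ha2
  obtain ⟨y, hyu, hy⟩ := Lib.LUReg.Conj.exists_conj_J (J : Matrix _ _ K) hJ b hb1 hb2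
  obtain ⟨u, rfl⟩ := hxu
  obtain ⟨v, rfl⟩ := hyu
  refine ⟨u, v, Units.ext ?_⟩
  have e : (g : Matrix (Fin (d + 1)) (Fin (d + 1)) K)
      = LinearMap.toMatrix' a * LinearMap.toMatrix' b := by
    rw [← LinearMap.toMatrix'_mul, ← hab, hA, LinearMap.toMatrix'_toLin']
  have ea : LinearMap.toMatrix' a = (u : Matrix _ _ K) * (J : Matrix _ _ K) * ((u⁻¹ : GL _ K) : Matrix _ _ K) := by
    rw [← hx, mul_assoc, Units.mul_inv, mul_one]
  have eb : LinearMap.toMatrix' b = (v : Matrix _ _ K) * (J : Matrix _ _ K) * ((v⁻¹ : GL _ K) : Matrix _ _ K) := by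
    rw [← hy, mul_assoc, Units.mul_inv, mul_one]
  rw [e, ea, eb]
  rfl

end Cfsg.Agent.S2522
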