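import Cfsg.Statements.S2553
import Cfsg.Agent.Lib.OverLat.A8.Classify

set_option autoImplicit false
open Cfsg

namespace Cfsg.Agent.S2553

/-- Let H be a nontrivial subgroup of GL(4,2) (a group isomorphic to the alternating group of degree 8) whose largest normal 2-subgroup and largest normal subgroup of odd order are both trivial. Then H is isomorphic to an alternating group of degree n for some 5 ≤ n ≤ 8, to the symmetric group of degree 5 or 6, or to GL(3,2). -/
theorem result (H : Subgroup (GL (Fin 4) (ZMod 2))) (hH : H ≠ ⊥) (hO : Cfsg.pPrimeCore 2 ↥H = ⊥) (hO2 : Cfsg.pCore 2 ↥H = ⊥) :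
    (∃ n : ℕ, 5 ≤ n ∧ n ≤ 8 ∧ Nonempty (↥H ≃* alternatingGroup (Fin n))) ∨
    Nonempty (↥H ≃* Equiv.Perm (Fin 5)) ∨ Nonempty (↥H ≃* Equiv.Perm (Fin 6)) ∨ Nonempty (↥H ≃* GL (Fin 3) (ZMod 2)) := by
  exact Cfsg.Agent.Lib.OverLat.A8.Classify.classify H hH
    (Cfsg.Agent.Lib.OverLat.Basic.excl_of_cores hO2 hO)

end Cfsg.Agent.S2553
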