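import Cfsg.Statements.S2556
import Cfsg.Agent.Lib.TwoFusion.SzAut

set_option autoImplicit false
open Cfsg

namespace Cfsg.Agent.S2556

/-- Conjugation by an isomorphism. -/
def autCongr {A B : Type*} [Group A] [Group B] (e : A ≃* B) : MulAut A ≃* MulAut B where
  toFun a := e.symm.trans (a.trans e)
  invFun b := e.trans (b.trans e.symm)
  left_inv a := by
    ext x
    simp
  right_inv b := by
    ext x
    simp
  map_mul' a b := by
    ext x
    simp [MulAut.mul_apply]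

open Cfsg.Agent.Lib.Suzuki.Core Cfsg.Agent.Lib.Suzuki.Stab Cfsg.Agent.Lib.Suzuki.Group
  Cfsg.Agent.Lib.Suzuki.Simple Cfsg.Agent.Lib.TwoFusion.SzAut in
/-- The model is isomorphic to the subgroup `U`. -/
theorem nonempty_equiv_model {F : Type*} [Field F] [Fintype F] [CharP F 2] {m : ℕ} (hc : Ctx F m) :
    Nonempty (Usub hc ≃* SH F m) := by
  let f : SH F m →* Usub hc :=
    { toFun := fun x => ⟨uS hc x.1 x.2, uS_mem hc _ _⟩
      map_one' := Subtype.ext (uS_zero hc)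
      map_mul' := fun x y => Subtype.ext (uS_mul hc x.1 x.2 y.1 y.2).symm }
  have hb : Function.Bijective f := by
    constructor
    · intro x y hxy
      have h := uS_injective hc (congrArg Subtype.val hxy)
      exact Prod.ext h.1 h.2
    · rintro ⟨g, a, b, rfl⟩
      exact ⟨(a, b), rfl⟩
  exact ⟨(MulEquiv.ofBijective f hb).symm⟩



/-- Let S be a Sylow 2-subgroup of the Suzuki group Sz(q), q = 2ⁿ with n = 2m + 1 ≥ 3 (realised as 4 × 4 matrices over the field with q elements). Then the largest normal 2-subgroup of the automorphism group of S is elementary abelian of order 2^(n²), and the automorphism group of S has order 2^(n²) · n · (q − 1). -/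
theorem result {S : Type*} [Group S] [Finite S] (m : ℕ) (hm : 1 ≤ m)
    {F : Type*} [Field F] [Fintype F] (hF : Fintype.card F = 2 ^ (2 * m + 1))
    (P : Sylow 2 ↥(Cfsg.Lie.Sz F (2 ^ (m + 1)))) (hS : Nonempty (S ≃* ↥(P : Subgroup ↥(Cfsg.Lie.Sz F (2 ^ (m + 1)))))) :
    Cfsg.IsElementaryAbelian 2 (Cfsg.pCore 2 (MulAut S)) ∧ Nat.card ↥(Cfsg.pCore 2 (MulAut S)) = 2 ^ ((2 * m + 1) ^ 2) ∧
      Nat.card (MulAut S) = 2 ^ ((2 * m + 1) ^ 2) * ((2 * m + 1) * (2 ^ (2 * m + 1) - 1)) := by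
  haveI := Cfsg.Agent.Lib.Suzuki.Elements.charP_two_of_card hF
  have hc := Cfsg.Agent.Lib.Suzuki.Stab.ctx_of_card hm hF
  obtain ⟨e0⟩ := nonempty_equiv_model hc
  obtain ⟨e1⟩ := hS
  let eS := Cfsg.Agent.Lib.SzIso.Basic.equivSz hc
  let P' : Sylow 2 (Cfsg.Sz F m) := P.comapOfInjective eS.toMonoidHom eS.injective (by
    rw [MonoidHom.range_eq_top.mpr eS.surjective]
    exact le_top)
  have hP' : (P' : Subgroup (Cfsg.Sz F m)) = (P : Subgroup _).comap eS.toMonoidHom := rfl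
  have hmap : (P' : Subgroup (Cfsg.Sz F m)).map (eS : Cfsg.Sz F m →* Lie.Sz F (2 ^ (m + 1))) = (P : Subgroup (Lie.Sz F (2 ^ (m + 1)))) := by
    rw [hP']
    exact Subgroup.map_comap_eq_self_of_surjective eS.surjective _
  let e2 : ↥(P' : Subgroup (Cfsg.Sz F m)) ≃* ↥(P : Subgroup _) :=
    (eS.subgroupMap (P' : Subgroup (Cfsg.Sz F m))).trans (MulEquiv.subgroupCongr hmap)
  let e3 := Cfsg.Agent.Lib.Suzuki.Sylow2.sylowEquiv hc P'
  let e : S ≃* Cfsg.Agent.Lib.TwoFusion.SzAut.SH F m := e1.trans (e2.symm.trans (e3.trans e0))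
  let f : MulAut S ≃* MulAut (Cfsg.Agent.Lib.TwoFusion.SzAut.SH F m) := autCongr e
  have hcore := Cfsg.Agent.Lib.TwoFusion.SU3Aut.pCore_comap f 2
  rw [Cfsg.Agent.Lib.TwoFusion.SzAut.pCore_eq hc] at hcore
  rw [hcore]
  have hel := Cfsg.Agent.Lib.TwoFusion.SzAut.isElementaryAbelian_ker hc
  refine ⟨⟨⟨⟨fun a b => ?_⟩⟩, ?_⟩, ?_, ?_⟩
  · apply Subtype.ext
    apply f.injective
    have h := congrArg Subtype.val (hel.1.1.1 ⟨f a.1, a.2⟩ ⟨f b.1, b.2⟩)
    show f (a.1 * b.1) = f (b.1 * a.1)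
    rw [map_mul, map_mul]
    exact h
  · intro a ha
    apply f.injective
    rw [map_pow, map_one]
    exact hel.2 (f a) ha
  · rw [← Cfsg.Agent.Lib.TwoFusion.SzAut.card_ker_Θ hc]
    exact Nat.card_congr (Equiv.subtypeEquiv f.toEquiv (fun a => Iff.rfl))
  · have h := Cfsg.Agent.Lib.TwoFusion.SzAut.card_aut hc
    rw [Nat.card_congr f.toEquiv, h]

end Cfsg.Agent.S2556
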