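import Cfsg.Statements.S2648
import Cfsg.Agent.Lib.SpWreath.Tower
import Cfsg.Agent.S4010

set_option autoImplicit false
open Cfsg

namespace Cfsg.Agent.S2648

/-- Let q be odd, F a field with q elements and n ≥ 1. A Sylow 2-subgroup R of the symplectic group Sp_{2n}(F) has derived length exactly k + 1, where 2^k ≤ 2n < 2^{k+1}: the (k+1)-st term of its derived series is trivial and the k-th is not. -/
theorem result {F : Type*} [Field F] [Fintype F] [DecidableEq F] (q : ℕ) (hF : Fintype.card F = q) (hq : Odd q) (n : ℕ) (hn : 1 ≤ n) (R : Sylow 2 ↥(Matrix.symplecticGroup (Fin n) F)) : derivedSeries ↥(R : Subgroup ↥(Matrix.symplecticGroup (Fin n) F)) (Nat.log 2 (2 * n) + 1) = ⊥ ∧ derivedSeries ↥(R : Subgroup ↥(Matrix.symplecticGroup (Fin n) F)) (Nat.log 2 (2 * n)) ≠ ⊥ := by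
  classical
  haveI : Fact (Nat.Prime 2) := ⟨Nat.prime_two⟩
  subst hF
  constructor
  · have hR : IsPGroup 2 (R : Subgroup (Matrix.symplecticGroup (Fin n) F)) := R.isPGroup'
    let f : ↥(R : Subgroup ↥(Matrix.symplecticGroup (Fin n) F)) →* Module.End F (Fin n ⊕ Fin n → F) :=
      { toFun := fun x => Matrix.toLin' ((x : ↥(Matrix.symplecticGroup (Fin n) F)) : Matrix (Fin n ⊕ Fin n) (Fin n ⊕ Fin n) F)
        map_one' := by
          simp
          rfl
        map_mul' := fun a b => by
          have e : ∀ A B : Matrix (Fin n ⊕ Fin n) (Fin n ⊕ Fin n) F, Matrix.toLin' (A * B) = Matrix.toLin' A * Matrix.toLin' B := by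
            intro A B
            rw [Matrix.toLin'_mul]
            rfl
          exact e _ _ }
    have hf : Function.Injective f := by
      intro a b hab
      exact Subtype.ext (Subtype.ext (Matrix.toLin'.injective hab))
    obtain ⟨g, hg⟩ := Cfsg.Agent.S4015.toGL (F := F) (2 * n) (by
      rw [Module.finrank_fintype_fun_eq_card]
      simp [two_mul]) f hf
    exact Cfsg.Agent.S4010.result 2 hR F (2 * n) (by omega) g hg
  · have hlog : 1 ≤ Nat.log 2 (2 * n) := by
      apply Nat.le_log_of_pow_le (by norm_num)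
      omega
    obtain ⟨a, ha⟩ : ∃ a, Nat.log 2 (2 * n) = a + 1 := ⟨Nat.log 2 (2 * n) - 1, by omega⟩
    rw [ha]
    obtain ⟨D, _, _, V, _, _, _, ω, f, hf, hV, hc, -, hder⟩ := Cfsg.Agent.Lib.SpWreath.Tower.exists_R F hq a
    have hle : 2 ^ a ≤ n := by
      have h1 : 2 ^ (a + 1) ≤ 2 * n := by
        rw [← ha]
        exact Nat.pow_log_le_self 2 (by omega)
      rw [pow_succ] at h1
      omega
    obtain ⟨g, hg⟩ := hf.embed hV hle
    exact Cfsg.Agent.S4015.derived_ne_of_embed R (IsPGroup.of_card hc) g hg _ hder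

end Cfsg.Agent.S2648
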