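import Cfsg.Statements.S2687
import Cfsg.Agent.Lib.AutCl.PSUBal

set_option autoImplicit false
open Cfsg

namespace Cfsg.Agent.S2687

/-- A criterion for the failure of local balance in almost simple groups with unitary socle. Let F be a finite field of characteristic r with q² elements and K = PSU_n(q) (n ≥ 3, the central quotient of the determinant-one isometries of the standard Hermitian form) simple. Let A be a group of automorphisms of K containing all inner automorphisms, and β ∈ A an automorphism of prime order p ≠ r that is not inner-diagonal (not induced by conjugation by a matrix of the general unitary group). Then the largest normal subgroup of C_A(β) of order prime to p is nontrivial if and only if β is the composite of an inner-diagonal automorphism with the automorphism induced by a field automorphism of F applied entrywise and p does not divide the number of fixed points of β on K. -/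
theorem result
    (F : Type*) [Field F] [Fintype F] (r : ℕ) [Fact r.Prime] [CharP F r] (q : ℕ) (hF : Fintype.card F = q ^ 2)
    (n : ℕ) (hn : 3 ≤ n) (hK : IsSimpleGroup (Cfsg.PSU n F q))
    (𝒢 : Subgroup (MulAut (Cfsg.PSU n F q))) (hinn : ∀ k : Cfsg.PSU n F q, MulAut.conj k ∈ 𝒢)
    (p : ℕ) [Fact p.Prime] (hpr : p ≠ r) (β : MulAut (Cfsg.PSU n F q)) (hβ : β ∈ 𝒢) (hord : orderOf β = p)
    (hnot : ¬ Cfsg.IsInnerDiagonalAutPSU β) :
    Cfsg.pPrimeCore p ↥(𝒢 ⊓ Subgroup.centralizer {β}) ≠ ⊥ ↔
      ((∃ γ φ : MulAut (Cfsg.PSU n F q), Cfsg.IsInnerDiagonalAutPSU γ ∧ (∃ σ : F ≃+* F, Cfsg.IsFieldAutPSUOf σ φ) ∧ β = φ.trans γ) ∧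
        Nat.Coprime p (Nat.card ↥(MonoidHom.eqLocus β.toMonoidHom (MonoidHom.id (Cfsg.PSU n F q))))) := by
  exact Cfsg.Agent.Lib.AutCl.PSUBal.balance r q hF n hn hK 𝒢 hinn p hpr β hβ hord hnot

end Cfsg.Agent.S2687
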