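import Cfsg.Statements.S2772
import Cfsg.Agent.Lib.Sims3.Dih

set_option autoImplicit false
open Cfsg

namespace Cfsg.Agent.S2772

open Cfsg.Agent.Lib.Sims3

theorem odd_eq_one {X : Type*} [Group X] [Finite X] {A : Subgroup X} {t : ℕ}
    (hA : Nat.card A = 2 ^ t) {u : X} (hu : u ∈ A) (ho : Odd (orderOf u)) : u = 1 := by
  have h1 : orderOf u ∣ 2 ^ t := by
    rw [← hA]; exact Subgroup.orderOf_dvd_natCard A hu
  have h2 : Nat.Coprime (orderOf u) (2 ^ t) :=
    Nat.Coprime.pow_right t (Nat.coprime_two_right.2 ho)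
  exact orderOf_eq_one_iff.1 (Nat.Coprime.eq_one_of_dvd h2 h1)

theorem relIndex_le_three {X : Type*} [Group X] [Finite X] {H A : Subgroup X} {y : X} (hy : y ∈ H)
    (hy3 : y ^ 3 = 1) (hform : ∀ x ∈ H, ∃ i : ℕ, ∃ b ∈ A, x = y ^ i * b) : A.relIndex H ≤ 3 := by
  let f : Fin 3 → H ⧸ A.subgroupOf H := fun i => ((⟨y ^ i.val, H.pow_mem hy _⟩ : H) : H ⧸ A.subgroupOf H)
  have hf : Function.Surjective f := by
    intro q
    obtain ⟨x, rfl⟩ := QuotientGroup.mk_surjective q
    obtain ⟨i, b, hb, hx⟩ := hform x x.2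
    refine ⟨⟨i % 3, Nat.mod_lt _ (by norm_num)⟩, ?_⟩
    apply QuotientGroup.eq.2
    rw [Subgroup.mem_subgroupOf]
    have h1 : y ^ i = y ^ (i % 3) := by
      conv_lhs => rw [← Nat.mod_add_div i 3, pow_add, pow_mul, hy3, one_pow, mul_one]
    have h2 : ((⟨y ^ (i % 3), H.pow_mem hy _⟩ : H)⁻¹ * x : H).1 = b := by
      simp only [Subgroup.coe_mul, Subgroup.coe_inv]
      rw [hx, h1]
      group
    exact h2 ▸ hb
  have h3 := Nat.card_le_card_of_surjective f hf
  have h4 : Nat.card (H ⧸ A.subgroupOf H) ≤ 3 := by simpa using h3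
  exact h4

/-- Sims' Theorem in local form: let H be a finite non-abelian simple group and G a maximal subgroup of H with C_G(O₂(G)) ≤ O₂(G), such that N_H(S) is not contained in G for a Sylow 2-subgroup S of G and G/O₂(G) is dihedral of order 2q for a prime q. Then G is isomorphic to the symmetric group of degree 4 or to its direct product with a group of order 2. -/
theorem result {H : Type*} [Group H] [Finite H] [IsSimpleGroup H] (hna : ¬ IsMulCommutative H) (G : Subgroup H) (hG : IsCoatom G) (hchar : Subgroup.centralizer (Cfsg.pCore 2 ↥G : Set ↥G) ≤ Cfsg.pCore 2 ↥G) (S : Sylow 2 ↥G) (hN : ¬ Subgroup.normalizer (((S : Subgroup ↥G).map G.subtype : Subgroup H) : Set H) ≤ G) (q : ℕ) (hq : q.Prime) (hD : Nonempty (↥G ⧸ Cfsg.pCore 2 ↥G ≃* DihedralGroup q)) : Nonempty (↥G ≃* Equiv.Perm (Fin 4)) ∨ Nonempty (↥G ≃* Equiv.Perm (Fin 4) × Multiplicative (ZMod 2)) := by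
  obtain ⟨e⟩ := hD
  obtain ⟨A, hAdef⟩ : ∃ A : Subgroup H, A = (S : Subgroup ↥G).map G.subtype := ⟨_, rfl⟩
  rw [← hAdef] at hN
  have hAG : A ≤ G := by
    rw [hAdef]
    exact Subgroup.map_subtype_le _
  have hAp : IsPGroup 2 A := by
    rw [hAdef]
    exact S.isPGroup'.map G.subtype
  haveI : Fact (Nat.Prime 2) := ⟨Nat.prime_two⟩
  have hodd : ¬ 2 ∣ A.relIndex G := by
    have h1 : A.subgroupOf G = S := by
      rw [hAdef]
      exact Subgroup.comap_map_eq_self_of_injective G.subtype_injective _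
    rw [Subgroup.relIndex, h1]
    exact S.not_dvd_index
  obtain ⟨hqodd, hidx, hQi, hmem, y, hyG, hyo, hgen, hform⟩ :=
    dihedral_setup hAG hAp hodd hq.ne_zero e
  obtain ⟨x, hxN, hxG⟩ := Set.not_subset.1 hN
  have hxN' : ∀ a, a ∈ A ↔ x * a * x⁻¹ ∈ A := fun a => Subgroup.mem_normalizer_iff.1 hxN a
  obtain ⟨t, ht⟩ := IsPGroup.iff_card.1 hAp
  have hex : ∃ a ∈ A, a ∉ cor G A := by
    by_contra hcon
    push Not at hcon
    have h1 : (cor G A).relIndex A = 1 := Subgroup.relIndex_eq_one.2 hcon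
    omega
  obtain ⟨a₀, ha₀, ha₀Q⟩ := hex
  -- two distinct conjugates
  have hKG : cj x G ≠ G := by
    intro hK
    have h1 : ∀ g, g ∈ G ↔ x * g * x⁻¹ ∈ G := by
      intro g
      conv_rhs => rw [← hK]
      rw [conj_mem_cj]
    have h2 : Subgroup.normalizer (G : Set H) = ⊤ := by
      apply hG.2
      refine lt_of_le_of_ne Subgroup.le_normalizer ?_
      intro h3
      apply hxG
      rw [h3]
      exact Subgroup.mem_normalizer_iff.2 h1
    have h3 : G.Normal := Subgroup.normalizer_eq_top_iff.1 h2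
    rcases IsSimpleGroup.eq_bot_or_eq_top_of_normal G h3 with h4 | h4
    · apply ha₀Q
      have h5 := hAG ha₀
      rw [h4] at h5
      rw [Subgroup.mem_bot.1 h5]
      exact Subgroup.one_mem _
    · exact hG.1 h4
  have hcardK : Nat.card (cj x G) = Nat.card G :=
    (Amal.card_transfer x (fun _ => conj_mem_cj)).symm
  have hsup : G ⊔ cj x G = ⊤ := by
    apply hG.2
    refine lt_of_le_of_ne le_sup_left ?_
    intro h1
    have h2 : cj x G ≤ G := le_sup_right.trans (le_of_eq h1.symm)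
    exact hKG (Subgroup.eq_of_le_of_card_ge h2 (by rw [hcardK]))
  have hcf : ∀ X : Subgroup H, X ≤ G → (∀ h ∈ G, ∀ x ∈ X, h * x * h⁻¹ ∈ X) →
      (∀ h ∈ cj x G, ∀ x ∈ X, h * x * h⁻¹ ∈ X) → X = ⊥ := by
    intro X hXG h1 h2
    have h3 : G ⊔ cj x G ≤ Subgroup.normalizer (X : Set H) :=
      sup_le (fun g hg => mem_nz (h1 g hg)) (fun g hg => mem_nz (h2 g hg))
    rw [hsup] at h3
    have h4 : X.Normal := Subgroup.normalizer_eq_top_iff.1 (top_le_iff.1 h3)
    rcases IsSimpleGroup.eq_bot_or_eq_top_of_normal X h4 with h5 | h5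
    · exact h5
    · exfalso
      rw [h5] at hXG
      exact hG.1 (top_le_iff.1 hXG)
  have hcentral : ∀ z ∈ A, (∀ k ∈ G, k * z = z * k) → (∀ k ∈ cj x G, k * z = z * k) → z = 1 := by
    intro z hz h1 h2
    have key : ∀ (k : H), k * z = z * k → ∀ w ∈ Subgroup.zpowers z,
        k * w * k⁻¹ ∈ Subgroup.zpowers z := by
      intro k hk w hw
      have hC : Commute k w := by
        obtain ⟨n, rfl⟩ := Subgroup.mem_zpowers_iff.1 hw
        exact (show Commute k z from hk).zpow_right n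
      rw [hC.eq, mul_assoc, mul_inv_cancel, mul_one]
      exact hw
    have := hcf (Subgroup.zpowers z) ((Subgroup.zpowers_le).2 (hAG hz))
      (fun k hk => key k (h1 k hk)) (fun k hk => key k (h2 k hk))
    exact Subgroup.zpowers_eq_bot.1 this
  have hAK : A ≤ cj x G := by
    intro a ha
    rw [mem_cj]
    apply hAG
    rw [hxN' (x⁻¹ * a * x)]
    convert ha using 1
    group
  have hsA : ∀ a, x * a * x⁻¹ ∈ A ↔ a ∈ A := fun a => (hxN' a).symm
  have hsH : ∀ g, x * g * x⁻¹ ∈ cj x G ↔ g ∈ G := fun _ => conj_mem_cj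
  have hDA : DA G (cj x G) A x y := by
    refine ⟨hAG, hAK, hsA, hsH, hyG, hyo, hQi, hgen, ?_, ?_, ?_, hcentral⟩
    · intro X hX h1 h2 _
      exact hcf X (hX.trans hAG) h1 h2
    · intro h1 h2
      exact hcf _ (inf_le_left.trans (cor_le_H G A)) h1 h2
    · intro h1 h2
      refine hcf _ ?_ h1 h2
      rw [sqR, Subgroup.closure_le]
      rintro w ⟨r, hr, rfl⟩
      have hr' : r ∈ G := cor_le_H G A hr.1
      exact G.mul_mem hr' hr'
  have ht4 := da_bound hDA ht
  have hQc := hDA.card_cor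
  have hQ : ¬ A ≤ cor G A := fun h1 => ha₀Q (h1 ha₀)
  have hchar' : ∀ z ∈ G, (∀ w ∈ cor G A, z * w = w * z) → z ∈ cor G A := by
    intro z hz h1
    rw [hmem ⟨z, hz⟩]
    apply hchar
    rw [Subgroup.mem_centralizer_iff]
    intro w hw
    apply Subtype.ext
    have hw' : (w : H) ∈ cor G A := (hmem w).2 hw
    exact (h1 w hw').symm
  have hyk : ∀ k : ℕ, Odd (orderOf (y ^ k)) := by
    intro k
    exact Odd.of_dvd_nat hyo (orderOf_dvd_of_pow_eq_one
      (by rw [← pow_mul, mul_comm, pow_mul, pow_orderOf_eq_one, one_pow]))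
  -- the element `y` has order three in the large cases
  have hamal : y ^ 3 = 1 → Amal G (cj x G) A x := by
    intro hy3
    have h1 := relIndex_le_three hyG hy3 hform
    rw [hidx] at h1
    have h2 := hq.two_le
    have h3 : q = 3 := by
      interval_cases q
      · exact absurd hqodd (by decide)
      · rfl
    exact ⟨hAG, hAK, hsA, hsH, hcf, by rw [hidx, h3]⟩
  have hcen4 : 4 ≤ t → ∃ c ∈ A, (∀ k ∈ G, k * c = c * k) ∧ c ≠ 1 ∧ c * c = 1 := by
    intro hle
    by_contra hcon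
    have hno : ∀ z ∈ A, (∀ k ∈ G, k * z = z * k) → z = 1 := by
      intro z hz hzc
      by_contra hz1
      obtain ⟨c, hcA, hcZ, hc1, hcsq⟩ := exists_central_involution ht hz hz1 hzc
      exact hcon ⟨c, hcA, hcZ, hc1, hcsq⟩
    obtain ⟨t', ht', _, ht'3, _⟩ := fan_one_da hDA hno
    have h1 : t' = t := Nat.pow_right_injective (le_refl 2) (ht'.symm.trans ht)
    omega
  have hcases : t = 0 ∨ t = 1 ∨ t = 2 ∨ t = 3 ∨ t = 4 := by omega
  rcases hcases with rfl | rfl | rfl | rfl | rfl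
  · -- `|A| = 1`
    exfalso
    have : 0 < Nat.card (cor G A) := Nat.card_pos
    rw [ht] at hQc
    omega
  · -- `|A| = 2`
    exfalso
    have hQ1 : Nat.card (cor G A) = 1 := by
      rw [ht] at hQc
      omega
    have hQ0 : cor G A = ⊥ := Subgroup.card_eq_one.1 hQ1
    apply ha₀Q
    apply hchar' a₀ (hAG ha₀)
    intro w hw
    rw [hQ0] at hw
    rw [Subgroup.mem_bot.1 hw, mul_one, one_mul]
  · -- `|A| = 4`
    exfalso
    have hQ2 : Nat.card (cor G A) = 2 := by
      rw [ht] at hQc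
      omega
    obtain ⟨z, hz1, hzu⟩ := (Nat.card_eq_two_iff' (1 : cor G A)).1 hQ2
    have hzall : ∀ w ∈ cor G A, w = 1 ∨ w = (z : H) := by
      intro w hw
      by_cases hw1 : w = 1
      · exact Or.inl hw1
      · right
        have := hzu ⟨w, hw⟩ (fun hh => hw1 (congrArg Subtype.val hh))
        exact congrArg Subtype.val this
    have hz1' : (z : H) ≠ 1 := fun hh => hz1 (Subtype.ext hh)
    apply ha₀Q
    apply hchar' a₀ (hAG ha₀)
    intro w hw
    rcases hzall w hw with rfl | rfl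
    · rw [mul_one, one_mul]
    · rcases hzall _ (cor_conj (hAG ha₀) hw) with h1 | h1
      · exfalso
        apply hz1'
        have h2 : (z : H) = a₀⁻¹ * (a₀ * z * a₀⁻¹) * a₀ := by group
        rw [h2, h1]; group
      · calc a₀ * (z : H) = a₀ * z * a₀⁻¹ * a₀ := by group
          _ = z * a₀ := by rw [h1]
  · -- `|A| = 8`
    left
    have hQ4 : Nat.card (cor G A) = 4 := by
      rw [ht] at hQc
      omega
    have hi : (⊥ : Subgroup H).relIndex (cor G A) = 4 := by
      have h1 := relIndex_mul_card (bot_le : (⊥ : Subgroup H) ≤ cor G A)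
      rw [hQ4] at h1
      simpa using h1
    have hcube := cube_acts hi hyo (fun w hw => cor_conj hyG hw)
      (fun w hw => by
        rw [Subgroup.mem_bot.1 hw]
        simp)
    have hy3 : y ^ 3 = 1 := by
      apply odd_eq_one ht ((cor_le_A G A) _) (hyk 3)
      apply hchar' _ (G.pow_mem hyG 3)
      intro w hw
      have h1 := Subgroup.mem_bot.1 (hcube w hw)
      have h2 : y * (y * (y * w * y⁻¹) * y⁻¹) * y⁻¹ = w := by
        have h3 := inv_mul_eq_one.1 h1
        exact h3.symm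
      calc y ^ 3 * w = (y * (y * (y * w * y⁻¹) * y⁻¹) * y⁻¹) * y ^ 3 := by
            simp only [pow_succ, pow_zero, one_mul]
            group
        _ = w * y ^ 3 := by rw [h2]
    exact case_three (hamal hy3) hQ (by rw [ht]; norm_num)
  · -- `|A| = 16`
    right
    obtain ⟨c, hcA, hcZ, hc1, hcsq⟩ := hcen4 le_rfl
    have hQ8 : Nat.card (cor G A) = 8 := by
      rw [ht] at hQc
      omega
    have hcQ : c ∈ cor G A := by
      apply hchar' c (hAG hcA)
      intro w hw
      exact (hcZ w (cor_le_H G A hw)).symm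
    have hzc : Nat.card (Subgroup.zpowers c) = 2 := by
      rw [Nat.card_zpowers]
      exact orderOf_eq_prime (by rw [pow_two]; exact hcsq) hc1
    have hXle : Subgroup.zpowers c ≤ cor G A := (Subgroup.zpowers_le).2 hcQ
    have hi : (Subgroup.zpowers c).relIndex (cor G A) = 4 := by
      have h1 := relIndex_mul_card hXle
      rw [hQ8, hzc] at h1
      omega
    have hXall : ∀ w ∈ Subgroup.zpowers c, w = 1 ∨ w = c := by
      intro w hw
      obtain ⟨n, rfl⟩ := Subgroup.mem_zpowers_iff.1 hw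
      rcases Int.even_or_odd' n with ⟨m, rfl | rfl⟩
      · left
        rw [zpow_mul, zpow_two, hcsq, one_zpow]
      · right
        rw [zpow_add, zpow_mul, zpow_two, hcsq, one_zpow, one_mul, zpow_one]
    have hyc : ∀ w ∈ Subgroup.zpowers c, y * w * y⁻¹ = w := by
      intro w hw
      obtain ⟨n, rfl⟩ := Subgroup.mem_zpowers_iff.1 hw
      have h1 : Commute y (c ^ n) := (show Commute y c from hcZ y hyG).zpow_right n
      rw [h1.eq, mul_assoc, mul_inv_cancel, mul_one]
    have hcube := cube_acts hi hyo (fun w hw => cor_conj hyG hw)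
      (fun w hw => by
        rw [hyc w hw]
        exact hw)
    have hu2 : y ^ 3 * y ^ 3 ∈ cor G A := by
      apply hchar' _ (G.mul_mem (G.pow_mem hyG 3) (G.pow_mem hyG 3))
      intro w hw
      have h1 : ∀ v ∈ cor G A, y ^ 3 * v * (y ^ 3)⁻¹ = v ∨ y ^ 3 * v * (y ^ 3)⁻¹ = v * c := by
        intro v hv
        have h2 : y ^ 3 * v * (y ^ 3)⁻¹ = y * (y * (y * v * y⁻¹) * y⁻¹) * y⁻¹ := by
          simp only [pow_succ, pow_zero, one_mul]
          group
        rw [h2]
        rcases hXall _ (hcube v hv) with h3 | h3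
        · left
          exact (inv_mul_eq_one.1 h3).symm
        · right
          have h4 := inv_mul_eq_iff_eq_mul.1 h3
          exact h4
      have hcu : y ^ 3 * c * (y ^ 3)⁻¹ = c := by
        have h1 : Commute (y ^ 3) c := (show Commute y c from hcZ y hyG).pow_left 3
        rw [h1.eq, mul_assoc, mul_inv_cancel, mul_one]
      have h5 : y ^ 3 * y ^ 3 * w * (y ^ 3 * y ^ 3)⁻¹ = w := by
        have h6 : y ^ 3 * y ^ 3 * w * (y ^ 3 * y ^ 3)⁻¹
            = y ^ 3 * (y ^ 3 * w * (y ^ 3)⁻¹) * (y ^ 3)⁻¹ := by group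
        rw [h6]
        rcases h1 w hw with h7 | h7
        · rw [h7]
          rcases h1 w hw with h8 | h8
          · exact h8
          · exact h7
        · rw [h7]
          have h8 : y ^ 3 * (w * c) * (y ^ 3)⁻¹
              = (y ^ 3 * w * (y ^ 3)⁻¹) * (y ^ 3 * c * (y ^ 3)⁻¹) := by group
          rw [h8, hcu, h7, mul_assoc, hcsq, mul_one]
      calc y ^ 3 * y ^ 3 * w
          = (y ^ 3 * y ^ 3 * w * (y ^ 3 * y ^ 3)⁻¹) * (y ^ 3 * y ^ 3) := by group
        _ = w * (y ^ 3 * y ^ 3) := by rw [h5]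
    have hu3 : y ^ 3 * y ^ 3 = 1 := by
      have h1 : y ^ 3 * y ^ 3 = y ^ 6 := by rw [← pow_add]
      rw [h1] at hu2 ⊢
      exact odd_eq_one ht ((cor_le_A G A) hu2) (hyk 6)
    have hy3 : y ^ 3 = 1 := by
      have h1 : orderOf (y ^ 3) ∣ 2 := orderOf_dvd_of_pow_eq_one (by rw [pow_two]; exact hu3)
      have h2 : Nat.Coprime (orderOf (y ^ 3)) 2 := Nat.coprime_two_right.2 (hyk 3)
      exact orderOf_eq_one_iff.1 (Nat.Coprime.eq_one_of_dvd h2 h1)
    exact case_four (hamal hy3) hQ (by rw [ht]; norm_num) hcA hcZ hc1 hcsq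

end Cfsg.Agent.S2772
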