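import Cfsg.Statements.S2896
import Cfsg.Agent.Lib.Components.LocalChar
import Cfsg.Agent.Lib.Involutions2.NormalFour

set_option autoImplicit false
open Cfsg

namespace Cfsg.Agent.S2896

/-- Let p be a prime dividing the order of the finite group G, S a Sylow p-subgroup of G and X a subgroup of S. (i) If some nontrivial element z of the centre of X has F*(C_G(z)) = O_p(C_G(z)), then F*(N_G(X)) = O_p(N_G(X)). (ii) G has parabolic characteristic p if and only if F*(C_G(z)) = O_p(C_G(z)) for every nontrivial z ∈ Ω₁(Z(S)). (iii) If F*(C_G(z)) = O_p(C_G(z)) for every element z of S of order p, then G has local characteristic p. -/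
theorem result {G : Type*} [Group G] [Finite G] {p : ℕ} [Fact p.Prime] (hdiv : p ∣ Nat.card G) (S : Sylow p G) (X : Subgroup G) (hX : X ≤ (S : Subgroup G)) : (∀ z : G, z ≠ 1 → z ∈ X → (∀ x ∈ X, x * z = z * x) → Cfsg.generalizedFittingSubgroup ↥(Subgroup.centralizer ({z} : Set G)) = Cfsg.pCore p ↥(Subgroup.centralizer ({z} : Set G)) → Cfsg.generalizedFittingSubgroup ↥(Subgroup.normalizer (X : Set G)) = Cfsg.pCore p ↥(Subgroup.normalizer (X : Set G))) ∧ (Cfsg.IsOfParabolicCharacteristic p G ↔ ∀ z : G, z ≠ 1 → z ∈ Cfsg.omegaOne p ((S : Subgroup G) ⊓ Subgroup.centralizer ((S : Subgroup G) : Set G)) → Cfsg.generalizedFittingSubgroup ↥(Subgroup.centralizer ({z} : Set G)) = Cfsg.pCore p ↥(Subgroup.centralizer ({z} : Set G))) ∧ ((∀ z : G, z ∈ (S : Subgroup G) → orderOf z = p → Cfsg.generalizedFittingSubgroup ↥(Subgroup.centralizer ({z} : Set G)) = Cfsg.pCore p ↥(Subgroup.centralizer ({z} : Set G))) → Cfsg.IsOfLocalCharacteristic p G) := by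
  open Cfsg.Agent.Lib.CharP.Basic Cfsg.Agent.Lib.Components.LocalChar Subgroup in
  have hp : p.Prime := Fact.out
  have hGF := fun {H : Subgroup G} => charPIn_iff_generalizedFitting (p := p) (H := H)
  refine ⟨?_, ?_, ?_⟩
  · intro z _ hzX hzc hgf
    exact hGF.mp (charPIn_normalizer_of_central (S.2.to_le hX) hzX hzc (hGF.mpr hgf))
  · constructor
    · intro hpar z hz1 hzΩ
      have hz : (z ∈ (S : Subgroup G) ⊓ centralizer ((S : Subgroup G) : Set G)) ∧ z ^ p = 1 := by
        refine closure_induction (p := fun x _ => (x ∈ (S : Subgroup G) ⊓ centralizer ((S : Subgroup G) : Set G)) ∧ x ^ p = 1) ?_ ?_ ?_ ?_ hzΩ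
        · intro x hx
          exact hx
        · exact ⟨one_mem _, one_pow _⟩
        · intro x y _ _ hx hy
          refine ⟨mul_mem hx.1 hy.1, ?_⟩
          have hcomm : Commute x y := (mem_centralizer_iff.mp (mem_inf.mp hy.1).2) x (mem_inf.mp hx.1).1
          rw [hcomm.mul_pow, hx.2, hy.2, one_mul]
        · intro x _ hx
          exact ⟨inv_mem hx.1, by rw [inv_pow, hx.2, inv_one]⟩
      have hord : orderOf z = p := orderOf_eq_prime hz.2 hz1
      have hzc := (mem_inf.mp hz.1).2
      set R := zpowers z with hR
      have hRp : IsPGroup p R := by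
        rw [IsPGroup.iff_card, hR, Nat.card_zpowers, hord]
        exact ⟨1, (pow_one p).symm⟩
      have hR1 : R ≠ ⊥ := by
        rw [hR, Ne, zpowers_eq_bot]
        exact hz1
      have hcz : ∀ c ∈ centralizer ({z} : Set G), ∀ r ∈ R, c * r = r * c := by
        intro c hc r hr
        rw [mem_centralizer_singleton_iff] at hc
        obtain ⟨n, rfl⟩ := mem_zpowers_iff.mp hr
        exact ((Commute.zpow_right (a := c) (b := z) hc n)).eq
      have hCN : centralizer ({z} : Set G) ≤ normalizer (R : Set G) := by
        rw [le_normalizer_iff]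
        intro c hc r hr
        rw [hcz c hc r hr]
        simpa using hr
      have hSN : (S : Subgroup G) ≤ normalizer (R : Set G) := by
        refine le_trans ?_ hCN
        intro s hs
        rw [mem_centralizer_singleton_iff]
        exact mem_centralizer_iff.mp hzc s hs
      have h1 : CharPIn p (normalizer (R : Set G)) :=
        charPIn_iff.mpr (hpar R hRp hR1 ⟨S, hSN⟩)
      have hn : normalizer (R : Set G) ≤ normalizer ((centralizer ({z} : Set G) : Subgroup G) : Set G) := by
        rw [le_normalizer_iff]
        intro g hg c hc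
        rw [mem_centralizer_singleton_iff]
        have h2 : g⁻¹ * z * g ∈ R := by
          have := (le_normalizer_iff.mp le_rfl) g⁻¹ (inv_mem hg) z (mem_zpowers z)
          rwa [inv_inv] at this
        have h3 := hcz c hc _ h2
        calc g * c * g⁻¹ * z = g * (c * (g⁻¹ * z * g)) * g⁻¹ := by group
          _ = g * ((g⁻¹ * z * g) * c) * g⁻¹ := by rw [h3]
          _ = z * (g * c * g⁻¹) := by group
      exact hGF.mp (charPIn_of_normal hCN hn h1)
    · intro h R hR hR1 hpar
      obtain ⟨T, hT⟩ := hpar
      obtain ⟨g, hg⟩ := exists_conj_sylow_eq S T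
      apply charPIn_iff.mp
      apply charPIn_normalizer_conj R g
      set R' := R.map (MulAut.conj g).toMonoidHom with hR'
      have hR'p : IsPGroup p R' := hR.map _
      have hR'1 : R' ≠ ⊥ := by
        rw [hR', Ne, Subgroup.map_eq_bot_iff_of_injective _ (MulAut.conj g).injective]
        exact hR1
      have hSN : (S : Subgroup G) ≤ normalizer (R' : Set G) := by
        rw [hR', normalizer_map_conj, ← hg]
        exact map_mono hT
      have hR'S : R' ≤ (S : Subgroup G) := le_sylow_of_le_normalizer S hR'p hSN
      have hNn : (R'.subgroupOf (S : Subgroup G)).Normal := normal_subgroupOf_of_le_normalizer hSN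
      have hN1 : R'.subgroupOf (S : Subgroup G) ≠ ⊥ := by
        intro hbot
        apply hR'1
        rw [eq_bot_iff]
        intro x hx
        have : (⟨x, hR'S hx⟩ : (S : Subgroup G)) ∈ R'.subgroupOf (S : Subgroup G) := hx
        rw [hbot, mem_bot] at this
        exact mem_bot.mpr (congrArg Subtype.val this)
      have hW := Cfsg.Agent.Lib.Involutions2.NormalFour.inf_center_ne_bot S.2 _ hN1
      have hWp : IsPGroup p ↥(R'.subgroupOf (S : Subgroup G) ⊓ center (S : Subgroup G)) := S.2.to_subgroup _
      obtain ⟨z, hzW, -, hzo⟩ := exists_central_order hWp hW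
      have hz1 : (z : G) ≠ 1 := by
        intro h1
        have : orderOf (z : G) = 1 := by rw [h1, orderOf_one]
        rw [Subgroup.orderOf_coe, hzo] at this
        exact hp.ne_one this
      have hzR' : (z : G) ∈ R' := (mem_inf.mp hzW).1
      have hzc : (z : G) ∈ centralizer ((S : Subgroup G) : Set G) := by
        rw [mem_centralizer_iff]
        intro s hs
        have := (mem_center_iff.mp (mem_inf.mp hzW).2) ⟨s, hs⟩
        exact congrArg Subtype.val this
      have hzp : (z : G) ^ p = 1 := by
        have : orderOf (z : G) = p := by rw [Subgroup.orderOf_coe, hzo]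
        have h5 := pow_orderOf_eq_one (z : G)
        rwa [this] at h5
      have hzΩ : (z : G) ∈ omegaOne p ((S : Subgroup G) ⊓ centralizer ((S : Subgroup G) : Set G)) :=
        subset_closure ⟨mem_inf.mpr ⟨z.2, hzc⟩, hzp⟩
      have hC := hGF.mpr (h (z : G) hz1 hzΩ)
      refine charPIn_normalizer_of_central hR'p hzR' ?_ hC
      intro x hx
      exact mem_centralizer_iff.mp hzc x (hR'S hx)
  · intro h
    refine ⟨hdiv, fun T hT hT1 => ?_⟩
    exact charPIn_iff.mp (charPIn_normalizer_of_forall S (fun z hz hzo => hGF.mpr (h z hz hzo)) hT hT1)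

end Cfsg.Agent.S2896
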