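import Cfsg.Statements.S2897
import Cfsg.Agent.Lib.LocalEven.Util
import Cfsg.Agent.Lib.CharP.Basic
import Cfsg.Agent.Lib.LocalEven.CharP
import Cfsg.Agent.Lib.PGroups.Basic

set_option autoImplicit false
open Cfsg
open Cfsg.Agent.Lib.LocalEven.Util Cfsg.Agent.Lib.CharP.Basic

namespace Cfsg.Agent.S2897

/-- Let p be a prime dividing the order of the finite group G, suppose G has parabolic characteristic p, let S be a Sylow p-subgroup of G and G₁ a normal subgroup of G. If Ω₁(Z(S ∩ G₁)) is nontrivial and contained in Ω₁(Z(S)), then G₁ has parabolic characteristic p. -/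
theorem result {G : Type*} [Group G] [Finite G] {p : ℕ} [Fact p.Prime] (hdiv : p ∣ Nat.card G) (hG : Cfsg.IsOfParabolicCharacteristic p G) (S : Sylow p G) (G₁ : Subgroup G) [G₁.Normal] (hne : Cfsg.omegaOne p (((S : Subgroup G) ⊓ G₁) ⊓ Subgroup.centralizer (((S : Subgroup G) ⊓ G₁ : Subgroup G) : Set G)) ≠ ⊥) (hle : Cfsg.omegaOne p (((S : Subgroup G) ⊓ G₁) ⊓ Subgroup.centralizer (((S : Subgroup G) ⊓ G₁ : Subgroup G) : Set G)) ≤ Cfsg.omegaOne p ((S : Subgroup G) ⊓ Subgroup.centralizer ((S : Subgroup G) : Set G))) : Cfsg.IsOfParabolicCharacteristic p ↥G₁ := by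
    classical
  intro R hRp hRne hpar
  obtain ⟨T₁, hT₁⟩ := hpar
  set L : Subgroup ↥G₁ := Subgroup.normalizer (R : Set ↥G₁) with hL
  set R' : Subgroup G := R.map G₁.subtype with hR'
  set L' : Subgroup G := L.map G₁.subtype with hL'
  set T' : Subgroup G := (T₁ : Subgroup ↥G₁).map G₁.subtype with hT'
  have hR'p : IsPGroup p R' := hRp.map _
  have hT'p : IsPGroup p T' := T₁.isPGroup'.map _
  have hT'G₁ : T' ≤ G₁ := Subgroup.map_subtype_le _
  have hR'G₁ : R' ≤ G₁ := Subgroup.map_subtype_le _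
  have hL'iff : ∀ x : G, x ∈ L' ↔ x ∈ G₁ ∧ x ∈ Subgroup.normalizer (R' : Set G) := by
    intro x
    constructor
    · rintro ⟨l, hl, rfl⟩
      refine ⟨l.2, ?_⟩
      apply mem_normalizer_of_conj_le
      rintro _ ⟨r, hr, rfl⟩
      have := conj_mem_of_mem_normalizer hl hr
      exact ⟨_, this, rfl⟩
    · rintro ⟨hx, hxN⟩
      refine ⟨⟨x, hx⟩, ?_, rfl⟩
      apply mem_normalizer_of_conj_le
      intro r hr
      have h1 : x * (r : G) * x⁻¹ ∈ R' := conj_mem_of_mem_normalizer hxN ⟨r, hr, rfl⟩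
      obtain ⟨r', hr', he⟩ := h1
      have : r' = ⟨x, hx⟩ * r * (⟨x, hx⟩ : ↥G₁)⁻¹ := Subtype.ext (by simpa using he)
      rwa [← this]
  -- Sylow subgroup `S₁` of `G` above `T'`
  obtain ⟨S₁, hS₁⟩ := hT'p.exists_le_sylow
  obtain ⟨g, hg⟩ := MulAction.exists_smul_eq G S S₁
  have hS₁mem : ∀ s : G, s ∈ (S₁ : Subgroup G) ↔ g⁻¹ * s * g ∈ (S : Subgroup G) := by
    intro s
    rw [← hg]
    constructor
    · rintro ⟨y, hy, rfl⟩
      have e : g⁻¹ * (g * y * g⁻¹) * g = y := by group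
      show g⁻¹ * (g * y * g⁻¹) * g ∈ (S : Subgroup G)
      rw [e]; exact hy
    · intro h
      refine ⟨_, h, ?_⟩
      show g * (g⁻¹ * s * g) * g⁻¹ = s
      group
  have hT'eq : T' = (S₁ : Subgroup G) ⊓ G₁ := by
    apply le_antisymm (le_inf hS₁ hT'G₁)
    have hp₀ : IsPGroup p (((S₁ : Subgroup G) ⊓ G₁).subgroupOf G₁) := by
      intro x
      obtain ⟨k, hk⟩ := (S₁.isPGroup'.to_le (inf_le_left : (S₁ : Subgroup G) ⊓ G₁ ≤ S₁)) ⟨x.1.1, x.2⟩
      refine ⟨k, Subtype.ext (Subtype.ext ?_)⟩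
      simpa using congrArg Subtype.val hk
    have hle₀ : (T₁ : Subgroup ↥G₁) ≤ ((S₁ : Subgroup G) ⊓ G₁).subgroupOf G₁ := by
      intro t ht
      rw [Subgroup.mem_subgroupOf]
      exact ⟨hS₁ ⟨t, ht, rfl⟩, t.2⟩
    have heq := T₁.is_maximal' hp₀ hle₀
    intro y hy
    have h1 : (⟨y, hy.2⟩ : ↥G₁) ∈ ((S₁ : Subgroup G) ⊓ G₁).subgroupOf G₁ := by
      rw [Subgroup.mem_subgroupOf]; exact hy
    rw [heq] at h1
    exact ⟨_, h1, rfl⟩
  -- `R ≤ T₁`
  have hRT₁ : R ≤ (T₁ : Subgroup ↥G₁) := by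
    have hsup : IsPGroup p ((T₁ : Subgroup ↥G₁) ⊔ R : Subgroup ↥G₁) :=
      IsPGroup.to_sup_of_normal_right' T₁.isPGroup' hRp hT₁
    have := T₁.is_maximal' hsup le_sup_left
    rw [← this]
    exact le_sup_right
  have hR'T' : R' ≤ T' := Subgroup.map_mono hRT₁
  -- central element
  have hT₁nil : IsPGroup p (T₁ : Subgroup ↥G₁) := T₁.isPGroup'
  haveI hnorm : (R.subgroupOf (T₁ : Subgroup ↥G₁)).Normal :=
    Subgroup.normal_subgroupOf_of_le_normalizer hT₁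
  have hRne' : R.subgroupOf (T₁ : Subgroup ↥G₁) ≠ ⊥ := by
    intro hbot
    apply hRne
    rw [Subgroup.subgroupOf_eq_bot] at hbot
    exact disjoint_self.1 (hbot.mono_right hRT₁)
  obtain ⟨z₁, hz₁R, hz₁c, hz₁o⟩ :=
    Cfsg.Agent.Lib.PGroups.Basic.exists_central_orderOf_eq hT₁nil _ hRne'
  set z : G := ((z₁ : ↥G₁) : G) with hz
  have hzR' : z ∈ R' := ⟨(z₁ : ↥G₁), hz₁R, rfl⟩
  have hzo : orderOf z = p := by
    rw [hz, Subgroup.orderOf_coe, Subgroup.orderOf_coe]; exact hz₁o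
  have hzT'c : ∀ t ∈ T', t * z = z * t := by
    rintro _ ⟨t, ht, rfl⟩
    have := (Subgroup.mem_center_iff.1 hz₁c) ⟨t, ht⟩
    have h2 := congrArg (fun u : ↥(T₁ : Subgroup ↥G₁) => ((u : ↥G₁) : G)) this
    simpa using h2
  have hzne : z ≠ 1 := by
    intro h
    rw [h, orderOf_one] at hzo
    exact (Fact.out : p.Prime).one_lt.ne hzo
  -- transport to `S`
  set z₀ := g⁻¹ * z * g with hz₀
  have hz₀S : z₀ ∈ (S : Subgroup G) := (hS₁mem z).1 (hS₁ (hR'T' hzR'))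
  have hz₀G₁ : z₀ ∈ G₁ := by
    have h1 := ‹G₁.Normal›.conj_mem z (hR'G₁ hzR') g⁻¹
    simpa [hz₀] using h1
  have hz₀c : z₀ ∈ (S : Subgroup G) ⊓ G₁ ⊓ Subgroup.centralizer (((S : Subgroup G) ⊓ G₁ : Subgroup G) : Set G) := by
    refine ⟨⟨hz₀S, hz₀G₁⟩, ?_⟩
    refine Subgroup.mem_centralizer_iff.mpr ?_
    rintro s ⟨hs1, hs2⟩
    have h1 : g * s * g⁻¹ ∈ T' := by
      rw [hT'eq]
      refine ⟨(hS₁mem _).2 ?_, ‹G₁.Normal›.conj_mem s hs2 g⟩
      have e : g⁻¹ * (g * s * g⁻¹) * g = s := by group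
      rw [e]; exact hs1
    have h2 := hzT'c _ h1
    calc s * z₀ = g⁻¹ * ((g * s * g⁻¹) * z) * g := by rw [hz₀]; group
      _ = g⁻¹ * (z * (g * s * g⁻¹)) * g := by rw [h2]
      _ = z₀ * s := by rw [hz₀]; group
  have hz₀Ω : z₀ ∈ Cfsg.omegaOne p ((S : Subgroup G) ⊓ G₁ ⊓ Subgroup.centralizer (((S : Subgroup G) ⊓ G₁ : Subgroup G) : Set G)) := by
    apply Subgroup.subset_closure
    refine ⟨hz₀c, ?_⟩
    have : z₀ ^ p = g⁻¹ * z ^ p * g := by
      have := map_pow (MulAut.conj g⁻¹) z p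
      simpa [hz₀] using this.symm
    rw [this, ← hzo, pow_orderOf_eq_one]
    group
  have hz₀ZS : z₀ ∈ (S : Subgroup G) ⊓ Subgroup.centralizer ((S : Subgroup G) : Set G) := by
    have h1 := hle hz₀Ω
    have h2 : Cfsg.omegaOne p ((S : Subgroup G) ⊓ Subgroup.centralizer ((S : Subgroup G) : Set G)) ≤
        (S : Subgroup G) ⊓ Subgroup.centralizer ((S : Subgroup G) : Set G) := by
      rw [Cfsg.omegaOne, Subgroup.closure_le]
      rintro x ⟨hx, -⟩
      exact hx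
    exact h2 h1
  have hS₁C : ∀ s ∈ (S₁ : Subgroup G), s * z = z * s := by
    intro s hs
    have h1 := (hS₁mem s).1 hs
    have h2 := Subgroup.mem_centralizer_iff.mp hz₀ZS.2 _ h1
    have h3 : (g⁻¹ * s * g) * z₀ = z₀ * (g⁻¹ * s * g) := h2
    calc s * z = g * ((g⁻¹ * s * g) * z₀) * g⁻¹ := by rw [hz₀]; group
      _ = g * (z₀ * (g⁻¹ * s * g)) * g⁻¹ := by rw [h3]
      _ = z * s := by rw [hz₀]; group
  -- `N_G(⟨z⟩)`
  have hzp : IsPGroup p (Subgroup.zpowers z) :=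
    IsPGroup.of_card (n := 1) (by rw [Nat.card_zpowers, hzo, pow_one])
  have hzbot : Subgroup.zpowers z ≠ ⊥ := by
    simpa [Subgroup.zpowers_eq_bot] using hzne
  set Cz : Subgroup G := Subgroup.centralizer ({z} : Set G) with hCz
  set Nz : Subgroup G := Subgroup.normalizer ((Subgroup.zpowers z : Subgroup G) : Set G) with hNz
  have hCzmem : ∀ w, w ∈ Cz ↔ w * z = z * w := by
    intro w
    rw [hCz, Subgroup.mem_centralizer_singleton_iff]
  have hCzNz : Cz ≤ Nz := by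
    intro w hw
    have hw' := (hCzmem w).1 hw
    apply mem_normalizer_of_conj_le
    intro u hu
    obtain ⟨k, rfl⟩ := Subgroup.mem_zpowers_iff.1 hu
    have hc : Commute w z := hw'
    have : w * z ^ k * w⁻¹ = z ^ k := by
      rw [(hc.zpow_right k).eq]; group
    rw [this]; exact hu
  have hpN : Cfsg.IsParabolic p Nz := ⟨S₁, fun s hs => hCzNz ((hCzmem s).2 (hS₁C s hs))⟩
  have hNzchar : CharPIn p Nz := charPIn_iff.2 (hG _ hzp hzbot hpN)
  have hCzchar : CharPIn p Cz := by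
    refine hNzchar.of_normal hCzNz ?_
    intro h hh w hw
    rw [hCzmem]
    have hh' := (hCzmem w).1 hw
    have h1 : h⁻¹ * z * h ∈ Subgroup.zpowers z := by
      have := conj_mem_of_mem_normalizer (Subgroup.inv_mem _ hh) (Subgroup.mem_zpowers z)
      simpa using this
    obtain ⟨k, hk⟩ := Subgroup.mem_zpowers_iff.1 h1
    have hc : Commute w (z ^ k) := Commute.zpow_right hh' k
    have hc' : w * (h⁻¹ * z * h) = (h⁻¹ * z * h) * w := by rw [← hk]; exact hc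
    calc h * w * h⁻¹ * z = h * (w * (h⁻¹ * z * h)) * h⁻¹ := by group
      _ = h * ((h⁻¹ * z * h) * w) * h⁻¹ := by rw [hc']
      _ = z * (h * w * h⁻¹) := by group
  -- `C_{G₁}(z)`
  set Y : Subgroup G := Cz ⊓ G₁ with hY
  have hYchar : CharPIn p Y := by
    refine hCzchar.of_normal inf_le_left ?_
    rintro h hh w ⟨hw1, hw2⟩
    refine ⟨Cz.mul_mem (Cz.mul_mem hh hw1) (Cz.inv_mem hh), ‹G₁.Normal›.conj_mem w hw2 h⟩
  have hR'Y : R' ≤ Y := by
    intro r hr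
    refine ⟨(hCzmem r).2 (hzT'c r (hR'T' hr)), hR'G₁ hr⟩
  have hWchar := hYchar.inf_normalizer hR'Y hR'p
  set W : Subgroup G := Y ⊓ Subgroup.normalizer (R' : Set G) with hW
  set X : Subgroup G := L' ⊓ Subgroup.centralizer (R' : Set G) with hX
  have hXW : X ≤ W := by
    rintro x ⟨hx1, hx2⟩
    have hx3 := (hL'iff x).1 hx1
    refine ⟨⟨(hCzmem x).2 ?_, hx3.1⟩, hx3.2⟩
    exact (Subgroup.mem_centralizer_iff.mp hx2 z hzR').symm
  have hXn : ∀ h ∈ L', ∀ x ∈ X, h * x * h⁻¹ ∈ X := by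
    intro h hh x hx
    refine ⟨L'.mul_mem (L'.mul_mem hh hx.1) (L'.inv_mem hh), ?_⟩
    refine Subgroup.mem_centralizer_iff.mpr ?_
    intro t ht
    have hN := ((hL'iff h).1 hh).2
    have h3 : h⁻¹ * t * h ∈ R' := by
      have := conj_mem_of_mem_normalizer (Subgroup.inv_mem _ hN) ht
      simpa using this
    have h2 := Subgroup.mem_centralizer_iff.mp hx.2 _ h3
    calc t * (h * x * h⁻¹) = h * ((h⁻¹ * t * h) * x) * h⁻¹ := by group
      _ = h * (x * (h⁻¹ * t * h)) * h⁻¹ := by rw [h2]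
      _ = h * x * h⁻¹ * t := by group
  have hXchar : CharPIn p X := by
    refine hWchar.of_normal hXW ?_
    rintro h ⟨⟨_, hh1⟩, hh2⟩ x hx
    exact hXn h ((hL'iff h).2 ⟨hh1, hh2⟩) x hx
  have hL'char : CharPIn p L' := by
    refine hXchar.of_centralizer (U := R') ?_ hR'p ?_ inf_le_left hXn ?_
    · intro r hr
      exact (hL'iff r).2 ⟨hR'G₁ hr, Subgroup.le_normalizer hr⟩
    · intro h hh u hu
      exact conj_mem_of_mem_normalizer ((hL'iff h).1 hh).2 hu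
    · intro y hy hc
      refine ⟨hy, ?_⟩
      refine Subgroup.mem_centralizer_iff.mpr ?_
      intro t ht
      exact (hc t ht).symm
  exact Cfsg.Agent.Lib.LocalEven.CharP.charP_of_mulEquiv
    (Subgroup.equivMapOfInjective L G₁.subtype G₁.subtype_injective).symm (charPIn_iff.1 hL'char)

end Cfsg.Agent.S2897
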