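import Cfsg.Statements.S2898
import Cfsg.Agent.Lib.LocalEven.Util
import Cfsg.Agent.Lib.CharP.Basic
import Cfsg.Agent.Lib.LocalEven.CharP
import Cfsg.Agent.Lib.PGroups.Basic

set_option autoImplicit false
open Cfsg
open Cfsg.Agent.Lib.LocalEven.Util Cfsg.Agent.Lib.CharP.Basic

namespace Cfsg.Agent.S2898

/-- Let G be a finite group of even order with parabolic characteristic 2. If the centre of G ⧸ O(G) is trivial, then O(G) = 1. -/
theorem result {G : Type*} [Group G] [Finite G] (h2 : 2 ∣ Nat.card G) (hG : Cfsg.IsOfParabolicCharacteristic 2 G) [hN : (Cfsg.oddCore G).Normal] (hZ : Subgroup.center (G ⧸ Cfsg.oddCore G) = ⊥) : Cfsg.oddCore G = ⊥ := by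
    classical
  set K : Subgroup G := Cfsg.oddCore G with hK
  have hKodd : ∀ a ∈ K, (orderOf a).Coprime 2 := by
    intro a ha
    exact Cfsg.Agent.Lib.Core.Basic.orderOf_coprime_of_mem_pPrimeCore ha
  have hKnorm : ∀ g : G, ∀ k ∈ K, g * k * g⁻¹ ∈ K := fun g k hk => hN.conj_mem k hk g
  -- (a) central involutions of a Sylow subgroup invert `K`
  have ha : ∀ (S : Sylow 2 G) (z : G), (∀ t ∈ (S : Subgroup G), t * z = z * t) → orderOf z = 2 →
      ∀ k ∈ K, z * k * z⁻¹ = k⁻¹ := by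
    intro S z hzc hzo
    have hz2 : z * z = 1 := by
      rw [← pow_two, ← hzo, pow_orderOf_eq_one]
    have hzinv : z⁻¹ = z := inv_eq_of_mul_eq_one_left hz2
    have hzne : z ≠ 1 := by
      intro h
      rw [h, orderOf_one] at hzo
      omega
    have hzp : IsPGroup 2 (Subgroup.zpowers z) :=
      IsPGroup.of_card (n := 1) (by rw [Nat.card_zpowers, hzo, pow_one])
    have hzbot : Subgroup.zpowers z ≠ ⊥ := by
      simpa [Subgroup.zpowers_eq_bot] using hzne
    set Nz : Subgroup G := Subgroup.normalizer ((Subgroup.zpowers z : Subgroup G) : Set G) with hNz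
    have hcomm_mem : ∀ w : G, w * z = z * w → w ∈ Nz := by
      intro w hw
      apply mem_normalizer_of_conj_le
      intro u hu
      obtain ⟨k, rfl⟩ := Subgroup.mem_zpowers_iff.1 hu
      have hc : Commute w z := hw
      have : w * z ^ k * w⁻¹ = z ^ k := by
        rw [(hc.zpow_right k).eq]; group
      rw [this]; exact hu
    have hmem_comm : ∀ h ∈ Nz, h * z = z * h := by
      intro h hh
      have h1 : h * z * h⁻¹ ∈ Subgroup.zpowers z :=
        conj_mem_of_mem_normalizer hh (Subgroup.mem_zpowers z)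
      obtain ⟨k, hk⟩ := Subgroup.mem_zpowers_iff.1 h1
      have h2 : h * z * h⁻¹ = z := by
        rcases Int.even_or_odd' k with ⟨m, rfl | rfl⟩
        · exfalso
          rw [zpow_mul, zpow_two, hz2, one_zpow] at hk
          have : h * z * h⁻¹ = 1 := hk.symm
          rw [mul_inv_eq_one] at this
          exact hzne (mul_left_cancel (this.trans (mul_one h).symm))
        · rw [← hk, zpow_add, zpow_mul, zpow_two, hz2, one_zpow, one_mul, zpow_one]
      rw [mul_inv_eq_iff_eq_mul] at h2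
      exact h2
    have hpN : Cfsg.IsParabolic 2 Nz := ⟨S, fun s hs => hcomm_mem s (hzc s hs)⟩
    have hchar : CharPIn 2 Nz := charPIn_iff.2 (hG _ hzp hzbot hpN)
    have hfix : ∀ a ∈ K, a * z = z * a → a = 1 := by
      intro a haK hac
      have haN := hcomm_mem a hac
      refine hchar.eq_one haN (hKodd a haK) ?_
      intro y hy
      set c := a * y * a⁻¹ * y⁻¹ with hc
      have hcO : c ∈ OpIn 2 Nz := by
        refine (OpIn 2 Nz).mul_mem (OpIn_conj haN hy) ((OpIn 2 Nz).inv_mem hy)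
      have hcK : c ∈ K := by
        have e : c = a * (y * a⁻¹ * y⁻¹) := by rw [hc]; group
        rw [e]
        exact K.mul_mem haK (hKnorm y _ (K.inv_mem haK))
      have hc1 : c = 1 := eq_one_of_mem_OpIn hcO (hKodd c hcK)
      rw [hc, mul_inv_eq_one, mul_inv_eq_iff_eq_mul] at hc1
      exact hc1
    -- the map `k ↦ k⁻¹ (z k z⁻¹)` is bijective
    let f : K → K := fun k => ⟨(k : G)⁻¹ * (z * k * z⁻¹), K.mul_mem (K.inv_mem k.2) (hKnorm z k k.2)⟩
    have hfinj : Function.Injective f := by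
      intro a b hab
      have h1 : (a : G)⁻¹ * (z * a * z⁻¹) = (b : G)⁻¹ * (z * b * z⁻¹) := congrArg Subtype.val hab
      have h2 : (b : G) * (a : G)⁻¹ = (z * b * z⁻¹) * (z * a * z⁻¹)⁻¹ := by
        have h3 : z * a * z⁻¹ = a * ((b : G)⁻¹ * (z * b * z⁻¹)) := by
          rw [← h1]; group
        rw [h3]; group
      have h4 : ((b : G) * (a : G)⁻¹) * z = z * ((b : G) * (a : G)⁻¹) := by
        have h5 : (z * b * z⁻¹) * (z * a * z⁻¹)⁻¹ = z * ((b : G) * (a : G)⁻¹) * z⁻¹ := by group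
        rw [h5] at h2
        calc ((b : G) * (a : G)⁻¹) * z = (z * ((b : G) * (a : G)⁻¹) * z⁻¹) * z := by rw [← h2]
          _ = z * ((b : G) * (a : G)⁻¹) := by group
      have h6 := hfix _ (K.mul_mem b.2 (K.inv_mem a.2)) h4
      rw [mul_inv_eq_one] at h6
      exact Subtype.ext h6.symm
    have hfsurj : Function.Surjective f := Finite.injective_iff_surjective.1 hfinj
    intro k hk
    obtain ⟨a, ha⟩ := hfsurj ⟨k, hk⟩
    have ha' : (a : G)⁻¹ * (z * a * z⁻¹) = k := congrArg Subtype.val ha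
    rw [← ha', hzinv]
    calc z * ((a : G)⁻¹ * (z * a * z)) * z = z * (a : G)⁻¹ * z * a * (z * z) := by group
      _ = z * (a : G)⁻¹ * z * a := by rw [hz2, mul_one]
      _ = z⁻¹ * (a : G)⁻¹ * z⁻¹ * a := by rw [hzinv]
      _ = ((a : G)⁻¹ * (z * a * z))⁻¹ := by group
  have hinvert_one : ∀ z : G, (∀ k ∈ K, z * k * z⁻¹ = k⁻¹) → (∀ k ∈ K, k * z = z * k) → K = ⊥ := by
    intro z hz1 hz2
    rw [eq_bot_iff]
    intro k hk
    have h1 : k = k⁻¹ := by
      have h2 := hz1 k hk
      rw [← hz2 k hk] at h2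
      simpa using h2
    have h2 : k ^ 2 = 1 := by
      rw [pow_two]
      nth_rewrite 1 [h1]
      simp
    have h3 : orderOf k ∣ 2 := orderOf_dvd_of_pow_eq_one h2
    have h4 : orderOf k = 1 := Nat.eq_one_of_dvd_coprimes (hKodd k hk) (dvd_refl _) h3
    rw [Subgroup.mem_bot]
    exact orderOf_eq_one_iff.1 h4
  obtain ⟨S⟩ : Nonempty (Sylow 2 G) := inferInstance
  have hSne : (S : Subgroup G) ≠ ⊥ := S.ne_bot_of_dvd_card h2
  set C : Subgroup G := Subgroup.centralizer (K : Set G) with hC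
  haveI hCn : C.Normal := Subgroup.normal_centralizer
  set D : Subgroup G := C ⊓ (S : Subgroup G) with hD
  by_cases hDne : D = ⊥
  · -- `C_G(K)` has odd order
    exfalso
    have hCodd : (Nat.card C).Coprime 2 := by
      rw [Nat.coprime_comm, Nat.Prime.coprime_iff_not_dvd Nat.prime_two]
      intro h2dvd
      obtain ⟨c, hc⟩ := exists_prime_orderOf_dvd_card' (G := C) 2 h2dvd
      have hco : orderOf (c : G) = 2 := by rw [Subgroup.orderOf_coe, hc]
      have hcp : IsPGroup 2 (Subgroup.zpowers (c : G)) :=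
        IsPGroup.of_card (n := 1) (by rw [Nat.card_zpowers, hco, pow_one])
      obtain ⟨S₂, hS₂⟩ := hcp.exists_le_sylow
      obtain ⟨g, hg⟩ := MulAction.exists_smul_eq G S₂ S
      have h1 : g * (c : G) * g⁻¹ ∈ (S : Subgroup G) := by
        rw [← hg]
        exact ⟨_, hS₂ (Subgroup.mem_zpowers (c : G)), rfl⟩
      have h3 : g * (c : G) * g⁻¹ ∈ D := ⟨hCn.conj_mem _ c.2 g, h1⟩
      rw [hDne, Subgroup.mem_bot, mul_inv_eq_one] at h3
      have h4 : (c : G) = 1 := mul_left_cancel (h3.trans (mul_one g).symm)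
      rw [h4, orderOf_one] at hco
      omega
    have hCK : C ≤ K := Cfsg.Agent.Lib.Core.Basic.le_pPrimeCore hCn hCodd
    obtain ⟨z, hzS, hzo, hzc⟩ := exists_central_order_p S.isPGroup' hSne
    have hinv := ha S z hzc hzo
    have hz2 : z * z = 1 := by
      rw [← pow_two, ← hzo, pow_orderOf_eq_one]
    have hzinv : z⁻¹ = z := inv_eq_of_mul_eq_one_left hz2
    have hy : ∀ g : G, z * g * z⁻¹ * g⁻¹ ∈ C := by
      intro g
      refine Subgroup.mem_centralizer_iff.mpr ?_
      intro k hk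
      have hk' : k ∈ K := hk
      have h1 := hinv (g⁻¹ * k * g⁻¹⁻¹) (hKnorm g⁻¹ k hk')
      have h3 := hinv k hk'
      -- `z⁻¹ (g⁻¹ k g) z = (g⁻¹ k g)⁻¹`
      have h4 : z⁻¹ * (g⁻¹ * k * g) * z = g⁻¹ * k⁻¹ * g := by
        rw [hzinv]
        have e : g⁻¹ * k * g⁻¹⁻¹ = g⁻¹ * k * g := by simp
        rw [e, hzinv] at h1
        rw [h1]; group
      have h5 : (z * g * z⁻¹ * g⁻¹) * k * (z * g * z⁻¹ * g⁻¹)⁻¹ = k := by
        calc (z * g * z⁻¹ * g⁻¹) * k * (z * g * z⁻¹ * g⁻¹)⁻¹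
            = z * g * (z⁻¹ * (g⁻¹ * k * g) * z) * g⁻¹ * z⁻¹ := by group
          _ = z * g * (g⁻¹ * k⁻¹ * g) * g⁻¹ * z⁻¹ := by rw [h4]
          _ = z * k⁻¹ * z⁻¹ := by group
          _ = k := by
              have := hinv k⁻¹ (K.inv_mem hk')
              rw [this]; simp
      rw [mul_inv_eq_iff_eq_mul] at h5
      exact h5.symm
    have hzc' : (QuotientGroup.mk z : G ⧸ Cfsg.oddCore G) ∈ Subgroup.center (G ⧸ Cfsg.oddCore G) := by
      rw [Subgroup.mem_center_iff]
      intro gb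
      obtain ⟨g, rfl⟩ := QuotientGroup.mk_surjective gb
      have h1 : z * g * z⁻¹ * g⁻¹ ∈ K := hCK (hy g)
      have h3 : (QuotientGroup.mk (z * g * z⁻¹ * g⁻¹) : G ⧸ Cfsg.oddCore G) = 1 :=
        (QuotientGroup.eq_one_iff _).2 h1
      simp only [QuotientGroup.mk_mul, QuotientGroup.mk_inv] at h3
      have h4 := mul_inv_eq_one.1 h3
      rw [mul_inv_eq_iff_eq_mul] at h4
      exact h4.symm
    rw [hZ, Subgroup.mem_bot, QuotientGroup.eq_one_iff] at hzc'
    have h5 := hKodd z hzc'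
    rw [hzo] at h5
    simp at h5
  · -- an involution in `D ∩ Z(S)`
    have hDS : D ≤ (S : Subgroup G) := inf_le_right
    haveI hnorm : (D.subgroupOf (S : Subgroup G)).Normal := by
      constructor
      intro n hn' g
      rw [Subgroup.mem_subgroupOf] at hn' ⊢
      refine ⟨hCn.conj_mem _ hn'.1 g, ?_⟩
      exact (S : Subgroup G).mul_mem ((S : Subgroup G).mul_mem g.2 (hDS hn'))
        ((S : Subgroup G).inv_mem g.2)
    have hDne' : D.subgroupOf (S : Subgroup G) ≠ ⊥ := by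
      intro hbot
      apply hDne
      rw [Subgroup.subgroupOf_eq_bot] at hbot
      exact disjoint_self.1 (hbot.mono_right hDS)
    obtain ⟨z₁, hz₁D, hz₁c, hz₁o⟩ :=
      Cfsg.Agent.Lib.PGroups.Basic.exists_central_orderOf_eq S.isPGroup' _ hDne'
    have hz₁o' : orderOf (z₁ : G) = 2 := by rw [Subgroup.orderOf_coe]; exact hz₁o
    have hzc : ∀ t ∈ (S : Subgroup G), t * (z₁ : G) = z₁ * t := by
      intro t ht
      have := (Subgroup.mem_center_iff.1 hz₁c) ⟨t, ht⟩
      exact congrArg Subtype.val this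
    apply hinvert_one z₁ (ha S z₁ hzc hz₁o')
    intro k hk
    have h1 : (z₁ : G) ∈ C := hz₁D.1
    exact Subgroup.mem_centralizer_iff.mp h1 k hk

end Cfsg.Agent.S2898
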