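import Cfsg.Statements.S2907

set_option autoImplicit false
open Cfsg

namespace Cfsg.Agent.S2907

/-- Let X be a finite semi-extraspecial p-group and x an element of X outside the centre. Then the index of C_X(x) in X equals the order of Z(X), and the commutators [x, y], y ∈ X, form exactly the centre Z(X). -/
theorem result {X : Type*} [Group X] [Finite X] {p : ℕ} [Fact p.Prime] (hX : Cfsg.IsSemiExtraspecial p X) (x : X) (hx : x ∉ Subgroup.center X) : (Subgroup.centralizer ({x} : Set X)).index = Nat.card ↥(Subgroup.center X) ∧ {z : X | ∃ y : X, z = x * y * x⁻¹ * y⁻¹} = (Subgroup.center X : Set X) := by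
    classical
  obtain ⟨⟨hp', hF, hC⟩, hY⟩ := hX
  have hcc : ∀ a b : X, a * b * a⁻¹ * b⁻¹ ∈ Subgroup.center X := by
    intro a b
    rw [← hC]
    exact Subgroup.commutator_mem_commutator (Subgroup.mem_top a) (Subgroup.mem_top b)
  let φ : X →* X :=
    { toFun := fun y => x * y * x⁻¹ * y⁻¹
      map_one' := by group
      map_mul' := by
        intro a b
        have h1 := (Subgroup.mem_center_iff.1 (hcc x b)) (x * a * x⁻¹ * a⁻¹)
        have h2 := (Subgroup.mem_center_iff.1 (hcc x b)) (a)
        calc x * (a * b) * x⁻¹ * (a * b)⁻¹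
            = x * a * x⁻¹ * (x * b * x⁻¹ * b⁻¹) * a⁻¹ := by group
          _ = x * a * x⁻¹ * (a⁻¹ * (a * (x * b * x⁻¹ * b⁻¹))) * a⁻¹ := by group
          _ = x * a * x⁻¹ * (a⁻¹ * ((x * b * x⁻¹ * b⁻¹) * a)) * a⁻¹ := by rw [h2]
          _ = x * a * x⁻¹ * a⁻¹ * (x * b * x⁻¹ * b⁻¹) := by group }
  have hφ : ∀ y, φ y = x * y * x⁻¹ * y⁻¹ := fun y => rfl
  have hker : φ.ker = Subgroup.centralizer ({x} : Set X) := by
    ext y
    rw [MonoidHom.mem_ker, hφ, Subgroup.mem_centralizer_singleton_iff]
    constructor
    · intro h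
      have : x * y = y * x := by
        have h3 : x * y * x⁻¹ = y := by
          rw [mul_inv_eq_one] at h; exact h
        rw [mul_inv_eq_iff_eq_mul] at h3
        exact h3
      exact this.symm
    · intro h
      rw [← h]; group
  have hrange : φ.range = Subgroup.center X := by
    apply le_antisymm
    · rintro _ ⟨y, rfl⟩
      exact hcc x y
    · by_contra hcon
      -- a coatom of the centre above the range
      set I : Subgroup (Subgroup.center X) := φ.range.subgroupOf (Subgroup.center X) with hI
      have hIne : I ≠ ⊤ := by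
        intro h
        apply hcon
        rw [hI, Subgroup.subgroupOf_eq_top] at h
        exact h
      obtain ⟨Y', hY', hIY'⟩ := (eq_top_or_exists_le_coatom I).resolve_left hIne
      set Y : Subgroup X := Y'.map (Subgroup.center X).subtype with hYdef
      have hYle : Y ≤ Subgroup.center X := by
        rintro _ ⟨y, -, rfl⟩
        exact y.2
      have hYsub : Y.subgroupOf (Subgroup.center X) = Y' := by
        rw [hYdef]
        exact Subgroup.comap_map_eq_self_of_injective (Subgroup.subtype_injective _) Y'
      obtain ⟨hYn, hE⟩ := hY Y hYle (by rw [hYsub]; exact hY')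
      have hrY : φ.range ≤ Y := by
        rintro _ ⟨y, rfl⟩
        have h1 : (⟨φ y, hcc x y⟩ : Subgroup.center X) ∈ Y' := by
          apply hIY'
          rw [hI, Subgroup.mem_subgroupOf]
          exact ⟨y, rfl⟩
        exact ⟨_, h1, rfl⟩
      -- Z(X)/Y has order p = Z(X/Y)
      have hxb : (QuotientGroup.mk x : X ⧸ Y) ∈ Subgroup.center (X ⧸ Y) := by
        rw [Subgroup.mem_center_iff]
        intro yb
        obtain ⟨y, rfl⟩ := QuotientGroup.mk_surjective yb
        have h1 : φ y ∈ Y := hrY ⟨y, rfl⟩
        have h2 : (QuotientGroup.mk (φ y) : X ⧸ Y) = 1 := (QuotientGroup.eq_one_iff _).2 h1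
        rw [hφ] at h2
        simp only [QuotientGroup.mk_mul, QuotientGroup.mk_inv] at h2
        have h3 := mul_inv_eq_one.1 h2
        rw [mul_inv_eq_iff_eq_mul] at h3
        exact h3.symm
      set Zq : Subgroup (X ⧸ Y) := (Subgroup.center X).map (QuotientGroup.mk' Y) with hZq
      have hZqle : Zq ≤ Subgroup.center (X ⧸ Y) := by
        rintro _ ⟨z, hz, rfl⟩
        rw [Subgroup.mem_center_iff]
        intro yb
        obtain ⟨y, rfl⟩ := QuotientGroup.mk_surjective yb
        have := (Subgroup.mem_center_iff.1 hz) y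
        show (QuotientGroup.mk y : X ⧸ Y) * QuotientGroup.mk z = QuotientGroup.mk z * QuotientGroup.mk y
        rw [← QuotientGroup.mk_mul, ← QuotientGroup.mk_mul, this]
      have hZqne : Zq ≠ ⊥ := by
        intro hbot
        apply hY'.1
        rw [← hYsub]
        rw [Subgroup.subgroupOf_eq_top]
        intro z hz
        have h1 : QuotientGroup.mk' Y z ∈ Zq := ⟨z, hz, rfl⟩
        rw [hbot, Subgroup.mem_bot] at h1
        exact (QuotientGroup.eq_one_iff z).1 h1
      have hcardC := hE.2
      have hdvd : Nat.card Zq ∣ p := by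
        rw [← hcardC]
        exact Subgroup.card_dvd_of_le hZqle
      have hZqeq : Zq = Subgroup.center (X ⧸ Y) := by
        rcases (Nat.dvd_prime (Fact.out : p.Prime)).1 hdvd with h1 | h1
        · exact absurd (Subgroup.card_eq_one.1 h1) hZqne
        · exact Subgroup.eq_of_le_of_card_ge hZqle (by rw [hcardC, h1])
      rw [← hZqeq] at hxb
      obtain ⟨z, hz, hzx⟩ := hxb
      have h1 : z⁻¹ * x ∈ Y := by
        rw [← QuotientGroup.eq]
        exact hzx
      apply hx
      have h2 : x = z * (z⁻¹ * x) := by group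
      rw [h2]
      exact (Subgroup.center X).mul_mem hz (hYle h1)
  refine ⟨?_, ?_⟩
  · rw [← hker, Subgroup.index_ker, hrange]
  · ext z
    simp only [SetLike.mem_coe]
    constructor
    · rintro ⟨y, rfl⟩
      exact hcc x y
    · intro hz
      rw [← hrange] at hz
      obtain ⟨y, rfl⟩ := hz
      exact ⟨y, rfl⟩

end Cfsg.Agent.S2907
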