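import Cfsg.Statements.S2908
import Cfsg.Agent.Lib.LocalEven.Util

set_option autoImplicit false
open Cfsg
open Cfsg.Agent.Lib.LocalEven.Util
open scoped commutatorElement

namespace Cfsg.Agent.S2908

/-- Let P be a p-subgroup of a finite group, normalized by a p-subgroup A and by a subgroup B of order prime to p that commutes elementwise with A. If [P, B] ≤ [P, A], then B centralizes P. -/
theorem result {G : Type*} [Group G] [Finite G] {p : ℕ} [Fact p.Prime] (P A B : Subgroup G) (hP : IsPGroup p ↥P) (hA : IsPGroup p ↥A) (hB : ¬ p ∣ Nat.card ↥B) (hnA : A ≤ Subgroup.normalizer (P : Set G)) (hnB : B ≤ Subgroup.normalizer (P : Set G)) (hAB : ⁅A, B⁆ = ⊥) (hcomm : ⁅P, B⁆ ≤ ⁅P, A⁆) : ⁅P, B⁆ = ⊥ := by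
    classical
  set W : Subgroup G := ⁅P, B⁆ with hW
  have hcA : ∀ a ∈ A, ∀ b ∈ B, a * b = b * a := by
    intro a ha b hb
    have h1 : ⁅a, b⁆ ∈ ⁅A, B⁆ := Subgroup.commutator_mem_commutator ha hb
    rw [hAB, Subgroup.mem_bot, commutatorElement_def] at h1
    rw [mul_inv_eq_one, mul_inv_eq_iff_eq_mul] at h1
    exact h1
  set T : Subgroup G := P ⊔ A with hT
  have hTp : IsPGroup p T := IsPGroup.to_sup_of_normal_left' hP hA hnA
  have hWP : W ≤ P := by
    rw [hW, Subgroup.commutator_le]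
    intro y hy b hb
    have e : ⁅y, b⁆ = y * (b * y⁻¹ * b⁻¹) := by rw [commutatorElement_def]; group
    rw [e]
    exact P.mul_mem hy ((Subgroup.mem_normalizer_iff.1 (hnB hb) y⁻¹).1 (P.inv_mem hy))
  -- normalizers of `B`
  have hAnB : A ≤ Subgroup.normalizer (B : Set G) := by
    intro a ha
    apply mem_normalizer_of_conj_le
    intro b hb
    rw [hcA a ha b hb]
    simpa using hb
  have hBnB : B ≤ Subgroup.normalizer (B : Set G) := Subgroup.le_normalizer
  have hBnA : B ≤ Subgroup.normalizer (A : Set G) := by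
    intro b hb
    apply mem_normalizer_of_conj_le
    intro a ha
    rw [← hcA a ha b hb]
    simpa using ha
  have hPnW : P ≤ Subgroup.normalizer (W : Set G) := by
    intro y hy
    apply mem_normalizer_of_conj_le
    intro w hw
    -- `y ⁅P, B⁆ y⁻¹ ≤ ⁅P, B⁆`
    have hle : W ≤ W.comap (MulAut.conj y).toMonoidHom := by
      rw [hW, Subgroup.commutator_le]
      intro z hz b hb
      rw [Subgroup.mem_comap]
      have e : (MulAut.conj y).toMonoidHom ⁅z, b⁆ = ⁅y * z, b⁆ * ⁅y, b⁆⁻¹ := by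
        simp only [commutatorElement_def, MulEquiv.coe_toMonoidHom, MulAut.conj_apply]
        group
      rw [e]
      exact W.mul_mem (Subgroup.commutator_mem_commutator (P.mul_mem hy hz) hb)
        (W.inv_mem (Subgroup.commutator_mem_commutator hy hb))
    exact hle hw
  have hAnW : A ≤ Subgroup.normalizer (W : Set G) := fun a ha =>
    mem_normalizer_commutator (hnA ha) (hAnB ha)
  have hBnW : B ≤ Subgroup.normalizer (W : Set G) := fun b hb =>
    mem_normalizer_commutator (hnB hb) (hBnB hb)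
  have hTnW : T ≤ Subgroup.normalizer (W : Set G) := sup_le hPnW hAnW
  have hBnT : B ≤ Subgroup.normalizer (T : Set G) := by
    intro b hb
    apply mem_normalizer_of_conj_le
    intro t ht
    have hle : T ≤ T.comap (MulAut.conj b).toMonoidHom := by
      apply sup_le
      · intro y hy
        rw [Subgroup.mem_comap]
        exact Subgroup.mem_sup_left (conj_mem_of_mem_normalizer (hnB hb) hy)
      · intro a ha
        rw [Subgroup.mem_comap]
        exact Subgroup.mem_sup_right (conj_mem_of_mem_normalizer (hBnA hb) ha)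
    exact hle ht
  set W' : Subgroup G := ⁅W, T⁆ with hW'
  have hTnW' : T ≤ Subgroup.normalizer (W' : Set G) := fun t ht =>
    mem_normalizer_commutator (hTnW ht) ((Subgroup.le_normalizer : T ≤ _) ht)
  have hBnW' : B ≤ Subgroup.normalizer (W' : Set G) := fun b hb =>
    mem_normalizer_commutator (hBnW hb) (hBnT hb)
  -- key computation
  have hkey1 : ∀ y ∈ P, ∀ a ∈ A, ∀ b ∈ B, b * ⁅y, a⁆ * b⁻¹ * ⁅y, a⁆⁻¹ ∈ W' := by
    intro y hy a ha b hb
    have hc : b * y * b⁻¹ * y⁻¹ ∈ W := by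
      have h1 : ⁅y, b⁆⁻¹ ∈ W := W.inv_mem (Subgroup.commutator_mem_commutator hy hb)
      have e : ⁅y, b⁆⁻¹ = b * y * b⁻¹ * y⁻¹ := by
        rw [commutatorElement_def]; group
      rwa [e] at h1
    have ht : y * a * y⁻¹ ∈ T :=
      T.mul_mem (T.mul_mem (Subgroup.mem_sup_left hy) (Subgroup.mem_sup_right ha))
        (T.inv_mem (Subgroup.mem_sup_left hy))
    have e : b * ⁅y, a⁆ * b⁻¹ * ⁅y, a⁆⁻¹ = ⁅b * y * b⁻¹ * y⁻¹, y * a * y⁻¹⁆ := by
      have hab : b * a * b⁻¹ = a := by
        rw [← hcA a ha b hb]; group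
      have hab' : b * a⁻¹ * b⁻¹ = a⁻¹ := by
        have := congrArg (·⁻¹) hab
        simpa [mul_assoc] using this
      have e1 : b * ⁅y, a⁆ * b⁻¹ =
          (b * y * b⁻¹) * (b * a * b⁻¹) * (b * y * b⁻¹)⁻¹ * (b * a⁻¹ * b⁻¹) := by
        rw [commutatorElement_def]; group
      rw [e1, hab, hab', commutatorElement_def, commutatorElement_def]
      group
    rw [e]
    exact Subgroup.commutator_mem_commutator hc ht
  have hkey2 : ∀ v ∈ ⁅P, A⁆, v ∈ P ∧ ∀ b ∈ B, b * v * b⁻¹ * v⁻¹ ∈ W' := by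
    intro v hv
    rw [Subgroup.commutator_def] at hv
    induction hv using Subgroup.closure_induction with
    | mem z hz =>
      obtain ⟨y, hy, a, ha, rfl⟩ := hz
      refine ⟨?_, fun b hb => hkey1 y hy a ha b hb⟩
      have e : ⁅y, a⁆ = y * (a * y⁻¹ * a⁻¹) := by rw [commutatorElement_def]; group
      rw [e]
      exact P.mul_mem hy ((Subgroup.mem_normalizer_iff.1 (hnA ha) y⁻¹).1 (P.inv_mem hy))
    | one => exact ⟨P.one_mem, fun b _ => by simp [W'.one_mem]⟩
    | mul u v _ _ hu hv =>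
      refine ⟨P.mul_mem hu.1 hv.1, fun b hb => ?_⟩
      have h1 := hu.2 b hb
      have h2 := hv.2 b hb
      have hn := conj_mem_of_mem_normalizer
        (hTnW' (Subgroup.mem_sup_left hu.1 : u ∈ T)) h2
      have e : b * (u * v) * b⁻¹ * (u * v)⁻¹ =
          (b * u * b⁻¹ * u⁻¹) * (u * (b * v * b⁻¹ * v⁻¹) * u⁻¹) := by group
      rw [e]
      exact W'.mul_mem h1 hn
    | inv u _ hu =>
      refine ⟨P.inv_mem hu.1, fun b hb => ?_⟩
      have h1 := hu.2 b hb
      have hn := conj_mem_of_mem_normalizer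
        (hTnW' (T.inv_mem (Subgroup.mem_sup_left hu.1 : u ∈ T))) (W'.inv_mem h1)
      have e : b * u⁻¹ * b⁻¹ * u⁻¹⁻¹ = u⁻¹ * (b * u * b⁻¹ * u⁻¹)⁻¹ * u⁻¹⁻¹ := by group
      rw [e]
      exact hn
  have hkey3 : ∀ w ∈ W, ∀ b ∈ B, b * w * b⁻¹ * w⁻¹ ∈ W' := fun w hw b hb =>
    (hkey2 w (hcomm hw)).2 b hb
  -- all `[b, y]` lie in `W'`
  have hcop : ∀ b ∈ B, (orderOf b).Coprime p := by
    intro b hb
    have h1 : orderOf b ∣ Nat.card B := by
      have := orderOf_dvd_natCard (⟨b, hb⟩ : B)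
      rwa [Subgroup.orderOf_mk] at this
    have h2 : ¬ p ∣ orderOf b := fun h => hB (h.trans h1)
    exact ((Nat.Prime.coprime_iff_not_dvd Fact.out).2 h2).symm
  have hkey4 : ∀ y ∈ P, ∀ b ∈ B, b * y * b⁻¹ * y⁻¹ ∈ W' := by
    intro y hy b hb
    set c := b * y * b⁻¹ * y⁻¹ with hc
    have hcW : c ∈ W := by
      have h1 : ⁅y, b⁆⁻¹ ∈ W := W.inv_mem (Subgroup.commutator_mem_commutator hy hb)
      have e : ⁅y, b⁆⁻¹ = c := by
        rw [commutatorElement_def, hc]; group
      rwa [e] at h1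
    have hind : ∀ k : ℕ, ∃ w' ∈ W', b ^ k * y * (b ^ k)⁻¹ = w' * c ^ k * y := by
      intro k
      induction k with
      | zero => exact ⟨1, W'.one_mem, by simp⟩
      | succ k ih =>
        obtain ⟨w', hw', he⟩ := ih
        have h1 := hkey3 (c ^ k) (W.pow_mem hcW k) b hb
        refine ⟨(b * w' * b⁻¹) * (b * c ^ k * b⁻¹ * (c ^ k)⁻¹), W'.mul_mem
          (conj_mem_of_mem_normalizer (hBnW' hb) hw') h1, ?_⟩
        have e0 : b * y * b⁻¹ = c * y := by rw [hc]; group
        calc b ^ (k + 1) * y * (b ^ (k + 1))⁻¹ = b * (b ^ k * y * (b ^ k)⁻¹) * b⁻¹ := by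
              rw [pow_succ']; group
          _ = (b * w' * b⁻¹) * (b * c ^ k * b⁻¹) * (b * y * b⁻¹) := by rw [he]; group
          _ = (b * w' * b⁻¹) * (b * c ^ k * b⁻¹) * (c * y) := by rw [e0]
          _ = (b * w' * b⁻¹) * (b * c ^ k * b⁻¹ * (c ^ k)⁻¹) * c ^ (k + 1) * y := by
              rw [pow_succ]; group
    obtain ⟨w', hw', he⟩ := hind (orderOf b)
    rw [pow_orderOf_eq_one] at he
    have h1 : c ^ orderOf b = w'⁻¹ := by
      have h2 : w' * c ^ orderOf b * y = y := by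
        rw [← he]; group
      have h3 : w' * c ^ orderOf b = 1 := mul_eq_right.1 h2
      exact eq_inv_of_mul_eq_one_right h3
    have h2 : c ^ orderOf b ∈ W' := by rw [h1]; exact W'.inv_mem hw'
    -- `c` is a `p`-element
    have hcP : c ∈ P := hWP hcW
    obtain ⟨k, hk⟩ := hP ⟨c, hcP⟩
    have hk' : c ^ p ^ k = 1 := by
      have := congrArg Subtype.val hk
      simpa using this
    have hoc : orderOf c ∣ p ^ k := orderOf_dvd_of_pow_eq_one hk'
    have hcop' : (orderOf b).Coprime (orderOf c) :=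
      Nat.Coprime.coprime_dvd_right hoc ((hcop b hb).pow_right k)
    obtain ⟨m, hm⟩ := exists_pow_eq_self_of_coprime hcop'
    rw [← hm]
    exact W'.pow_mem h2 m
  have hWW' : W ≤ W' := by
    rw [hW, Subgroup.commutator_le]
    intro y hy b hb
    have h1 := W'.inv_mem (hkey4 y hy b hb)
    have e : ⁅y, b⁆ = (b * y * b⁻¹ * y⁻¹)⁻¹ := by
      rw [commutatorElement_def]; group
    rw [e]; exact h1
  exact eq_bot_of_le_commutator_of_isPGroup hTp (hWP.trans le_sup_left) hWW'

end Cfsg.Agent.S2908
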