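import Cfsg.Statements.S2912
import Cfsg.Agent.Lib.LocalEven.ExtraRep

set_option autoImplicit false
open Cfsg
open Cfsg.Agent.Lib.LocalEven.ExtraRep Cfsg.Agent.Lib.PGroups.Special

namespace Cfsg.Agent.S2912

/-- Let p and r be distinct primes, let E be an extraspecial subgroup of order p^(2w+1) of a finite group, and let A be an elementary abelian r-subgroup normalized by E on which E acts faithfully (C_E(A) = 1). If n ≥ 1 is least with p dividing rⁿ − 1 (the smallest dimension of a faithful representation of a group of order p over the field with r elements), then the order of A is at least r^(n·p^w). -/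
theorem result {G : Type*} [Group G] [Finite G] {p r : ℕ} [Fact p.Prime] [hr : Fact r.Prime] (hpr : p ≠ r) (E A : Subgroup G) (w : ℕ) (hE : Cfsg.IsExtraspecial p ↥E) (hEcard : Nat.card ↥E = p ^ (2 * w + 1)) (hA : Cfsg.IsElementaryAbelian r A) (hnorm : E ≤ Subgroup.normalizer (A : Set G)) (hfaith : E ⊓ Subgroup.centralizer (A : Set G) = ⊥) (n : ℕ) (hn : 1 ≤ n) (hdiv : p ∣ r ^ n - 1) (hmin : ∀ k : ℕ, 1 ≤ k → p ∣ r ^ k - 1 → n ≤ k) : r ^ (n * p ^ w) ≤ Nat.card ↥A := by
    classical
  have hex := extraLike_of_isExtraspecial hE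
  have hpp : p.Prime := Fact.out
  have hrp : r.Prime := Fact.out
  -- centre data
  have hcZ : Nat.card (Subgroup.center ↥E) = p := hex.card_center
  haveI : Finite ↥E := inferInstance
  haveI : IsCyclic (Subgroup.center ↥E) := isCyclic_of_prime_card hcZ
  obtain ⟨z₀, hz₀⟩ : ∃ z₀ : Subgroup.center ↥E, ∀ x, x ∈ Subgroup.zpowers z₀ :=
    IsCyclic.exists_generator
  have hzne : (z₀ : ↥E) ≠ 1 := by
    intro h
    have h1 : z₀ = 1 := Subtype.ext h
    have h2 : ∀ x : Subgroup.center ↥E, x = 1 := by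
      intro x
      have := hz₀ x
      rw [h1, Subgroup.zpowers_one_eq_bot, Subgroup.mem_bot] at this
      exact this
    have h3 : Nat.card (Subgroup.center ↥E) = 1 := by
      rw [Nat.card_eq_one_iff_unique]
      exact ⟨⟨fun a b => by rw [h2 a, h2 b]⟩, ⟨1⟩⟩
    rw [hcZ] at h3
    exact hpp.one_lt.ne' h3
  have hzp : (z₀ : ↥E) ^ p = 1 := by
    have h1 : z₀ ^ p = 1 := by
      have := pow_card_eq_one' (x := z₀)
      rwa [hcZ] at this
    simpa using congrArg Subtype.val h1
  have hgen : ∀ c ∈ Subgroup.center ↥E, ∃ i : ℕ, c = (z₀ : ↥E) ^ i := by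
    intro c hc
    have h1 := hz₀ ⟨c, hc⟩
    rw [mem_powers_iff_mem_zpowers.symm] at h1
    obtain ⟨i, hi⟩ := h1
    refine ⟨i, ?_⟩
    have := congrArg Subtype.val hi
    simpa using this.symm
  -- the action
  obtain ⟨hAcomm, hAexp⟩ := hA
  letI : CommGroup ↥A := { (inferInstance : Group ↥A) with mul_comm := hAcomm.is_comm.comm }
  let f : ↥E →* MulAut ↥A := (Subgroup.normalizerMonoidHom A).comp (Subgroup.inclusion (by simpa using hnorm))
  have hfinj : Function.Injective f := by
    intro a b hab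
    have h1 : (b : G)⁻¹ * (a : G) ∈ E ⊓ Subgroup.centralizer (A : Set G) := by
      refine Subgroup.mem_inf.2 ⟨mul_mem (inv_mem b.2) a.2, ?_⟩
      rw [Subgroup.mem_centralizer_iff]
      intro x hx
      have h2 : (a : G) * x * (a : G)⁻¹ = (b : G) * x * (b : G)⁻¹ :=
        congrArg (fun u : MulAut ↥A => ((u ⟨x, hx⟩ : ↥A) : G)) hab
      have h3 : (b : G)⁻¹ * (a : G) * x = x * ((b : G)⁻¹ * (a : G)) := by
        have h4 : (b : G)⁻¹ * ((a : G) * x * (a : G)⁻¹) * (a : G) = x * ((b : G)⁻¹ * (a : G)) := by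
          rw [h2]
          group
        rw [← h4]
        group
      exact h3.symm
    rw [hfaith, Subgroup.mem_bot] at h1
    exact (Subtype.ext (inv_mul_eq_one.1 h1)).symm
  -- the index
  have hcq : Nat.card (↥E ⧸ Subgroup.center ↥E) = p ^ (2 * w) := by
    have h1 := Subgroup.card_eq_card_quotient_mul_card_subgroup (Subgroup.center ↥E)
    rw [hEcard, hcZ, pow_succ] at h1
    exact (Nat.eq_of_mul_eq_mul_right hpp.pos h1).symm
  exact pow_mul_le_card hpr (fun x => Subtype.ext (hAexp _ x.2)) f hfinj hex.comm_mem (z₀ : ↥E) z₀.2 hzne hzp hgen n hmin (p ^ w)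
    (by rw [hcq, ← pow_mul, mul_comm])

end Cfsg.Agent.S2912
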