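import Cfsg.Statements.S2916
import Cfsg.Agent.Lib.Gl23.Loc6
import Cfsg.Agent.Lib.Gl23.PSL
import Cfsg.Agent.Lib.Gl23.Cosets
import Cfsg.Agent.Lib.Gl23.Final
import Cfsg.Agent.Lib.M11Rec.Bridge

set_option autoImplicit false
open Cfsg

namespace Cfsg.Agent.S2916

/-- Let G be a finite group with O²(G) = G (no proper normal subgroup of 2-power index), and let t be an involution of G whose centralizer C_G(t) is isomorphic to GL₂(3). Then G is isomorphic to PSL₃(3) or to the Mathieu group M₁₁. -/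
theorem result {G : Type*} [Group G] [Finite G] (hO : Cfsg.pResidual 2 G = ⊤) (t : G) (ht : orderOf t = 2) (hC : Nonempty (↥(Subgroup.centralizer ({t} : Set G)) ≃* GL (Fin 2) (ZMod 3))) : (∃ (F : Type) (_ : Field F) (_ : Fintype F), Fintype.card F = 3 ∧ Nonempty (G ≃* Matrix.ProjectiveSpecialLinearGroup (Fin 3) F)) ∨ Cfsg.Spor.IsoM11 G := by
  classical
  obtain ⟨e⟩ := hC
  -- no homomorphism to the sign group
  have hG : ∀ (f : G →* ℤˣ) (g : G), f g = 1 := by
    intro f g
    have hle : Cfsg.pResidual 2 G ≤ f.ker := by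
      rw [Cfsg.pResidual, Subgroup.closure_le]
      intro x hx
      have hx' : Nat.Coprime (orderOf x) 2 := hx
      have h1 : (f x) ^ (orderOf x) = 1 := by
        rw [← map_pow, pow_orderOf_eq_one, map_one]
      rcases Int.units_eq_one_or (f x) with h2 | h2
      · exact h2
      · exfalso
        rw [h2] at h1
        have hodd : Odd (orderOf x) := by
          rw [← Nat.not_even_iff_odd, even_iff_two_dvd]
          intro h3
          have := Nat.Coprime.eq_one_of_dvd hx'.symm h3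
          omega
        rw [hodd.neg_one_pow] at h1
        exact absurd h1 (by decide)
    have hg : g ∈ Cfsg.pResidual 2 G := by
      rw [hO]
      exact Subgroup.mem_top g
    exact hle hg
  letI : Fintype G := Fintype.ofFinite G
  haveI := Cfsg.Agent.Lib.Char.Ortho.finite_irrCharacter (G := G)
  letI : Fintype (Cfsg.IrrCharacter G) := Fintype.ofFinite _
  have h := Cfsg.Agent.Lib.Gl23.Final.emb_of_equiv ht e
  haveI hS : IsSimpleGroup G := Cfsg.Agent.Lib.Gl23.Simp.isSimple hG h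
  have ht1 : t ≠ 1 := by
    rintro rfl
    simp at ht
  rcases Cfsg.Agent.Lib.Gl23.Final.order_eq h (fun χ hχ => Cfsg.Agent.Lib.Gl23.Final.ne_of_simple ht1 χ hχ) with hN | hN
  · left
    haveI f13 : Fact (Nat.Prime 13) := ⟨by norm_num⟩
    haveI f3 : Fact (Nat.Prime 3) := ⟨Nat.prime_three⟩
    obtain ⟨x, hx⟩ := exists_prime_orderOf_dvd_card' 13 (G := G) (by rw [hN]; norm_num)
    obtain ⟨-, y, hy, hr⟩ := Cfsg.Agent.Lib.Gl23.Loc1.thirteen hG hN h hx
    obtain ⟨P₁, P₂, h1, h2, h12⟩ := Cfsg.Agent.Lib.Gl23.Loc6.parabolics hG hN h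
    obtain ⟨f, hf, hfP⟩ := Cfsg.Agent.Lib.Gl23.Cosets.exists_hom hN h1 h2 h12 hx hy hr
    obtain ⟨e'⟩ := Cfsg.Agent.Lib.Gl23.PSL.nonempty_equiv_psl f hf hfP hN
    exact ⟨ZMod 3, inferInstance, ZMod.fintype 3, ZMod.card 3, ⟨e'⟩⟩
  · right
    exact Cfsg.Agent.Lib.M11Rec.Bridge.nonempty_iso hN

end Cfsg.Agent.S2916
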