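import Cfsg.Statements.S2922
import Cfsg.Agent.Lib.LocalEven.Util
import Cfsg.Agent.Lib.CharP.Basic

set_option autoImplicit false
open Cfsg
open Cfsg.Agent.Lib.LocalEven.Util Cfsg.Agent.Lib.CharP.Basic

namespace Cfsg.Agent.S2922

/-- Let p be a prime, X a finite group, B a p-subgroup of X and C a normal subgroup of B. If N_X(C) has characteristic p (its generalized Fitting subgroup is O_p(N_X(C))), then N_X(B) and C_X(B) have characteristic p. -/
theorem result {X : Type*} [Group X] [Finite X] {p : ℕ} [Fact p.Prime] (B C : Subgroup X) (hB : IsPGroup p ↥B) (hCB : C ≤ B) (hCn : (C.subgroupOf B).Normal) (hC : Cfsg.generalizedFittingSubgroup ↥(Subgroup.normalizer (C : Set X)) = Cfsg.pCore p ↥(Subgroup.normalizer (C : Set X))) : Cfsg.generalizedFittingSubgroup ↥(Subgroup.normalizer (B : Set X)) = Cfsg.pCore p ↥(Subgroup.normalizer (B : Set X)) ∧ Cfsg.generalizedFittingSubgroup ↥(Subgroup.centralizer (B : Set X)) = Cfsg.pCore p ↥(Subgroup.centralizer (B : Set X)) := by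
    classical
  have hCchar : CharPIn p (Subgroup.normalizer (C : Set X)) :=
    charPIn_iff.2 (charP_of_generalizedFitting_eq hC)
  have hBN : B ≤ Subgroup.normalizer (C : Set X) := by
    intro b hb
    apply mem_normalizer_of_conj_le
    intro c hc
    have := hCn.conj_mem ⟨c, hCB hc⟩ (by rwa [Subgroup.mem_subgroupOf]) ⟨b, hb⟩
    rw [Subgroup.mem_subgroupOf] at this
    simpa using this
  have h1 := hCchar.inf_normalizer hBN hB
  have hCBle : Subgroup.centralizer (B : Set X) ≤
      Subgroup.normalizer (C : Set X) ⊓ Subgroup.normalizer (B : Set X) := by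
    intro w hw
    refine ⟨?_, Subgroup.centralizer_le_normalizer _ hw⟩
    apply mem_normalizer_of_conj_le
    intro c hc
    have h2 := Subgroup.mem_centralizer_iff.mp hw c (hCB hc)
    have e : w * c * w⁻¹ = c := by rw [← h2]; group
    rw [e]; exact hc
  have hWn : ∀ h ∈ Subgroup.normalizer (B : Set X), ∀ w ∈ Subgroup.centralizer (B : Set X),
      h * w * h⁻¹ ∈ Subgroup.centralizer (B : Set X) := by
    intro h hh w hw
    refine Subgroup.mem_centralizer_iff.mpr ?_
    intro t ht
    have h3 : h⁻¹ * t * h ∈ B := by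
      have hh3 : h⁻¹ ∈ Subgroup.normalizer (B : Set X) := Subgroup.inv_mem _ hh
      have := (Subgroup.mem_normalizer_iff.mp hh3 t).mp ht
      simpa using this
    have h2 := Subgroup.mem_centralizer_iff.mp hw _ h3
    calc t * (h * w * h⁻¹) = h * ((h⁻¹ * t * h) * w) * h⁻¹ := by group
      _ = h * (w * (h⁻¹ * t * h)) * h⁻¹ := by rw [h2]
      _ = h * w * h⁻¹ * t := by group
  have h2 : CharPIn p (Subgroup.centralizer (B : Set X)) := h1.of_normal hCBle (by
    rintro h ⟨_, hh⟩ w hw
    exact hWn h hh w hw)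
  have h3 : CharPIn p (Subgroup.normalizer (B : Set X)) := by
    refine h2.of_centralizer (Subgroup.le_normalizer) hB ?_ (Subgroup.centralizer_le_normalizer _) hWn ?_
    · intro h hh u hu
      exact (Subgroup.mem_normalizer_iff.mp hh u).mp hu
    · intro g _ hgc
      refine Subgroup.mem_centralizer_iff.mpr ?_
      intro t ht
      exact (hgc t ht).symm
  exact ⟨generalizedFitting_eq_of_charP (charPIn_iff.1 h3), generalizedFitting_eq_of_charP (charPIn_iff.1 h2)⟩

end Cfsg.Agent.S2922
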