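import Cfsg.Statements.S2925
import Cfsg.Agent.Lib.Components.SylowSub

set_option autoImplicit false
open Cfsg

namespace Cfsg.Agent.S2925

/-- Let K be a component of the finite group X and T a Sylow 2-subgroup of X. If some abelian normal subgroup Y of T does not normalize K, then K ⧸ Z(K) has abelian Sylow 2-subgroups. -/
theorem result {X : Type*} [Group X] [Finite X] (K : Subgroup X) (hK : Cfsg.IsComponent K) (T : Sylow 2 X) (Y : Subgroup X) (hYT : Y ≤ (T : Subgroup X)) (hYn : (Y.subgroupOf (T : Subgroup X)).Normal) (hYab : IsMulCommutative ↥Y) (hnot : ¬ Y ≤ Subgroup.normalizer (K : Set X)) (P : Sylow 2 (↥K ⧸ Subgroup.center ↥K)) : IsMulCommutative ↥(P : Subgroup (↥K ⧸ Subgroup.center ↥K)) := by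
  classical
  open Subgroup Cfsg.Agent.Lib.Components.Basic Cfsg.Agent.Lib.Components.SylowSub in
  obtain ⟨y, hy, hyK⟩ := SetLike.not_le_iff_exists.mp hnot
  have hyT := hYT hy
  have hKy : K.map (MulAut.conj y).toMonoidHom ≠ K := fun h => hyK (mem_normalizer_iff_map_conj_eq.mpr h)
  have hc : ⁅K, K.map (MulAut.conj y).toMonoidHom⁆ = ⊥ :=
    (component_eq_or_commutator_eq_bot hK (isComponent_conj y hK)).resolve_left (Ne.symm hKy)
  have hcomm : ∀ u ∈ K, ∀ v ∈ K, u * (y * v * y⁻¹) = (y * v * y⁻¹) * u := by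
    intro u hu v hv
    have := commutator_eq_bot_iff_le_centralizer.mp hc hu
    exact (mem_centralizer_iff.mp this (y * v * y⁻¹) ⟨v, hv, by simp⟩).symm
  have hYcomm : ∀ a ∈ Y, ∀ b ∈ Y, a * b = b * a := by
    intro a ha b hb
    have := hYab.is_comm.comm ⟨a, ha⟩ ⟨b, hb⟩
    exact congrArg Subtype.val this
  have hYconj : ∀ u ∈ (T : Subgroup X), u * y * u⁻¹ * y⁻¹ ∈ Y := by
    intro u hu
    refine mul_mem ?_ (inv_mem hy)
    have := hYn.conj_mem ⟨y, hyT⟩ (by rw [mem_subgroupOf]; exact hy) ⟨u, hu⟩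
    rw [mem_subgroupOf] at this
    simpa using this
  -- the key commutator computation
  have key : ∀ u : K, ∀ v : K, (u : X) ∈ (T : Subgroup X) → (v : X) ∈ (T : Subgroup X) →
      (v * u)⁻¹ * (u * v) ∈ center K := by
    intro u v hu hv
    have h1 := hYcomm _ (hYconj u hu) _ (hYconj v hv)
    set w : K := (v * u)⁻¹ * (u * v) with hw
    -- `w` as an element of `K^y`
    have h2 : ((w : K) : X) = (y * (v : X) * y⁻¹)⁻¹ * (y * (u : X) * y⁻¹)⁻¹ *
        ((y * (u : X) * y⁻¹)⁻¹ * (y * (v : X) * y⁻¹)⁻¹)⁻¹ := by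
      have e1 : (u : X) * y * (u : X)⁻¹ * y⁻¹ = (u : X) * (y * (u : X) * y⁻¹)⁻¹ := by group
      have e2 : (v : X) * y * (v : X)⁻¹ * y⁻¹ = (v : X) * (y * (v : X) * y⁻¹)⁻¹ := by group
      rw [e1, e2] at h1
      have hcu : ∀ (p q : K), (p : X)⁻¹ * (y * (q : X) * y⁻¹) = (y * (q : X) * y⁻¹) * (p : X)⁻¹ := by
        intro p q
        have := hcomm (p : X)⁻¹ (inv_mem p.2) q q.2
        exact this
      have hcu' : ∀ (p q : K), (p : X) * (y * (q : X) * y⁻¹)⁻¹ = (y * (q : X) * y⁻¹)⁻¹ * (p : X) := by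
        intro p q
        have := hcomm (p : X) p.2 q⁻¹ (inv_mem q.2)
        have e : y * (q : X)⁻¹ * y⁻¹ = (y * (q : X) * y⁻¹)⁻¹ := by group
        rw [e] at this
        exact this
      have h3 : (u : X) * (v : X) * ((y * (u : X) * y⁻¹)⁻¹ * (y * (v : X) * y⁻¹)⁻¹) =
          (v : X) * (u : X) * ((y * (v : X) * y⁻¹)⁻¹ * (y * (u : X) * y⁻¹)⁻¹) := by
        calc (u : X) * (v : X) * ((y * (u : X) * y⁻¹)⁻¹ * (y * (v : X) * y⁻¹)⁻¹)
            = (u : X) * ((v : X) * (y * (u : X) * y⁻¹)⁻¹) * (y * (v : X) * y⁻¹)⁻¹ := by group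
          _ = (u : X) * ((y * (u : X) * y⁻¹)⁻¹ * (v : X)) * (y * (v : X) * y⁻¹)⁻¹ := by rw [hcu' v u]
          _ = (u : X) * (y * (u : X) * y⁻¹)⁻¹ * ((v : X) * (y * (v : X) * y⁻¹)⁻¹) := by group
          _ = (v : X) * (y * (v : X) * y⁻¹)⁻¹ * ((u : X) * (y * (u : X) * y⁻¹)⁻¹) := h1
          _ = (v : X) * ((y * (v : X) * y⁻¹)⁻¹ * (u : X)) * (y * (u : X) * y⁻¹)⁻¹ := by group
          _ = (v : X) * ((u : X) * (y * (v : X) * y⁻¹)⁻¹) * (y * (u : X) * y⁻¹)⁻¹ := by rw [hcu' u v]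
          _ = (v : X) * (u : X) * ((y * (v : X) * y⁻¹)⁻¹ * (y * (u : X) * y⁻¹)⁻¹) := by group
      rw [hw]
      simp only [coe_mul, InvMemClass.coe_inv]
      rw [eq_mul_inv_iff_mul_eq, mul_assoc, inv_mul_eq_iff_eq_mul, h3]
    -- hence `w` commutes with `K`
    rw [mem_center_iff]
    intro g
    apply Subtype.ext
    simp only [coe_mul]
    rw [h2]
    have hg := hcomm (g : X) g.2
    have e1 : ∀ q : K, (y * (q : X) * y⁻¹)⁻¹ = y * ((q⁻¹ : K) : X) * y⁻¹ := by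
      intro q; simp [mul_assoc]
    have hcg : Commute (g : X) ((y * (v : X) * y⁻¹)⁻¹ * (y * (u : X) * y⁻¹)⁻¹ *
        ((y * (u : X) * y⁻¹)⁻¹ * (y * (v : X) * y⁻¹)⁻¹)⁻¹) := by
      have c1 : ∀ q : K, Commute (g : X) (y * (q : X) * y⁻¹)⁻¹ := by
        intro q
        rw [e1 q]
        exact hg _ (q⁻¹).2
      exact ((c1 v).mul_right (c1 u)).mul_right (((c1 u).mul_right (c1 v)).inv_right)
    exact hcg
  -- the image of `T ∩ K` is abelian
  let π := QuotientGroup.mk' (center K)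
  have hπ : Function.Surjective π := QuotientGroup.mk'_surjective _
  let S₀ : Sylow 2 K := sylowOfSubnormal T hK.1
  apply isMulCommutative_of_sylow (S₀.mapSurjective hπ)
  rintro _ ⟨u, hu, rfl⟩ _ ⟨v, hv, rfl⟩
  have hu' : (u : X) ∈ (T : Subgroup X) := hu
  have hv' : (v : X) ∈ (T : Subgroup X) := hv
  rw [← map_mul, ← map_mul]
  exact ((QuotientGroup.eq (s := center K)).2 (key u v hu' hv')).symm

end Cfsg.Agent.S2925
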