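import Cfsg.Statements.S2929
import Cfsg.Agent.Lib.LocalEven.AltCore

set_option autoImplicit false
open Cfsg

namespace Cfsg.Agent.S2929

/-- Let n ≥ 5 and let H be a subgroup of the symmetric group of degree n whose generalized Fitting subgroup F*(H) is quasisimple. If H contains a Sylow 3-subgroup of the symmetric group, then F*(H) is isomorphic to an alternating group of degree m for some m ∈ {n − 2, n − 1, n}. -/
theorem result (n : ℕ) (hn : 5 ≤ n) (H : Subgroup (Equiv.Perm (Fin n))) (hF : Cfsg.IsQuasisimple ↥(Cfsg.generalizedFittingSubgroup ↥H)) (hS : ∃ P : Sylow 3 (Equiv.Perm (Fin n)), (P : Subgroup (Equiv.Perm (Fin n))) ≤ H) : ∃ m : ℕ, (m = n - 2 ∨ m = n - 1 ∨ m = n) ∧ Nonempty (↥(Cfsg.generalizedFittingSubgroup ↥H) ≃* ↥(alternatingGroup (Fin m))) := by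
    classical
  let L : Subgroup (Equiv.Perm (Fin n)) := (generalizedFittingSubgroup ↥H).map H.subtype
  have hLiso : ↥(generalizedFittingSubgroup ↥H) ≃* ↥L :=
    (generalizedFittingSubgroup ↥H).equivMapOfInjective H.subtype H.subtype_injective
  have hq : IsQuasisimple ↥L := Cfsg.Agent.Lib.Components.Basic.quasisimple_of_mulEquiv hLiso hF
  have hnorm : (generalizedFittingSubgroup ↥H).Normal := inferInstance
  have hLH : L ≤ H := by
    rintro _ ⟨g, -, rfl⟩
    exact g.2
  have hN : H ≤ Subgroup.normalizer (L : Set (Equiv.Perm (Fin n))) := by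
    intro h hh
    apply Cfsg.Agent.Lib.LocalEven.Util.mem_normalizer_of_conj_le
    rintro _ ⟨g, hg, rfl⟩
    refine ⟨⟨h, hh⟩ * g * ⟨h, hh⟩⁻¹, hnorm.conj_mem g hg _, rfl⟩
  have hC : ∀ h ∈ H, (∀ l ∈ L, l * h = h * l) → h ∈ L := by
    intro h hh hcomm
    have h1 : (⟨h, hh⟩ : ↥H) ∈ Subgroup.centralizer (generalizedFittingSubgroup ↥H : Set ↥H) := by
      rw [Subgroup.mem_centralizer_iff]
      intro g hg
      apply Subtype.ext
      exact hcomm _ ⟨g, hg, rfl⟩
    exact ⟨_, Cfsg.Agent.Lib.Components.GenFitting.centralizer_generalizedFitting_le h1, rfl⟩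
  obtain ⟨P, hP⟩ := hS
  obtain ⟨m, hm1, hm2, ⟨e⟩⟩ := Cfsg.Agent.Lib.LocalEven.AltCore.main_core H L hN hq hC hLH P hP
    (by simp; omega)
  simp only [Fintype.card_fin] at hm1 hm2
  refine ⟨m, by omega, ⟨hLiso.trans e⟩⟩

end Cfsg.Agent.S2929
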