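import Cfsg.Statements.S2930
import Cfsg.Agent.Lib.LocalEven.AltAut
import Cfsg.Agent.Lib.LocalEven.AltMin
import Cfsg.Agent.Lib.Components.Basic
import Cfsg.Agent.Lib.Components.GenFitting

set_option autoImplicit false
open Cfsg
open Subgroup Cfsg

namespace Cfsg.Agent.S2930

/-- `p`-minimality is preserved by isomorphisms. -/
theorem isPMinimal_of_mulEquiv {X Y : Type*} [Group X] [Group Y] [Finite X] {p : ℕ} [Fact p.Prime]
    (hX : Cfsg.IsPMinimal p X) (e : X ≃* Y) : Cfsg.IsPMinimal p Y := by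
  classical
  intro S
  have hinj : Function.Injective (e.toMonoidHom : X →* Y) := e.injective
  have hle : (S : Subgroup Y) ≤ (e.toMonoidHom : X →* Y).range := by
    rw [MonoidHom.range_eq_top.2 e.surjective]
    exact le_top
  let S' : Sylow p X := S.comapOfInjective (e.toMonoidHom : X →* Y) hinj hle
  have hS' : (S' : Subgroup X) = (S : Subgroup Y).comap (e.toMonoidHom : X →* Y) := rfl
  have hmap : (S' : Subgroup X).map (e.toMonoidHom : X →* Y) = S := by
    rw [hS', Subgroup.map_comap_eq_self hle]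
  obtain ⟨h1, M, ⟨hM, hSM⟩, huniq⟩ := hX S'
  refine ⟨?_, e.mapSubgroup M, ⟨?_, ?_⟩, ?_⟩
  · intro hn
    apply h1
    rw [hS']
    exact hn.comap _
  · exact (OrderIso.isCoatom_iff e.mapSubgroup M).2 hM
  · rw [← hmap]
    exact Subgroup.map_mono hSM
  · rintro M' ⟨hM', hSM'⟩
    have h2 : M' = e.mapSubgroup (e.mapSubgroup.symm M') := (OrderIso.apply_symm_apply e.mapSubgroup M').symm
    rw [h2]
    congr 1
    apply huniq
    refine ⟨(OrderIso.isCoatom_iff e.mapSubgroup _).1 (by rw [← h2]; exact hM'), ?_⟩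
    have h3 := (OrderIso.le_iff_le e.mapSubgroup (x := (S' : Subgroup X)) (y := e.mapSubgroup.symm M'))
    rw [← h3]
    simp only [OrderIso.apply_symm_apply]
    have : e.mapSubgroup (S' : Subgroup X) = S := hmap
    rw [this]
    exact hSM'

/-- Let X be a finite 3-minimal group (a Sylow 3-subgroup is not normal and lies in a unique maximal subgroup) whose generalized Fitting subgroup is isomorphic to an alternating group of degree n ≥ 5. Then X = F*(X), and n = 6, n = 9, or n = 3ᵃ + 1 for some a ≥ 2. -/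
theorem result {X : Type*} [Group X] [Finite X] (hX : Cfsg.IsPMinimal 3 X) (n : ℕ) (hn : 5 ≤ n) (hF : Nonempty (↥(Cfsg.generalizedFittingSubgroup X) ≃* ↥(alternatingGroup (Fin n)))) : Cfsg.generalizedFittingSubgroup X = ⊤ ∧ (n = 6 ∨ n = 9 ∨ ∃ a : ℕ, 2 ≤ a ∧ n = 3 ^ a + 1) := by
    classical
  haveI : Fact (Nat.Prime 3) := ⟨by norm_num⟩
  obtain ⟨e⟩ := hF
  set A : Subgroup X := Cfsg.generalizedFittingSubgroup X with hA
  haveI hAn : A.Normal := Cfsg.Agent.Lib.Components.Basic.generalizedFitting_normal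
  have hCA : centralizer (A : Set X) ≤ A :=
    Cfsg.Agent.Lib.Components.GenFitting.centralizer_generalizedFitting_le
  -- 3-elements lie in A
  have h3 : ∀ (x : X) (k : ℕ), x ^ (3 ^ k) = 1 → x ∈ A := by
    intro x k hx
    let ff : MulAut (alternatingGroup (Fin n)) := MulAut.congr e (MulAut.conjNormal x)
    have hff : ff ^ (3 ^ k) = 1 := by
      show (MulAut.congr e (MulAut.conjNormal x)) ^ (3 ^ k) = 1
      rw [← map_pow, ← map_pow, hx, map_one, map_one]
    obtain ⟨a, ha⟩ := Cfsg.Agent.Lib.LocalEven.AltAut.exists_inner_of_three_power (by omega) ff k hff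
    let a' : A := e.symm a
    have hcent : (a' : X)⁻¹ * x ∈ centralizer (A : Set X) := by
      rw [mem_centralizer_iff]
      intro b hb
      have h1 := ha (e ⟨b, hb⟩)
      have h2 : ff (e ⟨b, hb⟩) = e (MulAut.conjNormal x ⟨b, hb⟩) := by
        show e (MulAut.conjNormal x (e.symm (e ⟨b, hb⟩))) = _
        rw [e.symm_apply_apply]
      have h3 : a * e ⟨b, hb⟩ * a⁻¹ = e (a' * ⟨b, hb⟩ * a'⁻¹) := by
        simp [a']
      rw [h2, h3] at h1
      have h4 := e.injective h1
      have h5 : x * b * x⁻¹ = (a' : X) * b * (a' : X)⁻¹ := by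
        have := congrArg Subtype.val h4
        simpa [MulAut.conjNormal_apply] using this
      have h6 : (a' : X)⁻¹ * x * b = b * ((a' : X)⁻¹ * x) := by
        have h7 : x * b = (a' : X) * b * (a' : X)⁻¹ * x := by
          rw [← h5]; group
        calc (a' : X)⁻¹ * x * b = (a' : X)⁻¹ * (x * b) := by group
          _ = (a' : X)⁻¹ * ((a' : X) * b * (a' : X)⁻¹ * x) := by rw [h7]
          _ = b * ((a' : X)⁻¹ * x) := by group
      exact h6.symm
    have h1 := hCA hcent
    have h2 := mul_mem a'.2 h1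
    simpa using h2
  obtain ⟨T⟩ : Nonempty (Sylow 3 X) := inferInstance
  have hTA : (T : Subgroup X) ≤ A := by
    intro t ht
    obtain ⟨k, hk⟩ := T.isPGroup' ⟨t, ht⟩
    exact h3 t k (by simpa using congrArg Subtype.val hk)
  have htop : A = ⊤ := by
    by_contra hne
    obtain hh | ⟨M₀, hM₀, hAM₀⟩ := eq_top_or_exists_le_coatom A
    · exact hne hh
    obtain ⟨hnn, M₂, -, huniq⟩ := hX T
    have hNtop : normalizer ((T : Subgroup X) : Set X) ≠ ⊤ := by
      intro h
      exact hnn (normalizer_eq_top_iff.1 h)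
    obtain ⟨M₁, hM₁, hNM₁⟩ := (eq_top_or_exists_le_coatom _).resolve_left hNtop
    have h1 := huniq M₀ ⟨hM₀, hTA.trans hAM₀⟩
    have h2 := huniq M₁ ⟨hM₁, le_normalizer.trans hNM₁⟩
    have h3' := T.normalizer_sup_eq_top' hTA
    apply hM₀.1
    rw [eq_top_iff, ← h3']
    refine sup_le ?_ hAM₀
    rw [h1, ← h2]
    exact hNM₁
  refine ⟨htop, ?_⟩
  have eX : X ≃* alternatingGroup (Fin n) := (Subgroup.topEquiv.symm.trans (MulEquiv.subgroupCongr htop.symm)).trans e
  have hmin := isPMinimal_of_mulEquiv hX eX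
  have := Cfsg.Agent.Lib.LocalEven.AltMin.arith_of_minimal (Ω := Fin n) (by simpa using hn) hmin
  simpa using this

end Cfsg.Agent.S2930
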