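import Cfsg.Statements.S2939
import Cfsg.Agent.Lib.LocalEven.SylowControl

set_option autoImplicit false
open Cfsg
open Cfsg.Agent.Lib.LocalEven.Util Cfsg.Agent.Lib.LocalEven.SylowControl

namespace Cfsg.Agent.S2939

open Cfsg.Agent.Lib.LocalEven.SylowControl in
theorem sylow_eq_smul_of_conj {G : Type*} [Group G] {p : ℕ} {U V : Sylow p G} {x : G}
    (h : Cfsg.subgroupConjRight x (U : Subgroup G) = (V : Subgroup G)) : U = x • V := by
  apply Sylow.ext
  rw [← subgroupConjRight_smul, ← h, subgroupConjRight_inv_cancel]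

/-- Let p be a prime dividing the order of the finite group G and 𝓕 a family of subgroups of G closed under conjugation, with conjugates taken as X^g = g⁻¹Xg. Then 𝓕 controls Sylow p-intersections in G (any two distinct Sylow p-subgroups S and T with S ∩ T ≠ 1 are joined by a chain S = S₀, S₁, …, Sₙ = T of Sylow p-subgroups where, for each i, some member Xᵢ of 𝓕 meets both S_{i-1} and Sᵢ in Sylow p-subgroups of Xᵢ, satisfies S ∩ T ≤ Sᵢ ∩ Xᵢ, and contains an element xᵢ with Sᵢ^{xᵢ} = S_{i-1}) if and only if 𝓕 strongly controls p-fusion in G (whenever A is a subset of a Sylow p-subgroup S, A contains an element other than 1, and A^g ⊆ S, the element g factorises as g = y₁⋯yₙy with y ∈ N_G(S) and each yᵢ in a member Yᵢ of 𝓕 that meets S in a Sylow p-subgroup of Yᵢ, with A^{y₁⋯yᵢ} ⊆ S ∩ Yᵢ for each i). -/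
theorem result {G : Type*} [Group G] [Finite G] {p : ℕ} [Fact p.Prime] (hdiv : p ∣ Nat.card G) (𝓕 : Set (Subgroup G)) (h𝓕 : Cfsg.IsNormalSet 𝓕) : Cfsg.ControlsSylowIntersections p 𝓕 ↔ Cfsg.FamilyStronglyControlsFusion p 𝓕 := by
    classical
  constructor
  · -- controls ⇒ strongly controls
    intro hc S A g hAS hne' hAg
    obtain ⟨a₀, ha₀A, ha₀1⟩ := hne'
    set T : Sylow p G := g • S with hT
    have hAT : ∀ a ∈ A, a ∈ (T : Subgroup G) := fun a ha =>
      (mem_smul_sylow S g a).2 (hAg ⟨a, ha, rfl⟩)
    by_cases hST : S = T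
    · refine ⟨0, Fin.elim0, Fin.elim0, g, ?_, fun i => i.elim0, by simp, fun i => i.elim0⟩
      have h1 : g • S = S := hST.symm
      exact Sylow.smul_eq_iff_mem_normalizer.1 h1
    · have hne : (S : Subgroup G) ⊓ (T : Subgroup G) ≠ ⊥ := by
        intro hbot
        have h1 : a₀ ∈ (S : Subgroup G) ⊓ (T : Subgroup G) := ⟨hAS ha₀A, hAT a₀ ha₀A⟩
        rw [hbot, Subgroup.mem_bot] at h1
        exact ha₀1 h1
      obtain ⟨n, c, X, x, hc0, hcl, hi⟩ := hc S T hST hne
      let w : ℕ → G := fun k => Nat.rec 1 (fun k wk => (if h : k < n then x ⟨k, h⟩ else 1) * wk) k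
      have hw0 : w 0 = 1 := rfl
      have hws : ∀ k (h : k < n), w (k + 1) = x ⟨k, h⟩ * w k := by
        intro k h
        show (if h : k < n then x ⟨k, h⟩ else 1) * w k = _
        rw [dif_pos h]
      have hcw : ∀ k (hk : k < n + 1), c ⟨k, hk⟩ = w k • S := by
        intro k
        induction k with
        | zero =>
          intro hk
          rw [hw0, one_smul]
          exact hc0
        | succ k ih =>
          intro hk
          have hk' : k < n := by omega
          have h1 := (hi ⟨k, hk'⟩).2.2.2.1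
          have h2 := sylow_eq_smul_of_conj h1
          have e1 : (⟨k, hk'⟩ : Fin n).succ = ⟨k + 1, hk⟩ := rfl
          have e2 : (⟨k, hk'⟩ : Fin n).castSucc = ⟨k, by omega⟩ := rfl
          rw [e1, e2, ih (by omega)] at h2
          rw [h2, hws k hk', mul_smul]
      have hwn : w n • S = g • S := by
        rw [← hcw n (by omega)]
        exact hcl
      set y₀ := (w n)⁻¹ * g with hy₀
      have hy₀N : y₀ ∈ Subgroup.normalizer ((S : Subgroup G) : Set G) := by
        apply Sylow.smul_eq_iff_mem_normalizer.1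
        rw [hy₀, mul_smul, ← hwn, ← mul_smul, inv_mul_cancel, one_smul]
      let Y : Fin n → Subgroup G := fun i => Cfsg.subgroupConjRight (w i) (X i)
      let y : Fin n → G := fun i => (w i)⁻¹ * x i * w i
      have hprod : ∀ k, k ≤ n → ((List.ofFn y).take k).prod = w k := by
        intro k
        induction k with
        | zero => intro _; simp [hw0]
        | succ k ih =>
          intro hk
          have hk' : k < n := by omega
          rw [prod_take_succ_ofFn y k hk', ih (by omega), hws k hk']
          show w k * ((w k)⁻¹ * x ⟨k, hk'⟩ * w k) = _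
          group
      have hcast : ∀ i : Fin n, c i.castSucc = w i • S := fun i => hcw i (by omega)
      have hsucc : ∀ i : Fin n, c i.succ = w (i + 1) • S := fun i => hcw (i + 1) (by omega)
      refine ⟨n, Y, y, y₀, hy₀N, ?_, ?_, ?_⟩
      · intro i
        refine ⟨?_, ?_⟩
        · have h1 := mem_sylowMembers_conj h𝓕 (hi i).1 (w i)
          rw [hcast i, ← subgroupConjRight_smul, subgroupConjRight_cancel_inv] at h1
          exact h1
        · rw [mem_subgroupConjRight]
          have e : w i * ((w i)⁻¹ * x i * w i) * (w i)⁻¹ = x i := by group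
          show w i * ((w i)⁻¹ * x i * w i) * (w i)⁻¹ ∈ X i
          rw [e]
          exact (hi i).2.2.1
      · rw [← prod_take_length_ofFn y, hprod n le_rfl, hy₀]
        group
      · intro i
        rw [hprod (i + 1) (by omega)]
        rintro _ ⟨a, ha, rfl⟩
        have h1 := (hi i).2.2.2.2 ⟨hAS ha, hAT a ha⟩
        have hwi := hws i i.2
        have hx := (hi i).2.2.1
        refine ⟨?_, ?_⟩
        · have h2 := h1.1
          rw [hsucc i] at h2
          exact (mem_smul_sylow S _ a).1 h2
        · show (w (i + 1))⁻¹ * a * w (i + 1) ∈ Y i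
          show _ ∈ Cfsg.subgroupConjRight (w i) (X i)
          rw [mem_subgroupConjRight, hwi]
          have e : w i * ((x ⟨i, i.2⟩ * w i)⁻¹ * a * (x ⟨i, i.2⟩ * w i)) * (w i)⁻¹ =
              (x i)⁻¹ * a * x i := by
            simp only [Fin.eta]
            group
          rw [e]
          exact (X i).mul_mem ((X i).mul_mem ((X i).inv_mem hx) h1.2) hx
  · -- strongly controls ⇒ controls
    intro hf S T hST hne
    obtain ⟨g, hg⟩ := MulAction.exists_smul_eq G S T
    set A : Set G := (((S : Subgroup G) ⊓ (T : Subgroup G) : Subgroup G) : Set G) with hA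
    have hAS : A ⊆ (S : Set G) := fun a ha => ha.1
    have hAne : ∃ a ∈ A, a ≠ 1 := by
      obtain ⟨⟨r, hr⟩, hr1⟩ := Subgroup.ne_bot_iff_exists_ne_one.1 hne
      exact ⟨r, hr, fun h => hr1 (Subtype.ext h)⟩
    have hAg : Cfsg.conjRight g A ⊆ (S : Set G) := by
      rintro _ ⟨a, ha, rfl⟩
      have h1 : a ∈ ((g • S : Sylow p G) : Subgroup G) := by
        rw [hg]; exact ha.2
      exact (mem_smul_sylow S g a).1 h1
    obtain ⟨n, Y, y, y₀, hy₀, hY, hgprod, hconj⟩ := hf S A g hAS hAne hAg
    let v : ℕ → G := fun k => ((List.ofFn y).take k).prod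
    have hv0 : v 0 = 1 := by simp [v]
    have hvs : ∀ k (h : k < n), v (k + 1) = v k * y ⟨k, h⟩ := fun k h => prod_take_succ_ofFn y k h
    have hvn : v n * y₀ = g := by
      rw [hgprod]
      show ((List.ofFn y).take n).prod * y₀ = _
      rw [prod_take_length_ofFn]
    have hy₀S : y₀ • S = S := Sylow.smul_eq_iff_mem_normalizer.2 hy₀
    let c : Fin (n + 1) → Sylow p G := fun i => v i • S
    let X : Fin n → Subgroup G := fun i => Cfsg.subgroupConjRight (v i)⁻¹ (Y i)
    let x : Fin n → G := fun i => v i * y i * (v i)⁻¹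
    refine ⟨n, c, X, x, ?_, ?_, ?_⟩
    · show v 0 • S = S
      rw [hv0, one_smul]
    · show v n • S = T
      rw [← hg, ← hvn, mul_smul, hy₀S]
    · intro i
      have hYi := (hY i).1
      have hyi := (hY i).2
      have hvi : v (i + 1) = v i * y i := hvs i i.2
      have hXi : X i = Cfsg.subgroupConjRight (v (i + 1))⁻¹ (Y i) := by
        show Cfsg.subgroupConjRight (v i)⁻¹ (Y i) = _
        rw [hvi, mul_inv_rev, subgroupConjRight_mul, subgroupConjRight_of_mem ((Y i).inv_mem hyi)]
      have hcast : ((c i.castSucc : Sylow p G) : Subgroup G) =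
          Cfsg.subgroupConjRight (v i)⁻¹ (S : Subgroup G) := by
        rw [subgroupConjRight_smul]; rfl
      have hsucc : ((c i.succ : Sylow p G) : Subgroup G) =
          Cfsg.subgroupConjRight (v (i + 1))⁻¹ (S : Subgroup G) := by
        rw [subgroupConjRight_smul]; rfl
      refine ⟨?_, ?_, ?_, ?_, ?_⟩
      · rw [hcast]
        exact mem_sylowMembers_conj h𝓕 hYi _
      · rw [hsucc, hXi]
        exact mem_sylowMembers_conj h𝓕 hYi _
      · show v i * y i * (v i)⁻¹ ∈ Cfsg.subgroupConjRight (v i)⁻¹ (Y i)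
        rw [mem_subgroupConjRight]
        have e : (v i)⁻¹ * (v i * y i * (v i)⁻¹) * (v i)⁻¹⁻¹ = y i := by group
        rw [e]; exact hyi
      · rw [hcast, hsucc]
        ext u
        simp only [mem_subgroupConjRight]
        have e1 : x i * u * (x i)⁻¹ = v i * y i * (v i)⁻¹ * u * (v i * y i * (v i)⁻¹)⁻¹ := rfl
        have e2 : (v (i + 1))⁻¹ * (x i * u * (x i)⁻¹) * (v (i + 1))⁻¹⁻¹ = (v i)⁻¹ * u * (v i)⁻¹⁻¹ := by
          rw [e1, hvi]; group
        rw [e2]
      · intro a ha
        have h1 := hconj i ⟨a, ha, rfl⟩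
        refine ⟨?_, ?_⟩
        · have h3 : a ∈ ((c i.succ : Sylow p G) : Subgroup G) := by
            rw [hsucc, mem_subgroupConjRight, inv_inv]
            exact h1.1
          exact h3
        · have h2 : (v (i + 1))⁻¹ * a * v (i + 1) ∈ Y i := h1.2
          show a ∈ Cfsg.subgroupConjRight (v i)⁻¹ (Y i)
          rw [mem_subgroupConjRight, inv_inv]
          have e : (v i)⁻¹ * a * v i = y i * ((v (i + 1))⁻¹ * a * v (i + 1)) * (y i)⁻¹ := by
            rw [hvi]; group
          rw [e]
          exact (Y i).mul_mem ((Y i).mul_mem hyi h2) ((Y i).inv_mem hyi)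

end Cfsg.Agent.S2939
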