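import Cfsg.Statements.S2940
import Cfsg.Agent.Lib.LocalEven.Util

set_option autoImplicit false
open Cfsg
open Cfsg.Agent.Lib.LocalEven.Util

namespace Cfsg.Agent.S2940

/-- Let S be a Sylow p-subgroup of the finite group G and G₁, G₂ subgroups containing S with G = G₁G₂. Then for every g ∈ G there is a Sylow p-subgroup U of G with S ∩ S^g ≤ U ≤ G₁ ∩ G₂^g (conjugates taken as X^g = g⁻¹Xg). -/
theorem result {G : Type*} [Group G] [Finite G] {p : ℕ} [Fact p.Prime] (S : Sylow p G) (G₁ G₂ : Subgroup G) (h1 : (S : Subgroup G) ≤ G₁) (h2 : (S : Subgroup G) ≤ G₂) (hfact : ∀ g : G, ∃ g₁ ∈ G₁, ∃ g₂ ∈ G₂, g = g₁ * g₂) (g : G) : ∃ U : Sylow p G, (S : Subgroup G) ⊓ Cfsg.subgroupConjRight g (S : Subgroup G) ≤ (U : Subgroup G) ∧ (U : Subgroup G) ≤ G₁ ⊓ Cfsg.subgroupConjRight g G₂ := by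
    classical
  -- factor `g⁻¹`
  obtain ⟨a', ha', b', hb', hab⟩ := hfact g⁻¹
  set a := a'⁻¹ with ha
  set b := b'⁻¹ with hb
  have haG₁ : a ∈ G₁ := G₁.inv_mem ha'
  have hbG₂ : b ∈ G₂ := G₂.inv_mem hb'
  have hg : g = b * a := by
    have := congrArg (·⁻¹) hab
    simp only [inv_inv, mul_inv_rev] at this
    exact this
  set H : Subgroup G := G₁ ⊓ Cfsg.subgroupConjRight g G₂ with hH
  set V : Sylow p G := a⁻¹ • S with hV
  have hVmem : ∀ v ∈ (V : Subgroup G), a * v * a⁻¹ ∈ (S : Subgroup G) := by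
    intro v hv
    have := (mem_smul_sylow S a⁻¹ v).1 hv
    simpa using this
  have hconjR : ∀ y, y ∈ Cfsg.subgroupConjRight g G₂ ↔ g * y * g⁻¹ ∈ G₂ := by
    intro y
    constructor
    · rintro ⟨u, hu, rfl⟩
      have e : g * (g⁻¹ * u * g⁻¹⁻¹) * g⁻¹ = u := by group
      show g * (g⁻¹ * u * g⁻¹⁻¹) * g⁻¹ ∈ G₂
      rw [e]; exact hu
    · intro h
      refine ⟨_, h, ?_⟩
      show g⁻¹ * (g * y * g⁻¹) * g⁻¹⁻¹ = y
      group
  have hVH : (V : Subgroup G) ≤ H := by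
    intro v hv
    have hv1 := hVmem v hv
    refine ⟨?_, (hconjR v).2 ?_⟩
    · have e : v = a⁻¹ * (a * v * a⁻¹) * a := by group
      rw [e]
      exact G₁.mul_mem (G₁.mul_mem (G₁.inv_mem haG₁) (h1 hv1)) haG₁
    · have e : g * v * g⁻¹ = b * (a * v * a⁻¹) * b⁻¹ := by rw [hg]; group
      rw [e]
      exact G₂.mul_mem (G₂.mul_mem hbG₂ (h2 hv1)) (G₂.inv_mem hbG₂)
  let V₀ : Sylow p H := V.subtype hVH
  have hV₀ : (V₀ : Subgroup H).map H.subtype = (V : Subgroup G) := by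
    rw [Sylow.coe_subtype, Subgroup.subgroupOf_map_subtype, inf_eq_left.2 hVH]
  set D : Subgroup G := (S : Subgroup G) ⊓ Cfsg.subgroupConjRight g (S : Subgroup G) with hD
  have hDp : IsPGroup p D := S.isPGroup'.to_le inf_le_left
  have hDH : D ≤ H := by
    rintro d ⟨hd1, hd2⟩
    refine ⟨h1 hd1, ?_⟩
    obtain ⟨u, hu, rfl⟩ := hd2
    exact ⟨u, h2 hu, rfl⟩
  obtain ⟨h, hh, hconj⟩ := exists_conj_into_sylow V₀ D hDp hDH
  rw [hV₀] at hconj
  refine ⟨h • V, ?_, ?_⟩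
  · intro d hd
    exact (mem_smul_sylow V h d).2 (hconj d hd)
  · intro u hu
    have h3 := hVH ((mem_smul_sylow V h u).1 hu)
    have e : u = h * (h⁻¹ * u * h) * h⁻¹ := by group
    rw [e]
    exact H.mul_mem (H.mul_mem hh h3) (H.inv_mem hh)

end Cfsg.Agent.S2940
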