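import Cfsg.Statements.S2955
import Cfsg.Agent.Lib.LocalEven.SylowControl

set_option autoImplicit false
open Cfsg
open Cfsg.Agent.Lib.LocalEven.Util Cfsg.Agent.Lib.LocalEven.SylowControl

namespace Cfsg.Agent.S2955

/-- Let p be a prime dividing the order of the finite group G and 𝓕 a conjugation-closed family of subgroups that controls Sylow p-intersections in G. Suppose the Sylow p-subgroups of G are chain-connected: any two of them are joined by a chain of Sylow p-subgroups, consecutive ones distinct with nontrivial intersection, all containing the intersection of the two ends (equivalently, the graph on the Sylow p-subgroups whose edges are the distinct pairs meeting nontrivially is connected). Then for every Sylow p-subgroup S, G is generated by N_G(S) together with the members of 𝓕 that meet S in a Sylow p-subgroup of themselves. -/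
theorem result {G : Type*} [Group G] [Finite G] (p : ℕ) [Fact p.Prime] (hdiv : p ∣ Nat.card G)
    (𝓕 : Set (Subgroup G)) (h𝓕 : Cfsg.IsNormalSet 𝓕) (hc : Cfsg.ControlsSylowIntersections p 𝓕)
    (hconn : Cfsg.IsSylowChainConnected p G) (S : Sylow p G) :
    (⨆ X ∈ Cfsg.sylowMembers p 𝓕 (S : Subgroup G), X) ⊔ Subgroup.normalizer ((S : Subgroup G) : Set G) = ⊤ := by
    classical
  set H : Subgroup G := (⨆ X ∈ Cfsg.sylowMembers p 𝓕 (S : Subgroup G), X) ⊔
    Subgroup.normalizer ((S : Subgroup G) : Set G) with hH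
  have hNH : Subgroup.normalizer ((S : Subgroup G) : Set G) ≤ H := le_sup_right
  have hXH : ∀ X ∈ Cfsg.sylowMembers p 𝓕 (S : Subgroup G), X ≤ H := fun X hX =>
    le_trans (le_iSup₂_of_le (f := fun (X : Subgroup G) (_ : X ∈ Cfsg.sylowMembers p 𝓕 (S : Subgroup G)) => X) X hX le_rfl) le_sup_left
  -- if `c = h • S` and `X ∈ 𝓕(c)` then `X ≤ H`
  have hstep : ∀ (h : G), h ∈ H → ∀ X ∈ Cfsg.sylowMembers p 𝓕 ((h • S : Sylow p G) : Subgroup G),
      X ≤ H := by
    intro h hh X hX
    have h1 := mem_sylowMembers_conj h𝓕 hX h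
    rw [← subgroupConjRight_smul, subgroupConjRight_cancel_inv] at h1
    have h2 := hXH _ h1
    intro u hu
    have h3 : h⁻¹ * u * h ∈ H := by
      apply h2
      rw [mem_subgroupConjRight]
      have e : h * (h⁻¹ * u * h) * h⁻¹ = u := by group
      rw [e]; exact hu
    have e : u = h * (h⁻¹ * u * h) * h⁻¹ := by group
    rw [e]
    exact H.mul_mem (H.mul_mem hh h3) (H.inv_mem hh)
  -- one step along a control chain
  have hctrl : ∀ (h : G), h ∈ H → ∀ T : Sylow p G, (h • S) ≠ T →
      (((h • S : Sylow p G) : Subgroup G) ⊓ (T : Subgroup G) ≠ ⊥) → ∃ h' ∈ H, h' • S = T := by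
    intro h hh T hne hint
    obtain ⟨n, c, X, x, hc0, hcl, hi⟩ := hc (h • S) T hne hint
    have hind : ∀ k (hk : k < n + 1), ∃ h' ∈ H, h' • S = c ⟨k, hk⟩ := by
      intro k
      induction k with
      | zero =>
        intro hk
        exact ⟨h, hh, hc0.symm⟩
      | succ k ih =>
        intro hk
        have hk' : k < n := by omega
        obtain ⟨h', hh', he⟩ := ih (by omega)
        have hi' := hi ⟨k, hk'⟩
        have e1 : (⟨k, hk'⟩ : Fin n).succ = ⟨k + 1, hk⟩ := rfl
        have e2 : (⟨k, hk'⟩ : Fin n).castSucc = ⟨k, by omega⟩ := rfl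
        rw [e1, e2] at hi'
        rw [← he] at hi'
        have hXle := hstep h' hh' _ hi'.1
        have hx := hXle hi'.2.2.1
        refine ⟨x ⟨k, hk'⟩ * h', H.mul_mem hx hh', ?_⟩
        have h1 := hi'.2.2.2.1
        have h2 : c ⟨k + 1, hk⟩ = x ⟨k, hk'⟩ • (h' • S) := by
          apply Sylow.ext
          rw [← subgroupConjRight_smul, ← h1, subgroupConjRight_inv_cancel]
        rw [h2, mul_smul]
    obtain ⟨h', hh', he⟩ := hind n (by omega)
    exact ⟨h', hh', he.trans hcl⟩
  -- connectivity
  have hall : ∀ T : Sylow p G, ∃ h ∈ H, h • S = T := by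
    intro T
    obtain ⟨n, c, hc0, hcl, -, hi⟩ := hconn S T
    have hind : ∀ k (hk : k < n + 1), ∃ h ∈ H, h • S = c ⟨k, hk⟩ := by
      intro k
      induction k with
      | zero =>
        intro hk
        refine ⟨1, H.one_mem, ?_⟩
        rw [one_smul]
        exact hc0.symm
      | succ k ih =>
        intro hk
        have hk' : k < n := by omega
        obtain ⟨h, hh, he⟩ := ih (by omega)
        have hi' := hi ⟨k, hk'⟩
        have e1 : (⟨k, hk'⟩ : Fin n).succ = ⟨k + 1, hk⟩ := rfl
        have e2 : (⟨k, hk'⟩ : Fin n).castSucc = ⟨k, by omega⟩ := rfl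
        rw [e1, e2, ← he] at hi'
        exact hctrl h hh _ hi'.1 hi'.2
    obtain ⟨h, hh, he⟩ := hind n (by omega)
    exact ⟨h, hh, he.trans hcl⟩
  rw [eq_top_iff]
  intro g _
  obtain ⟨h, hh, he⟩ := hall (g • S)
  have h1 : h⁻¹ * g ∈ Subgroup.normalizer ((S : Subgroup G) : Set G) := by
    apply Sylow.smul_eq_iff_mem_normalizer.1
    rw [mul_smul, ← he, ← mul_smul, inv_mul_cancel, one_smul]
  have e : g = h * (h⁻¹ * g) := by group
  rw [e]
  exact H.mul_mem hh (hNH h1)

end Cfsg.Agent.S2955
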