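import Cfsg.Statements.S2956
import Cfsg.Agent.Lib.LocalEven.FunctorChains
import Cfsg.Agent.Lib.PGroups.Basic

set_option autoImplicit false
open Cfsg
open Cfsg.Agent.Lib.LocalEven.Util Cfsg.Agent.Lib.LocalEven.SylowControl Cfsg.Agent.Lib.LocalEven.FunctorChains

namespace Cfsg.Agent.S2956

/-- Let p be a prime dividing the order of the finite group G, and f an assignment to every p-subgroup P of a set f(P) of subgroups of P, each normalized by N_G(P), compatible with conjugation, such that for P ≠ 1 the members of f(P) are nontrivial. Let 𝓕 be the family of the normalizers N_G(F) of the members F of f(S) over the Sylow p-subgroups S of G, and 𝓕' the family of the maximal p-local subgroups M of G that are singular for f (the corresponding family of normalizers inside M does not control Sylow p-intersections in M). Then 𝓕 ∪ 𝓕' controls Sylow p-intersections in G. -/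
theorem result {G : Type*} [Group G] [Finite G] (p : ℕ) [Fact p.Prime] (hdiv : p ∣ Nat.card G)
    (f : Subgroup G → Set (Subgroup G)) (hf : Cfsg.IsNormalizerFunctor p f)
    (hf1 : ∀ P : Subgroup G, IsPGroup p ↥P → P ≠ ⊥ → ∀ F ∈ f P, F ≠ ⊥)
    (𝓕 𝓕' : Set (Subgroup G)) (h𝓕 : 𝓕 = Cfsg.functorFamily p f ⊤)
    (h𝓕' : 𝓕' = {M | Cfsg.IsMaximalPLocal p M ∧ ¬ Cfsg.IsFunctorRegular p f M}) :
    Cfsg.ControlsSylowIntersections p (𝓕 ∪ 𝓕') := by
    classical
  subst h𝓕 h𝓕'
  set 𝓖 : Set (Subgroup G) := Cfsg.functorFamily p f ⊤ ∪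
    {M | Cfsg.IsMaximalPLocal p M ∧ ¬ Cfsg.IsFunctorRegular p f M} with h𝓖
  have hexM : ∀ L : Subgroup G, Cfsg.IsPLocal p L → ∃ M, L ≤ M ∧ Cfsg.IsMaximalPLocal p M := by
    intro L
    induction L using WellFoundedGT.induction with
    | _ L ih =>
    intro hL
    by_cases hmax : ∀ N : Subgroup G, Cfsg.IsPLocal p N → L ≤ N → N = L
    · exact ⟨L, le_rfl, hL, hmax⟩
    · push Not at hmax
      obtain ⟨N, hN, hLN, hne⟩ := hmax
      obtain ⟨M, hNM, hM⟩ := ih N (lt_of_le_of_ne hLN (Ne.symm hne)) hN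
      exact ⟨M, hLN.trans hNM, hM⟩
  have hcardlt : ∀ {D Q₁ Q₂ : Subgroup G}, D ≤ Q₂ → D < Q₁ → Nat.card Q₁ = Nat.card Q₂ → D < Q₂ := by
    intro D Q₁ Q₂ h1 h2 h3
    refine lt_of_le_of_ne h1 ?_
    rintro rfl
    have := Subgroup.eq_of_le_of_card_ge h2.le (by rw [h3])
    exact h2.ne this
  have main : ∀ D : Subgroup G, D ≠ ⊥ → ∀ A B : Sylow p G, D ≤ A → D ≤ B →
      Relation.ReflTransGen (CtlStep p 𝓖 D) A B := by
    intro D
    induction D using WellFoundedGT.induction with
    | _ D ihD =>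
    intro hD A B hDA hDB
    have hIH : ∀ Q, D < Q → ∀ A B : Sylow p G, Q ≤ A → Q ≤ B →
        Relation.ReflTransGen (CtlStep p 𝓖 D) A B := by
      intro Q hQ A B hA hB
      exact Relation.ReflTransGen.mono (fun a b h => CtlStep.mono hQ.le h) _ _
        (ihD Q hQ (ne_bot_of_gt hQ) A B hA hB)
    by_cases hlt : D < (A : Subgroup G) ⊓ (B : Subgroup G)
    · exact hIH _ hlt A B inf_le_left inf_le_right
    have hDeq : D = (A : Subgroup G) ⊓ (B : Subgroup G) :=
      eq_of_le_of_not_lt (le_inf hDA hDB) hlt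
    by_cases hAB : A = B
    · subst hAB; exact Relation.ReflTransGen.refl
    have hDp : IsPGroup p D := A.isPGroup'.to_le hDA
    -- the inner induction
    have claim2 : ∀ n, ∀ L Q₁ Q₂ : Subgroup G, Cfsg.IsPLocal p L → IsSylIn p L Q₁ → IsSylIn p L Q₂ →
        D ≤ Q₁ → D ≤ Q₂ → D < Q₁ → Nat.card G - Nat.card Q₁ = n → ∀ A₁ A₂ : Sylow p G,
        Q₁ ≤ A₁ → Q₂ ≤ A₂ → Relation.ReflTransGen (CtlStep p 𝓖 D) A₁ A₂ := by
      intro n
      induction n using Nat.strong_induction_on with
      | _ n ihn =>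
      intro L Q₁ Q₂ hL h₁ h₂ hD₁ hD₂ hlt₁ hn A₁ A₂ hA₁ hA₂
      have hlt₂ : D < Q₂ := hcardlt hD₂ hlt₁ (h₁.card_eq h₂)
      obtain ⟨M, hLM, hM⟩ := hexM L hL
      obtain ⟨Q'₁, hQ'₁, h'₁⟩ := exists_isSylIn_le (h₁.1.trans hLM) h₁.2.1
      obtain ⟨Q'₂, hQ'₂, h'₂⟩ := exists_isSylIn_le (h₂.1.trans hLM) h₂.2.1
      obtain ⟨A'₁, hA'₁⟩ := h'₁.2.1.exists_le_sylow
      obtain ⟨A'₂, hA'₂⟩ := h'₂.2.1.exists_le_sylow
      have hlt'₁ : D < Q'₁ := lt_of_lt_of_le hlt₁ hQ'₁
      have hlt'₂ : D < Q'₂ := lt_of_lt_of_le hlt₂ hQ'₂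
      refine (hIH Q₁ hlt₁ A₁ A'₁ hA₁ (hQ'₁.trans hA'₁)).trans
        (Relation.ReflTransGen.trans ?_ (hIH Q₂ hlt₂ A'₂ A₂ (hQ'₂.trans hA'₂) hA₂))
      by_cases hM' : Cfsg.IsFunctorRegular p f M
      · -- regular
        by_cases heq : Q'₁ = Q'₂
        · exact hIH Q'₁ hlt'₁ A'₁ A'₂ hA'₁ (heq ▸ hA'₂)
        have hint : Q'₁ ⊓ Q'₂ ≠ ⊥ := by
          intro hbot
          apply hD
          have := le_inf hlt'₁.le hlt'₂.le
          rw [hbot] at this
          exact le_bot_iff.1 this
        have hamb := ambReg_of_regular hf hM' Q'₁ Q'₂ h'₁ h'₂ heq hint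
        have hstep : ∀ b c : Subgroup G, AmbStep p f M (Q'₁ ⊓ Q'₂) b c → D < b → D < c →
            Nat.card Q₁ ≤ Nat.card b → ∀ A₀ A : Sylow p G, b ≤ A₀ → c ≤ A →
            Relation.ReflTransGen (CtlStep p 𝓖 D) A₀ A := by
          rintro b c ⟨hb, hc, P, F, x, hP, hF, hxM, hxN, hbN, hcN, hD₀, hconj⟩ hDb hDc hcard A₀ A hA₀ hA
          have hDQ : D ≤ Q'₁ ⊓ Q'₂ := le_inf hlt'₁.le hlt'₂.le
          have hPp : IsPGroup p P := hP.2.1
          by_cases hPsyl : ∃ S : Sylow p G, (S : Subgroup G) = P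
          · -- `P` is Sylow in `G`
            obtain ⟨S, hS⟩ := hPsyl
            have hSM : (S : Subgroup G) ≤ M := hS ▸ hP.1
            obtain ⟨Sb, hSb⟩ := hb.exists_sylow_eq S hSM
            obtain ⟨Sc, hSc⟩ := hc.exists_sylow_eq S hSM
            have hA₀b : (A₀ : Subgroup G) = b := by
              rw [← hSb]
              exact Sb.is_maximal' A₀.isPGroup' (hSb ▸ hA₀)
            have hAc : (A : Subgroup G) = c := by
              rw [← hSc]
              exact Sc.is_maximal' A.isPGroup' (hSc ▸ hA)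
            set X : Subgroup G := ⊤ ⊓ Subgroup.normalizer (F : Set G) with hX
            have hXG : X ∈ 𝓖 := by
              left
              obtain ⟨P₀, hP₀⟩ := (isSylIn_top_iff.2 ⟨S, hS⟩ : IsSylIn p ⊤ P).exists_sylow
              exact ⟨P₀, F, by rw [hP₀]; exact hF, rfl⟩
            have hmemX : ∀ C : Sylow p G, (C : Subgroup G) ≤ Subgroup.normalizer (F : Set G) →
                X ∈ Cfsg.sylowMembers p 𝓖 (C : Subgroup G) := by
              intro C hC
              apply mem_sylowMembers_of_isSylIn hXG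
              have hCX : (C : Subgroup G) ≤ X := le_inf le_top hC
              rw [inf_eq_left.2 hCX]
              exact isSylIn_of_sylow C hCX
            refine Relation.ReflTransGen.single ⟨X, x, hmemX A₀ (hA₀b ▸ hbN), hmemX A (hAc ▸ hcN),
              ⟨Subgroup.mem_top _, hxN⟩, ?_, ?_⟩
            · rw [hA₀b, hAc]; exact hconj
            · refine le_inf (hDc.le.trans hA) ?_
              intro y hy
              exact ⟨Subgroup.mem_top _, hcN (hDc.le hy)⟩
          · -- `P` is not Sylow in `G`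
            obtain ⟨P₂, hP₂⟩ := hPp.exists_le_sylow
            have hPlt : P < (P₂ : Subgroup G) := by
              refine lt_of_le_of_ne hP₂ ?_
              intro h
              exact hPsyl ⟨P₂, h.symm⟩
            have hgrow := lt_normalizer_inf P₂.isPGroup' hPlt
            set R := Subgroup.normalizer (P : Set G) ⊓ (P₂ : Subgroup G) with hR
            have hRp : IsPGroup p R := P₂.isPGroup'.to_le inf_le_right
            have hFprop := (hf P hPp).1 F hF
            have hRN : R ≤ Subgroup.normalizer (F : Set G) := inf_le_left.trans hFprop.2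
            have hPne : P ≠ ⊥ := by
              rintro rfl
              have h1 := hb.card_eq hP
              have h2 : Nat.card (⊥ : Subgroup G) = 1 := Subgroup.card_bot
              rw [h2] at h1
              have h3 : b = ⊥ := (Subgroup.eq_bot_iff_card b).2 h1
              rw [h3] at hDb
              exact not_lt_bot hDb
            have hFne : F ≠ ⊥ := hf1 P hPp hPne F hF
            have hFp : IsPGroup p F := hPp.to_le hFprop.1
            have hL' : Cfsg.IsPLocal p (Subgroup.normalizer (F : Set G)) := ⟨F, hFp, hFne, rfl⟩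
            obtain ⟨Q''₁, hQ''₁, h''₁⟩ := exists_isSylIn_le hbN hb.2.1
            obtain ⟨Q''₂, hQ''₂, h''₂⟩ := exists_isSylIn_le hcN hc.2.1
            obtain ⟨R', hR', hR'S⟩ := exists_isSylIn_le hRN hRp
            have hcard1 : Nat.card R' = Nat.card Q''₁ := hR'S.card_eq h''₁
            have hcard2 : Nat.card P < Nat.card R := Cfsg.Agent.Lib.PGroups.Basic.card_lt_of_lt hgrow
            have hcard3 : Nat.card R ≤ Nat.card R' :=
              Nat.card_le_card_of_injective _ (Subgroup.inclusion_injective hR')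
            have hcard4 : Nat.card b = Nat.card P := hb.card_eq hP
            have hcard5 : Nat.card Q''₁ ≤ Nat.card G := Subgroup.card_le_card_group _
            have hmeas : Nat.card G - Nat.card Q''₁ < n := by
              rw [← hn]
              omega
            obtain ⟨A₃, hA₃⟩ := h''₁.2.1.exists_le_sylow
            obtain ⟨A₄, hA₄⟩ := h''₂.2.1.exists_le_sylow
            have h3 := ihn _ hmeas _ Q''₁ Q''₂ hL' h''₁ h''₂ (hDb.le.trans hQ''₁) (hDc.le.trans hQ''₂)
              (lt_of_lt_of_le hDb hQ''₁) rfl A₃ A₄ hA₃ hA₄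
            exact (hIH b hDb A₀ A₃ hA₀ (hQ''₁.trans hA₃)).trans
              (h3.trans (hIH c hDc A₄ A (hQ''₂.trans hA₄) hA))
        have key : ∀ B : Subgroup G, Relation.ReflTransGen (AmbStep p f M (Q'₁ ⊓ Q'₂)) Q'₁ B →
            D < B ∧ Nat.card Q₁ ≤ Nat.card B ∧ IsSylIn p M B ∧ ∀ A : Sylow p G, B ≤ A →
              Relation.ReflTransGen (CtlStep p 𝓖 D) A'₁ A := by
          intro B hB
          induction hB with
          | refl =>
            refine ⟨hlt'₁, Nat.card_le_card_of_injective _ (Subgroup.inclusion_injective hQ'₁), h'₁, ?_⟩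
            intro A hA
            exact hIH Q'₁ hlt'₁ A'₁ A hA'₁ hA
          | @tail b c _ hbc ih =>
            obtain ⟨ih1, ih2, ih3, ih4⟩ := ih
            have hDc : D < c := by
              have hDc' : D ≤ c := (le_inf hlt'₁.le hlt'₂.le).trans hbc.2.2.choose_spec.choose_spec.choose_spec.2.2.2.2.2.2.1
              exact hcardlt hDc' ih1 (ih3.card_eq hbc.2.1)
            refine ⟨hDc, ?_, hbc.2.1, ?_⟩
            · rw [← ih3.card_eq hbc.2.1]; exact ih2
            · intro A hA
              obtain ⟨A₀, hA₀⟩ := ih3.2.1.exists_le_sylow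
              exact (ih4 A₀ hA₀).trans (hstep b c hbc ih1 hDc ih2 A₀ A hA₀ hA)
        exact (key Q'₂ hamb).2.2.2 A'₂ hA'₂
      · -- singular
        obtain ⟨m, hm, hconj⟩ := h'₁.exists_conj h'₂
        have hQ'₂B : Q'₂ ≤ ((m • A'₁ : Sylow p G) : Subgroup G) := by
          intro t ht
          rw [mem_smul_sylow]
          apply hA'₁
          rw [← hconj]
          refine ⟨t, ht, ?_⟩
          simp
        have hMG : M ∈ 𝓖 := Or.inr ⟨hM, hM'⟩
        have h1 : M ∈ Cfsg.sylowMembers p 𝓖 (A'₁ : Subgroup G) := by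
          apply mem_sylowMembers_of_isSylIn hMG
          rw [h'₁.eq_inf A'₁ hA'₁]
          exact h'₁
        have h2 : M ∈ Cfsg.sylowMembers p 𝓖 ((m • A'₁ : Sylow p G) : Subgroup G) := by
          apply mem_sylowMembers_of_isSylIn hMG
          rw [h'₂.eq_inf _ hQ'₂B]
          exact h'₂
        have h3 : CtlStep p 𝓖 D A'₁ (m • A'₁) := by
          refine ⟨M, m, h1, h2, hm, ?_, le_inf (hlt'₂.le.trans hQ'₂B) (hlt'₂.le.trans h'₂.1)⟩
          rw [← subgroupConjRight_smul, subgroupConjRight_cancel_inv]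
        exact (Relation.ReflTransGen.single h3).trans
          (hIH Q'₂ hlt'₂ (m • A'₁) A'₂ hQ'₂B hA'₂)
    -- conclusion of the outer step
    have hDltA : D < (A : Subgroup G) := by
      refine lt_of_le_of_ne hDA ?_
      intro h
      apply hAB
      apply Sylow.ext
      refine (A.is_maximal' B.isPGroup' ?_).symm
      rw [← h]; exact hDB
    have hDltB : D < (B : Subgroup G) := by
      refine lt_of_le_of_ne hDB ?_
      intro h
      apply hAB
      apply Sylow.ext
      refine (B.is_maximal' A.isPGroup' ?_)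
      rw [← h]; exact hDA
    have hR₁ := lt_normalizer_inf A.isPGroup' hDltA
    have hR₂ := lt_normalizer_inf B.isPGroup' hDltB
    have hL : Cfsg.IsPLocal p (Subgroup.normalizer (D : Set G)) := ⟨D, hDp, hD, rfl⟩
    obtain ⟨Q₁, hQ₁, h₁⟩ := exists_isSylIn_le (inf_le_left : Subgroup.normalizer (D : Set G) ⊓ (A : Subgroup G) ≤ _)
      (A.isPGroup'.to_le inf_le_right)
    obtain ⟨Q₂, hQ₂, h₂⟩ := exists_isSylIn_le (inf_le_left : Subgroup.normalizer (D : Set G) ⊓ (B : Subgroup G) ≤ _)
      (B.isPGroup'.to_le inf_le_right)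
    obtain ⟨A₁, hA₁⟩ := h₁.2.1.exists_le_sylow
    obtain ⟨A₂, hA₂⟩ := h₂.2.1.exists_le_sylow
    have h3 := claim2 _ _ Q₁ Q₂ hL h₁ h₂ (hR₁.le.trans hQ₁) (hR₂.le.trans hQ₂)
      (lt_of_lt_of_le hR₁ hQ₁) rfl A₁ A₂ hA₁ hA₂
    exact (hIH _ hR₁ A A₁ inf_le_right (hQ₁.trans hA₁)).trans
      (h3.trans (hIH _ hR₂ A₂ B (hQ₂.trans hA₂) inf_le_right))
  apply controls_of_reflTransGen
  intro S T _ hne
  exact main _ hne S T inf_le_left inf_le_right

end Cfsg.Agent.S2956
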