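import Cfsg.Statements.S2957
import Cfsg.Agent.Lib.LocalEven.FunctorChains
import Cfsg.Agent.S2940

set_option autoImplicit false
open Cfsg

namespace Cfsg.Agent.S2957

open Subgroup Cfsg Cfsg.Agent.Lib.LocalEven.Util Cfsg.Agent.Lib.LocalEven.SylowControl
  Cfsg.Agent.Lib.LocalEven.FunctorChains

section aux

universe u

variable {G : Type u} [Group G] [Finite G] {p : ℕ} [Fact p.Prime]

/-- Conjugation of subgroups in the form used by `IsNormalizerFunctor`. -/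
abbrev cj (g : G) (A : Subgroup G) : Subgroup G := A.map (MulAut.conj g).toMonoidHom

omit [Finite G] [Fact p.Prime] in
theorem mem_cj {g y : G} {A : Subgroup G} : y ∈ cj g A ↔ g⁻¹ * y * g ∈ A := by
  constructor
  · rintro ⟨u, hu, rfl⟩
    have e : g⁻¹ * (MulAut.conj g).toMonoidHom u * g = u := by simp [mul_assoc]
    rw [e]; exact hu
  · intro h
    exact ⟨_, h, by simp [mul_assoc]⟩

omit [Finite G] [Fact p.Prime] in
theorem cj_inv_cj (g : G) (A : Subgroup G) : cj g⁻¹ (cj g A) = A := by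
  ext y
  simp only [mem_cj, inv_inv]
  have e : g⁻¹ * (g * y * g⁻¹) * g = y := by group
  rw [e]

omit [Finite G] [Fact p.Prime] in
theorem cj_cj_inv (g : G) (A : Subgroup G) : cj g (cj g⁻¹ A) = A := by
  have := cj_inv_cj g⁻¹ A
  rwa [inv_inv] at this

omit [Finite G] [Fact p.Prime] in
theorem cj_inf (g : G) (A B : Subgroup G) : cj g (A ⊓ B) = cj g A ⊓ cj g B := by
  ext y
  simp only [mem_cj, Subgroup.mem_inf]

omit [Finite G] [Fact p.Prime] in
theorem isPGroup_cj {A : Subgroup G} (hA : IsPGroup p A) (g : G) : IsPGroup p (cj g A) := hA.map _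

omit [Finite G] [Fact p.Prime] in
theorem cj_mono {g : G} {A B : Subgroup G} (h : A ≤ B) : cj g A ≤ cj g B := Subgroup.map_mono h

omit [Finite G] in
theorem IsSylIn.cj' {M Q : Subgroup G} (h : IsSylIn p M Q) (g : G) : IsSylIn p (cj g M) (cj g Q) := by
  refine ⟨cj_mono h.1, isPGroup_cj h.2.1 g, fun C hC hCp hle => ?_⟩
  have h1 : cj g⁻¹ C = Q := by
    apply h.2.2
    · have := cj_mono (g := g⁻¹) hC
      rwa [cj_inv_cj] at this
    · exact isPGroup_cj hCp _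
    · have := cj_mono (g := g⁻¹) hle
      rwa [cj_inv_cj] at this
  rw [← h1, cj_cj_inv]

theorem mem_normalizer_cj {g u : G} {F : Subgroup G} (hu : u ∈ normalizer (F : Set G)) :
    g * u * g⁻¹ ∈ normalizer ((cj g F : Subgroup G) : Set G) := by
  apply mem_normalizer_of_conj_le
  intro y hy
  rw [mem_cj] at hy ⊢
  have h1 := conj_mem_of_mem_normalizer hu hy
  have e : g⁻¹ * (g * u * g⁻¹ * y * (g * u * g⁻¹)⁻¹) * g = u * (g⁻¹ * y * g) * u⁻¹ := by group
  rw [e]; exact h1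

omit [Fact p.Prime] in
theorem AmbStep.cj' {f : Subgroup G → Set (Subgroup G)} (hf : IsNormalizerFunctor p f)
    {M D b c : Subgroup G} [Fact p.Prime] (h : AmbStep p f M D b c) (g : G) :
    AmbStep p f (cj g M) (cj g D) (cj g b) (cj g c) := by
  obtain ⟨hb, hc, P, F, x, hP, hF, hxM, hxN, hbN, hcN, hD, hconj⟩ := h
  refine ⟨IsSylIn.cj' hb g, IsSylIn.cj' hc g, cj g P, cj g F, g * x * g⁻¹, IsSylIn.cj' hP g, ?_, ?_,
    mem_normalizer_cj hxN, ?_, ?_, cj_mono hD, ?_⟩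
  · have := (hf P hP.2.1).2 g
    rw [this]
    exact ⟨F, hF, rfl⟩
  · rw [mem_cj]
    have e : g⁻¹ * (g * x * g⁻¹) * g = x := by group
    rw [e]; exact hxM
  · intro y hy
    rw [mem_cj] at hy
    have := mem_normalizer_cj (g := g) (hbN hy)
    have e : g * (g⁻¹ * y * g) * g⁻¹ = y := by group
    rwa [e] at this
  · intro y hy
    rw [mem_cj] at hy
    have := mem_normalizer_cj (g := g) (hcN hy)
    have e : g * (g⁻¹ * y * g) * g⁻¹ = y := by group
    rwa [e] at this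
  · ext y
    rw [mem_subgroupConjRight, mem_cj, mem_cj, ← hconj, mem_subgroupConjRight]
    have e : g⁻¹ * (g * x * g⁻¹ * y * (g * x * g⁻¹)⁻¹) * g = x * (g⁻¹ * y * g) * x⁻¹ := by group
    rw [e]

theorem ambReg_cj {f : Subgroup G → Set (Subgroup G)} (hf : IsNormalizerFunctor p f)
    {M : Subgroup G} (h : AmbReg p f M) (g : G) : AmbReg p f (cj g M) := by
  intro Q₁ Q₂ h₁ h₂ hne hint
  have h₁' : IsSylIn p M (cj g⁻¹ Q₁) := by
    have := IsSylIn.cj' h₁ g⁻¹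
    rwa [cj_inv_cj] at this
  have h₂' : IsSylIn p M (cj g⁻¹ Q₂) := by
    have := IsSylIn.cj' h₂ g⁻¹
    rwa [cj_inv_cj] at this
  have hne' : cj g⁻¹ Q₁ ≠ cj g⁻¹ Q₂ := by
    intro he
    apply hne
    rw [← cj_cj_inv g Q₁, ← cj_cj_inv g Q₂, he]
  have hint' : cj g⁻¹ Q₁ ⊓ cj g⁻¹ Q₂ ≠ ⊥ := by
    intro hbot
    apply hint
    rw [← cj_cj_inv g Q₁, ← cj_cj_inv g Q₂, ← cj_inf, hbot]
    exact Subgroup.map_bot _
  have hch := h _ _ h₁' h₂' hne' hint'
  have hD : cj g (cj g⁻¹ Q₁ ⊓ cj g⁻¹ Q₂) = Q₁ ⊓ Q₂ := by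
    rw [cj_inf, cj_cj_inv, cj_cj_inv]
  have hlift := Relation.ReflTransGen.lift (r := AmbStep p f M (cj g⁻¹ Q₁ ⊓ cj g⁻¹ Q₂))
    (p := AmbStep p f (cj g M) (Q₁ ⊓ Q₂)) (fun c : Subgroup G => cj g c)
    (fun a b hab => by
      have := AmbStep.cj' hf hab g
      rw [hD] at this
      exact this) _ _ hch
  have h3 : Relation.ReflTransGen (AmbStep p f (cj g M) (Q₁ ⊓ Q₂)) (cj g (cj g⁻¹ Q₁))
    (cj g (cj g⁻¹ Q₂)) := hlift
  rwa [cj_cj_inv, cj_cj_inv] at h3

theorem ambStep_top {f : Subgroup G → Set (Subgroup G)} {M D D' b c : Subgroup G} (U : Sylow p G)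
    (hU : (U : Subgroup G) ≤ M) (hD : D ≤ D') (h : AmbStep p f M D' b c) : AmbStep p f ⊤ D b c := by
  obtain ⟨hb, hc, P, F, x, hP, hF, hxM, hxN, hbN, hcN, hD', hconj⟩ := h
  refine ⟨?_, ?_, P, F, x, ?_, hF, Subgroup.mem_top _, hxN, hbN, hcN, hD.trans hD', hconj⟩
  · exact isSylIn_top_iff.2 (hb.exists_sylow_eq U hU)
  · exact isSylIn_top_iff.2 (hc.exists_sylow_eq U hU)
  · exact isSylIn_top_iff.2 (hP.exists_sylow_eq U hU)

/-- Chain from one Sylow subgroup of `G` to another, through `M` (containing both). -/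
theorem chain_top {f : Subgroup G → Set (Subgroup G)} {M D : Subgroup G} (hM : AmbReg p f M)
    (A B : Sylow p G) (hA : (A : Subgroup G) ≤ M) (hB : (B : Subgroup G) ≤ M) (hD : D ≠ ⊥)
    (hDA : D ≤ (A : Subgroup G)) (hDB : D ≤ (B : Subgroup G)) :
    Relation.ReflTransGen (AmbStep p f ⊤ D) (A : Subgroup G) (B : Subgroup G) := by
  by_cases hAB : (A : Subgroup G) = (B : Subgroup G)
  · rw [hAB]
  have hint : (A : Subgroup G) ⊓ (B : Subgroup G) ≠ ⊥ := by
    intro hbot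
    apply hD
    have := le_inf hDA hDB
    rw [hbot] at this
    exact le_bot_iff.1 this
  have hch := hM _ _ (isSylIn_of_sylow A hA) (isSylIn_of_sylow B hB) hAB hint
  exact Relation.ReflTransGen.mono (fun a b hab => ambStep_top A hA (le_inf hDA hDB) hab) _ _ hch

end aux

/-- Let p be a prime dividing the order of the finite group G, f an equivariant assignment of a set of subgroups f(P) of P to every p-subgroup P, each normalized by N_G(P), and S a Sylow p-subgroup. If G = G₁G₂ for subgroups G₁, G₂ both containing S and both regular for f (in each Gᵢ, the family of normalizers in Gᵢ of the members of f(P), P a Sylow p-subgroup of Gᵢ, controls Sylow p-intersections), then G itself is regular for f. -/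
theorem result {G : Type*} [Group G] [Finite G] (p : ℕ) [Fact p.Prime] (hdiv : p ∣ Nat.card G)
    (f : Subgroup G → Set (Subgroup G)) (hf : Cfsg.IsNormalizerFunctor p f) (S : Sylow p G)
    (G₁ G₂ : Subgroup G) (h₁ : (S : Subgroup G) ≤ G₁) (h₂ : (S : Subgroup G) ≤ G₂)
    (hprod : ∀ g : G, ∃ g₁ ∈ G₁, ∃ g₂ ∈ G₂, g = g₁ * g₂)
    (hr₁ : Cfsg.IsFunctorRegular p f G₁) (hr₂ : Cfsg.IsFunctorRegular p f G₂) :
    Cfsg.IsFunctorRegular p f ⊤ := by
    classical
  apply regular_of_ambReg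
  intro Q₁ Q₂ hQ₁ hQ₂ hne hint
  obtain ⟨S₀, rfl⟩ := isSylIn_top_iff.1 hQ₁
  obtain ⟨T₀, rfl⟩ := isSylIn_top_iff.1 hQ₂
  obtain ⟨h, hh⟩ := MulAction.exists_smul_eq G S S₀
  have hS₀mem : ∀ y ∈ (S₀ : Subgroup G), h⁻¹ * y * h ∈ (S : Subgroup G) := by
    intro y hy
    rw [← hh] at hy
    exact (mem_smul_sylow S h y).1 hy
  set G₁' := cj h G₁ with hG₁'
  set G₂' := cj h G₂ with hG₂'
  have hS₀₁ : (S₀ : Subgroup G) ≤ G₁' := fun y hy => mem_cj.2 (h₁ (hS₀mem y hy))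
  have hS₀₂ : (S₀ : Subgroup G) ≤ G₂' := fun y hy => mem_cj.2 (h₂ (hS₀mem y hy))
  have hfact : ∀ g : G, ∃ g₁ ∈ G₁', ∃ g₂ ∈ G₂', g = g₁ * g₂ := by
    intro g
    obtain ⟨a, ha, b, hb, hab⟩ := hprod (h⁻¹ * g * h)
    refine ⟨h * a * h⁻¹, ?_, h * b * h⁻¹, ?_, ?_⟩
    · rw [mem_cj]
      have e : h⁻¹ * (h * a * h⁻¹) * h = a := by group
      rw [e]; exact ha
    · rw [mem_cj]
      have e : h⁻¹ * (h * b * h⁻¹) * h = b := by group
      rw [e]; exact hb
    · calc g = h * (h⁻¹ * g * h) * h⁻¹ := by group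
        _ = h * (a * b) * h⁻¹ := by rw [hab]
        _ = h * a * h⁻¹ * (h * b * h⁻¹) := by group
  obtain ⟨u, hu⟩ := MulAction.exists_smul_eq G S₀ T₀
  have hT₀ : (T₀ : Subgroup G) = Cfsg.subgroupConjRight u⁻¹ (S₀ : Subgroup G) := by
    rw [subgroupConjRight_smul, hu]
  obtain ⟨U, hU1, hU2⟩ := Cfsg.Agent.S2940.result S₀ G₁' G₂' hS₀₁ hS₀₂ hfact u⁻¹
  rw [← hT₀] at hU1
  have hreg₁ : AmbReg p f G₁' := ambReg_cj hf (ambReg_of_regular hf hr₁) h
  have hreg₂ : AmbReg p f (Cfsg.subgroupConjRight u⁻¹ G₂') :=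
    ambReg_cj hf (ambReg_cj hf (ambReg_of_regular hf hr₂) h) u⁻¹⁻¹
  have hT₀M : (T₀ : Subgroup G) ≤ Cfsg.subgroupConjRight u⁻¹ G₂' := by
    rw [hT₀]
    exact subgroupConjRight_mono hS₀₂
  exact (chain_top hreg₁ S₀ U hS₀₁ (hU2.trans inf_le_left) hint inf_le_left hU1).trans
    (chain_top hreg₂ U T₀ (hU2.trans inf_le_right) hT₀M hint hU1 inf_le_right)

end Cfsg.Agent.S2957
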