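import Cfsg.Statements.S2958

set_option autoImplicit false
open Cfsg

namespace Cfsg.Agent.S2958

/-- Let X, A, B be subgroups of a group G such that G is generated by the conjugates of X and every conjugate of X is contained in A or in B. Then A = G or B = G. -/
theorem result {G : Type*} [Group G] (X A B : Subgroup G) (hgen : (⨆ g : G, X.map (MulAut.conj g).toMonoidHom) = ⊤) (hcover : ∀ g : G, X.map (MulAut.conj g).toMonoidHom ≤ A ∨ X.map (MulAut.conj g).toMonoidHom ≤ B) : A = ⊤ ∨ B = ⊤ := by
  classical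
  by_contra hcon
  push Not at hcon
  obtain ⟨hA, hB⟩ := hcon
  -- some conjugate is not in A
  have hex : ∃ g₀ : G, ¬ X.map (MulAut.conj g₀).toMonoidHom ≤ A := by
    by_contra h
    push Not at h
    apply hA
    rw [eq_top_iff, ← hgen]
    exact iSup_le h
  obtain ⟨g₀, hg₀⟩ := hex
  -- D : join of conjugates not in A
  let D : Subgroup G := ⨆ g : {g : G // ¬ X.map (MulAut.conj g).toMonoidHom ≤ A},
    X.map (MulAut.conj (g : G)).toMonoidHom
  have hDB : D ≤ B := iSup_le fun g => (hcover g).resolve_left g.2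
  have hconj_mul : ∀ (c g : G), (X.map (MulAut.conj g).toMonoidHom).map (MulAut.conj c).toMonoidHom
      = X.map (MulAut.conj (c * g)).toMonoidHom := by
    intro c g
    rw [Subgroup.map_map]
    congr 1
    ext x
    simp [mul_assoc]
  -- A normalizes D : conjugates of members
  have hmapD : ∀ c : G, D.map (MulAut.conj c).toMonoidHom
      = ⨆ g : {g : G // ¬ X.map (MulAut.conj g).toMonoidHom ≤ A},
          X.map (MulAut.conj (c * g)).toMonoidHom := by
    intro c
    simp only [D, Subgroup.map_iSup, hconj_mul]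
  have hnorm_sub : ∀ c : G, (c ∈ A ∨ c ∈ D) → D.map (MulAut.conj c).toMonoidHom ≤ D := by
    intro c hc
    rw [hmapD]
    refine iSup_le fun g => ?_
    rcases hc with hc | hc
    · -- c ∈ A: conjugate by A of something not in A is not in A
      have : ¬ X.map (MulAut.conj (c * g)).toMonoidHom ≤ A := by
        intro h
        apply g.2
        intro y hy
        have h1 : (MulAut.conj c) y ∈ X.map (MulAut.conj (c * g)).toMonoidHom := by
          rw [← hconj_mul]
          exact ⟨y, hy, rfl⟩
        have h2 := h h1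
        have h3 : c⁻¹ * ((MulAut.conj c) y) * c ∈ A :=
          A.mul_mem (A.mul_mem (A.inv_mem hc) h2) hc
        simpa [mul_assoc] using h3
      exact le_iSup (fun g : {g : G // ¬ X.map (MulAut.conj g).toMonoidHom ≤ A} =>
        X.map (MulAut.conj (g : G)).toMonoidHom) ⟨c * g, this⟩
    · -- c ∈ D: conjugate of part of D by element of D
      intro y hy
      rw [← hconj_mul] at hy
      obtain ⟨z, hz, rfl⟩ := hy
      have hzD : z ∈ D := (le_iSup (fun g : {g : G // ¬ X.map (MulAut.conj g).toMonoidHom ≤ A} =>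
        X.map (MulAut.conj (g : G)).toMonoidHom) g) hz
      simpa using D.mul_mem (D.mul_mem hc hzD) (D.inv_mem hc)
  -- every conjugate of X lies in N(D)
  have hN : ∀ g : G, X.map (MulAut.conj g).toMonoidHom ≤ Subgroup.normalizer (D : Set G) := by
    intro g x hx
    have hxAD : x ∈ A ∨ x ∈ D := by
      by_cases h : X.map (MulAut.conj g).toMonoidHom ≤ A
      · exact Or.inl (h hx)
      · exact Or.inr ((le_iSup (fun g : {g : G // ¬ X.map (MulAut.conj g).toMonoidHom ≤ A} =>
          X.map (MulAut.conj (g : G)).toMonoidHom) ⟨g, h⟩) hx)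
    have hxinv : x⁻¹ ∈ A ∨ x⁻¹ ∈ D := hxAD.imp (fun h => A.inv_mem h) (fun h => D.inv_mem h)
    rw [Subgroup.mem_normalizer_iff]
    intro y
    constructor
    · intro hy
      exact hnorm_sub x hxAD ⟨y, hy, rfl⟩
    · intro hy
      have : x⁻¹ * (x * y * x⁻¹) * x⁻¹⁻¹ ∈ D := hnorm_sub x⁻¹ hxinv ⟨_, hy, by simp⟩
      simpa [mul_assoc] using this
  have hNtop : Subgroup.normalizer (D : Set G) = ⊤ := by
    rw [eq_top_iff, ← hgen]
    exact iSup_le hN
  -- So D is normal and contains a conjugate of X, hence all of them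
  have hAll : ∀ g : G, X.map (MulAut.conj g).toMonoidHom ≤ D := by
    intro g y hy
    obtain ⟨x, hx, rfl⟩ := hy
    have hx0 : (MulAut.conj g₀) x ∈ D :=
      (le_iSup (fun g : {g : G // ¬ X.map (MulAut.conj g).toMonoidHom ≤ A} =>
        X.map (MulAut.conj (g : G)).toMonoidHom) ⟨g₀, hg₀⟩) ⟨x, hx, rfl⟩
    have hc : g * g₀⁻¹ ∈ Subgroup.normalizer (D : Set G) := by rw [hNtop]; trivial
    have := (Subgroup.mem_normalizer_iff.1 hc _).1 hx0
    simpa [mul_assoc] using this
  apply hB
  rw [eq_top_iff, ← hgen]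
  exact iSup_le fun g => (hAll g).trans hDB

end Cfsg.Agent.S2958
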