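import Cfsg.Statements.S2963

set_option autoImplicit false
open Cfsg

namespace Cfsg.Agent.S2963

/-- Let n be odd. If the symmetric group of degree n is a minimal parabolic group for the prime 2, that is, a Sylow 2-subgroup is not normal and lies in exactly one maximal subgroup, then n = 2^m + 1 for some natural number m. -/
theorem result (n : ℕ) (hn : Odd n) (h : Cfsg.IsPMinimal 2 (Equiv.Perm (Fin n))) : ∃ m : ℕ, n = 2 ^ m + 1 := by
    classical
  haveI : Fact (Nat.Prime 2) := ⟨Nat.prime_two⟩
  obtain ⟨S⟩ : Nonempty (Sylow 2 (Equiv.Perm (Fin n))) := inferInstance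
  obtain ⟨hnn, M, ⟨hMc, hSM⟩, hMu⟩ := h S
  have hfp : (MulAction.fixedPoints (S : Subgroup (Equiv.Perm (Fin n))) (Fin n)).Nonempty := by
    refine S.isPGroup'.nonempty_fixed_point_of_prime_not_dvd_card (Fin n) ?_
    rw [Nat.card_fin]
    exact hn.not_two_dvd_nat
  obtain ⟨a, ha⟩ := hfp
  have ha' : ∀ s ∈ (S : Subgroup (Equiv.Perm (Fin n))), s a = a := fun s hs => ha ⟨s, hs⟩
  have hb : ∃ b : Fin n, b ≠ a := by
    by_contra hall
    push Not at hall
    apply hnn
    haveI : Subsingleton (Fin n) := ⟨fun x y => (hall x).trans (hall y).symm⟩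
    exact ⟨fun x hx g => by rwa [Subsingleton.elim (g * x * g⁻¹) x]⟩
  obtain ⟨b, hba⟩ := hb
  let O : Set (Fin n) := MulAction.orbit (S : Subgroup (Equiv.Perm (Fin n))) b
  have haO : a ∉ O := by
    rintro ⟨s, hs⟩
    apply hba
    have h1 : (s : Equiv.Perm (Fin n)) b = a := hs
    have h2 := ha' _ s.2
    rw [← h1] at h2
    exact ((s : Equiv.Perm (Fin n)).injective h2).symm ▸ h1 ▸ rfl
  have hbO : b ∈ O := MulAction.mem_orbit_self b
  obtain ⟨m, hm⟩ := S.isPGroup'.card_orbit b
  by_cases hz : ∃ z, z ≠ a ∧ z ∉ O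
  · exfalso
    obtain ⟨z, hza, hzO⟩ := hz
    -- every proper subgroup containing `S` lies in `M`
    have hle : ∀ H : Subgroup (Equiv.Perm (Fin n)), H ≠ ⊤ → (S : Subgroup _) ≤ H → H ≤ M := by
      intro H hH hSH
      obtain h | ⟨C, hC, hHC⟩ := eq_top_or_exists_le_coatom H
      · exact absurd h hH
      · have := hMu C ⟨hC, hSH.trans hHC⟩
        rw [← this]; exact hHC
    -- the stabilizer of `a`
    let H₁ : Subgroup (Equiv.Perm (Fin n)) :=
      { carrier := {σ | σ a = a}
        one_mem' := rfl
        mul_mem' := by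
          intro x y hx hy
          simp only [Set.mem_ofPred_eq, Equiv.Perm.mul_apply] at *
          rw [hy, hx]
        inv_mem' := by
          intro x hx
          simp only [Set.mem_ofPred_eq] at *
          rw [Equiv.Perm.inv_eq_iff_eq]
          exact hx.symm }
    -- the stabilizer of `O`
    let H₂ : Subgroup (Equiv.Perm (Fin n)) :=
      { carrier := {σ | ∀ x, x ∈ O ↔ σ x ∈ O}
        one_mem' := fun x => Iff.rfl
        mul_mem' := by
          intro x y hx hy u
          simp only [Set.mem_ofPred_eq, Equiv.Perm.mul_apply] at *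
          rw [hy u, hx (y u)]
        inv_mem' := by
          intro x hx u
          simp only [Set.mem_ofPred_eq] at *
          rw [hx (x⁻¹ u)]
          simp }
    have hSH₁ : (S : Subgroup _) ≤ H₁ := fun s hs => ha' s hs
    have hSH₂ : (S : Subgroup _) ≤ H₂ := by
      intro s hs x
      constructor
      · rintro ⟨t, rfl⟩
        exact ⟨⟨s, hs⟩ * t, rfl⟩
      · rintro ⟨t, ht⟩
        refine ⟨⟨s, hs⟩⁻¹ * t, ?_⟩
        have ht' : (t : Equiv.Perm (Fin n)) b = s x := ht
        have : ((⟨s, hs⟩⁻¹ * t : (S : Subgroup _)) : Equiv.Perm (Fin n)) b = s⁻¹ (t.1 b) := rfl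
        change ((⟨s, hs⟩⁻¹ * t : (S : Subgroup _)) : Equiv.Perm (Fin n)) b = x
        rw [this, ht']
        simp
    have hH₁ : H₁ ≠ ⊤ := by
      intro htop
      have : Equiv.swap a b ∈ H₁ := by rw [htop]; trivial
      have h2 : Equiv.swap a b a = a := this
      rw [Equiv.swap_apply_left] at h2
      exact hba h2
    have hH₂ : H₂ ≠ ⊤ := by
      intro htop
      have : Equiv.swap a b ∈ H₂ := by rw [htop]; trivial
      have h2 := (this b).1 hbO
      rw [Equiv.swap_apply_right] at h2
      exact haO h2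
    have h1M := hle H₁ hH₁ hSH₁
    have h2M := hle H₂ hH₂ hSH₂
    -- all transpositions
    have hs₁ : ∀ x y : Fin n, x ≠ a → y ≠ a → Equiv.swap x y ∈ M := fun x y hx hy =>
      h1M (Equiv.swap_apply_of_ne_of_ne hx.symm hy.symm)
    have hs₂ : Equiv.swap a z ∈ M := by
      apply h2M
      intro x
      by_cases hxa : x = a
      · subst hxa
        simp only [Equiv.swap_apply_left]
        exact iff_of_false haO hzO
      by_cases hxz : x = z
      · subst hxz
        simp only [Equiv.swap_apply_right]
        exact iff_of_false hzO haO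
      rw [Equiv.swap_apply_of_ne_of_ne hxa hxz]
    have hs₃ : ∀ y : Fin n, y ≠ a → Equiv.swap a y ∈ M := by
      intro y hy
      by_cases hyz : y = z
      · rw [hyz]; exact hs₂
      have he : Equiv.swap a y = Equiv.swap z y * Equiv.swap a z * Equiv.swap z y := by
        rw [Equiv.swap_mul_swap_mul_swap hza.symm hy.symm, Equiv.swap_comm]
      rw [he]
      exact mul_mem (mul_mem (hs₁ z y hza hy) hs₂) (hs₁ z y hza hy)
    have htop : M = ⊤ := by
      rw [eq_top_iff, ← Equiv.Perm.closure_isSwap, Subgroup.closure_le]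
      rintro σ ⟨x, y, hxy, rfl⟩
      by_cases hxa : x = a
      · subst hxa
        exact hs₃ y hxy.symm
      by_cases hya : y = a
      · subst hya
        rw [Equiv.swap_comm]
        exact hs₃ x hxy
      exact hs₁ x y hxa hya
    exact hMc.1 htop
  · push Not at hz
    refine ⟨m, ?_⟩
    have huniv : (Set.univ : Set (Fin n)) = insert a O := by
      ext z
      simp only [Set.mem_univ, Set.mem_insert_iff, true_iff]
      by_cases h : z = a
      · exact Or.inl h
      · exact Or.inr (hz z h)
    have h1 : (Set.univ : Set (Fin n)).ncard = n := by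
      rw [Set.ncard_univ, Nat.card_fin]
    rw [huniv, Set.ncard_insert_of_notMem haO] at h1
    have h2 : O.ncard = 2 ^ m := by
      rw [← Nat.card_coe_set_eq]; exact hm
    omega

end Cfsg.Agent.S2963
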