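import Cfsg.Statements.S2981
import Cfsg.Agent.Lib.BHS.CssMain
import Cfsg.Agent.Lib.PReduced.RelNorm

set_option autoImplicit false
open Cfsg
open Cfsg.Agent.Lib.BHS.Points Cfsg.Agent.Lib.BHS.CssMain Cfsg.Agent.Lib.PReduced.RelNorm
open Cfsg.Agent.Lib.PLocal.Thompson (jOf jOf_le thompsonSubgroupOf_eq)
open Cfsg.Agent.Lib.Core.Basic Cfsg.Agent.Lib.BHS.Reduce Cfsg.Agent.Lib.Core.Radical

namespace Cfsg.Agent.S2981

/-- The local C**(G,T)-Theorem for minimal parabolic groups. Let G be a finite p-minimal group (a Sylow p-subgroup T is not normal and lies in exactly one maximal subgroup) of characteristic p (C_G(O_p(G)) ≤ O_p(G)), and suppose G ≠ C**(G,T), the subgroup generated by C_G(Ω₁(Z(T))) and N_G(J(T)) (J(T) generated by the elementary abelian p-subgroups of T of largest order). Put V = Ω₁(Z(O_p(G))) and C = C_G(V). Then there are subgroups E₁, …, E_r of G containing C such that: J(G)TC = G and the E_i C/C form an internal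 direct product equal to J(G)C/C; any two of the E_i are conjugate by an element of T; V = C_V(⟨E_i⟩)·∏[V, E_i] with [V, E_i, E_j] = 1 for i ≠ j; for some n ≥ 1, each E_i/C is isomorphic to SL₂(pⁿ), or p = 2 and to the symmetric group of degree 2ⁿ + 1; and E_i acts on [V, E_i]/C_{[V,E_i]}(E_i) as the natural two-dimensional SL₂(pⁿ)-module, respectively as the symmetric group of degree 2ⁿ+1 on its even-weight permutation module. -/
theorem result {G : Type*} [Group G] [Finite G] {p : ℕ} [Fact p.Prime] (hmin : Cfsg.IsPMinimal p G) (hG : Subgroup.centralizer (Cfsg.pCore p G : Set G) ≤ Cfsg.pCore p G) (T : Sylow p G) (hne : Cfsg.cStarStarOf p (T : Subgroup G) ≠ ⊤) : ∃ (r : ℕ) (E : Fin r → Subgroup G), (∀ i, Subgroup.centralizer (Cfsg.omegaOneCenter p (Cfsg.pCore p G) : Set G) ≤ E i) ∧ Cfsg.thompsonSubgroup p G ⊔ (T : Subgroup G) ⊔ Subgroup.centralizer (Cfsg.omegaOneCenter p (Cfsg.pCore p G) : Set G) = ⊤ ∧ (⨆ i, E i) = Cfsg.thompsonSubgroup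 p G ⊔ Subgroup.centralizer (Cfsg.omegaOneCenter p (Cfsg.pCore p G) : Set G) ∧ (∀ i j, i ≠ j → ⁅E i, E j⁆ ≤ Subgroup.centralizer (Cfsg.omegaOneCenter p (Cfsg.pCore p G) : Set G)) ∧ (∀ i, E i ⊓ (⨆ j ∈ {j | j ≠ i}, E j) ≤ Subgroup.centralizer (Cfsg.omegaOneCenter p (Cfsg.pCore p G) : Set G)) ∧ (∀ i j, ∃ t ∈ (T : Subgroup G), (E i).map (MulAut.conj t).toMonoidHom = E j) ∧ (Cfsg.omegaOneCenter p (Cfsg.pCore p G) ⊓ Subgroup.centralizer ((⨆ i, E i : Subgroup G) : Set G)) ⊔ (⨆ i, ⁅Cfsg.omegaOneCenter p (Cfsg.pCore p G), E i⁆) = Cfsg.omegaOneCenter p (Cfsg.pCore p G) ∧ (∀ i j, i ≠ j → ⁅⁅Cfsg.omegaOneCenter p (Cfsg.pCore p G), E i⁆, E j⁆ = ⊥) ∧ ∀ i, ∃ n : ℕ, 1 ≤ n ∧ ((∃ (F : Type) (_ : Field F) (_ : Fintype F), Fintype.card F = p ^ n ∧ (∃ _ : ((Subgroup.centralizer (Cfsg.omegaOneCenter p (Cfsg.pCore p G) : Set G)).subgroupOf (E i)).Normal, Nonempty (↥(E i) ⧸ (Subgroup.centralizer (Cfsg.omegaOneCenter p (Cfsg.pCore p G) : Set G)).subgroupOf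 (E i) ≃* Matrix.SpecialLinearGroup (Fin 2) F)) ∧ Cfsg.ActsAsSL2OnSection F ⊤ (E i) ⁅Cfsg.omegaOneCenter p (Cfsg.pCore p G), E i⁆ (⁅Cfsg.omegaOneCenter p (Cfsg.pCore p G), E i⁆ ⊓ Subgroup.centralizer ((E i : Subgroup G) : Set G))) ∨ (p = 2 ∧ (∃ _ : ((Subgroup.centralizer (Cfsg.omegaOneCenter p (Cfsg.pCore p G) : Set G)).subgroupOf (E i)).Normal, Nonempty (↥(E i) ⧸ (Subgroup.centralizer (Cfsg.omegaOneCenter p (Cfsg.pCore p G) : Set G)).subgroupOf (E i) ≃* Equiv.Perm (Fin (2 ^ n + 1)))) ∧ Cfsg.ActsAsOddPermModuleOnSection (2 ^ n + 1) ⊤ (E i) ⁅Cfsg.omegaOneCenter p (Cfsg.pCore p G), E i⁆ (⁅Cfsg.omegaOneCenter p (Cfsg.pCore p G), E i⁆ ⊓ Subgroup.centralizer ((E i : Subgroup G) : Set G)))) := by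
  classical
  obtain ⟨hnn, M, ⟨hM, hTM⟩, huniq⟩ := hmin T
  have hPt : PtHyp p T M := ⟨hnn, fun M' h1 h2 => huniq M' ⟨h1, h2⟩, hM, hTM⟩
  have hmem : ∀ {Y : Subgroup G} {x : G}, x ∈ omegaOneCenter p Y ↔
      x ∈ Y ⊓ Subgroup.centralizer (Y : Set G) ∧ x ^ p = 1 := fun {Y x} => mem_omegaOne_center_iff
  have hTn : (T : Subgroup G) ≤ Subgroup.normalizer (jOf p (T : Subgroup G) : Set G) :=
    (Subgroup.le_normalizer).trans (normalizer_le_jOf _)
  have hCss : cStarStarOf p (T : Subgroup G) ≤ M := by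
    apply hPt.le_M _ hne
    unfold cStarStarOf
    rw [thompsonSubgroupOf_eq]
    exact hTn.trans le_sup_right
  have hN : Subgroup.normalizer (jOf p (T : Subgroup G) : Set G) ≤ M := by
    refine le_trans ?_ hCss
    unfold cStarStarOf
    rw [thompsonSubgroupOf_eq]
    exact le_sup_right
  have hZ : Subgroup.centralizer (omegaOneCenter p (T : Subgroup G) : Set G) ≤ M :=
    le_trans le_sup_left hCss
  have hQT : pCore p G ≤ (T : Subgroup G) := pCore_le_sylow T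
  have hZV : omegaOneCenter p (T : Subgroup G) ≤ omegaOneCenter p (pCore p G) := by
    intro x hx
    obtain ⟨⟨h1, h2⟩, h3⟩ := hmem.1 hx
    have h4 : x ∈ Subgroup.centralizer (pCore p G : Set G) := Subgroup.centralizer_le hQT h2
    exact hmem.2 ⟨⟨hG h4, h4⟩, h3⟩
  have hZC : omegaOneCenter p (T : Subgroup G) ≤ Subgroup.centralizer ((T : Subgroup G) : Set G) :=
    fun x hx => ((hmem.1 hx).1).2
  haveI hVn : (omegaOneCenter p (pCore p G)).Normal := by
    have hQn : (pCore p G).Normal := pCore_normal p G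
    rw [← Subgroup.normalizer_eq_top_iff, eq_top_iff]
    intro g _
    rw [mem_normalizer_iff_cj]
    ext x
    rw [Cfsg.Agent.Lib.BHS.OffBasic.mem_cj, hmem, hmem]
    have hc : ∀ k : G, ∀ y, y ∈ pCore p G ⊓ Subgroup.centralizer (pCore p G : Set G) ∧ y ^ p = 1 →
        k * y * k⁻¹ ∈ pCore p G ⊓ Subgroup.centralizer (pCore p G : Set G) ∧ (k * y * k⁻¹) ^ p = 1 := by
      rintro k y ⟨⟨h1, h2⟩, h3⟩
      refine ⟨⟨hQn.conj_mem _ h1 k, ?_⟩, ?_⟩
      · have h2' : y ∈ Subgroup.centralizer (pCore p G : Set G) := h2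
        show k * y * k⁻¹ ∈ Subgroup.centralizer (pCore p G : Set G)
        rw [Subgroup.mem_centralizer_iff] at h2' ⊢
        intro q hq
        have h4 := h2' (k⁻¹ * q * k) (by simpa using hQn.conj_mem _ hq k⁻¹)
        calc q * (k * y * k⁻¹) = k * ((k⁻¹ * q * k) * y) * k⁻¹ := by group
          _ = k * (y * (k⁻¹ * q * k)) * k⁻¹ := by rw [h4]
          _ = k * y * k⁻¹ * q := by group
      · rw [conj_pow, h3]
        simp
    constructor
    · intro h
      have h1 := hc g _ h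
      have h2 : g * (g⁻¹ * x * g) * g⁻¹ = x := by group
      rwa [h2] at h1
    · intro h
      have h1 := hc g⁻¹ _ h
      have h2 : g⁻¹ * x * g⁻¹⁻¹ = g⁻¹ * x * g := by group
      rwa [h2] at h1
  haveI hVc : IsMulCommutative (omegaOneCenter p (pCore p G)) :=
    ⟨⟨fun a b => Subtype.ext (by
      have h1 := (hmem.1 a.2).1
      have h2 := (hmem.1 b.2).1
      exact (Subgroup.mem_centralizer_iff.1 h2.2 a h1.1))⟩⟩
  have hexp : ∀ v ∈ omegaOneCenter p (pCore p G), v ^ p = 1 := fun v hv => (hmem.1 hv).2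
  have hCM : Subgroup.centralizer (omegaOneCenter p (pCore p G) : Set G) ≤ M :=
    (Subgroup.centralizer_le hZV).trans hZ
  have hQC : pCore p G ≤ Subgroup.centralizer (omegaOneCenter p (pCore p G) : Set G) := by
    intro q hq
    rw [Subgroup.mem_centralizer_iff]
    intro v hv
    exact (Subgroup.mem_centralizer_iff.1 ((hmem.1 hv).1).2 q hq).symm
  have hCT : Subgroup.centralizer ((omegaOneCenter p (pCore p G) ⊓
      Subgroup.centralizer ((T : Subgroup G) : Set G) : Subgroup G) : Set G) ≤ M :=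
    (Subgroup.centralizer_le (le_inf hZV hZC)).trans hZ
  exact css_main (omegaOneCenter p (pCore p G)) hexp T M hPt hCM hQC hCT (thompson_not_le hPt hN)

end Cfsg.Agent.S2981
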