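import Cfsg.Statements.S2983
import Cfsg.Agent.Lib.LocalEven.Baumann

set_option autoImplicit false
open Cfsg

namespace Cfsg.Agent.S2983

/-- Let G be a finite group of characteristic p (C_G(O_p(G)) ≤ O_p(G)), T a Sylow p-subgroup and E a B(T)-block of G. If Q is a p-subgroup of G normalized by both B(T) and E, then Q normalizes E. -/
theorem result {G : Type*} [Group G] [Finite G] {p : ℕ} [Fact p.Prime] (hG : Subgroup.centralizer (Cfsg.pCore p G : Set G) ≤ Cfsg.pCore p G) (T : Sylow p G) (E : Subgroup G) (hE : Cfsg.IsBaumannBlock p (T : Subgroup G) E) (Q : Subgroup G) (hQ : IsPGroup p ↥Q) (hBQ : Cfsg.baumannSubgroupOf p (T : Subgroup G) ≤ Subgroup.normalizer (Q : Set G)) (hEQ : E ≤ Subgroup.normalizer (Q : Set G)) : Q ≤ Subgroup.normalizer (E : Set G) := by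
    classical
  exact Cfsg.Agent.Lib.LocalEven.Baumann.le_normalizer_block T hE hQ hBQ hEQ

end Cfsg.Agent.S2983
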