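import Cfsg.Statements.S2998

set_option autoImplicit false
open Cfsg

namespace Cfsg.Agent.S2998

open Subgroup Pointwise in
theorem exists_conj_le_of_le_sup {G : Type*} [Group G] [Finite G] {p : ℕ} [Fact p.Prime]
    (P : Sylow p G) (N : Subgroup G) [N.Normal] (A : Subgroup G) (hA : IsPGroup p A)
    (hle : A ≤ N ⊔ (P : Subgroup G)) : ∃ n ∈ N, ∀ a ∈ A, n⁻¹ * a * n ∈ (P : Subgroup G) := by
  set T : Subgroup G := N ⊔ (P : Subgroup G) with hT
  have hPT : (P : Subgroup G) ≤ T := le_sup_right
  have hA' : IsPGroup p (A.subgroupOf T) := by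
    intro x
    obtain ⟨k, hk⟩ := hA ⟨x.1.1, x.2⟩
    refine ⟨k, Subtype.ext (Subtype.ext ?_)⟩
    simpa using congrArg Subtype.val hk
  obtain ⟨S', hS'⟩ := hA'.exists_le_sylow
  obtain ⟨t, ht⟩ := MulAction.exists_smul_eq T (P.subtype hPT) S'
  have htt : (t : G) ∈ N ⊔ (P : Subgroup G) := t.2
  rw [← SetLike.mem_coe, Subgroup.normal_mul, Set.mem_mul] at htt
  obtain ⟨n, hn, u, hu, htu⟩ := htt
  refine ⟨n, hn, fun a ha => ?_⟩
  have ha' : (⟨a, hle ha⟩ : T) ∈ (S' : Subgroup T) := hS' (by simpa [mem_subgroupOf] using ha)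
  have h1 : t⁻¹ * ⟨a, hle ha⟩ * t ∈ (P.subtype hPT : Subgroup T) := by
    rw [← ht] at ha'
    have h2 : (⟨a, hle ha⟩ : T) ∈ MulAut.conj t • (P.subtype hPT : Subgroup T) := ha'
    obtain ⟨y, hy, hy'⟩ := h2
    have : t⁻¹ * ⟨a, hle ha⟩ * t = y := by
      rw [← hy']; simp [mul_assoc]
    rw [this]; exact hy
  have h3 : (t : G)⁻¹ * a * t ∈ (P : Subgroup G) := by
    have := h1
    rw [Sylow.coe_subtype, mem_subgroupOf] at this
    simpa using this
  have h4 : n⁻¹ * a * n = u * ((t : G)⁻¹ * a * t) * u⁻¹ := by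
    rw [← htu]; group
  rw [h4]
  exact (P : Subgroup G).mul_mem ((P : Subgroup G).mul_mem hu h3) ((P : Subgroup G).inv_mem hu)

/-- Let G be a finite group, p a prime, P a Sylow p-subgroup of G and x ∈ P an element such that N_G(R) ≤ C_G(x) for every nontrivial subgroup R of P. Then P ≤ C_G(x); every G-conjugate of x lying in P equals x (so g ∈ C_G(x) whenever g x g⁻¹ ∈ P); and for every normal subgroup N of G, the image of x in G ⧸ N has the same property with respect to the image of P: the normalizer of every nontrivial subgroup of the image of P centralizes the image of x. -/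
theorem result {G : Type*} [Group G] [Finite G] {p : ℕ} [Fact p.Prime] (P : Sylow p G) (x : G) (hxP : x ∈ (P : Subgroup G)) (hlc : ∀ R : Subgroup G, R ≤ (P : Subgroup G) → R ≠ ⊥ → Subgroup.normalizer (R : Set G) ≤ Subgroup.centralizer ({x} : Set G)) : (P : Subgroup G) ≤ Subgroup.centralizer ({x} : Set G) ∧ (∀ g : G, g * x * g⁻¹ ∈ (P : Subgroup G) → g * x * g⁻¹ = x) ∧ ∀ (N : Subgroup G) [N.Normal], ∀ R : Subgroup (G ⧸ N), R ≤ (P : Subgroup G).map (QuotientGroup.mk' N) → R ≠ ⊥ → Subgroup.normalizer (R : Set (G ⧸ N)) ≤ Subgroup.centralizer ({(QuotientGroup.mk x : G ⧸ N)} : Set (G ⧸ N)) := by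
    classical
  have part1 : (P : Subgroup G) ≤ Subgroup.centralizer ({x} : Set G) := by
    by_cases hP : (P : Subgroup G) = ⊥
    · rw [hP]; exact bot_le
    · exact (Subgroup.le_normalizer).trans (hlc _ le_rfl hP)
  have part2 : ∀ g : G, g * x * g⁻¹ ∈ (P : Subgroup G) → g * x * g⁻¹ = x := by
    intro g hg
    by_cases hx1 : x = 1
    · subst hx1; simp
    set x' := g * x * g⁻¹ with hx'
    have hx'1 : x' ≠ 1 := by
      intro h
      apply hx1
      rw [hx', mul_inv_eq_one] at h
      exact mul_left_cancel (h.trans (mul_one g).symm)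
    have hzne : Subgroup.zpowers x' ≠ ⊥ := by
      simpa [Subgroup.zpowers_eq_bot] using hx'1
    have hzle : Subgroup.zpowers x' ≤ (P : Subgroup G) := (Subgroup.zpowers_le).2 hg
    -- `C(x') ≤ C(x)`
    have hC : ∀ y : G, Commute y x' → Commute y x := by
      intro y hy
      have h1 : y ∈ Subgroup.normalizer ((Subgroup.zpowers x' : Subgroup G) : Set G) := by
        rw [Subgroup.mem_normalizer_iff]
        intro z
        constructor
        · intro hz
          obtain ⟨k, rfl⟩ := Subgroup.mem_zpowers_iff.1 hz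
          have : y * x' ^ k * y⁻¹ = x' ^ k := by
            rw [(hy.zpow_right k).eq]; group
          rw [this]; exact hz
        · intro hz
          obtain ⟨k, hk⟩ := Subgroup.mem_zpowers_iff.1 hz
          have : z = x' ^ k := by
            have h2 : y * x' ^ k * y⁻¹ = x' ^ k := by
              rw [(hy.zpow_right k).eq]; group
            have h3 : y * x' ^ k * y⁻¹ = y * z * y⁻¹ := by rw [h2, hk]
            exact (mul_left_cancel (mul_right_cancel h3)).symm
          rw [this]; exact zpow_mem (Subgroup.mem_zpowers x') k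
      have h2 := hlc _ hzle hzne h1
      rw [Subgroup.mem_centralizer_singleton_iff] at h2
      exact h2
    -- `C(x) = C(x')`, by orders
    have hC' : Subgroup.centralizer ({x'} : Set G) ≤ Subgroup.centralizer ({x} : Set G) := by
      intro y hy
      rw [Subgroup.mem_centralizer_singleton_iff] at hy ⊢
      exact hC y hy
    have hconj : (Subgroup.centralizer ({x} : Set G)).map (MulAut.conj g).toMonoidHom =
        Subgroup.centralizer ({x'} : Set G) := by
      ext y
      rw [Subgroup.mem_map, Subgroup.mem_centralizer_singleton_iff]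
      constructor
      · rintro ⟨z, hz, rfl⟩
        rw [Subgroup.mem_centralizer_singleton_iff] at hz
        have := hz
        simp only [MulEquiv.coe_toMonoidHom, MulAut.conj_apply, hx']
        calc g * z * g⁻¹ * (g * x * g⁻¹) = g * (z * x) * g⁻¹ := by group
          _ = g * (x * z) * g⁻¹ := by rw [this]
          _ = g * x * g⁻¹ * (g * z * g⁻¹) := by group
      · intro hy
        refine ⟨g⁻¹ * y * g, ?_, by simp [mul_assoc]⟩
        rw [Subgroup.mem_centralizer_singleton_iff]
        calc g⁻¹ * y * g * x = g⁻¹ * (y * (g * x * g⁻¹)) * g := by group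
          _ = g⁻¹ * (x' * y) * g := by rw [← hx', hy]
          _ = x * (g⁻¹ * y * g) := by rw [hx']; group
    have hcard : Nat.card (Subgroup.centralizer ({x'} : Set G)) =
        Nat.card (Subgroup.centralizer ({x} : Set G)) := by
      rw [← hconj]
      exact Subgroup.card_map_of_injective (MulAut.conj g).injective
    have hCeq : Subgroup.centralizer ({x'} : Set G) = Subgroup.centralizer ({x} : Set G) :=
      Subgroup.eq_of_le_of_card_ge hC' (by rw [hcard])
    -- `P` and `gPg⁻¹` are Sylow in `C := C(x)`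
    set C := Subgroup.centralizer ({x} : Set G) with hCdef
    have hgP : (P : Subgroup G).map (MulAut.conj g).toMonoidHom ≤ C := by
      rw [← hCeq, ← hconj]
      exact Subgroup.map_mono part1
    let S₁ : Sylow p C := P.subtype part1
    let S₂ : Sylow p C := Sylow.subtype (MulAut.conj g • P) hgP
    obtain ⟨c, hc⟩ := MulAction.exists_smul_eq C S₂ S₁
    -- `n = c g` normalizes `P`
    have hn : (c : G) * g ∈ Subgroup.normalizer ((P : Subgroup G) : Set G) := by
      have hle : (P : Subgroup G).map (MulAut.conj ((c : G) * g)).toMonoidHom ≤ P := by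
        rintro _ ⟨y, hy, rfl⟩
        have h1 : (⟨g * y * g⁻¹, hgP ⟨y, hy, rfl⟩⟩ : C) ∈ (S₂ : Subgroup C) := by
          show (⟨g * y * g⁻¹, hgP ⟨y, hy, rfl⟩⟩ : C) ∈
            ((P : Subgroup G).map (MulAut.conj g).toMonoidHom).subgroupOf C
          rw [Subgroup.mem_subgroupOf]
          exact ⟨y, hy, rfl⟩
        have h2 : c * ⟨g * y * g⁻¹, hgP ⟨y, hy, rfl⟩⟩ * c⁻¹ ∈ (S₁ : Subgroup C) := by
          rw [← hc]
          exact ⟨_, h1, rfl⟩
        have h3 : ((c * ⟨g * y * g⁻¹, hgP ⟨y, hy, rfl⟩⟩ * c⁻¹ : C) : G) ∈ (P : Subgroup G) := by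
          have h4 : (c * ⟨g * y * g⁻¹, hgP ⟨y, hy, rfl⟩⟩ * c⁻¹ : C) ∈ (P.subtype part1 : Subgroup C) := h2
          rw [Sylow.coe_subtype, Subgroup.mem_subgroupOf] at h4
          exact h4
        have h5 : (MulAut.conj ((c : G) * g)).toMonoidHom y =
            ((c * ⟨g * y * g⁻¹, hgP ⟨y, hy, rfl⟩⟩ * c⁻¹ : C) : G) := by
          simp [mul_assoc]
        rw [h5]; exact h3
      have heq : (P : Subgroup G).map (MulAut.conj ((c : G) * g)).toMonoidHom = P :=
        Subgroup.eq_of_le_of_card_ge hle (by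
          rw [Subgroup.card_map_of_injective (MulAut.conj _).injective])
      rw [Subgroup.mem_normalizer_iff]
      intro y
      constructor
      · intro hy
        rw [← heq]
        exact ⟨y, hy, rfl⟩
      · intro hy
        have hy' : (c : G) * g * y * ((c : G) * g)⁻¹ ∈
            (P : Subgroup G).map (MulAut.conj ((c : G) * g)).toMonoidHom := by
          rw [heq]; exact hy
        obtain ⟨z, hz, hzy⟩ := hy'
        have hzy' : (c : G) * g * z * ((c : G) * g)⁻¹ = (c : G) * g * y * ((c : G) * g)⁻¹ := hzy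
        have : z = y := mul_left_cancel (mul_right_cancel hzy')
        rw [← this]; exact hz
    have hP1 : (P : Subgroup G) ≠ ⊥ := by
      intro h
      apply hx1
      rw [h] at hxP
      exact hxP
    have hn1 := hlc _ le_rfl hP1 hn
    rw [Subgroup.mem_centralizer_singleton_iff] at hn1
    have hc1 : Commute (c : G) x' := by
      have := hCeq.ge c.2
      rw [Subgroup.mem_centralizer_singleton_iff] at this
      exact this
    -- conclude
    have h6 : (c : G) * g * x * ((c : G) * g)⁻¹ = x := by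
      rw [hn1]; group
    have h7 : (c : G) * x' * (c : G)⁻¹ = x := by
      rw [← h6, hx']; group
    rw [hc1.eq] at h7
    simpa using h7
  refine ⟨part1, part2, ?_⟩
  intro N _ R hR hR1 gb hgb
  obtain ⟨g, rfl⟩ := QuotientGroup.mk_surjective gb
  rw [Subgroup.mem_centralizer_singleton_iff]
  set L : Subgroup G := R.comap (QuotientGroup.mk' N) with hL
  have hNL : N ≤ L := by
    intro n hn
    rw [hL, Subgroup.mem_comap]
    have : QuotientGroup.mk' N n = 1 := (QuotientGroup.eq_one_iff n).2 hn
    rw [this]; exact R.one_mem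
  have hLsup : L ≤ N ⊔ (P : Subgroup G) := by
    intro l hl
    obtain ⟨u, hu, huu⟩ := hR (Subgroup.mem_comap.1 hl)
    have : u⁻¹ * l ∈ N := by
      rw [← QuotientGroup.eq]
      exact huu
    have hl' : l = u * (u⁻¹ * l) := by group
    rw [hl']
    exact Subgroup.mul_mem _ (Subgroup.mem_sup_right hu) (Subgroup.mem_sup_left this)
  set Q : Subgroup G := L ⊓ (P : Subgroup G) with hQ
  have hQ1 : Q ≠ ⊥ := by
    obtain ⟨⟨r, hr⟩, hr1'⟩ := Subgroup.ne_bot_iff_exists_ne_one.1 hR1
    have hr1 : r ≠ 1 := fun h => hr1' (Subtype.ext h)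
    obtain ⟨u, hu, huu⟩ := hR hr
    intro hbot
    apply hr1
    have hu0 : u ∈ L := by
      rw [hL, Subgroup.mem_comap, huu]; exact hr
    have hu1 : u ∈ Q := ⟨hu0, hu⟩
    rw [hbot, Subgroup.mem_bot] at hu1
    rw [← huu, hu1]
    simp
  have hgL : g ∈ Subgroup.normalizer (L : Set G) := by
    rw [Subgroup.mem_normalizer_iff]
    intro y
    rw [hL, Subgroup.mem_comap, Subgroup.mem_comap]
    have := (Subgroup.mem_normalizer_iff.1 hgb) (QuotientGroup.mk' N y)
    rw [this]
    simp
  have hApg : IsPGroup p (Q.map (MulAut.conj g).toMonoidHom) := by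
    refine IsPGroup.map ?_ _
    exact P.2.to_le inf_le_right
  have hAle : Q.map (MulAut.conj g).toMonoidHom ≤ N ⊔ (P : Subgroup G) := by
    rintro _ ⟨y, hy, rfl⟩
    apply hLsup
    exact (Subgroup.mem_normalizer_iff.1 hgL y).1 hy.1
  obtain ⟨n, hn, hnP⟩ := exists_conj_le_of_le_sup P N _ hApg hAle
  set h := n⁻¹ * g with hh
  have hnormL : h ∈ Subgroup.normalizer (L : Set G) := by
    refine Subgroup.mul_mem _ ?_ hgL
    apply Subgroup.inv_mem
    rw [Subgroup.mem_normalizer_iff]
    intro y
    have hnL := hNL hn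
    constructor
    · intro hy
      exact L.mul_mem (L.mul_mem hnL hy) (L.inv_mem hnL)
    · intro hy
      have : y = n⁻¹ * (n * y * n⁻¹) * n := by group
      rw [this]
      exact L.mul_mem (L.mul_mem (L.inv_mem hnL) hy) hnL
  have hQle : Q.map (MulAut.conj h).toMonoidHom ≤ Q := by
    rintro _ ⟨y, hy, rfl⟩
    refine ⟨(Subgroup.mem_normalizer_iff.1 hnormL y).1 hy.1, ?_⟩
    have := hnP (g * y * g⁻¹) ⟨y, hy, rfl⟩
    have e : (MulAut.conj h).toMonoidHom y = n⁻¹ * (g * y * g⁻¹) * n := by
      simp [hh, mul_assoc]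
    rw [e]
    exact this
  have hQeq : Q.map (MulAut.conj h).toMonoidHom = Q :=
    Subgroup.eq_of_le_of_card_ge hQle (by
      rw [Subgroup.card_map_of_injective (MulAut.conj _).injective])
  have hnormQ : h ∈ Subgroup.normalizer (Q : Set G) := by
    rw [Subgroup.mem_normalizer_iff]
    intro y
    constructor
    · intro hy
      rw [← hQeq]
      exact ⟨y, hy, rfl⟩
    · intro hy
      have hy' : h * y * h⁻¹ ∈ Q.map (MulAut.conj h).toMonoidHom := by
        rw [hQeq]; exact hy
      obtain ⟨z, hz, hzy⟩ := hy'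
      have hzy' : h * z * h⁻¹ = h * y * h⁻¹ := hzy
      have : z = y := mul_left_cancel (mul_right_cancel hzy')
      rw [← this]; exact hz
  have hcent := hlc Q inf_le_right hQ1 hnormQ
  rw [Subgroup.mem_centralizer_singleton_iff] at hcent
  have hmk : (QuotientGroup.mk h : G ⧸ N) = QuotientGroup.mk g := by
    rw [QuotientGroup.eq]
    have e : h⁻¹ * g = g⁻¹ * n * g⁻¹⁻¹ := by rw [hh]; group
    rw [e]
    exact ‹N.Normal›.conj_mem n hn g⁻¹
  rw [← hmk]
  have := congrArg (QuotientGroup.mk' N) hcent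
  simpa using this

end Cfsg.Agent.S2998
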