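import Cfsg.Statements.S2999
import Cfsg.Agent.Lib.BHS.OffStruct
import Cfsg.Agent.Lib.BHS.ModTransfer
import Cfsg.Agent.Lib.QuadAct.Replacement

set_option autoImplicit false
open Cfsg
open scoped commutatorElement
open Cfsg.Agent.Lib.BHS.OffBasic Cfsg.Agent.Lib.BHS.OffStruct Cfsg.Agent.Lib.BHS.ModTransfer

set_option linter.unusedVariables false
set_option linter.unusedSimpArgs false

namespace Cfsg.Agent.S2999

/-- Let p be a prime and let P and V be subgroups of a finite group with V elementary abelian, P normalizing V and acting faithfully on it (P ∩ C(V) = 1). Suppose P is p-minimal (a Sylow p-subgroup T of P is not normal and lies in a unique maximal subgroup M of P) and A ≤ T is an elementary abelian subgroup such that: |V/C_V(A)| ≤ |A| while |A₀|·|C_V(A₀)| < |A|·|C_V(A)| for every nontrivial proper subgroup A₀ of A; [C_V(T), P] ≠ 1; and P = ⟨A, xAx⁻¹⟩ for every x ∈ P outside M. Then, with q = |A|, there is a field F with q elements such that P ≅ SL₂(F), C_V(A) = [V, A]·C_V(P), and P acts on V/C_V(P) as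 SL₂(F) on its natural two-dimensional module. -/
theorem result {G : Type*} [Group G] [Finite G] {p : ℕ} [Fact p.Prime] (V P : Subgroup G) (hV : Cfsg.IsElementaryAbelian p V) (hPV : P ≤ Subgroup.normalizer (V : Set G)) (hfaith : P ⊓ Subgroup.centralizer (V : Set G) = ⊥) (hmin : Cfsg.IsPMinimal p ↥P) (T : Sylow p ↥P) (M : Subgroup ↥P) (hM : IsCoatom M) (hTM : (T : Subgroup ↥P) ≤ M) (A : Subgroup G) (hAT : A ≤ ((T : Subgroup ↥P).map P.subtype)) (hAel : Cfsg.IsElementaryAbelian p A) (hi : Nat.card ↥V ≤ Nat.card ↥A * Nat.card ↥(V ⊓ Subgroup.centralizer ((A : Subgroup G) : Set G)) ∧ ∀ A₀ : Subgroup G, A₀ ≤ A → A₀ ≠ ⊥ → A₀ ≠ A → Nat.card ↥A₀ * Nat.card ↥(V ⊓ Subgroup.centralizer ((A₀ : Subgroup G) : Set G)) < Nat.card ↥A * Nat.card ↥(V ⊓ Subgroup.centralizer ((A : Subgroup G) : Set G))) (hii : ⁅(V ⊓ Subgroup.centralizer ((((T : Subgroup ↥P).map P.subtype) : Subgroup G) : Set G)), P⁆ ≠ ⊥) (hiii : ∀ x : ↥P, x ∉ M → A ⊔ A.map (MulAut.conj (x : G)).toMonoidHom = P) : ∃ (F : Type) (_ : Field F) (_ : Fintype F), Fintype.card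 F = Nat.card ↥A ∧ Nonempty (↥P ≃* Matrix.SpecialLinearGroup (Fin 2) F) ∧ (V ⊓ Subgroup.centralizer ((A : Subgroup G) : Set G)) = ⁅V, A⁆ ⊔ (V ⊓ Subgroup.centralizer ((P : Subgroup G) : Set G)) ∧ Cfsg.ActsAsSL2OnSection F ⊤ P V (V ⊓ Subgroup.centralizer ((P : Subgroup G) : Set G)) := by
  classical
  obtain ⟨hcomm, hexp⟩ := id hV
  haveI := hcomm
  haveI : Fact (P ≤ Subgroup.normalizer (V : Set G)) := ⟨hPV⟩
  obtain ⟨hnn, M', ⟨hM', hTM'⟩, huniq⟩ := hmin T
  set A' : Subgroup ↥P := A.subgroupOf P with hA'
  have hAP : A ≤ P := by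
    intro a ha
    obtain ⟨t, -, rfl⟩ := hAT ha
    exact t.2
  have hA'map : A'.map P.subtype = A := subgroupOf_map hAP
  have hA'T : A' ≤ (T : Subgroup ↥P) := by
    intro a ha
    obtain ⟨t, ht, hta⟩ := hAT (show (a : G) ∈ A from ha)
    have : t = a := Subtype.ext hta
    rwa [← this]
  have hcardA' : Nat.card A' = Nat.card A := card_subgroupOf hAP
  -- the group `A` is a best offender
  have hMne : ∃ x : ↥P, x ∉ M := by
    by_contra h
    push_neg at h
    exact hM.1 (eq_top_iff.2 fun x _ => h x)
  obtain ⟨x₀, hx₀⟩ := hMne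
  have hAne : A ≠ ⊥ := by
    rintro rfl
    have h1 := hiii x₀ hx₀
    have h2 : (⊥ : Subgroup G) ⊔ (⊥ : Subgroup G).map (MulAut.conj (x₀ : G)).toMonoidHom = ⊥ := by simp
    rw [h2] at h1
    apply hM.1
    rw [eq_top_iff]
    rintro ⟨y, hy⟩ -
    have : y = 1 := by
      rw [← h1] at hy
      simpa using hy
    subst this
    exact M.one_mem
  have hAV : A ≤ Subgroup.normalizer (V : Set G) := hAP.trans hPV
  have hbest : Cfsg.IsBestOffenderOn p V A := by
    refine ⟨?_, ?_, ?_⟩
    · intro B hB
      by_cases hB1 : B = ⊥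
      · subst hB1
        have h3 : V ⊓ Subgroup.centralizer (((⊥ : Subgroup G) : Subgroup G) : Set G) = V := by
          apply inf_eq_left.2
          intro v hv
          rw [Subgroup.mem_centralizer_iff]
          intro h hh
          have : h = 1 := hh
          rw [this]
          simp
        rw [h3]
        simpa using hi.1
      by_cases hB2 : B = A
      · rw [hB2]
      · exact (hi.2 B hB hB1 hB2).le
    · intro c hc
      have hAcomm : ⁅A, A⁆ = ⊥ := by
        haveI := hAel.1
        rw [Subgroup.commutator_eq_bot_iff_le_centralizer]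
        intro a ha
        rw [Subgroup.mem_centralizer_iff]
        intro b hb
        exact congrArg Subtype.val (mul_comm' (⟨b, hb⟩ : A) ⟨a, ha⟩)
      rw [hAcomm, Subgroup.mem_bot] at hc
      rw [hc]
      exact Subgroup.one_mem _
    · intro a ha
      rw [hAel.2 a ha]
      exact Subgroup.one_mem _
  have hcommne : ⁅V, A⁆ ≠ ⊥ := by
    intro h
    apply hAne
    rw [eq_bot_iff]
    intro a ha
    have h1 : a ∈ P ⊓ Subgroup.centralizer (V : Set G) := by
      refine Subgroup.mem_inf.2 ⟨hAP ha, ?_⟩
      rw [Subgroup.mem_centralizer_iff]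
      intro v hv
      have h2 := Subgroup.commutator_mem_commutator hv ha
      rw [h, Subgroup.mem_bot] at h2
      exact commutatorElement_eq_one_iff_mul_comm.1 h2
    rwa [hfaith] at h1
  -- quadratic action
  have hquadG : A ≤ Subgroup.centralizer ((⁅V, A⁆ : Subgroup G) : Set G) := by
    obtain ⟨h1, h2, h3⟩ := Cfsg.Agent.Lib.QuadAct.Replacement.timmesfeld_replacement hV hAV hbest (le_refl V)
    have h4 := h3 hcommne
    set A₁ := A ⊓ Subgroup.centralizer ((⁅V, A⁆ : Subgroup G) : Set G) with hA₁
    have hA₁ne : A₁ ≠ ⊥ := by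
      intro hb
      rw [hb] at h4
      apply h4
      simp
    have heq := (Cfsg.Agent.Lib.QuadAct.Replacement.replacement_of_best (hV := hV.1) (hAV := hAV)
      (hab := hbest.2.1) (Cfsg.Agent.Lib.QuadAct.Replacement.IsBest_of_bestOffender hbest) (le_refl V)).1
    by_cases hA₁A : A₁ = A
    · intro a ha
      have h5 : a ∈ A₁ := by
        rw [hA₁A]
        exact ha
      exact h5.2
    · have := hi.2 A₁ inf_le_left hA₁ne hA₁A
      have heq' : Nat.card ↥A₁ * Nat.card ↥(V ⊓ Subgroup.centralizer ((A₁ : Subgroup G) : Set G)) =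
          Nat.card ↥A * Nat.card ↥(V ⊓ Subgroup.centralizer ((A : Subgroup G) : Set G)) := heq
      omega
  have hval_comm : ∀ (a : G), a ∈ A → ∀ v ∈ V, a * v * a⁻¹ * v⁻¹ ∈ (⁅V, A⁆ : Subgroup G) := by
    intro a ha v hv
    have h1 := Subgroup.commutator_mem_commutator hv ha
    have h2 : a * v * a⁻¹ * v⁻¹ = ⁅v, a⁆⁻¹ := by
      rw [commutatorElement_inv, commutatorElement_def]
    rw [h2]
    exact Subgroup.inv_mem _ h1
  have hcfaith : ∀ g : ↥P, (∀ w : MV V, g • w = w) → g = 1 := by
    intro g hg
    have h1 : (g : G) ∈ P ⊓ Subgroup.centralizer (V : Set G) := by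
      refine Subgroup.mem_inf.2 ⟨g.2, ?_⟩
      rw [Subgroup.mem_centralizer_iff]
      intro v hv
      have h2 := congrArg MV.val (hg (MV.mk hv))
      rw [MV.val_smul, MV.val_mk] at h2
      exact (mul_inv_eq_iff_eq_mul.1 h2).symm
    rw [hfaith] at h1
    exact Subtype.ext h1
  have H : OffHyp p T M A' (MV V) :=
    { hW := by
        intro w
        apply MV.ext
        rw [MV.val_nsmul, hexp _ w.val_mem]
        rfl
      hfaith := hcfaith
      hnn := hnn
      huniq := by
        intro M'' h1 h2
        rw [huniq M'' ⟨h1, h2⟩, ← huniq M ⟨hM, hTM⟩]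
      hM := hM
      hTM := hTM
      hAT := hA'T
      hi₁ := by
        rw [MV.card_eq, hcardA', MV.card_fixS, hA'map]
        exact hi.1
      hi₂ := by
        intro A₀ hA₀ hne1 hne2
        have hle : A₀.map P.subtype ≤ A := by
          rw [← hA'map]
          exact Subgroup.map_mono hA₀
        have hB1 : A₀.map P.subtype ≠ ⊥ := by
          intro h
          apply hne1
          exact (Subgroup.map_eq_bot_iff_of_injective _ P.subtype_injective).1 h
        have hB2 : A₀.map P.subtype ≠ A := by
          intro h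
          apply hne2
          apply Subgroup.map_injective P.subtype_injective
          rw [h, hA'map]
        have h3 := hi.2 _ hle hB1 hB2
        rw [hcardA', MV.card_fixS, MV.card_fixS, hA'map]
        have h4 : Nat.card ↥(A₀.map P.subtype) = Nat.card A₀ :=
          Subgroup.card_map_of_injective P.subtype_injective
        rw [h4] at h3
        exact h3
      hu := by
        by_contra hno
        apply hii
        rw [eq_bot_iff, Subgroup.commutator_le]
        intro v hv g hg
        rw [Subgroup.mem_bot]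
        by_contra hne
        apply hno
        refine ⟨MV.mk hv.1, MV.mem_fixS_iff.2 hv.2, ?_⟩
        intro h
        rw [MV.mem_fixS_top_iff, MV.val_mk, Subgroup.mem_centralizer_iff] at h
        apply hne
        rw [commutatorElement_eq_one_iff_mul_comm]
        exact (h g hg).symm
      hiii := by
        intro x hx
        have h1 := hiii x hx
        apply Subgroup.map_injective P.subtype_injective
        rw [Subgroup.map_sup, hA'map]
        have h2 : (cj x A').map P.subtype = A.map (MulAut.conj (x : G)).toMonoidHom := by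
          conv_rhs => rw [← hA'map]
          rw [Subgroup.map_map, Subgroup.map_map]
          congr 1
        rw [h2, h1, ← MonoidHom.range_eq_map, Subgroup.range_subtype]
      hquad := by
        intro a ha w
        rw [MV.mem_fixS_iff, hA'map, Subgroup.mem_centralizer_iff]
        intro b hb
        have h1 := hquadG hb
        rw [Subgroup.mem_centralizer_iff] at h1
        have h2 : (a • w - w).val ∈ (⁅V, A⁆ : Subgroup G) := by
          rw [MV.val_sub, MV.val_smul]
          exact hval_comm _ ha _ w.val_mem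
        exact (h1 _ h2).symm }
  obtain ⟨F, fF, fFt, Θ, ρ, hcard, hsurj, hker, hequiv, hsolve⟩ := H.exists_model
  refine ⟨F, fF, fFt, hcard.trans hcardA', ⟨ρ⟩, ?_, ?_⟩
  · apply le_antisymm
    · rintro c ⟨hc1, hc2⟩
      have hcw : MV.mk hc1 ∈ fixS (MV V) A' := by
        rw [MV.mem_fixS_iff, hA'map]
        exact hc2
      obtain ⟨a, ha, y, hy⟩ := hsolve _ hcw
      have h1 : ((a : ↥P) • y - y).val ∈ (⁅V, A⁆ : Subgroup G) := by
        rw [MV.val_sub, MV.val_smul]
        exact hval_comm _ ha _ y.val_mem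
      have h2 : MV.mk hc1 = (a • y - y) + (MV.mk hc1 - (a • y - y)) := by abel
      have h3 := congrArg MV.val h2
      rw [MV.val_add, MV.val_mk] at h3
      rw [h3]
      refine Subgroup.mul_mem _ (Subgroup.mem_sup_left h1) (Subgroup.mem_sup_right ?_)
      exact Subgroup.mem_inf.2 ⟨MV.val_mem _, MV.mem_fixS_top_iff.1 hy⟩
    · refine sup_le ?_ (inf_le_inf_left _ (Subgroup.centralizer_le hAP))
      rw [Subgroup.commutator_le]
      intro v hv a ha
      refine Subgroup.mem_inf.2 ⟨?_, ?_⟩
      · rw [commutatorElement_def]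
        have h1 := (Subgroup.mem_normalizer_iff.1 (hAV ha) v⁻¹).1 (V.inv_mem hv)
        have h2 := V.mul_mem hv h1
        convert h2 using 1
        group
      · rw [Subgroup.mem_centralizer_iff]
        intro b hb
        have h1 := hquadG hb
        rw [Subgroup.mem_centralizer_iff] at h1
        exact (h1 _ (Subgroup.commutator_mem_commutator hv ha)).symm
  · let ψ : ↥V →* Multiplicative (Fin 2 → F) := MonoidHom.mk'
      (fun v => Multiplicative.ofAdd (Θ (MV.of v)))
      (by
        intro v v'
        rw [MV.of_mul, map_add, ofAdd_add])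
    refine ⟨hPV, inf_le_left, ρ.toMonoidHom, ψ, ?_, ?_, ?_, ?_⟩
    · exact MonoidHom.range_eq_top.2 ρ.surjective
    · intro m
      obtain ⟨w, hw⟩ := hsurj (Multiplicative.toAdd m)
      refine ⟨⟨w.val, w.val_mem⟩, ?_⟩
      change Multiplicative.ofAdd (Θ w) = m
      rw [hw]
      rfl
    · intro u
      constructor
      · intro h
        have h1 : Θ (MV.of u) = 0 := Multiplicative.ofAdd.injective h
        have h2 := (hker _).1 h1
        exact Subgroup.mem_inf.2 ⟨u.2, MV.mem_fixS_top_iff.1 h2⟩
      · intro h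
        have h1 : MV.of u ∈ fixS (MV V) (⊤ : Subgroup ↥P) := MV.mem_fixS_top_iff.2 h.2
        have h2 := (hker _).2 h1
        change Multiplicative.ofAdd (Θ (MV.of u)) = 1
        rw [h2]
        rfl
    · intro e u
      refine ⟨⟨(e : G) * (u : G) * (e : G)⁻¹, MV.conj_mem e u u.2⟩, rfl, ?_⟩
      exact hequiv e (MV.of u)

end Cfsg.Agent.S2999
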