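import Cfsg.Statements.S3000
import Cfsg.Agent.Lib.BHS.Final
import Cfsg.Agent.Lib.BHS.ModMain

set_option autoImplicit false
open Cfsg
open scoped commutatorElement
open Cfsg.Agent.Lib.BHS.OffBasic Cfsg.Agent.Lib.BHS.OffStruct Cfsg.Agent.Lib.BHS.Points
  Cfsg.Agent.Lib.BHS.Pkg Cfsg.Agent.Lib.BHS.Members Cfsg.Agent.Lib.BHS.Blocks
  Cfsg.Agent.Lib.BHS.ModTransfer Cfsg.Agent.Lib.BHS.ModMain Cfsg.Agent.Lib.BHS.Final

set_option linter.unusedVariables false
set_option linter.unusedSimpArgs false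

namespace Cfsg.Agent.S3000

/-- Let p be a prime and let P and V be subgroups of a finite group with V elementary abelian, P normalizing V and acting faithfully on it (P ∩ C(V) = 1). Suppose P is p-minimal (a Sylow p-subgroup T of P is not normal and lies in a unique maximal subgroup M of P), O_p(P) = 1, C_P(C_V(T)) ≤ M, and P has a best offender on V: a subgroup A not centralizing V, with A/C_A(V) elementary abelian, such that |B|·|C_V(B)| ≤ |A|·|C_V(A)| for every subgroup B of A. Then there are subgroups E₁, …, E_r of P (r ≥ 1), pairwise commuting and forming with T a product P = (E₁ × ⋯ × E_r)T (internal direct product of the E_i), any two of which are conjugate by an element of T, such that V = C_V(E₁⋯E_r)·∏[V, E_i] with [V, E_i, E_j] = 1 for i ≠ j, and for each i there is n ≥ 1 with either E_i ≅ SL₂(pⁿ) acting on [V, E_i]/C_{[V,E_i]}(E_i) as on its natural two-dimensional module, or p = 2 and E_i isomorphic to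 the symmetric group of degree 2ⁿ + 1 acting on [V, E_i]/C_{[V,E_i]}(E_i) as on its even-weight permutation module. -/
theorem result {G : Type*} [Group G] [Finite G] {p : ℕ} [Fact p.Prime] (V P : Subgroup G) (hV : Cfsg.IsElementaryAbelian p V) (hPV : P ≤ Subgroup.normalizer (V : Set G)) (hfaith : P ⊓ Subgroup.centralizer (V : Set G) = ⊥) (hmin : Cfsg.IsPMinimal p ↥P) (T : Sylow p ↥P) (M : Subgroup ↥P) (hM : IsCoatom M) (hTM : (T : Subgroup ↥P) ≤ M) (hOp : Cfsg.pCore p ↥P = ⊥) (hoff : ∃ A : Subgroup G, A ≤ P ∧ ¬ A ≤ Subgroup.centralizer (V : Set G) ∧ Cfsg.IsBestOffenderOn p V A) (hCT : P ⊓ Subgroup.centralizer ((V ⊓ Subgroup.centralizer ((((T : Subgroup ↥P).map P.subtype) : Subgroup G) : Set G)) : Set G) ≤ M.map P.subtype) : ∃ (r : ℕ) (E : Fin r → Subgroup G), 1 ≤ r ∧ (∀ i, E i ≤ P) ∧ (∀ i j, i ≠ j → ⁅E i, E j⁆ = ⊥) ∧ (∀ i, E i ⊓ (⨆ j ∈ {j | j ≠ i}, E j) = ⊥) ∧ (⨆ i, E i) ⊔ ((T : Subgroup ↥P).map P.subtype) = P ∧ (∀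 i j, ∃ t ∈ ((T : Subgroup ↥P).map P.subtype), (E i).map (MulAut.conj t).toMonoidHom = E j) ∧ (V ⊓ Subgroup.centralizer (((⨆ i, E i) : Subgroup G) : Set G)) ⊔ (⨆ i, ⁅V, E i⁆) = V ∧ (∀ i j, i ≠ j → ⁅⁅V, E i⁆, E j⁆ = ⊥) ∧ ∀ i, ∃ n : ℕ, 1 ≤ n ∧ ((∃ (F : Type) (_ : Field F) (_ : Fintype F), Fintype.card F = p ^ n ∧ Nonempty (↥(E i) ≃* Matrix.SpecialLinearGroup (Fin 2) F) ∧ Cfsg.ActsAsSL2OnSection F ⊤ (E i) ⁅V, E i⁆ (⁅V, E i⁆ ⊓ Subgroup.centralizer ((E i : Subgroup G) : Set G))) ∨ (p = 2 ∧ Nonempty (↥(E i) ≃* Equiv.Perm (Fin (2 ^ n + 1))) ∧ Cfsg.ActsAsOddPermModuleOnSection (2 ^ n + 1) ⊤ (E i) ⁅V, E i⁆ (⁅V, E i⁆ ⊓ Subgroup.centralizer ((E i : Subgroup G) : Set G)))) := by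
  classical
  obtain ⟨hcomm, hexp⟩ := id hV
  haveI := hcomm
  haveI : Fact (P ≤ Subgroup.normalizer (V : Set G)) := ⟨hPV⟩
  obtain ⟨hnn, M', ⟨hM', hTM'⟩, huniq⟩ := hmin T
  have hPt : PtHyp p T M := ⟨hnn, fun M'' h1 h2 => by rw [huniq M'' ⟨h1, h2⟩, ← huniq M ⟨hM, hTM⟩], hM, hTM⟩
  have hW : ∀ w : MV V, p • w = 0 := by
    intro w
    apply MV.ext
    rw [MV.val_nsmul, hexp _ w.val_mem]
    rfl
  have hcfaith : ∀ g : ↥P, (∀ w : MV V, g • w = w) → g = 1 := by
    intro g hg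
    have h1 : (g : G) ∈ P ⊓ Subgroup.centralizer (V : Set G) := by
      refine Subgroup.mem_inf.2 ⟨g.2, ?_⟩
      rw [Subgroup.mem_centralizer_iff]
      intro v hv
      have h2 := congrArg MV.val (hg (MV.mk hv))
      rw [MV.val_smul, MV.val_mk] at h2
      exact (mul_inv_eq_iff_eq_mul.1 h2).symm
    rw [hfaith] at h1
    exact Subtype.ext h1
  have hCT' : ∀ g : ↥P, (∀ u ∈ fixS (MV V) (T : Subgroup ↥P), g • u = u) → g ∈ M := by
    intro g hg
    have h1 : (g : G) ∈ P ⊓ Subgroup.centralizer ((V ⊓ Subgroup.centralizer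
        (((T : Subgroup ↥P).map P.subtype : Subgroup G) : Set G) : Subgroup G) : Set G) := by
      refine Subgroup.mem_inf.2 ⟨g.2, ?_⟩
      rw [Subgroup.mem_centralizer_iff]
      rintro x ⟨hx₁, hx₂⟩
      have h2 := congrArg MV.val (hg (MV.mk hx₁) (MV.mem_fixS_iff.2 hx₂))
      rw [MV.val_smul, MV.val_mk] at h2
      exact (mul_inv_eq_iff_eq_mul.1 h2).symm
    obtain ⟨m, hm, hmg⟩ := hCT h1
    have : m = g := Subtype.ext hmg
    rwa [← this]
  have hoff' : ∃ A₀ : Subgroup ↥P, IsEA p A₀ ∧ A₀ ≠ ⊥ ∧ ∀ B ≤ A₀, jv (MV V) B ≤ jv (MV V) A₀ := by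
    obtain ⟨A, hAP, hAC, hBA⟩ := hoff
    have hA'map : (A.subgroupOf P).map P.subtype = A := subgroupOf_map hAP
    refine ⟨A.subgroupOf P, ⟨?_, ?_⟩, ?_, ?_⟩
    · intro a ha b hb
      have h1 : ⁅(a : G), (b : G)⁆ ∈ P ⊓ Subgroup.centralizer (V : Set G) := by
        refine Subgroup.mem_inf.2 ⟨?_, hBA.2.1 (Subgroup.commutator_mem_commutator ha hb)⟩
        exact (⁅a, b⁆ : ↥P).2
      rw [hfaith, Subgroup.mem_bot, commutatorElement_eq_one_iff_mul_comm] at h1
      exact Subtype.ext h1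
    · intro a ha
      have h1 : (a : G) ^ p ∈ P ⊓ Subgroup.centralizer (V : Set G) :=
        Subgroup.mem_inf.2 ⟨(a ^ p : ↥P).2, hBA.2.2 _ ha⟩
      rw [hfaith, Subgroup.mem_bot] at h1
      exact Subtype.ext h1
    · intro hb
      apply hAC
      rw [hb, Subgroup.map_bot] at hA'map
      rw [← hA'map]
      exact bot_le
    · intro B hB
      have h1 := hBA.1 (B.map P.subtype) (by
        rw [← hA'map]
        exact Subgroup.map_mono hB)
      unfold jv
      rw [MV.card_fixS, MV.card_fixS, hA'map, card_subgroupOf hAP]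
      rw [Subgroup.card_map_of_injective P.subtype_injective] at h1
      exact h1
  obtain ⟨A', H⟩ := exists_main hPt hW hcfaith hCT' hOp hoff'
  obtain ⟨r, E, hB⟩ := main_blocks H
  have hmapSup : ∀ (f : Fin r → Subgroup ↥P), (⨆ i, (f i).map P.subtype) = (⨆ i, f i).map P.subtype := by
    intro f
    rw [Subgroup.map_iSup]
  refine ⟨r, fun i => (E i).map P.subtype, ?_, ?_, ?_, ?_, ?_, ?_, ?_, ?_, ?_⟩
  · obtain ⟨i⟩ := hB.ne
    exact Nat.one_le_iff_ne_zero.2 (fun h => by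
      subst h
      exact i.elim0)
  · intro i
    exact Subgroup.map_subtype_le _
  · intro i j hij
    rw [Subgroup.commutator_eq_bot_iff_le_centralizer]
    rintro _ ⟨a, ha, rfl⟩
    rw [Subgroup.mem_centralizer_iff]
    rintro _ ⟨b, hb, rfl⟩
    exact congrArg Subtype.val (hB.comm j i hij.symm b hb a ha)
  · intro i
    have h1 := hB.inf_eq_bot hcfaith i
    rw [eq_bot_iff]
    rintro g ⟨⟨e, he, rfl⟩, hg₂⟩
    have h2 : (⨆ j ∈ {j | j ≠ i}, (E j).map P.subtype) = (⨆ j ∈ {j | j ≠ i}, E j).map P.subtype := by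
      simp only [Subgroup.map_iSup]
    have hg₂' : P.subtype e ∈ (⨆ j ∈ {j | j ≠ i}, E j).map P.subtype := by
      rw [← h2]
      exact hg₂
    obtain ⟨e', he', hee⟩ := hg₂'
    have h3 : e' = e := P.subtype_injective hee
    rw [h3] at he'
    have h4 : e ∈ E i ⊓ ⨆ j ∈ {j | j ≠ i}, E j := ⟨he, he'⟩
    rw [h1, Subgroup.mem_bot] at h4
    rw [h4]
    simp
  · rw [hmapSup, ← Subgroup.map_sup, hB.top, ← MonoidHom.range_eq_map, Subgroup.range_subtype]
  · intro i j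
    obtain ⟨t, ht, he⟩ := hB.trans i j
    refine ⟨(t : G), ⟨t, ht, rfl⟩, ?_⟩
    show ((E i).map P.subtype).map (MulAut.conj (t : G)).toMonoidHom = (E j).map P.subtype
    rw [← he, Subgroup.map_map]
    unfold Cfsg.Agent.Lib.BHS.OffBasic.cj
    rw [Subgroup.map_map]
    congr 1
  · have h1 := congrArg toG hB.sup_split
    rw [toG_sup, toG_iSup, toG_top, toG_fixS] at h1
    rw [hmapSup]
    simp only [toG_comS] at h1
    exact h1
  · intro i j hij
    rw [Subgroup.commutator_eq_bot_iff_le_centralizer, ← toG_comS]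
    have h1 := comS_le (hB.quad j i hij.symm)
    have h2 := toG_mono h1
    rw [toG_fixS] at h2
    exact h2.trans inf_le_right
  · intro i
    obtain ⟨n, hn, hk⟩ := hB.kind i
    refine ⟨n, hn, ?_⟩
    rcases hk with hk | ⟨h2, hk⟩
    · exact Or.inl (sl2_transfer hk (hB.split i))
    · exact Or.inr ⟨h2, perm_transfer hk (hB.split i)⟩

end Cfsg.Agent.S3000
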