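import Cfsg.Statements.S3001
import Cfsg.Agent.Lib.BHS.Reduce
import Cfsg.Agent.Lib.BHS.Final

set_option autoImplicit false
open Cfsg
open scoped commutatorElement
open Cfsg.Agent.Lib.BHS.OffBasic Cfsg.Agent.Lib.BHS.OffStruct Cfsg.Agent.Lib.BHS.Points
  Cfsg.Agent.Lib.BHS.Pkg Cfsg.Agent.Lib.BHS.Members Cfsg.Agent.Lib.BHS.Blocks
  Cfsg.Agent.Lib.BHS.ModTransfer Cfsg.Agent.Lib.BHS.ModMain Cfsg.Agent.Lib.BHS.Final
  Cfsg.Agent.Lib.BHS.Reduce

set_option linter.unusedVariables false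
set_option linter.unusedSimpArgs false

namespace Cfsg.Agent.S3001

/-- Let p be a prime and let P and V be subgroups of a finite group with V elementary abelian, P normalizing V and acting faithfully on it (P ∩ C(V) = 1). Suppose P is p-minimal (a Sylow p-subgroup is not normal and lies in a unique maximal subgroup), O_p(P) = 1, and P has a best offender on V (a subgroup A not centralizing V, with A/C_A(V) elementary abelian and |B|·|C_V(B)| ≤ |A|·|C_V(A)| for every B ≤ A). Then [C_V(T), P] ≠ 1 for every Sylow p-subgroup T of P. -/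
theorem result {G : Type*} [Group G] [Finite G] {p : ℕ} [Fact p.Prime] (V P : Subgroup G) (hV : Cfsg.IsElementaryAbelian p V) (hPV : P ≤ Subgroup.normalizer (V : Set G)) (hfaith : P ⊓ Subgroup.centralizer (V : Set G) = ⊥) (hmin : Cfsg.IsPMinimal p ↥P) (hOp : Cfsg.pCore p ↥P = ⊥) (hoff : ∃ A : Subgroup G, A ≤ P ∧ ¬ A ≤ Subgroup.centralizer (V : Set G) ∧ Cfsg.IsBestOffenderOn p V A) (T : Sylow p ↥P) : ⁅(V ⊓ Subgroup.centralizer ((((T : Subgroup ↥P).map P.subtype) : Subgroup G) : Set G)), P⁆ ≠ ⊥ := by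
  classical
  obtain ⟨hcomm, hexp⟩ := id hV
  haveI := hcomm
  haveI : Fact (P ≤ Subgroup.normalizer (V : Set G)) := ⟨hPV⟩
  obtain ⟨hnn, M, ⟨hM, hTM⟩, huniq⟩ := hmin T
  have hPt : PtHyp p T M := ⟨hnn, fun M'' h1 h2 => huniq M'' ⟨h1, h2⟩, hM, hTM⟩
  have hW : ∀ w : MV V, p • w = 0 := by
    intro w
    apply MV.ext
    rw [MV.val_nsmul, hexp _ w.val_mem]
    rfl
  have hcfaith : ∀ g : ↥P, (∀ w : MV V, g • w = w) → g = 1 := by
    intro g hg
    have h1 : (g : G) ∈ P ⊓ Subgroup.centralizer (V : Set G) := by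
      refine Subgroup.mem_inf.2 ⟨g.2, ?_⟩
      rw [Subgroup.mem_centralizer_iff]
      intro v hv
      have h2 := congrArg MV.val (hg (MV.mk hv))
      rw [MV.val_smul, MV.val_mk] at h2
      exact (mul_inv_eq_iff_eq_mul.1 h2).symm
    rw [hfaith] at h1
    exact Subtype.ext h1
  have hoff' : ∃ A₀ : Subgroup ↥P, IsEA p A₀ ∧ A₀ ≠ ⊥ ∧ ∀ B ≤ A₀, jv (MV V) B ≤ jv (MV V) A₀ := by
    obtain ⟨A, hAP, hAC, hBA⟩ := hoff
    have hA'map : (A.subgroupOf P).map P.subtype = A := subgroupOf_map hAP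
    refine ⟨A.subgroupOf P, ⟨?_, ?_⟩, ?_, ?_⟩
    · intro a ha b hb
      have h1 : ⁅(a : G), (b : G)⁆ ∈ P ⊓ Subgroup.centralizer (V : Set G) := by
        refine Subgroup.mem_inf.2 ⟨?_, hBA.2.1 (Subgroup.commutator_mem_commutator ha hb)⟩
        exact (⁅a, b⁆ : ↥P).2
      rw [hfaith, Subgroup.mem_bot, commutatorElement_eq_one_iff_mul_comm] at h1
      exact Subtype.ext h1
    · intro a ha
      have h1 : (a : G) ^ p ∈ P ⊓ Subgroup.centralizer (V : Set G) :=
        Subgroup.mem_inf.2 ⟨(a ^ p : ↥P).2, hBA.2.2 _ ha⟩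
      rw [hfaith, Subgroup.mem_bot] at h1
      exact Subtype.ext h1
    · intro hb
      apply hAC
      rw [hb, Subgroup.map_bot] at hA'map
      rw [← hA'map]
      exact bot_le
    · intro B hB
      have h1 := hBA.1 (B.map P.subtype) (by
        rw [← hA'map]
        exact Subgroup.map_mono hB)
      unfold jv
      rw [MV.card_fixS, MV.card_fixS, hA'map, card_subgroupOf hAP]
      rw [Subgroup.card_map_of_injective P.subtype_injective] at h1
      exact h1
  obtain ⟨u, hu, g, hg⟩ := moved_fixed hPt hOp hW hcfaith hoff'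
  intro hbot
  apply hg
  have hmem : u.val ∈ V ⊓ Subgroup.centralizer ((((T : Subgroup ↥P).map P.subtype) : Subgroup G) : Set G) :=
    ⟨u.val_mem, MV.mem_fixS_iff.1 hu⟩
  have hc := Subgroup.commutator_mem_commutator hmem g.2
  rw [hbot, Subgroup.mem_bot, commutatorElement_eq_one_iff_mul_comm] at hc
  apply MV.ext
  rw [MV.val_smul]
  rw [mul_inv_eq_iff_eq_mul]
  exact hc.symm

end Cfsg.Agent.S3001
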