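import Cfsg.Statements.S3003
import Cfsg.Agent.Lib.Coprime.Generation2
import Cfsg.Agent.Lib.LocalEven.Util

set_option autoImplicit false
open Cfsg

namespace Cfsg.Agent.S3003

open Subgroup in
/-- A subgroup of prime index is a coatom. -/
theorem isCoatom_of_index_prime {U : Type*} [Group U] [Finite U] (H : Subgroup U) {p : ℕ} (hp : p.Prime)
    (h : H.index = p) : IsCoatom H := by
  refine ⟨?_, fun K hK => ?_⟩
  · rintro rfl
    rw [Subgroup.index_top] at h
    exact hp.one_lt.ne h
  · have hm := Subgroup.relIndex_mul_index hK.le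
    rw [h] at hm
    have hd : K.index ∣ p := ⟨_, by rw [← hm, mul_comm]⟩
    rcases (Nat.dvd_prime hp).1 hd with h1 | h1
    · exact Subgroup.index_eq_one.1 h1
    · exfalso
      rw [h1] at hm
      have h2 : H.relIndex K = 1 := by
        have : H.relIndex K * p = 1 * p := by rw [hm, one_mul]
        exact Nat.eq_of_mul_eq_mul_right hp.pos this
      rw [Subgroup.relIndex_eq_one] at h2
      exact (not_le_of_gt hK) h2

/-- Let G be a finite group, p a prime and Q a large p-subgroup of G: C_G(Q) ≤ Q and N_G(U) ≤ N_G(Q) for every nontrivial subgroup U of C_G(Q). Let Q ≤ G₁ ≤ G, let R be a subgroup of order prime to p normalized by G₁, and let U ≤ G₁ be a p-subgroup. If U contains a nontrivial element which is G₁-conjugate to an element of Z(Q), then C_R(U) = 1. In particular, if U is elementary abelian of order at least p² and every maximal subgroup of U contains a nontrivial element G₁-conjugate into Z(Q), then R = 1. -/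
theorem result {G : Type*} [Group G] [Finite G] {p : ℕ} [Fact p.Prime] (Q : Subgroup G) (hQp : IsPGroup p ↥Q) (hlarge : Cfsg.IsLarge Q) (G₁ : Subgroup G) (hQG : Q ≤ G₁) (R : Subgroup G) (hR : (Nat.card ↥R).Coprime p) (hGR : G₁ ≤ Subgroup.normalizer (R : Set G)) (U : Subgroup G) (hUG : U ≤ G₁) (hUp : IsPGroup p ↥U) : ((∃ x ∈ U, x ≠ 1 ∧ ∃ g ∈ G₁, g * x * g⁻¹ ∈ Q ⊓ Subgroup.centralizer (Q : Set G)) → R ⊓ Subgroup.centralizer (U : Set G) = ⊥) ∧ (Cfsg.IsElementaryAbelian p U → p ^ 2 ≤ Nat.card ↥U → (∀ U₀ : Subgroup G, U₀ ≤ U → IsCoatom (U₀.subgroupOf U) → ∃ x ∈ U₀, x ≠ 1 ∧ ∃ g ∈ G₁, g * x * g⁻¹ ∈ Q ⊓ Subgroup.centralizer (Q : Set G)) → R = ⊥) := by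
    classical
  have hQR : Q ⊓ R = ⊥ := by
    rw [← disjoint_iff]
    apply Subgroup.disjoint_of_coprime_natCard
    obtain ⟨n, hn⟩ := IsPGroup.iff_card.1 hQp
    rw [hn]
    exact Nat.Coprime.pow_left _ hR.symm
  have part1 : ∀ U : Subgroup G, (∃ x ∈ U, x ≠ 1 ∧ ∃ g ∈ G₁, g * x * g⁻¹ ∈ Q ⊓ Subgroup.centralizer (Q : Set G)) →
      R ⊓ Subgroup.centralizer (U : Set G) = ⊥ := by
    rintro U ⟨x, hxU, hx1, g, hg, hz⟩
    set z := g * x * g⁻¹ with hzdef
    have hz1 : z ≠ 1 := by
      intro h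
      apply hx1
      have : x = g⁻¹ * z * g := by rw [hzdef]; group
      rw [this, h]; group
    have hzC : z ∈ Subgroup.centralizer (Q : Set G) := hz.2
    -- `C_R(z) = 1`
    have hCz : ∀ y ∈ R, y * z = z * y → y = 1 := by
      intro y hyR hyz
      have hN : Subgroup.normalizer ((Subgroup.zpowers z : Subgroup G) : Set G) ≤
          Subgroup.normalizer (Q : Set G) := by
        refine hlarge.2 (Subgroup.zpowers z) ?_ ?_
        · exact Subgroup.zpowers_le.2 hzC
        · intro h
          exact hz1 (Subgroup.zpowers_eq_bot.1 h)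
      have hyN : y ∈ Subgroup.normalizer (Q : Set G) := by
        apply hN
        have hcomm : Commute y z := hyz
        apply Cfsg.Agent.Lib.LocalEven.Util.mem_normalizer_of_conj_le
        rintro _ ⟨k, rfl⟩
        refine ⟨k, ?_⟩
        simp only [] 
        have : y * z ^ k * y⁻¹ = z ^ k := by
          rw [(hcomm.zpow_right k).eq]; group
        exact this.symm
      have hyC : y ∈ Subgroup.centralizer (Q : Set G) := by
        rw [Subgroup.mem_centralizer_iff]
        intro q hq
        -- `[q, y] ∈ Q ⊓ R`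
        have h1 : y * q * y⁻¹ * q⁻¹ ∈ Q :=
          mul_mem ((Subgroup.mem_normalizer_iff.1 hyN q).1 hq) (inv_mem hq)
        have h2 : y * (q * y⁻¹ * q⁻¹) ∈ R := by
          refine mul_mem hyR ?_
          exact (Subgroup.mem_normalizer_iff.1 (hGR (hQG hq)) y⁻¹).1 (inv_mem hyR)
        have h3 : y * q * y⁻¹ * q⁻¹ = 1 := by
          have : y * q * y⁻¹ * q⁻¹ ∈ Q ⊓ R := ⟨h1, by
            have he : y * q * y⁻¹ * q⁻¹ = y * (q * y⁻¹ * q⁻¹) := by group
            rw [he]; exact h2⟩
          rw [hQR] at this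
          exact this
        have h4 : y * q * y⁻¹ = q := by
          calc y * q * y⁻¹ = (y * q * y⁻¹ * q⁻¹) * q := by group
            _ = q := by rw [h3, one_mul]
        calc q * y = (y * q * y⁻¹) * y := by rw [h4]
          _ = y * q := by group
      have : y ∈ Q ⊓ R := ⟨hlarge.1 hyC, hyR⟩
      rw [hQR] at this
      exact this
    rw [eq_bot_iff]
    rintro y ⟨hyR, hyC⟩
    rw [Subgroup.mem_bot]
    have hyx : y * x = x * y := (Subgroup.mem_centralizer_iff.1 hyC x hxU).symm
    have h5 := hCz (g * y * g⁻¹) ((Subgroup.mem_normalizer_iff.1 (hGR hg) y).1 hyR) (by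
      rw [hzdef]
      calc g * y * g⁻¹ * (g * x * g⁻¹) = g * (y * x) * g⁻¹ := by group
        _ = g * (x * y) * g⁻¹ := by rw [hyx]
        _ = g * x * g⁻¹ * (g * y * g⁻¹) := by group)
    have : y = g⁻¹ * (g * y * g⁻¹) * g := by group
    rw [this, h5]; group
  refine ⟨part1 U, ?_⟩
  intro hUe hU2 hcoat
  have hp : p.Prime := Fact.out
  have hUp' : ¬ p ∣ Nat.card R := (Nat.Prime.coprime_iff_not_dvd hp).1 hR.symm
  have hRgen := Cfsg.Agent.Lib.Coprime.Generation2.eq_iSup_relIndex_le hUe hUp'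
    (hUG.trans hGR)
  rw [hRgen, eq_bot_iff]
  refine iSup_le ?_
  rintro ⟨B, hBU, hBi⟩
  have hco : ∀ U₀ : Subgroup G, U₀ ≤ U → IsCoatom (U₀.subgroupOf U) →
      R ⊓ Subgroup.centralizer (U₀ : Set G) = ⊥ :=
    fun U₀ hU₀ hc => part1 U₀ (hcoat U₀ hU₀ hc)
  have hUpg : IsPGroup p U := Cfsg.Agent.Lib.Coprime.Generation2.isPGroup_of_isElementaryAbelian hUe
  obtain ⟨n, hn⟩ := IsPGroup.iff_card.1 hUpg
  have hd : (B.subgroupOf U).index ∣ p ^ n := by
    rw [← hn]
    exact Subgroup.index_dvd_card _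
  obtain ⟨k, -, hk⟩ := (Nat.dvd_prime_pow hp).1 hd
  have hBi' : (B.subgroupOf U).index ≤ p := hBi
  have hk1 : k ≤ 1 := by
    rw [hk] at hBi'
    by_contra hlt
    push Not at hlt
    have : p ^ 2 ≤ p ^ k := Nat.pow_le_pow_right hp.pos hlt
    have h2 : p < p ^ 2 := by nlinarith [hp.one_lt]
    omega
  interval_cases k
  · -- `B = U`
    rw [pow_zero] at hk
    have hUB : U ≤ B := by
      rw [← Subgroup.relIndex_eq_one]
      exact hk
    have hnt : (⊥ : Subgroup U) ≠ ⊤ := by
      intro h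
      have h1 : Nat.card U = 1 := by
        have := Subgroup.card_top (G := U)
        rw [← h, Subgroup.card_bot] at this
        exact this.symm
      rw [h1] at hU2
      have := Nat.one_lt_pow (n := 2) (by norm_num) hp.one_lt
      omega
    obtain h | ⟨C, hC, -⟩ := eq_top_or_exists_le_coatom (⊥ : Subgroup U)
    · exact absurd h hnt
    have hU₀ : C.map U.subtype ≤ U := Subgroup.map_subtype_le _
    have hsub : (C.map U.subtype).subgroupOf U = C := by
      ext y
      simp [Subgroup.mem_subgroupOf]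
    have := hco (C.map U.subtype) hU₀ (by rw [hsub]; exact hC)
    rw [← this]
    refine inf_le_inf_left _ ?_
    exact Subgroup.centralizer_le (hU₀.trans hUB)
  · rw [pow_one] at hk
    have hc : IsCoatom (B.subgroupOf U) := isCoatom_of_index_prime _ hp hk
    rw [hco B hBU hc]

end Cfsg.Agent.S3003
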