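import Cfsg.Statements.S3008
import Cfsg.Agent.Lib.CD.MclFix

set_option autoImplicit false
open Cfsg

namespace Cfsg.Agent.S3008

open Cfsg.Agent.Lib.CD.Basic Cfsg.Agent.Lib.CD.MclFix

/-- Let P be a finite p-group, with J(P) generated by its abelian subgroups of largest order and J̃(P) = C_P(Z(J(P))); call R ≤ P centrally large if |R|·|Z(R)| is as large as possible, and let P_MCL be generated by the minimal centrally large subgroups. Then: for every centrally large Q, Q·J(P) ⊇ J̃(P); some minimal centrally large subgroup of P is normalized by both J(P) and P_MCL; if P = J(P) and d(P)² = |P|·|Z(P)|, where d(P) is the largest order of an abelian subgroup, then every minimal centrally large subgroup of P is abelian; and if every minimal centrally large subgroup is abelian then J̃(P) = J(P). -/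
theorem result {p : ℕ} [Fact p.Prime] (P : Type*) [Group P] [Finite P] (hP : IsPGroup p P) : (∀ Q : Subgroup P, Cfsg.IsCentrallyLarge Q → Subgroup.centralizer ((Cfsg.thompsonSubgroupA P ⊓ Subgroup.centralizer (Cfsg.thompsonSubgroupA P : Set P) : Subgroup P) : Set P) ≤ Q ⊔ Cfsg.thompsonSubgroupA P) ∧ (∃ Q : Subgroup P, Cfsg.IsMinimalCentrallyLarge Q ∧ Cfsg.thompsonSubgroupA P ≤ Subgroup.normalizer (Q : Set P) ∧ Cfsg.minimalCentrallyLargeJoin P ≤ Subgroup.normalizer (Q : Set P)) ∧ (Cfsg.thompsonSubgroupA P = ⊤ → (∀ A ∈ Cfsg.maxAbelianSubgroups P, Nat.card ↥A ^ 2 = Nat.card P * Nat.card ↥(Subgroup.center P)) → ∀ Q : Subgroup P, Cfsg.IsMinimalCentrallyLarge Q → IsMulCommutative ↥Q) ∧ ((∀ Q : Subgroup P, Cfsg.IsMinimalCentrallyLarge Q → IsMulCommutative ↥Q) → Subgroup.centralizer ((Cfsg.thompsonSubgroupA P ⊓ Subgroup.centralizer (Cfsg.thompsonSubgroupA P : Set P) : Subgroup P) : Set P) = Cfsg.thompsonSubgroupA P) := by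
  refine ⟨fun Q hQ => jtilde_le (thompson_le_of_cl_sup hQ) le_sup_right, exists_mcl_normalized hP, ?_, ?_⟩
  · intro hJ hcard Q hQ
    obtain ⟨X, hX⟩ := exists_centrallyLarge (P := P)
    have htop : Cfsg.IsCentrallyLarge (⊤ : Subgroup P) := by
      have := thompson_le_of_cl_sup hX
      rwa [hJ, sup_top_eq] at this
    have hf : Nat.card P * Nat.card ↥(Subgroup.center P) = maxCentralizerProduct P := by
      have h1 := (large_of_cl htop).1
      have h2 : Nat.card ↥(⊤ : Subgroup P) * Nat.card ↥(Subgroup.centralizer (((⊤ : Subgroup P)) : Set P)) =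
        maxCentralizerProduct P := h1
      rw [Subgroup.card_top, Subgroup.coe_top, Subgroup.centralizer_univ] at h2
      exact h2
    obtain ⟨A, hA⟩ := exists_maxAbelian (P := P)
    have hAC := cent_eq_of_maxAbelian hA
    have hAl : Cfsg.IsCentralizerLarge A := by
      show Nat.card A * Nat.card ↥(Subgroup.centralizer (A : Set P)) = _
      rw [hAC, ← sq, hcard A hA, hf]
    have hAcl : Cfsg.IsCentrallyLarge A := (cl_iff hAl).mpr hAC.le
    obtain ⟨R, hR, hRA⟩ := exists_mcl_le hAcl
    have hRc : IsMulCommutative R := isMulComm_of_le hA.1 hRA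
    exact ((mcl_iff_maxAbelian hR hRc Q).mp hQ).1
  · intro hab
    obtain ⟨R, hR⟩ := exists_minimal_cl (P := P)
    have hset : Cfsg.maxAbelianSubgroups P = {X : Subgroup P | Cfsg.IsMinimalCentrallyLarge X} := by
      ext X
      exact (mcl_iff_maxAbelian hR (hab R hR) X).symm
    have hJ : Cfsg.thompsonSubgroupA P = Cfsg.minimalCentrallyLargeJoin P := by
      unfold Cfsg.thompsonSubgroupA Cfsg.minimalCentrallyLargeJoin
      rw [hset]
    rw [hJ]
    obtain ⟨h1, h2⟩ := large_of_cl (mcl_join (P := P))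
    rw [inf_eq_right.mpr h2]
    exact cent_cent_eq h1

end Cfsg.Agent.S3008
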