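import Cfsg.Statements.S3009
import Cfsg.Agent.Lib.BHS.SL2Transfer

set_option autoImplicit false
open Cfsg

namespace Cfsg.Agent.S3009

/-- Let p be a prime and let G and V be subgroups of a finite group with V elementary abelian and normalized by G, and G isomorphic to SL₂(F) for a finite field F with pⁿ elements. Suppose G acts irreducibly and nontrivially on V by conjugation (no G-invariant subgroups of V other than 1 and V, and [V, G] ≠ 1), and let S be a Sylow p-subgroup of G and V₀ = C_V(S). If [V, S, S] = 1 or |V| ≤ |V₀|², then G acts on V as SL₂(F) on its natural two-dimensional module; in particular |V| = |F|². -/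
theorem result {X : Type*} [Group X] [Finite X] {p : ℕ} [Fact p.Prime] (G V : Subgroup X) (hV : Cfsg.IsElementaryAbelian p V) (hGV : G ≤ Subgroup.normalizer (V : Set X)) (F : Type) [Field F] [Fintype F] (n : ℕ) (hF : Fintype.card F = p ^ n) (hG : Nonempty (↥G ≃* Matrix.SpecialLinearGroup (Fin 2) F)) (hirr : ∀ U : Subgroup X, U ≤ V → G ≤ Subgroup.normalizer (U : Set X) → U = ⊥ ∨ U = V) (hnt : ⁅V, G⁆ ≠ ⊥) (S : Sylow p ↥G) (hyp : ⁅⁅V, (S : Subgroup ↥G).map G.subtype⁆, (S : Subgroup ↥G).map G.subtype⁆ = ⊥ ∨ Nat.card ↥V ≤ Nat.card ↥(V ⊓ Subgroup.centralizer (((S : Subgroup ↥G).map G.subtype : Subgroup X) : Set X)) ^ 2) : Cfsg.ActsAsSL2OnSection F ⊤ G V ⊥ := by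
  classical
  obtain ⟨ι⟩ := hG
  have hnn : n ≠ 0 := by
    rintro rfl
    have := Fintype.one_lt_card (α := F)
    rw [hF] at this
    simp at this
  have hchar : (p : F) = 0 := by
    obtain ⟨q, hq⟩ := CharP.exists F
    have hqp : q = p := by
      haveI := hq
      obtain ⟨m, hm, hpm⟩ := FiniteField.card F q
      have hqprime : q.Prime := hm
      have h1 : q ∣ p ^ n := by
        rw [← hF, hpm]
        exact dvd_pow_self q (PNat.ne_zero m)
      exact (Nat.prime_dvd_prime_iff_eq hqprime (Fact.out)).1 (hqprime.dvd_of_dvd_pow h1)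
    subst hqp
    exact CharP.cast_eq_zero F q
  obtain ⟨ι', hι'⟩ := Cfsg.Agent.Lib.BHS.SL2Transfer.exists_iso_sylow_eq_upS (p := p) G F hchar ι S
  exact Cfsg.Agent.Lib.BHS.SL2Transfer.main_transfer G V F hV hGV hchar ι' (S : Subgroup G) hι' hirr hnt hyp

end Cfsg.Agent.S3009
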