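import Cfsg.Statements.S3013

set_option autoImplicit false
open Cfsg

namespace Cfsg.Agent.S3013

open Subgroup

/-- An element commuting with the square of an odd-order element commutes with the element. -/
theorem commute_of_sq {G : Type*} [Group G] {w h : G} (hodd : Odd (orderOf h))
    (hc : w * (h * h) = (h * h) * w) : w * h = h * w := by
  obtain ⟨k, hk⟩ := hodd
  have h1 : h = (h * h) ^ (k + 1) := by
    rw [← pow_two, ← pow_mul]
    have : 2 * (k + 1) = orderOf h + 1 := by omega
    rw [this, pow_succ, pow_orderOf_eq_one, one_mul]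
  have hcomm : Commute w (h * h) := hc
  rw [h1]
  exact (hcomm.pow_right (k + 1)).eq

/-- Let G be a finite group and V a nontrivial elementary abelian 2-subgroup of G satisfying the Sidki pair condition. Let v ∈ V and let x be an element of odd order inverted by v, and put C = C_G(v) ∩ C_G(x), the centralizer of the dihedral subgroup generated by v and x. Then C ∩ V is nontrivial and satisfies the Sidki pair condition inside C: every odd-order element of C inverted by an element of C ∩ V commutes with a nontrivial element of C ∩ V. -/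
theorem result {G : Type*} [Group G] [Finite G] (V : Subgroup G) (hV : Cfsg.IsElementaryAbelian 2 V) (hV1 : V ≠ ⊥) (hS : Cfsg.IsSidkiPair V) (v x : G) (hv : v ∈ V) (hx : Odd (orderOf x)) (hinv : v * x * v⁻¹ = x⁻¹) (C : Subgroup G) (hC : C = Subgroup.centralizer ({v} : Set G) ⊓ Subgroup.centralizer ({x} : Set G)) : C ⊓ V ≠ ⊥ ∧ Cfsg.IsSidkiPair ((C ⊓ V).subgroupOf C) := by
  classical
  have hV2 : ∀ u ∈ V, u * u = 1 := fun u hu => by simpa [pow_two] using hV.2 u hu
  have hVcomm : ∀ u ∈ V, ∀ u' ∈ V, u * u' = u' * u := fun u hu u' hu' =>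
    congrArg Subtype.val (hV.1.is_comm.comm ⟨u, hu⟩ ⟨u', hu'⟩)
  have hmemC : ∀ u : G, u ∈ C ↔ u * v = v * u ∧ u * x = x * u := by
    intro u
    subst hC
    simp only [mem_inf, mem_centralizer_iff, Set.mem_singleton_iff, forall_eq]
    constructor
    · rintro ⟨h1, h2⟩; exact ⟨h1.symm, h2.symm⟩
    · rintro ⟨h1, h2⟩; exact ⟨h1.symm, h2.symm⟩
  refine ⟨?_, ?_⟩
  · obtain ⟨w, hwV, hw1, hwc⟩ := hS x v hv hx hinv
    intro hbot
    have hw : w ∈ C ⊓ V := ⟨(hmemC w).2 ⟨hVcomm w hwV v hv, hwc⟩, hwV⟩
    rw [hbot] at hw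
    exact hw1 (by simpa using hw)
  · intro h v' hv' hodd hinv'
    have hv'C : (v' : G) ∈ C := v'.2
    have hv'V : (v' : G) ∈ V := by
      have := hv'
      rw [Subgroup.mem_subgroupOf] at this
      exact this.2
    obtain ⟨hhv, hhx⟩ := (hmemC (h : G)).1 h.2
    obtain ⟨hv'v, hv'x⟩ := (hmemC (v' : G)).1 hv'C
    have hinvG : (v' : G) * h * (v' : G)⁻¹ = (h : G)⁻¹ := by
      have := congrArg Subtype.val hinv'
      simpa using this
    have hoddG : Odd (orderOf (h : G)) := by
      rwa [Subgroup.orderOf_coe]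
    have hvinv : v⁻¹ = v := inv_eq_of_mul_eq_one_left (hV2 v hv)
    have hcommxh : Commute (h : G) x := hhx
    have hhxodd : Odd (orderOf ((h : G) * x)) := by
      have h1 : Nat.Coprime (orderOf (h : G) * orderOf x) 2 := by
        rw [Nat.coprime_two_right]
        exact hoddG.mul hx
      have h2 : orderOf ((h : G) * x) ∣ orderOf (h : G) * orderOf x :=
        hcommxh.orderOf_mul_dvd_mul_orderOf
      rw [← Nat.coprime_two_right]
      exact Nat.Coprime.coprime_dvd_left h2 h1
    have hinv2 : (v * v') * ((h : G) * x) * (v * v')⁻¹ = ((h : G) * x)⁻¹ := by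
      have e1 : (v * v') * ((h : G) * x) * (v * v')⁻¹
          = v * ((v' : G) * h * (v' : G)⁻¹) * v⁻¹ * (v * ((v' : G) * x * (v' : G)⁻¹) * v⁻¹) := by
        group
      rw [e1, hinvG, hv'x, mul_inv_cancel_right, hinv]
      have e2 : v * (h : G)⁻¹ * v⁻¹ = (h : G)⁻¹ := by
        have : v * (h : G)⁻¹ = (h : G)⁻¹ * v := by
          have h3 : (h : G) * v = v * h := hhv
          calc v * (h : G)⁻¹ = (h : G)⁻¹ * ((h : G) * v) * (h : G)⁻¹ := by group
            _ = (h : G)⁻¹ * (v * h) * (h : G)⁻¹ := by rw [h3]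
            _ = (h : G)⁻¹ * v := by group
        rw [this]; group
      rw [e2]
      rw [mul_inv_rev]
      have : (h : G)⁻¹ * x⁻¹ = x⁻¹ * (h : G)⁻¹ := by
        have := (hcommxh.inv_inv).eq
        exact this
      exact this
    obtain ⟨w, hwV, hw1, hwc⟩ := hS ((h : G) * x) (v * v') (V.mul_mem hv hv'V) hhxodd hinv2
    have hwv : w * v = v * w := hVcomm w hwV v hv
    -- conjugating by `v`: `w` commutes with `h * x⁻¹`
    have hwc2 : w * ((h : G) * x⁻¹) = ((h : G) * x⁻¹) * w := by
      have h0 : v * ((h : G) * x) * v⁻¹ = (h : G) * x⁻¹ := by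
        have e1 : v * ((h : G) * x) * v⁻¹ = (v * (h : G) * v⁻¹) * (v * x * v⁻¹) := by group
        rw [e1, hinv]
        have : v * (h : G) * v⁻¹ = h := by
          rw [← hhv]; group
        rw [this]
      rw [← h0]
      have hcv : Commute w v := hwv
      have hcc : Commute w ((h : G) * x) := hwc
      have hvi : Commute w v⁻¹ := hcv.inv_right
      exact ((hcv.mul_right hcc).mul_right hvi).eq
    have hcc : Commute w ((h : G) * x) := hwc
    have hcc2 : Commute w ((h : G) * x⁻¹) := hwc2
    have hwh : w * (h : G) = h * w := by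
      apply commute_of_sq hoddG
      have e : (h : G) * h = ((h : G) * x) * ((h : G) * x⁻¹) := by
        have : x * (h : G) = h * x := hhx.symm
        calc (h : G) * h = (h : G) * h * (x * x⁻¹) := by group
          _ = (h : G) * (h * x) * x⁻¹ := by group
          _ = (h : G) * (x * h) * x⁻¹ := by rw [this]
          _ = _ := by group
      rw [e]
      exact (hcc.mul_right hcc2).eq
    have hwx : w * x = x * w := by
      apply commute_of_sq hx
      have e : x * x = ((h : G) * x) * (((h : G) * x⁻¹))⁻¹ := by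
        have hi : (h : G) * (x * x) = (x * x) * h := (hcommxh.mul_right hcommxh).eq
        calc x * x = (x * x) * h * (h : G)⁻¹ := by group
          _ = (h : G) * (x * x) * (h : G)⁻¹ := by rw [hi]
          _ = _ := by group
      rw [e]
      exact (hcc.mul_right hcc2.inv_right).eq
    refine ⟨⟨w, (hmemC w).2 ⟨hwv, hwx⟩⟩, ?_, ?_, ?_⟩
    · rw [Subgroup.mem_subgroupOf]
      exact ⟨(hmemC w).2 ⟨hwv, hwx⟩, hwV⟩
    · intro hone
      exact hw1 (congrArg Subtype.val hone)
    · apply Subtype.ext
      exact hwh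

end Cfsg.Agent.S3013
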