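import Cfsg.Statements.S3011
import Cfsg.Agent.S0199
import Cfsg.Agent.S3013
import Cfsg.Agent.Lib.Transfer.Basic
import Cfsg.Agent.Lib.Core.Basic

set_option autoImplicit false
open Cfsg

namespace Cfsg.Agent.S3011

open Subgroup

section
variable {G : Type*} [Group G]

theorem eq_one_of_odd_of_mul_self {h : G} (hodd : Odd (orderOf h)) (h2 : h * h = 1) : h = 1 := by
  have h3 : orderOf h ∣ 2 := orderOf_dvd_of_pow_eq_one (by rwa [pow_two])
  have h4 : orderOf h = 1 := by
    rcases (Nat.dvd_prime Nat.prime_two).mp h3 with h5 | h5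
    · exact h5
    · rw [h5] at hodd; exact absurd hodd (by decide)
  exact orderOf_eq_one_iff.mp h4

theorem eq_one_of_eq_inv {h : G} (hodd : Odd (orderOf h)) (h2 : h⁻¹ = h) : h = 1 := by
  apply eq_one_of_odd_of_mul_self hodd
  nth_rewrite 1 [← h2]
  simp

/-- an element inverted by an involution has its odd part inverted as well -/
theorem exists_inverted [Finite G] (v : G) (hv : v * v = 1) (hvp : v ∉ Cfsg.pCore 2 G) :
    ∃ h : G, Odd (orderOf h) ∧ h ≠ 1 ∧ v * h * v⁻¹ = h⁻¹ := by
  classical
  haveI : Fact (Nat.Prime 2) := ⟨Nat.prime_two⟩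
  have hvi : v⁻¹ = v := inv_eq_of_mul_eq_one_left hv
  have hX : IsPGroup 2 (zpowers v) := by
    rintro ⟨y, k, rfl⟩
    refine ⟨1, ?_⟩
    apply Subtype.ext
    have hv2 : v ^ 2 = 1 := by rw [pow_two]; exact hv
    show (v ^ k) ^ (2 ^ 1) = 1
    rw [pow_one, ← zpow_natCast, ← zpow_mul, mul_comm, zpow_mul, zpow_natCast, hv2, one_zpow]
  by_contra hcon
  push Not at hcon
  apply hvp
  have hall : ∀ g : G, IsPGroup 2 ↥(zpowers v ⊔ (zpowers v).map (MulAut.conj g).toMonoidHom) := by
    intro g
    set x := g * v * g⁻¹ with hx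
    set z := v * x with hz
    have hxx : x * x = 1 := by
      rw [hx]
      calc g * v * g⁻¹ * (g * v * g⁻¹) = g * (v * v) * g⁻¹ := by group
        _ = 1 := by rw [hv]; group
    have hxi : x⁻¹ = x := inv_eq_of_mul_eq_one_left hxx
    have hzinv : v * z * v⁻¹ = z⁻¹ := by
      rw [hz, hvi, mul_inv_rev, hvi, hxi]
      calc v * (v * x) * v = (v * v) * x * v := by group
        _ = x * v := by rw [hv, one_mul]
    obtain ⟨a, b, hab, hcomm, ⟨i, hi⟩, ⟨j, hj⟩, ⟨n, hn⟩, hcop⟩ :=
      Cfsg.Agent.Lib.Transfer.Basic.exists_pPart_decomp (p := 2) z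
    have hbodd : Odd (orderOf b) := by rwa [← Nat.coprime_two_right]
    have hbinv : v * b * v⁻¹ = b⁻¹ := by
      have hj' : z ^ j = b := hj
      rw [← hj', ← conj_zpow, hzinv, inv_zpow]
    have hb1 : b = 1 := by
      by_contra hb
      have h1 := hcon b hbodd hb
      exact h1 hbinv
    have hz2 : z ^ (2 ^ n) = 1 := by
      rw [hab, hb1, mul_one, hn]
    -- the dihedral subgroup
    let T : Subgroup G :=
      { carrier := {y | ∃ k : ℤ, y = z ^ k ∨ y = z ^ k * v}
        mul_mem' := by
          rintro y y' ⟨k, rfl | rfl⟩ ⟨k', rfl | rfl⟩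
          · exact ⟨k + k', Or.inl (zpow_add _ _ _).symm⟩
          · exact ⟨k + k', Or.inr (by rw [zpow_add, mul_assoc])⟩
          · refine ⟨k - k', Or.inr ?_⟩
            have h1 : v * z ^ k' * v⁻¹ = z ^ (-k') := by
              rw [← conj_zpow, hzinv, inv_zpow, zpow_neg]
            have h2 : v * z ^ k' = z ^ (-k') * v := by
              rw [← h1]; group
            rw [sub_eq_add_neg, zpow_add, mul_assoc, h2, mul_assoc]
          · refine ⟨k - k', Or.inl ?_⟩
            have h1 : v * z ^ k' * v⁻¹ = z ^ (-k') := by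
              rw [← conj_zpow, hzinv, inv_zpow, zpow_neg]
            have h2 : v * z ^ k' = z ^ (-k') * v := by
              rw [← h1]; group
            rw [sub_eq_add_neg, zpow_add, mul_assoc, ← mul_assoc v, h2, mul_assoc, hv, mul_one]
        one_mem' := ⟨0, Or.inl (by simp)⟩
        inv_mem' := by
          rintro y ⟨k, rfl | rfl⟩
          · exact ⟨-k, Or.inl (by simp)⟩
          · refine ⟨k, Or.inr ?_⟩
            have h1 : v * z ^ k * v⁻¹ = z ^ (-k) := by
              rw [← conj_zpow, hzinv, inv_zpow, zpow_neg]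
            rw [mul_inv_rev, hvi, ← zpow_neg]
            have h2 : v * z ^ (-k) = z ^ k * v := by
              have h3 : v * z ^ (-k) * v⁻¹ = z ^ k := by
                rw [← conj_zpow, hzinv, inv_zpow, zpow_neg, inv_inv]
              rw [← h3]; group
            exact h2 }
    have hTp : IsPGroup 2 T := by
      rintro ⟨y, k, hy⟩
      rcases hy with rfl | rfl
      · refine ⟨n, ?_⟩
        apply Subtype.ext
        simp only [SubgroupClass.coe_pow, OneMemClass.coe_one]
        rw [← zpow_natCast, ← zpow_mul, mul_comm, zpow_mul, zpow_natCast, hz2, one_zpow]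
      · refine ⟨1, ?_⟩
        apply Subtype.ext
        simp only [pow_one, SubgroupClass.coe_pow, OneMemClass.coe_one]
        have h1 : v * z ^ k * v⁻¹ = z ^ (-k) := by
          rw [← conj_zpow, hzinv, inv_zpow, zpow_neg]
        have h2 : v * z ^ k = z ^ (-k) * v := by
          rw [← h1]; group
        rw [pow_two]
        calc z ^ k * v * (z ^ k * v) = z ^ k * (v * z ^ k) * v := by group
          _ = z ^ k * (z ^ (-k) * v) * v := by rw [h2]
          _ = v * v := by group
          _ = 1 := hv
    have hle : zpowers v ⊔ (zpowers v).map (MulAut.conj g).toMonoidHom ≤ T := by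
      refine sup_le ?_ ?_
      · rw [zpowers_le]
        exact ⟨0, Or.inr (by simp)⟩
      · rw [Subgroup.map_le_iff_le_comap, zpowers_le]
        refine ⟨-1, Or.inr ?_⟩
        change g * v * g⁻¹ = z ^ (-1 : ℤ) * v
        rw [zpow_neg, zpow_one, hz, mul_inv_rev, hvi, hxi]
        rw [mul_assoc x, hv, mul_one]
    exact hTp.to_le hle
  obtain ⟨N, hNn, hNp, hvN⟩ := Cfsg.Agent.S0199.result (zpowers v) hX hall
  exact Cfsg.Agent.Lib.Core.Basic.le_pCore hNn hNp (hvN (mem_zpowers v))

end

/-- Let G be a finite group and V a nontrivial elementary abelian 2-subgroup of G of order at most 4 such that, whenever an element of V inverts an element h of G of odd order, some nontrivial element of V commutes with h. Then V meets O₂(G) nontrivially. (The case of order at most 4 has a short argument from the Baer–Suzuki theorem.) -/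
theorem result {G : Type*} [Group G] [Finite G] (V : Subgroup G) (hV : Cfsg.IsElementaryAbelian 2 V) (hV1 : V ≠ ⊥) (hS : Cfsg.IsSidkiPair V) (h4 : Nat.card V ≤ 4) : V ⊓ Cfsg.pCore 2 G ≠ ⊥ := by
  classical
  intro hbot
  have hnot : ∀ v ∈ V, v ≠ 1 → v ∉ Cfsg.pCore 2 G := by
    intro v hv hv1 hv2
    have : v ∈ V ⊓ Cfsg.pCore 2 G := ⟨hv, hv2⟩
    rw [hbot] at this
    exact hv1 (by simpa using this)
  have hVi : ∀ v ∈ V, v * v = 1 := fun v hv => by simpa [pow_two] using hV.2 v hv
  have hVinv : ∀ v ∈ V, v⁻¹ = v := fun v hv => inv_eq_of_mul_eq_one_left (hVi v hv)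
  have hVc : ∀ u ∈ V, ∀ u' ∈ V, u * u' = u' * u := fun u hu u' hu' =>
    congrArg Subtype.val (hV.1.is_comm.comm ⟨u, hu⟩ ⟨u', hu'⟩)
  -- getting an inverted element with a partner
  have hpartner : ∀ v ∈ V, v ≠ 1 → ∃ h : G, Odd (orderOf h) ∧ h ≠ 1 ∧ v * h * v⁻¹ = h⁻¹ ∧
      ∃ w ∈ V, w ≠ 1 ∧ w * h = h * w := by
    intro v hv hv1
    obtain ⟨h, hodd, hne, hinv⟩ := exists_inverted v (hVi v hv) (hnot v hv hv1)
    exact ⟨h, hodd, hne, hinv, hS h v hv hodd hinv⟩
  have hcomm_ne : ∀ v ∈ V, ∀ w : G, ∀ h : G, Odd (orderOf h) → h ≠ 1 → v * h * v⁻¹ = h⁻¹ →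
      w * h = h * w → w ≠ v := by
    intro v _ w h hodd hne hinv hw hwv
    subst hwv
    apply hne
    apply eq_one_of_eq_inv hodd
    rw [← hinv, hw]
    group
  obtain ⟨⟨a, haV⟩, ha1⟩ : ∃ a : V, a ≠ 1 := by
    have : Nontrivial V := (Subgroup.nontrivial_iff_ne_bot V).mpr hV1
    exact exists_ne 1
  have ha1' : a ≠ 1 := fun h => ha1 (Subtype.ext h)
  obtain ⟨h₁, h₁odd, h₁ne, h₁inv, b, hbV, hb1, hb₁⟩ := hpartner a haV ha1'
  have hba : b ≠ a := hcomm_ne a haV b h₁ h₁odd h₁ne h₁inv hb₁
  set c := a * b with hc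
  have hcV : c ∈ V := V.mul_mem haV hbV
  have hc1 : c ≠ 1 := by
    intro h
    apply hba
    have h2 : a⁻¹ = b := inv_eq_of_mul_eq_one_right h
    rw [← h2, hVinv a haV]
  have hca : c ≠ a := by
    intro h
    apply hb1
    have : a * b = a * 1 := by rw [mul_one]; exact h
    exact mul_left_cancel this
  have hcb : c ≠ b := by
    intro h
    apply ha1'
    have : a * b = 1 * b := by rw [one_mul]; exact h
    exact mul_right_cancel this
  -- `V = {1, a, b, c}`
  have hall : ∀ u ∈ V, u = 1 ∨ u = a ∨ u = b ∨ u = c := by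
    intro u huV
    by_contra hne
    push Not at hne
    obtain ⟨hu1, hua, hub, huc⟩ := hne
    let S : Finset G := {1, a, b, c, u}
    have hScard : S.card = 5 := by
      simp only [S]
      rw [Finset.card_insert_of_notMem, Finset.card_insert_of_notMem, Finset.card_insert_of_notMem,
        Finset.card_insert_of_notMem, Finset.card_singleton]
      · simp [huc.symm]
      · simp [hcb.symm, hub.symm]
      · simp [hba.symm, hca.symm, hua.symm]
      · simp [ha1'.symm, hb1.symm, hc1.symm, hu1.symm]
    have hSle : (S : Set G) ⊆ V := by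
      intro y hy
      simp only [S, Finset.coe_insert, Finset.coe_singleton, Set.mem_insert_iff,
        Set.mem_singleton_iff] at hy
      rcases hy with rfl | rfl | rfl | rfl | rfl
      · exact one_mem _
      · exact haV
      · exact hbV
      · exact hcV
      · exact huV
    have h5 : S.card ≤ Nat.card V := by
      have := Set.ncard_le_ncard hSle (Set.toFinite _)
      rw [Set.ncard_coe_finset] at this
      exact this
    omega
  -- types
  have hcinvh₁ : c * h₁ * c⁻¹ = h₁⁻¹ := by
    have : b * h₁ * b⁻¹ = h₁ := by rw [hb₁]; group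
    rw [hc]
    calc a * b * h₁ * (a * b)⁻¹ = a * (b * h₁ * b⁻¹) * a⁻¹ := by group
      _ = a * h₁ * a⁻¹ := by rw [this]
      _ = _ := h₁inv
  -- the heart
  have heart : ∀ a' ∈ V, ∀ b' ∈ V, ∀ c' ∈ V,
      (∀ u ∈ V, u = 1 ∨ u = a' ∨ u = b' ∨ u = c') →
      ∀ h k : G, Odd (orderOf h) → h ≠ 1 → b' * h = h * b' → a' * h * a'⁻¹ = h⁻¹ → c' * h * c'⁻¹ = h⁻¹ →
        Odd (orderOf k) → k ≠ 1 → c' * k = k * c' → a' * k * a'⁻¹ = k⁻¹ → b' * k * b'⁻¹ = k⁻¹ → False := by
    intro a' ha' b' hb' c' hc' hV4 h k hodd hne hbh hah hch koddd kne hck hak hbk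
    have hcommhk : h * k = k * h := by
      set x := h * k * h⁻¹ with hx
      have hxodd : Odd (orderOf x) := by
        have : orderOf (h * k * h⁻¹) = orderOf k := by
          simpa [MulAut.conj_apply] using MulEquiv.orderOf_eq (MulAut.conj h) k
        rw [hx, this]; exact koddd
      have hxne : x ≠ 1 := by
        intro hx1
        apply kne
        have : h * k = h := by
          have h2 : h * k * h⁻¹ * h = 1 * h := by rw [← hx, hx1]
          simpa using h2
        simpa using this
      have hbx : b' * x * b'⁻¹ = x⁻¹ := by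
        have hbh' : b' * h * b'⁻¹ = h := by rw [hbh]; group
        have hbhi : b' * h⁻¹ * b'⁻¹ = h⁻¹ := by
          have := congrArg (fun t => t⁻¹) hbh'
          simpa [mul_assoc] using this
        calc b' * x * b'⁻¹ = (b' * h * b'⁻¹) * (b' * k * b'⁻¹) * (b' * h⁻¹ * b'⁻¹) := by
              rw [hx]; group
          _ = h * k⁻¹ * h⁻¹ := by rw [hbh', hbk, hbhi]
          _ = x⁻¹ := by rw [hx]; group
      obtain ⟨w, hwV, hw1, hwx⟩ := hS x b' hb' hxodd hbx
      rcases hV4 w hwV with rfl | rfl | rfl | rfl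
      · exact absurd rfl hw1
      · -- `a'` commutes with x
        exfalso
        have hax : w * x * w⁻¹ = x := by rw [hwx]; group
        have hax2 : w * x * w⁻¹ = h⁻¹ * k⁻¹ * h := by
          have hahi : w * h⁻¹ * w⁻¹ = h := by
            have := congrArg (fun t => t⁻¹) hah
            simpa [mul_assoc] using this
          calc w * x * w⁻¹ = (w * h * w⁻¹) * (w * k * w⁻¹) * (w * h⁻¹ * w⁻¹) := by
                rw [hx]; group
            _ = _ := by rw [hah, hak, hahi]
        have hrel : h⁻¹ * k⁻¹ * h = h * k * h⁻¹ := by rw [← hax2, hax]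
        -- `y = h * h` inverts `k`
        set y := h * h with hy
        have hyk : y * k * y⁻¹ = k⁻¹ := by
          rw [hy]
          calc h * h * k * (h * h)⁻¹ = h * (h * k * h⁻¹) * h⁻¹ := by group
            _ = h * (h⁻¹ * k⁻¹ * h) * h⁻¹ := by rw [hrel]
            _ = k⁻¹ := by group
        have hyyk : Commute (y * y) k := by
          show y * y * k = k * (y * y)
          have h3 : y * k⁻¹ * y⁻¹ = k := by
            have := congrArg (fun t => t⁻¹) hyk
            simpa [mul_assoc] using this
          calc y * y * k = y * (y * k * y⁻¹) * y := by group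
            _ = y * k⁻¹ * y := by rw [hyk]
            _ = (y * k⁻¹ * y⁻¹) * (y * y) := by group
            _ = k * (y * y) := by rw [h3]
        have hyodd : Odd (orderOf y) := by
          have : orderOf y ∣ orderOf h := by
            apply orderOf_dvd_of_pow_eq_one
            rw [hy, ← pow_two, ← pow_mul, mul_comm, pow_mul, pow_orderOf_eq_one, one_pow]
          exact Odd.of_dvd_nat hodd this
        have hyck : y * k = k * y :=
          (Cfsg.Agent.S3013.commute_of_sq (w := k) (h := y) hyodd hyyk.eq.symm).symm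
        have : k⁻¹ = k := by rw [← hyk, hyck]; group
        exact kne (eq_one_of_eq_inv koddd this)
      · -- `b'` commutes with x
        exfalso
        exact hxne (eq_one_of_eq_inv hxodd (by rw [← hbx, hwx]; group))
      · -- `c'` commutes with x
        have hcx : w * x * w⁻¹ = x := by rw [hwx]; group
        have hcx2 : w * x * w⁻¹ = h⁻¹ * k * h := by
          have hchi : w * h⁻¹ * w⁻¹ = h := by
            have := congrArg (fun t => t⁻¹) hch
            simpa [mul_assoc] using this
          have hck' : w * k * w⁻¹ = k := by rw [hck]; group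
          calc w * x * w⁻¹ = (w * h * w⁻¹) * (w * k * w⁻¹) * (w * h⁻¹ * w⁻¹) := by
                rw [hx]; group
            _ = _ := by rw [hch, hck', hchi]
        have hrel : h⁻¹ * k * h = h * k * h⁻¹ := by rw [← hcx2, hcx]
        have hsq : k * (h * h) = (h * h) * k := by
          calc k * (h * h) = h * (h⁻¹ * k * h) * h := by group
            _ = h * (h * k * h⁻¹) * h := by rw [hrel]
            _ = (h * h) * k := by group
        exact (Cfsg.Agent.S3013.commute_of_sq hodd hsq).symm
    -- now `z = h * k`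
    have hc2 : Commute h k := hcommhk
    set z := h * k with hz
    have hzodd : Odd (orderOf z) := by
      have h1 : Nat.Coprime (orderOf h * orderOf k) 2 := by
        rw [Nat.coprime_two_right]
        exact hodd.mul koddd
      have h2 : orderOf (h * k) ∣ orderOf h * orderOf k := hc2.orderOf_mul_dvd_mul_orderOf
      rw [← Nat.coprime_two_right]
      exact Nat.Coprime.coprime_dvd_left h2 h1
    have hbh' : b' * h * b'⁻¹ = h := by rw [hbh]; group
    have hck' : c' * k * c'⁻¹ = k := by rw [hck]; group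
    have hzne : z ≠ 1 := by
      intro hz1
      have hki : k = h⁻¹ := (inv_eq_of_mul_eq_one_right hz1).symm
      have : b' * k * b'⁻¹ = k := by
        rw [hki]
        have := congrArg (fun t => t⁻¹) hbh'
        simpa [mul_assoc] using this
      rw [hbk] at this
      exact kne (eq_one_of_eq_inv koddd this)
    have haz : a' * z * a'⁻¹ = z⁻¹ := by
      calc a' * z * a'⁻¹ = (a' * h * a'⁻¹) * (a' * k * a'⁻¹) := by rw [hz]; group
        _ = h⁻¹ * k⁻¹ := by rw [hah, hak]
        _ = (k * h)⁻¹ := by group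
        _ = z⁻¹ := by
          have hcomm2 : k * h = z := hcommhk.symm
          rw [hcomm2]
    obtain ⟨w, hwV, hw1, hwz⟩ := hS z a' ha' hzodd haz
    have hwz' : w * z * w⁻¹ = z := by rw [hwz]; group
    rcases hV4 w hwV with rfl | rfl | rfl | rfl
    · exact absurd rfl hw1
    · exact hzne (eq_one_of_eq_inv hzodd (by rw [← haz, hwz]; group))
    · have : w * z * w⁻¹ = h * k⁻¹ := by
        calc w * z * w⁻¹ = (w * h * w⁻¹) * (w * k * w⁻¹) := by rw [hz]; group
          _ = _ := by rw [hbh', hbk]
      rw [this] at hwz'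
      have h3 : k⁻¹ = k := mul_left_cancel hwz'
      exact kne (eq_one_of_eq_inv koddd h3)
    · have : w * z * w⁻¹ = h⁻¹ * k := by
        calc w * z * w⁻¹ = (w * h * w⁻¹) * (w * k * w⁻¹) := by rw [hz]; group
          _ = _ := by rw [hch, hck']
      rw [this] at hwz'
      have h3 : h⁻¹ = h := mul_right_cancel hwz'
      exact hne (eq_one_of_eq_inv hodd h3)
  -- a second element
  obtain ⟨k, koddd, kne, kinv, w, hwV, hw1, hwk⟩ := hpartner b hbV hb1
  have hwb : w ≠ b := hcomm_ne b hbV w k koddd kne kinv hwk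
  have hbh₁' : b * h₁ * b⁻¹ = h₁ := by rw [hb₁]; group
  rcases hall w hwV with h | h | h | h
  · exact hw1 h
  · -- `w = a` : type a. Third element c.
    subst h
    have hck : c * k * c⁻¹ = k⁻¹ := by
      have hwk' : w * k * w⁻¹ = k := by rw [hwk]; group
      rw [hc]
      calc w * b * k * (w * b)⁻¹ = w * (b * k * b⁻¹) * w⁻¹ := by group
        _ = w * k⁻¹ * w⁻¹ := by rw [kinv]
        _ = k⁻¹ := by
          have := congrArg (fun t => t⁻¹) hwk'
          simpa [mul_assoc] using this
    refine heart c hcV b hbV w haV ?_ h₁ k h₁odd h₁ne hb₁ hcinvh₁ h₁inv koddd kne hwk hck kinv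
    intro u hu
    rcases hall u hu with h | h | h | h
    · exact Or.inl h
    · exact Or.inr (Or.inr (Or.inr h))
    · exact Or.inr (Or.inr (Or.inl h))
    · exact Or.inr (Or.inl h)
  · exact hwb h
  · -- `w = c`: type c.
    rw [h] at hwk
    have hak : a * k * a⁻¹ = k⁻¹ := by
      have hck' : c * k * c⁻¹ = k := by rw [hwk]; group
      have hab : a = c * b := by
        rw [hc, mul_assoc, hVi b hbV, mul_one]
      rw [hab]
      have hck2 : c * k⁻¹ * c⁻¹ = k⁻¹ := by
        have := congrArg (fun t => t⁻¹) hck'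
        simpa [mul_assoc] using this
      calc c * b * k * (c * b)⁻¹ = c * (b * k * b⁻¹) * c⁻¹ := by group
        _ = c * k⁻¹ * c⁻¹ := by rw [kinv]
        _ = k⁻¹ := hck2
    exact heart a haV b hbV c hcV hall h₁ k h₁odd h₁ne hb₁ h₁inv hcinvh₁ koddd kne hwk hak kinv

end Cfsg.Agent.S3011
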