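import Cfsg.Statements.S3012
import Cfsg.Agent.Lib.Transfer.Basic

set_option autoImplicit false
open Cfsg

namespace Cfsg.Agent.S3012

open Subgroup

/-- Let G be a finite group, V a nontrivial elementary abelian 2-subgroup of G satisfying the Sidki pair condition (every odd-order element inverted by an element of V commutes with a nontrivial element of V), and K a normal subgroup of G with V ∩ K = 1. Then the image of V in G/K satisfies the Sidki pair condition in G/K. -/
theorem result {G : Type*} [Group G] [Finite G] (V K : Subgroup G) [K.Normal] (hV : Cfsg.IsElementaryAbelian 2 V) (hV1 : V ≠ ⊥) (hS : Cfsg.IsSidkiPair V) (hVK : V ⊓ K = ⊥) : Cfsg.IsSidkiPair (V.map (QuotientGroup.mk' K)) := by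
  classical
  intro h v' hv' hodd hinv
  obtain ⟨v, hvV, rfl⟩ := hv'
  have hv2 : v * v = 1 := by simpa [pow_two] using hV.2 v hvV
  have hvinv : v⁻¹ = v := inv_eq_of_mul_eq_one_left hv2
  obtain ⟨k, hk⟩ := hodd
  set vb : G ⧸ K := (QuotientGroup.mk' K) v with hvb
  set yb : G ⧸ K := h ^ (k + 1) with hyb
  have hyb2 : yb * yb = h := by
    rw [hyb, ← pow_add]
    have : k + 1 + (k + 1) = orderOf h + 1 := by omega
    rw [this, pow_succ, pow_orderOf_eq_one, one_mul]
  have hyinv : vb * yb * vb⁻¹ = yb⁻¹ := by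
    rw [hyb, ← conj_pow, hinv, inv_pow]
  obtain ⟨y, hy⟩ := QuotientGroup.mk_surjective yb
  set z : G := y * v * y⁻¹ * v⁻¹ with hz
  have hzinv : v * z * v⁻¹ = z⁻¹ := by
    rw [hz, hvinv]
    have : (y * v * y⁻¹ * v)⁻¹ = v * y * v * y⁻¹ := by
      simp only [mul_inv_rev, inv_inv, hvinv, mul_assoc]
    rw [this]
    simp only [mul_assoc, hv2, mul_one]
  have hzb : (QuotientGroup.mk' K) z = h := by
    have hy' : (QuotientGroup.mk' K) y = yb := hy
    have : (QuotientGroup.mk' K) z = yb * vb * yb⁻¹ * vb⁻¹ := by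
      rw [hz]; simp only [map_mul, map_inv, hy', hvb]
    rw [this, mul_assoc (yb * vb), mul_assoc yb vb]
    have h2 : vb * (yb⁻¹ * vb⁻¹) = yb := by
      have h3 : vb * yb⁻¹ * vb⁻¹ = yb := by
        have := congrArg (fun t => t⁻¹) hyinv
        simpa [mul_assoc] using this
      simpa [mul_assoc] using h3
    rw [h2, hyb2]
  obtain ⟨a, b, hab, hcomm, ⟨i, hi⟩, ⟨j, hj⟩, ⟨n, hn⟩, hcop⟩ :=
    Cfsg.Agent.Lib.Transfer.Basic.exists_pPart_decomp (p := 2) z
  have hbinv : v * b * v⁻¹ = b⁻¹ := by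
    have hj' : z ^ j = b := hj
    rw [← hj', ← conj_zpow, hzinv, inv_zpow]
  have hab1 : (QuotientGroup.mk' K) a = 1 := by
    have hi' : z ^ i = a := hi
    have h1 : (QuotientGroup.mk' K) a = h ^ i := by rw [← hi', map_zpow, hzb]
    have hd1 : orderOf ((QuotientGroup.mk' K) a) ∣ orderOf h := by
      apply orderOf_dvd_of_pow_eq_one
      rw [h1, ← zpow_natCast, ← zpow_mul, mul_comm, zpow_mul, zpow_natCast, pow_orderOf_eq_one, one_zpow]
    have hd2 : orderOf ((QuotientGroup.mk' K) a) ∣ 2 ^ n := by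
      apply orderOf_dvd_of_pow_eq_one
      rw [← map_pow, hn, map_one]
    have hcop2 : Nat.Coprime (orderOf h) (2 ^ n) := by
      apply Nat.Coprime.pow_right
      rw [Nat.coprime_two_right]
      exact ⟨k, hk⟩
    exact orderOf_eq_one_iff.mp (Nat.eq_one_of_dvd_coprimes hcop2 hd1 hd2)
  have hbb : (QuotientGroup.mk' K) b = h := by
    rw [← hzb, hab, map_mul, hab1, one_mul]
  have hbodd : Odd (orderOf b) := by
    rwa [← Nat.coprime_two_right]
  obtain ⟨w, hwV, hw1, hwc⟩ := hS b v hvV hbodd hbinv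
  refine ⟨(QuotientGroup.mk' K) w, ⟨w, hwV, rfl⟩, ?_, ?_⟩
  · intro hw
    apply hw1
    have hwK : w ∈ K := by
      rw [← QuotientGroup.ker_mk' K]
      exact hw
    have : w ∈ V ⊓ K := ⟨hwV, hwK⟩
    rw [hVK] at this
    simpa using this
  · rw [← hbb, ← map_mul, ← map_mul, hwc]

end Cfsg.Agent.S3012
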