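import Cfsg.Statements.S3014
import Mathlib

set_option autoImplicit false
open Cfsg

namespace Cfsg.Agent.S3014

open Subgroup MulAction

theorem transfer_core {G : Type*} [Group G] [Finite G] (H M : Subgroup G) {A : Type*} [CommGroup A]
    (ϕ : M →* A) (hϕ : ∀ m : M, ϕ m = 1 ↔ (m : G) ∈ H)
    (hH : ∀ x ∈ H, ∀ t : G, t⁻¹ * x * t ∈ M → t⁻¹ * x * t ∈ H)
    (hcase : ∀ g : G, g ∉ M → ∀ y ∈ M, g⁻¹ * y * g ∈ M → y ∈ H) :
    normalClosure (H : Set G) ⊓ M ≤ H := by
  classical
  have : Fintype (G ⧸ M) := Fintype.ofFinite _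
  have hV1 : ∀ x ∈ H, ϕ.transfer x = 1 := by
    intro x hx
    have : Fintype (Quotient (orbitRel (zpowers x) (G ⧸ M))) := Fintype.ofFinite _
    rw [MonoidHom.transfer_eq_prod_quotient_orbitRel_zpowers_quot]
    refine Finset.prod_eq_one ?_
    intro q _
    rw [hϕ]
    exact hH _ (H.pow_mem hx _) _ (QuotientGroup.out_conj_pow_minimalPeriod_mem M x q.out)
  have hle : normalClosure (H : Set G) ≤ ϕ.transfer.ker :=
    normalClosure_le_normal (fun x hx => MonoidHom.mem_ker.mpr (hV1 x hx))
  rintro x ⟨hxN, hxM⟩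
  have hVx : ϕ.transfer x = 1 := MonoidHom.mem_ker.mp (hle hxN)
  have hV2 : ϕ.transfer x = ϕ ⟨x, hxM⟩ := by
    have : Fintype (Quotient (orbitRel (zpowers x) (G ⧸ M))) := Fintype.ofFinite _
    rw [MonoidHom.transfer_eq_prod_quotient_orbitRel_zpowers_quot]
    let q₀ : Quotient (orbitRel (zpowers x) (G ⧸ M)) := Quotient.mk'' ((1 : G) : G ⧸ M)
    have hfix : ∀ c : G ⧸ M, (c.out ∈ M) → c = ((1 : G) : G ⧸ M) := by
      intro c hc
      have h1 : ((c.out : G) : G ⧸ M) = c := QuotientGroup.out_eq' c
      rw [← h1]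
      exact QuotientGroup.eq.mpr (by simpa using hc)
    rw [Finset.prod_eq_single q₀]
    · -- the main factor
      have hq₀ : q₀.out = ((1 : G) : G ⧸ M) := by
        have h1 : (orbitRel (zpowers x) (G ⧸ M)) q₀.out ((1 : G) : G ⧸ M) :=
          Quotient.exact' (Quotient.out_eq' q₀)
        obtain ⟨⟨z, hz⟩, hzeq⟩ := h1
        obtain ⟨k, rfl⟩ := mem_zpowers_iff.mp hz
        rw [← hzeq]
        show (x ^ k) • ((1 : G) : G ⧸ M) = ((1 : G) : G ⧸ M)
        rw [MulAction.Quotient.smul_coe]
        exact QuotientGroup.eq.mpr (by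
          simpa using M.inv_mem (M.zpow_mem hxM k))
      have hper : Function.minimalPeriod (x • ·) q₀.out = 1 := by
        rw [Function.minimalPeriod_eq_one_iff_isFixedPt]
        show x • q₀.out = q₀.out
        rw [hq₀, MulAction.Quotient.smul_coe]
        exact QuotientGroup.eq.mpr (by simpa using M.inv_mem hxM)
      have ht : q₀.out.out ∈ M := by
        have h1 : ((q₀.out.out : G) : G ⧸ M) = ((1 : G) : G ⧸ M) := by
          rw [QuotientGroup.out_eq', hq₀]
        have h2 := QuotientGroup.eq.mp h1
        simpa using M.inv_mem h2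
      have hmem : (q₀.out.out)⁻¹ * x ^ Function.minimalPeriod (x • ·) q₀.out * q₀.out.out ∈ M :=
        QuotientGroup.out_conj_pow_minimalPeriod_mem M x q₀.out
      have heq : (⟨(q₀.out.out)⁻¹ * x ^ Function.minimalPeriod (x • ·) q₀.out * q₀.out.out, hmem⟩ : M) =
          (⟨q₀.out.out, ht⟩ : M)⁻¹ * ⟨x, hxM⟩ * ⟨q₀.out.out, ht⟩ := by
        apply Subtype.ext
        simp only [hper, pow_one, Subgroup.coe_mul, Subgroup.coe_inv]
      rw [heq, map_mul, map_mul, map_inv, mul_comm (ϕ _)⁻¹, mul_assoc, inv_mul_cancel, mul_one]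
    · intro q _ hq
      rw [hϕ]
      have hnot : q.out.out ∉ M := by
        intro h
        apply hq
        have h1 := hfix q.out h
        have h2 : q = Quotient.mk'' q.out := (Quotient.out_eq' q).symm
        rw [h2, h1]
      have hmem := QuotientGroup.out_conj_pow_minimalPeriod_mem M x q.out
      refine hcase (q.out.out)⁻¹ (fun h => hnot (by simpa using M.inv_mem h)) _ hmem ?_
      have h3 : ((q.out.out)⁻¹)⁻¹ * ((q.out.out)⁻¹ * x ^ Function.minimalPeriod (x • ·) q.out * q.out.out) *
          (q.out.out)⁻¹ = x ^ Function.minimalPeriod (x • ·) q.out := by group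
      rw [h3]
      exact M.pow_mem hxM _
    · intro h
      exact absurd (Finset.mem_univ _) h
  rw [hV2] at hVx
  exact (hϕ _).mp hVx

/-- Let G be a finite group and H ≤ M ≤ G subgroups such that for every g ∈ G the subgroup generated by H and g H g⁻¹ meets M exactly in H. If H is a maximal subgroup of M and M is a maximal subgroup of G, then the normal closure of H in G meets M exactly in H. -/
theorem result {G : Type*} [Group G] [Finite G] (H M : Subgroup G) (hHM : H ≤ M) (hcl : ∀ g : G, (H ⊔ H.map (MulAut.conj g).toMonoidHom) ⊓ M = H) (hmaxH : IsCoatom (H.subgroupOf M)) (hmaxM : IsCoatom M) : Subgroup.normalClosure (H : Set G) ⊓ M = H := by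
  classical
  have hconj : ∀ (g x : G), x ∈ H → g * x * g⁻¹ ∈ H.map (MulAut.conj g).toMonoidHom := fun g x hx =>
    ⟨x, hx, by simp [MulAut.conj_apply]⟩
  have hnorm : ∀ m ∈ M, ∀ x ∈ H, m * x * m⁻¹ ∈ H := by
    intro m hm x hx
    have h1 : H ⊔ H.map (MulAut.conj m).toMonoidHom ≤ M := sup_le hHM (by
      rintro _ ⟨y, hy, rfl⟩
      simpa [MulAut.conj_apply] using M.mul_mem (M.mul_mem hm (hHM hy)) (M.inv_mem hm))
    have h2 := hcl m
    rw [inf_eq_left.mpr h1] at h2
    rw [← h2]
    exact (le_sup_right : H.map (MulAut.conj m).toMonoidHom ≤ _) (hconj m x hx)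
  have hHN : H ≤ normalClosure (H : Set G) := subset_normalClosure
  apply le_antisymm _ (le_inf hHN hHM)
  by_cases hHn : H.Normal
  · rw [normalClosure_eq_self]
    exact inf_le_left
  have hNM : normalizer (H : Set G) = M := by
    by_contra hne
    have hle : M ≤ normalizer (H : Set G) := by
      intro m hm
      refine mem_normalizer_iff.mpr fun x => ⟨fun hx => hnorm m hm x hx, fun hx => ?_⟩
      have := hnorm m⁻¹ (M.inv_mem hm) _ hx
      simpa [mul_assoc] using this
    have htop := hmaxM.2 _ (lt_of_le_of_ne hle (Ne.symm hne))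
    exact hHn (normalizer_eq_top_iff.mp htop)
  have hHy : ∀ S : Subgroup G, H ≤ S → S ≤ M → ∀ s ∈ S, s ∉ H → M ≤ S := by
    intro S hHS hSM s hs hsH
    have h1 : H.subgroupOf M < S.subgroupOf M := by
      refine lt_of_le_of_ne (fun x hx => mem_subgroupOf.mpr (hHS (mem_subgroupOf.mp hx))) ?_
      intro h
      have h2 : (⟨s, hSM hs⟩ : M) ∈ S.subgroupOf M := mem_subgroupOf.mpr hs
      rw [← h] at h2
      exact hsH (mem_subgroupOf.mp h2)
    have h2 := hmaxH.2 _ h1
    intro m hm
    have h3 : (⟨m, hm⟩ : M) ∈ S.subgroupOf M := by rw [h2]; trivial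
    exact mem_subgroupOf.mp h3
  by_cases hcase : ∃ g : G, g ∉ M ∧ ∃ y ∈ M, y ∉ H ∧ g⁻¹ * y * g ∈ M
  · obtain ⟨g, hg, y, hyM, hyH, hyg⟩ := hcase
    set H' := H.map (MulAut.conj g).toMonoidHom with hH'
    set T := H ⊔ H' with hT
    have hTnor : ∀ z ∈ M, g⁻¹ * z * g ∈ M → ∀ t ∈ T, z * t * z⁻¹ ∈ T := by
      intro z hz hzg t ht
      have hle : T ≤ T.comap (MulAut.conj z).toMonoidHom := by
        refine sup_le ?_ ?_
        · intro x hx
          have : (MulAut.conj z) x = z * x * z⁻¹ := by simp [MulAut.conj_apply]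
          show (MulAut.conj z) x ∈ T
          rw [this]
          exact (le_sup_left : H ≤ T) (hnorm z hz x hx)
        · rintro _ ⟨x, hx, rfl⟩
          show (MulAut.conj z) ((MulAut.conj g) x) ∈ T
          have h4 : (MulAut.conj z) ((MulAut.conj g) x) =
              g * ((g⁻¹ * z * g) * x * (g⁻¹ * z * g)⁻¹) * g⁻¹ := by
            simp [MulAut.conj_apply]; group
          rw [h4]
          exact (le_sup_right : H' ≤ T) (hconj g _ (hnorm _ hzg x hx))
      have := hle ht
      simpa [MulAut.conj_apply] using this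
    have hyn : y ∈ normalizer (T : Set G) := by
      refine mem_normalizer_iff.mpr fun x => ⟨fun hx => hTnor y hyM hyg x hx, fun hx => ?_⟩
      have hyg' : g⁻¹ * y⁻¹ * g ∈ M := by
        have : g⁻¹ * y⁻¹ * g = (g⁻¹ * y * g)⁻¹ := by group
        rw [this]
        exact M.inv_mem hyg
      have := hTnor y⁻¹ (M.inv_mem hyM) hyg' _ hx
      simpa [mul_assoc] using this
    have hH'notM : ¬ H' ≤ M := by
      intro h
      have h1 : T ≤ M := sup_le hHM h
      have h2 := hcl g
      rw [inf_eq_left.mpr h1] at h2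
      have h3 : H' ≤ H := by
        rw [← h2]
        exact le_sup_right
      have h4 : H' = H := eq_of_le_of_card_ge h3 (by
        rw [hH', card_map_of_injective (MulAut.conj g).injective])
      apply hg
      rw [← hNM]
      refine mem_normalizer_iff.mpr fun x => ⟨fun hx => ?_, fun hx => ?_⟩
      · have := hconj g x hx
        rwa [← hH', h4] at this
      · have hx' : g * x * g⁻¹ ∈ H' := by rw [h4]; exact hx
        obtain ⟨z, hz, hzeq⟩ := hx'
        have : z = x := by
          have h5 : g * z * g⁻¹ = g * x * g⁻¹ := by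
            simpa [MulAut.conj_apply] using hzeq
          exact mul_left_cancel (mul_right_cancel h5)
        rwa [← this]
    have hTop : T ⊔ zpowers y = ⊤ := by
      have hM : M ≤ T ⊔ zpowers y := by
        have h1 : H ≤ (H ⊔ zpowers y) := le_sup_left
        have h2 : H ⊔ zpowers y ≤ M := sup_le hHM ((zpowers_le).mpr hyM)
        have h3 := hHy _ h1 h2 y ((le_sup_right : zpowers y ≤ _) (mem_zpowers y)) hyH
        exact h3.trans (sup_le_sup_right (le_sup_left : H ≤ T) _)
      have hlt : M < T ⊔ zpowers y := by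
        refine lt_of_le_of_ne hM ?_
        intro h
        apply hH'notM
        rw [h]
        exact (le_sup_right : H' ≤ T).trans le_sup_left
      exact hmaxM.2 _ hlt
    have hTn : T.Normal := by
      rw [← normalizer_eq_top_iff, eq_top_iff, ← hTop]
      exact sup_le le_normalizer ((zpowers_le).mpr hyn)
    have hNT : normalClosure (H : Set G) ≤ T :=
      normalClosure_le_normal (le_sup_left : H ≤ T)
    have h7 := hcl g
    rw [← hH', ← hT] at h7
    exact (inf_le_inf_right _ hNT).trans h7.le
  · push Not at hcase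
    have hcase' : ∀ g : G, g ∉ M → ∀ y ∈ M, g⁻¹ * y * g ∈ M → y ∈ H := by
      intro g hg y hy hyg
      by_contra hyH
      exact hcase g hg y hy hyH hyg
    have hNn : (H.subgroupOf M).Normal := ⟨fun n hn g => by
      rw [mem_subgroupOf] at hn ⊢
      exact hnorm g g.2 n hn⟩
    -- commutativity of the quotient
    have hcomm : ∀ a b : M ⧸ H.subgroupOf M, a * b = b * a := by
      intro a b
      by_cases ha : a = 1
      · rw [ha, one_mul, mul_one]
      · have htop : zpowers a = ⊤ := by
          have h1 : H.subgroupOf M < (zpowers a).comap (QuotientGroup.mk' (H.subgroupOf M)) := by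
            obtain ⟨c, rfl⟩ := QuotientGroup.mk'_surjective _ a
            refine lt_of_le_of_ne ?_ ?_
            · intro x hx
              have : QuotientGroup.mk' (H.subgroupOf M) x = 1 :=
                (QuotientGroup.eq_one_iff x).mpr hx
              rw [mem_comap, this]
              exact one_mem _
            · intro h
              apply ha
              have h2 : c ∈ (zpowers (QuotientGroup.mk' (H.subgroupOf M) c)).comap
                (QuotientGroup.mk' (H.subgroupOf M)) := mem_comap.mpr (mem_zpowers _)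
              rw [← h] at h2
              exact (QuotientGroup.eq_one_iff c).mpr h2
          have h2 := hmaxH.2 _ h1
          rw [eq_top_iff]
          intro b _
          obtain ⟨c, rfl⟩ := QuotientGroup.mk'_surjective _ b
          have h3 : c ∈ (zpowers a).comap (QuotientGroup.mk' (H.subgroupOf M)) := by
            rw [h2]; trivial
          exact h3
        have hb : b ∈ zpowers a := by rw [htop]; trivial
        obtain ⟨k, rfl⟩ := mem_zpowers_iff.mp hb
        exact ((Commute.refl a).zpow_right k).eq
    let cg : CommGroup (M ⧸ H.subgroupOf M) :=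
      { (inferInstance : Group (M ⧸ H.subgroupOf M)) with mul_comm := hcomm }
    refine transfer_core H M (QuotientGroup.mk' (H.subgroupOf M)) ?_ ?_ hcase'
    · intro m
      have := QuotientGroup.eq_one_iff (N := H.subgroupOf M) m
      rw [mem_subgroupOf] at this
      exact this
    · intro x hx t ht
      by_cases htM : t ∈ M
      · have := hnorm t⁻¹ (M.inv_mem htM) x hx
        simpa using this
      · have h1 : t⁻¹ * x * t ∈ H.map (MulAut.conj t⁻¹).toMonoidHom := by
          have := hconj t⁻¹ x hx
          simpa using this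
        have h2 := hcl t⁻¹
        rw [← h2]
        exact ⟨(le_sup_right : _ ≤ H ⊔ H.map (MulAut.conj t⁻¹).toMonoidHom) h1, ht⟩

end Cfsg.Agent.S3014
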