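import Cfsg.Statements.S3015
import Cfsg.Agent.Lib.PGroups.Basic

set_option autoImplicit false
open Cfsg

namespace Cfsg.Agent.S3015

open Subgroup MulAction
open Cfsg.Agent.Lib.PGroups.Basic

theorem transfer_core {G : Type*} [Group G] [Finite G] (H M : Subgroup G) {A : Type*} [CommGroup A]
    (ϕ : M →* A) (hϕ : ∀ m : M, ϕ m = 1 ↔ (m : G) ∈ H) (x : G) (hxM : x ∈ M)
    (hmin : ∀ y ∈ M, y ∉ H → orderOf x ≤ orderOf y)
    (hss : ∀ t : G, t ∉ M → t⁻¹ * x * t ∈ M → t⁻¹ * x * t ∈ H) :
    ϕ.transfer x = ϕ ⟨x, hxM⟩ := by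
  classical
  have : Fintype (G ⧸ M) := Fintype.ofFinite _
  have : Fintype (Quotient (orbitRel (zpowers x) (G ⧸ M))) := Fintype.ofFinite _
  rw [MonoidHom.transfer_eq_prod_quotient_orbitRel_zpowers_quot]
  let q₀ : Quotient (orbitRel (zpowers x) (G ⧸ M)) := Quotient.mk'' ((1 : G) : G ⧸ M)
  have hfix : ∀ c : G ⧸ M, (c.out ∈ M) → c = ((1 : G) : G ⧸ M) := by
    intro c hc
    have h1 : ((c.out : G) : G ⧸ M) = c := QuotientGroup.out_eq' c
    rw [← h1]
    exact QuotientGroup.eq.mpr (by simpa using hc)
  rw [Finset.prod_eq_single q₀]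
  · have hq₀ : q₀.out = ((1 : G) : G ⧸ M) := by
      have h1 : (orbitRel (zpowers x) (G ⧸ M)) q₀.out ((1 : G) : G ⧸ M) :=
        Quotient.exact' (Quotient.out_eq' q₀)
      obtain ⟨⟨z, hz⟩, hzeq⟩ := h1
      obtain ⟨k, rfl⟩ := mem_zpowers_iff.mp hz
      rw [← hzeq]
      show (x ^ k) • ((1 : G) : G ⧸ M) = ((1 : G) : G ⧸ M)
      rw [MulAction.Quotient.smul_coe]
      exact QuotientGroup.eq.mpr (by
        simpa using M.inv_mem (M.zpow_mem hxM k))
    have hper : Function.minimalPeriod (x • ·) q₀.out = 1 := by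
      rw [Function.minimalPeriod_eq_one_iff_isFixedPt]
      show x • q₀.out = q₀.out
      rw [hq₀, MulAction.Quotient.smul_coe]
      exact QuotientGroup.eq.mpr (by simpa using M.inv_mem hxM)
    have ht : q₀.out.out ∈ M := by
      have h1 : ((q₀.out.out : G) : G ⧸ M) = ((1 : G) : G ⧸ M) := by
        rw [QuotientGroup.out_eq', hq₀]
      have h2 := QuotientGroup.eq.mp h1
      simpa using M.inv_mem h2
    have hmem : (q₀.out.out)⁻¹ * x ^ Function.minimalPeriod (x • ·) q₀.out * q₀.out.out ∈ M :=
      QuotientGroup.out_conj_pow_minimalPeriod_mem M x q₀.out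
    have heq : (⟨(q₀.out.out)⁻¹ * x ^ Function.minimalPeriod (x • ·) q₀.out * q₀.out.out, hmem⟩ : M) =
        (⟨q₀.out.out, ht⟩ : M)⁻¹ * ⟨x, hxM⟩ * ⟨q₀.out.out, ht⟩ := by
      apply Subtype.ext
      simp only [hper, pow_one, Subgroup.coe_mul, Subgroup.coe_inv]
    rw [heq, map_mul, map_mul, map_inv, mul_comm (ϕ _)⁻¹, mul_assoc, inv_mul_cancel, mul_one]
  · intro q _ hq
    rw [hϕ]
    have hnot : q.out.out ∉ M := by
      intro h
      apply hq
      have h1 := hfix q.out h
      have h2 : q = Quotient.mk'' q.out := (Quotient.out_eq' q).symm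
      rw [h2, h1]
    have hmem := QuotientGroup.out_conj_pow_minimalPeriod_mem M x q.out
    set n := Function.minimalPeriod (x • ·) q.out with hn
    show (q.out.out)⁻¹ * x ^ n * q.out.out ∈ H
    by_cases hn1 : n = 1
    · rw [hn1, pow_one] at hmem ⊢
      exact hss _ hnot hmem
    · by_contra hu
      have hdvd : n ∣ orderOf x := by
        apply Function.IsPeriodicPt.minimalPeriod_dvd
        show (x • ·)^[orderOf x] q.out = q.out
        rw [smul_iterate, pow_orderOf_eq_one]
        simp only [one_smul]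
      have hn0 : n ≠ 0 := by
        rintro h0
        rw [h0, zero_dvd_iff] at hdvd
        exact (orderOf_pos x).ne' hdvd
      have hord : orderOf (x ^ n) = orderOf x / n := orderOf_pow_of_dvd hn0 hdvd
      have hconj : orderOf ((q.out.out)⁻¹ * x ^ n * q.out.out) = orderOf (x ^ n) := by
        have h2 := orderOf_injective (MulAut.conj (q.out.out)⁻¹).toMonoidHom
          (MulAut.conj (q.out.out)⁻¹).injective (x ^ n)
        have h3 : (MulAut.conj (q.out.out)⁻¹).toMonoidHom (x ^ n) =
            (q.out.out)⁻¹ * x ^ n * q.out.out := by simp [MulAut.conj_apply]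
        rw [h3] at h2
        exact h2
      have h1 := hmin _ hmem hu
      rw [hconj, hord] at h1
      have hpos := orderOf_pos x
      have h2 : 2 ≤ n := by omega
      have h3 : orderOf x / n < orderOf x := Nat.div_lt_self hpos h2
      omega
  · intro h
    exact absurd (Finset.mem_univ _) h

/-- Let G be a finite non-abelian simple group, M a maximal subgroup of G and H a normal subgroup of M of prime index in M. Then G is generated by H together with one of its conjugates. -/
theorem result {G : Type*} [Group G] [Finite G] [IsSimpleGroup G] (hG : ¬ IsMulCommutative G) (M H : Subgroup G) (hmaxM : IsCoatom M) (hHM : H ≤ M) (hHn : (H.subgroupOf M).Normal) (hidx : (H.relIndex M).Prime) : ∃ g : G, H ⊔ H.map (MulAut.conj g).toMonoidHom = ⊤ := by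
  classical
  by_contra hno
  push Not at hno
  have hMbot : M ≠ ⊥ := by
    rintro rfl
    apply hG
    obtain ⟨a, ha⟩ := exists_ne (1 : G)
    have h1 : (⊥ : Subgroup G) < zpowers a := by
      refine bot_lt_iff_ne_bot.mpr ?_
      simpa using ha
    have h2 := hmaxM.2 _ h1
    refine ⟨⟨fun b c => ?_⟩⟩
    have hb : (b : G) ∈ zpowers a := by rw [h2]; trivial
    have hc : (c : G) ∈ zpowers a := by rw [h2]; trivial
    obtain ⟨i, hi⟩ := mem_zpowers_iff.mp hb
    obtain ⟨j, hj⟩ := mem_zpowers_iff.mp hc
    rw [← hi, ← hj]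
    exact ((Commute.refl a).zpow_zpow i j).eq
  have hMnormal : ¬ M.Normal := by
    intro h
    rcases h.eq_bot_or_eq_top with h1 | h1
    · exact hMbot h1
    · exact hmaxM.1 h1
  have hconjle : ∀ (t : G) (S : Subgroup G), (∀ s ∈ S, t * s * t⁻¹ ∈ S) → t ∈ normalizer (S : Set G) := by
    intro t S h
    have h1 : S.map (MulAut.conj t).toMonoidHom ≤ S := by
      rintro _ ⟨s, hs, rfl⟩
      simpa [MulAut.conj_apply] using h s hs
    have h2 : S.map (MulAut.conj t).toMonoidHom = S := eq_of_le_of_card_ge h1 (by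
      rw [card_map_of_injective (MulAut.conj t).injective])
    refine mem_normalizer_iff.mpr fun s => ⟨fun hs => h s hs, fun hs => ?_⟩
    rw [← h2] at hs
    obtain ⟨z, hz, hzeq⟩ := hs
    have : z = s := by
      have h5 : t * z * t⁻¹ = t * s * t⁻¹ := by
        simpa [MulAut.conj_apply] using hzeq
      exact mul_left_cancel (mul_right_cancel h5)
    rwa [← this]
  have hNM : normalizer (M : Set G) = M := by
    by_contra hne
    have htop := hmaxM.2 _ (lt_of_le_of_ne le_normalizer (Ne.symm hne))
    exact hMnormal (normalizer_eq_top_iff.mp htop)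
  have hnorm : ∀ m ∈ M, ∀ x ∈ H, m * x * m⁻¹ ∈ H := by
    intro m hm x hx
    have h := hHn.conj_mem ⟨x, hHM hx⟩ (mem_subgroupOf.mpr hx) ⟨m, hm⟩
    exact mem_subgroupOf.mp h
  have hcoat : IsCoatom (H.subgroupOf M) := isCoatom_of_index_prime (G := M) hidx
  have hHy : ∀ S : Subgroup G, H ≤ S → S ≤ M → ∀ s ∈ S, s ∉ H → M ≤ S := by
    intro S hHS hSM s hs hsH
    have h1 : H.subgroupOf M < S.subgroupOf M := by
      refine lt_of_le_of_ne (fun x hx => mem_subgroupOf.mpr (hHS (mem_subgroupOf.mp hx))) ?_
      intro h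
      have h2 : (⟨s, hSM hs⟩ : M) ∈ S.subgroupOf M := mem_subgroupOf.mpr hs
      rw [← h] at h2
      exact hsH (mem_subgroupOf.mp h2)
    have h2 := hcoat.2 _ h1
    intro m hm
    have h3 : (⟨m, hm⟩ : M) ∈ S.subgroupOf M := by rw [h2]; trivial
    exact mem_subgroupOf.mp h3
  -- the key fusion statement
  have hss : ∀ x ∈ M, x ∉ H → ∀ t : G, t ∉ M → t⁻¹ * x * t ∈ M → t⁻¹ * x * t ∈ H := by
    intro x hxM hxH t ht hy
    by_contra hyH
    set y := t⁻¹ * x * t with hydef
    set H' := H.map (MulAut.conj t⁻¹).toMonoidHom with hH'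
    have hH'mem : ∀ z ∈ H, t⁻¹ * z * t ∈ H' := fun z hz => ⟨z, hz, by simp [MulAut.conj_apply]⟩
    have hH'M : H' ≤ M := by
      by_cases hbot : H = ⊥
      · rw [hH', hbot, Subgroup.map_bot]
        exact bot_le
      · -- `T = H ⊔ H'`
        set T := H ⊔ H' with hT
        have hTne : T ≠ ⊤ := hno t⁻¹
        have hyT : ∀ u ∈ T, y * u * y⁻¹ ∈ T := by
          intro u hu
          have hle : T ≤ T.comap (MulAut.conj y).toMonoidHom := by
            refine sup_le ?_ ?_
            · intro z hz
              show (MulAut.conj y) z ∈ T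
              have h1 : (MulAut.conj y) z = y * z * y⁻¹ := by simp [MulAut.conj_apply]
              rw [h1]
              exact (le_sup_left : H ≤ T) (hnorm y hy z hz)
            · rintro _ ⟨z, hz, rfl⟩
              show (MulAut.conj y) ((MulAut.conj t⁻¹) z) ∈ T
              have h4 : (MulAut.conj y) ((MulAut.conj t⁻¹) z) = t⁻¹ * (x * z * x⁻¹) * t := by
                simp [MulAut.conj_apply, hydef]; group
              rw [h4]
              exact (le_sup_right : H' ≤ T) (hH'mem _ (hnorm x hxM z hz))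
          have := hle hu
          simpa [MulAut.conj_apply] using this
        have hyn : y ∈ normalizer (T : Set G) := hconjle y T hyT
        have hle1 : M ≤ T ⊔ zpowers y := by
          have h1 : H ≤ (H ⊔ zpowers y) := le_sup_left
          have h2 : H ⊔ zpowers y ≤ M := sup_le hHM ((zpowers_le).mpr hy)
          have h3 := hHy _ h1 h2 y ((le_sup_right : zpowers y ≤ _) (mem_zpowers y)) hyH
          exact h3.trans (sup_le_sup_right (le_sup_left : H ≤ T) _)
        have hne : T ⊔ zpowers y ≠ ⊤ := by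
          intro htop
          have hTn : T.Normal := by
            rw [← normalizer_eq_top_iff, eq_top_iff, ← htop]
            exact sup_le le_normalizer ((zpowers_le).mpr hyn)
          rcases hTn.eq_bot_or_eq_top with h1 | h1
          · apply hbot
            rw [eq_bot_iff, ← h1]
            exact le_sup_left
          · exact hTne h1
        have heq : T ⊔ zpowers y = M := by
          by_contra hne2
          exact hne (hmaxM.2 _ (lt_of_le_of_ne hle1 (Ne.symm hne2)))
        rw [← heq]
        exact (le_sup_right : H' ≤ T).trans le_sup_left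
    -- contradiction
    have hle2 : H ⊔ zpowers x ≤ M.comap (MulAut.conj t⁻¹).toMonoidHom := by
      refine sup_le ?_ ?_
      · intro z hz
        have h1 : (MulAut.conj t⁻¹) z = t⁻¹ * z * t := by simp [MulAut.conj_apply]
        show (MulAut.conj t⁻¹) z ∈ M
        rw [h1]
        exact hH'M (hH'mem z hz)
      · rw [zpowers_le]
        have h1 : (MulAut.conj t⁻¹) x = t⁻¹ * x * t := by simp [MulAut.conj_apply]
        show (MulAut.conj t⁻¹) x ∈ M
        rw [h1]
        exact hy
    have hle3 : M ≤ H ⊔ zpowers x :=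
      hHy _ le_sup_left (sup_le hHM ((zpowers_le).mpr hxM)) x
        ((le_sup_right : zpowers x ≤ _) (mem_zpowers x)) hxH
    have hmemN : t⁻¹ ∈ normalizer (M : Set G) := by
      apply hconjle
      intro s hs
      have := hle2 (hle3 hs)
      simpa [MulAut.conj_apply] using this
    rw [hNM] at hmemN
    exact ht (by simpa using M.inv_mem hmemN)
  -- the element of smallest order
  have hHne : H.subgroupOf M ≠ ⊤ := hcoat.1
  have hne : {x : G | x ∈ M ∧ x ∉ H}.Nonempty := by
    by_contra hemp
    apply hHne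
    rw [eq_top_iff]
    intro m _
    rw [mem_subgroupOf]
    by_contra hm
    exact hemp ⟨m, m.2, hm⟩
  obtain ⟨x, ⟨hxM, hxH⟩, hmin⟩ := Set.exists_min_image _ (fun y : G => orderOf y) (Set.toFinite _) hne
  -- commutativity of the quotient
  have hcardQ : Nat.card (M ⧸ H.subgroupOf M) = H.relIndex M := rfl
  have hcyc : IsCyclic (M ⧸ H.subgroupOf M) := by
    haveI : Fact (H.relIndex M).Prime := ⟨hidx⟩
    exact isCyclic_of_prime_card hcardQ
  let cg : CommGroup (M ⧸ H.subgroupOf M) := IsCyclic.commGroup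
  have hϕ : ∀ m : M, (QuotientGroup.mk' (H.subgroupOf M)) m = 1 ↔ (m : G) ∈ H := by
    intro m
    have := QuotientGroup.eq_one_iff (N := H.subgroupOf M) m
    rw [mem_subgroupOf] at this
    exact this
  have hV := transfer_core H M (QuotientGroup.mk' (H.subgroupOf M)) hϕ x hxM
    (fun y hy hyH => hmin y ⟨hy, hyH⟩) (fun t ht hy => hss x hxM hxH t ht hy)
  have hne1 : (QuotientGroup.mk' (H.subgroupOf M)).transfer x ≠ 1 := by
    rw [hV]
    intro h
    exact hxH ((hϕ _).mp h)
  rcases (MonoidHom.normal_ker ((QuotientGroup.mk' (H.subgroupOf M)).transfer)).eq_bot_or_eq_top with h | h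
  · apply hG
    refine ⟨⟨fun a b => ?_⟩⟩
    have hinj := (MonoidHom.ker_eq_bot_iff _).mp h
    apply hinj
    rw [map_mul, map_mul, mul_comm]
  · apply hne1
    have : x ∈ ((QuotientGroup.mk' (H.subgroupOf M)).transfer).ker := by rw [h]; trivial
    exact this

end Cfsg.Agent.S3015
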