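import Cfsg.Statements.S3016
import Cfsg.Agent.Lib.ECP.Fix

set_option autoImplicit false
open Cfsg

namespace Cfsg.Agent.S3016

/-- Let G be a finite group, p an odd prime, and H an abelian p-subgroup of G that is extremely closed (for every g, the subgroup generated by H and g H g⁻¹ meets N_G(H) exactly in H). Then the normal closure of H meets N_G(H) exactly in H, and G = N_G(H) O_{p'}(G). -/
theorem result {G : Type*} [Group G] [Finite G] {p : ℕ} [Fact p.Prime] (hp : p ≠ 2) (H : Subgroup G) (hHp : IsPGroup p H) (hHab : IsMulCommutative H) (hcl : Cfsg.IsExtremelyClosed H) : Subgroup.normalClosure (H : Set G) ⊓ Subgroup.normalizer (H : Set G) = H ∧ Subgroup.normalizer (H : Set G) ⊔ Cfsg.pPrimeCore p G = ⊤ := by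
  exact ⟨Cfsg.Agent.Lib.ECP.closure_inf_normalizer hp H hHp hHab hcl,
    Cfsg.Agent.Lib.ECP.main_factorization hp H hHp hHab hcl⟩
end Cfsg.Agent.S3016
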