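import Cfsg.Statements.S3023
import Cfsg.Agent.Lib.CharP.Basic
import Cfsg.Agent.Lib.LocalEven.CharP
import Cfsg.Agent.Lib.Components.SylowSub
import Cfsg.Agent.Lib.HSubgroup.Basic
import Cfsg.Agent.Lib.Involutions2.NormalFour
import Cfsg.Agent.Lib.Subnormal.Basic

set_option autoImplicit false
open Cfsg

namespace Cfsg.Agent.S3023

open Cfsg Subgroup Cfsg.Agent.Lib.CharP.Basic
open scoped Pointwise

universe u

theorem charPIn_inf_of_subnormal {G : Type u} [Group G] [Finite G] {p : ℕ} [Fact p.Prime]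
    {Y G₁ : Subgroup G} (hsn : G₁.IsSubnormal) (hY : CharPIn p Y) : CharPIn p (Y ⊓ G₁) := by
  induction hsn with
  | top => simpa using hY
  | step H K hle _ hN ih =>
    apply CharPIn.of_normal ih (inf_le_inf_left _ hle)
    rintro h ⟨hh1, hh2⟩ w ⟨hw1, hw2⟩
    refine ⟨Y.mul_mem (Y.mul_mem hh1 hw1) (Y.inv_mem hh1), ?_⟩
    have := hN.conj_mem ⟨w, hle hw2⟩ (by rwa [Subgroup.mem_subgroupOf]) ⟨h, hh2⟩
    rw [Subgroup.mem_subgroupOf] at this
    simpa using this

theorem charPIn_subgroupOf {G : Type u} [Group G] [Finite G] {p : ℕ} [Fact p.Prime]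
    {Y G₁ : Subgroup G} (hYG : Y ≤ G₁) (h : CharPIn p Y) : CharPIn p (Y.subgroupOf G₁) := by
  rw [charPIn_iff] at h ⊢
  exact Cfsg.Agent.Lib.LocalEven.CharP.charP_of_mulEquiv (subgroupOfEquivOfLe hYG).symm h

theorem centralizer_le_normalizer' {X : Type u} [Group X] [Finite X] (R : Subgroup X) :
    centralizer (R : Set X) ≤ normalizer (R : Set X) := by
  intro y hy
  apply Cfsg.Agent.Lib.HSubgroup.Basic.mem_normalizer_of_conj_le
  intro x hx
  have := mem_centralizer_iff.1 hy x hx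
  rw [← this]
  simpa using hx

theorem centralizer_conj_mem {X : Type u} [Group X] {R : Subgroup X} {h w : X}
    (hh : h ∈ normalizer (R : Set X)) (hw : w ∈ centralizer (R : Set X)) :
    h * w * h⁻¹ ∈ centralizer (R : Set X) := by
  rw [mem_centralizer_iff] at hw ⊢
  intro y hy
  have h2 : h⁻¹ * y * h ∈ R := by
    have := (mem_normalizer_iff.1 ((normalizer (R : Set X)).inv_mem hh) y).1 hy
    simpa using this
  have h3 := hw _ h2
  calc y * (h * w * h⁻¹) = h * ((h⁻¹ * y * h) * w) * h⁻¹ := by group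
    _ = h * (w * (h⁻¹ * y * h)) * h⁻¹ := by rw [h3]
    _ = h * w * h⁻¹ * y := by group

/-- Normalizers of `p`-subgroups from the centralizer of a subgroup of them. -/
theorem charPIn_normalizer_of {X : Type u} [Group X] [Finite X] {p : ℕ} [Fact p.Prime]
    {R R₀ : Subgroup X} (hR : IsPGroup p R) (hle : R₀ ≤ R)
    (hC : CharPIn p (centralizer (R₀ : Set X))) : CharPIn p (normalizer (R : Set X)) := by
  have h1 : CharPIn p (centralizer (R : Set X)) := charPIn_centralizer_mono hR R₀ hle hC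
  refine CharPIn.of_centralizer (U := R) (W := centralizer (R : Set X)) h1 le_normalizer hR ?_ ?_ ?_ ?_
  · intro h hh u hu
    exact (mem_normalizer_iff.1 hh u).1 hu
  · exact centralizer_le_normalizer' R
  · intro h hh w hw
    exact centralizer_conj_mem hh hw
  · intro g _ hg
    rw [mem_centralizer_iff]
    intro u hu
    exact (hg u hu).symm

/-- Let p be a prime, G a finite group of parabolic characteristic p (every p-local subgroup containing a Sylow p-subgroup of G has characteristic p), S a Sylow p-subgroup of G and G₁ a subnormal subgroup of G. If the centre of S ∩ G₁ is nontrivial and contained in the centre of S, then G₁ has parabolic characteristic p. -/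
theorem result {G : Type*} [Group G] [Finite G] {p : ℕ} [Fact p.Prime] (hG : Cfsg.IsOfParabolicCharacteristic p G) (S : Sylow p G) (G₁ : Subgroup G) (hsn : G₁.IsSubnormal) (hne : ((S : Subgroup G) ⊓ G₁) ⊓ Subgroup.centralizer (((S : Subgroup G) ⊓ G₁ : Subgroup G) : Set G) ≠ ⊥) (hle : ((S : Subgroup G) ⊓ G₁) ⊓ Subgroup.centralizer (((S : Subgroup G) ⊓ G₁ : Subgroup G) : Set G) ≤ (S : Subgroup G) ⊓ Subgroup.centralizer ((S : Subgroup G) : Set G)) : Cfsg.IsOfParabolicCharacteristic p ↥G₁ := by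
  classical
  intro R hRp hRb hpar
  obtain ⟨T₁, hT₁⟩ := hpar
  apply (charPIn_iff).1
  -- `R ≤ T₁`
  have hRT : R ≤ (T₁ : Subgroup G₁) := by
    have h1 : IsPGroup p (R ⊔ (T₁ : Subgroup G₁) : Subgroup G₁) :=
      IsPGroup.to_sup_of_normal_left' hRp T₁.isPGroup' hT₁
    have h2 := T₁.is_maximal' h1 le_sup_right
    rw [← h2]
    exact le_sup_left
  -- `R₀`
  set R₀ : Subgroup G₁ := R ⊓ centralizer ((T₁ : Subgroup G₁) : Set G₁) with hR₀
  have hR₀b : R₀ ≠ ⊥ := by
    have hNn : (R.subgroupOf (T₁ : Subgroup G₁)).Normal :=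
      (normal_subgroupOf_iff_le_normalizer hRT).2 hT₁
    have hNb : R.subgroupOf (T₁ : Subgroup G₁) ≠ ⊥ := by
      intro h
      apply hRb
      rw [eq_bot_iff]
      intro r hr
      have h1 : (⟨r, hRT hr⟩ : (T₁ : Subgroup G₁)) ∈ R.subgroupOf (T₁ : Subgroup G₁) := by
        rwa [mem_subgroupOf]
      rw [h, mem_bot] at h1
      rw [mem_bot]
      exact congrArg Subtype.val h1
    have h1 := Cfsg.Agent.Lib.Involutions2.NormalFour.inf_center_ne_bot T₁.isPGroup' _ hNb
    obtain ⟨⟨z, hzN, hzC⟩, hz1⟩ := (Subgroup.ne_bot_iff_exists_ne_one).1 h1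
    intro hb
    have hz2 : (z : G₁) ∈ R₀ := by
      refine ⟨mem_subgroupOf.1 hzN, mem_centralizer_iff.2 ?_⟩
      intro t ht
      have := mem_center_iff.1 hzC ⟨t, ht⟩
      exact congrArg Subtype.val this
    rw [hb, mem_bot] at hz2
    apply hz1
    apply Subtype.ext
    exact Subtype.ext hz2
  -- the conjugate of `S`
  let S₁ : Sylow p G₁ := Cfsg.Agent.Lib.Components.SylowSub.sylowOfSubnormal S hsn
  obtain ⟨g, hg⟩ := MulAction.exists_smul_eq G₁ S₁ T₁
  have hS₁ : ∀ y : G₁, y ∈ (S₁ : Subgroup G₁) ↔ (y : G) ∈ (S : Subgroup G) := fun y => by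
    rw [Cfsg.Agent.Lib.Components.SylowSub.coe_sylowOfSubnormal, mem_subgroupOf]
  have hT₁m : ∀ y : G₁, y ∈ (T₁ : Subgroup G₁) ↔ ((g⁻¹ * y * g : G₁) : G) ∈ (S : Subgroup G) := by
    intro y
    rw [← hS₁, ← hg, Sylow.coe_subgroup_smul]
    exact Cfsg.Agent.Lib.Subnormal.Basic.mem_conj
  set R₀' : Subgroup G := R₀.map G₁.subtype with hR₀'
  have hR₀'p : IsPGroup p R₀' := (hRp.to_le inf_le_left).map _
  have hR₀'b : R₀' ≠ ⊥ := by
    rw [hR₀', Ne, Subgroup.map_eq_bot_iff_of_injective _ G₁.subtype_injective]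
    exact hR₀b
  let S' : Sylow p G := (g : G) • S
  have hS' : ∀ s ∈ (S' : Subgroup G), ∀ z ∈ R₀', s * z = z * s := by
    rintro s hs _ ⟨z, ⟨hzR, hzC⟩, rfl⟩
    have hs' : (g : G)⁻¹ * s * (g : G) ∈ (S : Subgroup G) := by
      have : s ∈ MulAut.conj (g : G) • (S : Subgroup G) := by
        rw [← Sylow.coe_subgroup_smul]; exact hs
      exact Cfsg.Agent.Lib.Subnormal.Basic.mem_conj.1 this
    -- `w = g⁻¹ z g` is central in `S₁`
    have hw1 := (hT₁m z).1 (hRT hzR)
    have hwG : ((g⁻¹ * z * g : G₁) : G) ∈ G₁ := (g⁻¹ * z * g : G₁).2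
    have hw2 : ((g⁻¹ * z * g : G₁) : G) ∈ ((S : Subgroup G) ⊓ G₁) ⊓
        centralizer (((S : Subgroup G) ⊓ G₁ : Subgroup G) : Set G) := by
      refine ⟨⟨hw1, hwG⟩, mem_centralizer_iff.2 ?_⟩
      rintro t ⟨ht1, ht2⟩
      have htT : g * ⟨t, ht2⟩ * g⁻¹ ∈ (T₁ : Subgroup G₁) := by
        rw [hT₁m]
        have e : (g⁻¹ * (g * ⟨t, ht2⟩ * g⁻¹) * g : G₁) = ⟨t, ht2⟩ := by group
        rw [e]
        exact ht1
      have h1 := mem_centralizer_iff.1 hzC _ htT
      have h2 : (⟨t, ht2⟩ : G₁) * (g⁻¹ * z * g) = (g⁻¹ * z * g) * ⟨t, ht2⟩ := by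
        have h3 : g⁻¹ * ((g * ⟨t, ht2⟩ * g⁻¹) * z) * g = g⁻¹ * (z * (g * ⟨t, ht2⟩ * g⁻¹)) * g := by
          rw [h1]
        calc (⟨t, ht2⟩ : G₁) * (g⁻¹ * z * g) = g⁻¹ * ((g * ⟨t, ht2⟩ * g⁻¹) * z) * g := by group
          _ = g⁻¹ * (z * (g * ⟨t, ht2⟩ * g⁻¹)) * g := h3
          _ = (g⁻¹ * z * g) * ⟨t, ht2⟩ := by group
      exact congrArg Subtype.val h2
    have hw3 := hle hw2
    have h4 := mem_centralizer_iff.1 hw3.2 _ hs'
    have h5 : ((g : G)⁻¹ * s * (g : G)) * ((g : G)⁻¹ * (z : G) * (g : G)) =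
        ((g : G)⁻¹ * (z : G) * (g : G)) * ((g : G)⁻¹ * s * (g : G)) := by
      simpa using h4
    have h6 : (g : G)⁻¹ * (s * (z : G)) * g = (g : G)⁻¹ * ((z : G) * s) * g := by
      calc (g : G)⁻¹ * (s * (z : G)) * g
          = ((g : G)⁻¹ * s * (g : G)) * ((g : G)⁻¹ * (z : G) * (g : G)) := by group
        _ = ((g : G)⁻¹ * (z : G) * (g : G)) * ((g : G)⁻¹ * s * (g : G)) := h5
        _ = (g : G)⁻¹ * ((z : G) * s) * g := by group
    exact mul_left_cancel (mul_right_cancel h6)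
  have hS'le : (S' : Subgroup G) ≤ centralizer (R₀' : Set G) := by
    intro s hs
    rw [mem_centralizer_iff]
    intro z hz
    exact (hS' s hs z hz).symm
  have h1 := hG R₀' hR₀'p hR₀'b ⟨S', hS'le.trans (centralizer_le_normalizer' R₀')⟩
  have hChar : CharPIn p (normalizer (R₀' : Set G)) := charPIn_iff.2 h1
  have hChar2 : CharPIn p (centralizer (R₀' : Set G)) :=
    CharPIn.of_normal hChar (centralizer_le_normalizer' R₀') (fun h hh w hw =>
      centralizer_conj_mem hh hw)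
  have hChar3 := charPIn_inf_of_subnormal hsn hChar2
  have hChar4 := charPIn_subgroupOf inf_le_right hChar3
  have heq : (centralizer (R₀' : Set G) ⊓ G₁).subgroupOf G₁ = centralizer (R₀ : Set G₁) := by
    ext x
    rw [mem_subgroupOf, mem_centralizer_iff]
    constructor
    · rintro ⟨hx, -⟩ z hz
      have := mem_centralizer_iff.1 hx z ⟨z, hz, rfl⟩
      exact Subtype.ext this
    · intro hx
      refine ⟨mem_centralizer_iff.2 ?_, x.2⟩
      rintro _ ⟨z, hz, rfl⟩
      exact congrArg Subtype.val (hx z hz)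
  rw [heq] at hChar4
  exact charPIn_normalizer_of hRp inf_le_left hChar4

end Cfsg.Agent.S3023
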