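import Cfsg.Statements.S3025
import Cfsg.Agent.S0016
import Cfsg.Agent.Lib.HSubgroup.Basic

set_option autoImplicit false
open Cfsg

namespace Cfsg.Agent.S3025

open Cfsg Cfsg.Agent.Lib.HSubgroup.Basic

universe u

theorem quaternion_one_cyclic : IsCyclic (QuaternionGroup 1) := by
  apply isCyclic_of_orderOf_eq_card (QuaternionGroup.xa (0 : ZMod (2 * 1)))
  rw [QuaternionGroup.orderOf_xa, Nat.card_eq_fintype_card, QuaternionGroup.card]


/-- Let F be a finite group and H a nontrivial subgroup of F that is contained in every nontrivial subgroup of F which H normalizes. Then F has a nontrivial normal subgroup N contained in every nontrivial normal subgroup of F (a unique minimal normal subgroup), N is simple, and one of the following holds: C_F(N) = 1; or H = N has prime order p, C_F(N) is cyclic of order a power of p, and F/C_F(N) is cyclic of order dividing p − 1; or H = N has order 2, N is central in F, and F is a generalized quaternion group. -/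
theorem result {F : Type*} [Group F] [Finite F] (H : Subgroup F) (hH : H ≠ ⊥)
    (hmin : ∀ R : Subgroup F, R ≠ ⊥ → H ≤ Subgroup.normalizer (R : Set F) → H ≤ R) :
    ∃ N : Subgroup F, N.Normal ∧ N ≠ ⊥ ∧ (∀ M : Subgroup F, M.Normal → M ≠ ⊥ → N ≤ M) ∧ IsSimpleGroup ↥N ∧
      (Subgroup.centralizer (N : Set F) = ⊥ ∨
       (H = N ∧ (Nat.card N).Prime ∧ IsCyclic ↥(Subgroup.centralizer (N : Set F)) ∧
          (∃ k : ℕ, 1 ≤ k ∧ Nat.card ↥(Subgroup.centralizer (N : Set F)) = Nat.card N ^ k) ∧
          (∃ g : F, Subgroup.centralizer (N : Set F) ⊔ Subgroup.zpowers g = ⊤) ∧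
          (Subgroup.centralizer (N : Set F)).index ∣ Nat.card N - 1) ∨
       (H = N ∧ Nat.card N = 2 ∧ Subgroup.centralizer (N : Set F) = ⊤ ∧
          ∃ k : ℕ, 1 ≤ k ∧ Nonempty (F ≃* QuaternionGroup (2 ^ k)))) := by
  classical
  -- every nontrivial normal subgroup contains `H`
  have hHn : ∀ M : Subgroup F, M.Normal → M ≠ ⊥ → H ≤ M := by
    intro M hM hne
    apply hmin M hne
    rw [Subgroup.normalizer_eq_top]
    exact le_top
  set N := Subgroup.normalClosure (H : Set F) with hNdef
  have hNn : N.Normal := Subgroup.normalClosure_normal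
  have hHN : H ≤ N := Subgroup.le_normalClosure
  have hNb : N ≠ ⊥ := by
    intro h
    apply hH
    rw [eq_bot_iff, ← h]
    exact hHN
  have hNmin : ∀ M : Subgroup F, M.Normal → M ≠ ⊥ → N ≤ M := by
    intro M hM hne
    exact Subgroup.normalClosure_le_normal (hHn M hM hne)
  -- `N` is simple
  have hsimple : IsSimpleGroup ↥N := by
    have : Nontrivial ↥N := (Subgroup.nontrivial_iff_ne_bot N).2 hNb
    refine ⟨fun M' hM' => ?_⟩
    by_cases hb : M' = ⊥
    · exact Or.inl hb
    right
    set M := M'.map N.subtype with hMdef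
    have hMN : M ≤ N := Subgroup.map_subtype_le _
    have hMb : M ≠ ⊥ := by
      intro h
      apply hb
      rw [Subgroup.map_eq_bot_iff, Subgroup.ker_subtype] at h
      exact le_bot_iff.1 h
    have hnorm : ∀ t ∈ N, ∀ m ∈ M, t * m * t⁻¹ ∈ M := by
      rintro t ht _ ⟨m, hm, rfl⟩
      exact ⟨⟨t, ht⟩ * m * ⟨t, ht⟩⁻¹, hM'.conj_mem m hm ⟨t, ht⟩, by simp⟩
    have hconj : ∀ g : F, ∀ h ∈ H, g * h * g⁻¹ ∈ M := by
      intro g h hh
      let Mg := M.map (MulAut.conj g⁻¹).toMonoidHom
      have hMgb : Mg ≠ ⊥ := by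
        intro h0
        apply hMb
        rw [Subgroup.map_eq_bot_iff] at h0
        rw [eq_bot_iff]
        refine h0.trans ?_
        intro x hx
        have h1 : (MulAut.conj g⁻¹) x = 1 := hx
        exact (map_eq_one_iff (MulAut.conj g⁻¹) (MulAut.conj g⁻¹).injective).1 h1
      have hle : H ≤ Subgroup.normalizer (Mg : Set F) := by
        intro t ht
        apply mem_normalizer_of_conj_le
        rintro _ ⟨m, hm, rfl⟩
        have h1 := hnorm (g * t * g⁻¹) (hNn.conj_mem t (hHN ht) g) m hm
        refine ⟨_, h1, ?_⟩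
        simp
        group
      obtain ⟨m, hm, hme⟩ := hmin Mg hMgb hle hh
      have : g * h * g⁻¹ = m := by
        rw [← hme]
        simp
        group
      rw [this]
      exact hm
    have hNM : N ≤ M :=
      (Subgroup.normalClosure_le_normal (fun h hh =>
        (show h ∈ M.normalCore from fun g => hconj g h hh))).trans (Subgroup.normalCore_le M)
    rw [eq_top_iff]
    rintro ⟨t, ht⟩ -
    obtain ⟨m, hm, hme⟩ := hNM ht
    have : m = ⟨t, ht⟩ := Subtype.ext hme
    rwa [← this]
  refine ⟨N, hNn, hNb, hNmin, hsimple, ?_⟩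
  set C := Subgroup.centralizer (N : Set F) with hCdef
  have hCn : C.Normal := Subgroup.normal_centralizer (H := N)
  by_cases hC : C = ⊥
  · exact Or.inl hC
  right
  have hNC : N ≤ C := hNmin C hCn hC
  have hcomm : IsMulCommutative ↥N := by
    refine ⟨⟨fun a b => Subtype.ext ?_⟩⟩
    have := (Subgroup.mem_centralizer_iff.1 (hNC a.2)) b b.2
    exact this.symm
  have hpN : (Nat.card N).Prime := Group.is_simple_iff_prime_card.1 hsimple
  set p := Nat.card N with hpdef
  haveI : Fact p.Prime := ⟨hpN⟩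
  have hHeq : H = N := by
    apply Subgroup.eq_of_le_of_card_ge hHN
    have h1 : Nat.card H ∣ p := Subgroup.card_dvd_of_le hHN
    rcases (Nat.dvd_prime hpN).1 h1 with h2 | h2
    · exact absurd (Subgroup.eq_bot_of_card_eq H h2) hH
    · exact h2.symm.le
  have hRC : ∀ R : Subgroup F, R ≤ C → R ≠ ⊥ → N ≤ R := by
    intro R hRle hRb
    rw [← hHeq]
    apply hmin R hRb
    intro t ht
    apply mem_normalizer_of_conj_le
    intro r hr
    have h1 := (Subgroup.mem_centralizer_iff.1 (hRle hr)) t (hHN ht)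
    rw [h1]
    simpa using hr
  have hcardC : Nat.card C = p ^ (Nat.card C).primeFactorsList.length := by
    apply Nat.eq_prime_pow_of_unique_prime_dvd Nat.card_pos.ne'
    intro q hq hqd
    haveI : Fact q.Prime := ⟨hq⟩
    obtain ⟨x, hx⟩ := exists_prime_orderOf_dvd_card' (G := C) q hqd
    have hR : N ≤ Subgroup.zpowers (x : F) := by
      apply hRC
      · rw [Subgroup.zpowers_le]; exact x.2
      · intro h
        rw [Subgroup.zpowers_eq_bot] at h
        have h2 : x = 1 := Subtype.ext h
        rw [h2, orderOf_one] at hx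
        exact hq.one_lt.ne hx
    have h1 : p ∣ Nat.card (Subgroup.zpowers (x : F)) := Subgroup.card_dvd_of_le hR
    rw [Nat.card_zpowers, Subgroup.orderOf_coe, hx] at h1
    exact ((Nat.prime_dvd_prime_iff_eq hpN hq).1 h1).symm
  have hpC : IsPGroup p ↥C := IsPGroup.of_card hcardC
  have hmapeq : ∀ R : Subgroup C, Nat.card R = p → R.map C.subtype = N := by
    intro R hR
    have hcard : Nat.card (R.map C.subtype) = Nat.card R :=
      Nat.card_congr (R.equivMapOfInjective _ C.subtype_injective).toEquiv.symm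
    symm
    apply Subgroup.eq_of_le_of_card_ge
    · apply hRC _ (Subgroup.map_subtype_le _)
      intro h
      rw [h, Subgroup.card_bot] at hcard
      rw [hR] at hcard
      exact hpN.one_lt.ne hcard
    · rw [hcard, hR]
  have huniq : ∀ H' K' : Subgroup C, Nat.card H' = p → Nat.card K' = p → H' = K' := by
    intro H' K' h1 h2
    apply Subgroup.map_injective C.subtype_injective
    rw [hmapeq H' h1, hmapeq K' h2]
  -- the action on `N`
  have hcycN : IsCyclic ↥N := isCyclic_of_prime_card (p := p) rfl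
  let φ : F →* MulAut ↥N := MulAut.conjNormal
  have hker : φ.ker = C := by
    ext f
    rw [MonoidHom.mem_ker, hCdef, Subgroup.mem_centralizer_iff, MulEquiv.ext_iff]
    constructor
    · intro h n hn
      have := h ⟨n, hn⟩
      have h2 := congrArg Subtype.val this
      simp only [φ, MulAut.conjNormal_apply, MulAut.one_apply] at h2
      calc n * f = f * n * f⁻¹ * f := by rw [h2]
        _ = f * n := by group
    · intro h n
      apply Subtype.ext
      simp only [φ, MulAut.conjNormal_apply, MulAut.one_apply]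
      rw [← h n n.2]
      group
  have hunits : IsCyclic (MulAut ↥N) := by
    have e := IsCyclic.mulAutMulEquiv ↥N
    exact isCyclic_of_surjective e.symm e.symm.surjective
  have hidx : C.index ∣ p - 1 := by
    rw [← hker, Subgroup.index_ker]
    have h1 : Nat.card φ.range ∣ Nat.card (MulAut ↥N) := Subgroup.card_subgroup_dvd_card _
    rwa [IsCyclic.card_mulAut, Nat.totient_prime hpN] at h1
  obtain ⟨⟨_, g, rfl⟩, hgen⟩ := IsCyclic.exists_generator (α := φ.range)
  have hsup : C ⊔ Subgroup.zpowers g = ⊤ := by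
    rw [eq_top_iff]
    intro f _
    obtain ⟨i, hi⟩ := hgen ⟨φ f, f, rfl⟩
    have h1 : φ (g ^ i) = φ f := by
      have := congrArg Subtype.val hi
      simpa using this
    have h2 : f * (g ^ i)⁻¹ ∈ C := by
      rw [← hker, MonoidHom.mem_ker, map_mul, map_inv, h1]
      simp
    have h3 : f = f * (g ^ i)⁻¹ * g ^ i := by group
    rw [h3]
    exact Subgroup.mul_mem_sup h2 (Subgroup.zpow_mem_zpowers g i)
  have hcase1 : IsCyclic ↥C → _ := fun hcyc =>
    Or.inl (a := H = N ∧ (Nat.card N).Prime ∧ IsCyclic ↥C ∧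
          (∃ k : ℕ, 1 ≤ k ∧ Nat.card ↥C = Nat.card N ^ k) ∧
          (∃ g : F, C ⊔ Subgroup.zpowers g = ⊤) ∧
          C.index ∣ Nat.card N - 1) (b := (H = N ∧ Nat.card N = 2 ∧ C = ⊤ ∧
          ∃ k : ℕ, 1 ≤ k ∧ Nonempty (F ≃* QuaternionGroup (2 ^ k))))
      ⟨hHeq, hpN, hcyc, ⟨_, by
        rw [Nat.one_le_iff_ne_zero]
        intro h0
        rw [h0, pow_zero] at hcardC
        have h1 : Nat.card N ∣ Nat.card C := Subgroup.card_dvd_of_le hNC
        rw [hcardC] at h1
        exact hpN.one_lt.ne' (Nat.dvd_one.1 h1), hcardC⟩, ⟨g, hsup⟩, hidx⟩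
  rcases Cfsg.Agent.S0016.result p hpC huniq with hcyc | ⟨h2, n, ⟨e⟩⟩
  · exact hcase1 hcyc
  by_cases hcyc : IsCyclic ↥C
  · exact hcase1 hcyc
  right
  have hCtop : C = ⊤ := by
    rw [h2] at hidx
    have : C.index = 1 := Nat.dvd_one.1 hidx
    exact Subgroup.index_eq_one.1 this
  refine ⟨hHeq, h2, hCtop, n, ?_, ⟨(Subgroup.topEquiv.symm.trans
    (MulEquiv.subgroupCongr hCtop.symm)).trans e⟩⟩
  rw [Nat.one_le_iff_ne_zero]
  rintro rfl
  apply hcyc
  rw [pow_zero] at e
  have := quaternion_one_cyclic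
  exact isCyclic_of_surjective e.symm e.symm.surjective

end Cfsg.Agent.S3025
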