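import Cfsg.Statements.S3027
import Mathlib

set_option autoImplicit false
open Cfsg

namespace Cfsg.Agent.S3027

open Subgroup
open scoped commutatorElement

variable {G : Type*} [Group G]

theorem meet_closed (D : Subgroup G) [D.Normal] (hperf : ⁅(⊤ : Subgroup G), (⊤ : Subgroup G)⁆ ⊔ D = ⊤)
    {N₁ N₂ : Subgroup G} (h1 : N₁ ⊔ D = ⊤) (h2 : N₂ ⊔ D = ⊤) (hc : ⁅N₁, N₂⁆ ≤ N₁ ⊓ N₂) :
    (N₁ ⊓ N₂) ⊔ D = ⊤ := by
  set q := QuotientGroup.mk' D with hq
  have hs : Function.Surjective q := QuotientGroup.mk'_surjective D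
  have hk : q.ker = D := QuotientGroup.ker_mk' D
  have hD : D.map q = ⊥ := by
    exact (Subgroup.map_eq_bot_iff (f := q) D).mpr hk.ge
  have hmap : ∀ N : Subgroup G, N ⊔ D = ⊤ → N.map q = ⊤ := by
    intro N hN
    have h : (N ⊔ D).map q = ⊤ := by rw [hN, Subgroup.map_top_of_surjective _ hs]
    rwa [Subgroup.map_sup, hD, sup_bot_eq] at h
  have hback : ∀ N : Subgroup G, N.map q = ⊤ → N ⊔ D = ⊤ := by
    intro N hN
    have h := Subgroup.comap_map_eq q N
    rw [hN, hk, Subgroup.comap_top] at h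
    exact h.symm
  apply hback
  have hperf' : ⁅(⊤ : Subgroup (G ⧸ D)), (⊤ : Subgroup (G ⧸ D))⁆ = ⊤ := by
    have h := hmap _ hperf
    rwa [Subgroup.map_commutator, Subgroup.map_top_of_surjective _ hs] at h
  have h3 : ⁅N₁.map q, N₂.map q⁆ ≤ (N₁ ⊓ N₂).map q := by
    rw [← Subgroup.map_commutator]
    exact Subgroup.map_mono hc
  rw [hmap _ h1, hmap _ h2, hperf'] at h3
  exact top_le_iff.mp h3

theorem comm_le_of_nor {S T : Subgroup G} (hS : ∀ t ∈ T, ∀ x ∈ S, t * x * t⁻¹ ∈ S)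
    (hT : ∀ s ∈ S, ∀ x ∈ T, s * x * s⁻¹ ∈ T) : ⁅S, T⁆ ≤ S ⊓ T := by
  rw [commutator_le]
  intro s hs t ht
  refine ⟨?_, ?_⟩
  · rw [commutatorElement_def]
    have h : s * t * s⁻¹ * t⁻¹ = s * (t * s⁻¹ * t⁻¹) := by group
    rw [h]
    exact S.mul_mem hs (hS t ht _ (S.inv_mem hs))
  · rw [commutatorElement_def]
    exact T.mul_mem (hT s hs t ht) (T.inv_mem ht)

/-- Let G be a finite group and D a normal subgroup of G such that G/D is perfect (that is, G = G′D). Then among the subnormal subgroups B of G with BD = G there is a least one, and it is normal in G. -/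
theorem result {G : Type*} [Group G] [Finite G] (D : Subgroup G) [D.Normal] (hperf : ⁅(⊤ : Subgroup G), (⊤ : Subgroup G)⁆ ⊔ D = ⊤) :
    ∃ B : Subgroup G, B.Normal ∧ B ⊔ D = ⊤ ∧ ∀ B' : Subgroup G, B'.IsSubnormal → B' ⊔ D = ⊤ → B ≤ B' := by
  classical
  let 𝒩 : Set (Subgroup G) := {N | N.Normal ∧ N ⊔ D = ⊤}
  have hne : 𝒩.Nonempty := ⟨⊤, inferInstance, top_sup_eq _⟩
  obtain ⟨B, hBmin⟩ := (Set.toFinite 𝒩).exists_minimal hne
  obtain ⟨hBn, hBD⟩ := hBmin.prop
  have hleast : ∀ N ∈ 𝒩, B ≤ N := by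
    rintro N ⟨hNn, hND⟩
    have h := meet_closed D hperf hBD hND
      (comm_le_of_nor (fun t _ x hx => hBn.conj_mem x hx t) (fun s _ x hx => hNn.conj_mem x hx s))
    have hinf : B ⊓ N ∈ 𝒩 := ⟨inferInstance, h⟩
    exact (hBmin.le_of_le hinf inf_le_left).trans inf_le_right
  have key : ∀ E : Subgroup G, E ≤ B → (∀ b ∈ B, ∀ x ∈ E, b * x * b⁻¹ ∈ E) → E ⊔ D = ⊤ → B ≤ E := by
    intro E hEB hEn hED
    let ℱ : Set (Subgroup G) := {S | S ≤ B ∧ (∀ b ∈ B, ∀ x ∈ S, b * x * b⁻¹ ∈ S) ∧ S ⊔ D = ⊤}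
    have hE : E ∈ ℱ := ⟨hEB, hEn, hED⟩
    obtain ⟨F, hFE, hFmin⟩ := (Set.toFinite ℱ).exists_le_minimal hE
    obtain ⟨hFB, hFn, hFD⟩ := hFmin.prop
    have hFleast : ∀ S ∈ ℱ, F ≤ S := by
      rintro S ⟨hSB, hSn, hSD⟩
      have h := meet_closed D hperf hFD hSD
        (comm_le_of_nor (fun t ht x hx => hFn t (hSB ht) x hx) (fun s hs x hx => hSn s (hFB hs) x hx))
      have hinf : F ⊓ S ∈ ℱ := ⟨inf_le_left.trans hFB,
        fun b hb x hx => ⟨hFn b hb x hx.1, hSn b hb x hx.2⟩, h⟩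
      exact (hFmin.le_of_le hinf inf_le_left).trans inf_le_right
    have hFnormal : F.Normal := by
      refine ⟨fun x hx g => ?_⟩
      -- the conjugate of `F` by `g⁻¹`
      let c := (MulAut.conj g⁻¹).toMonoidHom
      have hmem : F.map c ∈ ℱ := by
        refine ⟨?_, ?_, ?_⟩
        · rintro _ ⟨y, hy, rfl⟩
          exact hBn.conj_mem y (hFB hy) g⁻¹
        · rintro b hb _ ⟨y, hy, rfl⟩
          have hb' : g * b * g⁻¹ ∈ B := hBn.conj_mem b hb g
          refine ⟨g * b * g⁻¹ * y * (g * b * g⁻¹)⁻¹, hFn _ hb' y hy, ?_⟩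
          simp only [c, MulEquiv.coe_toMonoidHom, MulAut.conj_apply]
          group
        · have hDc : D.map c = D := by
            ext y
            constructor
            · rintro ⟨z, hz, rfl⟩
              exact ‹D.Normal›.conj_mem z hz g⁻¹
            · intro hy
              refine ⟨g * y * g⁻¹, ‹D.Normal›.conj_mem y hy g, ?_⟩
              simp only [c, MulEquiv.coe_toMonoidHom, MulAut.conj_apply]
              group
          have h : (F ⊔ D).map c = F.map c ⊔ D := by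
            rw [Subgroup.map_sup, hDc]
          rw [← h, hFD]
          exact Subgroup.map_top_of_surjective _ (MulAut.conj g⁻¹).surjective
      obtain ⟨z, hz, hzeq⟩ := hFleast _ hmem hx
      have h2 : g * x * g⁻¹ = z := by
        rw [← hzeq]
        simp only [c, MulEquiv.coe_toMonoidHom, MulAut.conj_apply]
        group
      rw [h2]
      exact hz
    exact (hleast F ⟨hFnormal, hFD⟩).trans hFE
  refine ⟨B, hBn, hBD, ?_⟩
  intro B' h
  induction h with
  | top => intro _; exact le_top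
  | step H K hle hK hN ih =>
    intro hHD
    have hKD : K ⊔ D = ⊤ := top_le_iff.mp (hHD ▸ sup_le_sup_right hle D)
    have hBK := ih hKD
    have hnorm : ∀ k ∈ K, ∀ x ∈ H, k * x * k⁻¹ ∈ H := by
      intro k hk x hx
      have h := hN.conj_mem ⟨x, hle hx⟩ (mem_subgroupOf.mpr hx) ⟨k, hk⟩
      exact mem_subgroupOf.mp h
    have hE : (H ⊓ B) ⊔ D = ⊤ := meet_closed D hperf hHD hBD
      (comm_le_of_nor (fun t ht x hx => hnorm t (hBK ht) x hx) (fun s _ x hx => hBn.conj_mem x hx s))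
    exact (key (H ⊓ B) inf_le_right
      (fun b hb x hx => ⟨hnorm b (hBK hb) x hx.1, hBn.conj_mem x hx.2 b⟩) hE).trans inf_le_left

end Cfsg.Agent.S3027
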