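import Cfsg.Statements.S3035
import Cfsg.Agent.Lib.D8Index2.Main
import Cfsg.Agent.S0495
import Cfsg.Agent.S0497
import Cfsg.Agent.S0255

set_option autoImplicit false
open Cfsg

set_option linter.style.haveILetI false

namespace Cfsg.Agent.S3035

/-- `SL₃(2)` has trivial centre, so it is isomorphic to `PSL₃(2)`. -/
lemma center_eq_bot : Subgroup.center (Matrix.SpecialLinearGroup (Fin 3) (ZMod 2)) = ⊥ := by
  rw [eq_bot_iff]
  intro A hA
  rw [Subgroup.mem_bot]
  obtain ⟨r, hr, hrA⟩ := Matrix.SpecialLinearGroup.mem_center_iff.mp hA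
  have h0 : ∀ r : ZMod 2, r ^ Fintype.card (Fin 3) = 1 → r = 1 := by decide
  have h1 : r = 1 := h0 r hr
  apply Subtype.ext
  rw [← hrA, h1]
  simp

noncomputable def pslEquiv :
    Matrix.ProjectiveSpecialLinearGroup (Fin 3) (ZMod 2) ≃*
      Matrix.SpecialLinearGroup (Fin 3) (ZMod 2) :=
  (QuotientGroup.quotientMulEquivOfEq center_eq_bot).trans QuotientGroup.quotientBot

/-- Let G be a finite group with an involution z whose centralizer is dihedral of order 8. Then G = C_G(z) O(G) with O(G) the largest normal subgroup of odd order, or G is isomorphic to the symmetric group of degree 4, the symmetric group of degree 5, the group SL₃(2), or the alternating group of degree 6. -/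
theorem result {G : Type*} [Group G] [Finite G] (z : G) (hz : orderOf z = 2)
    (hC : Nonempty (↥(Subgroup.centralizer ({z} : Set G)) ≃* DihedralGroup 4)) :
    Subgroup.centralizer ({z} : Set G) ⊔ Cfsg.oddCore G = ⊤ ∨ Nonempty (G ≃* Equiv.Perm (Fin 4)) ∨ Nonempty (G ≃* Equiv.Perm (Fin 5)) ∨
      Nonempty (G ≃* Matrix.SpecialLinearGroup (Fin 3) (ZMod 2)) ∨ Nonempty (G ≃* ↥(alternatingGroup (Fin 6))) := by
  obtain ⟨e⟩ := hC
  by_cases hidx : ∀ H : Subgroup G, H.index ≠ 2
  · haveI := Cfsg.Agent.Lib.Invol8.Simple.isSimpleGroup_of z e hz hidx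
    rcases Cfsg.Agent.Lib.Invol8.Main.card_eq_168_or_360 z e hz hidx with h | h
    · right; right; right; left
      haveI : Fact (Nat.Prime 7) := ⟨by norm_num⟩
      haveI : Fact (Nat.Prime 2) := ⟨by norm_num⟩
      obtain ⟨e1⟩ := Cfsg.Agent.S0495.result h (F := ZMod 7) (ZMod.card 7)
      obtain ⟨e2⟩ := Cfsg.Agent.S0255.result (F := ZMod 7) (K := ZMod 2) (ZMod.card 7) (ZMod.card 2)
      exact ⟨e1.trans (e2.trans pslEquiv)⟩
    · right; right; right; right
      exact Cfsg.Agent.S0497.result h
  · push Not at hidx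
    obtain ⟨H, hH⟩ := hidx
    rcases Cfsg.Agent.Lib.D8Index2.Main.index_two_case z e H hz hH with h | h | h
    · left; exact h
    · right; left; exact h
    · right; right; left; exact h

end Cfsg.Agent.S3035
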