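import Cfsg.Statements.S3044
import Cfsg.Agent.Lib.PIso.Local
import Cfsg.Agent.Lib.PIso.Comp

set_option autoImplicit false
open Cfsg

namespace Cfsg.Agent.S3044

set_option linter.style.haveILetI false

open Subgroup Cfsg Cfsg.Agent.Lib.Core.Basic Cfsg.Agent.Lib.Components.Basic
  Cfsg.Agent.Lib.Transfer.Basic Cfsg.Agent.Lib.PIso.Basic Cfsg.Agent.Lib.PIso.Local Cfsg.Agent.Lib.PIso.Comp
open scoped commutatorElement

/-- Let G be a finite group, p a prime, S a Sylow p-subgroup of G and P a p-minimal subgroup of G containing S (S is not normal in P and lies in exactly one maximal subgroup of P). Let L be the subgroup generated by N_G(S) and all p-minimal subgroups of G containing S other than P, and suppose P is isolated: O_p(L) is not contained in O_p(P). Put Y for the normal closure of O^p(P) in G. Then G = YL; P is again isolated in the subgroup YS (the subgroup L₀ generated by N_{YS}(S) and the p-minimal subgroups of YS containing S other than P has O_p(L₀) not contained in O_p(P)); and either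 Y = O^p(P), or p divides |Y/O_p(Y)|, Y/O_p(Y) is generated by its components (a central product of quasisimple groups), and S permutes these components transitively by conjugation. -/
theorem result {G : Type*} [Group G] [Finite G] {p : ℕ} [Fact p.Prime] (S : Sylow p G) (P : Subgroup G) (hSP : (S : Subgroup G) ≤ P) (hPmin : Cfsg.IsPMinimal p ↥P)
    (L Y : Subgroup G)
    (hL : L = Subgroup.normalizer ((S : Subgroup G) : Set G) ⊔ ⨆ P' : {P' : Subgroup G // (S : Subgroup G) ≤ P' ∧ Cfsg.IsPMinimal p ↥P' ∧ P' ≠ P}, (P' : Subgroup G))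
    (hiso : ¬ (Cfsg.pCore p ↥L).map L.subtype ≤ (Cfsg.pCore p ↥P).map P.subtype)
    (hY : Y = Subgroup.normalClosure (((Cfsg.pResidual p ↥P).map P.subtype : Subgroup G) : Set G)) :
    Y ⊔ L = ⊤ ∧
    ¬ (Cfsg.pCore p ↥((Subgroup.normalizer ((S : Subgroup G) : Set G) ⊓ (Y ⊔ (S : Subgroup G))) ⊔
          ⨆ P' : {P' : Subgroup G // (S : Subgroup G) ≤ P' ∧ P' ≤ Y ⊔ (S : Subgroup G) ∧ Cfsg.IsPMinimal p ↥P' ∧ P' ≠ P}, (P' : Subgroup G))).map
        (Subgroup.subtype _) ≤ (Cfsg.pCore p ↥P).map P.subtype ∧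
    ((Cfsg.pResidual p ↥P).map P.subtype = Y ∨
     ∃ _ : (Cfsg.pCore p ↥Y).Normal,
       p ∣ Nat.card (↥Y ⧸ Cfsg.pCore p ↥Y) ∧ Cfsg.layer (↥Y ⧸ Cfsg.pCore p ↥Y) = ⊤ ∧
       ∀ K₁ K₂ : Subgroup (↥Y ⧸ Cfsg.pCore p ↥Y), Cfsg.IsComponent K₁ → Cfsg.IsComponent K₂ →
         ∃ s ∈ (S : Subgroup G), ((K₂.comap (QuotientGroup.mk' (Cfsg.pCore p ↥Y))).map Y.subtype) = (((K₁.comap (QuotientGroup.mk' (Cfsg.pCore p ↥Y))).map Y.subtype)).map (MulAut.conj s).toMonoidHom) := by
  classical
  have I := isoData_quot S P L hiso hSP hL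
  have hSL := sylow_le_L S P L hL
  have hRS := R_le_S S P L hL
  have hXY : pRes p P ≤ Y := by
    rw [hY]
    exact subset_normalClosure
  have hYn : Y.Normal := hY ▸ normalClosure_normal
  refine ⟨?_, ?_, ?_⟩
  · rw [eq_top_iff, ← genG S P L hSP hL]
    exact sup_le_sup_right hXY L
  · intro hle
    apply hiso
    refine le_trans ?_ hle
    apply le_pCore_of_normal_in
    · refine hRS.trans ?_
      refine le_trans ?_ le_sup_left
      exact le_inf le_normalizer le_sup_right
    · have h1 : IsPGroup p (pCoreIn p L) := pCore_isPGroup.map _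
      exact h1
    · refine le_trans (sup_le ?_ (iSup_le fun Q => ?_)) L_le_normalizer_R
      · refine inf_le_left.trans ?_
        rw [hL]
        exact le_sup_left
      · rw [hL]
        refine le_trans ?_ le_sup_right
        exact le_iSup (fun P' : {P' : Subgroup G // (S : Subgroup G) ≤ P' ∧ IsPMinimal p ↥P' ∧ P' ≠ P} =>
          (P' : Subgroup G)) ⟨Q, Q.2.1, Q.2.2.2.1, Q.2.2.2.2⟩
  set D := pCore p G with hD
  haveI hDn : D.Normal := pCore_normal p G
  set π := QuotientGroup.mk' D with hπ
  have hπs : Function.Surjective π := QuotientGroup.mk'_surjective D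
  have hkerπ : π.ker = D := QuotientGroup.ker_mk' D
  set X := pRes p P with hXdef
  set T := Y.map π with hTdef
  have hT : T = normalClosure ((X.map π : Subgroup _) : Set (G ⧸ D)) := by
    rw [hTdef, hY, Subgroup.map_normalClosure _ _ hπs]
    exact congrArg normalClosure (Subgroup.coe_map π X).symm
  have hTn : T.Normal := hT ▸ normalClosure_normal
  by_cases hXF : X.map π ≤ fittingSubgroup (G ⧸ D)
  · left
    have hTF : T ≤ fittingSubgroup (G ⧸ D) := by
      rw [hT]
      exact normalClosure_le_normal (by exact_mod_cast hXF)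
    have hnil : Group.IsNilpotent T := nilpotent_of_subgroup_le hTF fittingSubgroup_isNilpotent
    obtain ⟨t, ht, htp, htT, hXT, hcl⟩ := I.main_nilp hT hnil
    have hXn : X.Normal := pRes_normal_of_map_normal S P hSP (by rw [hXT]; exact hTn)
    rw [hY]
    exact (normalClosure_eq_self X).symm
  · right
    obtain ⟨hsup, htrans, hdvd⟩ := IsoData.main_comp I hT hXF
    refine ⟨pCore_normal p Y, ?_⟩
    -- the isomorphism
    let φ : Y →* T := π.subgroupMap Y
    have hφs : Function.Surjective φ := π.subgroupMap_surjective Y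
    have hφ : ∀ y : Y, ((φ y : T) : G ⧸ D) = π (y : G) := fun y => rfl
    have hker : pCore p Y = φ.ker := by
      apply le_antisymm
      · intro y hy
        rw [MonoidHom.mem_ker]
        apply Subtype.ext
        rw [hφ]
        have h1 : (y : G) ∈ D := map_pCore_le_of_isSubnormal hYn.isSubnormal ⟨y, hy, rfl⟩
        have h2 : (y : G) ∈ π.ker := by rw [hkerπ]; exact h1
        exact h2
      · intro y hy
        rw [MonoidHom.mem_ker] at hy
        have h1 : π (y : G) = 1 := by
          have := congrArg Subtype.val hy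
          exact this
        have h2 : (y : G) ∈ D := by
          rw [← hkerπ]
          exact h1
        have hle : D.subgroupOf Y ≤ pCore p Y := by
          apply le_pCore
          · infer_instance
          · exact (pCore_isPGroup : IsPGroup p D).comap_subtype (K := Y)
        exact hle h2
    let e : (↥Y ⧸ pCore p ↥Y) ≃* T :=
      (QuotientGroup.quotientMulEquivOfEq hker).trans (QuotientGroup.quotientKerEquivOfSurjective φ hφs)
    have he : ∀ y : Y, e (y : ↥Y ⧸ pCore p ↥Y) = φ y := fun y => rfl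
    have hlayerT : layer T = ⊤ := by
      rw [eq_top_iff]
      have h1 : T ≤ (layer T).map T.subtype := by
        conv_lhs => rw [hsup]
        refine sSup_le fun K hK => ?_
        have h2 : IsComponent (K.subgroupOf T) := (isComponent_subgroupOf_iff hTn.isSubnormal hK.2).2 hK.1
        have h3 : K.subgroupOf T ≤ layer T := le_layer_of_isComponent h2
        have h4 := map_mono (f := T.subtype) h3
        rwa [map_subgroupOf_eq_of_le hK.2] at h4
      intro x _
      obtain ⟨y, hy, hyx⟩ := h1 x.2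
      have : y = x := Subtype.ext hyx
      rwa [← this]
    refine ⟨?_, ?_, ?_⟩
    · rw [Nat.card_congr e.toEquiv]
      exact hdvd
    · have h1 := layer_map_mulEquiv e
      rw [hlayerT] at h1
      apply Subgroup.map_injective (f := e.toMonoidHom) e.injective
      have h2 : (⊤ : Subgroup (↥Y ⧸ pCore p ↥Y)).map e.toMonoidHom = ⊤ :=
        map_top_of_surjective _ e.surjective
      rw [h1, h2]
    · intro K₁ K₂ hK₁ hK₂
      have hcomp : ∀ K : Subgroup (↥Y ⧸ pCore p ↥Y), IsComponent K →
          IsComponent ((K.map e.toMonoidHom).map T.subtype) := by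
        intro K hK
        exact (isComponent_iff_map_subtype hTn.isSubnormal _).1 (isComponent_map_mulEquiv e hK)
      have hA : ∀ (K : Subgroup (↥Y ⧸ pCore p ↥Y)) (g : G),
          g ∈ (K.comap (QuotientGroup.mk' (pCore p Y))).map Y.subtype ↔
            g ∈ Y ∧ π g ∈ (K.map e.toMonoidHom).map T.subtype := by
        intro K g
        constructor
        · rintro ⟨y, hy, rfl⟩
          refine ⟨y.2, ⟨e (y : ↥Y ⧸ pCore p ↥Y), ⟨_, hy, rfl⟩, ?_⟩⟩
          rw [he]
          rfl
        · rintro ⟨hg, ⟨t, ⟨q, hq, rfl⟩, ht⟩⟩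
          have h1 : e q = φ ⟨g, hg⟩ := Subtype.ext ht
          have h2 : e q = e ((⟨g, hg⟩ : Y) : ↥Y ⧸ pCore p ↥Y) := by rw [h1, he]
          have h3 := e.injective h2
          refine ⟨⟨g, hg⟩, ?_, rfl⟩
          show ((⟨g, hg⟩ : Y) : ↥Y ⧸ pCore p ↥Y) ∈ K
          rw [← h3]
          exact hq
      have hleT : ∀ K : Subgroup (↥Y ⧸ pCore p ↥Y), (K.map e.toMonoidHom).map T.subtype ≤ T :=
        fun K => map_subtype_le _
      obtain ⟨sbar, ⟨s, hs, rfl⟩, hsbar⟩ := htrans _ _ (hcomp K₁ hK₁) (hleT K₁) (hcomp K₂ hK₂) (hleT K₂)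
      refine ⟨s, hs, ?_⟩
      ext g
      rw [hA, hsbar]
      constructor
      · rintro ⟨hg, ⟨a, ha, hae⟩⟩
        have h1 : s⁻¹ * g * s⁻¹⁻¹ ∈ Y := hYn.conj_mem g hg s⁻¹
        have h2 : π (s⁻¹ * g * s⁻¹⁻¹) = a := by
          have hae' : π s * a * (π s)⁻¹ = π g := hae
          rw [inv_inv, map_mul, map_mul, map_inv, ← hae']
          group
        refine ⟨s⁻¹ * g * s⁻¹⁻¹, (hA K₁ _).2 ⟨h1, by rw [h2]; exact ha⟩, ?_⟩
        show s * (s⁻¹ * g * s⁻¹⁻¹) * s⁻¹ = g
        group
      · rintro ⟨h, hh, rfl⟩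
        obtain ⟨h1, h2⟩ := (hA K₁ h).1 hh
        refine ⟨hYn.conj_mem h h1 s, ⟨π h, h2, ?_⟩⟩
        show π s * π h * (π s)⁻¹ = π (s * h * s⁻¹)
        rw [map_mul, map_mul, map_inv]

end Cfsg.Agent.S3044
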