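import Cfsg.Statements.S3045
import Cfsg.Agent.Lib.PIso.Local

set_option autoImplicit false
open Cfsg

namespace Cfsg.Agent.S3045

set_option linter.style.haveILetI false

open Subgroup Cfsg Cfsg.Agent.Lib.Core.Basic Cfsg.Agent.Lib.Components.Basic
  Cfsg.Agent.Lib.Transfer.Basic Cfsg.Agent.Lib.PIso.Basic Cfsg.Agent.Lib.PIso.Local
open scoped commutatorElement

/-- Let G be a finite group, p a prime, S a Sylow p-subgroup of G and P a p-minimal subgroup of G containing S. Let L be the subgroup generated by N_G(S) and all p-minimal subgroups of G containing S other than P, and suppose O_p(L) is not contained in O_p(P). Put Y for the normal closure of O^p(P) in G. Then O^p(P) is contained in the preimage in G of F*(G/O_p(G)); and if Y is solvable, then Y = O^p(P) and Y/O_p(Y) is a t-group of nilpotency class at most 2 for some prime t ≠ p. -/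
theorem result {G : Type*} [Group G] [Finite G] {p : ℕ} [Fact p.Prime] (S : Sylow p G) (P : Subgroup G) (hSP : (S : Subgroup G) ≤ P) (hPmin : Cfsg.IsPMinimal p ↥P)
    (L Y : Subgroup G)
    (hL : L = Subgroup.normalizer ((S : Subgroup G) : Set G) ⊔ ⨆ P' : {P' : Subgroup G // (S : Subgroup G) ≤ P' ∧ Cfsg.IsPMinimal p ↥P' ∧ P' ≠ P}, (P' : Subgroup G))
    (hiso : ¬ (Cfsg.pCore p ↥L).map L.subtype ≤ (Cfsg.pCore p ↥P).map P.subtype)
    (hY : Y = Subgroup.normalClosure (((Cfsg.pResidual p ↥P).map P.subtype : Subgroup G) : Set G)) [hn : (Cfsg.pCore p G).Normal] :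
    (Cfsg.pResidual p ↥P).map P.subtype ≤ (Cfsg.generalizedFittingSubgroup (G ⧸ Cfsg.pCore p G)).comap (QuotientGroup.mk' (Cfsg.pCore p G)) ∧
    (Group.IsSolvable ↥Y → (Cfsg.pResidual p ↥P).map P.subtype = Y ∧
       ∃ _ : (Cfsg.pCore p ↥Y).Normal, ∃ t : ℕ, t.Prime ∧ t ≠ p ∧ IsPGroup t (↥Y ⧸ Cfsg.pCore p ↥Y) ∧
         ∃ _ : Group.IsNilpotent (↥Y ⧸ Cfsg.pCore p ↥Y), Group.nilpotencyClass (↥Y ⧸ Cfsg.pCore p ↥Y) ≤ 2) := by
  classical
  have I := isoData_quot S P L hiso hSP hL
  have hX := I.le_gF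
  refine ⟨map_le_iff_le_comap.1 hX, ?_⟩
  intro hYs
  set D := pCore p G with hD
  set π := QuotientGroup.mk' D with hπ
  have hπs : Function.Surjective π := QuotientGroup.mk'_surjective D
  have hkerπ : π.ker = D := QuotientGroup.ker_mk' D
  have hDS : D ≤ (S : Subgroup G) := pCore_le_sylow S
  set X := pRes p P with hXdef
  have hXP : X ≤ P := pRes_le P
  set T := Y.map π with hTdef
  have hT : T = normalClosure ((X.map π : Subgroup _) : Set (G ⧸ D)) := by
    rw [hTdef, hY, Subgroup.map_normalClosure _ _ hπs]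
    exact congrArg normalClosure (Subgroup.coe_map π X).symm
  have hTn : T.Normal := hT ▸ normalClosure_normal
  have hTgF : T ≤ generalizedFittingSubgroup (G ⧸ D) := by
    rw [hT]
    exact normalClosure_le_normal (by exact_mod_cast hX)
  have hTsol : Group.IsSolvable T :=
    Group.isSolvable_of_surjective (f := π.subgroupMap Y) (π.subgroupMap_surjective Y)
  have hTF := le_fitting_of_solvable hTn hTsol hTgF
  have hnil : Group.IsNilpotent T := nilpotent_of_subgroup_le hTF fittingSubgroup_isNilpotent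
  obtain ⟨t, ht, htp, htT, hXT, hcl⟩ := I.main_nilp hT hnil
  -- `X` is normal in `G`
  have hXn : X.Normal := by
    constructor
    intro n hn g
    have hle : X ≤ X.comap (MulAut.conj g).toMonoidHom := by
      show (pResidual p P).map P.subtype ≤ _
      rw [map_le_iff_le_comap]
      show Subgroup.closure _ ≤ _
      rw [Subgroup.closure_le]
      intro g₀ hg₀
      have hg₁ : (g₀ : G) ∈ X := ⟨g₀, mem_pResidual_of_coprime p hg₀, rfl⟩
      show g * (g₀ : G) * g⁻¹ ∈ X
      have h1 : π (g * (g₀ : G) * g⁻¹) ∈ X.map π := by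
        rw [hXT]
        rw [map_mul, map_mul, map_inv]
        apply hTn.conj_mem
        rw [← hXT]
        exact ⟨_, hg₁, rfl⟩
      obtain ⟨x', hx', hxe⟩ := h1
      have h2 : x'⁻¹ * (g * (g₀ : G) * g⁻¹) ∈ D := by
        rw [← hkerπ, MonoidHom.mem_ker, map_mul, map_inv, hxe, inv_mul_cancel]
      have h3 : g * (g₀ : G) * g⁻¹ ∈ P := by
        have h4 := P.mul_mem (hXP hx') (hSP (hDS h2))
        simpa using h4
      have h5 : (orderOf (⟨_, h3⟩ : P)).Coprime p := by
        rw [Subgroup.orderOf_mk]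
        have h6 : orderOf (g * (g₀ : G) * g⁻¹) = orderOf g₀ := by
          rw [← Subgroup.orderOf_coe g₀]
          simpa using (MulAut.conj g).orderOf_eq (g₀ : G)
        rw [h6]
        exact hg₀
      exact ⟨⟨_, h3⟩, mem_pResidual_of_coprime p h5, rfl⟩
    exact hle hn
  have hYX : Y = X := by
    rw [hY]
    exact normalClosure_eq_self X
  have hYn : Y.Normal := hYX ▸ hXn
  refine ⟨hYX.symm, pCore_normal p _, t, ht, htp, ?_⟩
  have hker : ∀ y : Y, π (y : G) = 1 → y ∈ pCore p Y := by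
    have hle : D.subgroupOf Y ≤ pCore p Y := by
      apply le_pCore
      · haveI : D.Normal := pCore_normal p G
        infer_instance
      · exact (pCore_isPGroup : IsPGroup p D).comap_subtype (K := Y)
    intro y hy
    apply hle
    rw [mem_subgroupOf, ← hkerπ, MonoidHom.mem_ker]
    exact hy
  haveI hQf : Finite (↥Y ⧸ pCore p ↥Y) := inferInstance
  have hQp : IsPGroup t (↥Y ⧸ pCore p ↥Y) := by
    intro q
    obtain ⟨y, rfl⟩ := QuotientGroup.mk_surjective q
    obtain ⟨k, hk⟩ := htT ⟨π (y : G), ⟨_, y.2, rfl⟩⟩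
    refine ⟨k, ?_⟩
    have h1 : π (y : G) ^ t ^ k = 1 := congrArg Subtype.val hk
    rw [← QuotientGroup.mk_pow, QuotientGroup.eq_one_iff]
    apply hker
    push_cast
    rw [map_pow, h1]
  refine ⟨hQp, ?_⟩
  haveI : Fact t.Prime := ⟨ht⟩
  have hQn : Group.IsNilpotent (↥Y ⧸ pCore p ↥Y) := hQp.isNilpotent
  refine ⟨hQn, ?_⟩
  rw [← Subgroup.upperCentralSeries_eq_top_iff_nilpotencyClass_le, eq_top_iff]
  intro a _
  obtain ⟨a, rfl⟩ := QuotientGroup.mk_surjective a
  rw [Subgroup.mem_upperCentralSeries_succ_iff]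
  intro b
  obtain ⟨b, rfl⟩ := QuotientGroup.mk_surjective b
  rw [Subgroup.upperCentralSeries_one, mem_center_iff]
  intro c
  obtain ⟨c, rfl⟩ := QuotientGroup.mk_surjective c
  have hmemT : ∀ y : Y, π (y : G) ∈ T := fun y => ⟨_, y.2, rfl⟩
  have h1 : ⁅π (c : G), ⁅π (a : G), π (b : G)⁆⁆ ∈ (⊥ : Subgroup (G ⧸ D)) := by
    rw [← hcl]
    exact commutator_mem_commutator (hmemT c) (commutator_mem_commutator (hmemT a) (hmemT b))
  rw [mem_bot] at h1
  have h2 : ⁅c, ⁅a, b⁆⁆ ∈ pCore p Y := by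
    apply hker
    have e : ((⁅c, ⁅a, b⁆⁆ : Y) : G) = ⁅(c : G), ⁅(a : G), (b : G)⁆⁆ := rfl
    rw [e, map_commutatorElement, map_commutatorElement]
    exact h1
  have h3 : ((⁅c, ⁅a, b⁆⁆ : Y) : ↥Y ⧸ pCore p ↥Y) = 1 := (QuotientGroup.eq_one_iff _).2 h2
  have h4 : ⁅(c : ↥Y ⧸ pCore p ↥Y), ⁅(a : ↥Y ⧸ pCore p ↥Y), (b : ↥Y ⧸ pCore p ↥Y)⁆⁆ = 1 := h3
  rw [commutatorElement_eq_one_iff_mul_comm] at h4
  exact h4

end Cfsg.Agent.S3045
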