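import Cfsg.Statements.S3048
import Cfsg.Agent.S3012
import Cfsg.Agent.S3013
import Cfsg.Agent.Lib.Components.Basic
import Cfsg.Agent.Lib.Components.GenFitting
import Cfsg.Agent.Lib.CharP.Basic
import Cfsg.Agent.Lib.HSubgroup.Basic
import Cfsg.Agent.Lib.SolvStruct.Fit
import Cfsg.Agent.Lib.Transfer.Basic

set_option autoImplicit false
universe u
open Cfsg

namespace Cfsg.Agent.S3048

open Cfsg Subgroup Cfsg.Agent.Lib.Components.Basic Cfsg.Agent.Lib.Components.GenFitting
open Cfsg.Agent.Lib.Core.Basic Cfsg.Agent.Lib.CharP.Basic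
open scoped commutatorElement

section aux

variable {G : Type u} [Group G] [Finite G]

/-- The minimality hypothesis in usable form. -/
theorem apply_min {V : Subgroup G} (hV : IsElementaryAbelian 2 V)
    (hminG : ∀ (H : Type u) [Group H] [Finite H] (W : Subgroup H), Nat.card H < Nat.card G →
      IsElementaryAbelian 2 W → W ≠ ⊥ → IsSidkiPair W → W ⊓ pCore 2 H ≠ ⊥)
    {H W : Subgroup G} (hWV : W ≤ V) (hWH : W ≤ H) (hH : H ≠ ⊤) (hW1 : W ≠ ⊥)
    (hS : ∀ h ∈ H, ∀ v ∈ W, Odd (orderOf h) → v * h * v⁻¹ = h⁻¹ →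
      ∃ w ∈ W, w ≠ 1 ∧ w * h = h * w) :
    ∃ a ∈ W, a ≠ 1 ∧ a ∈ OpIn 2 H := by
  have hcard : Nat.card H < Nat.card G :=
    Nat.lt_of_le_of_ne (Subgroup.card_le_card_group H) (mt (Subgroup.eq_top_of_card_eq H) hH)
  have h1 := hminG ↥H (W.subgroupOf H) hcard ⟨?_, ?_⟩ ?_ ?_
  · obtain ⟨⟨a, ha1, ha2⟩, hane⟩ := (Subgroup.ne_bot_iff_exists_ne_one).1 h1
    refine ⟨a, mem_subgroupOf.1 ha1, ?_, ⟨a, ha2, rfl⟩⟩
    intro h
    apply hane
    apply Subtype.ext
    exact Subtype.ext h
  · refine ⟨⟨?_⟩⟩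
    rintro ⟨⟨a, ha⟩, ha'⟩ ⟨⟨b, hb⟩, hb'⟩
    apply Subtype.ext
    apply Subtype.ext
    have h2 := hV.1.is_comm.comm (⟨a, hWV (mem_subgroupOf.1 ha')⟩ : V) ⟨b, hWV (mem_subgroupOf.1 hb')⟩
    show a * b = b * a
    exact congrArg Subtype.val h2
  · rintro ⟨a, ha⟩ ha'
    apply Subtype.ext
    simpa using hV.2 a (hWV (mem_subgroupOf.1 ha'))
  · intro hb
    apply hW1
    rw [eq_bot_iff]
    intro r hr
    have h2 : (⟨r, hWH hr⟩ : H) ∈ W.subgroupOf H := by rwa [mem_subgroupOf]
    rw [hb, mem_bot] at h2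
    rw [mem_bot]
    exact congrArg Subtype.val h2
  · rintro ⟨h, hh⟩ ⟨v, hv⟩ hv' hodd hinv
    have hodd' : Odd (orderOf h) := by rwa [Subgroup.orderOf_mk] at hodd
    have hinv' : v * h * v⁻¹ = h⁻¹ := congrArg Subtype.val hinv
    obtain ⟨w, hw, hw1, hwc⟩ := hS h hh v (mem_subgroupOf.1 hv') hodd' hinv'
    refine ⟨⟨w, hWH hw⟩, by rwa [mem_subgroupOf], fun h2 => hw1 (congrArg Subtype.val h2), ?_⟩
    exact Subtype.ext hwc

/-- The `O₂` of an overgroup centralizes a subnormal subgroup normal in it, when `O₂(G) = 1`. -/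
theorem comm_of_core {K H : Subgroup G} (hO : pCore 2 G = ⊥) (hK : K.IsSubnormal) (hKH : K ≤ H)
    (hn : ∀ h ∈ H, ∀ k ∈ K, h * k * h⁻¹ ∈ K) {a : G} (ha : a ∈ OpIn 2 H) :
    ∀ k ∈ K, k * a = a * k := by
  intro k hk
  set R : Subgroup G := K ⊓ OpIn 2 H with hR
  have hRp : IsPGroup 2 R := (OpIn_isPGroup 2 H).to_le inf_le_right
  have hRn : (R.subgroupOf K).Normal := by
    refine ⟨fun n hn' g => ?_⟩
    rw [mem_subgroupOf] at hn' ⊢
    obtain ⟨h1, h2⟩ := hn'
    refine ⟨K.mul_mem (K.mul_mem g.2 h1) (K.inv_mem g.2), ?_⟩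
    simpa using OpIn_conj (hKH g.2) h2
  have hRs : R.IsSubnormal := Subgroup.IsSubnormal.trans inf_le_left hRn.isSubnormal hK
  have hle := subnormal_pgroup_le_pCore hRs hRp
  rw [hO, le_bot_iff] at hle
  have hc : k * a * k⁻¹ * a⁻¹ ∈ R := by
    constructor
    · have h1 := hn a ((OpIn_le 2 H) ha) k⁻¹ (K.inv_mem hk)
      have h2 : k * a * k⁻¹ * a⁻¹ = k * (a * k⁻¹ * a⁻¹) := by group
      rw [h2]
      exact K.mul_mem hk h1
    · exact (OpIn 2 H).mul_mem (OpIn_conj (hKH hk) ha) ((OpIn 2 H).inv_mem ha)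
  rw [hle, mem_bot] at hc
  rwa [mul_inv_eq_one, mul_inv_eq_iff_eq_mul] at hc

/-- Sidki's trick for abelian subgroups of odd order. -/
theorem abelian_trick {V A : Subgroup G} (hV : IsElementaryAbelian 2 V) (hS : IsSidkiPair V)
    (hV1 : V ≠ ⊥) (hAc : ∀ x ∈ A, ∀ y ∈ A, x * y = y * x) (hAn : ∀ v ∈ V, ∀ x ∈ A, v * x * v⁻¹ ∈ A)
    (hAo : ∀ x ∈ A, Odd (orderOf x)) (hC : ∀ a ∈ V, a ≠ 1 → ∃ y ∈ A, a * y * a⁻¹ ≠ y) : False := by
  classical
  have hinv : ∀ v ∈ V, v⁻¹ = v := fun v hv => by
    have h1 := hV.2 v hv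
    rw [pow_two] at h1
    exact inv_eq_of_mul_eq_one_left h1
  have hVc : ∀ a ∈ V, ∀ b ∈ V, a * b = b * a := fun a ha b hb =>
    congrArg Subtype.val (hV.1.is_comm.comm (⟨a, ha⟩ : V) ⟨b, hb⟩)
  have hsq : ∀ t ∈ A, t⁻¹ = t → t = 1 := by
    intro t ht h
    have h1 : t ^ 2 = 1 := by rw [pow_two]; exact inv_eq_iff_mul_eq_one.1 h |> fun h2 => h2
    have h2 : orderOf t ∣ 2 := orderOf_dvd_of_pow_eq_one h1
    have h3 := hAo t ht
    rcases (Nat.dvd_prime Nat.prime_two).1 h2 with h4 | h4
    · exact orderOf_eq_one_iff.1 h4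
    · rw [h4] at h3
      exact absurd h3 (by decide)
  have key : ∀ n : ℕ, ∀ u ∈ V, ∀ x ∈ A, x ≠ 1 → u * x * u⁻¹ = x⁻¹ →
      Nat.card ↥(V ⊓ centralizer ({x} : Set G)) = n → False := by
    intro n
    induction n using Nat.strong_induction_on with
    | _ n ih =>
    intro u hu x hx hx1 hux hn
    obtain ⟨a, haV, ha1, hax⟩ := hS x u hu (hAo x hx) hux
    obtain ⟨y, hy, hay⟩ := hC a haV ha1
    have hax' : a * x * a⁻¹ = x := by rw [hax]; simp
    have hua : u * a = a * u := hVc u hu a haV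
    have hauc : ∀ z : G, a * (u * z * u⁻¹) * a⁻¹ = u * (a * z * a⁻¹) * u⁻¹ := by
      intro z
      have h1 : u⁻¹ * a⁻¹ = a⁻¹ * u⁻¹ := by
        rw [← mul_inv_rev, ← mul_inv_rev, hua]
      calc a * (u * z * u⁻¹) * a⁻¹ = (a * u) * z * (u⁻¹ * a⁻¹) := by group
        _ = (u * a) * z * (a⁻¹ * u⁻¹) := by rw [hua, h1]
        _ = u * (a * z * a⁻¹) * u⁻¹ := by group
    -- an element inverted by `a`
    set y₁ := y * (a * y * a⁻¹)⁻¹ with hy₁
    have hy₁A : y₁ ∈ A := A.mul_mem hy (A.inv_mem (hAn a haV y hy))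
    have hy₁1 : y₁ ≠ 1 := by
      intro h
      rw [hy₁, mul_inv_eq_one] at h
      exact hay h.symm
    have hay₁ : a * y₁ * a⁻¹ = y₁⁻¹ := by
      have h1 : a⁻¹ = a := hinv a haV
      have h2 : a * (a * y * a⁻¹)⁻¹ * a⁻¹ = y⁻¹ := by
        rw [h1]
        have h3 : a * a = 1 := by rw [← pow_two]; exact hV.2 a haV
        calc a * (a * y * a)⁻¹ * a = a * a⁻¹ * y⁻¹ * a⁻¹ * a := by group
          _ = y⁻¹ := by group
      calc a * y₁ * a⁻¹ = (a * y * a⁻¹) * (a * (a * y * a⁻¹)⁻¹ * a⁻¹) := by rw [hy₁]; group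
        _ = (a * y * a⁻¹) * y⁻¹ := by rw [h2]
        _ = y₁⁻¹ := by rw [hy₁]; group
    -- the new pair
    obtain ⟨t, u', htA, ht1, hat, hu'V, hu't, hu'x⟩ : ∃ t u' : G, t ∈ A ∧ t ≠ 1 ∧
        a * t * a⁻¹ = t⁻¹ ∧ u' ∈ V ∧ u' * t * u'⁻¹ = t⁻¹ ∧ u' * x * u'⁻¹ = x⁻¹ := by
      by_cases h3 : y₁ * (u * y₁ * u⁻¹)⁻¹ = 1
      · have hfix : u * y₁ * u⁻¹ = y₁ := by
          rw [mul_inv_eq_one] at h3
          exact h3.symm
        refine ⟨y₁, u * a, hy₁A, hy₁1, hay₁, V.mul_mem hu haV, ?_, ?_⟩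
        · calc u * a * y₁ * (u * a)⁻¹ = u * (a * y₁ * a⁻¹) * u⁻¹ := by group
            _ = (u * y₁ * u⁻¹)⁻¹ := by rw [hay₁]; group
            _ = y₁⁻¹ := by rw [hfix]
        · calc u * a * x * (u * a)⁻¹ = u * (a * x * a⁻¹) * u⁻¹ := by group
            _ = x⁻¹ := by rw [hax', hux]
      · refine ⟨y₁ * (u * y₁ * u⁻¹)⁻¹, u, A.mul_mem hy₁A (A.inv_mem (hAn u hu y₁ hy₁A)), h3, ?_, hu, ?_, hux⟩
        · have h4 : a * (u * y₁ * u⁻¹) * a⁻¹ = (u * y₁ * u⁻¹)⁻¹ := by
            rw [hauc, hay₁]; group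
          have h5 : a * (y₁ * (u * y₁ * u⁻¹)⁻¹) * a⁻¹ =
              (a * y₁ * a⁻¹) * (a * (u * y₁ * u⁻¹) * a⁻¹)⁻¹ := by group
          rw [h5, h4, hay₁]
          have h6 := hAc y₁⁻¹ (A.inv_mem hy₁A) (u * y₁ * u⁻¹) (hAn u hu y₁ hy₁A)
          rw [inv_inv, h6]
          group
        · have huu : u⁻¹ = u := hinv u hu
          have huu2 : u * u = 1 := by rw [← pow_two]; exact hV.2 u hu
          have h5 : u * (y₁ * (u * y₁ * u⁻¹)⁻¹) * u⁻¹ =
              (u * y₁ * u⁻¹) * (u * (u * y₁ * u⁻¹) * u⁻¹)⁻¹ := by group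
          have h7 : u * (u * y₁ * u⁻¹) * u⁻¹ = y₁ := by
            rw [huu]
            calc u * (u * y₁ * u) * u = (u * u) * y₁ * (u * u) := by group
              _ = y₁ := by rw [huu2]; group
          rw [h5, h7]
          group
    have hAx : x * t ∈ A := A.mul_mem hx htA
    have hcomm : x * t = t * x := hAc x hx t htA
    have hx'1 : x * t ≠ 1 := by
      intro h
      have h1 : t = x⁻¹ := by
        rw [eq_inv_iff_mul_eq_one, ← hcomm]; exact h
      have h2 : a * t * a⁻¹ = t := by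
        rw [h1]
        have h3 : a * x⁻¹ * a⁻¹ = (a * x * a⁻¹)⁻¹ := by group
        rw [h3, hax']
      apply ht1
      apply hsq t htA
      rw [← hat, h2]
    have hat' : a * (x * t) * a⁻¹ = x * t⁻¹ := by
      have h3 : a * (x * t) * a⁻¹ = (a * x * a⁻¹) * (a * t * a⁻¹) := by group
      rw [h3, hax', hat]
    have hle : V ⊓ centralizer ({x * t} : Set G) ≤ V ⊓ centralizer ({x} : Set G) := by
      rintro w ⟨hwV, hwc'⟩
      have hwc : w * (x * t) = (x * t) * w := mem_centralizer_singleton_iff.1 hwc'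
      refine ⟨hwV, mem_centralizer_singleton_iff.2 ?_⟩
      have hwa : a * w * a⁻¹ = w := by
        rw [hVc a haV w hwV]; group
      have h4 : w * (x * t⁻¹) = (x * t⁻¹) * w := by
        have h5 : a * (w * (x * t)) * a⁻¹ = a * ((x * t) * w) * a⁻¹ := by rw [hwc]
        have h6 : a * (w * (x * t)) * a⁻¹ = (a * w * a⁻¹) * (a * (x * t) * a⁻¹) := by group
        have h7 : a * ((x * t) * w) * a⁻¹ = (a * (x * t) * a⁻¹) * (a * w * a⁻¹) := by group
        rw [h6, h7, hat', hwa] at h5
        exact h5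
      have h8 : (x * t) * (x * t⁻¹) = x * x := by
        have h9 := hAc t htA x hx
        calc (x * t) * (x * t⁻¹) = x * (t * x) * t⁻¹ := by group
          _ = x * (x * t) * t⁻¹ := by rw [h9]
          _ = x * x := by group
      apply Cfsg.Agent.S3013.commute_of_sq (hAo x hx)
      rw [← h8]
      calc w * ((x * t) * (x * t⁻¹)) = (w * (x * t)) * (x * t⁻¹) := by group
        _ = ((x * t) * w) * (x * t⁻¹) := by rw [hwc]
        _ = (x * t) * (w * (x * t⁻¹)) := by group
        _ = (x * t) * ((x * t⁻¹) * w) := by rw [h4]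
        _ = ((x * t) * (x * t⁻¹)) * w := by group
    have hne : V ⊓ centralizer ({x * t} : Set G) ≠ V ⊓ centralizer ({x} : Set G) := by
      intro he
      have h1 : a ∈ V ⊓ centralizer ({x} : Set G) :=
        ⟨haV, mem_centralizer_singleton_iff.2 hax⟩
      rw [← he] at h1
      have h2 : a * (x * t) = (x * t) * a := mem_centralizer_singleton_iff.1 h1.2
      have h3 : a * (x * t) * a⁻¹ = x * t := by rw [h2]; group
      rw [hat'] at h3
      apply ht1
      apply hsq t htA
      exact mul_left_cancel h3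
    have hlt : Nat.card ↥(V ⊓ centralizer ({x * t} : Set G)) < n := by
      rw [← hn]
      apply Nat.lt_of_le_of_ne (Subgroup.card_le_of_le hle)
      intro hcard
      exact hne (Subgroup.eq_of_le_of_card_ge hle hcard.ge)
    refine ih _ hlt u' hu'V (x * t) hAx hx'1 ?_ rfl
    have h3 : u' * (x * t) * u'⁻¹ = (u' * x * u'⁻¹) * (u' * t * u'⁻¹) := by group
    rw [h3, hu'x, hu't, hcomm]
    group
  obtain ⟨⟨v, hvV⟩, hv1'⟩ := Subgroup.ne_bot_iff_exists_ne_one.1 hV1
  have hv1 : v ≠ 1 := fun h => hv1' (Subtype.ext h)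
  obtain ⟨y, hy, hvy⟩ := hC v hvV hv1
  refine key _ v hvV (y * (v * y * v⁻¹)⁻¹) (A.mul_mem hy (A.inv_mem (hAn v hvV y hy))) ?_ ?_ rfl
  · intro h
    rw [mul_inv_eq_one] at h
    exact hvy h.symm
  · have h1 : v⁻¹ = v := hinv v hvV
    have h3 : v * v = 1 := by rw [← pow_two]; exact hV.2 v hvV
    rw [h1]
    calc v * (y * (v * y * v)⁻¹) * v = v * y * v⁻¹ * y⁻¹ := by group
      _ = (v * y * v) * y⁻¹ := by rw [h1]
      _ = (y * (v * y * v)⁻¹)⁻¹ := by group

end aux

/-- Minimal counterexample reduction for the Sidki pair problem. Let G be a finite group and V a nontrivial elementary abelian 2-subgroup satisfying the Sidki pair condition with V ∩ O₂(G) = 1. Suppose that for every finite group H of smaller order, every nontrivial elementary abelian 2-subgroup W of H satisfying the Sidki pair condition meets O₂(H) nontrivially, and that the same holds in G for every such subgroup W of order smaller than that of V. Then the generalized Fitting subgroup F*(G) is a non-abelian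 simple group and G = V F*(G). -/
theorem result {G : Type u} [Group G] [Finite G] (V : Subgroup G) (hV : Cfsg.IsElementaryAbelian 2 V) (hV1 : V ≠ ⊥) (hS : Cfsg.IsSidkiPair V) (hVO : V ⊓ Cfsg.pCore 2 G = ⊥) (hminG : ∀ (H : Type u) [Group H] [Finite H] (W : Subgroup H), Nat.card H < Nat.card G → Cfsg.IsElementaryAbelian 2 W → W ≠ ⊥ → Cfsg.IsSidkiPair W → W ⊓ Cfsg.pCore 2 H ≠ ⊥) (hminV : ∀ W : Subgroup G, Nat.card W < Nat.card V → Cfsg.IsElementaryAbelian 2 W → W ≠ ⊥ → Cfsg.IsSidkiPair W → W ⊓ Cfsg.pCore 2 G ≠ ⊥) : IsSimpleGroup ↥(Cfsg.generalizedFittingSubgroup G) ∧ ¬ IsMulCommutative ↥(Cfsg.generalizedFittingSubgroup G) ∧ V ⊔ Cfsg.generalizedFittingSubgroup G = ⊤ := by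
  classical
  have h2p : Nat.Prime 2 := Nat.prime_two
  have hinv : ∀ v ∈ V, v⁻¹ = v := fun v hv => by
    have h1 := hV.2 v hv
    rw [pow_two] at h1
    exact inv_eq_of_mul_eq_one_left h1
  have hVc : ∀ a ∈ V, ∀ b ∈ V, a * b = b * a := fun a ha b hb =>
    congrArg Subtype.val (hV.1.is_comm.comm (⟨a, ha⟩ : V) ⟨b, hb⟩)
  -- quotients
  have hquot : ∀ (K : Subgroup G) [K.Normal], K ≠ ⊥ → V ⊓ K = ⊥ →
      ∃ a ∈ V, a ≠ 1 ∧ QuotientGroup.mk' K a ∈ pCore 2 (G ⧸ K) := by
    intro K _ hK hVK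
    have hS' := Cfsg.Agent.S3012.result V K hV hV1 hS hVK
    have hcard : Nat.card (G ⧸ K) < Nat.card G := by
      have h1 := K.card_mul_index
      have h2 : 1 < Nat.card K := by
        have h3 : Nat.card K ≠ 1 := fun h => hK (Subgroup.card_eq_one.1 h)
        have h4 : 0 < Nat.card K := Nat.card_pos
        omega
      have h5 : 0 < K.index := Nat.pos_of_ne_zero Subgroup.index_ne_zero_of_finite
      change K.index < _
      nlinarith
    have h1 := hminG (G ⧸ K) (V.map (QuotientGroup.mk' K)) hcard ⟨?_, ?_⟩ ?_ hS'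
    · obtain ⟨⟨_, ⟨a, ha, rfl⟩, ha2⟩, hane⟩ := (Subgroup.ne_bot_iff_exists_ne_one).1 h1
      refine ⟨a, ha, ?_, ha2⟩
      rintro rfl
      apply hane
      apply Subtype.ext
      simp
    · refine ⟨⟨?_⟩⟩
      rintro ⟨_, a, ha, rfl⟩ ⟨_, b, hb, rfl⟩
      apply Subtype.ext
      change QuotientGroup.mk' K a * QuotientGroup.mk' K b = QuotientGroup.mk' K b * QuotientGroup.mk' K a
      rw [← map_mul, ← map_mul, hVc a ha b hb]
    · rintro _ ⟨a, ha, rfl⟩
      rw [← map_pow, hV.2 a ha, map_one]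
    · intro hb
      apply hV1
      rw [Subgroup.map_eq_bot_iff, QuotientGroup.ker_mk'] at hb
      rw [← inf_eq_left.2 hb, hVK]
  -- `O₂(G) = 1`
  have hO : pCore 2 G = ⊥ := by
    by_contra hne
    obtain ⟨a, ha, ha1, ha2⟩ := hquot (pCore 2 G) hne hVO
    rw [pCore_quotient_eq_bot, mem_bot] at ha2
    have h3 : a ∈ pCore 2 G := by
      rw [← QuotientGroup.eq_one_iff]
      exact ha2
    have h4 : a ∈ V ⊓ pCore 2 G := ⟨ha, h3⟩
    rw [hVO, mem_bot] at h4
    exact ha1 h4
  have hO2 : ∀ t : G, t * t = 1 → (∀ g : G, g * t * g⁻¹ = t) → t = 1 := by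
    intro t ht hc
    have hn : (zpowers t).Normal := by
      refine ⟨?_⟩
      rintro _ ⟨i, rfl⟩ g
      refine ⟨i, ?_⟩
      change t ^ i = g * t ^ i * g⁻¹
      rw [← conj_zpow, hc]
    have hp : IsPGroup 2 (zpowers t) := by
      rintro ⟨_, i, rfl⟩
      refine ⟨1, Subtype.ext ?_⟩
      change (t ^ i) ^ 2 ^ 1 = 1
      have : (t ^ i) ^ 2 ^ 1 = (t * t) ^ i := by
        rw [← zpow_natCast, ← zpow_mul, pow_one, Nat.cast_ofNat, mul_comm, zpow_mul, zpow_two]
      rw [this, ht, one_zpow]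
    have h1 := Cfsg.Agent.Lib.Core.Basic.le_pCore hn hp
    rw [hO, le_bot_iff, zpowers_eq_bot] at h1
    exact h1
  -- `Z(G) = 1`
  have hZ0 : center G = ⊥ := by
    by_contra hne
    have hVZ : V ⊓ center G = ⊥ := by
      rw [eq_bot_iff]
      rintro t ⟨ht, htc⟩
      have h1 : t * t = 1 := by rw [← pow_two]; exact hV.2 t ht
      rw [mem_bot]
      apply hO2 t h1
      intro g
      rw [(mem_center_iff.1 htc g)]
      group
    obtain ⟨a, ha, ha1, ha2⟩ := hquot (center G) hne hVZ
    set L : Subgroup G := (pCore 2 (G ⧸ center G)).comap (QuotientGroup.mk' (center G)) with hL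
    have hLn : L.Normal := (pCore_normal 2 _).comap _
    -- `L` is nilpotent
    let f : L →* pCore 2 (G ⧸ center G) :=
      ((QuotientGroup.mk' (center G)).comp L.subtype).codRestrict _ (fun x => x.2)
    have hker : f.ker ≤ center L := by
      intro x hx
      have h1 : (x : G) ∈ center G := by
        rw [← QuotientGroup.eq_one_iff]
        have := congrArg Subtype.val (MonoidHom.mem_ker.1 hx)
        exact this
      rw [mem_center_iff]
      intro g
      exact Subtype.ext (mem_center_iff.1 h1 g)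
    have hnilq : Group.IsNilpotent (pCore 2 (G ⧸ center G)) := pCore_isPGroup.isNilpotent
    have hnil : Group.IsNilpotent L := Subgroup.isNilpotent_of_ker_le_center f hker
    have haL : a ∈ L := ha2
    have hpa : IsPGroup 2 (zpowers (⟨a, haL⟩ : L)) := by
      rintro ⟨_, i, rfl⟩
      refine ⟨1, Subtype.ext (Subtype.ext ?_)⟩
      have h1 : a * a = 1 := by rw [← pow_two]; exact hV.2 a ha
      change (a ^ i) ^ 2 ^ 1 = 1
      have : (a ^ i) ^ 2 ^ 1 = (a * a) ^ i := by
        rw [← zpow_natCast, ← zpow_mul, pow_one, Nat.cast_ofNat, mul_comm, zpow_mul, zpow_two]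
      rw [this, h1, one_zpow]
    obtain ⟨P, hP⟩ := hpa.exists_le_sylow
    have hPn : (P : Subgroup L).Normal :=
      Sylow.normal_of_normalizerCondition (Group.normalizerCondition_of_isNilpotent) P
    have h1 : (P : Subgroup L) ≤ pCore 2 L := Cfsg.Agent.Lib.Core.Basic.le_pCore hPn P.isPGroup'
    have h3 : (⟨a, haL⟩ : L) ∈ pCore 2 L := h1 (hP (mem_zpowers _))
    have h4 : a ∈ (pCore 2 L).map L.subtype := ⟨_, h3, rfl⟩
    have h5 := map_pCore_le_of_isSubnormal hLn.isSubnormal h4
    rw [hO, mem_bot] at h5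
    exact ha1 h5
  -- Lemma Y
  have hY : ∀ K : Subgroup G, K.Normal → K ≠ ⊥ → V ⊓ centralizer (K : Set G) = ⊥ := by
    intro K hKn hK
    by_contra hW
    set D := centralizer (K : Set G) with hD
    have hDn : D.Normal := Subgroup.normal_centralizer (H := K)
    have hDtop : D ≠ ⊤ := by
      intro h
      apply hK
      rw [eq_bot_iff, ← hZ0]
      intro k hk
      rw [mem_center_iff]
      intro g
      have h1 : g ∈ D := by rw [h]; trivial
      exact (mem_centralizer_iff.1 h1 k hk).symm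
    by_cases hSD : ∀ h ∈ D, ∀ v ∈ V ⊓ D, Odd (orderOf h) → v * h * v⁻¹ = h⁻¹ →
        ∃ w ∈ V ⊓ D, w ≠ 1 ∧ w * h = h * w
    · obtain ⟨a, ha, ha1, ha2⟩ := apply_min hV hminG (inf_le_left) (inf_le_right) hDtop hW hSD
      have h5 := map_pCore_le_of_isSubnormal hDn.isSubnormal ha2
      rw [hO, mem_bot] at h5
      exact ha1 h5
    · push Not at hSD
      obtain ⟨h, hh, u, hu, hodd, huh, hno⟩ := hSD
      have hbot : ∀ w ∈ V ⊓ D, w ≠ 1 → w * h ≠ h * w := hno
      set C := centralizer ({u} : Set G) ⊓ centralizer ({h} : Set G) with hC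
      obtain ⟨hC1, hC2⟩ := Cfsg.Agent.S3013.result V hV hV1 hS u h hu.1 hodd huh C hC
      have hKC : K ≤ C := by
        intro k hk
        refine ⟨mem_centralizer_singleton_iff.2 ?_, mem_centralizer_singleton_iff.2 ?_⟩
        · exact mem_centralizer_iff.1 hu.2 k hk
        · exact mem_centralizer_iff.1 hh k hk
      have hCtop : C ≠ ⊤ := by
        intro htop
        have hu1 : u = 1 := by
          apply hO2 u (by rw [← pow_two]; exact hV.2 u hu.1)
          intro g
          have h1 : g ∈ C := by rw [htop]; trivial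
          have h2 : g * u = u * g := mem_centralizer_singleton_iff.1 h1.1
          rw [h2]; group
        rw [hu1] at huh
        have hh1 : h = 1 := by
          have h3 : h = h⁻¹ := by simpa using huh
          have h4 : h * h = 1 := by
            nth_rewrite 2 [h3]
            group
          have h5 : orderOf h ∣ 2 := orderOf_dvd_of_pow_eq_one (by rw [pow_two]; exact h4)
          rcases (Nat.dvd_prime Nat.prime_two).1 h5 with h6 | h6
          · exact orderOf_eq_one_iff.1 h6
          · rw [h6] at hodd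
            exact absurd hodd (by decide)
        obtain ⟨⟨w, hw⟩, hw1⟩ := Subgroup.ne_bot_iff_exists_ne_one.1 hW
        exact hbot w hw (fun h' => hw1 (Subtype.ext h')) (by rw [hh1]; group)
      have hCS : ∀ y ∈ C, ∀ v ∈ C ⊓ V, Odd (orderOf y) → v * y * v⁻¹ = y⁻¹ →
          ∃ w ∈ C ⊓ V, w ≠ 1 ∧ w * y = y * w := by
        intro y hy v hv hoddy hvy
        obtain ⟨w, hw, hw1, hwy⟩ := hC2 ⟨y, hy⟩ ⟨v, hv.1⟩ (by rwa [mem_subgroupOf])
          (by rwa [Subgroup.orderOf_mk]) (Subtype.ext hvy)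
        exact ⟨w, mem_subgroupOf.1 hw, fun h' => hw1 (Subtype.ext h'), congrArg Subtype.val hwy⟩
      obtain ⟨a, ha, ha1, ha2⟩ := apply_min hV hminG (inf_le_right) (inf_le_left) hCtop hC1 hCS
      have hacomm := comm_of_core hO hKn.isSubnormal hKC (fun x _ k hk => hKn.conj_mem k hk x) ha2
      have haD : a ∈ D := mem_centralizer_iff.2 hacomm
      exact hbot a ⟨ha.2, haD⟩ ha1 (mem_centralizer_singleton_iff.1 ha.1.2)
  -- normal subgroups and `V`
  have hC : ∀ K : Subgroup G, K.Normal → K ≠ ⊥ → V ⊔ K = ⊤ := by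
    intro K hKn hK
    by_contra hne
    set H := V ⊔ K with hH
    have hSH : ∀ h ∈ H, ∀ v ∈ V, Odd (orderOf h) → v * h * v⁻¹ = h⁻¹ →
        ∃ w ∈ V, w ≠ 1 ∧ w * h = h * w := fun h _ v hv => hS h v hv
    obtain ⟨a, ha, ha1, ha2⟩ := apply_min hV hminG le_rfl le_sup_left hne hV1 hSH
    have hacomm := comm_of_core hO hKn.isSubnormal le_sup_right
      (fun x _ k hk => hKn.conj_mem k hk x) ha2
    have h1 : a ∈ V ⊓ centralizer (K : Set G) := ⟨ha, mem_centralizer_iff.2 hacomm⟩
    rw [hY K hKn hK, mem_bot] at h1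
    exact ha1 h1
  -- abelian normal subgroups have odd order
  have hoddA : ∀ A : Subgroup G, A.Normal → (∀ x ∈ A, ∀ y ∈ A, x * y = y * x) →
      ∀ x ∈ A, Odd (orderOf x) := by
    intro A hAn hAc x hx
    obtain ⟨a, b, rfl, -, ha, hb, ⟨k, hk⟩, hcop⟩ :=
      Cfsg.Agent.Lib.Transfer.Basic.exists_pPart_decomp (p := 2) x
    have haA : a ∈ A := (zpowers_le.2 hx) ha
    have hnorm : (zpowers (⟨a, haA⟩ : A)).Normal := by
      refine ⟨?_⟩
      intro n hn g
      have : g * n * g⁻¹ = n := by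
        apply Subtype.ext
        have h1 := hAc g g.2 n n.2
        simp [h1]
      rwa [this]
    have hp : IsPGroup 2 (zpowers (⟨a, haA⟩ : A)) := by
      rintro ⟨_, i, rfl⟩
      refine ⟨k, Subtype.ext (Subtype.ext ?_)⟩
      change (a ^ i) ^ 2 ^ k = 1
      rw [← zpow_natCast, ← zpow_mul, mul_comm, zpow_mul, zpow_natCast, hk, one_zpow]
    have h1 := Cfsg.Agent.Lib.Core.Basic.le_pCore hnorm hp
    have h2 : a ∈ (pCore 2 A).map A.subtype := ⟨_, h1 (mem_zpowers _), rfl⟩
    have h3 := map_pCore_le_of_isSubnormal hAn.isSubnormal h2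
    rw [hO, mem_bot] at h3
    rw [h3, one_mul]
    exact Nat.coprime_two_right.1 hcop
  -- `F(G) = 1`
  have hF0 : fittingSubgroup G = ⊥ := by
    by_contra hne
    set F := fittingSubgroup G with hFdef
    set A : Subgroup G := F ⊓ centralizer (F : Set G) with hA
    have hFn : F.Normal := fittingSubgroup_normal
    have hCn : (centralizer (F : Set G)).Normal := Subgroup.normal_centralizer (H := F)
    have hAn : A.Normal := Subgroup.normal_inf_normal _ _
    have hAne : A ≠ ⊥ := by
      have hnil : Group.IsNilpotent F := fittingSubgroup_isNilpotent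
      have hnF : (⊤ : Subgroup F) ≠ ⊥ := by
        intro h
        apply hne
        rw [eq_bot_iff]
        intro x hx
        have h1 : (⟨x, hx⟩ : F) ∈ (⊤ : Subgroup F) := trivial
        rw [h, mem_bot] at h1
        rw [mem_bot]
        exact congrArg Subtype.val h1
      have h1 := Cfsg.Agent.Lib.SolvStruct.Fit.inf_center_ne_bot (⊤ : Subgroup F) hnF
      obtain ⟨⟨z, hztop, hzc⟩, hz1⟩ := Subgroup.ne_bot_iff_exists_ne_one.1 h1
      intro hb
      have hzA : (z : G) ∈ A := by
        refine ⟨z.2, mem_centralizer_iff.2 ?_⟩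
        intro t ht
        exact congrArg Subtype.val (mem_center_iff.1 hzc ⟨t, ht⟩)
      rw [hb, mem_bot] at hzA
      apply hz1
      apply Subtype.ext
      exact Subtype.ext hzA
    have hAc : ∀ x ∈ A, ∀ y ∈ A, x * y = y * x := by
      intro x hx y hy
      exact (mem_centralizer_iff.1 hy.2 x hx.1)
    refine abelian_trick hV hS hV1 hAc (fun v _ x hx => hAn.conj_mem x hx v) (hoddA A hAn hAc) ?_
    intro a haV ha1
    by_contra hcon
    push Not at hcon
    have h1 : a ∈ V ⊓ centralizer (A : Set G) := by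
      refine ⟨haV, mem_centralizer_iff.2 ?_⟩
      intro y hy
      have h2 := hcon y hy
      rw [mul_inv_eq_iff_eq_mul] at h2
      exact h2.symm
    rw [hY A hAn hAne, mem_bot] at h1
    exact ha1 h1
  -- components have trivial centres
  have hZK : ∀ K : Subgroup G, IsComponent K → ∀ u ∈ K, (∀ k ∈ K, k * u = u * k) → u = 1 := by
    intro K hK u huK hu
    have hs : ((center K).map K.subtype).IsSubnormal := by
      refine Subgroup.IsSubnormal.trans (map_subtype_le _) ?_ hK.1
      have h1 : ((center K).map K.subtype).subgroupOf K = center K :=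
        comap_map_eq_self_of_injective K.subtype_injective _
      rw [h1]
      exact (inferInstance : (center K).Normal).isSubnormal
    have hn : Group.IsNilpotent ((center K).map K.subtype) := by
      apply Cfsg.Agent.Lib.Core.Basic.isNilpotent_of_isMulCommutative
    have h2 := le_fittingSubgroup_of_isSubnormal hs hn
    rw [hF0, le_bot_iff] at h2
    have h3 : u ∈ (center K).map K.subtype :=
      ⟨⟨u, huK⟩, mem_center_iff.2 (fun g => Subtype.ext (hu g g.2)), rfl⟩
    rw [h2, mem_bot] at h3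
    exact h3
  have hcommK : ∀ K L : Subgroup G, IsComponent K → IsComponent L → K ≠ L →
      ∀ k ∈ K, ∀ l ∈ L, k * l = l * k := by
    intro K L hK hL hne k hk l hl
    rcases component_eq_or_commutator_eq_bot hK hL with h | h
    · exact absurd h hne
    · have h2 := commutator_eq_bot_iff_le_centralizer.mp h hk
      exact (mem_centralizer_iff.mp h2 l hl).symm
  have hmemc : ∀ (K : Subgroup G) (w k : G), k ∈ K → w * k * w⁻¹ ∈ K.map (MulAut.conj w).toMonoidHom :=
    fun K w k hk => ⟨k, hk, by simp⟩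
  have hnormc : ∀ (K : Subgroup G) (w : G), K.map (MulAut.conj w).toMonoidHom = K →
      w ∈ normalizer (K : Set G) := by
    intro K w he
    apply Cfsg.Agent.Lib.HSubgroup.Basic.mem_normalizer_of_conj_le
    intro y hy
    have := hmemc K w y hy
    rwa [he] at this
  -- odd order elements in components
  have hodd : ∀ K : Subgroup G, IsComponent K → ∃ y ∈ K, y ≠ 1 ∧ Odd (orderOf y) := by
    intro K hK
    have h1 : ∃ q : ℕ, q.Prime ∧ q ≠ 2 ∧ q ∣ Nat.card K := by
      by_contra hcon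
      push Not at hcon
      have h2 : Nat.card K = 2 ^ (Nat.card K).primeFactorsList.length :=
        Nat.eq_prime_pow_of_unique_prime_dvd Nat.card_pos.ne' (fun {d} hd hdv => by
          by_contra hne
          exact hcon d hd hne hdv)
      have h3 : IsPGroup 2 K := IsPGroup.of_card h2
      exact quasisimple_not_nilpotent hK.2 h3.isNilpotent
    obtain ⟨q, hq, hq2, hqd⟩ := h1
    haveI : Fact q.Prime := ⟨hq⟩
    obtain ⟨y, hy⟩ := exists_prime_orderOf_dvd_card' q hqd
    refine ⟨y, y.2, ?_, ?_⟩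
    · intro h
      have h3 : y = 1 := Subtype.ext h
      rw [h3, orderOf_one] at hy
      exact hq.one_lt.ne hy
    · rw [Subgroup.orderOf_coe, hy]
      exact hq.odd_of_ne_two hq2
  -- the layer is nontrivial
  have hlayer : layer G ≠ ⊥ := by
    intro hl
    have hFs : generalizedFittingSubgroup G = ⊥ := by
      rw [generalizedFittingSubgroup, hl, hF0, sup_bot_eq]
    have h1 : centralizer ((generalizedFittingSubgroup G : Subgroup G) : Set G) ≤
        generalizedFittingSubgroup G := centralizer_generalizedFitting_le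
    rw [hFs] at h1
    apply hV1
    rw [eq_bot_iff]
    intro t _
    apply h1
    rw [mem_centralizer_iff]
    intro g hg
    rw [(mem_bot.1 hg)]
    simp
  have hlayerN : ∀ L : Subgroup G, IsComponent L → layer G ≤ normalizer (L : Set G) := by
    intro L hL
    refine sSup_le fun L' hL' => ?_
    rcases component_eq_or_commutator_eq_bot hL' hL with h | h
    · rw [h]
      exact le_normalizer
    · exact le_normalizer_of_commutator_eq_bot h
  have hVL : V ⊔ layer G = ⊤ := hC (layer G) layer_normal hlayer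
  -- each component has a nontrivial stabilizer in `V`
  have hE1 : ∀ K : Subgroup G, IsComponent K → V ⊓ normalizer (K : Set G) ≠ ⊥ := by
    intro K hK hb
    have hfree : ∀ s ∈ V, K.map (MulAut.conj s).toMonoidHom = K → s = 1 := by
      intro s hs he
      have h1 : s ∈ V ⊓ normalizer (K : Set G) := ⟨hs, hnormc K s he⟩
      rw [hb, mem_bot] at h1
      exact h1
    obtain ⟨⟨v, hvV⟩, hv1'⟩ := Subgroup.ne_bot_iff_exists_ne_one.1 hV1
    have hv1 : v ≠ 1 := fun h => hv1' (Subtype.ext h)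
    set K₂ := K.map (MulAut.conj v).toMonoidHom with hK₂d
    have hK₂ : IsComponent K₂ := isComponent_conj v hK
    have h12 : K ≠ K₂ := fun h => hv1 (hfree v hvV h.symm)
    obtain ⟨y, hyK, hy1, hyo⟩ := hodd K hK
    set z := v * y * v⁻¹ with hz
    have hzK₂ : z ∈ K₂ := hmemc K v y hyK
    have hyz : y * z = z * y := hcommK K K₂ hK hK₂ h12 y hyK z hzK₂
    set x := y * z⁻¹ with hx
    have hcomm' : Commute y z⁻¹ := (show Commute y z from hyz).inv_right
    have hxodd : Odd (orderOf x) := by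
      have h1 : x ^ orderOf y = 1 := by
        rw [hx, hcomm'.mul_pow, pow_orderOf_eq_one, one_mul, inv_pow, hz, conj_pow,
          pow_orderOf_eq_one]
        simp
      exact Odd.of_dvd_nat hyo (orderOf_dvd_of_pow_eq_one h1)
    have hvinv : v⁻¹ = v := hinv v hvV
    have hvv : v * v = 1 := by rw [← pow_two]; exact hV.2 v hvV
    have hvx : v * x * v⁻¹ = x⁻¹ := by
      rw [hx, hz]
      calc v * (y * (v * y * v⁻¹)⁻¹) * v⁻¹ = v * y * v * y⁻¹ * (v⁻¹ * v⁻¹) := by group
        _ = v * y * v * y⁻¹ := by rw [hvinv, hvv, mul_one]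
        _ = (y * (v * y * v⁻¹)⁻¹)⁻¹ := by rw [hvinv]; group
    obtain ⟨w, hw, hw1, hwx⟩ := hS x v hvV hxodd hvx
    by_cases hwv : w = v
    · rw [hwv] at hwx
      have h1 : x = x⁻¹ := by
        rw [← hvx, hwx]; group
      have h2 : x * x = 1 := by
        nth_rewrite 2 [h1]
        group
      have h3 : orderOf x ∣ 2 := orderOf_dvd_of_pow_eq_one (by rw [pow_two]; exact h2)
      have h4 : x = 1 := by
        rcases (Nat.dvd_prime Nat.prime_two).1 h3 with h6 | h6
        · exact orderOf_eq_one_iff.1 h6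
        · rw [h6] at hxodd
          exact absurd hxodd (by decide)
      have h5 : y = z := by
        rw [hx, mul_inv_eq_one] at h4
        exact h4
      apply hy1
      apply hZK K hK y hyK
      intro k hk
      rw [h5]
      exact hcommK K K₂ hK hK₂ h12 k hk z hzK₂
    · set K₃ := K.map (MulAut.conj w).toMonoidHom with hK₃d
      set K₄ := K₂.map (MulAut.conj w).toMonoidHom with hK₄d
      have hK₃ : IsComponent K₃ := isComponent_conj w hK
      have hK₄ : IsComponent K₄ := isComponent_conj w hK₂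
      have h31 : K₃ ≠ K := fun h => hw1 (hfree w hw h)
      have h32 : K₃ ≠ K₂ := by
        intro h
        have h5 : v⁻¹ * w = 1 := by
          apply hfree (v⁻¹ * w) (V.mul_mem (V.inv_mem hvV) hw)
          have h6 : K.map (MulAut.conj (v⁻¹ * w)).toMonoidHom =
              K₃.map (MulAut.conj v⁻¹).toMonoidHom := by
            rw [hK₃d, Subgroup.map_map]
            congr 1
            ext y
            simp
          have h7 : K₂.map (MulAut.conj v⁻¹).toMonoidHom = K := by
            rw [hK₂d, Subgroup.map_map]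
            have : (MulAut.conj v⁻¹).toMonoidHom.comp (MulAut.conj v).toMonoidHom =
                MonoidHom.id G := by
              ext y
              simp
              group
            rw [this, Subgroup.map_id]
          rw [h6, h, h7]
        apply hwv
        have h6 : w = v * (v⁻¹ * w) := by group
        rw [h6, h5, mul_one]
      have h34 : K₃ ≠ K₄ := by
        intro h
        exact h12 (Subgroup.map_injective (fun a b hab => (MulAut.conj w).injective hab) h)
      have hu3 : w * y * w⁻¹ ∈ K₃ := hmemc K w y hyK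
      have hz4 : w * z * w⁻¹ ∈ K₄ := hmemc K₂ w z hzK₂
      have hue : w * y * w⁻¹ = y * z⁻¹ * (w * z * w⁻¹) := by
        have h5 : w * x * w⁻¹ = x := by rw [hwx]; group
        have h6 : w * x * w⁻¹ = (w * y * w⁻¹) * (w * z * w⁻¹)⁻¹ := by
          rw [hx]; group
        rw [h6] at h5
        have h9 : (w * y * w⁻¹) * (w * z * w⁻¹)⁻¹ = y * z⁻¹ := h5
        calc w * y * w⁻¹ = ((w * y * w⁻¹) * (w * z * w⁻¹)⁻¹) * (w * z * w⁻¹) := by group
          _ = y * z⁻¹ * (w * z * w⁻¹) := by rw [h9]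
      have hu1 : w * y * w⁻¹ = 1 := by
        apply hZK K₃ hK₃ _ hu3
        intro k hk
        rw [hue]
        have h5 := hcommK K₃ K hK₃ hK h31 k hk y hyK
        have h6 := hcommK K₃ K₂ hK₃ hK₂ h32 k hk z⁻¹ (K₂.inv_mem hzK₂)
        have h7 := hcommK K₃ K₄ hK₃ hK₄ h34 k hk _ hz4
        calc k * (y * z⁻¹ * (w * z * w⁻¹)) = (k * y) * z⁻¹ * (w * z * w⁻¹) := by group
          _ = y * (k * z⁻¹) * (w * z * w⁻¹) := by rw [h5]; group
          _ = y * (z⁻¹ * k) * (w * z * w⁻¹) := by rw [h6]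
          _ = y * z⁻¹ * (k * (w * z * w⁻¹)) := by group
          _ = y * z⁻¹ * ((w * z * w⁻¹) * k) := by rw [h7]
          _ = y * z⁻¹ * (w * z * w⁻¹) * k := by group
      apply hy1
      have h8 : y = w⁻¹ * (w * y * w⁻¹) * w := by group
      rw [h8, hu1]
      group
  -- a component together with its stabilizer is everything
  have hE2 : ∀ K : Subgroup G, IsComponent K → K ⊔ (V ⊓ normalizer (K : Set G)) = ⊤ := by
    intro K hK
    by_contra hne
    set V₁ := V ⊓ normalizer (K : Set G) with hV₁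
    set H := K ⊔ V₁ with hH
    have hV₁ne := hE1 K hK
    have hVN : V₁ ≤ normalizer (K : Set G) := inf_le_right
    have hHN : H ≤ normalizer (K : Set G) := sup_le le_normalizer hVN
    by_cases hSH : ∀ h ∈ H, ∀ v ∈ V₁, Odd (orderOf h) → v * h * v⁻¹ = h⁻¹ →
        ∃ w ∈ V₁, w ≠ 1 ∧ w * h = h * w
    · obtain ⟨a, ha, ha1, ha2⟩ := apply_min hV hminG inf_le_left le_sup_right hne hV₁ne hSH
      have hak := comm_of_core hO hK.1 le_sup_left
        (fun h hh k hk => (mem_normalizer_iff.1 (hHN hh) k).1 hk) ha2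
      set M := Subgroup.normalClosure (K : Set G) with hM
      have hMn : M.Normal := Subgroup.normalClosure_normal
      have hMne : M ≠ ⊥ := by
        intro h
        apply ne_bot_of_quasisimple hK.2
        rw [eq_bot_iff, ← h]
        exact Subgroup.le_normalClosure
      have hcore : (K : Set G) ⊆ (centralizer ({a} : Set G)).normalCore := by
        intro k hk g
        have hg : g ∈ V ⊔ layer G := by rw [hVL]; trivial
        have hVleN : V ≤ normalizer ((layer G : Subgroup G) : Set G) := by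
          have : (layer G).Normal := layer_normal
          rw [normalizer_eq_top]
          exact le_top
        obtain ⟨w, hw, l, hl, rfl⟩ := mem_sup_of_le_normalizer hVleN hg
        have hk' : l * k * l⁻¹ ∈ K := (mem_normalizer_iff.1 (hlayerN K hK hl) k).1 hk
        have h1 := hak _ hk'
        have h2 : a * w = w * a := hVc a ha.1 w hw
        have h3 : a * w⁻¹ = w⁻¹ * a := by
          have h4 : w⁻¹ * (a * w) * w⁻¹ = w⁻¹ * (w * a) * w⁻¹ := by rw [h2]
          calc a * w⁻¹ = w⁻¹ * (w * a) * w⁻¹ := by group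
            _ = w⁻¹ * (a * w) * w⁻¹ := h4.symm
            _ = w⁻¹ * a := by group
        refine mem_centralizer_singleton_iff.2 ?_
        calc (w * l) * k * (w * l)⁻¹ * a = w * (l * k * l⁻¹) * (w⁻¹ * a) := by group
          _ = w * (l * k * l⁻¹) * (a * w⁻¹) := by rw [h3]
          _ = w * ((l * k * l⁻¹) * a) * w⁻¹ := by group
          _ = w * (a * (l * k * l⁻¹)) * w⁻¹ := by rw [h1]
          _ = (w * a) * (l * k * l⁻¹) * w⁻¹ := by group
          _ = (a * w) * (l * k * l⁻¹) * w⁻¹ := by rw [h2]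
          _ = a * ((w * l) * k * (w * l)⁻¹) := by group
      have hMle : M ≤ centralizer ({a} : Set G) :=
        (Subgroup.normalClosure_le_normal hcore).trans (Subgroup.normalCore_le _)
      have h1 : a ∈ V ⊓ centralizer (M : Set G) := by
        refine ⟨ha.1, mem_centralizer_iff.2 ?_⟩
        intro m hm
        exact mem_centralizer_singleton_iff.1 (hMle hm)
      rw [hY M hMn hMne, mem_bot] at h1
      exact ha1 h1
    · push Not at hSH
      obtain ⟨h, hh, u, hu, hodd', huh, hno⟩ := hSH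
      have hh1 : h ≠ 1 := by
        rintro rfl
        obtain ⟨⟨w, hw⟩, hw1⟩ := Subgroup.ne_bot_iff_exists_ne_one.1 hV₁ne
        exact hno w hw (fun h' => hw1 (Subtype.ext h')) (by simp)
      have hhK : h ∈ K := by
        have h2 : h ∈ V₁ ⊔ K := by rw [sup_comm]; exact hh
        obtain ⟨a, ha, b, hb, rfl⟩ := mem_sup_of_le_normalizer hVN h2
        have haa : a * a = 1 := by rw [← pow_two]; exact hV.2 a ha.1
        have hsq : (a * b) * (a * b) ∈ K := by
          have h3 : a * b * a⁻¹ ∈ K := (mem_normalizer_iff.1 (hVN ha) b).1 hb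
          have h4 : (a * b) * (a * b) = (a * b * a⁻¹) * (a * a) * b := by group
          rw [h4, haa, mul_one]
          exact K.mul_mem h3 hb
        obtain ⟨m, hm⟩ := hodd'
        have h5 : a * b = ((a * b) * (a * b)) ^ (m + 1) := by
          rw [← pow_two, ← pow_mul]
          have : 2 * (m + 1) = orderOf (a * b) + 1 := by omega
          rw [this, pow_succ, pow_orderOf_eq_one, one_mul]
        rw [h5]
        exact K.pow_mem hsq _
      obtain ⟨w, hw, hw1, hwh⟩ := hS h u hu.1 hodd' huh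
      by_cases hwN : w ∈ normalizer (K : Set G)
      · exact hno w ⟨hw, hwN⟩ hw1 hwh
      · set K' := K.map (MulAut.conj w).toMonoidHom with hK'
        have hcK' : IsComponent K' := isComponent_conj w hK
        have hne' : K ≠ K' := fun he => hwN (hnormc K w he.symm)
        have hhK' : h ∈ K' := by
          have h2 := hmemc K w h hhK
          have h3 : w * h * w⁻¹ = h := by rw [hwh]; group
          rwa [h3] at h2
        apply hh1
        apply hZK K hK h hhK
        intro k hk
        exact hcommK K K' hK hcK' hne' k hk h hhK'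
  -- conclusion
  obtain ⟨K, hK⟩ : ∃ K : Subgroup G, IsComponent K := by
    by_contra hne
    push Not at hne
    apply hlayer
    rw [layer, sSup_eq_bot]
    intro K hK
    exact absurd hK (hne K)
  have hKtop : K ⊔ (V ⊓ normalizer (K : Set G)) = ⊤ := hE2 K hK
  have hKn : K.Normal := by
    rw [← normalizer_eq_top_iff, eq_top_iff, ← hKtop]
    exact sup_le le_normalizer inf_le_right
  have huniq : ∀ L : Subgroup G, IsComponent L → L = K := by
    intro L hL
    apply component_eq_of_le hL hK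
    rw [← commutator_self_of_quasisimple hL.2]
    rw [commutator_le]
    intro l _ l' _
    have hmk : ∀ g : G, ∃ a ∈ V ⊓ normalizer (K : Set G), QuotientGroup.mk' K g = QuotientGroup.mk' K a := by
      intro g
      have h2 : g ∈ (V ⊓ normalizer (K : Set G)) ⊔ K := by
        rw [sup_comm, hKtop]
        trivial
      obtain ⟨a, ha, b, hb, rfl⟩ := mem_sup_of_le_normalizer inf_le_right h2
      refine ⟨a, ha, ?_⟩
      have h9 : QuotientGroup.mk' K b = 1 := (QuotientGroup.eq_one_iff b).2 hb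
      rw [map_mul, h9, mul_one]
    obtain ⟨a, ha, h1⟩ := hmk l
    obtain ⟨b, hb, h2⟩ := hmk l'
    rw [← QuotientGroup.eq_one_iff]
    change QuotientGroup.mk' K ⁅l, l'⁆ = 1
    rw [commutatorElement_def, map_mul, map_mul, map_mul, map_inv, map_inv, h1, h2, ← map_inv,
      ← map_inv, ← map_mul, ← map_mul, ← map_mul, ← commutatorElement_def]
    have h3 : ⁅a, b⁆ = 1 := by
      rw [commutatorElement_eq_one_iff_mul_comm]
      exact hVc a ha.1 b hb.1
    rw [h3, map_one]
  have hlay : layer G = K := by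
    apply le_antisymm _ (le_layer_of_isComponent hK)
    refine sSup_le fun L hL => ?_
    rw [huniq L hL]
  have hF : generalizedFittingSubgroup G = K := by
    rw [generalizedFittingSubgroup, hlay, hF0, sup_bot_eq]
  rw [hF]
  refine ⟨?_, ?_, hC K hKn (ne_bot_of_quasisimple hK.2)⟩
  · have := quasisimple_nontrivial hK.2
    refine ⟨fun N hN => ?_⟩
    rcases normal_eq_top_or_le_center hK.2 N with h | h
    · exact Or.inr h
    · left
      rw [eq_bot_iff]
      intro u hu
      have h1 := hZK K hK u u.2 (fun k hk => by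
        have := mem_center_iff.1 (h hu) ⟨k, hk⟩
        exact congrArg Subtype.val this)
      exact Subtype.ext h1
  · intro hcomm
    have h1 : IsMulCommutative K := hcomm
    exact quasisimple_not_nilpotent hK.2 (Cfsg.Agent.Lib.Core.Basic.isNilpotent_of_isMulCommutative)

end Cfsg.Agent.S3048
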