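import Cfsg.Statements.S3049
import Cfsg.Agent.Lib.Components.CyclicSylow
import Cfsg.Agent.Lib.Components.SylowSub
import Cfsg.Agent.Lib.LocalEven.Isolated
import Cfsg.Agent.Lib.PGroups.RankBound
import Cfsg.Agent.Lib.Transfer.Omega
import Cfsg.Agent.Lib.Involutions2.NormalFour
import Cfsg.Agent.Lib.HSubgroup.Basic

set_option autoImplicit false
open Cfsg

namespace Cfsg.Agent.S3049

open Cfsg Subgroup Cfsg.Agent.Lib.Components.Basic Cfsg.Agent.Lib.Components.GenFitting
open Cfsg.Agent.Lib.Components.CyclicSylow Cfsg.Agent.Lib.Core.Basic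
open Cfsg.Agent.Lib.LocalEven.Isolated
open Cfsg.Agent.Lib.Components.SylowSub
open scoped commutatorElement

universe u

section aux

variable {X : Type u} [Group X] [Finite X] {p : ℕ} [hpf : Fact p.Prime]

theorem card_mul_le_of_lt {H K : Subgroup X} (hKp : IsPGroup p K) (h : H < K) :
    p * Nat.card H ≤ Nat.card K := by
  have hpp : p.Prime := hpf.out
  have hd : Nat.card H ∣ Nat.card K := card_dvd_of_le h.le
  obtain ⟨n, hn⟩ := IsPGroup.iff_card.1 hKp
  rw [hn] at hd
  obtain ⟨m, hm, hcm⟩ := (Nat.dvd_prime_pow hpp).1 hd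
  have hne : Nat.card H ≠ Nat.card K := by
    intro he
    exact h.ne (Subgroup.eq_of_le_of_card_ge h.le he.ge)
  rw [hn, hcm]
  have hlt : m < n := lt_of_le_of_ne hm (by
    rintro rfl
    exact hne (by rw [hcm, hn]))
  calc p * p ^ m = p ^ (m + 1) := by ring
    _ ≤ p ^ n := Nat.pow_le_pow_right hpp.pos hlt

/-- In `p`-rank two, a third commuting element of order `p` is a product. -/
theorem exists_zpow_mul_zpow (hrank : PRankLE p 2 X) {x z u : X} (hxo : orderOf x = p)
    (hzo : orderOf z = p) (hu : u ^ p = 1) (hxz : Commute x z) (hxu : Commute x u)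
    (hzu : Commute z u) (hzx : z ∉ zpowers x) : ∃ i j : ℤ, u = x ^ i * z ^ j := by
  classical
  have hpp : p.Prime := hpf.out
  have hxp : x ^ p = 1 := by rw [← hxo]; exact pow_orderOf_eq_one x
  have hzp : z ^ p = 1 := by rw [← hzo]; exact pow_orderOf_eq_one z
  have hA₀c : IsMulCommutative (zpowers x) := by
    refine ⟨⟨?_⟩⟩
    rintro ⟨_, i, rfl⟩ ⟨_, j, rfl⟩
    apply Subtype.ext
    exact (Commute.refl x).zpow_zpow i j
  have hA₀e : ∀ a ∈ zpowers x, a ^ p = 1 := by
    rintro _ ⟨i, rfl⟩
    change (x ^ i) ^ p = 1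
    rw [← zpow_natCast, ← zpow_mul, mul_comm, zpow_mul, zpow_natCast, hxp, one_zpow]
  have hzC : z ∈ centralizer ((zpowers x : Subgroup X) : Set X) := by
    rw [mem_centralizer_iff]
    rintro _ ⟨i, rfl⟩
    exact (hxz.zpow_left i)
  obtain ⟨hBc, hBe⟩ := Cfsg.Agent.Lib.PGroups.RankBound.ea_closure_insert hA₀c hA₀e hzp hzC
  set B : Subgroup X := closure (((zpowers x : Subgroup X) : Set X) ∪ {z}) with hB
  have hform : ∀ w ∈ B, ∃ i j : ℤ, w = x ^ i * z ^ j := by
    intro w hw
    induction hw using closure_induction with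
    | mem w hw =>
      rcases hw with ⟨i, rfl⟩ | rfl
      · exact ⟨i, 0, by simp⟩
      · exact ⟨0, 1, by simp⟩
    | one => exact ⟨0, 0, by simp⟩
    | mul a b _ _ ha hb =>
      obtain ⟨i, j, rfl⟩ := ha
      obtain ⟨k, l, rfl⟩ := hb
      refine ⟨i + k, j + l, ?_⟩
      have h1 : z ^ j * x ^ k = x ^ k * z ^ j := ((hxz.zpow_zpow k j).eq).symm
      calc x ^ i * z ^ j * (x ^ k * z ^ l) = x ^ i * (z ^ j * x ^ k) * z ^ l := by group
        _ = x ^ i * (x ^ k * z ^ j) * z ^ l := by rw [h1]
        _ = x ^ (i + k) * z ^ (j + l) := by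
          rw [zpow_add, zpow_add]; group
    | inv a _ ha =>
      obtain ⟨i, j, rfl⟩ := ha
      refine ⟨-i, -j, ?_⟩
      rw [mul_inv_rev, zpow_neg, zpow_neg]
      exact ((hxz.zpow_zpow i j).inv_inv).eq.symm
  by_contra hcon
  have huB : u ∉ B := fun h => hcon (hform u h)
  have huC : u ∈ centralizer ((B : Subgroup X) : Set X) := by
    rw [mem_centralizer_iff]
    intro w hw
    obtain ⟨i, j, rfl⟩ := hform w hw
    have h1 := (hxu.zpow_left i).eq
    have h2 := (hzu.zpow_left j).eq
    calc x ^ i * z ^ j * u = x ^ i * (z ^ j * u) := by group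
      _ = x ^ i * (u * z ^ j) := by rw [h2]
      _ = (x ^ i * u) * z ^ j := by group
      _ = u * x ^ i * z ^ j := by rw [h1]
      _ = u * (x ^ i * z ^ j) := by group
  obtain ⟨hAc, hAe⟩ := Cfsg.Agent.Lib.PGroups.RankBound.ea_closure_insert hBc hBe hu huC
  set A : Subgroup X := closure ((B : Set X) ∪ {u}) with hA
  have hAp : IsPGroup p A := by
    rintro ⟨a, ha⟩
    exact ⟨1, Subtype.ext (by simpa using hAe a ha)⟩
  have hBA : B < A := by
    refine lt_of_le_of_ne (fun y hy => subset_closure (Or.inl hy)) ?_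
    intro h
    apply huB
    rw [h]
    exact subset_closure (Or.inr rfl)
  have hxB : zpowers x < B := by
    refine lt_of_le_of_ne (fun y hy => subset_closure (Or.inl hy)) ?_
    intro h
    apply hzx
    rw [h]
    exact subset_closure (Or.inr rfl)
  have h1 := card_mul_le_of_lt hAp hBA
  have hBp : IsPGroup p B := hAp.to_le hBA.le
  have h2 := card_mul_le_of_lt hBp hxB
  have h3 := hrank A hAc hAe
  rw [Nat.card_zpowers, hxo] at h2
  have h4 : p * (p * p) ≤ p ^ 2 :=
    (Nat.mul_le_mul_left p h2).trans (h1.trans h3)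
  have h5 : p ^ 2 < p * (p * p) := by
    have := hpp.one_lt
    have h6 : 0 < p * p := by positivity
    nlinarith
  exact absurd h4 (not_le.2 h5)

/-- The local analysis: an element of order `p` outside `⟨x⟩`, central in a Sylow subgroup and
centralized by the subnormal subgroup `K`, forces `K` to be `p`-nilpotent. -/
theorem key (hp2 : p ≠ 2) (hrank : PRankLE p 2 X) (T : Sylow p X) {x z : X} (hxT : x ∈ (T : Subgroup X))
    (hzT : z ∈ (T : Subgroup X)) (hxo : orderOf x = p) (hzo : orderOf z = p) (hiso : IsIsolated x)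
    (hzc : ∀ t ∈ (T : Subgroup X), t * z = z * t) (hzx : z ∉ zpowers x) {K : Subgroup X}
    (hK : K.IsSubnormal) (hKz : ∀ k ∈ K, k * z = z * k) : HasNormalPComplement p K := by
  classical
  have hpp : p.Prime := hpf.out
  have hxC := le_centralizer_of_isPGroup hiso T.isPGroup' hxT
  have hxc : ∀ t ∈ (T : Subgroup X), Commute x t := by
    intro t ht
    have := hxC ht
    rw [mem_centralizer_singleton_iff] at this
    exact this.symm
  have hxz : Commute x z := hxc z hzT
  have hdec : ∀ u ∈ (T : Subgroup X), u ^ p = 1 → ∃ i j : ℤ, u = x ^ i * z ^ j := by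
    intro u hu hup
    exact exists_zpow_mul_zpow hrank hxo hzo hup hxz (hxc u hu) (hzc u hu).symm hzx
  let P : Sylow p K := sylowOfSubnormal T hK
  have hPm : ∀ a : K, a ∈ (P : Subgroup K) ↔ (a : X) ∈ (T : Subgroup X) := fun a => by
    rw [coe_sylowOfSubnormal, mem_subgroupOf]
  rw [Cfsg.Agent.Lib.Transfer.Omega.hasNormalPComplement_iff_controls_small P]
  intro a ha hsm g hg
  refine ⟨1, (P : Subgroup K).one_mem, ?_⟩
  rw [one_mul, inv_one, mul_one]
  have hap : a ^ p = 1 := by
    rcases hsm with h | ⟨h, _⟩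
    · exact h
    · exact absurd h hp2
  have ha' := (hPm a).1 ha
  have hap' : (a : X) ^ p = 1 := by simpa using congrArg Subtype.val hap
  have hg' := (hPm _).1 hg
  have hgp : ((g : X) * a * (g : X)⁻¹) ^ p = 1 := by
    rw [conj_pow, hap']; simp
  have hg'' : (g : X) * a * (g : X)⁻¹ ∈ (T : Subgroup X) := by simpa using hg'
  obtain ⟨i, j, haf⟩ := hdec _ ha' hap'
  obtain ⟨k, l, hbf⟩ := hdec _ hg'' hgp
  have hgz : (g : X) * z = z * g := hKz g g.2
  have hgzj : ∀ n : ℤ, (g : X) * z ^ n * (g : X)⁻¹ = z ^ n := by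
    intro n
    have h1 : Commute (g : X) (z ^ n) := Commute.zpow_right hgz n
    rw [h1.eq]; simp
  have hconj : ∀ y : X, ∀ n : ℤ, (g : X) * y ^ n * (g : X)⁻¹ = ((g : X) * y * (g : X)⁻¹) ^ n := by
    intro y n
    exact (conj_zpow).symm
  suffices hgx : (g : X) * a * (g : X)⁻¹ = a by
    apply Subtype.ext
    simpa using hgx
  by_cases hxi : x ^ i = 1
  · rw [haf, hxi, one_mul, hgzj]
  -- the main case
  have hcop : IsCoprime (p : ℤ) i := by
    rw [(Nat.prime_iff_prime_int.1 hpp).coprime_iff_not_dvd]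
    intro hdvd
    apply hxi
    rw [← hxo] at hdvd
    exact orderOf_dvd_iff_zpow_eq_one.1 hdvd
  obtain ⟨r, s, hrs⟩ := hcop
  have hxp : x ^ p = 1 := by rw [← hxo]; exact pow_orderOf_eq_one x
  have hxs : x = (x ^ i) ^ s := by
    have h1 : x ^ (r * (p : ℤ) + s * i) = x := by rw [hrs, zpow_one]
    rw [zpow_add, mul_comm r, zpow_mul, zpow_natCast, hxp, one_zpow, one_mul, mul_comm s, zpow_mul] at h1
    exact h1.symm
  set y := (g : X) * x * (g : X)⁻¹ with hy
  have hyi : y ^ i = x ^ k * z ^ (l - j) := by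
    have h1 : (g : X) * a * (g : X)⁻¹ = (g : X) * x ^ i * (g : X)⁻¹ * ((g : X) * z ^ j * (g : X)⁻¹) := by
      rw [haf]; group
    rw [hgzj, hconj, ← hy] at h1
    have h2 : y ^ i = (g : X) * a * (g : X)⁻¹ * (z ^ j)⁻¹ := by
      rw [h1]; group
    rw [h2, hbf, zpow_sub]
    group
  have hyf : y = (y ^ i) ^ s := by
    rw [← zpow_mul, hy, ← hconj, zpow_mul, ← hxs]
  have hxy : Commute x y := by
    rw [hyf, hyi]
    apply Commute.zpow_right
    exact ((Commute.refl x).zpow_right k).mul_right (hxz.zpow_right _)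
  have hyx : y = x := hiso g hxy
  rw [haf]
  calc (g : X) * (x ^ i * z ^ j) * (g : X)⁻¹
      = ((g : X) * x ^ i * (g : X)⁻¹) * ((g : X) * z ^ j * (g : X)⁻¹) := by group
    _ = x ^ i * z ^ j := by rw [hconj, ← hy, hyx, hgzj]

/-- A nontrivial subgroup normal in a `p`-group contains a central element of order `p`. -/
theorem exists_central_in_normal (T : Subgroup X) (hTp : IsPGroup p T) (N : Subgroup X)
    (hNT : N ≤ T) (hn : T ≤ normalizer (N : Set X)) (hN1 : N ≠ ⊥) :
    ∃ z ∈ N, (∀ t ∈ T, t * z = z * t) ∧ orderOf z = p := by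
  have hpp : p.Prime := hpf.out
  have hMn : (N.subgroupOf T).Normal := (normal_subgroupOf_iff_le_normalizer hNT).2 hn
  have hMb : N.subgroupOf T ≠ ⊥ := by
    intro h
    apply hN1
    rw [eq_bot_iff]
    intro r hr
    have h1 : (⟨r, hNT hr⟩ : T) ∈ N.subgroupOf T := by rwa [mem_subgroupOf]
    rw [h, mem_bot] at h1
    rw [mem_bot]
    exact congrArg Subtype.val h1
  have h1 := Cfsg.Agent.Lib.Involutions2.NormalFour.inf_center_ne_bot hTp _ hMb
  have hR : IsPGroup p ↥(N.subgroupOf T ⊓ center T) := hTp.to_subgroup _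
  have hd : p ∣ Nat.card ↥(N.subgroupOf T ⊓ center T) := by
    rcases hR.card_eq_or_dvd with h2 | h2
    · exact absurd (Subgroup.eq_bot_of_card_eq _ h2) h1
    · exact h2
  obtain ⟨y, hy⟩ := exists_prime_orderOf_dvd_card' p hd
  refine ⟨((y : T) : X), mem_subgroupOf.1 y.2.1, ?_, ?_⟩
  · intro t ht
    have := mem_center_iff.1 y.2.2 ⟨t, ht⟩
    exact congrArg Subtype.val this
  · rw [Subgroup.orderOf_coe, Subgroup.orderOf_coe, hy]

theorem not_hasNormalPComplement_of_isComponent (h0 : pPrimeCore p X = ⊥) {K : Subgroup X}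
    (hK : IsComponent K) : ¬ HasNormalPComplement p K := by
  intro hn
  have hpp : p.Prime := hpf.out
  have hco := Cfsg.Agent.Lib.Transfer.Basic.hasNormalPComplement_iff_pResidual.1 hn
  have hq : IsPGroup p (↥K ⧸ pResidual p ↥K) := Cfsg.Agent.Lib.Transfer.Basic.isPGroup_quotient_pResidual
  have hd := dvd_card_of_isComponent h0 hK
  rcases normal_eq_top_or_le_center hK.2 (pResidual p ↥K) with h | h
  · rw [h, Subgroup.card_top, Nat.coprime_comm, Nat.Prime.coprime_iff_not_dvd hpp] at hco
    exact hco hd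
  · have hnil : Group.IsNilpotent (↥K ⧸ pResidual p ↥K) := hq.isNilpotent
    have := _root_.isNilpotent_of_ker_le_center (QuotientGroup.mk' (pResidual p ↥K))
      (by rwa [QuotientGroup.ker_mk'])
    exact quasisimple_not_nilpotent hK.2 this

end aux

/-- Let G be a finite group and p an odd prime with O_{p'}(G) = 1. Suppose that G has p-rank at most 2 (no elementary abelian subgroup of order p³) and that some element x of order p is isolated in G (no G-conjugate of x other than x commutes with x) and not central. Then the generalized Fitting subgroup F*(G) is a non-abelian simple group. Since O_{p'}(G) = 1, such an x is not central modulo O_{p'}(G): the hypotheses describe a counterexample to the Z*_p statement in p-rank at most 2. -/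
theorem result {G : Type*} [Group G] [Finite G] {p : ℕ} [Fact p.Prime] (hp : p ≠ 2) (hcore : Cfsg.pPrimeCore p G = ⊥)
    (hrank : Cfsg.PRankLE p 2 G) (x : G) (hx : orderOf x = p) (hiso : Cfsg.IsIsolated x) (hnc : x ∉ Subgroup.center G) :
    IsSimpleGroup ↥(Cfsg.generalizedFittingSubgroup G) ∧ ¬ IsMulCommutative ↥(Cfsg.generalizedFittingSubgroup G) := by
  classical
  have hpp : p.Prime := Fact.out
  have hpx : IsPGroup p (zpowers x) := IsPGroup.of_card (n := 1) (by rw [Nat.card_zpowers, hx, pow_one])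
  obtain ⟨T, hT⟩ := hpx.exists_le_sylow
  have hxT : x ∈ (T : Subgroup G) := hT (mem_zpowers x)
  have hxC := le_centralizer_of_isPGroup hiso T.isPGroup' hxT
  have hx1 : x ≠ 1 := by
    rintro rfl
    rw [orderOf_one] at hx
    exact hpp.one_lt.ne hx
  have hxO : x ∉ pCore p G := by
    intro hm
    apply hnc
    rw [mem_center_iff]
    intro g
    have h1 : g * x * g⁻¹ ∈ pCore p G := (pCore_normal p G).conj_mem x hm g
    have := hiso g (commute_of_mem_isPGroup hiso pCore_isPGroup hm h1)
    rwa [mul_inv_eq_iff_eq_mul] at this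
  have hOT : pCore p G ≤ (T : Subgroup G) := pCore_le_sylow T
  have hfit := fitting_eq_pCore hcore
  have hKO : ∀ K : Subgroup G, IsComponent K → ∀ k ∈ K, ∀ u ∈ pCore p G, k * u = u * k := by
    intro K hK k hk u hu
    have h1 : ⁅K, pCore p G⁆ = ⊥ := by
      rw [← le_bot_iff, ← commutator_layer_fitting (G := G), hfit]
      exact commutator_mono (le_layer_of_isComponent hK) le_rfl
    have h2 := commutator_eq_bot_iff_le_centralizer.mp h1 hk
    exact (mem_centralizer_iff.mp h2 u hu).symm
  have hkey : ∀ K : Subgroup G, IsComponent K → ∀ z ∈ (T : Subgroup G),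
      (∀ t ∈ (T : Subgroup G), t * z = z * t) → orderOf z = p → z ∉ zpowers x →
      (∀ k ∈ K, k * z = z * k) → False := by
    intro K hK z hzT hzc hzo hzx hKz
    exact not_hasNormalPComplement_of_isComponent hcore hK
      (key hp hrank T hxT hzT hx hzo hiso hzc hzx hK.1 hKz)
  -- there is a component
  obtain ⟨K, hK⟩ : ∃ K : Subgroup G, IsComponent K := by
    by_contra hne
    push Not at hne
    have hl : layer G = ⊥ := by
      rw [layer, sSup_eq_bot]
      intro K hK
      exact absurd hK (hne K)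
    have hF : generalizedFittingSubgroup G = pCore p G := by
      rw [generalizedFittingSubgroup, hl, bot_sup_eq, hfit]
    have h1 : x ∈ centralizer ((generalizedFittingSubgroup G : Subgroup G) : Set G) := by
      rw [hF, mem_centralizer_iff]
      intro u hu
      have := hxC (hOT hu)
      rw [mem_centralizer_singleton_iff] at this
      exact this
    have h2 := centralizer_generalizedFitting_le h1
    rw [hF] at h2
    exact hxO h2
  -- `O_p(G) = 1`
  have hO : pCore p G = ⊥ := by
    by_contra hne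
    obtain ⟨z, hzO, hzc, hzo⟩ := exists_central_in_normal (T : Subgroup G) T.isPGroup' (pCore p G)
      hOT (by rw [normalizer_eq_top]; exact le_top) hne
    refine hkey K hK z (hOT hzO) hzc hzo ?_ (fun k hk => hKO K hK k hk z hzO)
    intro hzx
    have h1 : zpowers z = zpowers x := by
      apply Subgroup.eq_of_le_of_card_ge ((zpowers_le).2 hzx)
      rw [Nat.card_zpowers, Nat.card_zpowers, hx, hzo]
    apply hxO
    have h2 : x ∈ zpowers z := by rw [h1]; exact mem_zpowers x
    exact (zpowers_le.2 hzO) h2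
  -- trivial centers
  have hZ : ∀ K : Subgroup G, IsComponent K → ∀ u ∈ K, (∀ k ∈ K, k * u = u * k) → u = 1 := by
    intro K hK u huK hu
    have hs : ((center K).map K.subtype).IsSubnormal := by
      refine Subgroup.IsSubnormal.trans (map_subtype_le _) ?_ hK.1
      have h1 : ((center K).map K.subtype).subgroupOf K = center K :=
        comap_map_eq_self_of_injective K.subtype_injective _
      rw [h1]
      exact (inferInstance : (center K).Normal).isSubnormal
    have hn : Group.IsNilpotent ((center K).map K.subtype) := by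
      apply Cfsg.Agent.Lib.Core.Basic.isNilpotent_of_isMulCommutative
    have h2 := le_fittingSubgroup_of_isSubnormal hs hn
    rw [hfit, hO, le_bot_iff] at h2
    have h3 : u ∈ (center K).map K.subtype := by
      exact ⟨⟨u, huK⟩, mem_center_iff.2 (fun g => Subtype.ext (hu g g.2)), rfl⟩
    rw [h2, mem_bot] at h3
    exact h3
  -- elements of order `p` in components lying in a Sylow subgroup
  have hyK : ∀ K : Subgroup G, IsComponent K → ∃ y ∈ K, y ∈ (T : Subgroup G) ∧ orderOf y = p := by
    intro K hK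
    have hd := dvd_card_of_isComponent hcore hK
    let P : Sylow p K := sylowOfSubnormal T hK.1
    have hPb : (P : Subgroup K) ≠ ⊥ := P.ne_bot_of_dvd_card hd
    have hPd : p ∣ Nat.card (P : Subgroup K) := by
      rcases P.isPGroup'.card_eq_or_dvd with h2 | h2
      · exact absurd (Subgroup.eq_bot_of_card_eq _ h2) hPb
      · exact h2
    obtain ⟨y, hy⟩ := exists_prime_orderOf_dvd_card' p hPd
    refine ⟨((y : K) : G), (y : K).2, ?_, ?_⟩
    · have h5 : (y : K) ∈ (T : Subgroup G).subgroupOf K := y.2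
      exact mem_subgroupOf.1 h5
    · rw [Subgroup.orderOf_coe, Subgroup.orderOf_coe, hy]
  have hcommK : ∀ K L : Subgroup G, IsComponent K → IsComponent L → K ≠ L →
      ∀ k ∈ K, ∀ l ∈ L, k * l = l * k := by
    intro K L hK hL hne k hk l hl
    rcases component_eq_or_commutator_eq_bot hK hL with h | h
    · exact absurd h hne
    · have h2 := commutator_eq_bot_iff_le_centralizer.mp h hk
      exact (mem_centralizer_iff.mp h2 l hl).symm
  have hxp : x ^ p = 1 := by rw [← hx]; exact pow_orderOf_eq_one x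
  -- `T` normalizes each component
  have hTN : ∀ K : Subgroup G, IsComponent K → (T : Subgroup G) ≤ normalizer (K : Set G) := by
    intro K hK t ht
    by_contra htn
    have hinj : ∀ s : G, Function.Injective (MulAut.conj s).toMonoidHom :=
      fun s => (MulAut.conj s).injective
    have hmap : ∀ s : G, s ∉ normalizer (K : Set G) → K.map (MulAut.conj s).toMonoidHom ≠ K := by
      intro s hs he
      apply hs
      apply Cfsg.Agent.Lib.HSubgroup.Basic.mem_normalizer_of_conj_le
      intro y hy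
      have : s * y * s⁻¹ ∈ K.map (MulAut.conj s).toMonoidHom := ⟨y, hy, by simp⟩
      rwa [he] at this
    set K₁ := K.map (MulAut.conj t).toMonoidHom with hK₁
    set K₂ := K₁.map (MulAut.conj t).toMonoidHom with hK₂
    have hcK₁ : IsComponent K₁ := isComponent_conj t hK
    have hcK₂ : IsComponent K₂ := isComponent_conj t hcK₁
    have h01 : K ≠ K₁ := (hmap t htn).symm
    have h12 : K₁ ≠ K₂ := by
      intro h
      exact h01 (Subgroup.map_injective (hinj t) h)
    have h02 : K ≠ K₂ := by
      intro h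
      -- `t²` normalizes `K`, `t` has odd order
      have hK₂' : K₂ = K.map (MulAut.conj (t * t)).toMonoidHom := by
        rw [hK₂, hK₁, Subgroup.map_map]
        congr 1
        ext y
        simp [MulAut.conj_apply, mul_assoc]
      have htt : t * t ∈ normalizer (K : Set G) := by
        by_contra hcon
        exact hmap _ hcon (by rw [← hK₂', ← h])
      obtain ⟨n, hn⟩ := T.isPGroup' ⟨t, ht⟩
      have hn' : t ^ p ^ n = 1 := by simpa using congrArg Subtype.val hn
      have hodd : Odd (p ^ n) := (hpp.odd_of_ne_two hp).pow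
      obtain ⟨m, hm⟩ := hodd
      have h3 : t = (t * t) ^ (m + 1) := by
        rw [← pow_two, ← pow_mul]
        have : 2 * (m + 1) = p ^ n + 1 := by omega
        rw [this, pow_succ, hn', one_mul]
      apply htn
      rw [h3]
      exact (normalizer (K : Set G)).pow_mem htt _
    obtain ⟨y, hyKm, hyT, hyo⟩ := hyK K hK
    set y₁ := t * y * t⁻¹ with hy₁
    set y₂ := t * y₁ * t⁻¹ with hy₂
    have hy₁K : y₁ ∈ K₁ := ⟨y, hyKm, by simp [hy₁]⟩
    have hy₂K : y₂ ∈ K₂ := ⟨y₁, hy₁K, by simp [hy₂]⟩
    have hordconj : ∀ (s w : G), orderOf (s * w * s⁻¹) = orderOf w := by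
      intro s w
      simpa [MulAut.conj_apply] using (MulAut.conj s).orderOf_eq w
    have hy₁o : orderOf y₁ = p := by rw [hy₁, hordconj, hyo]
    have hy₂o : orderOf y₂ = p := by rw [hy₂, hordconj, hy₁o]
    have hy₁ne : y₁ ≠ 1 := by
      intro h
      rw [h, orderOf_one] at hy₁o
      exact hpp.one_lt.ne hy₁o
    have hy₂ne : y₂ ≠ 1 := by
      intro h
      rw [h, orderOf_one] at hy₂o
      exact hpp.one_lt.ne hy₂o
    have hy₁n : y₁ ∉ zpowers y := by
      intro h
      have h1 : y₁ ∈ K := (zpowers_le.2 hyKm) h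
      exact hy₁ne (hZ K₁ hcK₁ y₁ hy₁K (fun k hk => (hcommK K K₁ hK hcK₁ h01 y₁ h1 k hk).symm))
    obtain ⟨i, j, hij⟩ := exists_zpow_mul_zpow hrank hyo hy₁o
      (by rw [← hy₂o]; exact pow_orderOf_eq_one y₂)
      (hcommK K K₁ hK hcK₁ h01 y hyKm y₁ hy₁K) (hcommK K K₂ hK hcK₂ h02 y hyKm y₂ hy₂K)
      (hcommK K₁ K₂ hcK₁ hcK₂ h12 y₁ hy₁K y₂ hy₂K) hy₁n
    apply hy₂ne
    apply hZ K₂ hcK₂ y₂ hy₂K
    intro k hk
    have h1 : y ^ i ∈ K := K.zpow_mem hyKm i
    have h2 : y₁ ^ j ∈ K₁ := K₁.zpow_mem hy₁K j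
    have h3 := hcommK K K₂ hK hcK₂ h02 _ h1 k hk
    have h4 := hcommK K₁ K₂ hcK₁ hcK₂ h12 _ h2 k hk
    rw [hij]
    calc k * (y ^ i * y₁ ^ j) = (k * y ^ i) * y₁ ^ j := by group
      _ = (y ^ i * k) * y₁ ^ j := by rw [h3]
      _ = y ^ i * (k * y₁ ^ j) := by group
      _ = y ^ i * (y₁ ^ j * k) := by rw [h4]
      _ = y ^ i * y₁ ^ j * k := by group
  -- uniqueness
  have hwC : ∀ C : Subgroup G, IsComponent C →
      ∃ w ∈ (T : Subgroup G) ⊓ C, (∀ t ∈ (T : Subgroup G), t * w = w * t) ∧ orderOf w = p := by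
    intro C hC
    obtain ⟨y, hyC, hyT, hyo⟩ := hyK C hC
    apply exists_central_in_normal (T : Subgroup G) T.isPGroup' _ inf_le_left
    · intro t ht
      apply Cfsg.Agent.Lib.HSubgroup.Basic.mem_normalizer_of_conj_le
      rintro u ⟨hu1, hu2⟩
      exact ⟨(T : Subgroup G).mul_mem ((T : Subgroup G).mul_mem ht hu1) ((T : Subgroup G).inv_mem ht),
        (mem_normalizer_iff.1 (hTN C hC ht) u).1 hu2⟩
    · intro hb
      have h1 : y ∈ (T : Subgroup G) ⊓ C := ⟨hyT, hyC⟩
      rw [hb, mem_bot] at h1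
      rw [h1, orderOf_one] at hyo
      exact hpp.one_lt.ne hyo
  have haux : ∀ C D : Subgroup G, IsComponent C → IsComponent D → C ≠ D → x ∈ D := by
    intro C D hC hD hne
    obtain ⟨w, ⟨hwT, hwD⟩, hwc, hwo⟩ := hwC D hD
    by_contra hxD
    refine hkey C hC w hwT hwc hwo ?_ (fun k hk => hcommK C D hC hD hne k hk w hwD)
    intro hwx
    have h1 : zpowers w = zpowers x := by
      apply Subgroup.eq_of_le_of_card_ge ((zpowers_le).2 hwx)
      rw [Nat.card_zpowers, Nat.card_zpowers, hx, hwo]
    apply hxD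
    have h2 : x ∈ zpowers w := by rw [h1]; exact mem_zpowers x
    exact (zpowers_le.2 hwD) h2
  have huniq : ∀ L : Subgroup G, IsComponent L → L = K := by
    intro L hL
    by_contra hne
    have h1 := haux K L hK hL (Ne.symm hne)
    have h2 := haux L K hL hK hne
    exact hx1 (hZ L hL x h1 (fun k hk => (hcommK K L hK hL (Ne.symm hne) x h2 k hk).symm))
  have hlayer : layer G = K := by
    apply le_antisymm _ (le_layer_of_isComponent hK)
    refine sSup_le fun L hL => ?_
    rw [huniq L hL]
  have hF : generalizedFittingSubgroup G = K := by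
    rw [generalizedFittingSubgroup, hlayer, hfit, hO, sup_bot_eq]
  rw [hF]
  refine ⟨?_, ?_⟩
  · have := quasisimple_nontrivial hK.2
    refine ⟨fun N hN => ?_⟩
    rcases normal_eq_top_or_le_center hK.2 N with h | h
    · exact Or.inr h
    · left
      rw [eq_bot_iff]
      intro u hu
      have h1 := hZ K hK u u.2 (fun k hk => by
        have := mem_center_iff.1 (h hu) ⟨k, hk⟩
        exact congrArg Subtype.val this)
      exact Subtype.ext h1
  · intro hcomm
    have h1 : IsMulCommutative K := hcomm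
    exact quasisimple_not_nilpotent hK.2 (Cfsg.Agent.Lib.Core.Basic.isNilpotent_of_isMulCommutative)

end Cfsg.Agent.S3049
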