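import Cfsg.Statements.S3050
import Cfsg.Agent.Lib.SLFpf.Final

set_option autoImplicit false
open Cfsg

namespace Cfsg.Agent.S3050



/-- Let G be a finite group with a normal 2-subgroup Q such that G/Q is isomorphic to SL(2, 2ⁿ) with n ≥ 2, and suppose some element of G of order 3 fixes no nonidentity element of Q under conjugation. Then Q is elementary abelian and is the direct product of normal subgroups of G on each of which G acts as SL(2, 2ⁿ) acts on its natural two-dimensional module (a Galois twist of the natural action allowed). -/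
theorem result {G : Type*} [Group G] [Finite G]
    (Q : Subgroup G) [Q.Normal] (hQ : IsPGroup 2 ↥Q) (n : ℕ) (hn : 2 ≤ n)
    (K : Type*) [Field K] [Fintype K] (hK : Fintype.card K = 2 ^ n)
    (e : G ⧸ Q ≃* Matrix.SpecialLinearGroup (Fin 2) K)
    (x : G) (hx : orderOf x = 3) (hfpf : ∀ q ∈ Q, x * q * x⁻¹ = q → q = 1) :
    Cfsg.IsElementaryAbelian 2 Q ∧
      ∃ (k : ℕ) (V : Fin k → Subgroup G), (∀ i, V i ≤ Q ∧ (V i).Normal ∧
        Cfsg.ActsAsSL2OnSection K ⊤ ⊤ (V i) ⊥) ∧ iSupIndep V ∧ ⨆ i, V i = Q := by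
  exact Cfsg.Agent.Lib.SLFpf.Final.main Q hQ n hn K hK e x hx hfpf

end Cfsg.Agent.S3050
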