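import Cfsg.Statements.S3053
import Cfsg.Agent.Lib.PGroups.Special
import Cfsg.Agent.Lib.Transfer.Frobenius
import Mathlib

set_option autoImplicit false
set_option linter.unusedSectionVars false
set_option linter.unusedVariables false
open Cfsg

namespace Cfsg.Agent.S3053

open Subgroup

variable {G : Type*} [Group G]

lemma conj_mem_of_normalizer {A : Subgroup G} {n a : G} (hn : n ∈ normalizer (A : Set G))
    (ha : a ∈ A) : n * a * n⁻¹ ∈ A := (mem_normalizer_iff.1 hn a).1 ha

/-- The computation: an element inverting `A`, modulo the complement `K` of `A` in its centralizer. -/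
lemma core {p k : ℕ} (hk : p = 2 * k + 1) (A K : Subgroup G)
    (hAc : ∀ a ∈ A, ∀ b ∈ A, a * b = b * a) (hApow : ∀ a ∈ A, a ^ p = 1)
    (hKN : ∀ n ∈ normalizer (A : Set G), ∀ c ∈ K, n * c * n⁻¹ ∈ K)
    (hCAK : ∀ c ∈ centralizer (A : Set G), ∃ a ∈ A, ∃ d ∈ K, c = a * d)
    (hAK : ∀ a ∈ A, a ∈ K → a = 1)
    (s : G) (hsN : s ∈ normalizer (A : Set G)) (hs : ∀ a ∈ A, s * a * s⁻¹ = a⁻¹)
    (u : G) (huN : u ∈ normalizer (A : Set G)) :
    ∃ a ∈ A, (a⁻¹ * u) ^ p ∈ A → (a⁻¹ * u) ^ p = 1 := by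
  have hs' : ∀ a ∈ A, s⁻¹ * a * s = a⁻¹ := by
    intro a ha
    have hb : s⁻¹ * a * s ∈ A := by
      have := conj_mem_of_normalizer (inv_mem hsN) ha
      simpa using this
    have := hs _ hb
    have e : s * (s⁻¹ * a * s) * s⁻¹ = a := by group
    rw [e] at this
    exact (inv_eq_iff_eq_inv.2 this).symm
  have hcC : u * s * u⁻¹ * s⁻¹ ∈ centralizer (A : Set G) := by
    rw [mem_centralizer_iff]
    intro a ha
    have hb : u⁻¹ * a * u ∈ A := by
      have := conj_mem_of_normalizer (inv_mem huN) ha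
      simpa using this
    have e1 : s⁻¹ * a * s = a⁻¹ := hs' a ha
    have e2 : s * (u⁻¹ * a⁻¹ * u) * s⁻¹ = u⁻¹ * a * u := by
      have : u⁻¹ * a⁻¹ * u = (u⁻¹ * a * u)⁻¹ := by group
      rw [this, hs _ (inv_mem hb |> fun h => by simpa using h)]
      · simp only [inv_inv]
    have e3 : (u * s * u⁻¹ * s⁻¹) * a * (u * s * u⁻¹ * s⁻¹)⁻¹ = a := by
      calc (u * s * u⁻¹ * s⁻¹) * a * (u * s * u⁻¹ * s⁻¹)⁻¹
          = u * (s * (u⁻¹ * (s⁻¹ * a * s) * u) * s⁻¹) * u⁻¹ := by group
        _ = u * (s * (u⁻¹ * a⁻¹ * u) * s⁻¹) * u⁻¹ := by rw [e1]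
        _ = u * (u⁻¹ * a * u) * u⁻¹ := by rw [e2]
        _ = a := by group
    exact (mul_inv_eq_iff_eq_mul.1 e3).symm
  obtain ⟨a0, ha0, d, hd, hc⟩ := hCAK _ hcC
  let a : G := a0 ^ (k + 1)
  have ha : a ∈ A := A.pow_mem ha0 _
  have haa : a * a = a0 := by
    have : a * a = a0 ^ p * a0 := by
      simp only [a]
      rw [← pow_add, hk, ← pow_succ]
      congr 1
      ring
    rw [this, hApow _ ha0, one_mul]
  have hsa : s * a = a⁻¹ * s := by
    have := hs a ha
    rw [mul_inv_eq_iff_eq_mul] at this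
    exact this
  have haN : a ∈ normalizer (A : Set G) := by
    rw [mem_normalizer_iff]
    intro b
    constructor
    · intro hb
      have := A.mul_mem (A.mul_mem ha hb) (A.inv_mem ha)
      exact this
    · intro hb
      have e : b = a⁻¹ * (a * b * a⁻¹) * a := by group
      rw [e]
      exact A.mul_mem (A.mul_mem (A.inv_mem ha) hb) ha
  let v : G := a⁻¹ * u
  have hvN : v ∈ normalizer (A : Set G) := mul_mem (inv_mem haN) huN
  have hv : v * s * v⁻¹ * s⁻¹ ∈ K := by
    have e0 : u * s * u⁻¹ = a0 * d * s := by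
      rw [← hc]; group
    have e : v * s * v⁻¹ * s⁻¹ = a * d * a⁻¹ := by
      calc v * s * v⁻¹ * s⁻¹ = a⁻¹ * (u * s * u⁻¹) * a * s⁻¹ := by simp only [v]; group
        _ = a⁻¹ * (a0 * d * s) * a * s⁻¹ := by rw [e0]
        _ = a⁻¹ * ((a * a) * d) * (s * a) * s⁻¹ := by rw [haa]; group
        _ = a⁻¹ * ((a * a) * d) * (a⁻¹ * s) * s⁻¹ := by rw [hsa]
        _ = a * d * a⁻¹ := by group
    rw [e]
    exact hKN a haN d hd
  have hpow : ∀ j : ℕ, v ^ j * s * (v ^ j)⁻¹ * s⁻¹ ∈ K := by
    intro j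
    induction j with
    | zero => simpa using K.one_mem
    | succ j ih =>
      have e : v ^ (j + 1) * s * (v ^ (j + 1))⁻¹ * s⁻¹ =
          (v * (v ^ j * s * (v ^ j)⁻¹ * s⁻¹) * v⁻¹) * (v * s * v⁻¹ * s⁻¹) := by
        rw [pow_succ' v j]; group
      rw [e]
      exact K.mul_mem (hKN v hvN _ ih) hv
  refine ⟨a, ha, fun hw => ?_⟩
  set w : G := v ^ p with hw_def
  have h1 : w * s * w⁻¹ * s⁻¹ ∈ K := hpow p
  have h2 : w * s * w⁻¹ * s⁻¹ = w * w := by
    have : s * w⁻¹ * s⁻¹ = w := by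
      rw [hs _ (A.inv_mem hw), inv_inv]
    calc w * s * w⁻¹ * s⁻¹ = w * (s * w⁻¹ * s⁻¹) := by group
      _ = w * w := by rw [this]
  rw [h2] at h1
  have h3 : w * w = 1 := hAK _ (A.mul_mem hw hw) h1
  have h4 : w ^ p = 1 := hApow w hw
  rw [hk, pow_succ, pow_mul, pow_two, h3, one_pow, one_mul] at h4
  exact h4

/-- Burnside: the complement to `A` in its centralizer, when `A` is a central Sylow subgroup there. -/
lemma exists_K {p : ℕ} [Fact p.Prime] [Finite G] (A : Subgroup G) (hApg : IsPGroup p A)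
    (hAc : ∀ a ∈ A, ∀ b ∈ A, a * b = b * a)
    (hmax : ∀ Q : Subgroup G, IsPGroup p Q → A ≤ Q → Q ≤ centralizer (A : Set G) → Q ≤ A) :
    ∃ K : Subgroup G, (∀ n ∈ normalizer (A : Set G), ∀ c ∈ K, n * c * n⁻¹ ∈ K) ∧
      (∀ c ∈ centralizer (A : Set G), ∃ a ∈ A, ∃ d ∈ K, c = a * d) ∧ (∀ a ∈ A, a ∈ K → a = 1) := by
  classical
  set C : Subgroup G := centralizer (A : Set G) with hC
  have hAC : A ≤ C := by
    intro a ha
    rw [hC, mem_centralizer_iff]
    intro b hb
    exact hAc b hb a ha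
  have hpA : IsPGroup p (A.subgroupOf C) := by
    intro x
    obtain ⟨n, hn⟩ := hApg ⟨((x : C) : G), mem_subgroupOf.1 x.2⟩
    refine ⟨n, ?_⟩
    apply Subtype.ext
    apply Subtype.ext
    have := congrArg Subtype.val hn
    simpa using this
  let S : Sylow p C :=
    { toSubgroup := A.subgroupOf C
      isPGroup' := hpA
      is_maximal' := by
        intro Q hQ hle
        apply le_antisymm _ hle
        have hmapP : IsPGroup p (Q.map C.subtype) := hQ.map _
        have h1 : A ≤ Q.map C.subtype := by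
          intro a ha
          exact ⟨⟨a, hAC ha⟩, hle (by simpa [mem_subgroupOf] using ha), rfl⟩
        have h2 : Q.map C.subtype ≤ C := by
          rintro _ ⟨x, _, rfl⟩
          exact x.2
        have h3 := hmax _ hmapP h1 h2
        intro x hx
        rw [mem_subgroupOf]
        exact h3 ⟨x, hx, rfl⟩ }
  have hSval : (S : Subgroup C) = A.subgroupOf C := rfl
  have hN : normalizer ((S : Subgroup C) : Set C) ≤ centralizer ((S : Subgroup C) : Set C) := by
    intro x _
    rw [mem_centralizer_iff]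
    intro y hy
    rw [SetLike.mem_coe, hSval, mem_subgroupOf] at hy
    apply Subtype.ext
    have := (mem_centralizer_iff.1 x.2) (y : G) hy
    simpa using this
  have hcomp := MonoidHom.ker_transferSylow_isComplement' S hN
  have hcard := MonoidHom.not_dvd_card_ker_transferSylow S hN
  set Kc := (MonoidHom.transferSylow S hN).ker with hKc
  have hpp : p.Prime := Fact.out
  have hmcop : (Nat.card Kc).Coprime p := ((Nat.Prime.coprime_iff_not_dvd hpp).2 hcard).symm
  -- decomposition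
  have hdec : ∀ x : C, ∃ k ∈ Kc, ∃ a : C, (a : G) ∈ A ∧ x = k * a := by
    intro x
    obtain ⟨⟨k, a⟩, hka, _⟩ := hcomp.existsUnique x
    refine ⟨k, k.2, a, ?_, hka.symm⟩
    have : (a : C) ∈ A.subgroupOf C := a.2
    exact mem_subgroupOf.1 this
  have hApow : ∀ a ∈ A, ∃ i : ℕ, a ^ (p ^ i) = 1 := by
    intro a ha
    obtain ⟨i, hi⟩ := hApg ⟨a, ha⟩
    exact ⟨i, by simpa using congrArg Subtype.val hi⟩
  have hchar : ∀ x (hx : x ∈ C), (orderOf x).Coprime p → x ∈ Kc.map C.subtype := by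
    intro x hx hco
    obtain ⟨k, hk, a, ha, hxk⟩ := hdec ⟨x, hx⟩
    have hcomm : Commute (k : C) a := by
      apply Subtype.ext
      have := (mem_centralizer_iff.1 k.2) (a : G) ha
      exact this.symm
    obtain ⟨i, hi⟩ := hApow _ ha
    have hkm : k ^ Nat.card Kc = 1 := by
      exact orderOf_dvd_iff_pow_eq_one.1 (Subgroup.orderOf_dvd_natCard Kc hk)
    have hxm : (⟨x, hx⟩ : C) ^ Nat.card Kc = a ^ Nat.card Kc := by
      rw [hxk, hcomm.mul_pow, hkm, one_mul]
    have hxm' : x ^ Nat.card Kc = (a : G) ^ Nat.card Kc := by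
      simpa using congrArg Subtype.val hxm
    have h1 : x ^ (Nat.card Kc * p ^ i) = 1 := by
      rw [pow_mul, hxm', ← pow_mul, mul_comm, pow_mul, hi, one_pow]
    have h2 : orderOf x ∣ Nat.card Kc * p ^ i := orderOf_dvd_of_pow_eq_one h1
    have h3 : orderOf x ∣ Nat.card Kc := (Nat.Coprime.pow_right i hco).dvd_of_dvd_mul_right h2
    have h4 : (a : G) ^ Nat.card Kc = 1 := by
      rw [← hxm']; exact orderOf_dvd_iff_pow_eq_one.1 h3
    have h5 : orderOf (a : G) ∣ Nat.card Kc := orderOf_dvd_of_pow_eq_one h4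
    have h6 : orderOf (a : G) ∣ p ^ i := orderOf_dvd_of_pow_eq_one hi
    have h7 : orderOf (a : G) = 1 := Nat.eq_one_of_dvd_coprimes (Nat.Coprime.pow_right i hmcop) h5 h6
    have h8 : (a : G) = 1 := orderOf_eq_one_iff.1 h7
    have h9 : a = 1 := Subtype.ext h8
    rw [h9, mul_one] at hxk
    exact ⟨k, hk, by simpa using (congrArg Subtype.val hxk).symm⟩
  refine ⟨Kc.map C.subtype, ?_, ?_, ?_⟩
  · rintro n hn _ ⟨k, hk, rfl⟩
    have hmem : n * (k : G) * n⁻¹ ∈ C := by
      change n * (k : G) * n⁻¹ ∈ centralizer (A : Set G)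
      rw [mem_centralizer_iff]
      intro b hb
      have hb' : n⁻¹ * b * n ∈ A := by
        have := conj_mem_of_normalizer (inv_mem hn) hb
        simpa using this
      have := (mem_centralizer_iff.1 k.2) _ hb'
      calc b * (n * (k : G) * n⁻¹) = n * ((n⁻¹ * b * n) * (k : G)) * n⁻¹ := by group
        _ = n * ((k : G) * (n⁻¹ * b * n)) * n⁻¹ := by rw [this]
        _ = (n * (k : G) * n⁻¹) * b := by group
    apply hchar _ hmem
    have h1 : orderOf (n * (k : G) * n⁻¹) = orderOf (k : G) := by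
      have := orderOf_injective (MulAut.conj n).toMonoidHom (MulAut.conj n).injective (k : G)
      simpa [MulAut.conj_apply] using this
    rw [h1, Subgroup.orderOf_coe]
    exact Nat.Coprime.coprime_dvd_left (Subgroup.orderOf_dvd_natCard Kc hk) hmcop
  · intro c hc
    obtain ⟨k, hk, a, ha, hx⟩ := hdec ⟨c, hc⟩
    refine ⟨a, ha, k, ⟨k, hk, rfl⟩, ?_⟩
    have h1 : c = (k : G) * a := by simpa using congrArg Subtype.val hx
    rw [h1]
    exact ((mem_centralizer_iff.1 k.2) (a : G) ha).symm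
  · rintro a ha ⟨k, hk, rfl⟩
    obtain ⟨i, hi⟩ := hApow _ ha
    have h6 : orderOf ((k : C) : G) ∣ p ^ i := orderOf_dvd_of_pow_eq_one hi
    have h5 : orderOf ((k : C) : G) ∣ Nat.card Kc := by
      rw [Subgroup.orderOf_coe]; exact Subgroup.orderOf_dvd_natCard Kc hk
    have h7 := Nat.eq_one_of_dvd_coprimes (Nat.Coprime.pow_right i hmcop) h5 h6
    exact orderOf_eq_one_iff.1 h7

lemma mem_normalizer_of_conj_mem [Finite G] {A : Subgroup G} {n : G} (h : ∀ a ∈ A, n * a * n⁻¹ ∈ A) :
    n ∈ normalizer (A : Set G) := by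
  rw [mem_normalizer_iff]
  intro a
  refine ⟨h a, fun ha => ?_⟩
  let f : A → A := fun b => ⟨n * b * n⁻¹, h b b.2⟩
  have hf : Function.Injective f := by
    intro b c hbc
    have : n * (b : G) * n⁻¹ = n * c * n⁻¹ := congrArg Subtype.val hbc
    apply Subtype.ext
    simpa using this
  obtain ⟨b, hb⟩ := (Finite.injective_iff_surjective.1 hf) ⟨_, ha⟩
  have : n * (b : G) * n⁻¹ = n * a * n⁻¹ := congrArg Subtype.val hb
  have hab : (b : G) = a := by simpa using this
  exact hab ▸ b.2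

/-- A subgroup between two of consecutive orders is one of them. -/
lemma between [Finite G] {p n : ℕ} (hp : p.Prime) {X Y D : Subgroup G} (hX : Nat.card X = p ^ n)
    (hY : Nat.card Y = p ^ (n + 1)) (h1 : X ≤ D) (h2 : D ≤ Y) : D = X ∨ D = Y := by
  have hd1 : Nat.card D ∣ p ^ (n + 1) := hY ▸ Subgroup.card_dvd_of_le h2
  obtain ⟨i, hi, hD⟩ := (Nat.dvd_prime_pow hp).1 hd1
  have hd2 : p ^ n ∣ Nat.card D := hX ▸ Subgroup.card_dvd_of_le h1
  rw [hD] at hd2
  have hni : n ≤ i := (Nat.pow_dvd_pow_iff_le_right hp.one_lt).1 hd2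
  have : i = n ∨ i = n + 1 := by omega
  rcases this with rfl | rfl
  · left
    exact (Subgroup.eq_of_le_of_card_ge h1 (by rw [hD, hX])).symm
  · right
    exact Subgroup.eq_of_le_of_card_ge h2 (by rw [hD, hY])

lemma exists_pow_eq_of_card [Finite G] {p : ℕ} [Fact p.Prime] {T : Subgroup G} (hT : Nat.card T = p)
    {t w : G} (ht : t ∈ T) (ht1 : t ≠ 1) (hw : w ∈ T) : ∃ b : ℕ, t ^ b = w := by
  haveI := Fintype.ofFinite T
  have h := mem_zpowers_of_prime_card (G := T) (p := p) hT
    (g := ⟨t, ht⟩) (g' := ⟨w, hw⟩) (by simpa [Subtype.ext_iff] using ht1)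
  obtain ⟨b, hb⟩ := (mem_powers_iff_mem_zpowers).2 h
  exact ⟨b, by simpa using congrArg Subtype.val hb⟩

theorem main {p k : ℕ} [Fact p.Prime] [Finite G] (hk : p = 2 * k + 1) (P : Sylow p G) (A Z : Subgroup G)
    (hmemA : ∀ a, a ∈ A ↔ a ∈ (P : Subgroup G) ∧ a ^ p = 1)
    (hmemZ : ∀ a, a ∈ Z ↔ a ∈ (P : Subgroup G) ∧ ∀ b ∈ (P : Subgroup G), a * b = b * a)
    (hcardA : Nat.card A = p ^ 2) (hcardZ : Nat.card Z = p) (hcardP : Nat.card (P : Subgroup G) = p ^ 3)
    (hcom : ∀ a ∈ (P : Subgroup G), ∀ b ∈ (P : Subgroup G), a * b * a⁻¹ * b⁻¹ ∈ Z)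
    (hpowZ : ∀ a ∈ (P : Subgroup G), a ^ p ∈ Z) :
    ∀ x ∈ Z, ∀ g : G, g * x * g⁻¹ ∈ (P : Subgroup G) → g * x * g⁻¹ ∈ Z := by
  classical
  intro x hxZ g hyP
  by_contra hyZ
  have hpp : p.Prime := Fact.out
  have hZpow : ∀ z ∈ Z, z ^ p = 1 := by
    intro z hz
    rw [← hcardZ]
    exact orderOf_dvd_iff_pow_eq_one.1 (Subgroup.orderOf_dvd_natCard Z hz)
  have hZP : Z ≤ (P : Subgroup G) := fun z hz => ((hmemZ z).1 hz).1
  have hZA : Z ≤ A := fun z hz => (hmemA z).2 ⟨hZP hz, hZpow z hz⟩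
  have hAP : A ≤ (P : Subgroup G) := fun a ha => ((hmemA a).1 ha).1
  have hApow : ∀ a ∈ A, a ^ p = 1 := fun a ha => ((hmemA a).1 ha).2
  have hZc : ∀ z ∈ Z, ∀ b ∈ (P : Subgroup G), z * b = b * z := fun z hz => ((hmemZ z).1 hz).2
  have hx1 : x ≠ 1 := by
    rintro rfl
    apply hyZ
    simpa using Z.one_mem
  set y := g * x * g⁻¹ with hy
  have hyA : y ∈ A := by
    rw [hmemA]
    refine ⟨hyP, ?_⟩
    rw [hy, conj_pow, hZpow x hxZ]
    group
  have hAc : ∀ a ∈ A, ∀ b ∈ A, a * b = b * a := by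
    intro a ha b hb
    have := IsPGroup.commutative_of_card_eq_prime_sq hcardA ⟨a, ha⟩ ⟨b, hb⟩
    simpa using congrArg Subtype.val this
  have hApg : IsPGroup p A := by
    intro a
    refine ⟨1, ?_⟩
    apply Subtype.ext
    simpa using hApow a a.2
  -- centralizers in P of noncentral elements of A
  have hCy : ∀ t ∈ A, t ∉ Z → ∀ w ∈ (P : Subgroup G), w * t = t * w → w ∈ A := by
    intro t ht htZ w hw hwt
    let D : Subgroup G := centralizer {t} ⊓ (P : Subgroup G)
    have h1 : A ≤ D := by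
      intro a ha
      exact Subgroup.mem_inf.2 ⟨mem_centralizer_singleton_iff.2 (hAc a ha t ht), hAP ha⟩
    have h2 : D ≤ (P : Subgroup G) := inf_le_right
    rcases between (n := 2) hpp hcardA hcardP h1 h2 with h | h
    · have : w ∈ D := Subgroup.mem_inf.2 ⟨mem_centralizer_singleton_iff.2 hwt, hw⟩
      rwa [h] at this
    · exfalso
      apply htZ
      rw [hmemZ]
      refine ⟨hAP ht, fun b hb => ?_⟩
      have : b ∈ D := h ▸ hb
      have := mem_centralizer_singleton_iff.1 (Subgroup.mem_inf.1 this).1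
      exact this.symm
  -- conjugating so that A lies in the conjugate
  obtain ⟨g', hg'x, hg'A⟩ : ∃ g' : G, g' * x * g'⁻¹ = y ∧ ∀ a ∈ A, g'⁻¹ * a * g' ∈ (P : Subgroup G) := by
    let D : Subgroup G := centralizer {y}
    have hmemT : ∀ (h : G) (T : Sylow p G) (t : G), t ∈ (h • T : Sylow p G) ↔ h⁻¹ * t * h ∈ T := by
      intro h T t
      exact Cfsg.Agent.Lib.Transfer.Frobenius.mem_smul_sylow_iff h t T
    have hT : ((g • P : Sylow p G) : Subgroup G) ≤ D := by
      intro t ht
      have ht' := (hmemT g P t).1 ht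
      rw [mem_centralizer_singleton_iff]
      have h0 := hZc x hxZ _ ht'
      calc t * y = g * ((g⁻¹ * t * g) * x) * g⁻¹ := by rw [hy]; group
        _ = g * (x * (g⁻¹ * t * g)) * g⁻¹ := by rw [h0]
        _ = y * t := by rw [hy]; group
    have hAD : A ≤ D := by
      intro a ha
      rw [mem_centralizer_singleton_iff]
      exact hAc a ha y hyA
    have hQ : IsPGroup p (A.subgroupOf D) := by
      intro a
      obtain ⟨n, hn⟩ := hApg ⟨((a : D) : G), mem_subgroupOf.1 a.2⟩
      refine ⟨n, ?_⟩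
      apply Subtype.ext
      apply Subtype.ext
      simpa using congrArg Subtype.val hn
    obtain ⟨R, hR⟩ := hQ.exists_le_sylow
    obtain ⟨h, hh⟩ := MulAction.exists_smul_eq D ((g • P : Sylow p G).subtype hT) R
    refine ⟨(h : G) * g, ?_, ?_⟩
    · have h1 : (h : G) * y = y * h := by
        have := h.2
        rw [mem_centralizer_singleton_iff] at this
        exact this
      calc (h : G) * g * x * ((h : G) * g)⁻¹ = (h : G) * y * (h : G)⁻¹ := by rw [hy]; group
        _ = y := by rw [h1]; group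
    · intro a ha
      have h1 : (⟨a, hAD ha⟩ : D) ∈ R := hR (mem_subgroupOf.2 ha)
      rw [← hh, Sylow.smul_subtype] at h1
      have h2 : a ∈ ((h : D) • (g • P) : Sylow p G) := by
        have h' := h1
        change (⟨a, hAD ha⟩ : D) ∈ ((_ : Sylow p D) : Subgroup D) at h'
        rw [Sylow.coe_subtype, mem_subgroupOf] at h'
        exact h'
      have h3 : ((h : D) • (g • P) : Sylow p G) = ((h : G) * g) • P := by
        rw [mul_smul]; rfl
      rw [h3, hmemT] at h2
      exact h2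
  -- the normalizer of A
  have hg'N : g'⁻¹ ∈ normalizer (A : Set G) := by
    apply mem_normalizer_of_conj_mem
    intro a ha
    have h1 : g'⁻¹ * a * (g'⁻¹)⁻¹ = g'⁻¹ * a * g' := by group
    rw [h1, hmemA]
    refine ⟨hg'A a ha, ?_⟩
    have h2 : g'⁻¹ * a * g' = g'⁻¹ * a * (g'⁻¹)⁻¹ := h1.symm
    rw [h2, conj_pow, hApow a ha]
    group
  have hgN : g' ∈ normalizer (A : Set G) := by simpa using inv_mem hg'N
  have hPN : ∀ w ∈ (P : Subgroup G), w ∈ normalizer (A : Set G) := by
    intro w hw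
    apply mem_normalizer_of_conj_mem
    intro a ha
    rw [hmemA]
    refine ⟨mul_mem (mul_mem hw (hAP ha)) (inv_mem hw), ?_⟩
    rw [conj_pow, hApow a ha]
    group
  -- an element outside A
  obtain ⟨u, huP, huA⟩ : ∃ u ∈ (P : Subgroup G), u ∉ A := by
    by_contra hcon
    push_neg at hcon
    have : (P : Subgroup G) ≤ A := hcon
    have h1 : Nat.card (P : Subgroup G) ≤ Nat.card A := Subgroup.card_le_of_le this
    rw [hcardP, hcardA] at h1
    have := Nat.pow_lt_pow_right (a := p) hpp.one_lt (show 2 < 3 by norm_num)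
    omega
  have huN := hPN u huP
  -- the element inverting A
  obtain ⟨s, hsN, hs⟩ : ∃ s ∈ normalizer (A : Set G), ∀ a ∈ A, s * a * s⁻¹ = a⁻¹ := by
    have hxy : x * y = y * x := hAc x (hZA hxZ) y hyA
    have hy1 : y ≠ 1 := by
      intro h
      apply hyZ
      rw [h]
      exact Z.one_mem
    -- the first unipotent element
    set z0 := u * y * u⁻¹ * y⁻¹ with hz0
    have hz0Z : z0 ∈ Z := hcom u huP y (hAP hyA)
    have hz01 : z0 ≠ 1 := by
      intro h
      apply huA
      apply hCy y hyA hyZ u huP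
      have : u * y * u⁻¹ = y := by
        rw [hz0] at h
        exact mul_inv_eq_one.1 h
      rw [mul_inv_eq_iff_eq_mul] at this
      exact this
    obtain ⟨a, ha⟩ := exists_pow_eq_of_card hcardZ hz0Z hz01 hxZ
    have huz0 : ∀ n : ℕ, u * z0 ^ n = z0 ^ n * u := by
      intro n
      exact (hZc _ (Z.pow_mem hz0Z n) u huP).symm
    have hupow : ∀ n : ℕ, u ^ n * y * (u ^ n)⁻¹ = z0 ^ n * y := by
      intro n
      induction n with
      | zero => simp
      | succ n ih =>
        have e1 : u * y * u⁻¹ = z0 * y := by rw [hz0]; group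
        calc u ^ (n + 1) * y * (u ^ (n + 1))⁻¹ = u * (u ^ n * y * (u ^ n)⁻¹) * u⁻¹ := by
              rw [pow_succ' u n]; group
          _ = u * (z0 ^ n * y) * u⁻¹ := by rw [ih]
          _ = (u * z0 ^ n) * y * u⁻¹ := by group
          _ = z0 ^ n * (u * y * u⁻¹) := by rw [huz0]; group
          _ = z0 ^ (n + 1) * y := by rw [e1, pow_succ]; group
    let X : G := u ^ a
    have hXP : X ∈ (P : Subgroup G) := pow_mem huP a
    have hXx : X * x * X⁻¹ = x := by
      have := hZc x hxZ X hXP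
      rw [mul_inv_eq_iff_eq_mul]
      exact this.symm
    have hXy : X * y * X⁻¹ = x * y := by
      rw [← ha]
      exact hupow a
    -- the second unipotent element
    have hx0A : g'⁻¹ * x * g' ∈ A := by
      have := conj_mem_of_normalizer hg'N (hZA hxZ)
      simpa using this
    have hord : orderOf y = p := orderOf_eq_prime (hApow y hyA) hy1
    have hTcard : Nat.card (zpowers y) = p := by
      rw [Nat.card_zpowers, hord]
    have hx0Z : g'⁻¹ * x * g' ∉ Z := by
      intro h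
      obtain ⟨m, hm⟩ := exists_pow_eq_of_card hcardZ hxZ hx1 h
      have h1 : y ^ m = x := by
        have : g' * (x ^ m) * g'⁻¹ = x := by rw [hm]; group
        rw [← conj_pow, hg'x] at this
        exact this
      have hxT : x ∈ zpowers y := ⟨(m : ℤ), by simpa using h1⟩
      obtain ⟨b, hb⟩ := exists_pow_eq_of_card hTcard hxT hx1 (mem_zpowers y)
      apply hyZ
      rw [← hb]
      exact Z.pow_mem hxZ b
    set x0 := g'⁻¹ * x * g' with hx0
    set z' := u * x0 * u⁻¹ * x0⁻¹ with hz'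
    have hz'Z : z' ∈ Z := hcom u huP x0 (hAP hx0A)
    have hz'1 : z' ≠ 1 := by
      intro h
      apply huA
      apply hCy x0 hx0A hx0Z u huP
      have : u * x0 * u⁻¹ = x0 := by
        rw [hz'] at h
        exact mul_inv_eq_one.1 h
      rw [mul_inv_eq_iff_eq_mul] at this
      exact this
    obtain ⟨m, hm⟩ := exists_pow_eq_of_card hcardZ hxZ hx1 hz'Z
    let u' : G := g' * u * g'⁻¹
    have hu'N : u' ∈ normalizer (A : Set G) := mul_mem (mul_mem hgN huN) hg'N
    have hu'y : u' * y = y * u' := by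
      have h0 := hZc x hxZ u huP
      calc u' * y = g' * (u * x) * g'⁻¹ := by rw [← hg'x]; simp only [u']; group
        _ = g' * (x * u) * g'⁻¹ := by rw [h0]
        _ = y * u' := by rw [← hg'x]; simp only [u']; group
    have hgx0 : g' * x0 * g'⁻¹ = x := by rw [hx0]; group
    set z1 := u' * x * u'⁻¹ * x⁻¹ with hz1
    have hz1e : z1 = g' * z' * g'⁻¹ := by
      rw [hz1, hz', ← hgx0]
      simp only [u']
      group
    have hz1y : z1 = y ^ m := by
      rw [hz1e, ← hm, ← hg'x, conj_pow]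
    have hz11 : z1 ≠ 1 := by
      rw [hz1e]
      intro h
      apply hz'1
      have : z' = g'⁻¹ * (g' * z' * g'⁻¹) * g' := by group
      rw [this, h]; group
    have hz1T : z1 ∈ zpowers y := ⟨(m : ℤ), by simpa using hz1y.symm⟩
    obtain ⟨b, hb⟩ := exists_pow_eq_of_card hTcard hz1T hz11 (inv_mem (mem_zpowers y))
    have hu'z : ∀ n : ℕ, u' * z1 ^ n = z1 ^ n * u' := by
      intro n
      have hc : Commute u' y := hu'y
      rw [hz1y, ← pow_mul]
      exact (hc.pow_right _).eq
    have hu'pow : ∀ n : ℕ, u' ^ n * x * (u' ^ n)⁻¹ = z1 ^ n * x := by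
      intro n
      induction n with
      | zero => simp
      | succ n ih =>
        have e1 : u' * x * u'⁻¹ = z1 * x := by rw [hz1]; group
        calc u' ^ (n + 1) * x * (u' ^ (n + 1))⁻¹ = u' * (u' ^ n * x * (u' ^ n)⁻¹) * u'⁻¹ := by
              rw [pow_succ' u' n]; group
          _ = u' * (z1 ^ n * x) * u'⁻¹ := by rw [ih]
          _ = (u' * z1 ^ n) * x * u'⁻¹ := by group
          _ = z1 ^ n * (u' * x * u'⁻¹) := by rw [hu'z]; group
          _ = z1 ^ (n + 1) * x := by rw [e1, pow_succ]; group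
    let Y : G := u' ^ b
    have hYy : Y * y * Y⁻¹ = y := by
      have hc : Commute u' y := hu'y
      rw [mul_inv_eq_iff_eq_mul]
      exact (hc.pow_left b).eq
    have hYx : Y * x * Y⁻¹ = y⁻¹ * x := by
      rw [← hb]
      exact hu'pow b
    -- the Weyl element
    have hXN : X ∈ normalizer (A : Set G) := hPN X hXP
    have hYN : Y ∈ normalizer (A : Set G) := pow_mem hu'N b
    let w : G := X * Y * X
    have hwN : w ∈ normalizer (A : Set G) := mul_mem (mul_mem hXN hYN) hXN
    have hmul : ∀ t c d : G, t * (c * d) * t⁻¹ = (t * c * t⁻¹) * (t * d * t⁻¹) := by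
      intro t c d; group
    have hinv : ∀ t c : G, t * c⁻¹ * t⁻¹ = (t * c * t⁻¹)⁻¹ := by
      intro t c; group
    have hcomp : ∀ t r c : G, (t * r) * c * (t * r)⁻¹ = t * (r * c * r⁻¹) * t⁻¹ := by
      intro t r c; group
    have hwx : w * x * w⁻¹ = y⁻¹ := by
      have e : w * x * w⁻¹ = X * (Y * (X * x * X⁻¹) * Y⁻¹) * X⁻¹ := by simp only [w]; group
      rw [e, hXx, hYx, hmul, hinv, hXy, hXx]
      group
    have hwy : w * y * w⁻¹ = x := by
      have e : w * y * w⁻¹ = X * (Y * (X * y * X⁻¹) * Y⁻¹) * X⁻¹ := by simp only [w]; group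
      rw [e, hXy, hmul Y, hYx, hYy]
      have e2 : y⁻¹ * x * y = x := by
        rw [mul_assoc, hxy]; group
      rw [e2, hXx]
    refine ⟨w * w, mul_mem hwN hwN, ?_⟩
    have hsx : (w * w) * x * (w * w)⁻¹ = x⁻¹ := by
      rw [hcomp, hwx, hinv, hwy]
    have hsy : (w * w) * y * (w * w)⁻¹ = y⁻¹ := by
      rw [hcomp, hwy, hwx]
    let E : Subgroup G :=
      { carrier := {a | a ∈ A ∧ (w * w) * a * (w * w)⁻¹ = a⁻¹}
        mul_mem' := by
          rintro c d ⟨hc, hc'⟩ ⟨hd, hd'⟩
          refine ⟨A.mul_mem hc hd, ?_⟩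
          rw [hmul, hc', hd', mul_inv_rev]
          exact hAc _ (A.inv_mem hc) _ (A.inv_mem hd)
        one_mem' := ⟨A.one_mem, by simp⟩
        inv_mem' := by
          rintro c ⟨hc, hc'⟩
          refine ⟨A.inv_mem hc, ?_⟩
          rw [hinv, hc'] }
    have hxE : x ∈ E := ⟨hZA hxZ, hsx⟩
    have hyE : y ∈ E := ⟨hyA, hsy⟩
    have hZE : Z ≤ E := by
      intro z hz
      obtain ⟨n, rfl⟩ := exists_pow_eq_of_card hcardZ hxZ hx1 hz
      exact E.pow_mem hxE n
    have hEA : E ≤ A := fun c hc => hc.1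
    rcases between (n := 1) hpp (by simpa using hcardZ) hcardA hZE hEA with h | h
    · exfalso
      apply hyZ
      rw [← h]
      exact hyE
    · intro c hc
      have : c ∈ E := h ▸ hc
      exact this.2
  -- the complement
  obtain ⟨K, hK1, hK2, hK3⟩ := exists_K (p := p) A hApg hAc (by
    intro Q hQ hAQ hQC
    have hQN : Q ≤ normalizer (A : Set G) := by
      intro q hq
      apply mem_normalizer_of_conj_mem
      intro a ha
      have := (mem_centralizer_iff.1 (hQC hq)) a ha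
      rw [← this]
      simpa using ha
    let N : Subgroup G := normalizer (A : Set G)
    have hPN' : (P : Subgroup G) ≤ N := hPN
    have hQ' : IsPGroup p (Q.subgroupOf N) := by
      intro q
      obtain ⟨n, hn⟩ := hQ ⟨((q : N) : G), mem_subgroupOf.1 q.2⟩
      refine ⟨n, ?_⟩
      apply Subtype.ext
      apply Subtype.ext
      simpa using congrArg Subtype.val hn
    obtain ⟨R, hR⟩ := hQ'.exists_le_sylow
    obtain ⟨n, hn⟩ := MulAction.exists_smul_eq N (P.subtype hPN') R
    intro q hq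
    have h1 : (⟨q, hQN hq⟩ : N) ∈ R := hR (mem_subgroupOf.2 hq)
    rw [← hn, Sylow.smul_subtype] at h1
    have h2 : q ∈ ((n : N) • P : Sylow p G) := by
      have h' := h1
      change (⟨q, hQN hq⟩ : N) ∈ ((_ : Sylow p N) : Subgroup N) at h'
      rw [Sylow.coe_subtype, mem_subgroupOf] at h'
      exact h'
    have h3 : (n : G)⁻¹ * q * (n : G) ∈ (P : Subgroup G) :=
      (Cfsg.Agent.Lib.Transfer.Frobenius.mem_smul_sylow_iff (n : G) q P).1 h2
    have hnN : (n : G)⁻¹ ∈ normalizer (A : Set G) := inv_mem n.2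
    have hyy : (n : G)⁻¹ * y * (n : G) ∈ A := by
      have := conj_mem_of_normalizer hnN hyA
      simpa using this
    have h4 : (n : G)⁻¹ * q * (n : G) ∈ A := by
      -- `q` commutes with A
      have ht0 : (n : G) * y * (n : G)⁻¹ ∈ A := conj_mem_of_normalizer n.2 hyA
      have h6 := (mem_centralizer_iff.1 (hQC hq)) _ ht0
      apply hCy y hyA hyZ _ h3
      calc (n : G)⁻¹ * q * (n : G) * y = (n : G)⁻¹ * (q * ((n : G) * y * (n : G)⁻¹)) * (n : G) := by group
        _ = (n : G)⁻¹ * (((n : G) * y * (n : G)⁻¹) * q) * (n : G) := by rw [h6]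
        _ = y * ((n : G)⁻¹ * q * (n : G)) := by group
    have := conj_mem_of_normalizer n.2 h4
    have e : (n : G) * ((n : G)⁻¹ * q * (n : G)) * (n : G)⁻¹ = q := by group
    rwa [e] at this)
  obtain ⟨a, ha, hav⟩ := core hk A K hAc hApow hK1 hK2 hK3 s hsN hs u huN
  have hvP : a⁻¹ * u ∈ (P : Subgroup G) := mul_mem (inv_mem (hAP ha)) huP
  have h1 := hav (hZA (hpowZ _ hvP))
  have h2 : a⁻¹ * u ∈ A := (hmemA _).2 ⟨hvP, h1⟩
  apply huA
  have : u = a * (a⁻¹ * u) := by group
  rw [this]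
  exact mul_mem ha h2

theorem result {G : Type*} [Group G] [Finite G]
    {p : ℕ} [Fact p.Prime] (hp : p ≠ 2) (P : Sylow p G) (hE : Cfsg.IsExtraspecial p ↥P)
    (hcard : Nat.card P = p ^ 3) (hexp : Monoid.exponent ↥P = p ^ 2) :
    Cfsg.IsStronglyClosed ((Subgroup.center ↥P).map (P : Subgroup G).subtype) (P : Subgroup G) := by
  classical
  have hpp : p.Prime := Fact.out
  obtain ⟨k, hk⟩ := hpp.odd_of_ne_two hp
  have h := Cfsg.Agent.Lib.PGroups.Special.extraLike_of_isExtraspecial hE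
  let φ := h.powHom hp
  have hφne : φ.range ≠ ⊥ := by
    intro hb
    have h1 : ∀ a : (P : Subgroup G), a ^ p = 1 := by
      intro a
      have : φ a ∈ φ.range := ⟨a, rfl⟩
      rw [hb, Subgroup.mem_bot] at this
      simpa [φ] using congrArg Subtype.val this
    have h2 : Monoid.exponent ↥P ∣ p := Monoid.exponent_dvd_of_forall_pow_eq_one h1
    rw [hexp] at h2
    have h3 : p ^ 2 ≤ p := Nat.le_of_dvd hpp.pos h2
    have h4 : p * p ≤ p := by rwa [pow_two] at h3
    have h5 := Nat.le_of_mul_le_mul_right (by simpa using h4 : p * p ≤ 1 * p) hpp.pos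
    exact absurd h5 (by have := hpp.two_le; omega)
  haveI : Fact (Nat.card (Subgroup.center ↥P)).Prime := ⟨by rw [h.card_center]; exact hpp⟩
  have hφs : Function.Surjective φ := by
    have hr : φ.range = ⊤ := by
      have := Subgroup.eq_bot_or_eq_top_of_prime_card (G := Subgroup.center ↥P) φ.range
      exact this.resolve_left hφne
    exact MonoidHom.range_eq_top.1 hr
  have hcardK : Nat.card φ.ker = p ^ 2 := by
    have h1 : Nat.card φ.ker * Nat.card (Subgroup.center ↥P) = Nat.card ↥P := by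
      have := Subgroup.card_mul_index φ.ker
      rw [Subgroup.index_ker, MonoidHom.range_eq_top.2 hφs, Subgroup.card_top] at this
      exact this
    rw [h.card_center] at h1
    have h2 : p ^ 3 = p ^ 2 * p := by ring
    have h3 : Nat.card φ.ker * p = p ^ 2 * p := by
      rw [← h2, ← hcard]; exact h1
    exact Nat.eq_of_mul_eq_mul_right hpp.pos h3
  let A : Subgroup G := φ.ker.map (P : Subgroup G).subtype
  let Z : Subgroup G := (Subgroup.center ↥P).map (P : Subgroup G).subtype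
  have hmemA : ∀ a, a ∈ A ↔ a ∈ (P : Subgroup G) ∧ a ^ p = 1 := by
    intro a
    constructor
    · rintro ⟨b, hb, rfl⟩
      refine ⟨b.2, ?_⟩
      have : φ b = 1 := hb
      have h1 : (b ^ p : ↥P) = 1 := by simpa [φ] using congrArg Subtype.val this
      simpa using congrArg Subtype.val h1
    · rintro ⟨ha, hap⟩
      refine ⟨⟨a, ha⟩, ?_, rfl⟩
      rw [SetLike.mem_coe, MonoidHom.mem_ker]
      apply Subtype.ext
      apply Subtype.ext
      simpa [φ] using hap
  have hmemZ : ∀ a, a ∈ Z ↔ a ∈ (P : Subgroup G) ∧ ∀ b ∈ (P : Subgroup G), a * b = b * a := by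
    intro a
    constructor
    · rintro ⟨b, hb, rfl⟩
      refine ⟨b.2, fun c hc => ?_⟩
      have := (Subgroup.mem_center_iff.1 hb) ⟨c, hc⟩
      simpa using (congrArg Subtype.val this).symm
    · rintro ⟨ha, hab⟩
      exact ⟨⟨a, ha⟩, Subgroup.mem_center_iff.2 (fun c => Subtype.ext (hab c c.2).symm), rfl⟩
  have hcardA : Nat.card A = p ^ 2 := by
    rw [← hcardK]
    exact Nat.card_congr (Subgroup.equivMapOfInjective _ _ (Subgroup.subtype_injective _)).symm.toEquiv
  have hcardZ : Nat.card Z = p := by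
    rw [← h.card_center]
    exact Nat.card_congr (Subgroup.equivMapOfInjective _ _ (Subgroup.subtype_injective _)).symm.toEquiv
  have hcom : ∀ a ∈ (P : Subgroup G), ∀ b ∈ (P : Subgroup G), a * b * a⁻¹ * b⁻¹ ∈ Z := by
    intro a ha b hb
    refine ⟨_, h.comm_mem ⟨a, ha⟩ ⟨b, hb⟩, ?_⟩
    simp [commutatorElement_def]
  have hpowZ : ∀ a ∈ (P : Subgroup G), a ^ p ∈ Z := by
    intro a ha
    refine ⟨_, h.pow_mem ⟨a, ha⟩, ?_⟩
    simp
  refine ⟨?_, ?_⟩
  · rintro _ ⟨b, _, rfl⟩
    exact b.2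
  · exact main hk P A Z hmemA hmemZ hcardA hcardZ hcard hcom hpowZ

end Cfsg.Agent.S3053
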