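import Cfsg.Statements.S3056
import Cfsg.Agent.Lib.PReduced.StrongEmbEquiv

set_option autoImplicit false
open Cfsg

namespace Cfsg.Agent.S3056


open Cfsg

section aux
variable {G : Type*} [Group G] [Finite G] {p : ℕ} [Fact p.Prime]

/-- adjacency -/
def Adj (S T : Sylow p G) : Prop := S ≠ T ∧ (S : Subgroup G) ⊓ (T : Subgroup G) ≠ ⊥

/-- connected -/
def Conn (S T : Sylow p G) : Prop := Relation.ReflTransGen Adj S T

lemma mem_smul_iff {S : Sylow p G} {g x : G} :
    x ∈ ((g • S : Sylow p G) : Subgroup G) ↔ g⁻¹ * x * g ∈ (S : Subgroup G) := by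
  rw [Sylow.coe_subgroup_smul, Subgroup.mem_pointwise_smul_iff_inv_smul_mem]
  simp [MulAut.smul_def, MulAut.conj_apply, mul_assoc, MulAut.conj_inv_apply]

lemma adj_smul {S T : Sylow p G} (g : G) (h : Adj S T) : Adj (g • S) (g • T) := by
  refine ⟨fun e => h.1 (smul_left_cancel g e), fun e => h.2 ?_⟩
  rw [Subgroup.eq_bot_iff_forall] at e ⊢
  intro x hx
  have h0 : g⁻¹ * (g * x * g⁻¹) * g = x := by group
  have h1 := e (g * x * g⁻¹) ⟨mem_smul_iff.2 (by rw [h0]; exact hx.1),
    mem_smul_iff.2 (by rw [h0]; exact hx.2)⟩
  have h2 : x = g⁻¹ * (g * x * g⁻¹) * g := by group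
  rw [h2, h1]; simp

lemma conn_smul {S T : Sylow p G} (g : G) (h : Conn S T) : Conn (g • S) (g • T) :=
  by
    induction h with
    | refl => exact Relation.ReflTransGen.refl
    | tail _ hbc ih => exact ih.tail (adj_smul g hbc)

lemma adj_symm {S T : Sylow p G} (h : Adj S T) : Adj T S :=
  ⟨h.1.symm, by rw [inf_comm]; exact h.2⟩

lemma conn_symm {S T : Sylow p G} (h : Conn S T) : Conn T S :=
  by
    induction h with
    | refl => exact Relation.ReflTransGen.refl
    | tail _ hbc ih => exact Relation.ReflTransGen.head (adj_symm hbc) ih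

/-- stabilizer of a component -/
def compStab (S : Sylow p G) : Subgroup G where
  carrier := {g | Conn S (g • S)}
  mul_mem' := by
    intro a b ha hb
    have h1 : Conn (a • S) (a • (b • S)) := conn_smul a hb
    show Conn S ((a * b) • S)
    rw [mul_smul]
    exact Relation.ReflTransGen.trans ha h1
  one_mem' := by
    show Conn S ((1 : G) • S)
    rw [one_smul]
    exact Relation.ReflTransGen.refl
  inv_mem' := by
    intro a ha
    have h1 : Conn (a⁻¹ • S) (a⁻¹ • (a • S)) := conn_smul a⁻¹ ha
    rw [inv_smul_smul] at h1
    exact conn_symm h1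

lemma mem_compStab {S : Sylow p G} {g : G} : g ∈ compStab S ↔ Conn S (g • S) := Iff.rfl

lemma sylow_le_compStab (S : Sylow p G) : (S : Subgroup G) ≤ compStab S := by
  intro x hx
  rw [mem_compStab]
  have : x • S = S := Sylow.smul_eq_iff_mem_normalizer.2 (Subgroup.le_normalizer hx)
  rw [this]
  exact Relation.ReflTransGen.refl

/-- A `p`-element of the stabilizer lies in a conjugate of `S` under the stabilizer. -/
lemma exists_conj_mem (S : Sylow p G) {x : G} (hx : x ∈ compStab S) (hxp : orderOf x = p) :
    ∃ h ∈ compStab S, x ∈ ((h • S : Sylow p G) : Subgroup G) := by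
  classical
  set K := compStab S
  let y : K := ⟨x, hx⟩
  have hyo : orderOf y = p := by
    rw [← hxp]; exact Subgroup.orderOf_mk x hx
  have hy : IsPGroup p (Subgroup.zpowers y) := by
    apply IsPGroup.of_card (n := 1)
    rw [Nat.card_zpowers, hyo, pow_one]
  obtain ⟨Q, hQ⟩ := hy.exists_le_sylow
  have hSK : (S : Subgroup G) ≤ K := sylow_le_compStab S
  obtain ⟨h, hh⟩ := MulAction.exists_smul_eq K (S.subtype hSK) Q
  refine ⟨h, h.2, ?_⟩
  have hyQ : y ∈ (Q : Subgroup K) := hQ (Subgroup.mem_zpowers y)
  rw [← hh, Sylow.smul_subtype] at hyQ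
  have h3 : y ∈ (((h • S : Sylow p G)).subtype (Sylow.smul_le hSK h) : Subgroup K) := hyQ
  rw [Sylow.coe_subtype, Subgroup.mem_subgroupOf] at h3
  exact h3

end aux

/-- Let G be a finite group and p a prime. Join two Sylow p-subgroups when they are distinct and meet nontrivially. This graph on the Sylow p-subgroups is disconnected (the Sylow p-subgroups are not chain-connected through nontrivial intersections) if and only if G has a strongly p-embedded subgroup in the classical sense: a proper subgroup H of order divisible by p such that H ∩ gHg⁻¹ has order prime to p for every g outside H. -/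
theorem result {G : Type*} [Group G] [Finite G]
    (p : ℕ) [Fact p.Prime] :
    ¬ Cfsg.IsSylowChainConnected p G ↔
      ∃ H : Subgroup G, H ≠ ⊤ ∧ p ∣ Nat.card H ∧
        ∀ g : G, g ∉ H → ¬ p ∣ Nat.card ↥(H ⊓ H.map (MulAut.conj g).toMonoidHom) := by
  classical
  constructor
  · intro hnc
    unfold IsSylowChainConnected at hnc
    push_neg at hnc
    obtain ⟨S, T, hST⟩ := hnc
    have hnconn : ¬ Conn S T := by
      intro hc
      by_cases hb : (S : Subgroup G) ⊓ (T : Subgroup G) = ⊥
      · -- a weak chain suffices
        have key : ∃ (n : ℕ) (c : Fin (n + 1) → Sylow p G), c 0 = S ∧ c (Fin.last n) = T ∧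
            ∀ i : Fin n, c i.castSucc ≠ c i.succ ∧ (c i.castSucc : Subgroup G) ⊓ (c i.succ : Subgroup G) ≠ ⊥ := by
          clear hST hb
          induction hc with
          | refl => exact ⟨0, fun _ => S, rfl, rfl, fun i => i.elim0⟩
          | @tail b d _ hbd ih =>
            obtain ⟨n, c, h0, hl, hs⟩ := ih
            refine ⟨n + 1, Fin.snoc c d, ?_, ?_, ?_⟩
            · have : (0 : Fin (n + 2)) = Fin.castSucc (0 : Fin (n + 1)) := rfl
              rw [this, Fin.snoc_castSucc, h0]
            · simp
            · intro i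
              refine Fin.lastCases ?_ (fun j => ?_) i
              · have h1 : (Fin.snoc c d : Fin (n + 2) → Sylow p G) (Fin.last n).castSucc = b := by
                  rw [Fin.snoc_castSucc, hl]
                have h2 : (Fin.snoc c d : Fin (n + 2) → Sylow p G) (Fin.last n).succ = d := by
                  rw [Fin.succ_last, Fin.snoc_last]
                rw [h1, h2]; exact hbd
              · have h1 : (Fin.snoc c d : Fin (n + 2) → Sylow p G) j.castSucc.castSucc = c j.castSucc := by
                  rw [Fin.snoc_castSucc]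
                have h2 : (Fin.snoc c d : Fin (n + 2) → Sylow p G) j.castSucc.succ = c j.succ := by
                  rw [Fin.succ_castSucc, Fin.snoc_castSucc]
                rw [h1, h2]; exact hs j
        obtain ⟨n, c, h0, hl, hs⟩ := key
        obtain ⟨i, hi⟩ := hST n c h0 hl (fun i => by rw [hb]; exact bot_le)
        exact (hs i).2 (hi (hs i).1)
      · by_cases he : S = T
        · subst he
          obtain ⟨i, hi⟩ := hST 0 (fun _ => S) rfl rfl (fun i => inf_le_left)
          exact i.elim0
        · obtain ⟨i, hi⟩ := hST 1 ![S, T] rfl rfl (fun i => by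
            fin_cases i
            · exact inf_le_left
            · exact inf_le_right)
          fin_cases i
          exact hb (hi he)
    obtain ⟨g₀, hg₀⟩ := MulAction.exists_smul_eq G S T
    have hSne : (S : Subgroup G) ≠ ⊥ := by
      intro hb
      apply hnconn
      have : S = T := by
        apply Sylow.ext
        rw [← hg₀, hb]
        rw [Sylow.coe_subgroup_smul, hb]
        simp
      rw [← this]
      exact Relation.ReflTransGen.refl
    refine ⟨compStab S, ?_, ?_, ?_⟩
    · intro htop
      apply hnconn
      have : g₀ ∈ compStab S := htop ▸ Subgroup.mem_top g₀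
      rw [mem_compStab, hg₀] at this
      exact this
    · obtain ⟨n, hn⟩ := IsPGroup.iff_card.1 S.isPGroup'
      rcases n with _ | n
      · exact absurd ((Subgroup.eq_bot_iff_card _).2 (by simpa using hn)) hSne
      · have h1 : p ∣ Nat.card (S : Subgroup G) := by rw [hn]; exact dvd_pow_self p (Nat.succ_ne_zero n)
        exact h1.trans (Subgroup.card_dvd_of_le (sylow_le_compStab S))
    · intro g hg hdvd
      apply hg
      obtain ⟨x, hx⟩ := exists_prime_orderOf_dvd_card' p hdvd
      have hxo : orderOf (x : G) = p := (Subgroup.orderOf_coe x).trans hx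
      have hx1 : (x : G) ≠ 1 := by
        intro h1
        rw [h1, orderOf_one] at hxo
        exact (Fact.out : p.Prime).one_lt.ne hxo
      have hxH : (x : G) ∈ compStab S := x.2.1
      obtain ⟨y, hy, hyx⟩ := x.2.2
      have hyH : y ∈ compStab S := hy
      have hyo : orderOf y = p := by
        rw [← hxo, ← hyx]
        exact (orderOf_injective _ (MulAut.conj g).injective y).symm
      obtain ⟨h, hh, hxh⟩ := exists_conj_mem S hxH hxo
      obtain ⟨h', hh', hyh'⟩ := exists_conj_mem S hyH hyo
      have hx2 : (x : G) ∈ (((g * h') • S : Sylow p G) : Subgroup G) := by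
        rw [mem_smul_iff]
        rw [mem_smul_iff] at hyh'
        have : (g * h')⁻¹ * (x : G) * (g * h') = h'⁻¹ * y * h' := by
          rw [← hyx]
          simp [MulAut.conj_apply, mul_assoc]
        rw [this]; exact hyh'
      have hconn : Conn (h • S) ((g * h') • S) := by
        by_cases he : h • S = (g * h') • S
        · rw [he]
          exact Relation.ReflTransGen.refl
        · refine Relation.ReflTransGen.single ⟨he, ?_⟩
          intro hb
          apply hx1
          have : (x : G) ∈ ((h • S : Sylow p G) : Subgroup G) ⊓ (((g * h') • S : Sylow p G) : Subgroup G) :=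
            ⟨hxh, hx2⟩
          rw [hb] at this
          exact this
      have c1 : Conn S (h • S) := hh
      have c2 : Conn (g • S) ((g * h') • S) := by
        rw [mul_smul]
        exact conn_smul g hh'
      rw [mem_compStab]
      exact (c1.trans hconn).trans (conn_symm c2)
  · rintro ⟨H, hHne, hpH, hse⟩ hconn
    have hSE : Cfsg.IsStronglyPEmbedded p H :=
      (Cfsg.Agent.Lib.PReduced.StrongEmbEquiv.isStronglyPEmbedded_iff_conj hHne hpH).2 hse
    obtain ⟨P, hPH, hPne⟩ := Cfsg.Agent.Lib.PReduced.StrongEmbEquiv.exists_sylow_le hSE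
    obtain ⟨g, hg⟩ : ∃ g, g ∉ H := by
      by_contra hh
      push_neg at hh
      exact hHne (eq_top_iff.2 fun x _ => hh x)
    obtain ⟨n, c, h0, hl, -, hs⟩ := hconn P (g • P)
    -- each member lies in `H`
    have key : ∀ i : Fin (n + 1), (c i : Subgroup G) ≤ H := by
      intro i
      induction i using Fin.induction with
      | zero => rw [h0]; exact hPH
      | succ i ih =>
        -- `c i.succ` meets `H` nontrivially so it lies in `H`
        obtain ⟨t, ht⟩ := MulAction.exists_smul_eq G (c i.castSucc) (c i.succ)
        have hne := (hs i).2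
        have hcore : kGeneratedCore p 1 ((c i.castSucc : Sylow p G) : Subgroup G) ≤ H :=
          Cfsg.Agent.Lib.Fusion.StronglyEmbedded.kGeneratedCore_le_of (fun Q hQ hQ1 =>
            Cfsg.Agent.Lib.PReduced.StrongEmbEquiv.normalizer_le_of_isStronglyPEmbedded hSE
              (hQ.trans ih) ((c i.castSucc).isPGroup'.to_le hQ) hQ1)
        have hmem : t ∈ H := by
          refine Cfsg.Agent.Lib.Fusion.StronglyEmbedded.mem_of_inter_ne_bot (c i.castSucc) hcore _ t rfl ?_
          intro hb
          apply hne
          rw [Subgroup.eq_bot_iff_forall] at hb ⊢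
          intro x hx
          apply hb x ⟨hx.1, ?_⟩
          have this : x ∈ ((c i.succ : Sylow p G) : Subgroup G) := hx.2
          rw [← ht, mem_smul_iff] at this
          exact Cfsg.Agent.Lib.Fusion.GroupSystem.mem_conjMap.2 this
        intro x hx
        rw [← ht, mem_smul_iff] at hx
        have h3 := ih hx
        have h4 : x = t * (t⁻¹ * x * t) * t⁻¹ := by group
        rw [h4]
        exact H.mul_mem (H.mul_mem hmem h3) (H.inv_mem hmem)
    have hT := key (Fin.last n)
    rw [hl] at hT
    apply hse g hg
    have h1 : (((g • P : Sylow p G)) : Subgroup G) ≤ H ⊓ H.map (MulAut.conj g).toMonoidHom := by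
      refine le_inf hT ?_
      intro x hx
      rw [mem_smul_iff] at hx
      refine ⟨g⁻¹ * x * g, hPH hx, ?_⟩
      simp [MulAut.conj_apply, mul_assoc]
    refine dvd_trans ?_ (Subgroup.card_dvd_of_le h1)
    have hgPne : (((g • P : Sylow p G)) : Subgroup G) ≠ ⊥ := by
      intro hb
      apply hPne
      rw [Subgroup.eq_bot_iff_forall] at hb ⊢
      intro x hx
      have := hb (g * x * g⁻¹) (mem_smul_iff.2 (by simpa [mul_assoc] using hx))
      have h2 : x = g⁻¹ * (g * x * g⁻¹) * g := by group
      rw [h2, this]; simp
    exact Cfsg.Agent.Lib.PReduced.StrongEmbEquiv.dvd_card_of_isPGroup (g • P).isPGroup' hgPne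

end Cfsg.Agent.S3056
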