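import Cfsg.Statements.S3058
import Cfsg.Agent.S3056
import Cfsg.Agent.Lib.Coprime.Generation
import Cfsg.Agent.Lib.PReduced.StrongEmbEquiv
import Cfsg.Agent.Lib.Components.CyclicSylow

set_option autoImplicit false
open Cfsg

namespace Cfsg.Agent.S3058

open Cfsg Subgroup Cfsg.Agent.Lib.PReduced.StrongEmbEquiv Cfsg.Agent.Lib.Core.Basic
open Cfsg.Agent.Lib.Coprime.Action Cfsg.Agent.Lib.Coprime.Generation
open Cfsg.Agent.Lib.Components.CyclicSylow

section aux

variable {G : Type*} [Group G] [Finite G] {p : ℕ} [Fact p.Prime]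

theorem exists_of_not_conn (hG : ¬ IsSylowChainConnected p G) :
    ∃ H : Subgroup G, H ≠ ⊤ ∧ p ∣ Nat.card H ∧
      (∀ g : G, g ∉ H → ¬ p ∣ Nat.card ↥(H ⊓ H.map (MulAut.conj g).toMonoidHom)) ∧
      IsStronglyPEmbedded p H := by
  obtain ⟨H, h1, h2, h3⟩ := (Cfsg.Agent.S3056.result p).mp hG
  refine ⟨H, h1, h2, h3, (isStronglyPEmbedded_iff_conj h1 h2).mpr ?_⟩
  intro g hg
  have := h3 g hg
  have e : H.map (MulAut.conj g).toMonoidHom = Cfsg.Agent.Lib.Fusion.GroupSystem.conjMap g H := by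
    ext y
    rw [Cfsg.Agent.Lib.Fusion.GroupSystem.mem_conjMap]
  rwa [e] at this

theorem exists_order_p_in_inf (Q : Sylow p G) (N : Subgroup G) [hN : N.Normal]
    (hd : p ∣ Nat.card N) : ∃ x ∈ N, x ∈ (Q : Subgroup G) ∧ orderOf x = p := by
  have hp : p.Prime := Fact.out
  let P : Sylow p N := Cfsg.Agent.Lib.Components.SylowSub.sylowOfSubnormal Q hN.isSubnormal
  have hne : (P : Subgroup N) ≠ ⊥ := P.ne_bot_of_dvd_card hd
  have hdvd : p ∣ Nat.card (P : Subgroup N) := by
    obtain ⟨k, hk⟩ := IsPGroup.iff_card.mp P.isPGroup'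
    rcases k with _ | k
    · exfalso
      rw [pow_zero] at hk
      exact hne (Subgroup.eq_bot_of_card_eq _ hk)
    · rw [hk]; exact dvd_pow_self p (Nat.succ_ne_zero k)
  obtain ⟨a, ha⟩ := exists_prime_orderOf_dvd_card' p hdvd
  refine ⟨((a : N) : G), (a : N).2, a.2, ?_⟩
  rw [Subgroup.orderOf_coe, Subgroup.orderOf_coe]
  exact ha

end aux

/-- Let p be a prime and G a finite group whose Sylow p-subgroups are not chain-connected through nontrivial intersections (so G has a strongly p-embedded subgroup). If N and M are normal subgroups of G whose orders are both divisible by p, then the order of N ∩ M is divisible by p. Consequently, among the normal subgroups of G whose order is divisible by p there is a smallest one (the intersection of all of them). -/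
theorem result {G : Type*} [Group G] [Finite G]
    (p : ℕ) [Fact p.Prime] (hG : ¬ Cfsg.IsSylowChainConnected p G)
    (N M : Subgroup G) [N.Normal] [M.Normal] (hN : p ∣ Nat.card N) (hM : p ∣ Nat.card M) :
    p ∣ Nat.card ↥(N ⊓ M) := by
  have hp : p.Prime := Fact.out
  by_contra hK
  have hcopK : (Nat.card ↥(N ⊓ M)).Coprime p :=
    ((Nat.Prime.coprime_iff_not_dvd hp).mpr hK).symm
  obtain ⟨D, hDtop, hDp, hDconj, hD⟩ := exists_of_not_conn hG
  obtain ⟨Q, hQD, hQne⟩ := exists_sylow_le hD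
  obtain ⟨x, hxN, hxQ, hxo⟩ := exists_order_p_in_inf Q N hN
  obtain ⟨y, hyM, hyQ, hyo⟩ := exists_order_p_in_inf Q M hM
  set K : Subgroup G := N ⊓ M with hKdef
  have hKn : K.Normal := inferInstance
  have hQK : (Q : Subgroup G) ⊓ K = ⊥ := inf_eq_bot_of_isPGroup_of_coprime Q.isPGroup' hcopK
  have hNN : N.Normal := inferInstance
  have hMN : M.Normal := inferInstance
  -- `x`, `y` commute
  have hcomm : x * y = y * x := by
    have h1 : x * y * x⁻¹ * y⁻¹ ∈ (Q : Subgroup G) ⊓ K := by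
      refine mem_inf.mpr ⟨mul_mem (mul_mem (mul_mem hxQ hyQ) (inv_mem hxQ)) (inv_mem hyQ),
        mem_inf.mpr ⟨?_, ?_⟩⟩
      · have e : x * y * x⁻¹ * y⁻¹ = x * (y * x⁻¹ * y⁻¹) := by group
        rw [e]
        exact mul_mem hxN (hNN.conj_mem _ (inv_mem hxN) y)
      · exact mul_mem (hMN.conj_mem _ hyM x) (inv_mem hyM)
    rw [hQK, mem_bot] at h1
    calc x * y = (x * y * x⁻¹ * y⁻¹) * (y * x) := by group
      _ = y * x := by rw [h1, one_mul]
  -- the noncyclic group `A`
  set A : Subgroup G := closure {x, y} with hA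
  have hAQ : A ≤ (Q : Subgroup G) := by
    rw [hA, closure_le]
    rintro _ (rfl | rfl)
    · exact hxQ
    · exact hyQ
  have hk : ∀ a ∈ ({x, y} : Set G), ∀ b ∈ ({x, y} : Set G), a * b = b * a := by
    rintro _ (rfl | rfl) _ (rfl | rfl)
    · rfl
    · exact hcomm
    · exact hcomm.symm
    · rfl
  have hAc : IsMulCommutative A := Subgroup.isMulCommutative_closure hk
  have hxA : x ∈ A := subset_closure (Or.inl rfl)
  have hyA : y ∈ A := subset_closure (Or.inr rfl)
  have hnc : ¬ IsCyclic A := by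
    intro hc
    have hy' : (⟨y, hyA⟩ : A) ∈ zpowers (⟨x, hxA⟩ : A) := by
      apply mem_zpowers_of_orderOf hp.pos (by rw [Subgroup.orderOf_mk]; exact hxo)
      apply Subtype.ext
      change y ^ p = 1
      rw [← hyo]; exact pow_orderOf_eq_one y
    obtain ⟨k, hk⟩ := hy'
    have h1 : y = x ^ k := (congrArg Subtype.val hk).symm
    have h2 : y ∈ K := mem_inf.mpr ⟨by rw [h1]; exact zpow_mem hxN k, hyM⟩
    have h3 : y ∈ (Q : Subgroup G) ⊓ K := mem_inf.mpr ⟨hyQ, h2⟩
    rw [hQK, mem_bot] at h3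
    rw [h3, orderOf_one] at hyo
    exact hp.one_lt.ne hyo
  have hAK : A ≤ normalizer (K : Set G) := by
    rw [normalizer_eq_top_iff.mpr hKn]; exact le_top
  have hcop : (Nat.card A).Coprime (Nat.card K) := by
    obtain ⟨n, hn⟩ := IsPGroup.iff_card.mp (Q.isPGroup'.to_le hAQ)
    rw [hn]
    exact Nat.Coprime.pow_left _ hcopK.symm
  -- `K ≤ D`
  have hKD : K ≤ D := by
    rw [← iSup_centralizer_eq hnc hAK hcop]
    refine iSup₂_le ?_
    rintro a ⟨haA, ha1⟩
    refine inf_le_right.trans ?_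
    have hzp : zpowers a ≤ D := by
      rw [zpowers_le]; exact hQD (hAQ haA)
    have hzpp : IsPGroup p (zpowers a) := Q.isPGroup'.to_le (by
      rw [zpowers_le]; exact hAQ haA)
    have hzne : zpowers a ≠ ⊥ := by
      rwa [Ne, zpowers_eq_bot]
    refine le_trans ?_ (normalizer_le_of_isStronglyPEmbedded hD hzp hzpp hzne)
    intro g hg
    have hg' : Commute g a := (mem_centralizer_singleton_iff.mp hg)
    rw [mem_normalizer_iff]
    intro h
    have hkk : ∀ k : ℤ, g * a ^ k * g⁻¹ = a ^ k := by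
      intro k
      rw [(hg'.zpow_right k).eq]
      group
    constructor
    · rintro ⟨k, rfl⟩
      change g * a ^ k * g⁻¹ ∈ _
      rw [hkk]
      exact zpow_mem (mem_zpowers a) k
    · rintro ⟨k, hk2⟩
      have hk3 : a ^ k = g * h * g⁻¹ := hk2
      have h4 := hkk k
      rw [hk3] at h4
      have h5 : g * h * g⁻¹ = h := by
        have h6 : g * (g * h * g⁻¹) = g * h := mul_right_cancel h4
        exact mul_left_cancel h6
      have h7 : h = a ^ k := by rw [hk3, h5]
      rw [h7]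
      exact zpow_mem (mem_zpowers a) k
  -- `G = N D`
  open scoped Pointwise in
  obtain ⟨g, -, hg⟩ : ∃ g, g ∈ (⊤ : Subgroup G) ∧ g ∉ D := by
    by_contra hne
    push Not at hne
    exact hDtop (top_le_iff.mp hne)
  set R : Subgroup G := (Q : Subgroup G) ⊓ N with hR
  have hRs : IsSylowIn p R N := by
    refine ⟨inf_le_right, Q.isPGroup'.to_le inf_le_left, ?_⟩
    rw [hR, Subgroup.inf_relIndex_right]
    exact Cfsg.Agent.Lib.Components.SylowSub.not_dvd_relIndex Q hNN.isSubnormal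
  have hRD : R ≤ D := inf_le_left.trans hQD
  have hRne : R ≠ ⊥ := by
    intro h
    have h1 : x ∈ R := mem_inf.mpr ⟨hxQ, hxN⟩
    rw [h, mem_bot] at h1
    rw [h1, orderOf_one] at hxo
    exact hp.one_lt.ne hxo
  have h1 := hRs.conj_of_mem_normalizer (a := g) (by
    rw [normalizer_eq_top_iff.mpr hNN]; exact mem_top _)
  obtain ⟨n, hn, hne⟩ := hRs.exists_conj h1
  have hnN : n⁻¹ * g ∈ normalizer (R : Set G) := by
    apply mem_normalizer_of_conj_smul_eq
    have e1 : MulAut.conj (n⁻¹ * g) • R = MulAut.conj n⁻¹ • (MulAut.conj g • R) := by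
      rw [map_mul, mul_smul]
    rw [e1, ← hne]
    exact Cfsg.Agent.Lib.Subnormal.Basic.conj_inv_conj n R
  have hnD : n⁻¹ * g ∈ D := normalizer_le_of_isStronglyPEmbedded hD hRD
    (Q.isPGroup'.to_le inf_le_left) hRne hnN
  have hnnD : n ∉ D := by
    intro h
    apply hg
    have := mul_mem h hnD
    simpa using this
  -- the contradiction
  have hyD : y ∈ D := hQD hyQ
  set z := n * y * n⁻¹ with hz
  have hzy : z * y⁻¹ ∈ K := by
    refine mem_inf.mpr ⟨?_, mul_mem (hMN.conj_mem _ hyM n) (inv_mem hyM)⟩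
    have e : z * y⁻¹ = n * (y * n⁻¹ * y⁻¹) := by rw [hz]; group
    rw [e]
    exact mul_mem hn (hNN.conj_mem _ (inv_mem hn) y)
  have hzD : z ∈ D := by
    have := mul_mem (hKD hzy) hyD
    simpa using this
  have hzD2 : z ∈ D ⊓ D.map (MulAut.conj n).toMonoidHom :=
    mem_inf.mpr ⟨hzD, ⟨y, hyD, rfl⟩⟩
  apply hDconj n hnnD
  have h2 := orderOf_dvd_natCard (⟨z, hzD2⟩ : ↥(D ⊓ D.map (MulAut.conj n).toMonoidHom))
  rw [Subgroup.orderOf_mk] at h2
  have h3 : orderOf z = p := by
    rw [hz]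
    have := (MulAut.conj n).orderOf_eq y
    rw [← hyo, ← this]; rfl
  rwa [h3] at h2

end Cfsg.Agent.S3058
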