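import Cfsg.Statements.S3059
import Cfsg.Agent.Lib.PReduced.StrongEmbEquiv

set_option autoImplicit false
open Cfsg

namespace Cfsg.Agent.S3059


open Cfsg Cfsg.Agent.Lib.Fusion.StronglyEmbedded Cfsg.Agent.Lib.Fusion.GroupSystem

/-- Let p be a prime and H a strongly p-embedded subgroup of the finite group G in the classical sense: H is proper, p divides the order of H, and H ∩ gHg⁻¹ has order prime to p for every g outside H. Then for every normal subgroup N of G of order divisible by p, G = H · O^p(N), where O^p(N) is the subgroup generated by the elements of N of order prime to p. -/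
theorem result {G : Type*} [Group G] [Finite G]
    (p : ℕ) [Fact p.Prime] (H : Subgroup G) (hH : H ≠ ⊤) (hpH : p ∣ Nat.card H)
    (hse : ∀ g : G, g ∉ H → ¬ p ∣ Nat.card ↥(H ⊓ H.map (MulAut.conj g).toMonoidHom))
    (N : Subgroup G) [N.Normal] (hN : p ∣ Nat.card N) :
    H ⊔ Subgroup.closure {g : G | g ∈ N ∧ (orderOf g).Coprime p} = ⊤ := by
  classical
  have hSE : Cfsg.IsStronglyPEmbedded p H :=
    (Cfsg.Agent.Lib.PReduced.StrongEmbEquiv.isStronglyPEmbedded_iff_conj hH hpH).2 hse
  set N₀ : Subgroup G := Subgroup.closure {g : G | g ∈ N ∧ (orderOf g).Coprime p} with hN₀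
  have hN₀N : N₀ ≤ N := by
    rw [hN₀, Subgroup.closure_le]
    exact fun g hg => hg.1
  have hN₀n : N₀.Normal := by
    refine ⟨fun n hn g => ?_⟩
    have : N₀ ≤ N₀.comap (MulAut.conj g).toMonoidHom := by
      rw [hN₀, Subgroup.closure_le]
      rintro y ⟨hy, hyc⟩
      apply Subgroup.subset_closure
      refine ⟨(inferInstance : N.Normal).conj_mem y hy g, ?_⟩
      have : orderOf (g * y * g⁻¹) = orderOf y := by
        have := orderOf_injective (MulAut.conj g).toMonoidHom (MulAut.conj g).injective y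
        simpa [MulAut.conj_apply] using this
      show (orderOf (g * y * g⁻¹)).Coprime p
      rw [this]; exact hyc
    exact this hn
  obtain ⟨hdvd, -, T, hT⟩ := hSE
  let Q' : Sylow p N := default
  set Q : Subgroup G := (Q' : Subgroup N).map N.subtype with hQ
  have hQp : IsPGroup p Q := Q'.isPGroup'.map _
  have hQ'ne : (Q' : Subgroup N) ≠ ⊥ := Q'.ne_bot_of_dvd_card hN
  have hQne : Q ≠ ⊥ := by
    intro hb
    apply hQ'ne
    rw [hQ, Subgroup.map_eq_bot_iff_of_injective _ N.subtype_injective] at hb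
    exact hb
  obtain ⟨S', hS'⟩ := hQp.exists_le_sylow
  obtain ⟨x, hx⟩ := exists_conj_kGeneratedCore_le S' T hT
  have hS'ne : (S' : Subgroup G) ≠ ⊥ := by
    intro hb
    apply hQne
    rw [eq_bot_iff, ← hb]
    exact hS'
  have hS'le : (S' : Subgroup G) ≤ conjMap x H :=
    (Subgroup.le_normalizer.trans (normalizer_le_kGeneratedCore le_rfl S'.isPGroup' hS'ne)).trans hx
  have hNQ : Subgroup.normalizer (Q : Set G) ≤ conjMap x H :=
    (normalizer_le_kGeneratedCore hS' hQp hQne).trans hx
  have hFr := Sylow.normalizer_sup_eq_top Q'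
  -- `N / N₀` is a `p`-group, so it lies in the image of `S'`
  have hNle : N ≤ (S' : Subgroup G) ⊔ N₀ := by
    let f := QuotientGroup.mk' N₀
    have hfs : Function.Surjective f := QuotientGroup.mk'_surjective N₀
    let S₁ : Sylow p (G ⧸ N₀) := S'.mapSurjective hfs
    have hNp : IsPGroup p (N.map f) := by
      rintro ⟨_, n, hn, rfl⟩
      set o := orderOf n
      have ho : o ≠ 0 := (orderOf_pos n).ne'
      refine ⟨o.factorization p, ?_⟩
      apply Subtype.ext
      show f n ^ (p ^ o.factorization p) = 1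
      rw [← map_pow]
      apply (QuotientGroup.eq_one_iff _).2
      apply Subgroup.subset_closure
      refine ⟨N.pow_mem hn _, ?_⟩
      rw [orderOf_pow' n (pow_ne_zero _ (Fact.out : p.Prime).ne_zero)]
      have hdv : p ^ o.factorization p ∣ o := Nat.ordProj_dvd o p
      rw [Nat.gcd_eq_right hdv]
      exact (Nat.coprime_ordCompl (Fact.out : p.Prime) ho).symm
    have hNn : (N.map f).Normal := Subgroup.Normal.map inferInstance f hfs
    have h1 : IsPGroup p ((N.map f ⊔ (S₁ : Subgroup (G ⧸ N₀)) : Subgroup (G ⧸ N₀))) :=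
      hNp.to_sup_of_normal_left S₁.isPGroup'
    have h2 : N.map f ≤ (S₁ : Subgroup (G ⧸ N₀)) := by
      have := S₁.is_maximal' h1 le_sup_right
      rw [← this]
      exact le_sup_left
    intro n hn
    have h3 : f n ∈ (S₁ : Subgroup (G ⧸ N₀)) := h2 ⟨n, hn, rfl⟩
    obtain ⟨s, hs, hsn⟩ := h3
    have h4 : s⁻¹ * n ∈ N₀ := by
      apply (QuotientGroup.eq_one_iff _).1
      show f (s⁻¹ * n) = 1
      have : f s = f n := hsn
      rw [map_mul, map_inv, this, inv_mul_cancel]
    have h5 : n = s * (s⁻¹ * n) := by group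
    rw [h5]
    exact Subgroup.mul_mem_sup hs h4
  have hK : conjMap x H ⊔ N₀ = ⊤ := by
    rw [eq_top_iff, ← hFr]
    refine sup_le (hNQ.trans le_sup_left) (hNle.trans (sup_le (hS'le.trans le_sup_left) le_sup_right))
  have hmap : (H ⊔ N₀).map (MulAut.conj x).toMonoidHom = ⊤ := by
    rw [Subgroup.map_sup]
    have : N₀.map (MulAut.conj x).toMonoidHom = N₀ := by
      ext z
      constructor
      · rintro ⟨w, hw, rfl⟩
        exact hN₀n.conj_mem w hw x
      · intro hz
        refine ⟨x⁻¹ * z * x, by simpa using hN₀n.conj_mem z hz x⁻¹, ?_⟩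
        simp [MulAut.conj_apply, mul_assoc]
    rw [this]
    exact hK
  rw [eq_top_iff]
  intro g _
  have : x * g * x⁻¹ ∈ (H ⊔ N₀).map (MulAut.conj x).toMonoidHom := by rw [hmap]; trivial
  obtain ⟨y, hy, hyg⟩ := this
  have hyg' : y = g := by
    have h6 : x * y * x⁻¹ = x * g * x⁻¹ := hyg
    exact mul_left_cancel (mul_right_cancel h6)
  rwa [← hyg']

end Cfsg.Agent.S3059
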