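import Cfsg.Statements.S3064
import Cfsg.Agent.Lib.Frobenius.Theorem
import Cfsg.Agent.Lib.Frobenius.Conjugacy

set_option autoImplicit false
open Cfsg

namespace Cfsg.Agent.S3064

open Cfsg Cfsg.Agent.Lib.Frobenius.Basic Cfsg.Agent.Lib.Frobenius.Theorem
open Cfsg.Agent.Lib.Frobenius.Conjugacy
open scoped Pointwise

universe u

theorem eq_of_pgroup {G : Type u} [Group G] [Finite G] {p : ℕ} [Fact p.Prime]
    (S : Sylow p G) (x : G)
    (hU : ∀ g : G, g⁻¹ * x * g ∈ S → g⁻¹ * x * g = x) (R : Subgroup G) (hR : IsPGroup p R)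
    (hx : x ∈ R) (g : G) (hg : g⁻¹ * x * g ∈ R) : g⁻¹ * x * g = x := by
  obtain ⟨Q, hQ⟩ := hR.exists_le_sylow
  obtain ⟨h, rfl⟩ := MulAction.exists_smul_eq G S Q
  have hmem : ∀ y, y ∈ R → h⁻¹ * y * h ∈ (S : Subgroup G) := by
    intro y hy
    have h1 := hQ hy
    rw [Sylow.coe_subgroup_smul] at h1
    exact mem_conj_iff.1 h1
  have h1 := hU h (hmem x hx)
  have h5 : (g * h)⁻¹ * x * (g * h) ∈ (S : Subgroup G) := by
    have := hmem _ hg
    have e : (g * h)⁻¹ * x * (g * h) = h⁻¹ * (g⁻¹ * x * g) * h := by group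
    rwa [e]
  have h2 := hU (g * h) h5
  have h3 : h⁻¹ * (g⁻¹ * x * g) * h = h⁻¹ * x * h := by
    rw [h1]
    nth_rewrite 2 [← h2]
    group
  have h4 := mul_right_cancel h3
  exact mul_left_cancel h4

theorem pgroup_zpowers {G : Type u} [Group G] {p : ℕ} (y : G) (k : ℕ) (h : y ^ p ^ k = 1) :
    IsPGroup p (Subgroup.zpowers y) := by
  rintro ⟨g, i, rfl⟩
  refine ⟨k, Subtype.ext ?_⟩
  have : ((y ^ i) ^ p ^ k : G) = (y ^ p ^ k) ^ i := by
    rw [← zpow_natCast, ← zpow_natCast, ← zpow_mul, ← zpow_mul, mul_comm]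
  simpa [h] using this

/-- A subgroup all of whose `p`-elements are central has a `p`-complement. -/
theorem exists_complement_central {G : Type u} [Group G] [Finite G] {p : ℕ} [Fact p.Prime]
    (K : Subgroup G) (hK : ∀ y ∈ K, (∃ k : ℕ, y ^ p ^ k = 1) → y ∈ Subgroup.center G) :
    ∃ K₀ : Subgroup G, K₀ ≤ K ∧ (Nat.card K₀).Coprime p ∧
      ∀ k ∈ K, ∃ a ∈ Subgroup.center G, ∃ b ∈ K₀, k = a * b ∧ ∃ j : ℕ, a ^ p ^ j = 1 := by
  classical
  let Pk : Sylow p K := default
  have hcen : ∀ a ∈ (Pk : Subgroup K), (a : G) ∈ Subgroup.center G := by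
    intro a ha
    apply hK _ a.2
    obtain ⟨k, hk⟩ := Pk.isPGroup' ⟨a, ha⟩
    refine ⟨k, ?_⟩
    have := congrArg Subtype.val (congrArg Subtype.val hk)
    simpa using this
  have hnormal : (Pk : Subgroup K).Normal := by
    constructor
    intro a ha g
    have : g * a * g⁻¹ = a := by
      apply Subtype.ext
      have := (Subgroup.mem_center_iff.1 (hcen a ha)) g
      simp [this]
    rwa [this]
  obtain ⟨K₀', hK₀'⟩ := Subgroup.exists_right_complement'_of_coprime Pk.card_coprime_index
  refine ⟨K₀'.map K.subtype, ?_, ?_, ?_⟩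
  · exact Subgroup.map_subtype_le _
  · have h1 : Nat.card (K₀'.map K.subtype) = Nat.card K₀' :=
      Nat.card_congr (K₀'.equivMapOfInjective _ K.subtype_injective).toEquiv.symm
    rw [h1, ← hK₀'.symm.index_eq_card, Nat.coprime_comm]
    exact (Nat.Prime.coprime_iff_not_dvd Fact.out).2 Pk.not_dvd_index
  · intro k hk
    obtain ⟨⟨a, b⟩, hab, -⟩ := hK₀'.existsUnique (⟨k, hk⟩ : K)
    refine ⟨(a : K), hcen _ a.2, (b : K), ⟨_, b.2, rfl⟩, ?_, ?_⟩
    · have := congrArg Subtype.val hab
      simpa using this.symm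
    · obtain ⟨j, hj⟩ := Pk.isPGroup' a
      refine ⟨j, ?_⟩
      have := congrArg Subtype.val (congrArg Subtype.val hj)
      simpa using this

theorem key (n : ℕ) : ∀ {G : Type u} [Group G] [Finite G] {p : ℕ} [Fact p.Prime]
    (S : Sylow p G) (x : G), Nat.card G = n → x ∈ S →
    (∀ g : G, g⁻¹ * x * g ∈ S → g⁻¹ * x * g = x) →
    (∀ H : Subgroup G, (Nat.card H).Coprime p → (∀ h ∈ H, x * h * x⁻¹ ∈ H) →
      ∀ h ∈ H, x * h = h * x) → x ∈ Subgroup.center G := by
  induction n using Nat.strong_induction_on with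
  | _ n ih =>
  intro G _ _ p _ S x hn hx hU hb
  classical
  have hp : p.Prime := Fact.out
  -- two conjugates generate
  obtain ⟨ex, hex⟩ := S.isPGroup' ⟨x, hx⟩
  have hex' : x ^ p ^ ex = 1 := by
    have := congrArg Subtype.val hex
    simpa using this
  have hpx : IsPGroup p (Subgroup.zpowers x) := pgroup_zpowers x ex hex'
  have hgen : ∀ g : G, g⁻¹ * x * g ≠ x →
      Subgroup.closure {x, g⁻¹ * x * g} = ⊤ := by
    intro g hgx
    by_contra hL
    set L := Subgroup.closure {x, g⁻¹ * x * g} with hLdef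
    have hxL : x ∈ L := Subgroup.subset_closure (by simp)
    have hyL : g⁻¹ * x * g ∈ L := Subgroup.subset_closure (by simp)
    have hcard : Nat.card L < n := by
      rw [← hn]
      exact Nat.lt_of_le_of_ne (Subgroup.card_le_card_group L)
        (mt (Subgroup.eq_top_of_card_eq L) hL)
    have hpx' : IsPGroup p (Subgroup.zpowers (⟨x, hxL⟩ : L)) := by
      apply pgroup_zpowers _ ex
      exact Subtype.ext (by simpa using hex')
    obtain ⟨S', hS'⟩ := hpx'.exists_le_sylow
    have hxS' : (⟨x, hxL⟩ : L) ∈ S' := hS' (Subgroup.mem_zpowers _)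
    have hcen := ih (Nat.card L) hcard S' ⟨x, hxL⟩ rfl hxS' ?_ ?_
    · have h1 := (Subgroup.mem_center_iff.1 hcen) ⟨_, hyL⟩
      have h2 : (g⁻¹ * x * g) * x = x * (g⁻¹ * x * g) := congrArg Subtype.val h1
      have hR : IsPGroup p (Subgroup.zpowers x ⊔ Subgroup.zpowers (g⁻¹ * x * g) : Subgroup G) := by
        apply IsPGroup.to_sup_of_normal_left' hpx (pgroup_zpowers _ ex ?_)
        · rw [Subgroup.zpowers_le]
          rw [Subgroup.mem_normalizer_iff]
          intro w
          have hci : ∀ i : ℤ, (g⁻¹ * x * g) * x ^ i = x ^ i * (g⁻¹ * x * g) :=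
            fun i => ((Commute.zpow_right (show Commute (g⁻¹ * x * g) x from h2) i).eq)
          constructor
          · rintro ⟨i, rfl⟩
            refine ⟨i, ?_⟩
            change x ^ i = _
            rw [hci i]
            group
          · rintro ⟨i, hi⟩
            refine ⟨i, ?_⟩
            change x ^ i = _ at hi
            change x ^ i = _
            have h5 : (g⁻¹ * x * g) * x ^ i * (g⁻¹ * x * g)⁻¹ = x ^ i := by
              rw [hci i]; group
            rw [← h5] at hi
            have h6 := mul_right_cancel hi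
            have h7 := mul_left_cancel h6
            exact h7
        · have : (g⁻¹ * x * g) ^ p ^ ex = g⁻¹ * x ^ p ^ ex * g := by
            simpa using conj_pow (i := p ^ ex) (a := g⁻¹) (b := x)
          rw [this, hex']; simp
      exact hgx (eq_of_pgroup S x hU _ hR
        (Subgroup.mem_sup_left (Subgroup.mem_zpowers x)) g
        (Subgroup.mem_sup_right (Subgroup.mem_zpowers _)))
    · intro l hl
      have hR : IsPGroup p ((S' : Subgroup L).map L.subtype) := S'.isPGroup'.map _
      have := eq_of_pgroup S x hU _ hR ⟨⟨x, hxL⟩, hxS', rfl⟩ (l : G) ⟨_, hl, by simp⟩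
      exact Subtype.ext (by simpa using this)
    · intro H' hH' hnorm h hh
      have hcardmap : Nat.card (H'.map L.subtype) = Nat.card H' :=
        Nat.card_congr (H'.equivMapOfInjective _ L.subtype_injective).toEquiv.symm
      have := hb (H'.map L.subtype) (by rwa [hcardmap]) (by
        rintro _ ⟨h', hh', rfl⟩
        exact ⟨_, hnorm h' hh', by simp⟩) h ⟨h, hh, rfl⟩
      exact Subtype.ext this
  by_contra hxZ
  set Z := Subgroup.center G with hZdef
  set H := Subgroup.centralizer ({x} : Set G) with hHdef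
  have hmemH : ∀ y, y ∈ H ↔ y * x = x * y := by
    intro y
    rw [hHdef, Subgroup.mem_centralizer_singleton_iff]
  have hxH : x ∈ H := (hmemH x).2 rfl
  have hZH : Z ≤ H := by
    intro z hz
    rw [hmemH]
    exact ((Subgroup.mem_center_iff.1 hz) x).symm
  have hHtop : H ≠ ⊤ := by
    intro hH
    apply hxZ
    rw [Subgroup.mem_center_iff]
    intro g
    have : g ∈ H := by rw [hH]; trivial
    exact ((hmemH g).1 this)
  have hTI : ∀ g, g ∉ H → ∀ y ∈ H, g⁻¹ * y * g ∈ H → y ∈ Z := by
    intro g hg y hy hgy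
    have hne : (g⁻¹)⁻¹ * x * g⁻¹ ≠ x := by
      intro h1
      apply hg
      rw [hmemH]
      have h2 : g * x * g⁻¹ = x := by simpa using h1
      calc g * x = g * x * g⁻¹ * g := by group
        _ = x * g := by rw [h2]
    have hcl := hgen g⁻¹ hne
    have hcomm : ∀ w ∈ Subgroup.closure {x, (g⁻¹)⁻¹ * x * g⁻¹}, y * w = w * y := by
      intro w hw
      induction hw using Subgroup.closure_induction with
      | mem w hw =>
        rcases hw with rfl | rfl
        · exact (hmemH y).1 hy
        · have h1 := (hmemH _).1 hgy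
          have h2 : y * (g * x * g⁻¹) = (g * x * g⁻¹) * y := by
            have h3 : g * (g⁻¹ * y * g * x) * g⁻¹ = g * (x * (g⁻¹ * y * g)) * g⁻¹ := by rw [h1]
            calc y * (g * x * g⁻¹) = g * (g⁻¹ * y * g * x) * g⁻¹ := by group
              _ = g * (x * (g⁻¹ * y * g)) * g⁻¹ := h3
              _ = (g * x * g⁻¹) * y := by group
          simpa using h2
      | one => simp
      | mul a b _ _ ha hb => rw [← mul_assoc, ha, mul_assoc, hb, mul_assoc]
      | inv a _ ha =>
        have : a⁻¹ * (y * a) * a⁻¹ = a⁻¹ * (a * y) * a⁻¹ := by rw [ha]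
        calc y * a⁻¹ = a⁻¹ * (a * y) * a⁻¹ := by group
          _ = a⁻¹ * (y * a) * a⁻¹ := this.symm
          _ = a⁻¹ * y := by group
    rw [Subgroup.mem_center_iff]
    intro w
    have : w ∈ Subgroup.closure {x, (g⁻¹)⁻¹ * x * g⁻¹} := by rw [hcl]; trivial
    exact (hcomm w this).symm
  -- pass to the quotient
  let π : G →* G ⧸ Z := QuotientGroup.mk' Z
  have hπ : Function.Surjective π := QuotientGroup.mk'_surjective Z
  have hker : ∀ y, π y = 1 ↔ y ∈ Z := fun y => QuotientGroup.eq_one_iff y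
  have hπH : ∀ y, π y ∈ H.map π → y ∈ H := by
    intro y hy
    obtain ⟨h, hh, he⟩ := hy
    have h1 : h⁻¹ * y ∈ Z := (hker _).1 (by simp [he])
    have h2 : y = h * (h⁻¹ * y) := by group
    rw [h2]
    exact H.mul_mem hh (hZH h1)
  have hF : IsFrobeniusComplement (H.map π) := by
    apply isFrobeniusComplement_of
    · intro h
      have : π x ∈ H.map π := ⟨x, hxH, rfl⟩
      rw [h, Subgroup.mem_bot, hker] at this
      exact hxZ this
    · intro h
      apply hHtop
      rw [eq_top_iff]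
      intro y _
      exact hπH y (by rw [h]; trivial)
    · intro g hg y hy hgy
      obtain ⟨g, rfl⟩ := hπ g
      obtain ⟨y, hy', rfl⟩ := hy
      have hg' : g ∉ H := fun h => hg ⟨g, h, rfl⟩
      rw [hker]
      apply hTI g hg' y hy'
      apply hπH
      simpa using hgy
  have hco := coprime_card_kernel hF
  -- `p` divides the complement
  have hpdvd : p ∣ Nat.card (H.map π) := by
    have h1 : (π x) ^ p ^ ex = 1 := by rw [← map_pow, hex', map_one]
    obtain ⟨j, _, hj⟩ := (Nat.dvd_prime_pow hp).1 (orderOf_dvd_of_pow_eq_one h1)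
    have hne : j ≠ 0 := by
      rintro rfl
      rw [pow_zero, orderOf_eq_one_iff, hker] at hj
      exact hxZ hj
    have h2 : orderOf (π x) ∣ Nat.card (H.map π) :=
      Subgroup.orderOf_dvd_natCard _ ⟨x, hxH, rfl⟩
    rw [hj] at h2
    exact (dvd_pow_self p hne).trans h2
  have hpK : ¬ p ∣ Nat.card (kernel (H.map π)) := by
    intro h
    have := Nat.dvd_gcd h hpdvd
    rw [hco] at this
    exact hp.one_lt.ne' (Nat.dvd_one.1 this)
  set K := (kernel (H.map π)).comap π with hKdef
  have hKn : K.Normal := (kernel_normal _).comap π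
  have hpel : ∀ y ∈ K, (∃ k : ℕ, y ^ p ^ k = 1) → y ∈ Subgroup.center G := by
    rintro y hy ⟨k, hk⟩
    rw [← hker]
    have h1 : (π y) ^ p ^ k = 1 := by rw [← map_pow, hk, map_one]
    obtain ⟨j, _, hj⟩ := (Nat.dvd_prime_pow hp).1 (orderOf_dvd_of_pow_eq_one h1)
    have h2 : orderOf (π y) ∣ Nat.card (kernel (H.map π)) :=
      Subgroup.orderOf_dvd_natCard _ hy
    rw [hj] at h2
    rcases Nat.eq_zero_or_pos j with rfl | hjp
    · simpa using hj
    · exact absurd ((dvd_pow_self p hjp.ne').trans h2) hpK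
  obtain ⟨K₀, hK₀K, hK₀c, hdec⟩ := exists_complement_central K hpel
  have hK₀n : ∀ h ∈ K₀, x * h * x⁻¹ ∈ K₀ := by
    intro h hh
    have hmem : x * h * x⁻¹ ∈ K := hKn.conj_mem h (hK₀K hh) x
    obtain ⟨a, haZ, b, hb', hab, j, hj⟩ := hdec _ hmem
    have hm : h ^ Nat.card K₀ = 1 :=
      orderOf_dvd_iff_pow_eq_one.1 (Subgroup.orderOf_dvd_natCard K₀ hh)
    have hbm : b ^ Nat.card K₀ = 1 :=
      orderOf_dvd_iff_pow_eq_one.1 (Subgroup.orderOf_dvd_natCard K₀ hb')
    have hcomm : Commute a b := (Subgroup.mem_center_iff.1 haZ b).symm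
    have ham : a ^ Nat.card K₀ = 1 := by
      have h1 : (x * h * x⁻¹) ^ Nat.card K₀ = 1 := by
        rw [conj_pow, hm]; simp
      rw [hab, hcomm.mul_pow, hbm, mul_one] at h1
      exact h1
    have ha1 : a = 1 := by
      have h1 := pow_gcd_eq_one.2 ⟨ham, hj⟩
      have h2 : (Nat.card K₀).gcd (p ^ j) = 1 := hK₀c.pow_right j
      rwa [h2, pow_one] at h1
    rw [hab, ha1, one_mul]
    exact hb'
  have hcomm₀ := hb K₀ hK₀c hK₀n
  have hKH : K ≤ H := by
    intro k hk
    obtain ⟨a, haZ, b, hb', hab, -⟩ := hdec k hk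
    rw [hmemH, hab]
    have h1 := hcomm₀ b hb'
    have h2 := Subgroup.mem_center_iff.1 haZ x
    calc a * b * x = a * (b * x) := by group
      _ = a * (x * b) := by rw [h1]
      _ = (a * x) * b := by group
      _ = x * a * b := by rw [← h2]
      _ = x * (a * b) := by group
  -- the kernel is trivial, contradiction
  have hbot : kernel (H.map π) = ⊥ := by
    rw [eq_bot_iff, ← kernel_inf_eq_bot hF]
    intro k hk
    obtain ⟨k', rfl⟩ := hπ k
    exact ⟨hk, k', hKH hk, rfl⟩
  have hcard := card_kernel hF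
  rw [hbot, Subgroup.card_bot] at hcard
  exact hF.2.1 (Subgroup.index_eq_one.1 hcard.symm)

/-- Let S be a Sylow p-subgroup of the finite group G and x an element of S such that (i) x is the only G-conjugate of x lying in S, and (ii) x centralizes every subgroup of order prime to p that it normalizes. Then x lies in the centre of G. -/
theorem result {G : Type*} [Group G] [Finite G] {p : ℕ} [Fact p.Prime]
    (S : Sylow p G) (x : G) (hx : x ∈ S)
    (hU : ∀ g : G, g⁻¹ * x * g ∈ S → g⁻¹ * x * g = x)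
    (hb : ∀ H : Subgroup G, (Nat.card H).Coprime p → (∀ h ∈ H, x * h * x⁻¹ ∈ H) → ∀ h ∈ H, x * h = h * x) :
    x ∈ Subgroup.center G := by
  exact key _ S x rfl hx hU hb

end Cfsg.Agent.S3064
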