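import Cfsg.Statements.S3067
import Cfsg.Agent.Lib.MidPoint.Basic
import Cfsg.Agent.Lib.ZStar.Main
import Cfsg.Agent.Lib.Core.Basic

set_option autoImplicit false
open Cfsg

namespace Cfsg.Agent.S3067

open Cfsg.Agent.Lib.MidPoint.Basic

/-- Let G be a finite non-abelian simple group, τ an involution of G, and α a nontrivial automorphism of G whose order is coprime to the order of G. Then α moves some element of the centralizer of τ: α does not fix C_G(τ) elementwise. -/
theorem result {G : Type*} [Group G] [Finite G] [IsSimpleGroup G]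
    (hG : ¬ IsMulCommutative G) (τ : G) (hτ : orderOf τ = 2) (α : MulAut G) (hα : α ≠ 1)
    (hcop : (orderOf α).Coprime (Nat.card G)) :
    ∃ c ∈ Subgroup.centralizer ({τ} : Set G), α c ≠ c := by
  by_contra hcon
  push Not at hcon
  -- a power of prime order
  have hn0 : orderOf α ≠ 0 := (orderOf_pos α).ne'
  have hn1 : orderOf α ≠ 1 := fun e => hα (orderOf_eq_one_iff.mp e)
  obtain ⟨r, hr, hrd⟩ := Nat.exists_prime_and_dvd hn1
  set β : MulAut G := α ^ (orderOf α / r) with hβ
  have hoβ : orderOf β = r := orderOf_pow_orderOf_div hn0 hrd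
  have hrG : ¬ r ∣ Nat.card G := by
    intro hd
    have h1 : r ∣ Nat.gcd (orderOf α) (Nat.card G) := Nat.dvd_gcd hrd hd
    rw [hcop] at h1
    exact hr.one_lt.ne' (Nat.dvd_one.mp h1)
  have hfixpow : ∀ k : ℕ, ∀ c ∈ Subgroup.centralizer ({τ} : Set G), (α ^ k) c = c := by
    intro k c hc
    induction k with
    | zero => simp
    | succ k ih =>
      rw [pow_succ, MulAut.mul_apply, hcon c hc, ih]
  have hβfix : ∀ c ∈ Subgroup.centralizer ({τ} : Set G), β c = c := hfixpow _
  have hτ1 : τ ≠ 1 := by
    rintro rfl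
    simp at hτ
  have hττ : τ * τ = 1 := by
    rw [← sq, ← hτ, pow_orderOf_eq_one]
  have hcτ : ∀ g : G, Commute g τ → g ∈ Subgroup.centralizer ({τ} : Set G) := by
    intro g hg
    rw [Subgroup.mem_centralizer_singleton_iff]
    exact hg.eq
  -- the centre is trivial
  have hcenter : Subgroup.center G = ⊥ := by
    rcases (Subgroup.Normal.eq_bot_or_eq_top (inferInstance : (Subgroup.center G).Normal)) with h | h
    · exact h
    · exfalso
      apply hG
      refine ⟨⟨fun a b => ?_⟩⟩
      have ha : a ∈ Subgroup.center G := by rw [h]; trivial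
      exact (Subgroup.mem_center_iff.mp ha b).symm
  have hinj : Function.Injective (MulAut.conj : G →* MulAut G) := by
    rw [injective_iff_map_eq_one]
    intro g hg
    have : g ∈ Subgroup.center G := by
      rw [Subgroup.mem_center_iff]
      intro x
      have h1 : (MulAut.conj g) x = x := by rw [hg]; rfl
      rw [MulAut.conj_apply] at h1
      exact (mul_inv_eq_iff_eq_mul.mp h1).symm
    rw [hcenter] at this
    simpa using this
  -- the setting inside `MulAut G`
  set ι : G →* MulAut G := MulAut.conj with hι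
  set N : Subgroup (MulAut G) := ι.range with hN
  have hNn : N.Normal := by
    constructor
    rintro _ ⟨g, rfl⟩ a
    refine ⟨a g, ?_⟩
    ext x
    simp [hι, MulAut.conj_apply, MulAut.mul_apply, MulAut.inv_apply_self]
  have hcardN : Nat.card N = Nat.card G := by
    have e : G ≃ N := Equiv.ofInjective ι hinj
    exact (Nat.card_congr e).symm
  have hcommβ : ∀ g : G, β g = g → Commute (ι g) β := by
    intro g hg
    show ι g * β = β * ι g
    ext x
    simp [hι, MulAut.conj_apply, MulAut.mul_apply, hg]
  have hcommβ' : ∀ g : G, Commute (ι g) β → β g = g := by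
    intro g hg
    have h1 : ι g * β = β * ι g := hg
    have h2 : ι g = ι (β g) := by
      have h3 : β * ι g * β⁻¹ = ι (β g) := by
        ext x
        simp [hι, MulAut.conj_apply, MulAut.mul_apply, MulAut.inv_apply_self]
      rw [← h3, ← h1]
      group
    exact (hinj h2).symm
  have hS : Setup N β (ι τ) r := by
    refine ⟨hr, hoβ, by rw [hcardN]; exact hrG, ⟨τ, rfl⟩, ?_, ?_, ?_, ?_⟩
    · rw [← map_mul, hττ, map_one]
    · exact fun e => hτ1 (hinj (by rw [e, map_one]))
    · exact hcommβ τ (hβfix τ (hcτ τ (Commute.refl τ)))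
    · rintro _ ⟨g, rfl⟩ hc
      refine hcommβ g (hβfix g (hcτ g ?_))
      have h1 : ι g * ι τ = ι τ * ι g := hc
      rw [← map_mul, ← map_mul] at h1
      exact hinj h1
  -- a conjugate of `τ` fixed by `β` is `τ`
  set D : Subgroup G :=
    { carrier := {g | β g = g}
      mul_mem' := by
        intro a b ha hb
        show β (a * b) = a * b
        rw [map_mul, show β a = a from ha, show β b = b from hb]
      one_mem' := by
        show β 1 = 1
        exact map_one β
      inv_mem' := by
        intro a ha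
        show β a⁻¹ = a⁻¹
        rw [map_inv, show β a = a from ha] } with hD
  have hDmem : ∀ g, g ∈ D ↔ β g = g := fun g => Iff.rfl
  have hDtop : D ≠ ⊤ := by
    intro e
    have : β = 1 := by
      ext x
      have hx : x ∈ D := by rw [e]; trivial
      exact (hDmem x).mp hx
    rw [this, orderOf_one] at hoβ
    exact hr.one_lt.ne hoβ
  have hcoreBot : D.normalCore = ⊥ := by
    rcases (Subgroup.Normal.eq_bot_or_eq_top
      (inferInstance : D.normalCore.Normal)) with h | h
    · exact h
    · exfalso
      apply hDtop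
      rw [eq_top_iff, ← h]
      exact D.normalCore_le
  have huniq : ∀ g : G, β (g * τ * g⁻¹) = g * τ * g⁻¹ → g * τ * g⁻¹ = τ := by
    intro g hg
    set v := g * τ * g⁻¹ with hv
    have hagree : ∀ x : G, (x⁻¹ * (τ * v) * x) ∈ D := by
      intro x
      have hA := all_agree hS (t := ι τ) (v := ι v) (a := ι x * β * (ι x)⁻¹)
        ⟨1, N.one_mem, by simp⟩ ⟨ι g, ⟨g, rfl⟩, by rw [hv]; simp⟩
        (hcommβ τ (hβfix τ (hcτ τ (Commute.refl τ)))) (hcommβ v hg)
        ⟨ι x, ⟨x, rfl⟩, rfl⟩
      -- so `ι τ * ι v` commutes with the conjugate of `β`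
      have hτinv : (ι τ)⁻¹ = ι τ := by rw [← map_inv, inv_eq_of_mul_eq_one_left hττ]
      have hvv : v * v = 1 := by
        rw [hv]
        have e : g * τ * g⁻¹ * (g * τ * g⁻¹) = g * (τ * τ) * g⁻¹ := by group
        rw [e, hττ]; group
      have hvinv : (ι v)⁻¹ = ι v := by rw [← map_inv, inv_eq_of_mul_eq_one_left hvv]
      rw [hτinv, hvinv] at hA
      have hcomm : Commute (ι (τ * v)) (ι x * β * (ι x)⁻¹) := by
        show ι (τ * v) * (ι x * β * (ι x)⁻¹) = (ι x * β * (ι x)⁻¹) * ι (τ * v)
        rw [map_mul]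
        set a := ι x * β * (ι x)⁻¹ with ha
        have h1 : ι v * a * ι v = ι τ * a * ι τ := hA
        have hτ2 : ι τ * ι τ = 1 := by rw [← map_mul, hττ, map_one]
        have hv2 : ι v * ι v = 1 := by rw [← map_mul, hvv, map_one]
        calc ι τ * ι v * a = ι τ * ι v * a * (ι v * ι v) := by rw [hv2, mul_one]
          _ = ι τ * (ι v * a * ι v) * ι v := by simp only [mul_assoc]
          _ = ι τ * (ι τ * a * ι τ) * ι v := by rw [h1]
          _ = (ι τ * ι τ) * a * (ι τ * ι v) := by simp only [mul_assoc]
          _ = a * (ι τ * ι v) := by rw [hτ2, one_mul]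
      have hconj : Commute (ι (x⁻¹ * (τ * v) * x)) β := by
        have e : ι (x⁻¹ * (τ * v) * x) = (ι x)⁻¹ * ι (τ * v) * ι x := by
          simp [map_mul, map_inv]
        rw [e, ← Commute.conj_iff (ι x)]
        have e2 : ι x * ((ι x)⁻¹ * ι (τ * v) * ι x) * (ι x)⁻¹ = ι (τ * v) := by group
        rw [e2]
        exact hcomm
      exact (hDmem _).mpr (hcommβ' _ hconj)
    have hmem : τ * v ∈ D.normalCore := by
      intro x
      have := hagree x⁻¹
      simpa using this
    rw [hcoreBot, Subgroup.mem_bot] at hmem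
    have : v = τ⁻¹ := eq_inv_of_mul_eq_one_right hmem
    rw [this]
    exact inv_eq_of_mul_eq_one_left hττ
  -- `τ` is isolated
  have hiso : IsIsolatedInvolution τ := by
    refine ⟨hτ, fun g hg => ?_⟩
    apply huniq
    apply hβfix
    exact hcτ _ hg.symm
  have hz := Cfsg.Agent.Lib.ZStar.Main.zstar G
  have hO : pPrimeCore 2 G = ⊥ := by
    rcases (Subgroup.Normal.eq_bot_or_eq_top
      (Cfsg.pPrimeCore_normal (p := 2) (G := G))) with h | h
    · exact h
    · exfalso
      have h1 := Cfsg.Agent.Lib.Core.Basic.pPrimeCore_coprime (p := 2) (G := G)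
      rw [h, Nat.card_congr Subgroup.topEquiv.toEquiv] at h1
      have h2 : 2 ∣ Nat.card G := hτ ▸ orderOf_dvd_natCard τ
      have h3 := Nat.dvd_gcd h2 (dvd_refl 2)
      rw [h1] at h3
      omega
  have hcen : τ ∈ Subgroup.center G := by
    rw [Subgroup.mem_center_iff]
    intro g
    have h1 := hz τ hiso g
    rw [hO, Subgroup.mem_bot] at h1
    have h2 : τ * g * τ⁻¹ = g := mul_inv_eq_one.mp h1
    exact (mul_inv_eq_iff_eq_mul.mp h2).symm
  rw [hcenter, Subgroup.mem_bot] at hcen
  exact hτ1 hcen

end Cfsg.Agent.S3067
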