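import Cfsg.Statements.S3074
import Cfsg.Agent.Lib.PReduced.QdChar
import Cfsg.Agent.Lib.Invol2.QdFree
import Cfsg.Agent.Lib.PGroups.Special

set_option autoImplicit false
open Cfsg

namespace Cfsg.Agent.S3074

open Subgroup Cfsg.Agent.Lib.PReduced.Qd Cfsg.Agent.Lib.PReduced.QdChar Cfsg.Agent.Lib.PGroups.Special
open scoped commutatorElement

/-- A noncommutative group of order `p³` and exponent `p` is extraspecial. -/
theorem extra_of_card_cube {E : Type*} [Group E] [Finite E] {p : ℕ} [hp : Fact p.Prime]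
    (hcard : Nat.card E = p ^ 3) (hnc : ¬ IsMulCommutative E) (hpow : ∀ x : E, x ^ p = 1) :
    Cfsg.IsExtraspecial p E := by
  classical
  have hpp := hp.out
  have hG : IsPGroup p E := IsPGroup.of_card hcard
  haveI : Nontrivial E := by
    rw [← Finite.one_lt_card_iff_nontrivial, hcard]
    exact Nat.one_lt_pow (by norm_num) hpp.one_lt
  have hZnt : Nontrivial (center E) := hG.center_nontrivial
  obtain ⟨k, hk⟩ := IsPGroup.iff_card.mp (hG.to_subgroup (center E))
  have hk3 : k ≤ 3 := by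
    have h1 : Nat.card (center E) ∣ Nat.card E := Subgroup.card_subgroup_dvd_card _
    rw [hk, hcard] at h1
    exact (Nat.pow_dvd_pow_iff_le_right hpp.one_lt).mp h1
  have hk0 : k ≠ 0 := by
    rintro rfl
    have : Nat.card (center E) = 1 := by simpa using hk
    have h2 := Finite.one_lt_card_iff_nontrivial.mpr hZnt
    omega
  have hcardq : Nat.card (E ⧸ center E) * p ^ k = p ^ 3 := by
    rw [← hk, ← hcard]
    exact (Subgroup.card_eq_card_quotient_mul_card_subgroup _).symm
  have hk1 : k ≠ 3 := by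
    rintro rfl
    apply hnc
    have hq1 : Nat.card (E ⧸ center E) = 1 := by
      have := Nat.pos_of_ne_zero (pow_ne_zero 3 hpp.ne_zero)
      nlinarith
    have : IsCyclic (E ⧸ center E) := by
      have : Subsingleton (E ⧸ center E) := (Nat.card_eq_one_iff_unique.mp hq1).1
      infer_instance
    exact isMulCommutative_of_isCyclic_quotient_center_self E
  have hk2 : k ≠ 2 := by
    rintro rfl
    apply hnc
    have hq1 : Nat.card (E ⧸ center E) = p := by
      have h0 := Nat.pos_of_ne_zero (pow_ne_zero 2 hpp.ne_zero)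
      have : p ^ 3 = p * p ^ 2 := by ring
      rw [this] at hcardq
      exact Nat.eq_of_mul_eq_mul_right h0 hcardq
    have : IsCyclic (E ⧸ center E) := isCyclic_of_prime_card hq1
    exact isMulCommutative_of_isCyclic_quotient_center_self E
  have hk' : k = 1 := by omega
  subst hk'
  have hq2 : Nat.card (E ⧸ center E) = p ^ 2 := by
    have h0 := Nat.pos_of_ne_zero (pow_ne_zero 1 hpp.ne_zero)
    have : p ^ 3 = p ^ 2 * p ^ 1 := by ring
    rw [this] at hcardq
    exact Nat.eq_of_mul_eq_mul_right h0 hcardq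
  have hqc := IsPGroup.commutative_of_card_eq_prime_sq hq2
  refine ExtraLike.isExtraspecial ⟨hG, by simpa using hk, ?_, ?_⟩ hnc
  · intro x y
    have h := hqc (QuotientGroup.mk x) (QuotientGroup.mk y)
    rw [← QuotientGroup.eq_one_iff]
    simp only [commutatorElement_def, QuotientGroup.mk_mul, QuotientGroup.mk_inv]
    rw [← QuotientGroup.mk_mul, ← QuotientGroup.mk_mul] at h
    have h' : ((x * y : E) : E ⧸ center E) = ((y * x : E) : E ⧸ center E) := h
    have : (x : E ⧸ center E) * y * (x : E ⧸ center E)⁻¹ * (y : E ⧸ center E)⁻¹ = 1 := by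
      rw [← QuotientGroup.mk_mul] at *
      rw [h']
      simp
    exact this
  · intro x
    rw [hpow x]
    exact one_mem _

variable {p : ℕ} [Fact p.Prime]

theorem card_S₀ : Nat.card (S₀ (ZMod p)) = p ^ 3 := by
  let f : ZMod p × ZMod p × ZMod p → S₀ (ZMod p) := fun t => ⟨ut t.1 t.2.1 t.2.2, ut_mem _ _ _⟩
  have hf : Function.Bijective f := by
    constructor
    · rintro ⟨a, x, c⟩ ⟨a', x', c'⟩ h
      have h' : ut a x c = ut a' x' c' := congrArg Subtype.val h
      have h1 := congrArg (fun M => e M 0 1) h'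
      have h2 := congrArg (fun M => e M 0 2) h'
      have h3 := congrArg (fun M => e M 1 2) h'
      simp only [e01_ut, e02_ut, e12_ut] at h1 h2 h3
      simp [h1, h2, h3]
    · rintro ⟨M, hM⟩
      obtain ⟨a, x, c, rfl⟩ := exists_ut hM
      exact ⟨(a, x, c), rfl⟩
  rw [← Nat.card_congr (Equiv.ofBijective f hf)]
  simp [Nat.card_zmod]
  ring

theorem noncomm_S₀ : ¬ IsMulCommutative (S₀ (ZMod p)) := by
  rintro ⟨⟨hc⟩⟩
  have h := hc ⟨ut 1 0 0, ut_mem _ _ _⟩ ⟨ut 0 0 1, ut_mem _ _ _⟩
  have h' := congrArg Subtype.val h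
  simp only [Subgroup.coe_mul] at h'
  rw [ut_mul, ut_mul] at h'
  have h2 := congrArg (fun M => e M 0 2) h'
  simp only [e02_ut] at h2
  simp at h2

theorem pow_S₀ (hp : p ≠ 2) (M : S₀ (ZMod p)) : M ^ p = 1 := by
  obtain ⟨M, hM⟩ := M
  obtain ⟨a, x, c, rfl⟩ := exists_ut hM
  apply Subtype.ext
  apply Subtype.ext
  have huni : ((ut a x c : QdG (ZMod p)) : Matrix.SpecialLinearGroup (Fin 3) (ZMod p))
      ∈ Cfsg.Agent.Lib.Invol2.QdFree.uniSL p := by
    refine ⟨?_, ?_, ?_, ?_, ?_, ?_⟩ <;> rfl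
  have := Cfsg.Agent.Lib.Invol2.QdFree.uni_pow _ hp huni
  simpa using this

/-- Let p be an odd prime. A Sylow p-subgroup of Qd(p), the split extension of an elementary abelian group of order p² by SL₂(p) acting naturally, is extraspecial of order p³ and exponent p. -/
theorem result (p : ℕ) [Fact p.Prime] (hp : p ≠ 2) (P : Sylow p ↥(Cfsg.qd p)) :
    Cfsg.IsExtraspecial p ↥P ∧ Nat.card P = p ^ 3 ∧ Monoid.exponent ↥P = p := by
  classical
  haveI : CharP (ZMod p) p := ZMod.charP p
  let S : Sylow p (qd p) := (isPGroup_S₀ (p := p) (F := ZMod p)).toSylow (not_dvd_index_S₀ (p := p) (F := ZMod p))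
  let ε : ↥P ≃* S₀ (ZMod p) := P.equiv S
  have hcard : Nat.card P = p ^ 3 := by
    exact (Nat.card_congr ε.toEquiv).trans card_S₀
  have hpow : ∀ x : ↥P, x ^ p = 1 := by
    intro x
    apply ε.injective
    rw [map_pow, map_one]
    exact pow_S₀ hp _
  have hnc : ¬ IsMulCommutative ↥P := by
    rintro ⟨⟨hc⟩⟩
    apply noncomm_S₀ (p := p)
    refine ⟨⟨fun a b => ?_⟩⟩
    apply ε.symm.injective
    rw [map_mul, map_mul]
    exact hc _ _
  refine ⟨extra_of_card_cube hcard hnc hpow, hcard, ?_⟩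
  have hpp : p.Prime := Fact.out
  have hdvd : Monoid.exponent ↥P ∣ p := Monoid.exponent_dvd_of_forall_pow_eq_one hpow
  rcases hpp.eq_one_or_self_of_dvd _ hdvd with h1 | h1
  · exfalso
    rw [Monoid.exp_eq_one_iff] at h1
    apply hnc
    exact ⟨⟨fun a b => Subsingleton.elim _ _⟩⟩
  · exact h1

end Cfsg.Agent.S3074
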