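import Cfsg.Statements.S3075
import Mathlib

set_option autoImplicit false
open Cfsg

namespace Cfsg.Agent.S3075

/-- Conjugations commute on a normal cyclic subgroup. -/
lemma conj_comm_of_cyclic {N : Type*} [Group N] (X : Subgroup N) [X.Normal] (hX : IsCyclic X)
    (n m x : N) (hx : x ∈ X) : (n * m) * x * (n * m)⁻¹ = (m * n) * x * (m * n)⁻¹ := by
  obtain ⟨⟨g, hg⟩, hgen⟩ := hX
  have key : ∀ y ∈ X, ∃ k : ℤ, y = g ^ k := by
    intro y hy
    obtain ⟨k, hk⟩ := hgen ⟨y, hy⟩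
    refine ⟨k, ?_⟩
    have := congrArg Subtype.val hk
    simpa using this.symm
  obtain ⟨k, hk⟩ := key (n * g * n⁻¹) (Subgroup.Normal.conj_mem inferInstance g hg n)
  obtain ⟨l, hl⟩ := key (m * g * m⁻¹) (Subgroup.Normal.conj_mem inferInstance g hg m)
  obtain ⟨j, rfl⟩ := key x hx
  have h1 : ∀ (u : N) (r : ℤ), u * g ^ r * u⁻¹ = (u * g * u⁻¹) ^ r := by
    intro u r
    exact (conj_zpow).symm
  have e1 : (n * m) * g ^ j * (n * m)⁻¹ = n * (m * g ^ j * m⁻¹) * n⁻¹ := by group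
  have e2 : (m * n) * g ^ j * (m * n)⁻¹ = m * (n * g ^ j * n⁻¹) * m⁻¹ := by group
  rw [e1, e2, h1 m j, h1 n j, hl, hk, ← zpow_mul, ← zpow_mul, h1 n, h1 m, hl, hk, ← zpow_mul, ← zpow_mul]
  congr 1
  ring

theorem result {N : Type*} [Group N] [Finite N] {p : ℕ} [Fact p.Prime] (hp : p ≠ 2)
    (A : Subgroup N) [A.Normal] (hAcomm : IsMulCommutative A) (hAcard : Nat.card A = p ^ 2) (hAexp : Monoid.exponent ↥A = p)
    (hAself : Subgroup.centralizer (A : Set N) = A)
    {F : Type*} [Field F] [Fintype F] (hF : Fintype.card F = p) (e : N ⧸ A ≃* Matrix.SpecialLinearGroup (Fin 2) F) :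
    ∃ U : Subgroup N, A ⊓ U = ⊥ ∧ A ⊔ U = ⊤ := by
  classical
  have hpp : p.Prime := Fact.out
  have hodd : Odd p := hpp.odd_of_ne_two hp
  obtain ⟨k, hk⟩ := hodd
  -- field facts
  have hpF : (p : F) = 0 := by
    rw [← hF]; exact Nat.cast_card_eq_zero F
  have h2F : (2 : F) ≠ 0 := by
    intro h
    have : (p : F) = 1 := by
      rw [hk]; push_cast; rw [h]; ring
    rw [hpF] at this
    exact zero_ne_one this
  have hne : (-1 : F) ≠ 1 := by
    intro h
    apply h2F
    have : (2 : F) = 1 - (-1) := by ring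
    rw [this, h]; ring
  -- commutator facts in A
  have hAc : ∀ a ∈ A, ∀ b ∈ A, a * b = b * a := by
    intro a ha b hb
    have := hAcomm.is_comm.comm ⟨a, ha⟩ ⟨b, hb⟩
    simpa using congrArg Subtype.val this
  have hApow : ∀ a ∈ A, a ^ p = 1 := by
    intro a ha
    have : (⟨a, ha⟩ : A) ^ p = 1 := by
      rw [← hAexp]; exact Monoid.pow_exponent_eq_one _
    simpa using congrArg Subtype.val this
  -- the central involution
  let z0 : Matrix.SpecialLinearGroup (Fin 2) F := ⟨!![-1, 0; 0, -1], by simp [Matrix.det_fin_two_of]⟩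
  have hz0val : (z0 : Matrix (Fin 2) (Fin 2) F) = -1 := by
    ext i j
    fin_cases i <;> fin_cases j <;> simp [z0]
  have hz0c : ∀ X : Matrix.SpecialLinearGroup (Fin 2) F, z0 * X = X * z0 := by
    intro X
    apply Subtype.ext
    simp [Matrix.SpecialLinearGroup.coe_mul, hz0val]
  have hz0sq : z0 * z0 = 1 := by
    apply Subtype.ext
    simp [Matrix.SpecialLinearGroup.coe_mul, hz0val]
  have hz0ne : z0 ≠ 1 := by
    intro h
    have := congrArg (fun X : Matrix.SpecialLinearGroup (Fin 2) F => (X : Matrix (Fin 2) (Fin 2) F) 0 0) h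
    simp [z0] at this
    exact hne this
  have hnc : ¬ ∀ X Y : Matrix.SpecialLinearGroup (Fin 2) F, X * Y = Y * X := by
    intro h
    let x : Matrix.SpecialLinearGroup (Fin 2) F := ⟨!![1, 1; 0, 1], by simp [Matrix.det_fin_two_of]⟩
    let y : Matrix.SpecialLinearGroup (Fin 2) F := ⟨!![1, 0; 1, 1], by simp [Matrix.det_fin_two_of]⟩
    have hmat : (x.1 * y.1) = y.1 * x.1 := congrArg Subtype.val (h x y)
    have := congrFun (congrFun hmat 0) 0
    simp [x, y, Matrix.mul_apply, Fin.sum_univ_two] at this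
  -- a lift
  let mk : N →* N ⧸ A := QuotientGroup.mk' A
  have hmk : ∀ a, a ∈ A ↔ mk a = 1 := by
    intro a; simp [mk, QuotientGroup.eq_one_iff]
  obtain ⟨g, hg⟩ := QuotientGroup.mk'_surjective A (e.symm z0)
  have hg' : mk g = e.symm z0 := hg
  have hg2 : g ^ 2 ∈ A := by
    rw [hmk, map_pow, hg', pow_two, ← map_mul, hz0sq, map_one]
  let t : N := g ^ p
  have hmkt : mk t = e.symm z0 := by
    have : mk t = (e.symm z0) ^ p := by simp only [t, map_pow, hg']
    rw [this, hk, pow_succ, pow_mul, pow_two, ← map_mul, hz0sq, map_one, one_pow, one_mul]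
  have ht2 : t * t = 1 := by
    have : t * t = (g ^ 2) ^ p := by
      simp only [t]; rw [← pow_add, ← pow_mul]; congr 1; ring
    rw [this]; exact hApow _ hg2
  have htinv : t⁻¹ = t := by
    exact inv_eq_of_mul_eq_one_left ht2
  have htA : t ∉ A := by
    rw [hmk, hmkt]
    intro h
    apply hz0ne
    have := congrArg e h
    simpa using this
  -- central modulo A
  have htc : ∀ n : N, n * t * n⁻¹ * t⁻¹ ∈ A := by
    intro n
    rw [hmk]
    have h1 : mk n * mk t = mk t * mk n := by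
      apply e.injective
      rw [map_mul, map_mul, hmkt]
      simp only [MulEquiv.apply_symm_apply]
      exact (hz0c _).symm
    simp only [map_mul, map_inv]
    rw [h1]; group
  have hconjA : ∀ a ∈ A, t * a * t⁻¹ ∈ A := fun a ha => Subgroup.Normal.conj_mem inferInstance a ha t
  -- the fixed points and the inverted points
  let B : Subgroup N := A ⊓ Subgroup.centralizer {t}
  have hmemB : ∀ a, a ∈ B ↔ a ∈ A ∧ t * a * t⁻¹ = a := by
    intro a
    simp only [B, Subgroup.mem_inf, Subgroup.mem_centralizer_singleton_iff]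
    refine and_congr_right fun _ => ?_
    rw [mul_inv_eq_iff_eq_mul]
    exact eq_comm
  let D : Subgroup N :=
    { carrier := {a | a ∈ A ∧ t * a * t⁻¹ = a⁻¹}
      mul_mem' := by
        rintro a b ⟨ha, ha'⟩ ⟨hb, hb'⟩
        refine ⟨A.mul_mem ha hb, ?_⟩
        have : t * (a * b) * t⁻¹ = (t * a * t⁻¹) * (t * b * t⁻¹) := by group
        rw [this, ha', hb', mul_inv_rev]
        exact hAc _ (A.inv_mem ha) _ (A.inv_mem hb)
      one_mem' := ⟨A.one_mem, by simp⟩
      inv_mem' := by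
        rintro a ⟨ha, ha'⟩
        refine ⟨A.inv_mem ha, ?_⟩
        have : t * a⁻¹ * t⁻¹ = (t * a * t⁻¹)⁻¹ := by group
        rw [this, ha'] }
  have hmemD : ∀ a, a ∈ D ↔ a ∈ A ∧ t * a * t⁻¹ = a⁻¹ := fun a => Iff.rfl
  -- conjugation by n commutes with conjugation by t on A
  have hact : ∀ n : N, ∀ a ∈ A, t * (n * a * n⁻¹) * t⁻¹ = n * (t * a * t⁻¹) * n⁻¹ := by
    intro n a ha
    have hc : t * n * t⁻¹ * n⁻¹ ∈ A := by
      have := A.inv_mem (htc n)
      have e : (n * t * n⁻¹ * t⁻¹)⁻¹ = t * n * t⁻¹ * n⁻¹ := by group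
      rwa [e] at this
    have hx : n * (t * a * t⁻¹) * n⁻¹ ∈ A := Subgroup.Normal.conj_mem inferInstance _ (hconjA a ha) n
    have e1 : t * (n * a * n⁻¹) * t⁻¹ =
        (t * n * t⁻¹ * n⁻¹) * (n * (t * a * t⁻¹) * n⁻¹) * (t * n * t⁻¹ * n⁻¹)⁻¹ := by group
    rw [e1, hAc _ hc _ hx]; group
  have hBn : B.Normal := by
    constructor
    intro a ha n
    rw [hmemB] at ha ⊢
    refine ⟨Subgroup.Normal.conj_mem inferInstance a ha.1 n, ?_⟩
    rw [hact n a ha.1, ha.2]
  have hDn : D.Normal := by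
    constructor
    intro a ha n
    rw [hmemD] at ha ⊢
    refine ⟨Subgroup.Normal.conj_mem inferInstance a ha.1 n, ?_⟩
    rw [hact n a ha.1, ha.2]; group
  -- decomposition
  have hdec : ∀ a ∈ A, ∃ u ∈ B, ∃ v ∈ D, a = u * v := by
    intro a ha
    set b := t * a * t⁻¹ with hb
    have hbA : b ∈ A := hconjA a ha
    have hbb : t * b * t⁻¹ = a := by
      rw [hb]
      have : t * (t * a * t⁻¹) * t⁻¹ = (t * t) * a * (t * t)⁻¹ := by group
      rw [this, ht2]; group
    have hab : a * b = b * a := hAc a ha b hbA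
    refine ⟨(a * b) ^ (k + 1), ?_, (a * b⁻¹) ^ (k + 1), ?_, ?_⟩
    · rw [hmemB]
      refine ⟨A.pow_mem (A.mul_mem ha hbA) _, ?_⟩
      rw [← conj_pow]
      congr 1
      have : t * (a * b) * t⁻¹ = (t * a * t⁻¹) * (t * b * t⁻¹) := by group
      rw [this, hbb, ← hb, hab]
    · rw [hmemD]
      refine ⟨A.pow_mem (A.mul_mem ha (A.inv_mem hbA)) _, ?_⟩
      have e0 : t * (a * b⁻¹) * t⁻¹ = (a * b⁻¹)⁻¹ := by
        have : t * (a * b⁻¹) * t⁻¹ = (t * a * t⁻¹) * (t * b * t⁻¹)⁻¹ := by group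
        rw [this, hbb, ← hb, mul_inv_rev, inv_inv]
      calc t * (a * b⁻¹) ^ (k + 1) * t⁻¹ = (t * (a * b⁻¹) * t⁻¹) ^ (k + 1) := (conj_pow).symm
        _ = ((a * b⁻¹)⁻¹) ^ (k + 1) := by rw [e0]
        _ = _ := inv_pow _ _
    · have hc : Commute (a * b) (a * b⁻¹) := hAc _ (A.mul_mem ha hbA) _ (A.mul_mem ha (A.inv_mem hbA))
      rw [← hc.mul_pow]
      have e1 : a * b * (a * b⁻¹) = a * a := by
        rw [hab]
        have : b * a * (a * b⁻¹) = b * (a * a) * b⁻¹ := by group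
        rw [this]
        have h' : b * (a * a) = (a * a) * b := hAc _ hbA _ (A.mul_mem ha ha)
        rw [h']; group
      rw [e1]
      have e2 : (a * a) ^ (k + 1) = a ^ p * a := by
        rw [← pow_two, ← pow_mul, hk, ← pow_succ]; congr 1
      rw [e2, hApow a ha, one_mul]
  have hinter : ∀ a, a ∈ B → a ∈ D → a = 1 := by
    intro a h1 h2
    rw [hmemB] at h1
    rw [hmemD] at h2
    have e1 : a = a⁻¹ := h1.2.symm.trans h2.2
    have e2 : a ^ 2 = 1 := by
      rw [pow_two]; nth_rewrite 1 [e1]; simp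
    have e3 : a ^ p = 1 := hApow a h1.1
    have e4 : a ^ (2 * k + 1) = 1 := by rw [← hk]; exact e3
    rw [pow_succ, pow_mul, e2, one_pow, one_mul] at e4
    exact e4
  have hcard : ∀ X : Subgroup N, X ≤ A → X ≠ ⊥ → X ≠ A → Nat.card X = p := by
    intro X hXA h1 h2
    have hd : Nat.card X ∣ p ^ 2 := by
      rw [← hAcard]; exact Subgroup.card_dvd_of_le hXA
    obtain ⟨i, hi, hX⟩ := (Nat.dvd_prime_pow hpp).1 hd
    interval_cases i
    · exfalso; apply h1; apply Subgroup.eq_bot_of_card_eq; simpa using hX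
    · simpa using hX
    · exfalso; apply h2
      apply Subgroup.eq_of_le_of_card_ge hXA
      rw [hX, hAcard]
  by_cases hB : B = ⊥
  · -- the good case
    refine ⟨Subgroup.centralizer {t}, hB, ?_⟩
    rw [eq_top_iff]
    intro n _
    let f : A → A := fun a => ⟨a.1 * t * a.1⁻¹ * t⁻¹, by
      have e1 : a.1 * t * a.1⁻¹ * t⁻¹ = a.1 * (t * a.1⁻¹ * t⁻¹) := by group
      rw [e1]
      exact A.mul_mem a.2 (hconjA _ (A.inv_mem a.2))⟩
    have hfi : Function.Injective f := by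
      intro a b hab
      have h0 : a.1 * t * a.1⁻¹ * t⁻¹ = b.1 * t * b.1⁻¹ * t⁻¹ := congrArg Subtype.val hab
      have hm : b.1⁻¹ * a.1 ∈ B := by
        rw [hmemB]
        refine ⟨A.mul_mem (A.inv_mem b.2) a.2, ?_⟩
        have e1 : t * (b.1⁻¹ * a.1) * t⁻¹ = (t * b.1⁻¹ * t⁻¹) * (t * a.1 * t⁻¹) := by group
        rw [e1]
        have h1 : t * b.1⁻¹ * t⁻¹ * (t * a.1 * t⁻¹) * (b.1⁻¹ * a.1)⁻¹ = 1 := by
          have e2 : t * b.1⁻¹ * t⁻¹ = b.1⁻¹ * (b.1 * t * b.1⁻¹ * t⁻¹) := by group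
          rw [e2, ← h0]
          have e3 : b.1⁻¹ * (a.1 * t * a.1⁻¹ * t⁻¹) * (t * a.1 * t⁻¹) * (b.1⁻¹ * a.1)⁻¹
              = b.1⁻¹ * a.1 * (t * a.1⁻¹ * t⁻¹ * (t * a.1 * t⁻¹)) * (b.1⁻¹ * a.1)⁻¹ := by group
          rw [e3]
          group
        exact eq_of_mul_inv_eq_one h1
      rw [hB, Subgroup.mem_bot] at hm
      apply Subtype.ext
      exact (inv_mul_eq_one.1 hm).symm
    have hfs : Function.Surjective f := Finite.injective_iff_surjective.1 hfi
    obtain ⟨a, ha⟩ := hfs ⟨_, htc n⟩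
    have h0 : a.1 * t * a.1⁻¹ * t⁻¹ = n * t * n⁻¹ * t⁻¹ := congrArg Subtype.val ha
    have h1 : a.1 * t * a.1⁻¹ = n * t * n⁻¹ := mul_right_cancel h0
    have hmem : a.1⁻¹ * n ∈ Subgroup.centralizer {t} := by
      rw [Subgroup.mem_centralizer_singleton_iff]
      have e1 : a.1⁻¹ * n * t = a.1⁻¹ * (n * t * n⁻¹) * n := by group
      rw [e1, ← h1]; group
    have : n = a.1 * (a.1⁻¹ * n) := by group
    rw [this]
    exact Subgroup.mul_mem_sup a.2 hmem
  · exfalso
    have hBA : B ≤ A := fun a ha => ((hmemB a).1 ha).1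
    have hDA : D ≤ A := fun a ha => ((hmemD a).1 ha).1
    have hDbot : D ≠ ⊥ := by
      intro h
      apply htA
      rw [← hAself, Subgroup.mem_centralizer_iff]
      intro a ha
      obtain ⟨u, hu, v, hv, rfl⟩ := hdec a ha
      rw [h, Subgroup.mem_bot] at hv
      subst hv
      rw [mul_one]
      have := ((hmemB u).1 hu).2
      rw [mul_inv_eq_iff_eq_mul] at this
      exact this.symm
    have hBne : B ≠ A := by
      intro h
      apply hDbot
      rw [eq_bot_iff]
      intro a ha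
      rw [Subgroup.mem_bot]
      exact hinter a (h ▸ hDA ha) ha
    have hDne : D ≠ A := by
      intro h
      apply hB
      rw [eq_bot_iff]
      intro a ha
      rw [Subgroup.mem_bot]
      exact hinter a ha (h ▸ hBA ha)
    have hBc : IsCyclic B := by
      have := hcard B hBA hB hBne
      haveI : Fact (Nat.card B).Prime := ⟨this ▸ hpp⟩
      exact isCyclic_of_prime_card rfl
    have hDc : IsCyclic D := by
      have := hcard D hDA hDbot hDne
      haveI : Fact (Nat.card D).Prime := ⟨this ▸ hpp⟩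
      exact isCyclic_of_prime_card rfl
    apply hnc
    intro X Y
    obtain ⟨n, rfl⟩ : ∃ n, e (mk n) = X := by
      obtain ⟨q, rfl⟩ := e.surjective X
      obtain ⟨n, rfl⟩ := QuotientGroup.mk'_surjective A q
      exact ⟨n, rfl⟩
    obtain ⟨m, rfl⟩ : ∃ m, e (mk m) = Y := by
      obtain ⟨q, rfl⟩ := e.surjective Y
      obtain ⟨n, rfl⟩ := QuotientGroup.mk'_surjective A q
      exact ⟨n, rfl⟩
    rw [← map_mul, ← map_mul, ← map_mul, ← map_mul]
    congr 1
    have hcen : (m * n)⁻¹ * (n * m) ∈ Subgroup.centralizer (A : Set N) := by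
      rw [Subgroup.mem_centralizer_iff]
      intro a ha
      obtain ⟨u, hu, v, hv, rfl⟩ := hdec a ha
      have h1 := conj_comm_of_cyclic B hBc n m u hu
      have h2 := conj_comm_of_cyclic D hDc n m v hv
      have h3 : (n * m) * (u * v) * (n * m)⁻¹ = (m * n) * (u * v) * (m * n)⁻¹ := by
        have e1 : (n * m) * (u * v) * (n * m)⁻¹ = ((n * m) * u * (n * m)⁻¹) * ((n * m) * v * (n * m)⁻¹) := by group
        have e2 : (m * n) * (u * v) * (m * n)⁻¹ = ((m * n) * u * (m * n)⁻¹) * ((m * n) * v * (m * n)⁻¹) := by group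
        rw [e1, e2, h1, h2]
      have h4 : ((m * n)⁻¹ * (n * m)) * (u * v) * ((m * n)⁻¹ * (n * m))⁻¹ = u * v := by
        have e1 : ((m * n)⁻¹ * (n * m)) * (u * v) * ((m * n)⁻¹ * (n * m))⁻¹
            = (m * n)⁻¹ * ((n * m) * (u * v) * (n * m)⁻¹) * (m * n) := by group
        rw [e1, h3]; group
      exact (mul_inv_eq_iff_eq_mul.1 h4).symm
    rw [hAself, hmk] at hcen
    rw [map_mul, map_inv, inv_mul_eq_one] at hcen
    exact hcen.symm

end Cfsg.Agent.S3075
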