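import Cfsg.Statements.S3076
import Cfsg.Agent.Lib.Core.Series
import Cfsg.Agent.Lib.Transfer.Basic
import Cfsg.Agent.Lib.Components.SylowSub

set_option autoImplicit false
open Cfsg

namespace Cfsg.Agent.S3076

open Subgroup Cfsg.Agent.Lib.Core.Basic Cfsg.Agent.Lib.Core.Series Cfsg.Agent.Lib.Transfer.Basic

theorem core_aux {L : Type*} [Group L] [Finite L] {p : ℕ} [hp : Fact p.Prime]
    (H C : Subgroup L) [hHn : H.Normal] [hCn : C.Normal]
    (hHp : IsPGroup p H) (hC : ∀ x, x ∈ C ↔ ∀ h ∈ H, x * h = h * x) (S : Sylow p L)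
    (hHS : H ≤ (S : Subgroup L)) :
    (¬ p ∣ H.relIndex ((pCore p (L ⧸ C)).comap (QuotientGroup.mk' C))) ↔
      ((S : Subgroup L) ⊓ C ≤ H ∧ pPrimePCore p L = H ⊔ C) := by
  set N := (pCore p (L ⧸ C)).comap (QuotientGroup.mk' C) with hNdef
  have hNn : N.Normal := (pCore_normal p _).comap _
  -- F1
  have hKC : pPrimeCore p L ≤ C := by
    intro k hk
    rw [hC]
    intro h hh
    have h1 : k * h * k⁻¹ * h⁻¹ ∈ H := H.mul_mem (hHn.conj_mem h hh k) (H.inv_mem hh)
    have h2 : k * h * k⁻¹ * h⁻¹ ∈ pPrimeCore p L := by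
      have h3 := (pPrimeCore_normal p L).conj_mem k⁻¹ ((pPrimeCore p L).inv_mem hk) h
      have h4 := (pPrimeCore p L).mul_mem hk h3
      convert h4 using 1
      group
    have h3 : H ⊓ pPrimeCore p L = ⊥ := inf_eq_bot_of_isPGroup_of_coprime hHp pPrimeCore_coprime
    have h4 : k * h * k⁻¹ * h⁻¹ ∈ H ⊓ pPrimeCore p L := ⟨h1, h2⟩
    rw [h3, mem_bot] at h4
    have h5 : k * h * k⁻¹ = h := by
      rw [mul_inv_eq_one] at h4
      exact h4
    rw [mul_inv_eq_iff_eq_mul] at h5
    exact h5
  have hCN : C ≤ N := by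
    intro c hc
    have : QuotientGroup.mk' C c = 1 := (QuotientGroup.eq_one_iff c).2 hc
    rw [hNdef, mem_comap, this]
    exact one_mem _
  have hHN : H ≤ N := by
    rw [hNdef, ← map_le_iff_le_comap]
    apply le_pCore (hHn.map _ QuotientGroup.mk_surjective)
    exact hHp.map _
  -- n^(p^k) ∈ C for n ∈ N
  have hNC : ∀ n ∈ N, ∃ k : ℕ, n ^ p ^ k ∈ C := by
    intro n hn
    have h1 : IsPGroup p (pCore p (L ⧸ C)) := pCore_isPGroup
    obtain ⟨k, hk⟩ := h1 ⟨_, hn⟩
    refine ⟨k, ?_⟩
    rw [← QuotientGroup.eq_one_iff]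
    have := congrArg Subtype.val hk
    simpa using this
  have hWN : pPrimePCore p L ≤ N := by
    rw [hNdef, ← map_le_iff_le_comap]
    apply le_pCore ((pPrimePCore_normal).map _ QuotientGroup.mk_surjective)
    rintro ⟨_, w, hw, rfl⟩
    obtain ⟨k, hk⟩ := exists_pow_mem_pPrimeCore hw
    refine ⟨k, ?_⟩
    apply Subtype.ext
    have : QuotientGroup.mk' C (w ^ p ^ k) = 1 := (QuotientGroup.eq_one_iff _).2 (hKC hk)
    simpa using this
  have hHW : H ≤ pPrimePCore p L := by
    rw [pPrimePCore, ← map_le_iff_le_comap]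
    apply le_pCore (hHn.map _ QuotientGroup.mk_surjective)
    exact hHp.map _
  -- Lemma A
  have hA : (S : Subgroup L) ⊓ C ≤ H → ∀ c ∈ C, ∃ k : ℕ, c ^ p ^ k ∈ pPrimeCore p L := by
    intro hSC
    obtain ⟨Q⟩ : Nonempty (Sylow p C) := inferInstance
    have hQH : ∀ q : C, q ∈ (Q : Subgroup C) → (q : L) ∈ H := by
      intro q hq
      have h1 : IsPGroup p ((Q : Subgroup C).map C.subtype) := Q.isPGroup'.map _
      obtain ⟨T, hT⟩ := h1.exists_le_sylow
      obtain ⟨g, hg⟩ := MulAction.exists_smul_eq L T S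
      have h2 : g * (q : L) * g⁻¹ ∈ (S : Subgroup L) := by
        rw [← hg]
        have h3 := hT ⟨q, hq, rfl⟩
        have h4 : MulAut.conj g (q : L) ∈ ((g • T : Sylow p L) : Subgroup L) := by
          rw [Sylow.coe_subgroup_smul]
          exact ⟨_, h3, rfl⟩
        exact h4
      have h3 : g * (q : L) * g⁻¹ ∈ C := hCn.conj_mem _ q.2 g
      have h4 := hSC ⟨h2, h3⟩
      have h5 := hHn.conj_mem _ h4 g⁻¹
      convert h5 using 1
      group
    have hQc : normalizer ((Q : Subgroup C) : Set C) ≤ centralizer ((Q : Subgroup C) : Set C) := by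
      intro c _
      rw [mem_centralizer_iff]
      intro q hq
      apply Subtype.ext
      have h1 := (hC c).1 c.2 q (hQH q hq)
      simpa using h1.symm
    have hcompl := MonoidHom.ker_transferSylow_isComplement' Q hQc
    have hnc : HasNormalPComplement p C := ⟨Q, _, inferInstance, hcompl⟩
    have hr := hasNormalPComplement_iff_pResidual.1 hnc
    have hKn : ((pResidual p C).map C.subtype).Normal := map_subtype_normal_of_characteristic C _
    have hKle : (pResidual p C).map C.subtype ≤ pPrimeCore p L := by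
      apply le_pPrimeCore hKn
      rw [Subgroup.card_map_of_injective C.subtype_injective]
      exact hr
    intro c hc
    obtain ⟨k, hk⟩ := (isPGroup_quotient_pResidual (G := C) (p := p))
      (QuotientGroup.mk' (pResidual p C) ⟨c, hc⟩)
    rw [← map_pow] at hk
    refine ⟨k, hKle ?_⟩
    have := (QuotientGroup.eq_one_iff _).1 hk
    exact ⟨_, this, by simp⟩
  have hCW : (S : Subgroup L) ⊓ C ≤ H → C ≤ pPrimePCore p L := by
    intro hSC
    apply le_pPrimePCore hCn
    exact hA hSC
  constructor
  · intro hnd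
    have hSC : (S : Subgroup L) ⊓ C ≤ H := by
      have hle : H ≤ (S : Subgroup L) ⊓ N := le_inf hHS hHN
      have hdvd : H.relIndex ((S : Subgroup L) ⊓ N) ∣ H.relIndex N :=
        ⟨_, (relIndex_mul_relIndex _ _ _ hle inf_le_right).symm⟩
      have h1 : IsPGroup p ↥((S : Subgroup L) ⊓ N) := S.isPGroup'.to_le inf_le_left
      obtain ⟨n, hn⟩ := IsPGroup.iff_card.1 h1
      have h2 : H.relIndex ((S : Subgroup L) ⊓ N) ∣ p ^ n := by
        rw [← hn]
        exact index_dvd_card _
      obtain ⟨m, -, hm⟩ := (Nat.dvd_prime_pow hp.out).1 h2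
      have h3 : H.relIndex ((S : Subgroup L) ⊓ N) = 1 := by
        rcases m with _ | m
        · simpa using hm
        · exfalso
          apply hnd
          refine dvd_trans ?_ hdvd
          rw [hm]
          exact dvd_pow_self p (Nat.succ_ne_zero m)
      rw [relIndex_eq_one] at h3
      exact le_trans (inf_le_inf_left _ hCN) h3
    refine ⟨hSC, ?_⟩
    have hNle : N ≤ H ⊔ C := by
      have h1 : (H ⊔ C).relIndex N ∣ H.relIndex N := relIndex_dvd_of_le_left _ le_sup_left
      have h2 : (H ⊔ C).relIndex N ∣ C.relIndex N := relIndex_dvd_of_le_left _ le_sup_right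
      have h3 : C.relIndex N = Nat.card (pCore p (L ⧸ C)) := by
        have h4 : (⊥ : Subgroup (L ⧸ C)).comap (QuotientGroup.mk' C) = C := by
          rw [MonoidHom.comap_bot, QuotientGroup.ker_mk']
        calc C.relIndex N = ((⊥ : Subgroup (L ⧸ C)).comap (QuotientGroup.mk' C)).relIndex N := by
              rw [h4]
          _ = (⊥ : Subgroup (L ⧸ C)).relIndex (N.map (QuotientGroup.mk' C)) := relIndex_comap _ _ _
          _ = Nat.card (N.map (QuotientGroup.mk' C)) := relIndex_bot_left _
          _ = Nat.card (pCore p (L ⧸ C)) := by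
              rw [hNdef, map_comap_eq_self_of_surjective QuotientGroup.mk_surjective]
      obtain ⟨n, hn⟩ := IsPGroup.iff_card.1 (pCore_isPGroup : IsPGroup p (pCore p (L ⧸ C)))
      rw [h3, hn] at h2
      obtain ⟨m, -, hm⟩ := (Nat.dvd_prime_pow hp.out).1 h2
      have h5 : (H ⊔ C).relIndex N = 1 := by
        rcases m with _ | m
        · simpa using hm
        · exfalso
          apply hnd
          refine dvd_trans ?_ h1
          rw [hm]
          exact dvd_pow_self p (Nat.succ_ne_zero m)
      exact relIndex_eq_one.1 h5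
    apply le_antisymm (le_trans hWN hNle)
    exact sup_le hHW (hCW hSC)
  · rintro ⟨hSC, hW⟩
    have hNW : N ≤ pPrimePCore p L := by
      apply le_pPrimePCore hNn
      intro n hn
      obtain ⟨k, hk⟩ := hNC n hn
      obtain ⟨l, hl⟩ := hA hSC _ hk
      refine ⟨k + l, ?_⟩
      rw [pow_add, pow_mul]
      exact hl
    have hNeq : N = H ⊔ C := le_antisymm (hW ▸ hNW) (sup_le hHN hCN)
    rw [hNeq, relIndex_sup_left]
    have h1 : H.relIndex C = (S : Subgroup L).relIndex C := by
      rw [← inf_relIndex_right H C, ← inf_relIndex_right (S : Subgroup L) C]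
      congr 1
      exact le_antisymm (inf_le_inf_right _ hHS) (le_inf hSC inf_le_right)
    rw [h1]
    exact Cfsg.Agent.Lib.Components.SylowSub.not_dvd_relIndex S (hCn.isSubnormal)

theorem core_le_aux {L : Type*} [Group L] [Finite L] {p : ℕ} (H C : Subgroup L) [hHn : H.Normal] [hCn : C.Normal]
    (hHp : IsPGroup p H) : H ≤ (pCore p (L ⧸ C)).comap (QuotientGroup.mk' C) := by
  rw [← map_le_iff_le_comap]
  apply le_pCore (hHn.map _ QuotientGroup.mk_surjective)
  exact hHp.map _

/-- Let P be a Sylow p-subgroup of the finite group G and H ≤ P a subgroup with N_P(H) a Sylow p-subgroup of N_G(H). Let N be the preimage in N_G(H) of O_p(N_G(H)/C_G(H)). Then H is a Sylow p-subgroup of N if and only if C_P(H) ≤ H and O_{p',p}(N_G(H)) = H·C_G(H). -/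
theorem result {G : Type*} [Group G] [Finite G] {p : ℕ} [Fact p.Prime]
    (P : Sylow p G) (H : Subgroup G) (hHP : H ≤ (P : Subgroup G))
    (hSyl : ¬ p ∣ ((P : Subgroup G) ⊓ Subgroup.normalizer (H : Set G)).relIndex (Subgroup.normalizer (H : Set G)))
    [hC : ((Subgroup.centralizer (H : Set G)).subgroupOf (Subgroup.normalizer (H : Set G))).Normal] :
    (H ≤ ((Cfsg.pCore p (↥(Subgroup.normalizer (H : Set G)) ⧸
              (Subgroup.centralizer (H : Set G)).subgroupOf (Subgroup.normalizer (H : Set G)))).comap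
            (QuotientGroup.mk' _)).map (Subgroup.normalizer (H : Set G)).subtype ∧
      ¬ p ∣ H.relIndex (((Cfsg.pCore p (↥(Subgroup.normalizer (H : Set G)) ⧸
              (Subgroup.centralizer (H : Set G)).subgroupOf (Subgroup.normalizer (H : Set G)))).comap
            (QuotientGroup.mk' _)).map (Subgroup.normalizer (H : Set G)).subtype)) ↔
    ((P : Subgroup G) ⊓ Subgroup.centralizer (H : Set G) ≤ H ∧
      (Cfsg.pPrimePCore p ↥(Subgroup.normalizer (H : Set G))).map (Subgroup.normalizer (H : Set G)).subtype =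
        H ⊔ Subgroup.centralizer (H : Set G)) := by
  classical
  have hHL : H ≤ normalizer (H : Set G) := le_normalizer
  have hCL : centralizer (H : Set G) ≤ normalizer (H : Set G) := by
    intro x hx
    rw [mem_normalizer_iff]
    intro h
    have hc : ∀ h ∈ H, x * h = h * x := fun h hh => (mem_centralizer_iff.1 hx h hh).symm
    constructor
    · intro hh
      have : x * h * x⁻¹ = h := by rw [hc h hh]; group
      rw [this]; exact hh
    · intro hh
      have h1 := hc _ hh
      have h2 : x * h * x⁻¹ = h := mul_left_cancel (a := x) (h1.trans (by group))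
      rw [h2] at hh; exact hh
  let L := normalizer (H : Set G)
  let H' : Subgroup L := H.subgroupOf L
  let C' : Subgroup L := (centralizer (H : Set G)).subgroupOf L
  have hH'n : H'.Normal := ⟨fun h hh g => (mem_normalizer_iff.1 g.2 h).1 hh⟩
  have hHp : IsPGroup p H' := (P.isPGroup'.to_le hHP).comap_subtype (K := L)
  have hC' : ∀ x : L, x ∈ C' ↔ ∀ h ∈ H', x * h = h * x := by
    intro x
    constructor
    · intro hx h hh
      apply Subtype.ext
      exact (mem_centralizer_iff.1 hx (h : G) hh).symm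
    · intro hx
      refine mem_centralizer_iff.2 fun h hh => ?_
      have h1 := hx ⟨h, hHL hh⟩ hh
      exact (congrArg Subtype.val h1).symm
  let S : Sylow p L := (P.isPGroup'.comap_subtype (K := L)).toSylow (by
    intro hd
    apply hSyl
    rw [inf_relIndex_right]
    exact hd)
  have hS : (S : Subgroup L) = (P : Subgroup G).subgroupOf L := rfl
  have hHS : H' ≤ (S : Subgroup L) := by
    rw [hS]
    exact fun x hx => hHP hx
  have key := core_aux H' C' hHp hC' S hHS
  have hle := core_le_aux (p := p) H' C' hHp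
  have hH1 : H'.map L.subtype = H := map_subgroupOf_eq_of_le hHL
  have hC1 : C'.map L.subtype = centralizer (H : Set G) := map_subgroupOf_eq_of_le hCL
  have hrel : ∀ N' : Subgroup L, H.relIndex (N'.map L.subtype) = H'.relIndex N' := by
    intro N'
    conv_lhs => rw [← hH1]
    exact relIndex_map_map_of_injective _ _ L.subtype_injective
  have hSC : (((P : Subgroup G) ⊓ centralizer (H : Set G) ≤ H) ↔ ((S : Subgroup L) ⊓ C' ≤ H')) := by
    constructor
    · intro h x hx
      rw [hS] at hx
      exact h ⟨hx.1, hx.2⟩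
    · intro h x hx
      have : (⟨x, hCL hx.2⟩ : L) ∈ (S : Subgroup L) ⊓ C' := by
        rw [hS]
        exact ⟨hx.1, hx.2⟩
      exact h this
  have hWeq : ((pPrimePCore p L).map L.subtype = H ⊔ centralizer (H : Set G)) ↔ (pPrimePCore p L = H' ⊔ C') := by
    constructor
    · intro h
      apply map_injective L.subtype_injective
      rw [h, Subgroup.map_sup, hH1, hC1]
    · intro h
      rw [h, Subgroup.map_sup, hH1, hC1]
  rw [hrel, hWeq]
  rw [← hSC] at key
  have h3 : H ≤ ((pCore p (L ⧸ C')).comap (QuotientGroup.mk' C')).map L.subtype := by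
    rw [← hH1]
    exact map_mono hle
  constructor
  · rintro ⟨-, h⟩
    exact key.1 h
  · intro h
    exact ⟨h3, key.2 h⟩

end Cfsg.Agent.S3076
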