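import Cfsg.Statements.S3087

set_option autoImplicit false
open Cfsg

namespace Cfsg.Agent.S3087

open Subgroup

/-- Fixed points of a subgroup as an additive subgroup. -/
def fixOf {G V : Type*} [Group G] [AddCommGroup V] {p : ℕ} [Module (ZMod p) V]
    (ρ : Representation (ZMod p) G V) (S : Subgroup G) : AddSubgroup V where
  carrier := {v | ∀ s ∈ S, ρ s v = v}
  add_mem' := fun {a b} ha hb s hs => by rw [map_add, ha s hs, hb s hs]
  zero_mem' := fun s _ => map_zero _
  neg_mem' := fun {a} ha s hs => by rw [map_neg, ha s hs]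

/-- Product formula inequality. -/
theorem card_mul_card_le {V : Type*} [AddCommGroup V] [Finite V] (U Y X : AddSubgroup V)
    (hU : U ≤ X) (hY : Y ≤ X) :
    Nat.card U * Nat.card Y ≤ Nat.card (U ⊓ Y : AddSubgroup V) * Nat.card X := by
  have h1 : Nat.card U = Nat.card (U ⊓ Y : AddSubgroup V) * Y.relIndex U := by
    have := AddSubgroup.relIndex_mul_relIndex (⊥ : AddSubgroup V) (U ⊓ Y) U bot_le inf_le_left
    rw [AddSubgroup.relIndex_bot_left, AddSubgroup.relIndex_bot_left] at this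
    rw [← this, inf_comm, AddSubgroup.inf_relIndex_right]
  have h2 : Nat.card (U ⊔ Y : AddSubgroup V) = Nat.card Y * Y.relIndex U := by
    have := AddSubgroup.relIndex_mul_relIndex (⊥ : AddSubgroup V) Y (U ⊔ Y) bot_le le_sup_right
    rw [AddSubgroup.relIndex_bot_left, AddSubgroup.relIndex_bot_left] at this
    rw [← this, AddSubgroup.relIndex_sup_right]
  have h3 : Nat.card (U ⊔ Y : AddSubgroup V) ≤ Nat.card X :=
    AddSubgroup.card_le_of_le (sup_le hU hY)
  calc Nat.card U * Nat.card Y = Nat.card (U ⊓ Y : AddSubgroup V) * (Nat.card Y * Y.relIndex U) := by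
        rw [h1]; ring
    _ = Nat.card (U ⊓ Y : AddSubgroup V) * Nat.card (U ⊔ Y : AddSubgroup V) := by rw [h2]
    _ ≤ _ := Nat.mul_le_mul_left _ h3

/-- Let p be a prime, G a finite group acting linearly on a finite vector space V over the field with p elements, W a G-invariant subspace, and A a subgroup of G with |A|·|C_V(A)| ≥ |B|·|C_V(B)| for every subgroup B of A. Then |A|·|C_W(A)| ≥ |B|·|C_W(B)| for every subgroup B of A that contains C_A(W); that is, the image of A in the group induced on W satisfies the same maximality condition. -/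
theorem result {G V : Type*} [Group G] [Finite G] [AddCommGroup V] [Finite V] (p : ℕ) [Fact p.Prime] [Module (ZMod p) V]
    (ρ : Representation (ZMod p) G V) (W : Submodule (ZMod p) V) (hW : ∀ g : G, ∀ w ∈ W, ρ g w ∈ W)
    (A : Subgroup G)
    (hP : ∀ B : Subgroup G, B ≤ A →
      Nat.card ↥B * Nat.card {v : V // ∀ b ∈ B, ρ b v = v} ≤ Nat.card ↥A * Nat.card {v : V // ∀ a ∈ A, ρ a v = v})
    (B : Subgroup G) (hBA : B ≤ A) (hCB : ∀ a ∈ A, (∀ w ∈ W, ρ a w = w) → a ∈ B) :
    Nat.card ↥B * Nat.card {w : W // ∀ b ∈ B, ρ b w = w} ≤ Nat.card ↥A * Nat.card {w : W // ∀ a ∈ A, ρ a w = w} := by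
  classical
  have hcV : ∀ S : Subgroup G, Nat.card {v : V // ∀ s ∈ S, ρ s v = v} = Nat.card (fixOf ρ S) :=
    fun S => rfl
  have hcW : ∀ S : Subgroup G, Nat.card {w : W // ∀ s ∈ S, ρ s w = w}
      = Nat.card (fixOf ρ S ⊓ W.toAddSubgroup : AddSubgroup V) := by
    intro S
    apply Nat.card_congr
    refine ⟨fun w => ⟨(w.1 : V), w.2, w.1.2⟩, fun x => ⟨⟨x.1, x.2.2⟩, x.2.1⟩, ?_, ?_⟩
    · intro w; rfl
    · intro x; rfl
  rw [hcW, hcW]
  have hP' := hP B hBA
  rw [hcV, hcV] at hP'
  set X := fixOf ρ B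
  set Y := fixOf ρ A
  have hYX : Y ≤ X := fun v hv s hs => hv s (hBA hs)
  set U : AddSubgroup V := X ⊓ W.toAddSubgroup with hU
  have hUX : U ≤ X := inf_le_left
  have h1 := card_mul_card_le U Y X hUX hYX
  have hinf : U ⊓ Y = Y ⊓ W.toAddSubgroup := by
    rw [hU, inf_comm X, inf_assoc, inf_comm X, inf_eq_left.mpr hYX, inf_comm]
  rw [hinf] at h1
  have hYpos : 0 < Nat.card Y := Nat.card_pos
  apply Nat.le_of_mul_le_mul_right _ hYpos
  calc Nat.card B * Nat.card U * Nat.card Y = Nat.card B * (Nat.card U * Nat.card Y) := by ring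
    _ ≤ Nat.card B * (Nat.card (Y ⊓ W.toAddSubgroup : AddSubgroup V) * Nat.card X) :=
        Nat.mul_le_mul_left _ h1
    _ = Nat.card (Y ⊓ W.toAddSubgroup : AddSubgroup V) * (Nat.card B * Nat.card X) := by ring
    _ ≤ Nat.card (Y ⊓ W.toAddSubgroup : AddSubgroup V) * (Nat.card A * Nat.card Y) :=
        Nat.mul_le_mul_left _ hP'
    _ = _ := by ring

end Cfsg.Agent.S3087
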