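import Cfsg.Statements.S3153
import Cfsg.Agent.Lib.StdForm.Basic

set_option autoImplicit false
open Cfsg

namespace Cfsg.Agent.S3153

/-- Let X be a finite group and P a standard subgroup of X whose centralizer has 2-rank at most 1 and whose centre has odd order. Let S be a Sylow 2-subgroup of N_X(P) and t an involution of S centralizing P. Suppose some element g of X normalizes S, does not lie in S, has its square in S, and conjugates t into P·C_X(P). Then P commutes elementwise with the largest normal odd-order subgroup O(X) of X; consequently every t-invariant 2-component of X containing P is quasisimple. -/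
theorem result {X : Type*} [Group X] [Finite X] (P : Subgroup X) (hP : Cfsg.IsStandardSubgroup P)
    (hr : Cfsg.PRankLE 2 1 ↥(Subgroup.centralizer (P : Set X))) (hZ : Odd (Nat.card ↥(Subgroup.center ↥P)))
    (S : Sylow 2 ↥(Subgroup.normalizer (P : Set X))) (t : X) (ht : orderOf t = 2) (htS : t ∈ (S : Subgroup ↥(Subgroup.normalizer (P : Set X))).map (Subgroup.normalizer (P : Set X)).subtype)
    (htP : t ∈ Subgroup.centralizer (P : Set X))
    (g : X) (hgN : ∀ s ∈ (S : Subgroup ↥(Subgroup.normalizer (P : Set X))).map (Subgroup.normalizer (P : Set X)).subtype, g * s * g⁻¹ ∈ (S : Subgroup ↥(Subgroup.normalizer (P : Set X))).map (Subgroup.normalizer (P : Set X)).subtype)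
    (hgS : g ∉ (S : Subgroup ↥(Subgroup.normalizer (P : Set X))).map (Subgroup.normalizer (P : Set X)).subtype) (hg2 : g ^ 2 ∈ (S : Subgroup ↥(Subgroup.normalizer (P : Set X))).map (Subgroup.normalizer (P : Set X)).subtype)
    (hgt : g * t * g⁻¹ ∈ P ⊔ Subgroup.centralizer (P : Set X)) :
    ⁅P, Cfsg.oddCore X⁆ = ⊥ ∧
      ∀ L : Subgroup X, Cfsg.IsPComponent 2 L → P ≤ L → (∀ l ∈ L, t * l * t⁻¹ ∈ L) → Cfsg.IsQuasisimple ↥L := by
  have hnN : g ∉ Subgroup.normalizer (P : Set X) :=
    Cfsg.Agent.Lib.StdForm.Basic.not_mem_of_sylow S hgN hgS hg2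
  have hStN : (S : Subgroup ↥(Subgroup.normalizer (P : Set X))).map (Subgroup.normalizer (P : Set X)).subtype ≤
      Subgroup.normalizer (P : Set X) := by
    rintro _ ⟨x, -, rfl⟩
    exact x.2
  obtain ⟨u, h⟩ := Cfsg.Agent.Lib.StdForm.Basic.movedInv_of_rank_one hP hr hZ hStN
    (S.isPGroup'.map _) ht htS htP (hgN t htS) hnN hgt
  have huo : orderOf u = 2 := by
    apply orderOf_eq_prime
    · rcases h.dec with e | e
      · have h1 := h.sq'
        rw [e] at h1
        have hc : u * t = t * u := h.comm_t h.memA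
        rw [pow_two]
        calc u * u = u * u * (t * t) := by rw [h.sq, mul_one]
          _ = u * (u * t) * t := by group
          _ = u * (t * u) * t := by rw [hc]
          _ = (u * t) * (u * t) := by group
          _ = 1 := h1
      · rw [pow_two]
        have h1 := h.sq'
        rwa [e] at h1
    · intro hu1
      apply h.nc
      intro x _
      rw [hu1]; group
  have hnO : ¬ P ≤ Cfsg.oddCore X := by
    intro hle
    have h1 : (Nat.card ↥(Cfsg.oddCore X)).Coprime 2 := Cfsg.Agent.Lib.Core.Basic.pPrimeCore_coprime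
    exact Cfsg.Agent.Lib.StdForm.Basic.not_odd_of_involution (hle h.memA) huo
      (Nat.coprime_two_right.mp h1)
  have hcomm : ⁅P, Cfsg.oddCore X⁆ = ⊥ := h.odd_normal_commutator (Cfsg.pPrimeCore_normal 2 X) hnO
  refine ⟨hcomm, fun L hL hPL _ => ?_⟩
  exact Cfsg.Agent.Lib.StdForm.Basic.pcomponent_quasisimple hP.1 hPL hL hcomm
    (Cfsg.Agent.Lib.StdForm.Basic.not_odd_of_involution h.memA huo)

end Cfsg.Agent.S3153
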