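import Cfsg.Statements.S3154
import Cfsg.Agent.Lib.L34Sec.Main

set_option autoImplicit false
open Cfsg

namespace Cfsg.Agent.S3154



/-- Let X be a finite quasisimple group whose centre is an elementary abelian 2-group and whose central quotient is isomorphic to the projective special linear group of dimension 3 over the field with 4 elements. Let T be a Sylow 2-subgroup of X and H ≠ K subgroups of T containing the centre Z(X) whose images in X/Z(X) are elementary abelian of order 16 (the two such subgroups of a Sylow 2-subgroup of the quotient). Then H and K are elementary abelian, H ∩ K is the centre of the subgroup they generate, and each of N_X(H), N_X(K) is a split extension of H, respectively K, by the projective special linear group of dimension 2 over the field with 4 elements (there is a complement isomorphic to that group). -/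
theorem result {X : Type*} [Group X] [Finite X] (hq : Cfsg.IsQuasisimple X) (hZ : Cfsg.IsElementaryAbelian 2 (Subgroup.center X))
    {F : Type*} [Field F] [Fintype F] (hF : Fintype.card F = 4) (hXL : Nonempty ((X ⧸ Subgroup.center X) ≃* Matrix.ProjectiveSpecialLinearGroup (Fin 3) F))
    (T : Sylow 2 X) (H K : Subgroup X) (hHK : H ≠ K) (hHT : H ≤ T) (hKT : K ≤ T) (hZH : Subgroup.center X ≤ H) (hZK : Subgroup.center X ≤ K)
    (hH : Cfsg.IsElementaryAbelian 2 (H.map (QuotientGroup.mk' (Subgroup.center X))) ∧ Nat.card ↥(H.map (QuotientGroup.mk' (Subgroup.center X))) = 16)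
    (hK : Cfsg.IsElementaryAbelian 2 (K.map (QuotientGroup.mk' (Subgroup.center X))) ∧ Nat.card ↥(K.map (QuotientGroup.mk' (Subgroup.center X))) = 16) :
    Cfsg.IsElementaryAbelian 2 H ∧ Cfsg.IsElementaryAbelian 2 K ∧
      H ⊓ K = (Subgroup.center ↥(H ⊔ K)).map (H ⊔ K).subtype ∧
      (∃ C : Subgroup X, C ≤ Subgroup.normalizer (H : Set X) ∧ C ⊓ H = ⊥ ∧ H ⊔ C = Subgroup.normalizer (H : Set X) ∧
        Nonempty (↥C ≃* Matrix.ProjectiveSpecialLinearGroup (Fin 2) F)) ∧
      (∃ C : Subgroup X, C ≤ Subgroup.normalizer (K : Set X) ∧ C ⊓ K = ⊥ ∧ K ⊔ C = Subgroup.normalizer (K : Set X) ∧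
        Nonempty (↥C ≃* Matrix.ProjectiveSpecialLinearGroup (Fin 2) F)) := by
  exact Cfsg.Agent.Lib.L34Sec.main hZ hF hXL T H K hHK hHT hKT hZH hZK hH hK

end Cfsg.Agent.S3154
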