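import Cfsg.Statements.S3155
import Mathlib

set_option autoImplicit false
open Cfsg

namespace Cfsg.Agent.S3155

private lemma no_sq : ∀ x : ZMod 4, x * x ≠ -1 := by decide

/-- Let B be the direct product of three cyclic groups of order 4. Then the automorphism of B inverting every element is not the square of any automorphism of B. -/
theorem result {B : Type*} [CommGroup B] [Finite B] (hB : Nonempty (B ≃* Multiplicative (ZMod 4 × ZMod 4 × ZMod 4)))
    (τ : B ≃* B) : τ.trans τ ≠ MulEquiv.inv B := by
  intro hτ
  obtain ⟨e⟩ := hB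
  -- the additive map on (ZMod 4)^3
  let A := ZMod 4 × ZMod 4 × ZMod 4
  let f0 : A →+ A :=
    { toFun := fun a => Multiplicative.toAdd (e (τ (e.symm (Multiplicative.ofAdd a))))
      map_zero' := by simp
      map_add' := by
        intro a b
        simp [ofAdd_add] }
  let f : A →ₗ[ZMod 4] A := f0.toZModLinearMap 4
  have hf : ∀ a, f (f a) = -a := by
    intro a
    have h1 : τ (τ (e.symm (Multiplicative.ofAdd a))) = (e.symm (Multiplicative.ofAdd a))⁻¹ := by
      have := congrArg (fun φ : B ≃* B => φ (e.symm (Multiplicative.ofAdd a))) hτ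
      simpa using this
    change Multiplicative.toAdd (e (τ (e.symm (Multiplicative.ofAdd (Multiplicative.toAdd (e (τ (e.symm (Multiplicative.ofAdd a))))))))) = -a
    simp [h1]
  have hff : f * f = (-1 : ZMod 4) • (1 : A →ₗ[ZMod 4] A) := by
    ext <;> simp [hf]
  have hdet := congrArg LinearMap.det hff
  rw [map_mul, LinearMap.det_smul] at hdet
  have hrank : Module.finrank (ZMod 4) A = 3 := by
    haveI : Fact (1 < 4) := ⟨by norm_num⟩
    change Module.finrank (ZMod 4) (ZMod 4 × ZMod 4 × ZMod 4) = 3
    rw [Module.finrank_prod, Module.finrank_prod]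
    simp
  rw [hrank, map_one] at hdet
  have : LinearMap.det f * LinearMap.det f = -1 := by
    rw [hdet]; decide
  exact no_sq _ this

end Cfsg.Agent.S3155
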