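import Cfsg.Statements.S3156
import Cfsg.Agent.Lib.TwoFusion.SU3Aut

set_option autoImplicit false
open Cfsg

namespace Cfsg.Agent.S3156

open Cfsg.Agent.Lib.SuzukiTwo.PSU3 Cfsg.Agent.Lib.TwoFusion.SU3Aut Cfsg.Agent.Lib.TwoFusion.SU3q

section
variable {F : Type*} [Field F] [Fintype F]
variable [hf : Fact (Fintype.card F = 4 ^ 2)] [h2F : Fact ((2 : F) = 0)]

/-- The Frobenius of a field with 16 elements. -/
noncomputable def fr (F : Type*) [Field F] [Fintype F] [hf : Fact (Fintype.card F = 4 ^ 2)]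
    [h2F : Fact ((2 : F) = 0)] : F ≃+* F :=
  haveI : CharP F 2 := by
    haveI : Fact (Nat.Prime 2) := ⟨Nat.prime_two⟩
    exact (CharP.charP_iff_prime_eq_zero Nat.prime_two).mpr (by exact_mod_cast h2F.out)
  RingEquiv.ofBijective (frobenius F 2) (Finite.injective_iff_bijective.mp (frobenius F 2).injective)

lemma fr_apply (x : F) : fr F x = x ^ 2 := rfl

lemma fr_pow (k : ℕ) (x : F) : ((fr F) ^ k) x = x ^ (2 ^ k) := by
  induction k generalizing x with
  | zero => simp
  | succ k ih =>
    rw [pow_succ]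
    show (fr F ^ k) (fr F x) = _
    rw [ih, fr_apply, pow_succ 2 k, ← pow_mul, mul_comm]

lemma pow16 (x : F) : x ^ 16 = x := by
  have := FiniteField.pow_card x
  rwa [hf.out] at this

lemma not_pow4 : ¬ ∀ x : F, x ^ 4 = x := by
  intro h
  have h3 : ∀ x : Fˣ, x ^ 3 = 1 := by
    intro x
    apply Units.ext
    have h1 := h (x : F)
    have hx : (x : F) ≠ 0 := x.ne_zero
    have e : (x : F) ^ 4 = (x : F) ^ 3 * x := by ring
    rw [e] at h1
    push_cast
    exact mul_right_cancel₀ hx (by rw [h1, one_mul])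
  have := (FiniteField.forall_pow_eq_one_iff F 3).mp h3
  rw [hf.out] at this
  norm_num at this

lemma orderOf_fr : orderOf (fr F) = 4 := by
  have h16 : (fr F) ^ 2 ^ 2 = 1 := by
    ext x
    rw [fr_pow]
    show x ^ (2 ^ (2 ^ 2)) = x
    exact pow16 x
  have h2 : ¬ (fr F) ^ 2 ^ 1 = 1 := by
    intro h
    apply not_pow4 (F := F)
    intro x
    have := congrArg (fun g : F ≃+* F => g x) h
    simp only [fr_pow] at this
    exact this
  have := orderOf_eq_prime_pow (p := 2) (n := 1) h2 h16
  simpa using this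

lemma card_aut_four : Nat.card (F ≃+* F) = 4 := by
  haveI : Fact (Nat.Prime 2) := ⟨Nat.prime_two⟩
  have := Cfsg.Agent.Lib.KS71.PSLAutGroup.card_ringEquiv (F := F) (p := 2) (f := 4)
      (by rw [hf.out]; norm_num) (by norm_num)
  simpa using this

lemma fix_of_involution (ρ : F ≃+* F) (hρ : ρ ^ 2 = 1) (u : F) (hu : u ^ 3 = 1) : ρ u = u := by
  classical
  have hc := card_aut_four (F := F)
  haveI : Finite (F ≃+* F) := by
    apply Finite.of_injective (fun g : F ≃+* F => (g : F → F))
    exact DFunLike.coe_injective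
  have htop : Subgroup.zpowers (fr F) = ⊤ := by
    apply Subgroup.eq_top_of_card_eq
    rw [Nat.card_zpowers, orderOf_fr, hc]
  have hm : ρ ∈ Subgroup.zpowers (fr F) := by rw [htop]; trivial
  have hm' : ρ ∈ Submonoid.powers (fr F) := mem_powers_iff_mem_zpowers.mpr hm
  obtain ⟨k, rfl⟩ := hm'
  have hdvd : 4 ∣ k * 2 := by
    rw [← pow_mul] at hρ
    rw [← orderOf_fr (F := F)]
    exact orderOf_dvd_of_pow_eq_one hρ
  have hk : Even k := by
    rw [Nat.even_iff]
    omega
  obtain ⟨j, rfl⟩ := hk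
  rw [fr_pow]
  have hu4 : u ^ 4 = u := by
    have : u ^ 4 = u ^ 3 * u := by ring
    rw [this, hu, one_mul]
  have e : ∀ j : ℕ, u ^ (2 ^ (j + j)) = u := by
    intro j
    induction j with
    | zero => simp
    | succ j ih =>
      have : 2 ^ (j + 1 + (j + 1)) = 2 ^ (j + j) * 4 := by ring
      rw [this, pow_mul, ih, hu4]
  exact e j

lemma tau1_mul' (τ τ' : MulAut (H F 4)) (a : F) : tau1 (τ * τ') a = tau1 τ (tau1 τ' a) :=
  tau1_mul τ τ' a

/-- The core: no `S₃` in the automorphism group of the model. -/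
theorem no_S3 (g : Equiv.Perm (Fin 3) →* MulAut (H F 4)) (hg : Function.Injective g) : False := by
  classical
  let c : Equiv.Perm (Fin 3) := finRotate 3
  let s : Equiv.Perm (Fin 3) := Equiv.swap 0 1
  have hc3 : c ^ 3 = 1 := by decide
  have hc1 : c ≠ 1 := by decide
  have hs2 : s ^ 2 = 1 := by decide
  have hrel : c * s * c = s := by decide
  -- the images
  set τ := g c with hτ
  set υ := g s with hυ
  have hτ3 : τ ^ 3 = 1 := by rw [hτ, ← map_pow, hc3, map_one]
  have hτ1 : τ ≠ 1 := fun h => hc1 (hg (by rw [map_one]; exact h))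
  have hυ2 : υ ^ 2 = 1 := by rw [hυ, ← map_pow, hs2, map_one]
  have hrel' : τ * υ * τ = υ := by rw [hτ, hυ, ← map_mul, ← map_mul, hrel]
  -- semilinear forms
  obtain ⟨σ, hσ⟩ := exists_semilinear τ
  obtain ⟨ρ, hρ⟩ := exists_semilinear υ
  set u := tau1 τ 1 with hu
  set v := tau1 υ 1 with hv
  have hu0 : u ≠ 0 := fun h => one_ne_zero ((tau1_injective τ) (h.trans (map_zero _).symm))
  have hv0 : v ≠ 0 := fun h => one_ne_zero ((tau1_injective υ) (h.trans (map_zero _).symm))
  -- `ρ ^ 2 = 1`
  have hρ2 : ρ ^ 2 = 1 := by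
    have h1 : ∀ a, tau1 (υ ^ 2) a = a := fun a => by rw [hυ2]; exact tau1_one a
    have h2 : ∀ a, v * ρ v * (ρ (ρ a)) = a := by
      intro a
      have := h1 a
      rw [pow_two, tau1_mul, hρ, hρ, map_mul] at this
      linear_combination this
    have h3 : v * ρ v = 1 := by simpa using h2 1
    ext a
    have := h2 a
    rw [h3, one_mul] at this
    exact this
  -- `σ = 1`
  have hσ3 : σ ^ 3 = 1 := by
    have h1 : ∀ a, tau1 (τ ^ 3) a = a := fun a => by rw [hτ3]; exact tau1_one a
    have h2 : ∀ a, u * σ u * σ (σ u) * (σ (σ (σ a))) = a := by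
      intro a
      have := h1 a
      rw [pow_succ, pow_two, tau1_mul, tau1_mul, hσ a, hσ (u * σ a), hσ (u * σ (u * σ a)), map_mul, map_mul, map_mul] at this
      linear_combination this
    have h3 : u * σ u * σ (σ u) = 1 := by simpa using h2 1
    ext a
    have := h2 a
    rw [h3, one_mul] at this
    exact this
  have hσ4 : σ ^ 4 = 1 := by
    have hfin : Finite (F ≃+* F) := by
      apply Finite.of_injective (fun g : F ≃+* F => (g : F → F))
      exact DFunLike.coe_injective
    rw [← card_aut_four (F := F)]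
    exact pow_card_eq_one'
  have hσ1 : σ = 1 := by
    have : σ ^ 4 = σ ^ 3 * σ := by rw [pow_succ]
    rw [this, hσ3, one_mul] at hσ4
    exact hσ4
  have hσa : ∀ a, tau1 τ a = u * a := fun a => by rw [hσ, hσ1]; rfl
  -- `u` has order three
  have hu3 : u ^ 3 = 1 := by
    have h1 := hσa 1
    have h2 : tau1 (τ ^ 3) 1 = 1 := by rw [hτ3]; exact tau1_one 1
    rw [pow_succ, pow_two, tau1_mul, tau1_mul, hσa, hσa, hσa] at h2
    rw [← h2]
    ring
  have hu1 : u ≠ 1 := by
    intro h
    have ha : ∀ a, tau1 τ a = a := fun a => by rw [hσa, h, one_mul]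
    have hker : τ ∈ (Θ (F := F) (q := 4)).ker := by
      apply MonoidHom.mem_ker.mpr
      ext a
      exact ha a
    have h2 := isElementaryAbelian_ker.2 τ hker
    apply hτ1
    have : τ ^ 3 = τ ^ 2 * τ := by rw [pow_succ]
    rw [this, h2, one_mul] at hτ3
    exact hτ3
  -- the relation
  have h5 : u * ρ u = 1 := by
    have h1 : tau1 (τ * υ * τ) 1 = tau1 υ 1 := by rw [hrel']
    rw [tau1_mul, tau1_mul, hσa, hρ, hσa, map_mul] at h1
    have e : u * (v * (ρ u * ρ 1)) = (u * ρ u) * v := by
      rw [map_one]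
      ring
    rw [e, ← hv] at h1
    exact mul_right_cancel₀ hv0 (by rw [h1, one_mul])
  rw [fix_of_involution ρ hρ2 u hu3] at h5
  -- `u ^ 2 = 1`, contradiction
  have h2 := two0 (F := F)
  apply hu1
  have h7 : (u + 1) ^ 2 = 0 := by
    linear_combination h5 + (u + 1) * h2
  have h8 : u + 1 = 0 := pow_eq_zero_iff (by norm_num) |>.mp h7
  linear_combination h8 - h2

end

/-- Conjugation by an isomorphism. -/
def autCongr {A B : Type*} [Group A] [Group B] (e : A ≃* B) : MulAut A ≃* MulAut B where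
  toFun a := e.symm.trans (a.trans e)
  invFun b := e.trans (b.trans e.symm)
  left_inv a := by
    ext x
    simp
  right_inv b := by
    ext x
    simp
  map_mul' a b := by
    ext x
    simp [MulAut.mul_apply]

/-- If a finite group T is isomorphic to a Sylow 2-subgroup of the projective special unitary group of dimension 3 with parameter 4 (realised over the field with 16 elements), then no subgroup of the automorphism group of T is isomorphic to the symmetric group of degree 3. -/
theorem result {T : Type*} [Group T] [Finite T] (hT : (∃ (F : Type) (_ : Field F) (_ : Fintype F), Fintype.card F = 16 ∧ ∃ S : Sylow 2 (Cfsg.PSU 3 F 4), Nonempty (T ≃* ↥(S : Subgroup (Cfsg.PSU 3 F 4))))) (H : Subgroup (MulAut T)) : ¬ Nonempty (↥H ≃* Equiv.Perm (Fin 3)) := by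
  rintro ⟨φ⟩
  obtain ⟨F, _, _, hF, S, ⟨e1⟩⟩ := hT
  haveI : Fact (Fintype.card F = 4 ^ 2) := ⟨by rw [hF]; norm_num⟩
  haveI : Fact ((2 : F) = 0) := ⟨by
    have h : ringChar F = 2 := FiniteField.even_card_iff_char_two.mpr (by rw [hF])
    have h2 := ringChar.Nat.cast_ringChar (R := F)
    rw [h] at h2
    exact_mod_cast h2⟩
  obtain ⟨e2⟩ := Cfsg.Agent.Lib.SuzukiTwo.PSU3.nonempty_equiv (F := F) (q := 4) (n := 2) (by norm_num) (by norm_num) S
  let f := autCongr (e1.trans e2)
  let g : Equiv.Perm (Fin 3) →* MulAut (Cfsg.Agent.Lib.SuzukiTwo.PSU3.H F 4) :=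
    f.toMonoidHom.comp (H.subtype.comp φ.symm.toMonoidHom)
  refine no_S3 g ?_
  intro a b hab
  have h1 : (φ.symm a : MulAut T) = φ.symm b := f.injective hab
  exact φ.symm.injective (Subtype.ext h1)

end Cfsg.Agent.S3156
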