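import Cfsg.Statements.S3157
import Cfsg.Agent.Lib.TwoFusion.Hyp.S64

set_option autoImplicit false
open Cfsg

namespace Cfsg.Agent.S3157

open Cfsg.Agent.Lib.TwoFusion.Hyp
open scoped commutatorElement


/-- Let T be a non-abelian group of order 64 admitting automorphisms ρ of order 3 and x of order 2 with x ρ x⁻¹ = ρ⁻¹ (so they generate a symmetric group of degree 3), where ρ fixes only the identity. Then T is isomorphic to a Sylow 2-subgroup of the projective special linear group of dimension 3 over the field with 4 elements, and the subgroup of fixed points of x is dihedral of order 8 or quaternion of order 8. -/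
theorem result {T : Type*} [Group T] [Finite T] (hT : Nat.card T = 64) (hna : ¬ IsMulCommutative T) (ρ x : MulAut T) (hρ : orderOf ρ = 3) (hx : orderOf x = 2)
    (hxr : x * ρ * x⁻¹ = ρ⁻¹) (hfp : ∀ y : T, ρ y = y → y = 1) (C : Subgroup T) (hC : ∀ y : T, y ∈ C ↔ x y = y) :
    (∃ (F : Type) (_ : Field F) (_ : Fintype F), Fintype.card F = 4 ∧
        ∃ S : Sylow 2 (Matrix.ProjectiveSpecialLinearGroup (Fin 3) F), Nonempty (T ≃* ↥(S : Subgroup (Matrix.ProjectiveSpecialLinearGroup (Fin 3) F)))) ∧
      (Nonempty (↥C ≃* DihedralGroup 4) ∨ Nonempty (↥C ≃* QuaternionGroup 2)) := by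
  classical
  haveI : Fact (Nat.Prime 2) := ⟨Nat.prime_two⟩
  have hp2 : IsPGroup 2 T := IsPGroup.of_card (n := 6) (by rw [hT]; norm_num)
  have hcube : ∀ t : T, ρ (ρ (ρ t)) = t := by
    intro t
    have h := pow_orderOf_eq_one ρ
    rw [hρ] at h
    have h2 := congrArg (fun f : MulAut T => f t) h
    simpa [pow_succ] using h2
  have S : Fpf3 ρ := ⟨inferInstance, hp2, hcube, hfp⟩
  have hσ2 : ∀ t, x (x t) = t := by
    intro t
    have h := pow_orderOf_eq_one x
    rw [hx] at h
    have h2 := congrArg (fun f : MulAut T => f t) h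
    simpa [pow_succ] using h2
  have hσα : ∀ t, x (ρ t) = ρ (ρ (x t)) := by
    intro t
    have h1 : x * ρ = ρ⁻¹ * x := by
      rw [← hxr]
      group
    have h2 := congrArg (fun f : MulAut T => f t) h1
    have h3 : x (ρ t) = ρ⁻¹ (x t) := h2
    rw [h3]
    apply ρ.injective
    rw [hcube]
    exact MulEquiv.apply_symm_apply ρ (x t)
  have hna' : ∃ s t : T, s * t ≠ t * s := by
    by_contra hc
    push Not at hc
    exact hna ⟨⟨hc⟩⟩
  have H : Str ρ := ⟨S, hT, hna'⟩
  constructor
  · -- the isomorphism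
    let F : Type := GaloisField 2 2
    letI : Field F := inferInstance
    haveI : Finite F := by
      have : Nat.card (GaloisField 2 2) = 2 ^ 2 := GaloisField.card 2 2 (by norm_num)
      exact Nat.finite_of_card_ne_zero (by rw [this]; norm_num)
    letI : Fintype F := Fintype.ofFinite F
    have hF : Fintype.card F = 4 := by
      rw [← Nat.card_eq_fintype_card]
      have : Nat.card (GaloisField 2 2) = 2 ^ 2 := GaloisField.card 2 2 (by norm_num)
      rw [show Nat.card F = Nat.card (GaloisField 2 2) from rfl, this]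
      norm_num
    refine ⟨F, inferInstance, inferInstance, hF, ?_⟩
    obtain ⟨a, b, hy⟩ := H.exists_HY hσ2 hσα
    obtain ⟨e₁⟩ := hy.iso_UT hF
    obtain ⟨e₂⟩ := ut_equiv (F := F)
    obtain ⟨P, hP⟩ := exists_sylow hF
    refine ⟨P, ?_⟩
    rw [hP]
    exact ⟨e₁.trans e₂⟩
  · -- the fixed points
    obtain ⟨z₀, c₁, c₂, hz, hz1, hσz, h1, h2, h12⟩ := H.exists_fixed_noncomm hσ2 hσα
    have hle := card_fix_sq_le S hσ2 hσα C hC
    rw [hT] at hle
    have hc1 : c₁ ∈ C := (hC _).mpr h1
    have hc2 : c₂ ∈ C := (hC _).mpr h2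
    have hnc : (⟨c₁, hc1⟩ : C) * ⟨c₂, hc2⟩ ≠ ⟨c₂, hc2⟩ * ⟨c₁, hc1⟩ := by
      intro h
      have h3 : c₁ * c₂ = c₂ * c₁ := congrArg Subtype.val h
      apply hz1
      rw [← h12]
      exact commutatorElement_eq_one_iff_mul_comm.mpr h3
    obtain ⟨k, hk⟩ := IsPGroup.iff_card.mp (hp2.to_subgroup C)
    have hk3 : k ≤ 3 := by
      by_contra hcon
      have h4 : 2 ^ 4 ≤ 2 ^ k := Nat.pow_le_pow_right (by norm_num) (by omega)
      rw [hk] at hle
      nlinarith
    have hcard : Nat.card C = 8 := by
      interval_cases k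
      · exfalso
        rw [pow_zero] at hk
        have : Subsingleton C := (Nat.card_eq_one_iff_unique.mp hk).1
        exact hnc (Subsingleton.elim _ _)
      · exfalso
        rw [pow_one] at hk
        haveI : IsCyclic C := isCyclic_of_prime_card hk
        have hcm : IsMulCommutative C := IsCyclic.isMulCommutative
        exact hnc (hcm.is_comm.comm _ _)
      · exfalso
        have hcm : IsMulCommutative C := IsPGroup.isMulCommutative_of_card_eq_prime_sq hk
        exact hnc (hcm.is_comm.comm _ _)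
      · rw [hk]; norm_num
    exact order_eight hcard ⟨_, _, hnc⟩

end Cfsg.Agent.S3157
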