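import Cfsg.Statements.S3161
import Cfsg.Agent.Lib.InvolChar.Singer5

set_option autoImplicit false
open Cfsg

namespace Cfsg.Agent.S3161

/-- Let Q be a non-abelian finite 2-group admitting commuting automorphisms α of order 2 and ρ of order 2^n − 1, where n ≥ 2, such that the fixed points of α form an elementary abelian subgroup of order 2^n on whose nonidentity elements the group generated by ρ acts transitively. Then Q is isomorphic to a Sylow 2-subgroup of the projective special unitary group of dimension 3 with parameter 2^n (realised over the field with 4^n elements) or of the projective special linear group of dimension 3 over the field with 2^n elements. -/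
theorem result {Q : Type*} [Group Q] [Finite Q] (hQ : IsPGroup 2 Q) (hna : ¬ IsMulCommutative Q) (n : ℕ) (hn : 2 ≤ n)
    (α ρ : MulAut Q) (hα : orderOf α = 2) (hρ : orderOf ρ = 2 ^ n - 1) (hc : Commute α ρ)
    (C : Subgroup Q) (hC : ∀ x : Q, x ∈ C ↔ α x = x) (hCE : Cfsg.IsElementaryAbelian 2 C ∧ Nat.card ↥C = 2 ^ n)
    (htr : ∀ x y : Q, x ∈ C → y ∈ C → x ≠ 1 → y ≠ 1 → ∃ k : ℕ, (ρ ^ k) x = y) :
    (∃ (F : Type) (_ : Field F) (_ : Fintype F), Fintype.card F = 4 ^ n ∧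
        ∃ S : Sylow 2 (Cfsg.PSU 3 F (2 ^ n)), Nonempty (Q ≃* ↥(S : Subgroup (Cfsg.PSU 3 F (2 ^ n))))) ∨
      (∃ (F : Type) (_ : Field F) (_ : Fintype F), Fintype.card F = 2 ^ n ∧
        ∃ S : Sylow 2 (Matrix.ProjectiveSpecialLinearGroup (Fin 3) F), Nonempty (Q ≃* ↥(S : Subgroup (Matrix.ProjectiveSpecialLinearGroup (Fin 3) F)))) := by
  classical
  have hn0 : n ≠ 0 := by omega
  obtain ⟨F, _, _, hF⟩ : ∃ (F : Type) (_ : Field F) (_ : Fintype F), Fintype.card F = 2 ^ n := by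
    haveI : Fact (Nat.Prime 2) := ⟨Nat.prime_two⟩
    have h1 : Nat.card (GaloisField 2 n) = 2 ^ n := GaloisField.card 2 n hn0
    haveI : Finite (GaloisField 2 n) := Nat.finite_of_card_ne_zero (by rw [h1]; positivity)
    letI := Fintype.ofFinite (GaloisField 2 n)
    exact ⟨GaloisField 2 n, inferInstance, inferInstance, by rw [← Nat.card_eq_fintype_card, h1]⟩
  obtain ⟨lam, ψ, L⟩ := Cfsg.Agent.Lib.InvolChar.Singer1.exists_lv hQ n hn hF α ρ hα hρ hc C hC hCE htr
  have h2 : (2 : F) = 0 := L.G.two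
  have h4 : ∃ a₀ : F, a₀ ≠ 0 ∧ a₀ ≠ 1 := by
    by_contra hcon
    push Not at hcon
    have h5 : Fintype.card F ≤ 2 := by
      have h6 : (Finset.univ : Finset F) ⊆ {0, 1} := by
        intro x _
        by_cases hx : x = 0
        · simp [hx]
        · simp [hcon x hx]
      calc Fintype.card F = (Finset.univ : Finset F).card := rfl
        _ ≤ ({0, 1} : Finset F).card := Finset.card_le_card h6
        _ ≤ 2 := Finset.card_le_two
    have h7 : 2 ^ 2 ≤ 2 ^ n := Nat.pow_le_pow_right (by norm_num) hn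
    omega
  have hna' : ∃ x y : Q, x * y ≠ y * x := by
    by_contra hcon
    push Not at hcon
    exact hna ⟨⟨hcon⟩⟩
  obtain ⟨hs, hc'⟩ := Cfsg.Agent.Lib.InvolChar.Singer1.Lv.T_main h4 _ Q α ρ ψ L rfl hna'
  have hlam : lam ≠ 0 := by
    intro h0
    obtain ⟨a₀, ha0, ha1⟩ := h4
    obtain ⟨k, hk⟩ := L.G.gen a₀ ha0
    rcases Nat.eq_zero_or_pos k with rfl | hk0
    · exact ha1 (by simpa using hk.symm)
    · rw [h0, zero_pow (by omega)] at hk
      exact ha0 hk.symm
  have h2n : 2 ≤ 2 ^ n := by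
    calc 2 = 2 ^ 1 := by norm_num
      _ ≤ 2 ^ n := Nat.pow_le_pow_right (by norm_num) (by omega)
  have hodd : Odd (2 ^ n - 1) := by
    have h8 : Even (2 ^ n) := (Nat.even_pow' hn0).2 even_two
    obtain ⟨m, hm⟩ := h8
    exact ⟨m - 1, by omega⟩
  have hlamN : lam ^ (2 ^ n - 1) = 1 := by
    rw [← hF]
    exact FiniteField.pow_card_sub_one_eq_one lam hlam
  have hrN : ∀ x : Q, ((ρ : MulAut Q) ^ (2 ^ n - 1)) x = x := by
    intro x
    rw [← hρ, pow_orderOf_eq_one]
    rfl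
  obtain ⟨p, k, κ₀, C₀, hκ₀, hp, hk, hsurj, hker, hDker, hsq⟩ :=
    L.exists_coords hs hc' hna' hlam (2 ^ n - 1) hodd hlamN hrN
  by_cases hroot : ∃ u : F, u ^ 2 + κ₀ * u + C₀ = 0
  · right
    obtain ⟨p₁, hp₁⟩ := hroot
    obtain ⟨e₁⟩ := Cfsg.Agent.Lib.InvolChar.Singer1.split_case L p k κ₀ C₀ hκ₀ hp hk hsurj hker hDker hsq p₁ hp₁
    obtain ⟨e₂⟩ := Cfsg.Agent.Lib.TwoFusion.Hyp.ut_equiv (F := F)
    have h1 := Cfsg.Agent.Lib.KS71.PSLSylow.isPGroup_Ubar (n := 3) (F := F) Nat.prime_two hF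
    have h3 := Cfsg.Agent.Lib.KS71.PSLSylow.not_dvd_index_Ubar (n := 3) (F := F) Nat.prime_two hF (by omega) (by norm_num)
    haveI : Fact (Nat.Prime 2) := ⟨Nat.prime_two⟩
    exact ⟨F, inferInstance, inferInstance, hF, h1.toSylow h3, ⟨e₁.trans e₂⟩⟩
  · left
    push Not at hroot
    exact Cfsg.Agent.Lib.InvolChar.Singer1.nonsplit_case L p k κ₀ C₀ hκ₀ hp hk hsurj hker hDker hsq n (by omega) hF hroot

end Cfsg.Agent.S3161
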