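import Cfsg.Statements.S3162
import Cfsg.Agent.Lib.TwoFusion.SU3Aut

set_option autoImplicit false
open Cfsg

namespace Cfsg.Agent.S3162

/-- Conjugation by an isomorphism. -/
def autCongr {A B : Type*} [Group A] [Group B] (e : A ≃* B) : MulAut A ≃* MulAut B where
  toFun a := e.symm.trans (a.trans e)
  invFun b := e.trans (b.trans e.symm)
  left_inv a := by
    ext x
    simp
  right_inv b := by
    ext x
    simp
  map_mul' a b := by
    ext x
    simp [MulAut.mul_apply]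



/-- Let S be a Sylow 2-subgroup of the special unitary group of dimension 3 with parameter q = 2^n (n ≥ 2; realised over the field with q² elements). Then the largest normal 2-subgroup of the automorphism group of S is elementary abelian of order 2^(2n²), and the automorphism group has order 2^(2n²) · 2n(q² − 1). -/
theorem result {S : Type*} [Group S] [Finite S] (n : ℕ) (hn : 2 ≤ n) {F : Type*} [Field F] [Fintype F] (hF : Fintype.card F = 4 ^ n)
    (P : Sylow 2 ↥(Cfsg.SU 3 F (2 ^ n))) (hS : Nonempty (S ≃* ↥(P : Subgroup ↥(Cfsg.SU 3 F (2 ^ n))))) :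
    Cfsg.IsElementaryAbelian 2 (Cfsg.pCore 2 (MulAut S)) ∧ Nat.card ↥(Cfsg.pCore 2 (MulAut S)) = 2 ^ (2 * n ^ 2) ∧
      Nat.card (MulAut S) = 2 ^ (2 * n ^ 2) * (2 * n * ((2 ^ n) ^ 2 - 1)) := by
  have hF' : Fintype.card F = (2 ^ n) ^ 2 := by
    rw [hF, ← pow_mul, mul_comm, pow_mul]; norm_num
  haveI : Fact (Fintype.card F = (2 ^ n) ^ 2) := ⟨hF'⟩
  haveI : Fact ((2 : F) = 0) := ⟨by
    have h : ringChar F = 2 := FiniteField.even_card_iff_char_two.mpr (by
      rw [hF']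
      exact Nat.even_iff.mp (Nat.even_pow.mpr ⟨Nat.even_pow.mpr ⟨even_two, by omega⟩, by norm_num⟩))
    have h2 := ringChar.Nat.cast_ringChar (R := F)
    rw [h] at h2
    exact_mod_cast h2⟩
  obtain ⟨e1⟩ := hS
  obtain ⟨e2⟩ := Cfsg.Agent.Lib.TwoFusion.SU3q.nonempty_equiv_SU (F := F) (q := 2 ^ n) rfl (by omega) P
  let e : S ≃* Cfsg.Agent.Lib.SuzukiTwo.PSU3.H F (2 ^ n) := e1.trans e2
  let f : MulAut S ≃* MulAut (Cfsg.Agent.Lib.SuzukiTwo.PSU3.H F (2 ^ n)) := autCongr e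
  have hcore := Cfsg.Agent.Lib.TwoFusion.SU3Aut.pCore_comap f 2
  rw [Cfsg.Agent.Lib.TwoFusion.SU3Aut.pCore_eq (F := F) (q := 2 ^ n)] at hcore
  rw [hcore]
  have hel := Cfsg.Agent.Lib.TwoFusion.SU3Aut.isElementaryAbelian_ker (F := F) (q := 2 ^ n)
  refine ⟨⟨⟨⟨fun a b => ?_⟩⟩, ?_⟩, ?_, ?_⟩
  · apply Subtype.ext
    apply f.injective
    have h := congrArg Subtype.val (hel.1.1.1 ⟨f a.1, a.2⟩ ⟨f b.1, b.2⟩)
    show f (a.1 * b.1) = f (b.1 * a.1)
    rw [map_mul, map_mul]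
    exact h
  · intro a ha
    apply f.injective
    rw [map_pow, map_one]
    exact hel.2 (f a) ha
  · rw [← Cfsg.Agent.Lib.TwoFusion.SU3Aut.card_ker_Θ (F := F) (q := 2 ^ n) rfl]
    exact Nat.card_congr (Equiv.subtypeEquiv f.toEquiv (fun a => Iff.rfl))
  · have h := Cfsg.Agent.Lib.TwoFusion.SU3Aut.card_aut (F := F) (q := 2 ^ n) (n := n) rfl (by omega)
    rw [Nat.card_congr f.toEquiv, h]

end Cfsg.Agent.S3162
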