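import Cfsg.Statements.S3171
import Cfsg.Agent.Lib.M24Data.SylowT
import Cfsg.Agent.Lib.PGroups.Basic

set_option autoImplicit false
open Cfsg

namespace Cfsg.Agent.S3171

open scoped Pointwise
open Cfsg.Agent.Lib.M24Data.SylowT Cfsg.Agent.Lib.Golay.Core Cfsg.Agent.Lib.M24Data.CommTree

section abstractS

variable {S : Type*} [Group S] [Finite S]

/-- The centraliser of an element in a subgroup. -/
def CE (E : Subgroup S) (a : S) : Subgroup S := E ⊓ Subgroup.centralizer {a}

theorem mem_CE {E : Subgroup S} {a x : S} : x ∈ CE E a ↔ x ∈ E ∧ x * a = a * x := by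
  simp [CE, Subgroup.mem_inf, Subgroup.mem_centralizer_singleton_iff]

/-- The hypotheses on the quotient. -/
structure Hyp (E : Subgroup S) : Prop where
  sq : ∀ x ∈ E, x * x = 1
  cardE : Nat.card E = 64
  cardS : Nat.card S = 512
  c1 : ∀ a, a ∉ E → Nat.card (CE E a) ≤ 16
  c2 : ∀ a b, a ∉ E → b ∉ E → a⁻¹ * b ∉ E → Nat.card ↥(CE E a ⊓ CE E b) ≤ 8
  c3 : Nat.card ↥(E ⊓ Subgroup.center S) ≤ 4

theorem Hyp.comm {E : Subgroup S} (h : Hyp E) {x y : S} (hx : x ∈ E) (hy : y ∈ E) : x * y = y * x := by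
  have h1 := h.sq _ (E.mul_mem hx hy)
  have h2 : x⁻¹ = x := inv_eq_of_mul_eq_one_left (h.sq _ hx)
  have h3 : y⁻¹ = y := inv_eq_of_mul_eq_one_left (h.sq _ hy)
  have h4 : (x * y)⁻¹ = x * y := inv_eq_of_mul_eq_one_left h1
  rw [mul_inv_rev, h2, h3] at h4
  exact h4.symm

theorem pick {K L : Subgroup S} (a : S) (h : 2 * Nat.card L < Nat.card K) :
    ∃ b ∈ K, b ∉ L ∧ a⁻¹ * b ∉ L := by
  by_contra hno
  push Not at hno
  have hsub : (K : Set S) ⊆ (L : Set S) ∪ (a • (L : Set S)) := by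
    intro b hb
    by_cases hbL : b ∈ L
    · exact Or.inl hbL
    · right
      have := hno b hb hbL
      exact Set.mem_smul_set_iff_inv_smul_mem.mpr (by simpa using this)
  have hc := Set.ncard_le_ncard hsub (Set.toFinite _)
  have hc2 := Set.ncard_union_le (L : Set S) (a • (L : Set S))
  rw [Set.ncard_smul_set] at hc2
  have e1 : Nat.card K = (K : Set S).ncard := (Nat.card_coe_set_eq _).symm
  have e2 : Nat.card L = (L : Set S).ncard := (Nat.card_coe_set_eq _).symm
  omega

/-- The orbit of the trivial coset under a subgroup. -/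
theorem orbit_facts (A E : Subgroup S) :
    Nat.card A ≤ Nat.card ↥(A ⊓ E) * E.index ∧
      (Nat.card ↥(A ⊓ E) * E.index ≤ Nat.card A → ∀ x : S, ∃ a ∈ A, a⁻¹ * x ∈ E) := by
  classical
  let x0 : S ⧸ E := ((1 : S) : S ⧸ E)
  have hstab : (MulAction.stabilizer ↥A x0).map A.subtype = A ⊓ E := by
    ext y
    constructor
    · rintro ⟨a, ha, rfl⟩
      have h1 : (a : S) • x0 = x0 := ha
      have h2 : ((a : S) : S ⧸ E) = ((1 : S) : S ⧸ E) := by
        have : (a : S) • ((1 : S) : S ⧸ E) = (((a : S) * 1 : S) : S ⧸ E) := rfl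
        rw [mul_one] at this
        rw [← this]
        exact h1
      have h3 : (a : S) ∈ E := by
        have := QuotientGroup.eq.mp h2
        simpa using this
      exact ⟨a.2, h3⟩
    · rintro ⟨h1, h2⟩
      refine ⟨⟨y, h1⟩, ?_, rfl⟩
      show y • x0 = x0
      have h3 : ((y : S) : S ⧸ E) = ((1 : S) : S ⧸ E) := QuotientGroup.eq.mpr (by simpa using h2)
      have : y • ((1 : S) : S ⧸ E) = ((y * 1 : S) : S ⧸ E) := rfl
      rw [mul_one] at this
      rw [this]
      exact h3
  have hcard : Nat.card (MulAction.stabilizer ↥A x0) = Nat.card ↥(A ⊓ E) := by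
    rw [← hstab]
    exact (Subgroup.card_map_of_injective A.subtype_injective).symm
  have hidx := MulAction.index_stabilizer ↥A x0
  have hmul := Subgroup.card_mul_index (MulAction.stabilizer ↥A x0)
  rw [hcard, hidx] at hmul
  have horb : (MulAction.orbit ↥A x0).ncard ≤ E.index := by
    have := Set.ncard_le_ncard (Set.subset_univ (MulAction.orbit ↥A x0)) (Set.toFinite _)
    rwa [Set.ncard_univ] at this
  have hpos : 0 < Nat.card ↥(A ⊓ E) := Nat.card_pos
  refine ⟨?_, fun h x => ?_⟩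
  · rw [← hmul]
    exact Nat.mul_le_mul_left _ horb
  · have h1 : E.index ≤ (MulAction.orbit ↥A x0).ncard := by
      rw [← hmul] at h
      exact Nat.le_of_mul_le_mul_left h hpos
    have h2 : MulAction.orbit ↥A x0 = Set.univ := by
      apply Set.eq_of_subset_of_ncard_le (Set.subset_univ _) _ (Set.toFinite _)
      rw [Set.ncard_univ]
      exact h1
    have h3 : ((x : S) : S ⧸ E) ∈ MulAction.orbit ↥A x0 := by
      rw [h2]
      exact Set.mem_univ _
    obtain ⟨a, ha⟩ := h3
    refine ⟨a.1, a.2, ?_⟩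
    have h4 : (a : S) • ((1 : S) : S ⧸ E) = (((a : S) * 1 : S) : S ⧸ E) := rfl
    rw [mul_one] at h4
    have h5 : (((a : S)) : S ⧸ E) = ((x : S) : S ⧸ E) := by
      rw [← h4]
      exact ha
    exact QuotientGroup.eq.mp h5

theorem index_E {E : Subgroup S} (h : Hyp E) : E.index = 8 := by
  have h1 := Subgroup.card_mul_index E
  rw [h.cardE, h.cardS] at h1
  omega

/-- An abelian subgroup of order 64 is the subgroup `E`. -/
theorem abel_eq {E : Subgroup S} (h : Hyp E) {A : Subgroup S} (hc : ∀ x ∈ A, ∀ y ∈ A, x * y = y * x)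
    (hA : Nat.card A = 64) : A = E := by
  by_contra hne
  have hex : ∃ a ∈ A, a ∉ E := by
    by_contra hno
    push Not at hno
    exact hne (Subgroup.eq_of_le_of_card_ge hno (by rw [h.cardE, hA]))
  obtain ⟨a, haA, haE⟩ := hex
  have hD1 : A ⊓ E ≤ CE E a := fun x hx => mem_CE.mpr ⟨hx.2, hc x hx.1 a haA⟩
  have hcD1 : Nat.card ↥(A ⊓ E) ≤ 16 := (Subgroup.card_le_of_le hD1).trans (h.c1 a haE)
  obtain ⟨b, hbA, hb1, hb2⟩ := pick (K := A) (L := A ⊓ E) a (by omega)
  have hbE : b ∉ E := fun hbE => hb1 ⟨hbA, hbE⟩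
  have habE : a⁻¹ * b ∉ E := fun hE => hb2 ⟨A.mul_mem (A.inv_mem haA) hbA, hE⟩
  have hD2 : A ⊓ E ≤ CE E a ⊓ CE E b := fun x hx =>
    ⟨hD1 hx, mem_CE.mpr ⟨hx.2, hc x hx.1 b hbA⟩⟩
  have hcD2 : Nat.card ↥(A ⊓ E) ≤ 8 := (Subgroup.card_le_of_le hD2).trans (h.c2 a b haE hbE habE)
  obtain ⟨f1, f2⟩ := orbit_facts A E
  rw [index_E h, hA] at f1 f2
  have hall := f2 (by omega)
  have hD3 : A ⊓ E ≤ E ⊓ Subgroup.center S := fun d hd => by
    refine ⟨hd.2, Subgroup.mem_center_iff.mpr fun x => ?_⟩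
    obtain ⟨a', ha', he⟩ := hall x
    have e1 : x = a' * (a'⁻¹ * x) := by group
    rw [e1]
    have c1 := hc d hd.1 a' ha'
    have c2 := h.comm hd.2 he
    calc a' * (a'⁻¹ * x) * d = a' * ((a'⁻¹ * x) * d) := by rw [mul_assoc]
      _ = a' * (d * (a'⁻¹ * x)) := by rw [c2]
      _ = (a' * d) * (a'⁻¹ * x) := by rw [mul_assoc]
      _ = (d * a') * (a'⁻¹ * x) := by rw [c1]
      _ = d * (a' * (a'⁻¹ * x)) := by rw [mul_assoc]
  have hcD3 := (Subgroup.card_le_of_le hD3).trans h.c3
  omega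

/-- The centre of a maximal subgroup. -/
theorem coatom_bound {E : Subgroup S} (h : Hyp E) {M : Subgroup S} (hM : IsCoatom M) :
    Nat.card (Subgroup.center ↥M) ≤ 8 := by
  have hfp : Fact (Nat.Prime 2) := ⟨by norm_num⟩
  have hp : IsPGroup 2 S := IsPGroup.of_card (n := 9) (by rw [h.cardS]; norm_num)
  have hidx := Cfsg.Agent.Lib.PGroups.Basic.index_eq_of_isCoatom hp hM
  have hnorm := Cfsg.Agent.Lib.PGroups.Basic.normal_of_isCoatom hp hM
  have hMc : Nat.card M = 256 := by
    have := Subgroup.card_mul_index M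
    rw [hidx, h.cardS] at this
    omega
  let Z : Subgroup S := (Subgroup.center ↥M).map M.subtype
  have hZc : Nat.card Z = Nat.card (Subgroup.center ↥M) :=
    Subgroup.card_map_of_injective M.subtype_injective
  rw [← hZc]
  have hZ : ∀ c ∈ Z, c ∈ M ∧ ∀ y ∈ M, c * y = y * c := by
    rintro _ ⟨m, hm, rfl⟩
    refine ⟨m.2, fun y hy => ?_⟩
    have e := Subgroup.mem_center_iff.mp hm ⟨y, hy⟩
    exact (congrArg Subtype.val e).symm
  by_cases hEM : E ≤ M
  · have hex : ∃ a ∈ M, a ∉ E := by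
      by_contra hno
      push Not at hno
      have := Subgroup.card_le_of_le hno
      have h1 := h.cardE
      omega
    obtain ⟨a, haM, haE⟩ := hex
    obtain ⟨b, hbM, hb1, hb2⟩ := pick (K := M) (L := E) a (by rw [h.cardE, hMc]; norm_num)
    have hsub : Z ≤ CE E a ⊓ CE E b := fun c hc => by
      obtain ⟨hcM, hcc⟩ := hZ c hc
      have hcE : c ∈ E := by
        by_contra hn
        have hle : E ≤ CE E c := fun e he => mem_CE.mpr ⟨he, (hcc e (hEM he)).symm⟩
        have h1 := (Subgroup.card_le_of_le hle).trans (h.c1 c hn)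
        rw [h.cardE] at h1
        omega
      exact ⟨mem_CE.mpr ⟨hcE, hcc a haM⟩, mem_CE.mpr ⟨hcE, hcc b hbM⟩⟩
    exact (Subgroup.card_le_of_le hsub).trans (h.c2 a b haE hb1 hb2)
  · have hsup : M ⊔ E = ⊤ := by
      apply hM.2
      refine lt_of_le_of_ne le_sup_left ?_
      intro he
      exact hEM (by rw [he]; exact le_sup_right)
    have hrel : M.relIndex E ∣ 2 := by
      rw [← hidx]
      exact Subgroup.relIndex_dvd_index_of_normal M E
    let K : Subgroup S := (M.subgroupOf E).map E.subtype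
    have hKc : Nat.card K = Nat.card (M.subgroupOf E) :=
      Subgroup.card_map_of_injective E.subtype_injective
    have hKmem : ∀ x ∈ K, x ∈ E ∧ x ∈ M := by
      rintro _ ⟨y, hy, rfl⟩
      exact ⟨y.2, hy⟩
    have hK32 : 32 ≤ Nat.card K := by
      rw [hKc]
      have h1 := Subgroup.card_mul_index (M.subgroupOf E)
      have h2 : (M.subgroupOf E).index = M.relIndex E := rfl
      have h3 : M.relIndex E ≤ 2 := Nat.le_of_dvd (by norm_num) hrel
      rw [h2, h.cardE] at h1
      have h4 : Nat.card (M.subgroupOf E) * M.relIndex E ≤ Nat.card (M.subgroupOf E) * 2 :=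
        Nat.mul_le_mul_left _ h3
      omega
    have hsub : Z ≤ E ⊓ Subgroup.center S := fun c hc => by
      obtain ⟨hcM, hcc⟩ := hZ c hc
      have hcE : c ∈ E := by
        by_contra hn
        have hle : K ≤ CE E c := fun e he =>
          mem_CE.mpr ⟨(hKmem e he).1, (hcc e (hKmem e he).2).symm⟩
        have h1 := (Subgroup.card_le_of_le hle).trans (h.c1 c hn)
        omega
      refine ⟨hcE, Subgroup.mem_center_iff.mpr fun x => ?_⟩
      have hle : M ⊔ E ≤ Subgroup.centralizer {c} := by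
        refine sup_le (fun y hy => ?_) (fun y hy => ?_)
        · exact Subgroup.mem_centralizer_singleton_iff.mpr (hcc y hy).symm
        · exact Subgroup.mem_centralizer_singleton_iff.mpr (h.comm hy hcE)
      have hx : x ∈ Subgroup.centralizer {c} := hle (by rw [hsup]; exact Subgroup.mem_top x)
      exact Subgroup.mem_centralizer_singleton_iff.mp hx
    exact (Subgroup.card_le_of_le hsub).trans (h.c3.trans (by norm_num))

end abstractS

theorem card_le_list {S : Type*} [Group S] [Finite S] (K : Subgroup S) (l : List ℕ) (f : ℕ → S)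
    (h : ∀ x ∈ K, ∃ P ∈ l, f P = x) : Nat.card K ≤ l.length := by
  classical
  have hsub : (K : Set S) ⊆ ↑(l.map f).toFinset := by
    intro x hx
    obtain ⟨P, hP, rfl⟩ := h x hx
    simp only [List.coe_toFinset, List.mem_map, Set.mem_ofPred_eq]
    exact ⟨P, hP, rfl⟩
  have h1 := Set.ncard_le_ncard hsub (Set.toFinite _)
  rw [Set.ncard_coe_finset] at h1
  have h2 := List.toFinset_card_le (l.map f)
  rw [List.length_map] at h2
  show Nat.card (K : Set S) ≤ _
  rw [Nat.card_coe_set_eq]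
  omega

section concrete

variable {S : Type*} [Group S] [Finite S] (π : ↥P0 →* S) (hs : Function.Surjective π)
  (hk : π.ker = Subgroup.center ↥P0)

include hk in
theorem pi_z : π zT = 1 := by
  have : zT ∈ π.ker := by
    rw [hk]
    exact mem_center_iff.mpr (Or.inr rfl)
  exact this

include hk in
theorem pi_rep {u : S} (hu : u ∈ Qs.map π) : ∃ y ∈ Qreps, π (toT y) = u := by
  obtain ⟨x, hx, rfl⟩ := hu
  obtain ⟨y, hy, h⟩ := rep_of_mem hx
  refine ⟨y, hy, ?_⟩
  rcases h with rfl | h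
  · rfl
  · rw [h, map_mul, pi_z π hk, one_mul]

include hk in
theorem comm_test {r y : ℕ} (hr : r ∈ L1024) (hy : y ∈ L1024)
    (h : π (toT y) * π (toT r) = π (toT r) * π (toT y)) : testR r y = true := by
  apply test_of hr hy
  have h1 : (toT y * toT r)⁻¹ * (toT r * toT y) ∈ π.ker := by
    rw [MonoidHom.mem_ker, map_mul, map_inv, map_mul, map_mul, h, inv_mul_cancel]
  rw [hk] at h1
  rcases mem_center_iff.mp h1 with h2 | h2
  · left
    rw [inv_mul_eq_one] at h2
    exact h2.symm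
  · right
    have h3 : toT r * toT y = (toT y * toT r) * zT := by
      rw [← h2]
      group
    rw [h3, zT_comm]

include hs hk in
theorem hyp_of_pi : Hyp (Qs.map π) := by
  set E := Qs.map π with hE
  have hsq : ∀ x ∈ E, x * x = 1 := by
    rintro _ ⟨q, hq, rfl⟩
    rw [← map_mul]
    have : q * q ∈ π.ker := by
      rw [hk]
      exact Qs_sq hq
    exact this
  have hcomm : ∀ {x y : S}, x ∈ E → y ∈ E → x * y = y * x := by
    intro x y hx hy
    have h1 := hsq _ (E.mul_mem hx hy)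
    have h2 : x⁻¹ = x := inv_eq_of_mul_eq_one_left (hsq _ hx)
    have h3 : y⁻¹ = y := inv_eq_of_mul_eq_one_left (hsq _ hy)
    have h4 : (x * y)⁻¹ = x * y := inv_eq_of_mul_eq_one_left h1
    rw [mul_inv_rev, h2, h3] at h4
    exact h4.symm
  have hcE : Nat.card E = 64 := by
    let f : ↥Qs →* S := π.comp Qs.subtype
    have hr : f.range = E := by
      ext u
      constructor
      · rintro ⟨y, rfl⟩
        exact ⟨y.1, y.2, rfl⟩
      · rintro ⟨y, hy, rfl⟩
        exact ⟨⟨y, hy⟩, rfl⟩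
    have h1 := Subgroup.index_ker f
    have h2 := Subgroup.card_mul_index f.ker
    have hkf : f.ker.map Qs.subtype = Subgroup.center ↥P0 := by
      ext x
      constructor
      · rintro ⟨y, hy, rfl⟩
        rw [← hk]
        exact hy
      · intro hx
        refine ⟨⟨x, center_le_Qs hx⟩, ?_, rfl⟩
        show π x = 1
        rw [← MonoidHom.mem_ker, hk]
        exact hx
    have h3 : Nat.card f.ker = 2 := by
      rw [← card_center, ← hkf]
      exact (Subgroup.card_map_of_injective Qs.subtype_injective).symm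
    rw [hr] at h1
    rw [h1, h3, card_Qs] at h2
    omega
  have hcS : Nat.card S = 512 := by
    have h1 := Subgroup.index_ker π
    have h2 := Subgroup.card_mul_index π.ker
    rw [MonoidHom.range_eq_top.mpr hs, Subgroup.card_top] at h1
    rw [h1, hk, card_center, card_P0] at h2
    omega
  -- reduction of an element outside `E` to a representative
  have hred : ∀ a, a ∉ E → ∃ r ∈ Rp, ∃ q ∈ Ql, a = π (toT r) * π (toT q) := by
    intro a ha
    obtain ⟨x, rfl⟩ := hs a
    obtain ⟨r, hr, q, hq, rfl⟩ := fac x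
    rcases List.mem_cons.mp hr with rfl | hr'
    · exfalso
      apply ha
      rw [toT_idN, one_mul]
      exact ⟨_, toT_mem_Qs hq, rfl⟩
    · exact ⟨r, hr', q, hq, map_mul _ _ _⟩
  have hpiq : ∀ {q}, q ∈ Ql → π (toT q) ∈ E := fun hq => ⟨_, toT_mem_Qs hq, rfl⟩
  have hCE : ∀ {r q}, q ∈ Ql → ∀ u ∈ CE E (π (toT r) * π (toT q)),
      u ∈ E ∧ u * π (toT r) = π (toT r) * u := by
    intro r q hq u hu
    obtain ⟨hu1, hu2⟩ := mem_CE.mp hu
    refine ⟨hu1, ?_⟩
    have h1 := hcomm hu1 (hpiq hq)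
    apply mul_right_cancel (b := π (toT q))
    calc u * π (toT r) * π (toT q) = u * (π (toT r) * π (toT q)) := by rw [mul_assoc]
      _ = π (toT r) * π (toT q) * u := hu2
      _ = π (toT r) * (π (toT q) * u) := by rw [mul_assoc]
      _ = π (toT r) * (u * π (toT q)) := by rw [h1]
      _ = π (toT r) * u * π (toT q) := by rw [mul_assoc]
  have hRL : ∀ {r}, r ∈ Rp → r ∈ L1024 := fun hr => Rl_mem _ (List.mem_cons_of_mem _ hr)
  have hQL : ∀ {y}, y ∈ Qreps → y ∈ L1024 := fun hy => Ql_mem _ (Qreps_mem _ hy)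
  refine ⟨hsq, hcE, hcS, ?_, ?_, ?_⟩
  · intro a ha
    obtain ⟨r, hr, q, hq, rfl⟩ := hred a ha
    have h1 := card_le_list (CE E (π (toT r) * π (toT q))) (Qreps.filter (testR r)) (fun P => π (toT P)) (by
      intro u hu
      obtain ⟨hu1, hu2⟩ := hCE hq u hu
      obtain ⟨y, hy, rfl⟩ := pi_rep π hk hu1
      exact ⟨y, List.mem_filter.mpr ⟨hy, comm_test π hk (hRL hr) (hQL hy) hu2⟩, rfl⟩)
    exact h1.trans (Nat.le_of_ble_eq_true (allL_iff.mp T_R1 r hr))
  · intro a b ha hb hab
    obtain ⟨r, hr, q, hq, rfl⟩ := hred a ha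
    obtain ⟨r', hr', q', hq', rfl⟩ := hred b hb
    have hne : r ≠ r' := by
      rintro rfl
      apply hab
      have e : (π (toT r) * π (toT q))⁻¹ * (π (toT r) * π (toT q')) = (π (toT q))⁻¹ * π (toT q') := by group
      rw [e]
      exact E.mul_mem (E.inv_mem (hpiq hq)) (hpiq hq')
    have h1 := card_le_list (CE E (π (toT r) * π (toT q)) ⊓ CE E (π (toT r') * π (toT q')))
      (Qreps.filter (fun y => testR r y && testR r' y)) (fun P => π (toT P)) (by
      rintro u ⟨hu, hu'⟩
      obtain ⟨hu1, hu2⟩ := hCE hq u hu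
      obtain ⟨-, hu3⟩ := hCE hq' u hu'
      obtain ⟨y, hy, rfl⟩ := pi_rep π hk hu1
      refine ⟨y, List.mem_filter.mpr ⟨hy, ?_⟩, rfl⟩
      simp only [Bool.and_eq_true]
      exact ⟨comm_test π hk (hRL hr) (hQL hy) hu2, comm_test π hk (hRL hr') (hQL hy) hu3⟩)
    have h2 := allL_iff.mp (allL_iff.mp T_R2 r hr) r' hr'
    simp only [Bool.or_eq_true] at h2
    rcases h2 with h2 | h2
    · exact absurd (Nat.eq_of_beq_eq_true h2) hne
    · exact h1.trans (Nat.le_of_ble_eq_true h2)
  · have h1 := card_le_list (E ⊓ Subgroup.center S)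
      (Qreps.filter (fun y => allL (fun r => testR r y) Rp)) (fun P => π (toT P)) (by
      rintro u ⟨hu1, hu2⟩
      obtain ⟨y, hy, rfl⟩ := pi_rep π hk hu1
      refine ⟨y, List.mem_filter.mpr ⟨hy, allL_iff.mpr fun r hr => ?_⟩, rfl⟩
      exact comm_test π hk (hRL hr) (hQL hy) (Subgroup.mem_center_iff.mp hu2 _).symm)
    exact h1.trans (Nat.le_of_ble_eq_true T_R3)

end concrete


/-- Let P be a Sylow 2-subgroup of the Mathieu group of degree 24 and S the quotient of P by its centre. Then the centre of every maximal subgroup of S has order at most 8; S has an elementary abelian subgroup of order 64; and S has only one abelian subgroup of order 64. -/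
theorem result (P : Sylow 2 ↥Cfsg.M24) :
    (∀ M : Subgroup (↥(P : Subgroup ↥Cfsg.M24) ⧸ Subgroup.center ↥(P : Subgroup ↥Cfsg.M24)), IsCoatom M →
        Nat.card ↥(Subgroup.center ↥M) ≤ 8) ∧
      (∃ A : Subgroup (↥(P : Subgroup ↥Cfsg.M24) ⧸ Subgroup.center ↥(P : Subgroup ↥Cfsg.M24)),
        Cfsg.IsElementaryAbelian 2 A ∧ Nat.card ↥A = 64) ∧
      ∀ A B : Subgroup (↥(P : Subgroup ↥Cfsg.M24) ⧸ Subgroup.center ↥(P : Subgroup ↥Cfsg.M24)),
        IsMulCommutative ↥A → Nat.card ↥A = 64 → IsMulCommutative ↥B → Nat.card ↥B = 64 → A = B := by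
  have hfp : Fact (Nat.Prime 2) := ⟨by norm_num⟩
  let ι : ↥P0 ≃* ↥(P : Subgroup ↥Cfsg.M24) := Sylow.equiv (Sylow.ofCard P0 card_P0') P
  let π : ↥P0 →* (↥(P : Subgroup ↥Cfsg.M24) ⧸ Subgroup.center ↥(P : Subgroup ↥Cfsg.M24)) :=
    (QuotientGroup.mk' (Subgroup.center ↥(P : Subgroup ↥Cfsg.M24))).comp ι.toMonoidHom
  have hs : Function.Surjective π := (QuotientGroup.mk'_surjective _).comp ι.surjective
  have hk : π.ker = Subgroup.center ↥P0 := by
    ext x
    rw [MonoidHom.mem_ker]
    have e : π x = 1 ↔ ι x ∈ Subgroup.center ↥(P : Subgroup ↥Cfsg.M24) := QuotientGroup.eq_one_iff _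
    rw [e, Subgroup.mem_center_iff, Subgroup.mem_center_iff]
    constructor
    · intro h y
      apply ι.injective
      rw [map_mul, map_mul]
      exact h (ι y)
    · intro h y
      obtain ⟨y', rfl⟩ := ι.surjective y
      rw [← map_mul, ← map_mul, h]
  have H := hyp_of_pi π hs hk
  refine ⟨fun M hM => coatom_bound H hM, ⟨Qs.map π, ⟨?_, ?_⟩, H.cardE⟩, fun A B hA hA64 hB hB64 => ?_⟩
  · exact ⟨⟨fun x y => Subtype.ext (H.comm x.2 y.2)⟩⟩
  · intro a ha
    rw [pow_two]
    exact H.sq a ha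
  · have h1 := abel_eq H (A := A) (fun x hx y hy => congrArg Subtype.val (hA.is_comm.comm ⟨x, hx⟩ ⟨y, hy⟩)) hA64
    have h2 := abel_eq H (A := B) (fun x hx y hy => congrArg Subtype.val (hB.is_comm.comm ⟨x, hx⟩ ⟨y, hy⟩)) hB64
    exact h1.trans h2.symm

end Cfsg.Agent.S3171
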