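import Cfsg.Statements.S3174
import Cfsg.Agent.Lib.InvolChar.RuSylow3

set_option autoImplicit false
open Cfsg

namespace Cfsg.Agent.S3174

open Cfsg.Agent.Lib.InvolChar.RuSylow

/-- Let T be a finite 2-group of order at least 2^14 in which the fourth term of the upper central series has order 16. Let W be the centralizer in T of the third term Z₃(T), and suppose the Frattini subgroup of W has order at most 8 and lies in every subgroup of W of index at most 16. Then T has order exactly 2^14; the derived subgroup of W and the Frattini subgroup of W both equal Z₃(T), which is elementary abelian of order 8; the centre of W has order 8; W is normal in T with quotient dihedral of order 8; and W modulo its derived subgroup is elementary abelian of order 2^8. -/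
theorem result {T : Type*} [Group T] [Finite T]
    (hT : IsPGroup 2 T) (ha : 2 ^ 14 ≤ Nat.card T) (hb : Nat.card ↥(Subgroup.upperCentralSeries T 4) = 16)
    (W : Subgroup T) (hW : W = Subgroup.centralizer ((Subgroup.upperCentralSeries T 3 : Subgroup T) : Set T))
    (hc : Nat.card ↥(frattini ↥W) ≤ 8) (hd : ∀ U : Subgroup ↥W, U.index ≤ 16 → frattini ↥W ≤ U) :
    Nat.card T = 2 ^ 14 ∧
      (commutator ↥W).map W.subtype = Subgroup.upperCentralSeries T 3 ∧
      (frattini ↥W).map W.subtype = Subgroup.upperCentralSeries T 3 ∧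
      Nat.card ↥(Subgroup.center ↥W) = 8 ∧
      Nat.card ↥(Subgroup.upperCentralSeries T 3) = 8 ∧ (∀ z ∈ Subgroup.upperCentralSeries T 3, z ^ 2 = 1) ∧
      (∃ (_ : W.Normal), Nonempty (T ⧸ W ≃* DihedralGroup 4)) ∧
      Nat.card (↥W ⧸ commutator ↥W) = 2 ^ 8 ∧ (∀ x : ↥W ⧸ commutator ↥W, x ^ 2 = 1) := by
  have h : Hyp W := ⟨hT, ha, hb, hW, hc, hd⟩
  haveI hWn : W.Normal := h.normal
  obtain ⟨z, u, v, a, b, g⟩ := h.exists_gens
  have hcomm := h.commutator_eq
  have c3 := h.card_upper' (i := 3) (by omega)
  refine ⟨h.counts.2.2.2, by rw [hcomm]; exact h.map_frattini, h.map_frattini, ?_, c3, ?_, ?_, ?_, ?_⟩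
  · have e : Nat.card ↥(Subgroup.center ↥W) = Nat.card ↥((Subgroup.center ↥W).map W.subtype) :=
      Nat.card_congr (Subgroup.equivMapOfInjective _ _ W.subtype_injective).toEquiv
    rw [e, center_eq h g, c3]
    norm_num
  · intro t ht
    exact h.sq_Z3 ht
  · exact ⟨hWn, g.dihedral h⟩
  · show (commutator ↥W).index = 2 ^ 8
    rw [hcomm]
    exact h.counts.2.1
  · intro x
    obtain ⟨y, rfl⟩ := QuotientGroup.mk_surjective x
    haveI : Fact (Nat.Prime 2) := ⟨Nat.prime_two⟩
    have : y ^ 2 ∈ commutator ↥W := by
      rw [hcomm]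
      exact h.sq_mem y
    have h2 := (QuotientGroup.eq_one_iff (y ^ 2)).mpr this
    simpa using h2

end Cfsg.Agent.S3174
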