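import Cfsg.Statements.S3175
import Cfsg.Agent.Lib.InvolChar.RuSylow4

set_option autoImplicit false
open Cfsg

namespace Cfsg.Agent.S3175

open Cfsg.Agent.Lib.InvolChar.RuSylow
open scoped Pointwise

/-- Let G be a finite group whose Sylow 2-subgroup T has order at least 2^14 and whose upper central series has fourth term of order 16; let W be the centralizer in T of the third term, and suppose the Frattini subgroup of W has order at most 8 and lies in every subgroup of W of index at most 16. Then the normalizer of T in G has a normal 2-complement, and W is weakly closed in T with respect to G. -/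
theorem result {G : Type*} [Group G] [Finite G]
    (T : Sylow 2 G) (ha : 2 ^ 14 ≤ Nat.card ↥(T : Subgroup G))
    (hb : Nat.card ↥(Subgroup.upperCentralSeries ↥(T : Subgroup G) 4) = 16)
    (W : Subgroup ↥(T : Subgroup G))
    (hW : W = Subgroup.centralizer ((Subgroup.upperCentralSeries ↥(T : Subgroup G) 3 : Subgroup ↥(T : Subgroup G)) : Set ↥(T : Subgroup G)))
    (hc : Nat.card ↥(frattini ↥W) ≤ 8)
    (hd : ∀ U : Subgroup ↥W, U.index ≤ 16 → frattini ↥W ≤ U) :
    Cfsg.HasNormalPComplement 2 ↥(Subgroup.normalizer ((T : Subgroup G) : Set G)) ∧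
      Cfsg.IsWeaklyClosed (W.map (T : Subgroup G).subtype) (T : Subgroup G) := by
  classical
  haveI : Fact (Nat.Prime 2) := ⟨Nat.prime_two⟩
  have hT : IsPGroup 2 ↥(T : Subgroup G) := T.isPGroup'
  have h : Hyp W := ⟨hT, ha, hb, hW, hc, hd⟩
  haveI := h.normal
  constructor
  · have hTN : (T : Subgroup G) ≤ Subgroup.normalizer ((T : Subgroup G) : Set G) :=
      Subgroup.le_normalizer
    let P : Sylow 2 ↥(Subgroup.normalizer ((T : Subgroup G) : Set G)) := T.subtype hTN
    have hPc : (P : Subgroup ↥(Subgroup.normalizer ((T : Subgroup G) : Set G))) =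
        (T : Subgroup G).subgroupOf (Subgroup.normalizer ((T : Subgroup G) : Set G)) :=
      Sylow.coe_subtype _ hTN
    haveI hPn : (P : Subgroup ↥(Subgroup.normalizer ((T : Subgroup G) : Set G))).Normal := by
      rw [hPc]
      exact Subgroup.normal_in_normalizer
    have hcop : Nat.Coprime (Nat.card ↥(P : Subgroup ↥(Subgroup.normalizer ((T : Subgroup G) : Set G))))
        (P : Subgroup ↥(Subgroup.normalizer ((T : Subgroup G) : Set G))).index := P.card_coprime_index
    obtain ⟨K, hK⟩ := Subgroup.exists_left_complement'_of_coprime hcop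
    refine ⟨P, K, ?_, hK⟩
    have hoddK : Odd (Nat.card K) := by
      have h1 : (P : Subgroup ↥(Subgroup.normalizer ((T : Subgroup G) : Set G))).index = Nat.card K :=
        hK.index_eq_card
      have h2 := P.not_dvd_index
      rw [h1] at h2
      exact Nat.odd_iff.mpr (by omega)
    have hcent : ∀ k ∈ K, ∀ t ∈ (P : Subgroup ↥(Subgroup.normalizer ((T : Subgroup G) : Set G))),
        k * t = t * k := by
      intro k hk t ht
      have hkodd : Odd (orderOf k) := by
        have : orderOf (⟨k, hk⟩ : K) ∣ Nat.card K := orderOf_dvd_natCard _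
        have e : orderOf (⟨k, hk⟩ : K) = orderOf k := Subgroup.orderOf_mk k hk
        rw [e] at this
        exact Odd.of_dvd_nat hoddK this
      have hα : ((T : Subgroup G).normalizerMonoidHom k) ^ (orderOf k) = 1 := by
        rw [← map_pow, pow_orderOf_eq_one, map_one]
      have h1 := aut_eq_one h _ hkodd hα
      have h2 : k ∈ ((T : Subgroup G).normalizerMonoidHom).ker := h1
      rw [Subgroup.normalizerMonoidHom_ker, Subgroup.mem_subgroupOf, Subgroup.mem_centralizer_iff] at h2
      rw [hPc, Subgroup.mem_subgroupOf] at ht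
      exact Subtype.ext (h2 _ ht).symm
    constructor
    intro k hk n
    have hn : n ∈ ((K : Subgroup ↥(Subgroup.normalizer ((T : Subgroup G) : Set G))) : Set ↥(Subgroup.normalizer ((T : Subgroup G) : Set G))) * (((P : Subgroup ↥(Subgroup.normalizer ((T : Subgroup G) : Set G)))) : Set ↥(Subgroup.normalizer ((T : Subgroup G) : Set G))) := by
      rw [hK.mul_eq]
      trivial
    obtain ⟨k₀, hk₀, t, ht, rfl⟩ := hn
    have e : k₀ * t * k * (k₀ * t)⁻¹ = k₀ * (t * k) * t⁻¹ * k₀⁻¹ := by group
    rw [e, ← hcent k hk t ht]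
    have e2 : k₀ * (k * t) * t⁻¹ * k₀⁻¹ = k₀ * k * k₀⁻¹ := by group
    rw [e2]
    exact K.mul_mem (K.mul_mem hk₀ hk) (K.inv_mem hk₀)
  · refine ⟨Subgroup.map_subtype_le W, ?_⟩
    intro g hg
    have hmem : ∀ x : ↥W, g * ((x : ↥(T : Subgroup G)) : G) * g⁻¹ ∈ (T : Subgroup G) := by
      intro x
      apply hg
      exact ⟨_, ⟨x, x.2, rfl⟩, rfl⟩
    let φ : ↥W →* ↥(T : Subgroup G) :=
      ((MulAut.conj g).toMonoidHom.comp ((T : Subgroup G).subtype.comp W.subtype)).codRestrict _ hmem
    have hφ : ∀ x : ↥W, ((φ x : ↥(T : Subgroup G)) : G) = g * ((x : ↥(T : Subgroup G)) : G) * g⁻¹ :=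
      fun _ => rfl
    have hinj : Function.Injective φ := by
      intro x y hxy
      have h1 := congrArg (Subtype.val) hxy
      rw [hφ, hφ] at h1
      have h2 : ((x : ↥(T : Subgroup G)) : G) = ((y : ↥(T : Subgroup G)) : G) :=
        mul_left_cancel (mul_right_cancel h1)
      exact Subtype.ext (Subtype.ext h2)
    have hrange := h.range_eq φ hinj
    ext y
    constructor
    · rintro ⟨_, ⟨x, hx, rfl⟩, rfl⟩
      have : φ ⟨x, hx⟩ ∈ W := hrange.le ⟨_, rfl⟩
      exact ⟨φ ⟨x, hx⟩, this, rfl⟩
    · rintro ⟨t, ht, rfl⟩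
      have : t ∈ φ.range := hrange.ge ht
      obtain ⟨x, rfl⟩ := this
      exact ⟨_, ⟨x, x.2, rfl⟩, rfl⟩

end Cfsg.Agent.S3175
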