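import Cfsg.Statements.S3178
import Cfsg.Agent.Lib.InvolChar.Cyclic2
import Cfsg.Agent.Lib.InvolChar.TransferTwo
import Cfsg.Agent.Lib.Transfer.Basic
import Cfsg.Agent.Lib.SolvStruct.Basic

set_option autoImplicit false
open Cfsg
open Cfsg.Agent.Lib.InvolChar.Cyclic2 Cfsg.Agent.Lib.InvolChar.TransferTwo

namespace Cfsg.Agent.S3178

variable {G : Type*} [Group G]

/-- An odd order element normalizing an abelian 2-subgroup and fixing all its involutions centralizes it. -/
private lemma centralizes_of_fix_involutions [Finite G] (M : Subgroup G) (hMc : ∀ x ∈ M, ∀ y ∈ M, x * y = y * x)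
    (w : G) (hw : Odd (orderOf w)) (hnorm : ∀ y ∈ M, w * y * w⁻¹ ∈ M) (hfix : ∀ u ∈ M, u * u = 1 → w * u * w⁻¹ = u) :
    ∀ k : ℕ, ∀ y ∈ M, y ^ 2 ^ k = 1 → w * y * w⁻¹ = y := by
  intro k
  induction k with
  | zero =>
    intro y _ hy
    rw [pow_zero, pow_one] at hy
    rw [hy]; group
  | succ k ih =>
    intro y hy hyk
    have h1 : w * (y * y) * w⁻¹ = y * y := by
      apply ih _ (M.mul_mem hy hy)
      rw [← pow_two, ← pow_mul, ← pow_succ']
      exact hyk
    set y' := w * y * w⁻¹ with hy'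
    have hy'M : y' ∈ M := hnorm y hy
    have h2 : y' * y' = y * y := by
      rw [← h1, hy']; group
    set u := y⁻¹ * y' with hu
    have huM : u ∈ M := M.mul_mem (M.inv_mem hy) hy'M
    have huu : u * u = 1 := by
      have hc : y' * y⁻¹ = y⁻¹ * y' := hMc _ hy'M _ (M.inv_mem hy)
      calc u * u = y⁻¹ * (y' * y⁻¹) * y' := by rw [hu]; group
        _ = y⁻¹ * (y⁻¹ * y') * y' := by rw [hc]
        _ = (y⁻¹ * y⁻¹) * (y' * y') := by group
        _ = 1 := by rw [h2]; group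
    have h3 : w * y * w⁻¹ = y * u := by rw [hu, ← hy']; group
    have h4 : w * u = u * w := by
      have := hfix u huM huu
      calc w * u = w * u * w⁻¹ * w := by group
        _ = u * w := by rw [this]
    have h5 : u ^ orderOf w = 1 :=
      pow_eq_one_of_conj_mul h3 h4 (by rw [pow_orderOf_eq_one]; group)
    obtain ⟨t, ht⟩ := hw
    have h6 : u = 1 := by
      rw [ht, pow_succ, pow_mul, pow_two, huu, one_pow, one_mul] at h5
      exact h5
    calc y' = y * u := h3
      _ = y := by rw [h6, mul_one]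

/-- the concrete computations with the modular group -/
private structure Modular (a b : G) (t : ℕ) : Prop where
  hao : orderOf a = 2 ^ (t + 3)
  hbo : orderOf b = 2
  hrel : b * a * b⁻¹ = a ^ (2 ^ (t + 2) + 1)

namespace Modular

variable {a b : G} {t : ℕ} (h : Modular a b t)
include h

lemma bb : b * b = 1 := by rw [← pow_two, ← h.hbo, pow_orderOf_eq_one]

lemma binv : b⁻¹ = b := inv_eq_of_mul_eq_one_left h.bb

lemma zpow_eq_one_iff (e : ℤ) : a ^ e = 1 ↔ (2 : ℤ) ^ (t + 3) ∣ e := by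
  rw [← orderOf_dvd_iff_zpow_eq_one, h.hao]
  push_cast
  rfl

lemma conj_zpow (e : ℤ) : b * a ^ e * b⁻¹ = a ^ (e * (2 ^ (t + 2) + 1)) := by
  have h1 := map_zpow (MulAut.conj b) a e
  simp only [MulAut.conj_apply] at h1
  rw [h1, h.hrel, ← zpow_natCast, ← zpow_mul, mul_comm]
  push_cast
  rfl

lemma b_comm_even (i : ℤ) : b * a ^ (2 * i) = a ^ (2 * i) * b := by
  have h1 := h.conj_zpow (2 * i)
  have h2 : a ^ (2 * i * (2 ^ (t + 2) + 1)) = a ^ (2 * i) := by
    have e : 2 * i * (2 ^ (t + 2) + 1) = 2 * i + (2 : ℤ) ^ (t + 3) * i := by ring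
    have h3 : a ^ ((2 : ℤ) ^ (t + 3)) = 1 := (h.zpow_eq_one_iff _).2 dvd_rfl
    rw [e, zpow_add, zpow_mul a ((2 : ℤ) ^ (t + 3)) i, h3, one_zpow, mul_one]
  rw [h2] at h1
  calc b * a ^ (2 * i) = b * a ^ (2 * i) * b⁻¹ * b := by group
    _ = a ^ (2 * i) * b := by rw [h1]

lemma b_comm_even_inv (i : ℤ) : (a ^ (2 * i))⁻¹ * b = b * (a ^ (2 * i))⁻¹ := by
  have h1 := h.b_comm_even i
  calc (a ^ (2 * i))⁻¹ * b = (a ^ (2 * i))⁻¹ * (b * a ^ (2 * i)) * (a ^ (2 * i))⁻¹ := by group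
    _ = (a ^ (2 * i))⁻¹ * (a ^ (2 * i) * b) * (a ^ (2 * i))⁻¹ := by rw [h1]
    _ = b * (a ^ (2 * i))⁻¹ := by group

lemma b_not_mem : b ∉ Subgroup.zpowers a := by
  intro hmem
  obtain ⟨k, hk⟩ := Subgroup.mem_zpowers_iff.1 hmem
  have hc : b * a = a * b := by
    rw [← hk]
    exact (Commute.zpow_self a k).eq
  have h1 : b * a * b⁻¹ = a := by rw [hc]; group
  rw [h.hrel] at h1
  have h2 : a ^ ((2 : ℤ) ^ (t + 2)) = 1 := by
    have h3 : a ^ (2 ^ (t + 2) + 1) = a ^ (2 ^ (t + 2)) * a := by rw [pow_succ]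
    rw [h3] at h1
    have h4 := mul_eq_right.1 h1
    exact_mod_cast h4
  rw [h.zpow_eq_one_iff] at h2
  have h3 := Int.le_of_dvd (by positivity) h2
  have h4 : (2 : ℤ) ^ (t + 3) = 2 * 2 ^ (t + 2) := by ring
  have h5 : (0 : ℤ) < 2 ^ (t + 2) := by positivity
  omega

omit h in
/-- The subgroup `⟨a², b⟩`. -/
def Msub {a b : G} {t : ℕ} (h : Modular a b t) : Subgroup G where
  carrier := {s | ∃ i : ℤ, s = a ^ (2 * i) ∨ s = b * a ^ (2 * i)}
  mul_mem' := by
    rintro x y ⟨i, rfl | rfl⟩ ⟨j, rfl | rfl⟩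
    · exact ⟨i + j, Or.inl (by rw [mul_add, zpow_add])⟩
    · refine ⟨i + j, Or.inr ?_⟩
      rw [← mul_assoc, ← h.b_comm_even i, mul_assoc, ← zpow_add, mul_add]
    · exact ⟨i + j, Or.inr (by rw [mul_assoc, ← zpow_add, mul_add])⟩
    · refine ⟨i + j, Or.inl ?_⟩
      calc b * a ^ (2 * i) * (b * a ^ (2 * j)) = b * (a ^ (2 * i) * b) * a ^ (2 * j) := by group
        _ = b * (b * a ^ (2 * i)) * a ^ (2 * j) := by rw [h.b_comm_even i]
        _ = (b * b) * (a ^ (2 * i) * a ^ (2 * j)) := by group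
        _ = a ^ (2 * (i + j)) := by rw [h.bb, one_mul, ← zpow_add, mul_add]
  one_mem' := ⟨0, Or.inl (by simp)⟩
  inv_mem' := by
    rintro x ⟨i, rfl | rfl⟩
    · exact ⟨-i, Or.inl (by rw [mul_neg, zpow_neg])⟩
    · refine ⟨-i, Or.inr ?_⟩
      rw [mul_inv_rev, h.binv, mul_neg, zpow_neg, ← h.b_comm_even_inv i]

lemma mem_Msub {s : G} : s ∈ h.Msub ↔ ∃ i : ℤ, s = a ^ (2 * i) ∨ s = b * a ^ (2 * i) := Iff.rfl

lemma Msub_comm : ∀ x ∈ h.Msub, ∀ y ∈ h.Msub, x * y = y * x := by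
  rintro x ⟨i, rfl | rfl⟩ y ⟨j, rfl | rfl⟩
  · rw [← zpow_add, ← zpow_add, add_comm]
  · calc a ^ (2 * i) * (b * a ^ (2 * j)) = (a ^ (2 * i) * b) * a ^ (2 * j) := by group
      _ = (b * a ^ (2 * i)) * a ^ (2 * j) := by rw [h.b_comm_even i]
      _ = b * (a ^ (2 * i) * a ^ (2 * j)) := by group
      _ = b * (a ^ (2 * j) * a ^ (2 * i)) := by rw [← zpow_add, ← zpow_add, add_comm]
      _ = b * a ^ (2 * j) * a ^ (2 * i) := by group
  · calc b * a ^ (2 * i) * a ^ (2 * j) = b * (a ^ (2 * i) * a ^ (2 * j)) := by group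
      _ = b * (a ^ (2 * j) * a ^ (2 * i)) := by rw [← zpow_add, ← zpow_add, add_comm]
      _ = (b * a ^ (2 * j)) * a ^ (2 * i) := by group
      _ = (a ^ (2 * j) * b) * a ^ (2 * i) := by rw [h.b_comm_even j]
      _ = a ^ (2 * j) * (b * a ^ (2 * i)) := by group
  · calc b * a ^ (2 * i) * (b * a ^ (2 * j)) = b * (a ^ (2 * i) * b) * a ^ (2 * j) := by group
      _ = b * (b * a ^ (2 * i)) * a ^ (2 * j) := by rw [h.b_comm_even i]
      _ = (b * b) * (a ^ (2 * i) * a ^ (2 * j)) := by group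
      _ = (b * b) * (a ^ (2 * j) * a ^ (2 * i)) := by rw [← zpow_add, ← zpow_add, add_comm]
      _ = b * (b * a ^ (2 * j)) * a ^ (2 * i) := by group
      _ = b * (a ^ (2 * j) * b) * a ^ (2 * i) := by rw [h.b_comm_even j]
      _ = b * a ^ (2 * j) * (b * a ^ (2 * i)) := by group

lemma bpow_mem (e : ℤ) : b * a ^ e ∈ h.Msub ↔ Even e := by
  constructor
  · rintro ⟨i, hi | hi⟩
    · exfalso
      apply h.b_not_mem
      have : b = a ^ (2 * i - e) := by
        rw [zpow_sub, ← hi]; group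
      rw [this]
      exact Subgroup.zpow_mem_zpowers a _
    · have h1 : a ^ e = a ^ (2 * i) := mul_left_cancel hi
      have h2 : a ^ (e - 2 * i) = 1 := by rw [zpow_sub, h1]; group
      rw [h.zpow_eq_one_iff] at h2
      have h3 : (2 : ℤ) ∣ e - 2 * i := (dvd_pow_self (2 : ℤ) (by omega)).trans h2
      rw [even_iff_two_dvd]
      have h4 : e = (e - 2 * i) + 2 * i := by ring
      rw [h4]
      exact dvd_add h3 (dvd_mul_right _ _)
  · rintro ⟨i, rfl⟩
    exact ⟨i, Or.inr (by rw [two_mul])⟩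

lemma apow_mem (e : ℤ) : a ^ e ∈ h.Msub ↔ Even e := by
  constructor
  · rintro ⟨i, hi | hi⟩
    · have h2 : a ^ (e - 2 * i) = 1 := by rw [zpow_sub, hi]; group
      rw [h.zpow_eq_one_iff] at h2
      have h3 : (2 : ℤ) ∣ e - 2 * i := (dvd_pow_self (2 : ℤ) (by omega)).trans h2
      rw [even_iff_two_dvd]
      have h4 : e = (e - 2 * i) + 2 * i := by ring
      rw [h4]
      exact dvd_add h3 (dvd_mul_right _ _)
    · exfalso
      apply h.b_not_mem
      have : b = a ^ (e - 2 * i) := by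
        rw [zpow_sub, hi]; group
      rw [this]
      exact Subgroup.zpow_mem_zpowers a _
  · rintro ⟨i, rfl⟩
    exact ⟨i, Or.inl (by rw [two_mul])⟩

lemma hsq : a ^ ((2 : ℤ) ^ (t + 2)) * a ^ ((2 : ℤ) ^ (t + 2)) = 1 := by
  rw [← zpow_add, h.zpow_eq_one_iff]
  exact ⟨1, by ring⟩

lemma hz1 : a ^ ((2 : ℤ) ^ (t + 2)) ≠ 1 := by
  rw [Ne, h.zpow_eq_one_iff]
  intro h2
  have h3 := Int.le_of_dvd (by positivity) h2
  have h4 : (2 : ℤ) ^ (t + 3) = 2 * 2 ^ (t + 2) := by ring
  have h5 : (0 : ℤ) < 2 ^ (t + 2) := by positivity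
  omega

lemma zpow_z (i : ℤ) : (a ^ ((2 : ℤ) ^ (t + 2))) ^ i = 1 ∨ (a ^ ((2 : ℤ) ^ (t + 2))) ^ i = a ^ ((2 : ℤ) ^ (t + 2)) := by
  have hz := h.hsq
  rcases Int.even_or_odd' i with ⟨m, rfl | rfl⟩
  · left
    rw [zpow_mul, zpow_two, hz, one_zpow]
  · right
    rw [zpow_add, zpow_mul, zpow_two, hz, one_zpow, one_mul, zpow_one]

lemma even_pow (i : ℤ) : (a ^ (2 * i)) ^ (2 ^ (t + 1)) = (a ^ ((2 : ℤ) ^ (t + 2))) ^ i := by
  rw [← zpow_natCast, ← zpow_mul, ← zpow_mul]
  congr 1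
  push_cast
  ring

lemma comm_even_pow (i : ℤ) (k : ℕ) : (b * a ^ (2 * i)) ^ k = b ^ k * (a ^ (2 * i)) ^ k :=
  (show Commute b (a ^ (2 * i)) from h.b_comm_even i).mul_pow k

lemma b_pow : b ^ (2 ^ (t + 1)) = 1 := by
  rw [pow_succ', pow_mul, pow_two, h.bb, one_pow]

/-- the involution `z` -/
lemma pow_even (y : G) (hy : y ∈ h.Msub) : y ^ (2 ^ (t + 1)) = 1 ∨ y ^ (2 ^ (t + 1)) = a ^ ((2 : ℤ) ^ (t + 2)) := by
  obtain ⟨i, rfl | rfl⟩ := hy
  · rw [h.even_pow]
    exact h.zpow_z i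
  · rw [h.comm_even_pow, h.b_pow, one_mul, h.even_pow]
    exact h.zpow_z i

lemma M_exp (y : G) (hy : y ∈ h.Msub) : y ^ (2 ^ (t + 2)) = 1 := by
  have e : (2 : ℕ) ^ (t + 2) = 2 ^ (t + 1) * 2 := by ring
  rw [e, pow_mul]
  rcases h.pow_even y hy with h1 | h1
  · rw [h1, one_pow]
  · rw [h1, pow_two, h.hsq]

lemma inv_aux (i : ℤ) (hi : a ^ (2 * i) * a ^ (2 * i) = 1) :
    a ^ (2 * i) = 1 ∨ a ^ (2 * i) = a ^ ((2 : ℤ) ^ (t + 2)) := by
  rw [← zpow_add, h.zpow_eq_one_iff] at hi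
  obtain ⟨k, hk⟩ := hi
  have hi2 : i = (2 : ℤ) ^ (t + 1) * k := by
    have e : (2 : ℤ) ^ (t + 3) = 4 * 2 ^ (t + 1) := by ring
    rw [e] at hk
    linarith
  have h3 : a ^ (2 * i) = (a ^ ((2 : ℤ) ^ (t + 2))) ^ k := by
    rw [← zpow_mul, hi2]
    congr 1
    ring
  rw [h3]
  exact h.zpow_z k

lemma M_invol (y : G) (hy : y ∈ h.Msub) (hyy : y * y = 1) :
    y = 1 ∨ y = a ^ ((2 : ℤ) ^ (t + 2)) ∨ y = b ∨ y = b * a ^ ((2 : ℤ) ^ (t + 2)) := by
  obtain ⟨i, rfl | rfl⟩ := hy
  · rcases h.inv_aux i hyy with h1 | h1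
    · exact Or.inl h1
    · exact Or.inr (Or.inl h1)
  · have h2 : a ^ (2 * i) * a ^ (2 * i) = 1 := by
      have e : b * a ^ (2 * i) * (b * a ^ (2 * i)) = b * (a ^ (2 * i) * b) * a ^ (2 * i) := by group
      rw [e, ← h.b_comm_even i] at hyy
      have e2 : b * (b * a ^ (2 * i)) * a ^ (2 * i) = (b * b) * (a ^ (2 * i) * a ^ (2 * i)) := by group
      rw [e2, h.bb, one_mul] at hyy
      exact hyy
    rcases h.inv_aux i h2 with h1 | h1
    · right; right; left
      rw [h1, mul_one]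
    · right; right; right
      rw [h1]

lemma out_pow_a (e : ℤ) (he : Odd e) : (a ^ e) ^ (2 ^ (t + 2)) ≠ 1 := by
  rw [← zpow_natCast, ← zpow_mul, Ne, h.zpow_eq_one_iff]
  rintro ⟨k, hk⟩
  obtain ⟨m, rfl⟩ := he
  push_cast at hk
  have e1 : (2 : ℤ) ^ (t + 3) = 2 * 2 ^ (t + 2) := by ring
  rw [e1] at hk
  have h5 : (2 : ℤ) ^ (t + 2) ≠ 0 := by positivity
  have h6 : 2 * m + 1 = 2 * k := by
    apply mul_right_cancel₀ h5
    linarith
  omega

lemma sq_out (e : ℤ) : (b * a ^ e) ^ 2 = a ^ (e * (2 ^ (t + 2) + 2)) := by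
  rw [pow_two]
  calc b * a ^ e * (b * a ^ e) = (b * a ^ e * b⁻¹) * (b * b) * a ^ e := by group
    _ = a ^ (e * (2 ^ (t + 2) + 1)) * a ^ e := by rw [h.conj_zpow, h.bb, mul_one]
    _ = a ^ (e * (2 ^ (t + 2) + 2)) := by
      rw [← zpow_add]
      congr 1
      ring

lemma out_pow_b (e : ℤ) (he : Odd e) : (b * a ^ e) ^ (2 ^ (t + 2)) ≠ 1 := by
  have e1 : (2 : ℕ) ^ (t + 2) = 2 * 2 ^ (t + 1) := by ring
  rw [e1, pow_mul, h.sq_out, ← zpow_natCast, ← zpow_mul, Ne, h.zpow_eq_one_iff]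
  rintro ⟨k, hk⟩
  obtain ⟨m, rfl⟩ := he
  push_cast at hk
  -- exponent is (2m+1)(2^(t+1)+1) 2^(t+2)
  have e2 : (2 * m + 1) * ((2 : ℤ) ^ (t + 2) + 2) * 2 ^ (t + 1) =
      (2 * m + 1) * (2 * 2 ^ t + 1) * 2 ^ (t + 2) := by ring
  have e3 : (2 : ℤ) ^ (t + 3) = 2 * 2 ^ (t + 2) := by ring
  rw [e2, e3] at hk
  have h5 : (2 : ℤ) ^ (t + 2) ≠ 0 := by positivity
  have h6 : (2 * m + 1) * (2 * 2 ^ t + 1) = 2 * k := by
    apply mul_right_cancel₀ h5
    linarith
  have h7 : (2 * m + 1) * (2 * (2 : ℤ) ^ t + 1) = 2 * (m * (2 * 2 ^ t + 1) + 2 ^ t) + 1 := by ring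
  rw [h7] at h6
  omega

lemma out_order_a (e : ℤ) (he : Odd e) : orderOf (a ^ e) = 2 ^ (t + 3) := by
  haveI : Fact (Nat.Prime 2) := ⟨Nat.prime_two⟩
  apply orderOf_eq_prime_pow (h.out_pow_a e he)
  rw [← zpow_natCast, ← zpow_mul, h.zpow_eq_one_iff]
  exact ⟨e, by push_cast; ring⟩

lemma out_order_b (e : ℤ) (he : Odd e) : orderOf (b * a ^ e) = 2 ^ (t + 3) := by
  haveI : Fact (Nat.Prime 2) := ⟨Nat.prime_two⟩
  apply orderOf_eq_prime_pow (h.out_pow_b e he)
  have e1 : (2 : ℕ) ^ (t + 2 + 1) = 2 * 2 ^ (t + 2) := by ring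
  rw [e1, pow_mul, h.sq_out, ← zpow_natCast, ← zpow_mul, h.zpow_eq_one_iff]
  refine ⟨e * (2 * 2 ^ t + 1), ?_⟩
  push_cast
  ring

lemma odd_centralizes [Finite G] (w : G) (hw : Odd (orderOf w)) (hn : ∀ y ∈ h.Msub, w * y * w⁻¹ ∈ h.Msub) :
    ∀ y ∈ h.Msub, w * y = y * w := by
  set z := a ^ ((2 : ℤ) ^ (t + 2)) with hz
  have hzM : z ∈ h.Msub := ⟨(2 : ℤ) ^ (t + 1), Or.inl (by rw [hz]; congr 1; ring)⟩
  have hcM : a ^ (2 * (1 : ℤ)) ∈ h.Msub := ⟨1, Or.inl rfl⟩
  have hbM : b ∈ h.Msub := ⟨0, Or.inr (by simp)⟩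
  have hwz : w * z * w⁻¹ = z := by
    have h1 : (w * a ^ (2 * (1 : ℤ)) * w⁻¹) ^ (2 ^ (t + 1)) = w * z * w⁻¹ := by
      have h2 := map_pow (MulAut.conj w) (a ^ (2 * (1 : ℤ))) (2 ^ (t + 1))
      simp only [MulAut.conj_apply] at h2
      rw [← h2, h.even_pow, zpow_one]
    rcases h.pow_even _ (hn _ hcM) with h2 | h2
    · rw [h1] at h2
      exfalso
      apply h.hz1
      have h3 : w * z = w := mul_inv_eq_one.1 h2
      exact mul_eq_left.1 h3
    · rw [h1] at h2
      exact h2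
  have hzz : z * z = 1 := h.hsq
  have hwb : w * b * w⁻¹ = b := by
    have hbb' : (w * b * w⁻¹) * (w * b * w⁻¹) = 1 := by
      calc (w * b * w⁻¹) * (w * b * w⁻¹) = w * (b * b) * w⁻¹ := by group
        _ = 1 := by rw [h.bb]; group
    rcases h.M_invol _ (hn _ hbM) hbb' with h1 | h1 | h1 | h1
    · exfalso
      have h3 : w * b = w := mul_inv_eq_one.1 h1
      have h4 : b = 1 := mul_eq_left.1 h3
      have := h.hbo
      rw [h4, orderOf_one] at this
      omega
    · exfalso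
      have h3 : w * b * w⁻¹ = w * z * w⁻¹ := by rw [hwz]; exact h1
      have h4 : b = z := by
        have h5 : w * b = w * z := mul_right_cancel h3
        exact mul_left_cancel h5
      apply h.b_not_mem
      rw [h4]
      exact Subgroup.zpow_mem_zpowers a _
    · exact h1
    · -- w swaps b and bz
      have h2 : w ^ 2 * b = b * w ^ 2 := by
        have h3 : w * (w * b * w⁻¹) * w⁻¹ = b := by
          rw [h1]
          calc w * (b * z) * w⁻¹ = (w * b * w⁻¹) * (w * z * w⁻¹) := by group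
            _ = b * z * z := by rw [h1, hwz]
            _ = b := by rw [mul_assoc, hzz, mul_one]
        calc w ^ 2 * b = (w * (w * b * w⁻¹) * w⁻¹) * w ^ 2 := by
              rw [pow_two]; group
          _ = b * w ^ 2 := by rw [h3]
      obtain ⟨s, hs⟩ := hw
      have h3 : w = (w ^ 2) ^ (s + 1) := by
        rw [← pow_mul]
        have e : 2 * (s + 1) = orderOf w + 1 := by omega
        rw [e, pow_succ, pow_orderOf_eq_one, one_mul]
      have h4 : Commute (w ^ 2) b := h2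
      have h5 : Commute w b := by
        rw [h3]
        exact h4.pow_left (s + 1)
      calc w * b * w⁻¹ = b * w * w⁻¹ := by rw [h5.eq]
        _ = b := by group
  have hfix : ∀ u ∈ h.Msub, u * u = 1 → w * u * w⁻¹ = u := by
    intro u hu huu
    rcases h.M_invol u hu huu with rfl | rfl | rfl | rfl
    · group
    · exact hwz
    · exact hwb
    · calc w * (b * z) * w⁻¹ = (w * b * w⁻¹) * (w * z * w⁻¹) := by group
        _ = b * z := by rw [hwb, hwz]
  intro y hy
  have h1 := centralizes_of_fix_involutions h.Msub h.Msub_comm w hw hn hfix (t + 2) y hy (h.M_exp y hy)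
  calc w * y = w * y * w⁻¹ * w := by group
    _ = y * w := by rw [h1]

end Modular

private lemma relIndex_le_index {S : Type*} [Group S] [Finite S] (A C : Subgroup S) :
    A.relIndex C ≤ A.index := by
  have h1 : (A ⊓ C).index ≤ A.index * C.index := Subgroup.index_inf_le
  have h2 : (A ⊓ C).relIndex C * C.index = (A ⊓ C).index := Subgroup.relIndex_mul_index inf_le_right
  rw [Subgroup.inf_relIndex_right] at h2
  rw [← h2] at h1
  exact Nat.le_of_mul_le_mul_right h1 (Nat.pos_of_ne_zero (Subgroup.index_ne_zero_of_finite))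

/-- Groups with a modular Sylow 2-subgroup have a normal 2-complement. Let S, of order 2^(n+1) with n ≥ 3, be a Sylow 2-subgroup of a finite group G, and suppose S contains an element a of order 2^n and an involution b with b a b⁻¹ = a^(2^(n-1) + 1); so S is the non-abelian 2-group with a cyclic subgroup of index 2 that is neither dihedral, semidihedral nor generalized quaternion. Then G has a normal 2-complement. -/
theorem result {G : Type*} [Group G] [Finite G]
    (S : Sylow 2 G) (n : ℕ) (hn : 3 ≤ n) (hS : Nat.card ↥(S : Subgroup G) = 2 ^ (n + 1))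
    (a b : G) (ha : a ∈ (S : Subgroup G)) (hb : b ∈ (S : Subgroup G))
    (hao : orderOf a = 2 ^ n) (hbo : orderOf b = 2) (hrel : b * a * b⁻¹ = a ^ (2 ^ (n - 1) + 1)) :
    Cfsg.HasNormalPComplement 2 G := by
  classical
  haveI hfact : Fact (Nat.Prime 2) := ⟨Nat.prime_two⟩
  obtain ⟨t, rfl⟩ : ∃ t, n = t + 3 := ⟨n - 3, by omega⟩
  have h : Modular a b t := ⟨hao, hbo, hrel⟩
  set M := h.Msub with hMdef
  have hMS : M ≤ (S : Subgroup G) := by
    rintro y ⟨i, rfl | rfl⟩
    · exact Subgroup.zpow_mem _ ha _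
    · exact Subgroup.mul_mem _ hb (Subgroup.zpow_mem _ ha _)
  -- classification of the elements of S
  have hle : Subgroup.zpowers a ≤ (S : Subgroup G) := by
    rw [Subgroup.zpowers_le]; exact ha
  have hindexA : ((Subgroup.zpowers a).subgroupOf (S : Subgroup G)).index = 2 := by
    have h1 := ((Subgroup.zpowers a).subgroupOf (S : Subgroup G)).card_mul_index
    have h2 : Nat.card ((Subgroup.zpowers a).subgroupOf (S : Subgroup G)) = 2 ^ (t + 3) := by
      rw [← hao, ← Nat.card_zpowers]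
      exact Nat.card_congr (Subgroup.subgroupOfEquivOfLe hle).toEquiv
    rw [h2, hS, pow_succ] at h1
    exact Nat.eq_of_mul_eq_mul_left (by positivity) h1
  have hclass : ∀ s ∈ (S : Subgroup G), ∃ e : ℤ, s = a ^ e ∨ s = b * a ^ e := by
    intro s hs
    by_cases hsA : s ∈ Subgroup.zpowers a
    · obtain ⟨e, he⟩ := Subgroup.mem_zpowers_iff.1 hsA
      exact ⟨e, Or.inl he.symm⟩
    · have h1 := (Subgroup.mul_mem_iff_of_index_two hindexA
        (a := (⟨b, hb⟩ : (S : Subgroup G))⁻¹) (b := ⟨s, hs⟩)).2 (by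
          rw [inv_mem_iff, Subgroup.mem_subgroupOf, Subgroup.mem_subgroupOf]
          exact ⟨fun h2 => absurd h2 h.b_not_mem, fun h2 => absurd h2 hsA⟩)
      rw [Subgroup.mem_subgroupOf] at h1
      obtain ⟨e, he⟩ := Subgroup.mem_zpowers_iff.1 h1
      refine ⟨e, Or.inr ?_⟩
      rw [he]
      simp
  have hMi : M.relIndex (S : Subgroup G) = 2 := by
    change (M.subgroupOf (S : Subgroup G)).index = 2
    rw [Subgroup.index_eq_two_iff_exists_notMem_and]
    refine ⟨⟨a, ha⟩, ?_, ?_⟩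
    · rw [Subgroup.mem_subgroupOf]
      change a ∉ h.Msub
      have := h.apow_mem 1
      rw [zpow_one] at this
      rw [this]
      decide
    · rintro ⟨s, hs⟩
      rw [Subgroup.mem_subgroupOf, Subgroup.mem_subgroupOf]
      change s * a ∈ h.Msub ∨ s ∈ h.Msub
      obtain ⟨e, rfl | rfl⟩ := hclass s hs
      · rcases Int.even_or_odd e with he | he
        · exact Or.inr ((h.apow_mem e).2 he)
        · left
          have : a ^ e * a = a ^ (e + 1) := by rw [zpow_add, zpow_one]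
          rw [this, h.apow_mem]
          exact he.add_one
      · rcases Int.even_or_odd e with he | he
        · exact Or.inr ((h.bpow_mem e).2 he)
        · left
          have : b * a ^ e * a = b * a ^ (e + 1) := by rw [zpow_add, zpow_one, mul_assoc]
          rw [this, h.bpow_mem]
          exact he.add_one
  have hout : ∀ y ∈ (S : Subgroup G), y ∉ M → orderOf y = 2 ^ (t + 3) := by
    intro y hy hyM
    obtain ⟨e, rfl | rfl⟩ := hclass y hy
    · apply h.out_order_a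
      rw [← Int.not_even_iff_odd]
      exact fun he => hyM ((h.apow_mem e).2 he)
    · apply h.out_order_b
      rw [← Int.not_even_iff_odd]
      exact fun he => hyM ((h.bpow_mem e).2 he)
  have hord : ∀ y ∈ (S : Subgroup G), y ∉ M → 2 ^ (t + 3 - 1) < orderOf y := by
    intro y hy hyM
    rw [hout y hy hyM]
    exact Nat.pow_lt_pow_right (by norm_num) (by omega)
  obtain ⟨K, hKn, hidx, hexcl⟩ := exists_ker_transfer S M hMS hMi (t + 3) hord
  have hKS : ∀ y ∈ (S : Subgroup G), y ∉ M → y ∉ K := by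
    intro y hy hyM
    apply hexcl y hy (hout y hy hyM)
    intro g hg
    have h1 := h.M_exp _ hg
    have h2 : y ^ (2 ^ (t + 2)) = 1 := by
      have h3 := map_pow (MulAut.conj g) y (2 ^ (t + 2))
      simp only [MulAut.conj_apply] at h3
      rw [← h3] at h1
      have h4 : g * y ^ 2 ^ (t + 2) = g := mul_inv_eq_one.1 h1
      exact mul_eq_left.1 h4
    have h3 := orderOf_dvd_of_pow_eq_one h2
    rw [hout y hy hyM] at h3
    have h4 := Nat.le_of_dvd (by positivity) h3
    have h5 : 2 ^ (t + 2) < 2 ^ (t + 3) := Nat.pow_lt_pow_right (by norm_num) (by omega)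
    omega
  have haM : a ∉ M := by
    change a ∉ h.Msub
    have := h.apow_mem 1
    rw [zpow_one] at this
    rw [this]
    decide
  have haK : a ∉ K := hKS a ha haM
  have hKi : K.index = 2 := by
    rcases (Nat.dvd_prime Nat.prime_two).1 hidx with h2 | h2
    · rw [Subgroup.index_eq_one] at h2
      exact absurd (h2 ▸ Subgroup.mem_top a) haK
    · exact h2
  have hKle : (S : Subgroup G) ⊓ K ≤ M := by
    rintro y ⟨hy1, hy2⟩
    by_contra hy3
    exact hKS y hy1 hy3 hy2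
  have hcardS : Nat.card (S : Subgroup G) = Nat.card M * 2 := by
    have h1 := (M.subgroupOf (S : Subgroup G)).card_mul_index
    rw [show (M.subgroupOf (S : Subgroup G)).index = 2 from hMi,
      show Nat.card (M.subgroupOf (S : Subgroup G)) = Nat.card M from
        Nat.card_congr (Subgroup.subgroupOfEquivOfLe hMS).toEquiv] at h1
    exact h1.symm
  have hMK : M ≤ K := by
    have h1 := (K.subgroupOf (S : Subgroup G)).card_mul_index
    rw [Cfsg.Agent.Lib.SolvStruct.Basic.card_subgroupOf] at h1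
    have h2 : (K.subgroupOf (S : Subgroup G)).index ≤ 2 :=
      (relIndex_le_index K (S : Subgroup G)).trans hKi.le
    have h3 : Nat.card M ≤ Nat.card ↥((S : Subgroup G) ⊓ K) := by
      have h4 : Nat.card M * 2 ≤ Nat.card ↥((S : Subgroup G) ⊓ K) * 2 := by
        rw [← hcardS, ← h1]
        exact Nat.mul_le_mul_left _ h2
      omega
    have h4 := Subgroup.eq_of_le_of_card_ge hKle h3
    rw [← h4]
    exact inf_le_right
  -- Sylow in K
  let M' : Subgroup K := M.subgroupOf K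
  have hM'p : IsPGroup 2 M' :=
    (S.2.to_le hMS : IsPGroup 2 M).comap_of_injective K.subtype K.subtype_injective
  have hM'i : ¬ 2 ∣ M'.index := by
    have h1 := M'.card_mul_index
    rw [show Nat.card M' = Nat.card M from
        Nat.card_congr (Subgroup.subgroupOfEquivOfLe hMK).toEquiv] at h1
    have h2 := K.card_mul_index
    rw [hKi] at h2
    have h3 := (S : Subgroup G).card_mul_index
    rw [hcardS, ← h2, ← h1] at h3
    have h4 : M'.index = (S : Subgroup G).index := by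
      have h5 : 0 < Nat.card M := Nat.card_pos
      have h6 : Nat.card M * 2 * M'.index = Nat.card M * 2 * (S : Subgroup G).index := by
        rw [h3]; ring
      exact Nat.eq_of_mul_eq_mul_left (by positivity) h6
    rw [h4]
    exact S.not_dvd_index
  let P : Sylow 2 K := hM'p.toSylow hM'i
  have hPcoe : (P : Subgroup K) = M' := rfl
  have hN : Subgroup.normalizer ((P : Subgroup K) : Set K) ≤ Subgroup.centralizer ((P : Subgroup K) : Set K) := by
    intro h' hh'
    obtain ⟨α, β, hαβ, hcomm, hα, hβ, ⟨k, hk⟩, hβo⟩ :=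
      Cfsg.Agent.Lib.Transfer.Basic.exists_pPart_decomp (p := 2) h'
    have hzle : Subgroup.zpowers h' ≤ Subgroup.normalizer ((P : Subgroup K) : Set K) := by
      rw [Subgroup.zpowers_le]; exact hh'
    have hαP : α ∈ (P : Subgroup K) := by
      have hp : IsPGroup 2 (Subgroup.zpowers α) := by
        have h1 : orderOf α ∣ 2 ^ k := orderOf_dvd_of_pow_eq_one hk
        obtain ⟨j, _, hj⟩ := (Nat.dvd_prime_pow Nat.prime_two).1 h1
        apply IsPGroup.of_card (n := j)
        rw [Nat.card_zpowers, hj]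
      have h2 := hp.inf_normalizer_sylow P
      have h3 : α ∈ Subgroup.zpowers α ⊓ Subgroup.normalizer ((P : Subgroup K) : Set K) :=
        ⟨Subgroup.mem_zpowers α, hzle hα⟩
      exact ((SetLike.ext_iff.1 h2 α).1 h3).2
    have hβN := hzle hβ
    have hwodd : Odd (orderOf (β : G)) := by
      rw [Subgroup.orderOf_coe]
      exact Nat.Coprime.odd_of_right hβo
    have hwn : ∀ y ∈ h.Msub, (β : G) * y * (β : G)⁻¹ ∈ h.Msub := by
      intro y hy
      have h1 := (Subgroup.mem_normalizer_iff.1 hβN ⟨y, hMK hy⟩).1 (by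
        rw [hPcoe, Subgroup.mem_subgroupOf]; exact hy)
      rw [hPcoe, Subgroup.mem_subgroupOf] at h1
      simpa using h1
    have hwc := h.odd_centralizes (β : G) hwodd hwn
    rw [Subgroup.mem_centralizer_iff]
    rintro ⟨y, hyK⟩ hyP
    have hyM : y ∈ M := by
      have : (⟨y, hyK⟩ : K) ∈ M' := hyP
      rwa [Subgroup.mem_subgroupOf] at this
    have hαM : (α : G) ∈ M := by
      have : α ∈ M' := hαP
      rwa [Subgroup.mem_subgroupOf] at this
    apply Subtype.ext
    change y * (h' : G) = (h' : G) * y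
    rw [hαβ]
    push_cast
    calc y * ((α : G) * β) = (y * α) * β := by group
      _ = (α * y) * β := by rw [h.Msub_comm _ hyM _ hαM]
      _ = α * (y * β) := by group
      _ = α * (β * y) := by rw [hwc y hyM]
      _ = (α * β) * y := by group
  have hK2 : Cfsg.HasNormalPComplement 2 K :=
    ⟨P, (MonoidHom.transferSylow P hN).ker, MonoidHom.normal_ker _,
      MonoidHom.ker_transferSylow_isComplement' P hN⟩
  haveI := hKn
  refine Cfsg.Agent.Lib.Transfer.Basic.hasNormalPComplement_of_normal_of_isPGroup_quotient K hK2 ?_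
  apply IsPGroup.of_card (n := 1)
  rw [pow_one]
  exact hKi

end Cfsg.Agent.S3178
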