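import Cfsg.Statements.S3180
import Mathlib

set_option autoImplicit false
open Cfsg

namespace Cfsg.Agent.S3180

private lemma mem_normalizer_of_map_conj_eq {J : Type*} [Group J] (H : Subgroup J) (n : J)
    (h : H.map (MulAut.conj n).toMonoidHom = H) : n ∈ Subgroup.normalizer (H : Set J) := by
  rw [Subgroup.mem_normalizer_iff]
  intro x
  constructor
  · intro hx
    have : n * x * n⁻¹ ∈ H.map (MulAut.conj n).toMonoidHom := ⟨x, hx, rfl⟩
    rwa [h] at this
  · intro hx
    rw [← h] at hx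
    obtain ⟨x', hx', he⟩ := hx
    have : x' = x := by
      simpa [MulAut.conj_apply] using he
    rwa [← this]

private lemma map_conj_mul {J : Type*} [Group J] (H : Subgroup J) (a b : J) :
    H.map (MulAut.conj (a * b)).toMonoidHom =
      (H.map (MulAut.conj b).toMonoidHom).map (MulAut.conj a).toMonoidHom := by
  rw [Subgroup.map_map]
  congr 1
  ext x
  simp [MulAut.conj_apply, mul_assoc]

private lemma sylow_smul_coe {J : Type*} [Group J] {p : ℕ} (R : Sylow p J) (h : J) :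
    ((h • R : Sylow p J) : Subgroup J) = (R : Subgroup J).map (MulAut.conj h).toMonoidHom := by
  rw [Sylow.coe_subgroup_smul]
  rfl

/-- Let P be a Sylow p-subgroup of a finite group J and P₁ a subgroup of P that is weakly closed in P with respect to J. If J acts on a set and two points, each fixed by every element of P₁, lie in one J-orbit, then they lie in one orbit of the normalizer of P₁ in J. -/
theorem result {J : Type*} [Group J] [Finite J]
    {p : ℕ} [Fact p.Prime] (P : Sylow p J) (P₁ : Subgroup J) (hW : Cfsg.IsWeaklyClosed P₁ (P : Subgroup J))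
    {Ω : Type*} [MulAction J Ω] (x y : Ω) (hx : ∀ g ∈ P₁, g • x = x) (hy : ∀ g ∈ P₁, g • y = y)
    (hc : ∃ g : J, g • x = y) :
    ∃ g ∈ Subgroup.normalizer (P₁ : Set J), g • x = y := by
  obtain ⟨g, rfl⟩ := hc
  obtain ⟨hP₁P, hwc⟩ := hW
  have hP₁p : IsPGroup p P₁ := P.isPGroup'.to_le hP₁P
  let K := MulAction.stabilizer J (g • x)
  -- the two subgroups of the stabilizer
  have hP₁K : P₁ ≤ K := fun h hh => hy h hh
  let P₂ := P₁.map (MulAut.conj g).toMonoidHom
  have hP₂K : P₂ ≤ K := by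
    rintro _ ⟨h, hh, rfl⟩
    change (MulAut.conj g h) • (g • x) = g • x
    simp [MulAut.conj_apply, mul_smul, hx h hh]
  have hP₂p : IsPGroup p P₂ := hP₁p.map _
  have h1 : IsPGroup p (P₁.subgroupOf K) := hP₁p.comap_of_injective K.subtype Subtype.coe_injective
  have h2 : IsPGroup p (P₂.subgroupOf K) := hP₂p.comap_of_injective K.subtype Subtype.coe_injective
  obtain ⟨Q₁, hQ₁⟩ := h1.exists_le_sylow
  obtain ⟨Q₂, hQ₂⟩ := h2.exists_le_sylow
  obtain ⟨s, hs⟩ := MulAction.exists_smul_eq K Q₂ Q₁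
  -- a Sylow subgroup of J above Q₁
  have hQ₁p : IsPGroup p ((Q₁ : Subgroup K).map K.subtype) := Q₁.isPGroup'.map _
  obtain ⟨R, hR⟩ := hQ₁p.exists_le_sylow
  have hP₁R : P₁ ≤ R := by
    intro h hh
    apply hR
    exact ⟨⟨h, hP₁K hh⟩, hQ₁ (by simpa [Subgroup.mem_subgroupOf] using hh), rfl⟩
  have hP₃R : P₁.map (MulAut.conj ((s : J) * g)).toMonoidHom ≤ R := by
    rintro _ ⟨h, hh, rfl⟩
    apply hR
    have hmem : MulAut.conj g h ∈ P₂ := ⟨h, hh, rfl⟩
    have hmemK : MulAut.conj g h ∈ K := hP₂K hmem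
    have h3 : (⟨MulAut.conj g h, hmemK⟩ : K) ∈ Q₂ := hQ₂ (by simpa [Subgroup.mem_subgroupOf] using hmem)
    have h4 : s * ⟨MulAut.conj g h, hmemK⟩ * s⁻¹ ∈ (Q₁ : Subgroup K) := by
      rw [← hs, Sylow.smul_def, Sylow.pointwise_smul_def]
      exact ⟨_, h3, rfl⟩
    refine ⟨_, h4, ?_⟩
    simp [MulAut.conj_apply, mul_assoc]
  obtain ⟨h, hh⟩ := MulAction.exists_smul_eq J R P
  have hhP : ∀ H : Subgroup J, H ≤ R → H.map (MulAut.conj h).toMonoidHom ≤ (P : Subgroup J) := by
    intro H hH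
    rw [← hh, sylow_smul_coe]
    exact Subgroup.map_mono hH
  have e1 := hwc h (hhP _ hP₁R)
  have e2 := hwc (h * ((s : J) * g)) (by rw [map_conj_mul]; exact hhP _ hP₃R)
  rw [map_conj_mul] at e2
  have e3 : P₁.map (MulAut.conj ((s : J) * g)).toMonoidHom = P₁ :=
    Subgroup.map_injective (f := (MulAut.conj h).toMonoidHom) (MulEquiv.injective _) (by rw [e2, e1])
  refine ⟨(s : J) * g, mem_normalizer_of_map_conj_eq P₁ _ e3, ?_⟩
  rw [mul_smul]
  exact s.2

end Cfsg.Agent.S3180
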