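import Cfsg.Statements.S3183
import Mathlib

set_option autoImplicit false
open Cfsg
open scoped Pointwise

namespace Cfsg.Agent.S3183

variable {G : Type*} [Group G]

private lemma mem_map_center {U : Subgroup G} {x : G} :
    x ∈ (Subgroup.center ↥U).map U.subtype ↔ x ∈ U ∧ ∀ u ∈ U, u * x = x * u := by
  constructor
  · rintro ⟨⟨c, hcU⟩, hc, rfl⟩
    refine ⟨hcU, fun u hu => ?_⟩
    rw [SetLike.mem_coe, Subgroup.mem_center_iff] at hc
    exact congrArg Subtype.val (hc ⟨u, hu⟩)
  · rintro ⟨hx, h⟩
    refine ⟨⟨x, hx⟩, ?_, rfl⟩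
    rw [SetLike.mem_coe, Subgroup.mem_center_iff]
    rintro ⟨u, hu⟩
    exact Subtype.ext (h u hu)

private lemma exists_normalizing [Finite G] {P D : Subgroup G} (hP : IsPGroup 2 P) (hlt : D < P) :
    ∃ y ∈ P, y ∉ D ∧ (∀ d ∈ D, y * d * y⁻¹ ∈ D) ∧ (∀ d ∈ D, y⁻¹ * d * y ∈ D) := by
  haveI : Fact (Nat.Prime 2) := ⟨Nat.prime_two⟩
  haveI : Group.IsNilpotent P := hP.isNilpotent
  have hle := hlt.le
  have hH : D.subgroupOf P < ⊤ := by
    rw [lt_top_iff_ne_top]
    intro h
    rw [Subgroup.subgroupOf_eq_top] at h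
    exact absurd (le_antisymm hle h) hlt.ne
  have h2 := Group.normalizerCondition_of_isNilpotent (G := P) _ hH
  obtain ⟨y, hy1, hy2⟩ := SetLike.exists_of_lt h2
  refine ⟨y, y.2, ?_, ?_, ?_⟩
  · intro h3
    exact hy2 (by rw [Subgroup.mem_subgroupOf]; exact h3)
  · intro d hd
    rw [Subgroup.mem_normalizer_iff] at hy1
    have := (hy1 ⟨d, hle hd⟩).1 (by rw [Subgroup.mem_subgroupOf]; exact hd)
    rw [Subgroup.mem_subgroupOf] at this
    simpa using this
  · intro d hd
    rw [Subgroup.mem_normalizer_iff] at hy1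
    have := (hy1 ⟨(y : G)⁻¹ * d * y, P.mul_mem (P.mul_mem (P.inv_mem y.2) (hle hd)) y.2⟩).2 (by
      rw [Subgroup.mem_subgroupOf]
      simpa [mul_assoc] using hd)
    rw [Subgroup.mem_subgroupOf] at this
    exact this

private lemma mem_smul_sylow {H : Type*} [Group H] (P : Sylow 2 H) (g x : H) :
    x ∈ ((g • P : Sylow 2 H) : Subgroup H) ↔ g⁻¹ * x * g ∈ (P : Subgroup H) := by
  change x ∈ MulAut.conj g • (P : Subgroup H) ↔ _
  rw [Subgroup.mem_pointwise_smul_iff_inv_smul_mem, ← map_inv, MulAut.smul_def, map_inv]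
  simp [MulAut.conj_apply]

/-- key lemma: a 2-subgroup `Q` normalizing `D` where `D` is central in a Sylow subgroup `U` lies in a
Sylow subgroup in which `D` is central. -/
private lemma exists_sylow_above [Finite G] (D Q : Subgroup G) (U : Sylow 2 G)
    (hDU : D ≤ (Subgroup.center ↥(U : Subgroup G)).map (U : Subgroup G).subtype)
    (hQ : IsPGroup 2 Q) (hQN : ∀ q ∈ Q, ∀ d ∈ D, q * d * q⁻¹ ∈ D) :
    ∃ R : Sylow 2 G, Q ≤ R ∧ D ≤ (Subgroup.center ↥(R : Subgroup G)).map (R : Subgroup G).subtype := by
  classical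
  haveI : Fact (Nat.Prime 2) := ⟨Nat.prime_two⟩
  -- the normalizer of D
  let M : Subgroup G := Subgroup.normalizer (D : Set G)
  have hDU' : ∀ d ∈ D, d ∈ (U : Subgroup G) ∧ ∀ u ∈ (U : Subgroup G), u * d = d * u := by
    intro d hd
    exact mem_map_center.1 (hDU hd)
  have hUM : (U : Subgroup G) ≤ M := by
    rw [Subgroup.le_normalizer_iff]
    intro u hu d hd
    have := (hDU' d hd).2 u hu
    rw [this]
    simpa using hd
  have hQM : Q ≤ M := by
    rw [Subgroup.le_normalizer_iff]
    exact hQN
  have hQ' : IsPGroup 2 (Q.subgroupOf M) := hQ.comap_of_injective M.subtype M.subtype_injective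
  obtain ⟨R', hR'⟩ := hQ'.exists_le_sylow
  obtain ⟨m, hm⟩ := MulAction.exists_smul_eq M (U.subtype hUM) R'
  refine ⟨(m : G) • U, ?_, ?_⟩
  · intro q hq
    have h1 : (⟨q, hQM hq⟩ : M) ∈ (R' : Subgroup M) := hR' (by rw [Subgroup.mem_subgroupOf]; exact hq)
    rw [← hm] at h1
    rw [mem_smul_sylow] at h1
    rw [mem_smul_sylow]
    exact h1
  · intro d hd
    have hmN := m.2
    have hmD : (m : G)⁻¹ * d * m ∈ D := by
      have := (Subgroup.le_normalizer_iff.1 (le_refl M)) _ (M.inv_mem hmN) d hd
      simpa using this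
    rw [mem_map_center]
    constructor
    · rw [mem_smul_sylow]
      exact (hDU' _ hmD).1
    · intro r hr
      rw [mem_smul_sylow] at hr
      have h2 := (hDU' _ hmD).2 _ hr
      have h3 : (m : G)⁻¹ * (r * d) * m = (m : G)⁻¹ * (d * r) * m := by
        calc (m : G)⁻¹ * (r * d) * m = ((m : G)⁻¹ * r * m) * ((m : G)⁻¹ * d * m) := by group
          _ = ((m : G)⁻¹ * d * m) * ((m : G)⁻¹ * r * m) := h2
          _ = (m : G)⁻¹ * (d * r) * m := by group
      exact mul_left_cancel (mul_right_cancel h3)

private lemma claim [Finite G]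
    (hCI : ∀ S T : Sylow 2 G, S ≠ T → ∃ U : Sylow 2 G,
      (S : Subgroup G) ⊓ (T : Subgroup G) ≤ (Subgroup.center ↥(U : Subgroup G)).map (U : Subgroup G).subtype)
    (S : Sylow 2 G) : ∀ T : Sylow 2 G, T ≠ S →
      (S : Subgroup G) ⊓ (T : Subgroup G) ≤ (Subgroup.center ↥(S : Subgroup G)).map (S : Subgroup G).subtype := by
  intro T
  induction hn : Nat.card (S : Subgroup G) - Nat.card ↥((S : Subgroup G) ⊓ (T : Subgroup G))
    using Nat.strong_induction_on generalizing T with
  | _ n ih =>
    intro hTS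
    set D := (S : Subgroup G) ⊓ (T : Subgroup G) with hD
    obtain ⟨U, hU⟩ := hCI S T hTS.symm
    by_cases hUS : U = S
    · subst hUS; exact hU
    have hDS : D ≤ S := inf_le_left
    have hIH : ∀ R : Sylow 2 G, R ≠ S → D < (S : Subgroup G) ⊓ (R : Subgroup G) →
        D ≤ (Subgroup.center ↥(S : Subgroup G)).map (S : Subgroup G).subtype := by
      intro R hRS hlt
      have hc1 : Nat.card D < Nat.card ↥((S : Subgroup G) ⊓ (R : Subgroup G)) := by
        by_contra hcon
        exact hlt.ne (Subgroup.eq_of_le_of_card_ge hlt.le (not_lt.1 hcon))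
      have hc2 : Nat.card ↥((S : Subgroup G) ⊓ (R : Subgroup G)) ≤ Nat.card (S : Subgroup G) :=
        Subgroup.card_le_of_le inf_le_left
      exact hlt.le.trans (ih _ (by omega) R rfl hRS)
    have hDU : D ≤ (U : Subgroup G) := fun d hd => (mem_map_center.1 (hU hd)).1
    by_cases hDUS : D < (S : Subgroup G) ⊓ (U : Subgroup G)
    · exact hIH U hUS hDUS
    have hDeq : D < S := by
      refine lt_of_le_of_ne hDS ?_
      intro h
      have h2 : (S : Subgroup G) ≤ T := by
        rw [← h]; exact inf_le_right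
      have h3 := S.3 T.2 h2
      exact hTS (Sylow.ext h3)
    obtain ⟨y, hyS, hyD, hyN, hyN'⟩ := exists_normalizing S.2 hDeq
    let Q : Subgroup G := (S : Subgroup G) ⊓ Subgroup.normalizer (D : Set G)
    have hQ : IsPGroup 2 Q := S.2.to_le inf_le_left
    obtain ⟨R, hQR, hDR⟩ := exists_sylow_above D Q U hU hQ (fun q hq d hd => Subgroup.le_normalizer_iff.1 (le_refl _) q hq.2 d hd)
    by_cases hRS : R = S
    · subst hRS; exact hDR
    · refine hIH R hRS ?_
      refine lt_of_le_of_ne (le_inf hDS (fun d hd => (mem_map_center.1 (hDR hd)).1)) ?_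
      intro h
      apply hyD
      rw [h]
      refine ⟨hyS, hQR ⟨hyS, ?_⟩⟩
      change y ∈ Subgroup.normalizer (D : Set G)
      rw [Subgroup.mem_normalizer_iff]
      intro d
      constructor
      · exact hyN d
      · intro hd
        have h1 := hyN' _ hd
        simpa [mul_assoc] using h1

/-- Let G be a finite group in which the intersection of any two distinct Sylow 2-subgroups is contained in the centre of some Sylow 2-subgroup, and let S be a Sylow 2-subgroup. Then for every x in S the centralizer of x in S is a Sylow 2-subgroup of the centralizer of x in G (no 2-subgroup centralizing x is larger), and for every other Sylow 2-subgroup T the intersection S ∩ T lies in both the centre of S and the centre of T. -/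
theorem result {G : Type*} [Group G] [Finite G]
    (hCI : ∀ S T : Sylow 2 G, S ≠ T → ∃ U : Sylow 2 G,
      (S : Subgroup G) ⊓ (T : Subgroup G) ≤ (Subgroup.center ↥(U : Subgroup G)).map (U : Subgroup G).subtype)
    (S : Sylow 2 G) :
    (∀ x ∈ (S : Subgroup G), ∀ P : Subgroup G, IsPGroup 2 ↥P → P ≤ Subgroup.centralizer ({x} : Set G) →
        Nat.card ↥P ≤ Nat.card ↥((S : Subgroup G) ⊓ Subgroup.centralizer ({x} : Set G))) ∧
    (∀ T : Sylow 2 G, T ≠ S →
        (S : Subgroup G) ⊓ (T : Subgroup G) ≤
          (Subgroup.center ↥(S : Subgroup G)).map (S : Subgroup G).subtype ⊓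
            (Subgroup.center ↥(T : Subgroup G)).map (T : Subgroup G).subtype) := by
  haveI : Fact (Nat.Prime 2) := ⟨Nat.prime_two⟩
  constructor
  · intro x hx P hP hPC
    have hxp : IsPGroup 2 (Subgroup.zpowers x) := S.2.to_le (by
      rw [Subgroup.zpowers_le]; exact hx)
    have hPN : P ≤ Subgroup.normalizer (Subgroup.zpowers x : Set G) := by
      rw [Subgroup.le_normalizer_iff]
      intro p hp k hk
      obtain ⟨n, rfl⟩ := Subgroup.mem_zpowers_iff.1 hk
      have hc : p * x = x * p := by
        have := hPC hp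
        rw [Subgroup.mem_centralizer_iff] at this
        exact (this x rfl).symm
      have h1 : p * x ^ n * p⁻¹ = x ^ n := by
        have : Commute p (x ^ n) := (show Commute p x from hc).zpow_right n
        rw [this.eq]; group
      rw [h1]
      exact Subgroup.zpow_mem_zpowers x n
    have hsup := IsPGroup.to_sup_of_normal_right' hP hxp hPN
    obtain ⟨R, hR⟩ := hsup.exists_le_sylow
    have hPR : P ≤ R := le_sup_left.trans hR
    have hxR : x ∈ R := hR (Subgroup.mem_sup_right (Subgroup.mem_zpowers x))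
    by_cases hRS : R = S
    · subst hRS
      exact Subgroup.card_le_of_le (le_inf hPR hPC)
    · have h1 := (mem_map_center.1 (claim hCI S R hRS ⟨hx, hxR⟩)).2
      have h2 : (S : Subgroup G) ≤ Subgroup.centralizer ({x} : Set G) := by
        intro s hs
        rw [Subgroup.mem_centralizer_iff]
        intro c hc
        rw [Set.mem_singleton_iff] at hc
        subst hc
        exact (h1 s hs).symm
      rw [inf_eq_left.2 h2]
      calc Nat.card P ≤ Nat.card R := Subgroup.card_le_of_le hPR
        _ = Nat.card S := by rw [Sylow.card_eq_multiplicity, Sylow.card_eq_multiplicity]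
  · intro T hTS
    refine le_inf (claim hCI S T hTS) ?_
    rw [inf_comm]
    exact claim hCI T S hTS.symm

end Cfsg.Agent.S3183
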