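import Cfsg.Statements.S3184
import Cfsg.Agent.Lib.ZStar.CI

set_option autoImplicit false
open Cfsg

namespace Cfsg.Agent.S3184

/-- Let G be a finite group in which the intersection of any two distinct Sylow 2-subgroups is contained in the centre of some Sylow 2-subgroup, and let S be a Sylow 2-subgroup. If C is a nontrivial cyclic characteristic subgroup of S, then the involution of C is central modulo the largest normal subgroup of odd order of G: each of its conjugates has the same image in G/O(G). -/
theorem result {G : Type*} [Group G] [Finite G]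
    (hCI : ∀ S T : Sylow 2 G, S ≠ T → ∃ U : Sylow 2 G,
      (S : Subgroup G) ⊓ (T : Subgroup G) ≤ (Subgroup.center ↥(U : Subgroup G)).map (U : Subgroup G).subtype)
    (S : Sylow 2 G) (C : Subgroup ↥(S : Subgroup G)) (hC : C ≠ ⊥) (hCc : IsCyclic ↥C) (hCh : C.Characteristic)
    (c : ↥(S : Subgroup G)) (hc : c ∈ C) (hc2 : orderOf c = 2) :
    ∀ g : G, (QuotientGroup.mk (s := Cfsg.oddCore G) (g * (c : G) * g⁻¹)) =
      QuotientGroup.mk (s := Cfsg.oddCore G) (c : G) := by
  intro g
  have hiso := Cfsg.Agent.Lib.ZStar.CI.isolated_of_CI hCI S C hCc hCh c hc hc2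
  have h := Cfsg.Agent.Lib.ZStar.Cor.conj_mem_mul_core hiso g
  rw [QuotientGroup.eq]
  have e : (g * (c : G) * g⁻¹)⁻¹ * (c : G) = ((c : G) * (g * (c : G) * g⁻¹))⁻¹ * ((c : G) * (c : G)) := by
    group
  rw [e, Cfsg.Agent.Lib.Isolated.Basic.mul_self hiso, mul_one]
  exact inv_mem h

end Cfsg.Agent.S3184
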