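import Cfsg.Statements.S3190
import Cfsg.Agent.Lib.InvolChar.Basic

set_option autoImplicit false
open Cfsg
open Cfsg.Agent.Lib.InvolChar.Basic

namespace Cfsg.Agent.S3190

/-- Let p be an odd prime and, inside a finite group, let P be a p-subgroup normalized by a Klein four-group T. Let R be a subgroup of P, normal in P and normalized by T, such that P is the product of R with the centralizer of T in P. If T centralizes the centre of P, then T centralizes the centre of R. -/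
theorem result {X : Type*} [Group X] [Finite X]
    {p : ℕ} (hp : p.Prime) (hodd : Odd p) (P T R : Subgroup X) (hP : IsPGroup p ↥P) (hT : IsKleinFour ↥T)
    (hTP : T ≤ Subgroup.normalizer (P : Set X)) (hRP : R ≤ P) (hRn : (R.subgroupOf P).Normal)
    (hTR : T ≤ Subgroup.normalizer (R : Set X)) (hfac : R ⊔ (P ⊓ Subgroup.centralizer (T : Set X)) = P)
    (hZ : T ≤ Subgroup.centralizer (((Subgroup.center ↥P).map P.subtype : Subgroup X) : Set X)) :
    T ≤ Subgroup.centralizer (((Subgroup.center ↥R).map R.subtype : Subgroup X) : Set X) := by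
  classical
  haveI : Fact p.Prime := ⟨hp⟩
  intro t ht
  have htt : t * t = 1 := congrArg Subtype.val (IsKleinFour.mul_self (⟨t, ht⟩ : T))
  have hti : t⁻¹ = t := inv_eq_of_mul_eq_one_left htt
  set Z : Subgroup X := (Subgroup.center ↥R).map R.subtype with hZdef
  have hZmem : ∀ z, z ∈ Z ↔ z ∈ R ∧ ∀ u ∈ R, u * z = z * u := fun z => mem_map_center
  -- elements normalizing R normalize Z
  have hZnorm : ∀ x : X, (∀ r ∈ R, x * r * x⁻¹ ∈ R) → (∀ r ∈ R, x⁻¹ * r * x ∈ R) →
      ∀ z ∈ Z, x * z * x⁻¹ ∈ Z := by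
    intro x h1 h2 z hz
    rw [hZmem] at hz ⊢
    refine ⟨h1 z hz.1, fun u hu => ?_⟩
    have h3 := hz.2 _ (h2 u hu)
    calc u * (x * z * x⁻¹) = x * ((x⁻¹ * u * x) * z) * x⁻¹ := by group
      _ = x * (z * (x⁻¹ * u * x)) * x⁻¹ := by rw [h3]
      _ = x * z * x⁻¹ * u := by group
  have hRconj : ∀ c ∈ P, ∀ r ∈ R, c * r * c⁻¹ ∈ R := by
    intro c hc r hr
    have := hRn.conj_mem ⟨r, hRP hr⟩ (by rw [Subgroup.mem_subgroupOf]; exact hr) ⟨c, hc⟩
    rw [Subgroup.mem_subgroupOf] at this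
    simpa using this
  have hRconjP : ∀ c ∈ P, ∀ z ∈ Z, c * z * c⁻¹ ∈ Z := by
    intro c hc
    apply hZnorm c (hRconj c hc)
    intro r hr
    simpa using hRconj c⁻¹ (P.inv_mem hc) r hr
  have hRconjT : ∀ z ∈ Z, t * z * t⁻¹ ∈ Z := by
    have h1 := Subgroup.le_normalizer_iff.1 hTR
    apply hZnorm t (h1 t ht)
    intro r hr
    simpa using h1 t⁻¹ (T.inv_mem ht) r hr
  -- the inverted part
  let M : Subgroup X :=
    { carrier := {z | z ∈ Z ∧ t * z * t⁻¹ = z⁻¹}
      mul_mem' := by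
        rintro a b ⟨ha, ha'⟩ ⟨hb, hb'⟩
        refine ⟨Z.mul_mem ha hb, ?_⟩
        have hc : b * a = a * b := ((hZmem a).1 ha).2 b ((hZmem b).1 hb).1
        calc t * (a * b) * t⁻¹ = (t * a * t⁻¹) * (t * b * t⁻¹) := by group
          _ = a⁻¹ * b⁻¹ := by rw [ha', hb']
          _ = (b * a)⁻¹ := by group
          _ = (a * b)⁻¹ := by rw [hc]
      one_mem' := ⟨Z.one_mem, by simp⟩
      inv_mem' := by
        rintro a ⟨ha, ha'⟩
        refine ⟨Z.inv_mem ha, ?_⟩
        calc t * a⁻¹ * t⁻¹ = (t * a * t⁻¹)⁻¹ := by group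
          _ = a⁻¹⁻¹ := by rw [ha'] }
  have hMmem : ∀ z, z ∈ M ↔ z ∈ Z ∧ t * z * t⁻¹ = z⁻¹ := fun z => Iff.rfl
  have hMP : M ≤ P := by
    intro z hz
    exact hRP ((hZmem z).1 hz.1).1
  have hMn : P ≤ Subgroup.normalizer (M : Set X) := by
    rw [← hfac]
    refine sup_le ?_ ?_
    · rw [Subgroup.le_normalizer_iff]
      intro r hr m hm
      have h1 : r * m = m * r := ((hZmem m).1 hm.1).2 r hr
      have h2 : r * m * r⁻¹ = m := by rw [h1]; group
      rw [h2]
      exact hm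
    · rw [Subgroup.le_normalizer_iff]
      rintro c ⟨hcP, hcC⟩ m ⟨hmZ, hmt⟩
      refine ⟨hRconjP c hcP m hmZ, ?_⟩
      have hcC' : c ∈ Subgroup.centralizer (T : Set X) := hcC
      rw [Subgroup.mem_centralizer_iff] at hcC'
      have h1 : t * c = c * t := hcC' t ht
      calc t * (c * m * c⁻¹) * t⁻¹
          = (t * c) * m * (c⁻¹ * t⁻¹) := by group
        _ = (t * c) * m * (t * c)⁻¹ := by group
        _ = (c * t) * m * (c * t)⁻¹ := by rw [h1]
        _ = c * (t * m * t⁻¹) * c⁻¹ := by group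
        _ = c * m⁻¹ * c⁻¹ := by rw [hmt]
        _ = (c * m * c⁻¹)⁻¹ := by group
  have hMbot : M = ⊥ := by
    by_contra hne
    obtain ⟨w, hwM, hw1, hwc⟩ := exists_fixed_of_normalized hP (hP.to_le hMP)
      (fun x hx m hm => Subgroup.le_normalizer_iff.1 hMn x hx m hm) hne
    have hwZP : w ∈ (Subgroup.center ↥P).map P.subtype :=
      mem_map_center.2 ⟨hMP hwM, hwc⟩
    have h1 := hZ ht
    rw [Subgroup.mem_centralizer_iff] at h1
    have h2 := h1 w hwZP
    have h3 : t * w * t⁻¹ = w := by rw [← h2]; group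
    have h4 : w * w = 1 := by
      have h5 := hwM.2
      rw [h3] at h5
      calc w * w = w⁻¹ * w := by rw [← h5]
        _ = 1 := by group
    apply hw1
    exact eq_one_of_mul_self_of_odd hp hodd (hP.to_le (by
      rw [Subgroup.zpowers_le]; exact hMP hwM)) h4
  rw [Subgroup.mem_centralizer_iff]
  intro z hz
  rw [SetLike.mem_coe] at hz
  have hu : z⁻¹ * (t * z * t⁻¹) ∈ M := by
    refine ⟨Z.mul_mem (Z.inv_mem hz) (hRconjT z hz), ?_⟩
    rw [hti]
    calc t * (z⁻¹ * (t * z * t)) * t = t * z⁻¹ * t * z * (t * t) := by group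
      _ = t * z⁻¹ * t * z := by rw [htt, mul_one]
      _ = t⁻¹ * z⁻¹ * t⁻¹ * z := by rw [hti]
      _ = (z⁻¹ * (t * z * t))⁻¹ := by group
  rw [hMbot, Subgroup.mem_bot] at hu
  have h6 : t * z * t⁻¹ = z := by
    calc t * z * t⁻¹ = z * (z⁻¹ * (t * z * t⁻¹)) := by group
      _ = z := by rw [hu, mul_one]
  calc z * t = (t * z * t⁻¹) * t := by rw [h6]
    _ = t * z := by group

end Cfsg.Agent.S3190
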