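import Cfsg.Statements.S3195
import Cfsg.Agent.S0199
import Cfsg.Agent.Lib.Core.Basic

set_option autoImplicit false
open Cfsg

namespace Cfsg.Agent.S3195

variable {G : Type*} [Group G]

private lemma core (a b ρ σ : G) (haa : a * a = 1) (hbb : b * b = 1) (hab : b * a = a * b)
    (haρ : a * ρ = ρ * a) (hbρ : b * ρ = ρ⁻¹ * b) (hbσ : b * σ = σ * b) (haσ : a * σ = σ⁻¹ * a)
    (hρ4 : ρ * ρ * (ρ * ρ) ≠ 1) (hσ8 : σ * σ * (σ * σ) * (σ * σ * (σ * σ)) ≠ 1)
    (h1 : ∀ t, t = ρ * σ⁻¹ * a * (ρ * σ⁻¹)⁻¹ → (a * t = t * a) ∨ (b * t = t * b) ∨ ((a * b) * t = t * (a * b)))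
    (h2 : ∀ t, t = σ * ρ⁻¹ * b * (σ * ρ⁻¹)⁻¹ → (a * t = t * a) ∨ (b * t = t * b) ∨ ((a * b) * t = t * (a * b)))
    (h3 : ∀ t, t = σ * ρ⁻¹ * (a * b) * (σ * ρ⁻¹)⁻¹ → (a * t = t * a) ∨ (b * t = t * b) ∨ ((a * b) * t = t * (a * b))) :
    False := by
  have e1 : a * ρ⁻¹ = ρ⁻¹ * a := by
    calc a * ρ⁻¹ = ρ⁻¹ * (ρ * a) * ρ⁻¹ := by group
      _ = ρ⁻¹ * (a * ρ) * ρ⁻¹ := by rw [haρ]
      _ = ρ⁻¹ * a := by group
  have e2 : b * ρ⁻¹ = ρ * b := by
    calc b * ρ⁻¹ = ρ * (ρ⁻¹ * b) * ρ⁻¹ := by group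
      _ = ρ * (b * ρ) * ρ⁻¹ := by rw [hbρ]
      _ = ρ * b := by group
  have e3 : b * σ⁻¹ = σ⁻¹ * b := by
    calc b * σ⁻¹ = σ⁻¹ * (σ * b) * σ⁻¹ := by group
      _ = σ⁻¹ * (b * σ) * σ⁻¹ := by rw [hbσ]
      _ = σ⁻¹ * b := by group
  have e4 : a * σ⁻¹ = σ * a := by
    calc a * σ⁻¹ = σ * (σ⁻¹ * a) * σ⁻¹ := by group
      _ = σ * (a * σ) * σ⁻¹ := by rw [haσ]
      _ = σ * a := by group
  -- two-sided forms for right-nested words
  have r1 : ∀ x, a * (ρ * x) = ρ * (a * x) := fun x => by rw [← mul_assoc, haρ, mul_assoc]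
  have r2 : ∀ x, a * (ρ⁻¹ * x) = ρ⁻¹ * (a * x) := fun x => by rw [← mul_assoc, e1, mul_assoc]
  have r3 : ∀ x, a * (σ * x) = σ⁻¹ * (a * x) := fun x => by rw [← mul_assoc, haσ, mul_assoc]
  have r4 : ∀ x, a * (σ⁻¹ * x) = σ * (a * x) := fun x => by rw [← mul_assoc, e4, mul_assoc]
  have r5 : ∀ x, b * (ρ * x) = ρ⁻¹ * (b * x) := fun x => by rw [← mul_assoc, hbρ, mul_assoc]
  have r6 : ∀ x, b * (ρ⁻¹ * x) = ρ * (b * x) := fun x => by rw [← mul_assoc, e2, mul_assoc]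
  have r7 : ∀ x, b * (σ * x) = σ * (b * x) := fun x => by rw [← mul_assoc, hbσ, mul_assoc]
  have r8 : ∀ x, b * (σ⁻¹ * x) = σ⁻¹ * (b * x) := fun x => by rw [← mul_assoc, e3, mul_assoc]
  have r9 : ∀ x, a * (a * x) = x := fun x => by rw [← mul_assoc, haa, one_mul]
  have r10 : ∀ x, b * (b * x) = x := fun x => by rw [← mul_assoc, hbb, one_mul]
  have r11 : ∀ x, b * (a * x) = a * (b * x) := fun x => by rw [← mul_assoc, hab, mul_assoc]
  -- normal forms
  have t1 := h1 _ rfl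
  have t2 := h2 _ rfl
  have t3 := h3 _ rfl
  simp only [mul_inv_rev, inv_inv, mul_assoc, r1, r2, r3, r4, r5, r6, r7, r8, r9, r10, r11, haa, hbb, hab, haρ, hbρ, hbσ, haσ, e1, e2, e3, e4, mul_one] at t1 t2 t3
  -- abbreviations
  obtain ⟨u, hu⟩ : ∃ u, u = ρ * ρ := ⟨_, rfl⟩
  obtain ⟨v, hv⟩ : ∃ v, v = σ * σ := ⟨_, rfl⟩
  have hu4 : u * u ≠ 1 := by rw [hu]; exact hρ4
  have hv8 : v * v * (v * v) ≠ 1 := by rw [hv]; exact hσ8
  have hv4 : v * v ≠ 1 := fun h => hv8 (by rw [h, one_mul])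
  have key : u * u = v * v → False := by
    intro h
    have h1 : a * (u * u) = (u * u) * a := by
      simp only [hu, mul_assoc, r1, haρ]
    have h2 : a * (v * v) = (v⁻¹ * v⁻¹) * a := by
      simp only [hv, mul_assoc, r3, mul_inv_rev, haσ]
    rw [h] at h1
    rw [h1] at h2
    have h3 := mul_right_cancel h2
    apply hv8
    have h4 : (v⁻¹ * v⁻¹)⁻¹ = v * v := by simp
    calc v * v * (v * v) = (v⁻¹ * v⁻¹)⁻¹ * (v * v) := by rw [h4]
      _ = (v * v)⁻¹ * (v * v) := by rw [← h3]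
      _ = 1 := by group
  -- conversion of the disjuncts
  have A1 : ρ * (σ * (σ * ρ⁻¹)) = ρ * (σ⁻¹ * (σ⁻¹ * ρ⁻¹)) → False := by
    intro h
    apply hv4
    have h2 : v = v⁻¹ := by
      calc v = ρ⁻¹ * (ρ * (σ * (σ * ρ⁻¹))) * ρ := by rw [hv]; group
        _ = ρ⁻¹ * (ρ * (σ⁻¹ * (σ⁻¹ * ρ⁻¹))) * ρ := by rw [h]
        _ = v⁻¹ := by rw [hv]; group
    calc v * v = v * v⁻¹ := by rw [← h2]
      _ = 1 := by group
  have B1 : ρ⁻¹ * (σ⁻¹ * (σ⁻¹ * (ρ * (a * b)))) = ρ * (σ⁻¹ * (σ⁻¹ * (ρ⁻¹ * (a * b)))) → u * v = v * u := by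
    intro h
    simp only [← mul_assoc] at h
    have h1 := mul_right_cancel (mul_right_cancel h)
    have h2 : v⁻¹ * u = u * v⁻¹ := by
      calc v⁻¹ * u = ρ * (ρ⁻¹ * σ⁻¹ * σ⁻¹ * ρ) * ρ := by rw [hv, hu]; group
        _ = ρ * (ρ * σ⁻¹ * σ⁻¹ * ρ⁻¹) * ρ := by rw [h1]
        _ = u * v⁻¹ := by rw [hv, hu]; group
    calc u * v = v * (v⁻¹ * u) * v := by group
      _ = v * (u * v⁻¹) * v := by rw [h2]
      _ = v * u := by group
  have C1 : ρ⁻¹ * (σ * (σ * (ρ * b))) = ρ * (σ⁻¹ * (σ⁻¹ * (ρ⁻¹ * b))) → v * u = u * v⁻¹ := by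
    intro h
    simp only [← mul_assoc] at h
    have h1 := mul_right_cancel h
    calc v * u = ρ * (ρ⁻¹ * σ * σ * ρ) * ρ := by rw [hv, hu]; group
      _ = ρ * (ρ * σ⁻¹ * σ⁻¹ * ρ⁻¹) * ρ := by rw [h1]
      _ = u * v⁻¹ := by rw [hv, hu]; group
  have A2 : σ⁻¹ * (ρ⁻¹ * (ρ⁻¹ * (σ * (a * b)))) = σ * (ρ⁻¹ * (ρ⁻¹ * (σ⁻¹ * (a * b)))) → u * v = v * u := by
    intro h
    simp only [← mul_assoc] at h
    have h1 := mul_right_cancel (mul_right_cancel h)
    have h2 : u⁻¹ * v = v * u⁻¹ := by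
      calc u⁻¹ * v = σ * (σ⁻¹ * ρ⁻¹ * ρ⁻¹ * σ) * σ := by rw [hv, hu]; group
        _ = σ * (σ * ρ⁻¹ * ρ⁻¹ * σ⁻¹) * σ := by rw [h1]
        _ = v * u⁻¹ := by rw [hv, hu]; group
    calc u * v = u * (v * u⁻¹) * u := by group
      _ = u * (u⁻¹ * v) * u := by rw [h2]
      _ = v * u := by group
  have B2 : σ * (ρ * (ρ * σ⁻¹)) = σ * (ρ⁻¹ * (ρ⁻¹ * σ⁻¹)) → False := by
    intro h
    apply hu4
    have h2 : u = u⁻¹ := by
      calc u = σ⁻¹ * (σ * (ρ * (ρ * σ⁻¹))) * σ := by rw [hu]; group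
        _ = σ⁻¹ * (σ * (ρ⁻¹ * (ρ⁻¹ * σ⁻¹))) * σ := by rw [h]
        _ = u⁻¹ := by rw [hu]; group
    calc u * u = u * u⁻¹ := by rw [← h2]
      _ = 1 := by group
  have C2 : σ⁻¹ * (ρ * (ρ * (σ * a))) = σ * (ρ⁻¹ * (ρ⁻¹ * (σ⁻¹ * a))) → u * v = v * u⁻¹ := by
    intro h
    simp only [← mul_assoc] at h
    have h1 := mul_right_cancel h
    calc u * v = σ * (σ⁻¹ * ρ * ρ * σ) * σ := by rw [hv, hu]; group
      _ = σ * (σ * ρ⁻¹ * ρ⁻¹ * σ⁻¹) * σ := by rw [h1]
      _ = v * u⁻¹ := by rw [hv, hu]; group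
  have A3 : σ⁻¹ * (ρ⁻¹ * (ρ⁻¹ * (σ⁻¹ * b))) = σ * (ρ⁻¹ * (ρ⁻¹ * (σ * b))) → u⁻¹ = v * u⁻¹ * v := by
    intro h
    simp only [← mul_assoc] at h
    have h1 := mul_right_cancel h
    calc u⁻¹ = σ * (σ⁻¹ * ρ⁻¹ * ρ⁻¹ * σ⁻¹) * σ := by rw [hu]; group
      _ = σ * (σ * ρ⁻¹ * ρ⁻¹ * σ) * σ := by rw [h1]
      _ = v * u⁻¹ * v := by rw [hv, hu]; group
  have B3 : σ * (ρ * (ρ * (σ * a))) = σ * (ρ⁻¹ * (ρ⁻¹ * (σ * a))) → False := by
    intro h
    apply hu4
    simp only [← mul_assoc] at h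
    have h1 := mul_right_cancel h
    have h2 : u = u⁻¹ := by
      calc u = σ⁻¹ * (σ * ρ * ρ * σ) * σ⁻¹ := by rw [hu]; group
        _ = σ⁻¹ * (σ * ρ⁻¹ * ρ⁻¹ * σ) * σ⁻¹ := by rw [h1]
        _ = u⁻¹ := by rw [hu]; group
    calc u * u = u * u⁻¹ := by rw [← h2]
      _ = 1 := by group
  have C3 : σ⁻¹ * (ρ * (ρ * σ⁻¹)) = σ * (ρ⁻¹ * (ρ⁻¹ * σ)) → u = v * u⁻¹ * v := by
    intro h
    calc u = σ * (σ⁻¹ * (ρ * (ρ * σ⁻¹))) * σ := by rw [hu]; group
      _ = σ * (σ * (ρ⁻¹ * (ρ⁻¹ * σ))) * σ := by rw [h]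
      _ = v * u⁻¹ * v := by rw [hv, hu]; group
  -- the case analysis
  have hcommcase : u * v = v * u → False := by
    intro hc
    have hc' : u⁻¹ * v = v * u⁻¹ := by
      calc u⁻¹ * v = u⁻¹ * (v * u) * u⁻¹ := by group
        _ = u⁻¹ * (u * v) * u⁻¹ := by rw [hc]
        _ = v * u⁻¹ := by group
    rcases t3 with h | h | h
    · have h1 := A3 h
      apply hv4
      rw [mul_assoc, hc', ← mul_assoc] at h1
      have h2 : (v * v) * u⁻¹ = 1 * u⁻¹ := by rw [one_mul]; exact h1.symm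
      exact mul_right_cancel h2
    · exact B3 h
    · have h1 := C3 h
      apply key
      rw [mul_assoc, hc', ← mul_assoc] at h1
      calc u * u = (v * v * u⁻¹) * u := by rw [← h1]
        _ = v * v := by group
  rcases t1 with h | h | h
  · exact A1 h
  · exact hcommcase (B1 h)
  · have h1 := C1 h
    rcases t2 with h' | h' | h'
    · have h2 := A2 h'
      apply hv4
      have h3 : u * v = u * v⁻¹ := by rw [← h1, h2]
      have h4 : v = v⁻¹ := mul_left_cancel h3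
      calc v * v = v * v⁻¹ := by rw [← h4]
        _ = 1 := by group
    · exact B2 h'
    · have h2 := C2 h'
      apply key
      have h3 : u = v * u * v := by
        calc u = u * v⁻¹ * v := by group
          _ = v * u * v := by rw [← h1]
      calc u * u = (v * (u * v)) * u := by rw [← mul_assoc, ← h3]
        _ = (v * (v * u⁻¹)) * u := by rw [h2]
        _ = v * v := by group

private lemma eq_one_of_odd_pow [Finite G] {x : G} (hx : Odd (orderOf x)) (k : ℕ) (h : x ^ 2 ^ k = 1) : x = 1 := by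
  have h2 : orderOf x ∣ 2 ^ k := orderOf_dvd_of_pow_eq_one h
  have h3 : Nat.Coprime (orderOf x) (2 ^ k) := by
    apply Nat.Coprime.pow_right
    exact hx.coprime_two_right
  exact orderOf_eq_one_iff.1 (Nat.Coprime.eq_one_of_dvd h3 h2)

/-- Let A be a Klein four-subgroup of a finite group G. If every G-conjugate of every involution of A commutes with some involution of A (its centralizer meets A nontrivially), then A meets the largest normal 2-subgroup O₂(G) nontrivially. -/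
theorem result {G : Type*} [Group G] [Finite G]
    (A : Subgroup G) (hA : IsKleinFour ↥A)
    (h : ∀ a ∈ A, a ≠ 1 → ∀ g : G, A ⊓ Subgroup.centralizer ({g * a * g⁻¹} : Set G) ≠ ⊥) :
    A ⊓ Cfsg.pCore 2 G ≠ ⊥ := by
  classical
  intro hbot
  haveI : Fact (Nat.Prime 2) := ⟨Nat.prime_two⟩
  haveI := hA
  have hsq : ∀ x ∈ A, x * x = 1 := fun x hx =>
    congrArg Subtype.val (IsKleinFour.mul_self (⟨x, hx⟩ : A))
  have hcomm : ∀ x ∈ A, ∀ y ∈ A, x * y = y * x := by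
    intro x hx y hy
    have : IsMulCommutative A := IsKleinFour.isMulCommutative
    exact congrArg Subtype.val (this.is_comm.comm ⟨x, hx⟩ ⟨y, hy⟩)
  have hnotcore : ∀ e ∈ A, e ≠ 1 → e ∉ Cfsg.pCore 2 G := by
    intro e he he1 hc
    have : e ∈ A ⊓ Cfsg.pCore 2 G := ⟨he, hc⟩
    rw [hbot, Subgroup.mem_bot] at this
    exact he1 this
  -- existence of an odd element inverted by `e`
  have hexinv : ∀ e ∈ A, e ≠ 1 → ∃ ρ : G, ρ ≠ 1 ∧ Odd (orderOf ρ) ∧ e * ρ = ρ⁻¹ * e := by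
    intro e he he1
    by_contra hno
    apply hnotcore e he he1
    have hee := hsq e he
    have hei : e⁻¹ = e := inv_eq_of_mul_eq_one_left hee
    have hordE : orderOf e = 2 := orderOf_eq_prime (by rw [pow_two]; exact hee) he1
    have hX : IsPGroup 2 (Subgroup.zpowers e) := by
      apply IsPGroup.of_card (n := 1)
      rw [Nat.card_zpowers, hordE, pow_one]
    have hBS : ∀ g : G, IsPGroup 2 ↥(Subgroup.zpowers e ⊔ (Subgroup.zpowers e).map (MulAut.conj g).toMonoidHom) := by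
      intro g
      obtain ⟨e', he'⟩ : ∃ e', e' = g * e * g⁻¹ := ⟨_, rfl⟩
      have he'e' : e' * e' = 1 := by
        rw [he']
        calc g * e * g⁻¹ * (g * e * g⁻¹) = g * (e * e) * g⁻¹ := by group
          _ = 1 := by rw [hee]; group
      have he'i : e'⁻¹ = e' := inv_eq_of_mul_eq_one_left he'e'
      obtain ⟨w, hw⟩ : ∃ w, w = e * e' := ⟨_, rfl⟩
      have hinv : e * w * e⁻¹ = w⁻¹ := by
        rw [hw, hei, mul_inv_rev, hei, he'i, ← mul_assoc, hee, one_mul]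
      obtain ⟨k, m, hm, hkm⟩ := Nat.exists_eq_two_pow_mul_odd (orderOf_pos w).ne'
      by_cases hm1 : m = 1
      · have hwp : IsPGroup 2 (Subgroup.zpowers w) := by
          apply IsPGroup.of_card (n := k)
          rw [Nat.card_zpowers, hkm, hm1, mul_one]
        have hXN : Subgroup.zpowers e ≤ Subgroup.normalizer (Subgroup.zpowers w : Set G) := by
          rw [Subgroup.zpowers_le, Subgroup.mem_normalizer_iff]
          intro y
          have hmem : ∀ y ∈ Subgroup.zpowers w, e * y * e⁻¹ ∈ Subgroup.zpowers w := by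
            intro y hy
            obtain ⟨i, rfl⟩ := Subgroup.mem_zpowers_iff.1 hy
            have := map_zpow (MulAut.conj e) w i
            simp only [MulAut.conj_apply] at this
            rw [this, hinv]
            exact Subgroup.zpow_mem _ (inv_mem (Subgroup.mem_zpowers w)) i
          refine ⟨hmem y, fun hy => ?_⟩
          have := hmem _ hy
          have e2 : e * (e * y * e⁻¹) * e⁻¹ = y := by
            rw [hei]
            calc e * (e * y * e) * e = (e * e) * y * (e * e) := by group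
              _ = y := by rw [hee]; group
          rwa [e2] at this
        have hsup := IsPGroup.to_sup_of_normal_right' hX hwp hXN
        refine hsup.to_le (sup_le le_sup_left ?_)
        rintro _ ⟨x, hx, rfl⟩
        obtain ⟨i, rfl⟩ := Subgroup.mem_zpowers_iff.1 hx
        have e3 : (MulAut.conj g).toMonoidHom (e ^ i) = e' ^ i := by
          rw [map_zpow, he']
          rfl
        rw [e3]
        apply Subgroup.zpow_mem
        have e4 : e' = e * w := by rw [hw, ← mul_assoc, hee, one_mul]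
        rw [e4]
        exact Subgroup.mul_mem _ (Subgroup.mem_sup_left (Subgroup.mem_zpowers e))
          (Subgroup.mem_sup_right (Subgroup.mem_zpowers w))
      · exfalso
        apply hno
        refine ⟨w ^ 2 ^ k, ?_, ?_, ?_⟩
        · intro h1
          have h2 := orderOf_dvd_of_pow_eq_one h1
          rw [hkm] at h2
          have h3 : 2 ^ k * m ∣ 2 ^ k * 1 := by rwa [mul_one]
          have h4 := Nat.dvd_of_mul_dvd_mul_left (by positivity) h3
          exact hm1 (Nat.dvd_one.1 h4)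
        · have h1 : (w ^ 2 ^ k) ^ m = 1 := by rw [← pow_mul, ← hkm, pow_orderOf_eq_one]
          exact Odd.of_dvd_nat hm (orderOf_dvd_of_pow_eq_one h1)
        · have h1 := map_pow (MulAut.conj e) w (2 ^ k)
          simp only [MulAut.conj_apply] at h1
          rw [hinv] at h1
          calc e * w ^ 2 ^ k = e * w ^ 2 ^ k * e⁻¹ * e := by group
            _ = (w⁻¹) ^ 2 ^ k * e := by rw [h1]
            _ = (w ^ 2 ^ k)⁻¹ * e := by rw [inv_pow]
    obtain ⟨N, hNn, hNp, hXN⟩ := Cfsg.Agent.S0199.result (Subgroup.zpowers e) hX hBS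
    exact Cfsg.Agent.Lib.Core.Basic.le_pCore hNn hNp (hXN (Subgroup.mem_zpowers e))
  -- partners
  have hpartner : ∀ e ∈ A, e ≠ 1 → ∀ ρ : G, ρ ≠ 1 → Odd (orderOf ρ) → e * ρ = ρ⁻¹ * e →
      ∃ f ∈ A, f ≠ 1 ∧ f ≠ e ∧ f * ρ = ρ * f := by
    intro e he he1 ρ hρ1 hρo hinv
    obtain ⟨s, hs⟩ := hρo
    have hinv' : e * ρ⁻¹ = ρ * e := by
      calc e * ρ⁻¹ = ρ * (ρ⁻¹ * e) * ρ⁻¹ := by group
        _ = ρ * (e * ρ) * ρ⁻¹ := by rw [hinv]
        _ = ρ * e := by group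
    have hsemi : SemiconjBy e ρ⁻¹ ρ := hinv'
    have hg : e * (ρ ^ (s + 1))⁻¹ = ρ ^ (s + 1) * e := by
      have := (hsemi.pow_right (s + 1)).eq
      rwa [inv_pow] at this
    have hconj : ρ ^ (s + 1) * e * (ρ ^ (s + 1))⁻¹ = ρ * e := by
      have hp : ρ ^ (s + 1) * ρ ^ (s + 1) = ρ := by
        rw [← pow_add]
        have : s + 1 + (s + 1) = orderOf ρ + 1 := by omega
        rw [this, pow_succ, pow_orderOf_eq_one, one_mul]
      rw [mul_assoc, hg, ← mul_assoc, hp]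
    have hne := h e he he1 (ρ ^ (s + 1))
    rw [hconj, Subgroup.ne_bot_iff_exists_ne_one] at hne
    obtain ⟨⟨f, hfA, hfC⟩, hf1⟩ := hne
    have hf1' : f ≠ 1 := fun hh => hf1 (Subtype.ext hh)
    have hfC' : f ∈ Subgroup.centralizer ({ρ * e} : Set G) := hfC
    rw [Subgroup.mem_centralizer_singleton_iff] at hfC'
    have hfe := hcomm f hfA e he
    have hfρ : f * ρ = ρ * f := by
      apply mul_right_cancel (b := e)
      calc f * ρ * e = f * (ρ * e) := by group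
        _ = ρ * e * f := hfC'
        _ = ρ * (e * f) := by group
        _ = ρ * (f * e) := by rw [hfe]
        _ = ρ * f * e := by group
    refine ⟨f, hfA, hf1', ?_, hfρ⟩
    rintro rfl
    apply hρ1
    have h1 : ρ⁻¹ = ρ := by
      have := hinv.symm.trans hfρ
      exact mul_right_cancel this
    have h2 : ρ ^ 2 ^ 1 = 1 := by
      rw [pow_one, pow_two]
      nth_rewrite 1 [← h1]
      group
    exact eq_one_of_odd_pow ⟨s, hs⟩ 1 h2
  -- choose everything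
  have hcard : Nat.card A = 4 := IsKleinFour.card_four
  haveI : Nontrivial A := Finite.one_lt_card_iff_nontrivial.1 (by rw [hcard]; norm_num)
  obtain ⟨⟨e₀, he₀⟩, he₀1⟩ := exists_ne (1 : A)
  have he₀1' : e₀ ≠ 1 := fun hh => he₀1 (Subtype.ext hh)
  obtain ⟨ρ, hρ1, hρo, hρi⟩ := hexinv e₀ he₀ he₀1'
  obtain ⟨a, haA, ha1, hae, haρ⟩ := hpartner e₀ he₀ he₀1' ρ hρ1 hρo hρi
  obtain ⟨σ, hσ1, hσo, hσi⟩ := hexinv a haA ha1
  obtain ⟨b, hbA, hb1, hba, hbσ⟩ := hpartner a haA ha1 σ hσ1 hσo hσi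
  -- the three elements of `A`
  have hmem : ∀ f ∈ A, f ≠ 1 → f = a ∨ f = b ∨ f = a * b := by
    intro f hf hf1
    by_cases h1 : f = a
    · exact Or.inl h1
    by_cases h2 : f = b
    · exact Or.inr (Or.inl h2)
    right; right
    have h3 := IsKleinFour.eq_mul_of_ne_all (G := A) (x := ⟨a, haA⟩) (y := ⟨b, hbA⟩) (z := ⟨f, hf⟩)
      (fun hh => ha1 (congrArg Subtype.val hh)) (fun hh => hb1 (congrArg Subtype.val hh))
      (fun hh => hba (congrArg Subtype.val hh).symm) (fun hh => hf1 (congrArg Subtype.val hh))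
      (fun hh => h1 (congrArg Subtype.val hh)) (fun hh => h2 (congrArg Subtype.val hh))
    exact congrArg Subtype.val h3
  have haa := hsq a haA
  have hbb := hsq b hbA
  have hab : b * a = a * b := hcomm b hbA a haA
  have hbρ : b * ρ = ρ⁻¹ * b := by
    rcases hmem e₀ he₀ he₀1' with h1 | h1 | h1
    · exact absurd h1.symm hae
    · rw [← h1]; exact hρi
    · rw [h1] at hρi
      have hai : a⁻¹ = a := inv_eq_of_mul_eq_one_left haa
      have hρa' : ρ⁻¹ * a = a * ρ⁻¹ := by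
        calc ρ⁻¹ * a = ρ⁻¹ * (a * ρ) * ρ⁻¹ := by group
          _ = ρ⁻¹ * (ρ * a) * ρ⁻¹ := by rw [haρ]
          _ = a * ρ⁻¹ := by group
      calc b * ρ = a * (a * b * ρ) := by rw [← mul_assoc, ← mul_assoc, haa, one_mul]
        _ = a * (ρ⁻¹ * (a * b)) := by rw [hρi]
        _ = (a * ρ⁻¹) * (a * b) := by group
        _ = (ρ⁻¹ * a) * (a * b) := by rw [hρa']
        _ = ρ⁻¹ * ((a * a) * b) := by group
        _ = ρ⁻¹ * b := by rw [haa, one_mul]
  have habA : a * b ∈ A := A.mul_mem haA hbA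
  have hab1 : a * b ≠ 1 := by
    intro hh
    apply hba
    have hai : a⁻¹ = a := inv_eq_of_mul_eq_one_left haa
    have := eq_inv_of_mul_eq_one_right hh
    rw [hai] at this
    exact this
  have hH : ∀ e ∈ A, e ≠ 1 → ∀ g t : G, t = g * e * g⁻¹ →
      (a * t = t * a) ∨ (b * t = t * b) ∨ ((a * b) * t = t * (a * b)) := by
    intro e he he1 g t ht
    have hne := h e he he1 g
    rw [← ht, Subgroup.ne_bot_iff_exists_ne_one] at hne
    obtain ⟨⟨f, hfA, hfC⟩, hf1⟩ := hne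
    have hf1' : f ≠ 1 := fun hh => hf1 (Subtype.ext hh)
    have hfC' : f ∈ Subgroup.centralizer ({t} : Set G) := hfC
    rw [Subgroup.mem_centralizer_singleton_iff] at hfC'
    rcases hmem f hfA hf1' with rfl | rfl | rfl
    · exact Or.inl hfC'
    · exact Or.inr (Or.inl hfC')
    · exact Or.inr (Or.inr hfC')
  refine core a b ρ σ haa hbb hab haρ hbρ hbσ hσi ?_ ?_ (hH a haA ha1 _) (hH b hbA hb1 _) (hH (a * b) habA hab1 _)
  · intro hh
    apply hρ1
    apply eq_one_of_odd_pow hρo 2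
    rw [← hh]
    simp [pow_succ, mul_assoc]
  · intro hh
    apply hσ1
    apply eq_one_of_odd_pow hσo 3
    rw [← hh]
    simp [pow_succ, mul_assoc]

end Cfsg.Agent.S3195
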