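import Cfsg.Statements.S3196
import Cfsg.Agent.S0199
import Cfsg.Agent.Lib.Core.Basic

set_option autoImplicit false
open Cfsg

namespace Cfsg.Agent.S3196

variable {G : Type*} [Group G]

/-- `A` and `B` commute elementwise. -/
private def Cm (A B : Subgroup G) : Prop := ∀ a ∈ A, ∀ b ∈ B, a * b = b * a

private lemma Cm.symm {A B : Subgroup G} (h : Cm A B) : Cm B A :=
  fun b hb a ha => (h a ha b hb).symm

private lemma cm_iff {A B : Subgroup G} : Cm A B ↔ B ≤ Subgroup.centralizer (A : Set G) := by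
  constructor
  · intro h b hb
    rw [Subgroup.mem_centralizer_iff]
    intro a ha
    exact h a ha b hb
  · intro h a ha b hb
    exact (Subgroup.mem_centralizer_iff.1 (h hb)) a ha

private lemma Cm.sup_right {A B C : Subgroup G} (h1 : Cm A B) (h2 : Cm A C) : Cm A (B ⊔ C) :=
  cm_iff.2 (sup_le (cm_iff.1 h1) (cm_iff.1 h2))

private lemma Cm.mono_right {A B C : Subgroup G} (h1 : Cm A B) (h : C ≤ B) : Cm A C :=
  fun a ha b hb => h1 a ha b (h hb)

private lemma mem_sup_of_cm {X Y : Subgroup G} (h : Cm X Y) {z : G} (hz : z ∈ X ⊔ Y) :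
    ∃ x ∈ X, ∃ y ∈ Y, z = x * y := by
  rw [Subgroup.sup_eq_closure] at hz
  induction hz using Subgroup.closure_induction with
  | mem g hg =>
    rcases hg with hg | hg
    · exact ⟨g, hg, 1, Y.one_mem, by simp⟩
    · exact ⟨1, X.one_mem, g, hg, by simp⟩
  | one => exact ⟨1, X.one_mem, 1, Y.one_mem, by simp⟩
  | mul a b _ _ ha hb =>
    obtain ⟨x, hx, y, hy, rfl⟩ := ha
    obtain ⟨x', hx', y', hy', rfl⟩ := hb
    refine ⟨x * x', X.mul_mem hx hx', y * y', Y.mul_mem hy hy', ?_⟩
    calc x * y * (x' * y') = x * (y * x') * y' := by group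
      _ = x * (x' * y) * y' := by rw [(h x' hx' y hy).symm]
      _ = x * x' * (y * y') := by group
  | inv a _ ha =>
    obtain ⟨x, hx, y, hy, rfl⟩ := ha
    refine ⟨x⁻¹, X.inv_mem hx, y⁻¹, Y.inv_mem hy, ?_⟩
    rw [mul_inv_rev]
    calc y⁻¹ * x⁻¹ = (x * y)⁻¹ := by group
      _ = (y * x)⁻¹ := by rw [h x hx y hy]
      _ = x⁻¹ * y⁻¹ := by group

private lemma zpowers_eq_of_card {p : ℕ} (hp : p.Prime) [Finite G] {X : Subgroup G} (hX : Nat.card X = p)
    {x : G} (hx : x ∈ X) (hx1 : x ≠ 1) : Subgroup.zpowers x = X := by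
  have hle : Subgroup.zpowers x ≤ X := by
    rw [Subgroup.zpowers_le]; exact hx
  apply Subgroup.eq_of_le_of_card_ge hle
  rw [hX]
  have h1 : Nat.card (Subgroup.zpowers x) ∣ p := by
    rw [← hX]; exact Subgroup.card_dvd_of_le hle
  rcases (Nat.dvd_prime hp).1 h1 with h2 | h2
  · rw [Nat.card_zpowers, orderOf_eq_one_iff] at h2
    exact absurd h2 hx1
  · exact h2.ge

private lemma pow_eq_one_of_card {p : ℕ} [Finite G] {X : Subgroup G} (hX : Nat.card X = p)
    {x : G} (hx : x ∈ X) : x ^ p = 1 := by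
  have : (⟨x, hx⟩ : X) ^ Nat.card X = 1 := pow_card_eq_one'
  rw [hX] at this
  exact congrArg Subtype.val this

private lemma exists_ne_one_of_card {p : ℕ} (hp : p.Prime) [Finite G] {X : Subgroup G} (hX : Nat.card X = p) :
    ∃ x ∈ X, x ≠ 1 := by
  have : Nontrivial X := Finite.one_lt_card_iff_nontrivial.1 (by rw [hX]; exact hp.one_lt)
  obtain ⟨x, hx⟩ := exists_ne (1 : X)
  exact ⟨x, x.2, fun h => hx (Subtype.ext h)⟩

/-- The two distinct points span. -/
private lemma span_lemma {p : ℕ} (hp : p.Prime) [Finite G] {W T T' : Subgroup G} (hW : Nat.card W = p)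
    (hT : Nat.card T = p) (hT' : Nat.card T' = p) (hc : Cm W T) (hle : T' ≤ W ⊔ T) (hne : T' ≠ T) :
    W ≤ T ⊔ T' := by
  obtain ⟨t', ht', ht'1⟩ := exists_ne_one_of_card hp hT'
  obtain ⟨w, hw, t, ht, hwt⟩ := mem_sup_of_cm hc (hle ht')
  have hw1 : w ≠ 1 := by
    rintro rfl
    apply hne
    rw [one_mul] at hwt
    subst hwt
    rw [← zpowers_eq_of_card hp hT' ht' ht'1, zpowers_eq_of_card hp hT ht ht'1]
  have h1 : w ∈ T ⊔ T' := by
    have : w = t' * t⁻¹ := by rw [hwt]; group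
    rw [this]
    exact Subgroup.mul_mem _ (Subgroup.mem_sup_right ht') (Subgroup.mem_sup_left (T.inv_mem ht))
  rw [← zpowers_eq_of_card hp hW hw hw1, Subgroup.zpowers_le]
  exact h1

/-- Bundled hypotheses. -/
private structure Hyp (p : ℕ) (K : Set (Subgroup G)) : Prop where
  hp : p.Prime
  hK : ∀ X ∈ K, Nat.card ↥X = p
  hKc : ∀ X ∈ K, ∀ g : G, X.map (MulAut.conj g).toMonoidHom ∈ K
  ha : ∀ X ∈ K, ∀ Y ∈ K, X ≠ Y → (∀ x ∈ X, ∀ y ∈ Y, x * y = y * x) →
      ∀ Z : Subgroup G, Z ≤ X ⊔ Y → Nat.card ↥Z = p → Z ∈ K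
  hb : ∀ X ∈ K, ∀ Y ∈ K, X ≠ Y → (∀ x ∈ X, ∀ y ∈ Y, x * y = y * x) →
      ∀ W ∈ K, (X ⊔ Y) ⊓ Subgroup.centralizer (W : Set G) ≠ ⊥

variable {p : ℕ} {K : Set (Subgroup G)}

/-- a nontrivial element of a line generates a point of `K` -/
private lemma Hyp.pt_of_mem [Finite G] (h : Hyp p K) {X Y : Subgroup G} (hX : X ∈ K) (hY : Y ∈ K) (hne : X ≠ Y) (hc : Cm X Y)
    {e : G} (he : e ∈ X ⊔ Y) (he1 : e ≠ 1) : Subgroup.zpowers e ∈ K := by
  obtain ⟨x, hx, y, hy, rfl⟩ := mem_sup_of_cm hc he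
  haveI : Fact p.Prime := ⟨h.hp⟩
  have hpow : (x * y) ^ p = 1 := by
    have hcomm : Commute x y := hc x hx y hy
    rw [hcomm.mul_pow, pow_eq_one_of_card (h.hK X hX) hx, pow_eq_one_of_card (h.hK Y hY) hy, one_mul]
  have hord : orderOf (x * y) = p := orderOf_eq_prime hpow he1
  apply h.ha X hX Y hY hne hc
  · rw [Subgroup.zpowers_le]; exact he
  · rw [Nat.card_zpowers, hord]

/-- every point commutes with a point of any line -/
private lemma Hyp.exists_pt [Finite G] (h : Hyp p K) {X Y W : Subgroup G} (hX : X ∈ K) (hY : Y ∈ K) (hne : X ≠ Y) (hc : Cm X Y)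
    (hW : W ∈ K) : ∃ P ∈ K, P ≤ X ⊔ Y ∧ Cm W P := by
  have h1 := h.hb X hX Y hY hne hc W hW
  rw [Subgroup.ne_bot_iff_exists_ne_one] at h1
  obtain ⟨⟨e, he1, he2⟩, he3⟩ := h1
  have he3' : e ≠ 1 := fun hh => he3 (Subtype.ext hh)
  refine ⟨Subgroup.zpowers e, h.pt_of_mem hX hY hne hc he1 he3', ?_, ?_⟩
  · rw [Subgroup.zpowers_le]; exact he1
  · rw [cm_iff, Subgroup.zpowers_le]
    exact he2

/-- a third point on a line -/
private lemma Hyp.third_pt [Finite G] (h : Hyp p K) {X Y : Subgroup G} (hX : X ∈ K) (hY : Y ∈ K) (hne : X ≠ Y) (hc : Cm X Y) :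
    ∃ Z ∈ K, Z ≤ X ⊔ Y ∧ Z ≠ X ∧ Z ≠ Y := by
  obtain ⟨x, hx, hx1⟩ := exists_ne_one_of_card h.hp (h.hK X hX)
  obtain ⟨y, hy, hy1⟩ := exists_ne_one_of_card h.hp (h.hK Y hY)
  have hmem : x * y ∈ X ⊔ Y := Subgroup.mul_mem _ (Subgroup.mem_sup_left hx) (Subgroup.mem_sup_right hy)
  have hxy1 : x * y ≠ 1 := by
    intro hh
    have h2 : x = y⁻¹ := eq_inv_of_mul_eq_one_left hh
    have h3 : x ∈ Y := by rw [h2]; exact Y.inv_mem hy
    apply hne
    rw [← zpowers_eq_of_card h.hp (h.hK X hX) hx hx1, zpowers_eq_of_card h.hp (h.hK Y hY) h3 hx1]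
  refine ⟨Subgroup.zpowers (x * y), h.pt_of_mem hX hY hne hc hmem hxy1, ?_, ?_, ?_⟩
  · rw [Subgroup.zpowers_le]; exact hmem
  · intro hh
    have h2 : x * y ∈ X := by rw [← hh]; exact Subgroup.mem_zpowers _
    have h3 : y ∈ X := by
      have := X.mul_mem (X.inv_mem hx) h2
      simpa using this
    apply hne
    rw [← zpowers_eq_of_card h.hp (h.hK Y hY) hy hy1, zpowers_eq_of_card h.hp (h.hK X hX) h3 hy1]
  · intro hh
    have h2 : x * y ∈ Y := by rw [← hh]; exact Subgroup.mem_zpowers _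
    have h3 : x ∈ Y := by
      have := Y.mul_mem h2 (Y.inv_mem hy)
      simpa using this
    apply hne
    rw [← zpowers_eq_of_card h.hp (h.hK X hX) hx hx1, zpowers_eq_of_card h.hp (h.hK Y hY) h3 hx1]

private lemma Hyp.self_cm [Finite G] (h : Hyp p K) {X : Subgroup G} (hX : X ∈ K) : Cm X X := by
  have h1 : IsCyclic X := isCyclic_of_prime_card (p := p) (hp := ⟨h.hp⟩) (h.hK X hX)
  have h2 : IsMulCommutative X := inferInstance
  intro a ha b hb
  exact congrArg Subtype.val (h2.is_comm.comm ⟨a, ha⟩ ⟨b, hb⟩)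

/-- Sub-lemma C. -/
private lemma Hyp.lemC [Finite G] (h : Hyp p K) {W W₁ P : Subgroup G} (hW : W ∈ K) (hW₁ : W₁ ∈ K) (hP : P ∈ K)
    (hnc : ¬ Cm W W₁)
    (hB : ∀ T ∈ K, Cm T W → Cm T P → Cm T W₁) :
    ∀ T ∈ K, Cm T W → Cm T W₁ → Cm T P := by
  intro T hT hTW hTW₁
  have hTne : W ≠ T := by
    rintro rfl
    exact hnc hTW₁
  obtain ⟨T', hT', hle, hT'P⟩ := h.exists_pt hW hT hTne hTW.symm hP
  have hT'W : Cm T' W := by
    intro t ht w hw
    obtain ⟨w₁, hw₁, t₁, ht₁, rfl⟩ := mem_sup_of_cm hTW.symm (hle ht)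
    have h1 : Commute w w₁ := h.self_cm hW w hw w₁ hw₁
    have h2 : Commute w t₁ := hTW.symm w hw t₁ ht₁
    exact ((h1.mul_right h2).symm).eq
  have hT'W₁ := hB T' hT' hT'W hT'P.symm
  by_cases heq : T' = T
  · subst heq
    exact hT'P.symm
  · exfalso
    have hspan := span_lemma h.hp (h.hK W hW) (h.hK T hT) (h.hK T' hT') hTW.symm hle heq
    apply hnc
    have h3 : Cm W₁ (T ⊔ T') := Cm.sup_right hTW₁.symm hT'W₁.symm
    exact (h3.mono_right hspan).symm

/-- Existence of lines through a point. -/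
private lemma Hyp.exists_line [Finite G] (h : Hyp p K)
    (hex : ∃ X ∈ K, ∃ Y ∈ K, X ≠ Y ∧ ∀ x ∈ X, ∀ y ∈ Y, x * y = y * x) {X : Subgroup G} (hX : X ∈ K) :
    ∃ Q ∈ K, Q ≠ X ∧ Cm X Q := by
  obtain ⟨X₀, hX₀, Y₀, hY₀, hne, hc⟩ := hex
  have hc' : Cm X₀ Y₀ := hc
  obtain ⟨P, hP, hle, hcm⟩ := h.exists_pt hX₀ hY₀ hne hc' hX
  by_cases hPX : P = X
  · subst hPX
    have h1 : Cm X₀ P := by
      apply Cm.mono_right _ hle
      exact Cm.sup_right (h.self_cm hX₀) hc'
    have h2 : Cm Y₀ P := by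
      apply Cm.mono_right _ hle
      exact Cm.sup_right hc'.symm (h.self_cm hY₀)
    by_cases h3 : X₀ = P
    · refine ⟨Y₀, hY₀, ?_, h2.symm⟩
      rw [← h3]
      exact hne.symm
    · exact ⟨X₀, hX₀, h3, h1.symm⟩
  · exact ⟨P, hP, hPX, hcm⟩

/-- The main "case N" lemma. -/
private lemma Hyp.caseN [Finite G] (h : Hyp p K) {X W : Subgroup G} (hX : X ∈ K) (hW : W ∈ K) {x : G} (hx : x ∈ X) (hx1 : x ≠ 1)
    (hXW : ¬ Cm X W) (hnc : ¬ Cm W (W.map (MulAut.conj x).toMonoidHom))
    (hline : ∃ Q ∈ K, Q ≠ X ∧ Cm X Q) : ∃ V ∈ K, ∀ U ∈ K, Cm V U := by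
  set W₁ := W.map (MulAut.conj x).toMonoidHom with hW₁def
  have hW₁ : W₁ ∈ K := h.hKc W hW x
  have hW₁mem : ∀ w ∈ W, x * w * x⁻¹ ∈ W₁ := fun w hw => ⟨w, hw, rfl⟩
  -- B1
  have hB1 : ∀ T ∈ K, Cm T W → Cm T X → Cm T W₁ := by
    rintro T _ hTW hTX t ht _ ⟨w, hw, rfl⟩
    change t * (x * w * x⁻¹) = (x * w * x⁻¹) * t
    have h1 : Commute t x := hTX t ht x hx
    have h2 : Commute t w := hTW t ht w hw
    exact (((h1.mul_right h2).mul_right h1.inv_right)).eq
  -- the "Z" lemma
  have hZ : ∀ Z ∈ K, Z ≠ X → Cm X Z → ¬ Cm Z W →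
      (∀ T ∈ K, Cm T W → Cm T X → Cm T Z) ∧ (∀ T ∈ K, Cm T W → Cm T Z → Cm T X) := by
    intro Z hZ hZX hXZ hZW
    -- a conjugating element of Z
    obtain ⟨P, hP, hle, hWP⟩ := h.exists_pt hX hZ hZX.symm hXZ hW
    obtain ⟨e, he, he1⟩ := exists_ne_one_of_card h.hp (h.hK P hP)
    obtain ⟨x₁, hx₁, z₁, hz₁, hef⟩ := mem_sup_of_cm hXZ (hle he)
    have hx₁1 : x₁ ≠ 1 := by
      rintro rfl
      rw [one_mul] at hef
      subst hef
      apply hZW
      have h1 : P = Z := by
        rw [← zpowers_eq_of_card h.hp (h.hK P hP) he he1, zpowers_eq_of_card h.hp (h.hK Z hZ) hz₁ he1]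
      rw [← h1]
      exact hWP.symm
    have hxz : x⁻¹ ∈ Subgroup.zpowers x₁ := by
      rw [zpowers_eq_of_card h.hp (h.hK X hX) hx₁ hx₁1]
      exact X.inv_mem hx
    obtain ⟨k, hk⟩ := Subgroup.mem_zpowers_iff.1 hxz
    obtain ⟨z, hz⟩ : ∃ z, z = z₁ ^ k := ⟨_, rfl⟩
    have hzZ : z ∈ Z := by rw [hz]; exact Z.zpow_mem hz₁ k
    have hcomm : Commute x₁ z₁ := hXZ x₁ hx₁ z₁ hz₁
    have hek : e ^ k = x⁻¹ * z := by
      rw [hef, hcomm.mul_zpow, hk, hz]
    have hekP : x⁻¹ * z ∈ P := by rw [← hek]; exact P.zpow_mem he k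
    have hconj : ∀ w ∈ W, z * w * z⁻¹ = x * w * x⁻¹ := by
      intro w hw
      have h1 : w * (x⁻¹ * z) = (x⁻¹ * z) * w := hWP w hw _ hekP
      calc z * w * z⁻¹ = x * ((x⁻¹ * z) * w) * z⁻¹ := by group
        _ = x * (w * (x⁻¹ * z)) * z⁻¹ := by rw [h1]
        _ = x * w * x⁻¹ := by group
    have hB2 : ∀ T ∈ K, Cm T W → Cm T Z → Cm T W₁ := by
      rintro T _ hTW hTZ t ht _ ⟨w, hw, rfl⟩
      change t * (x * w * x⁻¹) = (x * w * x⁻¹) * t
      rw [← hconj w hw]
      have h1 : Commute t z := hTZ t ht z hzZ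
      have h2 : Commute t w := hTW t ht w hw
      exact (((h1.mul_right h2).mul_right h1.inv_right)).eq
    have hC1 := h.lemC hW hW₁ hZ hnc hB2
    have hC2 := h.lemC hW hW₁ hX hnc hB1
    exact ⟨fun T hT hTW hTX => hC1 T hT hTW (hB1 T hT hTW hTX),
      fun T hT hTW hTZ => hC2 T hT hTW (hB2 T hT hTW hTZ)⟩
  obtain ⟨Q, hQ, hQX, hXQ⟩ := hline
  obtain ⟨Y, hY, hYle, hWY⟩ := h.exists_pt hX hQ hQX.symm hXQ hW
  have hXY : Cm X Y := (Cm.sup_right (h.self_cm hX) hXQ).mono_right hYle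
  have hYX : Y ≠ X := by
    rintro rfl
    exact hXW hWY.symm
  refine ⟨Y, hY, ?_⟩
  intro U hU
  by_cases hXU : Cm X U
  · by_cases hUX : U = X
    · subst hUX
      exact hXY.symm
    · obtain ⟨Y', hY', hY'le, hWY'⟩ := h.exists_pt hX hU (Ne.symm hUX) hXU hW
      have hXY' : Cm X Y' := (Cm.sup_right (h.self_cm hX) hXU).mono_right hY'le
      have hY'X : Y' ≠ X := by
        rintro rfl
        exact hXW hWY'.symm
      obtain ⟨Z', hZ', hZ'le, hZ'X, hZ'Y'⟩ := h.third_pt hX hY' (Ne.symm hY'X) hXY'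
      have hXZ' : Cm X Z' := (Cm.sup_right (h.self_cm hX) hXY').mono_right hZ'le
      have hZ'W : ¬ Cm Z' W := by
        intro hc
        have hspan := span_lemma h.hp (h.hK X hX) (h.hK Y' hY') (h.hK Z' hZ') hXY' hZ'le hZ'Y'
        apply hXW
        have h3 : Cm W (Y' ⊔ Z') := Cm.sup_right hWY' hc.symm
        exact (h3.mono_right hspan).symm
      have h1 := (hZ Z' hZ' hZ'X hXZ' hZ'W).1 Y hY hWY.symm hXY.symm
      have hZ'le' : Z' ≤ U ⊔ X := by
        rw [sup_comm]
        exact hZ'le.trans (sup_le le_sup_left (hY'le))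
      have hspan := span_lemma h.hp (h.hK U hU) (h.hK X hX) (h.hK Z' hZ') hXU.symm hZ'le' hZ'X
      exact (Cm.sup_right hXY.symm h1).mono_right hspan
  · obtain ⟨P, hP, hPle, hUP⟩ := h.exists_pt hX hY (Ne.symm hYX) hXY hU
    by_cases hPY : P = Y
    · subst hPY
      exact hUP.symm
    · exfalso
      have hPX : P ≠ X := by
        rintro rfl
        exact hXU hUP.symm
      have hXP : Cm X P := (Cm.sup_right (h.self_cm hX) hXY).mono_right hPle
      have hPW : ¬ Cm P W := by
        intro hc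
        have hspan := span_lemma h.hp (h.hK X hX) (h.hK Y hY) (h.hK P hP) hXY hPle hPY
        apply hXW
        have h3 : Cm W (Y ⊔ P) := Cm.sup_right hWY hc.symm
        exact (h3.mono_right hspan).symm
      have hUne : P ≠ U := by
        rintro rfl
        exact hXU hXP
      obtain ⟨T, hT, hTle, hWT⟩ := h.exists_pt hP hU hUne hUP.symm hW
      have hTP : T ≠ P := by
        rintro rfl
        exact hPW hWT.symm
      have hPT : Cm P T := (Cm.sup_right (h.self_cm hP) hUP.symm).mono_right hTle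
      have h1 := (hZ P hP hPX hXP hPW).2 T hT hWT.symm hPT.symm
      have hTle' : T ≤ U ⊔ P := by
        rw [sup_comm]; exact hTle
      have hspan := span_lemma h.hp (h.hK U hU) (h.hK P hP) (h.hK T hT) hUP hTle' hTP
      apply hXU
      exact (Cm.sup_right hXP h1.symm).mono_right hspan

/-- In case P any two points generate a `p`-group. -/
private lemma Hyp.caseP_sup [Finite G] (h : Hyp p K) {X W : Subgroup G} (hX : X ∈ K) (hW : W ∈ K)
    (hP : ∀ x ∈ X, x ≠ 1 → ¬ Cm X W → Cm W (W.map (MulAut.conj x).toMonoidHom)) :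
    IsPGroup p ↥(X ⊔ W) := by
  haveI : Fact p.Prime := ⟨h.hp⟩
  have hXp : IsPGroup p X := IsPGroup.of_card (n := 1) (by rw [h.hK X hX, pow_one])
  have hWp : IsPGroup p W := IsPGroup.of_card (n := 1) (by rw [h.hK W hW, pow_one])
  by_cases hc : Cm X W
  · apply IsPGroup.to_sup_of_normal_right' hXp hWp
    rw [Subgroup.le_normalizer_iff]
    intro x hx w hw
    rw [hc x hx w hw]
    simpa using hw
  · -- the conjugates of W
    let S : Set G := {g | ∃ x ∈ X, ∃ w ∈ W, g = x * w * x⁻¹}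
    let N : Subgroup G := Subgroup.closure S
    have hWc := h.self_cm hW
    have hScomm : ∀ a ∈ S, ∀ b ∈ S, a * b = b * a := by
      rintro _ ⟨x, hx, w, hw, rfl⟩ _ ⟨x', hx', w', hw', rfl⟩
      obtain ⟨y, hy⟩ : ∃ y, y = x⁻¹ * x' := ⟨_, rfl⟩
      have hyX : y ∈ X := by rw [hy]; exact X.mul_mem (X.inv_mem hx) hx'
      have h1 : w * (y * w' * y⁻¹) = (y * w' * y⁻¹) * w := by
        by_cases hy1 : y = 1
        · rw [hy1]
          simpa using hWc w hw w' hw'
        · exact hP y hyX hy1 hc w hw _ ⟨w', hw', rfl⟩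
      have e1 : x' = x * y := by rw [hy]; group
      rw [e1]
      calc x * w * x⁻¹ * (x * y * w' * (x * y)⁻¹) = x * (w * (y * w' * y⁻¹)) * x⁻¹ := by group
        _ = x * ((y * w' * y⁻¹) * w) * x⁻¹ := by rw [h1]
        _ = x * y * w' * (x * y)⁻¹ * (x * w * x⁻¹) := by group
    have hNcomm : IsMulCommutative N := Subgroup.isMulCommutative_closure hScomm
    have hNcomm' : ∀ a ∈ N, ∀ b ∈ N, a * b = b * a := by
      intro a ha b hb
      exact congrArg Subtype.val (hNcomm.is_comm.comm ⟨a, ha⟩ ⟨b, hb⟩)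
    have hNpow : ∀ a ∈ N, a ^ p = 1 := by
      intro a ha
      induction ha using Subgroup.closure_induction with
      | mem g hg =>
        obtain ⟨x, hx, w, hw, rfl⟩ := hg
        have := map_pow (MulAut.conj x) w p
        simp only [MulAut.conj_apply] at this
        rw [← this, pow_eq_one_of_card (h.hK W hW) hw]
        group
      | one => simp
      | mul a b ha hb iha ihb =>
        have hcomm : Commute a b := hNcomm' a ha b hb
        rw [hcomm.mul_pow, iha, ihb, one_mul]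
      | inv a _ iha => rw [inv_pow, iha, inv_one]
    have hNp : IsPGroup p N := fun y => ⟨1, by
      apply Subtype.ext
      rw [pow_one]
      exact hNpow y y.2⟩
    have hXN : X ≤ Subgroup.normalizer (N : Set G) := by
      rw [Subgroup.le_normalizer_iff]
      intro x hx a ha
      induction ha using Subgroup.closure_induction with
      | mem g hg =>
        obtain ⟨x', hx', w, hw, rfl⟩ := hg
        apply Subgroup.subset_closure
        refine ⟨x * x', X.mul_mem hx hx', w, hw, ?_⟩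
        group
      | one => simp [N.one_mem]
      | mul a b _ _ iha ihb =>
        have e : x * (a * b) * x⁻¹ = (x * a * x⁻¹) * (x * b * x⁻¹) := by group
        rw [e]
        exact N.mul_mem iha ihb
      | inv a _ iha =>
        have e : x * a⁻¹ * x⁻¹ = (x * a * x⁻¹)⁻¹ := by group
        rw [e]
        exact N.inv_mem iha
    have hsup := IsPGroup.to_sup_of_normal_right' hXp hNp hXN
    refine hsup.to_le (sup_le le_sup_left (le_trans ?_ le_sup_right))
    intro w hw
    apply Subgroup.subset_closure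
    exact ⟨1, X.one_mem, w, hw, by group⟩

/-- The set of elements generating members of `K`, together with the identity. -/
private def Om (K : Set (Subgroup G)) : Type _ := {g : G // g = 1 ∨ Subgroup.zpowers g ∈ K}

/-- conjugation action of a subgroup on `Om K` -/
private def omAct (h : Hyp p K) (A : Subgroup G) : MulAction A (Om K) where
  smul a g := ⟨(a : G) * g.1 * (a : G)⁻¹, by
    rcases g.2 with hg | hg
    · left; rw [hg]; group
    · right
      have h1 := h.hKc _ hg (a : G)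
      rw [MonoidHom.map_zpowers] at h1
      exact h1⟩
  one_smul g := by
    apply Subtype.ext
    change ((1 : A) : G) * g.1 * ((1 : A) : G)⁻¹ = g.1
    simp
  mul_smul a b g := by
    apply Subtype.ext
    change ((a * b : A) : G) * g.1 * ((a * b : A) : G)⁻¹ = (a : G) * ((b : G) * g.1 * (b : G)⁻¹) * (a : G)⁻¹
    simp [mul_assoc]

/-- the count: `p` divides the size of `Om K` -/
private lemma Hyp.dvd_card [Finite G] (h : Hyp p K) {X : Subgroup G} (hX : X ∈ K) [Finite (Om K)] :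
    p ∣ Nat.card (Om K) := by
  classical
  haveI : Fact p.Prime := ⟨h.hp⟩
  have hXp : IsPGroup p X := IsPGroup.of_card (n := 1) (by rw [h.hK X hX, pow_one])
  letI := omAct h X
  have h1 := hXp.card_modEq_card_fixedPoints (Om K)
  -- fixed points
  let F : Type _ := {g : G // (g = 1 ∨ Subgroup.zpowers g ∈ K) ∧ ∀ x ∈ X, x * g = g * x}
  haveI : Finite F := Finite.of_injective (fun f : F => f.1) Subtype.val_injective
  have hcard : Nat.card (MulAction.fixedPoints X (Om K)) = Nat.card F := by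
    apply Nat.card_congr
    refine ⟨fun a => ⟨a.1.1, a.1.2, ?_⟩, fun b => ⟨⟨b.1, b.2.1⟩, ?_⟩, fun _ => rfl, fun _ => rfl⟩
    · intro x hx
      have := congrArg Subtype.val (a.2 ⟨x, hx⟩)
      change x * a.1.1 * x⁻¹ = a.1.1 at this
      calc x * a.1.1 = x * a.1.1 * x⁻¹ * x := by group
        _ = a.1.1 * x := by rw [this]
    · intro x
      apply Subtype.ext
      change (x : G) * b.1 * (x : G)⁻¹ = b.1
      rw [b.2.2 x x.2]
      group
  -- left multiplication on F is free
  letI act2 : MulAction X F :=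
    { smul := fun x f => ⟨(x : G) * f.1, by
        refine ⟨?_, ?_⟩
        · obtain ⟨hf1, hf2⟩ := f.2
          by_cases hxf : (x : G) * f.1 = 1
          · exact Or.inl hxf
          right
          rcases hf1 with hf1 | hf1
          · rw [hf1, mul_one] at hxf ⊢
            rw [zpowers_eq_of_card h.hp (h.hK X hX) x.2 hxf]
            exact hX
          · by_cases hfX : f.1 ∈ X
            · rw [zpowers_eq_of_card h.hp (h.hK X hX) (X.mul_mem x.2 hfX) hxf]
              exact hX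
            · have hne : X ≠ Subgroup.zpowers f.1 := by
                intro hh
                have hm : f.1 ∈ Subgroup.zpowers f.1 := Subgroup.mem_zpowers f.1
                exact hfX (hh.symm.le hm)
              have hc : Cm X (Subgroup.zpowers f.1) := by
                intro a ha b hb
                obtain ⟨i, rfl⟩ := Subgroup.mem_zpowers_iff.1 hb
                exact ((show Commute a f.1 from hf2 a ha).zpow_right i).eq
              apply h.pt_of_mem hX hf1 hne hc _ hxf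
              exact Subgroup.mul_mem _ (Subgroup.mem_sup_left x.2)
                (Subgroup.mem_sup_right (Subgroup.mem_zpowers f.1))
        · intro y hy
          have h2 := f.2.2 y hy
          have hcX : y * (x : G) = x * y := (h.self_cm hX) y hy x x.2
          calc y * ((x : G) * f.1) = (y * x) * f.1 := by group
            _ = (x * y) * f.1 := by rw [hcX]
            _ = x * (y * f.1) := by group
            _ = x * (f.1 * y) := by rw [h2]
            _ = (x : G) * f.1 * y := by group⟩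
      one_smul := fun f => by
        apply Subtype.ext
        change ((1 : X) : G) * f.1 = f.1
        simp
      mul_smul := fun a b f => by
        apply Subtype.ext
        change ((a * b : X) : G) * f.1 = (a : G) * ((b : G) * f.1)
        simp [mul_assoc] }
  have h2 := hXp.card_modEq_card_fixedPoints F
  have hempty : IsEmpty (MulAction.fixedPoints X F) := by
    constructor
    rintro ⟨f, hf⟩
    obtain ⟨x, hx, hx1⟩ := exists_ne_one_of_card h.hp (h.hK X hX)
    have := congrArg Subtype.val (hf ⟨x, hx⟩)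
    change x * f.1 = f.1 at this
    exact hx1 (mul_eq_right.1 this)
  have h0 : Nat.card (MulAction.fixedPoints X F) = 0 := by
    haveI := hempty
    exact Nat.card_of_isEmpty
  rw [h0] at h2
  rw [hcard] at h1
  have h3 := h1.trans h2
  exact (Nat.modEq_zero_iff_dvd.1 h3)

/-- Let p be a prime and K a set of subgroups of order p of a finite group G, closed under conjugation, such that at least two distinct members of K commute elementwise, and whenever two distinct members X, Y of K commute: every subgroup of order p of the group XY they generate belongs to K, and every member W of K has centralizer meeting XY nontrivially. Then some member V of K commutes elementwise with every member of K and lies in O_p(G); in particular G is not simple. -/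
theorem result {G : Type*} [Group G] [Finite G]
    {p : ℕ} (hp : p.Prime) (K : Set (Subgroup G)) (hK : ∀ X ∈ K, Nat.card ↥X = p)
    (hKc : ∀ X ∈ K, ∀ g : G, X.map (MulAut.conj g).toMonoidHom ∈ K)
    (hex : ∃ X ∈ K, ∃ Y ∈ K, X ≠ Y ∧ ∀ x ∈ X, ∀ y ∈ Y, x * y = y * x)
    (ha : ∀ X ∈ K, ∀ Y ∈ K, X ≠ Y → (∀ x ∈ X, ∀ y ∈ Y, x * y = y * x) →
      ∀ Z : Subgroup G, Z ≤ X ⊔ Y → Nat.card ↥Z = p → Z ∈ K)
    (hb : ∀ X ∈ K, ∀ Y ∈ K, X ≠ Y → (∀ x ∈ X, ∀ y ∈ Y, x * y = y * x) →
      ∀ W ∈ K, (X ⊔ Y) ⊓ Subgroup.centralizer (W : Set G) ≠ ⊥) :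
    (∃ V ∈ K, (∀ W ∈ K, ∀ v ∈ V, ∀ w ∈ W, v * w = w * v) ∧ V ≤ Cfsg.pCore p G) ∧ ¬ IsSimpleGroup G := by
  classical
  haveI hfact : Fact p.Prime := ⟨hp⟩
  have h : Hyp p K := ⟨hp, hK, hKc, ha, hb⟩
  have hpG : ∀ X ∈ K, IsPGroup p X := fun X hX =>
    IsPGroup.of_card (n := 1) (by rw [hK X hX, pow_one])
  have hcore : ∀ X ∈ K, (∀ g : G, IsPGroup p ↥(X ⊔ X.map (MulAut.conj g).toMonoidHom)) → X ≤ Cfsg.pCore p G := by
    intro X hX hg
    obtain ⟨N, hNn, hNp, hXN⟩ := Cfsg.Agent.S0199.result X (hpG X hX) hg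
    exact hXN.trans (Cfsg.Agent.Lib.Core.Basic.le_pCore hNn hNp)
  -- the radical point
  have hrad : ∃ V ∈ K, ∀ U ∈ K, Cm V U := by
    by_cases hN : ∃ X ∈ K, ∃ W ∈ K, ∃ x ∈ X, x ≠ 1 ∧ ¬ Cm X W ∧ ¬ Cm W (W.map (MulAut.conj x).toMonoidHom)
    · obtain ⟨X, hX, W, hW, x, hx, hx1, hXW, hnc⟩ := hN
      exact h.caseN hX hW hx hx1 hXW hnc (h.exists_line hex hX)
    · push Not at hN
      have hPs : ∀ X ∈ K, ∀ W ∈ K, IsPGroup p ↥(X ⊔ W) := by
        intro X hX W hW
        apply h.caseP_sup hX hW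
        intro x hx hx1 hXW
        exact hN X hX W hW x hx hx1 hXW
      have hle : ∀ X ∈ K, X ≤ Cfsg.pCore p G := fun X hX =>
        hcore X hX (fun g => hPs X hX _ (hKc X hX g))
      obtain ⟨X₀, hX₀, -⟩ := hex
      haveI : Finite (Om K) := Finite.of_injective (fun f : Om K => f.1) Subtype.val_injective
      have hdvd := h.dvd_card hX₀
      letI := omAct h (Cfsg.pCore p G)
      have hO : IsPGroup p (Cfsg.pCore p G) := Cfsg.Agent.Lib.Core.Basic.pCore_isPGroup
      have h1mem : (⟨1, Or.inl rfl⟩ : Om K) ∈ MulAction.fixedPoints (Cfsg.pCore p G) (Om K) := by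
        intro x
        apply Subtype.ext
        change (x : G) * 1 * (x : G)⁻¹ = 1
        group
      obtain ⟨b, hb1, hbne⟩ := hO.exists_fixed_point_of_prime_dvd_card_of_fixed_point (Om K) hdvd h1mem
      have hb1' : b.1 ≠ 1 := fun hh => hbne (Subtype.ext hh.symm)
      have hbK : Subgroup.zpowers b.1 ∈ K := b.2.resolve_left hb1'
      refine ⟨_, hbK, ?_⟩
      intro U hU v hv u hu
      obtain ⟨i, rfl⟩ := Subgroup.mem_zpowers_iff.1 hv
      have h2 := congrArg Subtype.val (hb1 ⟨u, hle U hU hu⟩)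
      change u * b.1 * u⁻¹ = b.1 at h2
      have h3 : u * b.1 = b.1 * u := by
        calc u * b.1 = u * b.1 * u⁻¹ * u := by group
          _ = b.1 * u := by rw [h2]
      exact ((show Commute b.1 u from h3.symm).zpow_left i).eq
  obtain ⟨V, hV, hVcm⟩ := hrad
  have hVle : V ≤ Cfsg.pCore p G := by
    apply hcore V hV
    intro g
    apply IsPGroup.to_sup_of_normal_right' (hpG V hV) (hpG _ (hKc V hV g))
    rw [Subgroup.le_normalizer_iff]
    intro x hx w hw
    rw [hVcm _ (hKc V hV g) x hx w hw]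
    simpa using hw
  refine ⟨⟨V, hV, hVcm, hVle⟩, ?_⟩
  intro hsimple
  have hnormal : (Cfsg.pCore p G).Normal := inferInstance
  obtain ⟨v, hv, hv1⟩ := exists_ne_one_of_card hp (hK V hV)
  rcases hnormal.eq_bot_or_eq_top with hbot | htop
  · have := hVle hv
    rw [hbot, Subgroup.mem_bot] at this
    exact hv1 this
  · have hGp : IsPGroup p G := by
      have hO : IsPGroup p (Cfsg.pCore p G) := Cfsg.Agent.Lib.Core.Basic.pCore_isPGroup
      rw [Cfsg.Agent.Lib.Core.Basic.pCore_eq_top_iff] at htop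
      exact htop
    haveI : Nontrivial G := ⟨⟨v, 1, hv1⟩⟩
    have hc := hGp.center_nontrivial
    have hcenter : Subgroup.center G = ⊤ := by
      rcases (inferInstance : (Subgroup.center G).Normal).eq_bot_or_eq_top with h0 | h0
      · rw [h0] at hc
        exact absurd hc (by
          rw [Subgroup.nontrivial_iff_ne_bot]
          simp)
      · exact h0
    have hnorm : ∀ X : Subgroup G, X.Normal := by
      intro X
      constructor
      intro x hx g
      have : g ∈ Subgroup.center G := by rw [hcenter]; trivial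
      rw [Subgroup.mem_center_iff] at this
      have e : g * x * g⁻¹ = x := by
        have e2 : g * x = x * g := (this x).symm
        rw [e2]; group
      rw [e]
      exact hx
    obtain ⟨X, hX, Y, hY, hne, -⟩ := hex
    have htopX : ∀ X ∈ K, X = ⊤ := by
      intro X hX
      rcases (hnorm X).eq_bot_or_eq_top with h0 | h0
      · exfalso
        obtain ⟨x, hx, hx1⟩ := exists_ne_one_of_card hp (hK X hX)
        rw [h0, Subgroup.mem_bot] at hx
        exact hx1 hx
      · exact h0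
    exact hne ((htopX X hX).trans (htopX Y hY).symm)

end Cfsg.Agent.S3196
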