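import Cfsg.Statements.S3200
import Cfsg.Agent.Lib.Char.Burnside
import Cfsg.Agent.Lib.Solvable.Hall
import Cfsg.Agent.Lib.SolvStruct.Basic

set_option autoImplicit false
open Cfsg

namespace Cfsg.Agent.S3200

open Subgroup
open scoped Pointwise

/-- A commutative subgroup of odd order and 2-power index. -/
structure AH {H : Type*} [Group H] (C : Subgroup H) : Prop where
  comm : IsMulCommutative C
  odd : Odd (Nat.card C)
  idx : ∃ k : ℕ, C.index = 2 ^ k

theorem AH.map_quot {H : Type*} [Group H] [Finite H] {C : Subgroup H} (h : AH C)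
    (N : Subgroup H) [N.Normal] : AH (C.map (QuotientGroup.mk' N)) := by
  refine ⟨?_, ?_, ?_⟩
  · refine ⟨⟨fun a b => ?_⟩⟩
    obtain ⟨_, x, hx, rfl⟩ := a
    obtain ⟨_, y, hy, rfl⟩ := b
    apply Subtype.ext
    have := h.comm.is_comm.comm (⟨x, hx⟩ : C) ⟨y, hy⟩
    have h2 : x * y = y * x := congrArg Subtype.val this
    change (QuotientGroup.mk' N) x * (QuotientGroup.mk' N) y = (QuotientGroup.mk' N) y * (QuotientGroup.mk' N) x
    rw [← map_mul, h2, map_mul]
  · exact Odd.of_dvd_nat h.odd (Subgroup.card_map_dvd _ _)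
  · obtain ⟨k, hk⟩ := h.idx
    have h1 : (C.map (QuotientGroup.mk' N)).index ∣ 2 ^ k := by
      rw [← hk]
      exact Subgroup.index_map_dvd _ (QuotientGroup.mk'_surjective N)
    obtain ⟨j, -, hj⟩ := (Nat.dvd_prime_pow Nat.prime_two).1 h1
    exact ⟨j, hj⟩

theorem AH.subgroupOf {H : Type*} [Group H] [Finite H] {C : Subgroup H} (h : AH C)
    (N : Subgroup H) [N.Normal] : AH (C.subgroupOf N) := by
  have hcard : Nat.card (C.subgroupOf N) = Nat.card (C ⊓ N : Subgroup H) := by
    rw [Cfsg.Agent.Lib.SolvStruct.Basic.card_subgroupOf, inf_comm]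
  refine ⟨?_, ?_, ?_⟩
  · refine ⟨⟨fun a b => ?_⟩⟩
    have := h.comm.is_comm.comm (⟨a.1.1, a.2⟩ : C) ⟨b.1.1, b.2⟩
    have h2 : (a.1.1 : H) * b.1.1 = b.1.1 * a.1.1 := congrArg Subtype.val this
    exact Subtype.ext (Subtype.ext h2)
  · have h1 : Nat.card (C.subgroupOf N) ∣ Nat.card C := by
      rw [hcard]
      exact Subgroup.card_dvd_of_le inf_le_left
    exact Odd.of_dvd_nat h.odd h1
  · obtain ⟨k, hk⟩ := h.idx
    have hi := relIndex_mul_index (le_sup_left : C ≤ C ⊔ N)
    have h1 := Cfsg.Agent.Lib.Solvable.Hall.card_sup_mul_card_inf C N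
    have h2 := (C.subgroupOf N).card_mul_index
    have h3 := C.card_mul_index
    have h4 := (C ⊔ N).card_mul_index
    set i := C.relIndex (C ⊔ N) with hidef
    have hC0 : 0 < Nat.card C := Nat.card_pos
    have hS0 : 0 < (C ⊔ N).index := Nat.pos_of_ne_zero (Subgroup.index_ne_zero_of_finite)
    have h5 : Nat.card C * i = Nat.card (C ⊔ N : Subgroup H) := by
      apply Nat.eq_of_mul_eq_mul_right hS0
      rw [mul_assoc, hi, h3, h4]
    have hN : Nat.card (C ⊓ N : Subgroup H) * i = Nat.card N := by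
      apply Nat.eq_of_mul_eq_mul_left hC0
      rw [← h1, ← h5]
      ring
    have hI0 : 0 < Nat.card (C ⊓ N : Subgroup H) := Nat.card_pos
    have h6 : (C.subgroupOf N).index = i := by
      apply Nat.eq_of_mul_eq_mul_left hI0
      rw [hN, ← hcard, h2]
    have h7 : i ∣ 2 ^ k := by
      rw [← hk, ← hi]
      exact dvd_mul_right _ _
    obtain ⟨j, -, hj⟩ := (Nat.dvd_prime_pow Nat.prime_two).1 h7
    exact ⟨j, by rw [h6, hj]⟩

theorem isSolvable_of_AH {H : Type*} [Group H] [Finite H] (C : Subgroup H) (hC : AH C) :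
    Group.IsSolvable H := by
  classical
  induction hn : Nat.card H using Nat.strong_induction_on generalizing H with
  | _ n ih =>
  subst hn
  by_cases hs : IsSimpleGroup H
  · by_cases hCb : C = ⊥
    · obtain ⟨k, hk⟩ := hC.idx
      rw [hCb, Subgroup.index_bot] at hk
      haveI : Fact (Nat.Prime 2) := ⟨Nat.prime_two⟩
      have hp : IsPGroup 2 H := IsPGroup.of_card hk
      haveI := hp.isNilpotent
      infer_instance
    · obtain ⟨x, hx, hx1⟩ := (Subgroup.bot_or_exists_ne_one C).resolve_left hCb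
      have hle : C ≤ centralizer ({x} : Set H) := by
        intro c hc
        rw [mem_centralizer_iff]
        intro h hh
        rw [Set.mem_singleton_iff.mp hh]
        have := hC.comm.is_comm.comm (⟨x, hx⟩ : C) ⟨c, hc⟩
        exact congrArg Subtype.val this
      obtain ⟨k, hk⟩ := hC.idx
      have h1 : (centralizer ({x} : Set H)).index ∣ 2 ^ k := by
        rw [← hk]
        exact Subgroup.index_dvd_of_le hle
      obtain ⟨j, -, hj⟩ := (Nat.dvd_prime_pow Nat.prime_two).1 h1
      have hpr := Cfsg.Agent.Lib.Char.Burnside.prime_card_of_simple_of_prime_power_class 2 j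
        Nat.prime_two x hx1 hj
      haveI : Fact (Nat.Prime (Nat.card H)) := ⟨hpr⟩
      haveI : IsCyclic H := isCyclic_of_prime_card rfl
      letI := IsCyclic.commGroup (α := H)
      infer_instance
  · rw [isSimpleGroup_iff] at hs
    by_cases hnt : Nontrivial H
    · have hs' : ¬ ∀ N : Subgroup H, N.Normal → N = ⊥ ∨ N = ⊤ := fun h => hs ⟨hnt, h⟩
      push Not at hs'
      obtain ⟨N, hN, hNb, hNt⟩ := hs'
      haveI := hN
      have h1 : Nat.card N < Nat.card H := by
        have h2 := Subgroup.card_le_card_group N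
        apply lt_of_le_of_ne h2
        intro h3
        exact hNt (Subgroup.eq_top_of_card_eq N h3)
      have h4 : Nat.card (H ⧸ N) < Nat.card H := by
        have h5 := N.card_mul_index
        rw [Subgroup.index_eq_card] at h5
        have h6 : 1 < Nat.card N := by
          rw [Finite.one_lt_card_iff_nontrivial]
          exact (Subgroup.nontrivial_iff_ne_bot N).2 hNb
        have h7 : 0 < Nat.card (H ⧸ N) := Nat.card_pos
        nlinarith
      haveI : Group.IsSolvable N := ih _ h1 (C.subgroupOf N) (hC.subgroupOf N) rfl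
      haveI : Group.IsSolvable (H ⧸ N) := ih _ h4 _ (hC.map_quot N) rfl
      exact Group.isSolvable_of_ker_le_range N.subtype (QuotientGroup.mk' N) (by
        rw [QuotientGroup.ker_mk', Subgroup.range_subtype])
    · rw [not_nontrivial_iff_subsingleton] at hnt
      infer_instance

/-- A subgroup as in `AH` gives a complement to some Sylow 2-subgroup. -/
theorem exists_complement {G : Type*} [Group G] [Finite G] (D : Subgroup G) (h : AH D) :
    ∃ (P : Sylow 2 G) (D' : Subgroup G), IsMulCommutative ↥D' ∧ IsComplement' (P : Subgroup G) D' := by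
  haveI : Fact (Nat.Prime 2) := ⟨Nat.prime_two⟩
  obtain ⟨P⟩ : Nonempty (Sylow 2 G) := inferInstance
  refine ⟨P, D, h.comm, ?_⟩
  obtain ⟨k, hk⟩ := h.idx
  have h1 := D.card_mul_index
  have h2 := (P : Subgroup G).card_mul_index
  have hPc := P.card_coprime_index
  obtain ⟨v, hv⟩ := IsPGroup.iff_card.mp P.isPGroup'
  have hodd : Odd (Nat.card D) := h.odd
  have hodd2 : Odd (P : Subgroup G).index := by
    rw [← Nat.not_even_iff_odd, even_iff_two_dvd]
    exact P.not_dvd_index
  -- the two 2-parts agree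
  have hcop1 : Nat.Coprime (2 ^ k) (Nat.card D) :=
    Nat.Coprime.pow_left _ (Nat.coprime_two_left.mpr hodd)
  have hcop2 : Nat.Coprime (2 ^ v) (P : Subgroup G).index :=
    Nat.Coprime.pow_left _ (Nat.coprime_two_left.mpr hodd2)
  have h3 : 2 ^ k ∣ 2 ^ v := by
    have h4 : 2 ^ k ∣ 2 ^ v * (P : Subgroup G).index := by
      rw [← hv, h2, ← h1, hk]
      exact dvd_mul_left _ _
    exact (Nat.Coprime.pow_left k (Nat.coprime_two_left.mpr hodd2)).dvd_of_dvd_mul_right h4
  have h5 : 2 ^ v ∣ 2 ^ k := by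
    have h4 : 2 ^ v ∣ Nat.card D * 2 ^ k := by
      rw [← hk, h1, ← h2, hv]
      exact dvd_mul_right _ _
    exact (Nat.Coprime.pow_left v (Nat.coprime_two_left.mpr hodd)).dvd_of_dvd_mul_left h4
  have h6 : 2 ^ v = 2 ^ k := Nat.dvd_antisymm h5 h3
  apply isComplement'_of_coprime
  · rw [hv, h6, mul_comm, ← hk, h1]
  · rw [hv]
    exact Nat.Coprime.pow_left v (Nat.coprime_two_left.mpr hodd)

/-- Let H be a finite group in which a Sylow 2-subgroup has an abelian complement (an abelian subgroup meeting it trivially whose product with it is all of H). Then H is solvable, and every subgroup and every quotient group of H again has a Sylow 2-subgroup with an abelian complement. -/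
theorem result {H : Type*} [Group H] [Finite H]
    (S : Sylow 2 H) (C : Subgroup H) (hC : IsMulCommutative ↥C) (hSC : Subgroup.IsComplement' (S : Subgroup H) C) :
    Group.IsSolvable H ∧
    (∀ L : Subgroup H, ∃ (P : Sylow 2 ↥L) (D : Subgroup ↥L), IsMulCommutative ↥D ∧ Subgroup.IsComplement' (P : Subgroup ↥L) D) ∧
    (∀ (N : Subgroup H) [N.Normal], ∃ (P : Sylow 2 (H ⧸ N)) (D : Subgroup (H ⧸ N)),
      IsMulCommutative ↥D ∧ Subgroup.IsComplement' (P : Subgroup (H ⧸ N)) D) := by
  classical
  haveI : Fact (Nat.Prime 2) := ⟨Nat.prime_two⟩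
  have h1 := hSC.card_mul_card
  have h2 := (S : Subgroup H).card_mul_index
  have h3 := C.card_mul_index
  have hS0 : 0 < Nat.card (S : Subgroup H) := Nat.card_pos
  have hC0 : 0 < Nat.card C := Nat.card_pos
  have hC1 : Nat.card C = (S : Subgroup H).index := by
    apply Nat.eq_of_mul_eq_mul_left hS0
    rw [h1, h2]
  have hC2 : C.index = Nat.card (S : Subgroup H) := by
    apply Nat.eq_of_mul_eq_mul_left hC0
    rw [h3, mul_comm, h1]
  have hodd : Odd (Nat.card C) := by
    rw [hC1, ← Nat.not_even_iff_odd, even_iff_two_dvd]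
    exact S.not_dvd_index
  obtain ⟨v, hv⟩ := IsPGroup.iff_card.mp S.isPGroup'
  have hAH : AH C := ⟨hC, hodd, v, by rw [hC2, hv]⟩
  have hsol := isSolvable_of_AH C hAH
  refine ⟨hsol, ?_, ?_⟩
  · intro L
    haveI : Group.IsSolvable L := inferInstance
    obtain ⟨P₀⟩ : Nonempty (Sylow 2 L) := inferInstance
    have hL := (P₀ : Subgroup L).card_mul_index
    obtain ⟨w, hw⟩ := IsPGroup.iff_card.mp P₀.isPGroup'
    obtain ⟨D, hD⟩ := Cfsg.Agent.Lib.Solvable.Hall.exists_card_eq (G := L) (P₀ : Subgroup L).index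
      (Nat.card (P₀ : Subgroup L)) (by rw [mul_comm]; exact hL.symm) P₀.card_coprime_index.symm
    have hoddD : Odd (Nat.card D) := by
      rw [hD, ← Nat.not_even_iff_odd, even_iff_two_dvd]
      exact P₀.not_dvd_index
    let D' : Subgroup H := D.map L.subtype
    have hD' : Nat.card D' = Nat.card D :=
      (Nat.card_congr (Subgroup.equivMapOfInjective D L.subtype (Subgroup.subtype_injective _)).toEquiv).symm
    have hcop : ∀ n : ℕ, Odd n → n.Coprime C.index := by
      intro n hn
      rw [hC2, hv]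
      exact (Nat.Coprime.pow_left v (Nat.coprime_two_left.mpr hn)).symm
    obtain ⟨g, hg⟩ := Cfsg.Agent.Lib.Solvable.Hall.exists_le_conj C D' (hcop _ hodd)
      (hcop _ (by rw [hD']; exact hoddD))
    apply exists_complement D
    refine ⟨⟨⟨fun a b => ?_⟩⟩, hoddD, w, ?_⟩
    · have ha : (a.1.1 : H) ∈ MulAut.conj g • C := hg ⟨a.1, a.2, rfl⟩
      have hb : (b.1.1 : H) ∈ MulAut.conj g • C := hg ⟨b.1, b.2, rfl⟩
      rw [Cfsg.Agent.Lib.Solvable.Hall.mem_conj_smul_iff] at ha hb
      have h4 := hC.is_comm.comm (⟨_, ha⟩ : C) ⟨_, hb⟩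
      have h5 : g⁻¹ * a.1.1 * g * (g⁻¹ * b.1.1 * g) = g⁻¹ * b.1.1 * g * (g⁻¹ * a.1.1 * g) :=
        congrArg Subtype.val h4
      have h6 : a.1.1 * b.1.1 = b.1.1 * a.1.1 := by
        have h7 : g⁻¹ * (a.1.1 * b.1.1) * g = g⁻¹ * (b.1.1 * a.1.1) * g := by
          calc g⁻¹ * (a.1.1 * b.1.1) * g = g⁻¹ * a.1.1 * g * (g⁻¹ * b.1.1 * g) := by group
            _ = g⁻¹ * b.1.1 * g * (g⁻¹ * a.1.1 * g) := h5
            _ = g⁻¹ * (b.1.1 * a.1.1) * g := by group
        exact mul_left_cancel (mul_right_cancel h7)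
      exact Subtype.ext (Subtype.ext h6)
    · have h4 := D.card_mul_index
      have h5 : 0 < Nat.card D := Nat.card_pos
      apply Nat.eq_of_mul_eq_mul_left h5
      rw [h4, hD, ← hw, mul_comm]
      exact hL.symm
  · intro N _
    exact exists_complement _ (hAH.map_quot N)

end Cfsg.Agent.S3200
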