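import Cfsg.Statements.S3201
import Cfsg.Agent.S0016
import Cfsg.Agent.Lib.InvolChar.QuatQuot

set_option autoImplicit false
open Cfsg

namespace Cfsg.Agent.S3201

open Subgroup Cfsg.Agent.Lib.InvolChar.QuatQuot

theorem a_one_zpow {m : ℕ} (i : ℤ) :
    (QuaternionGroup.a 1 : QuaternionGroup m) ^ i = QuaternionGroup.a (i : ZMod (2 * m)) := by
  cases i with
  | ofNat k =>
    simp [QuaternionGroup.a_one_pow]
  | negSucc k =>
    rw [zpow_negSucc, QuaternionGroup.a_one_pow]
    apply inv_eq_of_mul_eq_one_right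
    rw [QuaternionGroup.a_mul_a, ← QuaternionGroup.a_zero]
    congr 1
    push_cast
    ring

/-- Let S be a finite 2-group whose centre Z(S) has n ≥ 2 distinct maximal subgroups C₁, …, Cₙ with trivial intersection such that each quotient S/Cᵢ is a non-abelian group with exactly one involution (a generalized quaternion group). Then S is the internal direct product of an elementary abelian subgroup and a non-abelian subgroup with exactly one involution. -/
theorem result {S : Type*} [Group S] [Finite S]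
    (hS : IsPGroup 2 S) (n : ℕ) (hn : 2 ≤ n) (C : Fin n → Subgroup ↥(Subgroup.center S))
    (hCmax : ∀ i, IsCoatom (C i)) (hCinj : Function.Injective C) (hCint : ⨅ i, C i = ⊥)
    (hCq : ∀ i, ∃ (_ : ((C i).map (Subgroup.center S).subtype).Normal),
      ¬ IsMulCommutative (S ⧸ (C i).map (Subgroup.center S).subtype) ∧
      ∃! x : S ⧸ (C i).map (Subgroup.center S).subtype, orderOf x = 2) :
    ∃ E Q : Subgroup S, Cfsg.IsInternalDirectProduct E Q ⊤ ∧ Cfsg.IsElementaryAbelian 2 E ∧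
      ¬ IsMulCommutative ↥Q ∧ ∃! x : ↥Q, orderOf x = 2 := by
  classical
  haveI : Fact (Nat.Prime 2) := ⟨Nat.prime_two⟩
  have hgood : ∀ i, Good ((C i).map (center S).subtype) := by
    intro i
    obtain ⟨hn', _, hu⟩ := hCq i
    haveI := hn'
    exact good_of_coatom hS (C i) (hCmax i) hu
  have hint : ∀ z ∈ center S, (∀ i, z ∈ (C i).map (center S).subtype) → z = 1 := by
    intro z hz h
    have h1 : (⟨z, hz⟩ : center S) ∈ ⨅ i, C i := by
      rw [Subgroup.mem_iInf]
      intro i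
      obtain ⟨y, hy, hyz⟩ := h i
      have : y = ⟨z, hz⟩ := Subtype.ext hyz
      rwa [← this]
    rw [hCint, Subgroup.mem_bot] at h1
    exact congrArg Subtype.val h1
  have hsqZ : ∀ z ∈ center S, z ^ 2 = 1 := fun z hz =>
    hint _ (pow_mem hz 2) fun i => (hgood i).sq_mem hz
  have hzl : ∀ g h : S, g ∉ center S → g ^ 2 ∈ center S → h ∉ center S → h ^ 2 ∈ center S →
      g ^ 2 = h ^ 2 := by
    intro g h hg hg2 hh hh2
    have h1 : g ^ 2 * h ^ 2 = 1 := by
      apply hint _ (mul_mem hg2 hh2)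
      intro i
      exact (hgood i).mul_mem_of_out _ hg2 _ hh2
        (fun h' => hg ((hgood i).center_of_sq g h')) (fun h' => hh ((hgood i).center_of_sq h h'))
    have h2 := hsqZ _ hh2
    calc g ^ 2 = g ^ 2 * ((h ^ 2) ^ 2) := by rw [h2, mul_one]
      _ = (g ^ 2 * h ^ 2) * h ^ 2 := by rw [pow_two (h ^ 2)]; group
      _ = h ^ 2 := by rw [h1, one_mul]
  -- first quotient
  let i0 : Fin n := ⟨0, by omega⟩
  set C₀ := (C i0).map (center S).subtype with hC₀
  have hG : Good C₀ := hgood i0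
  obtain ⟨hn₀, hnc, hu⟩ := hCq i0
  haveI := hn₀
  have hCp : IsPGroup 2 (S ⧸ C₀) := hS.to_quotient C₀
  -- structure of the quotient
  have huniq : ∀ H K : Subgroup (S ⧸ C₀), Nat.card H = 2 → Nat.card K = 2 → H = K := by
    have hkey : ∀ H : Subgroup (S ⧸ C₀), Nat.card H = 2 → ∃ x ∈ H, orderOf x = 2 := by
      intro H hH
      haveI : Fact (Nat.Prime (Nat.card H)) := ⟨by rw [hH]; exact Nat.prime_two⟩
      obtain ⟨x, hx⟩ := exists_prime_orderOf_dvd_card' (G := H) 2 (by rw [hH])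
      exact ⟨x.1, x.2, by rw [← hx]; exact Subgroup.orderOf_coe x⟩
    have hzp : ∀ H : Subgroup (S ⧸ C₀), Nat.card H = 2 → ∀ x ∈ H, orderOf x = 2 → H = zpowers x := by
      intro H hH x hx hxo
      symm
      apply Subgroup.eq_of_le_of_card_ge
      · exact (zpowers_le.mpr hx)
      · rw [Nat.card_zpowers, hxo, hH]
    intro H K hH hK
    obtain ⟨x, hxH, hxo⟩ := hkey H hH
    obtain ⟨y, hyK, hyo⟩ := hkey K hK
    obtain ⟨t, _, ht⟩ := hu
    have hxy : x = y := (ht x hxo).trans (ht y hyo).symm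
    rw [hzp H hH x hxH hxo, hzp K hK y hyK hyo, hxy]
  have hnoncyc : ¬ IsCyclic (S ⧸ C₀) := by
    intro hc
    apply hnc
    letI := hc.commGroup
    exact ⟨⟨fun a b => mul_comm a b⟩⟩
  obtain ⟨k, ⟨e⟩⟩ : ∃ k : ℕ, Nonempty ((S ⧸ C₀) ≃* QuaternionGroup (2 ^ k)) := by
    rcases Cfsg.Agent.S0016.result (G := S ⧸ C₀) 2 hCp huniq with h | ⟨_, h⟩
    · exact absurd h hnoncyc
    · exact h
  have hk0 : k ≠ 0 := by
    rintro rfl
    apply hnoncyc
    exact isCyclic_of_surjective e.symm.toMonoidHom e.symm.surjective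
      (hH := by
        simpa using (QuaternionGroup.quaternionGroup_one_isCyclic))
  obtain ⟨k', hk'⟩ := Nat.exists_eq_succ_of_ne_zero hk0
  subst hk'
  set m := 2 ^ (k' + 1) with hm
  have hm2 : 2 ≤ m := by
    rw [hm, pow_succ]
    have : 1 ≤ 2 ^ k' := Nat.one_le_two_pow
    omega
  haveI : NeZero m := ⟨by omega⟩
  haveI : NeZero (2 * m) := ⟨by omega⟩
  -- the map to the quaternion group
  let q : S →* QuaternionGroup m := e.toMonoidHom.comp (QuotientGroup.mk' C₀)
  have hqker : ∀ g : S, q g = 1 ↔ g ∈ C₀ := by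
    intro g
    change e (g : S ⧸ C₀) = 1 ↔ g ∈ C₀
    rw [map_eq_one_iff e e.injective, QuotientGroup.eq_one_iff]
  have hqsurj : Function.Surjective q := by
    intro y
    obtain ⟨g, hg⟩ := QuotientGroup.mk_surjective (e.symm y)
    exact ⟨g, by
      change e (g : S ⧸ C₀) = y
      rw [hg]; simp⟩
  let τ : QuaternionGroup m := QuaternionGroup.a (m : ZMod (2 * m))
  have hτ1 : τ ≠ 1 := by
    intro h
    rw [QuaternionGroup.one_def] at h
    have h2 : ((m : ℕ) : ZMod (2 * m)) = 0 := QuaternionGroup.a.inj h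
    rw [ZMod.natCast_eq_zero_iff] at h2
    have := Nat.le_of_dvd (by omega) h2
    omega
  have hτ2 : τ ^ 2 = 1 := by
    rw [pow_two]
    change QuaternionGroup.a (m : ZMod (2 * m)) * QuaternionGroup.a (m : ZMod (2 * m)) = 1
    rw [QuaternionGroup.a_mul_a, QuaternionGroup.one_def]
    congr 1
    have h2 : ((2 * m : ℕ) : ZMod (2 * m)) = 0 := ZMod.natCast_self _
    push_cast at h2
    linear_combination h2
  have hτ : ∀ g : S, q g = τ → g ∈ center S ∧ g ∉ C₀ := by
    intro g hg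
    constructor
    · apply hG.center_of_sq
      rw [← hqker, map_pow, hg, hτ2]
    · rw [← hqker, hg]
      exact hτ1
  have hgτ : ∀ g : S, q (g ^ 2) = τ → g ∉ center S ∧ g ^ 2 ∈ center S := by
    intro g hg
    obtain ⟨h1, h2⟩ := hτ _ hg
    exact ⟨fun h3 => h2 (hG.sq_mem h3), h1⟩
  obtain ⟨u, hu1⟩ := hqsurj (QuaternionGroup.a 1)
  obtain ⟨v, hv1⟩ := hqsurj (QuaternionGroup.xa 0)
  have hum : q (u ^ m) = τ := by
    rw [map_pow, hu1, QuaternionGroup.a_one_pow]
  have hv2 : q (v ^ 2) = τ := by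
    rw [map_pow, hv1, QuaternionGroup.xa_sq]
  have huv2 : q ((u * v) ^ 2) = τ := by
    rw [map_pow, map_mul, hu1, hv1, QuaternionGroup.a_mul_xa, QuaternionGroup.xa_sq]
  have hg12 : (u ^ (2 ^ k')) ^ 2 = u ^ m := by
    rw [← pow_mul, hm, pow_succ]
  obtain ⟨hg1Z, hg1Z2⟩ := hgτ (u ^ (2 ^ k')) (by rw [hg12]; exact hum)
  obtain ⟨hvZ, hvZ2⟩ := hgτ v hv2
  obtain ⟨huvZ, huvZ2⟩ := hgτ (u * v) huv2
  have hvz : v ^ 2 = u ^ m := by
    rw [← hg12]
    exact hzl _ _ hvZ hvZ2 hg1Z hg1Z2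
  have huvz : (u * v) ^ 2 = u ^ m := by
    rw [← hg12]
    exact hzl _ _ huvZ huvZ2 hg1Z hg1Z2
  have hzZ : u ^ m ∈ center S := (hτ _ hum).1
  have hzC : u ^ m ∉ C₀ := (hτ _ hum).2
  have hz2 : u ^ m * u ^ m = 1 := by
    rw [← pow_two]; exact hsqZ _ hzZ
  have huv : u * v * u = v := by
    have h1 : (u * v) * (u * v) = v * v := by
      rw [← pow_two, ← pow_two, huvz, hvz]
    have h2 : (u * v * u) * v = v * v := by
      rw [← h1]; group
    exact mul_right_cancel h2
  have hvu : v * u * v⁻¹ = u⁻¹ := by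
    have h1 : v * u = u⁻¹ * v := by
      have h2 : u⁻¹ * (u * v * u) = u⁻¹ * v := by rw [huv]
      rw [← h2]; group
    rw [h1]; group
  have hvuz : ∀ i : ℤ, v * u ^ i = u ^ (-i) * v := by
    intro i
    have h1 : v * u ^ i * v⁻¹ = u ^ (-i) := by
      rw [← conj_zpow, hvu, inv_zpow, zpow_neg]
    rw [← h1]; group
  have hu2m : u ^ (2 * m) = 1 := by
    rw [two_mul, pow_add, hz2]
  -- the subgroup
  let Q : Subgroup S := closure {u, v}
  have huQ : u ∈ Q := subset_closure (by simp)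
  have hvQ : v ∈ Q := subset_closure (by simp)
  have hmz : u ^ (m : ℤ) * u ^ (m : ℤ) = 1 := by
    rw [zpow_natCast]; exact hz2
  have hvv : v * v = u ^ (m : ℤ) := by
    rw [← pow_two, hvz, zpow_natCast]
  have hNF : ∀ x ∈ Q, ∃ i : ℤ, x = u ^ i ∨ x = u ^ i * v := by
    intro x hx
    induction hx using closure_induction with
    | mem x hx =>
      rcases hx with rfl | hx
      · exact ⟨1, Or.inl (by simp)⟩
      · rw [Set.mem_singleton_iff] at hx
        subst hx
        exact ⟨0, Or.inr (by simp)⟩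
    | one => exact ⟨0, Or.inl (by simp)⟩
    | mul x y _ _ hx hy =>
      obtain ⟨i, hi⟩ := hx
      obtain ⟨j, hj⟩ := hy
      rcases hi with rfl | rfl <;> rcases hj with rfl | rfl
      · exact ⟨i + j, Or.inl (by rw [zpow_add])⟩
      · exact ⟨i + j, Or.inr (by rw [zpow_add, mul_assoc])⟩
      · refine ⟨i - j, Or.inr ?_⟩
        calc u ^ i * v * u ^ j = u ^ i * (v * u ^ j) := by group
          _ = u ^ i * (u ^ (-j) * v) := by rw [hvuz]
          _ = u ^ (i - j) * v := by rw [sub_eq_add_neg, zpow_add, mul_assoc]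
      · refine ⟨i - j + m, Or.inl ?_⟩
        calc u ^ i * v * (u ^ j * v) = u ^ i * (v * u ^ j) * v := by group
          _ = u ^ i * (u ^ (-j) * v) * v := by rw [hvuz]
          _ = u ^ i * u ^ (-j) * (v * v) := by group
          _ = u ^ (i - j + m) := by
            rw [hvv, zpow_add, sub_eq_add_neg, zpow_add]
    | inv x _ hx =>
      obtain ⟨i, hi⟩ := hx
      rcases hi with rfl | rfl
      · exact ⟨-i, Or.inl (by rw [zpow_neg])⟩
      · refine ⟨(m : ℤ) + i, Or.inr ?_⟩
        have hvinv : v⁻¹ = u ^ (m : ℤ) * v := by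
          apply inv_eq_of_mul_eq_one_right
          calc v * (u ^ (m : ℤ) * v) = (v * v * v⁻¹) * (u ^ (m : ℤ) * v) := by group
            _ = u ^ (m : ℤ) * v⁻¹ * (u ^ (m : ℤ) * v) := by rw [hvv]
            _ = u ^ (m : ℤ) * (v⁻¹ * u ^ (m : ℤ) * v) := by group
            _ = u ^ (m : ℤ) * u ^ (m : ℤ) := by
              have h1 : v⁻¹ * u ^ (m : ℤ) * v = u ^ (m : ℤ) := by
                rw [← hvv]; group
              rw [h1]
            _ = 1 := hmz
        calc (u ^ i * v)⁻¹ = v⁻¹ * u ^ (-i) := by group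
          _ = u ^ (m : ℤ) * (v * u ^ (-i)) := by rw [hvinv]; group
          _ = u ^ (m : ℤ) * (u ^ (- -i) * v) := by rw [hvuz]
          _ = u ^ ((m : ℤ) + i) * v := by rw [neg_neg, zpow_add, mul_assoc]
  -- `Q ∩ C₀ = 1`
  have hF1 : ∀ x ∈ Q, x ∈ C₀ → x = 1 := by
    intro x hxQ hxC
    rw [← hqker] at hxC
    obtain ⟨i, hi | hi⟩ := hNF x hxQ
    · subst hi
      rw [map_zpow, hu1, a_one_zpow, QuaternionGroup.one_def] at hxC
      have h2 : ((i : ℤ) : ZMod (2 * m)) = 0 := QuaternionGroup.a.inj hxC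
      rw [ZMod.intCast_zmod_eq_zero_iff_dvd] at h2
      obtain ⟨c, rfl⟩ := h2
      rw [zpow_mul, zpow_natCast, hu2m, one_zpow]
    · subst hi
      exfalso
      rw [map_mul, map_zpow, hu1, hv1, a_one_zpow, QuaternionGroup.a_mul_xa,
        QuaternionGroup.one_def] at hxC
      cases hxC
  -- `S = Q C₀`
  have hF2 : ∀ g : S, ∃ x ∈ Q, q x = q g := by
    intro g
    cases hy : q g with
    | a i =>
      obtain ⟨c, hc⟩ := ZMod.intCast_surjective i
      refine ⟨u ^ c, zpow_mem huQ c, ?_⟩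
      rw [map_zpow, hu1, a_one_zpow, hc]
    | xa i =>
      obtain ⟨c, hc⟩ := ZMod.intCast_surjective (-i)
      refine ⟨u ^ c * v, mul_mem (zpow_mem huQ c) hvQ, ?_⟩
      rw [map_mul, map_zpow, hu1, hv1, a_one_zpow, hc, QuaternionGroup.a_mul_xa]
      congr 1
      ring
  have hE : ∀ x ∈ C₀, x ∈ center S := fun x hx => hG.le_center hx
  refine ⟨C₀, Q, ⟨le_top, le_top, ?_, ?_, ?_⟩, ⟨?_, ?_⟩, ?_, ?_⟩
  · intro a ha b _
    exact (mem_center_iff.1 (hE a ha) b).symm
  · rw [eq_bot_iff]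
    intro x hx
    exact hF1 x hx.2 hx.1
  · rw [eq_top_iff]
    intro g _
    obtain ⟨x, hx, hxg⟩ := hF2 g
    have h1 : x⁻¹ * g ∈ C₀ := by
      rw [← hqker, map_mul, map_inv, hxg, inv_mul_cancel]
    have h3 : g = x * (x⁻¹ * g) := by group
    have hcomm : x * (x⁻¹ * g) = (x⁻¹ * g) * x := (mem_center_iff.1 (hE _ h1) x)
    have h4 : g = (x⁻¹ * g) * x := h3.trans hcomm
    rw [h4]
    exact mul_mem (mem_sup_left h1) (mem_sup_right hx)
  · refine ⟨⟨fun a b => ?_⟩⟩
    exact Subtype.ext (mem_center_iff.1 (hE b.1 b.2) a.1)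
  · intro a ha
    exact hsqZ a (hE a ha)
  · -- `Q` is not abelian
    intro hc
    have h1 : u * v = v * u := by
      have := hc.is_comm.comm (⟨u, huQ⟩ : Q) ⟨v, hvQ⟩
      exact congrArg Subtype.val this
    have h2 : u * u = 1 := by
      have h3 : v * u * v⁻¹ = u := by rw [← h1]; group
      rw [hvu] at h3
      calc u * u = u⁻¹ * u := by rw [h3]
        _ = 1 := inv_mul_cancel u
    have h3 : (QuaternionGroup.a 1 : QuaternionGroup m) ^ 2 = 1 := by
      rw [← hu1, ← map_pow, pow_two, h2, map_one]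
    have h4 := orderOf_dvd_of_pow_eq_one h3
    rw [QuaternionGroup.orderOf_a_one] at h4
    have := Nat.le_of_dvd (by norm_num) h4
    omega
  · -- unique involution
    have hzQ : u ^ m ∈ Q := pow_mem huQ m
    have hzo : orderOf (⟨u ^ m, hzQ⟩ : Q) = 2 := by
      apply orderOf_eq_prime
      · apply Subtype.ext
        change (u ^ m) ^ 2 = 1
        rw [pow_two]; exact hz2
      · intro h
        apply hzC
        have : u ^ m = 1 := congrArg Subtype.val h
        rw [this]
        exact one_mem _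
    refine ⟨⟨u ^ m, hzQ⟩, hzo, ?_⟩
    intro x hx
    have hx2 : (x : S) ^ 2 = 1 := by
      have := congrArg Subtype.val (pow_orderOf_eq_one x)
      rw [hx] at this
      exact this
    have hxZ : (x : S) ∈ center S := hG.center_of_sq _ (by rw [hx2]; exact one_mem _)
    have hxC : (x : S) ∉ C₀ := by
      intro h
      have h1 := hF1 _ x.2 h
      have h2 : x = 1 := Subtype.ext h1
      rw [h2, orderOf_one] at hx
      omega
    have h1 := hG.mul_mem_of_out _ hxZ _ hzZ hxC hzC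
    have h2 := hF1 _ (mul_mem x.2 hzQ) h1
    apply Subtype.ext
    change (x : S) = u ^ m
    calc (x : S) = x * (u ^ m * u ^ m) := by rw [hz2, mul_one]
      _ = (x * u ^ m) * u ^ m := by group
      _ = u ^ m := by rw [h2, one_mul]

end Cfsg.Agent.S3201
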