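import Cfsg.Statements.S3202
import Cfsg.Agent.Lib.InvolChar.QuatQuot

set_option autoImplicit false
open Cfsg

namespace Cfsg.Agent.S3202

open Subgroup Cfsg.Agent.Lib.InvolChar.QuatQuot

/-- Let S be a finite 2-group of 2-rank exactly 2 and D a maximal subgroup of the centre of S such that S/D is a non-abelian group with exactly one involution (a generalized quaternion group). Then S has a nontrivial cyclic characteristic subgroup. -/
theorem result {S : Type*} [Group S]
    [Finite S] (hS : IsPGroup 2 S) (hr2 : Cfsg.PRankLE 2 2 S) (hr1 : ¬ Cfsg.PRankLE 2 1 S)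
    (D : Subgroup ↥(Subgroup.center S)) (hD : IsCoatom D)
    (hq : ∃ (_ : (D.map (Subgroup.center S).subtype).Normal),
      ¬ IsMulCommutative (S ⧸ D.map (Subgroup.center S).subtype) ∧
      ∃! x : S ⧸ D.map (Subgroup.center S).subtype, orderOf x = 2) :
    ∃ C : Subgroup S, C ≠ ⊥ ∧ IsCyclic ↥C ∧ C.Characteristic := by
  classical
  haveI : Fact (Nat.Prime 2) := ⟨Nat.prime_two⟩
  obtain ⟨hn, hnc, hu⟩ := hq
  haveI := hn
  have hG := good_of_coatom hS D hD hu
  set D₀ := D.map (Subgroup.center S).subtype with hD₀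
  have hSnc : ¬ IsMulCommutative S := by
    intro hc
    apply hnc
    refine ⟨⟨fun a b => ?_⟩⟩
    obtain ⟨a, rfl⟩ := QuotientGroup.mk_surjective a
    obtain ⟨b, rfl⟩ := QuotientGroup.mk_surjective b
    rw [← QuotientGroup.mk_mul, ← QuotientGroup.mk_mul, hc.is_comm.comm a b]
  obtain ⟨g, hgZ, hg2⟩ := exists_sq_mem_center hS hSnc
  have hinv : ∀ x : S, x ^ 2 = 1 → x ∈ center S := fun x hx =>
    hG.center_of_sq x (by rw [hx]; exact one_mem _)
  -- the subgroup of elements of order at most 2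
  let Ω : Subgroup S :=
    { carrier := {x | x ^ 2 = 1}
      one_mem' := by simp
      mul_mem' := by
        intro a b ha hb
        have ha' : a ^ 2 = 1 := ha
        have hb' : b ^ 2 = 1 := hb
        have hc : Commute a b := (mem_center_iff.1 (hinv a ha') b).symm
        change (a * b) ^ 2 = 1
        rw [hc.mul_pow, ha', hb', one_mul]
      inv_mem' := by
        intro a ha
        have ha' : a ^ 2 = 1 := ha
        change a⁻¹ ^ 2 = 1
        rw [inv_pow, ha', inv_one] }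
  have hΩmem : ∀ x, x ∈ Ω ↔ x ^ 2 = 1 := fun x => Iff.rfl
  have hΩcomm : IsMulCommutative Ω := by
    refine ⟨⟨fun a b => ?_⟩⟩
    exact Subtype.ext (mem_center_iff.1 (hinv a.1 a.2) b.1).symm
  have hΩle : Nat.card Ω ≤ 2 ^ 2 := hr2 Ω hΩcomm (fun a ha => ha)
  have hΩgt : 2 < Nat.card Ω := by
    unfold Cfsg.PRankLE at hr1
    push Not at hr1
    obtain ⟨A, _, hA2, hAc⟩ := hr1
    have h1 : A ≤ Ω := fun a ha => hA2 a ha
    have h2 := Subgroup.card_le_of_le h1
    simp only [pow_one] at hAc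
    omega
  have hΩcard : Nat.card Ω = 4 := by
    obtain ⟨m, hm⟩ := IsPGroup.iff_card.mp (hS.to_subgroup Ω)
    rw [hm] at hΩle hΩgt ⊢
    have hm2 : m ≤ 2 := (Nat.pow_le_pow_iff_right (by norm_num)).mp hΩle
    interval_cases m <;> simp_all
  -- choice of `j`
  obtain ⟨n, hcardS⟩ := IsPGroup.iff_card.mp hS
  have hexp : ∃ N : ℕ, ∀ z ∈ center S, z ^ (2 ^ N) = 1 :=
    ⟨n, fun z _ => by rw [← hcardS]; exact pow_card_eq_one'⟩
  have hZne : ∃ x : S, x ≠ 1 ∧ x ∈ center S := by
    by_contra hcon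
    push Not at hcon
    have h1 : Ω = ⊥ := by
      rw [eq_bot_iff]
      intro x hx
      by_contra hx1
      exact (hcon x hx1) (hinv x hx)
    rw [h1, Subgroup.card_bot] at hΩcard
    omega
  have hN0 : Nat.find hexp ≠ 0 := by
    intro h0
    have h1 := Nat.find_spec hexp
    rw [h0] at h1
    obtain ⟨x, hx, hxZ⟩ := hZne
    apply hx
    simpa using h1 x hxZ
  obtain ⟨j, hj⟩ := Nat.exists_eq_succ_of_ne_zero hN0
  have hj1 : ∀ z ∈ center S, z ^ (2 ^ (j + 1)) = 1 := by
    have h1 := Nat.find_spec hexp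
    rw [hj] at h1
    exact h1
  have hj0 : ¬ ∀ z ∈ center S, z ^ (2 ^ j) = 1 := by
    apply Nat.find_min hexp
    omega
  -- the power subgroup
  letI : CommGroup (center S) :=
    { (inferInstance : Group (center S)) with
      mul_comm := fun a b => Subtype.ext (mem_center_iff.1 b.2 a.1) }
  let π : center S →* center S := powMonoidHom (2 ^ j)
  let π2 : center S →* center S := powMonoidHom 2
  let P : Subgroup S := π.range.map (center S).subtype
  have hPmem : ∀ x, x ∈ P ↔ ∃ z ∈ center S, z ^ (2 ^ j) = x := by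
    intro x
    constructor
    · rintro ⟨_, ⟨z, rfl⟩, rfl⟩
      exact ⟨z.1, z.2, rfl⟩
    · rintro ⟨z, hz, rfl⟩
      exact ⟨_, ⟨⟨z, hz⟩, rfl⟩, rfl⟩
  have hPle : P ≤ Ω := by
    intro x hx
    obtain ⟨z, hz, rfl⟩ := (hPmem x).1 hx
    rw [hΩmem, ← pow_mul, ← pow_succ]
    exact hj1 z hz
  have hPne : P ≠ ⊥ := by
    intro h
    apply hj0
    intro z hz
    have : z ^ (2 ^ j) ∈ P := (hPmem _).2 ⟨z, hz, rfl⟩
    rw [h] at this
    exact this
  have hPchar : ∀ φ : S ≃* S, ∀ x ∈ P, φ x ∈ P := by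
    intro φ x hx
    obtain ⟨z, hz, rfl⟩ := (hPmem x).1 hx
    rw [hPmem]
    exact ⟨φ z, map_center_mem φ hz, by rw [map_pow]⟩
  have hPdvd : Nat.card P ∣ 4 := by
    rw [← hΩcard]
    exact Subgroup.card_dvd_of_le hPle
  have hP1 : Nat.card P ≠ 1 := by
    intro h
    exact hPne (Subgroup.card_eq_one.mp h)
  have hPcases : Nat.card P = 2 ∨ Nat.card P = 4 := by
    have h3 : Nat.card P ≤ 4 := Nat.le_of_dvd (by norm_num) hPdvd
    interval_cases h : Nat.card P <;> simp_all
  rcases hPcases with hP2 | hP4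
  · -- `P` has order 2
    refine ⟨P, hPne, ?_, ?_⟩
    · haveI : Fact (Nat.Prime (Nat.card P)) := ⟨by rw [hP2]; exact Nat.prime_two⟩
      exact isCyclic_of_prime_card rfl
    · rw [characteristic_iff_map_le]
      rintro φ _ ⟨x, hx, rfl⟩
      exact hPchar φ x hx
  -- `P = Ω`
  have hPΩ : P = Ω := Subgroup.eq_of_le_of_card_ge hPle (by rw [hP4, hΩcard])
  have hcardR : Nat.card π.range = 4 := by
    rw [← hP4]
    exact (Nat.card_congr (Subgroup.equivMapOfInjective π.range (center S).subtype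
      (Subgroup.subtype_injective _)).toEquiv)
  have hcardK : Nat.card π2.ker = 4 := by
    rw [← hΩcard]
    have h1 : Ω = π2.ker.map (center S).subtype := by
      ext x
      constructor
      · intro hx
        refine ⟨⟨x, hinv x hx⟩, ?_, rfl⟩
        rw [SetLike.mem_coe, MonoidHom.mem_ker]
        exact Subtype.ext hx
      · rintro ⟨y, hy, rfl⟩
        have h2 : π2 y = 1 := hy
        have h3 := congrArg Subtype.val h2
        exact h3
    rw [h1]
    exact (Nat.card_congr (Subgroup.equivMapOfInjective π2.ker (center S).subtype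
      (Subgroup.subtype_injective _)).toEquiv)
  -- the kernel of the power map is the set of squares
  have hK : ∀ z ∈ center S, z ^ (2 ^ j) = 1 → ∀ C : Subgroup S, Good C → z ∈ C := by
    intro z hz hz1 C hC
    obtain ⟨w, hw⟩ := exists_sq_of_pow_eq_one (A := center S) j
      (fun z => Subtype.ext (hj1 z.1 z.2)) (by
        change Nat.card π.range = Nat.card π2.ker
        rw [hcardR, hcardK]) ⟨z, hz⟩ (Subtype.ext hz1)
    have h1 : w.1 ^ 2 = z := congrArg Subtype.val hw
    rw [← h1]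
    exact hC.sq_mem w.2
  -- the set of images of good subgroups
  let I : Set S := {v | v ≠ 1 ∧ v ^ 2 = 1 ∧ ∃ C : Subgroup S, Good C ∧ ∃ c ∈ C, c ^ (2 ^ j) = v}
  have hIinv : ∀ φ : S ≃* S, ∀ v ∈ I, φ v ∈ I := by
    rintro φ v ⟨hv1, hv2, C, hC, c, hc, rfl⟩
    refine ⟨?_, ?_, C.map φ.toMonoidHom, hC.map φ, φ c, ⟨c, hc, rfl⟩, by rw [map_pow]⟩
    · rwa [Ne, map_eq_one_iff φ φ.injective]
    · rw [← map_pow, hv2, map_one]
  -- an element of `I`
  obtain ⟨a, haI⟩ : ∃ a, a ∈ I := by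
    haveI : Fintype Ω := Fintype.ofFinite Ω
    have h3 : 2 < Fintype.card Ω := by
      rw [← Nat.card_eq_fintype_card, hΩcard]; norm_num
    obtain ⟨x, y, w, hxy, hxw, hyw⟩ := Fintype.two_lt_card_iff.mp h3
    obtain ⟨p₁, p₂, hp₁, hp₂, hp₁₂⟩ : ∃ p₁ p₂ : Ω, p₁ ≠ 1 ∧ p₂ ≠ 1 ∧ p₁ ≠ p₂ := by
      by_cases hx1 : x = 1
      · refine ⟨y, w, ?_, ?_, hyw⟩
        · rw [← hx1]; exact hxy.symm
        · rw [← hx1]; exact hxw.symm
      · by_cases hy1 : y = 1
        · refine ⟨x, w, hx1, ?_, hxw⟩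
          rw [← hy1]; exact hyw.symm
        · exact ⟨x, y, hx1, hy1, hxy⟩
    have hp₁' : (p₁ : S) ≠ 1 := fun h => hp₁ (Subtype.ext h)
    have hp₂' : (p₂ : S) ≠ 1 := fun h => hp₂ (Subtype.ext h)
    have hp₁₂' : (p₁ : S) ≠ p₂ := fun h => hp₁₂ (Subtype.ext h)
    have hm₁ : (p₁ : S) ∈ P := by rw [hPΩ]; exact p₁.2
    have hm₂ : (p₂ : S) ∈ P := by rw [hPΩ]; exact p₂.2
    obtain ⟨z₁, hz₁, hz₁e⟩ := (hPmem _).1 hm₁
    obtain ⟨z₂, hz₂, hz₂e⟩ := (hPmem _).1 hm₂
    by_cases h₁ : z₁ ∈ D₀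
    · exact ⟨p₁, hp₁', p₁.2, D₀, hG, z₁, h₁, hz₁e⟩
    by_cases h₂ : z₂ ∈ D₀
    · exact ⟨p₂, hp₂', p₂.2, D₀, hG, z₂, h₂, hz₂e⟩
    have hc : Commute z₁ z₂ := (mem_center_iff.1 hz₁ z₂).symm
    have hp2 : (p₂ : S) * p₂ = 1 := by
      rw [← pow_two]; exact p₂.2
    have hmul : (p₁ : S) * p₂ ≠ 1 := by
      intro h
      apply hp₁₂'
      calc (p₁ : S) = p₁ * (p₂ * p₂) := by rw [hp2, mul_one]
        _ = (p₁ * p₂) * p₂ := by group
        _ = p₂ := by rw [h, one_mul]
    refine ⟨(p₁ : S) * p₂, hmul, (Ω.mul_mem p₁.2 p₂.2), D₀, hG, z₁ * z₂,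
      hG.mul_mem_of_out z₁ hz₁ z₂ hz₂ h₁ h₂, ?_⟩
    rw [hc.mul_pow, hz₁e, hz₂e]
  -- an element outside `I`
  have huZ : g ^ 2 ∉ D₀ := fun h => hgZ (hG.center_of_sq g h)
  set b : S := (g ^ 2) ^ (2 ^ j) with hb
  have hbP : b ∈ P := (hPmem _).2 ⟨g ^ 2, hg2, rfl⟩
  have hb2 : b ^ 2 = 1 := hPle hbP
  have hb1 : b ≠ 1 := fun h => huZ (hK _ hg2 h D₀ hG)
  have hbI : b ∉ I := by
    rintro ⟨_, _, C, hC, c, hc, hce⟩
    have hcZ : c ∈ center S := hC.le_center hc
    have hcom : Commute (g ^ 2) c⁻¹ := (mem_center_iff.1 (inv_mem hcZ) (g ^ 2))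
    have h1 : (g ^ 2 * c⁻¹) ^ (2 ^ j) = 1 := by
      rw [hcom.mul_pow, inv_pow, hce, ← hb]
      exact mul_inv_cancel b
    have h2 := hK _ (mul_mem hg2 (inv_mem hcZ)) h1 C hC
    have h3 : g ^ 2 ∈ C := by
      have h4 : g ^ 2 = (g ^ 2 * c⁻¹) * c := by group
      rw [h4]
      exact C.mul_mem h2 hc
    exact hgZ (hC.center_of_sq g h3)
  have ha1 : a ≠ 1 := haI.1
  have ha2 : a ^ 2 = 1 := haI.2.1
  have hab : a ≠ b := fun h => hbI (h ▸ haI)
  have haa : a * a = 1 := by rw [← pow_two]; exact ha2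
  have hbb : b * b = 1 := by rw [← pow_two]; exact hb2
  have hab1 : a * b ≠ 1 := by
    intro h
    apply hab
    calc a = a * (b * b) := by rw [hbb, mul_one]
      _ = (a * b) * b := by group
      _ = b := by rw [h, one_mul]
  have haba : a * b ≠ a := by
    intro h
    exact hb1 (mul_eq_left.mp h)
  have habb : a * b ≠ b := by
    intro h
    exact ha1 (mul_eq_right.mp h)
  -- four elements
  have hfour : ∀ v : S, v ^ 2 = 1 → v = 1 ∨ v = a ∨ v = b ∨ v = a * b := by
    haveI : Fintype Ω := Fintype.ofFinite Ω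
    intro v hv
    let a' : Ω := ⟨a, ha2⟩
    let b' : Ω := ⟨b, hb2⟩
    let ab' : Ω := a' * b'
    let F : Finset Ω := {1, a', b', ab'}
    have hF : F.card = 4 := by
      rw [Finset.card_insert_of_notMem, Finset.card_insert_of_notMem, Finset.card_insert_of_notMem,
        Finset.card_singleton]
      · simp only [Finset.mem_singleton]
        intro h
        exact habb (congrArg Subtype.val h).symm
      · simp only [Finset.mem_insert, Finset.mem_singleton, not_or]
        exact ⟨fun h => hab (congrArg Subtype.val h),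
          fun h => haba (congrArg Subtype.val h).symm⟩
      · simp only [Finset.mem_insert, Finset.mem_singleton, not_or]
        exact ⟨fun h => ha1 (congrArg Subtype.val h).symm,
          fun h => hb1 (congrArg Subtype.val h).symm,
          fun h => hab1 (congrArg Subtype.val h).symm⟩
    have hFu : F = Finset.univ := by
      apply Finset.eq_univ_of_card
      rw [hF, ← Nat.card_eq_fintype_card, hΩcard]
    have hvF : (⟨v, hv⟩ : Ω) ∈ F := by rw [hFu]; exact Finset.mem_univ _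
    simp only [F, Finset.mem_insert, Finset.mem_singleton] at hvF
    rcases hvF with h | h | h | h
    · exact Or.inl (congrArg Subtype.val h)
    · exact Or.inr (Or.inl (congrArg Subtype.val h))
    · exact Or.inr (Or.inr (Or.inl (congrArg Subtype.val h)))
    · exact Or.inr (Or.inr (Or.inr (congrArg Subtype.val h)))
  -- there is an element fixed by all automorphisms
  obtain ⟨e, he1, he2, hefix⟩ : ∃ e : S, e ≠ 1 ∧ e ^ 2 = 1 ∧ ∀ φ : S ≃* S, φ e = e := by
    by_cases habI : a * b ∈ I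
    · refine ⟨b, hb1, hb2, fun φ => ?_⟩
      have h1 : φ b ^ 2 = 1 := by rw [← map_pow, hb2, map_one]
      have h2 : φ b ≠ 1 := by rwa [Ne, map_eq_one_iff φ φ.injective]
      rcases hfour _ h1 with h | h | h | h
      · exact absurd h h2
      · exfalso
        apply hbI
        have := hIinv φ.symm (φ b) (by rw [h]; exact haI)
        simpa using this
      · exact h
      · exfalso
        apply hbI
        have := hIinv φ.symm (φ b) (by rw [h]; exact habI)
        simpa using this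
    · refine ⟨a, ha1, ha2, fun φ => ?_⟩
      have h1 : φ a ^ 2 = 1 := by rw [← map_pow, ha2, map_one]
      have h2 : φ a ≠ 1 := by rwa [Ne, map_eq_one_iff φ φ.injective]
      have h3 : φ a ∈ I := hIinv φ a haI
      rcases hfour _ h1 with h | h | h | h
      · exact absurd h h2
      · exact h
      · rw [h] at h3; exact absurd h3 hbI
      · rw [h] at h3; exact absurd h3 habI
  refine ⟨zpowers e, ?_, inferInstance, ?_⟩
  · rw [Ne, zpowers_eq_bot]
    exact he1
  · rw [characteristic_iff_map_le]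
    rintro φ _ ⟨x, hx, rfl⟩
    obtain ⟨i, rfl⟩ := mem_zpowers_iff.1 hx
    change φ (e ^ i) ∈ zpowers e
    rw [map_zpow, hefix]
    exact zpow_mem (mem_zpowers e) i

end Cfsg.Agent.S3202
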