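import Cfsg.Statements.S3208
import Mathlib

set_option autoImplicit false
open Cfsg

namespace Cfsg.Agent.S3208

/-- Let j be an involution of a finite group G, H a subgroup of G, and T a Sylow 2-subgroup of H ∩ C_G(j) containing j such that ⟨j⟩ is a characteristic subgroup of T. Then T is a Sylow 2-subgroup of H. -/
theorem result {G : Type*} [Group G] [Finite G]
    (j : G) (hj : orderOf j = 2) (H T : Subgroup G) (hT : T ≤ H ⊓ Subgroup.centralizer ({j} : Set G)) (h2 : IsPGroup 2 ↥T)
    (hSyl : ¬ 2 ∣ T.relIndex (H ⊓ Subgroup.centralizer ({j} : Set G))) (hjT : j ∈ T)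
    (hchar : ((Subgroup.zpowers j).subgroupOf T).Characteristic) :
    ¬ 2 ∣ T.relIndex H := by
  intro hdvd
  classical
  haveI : Fact (Nat.Prime 2) := ⟨Nat.prime_two⟩
  obtain ⟨n, hn⟩ := h2.exists_card_eq
  have hTH : T ≤ H := hT.trans inf_le_left
  have hTC : T ≤ H ⊓ Subgroup.centralizer ({j} : Set G) := hT
  -- cardinalities
  have hcard : ∀ X : Subgroup G, T ≤ X → Nat.card X = Nat.card T * T.relIndex X := by
    intro X hX
    have h1 := (T.subgroupOf X).card_mul_index
    have h2 : Nat.card (T.subgroupOf X) = Nat.card T :=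
      Nat.card_congr (Subgroup.subgroupOfEquivOfLe hX).toEquiv
    rw [h2] at h1
    exact h1.symm
  let T' : Subgroup H := T.subgroupOf H
  have hT' : Nat.card T' = 2 ^ n := by
    rw [← hn]
    exact Nat.card_congr (Subgroup.subgroupOfEquivOfLe hTH).toEquiv
  have hdvdH : 2 ^ (n + 1) ∣ Nat.card H := by
    rw [hcard H hTH, hn, pow_succ]
    exact Nat.mul_dvd_mul_left _ hdvd
  have hN := Sylow.prime_pow_dvd_card_normalizer hdvdH hT'
  -- normalizer centralizes j
  have hle : (Subgroup.normalizer (T' : Set H)).map H.subtype ≤ H ⊓ Subgroup.centralizer ({j} : Set G) := by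
    rintro _ ⟨⟨y, hyH⟩, hy, rfl⟩
    refine ⟨hyH, ?_⟩
    rw [SetLike.mem_coe, Subgroup.mem_normalizer_iff] at hy
    have hyT : ∀ t : G, t ∈ T → y * t * y⁻¹ ∈ T := by
      intro t ht
      have := (hy ⟨t, hTH ht⟩).1 (by rw [Subgroup.mem_subgroupOf]; exact ht)
      rw [Subgroup.mem_subgroupOf] at this
      simpa using this
    have hyT' : ∀ t : G, t ∈ T → y⁻¹ * t * y ∈ T := by
      intro t ht
      by_contra hcon
      have h3 := (hy ⟨y⁻¹ * t * y, H.mul_mem (H.mul_mem (H.inv_mem hyH) (hTH ht)) hyH⟩).2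
        (by
          rw [Subgroup.mem_subgroupOf]
          have : y * (y⁻¹ * t * y) * y⁻¹ = t := by group
          simpa [this] using ht)
      rw [Subgroup.mem_subgroupOf] at h3
      exact hcon h3
    let φ : T ≃* T :=
      { toFun := fun t => ⟨y * t * y⁻¹, hyT t t.2⟩
        invFun := fun t => ⟨y⁻¹ * t * y, hyT' t t.2⟩
        left_inv := fun t => by ext; simp [mul_assoc]
        right_inv := fun t => by ext; simp [mul_assoc]
        map_mul' := fun a b => by ext; simp [mul_assoc] }
    have hfix := hchar.fixed φ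
    have hj1 : (⟨j, hjT⟩ : T) ∈ (Subgroup.zpowers j).subgroupOf T := by
      rw [Subgroup.mem_subgroupOf]; exact Subgroup.mem_zpowers j
    have hj2 : φ ⟨j, hjT⟩ ∈ (Subgroup.zpowers j).subgroupOf T := by
      have : (⟨j, hjT⟩ : T) ∈ ((Subgroup.zpowers j).subgroupOf T).comap φ.toMonoidHom := by
        rw [hfix]; exact hj1
      exact this
    rw [Subgroup.mem_subgroupOf, Subgroup.mem_zpowers_iff] at hj2
    obtain ⟨k, hk⟩ := hj2
    have hk' : j ^ k = y * j * y⁻¹ := hk
    have hjj : j ^ 2 = 1 := by rw [← hj, pow_orderOf_eq_one]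
    have hjj' : j * j = 1 := by rw [← pow_two, hjj]
    have hfin : y * j * y⁻¹ = j := by
      rcases Int.even_or_odd' k with ⟨m, rfl | rfl⟩
      · rw [zpow_mul, zpow_two, hjj', one_zpow] at hk'
        have : y * j * y⁻¹ = 1 := hk'.symm
        have hj1 : j = 1 := by
          have h5 : y * j = y := by
            calc y * j = y * j * y⁻¹ * y := by group
              _ = y := by rw [this, one_mul]
          simpa using h5
        rw [hj1] at hj
        simp at hj
      · rw [zpow_add, zpow_mul, zpow_two, hjj', one_zpow, one_mul, zpow_one] at hk'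
        exact hk'.symm
    change y ∈ Subgroup.centralizer ({j} : Set G)
    rw [Subgroup.mem_centralizer_iff]
    intro c hc
    rw [Set.mem_singleton_iff] at hc
    subst hc
    calc c * y = (y * c * y⁻¹) * y := by rw [hfin]
      _ = y * c := by group
  have hdiv : Nat.card (Subgroup.normalizer (T' : Set H)) ∣ Nat.card ↥(H ⊓ Subgroup.centralizer ({j} : Set G)) := by
    rw [← Subgroup.card_map_of_injective (f := H.subtype) H.subtype_injective]
    exact Subgroup.card_dvd_of_le hle
  rw [hcard _ hTC, hn] at hdiv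
  have := hN.trans hdiv
  rw [pow_succ] at this
  exact hSyl (Nat.dvd_of_mul_dvd_mul_left (by positivity) this)

end Cfsg.Agent.S3208
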