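import Cfsg.Statements.S3209
import Cfsg.Agent.Lib.InvolChar.SL2Pair
import Cfsg.Agent.Lib.OddOrder.TypeP

set_option autoImplicit false
open Cfsg

namespace Cfsg.Agent.S3209

open Subgroup Cfsg.Agent.Lib.InvolChar.SL2Pair

/-- Let L₁ ≅ SL₂(q₁) and L₂ ≅ SL₂(q₂), q₁ and q₂ odd, be elementwise-commuting subgroups of a finite group meeting in ⟨j⟩ for an involution j. Then L₁L₂ has exactly two conjugacy classes of involutions: the central involution j, and one further class (there is an involution x ≠ j in L₁L₂, and every involution of L₁L₂ other than j is conjugate to x by an element of L₁L₂). -/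
theorem result {G : Type*} [Group G] [Finite G]
    {F₁ : Type*} [Field F₁] [Fintype F₁] {F₂ : Type*} [Field F₂] [Fintype F₂]
    (hF₁ : Odd (Fintype.card F₁)) (hF₂ : Odd (Fintype.card F₂)) (L₁ L₂ : Subgroup G)
    (e₁ : ↥L₁ ≃* Matrix.SpecialLinearGroup (Fin 2) F₁) (e₂ : ↥L₂ ≃* Matrix.SpecialLinearGroup (Fin 2) F₂)
    (hc : ∀ x ∈ L₁, ∀ y ∈ L₂, x * y = y * x) (j : G) (hj : orderOf j = 2) (hm : L₁ ⊓ L₂ = Subgroup.zpowers j) :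
    ∃ x ∈ L₁ ⊔ L₂, orderOf x = 2 ∧ x ≠ j ∧
      ∀ y ∈ L₁ ⊔ L₂, orderOf y = 2 → y = j ∨ ∃ g ∈ L₁ ⊔ L₂, g * x * g⁻¹ = y := by
  have hjm : j ∈ L₁ ⊓ L₂ := by rw [hm]; exact mem_zpowers j
  have S₁ : Sys L₁ e₁ j := Sys.mk' e₁ (Nat.odd_iff.mp hF₁) hjm.1 hj
  have S₂ : Sys L₂ e₂ j := Sys.mk' e₂ (Nat.odd_iff.mp hF₂) hjm.2 hj
  have hjj : j * j = 1 := by
    rw [← pow_two, ← hj]; exact pow_orderOf_eq_one j
  have hinf : ∀ u ∈ L₁, u ∈ L₂ → u = 1 ∨ u = j := by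
    intro u hu1 hu2
    have h1 : u ∈ zpowers j := by rw [← hm]; exact ⟨hu1, hu2⟩
    obtain ⟨i, rfl⟩ := mem_zpowers_iff.1 h1
    rcases Int.even_or_odd' i with ⟨c, rfl | rfl⟩
    · left
      rw [zpow_mul, zpow_two, hjj, one_zpow]
    · right
      rw [zpow_add, zpow_mul, zpow_two, hjj, one_zpow, one_mul, zpow_one]
  obtain ⟨τ₁, hτ₁, hτ₁2⟩ := S₁.exists_four
  obtain ⟨τ₂, hτ₂, hτ₂2⟩ := S₂.exists_four
  have hj1 : j ≠ 1 := by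
    rintro rfl
    simp at hj
  have hτne : τ₁ ∉ L₂ := by
    intro h
    rcases hinf τ₁ hτ₁ h with h1 | h1
    · rw [h1, one_mul] at hτ₁2; exact hj1 hτ₁2.symm
    · rw [h1, hjj] at hτ₁2; exact hj1 hτ₁2.symm
  have hcc : τ₁ * τ₂ = τ₂ * τ₁ := hc _ hτ₁ _ hτ₂
  have hxx : (τ₁ * τ₂) ^ 2 = 1 := by
    rw [(show Commute τ₁ τ₂ from hcc).mul_pow, pow_two, pow_two, hτ₁2, hτ₂2, hjj]
  have hx1 : τ₁ * τ₂ ≠ 1 := by
    intro h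
    apply hτne
    rw [eq_inv_of_mul_eq_one_left h]
    exact inv_mem hτ₂
  have hxj : τ₁ * τ₂ ≠ j := by
    intro h
    apply hτne
    have h2 : τ₁ * τ₂ = τ₂ * τ₂ := by rw [h, hτ₂2]
    rw [mul_right_cancel h2]
    exact hτ₂
  refine ⟨τ₁ * τ₂, mul_mem (mem_sup_left hτ₁) (mem_sup_right hτ₂), orderOf_eq_prime hxx hx1, hxj, ?_⟩
  intro y hy hyo
  obtain ⟨l₁, hl₁, l₂, hl₂, rfl⟩ := Cfsg.Agent.Lib.OddOrder.TypeP.mem_sup_of_commute L₁ L₂ hc y hy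
  have hcl : Commute l₁ l₂ := hc _ hl₁ _ hl₂
  have hy2 : (l₁ * l₂) ^ 2 = 1 := by rw [← hyo]; exact pow_orderOf_eq_one _
  rw [hcl.mul_pow, pow_two, pow_two] at hy2
  have hl : l₁ * l₁ = (l₂ * l₂)⁻¹ := eq_inv_of_mul_eq_one_left hy2
  rcases hinf (l₁ * l₁) (mul_mem hl₁ hl₁) (by rw [hl]; exact inv_mem (mul_mem hl₂ hl₂)) with h1 | h1
  · -- both squares trivial
    left
    have h2 : l₂ * l₂ = 1 := by
      rw [h1] at hy2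
      simpa using hy2
    have h3 : l₁ * l₂ ≠ 1 := by
      intro h
      rw [h, orderOf_one] at hyo
      omega
    rcases S₁.inv_eq hl₁ h1 with rfl | rfl <;> rcases S₂.inv_eq hl₂ h2 with rfl | rfl
    · simp at h3
    · simp
    · simp
    · exact absurd hjj (by simpa using h3)
  · right
    have h2 : l₂ * l₂ = j := by
      have h3 : l₂ * l₂ = j⁻¹ := by
        rw [← h1, hl, inv_inv]
      rw [h3]
      exact inv_eq_of_mul_eq_one_left hjj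
    obtain ⟨c₁, hc₁, hc₁e⟩ := S₁.four_conj hτ₁ hl₁ hτ₁2 h1
    obtain ⟨c₂, hc₂, hc₂e⟩ := S₂.four_conj hτ₂ hl₂ hτ₂2 h2
    refine ⟨c₁ * c₂, mul_mem (mem_sup_left hc₁) (mem_sup_right hc₂), ?_⟩
    rw [← hc₁e, ← hc₂e]
    have a1 : c₂ * τ₁ = τ₁ * c₂ := (hc _ hτ₁ _ hc₂).symm
    have a2 : c₂ * c₁⁻¹ = c₁⁻¹ * c₂ := (hc _ (inv_mem hc₁) _ hc₂).symm
    have a3 : τ₂ * c₁⁻¹ = c₁⁻¹ * τ₂ := (hc _ (inv_mem hc₁) _ hτ₂).symm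
    have a4 : c₂⁻¹ * c₁⁻¹ = c₁⁻¹ * c₂⁻¹ := (hc _ (inv_mem hc₁) _ (inv_mem hc₂)).symm
    calc c₁ * c₂ * (τ₁ * τ₂) * (c₁ * c₂)⁻¹
        = c₁ * (c₂ * τ₁) * τ₂ * (c₂⁻¹ * c₁⁻¹) := by group
      _ = c₁ * (τ₁ * c₂) * τ₂ * (c₁⁻¹ * c₂⁻¹) := by rw [a1, a4]
      _ = c₁ * τ₁ * (c₂ * (τ₂ * c₁⁻¹)) * c₂⁻¹ := by group
      _ = c₁ * τ₁ * (c₂ * (c₁⁻¹ * τ₂)) * c₂⁻¹ := by rw [a3]
      _ = c₁ * τ₁ * ((c₂ * c₁⁻¹) * τ₂) * c₂⁻¹ := by group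
      _ = c₁ * τ₁ * ((c₁⁻¹ * c₂) * τ₂) * c₂⁻¹ := by rw [a2]
      _ = c₁ * τ₁ * c₁⁻¹ * (c₂ * τ₂ * c₂⁻¹) := by group

end Cfsg.Agent.S3209
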