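import Cfsg.Statements.S3211
import Cfsg.Agent.Lib.SL2Pair.Main
import Cfsg.Agent.Lib.SL2Pair.Iso
import Cfsg.Agent.Lib.Components.Basic

set_option autoImplicit false
open Cfsg

namespace Cfsg.Agent.S3211

/-- Let G be a finite group with subgroups L₁ ≅ SL₂(q₁) and L₂ ≅ SL₂(q₂), q₁ and q₂ odd prime powers, which commute elementwise and meet in ⟨j⟩ for an involution j, and suppose L₁L₂ has index 2 in C_G(j). If some n ∈ C_G(j) with n² = j interchanges L₁ and L₂ under conjugation (so that C_G(j) = L₁L₂⟨n⟩), then G = C_G(j)O(G). -/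
theorem result {G : Type*} [Group G] [Finite G]
    {F₁ : Type*} [Field F₁] [Fintype F₁] {F₂ : Type*} [Field F₂] [Fintype F₂]
    (hF₁ : Odd (Fintype.card F₁)) (hF₂ : Odd (Fintype.card F₂)) (L₁ L₂ : Subgroup G)
    (e₁ : ↥L₁ ≃* Matrix.SpecialLinearGroup (Fin 2) F₁) (e₂ : ↥L₂ ≃* Matrix.SpecialLinearGroup (Fin 2) F₂)
    (hc : ∀ x ∈ L₁, ∀ y ∈ L₂, x * y = y * x) (j : G) (hj : orderOf j = 2) (hm : L₁ ⊓ L₂ = Subgroup.zpowers j)
    (hle : L₁ ⊔ L₂ ≤ Subgroup.centralizer ({j} : Set G)) (hi : (L₁ ⊔ L₂).relIndex (Subgroup.centralizer ({j} : Set G)) = 2) (n : G) (hn : n ∈ Subgroup.centralizer ({j} : Set G))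
    (hn2 : n ^ 2 = j) (hswap : L₁.map (MulAut.conj n).toMonoidHom = L₂) :
    Subgroup.centralizer ({j} : Set G) ⊔ Cfsg.oddCore G = ⊤ := by
  classical
  have hj2 : j ^ 2 = 1 := by rw [← hj]; exact pow_orderOf_eq_one j
  have hj1 : j ≠ 1 := by
    rintro rfl
    simp at hj
  have hjm : j ∈ L₁ ⊓ L₂ := by rw [hm]; exact Subgroup.mem_zpowers j
  have hjL₁ : j ∈ L₁ := hjm.1
  have hjL₂ : j ∈ L₂ := hjm.2
  have hinter : ∀ x, x ∈ L₁ → x ∈ L₂ → x = 1 ∨ x = j := by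
    intro x h1 h2
    have : x ∈ Subgroup.zpowers j := by rw [← hm]; exact ⟨h1, h2⟩
    obtain ⟨k, rfl⟩ := this
    rcases Int.even_or_odd' k with ⟨m, rfl | rfl⟩
    · left
      change j ^ (2 * m) = 1
      rw [zpow_mul]
      have : j ^ (2 : ℤ) = 1 := by exact_mod_cast hj2
      rw [this, one_zpow]
    · right
      change j ^ (2 * m + 1) = j
      rw [zpow_add, zpow_mul]
      have : j ^ (2 : ℤ) = 1 := by exact_mod_cast hj2
      rw [this, one_zpow, one_mul, zpow_one]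
  have s₁ := Cfsg.Agent.Lib.SL2Pair.SLF.of_equiv hF₁ e₁ hjL₁ hj2 hj1
  have s₂ := Cfsg.Agent.Lib.SL2Pair.SLF.of_equiv hF₂ e₂ hjL₂ hj2 hj1
  have hcomm : ⁅L₁, L₂⁆ = ⊥ := by
    rw [Subgroup.commutator_eq_bot_iff_le_centralizer]
    intro x hx
    rw [Subgroup.mem_centralizer_iff]
    intro y hy
    exact (hc x hx y hy).symm
  have hnn : n * n = j := by rw [← pow_two, hn2]
  have hn₁ : ∀ x ∈ L₁, n * x * n⁻¹ ∈ L₂ := by
    intro x hx
    rw [← hswap]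
    exact ⟨x, hx, rfl⟩
  have hn₂ : ∀ x ∈ L₂, n * x * n⁻¹ ∈ L₁ := by
    intro x hx
    rw [← hswap] at hx
    obtain ⟨y, hy, rfl⟩ := hx
    change n * (n * y * n⁻¹) * n⁻¹ ∈ L₁
    have e : n * (n * y * n⁻¹) * n⁻¹ = (n * n) * y * (n * n)⁻¹ := by group
    rw [e, hnn]
    exact L₁.mul_mem (L₁.mul_mem hjL₁ hy) (L₁.inv_mem hjL₁)
  -- `n ∉ L₁ ⊔ L₂`
  have hnE : n ∉ L₁ ⊔ L₂ := by
    intro hnE
    obtain ⟨c₁, h1, c₂, h2, e⟩ :=
      Cfsg.Agent.Lib.Components.Basic.mem_sup_of_commutator_eq_bot hcomm hnE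
    -- then `L₂ ≤ L₁`
    have hle21 : ∀ y ∈ L₂, y ∈ L₁ := by
      intro y hy
      have hy' := hy
      rw [← hswap] at hy'
      obtain ⟨x, hx, rfl⟩ := hy'
      change n * x * n⁻¹ ∈ L₁
      rw [← e]
      have c1 : c₂ * x = x * c₂ := (hc x hx c₂ h2).symm
      have e2 : c₁ * c₂ * x * (c₁ * c₂)⁻¹ = c₁ * x * c₁⁻¹ := by
        calc c₁ * c₂ * x * (c₁ * c₂)⁻¹ = c₁ * (c₂ * x) * c₂⁻¹ * c₁⁻¹ := by group
          _ = c₁ * (x * c₂) * c₂⁻¹ * c₁⁻¹ := by rw [c1]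
          _ = _ := by group
      rw [e2]
      exact L₁.mul_mem (L₁.mul_mem h1 hx) (L₁.inv_mem h1)
    -- a transvection
    let t : Matrix.SpecialLinearGroup (Fin 2) F₂ := ⟨!![1, 1; 0, 1], by simp [Matrix.det_fin_two]⟩
    have ht : (e₂.symm t : G) ∈ L₂ := (e₂.symm t).2
    have h3 := hinter _ (hle21 _ ht) ht
    have h4 : (e₂.symm t : G) ^ 2 = 1 := by
      rcases h3 with h | h
      · rw [h, one_pow]
      · rw [h, hj2]
    have h5 : (e₂.symm t) ^ 2 = 1 := Subtype.ext h4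
    have h6 : t ^ 2 = 1 := by
      have := congrArg e₂ h5
      rwa [map_pow, e₂.apply_symm_apply, map_one] at this
    have h7 : ((t * t : Matrix.SpecialLinearGroup (Fin 2) F₂).1) 0 1 =
        ((1 : Matrix.SpecialLinearGroup (Fin 2) F₂).1) 0 1 := by rw [← pow_two, h6]
    have h8 : (2 : F₂) = 0 := by
      have h9 : (!![1, 1; 0, 1] * !![1, 1; 0, 1] : Matrix (Fin 2) (Fin 2) F₂) 0 1 =
          (1 : Matrix (Fin 2) (Fin 2) F₂) 0 1 := h7
      simpa [Matrix.mul_apply, Fin.sum_univ_two, one_add_one_eq_two] using h9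
    exact Cfsg.Agent.Lib.SL2Pair.two_ne hF₂ h8
  -- covering
  have hcov : ∀ g, g * j = j * g → (∃ a ∈ L₁, ∃ b ∈ L₂, g = a * b) ∨ (∃ a ∈ L₁, ∃ b ∈ L₂, g = a * b * n) := by
    intro g hg
    have hgC : g ∈ Subgroup.centralizer ({j} : Set G) := by
      rw [Subgroup.mem_centralizer_singleton_iff]
      exact hg
    by_cases hgE : g ∈ L₁ ⊔ L₂
    · left
      obtain ⟨a, ha, b, hb, e⟩ := Cfsg.Agent.Lib.Components.Basic.mem_sup_of_commutator_eq_bot hcomm hgE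
      exact ⟨a, ha, b, hb, e.symm⟩
    · right
      have hi' : ((L₁ ⊔ L₂).subgroupOf (Subgroup.centralizer ({j} : Set G))).index = 2 := hi
      have key := Subgroup.mul_mem_iff_of_index_two hi' (a := ⟨g, hgC⟩) (b := (⟨n, hn⟩ : Subgroup.centralizer ({j} : Set G))⁻¹)
      have h1 : (⟨g, hgC⟩ : Subgroup.centralizer ({j} : Set G)) ∉ (L₁ ⊔ L₂).subgroupOf (Subgroup.centralizer ({j} : Set G)) := by
        rw [Subgroup.mem_subgroupOf]
        exact hgE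
      have h2 : (⟨n, hn⟩ : Subgroup.centralizer ({j} : Set G))⁻¹ ∉ (L₁ ⊔ L₂).subgroupOf (Subgroup.centralizer ({j} : Set G)) := by
        rw [Subgroup.inv_mem_iff, Subgroup.mem_subgroupOf]
        exact hnE
      have h3 : (⟨g, hgC⟩ : Subgroup.centralizer ({j} : Set G)) * (⟨n, hn⟩ : Subgroup.centralizer ({j} : Set G))⁻¹ ∈ (L₁ ⊔ L₂).subgroupOf (Subgroup.centralizer ({j} : Set G)) :=
        key.mpr (by simp only [h1, h2])
      rw [Subgroup.mem_subgroupOf] at h3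
      obtain ⟨a, ha, b, hb, e⟩ := Cfsg.Agent.Lib.Components.Basic.mem_sup_of_commutator_eq_bot hcomm h3
      refine ⟨a, ha, b, hb, ?_⟩
      have e' : a * b = g * n⁻¹ := e
      rw [e']
      group
  have P : Cfsg.Agent.Lib.SL2Pair.Pkg L₁ L₂ j n := {
    hc := hc, j2 := hj2, j1 := hj1, jL₁ := hjL₁, jL₂ := hjL₂, hm := hinter, hcov := hcov,
    nsq := hn2, n₁ := hn₁, n₂ := hn₂, s₁ := s₁, s₂ := s₂ }
  apply Cfsg.Agent.Lib.SL2Pair.sup_oddCore_eq_top_of_isolated hj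
  intro g hg
  by_contra hne
  exact Cfsg.Agent.Lib.SL2Pair.no_commuting P (P.map (MulAut.conj g)) hne hg

end Cfsg.Agent.S3211
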