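import Cfsg.Statements.S3213
import Cfsg.Agent.Lib.GL2.SL2Classes

set_option autoImplicit false
open Cfsg

namespace Cfsg.Agent.S3213

open Matrix Cfsg.Agent.Lib.GL2.SL2 Cfsg.Agent.Lib.GL2.SL2Classes

section SL

variable {K : Type*} [Field K] [Fintype K]

lemma char5 (hK : Fintype.card K = 5) : (5 : K) = 0 := by
  have h := FiniteField.cast_card_eq_zero K
  rw [hK] at h
  exact_mod_cast h

omit [Fintype K] in
lemma tr_of_order_three (x : Matrix.SpecialLinearGroup (Fin 2) K) (hx : orderOf x = 3) :
    tr x = -1 := by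
  have hx3 : x ^ 3 = 1 := by rw [← hx]; exact pow_orderOf_eq_one x
  have hx1 : x ≠ 1 := by
    intro h
    rw [h, orderOf_one] at hx
    omega
  have hCH := sq_eq_tr x
  set t := tr x with ht
  set G : Matrix (Fin 2) (Fin 2) K := (x : Matrix (Fin 2) (Fin 2) K) with hG
  have h3 : G * G * G = 1 := by
    have := congrArg (fun y : Matrix.SpecialLinearGroup (Fin 2) K => (y : Matrix (Fin 2) (Fin 2) K)) hx3
    simpa [pow_three, mul_assoc] using this
  have hdet := det_eq x
  have e : G * G * G = (t ^ 2 - 1) • G - t • (1 : Matrix (Fin 2) (Fin 2) K) := by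
    rw [hCH, Matrix.sub_mul, Matrix.smul_mul, hCH, Matrix.one_mul, smul_sub, smul_smul]
    ext i j
    simp [sub_smul, pow_two]
    ring
  rw [h3] at e
  have e00 := congrFun (congrFun e 0) 0
  have e01 := congrFun (congrFun e 0) 1
  have e10 := congrFun (congrFun e 1) 0
  have e11 := congrFun (congrFun e 1) 1
  simp at e00 e01 e10 e11
  by_cases hne : t ^ 2 - 1 = 0
  · rw [hne, zero_mul] at e00
    linear_combination e00
  · exfalso
    have hb := e01.resolve_left hne
    have hc := e10.resolve_left hne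
    have had : G 0 0 = G 1 1 := by
      apply mul_left_cancel₀ hne
      linear_combination -e00 + e11
    rw [← hG] at hdet
    rw [hb, hc, ← had] at hdet
    simp at hdet
    have ha3 : G 0 0 = 1 := by
      have h6 := congrFun (congrFun h3 0) 0
      simp [Matrix.mul_apply, Fin.sum_univ_two, hb, hc] at h6
      linear_combination h6 - (G 0 0) * hdet
    apply hx1
    apply ext_sl
    · simpa [← hG] using ha3
    · simpa [← hG] using hb
    · simpa [← hG] using hc
    · simpa [← hG, ← had] using ha3

/-- The lower unitriangular matrices. -/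
def ll (a : K) : Matrix.SpecialLinearGroup (Fin 2) K := ⟨!![1, 0; a, 1], by simp [det_fin_two]⟩

omit [Fintype K] in
lemma ll_mul (a b : K) : ll a * ll b = ll (a + b) := by
  apply ext_sl <;> simp only [mul_entries] <;> simp [ll, add_comm]

omit [Fintype K] in
lemma ll_pow (a : K) (n : ℕ) : ll a ^ n = ll ((n : K) * a) := by
  induction n with
  | zero =>
    rw [pow_zero]
    apply ext_sl <;> simp [ll]
  | succ n ih =>
    rw [pow_succ, ih, ll_mul]
    congr 1
    push_cast
    ring

lemma conj_pow' {G : Type*} [Group G] (c w : G) (n : ℕ) : c⁻¹ * w ^ n * c = (c⁻¹ * w * c) ^ n := by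
  have := conj_pow (a := c⁻¹) (b := w) (i := n)
  simpa using this.symm

/-- In `SL₂(5)`, a conjugate of an element of order three has product with it of order
divisible by five. -/
theorem exists_conj (hK : Fintype.card K = 5) (x : Matrix.SpecialLinearGroup (Fin 2) K)
    (hx : orderOf x = 3) :
    ∃ h : Matrix.SpecialLinearGroup (Fin 2) K,
      ((x * (h * x * h⁻¹)) ^ 2) ^ 5 = 1 ∧ (x * (h * x * h⁻¹)) ^ 2 ≠ 1 := by
  have h5 := char5 hK
  have hodd : Fintype.card K % 2 = 1 := by rw [hK]
  have htx := tr_of_order_three x hx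
  have hne : (tr x) ^ 2 ≠ 4 := by
    rw [htx]
    intro h
    have h3 : (3 : K) = 0 := by linear_combination -h
    have h2 : (2 : K) = 0 := by linear_combination h5 - h3
    have h1 : (1 : K) = 0 := by linear_combination h3 - h2
    exact one_ne_zero h1
  obtain ⟨c, hc⟩ := isConj_iff.mp (isConj_comp hodd x hne)
  rw [htx] at hc
  -- second element
  let y₀ : Matrix.SpecialLinearGroup (Fin 2) K := ⟨!![-1, -1; 1, 0], by simp [det_fin_two]⟩
  have hty : tr y₀ = -1 := by simp [tr, y₀]
  have hne' : (tr y₀) ^ 2 ≠ 4 := by rw [hty, ← htx]; exact hne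
  obtain ⟨d, hd⟩ := isConj_iff.mp (isConj_comp hodd y₀ hne')
  rw [hty] at hd
  set x₀ : Matrix.SpecialLinearGroup (Fin 2) K := comp (-1) with hx₀
  have hxe : x = c⁻¹ * x₀ * c := by rw [← hc]; group
  set h := c⁻¹ * d⁻¹ * c with hh
  have hy : h * x * h⁻¹ = c⁻¹ * y₀ * c := by
    have : y₀ = d⁻¹ * x₀ * d := by rw [← hd]; group
    rw [this, hh, hxe]
    group
  have hxy : x * (h * x * h⁻¹) = c⁻¹ * (x₀ * y₀) * c := by
    rw [hy, hxe]
    group
  have hsq : ∀ n : ℕ, (c⁻¹ * (x₀ * y₀) * c) ^ n = c⁻¹ * (x₀ * y₀) ^ n * c := by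
    intro n
    have := conj_pow (a := c⁻¹) (b := x₀ * y₀) (i := n)
    simpa using this
  have hu : ∀ i j, ((x₀ * y₀ : Matrix.SpecialLinearGroup (Fin 2) K) : Matrix (Fin 2) (Fin 2) K) i j =
      (!![-1, 0; -2, -1] : Matrix (Fin 2) (Fin 2) K) i j := by
    intro i j
    rw [mul_entries]
    fin_cases i <;> fin_cases j <;> simp [hx₀, y₀] <;> ring
  have hu2 : (x₀ * y₀) ^ 2 = ll 4 := by
    rw [pow_two]
    apply ext_sl <;> simp only [mul_entries, hu] <;> simp [ll] <;> ring
  refine ⟨h, ?_, ?_⟩
  · rw [hxy, hsq, hu2, ← conj_pow', ll_pow]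
    have h6 : ((5 : ℕ) : K) * 4 = 0 := by
      push_cast
      rw [h5, zero_mul]
    rw [h6]
    have h7 : ll (0 : K) = 1 := by
      apply ext_sl <;> simp [ll]
    rw [h7]
    simp
  · rw [hxy, hsq, hu2]
    intro h1
    have h2 : ll (4 : K) = 1 := by
      have : c * (c⁻¹ * ll (4 : K) * c) * c⁻¹ = c * 1 * c⁻¹ := by rw [h1]
      simpa [mul_assoc] using this
    have h3 := congrFun (congrFun (congrArg Subtype.val h2) 1) 0
    simp [ll] at h3
    have h6 : (1 : K) = 0 := by linear_combination h5 - h3
    exact one_ne_zero h6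

end SL

section LinAlg

open Module

lemma finrank_le_map_add_ker {F V : Type*} [Field F] [AddCommGroup V] [Module F V]
    [FiniteDimensional F V] (f : V →ₗ[F] V) (A : Submodule F V) :
    finrank F A ≤ finrank F (A.map f) + finrank F (LinearMap.ker f) := by
  have h := LinearMap.finrank_range_add_finrank_ker (f.domRestrict A)
  rw [LinearMap.range_domRestrict] at h
  have h2 : finrank F (LinearMap.ker (f.domRestrict A)) ≤ finrank F (LinearMap.ker f) := by
    let g : LinearMap.ker (f.domRestrict A) →ₗ[F] LinearMap.ker f :=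
      LinearMap.codRestrict (LinearMap.ker f) (A.subtype.comp (LinearMap.ker (f.domRestrict A)).subtype)
        (fun x => x.2)
    apply LinearMap.finrank_le_finrank_of_injective (f := g)
    intro a b hab
    have : ((a : A) : V) = ((b : A) : V) := congrArg (fun z : LinearMap.ker f => (z : V)) hab
    exact Subtype.ext (Subtype.ext this)
  omega

lemma finrank_le_three_mul {F V : Type*} [Field F] [AddCommGroup V] [Module F V]
    [FiniteDimensional F V] (f : V →ₗ[F] V) (hf : ∀ v, f (f (f v)) = 0) :
    finrank F V ≤ 3 * finrank F (LinearMap.ker f) := by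
  have h1 := finrank_le_map_add_ker f ⊤
  have h2 := finrank_le_map_add_ker f ((⊤ : Submodule F V).map f)
  have h3 := finrank_le_map_add_ker f (((⊤ : Submodule F V).map f).map f)
  have h4 : (((⊤ : Submodule F V).map f).map f).map f = ⊥ := by
    rw [eq_bot_iff]
    rintro _ ⟨_, ⟨_, ⟨x, -, rfl⟩, rfl⟩, rfl⟩
    simp [hf]
  rw [h4, finrank_bot] at h3
  rw [finrank_top] at h1
  omega

variable {F : Type*} [Field F] [Fintype F]

/-- The index type. -/
abbrev Idx := Fin 2 ⊕ Fin 2

/-- The fixed subspace. -/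
def fixS (M : Matrix Idx Idx F) : Submodule F (Idx → F) :=
  LinearMap.ker (Matrix.toLin' M - LinearMap.id)

omit [Fintype F] in
lemma mem_fixS {M : Matrix Idx Idx F} {v : Idx → F} : v ∈ fixS M ↔ M.mulVec v = v := by
  simp [fixS, sub_eq_zero]

omit [Fintype F] in
lemma four_le (h3 : (3 : F) = 0) {M : Matrix Idx Idx F} (hM : M * M * M = 1) :
    4 ≤ 3 * finrank F (fixS M) := by
  have := finrank_le_three_mul (Matrix.toLin' M - LinearMap.id) (fun v => by
    have e : M.mulVec (M.mulVec (M.mulVec v)) = v := by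
      rw [Matrix.mulVec_mulVec, Matrix.mulVec_mulVec, hM, Matrix.one_mulVec]
    simp only [LinearMap.sub_apply, Matrix.toLin'_apply, LinearMap.id_apply, Matrix.mulVec_sub, e]
    have e3 : ∀ a : Idx → F, a + a + a = 0 := by
      intro a
      ext i
      simp only [Pi.add_apply, Pi.zero_apply]
      linear_combination (a i) * h3
    have := e3 (M.mulVec v - M.mulVec (M.mulVec v))
    ext i
    have h4 := congrFun this i
    simp only [Pi.add_apply, Pi.sub_apply, Pi.zero_apply] at h4 ⊢
    linear_combination h4)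
  have e4 : finrank F (Idx → F) = 4 := by simp
  rw [e4] at this
  exact this

/-- An element of order dividing five with a nonzero fixed vector is trivial. -/
lemma fix5 (hF : Fintype.card F = 3) {c : Matrix Idx Idx F} (hc : c * c * c * c * c = 1)
    {v : Idx → F} (hv : v ≠ 0) (hcv : c.mulVec v = v) : c = 1 := by
  classical
  haveI : Fact (Nat.Prime 5) := ⟨by norm_num⟩
  let f : Function.End (Idx → F) := fun a => c.mulVec a
  have hf : f ^ 5 ^ 1 = 1 := by
    funext a
    change c.mulVec (c.mulVec (c.mulVec (c.mulVec (c.mulVec a)))) = a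
    simp only [Matrix.mulVec_mulVec]
    have : c * (c * (c * (c * c))) = 1 := by
      rw [← hc]; simp only [Matrix.mul_assoc]
    rw [this, Matrix.one_mulVec]
  have hmod := Equiv.Perm.card_fixedPoints_modEq hf
  have h81 : Fintype.card (Idx → F) = 81 := by
    simp [hF]
  have hfix : Fintype.card f.fixedPoints = Nat.card (fixS c) := by
    rw [← Nat.card_eq_fintype_card]
    apply Nat.card_congr
    exact Equiv.subtypeEquivRight (fun a => (mem_fixS (M := c)).symm)
  have hk : Nat.card (fixS c) = 3 ^ finrank F (fixS c) := by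
    rw [Module.natCard_eq_pow_finrank (K := F), Nat.card_eq_fintype_card, hF]
  have hle : finrank F (fixS c) ≤ 4 := by
    have := Submodule.finrank_le (fixS c)
    simpa using this
  rw [h81, hfix, hk] at hmod
  have hne : finrank F (fixS c) ≠ 0 := by
    intro h0
    have h1 : fixS c = ⊥ := Submodule.finrank_eq_zero.mp h0
    have : v ∈ fixS c := mem_fixS.mpr hcv
    rw [h1, Submodule.mem_bot] at this
    exact hv this
  have h4 : finrank F (fixS c) = 4 := by
    generalize finrank F (fixS c) = k at hmod hle hne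
    interval_cases k
    · exact absurd rfl hne
    · exact absurd hmod (by decide)
    · exact absurd hmod (by decide)
    · exact absurd hmod (by decide)
    · rfl
  have htop : fixS c = ⊤ := by
    apply Submodule.eq_top_of_finrank_eq
    rw [h4]
    simp
  have hall : ∀ a, c.mulVec a = a := fun a => mem_fixS.mp (by rw [htop]; trivial)
  apply Matrix.toLin'.injective
  apply LinearMap.ext
  intro a
  simp [hall]

/-- The form. -/
def bf (a b : Idx → F) : F := dotProduct a ((Matrix.J (Fin 2) F).mulVec b)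

omit [Fintype F] in
lemma bf_inv {M : Matrix Idx Idx F} (hM : M ∈ Matrix.symplecticGroup (Fin 2) F) (a b : Idx → F) :
    bf (M.mulVec a) (M.mulVec b) = bf a b := by
  have h := SymplecticGroup.mem_iff'.mp hM
  unfold bf
  rw [← Matrix.vecMul_transpose M a, ← Matrix.dotProduct_mulVec, Matrix.mulVec_mulVec,
    Matrix.mulVec_mulVec, h]

omit [Fintype F] in
lemma bf_alt (a b : Idx → F) : bf a b = - bf b a := by
  unfold bf
  rw [Matrix.dotProduct_mulVec, dotProduct_comm, ← Matrix.mulVec_transpose, Matrix.J_transpose,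
    Matrix.neg_mulVec, dotProduct_neg]

/-- The linear functional. -/
def ell (y : Idx → F) : (Idx → F) →ₗ[F] F where
  toFun u := bf u y
  map_add' a b := by simp [bf, add_dotProduct]
  map_smul' c a := by simp [bf, smul_dotProduct]

omit [Fintype F] in
lemma ell_apply (y u : Idx → F) : ell y u = bf u y := rfl

omit [Fintype F] in
lemma isotropic (h3 : (3 : F) = 0) (h2 : (2 : F) ≠ 0) {M : Matrix Idx Idx F}
    (hM : M ∈ Matrix.symplecticGroup (Fin 2) F) (hM3 : M * M * M = 1)
    (hr : finrank F (fixS M) = 2) {v w : Idx → F} (hv : M.mulVec v = v) (hw : M.mulVec w = w) :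
    bf v w = 0 := by
  by_contra hB
  have hB' : bf w v ≠ 0 := by
    rw [bf_alt]
    exact neg_ne_zero.mpr hB
  have hself : ∀ a : Idx → F, bf a a = 0 := by
    intro a
    have h5 := bf_alt a a
    have h6 : (2 : F) * bf a a = 0 := by linear_combination h5
    exact (mul_eq_zero.mp h6).resolve_left h2
  let L : (Idx → F) →ₗ[F] F × F := (ell v).prod (ell w)
  have hker : 2 ≤ finrank F (LinearMap.ker L) := by
    have h7 := LinearMap.finrank_range_add_finrank_ker L
    have h5 : finrank F (LinearMap.range L) ≤ 2 := by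
      calc finrank F (LinearMap.range L) ≤ finrank F (F × F) := Submodule.finrank_le _
        _ = 2 := by simp
    have e4 : finrank F (Idx → F) = 4 := by simp
    omega
  obtain ⟨u₀, hu₀, hne⟩ : ∃ u ∈ LinearMap.ker L, u ≠ 0 :=
    Submodule.exists_mem_ne_zero_of_ne_bot (by
      intro h
      rw [h, finrank_bot] at hker
      omega)
  have hinv : ∀ u ∈ LinearMap.ker L, M.mulVec u ∈ LinearMap.ker L := by
    intro u hu
    have hu' : L u = 0 := hu
    have h8 : bf u v = 0 := congrArg Prod.fst hu'
    have h9 : bf u w = 0 := congrArg Prod.snd hu'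
    change L (M.mulVec u) = 0
    have h10 : bf (M.mulVec u) v = 0 := by
      have e := bf_inv hM u v
      rw [hv] at e
      rw [e, h8]
    have h11 : bf (M.mulVec u) w = 0 := by
      have e := bf_inv hM u w
      rw [hw] at e
      rw [e, h9]
    exact Prod.ext h10 h11
  let Nf : (Idx → F) → (Idx → F) := fun u => M.mulVec u - u
  have hN : ∀ u ∈ LinearMap.ker L, Nf u ∈ LinearMap.ker L :=
    fun u hu => Submodule.sub_mem _ (hinv u hu) hu
  have hN3 : ∀ u, Nf (Nf (Nf u)) = 0 := by
    intro u
    have e : M.mulVec (M.mulVec (M.mulVec u)) = u := by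
      rw [Matrix.mulVec_mulVec, Matrix.mulVec_mulVec, hM3, Matrix.one_mulVec]
    simp only [Nf, Matrix.mulVec_sub, e]
    ext i
    simp only [Pi.sub_apply, Pi.zero_apply]
    linear_combination (M.mulVec u i - M.mulVec (M.mulVec u) i) * h3
  obtain ⟨u, hu, hune, hMu⟩ : ∃ u ∈ LinearMap.ker L, u ≠ 0 ∧ M.mulVec u = u := by
    by_cases h₂ : Nf (Nf u₀) = 0
    · by_cases h₁ : Nf u₀ = 0
      · exact ⟨u₀, hu₀, hne, sub_eq_zero.mp h₁⟩
      · exact ⟨Nf u₀, hN _ hu₀, h₁, sub_eq_zero.mp h₂⟩
    · exact ⟨Nf (Nf u₀), hN _ (hN _ hu₀), h₂, sub_eq_zero.mp (hN3 u₀)⟩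
  let ρ : fixS M →ₗ[F] F × F := L.comp (fixS M).subtype
  have hvm : v ∈ fixS M := mem_fixS.mpr hv
  have hwm : w ∈ fixS M := mem_fixS.mpr hw
  have hsurj : Function.Surjective ρ := by
    rintro ⟨a, b⟩
    refine ⟨(b / bf v w) • ⟨v, hvm⟩ + (a / bf w v) • ⟨w, hwm⟩, ?_⟩
    apply Prod.ext
    · change (ell v) ((b / bf v w) • v + (a / bf w v) • w) = a
      rw [map_add, map_smul, map_smul, ell_apply, ell_apply, hself]
      simp only [smul_eq_mul, mul_zero, zero_add]
      field_simp
    · change (ell w) ((b / bf v w) • v + (a / bf w v) • w) = b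
      rw [map_add, map_smul, map_smul, ell_apply, ell_apply, hself]
      simp only [smul_eq_mul, mul_zero, add_zero]
      field_simp
  have h12 := ρ.finrank_range_add_finrank_ker
  rw [LinearMap.range_eq_top.mpr hsurj, finrank_top, hr] at h12
  have h13 : finrank F (F × F) = 2 := by simp
  have h14 : finrank F (LinearMap.ker ρ) = 0 := by omega
  have h15 : LinearMap.ker ρ = ⊥ := Submodule.finrank_eq_zero.mp h14
  have h16 : (⟨u, mem_fixS.mpr hMu⟩ : fixS M) ∈ LinearMap.ker ρ := hu
  rw [h15, Submodule.mem_bot] at h16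
  exact hune (congrArg Subtype.val h16)

end LinAlg

/-- Let F be the field with 3 elements and K the field with 5 elements. For every injective homomorphism φ from SL₂(K) into the symplectic group Sp₄(F) (4 × 4 matrices g with g J gᵀ = J for the standard alternating matrix J) and every element x of order 3 of SL₂(K), the vectors of F⁴ fixed by φ(x) form a 2-dimensional subspace that is totally isotropic for the alternating form defined by J. -/
theorem result {F : Type*} [Field F] [Fintype F] (hF : Fintype.card F = 3)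
    {K : Type*} [Field K] [Fintype K] (hK : Fintype.card K = 5)
    (φ : Matrix.SpecialLinearGroup (Fin 2) K →* ↥(Matrix.symplecticGroup (Fin 2) F)) (hφ : Function.Injective φ)
    (x : Matrix.SpecialLinearGroup (Fin 2) K) (hx : orderOf x = 3) :
    Module.finrank F ↥(LinearMap.ker (Matrix.toLin' ((φ x : Matrix (Fin 2 ⊕ Fin 2) (Fin 2 ⊕ Fin 2) F)) - LinearMap.id)) = 2 ∧
      ∀ v w : Fin 2 ⊕ Fin 2 → F, (φ x : Matrix (Fin 2 ⊕ Fin 2) (Fin 2 ⊕ Fin 2) F).mulVec v = v →
        (φ x : Matrix (Fin 2 ⊕ Fin 2) (Fin 2 ⊕ Fin 2) F).mulVec w = w →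
          dotProduct v ((Matrix.J (Fin 2) F).mulVec w) = 0 := by
  have h3 : (3 : F) = 0 := by
    have h := FiniteField.cast_card_eq_zero F
    rw [hF] at h
    exact_mod_cast h
  have h2 : (2 : F) ≠ 0 := by
    intro h
    have h1 : (1 : F) = 0 := by linear_combination h3 - h
    exact one_ne_zero h1
  set M : Matrix Idx Idx F := (φ x : Matrix Idx Idx F) with hMdef
  have hcoe : ∀ a b, ((φ (a * b) : _) : Matrix Idx Idx F) = (φ a : Matrix Idx Idx F) * (φ b : Matrix Idx Idx F) := by
    intro a b
    rw [map_mul]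
    rfl
  have hx3 : x * x * x = 1 := by
    rw [← pow_three', ← hx]
    exact pow_orderOf_eq_one x
  have hM3 : M * M * M = 1 := by
    rw [hMdef, ← hcoe, ← hcoe, hx3, map_one]
    rfl
  have hlow := four_le h3 hM3
  have hr : Module.finrank F (fixS M) = 2 := by
    have hup : Module.finrank F (fixS M) ≤ 2 := by
      by_contra hlt
      push Not at hlt
      obtain ⟨h, hc5, hcne⟩ := exists_conj hK x hx
      set H : Matrix Idx Idx F := (φ h : Matrix Idx Idx F) with hH
      set Hi : Matrix Idx Idx F := (φ h⁻¹ : Matrix Idx Idx F) with hHi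
      have hHHi : H * Hi = 1 := by
        rw [hH, hHi, ← hcoe, mul_inv_cancel, map_one]
        rfl
      have hHiH : Hi * H = 1 := by
        rw [hH, hHi, ← hcoe, inv_mul_cancel, map_one]
        rfl
      let Leq : (Idx → F) ≃ₗ[F] (Idx → F) := LinearEquiv.ofLinear (Matrix.toLin' H) (Matrix.toLin' Hi)
        (by rw [← Matrix.toLin'_mul, hHHi, Matrix.toLin'_one])
        (by rw [← Matrix.toLin'_mul, hHiH, Matrix.toLin'_one])
      set W₂ : Submodule F (Idx → F) := (fixS M).map (Leq : (Idx → F) →ₗ[F] (Idx → F)) with hW₂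
      have hW₂r : Module.finrank F W₂ = Module.finrank F (fixS M) := LinearEquiv.finrank_map_eq Leq _
      have hsup := Submodule.finrank_sup_add_finrank_inf_eq (fixS M) W₂
      have hsle : Module.finrank F ↥(fixS M ⊔ W₂) ≤ 4 := by
        have := Submodule.finrank_le (fixS M ⊔ W₂)
        simpa using this
      have hinf : fixS M ⊓ W₂ ≠ ⊥ := by
        intro h0
        rw [h0, finrank_bot] at hsup
        omega
      obtain ⟨v, hv, hvne⟩ := Submodule.exists_mem_ne_zero_of_ne_bot hinf
      have hMv : M.mulVec v = v := mem_fixS.mp hv.1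
      obtain ⟨w, hw, hwv⟩ := hv.2
      have hMw : M.mulVec w = w := mem_fixS.mp hw
      have hwv' : H.mulVec w = v := hwv
      have hy : ((φ (h * x * h⁻¹) : _) : Matrix Idx Idx F).mulVec v = v := by
        rw [hcoe, hcoe, ← hH, ← hHi, ← hMdef, ← hwv', Matrix.mulVec_mulVec, Matrix.mul_assoc,
          Matrix.mul_assoc, hHiH, Matrix.mul_one, ← Matrix.mulVec_mulVec, hMw]
      have hxy : ((φ (x * (h * x * h⁻¹)) : _) : Matrix Idx Idx F).mulVec v = v := by
        rw [hcoe, ← Matrix.mulVec_mulVec, hy, ← hMdef, hMv]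
      set y := x * (h * x * h⁻¹) with hydef
      have hc : ((φ (y ^ 2) : _) : Matrix Idx Idx F).mulVec v = v := by
        rw [pow_two, hcoe, ← Matrix.mulVec_mulVec, hxy, hxy]
      set C : Matrix Idx Idx F := (φ (y ^ 2) : Matrix Idx Idx F) with hC
      have hC5 : C * C * C * C * C = 1 := by
        have e : (y ^ 2) * (y ^ 2) * (y ^ 2) * (y ^ 2) * (y ^ 2) = 1 := by
          rw [← hc5]
          simp only [pow_succ, pow_zero, one_mul]
        rw [hC, ← hcoe, ← hcoe, ← hcoe, ← hcoe, e, map_one]
        rfl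
      have hC1 := fix5 hF hC5 hvne hc
      apply hcne
      apply hφ
      rw [map_one]
      exact Subtype.ext hC1
    omega
  refine ⟨hr, ?_⟩
  intro v w hv hw
  exact isotropic h3 h2 (φ x).2 hM3 hr hv hw

end Cfsg.Agent.S3213
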