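import Cfsg.Statements.S3215
import Cfsg.Agent.Lib.Core.Basic
import Cfsg.Agent.Lib.Core.Residual
import Cfsg.Agent.Lib.Solvable.Fitting
import Cfsg.Agent.Lib.Solvable.Hall
import Cfsg.Agent.Lib.FPF.Concrete
import Cfsg.Agent.Lib.PGroups.NormalRankTwo
import Cfsg.Agent.Lib.Coprime.Generation

set_option autoImplicit false
open Cfsg

namespace Cfsg.Agent.S3215

open Cfsg.Agent.Lib.Core.Basic

section basics

/-- An element with odd order and two-power order is trivial. -/
lemma eq_one_of_odd_of_two_pow {G : Type*} [Group G] {x : G} (h1 : Odd (orderOf x)) {k : ℕ}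
    (h2 : x ^ 2 ^ k = 1) : x = 1 := by
  have h3 : orderOf x ∣ 2 ^ k := orderOf_dvd_of_pow_eq_one h2
  have h4 : Nat.Coprime (orderOf x) (2 ^ k) :=
    Nat.Coprime.pow_right _ (Nat.coprime_two_right.mpr h1)
  have h5 : orderOf x = 1 := Nat.eq_one_of_dvd_coprimes h4 dvd_rfl h3
  exact orderOf_eq_one_iff.mp h5

/-- Elements of 2-groups have 2-power order. -/
lemma exists_two_pow {G : Type*} [Group G] {T : Subgroup G} (hT : IsPGroup 2 T) {a : G} (ha : a ∈ T) :
    ∃ k : ℕ, a ^ 2 ^ k = 1 := by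
  obtain ⟨k, hk⟩ := hT ⟨a, ha⟩
  exact ⟨k, by simpa using congrArg Subtype.val hk⟩

/-- A nontrivial element of two-power order has a power of order two. -/
lemma exists_pow_orderOf_two {G : Type*} [Group G] {a : G} (ha : a ≠ 1) {k : ℕ} (hk : a ^ 2 ^ k = 1) :
    ∃ n : ℕ, orderOf (a ^ n) = 2 := by
  have h1 : orderOf a ∣ 2 ^ k := orderOf_dvd_of_pow_eq_one hk
  obtain ⟨j, hj, hj'⟩ := (Nat.dvd_prime_pow Nat.prime_two).mp h1
  have hj0 : j ≠ 0 := by
    rintro rfl
    rw [pow_zero] at hj'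
    exact ha (orderOf_eq_one_iff.mp hj')
  obtain ⟨i, rfl⟩ : ∃ i, j = i + 1 := ⟨j - 1, by omega⟩
  refine ⟨2 ^ i, ?_⟩
  have hpos : orderOf a ≠ 0 := by rw [hj']; positivity
  have h2 : 2 ^ i ∣ orderOf a := by rw [hj']; exact pow_dvd_pow 2 (by omega)
  rw [orderOf_pow_of_dvd (by positivity) h2, hj', pow_succ]
  simp

/-- Consequences of the existence of a normal 2-complement. -/
theorem complement_facts {C : Type*} [Group C] [Finite C] (h : Cfsg.HasNormalPComplement 2 C) :
    ∃ N : Subgroup C, N.Normal ∧ Odd (Nat.card N) ∧ ∀ c : C, Odd (orderOf c) → c ∈ N := by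
  haveI : Fact (Nat.Prime 2) := ⟨Nat.prime_two⟩
  obtain ⟨P, N, hN, hc⟩ := h
  refine ⟨N, hN, ?_, ?_⟩
  · have h1 : (P : Subgroup C).index = Nat.card N := hc.index_eq_card
    have h2 : ¬ 2 ∣ (P : Subgroup C).index := P.not_dvd_index
    rw [← h1]
    exact Nat.odd_iff.mpr (by omega)
  · intro c hc'
    obtain ⟨k, hk⟩ := IsPGroup.iff_card.mp P.isPGroup'
    have h1 : N.index = Nat.card P := hc.symm.index_eq_card
    have h2 : Nat.card (C ⧸ N) = 2 ^ k := by
      rw [← hk, ← h1]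
      rfl
    have h3 : (QuotientGroup.mk c : C ⧸ N) ^ 2 ^ k = 1 := by
      rw [← h2]
      exact pow_card_eq_one'
    have h4 : orderOf (QuotientGroup.mk c : C ⧸ N) ∣ orderOf c :=
      orderOf_map_dvd (QuotientGroup.mk' N) c
    have h5 : Odd (orderOf (QuotientGroup.mk c : C ⧸ N)) := Odd.of_dvd_nat hc' h4
    have h6 := eq_one_of_odd_of_two_pow h5 h3
    exact (QuotientGroup.eq_one_iff c).mp h6

variable {H : Type*} [Group H] [Finite H]

/-- A normal 2-subgroup of the centraliser of `t` commutes with the odd elements there. -/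
theorem comm_of_normal (hI : ∀ t : H, orderOf t = 2 → Cfsg.HasNormalPComplement 2 ↥(Subgroup.centralizer ({t} : Set H)))
    {t : H} (ht : orderOf t = 2) {x : H} (hxt : x * t = t * x) (hx : Odd (orderOf x))
    (T : Subgroup H) (hT : IsPGroup 2 T) (hTle : ∀ a ∈ T, a * t = t * a)
    (hTn : ∀ c : H, c * t = t * c → ∀ a ∈ T, c * a * c⁻¹ ∈ T) {a : H} (ha : a ∈ T) : x * a = a * x := by
  obtain ⟨N, hN, hNodd, hNmem⟩ := complement_facts (hI t ht)
  have hcen : ∀ c : H, c * t = t * c → c ∈ Subgroup.centralizer ({t} : Set H) := by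
    intro c hc
    rw [Subgroup.mem_centralizer_singleton_iff]
    exact hc
  set x' : Subgroup.centralizer ({t} : Set H) := ⟨x, hcen x hxt⟩ with hx'
  set a' : Subgroup.centralizer ({t} : Set H) := ⟨a, hcen a (hTle a ha)⟩ with ha'
  have hx'N : x' ∈ N := hNmem x' (by
    rw [hx', Subgroup.orderOf_mk]
    exact hx)
  have h1 : x' * (a' * x'⁻¹ * a'⁻¹) ∈ N := N.mul_mem hx'N (hN.conj_mem _ (N.inv_mem hx'N) a')
  have h2 : x * a * x⁻¹ * a⁻¹ ∈ T := T.mul_mem (hTn x hxt a ha) (T.inv_mem ha)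
  obtain ⟨k, hk⟩ := exists_two_pow hT h2
  have h3 : (⟨x' * (a' * x'⁻¹ * a'⁻¹), h1⟩ : N) ^ 2 ^ k = 1 := by
    apply Subtype.ext
    apply Subtype.ext
    simpa [hx', ha', mul_assoc] using hk
  have h4 : Odd (orderOf (⟨x' * (a' * x'⁻¹ * a'⁻¹), h1⟩ : N)) := Odd.of_dvd_nat hNodd (orderOf_dvd_natCard _)
  have h5 := eq_one_of_odd_of_two_pow h4 h3
  have h6 : x * a * x⁻¹ * a⁻¹ = 1 := by
    have := congrArg (fun z : N => ((z : Subgroup.centralizer ({t} : Set H)) : H)) h5
    simpa [hx', ha', mul_assoc] using this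
  have h7 : x * a * x⁻¹ = a := by
    rw [mul_inv_eq_one] at h6
    exact h6
  rw [mul_inv_eq_iff_eq_mul] at h7
  exact h7

lemma mem_inf_cent {Y : Subgroup H} {t b : H} :
    b ∈ Y ⊓ Subgroup.centralizer ({t} : Set H) ↔ b ∈ Y ∧ b * t = t * b := by
  rw [Subgroup.mem_inf, Subgroup.mem_centralizer_singleton_iff]

lemma inf_cent_conj {Y : Subgroup H} (hYn : Y.Normal) {t c : H} (hc : c * t = t * c) {b : H}
    (hb : b ∈ Y ⊓ Subgroup.centralizer ({t} : Set H)) :
    c * b * c⁻¹ ∈ Y ⊓ Subgroup.centralizer ({t} : Set H) := by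
  obtain ⟨hb1, hb2⟩ := mem_inf_cent.mp hb
  refine mem_inf_cent.mpr ⟨hYn.conj_mem b hb1 c, ?_⟩
  calc c * b * c⁻¹ * t = c * b * (c⁻¹ * t) := by group
    _ = c * b * (t * c⁻¹) := by
        congr 1
        rw [eq_mul_inv_iff_mul_eq, mul_assoc, ← hc]
        group
    _ = c * (b * t) * c⁻¹ := by group
    _ = c * (t * b) * c⁻¹ := by rw [hb2]
    _ = (c * t) * b * c⁻¹ := by group
    _ = t * (c * b * c⁻¹) := by rw [hc]; group

/-- Lemma A: an odd element does not commute with a nontrivial element of `O₂`. -/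
theorem no_comm (hsol : Group.IsSolvable H) (hO : Cfsg.oddCore H = ⊥)
    (hI : ∀ t : H, orderOf t = 2 → Cfsg.HasNormalPComplement 2 ↥(Subgroup.centralizer ({t} : Set H)))
    {x y : H} (hx : Odd (orderOf x)) (hx1 : x ≠ 1) (hy : y ∈ pCore 2 H) (hy1 : y ≠ 1)
    (hxy : x * y = y * x) : False := by
  haveI : Fact (Nat.Prime 2) := ⟨Nat.prime_two⟩
  set Y := pCore 2 H with hYdef
  have hYp : IsPGroup 2 Y := pCore_isPGroup
  have hYn : Y.Normal := pCore_normal 2 H
  obtain ⟨k, hk⟩ := exists_two_pow hYp hy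
  obtain ⟨n, hn⟩ := exists_pow_orderOf_two hy1 hk
  set t := y ^ n with ht
  have htY : t ∈ Y := Y.pow_mem hy n
  have hxt : x * t = t * x := (Commute.pow_right hxy n).eq
  haveI hnt : Nontrivial Y := ⟨⟨⟨y, hy⟩, 1, fun h => hy1 (congrArg Subtype.val h)⟩⟩
  haveI hZ := hYp.center_nontrivial
  obtain ⟨z, hz⟩ := exists_ne (1 : Subgroup.center Y)
  have hz1 : ((z : Y) : H) ≠ 1 := fun h => hz (Subtype.ext (Subtype.ext h))
  obtain ⟨k', hk'⟩ := exists_two_pow hYp (z : Y).2
  obtain ⟨m, hm⟩ := exists_pow_orderOf_two hz1 hk'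
  set a : H := ((z : Y) : H) ^ m with ha
  have haY0 : a ∈ Y := Y.pow_mem (z : Y).2 m
  have hzc : ∀ b ∈ Y, b * ((z : Y) : H) = ((z : Y) : H) * b := by
    intro b hb
    have := Subgroup.mem_center_iff.mp z.2 ⟨b, hb⟩
    exact congrArg Subtype.val this
  have haY : ∀ b ∈ Y, b * a = a * b := fun b hb => (Commute.pow_right (hzc b hb) m).eq
  have h1 : x * a = a * x := by
    refine comm_of_normal hI hn hxt hx (Y ⊓ Subgroup.centralizer ({t} : Set H))
      (hYp.to_le inf_le_left) (fun b hb => (mem_inf_cent.mp hb).2)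
      (fun c hc b hb => inf_cent_conj hYn hc hb) (mem_inf_cent.mpr ⟨haY0, (haY t htY).symm⟩)
  have h2 : ∀ b ∈ Y, x * b = b * x := fun b hb =>
    comm_of_normal hI hm h1 hx Y hYp (fun c hc => haY c hc)
      (fun c _ d hd => hYn.conj_mem d hd c) hb
  have h3 : x ∈ Y := by
    apply Cfsg.Agent.Lib.Solvable.Fitting.centralizer_pCore_le 2 hO
    rw [Subgroup.mem_centralizer_iff]
    intro b hb
    exact (h2 b hb).symm
  obtain ⟨j, hj⟩ := exists_two_pow hYp h3
  exact hx1 (eq_one_of_odd_of_two_pow hx hj)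

/-- If `H` has a nontrivial element, `O₂` is nontrivial. -/
theorem pCore_ne_bot (hsol : Group.IsSolvable H) (hO : Cfsg.oddCore H = ⊥) {x : H} (hx1 : x ≠ 1) :
    pCore 2 H ≠ ⊥ := by
  haveI : Fact (Nat.Prime 2) := ⟨Nat.prime_two⟩
  intro hY
  have h3 : x ∈ pCore 2 H := by
    apply Cfsg.Agent.Lib.Solvable.Fitting.centralizer_pCore_le 2 hO
    rw [hY, Subgroup.mem_centralizer_iff]
    intro b hb
    have : b = 1 := hb
    simp [this]
  rw [hY] at h3
  exact hx1 h3

/-- Lemma A': an involution does not commute with a nontrivial element of odd order. -/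
theorem no_comm_invol (hsol : Group.IsSolvable H) (hO : Cfsg.oddCore H = ⊥)
    (hI : ∀ t : H, orderOf t = 2 → Cfsg.HasNormalPComplement 2 ↥(Subgroup.centralizer ({t} : Set H)))
    {x u : H} (hx : Odd (orderOf x)) (hx1 : x ≠ 1) (hu : orderOf u = 2) (hxu : x * u = u * x) : False := by
  classical
  haveI : Fact (Nat.Prime 2) := ⟨Nat.prime_two⟩
  have hYne := pCore_ne_bot hsol hO hx1
  set Y := pCore 2 H with hYdef
  have hYp : IsPGroup 2 Y := pCore_isPGroup
  have hYn : Y.Normal := pCore_normal 2 H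
  have hu2 : u * u = 1 := by
    rw [← pow_two, ← hu]
    exact pow_orderOf_eq_one u
  have huinv : u⁻¹ = u := inv_eq_of_mul_eq_one_left hu2
  obtain ⟨y, hy, hy1, huy⟩ : ∃ y ∈ Y, y ≠ 1 ∧ y * u = u * y := by
    by_contra hcon
    push Not at hcon
    haveI : Fintype Y := Fintype.ofFinite _
    let f : Function.End Y := fun b => ⟨u * b * u⁻¹, hYn.conj_mem b b.2 u⟩
    have hf : f ^ 2 ^ 1 = 1 := by
      funext b
      apply Subtype.ext
      change u * (u * (b : H) * u⁻¹) * u⁻¹ = b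
      rw [huinv]
      calc u * (u * (b : H) * u) * u = (u * u) * b * (u * u) := by group
        _ = b := by rw [hu2]; group
    have hmod := Equiv.Perm.card_fixedPoints_modEq hf
    have hfix : Function.fixedPoints f = {1} := by
      ext b
      simp only [Function.mem_fixedPoints, Function.IsFixedPt, Set.mem_singleton_iff]
      constructor
      · intro hb
        by_contra hb1
        have hb1' : (b : H) ≠ 1 := fun h => hb1 (Subtype.ext h)
        apply hcon b b.2 hb1'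
        have hb2 : u * (b : H) * u⁻¹ = b := congrArg Subtype.val hb
        rw [mul_inv_eq_iff_eq_mul] at hb2
        exact hb2.symm
      · rintro rfl
        apply Subtype.ext
        change u * 1 * u⁻¹ = 1
        simp
    have h1 : Fintype.card (Function.fixedPoints f) = 1 := by
      simp only [hfix]
      simp
    rw [h1] at hmod
    obtain ⟨k, hk⟩ := IsPGroup.iff_card.mp hYp
    have hk0 : k ≠ 0 := by
      rintro rfl
      rw [pow_zero] at hk
      exact hYne (Subgroup.eq_bot_of_card_eq _ hk)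
    rw [← Nat.card_eq_fintype_card, hk] at hmod
    obtain ⟨j, rfl⟩ : ∃ j, k = j + 1 := ⟨k - 1, by omega⟩
    rw [pow_succ] at hmod
    have : (2 ^ j * 2) % 2 = 1 % 2 := hmod
    omega
  have h1 : x * y = y * x := by
    refine comm_of_normal hI hu hxu hx (Y ⊓ Subgroup.centralizer ({u} : Set H))
      (hYp.to_le inf_le_left) (fun b hb => (mem_inf_cent.mp hb).2)
      (fun c hc b hb => inf_cent_conj hYn hc hb) (mem_inf_cent.mpr ⟨hy, huy⟩)
  exact no_comm hsol hO hI hx hx1 hy hy1 h1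

/-- Odd `p`-subgroups are cyclic. -/
theorem isCyclic_of_odd_pgroup (hsol : Group.IsSolvable H) (hO : Cfsg.oddCore H = ⊥)
    (hI : ∀ t : H, orderOf t = 2 → Cfsg.HasNormalPComplement 2 ↥(Subgroup.centralizer ({t} : Set H)))
    (B : Subgroup H) {p : ℕ} [hp : Fact p.Prime] (hp2 : p ≠ 2) (hB : IsPGroup p B) : IsCyclic B := by
  classical
  haveI : Fact (Nat.Prime 2) := ⟨Nat.prime_two⟩
  by_contra hnc
  obtain ⟨x, hx1⟩ : ∃ x : H, x ≠ 1 := by
    by_contra hcon
    push Not at hcon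
    apply hnc
    haveI : Subsingleton B := ⟨fun a b => Subtype.ext (by rw [hcon a, hcon b])⟩
    infer_instance
  have hYne := pCore_ne_bot hsol hO hx1
  obtain ⟨A, _, hAe, hA⟩ := Cfsg.Agent.Lib.PGroups.NormalRankTwo.exists_normal_card_sq hp2 hB hnc
  let A' : Subgroup H := A.map B.subtype
  have hA' : Nat.card A' = p * p := by
    rw [Subgroup.card_map_of_injective B.subtype_injective, hA, pow_two]
  set Y := pCore 2 H with hYdef
  have hYp : IsPGroup 2 Y := pCore_isPGroup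
  have hYn : Y.Normal := pCore_normal 2 H
  let V : Subgroup H := Y ⊓ Subgroup.centralizer (Y : Set H)
  have hVn : V.Normal := Subgroup.normal_inf_normal _ _
  have hVc : ∀ a ∈ V, ∀ b ∈ V, a * b = b * a := by
    rintro a ⟨ha, -⟩ b ⟨-, hb⟩
    exact (Subgroup.mem_centralizer_iff.mp hb a ha)
  have hV : V ≠ ⊥ := by
    intro hbot
    haveI hnt : Nontrivial Y := (Subgroup.nontrivial_iff_ne_bot Y).mpr hYne
    haveI hZ := hYp.center_nontrivial
    obtain ⟨z, hz⟩ := exists_ne (1 : Subgroup.center Y)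
    have h1 : ((z : Y) : H) ∈ V := by
      refine Subgroup.mem_inf.mpr ⟨(z : Y).2, Subgroup.mem_centralizer_iff.mpr ?_⟩
      intro b hb
      have := Subgroup.mem_center_iff.mp z.2 ⟨b, hb⟩
      exact congrArg Subtype.val this
    rw [hbot] at h1
    exact hz (Subtype.ext (Subtype.ext h1))
  have hAV : A' ≤ Subgroup.normalizer (V : Set H) := by
    rw [Subgroup.normalizer_eq_top_iff.mpr hVn]
    exact le_top
  have hfpf : ∀ a ∈ A', a ≠ 1 → ∀ v ∈ V, a * v = v * a → v = 1 := by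
    rintro _ ⟨a, -, rfl⟩ ha1 v hv hav
    by_contra hv1
    have hodd : Odd (orderOf ((a : B) : H)) := by
      obtain ⟨k, hk⟩ := hB a
      have h1 : ((a : B) : H) ^ p ^ k = 1 := by simpa using congrArg Subtype.val hk
      have h2 : orderOf ((a : B) : H) ∣ p ^ k := orderOf_dvd_of_pow_eq_one h1
      exact Odd.of_dvd_nat ((hp.out.odd_of_ne_two hp2).pow) h2
    exact no_comm hsol hO hI hodd ha1 hv.1 hv1 hav
  have hcyc := Cfsg.Agent.Lib.FPF.Concrete.isCyclic_of_card_mul A' V hVc hV hAV hfpf hp.out hp.out hA'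
  obtain ⟨g, hg⟩ := hcyc.exists_generator
  have h1 : orderOf g = Nat.card A' := orderOf_eq_card_of_forall_mem_zpowers hg
  rw [hA'] at h1
  obtain ⟨⟨x, hx⟩, hxA, hxg⟩ := g.2
  have h2 : (g : H) ^ p = 1 := by
    have := hAe ⟨x, hx⟩ hxA
    rw [← hxg]
    have h3 := congrArg Subtype.val this
    simpa using h3
  have h3 : orderOf g ∣ p := by
    apply orderOf_dvd_of_pow_eq_one
    apply Subtype.ext
    simpa using h2
  rw [h1] at h3
  have h4 := Nat.le_of_dvd hp.out.pos h3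
  have := hp.out.two_le
  nlinarith

/-- Lifting odd elements. -/
lemma exists_odd_lift {Y : Subgroup H} [Y.Normal] (z : H ⧸ Y) (hz : Odd (orderOf z)) :
    ∃ x : H, Odd (orderOf x) ∧ (x : H ⧸ Y) = z := by
  haveI : Fact (Nat.Prime 2) := ⟨Nat.prime_two⟩
  obtain ⟨x₀, rfl⟩ := QuotientGroup.mk_surjective z
  obtain ⟨a, b, hab, -, ⟨k, hk⟩, hb, ha, -⟩ :=
    Cfsg.Agent.Lib.Core.Residual.exists_pPart_pPrimePart 2 x₀ (isOfFinOrder_of_finite x₀)
  refine ⟨b, Nat.coprime_two_right.mp hb, ?_⟩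
  have h1 : (a : H ⧸ Y) ∈ Subgroup.zpowers (x₀ : H ⧸ Y) := by
    obtain ⟨n, hn⟩ := Subgroup.mem_zpowers_iff.mp ha
    exact Subgroup.mem_zpowers_iff.mpr ⟨n, by rw [← hn]; rfl⟩
  have h2 : Odd (orderOf (a : H ⧸ Y)) := by
    apply Odd.of_dvd_nat hz
    rw [← Nat.card_zpowers]
    have := Subgroup.card_subgroup_dvd_card (Subgroup.zpowers (⟨a, h1⟩ : Subgroup.zpowers (x₀ : H ⧸ Y)))
    rw [Nat.card_zpowers, Nat.card_zpowers] at this
    simpa using this
  have h3 : (a : H ⧸ Y) ^ 2 ^ k = 1 := by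
    rw [← QuotientGroup.mk_pow, hk]
    rfl
  have h4 := eq_one_of_odd_of_two_pow h2 h3
  rw [← hab, QuotientGroup.mk_mul, h4, one_mul]

/-- A fixed-point-free involution inverts an abelian group. -/
lemma inverts {G : Type*} [Group G] [Finite G] (F : Subgroup G) [hFn : F.Normal]
    (hcomm : ∀ a ∈ F, ∀ b ∈ F, a * b = b * a) {u : G} (hu : u * u = 1)
    (hfix : ∀ f ∈ F, u * f = f * u → f = 1) : ∀ f ∈ F, u * f * u⁻¹ = f⁻¹ := by
  have huinv : u⁻¹ = u := inv_eq_of_mul_eq_one_left hu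
  let ψ : F → F := fun g => ⟨(g : G)⁻¹ * (u * g * u⁻¹), F.mul_mem (F.inv_mem g.2) (hFn.conj_mem _ g.2 u)⟩
  have hinj : Function.Injective ψ := by
    intro a b hab
    have h1 : (a : G)⁻¹ * (u * a * u⁻¹) = (b : G)⁻¹ * (u * b * u⁻¹) := congrArg Subtype.val hab
    have h2 : (b : G) * (a : G)⁻¹ ∈ F := F.mul_mem b.2 (F.inv_mem a.2)
    have h3 : u * ((b : G) * (a : G)⁻¹) * u⁻¹ = (b : G) * (a : G)⁻¹ := by
      have e1 := hcomm _ (hFn.conj_mem _ b.2 u) _ (F.inv_mem a.2)
      have e2 := hcomm _ (hFn.conj_mem _ a.2 u) _ (F.inv_mem b.2)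
      have e3 := hcomm _ (hFn.conj_mem _ (F.inv_mem a.2) u) _ a.2
      have e4 : (u * (a : G) * u⁻¹)⁻¹ * (a : G) = (a : G) * (u * (a : G) * u⁻¹)⁻¹ := by
        have e5 := hcomm _ (F.inv_mem (hFn.conj_mem _ a.2 u)) _ a.2
        exact e5
      have e6 : u * (a : G) * u⁻¹ = (a : G) * ((b : G)⁻¹ * (u * b * u⁻¹)) := by
        rw [← h1]; group
      calc u * ((b : G) * (a : G)⁻¹) * u⁻¹ = (u * b * u⁻¹) * (u * (a : G) * u⁻¹)⁻¹ := by group
        _ = (u * b * u⁻¹) * ((a : G) * ((b : G)⁻¹ * (u * b * u⁻¹)))⁻¹ := by rw [e6]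
        _ = (b : G) * (a : G)⁻¹ := by group
    have h4 := hfix _ h2 (by
      rw [mul_inv_eq_iff_eq_mul] at h3
      exact h3)
    have h5 : (b : G) = a := by
      rw [mul_inv_eq_one] at h4
      exact h4
    exact Subtype.ext h5.symm
  have hsurj : Function.Surjective ψ := Finite.injective_iff_surjective.mp hinj
  intro f hf
  obtain ⟨g, hg⟩ := hsurj ⟨f, hf⟩
  have h1 : (g : G)⁻¹ * (u * g * u⁻¹) = f := congrArg Subtype.val hg
  rw [← h1, huinv]
  have e1 : u * ((g : G)⁻¹ * (u * g * u)) * u = (u * (g : G)⁻¹ * u * g) * (u * u) := by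
    simp only [mul_assoc]
  have e2 : ((g : G)⁻¹ * (u * g * u))⁻¹ = u⁻¹ * (g : G)⁻¹ * u⁻¹ * g := by
    simp only [mul_inv_rev, inv_inv, mul_assoc]
  rw [e1, e2, hu, mul_one, huinv]

/-- The Fitting subgroup has odd order when `O₂` is trivial. -/
lemma odd_card_fitting {G : Type*} [Group G] [Finite G] (h : pCore 2 G = ⊥) :
    Odd (Nat.card (fittingSubgroup G)) := by
  haveI : Fact (Nat.Prime 2) := ⟨Nat.prime_two⟩
  rw [← Nat.not_even_iff_odd, even_iff_two_dvd]
  intro hdvd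
  haveI hnil : Group.IsNilpotent (fittingSubgroup G) := fittingSubgroup_isNilpotent
  let P : Sylow 2 (fittingSubgroup G) := default
  have hPne := P.ne_bot_of_dvd_card hdvd
  have hPn : (P : Subgroup (fittingSubgroup G)).Normal :=
    Sylow.normal_of_normalizerCondition normalizerCondition_of_isNilpotent P
  have hle : (P : Subgroup (fittingSubgroup G)) ≤ pCore 2 (fittingSubgroup G) :=
    le_pCore hPn P.isPGroup'
  have hbot : pCore 2 (fittingSubgroup G) = ⊥ := by
    have h1 := map_pCore_fittingSubgroup (G := G) 2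
    rw [h] at h1
    exact (Subgroup.map_eq_bot_iff_of_injective _ (Subgroup.subtype_injective _)).mp h1
  rw [hbot, le_bot_iff] at hle
  exact hPne hle

/-- An abelian 2-group with a unique involution is cyclic. -/
lemma isCyclic_of_unique_invol (Q : Type*) [Group Q] [Finite Q] (hcomm : ∀ a b : Q, a * b = b * a)
    (h2 : IsPGroup 2 Q) (huniq : ∀ a b : Q, orderOf a = 2 → orderOf b = 2 → a = b) : IsCyclic Q := by
  by_contra hnc
  letI : CommGroup Q := { ‹Group Q› with mul_comm := hcomm }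
  obtain ⟨q, hq, x, y, hx, hy, hy1, hxy⟩ := Cfsg.Agent.Lib.Coprime.Generation.exists_pair_of_not_isCyclic Q hnc
  obtain ⟨k, hk⟩ := h2 y
  haveI := Fact.mk hq
  have h3 : orderOf y = q := orderOf_eq_prime hy hy1
  have h4 : q ∣ 2 ^ k := h3 ▸ orderOf_dvd_of_pow_eq_one hk
  have h5 : q = 2 := (Nat.prime_dvd_prime_iff_eq hq Nat.prime_two).mp (hq.dvd_of_dvd_pow h4)
  subst h5
  have hx1 : x ≠ 1 := by
    have := hxy 0
    simpa using this
  have h6 : orderOf x = 2 := orderOf_eq_prime hx hx1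
  have h7 := huniq x y h6 h3
  apply hxy 1
  rw [h7, pow_one, ← pow_two]
  exact hy

/-- Claim B: the image in `H/O₂(H)` of an element with square in `O₂` acts fixed-point-freely
on odd elements. -/
theorem no_fixed (hsol : Group.IsSolvable H) (hO : Cfsg.oddCore H = ⊥)
    (hI : ∀ t : H, orderOf t = 2 → Cfsg.HasNormalPComplement 2 ↥(Subgroup.centralizer ({t} : Set H)))
    {g : H} (hg2 : g * g ∈ pCore 2 H) (hg1 : g ∉ pCore 2 H) {z : H ⧸ pCore 2 H}
    (hodd : Odd (orderOf z)) (hcomm : (g : H ⧸ pCore 2 H) * z = z * (g : H ⧸ pCore 2 H)) : z = 1 := by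
  by_contra hne
  haveI : Fact (Nat.Prime 2) := ⟨Nat.prime_two⟩
  obtain ⟨x, hx, rfl⟩ := exists_odd_lift z hodd
  have hx1 : x ≠ 1 := by
    rintro rfl
    exact hne rfl
  set Y := pCore 2 H with hYdef
  have hYn : Y.Normal := pCore_normal 2 H
  have hy₁ : x⁻¹ * (g * x * g⁻¹) ∈ Y := by
    rw [← QuotientGroup.eq_one_iff]
    push_cast
    rw [QuotientGroup.mk_mul, QuotientGroup.mk_mul, QuotientGroup.mk_mul, QuotientGroup.mk_inv,
      QuotientGroup.mk_inv, hcomm, mul_inv_cancel_right, inv_mul_cancel]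
  let ψ : Y → Y := fun y => ⟨x⁻¹ * y * x * (y : H)⁻¹, Y.mul_mem (by
    have := hYn.conj_mem y y.2 x⁻¹
    simpa using this) (Y.inv_mem y.2)⟩
  have hinj : Function.Injective ψ := by
    intro a b hab
    have h1 : x⁻¹ * (a : H) * x * (a : H)⁻¹ = x⁻¹ * (b : H) * x * (b : H)⁻¹ := congrArg Subtype.val hab
    have h2 : x * ((b : H)⁻¹ * a) = ((b : H)⁻¹ * a) * x := by
      have h3 : (a : H) * x * (a : H)⁻¹ = (b : H) * x * (b : H)⁻¹ := by
        have := congrArg (fun w => x * w) h1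
        simpa [mul_assoc] using this
      calc x * ((b : H)⁻¹ * a) = (b : H)⁻¹ * ((b : H) * x * (b : H)⁻¹) * a := by group
        _ = (b : H)⁻¹ * ((a : H) * x * (a : H)⁻¹) * a := by rw [h3]
        _ = _ := by group
    by_contra hab'
    have h4 : (b : H)⁻¹ * a ≠ 1 := by
      intro h5
      apply hab'
      apply Subtype.ext
      rw [inv_mul_eq_one] at h5
      exact h5.symm
    exact no_comm hsol hO hI hx hx1 (Y.mul_mem (Y.inv_mem b.2) a.2) h4 h2
  have hsurj : Function.Surjective ψ := Finite.injective_iff_surjective.mp hinj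
  obtain ⟨y, hy⟩ := hsurj ⟨_, hy₁⟩
  have hy' : x⁻¹ * (y : H) * x * (y : H)⁻¹ = x⁻¹ * (g * x * g⁻¹) := congrArg Subtype.val hy
  set u := (y : H)⁻¹ * g with hu
  have hux : x * u = u * x := by
    have h1 : (y : H) * x * (y : H)⁻¹ = g * x * g⁻¹ := by
      have := congrArg (fun w => x * w) hy'
      simpa [mul_assoc] using this
    have h2 : u * x * u⁻¹ = x := by
      rw [hu]
      calc (y : H)⁻¹ * g * x * ((y : H)⁻¹ * g)⁻¹ = (y : H)⁻¹ * (g * x * g⁻¹) * y := by group
        _ = (y : H)⁻¹ * ((y : H) * x * (y : H)⁻¹) * y := by rw [h1]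
        _ = x := by group
    rw [mul_inv_eq_iff_eq_mul] at h2
    exact h2.symm
  have hmk : (u : H ⧸ Y) = (g : H ⧸ Y) := by
    rw [hu, QuotientGroup.mk_mul, QuotientGroup.mk_inv,
      (QuotientGroup.eq_one_iff (y : H)).mpr y.2]
    simp
  have huu : u * u ∈ Y := by
    rw [← QuotientGroup.eq_one_iff, QuotientGroup.mk_mul, hmk, ← QuotientGroup.mk_mul,
      QuotientGroup.eq_one_iff]
    exact hg2
  have hu2 : u * u = 1 := by
    by_contra hne2
    refine no_comm hsol hO hI hx hx1 huu hne2 ?_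
    calc x * (u * u) = (x * u) * u := (mul_assoc _ _ _).symm
      _ = (u * x) * u := by rw [hux]
      _ = u * (x * u) := mul_assoc _ _ _
      _ = u * (u * x) := by rw [hux]
      _ = (u * u) * x := (mul_assoc _ _ _).symm
  have hu1 : u ≠ 1 := by
    intro h
    apply hg1
    have h1 : (g : H ⧸ Y) = 1 := by rw [← hmk, h]; rfl
    exact (QuotientGroup.eq_one_iff g).mp h1
  have hord : orderOf u = 2 := orderOf_eq_prime (by rw [pow_two]; exact hu2) hu1
  exact no_comm_invol hsol hO hI hx hx1 hord hux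

end basics

/-- Let H be a finite solvable group with no nontrivial normal subgroup of odd order in which the centralizer of every involution has a normal 2-complement. Let X be a Hall 2'-subgroup of H (odd order, index a power of 2) and Y = O₂(H). Then no non-identity element of X commutes with a non-identity element of Y (so for X ≠ 1 the group XY is a Frobenius group with kernel Y), every Sylow subgroup of X is cyclic, XY is normal in H, and H/XY is a cyclic 2-group. -/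
theorem result {H : Type*} [Group H] [Finite H] (hsol : Group.IsSolvable H)
    (hO : Cfsg.oddCore H = ⊥)
    (hI : ∀ t : H, orderOf t = 2 → Cfsg.HasNormalPComplement 2 ↥(Subgroup.centralizer ({t} : Set H)))
    (X : Subgroup H) (hXodd : Odd (Nat.card X)) (hXidx : ∃ k : ℕ, X.index = 2 ^ k) :
    (∀ x ∈ X, x ≠ 1 → ∀ y ∈ Cfsg.pCore 2 H, y ≠ 1 → x * y ≠ y * x) ∧
      (∀ (p : ℕ) [Fact p.Prime] (P : Sylow p ↥X), IsCyclic ↥(P : Subgroup ↥X)) ∧
      (X ⊔ Cfsg.pCore 2 H).Normal ∧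
      ∀ hN : (X ⊔ Cfsg.pCore 2 H).Normal, IsCyclic (H ⧸ (X ⊔ Cfsg.pCore 2 H)) ∧ IsPGroup 2 (H ⧸ (X ⊔ Cfsg.pCore 2 H)) := by
  classical
  haveI hf2 : Fact (Nat.Prime 2) := ⟨Nat.prime_two⟩
  have hXord : ∀ x ∈ X, Odd (orderOf x) := by
    intro x hx
    have h1 : orderOf (⟨x, hx⟩ : X) ∣ Nat.card X := orderOf_dvd_natCard _
    rw [Subgroup.orderOf_mk] at h1
    exact Odd.of_dvd_nat hXodd h1
  have hpartA : ∀ x ∈ X, x ≠ 1 → ∀ y ∈ Cfsg.pCore 2 H, y ≠ 1 → x * y ≠ y * x :=
    fun x hx hx1 y hy hy1 hxy => no_comm hsol hO hI (hXord x hx) hx1 hy hy1 hxy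
  have hpartB : ∀ (p : ℕ) [Fact p.Prime] (P : Sylow p ↥X), IsCyclic ↥(P : Subgroup ↥X) := by
    intro p _ P
    by_cases hp2 : p = 2
    · subst hp2
      have h1 : (P : Subgroup X) = ⊥ := by
        obtain ⟨k, hk⟩ := IsPGroup.iff_card.mp P.isPGroup'
        have h2 : Nat.card P ∣ Nat.card X := Subgroup.card_subgroup_dvd_card _
        have h3 : Odd (2 ^ k) := by
          rw [← hk]
          exact Odd.of_dvd_nat hXodd h2
        have hk0 : k = 0 := by
          by_contra hk0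
          rw [Nat.odd_pow_iff hk0] at h3
          exact absurd h3 (by decide)
        rw [hk0, pow_zero] at hk
        exact Subgroup.eq_bot_of_card_eq _ hk
      rw [h1]
      infer_instance
    · have hB : IsPGroup p ((P : Subgroup X).map X.subtype) :=
        P.isPGroup'.map X.subtype
      have h1 := isCyclic_of_odd_pgroup hsol hO hI ((P : Subgroup X).map X.subtype) hp2 hB
      exact isCyclic_of_surjective _ (Subgroup.equivMapOfInjective (P : Subgroup X) X.subtype X.subtype_injective).symm.surjective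
  obtain ⟨k, hk⟩ := hXidx
  set Y := Cfsg.pCore 2 H with hYdef
  have hYp : IsPGroup 2 Y := pCore_isPGroup
  haveI hYn : Y.Normal := pCore_normal 2 H
  -- the quotient
  let π : H →* H ⧸ Y := QuotientGroup.mk' Y
  have hπs : Function.Surjective π := QuotientGroup.mk'_surjective Y
  haveI hsolq : Group.IsSolvable (H ⧸ Y) := solvable_of_surjective hπs
  set X' : Subgroup (H ⧸ Y) := X.map π with hX'
  set F : Subgroup (H ⧸ Y) := fittingSubgroup (H ⧸ Y) with hF
  have hFodd : Odd (Nat.card F) := odd_card_fitting pCore_quotient_eq_bot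
  haveI hFn : F.Normal := fittingSubgroup_normal
  have hX'odd : Odd (Nat.card X') := by
    apply Odd.of_dvd_nat hXodd
    exact Subgroup.card_map_dvd _ _
  have hFle : F ≤ X' := by
    have h1 := Cfsg.Agent.Lib.Solvable.Hall.card_sup_mul_card_inf X' F
    have h2 : Odd (Nat.card (X' ⊔ F : Subgroup (H ⧸ Y))) := by
      have h3 : Odd (Nat.card (X' ⊔ F : Subgroup (H ⧸ Y)) * Nat.card (X' ⊓ F : Subgroup (H ⧸ Y))) := by
        rw [h1]
        exact hX'odd.mul hFodd
      exact (Nat.odd_mul.mp h3).1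
    have h3 : X'.relIndex (X' ⊔ F) ∣ 2 ^ k := by
      have h4 := Subgroup.relIndex_mul_index (le_sup_left : X' ≤ X' ⊔ F)
      have h5 : X'.index ∣ 2 ^ k := by
        rw [← hk]
        exact Subgroup.index_map_dvd X hπs
      exact (Dvd.intro _ h4).trans h5
    have h4 : X'.relIndex (X' ⊔ F) ∣ Nat.card (X' ⊔ F : Subgroup (H ⧸ Y)) :=
      Subgroup.relIndex_dvd_card _ _
    have h5 : Odd (X'.relIndex (X' ⊔ F)) := Odd.of_dvd_nat h2 h4
    have h6 : X'.relIndex (X' ⊔ F) = 1 := by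
      obtain ⟨j, hj, hj'⟩ := (Nat.dvd_prime_pow Nat.prime_two).mp h3
      rw [hj'] at h5 ⊢
      have hj0 : j = 0 := by
        by_contra hj0
        rw [Nat.odd_pow_iff hj0] at h5
        exact absurd h5 (by decide)
      rw [hj0, pow_zero]
    have h7 := Subgroup.relIndex_eq_one.mp h6
    exact le_sup_right.trans h7
  -- the Fitting subgroup is cyclic
  have hιinj : Function.Injective (π.comp X.subtype) := by
    rw [injective_iff_map_eq_one]
    rintro ⟨x, hx⟩ h
    have h1 : x ∈ Y := (QuotientGroup.eq_one_iff x).mp h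
    obtain ⟨j, hj⟩ := exists_two_pow hYp h1
    exact Subtype.ext (eq_one_of_odd_of_two_pow (hXord x hx) hj)
  have hrange : (π.comp X.subtype).range = X' := by
    rw [MonoidHom.range_comp, Subgroup.range_subtype]
  have hzX : IsZGroup X := ⟨fun p hp P => by
    haveI := Fact.mk hp
    exact hpartB p P⟩
  have hFle' : F ≤ (π.comp X.subtype).range := by rw [hrange]; exact hFle
  let ι : F →* X := (MonoidHom.ofInjective hιinj).symm.toMonoidHom.comp (Subgroup.inclusion hFle')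
  have hιi : Function.Injective ι :=
    (MonoidHom.ofInjective hιinj).symm.injective.comp (Subgroup.inclusion_injective hFle')
  haveI hzF : IsZGroup F := IsZGroup.of_injective hιi
  haveI hnilF : Group.IsNilpotent F := fittingSubgroup_isNilpotent
  haveI hcycF : IsCyclic F := inferInstance
  have hFcomm : ∀ a ∈ F, ∀ b ∈ F, a * b = b * a := by
    intro a ha b hb
    have := hcycF.commutative.is_comm.comm ⟨a, ha⟩ ⟨b, hb⟩
    exact congrArg Subtype.val this
  have hFodd' : ∀ f ∈ F, Odd (orderOf f) := by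
    intro f hf
    have h1 : orderOf (⟨f, hf⟩ : F) ∣ Nat.card F := orderOf_dvd_natCard _
    rw [Subgroup.orderOf_mk] at h1
    exact Odd.of_dvd_nat hFodd h1
  -- commutators lie in `F`
  have hcent : Subgroup.centralizer (F : Set (H ⧸ Y)) ≤ F :=
    Cfsg.Agent.Lib.Solvable.Fitting.centralizer_fittingSubgroup_le
  have hcommF : ∀ a b : H ⧸ Y, a * b * a⁻¹ * b⁻¹ ∈ F := by
    intro a b
    apply hcent
    rw [Subgroup.mem_centralizer_iff]
    intro f hf
    have h1 : (MulAut.conjNormal (H := F) a) * (MulAut.conjNormal (H := F) b) =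
        (MulAut.conjNormal (H := F) b) * (MulAut.conjNormal (H := F) a) := by
      have e := IsCyclic.mulAutMulEquiv F
      apply e.injective
      rw [map_mul, map_mul, mul_comm]
    have h2 : (MulAut.conjNormal (H := F) (a * b)) = (MulAut.conjNormal (H := F) (b * a)) := by
      rw [map_mul, map_mul, h1]
    have h5 : MulAut.conjNormal (H := F) (a * b * a⁻¹ * b⁻¹) = 1 := by
      have e : a * b * a⁻¹ * b⁻¹ = (a * b) * (b * a)⁻¹ := by group
      rw [e, map_mul, map_inv, h2, mul_inv_cancel]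
    have h3 : (a * b * a⁻¹ * b⁻¹) * f * (a * b * a⁻¹ * b⁻¹)⁻¹ = f :=
      congrArg (fun τ : MulAut F => ((τ ⟨f, hf⟩ : F) : H ⧸ Y)) h5
    rw [mul_inv_eq_iff_eq_mul] at h3
    exact h3.symm
  -- the product `XY`
  have hmemN : ∀ g : H, π g ∈ X' → g ∈ X ⊔ Y := by
    rintro g ⟨a, ha, hag⟩
    have h1 : a⁻¹ * g ∈ Y := by
      rw [← QuotientGroup.eq_one_iff, QuotientGroup.mk_mul, QuotientGroup.mk_inv]
      have h2 : (a : H ⧸ Y) = (g : H ⧸ Y) := hag
      rw [h2, inv_mul_cancel]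
    have h2 : g = a * (a⁻¹ * g) := by group
    rw [h2]
    exact Subgroup.mul_mem _ (Subgroup.mem_sup_left ha) (Subgroup.mem_sup_right h1)
  have hNmap : ∀ g ∈ X ⊔ Y, π g ∈ X' := by
    intro g hg
    have h1 : X ⊔ Y ≤ X'.comap π := by
      apply sup_le
      · exact Subgroup.le_comap_map π X
      · intro y hy
        have h2 : π y = 1 := (QuotientGroup.eq_one_iff y).mpr hy
        rw [Subgroup.mem_comap, h2]
        exact X'.one_mem
    exact h1 hg
  have hcommN : ∀ g h : H, g * h * g⁻¹ * h⁻¹ ∈ X ⊔ Y := by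
    intro g h
    apply hmemN
    apply hFle
    have := hcommF (π g) (π h)
    simpa using this
  have hNnormal : (X ⊔ Y).Normal := by
    constructor
    intro n hn g
    have h1 := hcommN g n
    have h2 : g * n * g⁻¹ = (g * n * g⁻¹ * n⁻¹) * n := by group
    rw [h2]
    exact Subgroup.mul_mem _ h1 hn
  refine ⟨hpartA, hpartB, hNnormal, ?_⟩
  intro hN
  have hindex : (X ⊔ Y).index ∣ 2 ^ k := by
    rw [← hk]
    exact Subgroup.index_dvd_of_le le_sup_left
  have hp : IsPGroup 2 (H ⧸ (X ⊔ Y)) := by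
    obtain ⟨j, -, hj⟩ := (Nat.dvd_prime_pow Nat.prime_two).mp hindex
    exact IsPGroup.of_card (n := j) hj
  refine ⟨?_, hp⟩
  -- elements of order two of the quotient
  have hlift : ∀ a : H ⧸ (X ⊔ Y), orderOf a = 2 →
      ∃ g : H, (g : H ⧸ (X ⊔ Y)) = a ∧ g * g ∈ Y ∧ g ∉ Y := by
    intro a ha
    obtain ⟨g₀, rfl⟩ := QuotientGroup.mk_surjective a
    obtain ⟨g, g', hgg, -, ⟨j, hj⟩, hg', -, -⟩ :=
      Cfsg.Agent.Lib.Core.Residual.exists_pPart_pPrimePart 2 g₀ (isOfFinOrder_of_finite g₀)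
    have h1 : (g' : H ⧸ (X ⊔ Y)) = 1 := by
      obtain ⟨i, hi⟩ := hp (g' : H ⧸ (X ⊔ Y))
      apply eq_one_of_odd_of_two_pow (k := i) _ hi
      exact Odd.of_dvd_nat (Nat.coprime_two_right.mp hg') (orderOf_map_dvd (QuotientGroup.mk' (X ⊔ Y)) g')
    have h2 : (g : H ⧸ (X ⊔ Y)) = (g₀ : H ⧸ (X ⊔ Y)) := by
      rw [← hgg, QuotientGroup.mk_mul, h1, mul_one]
    refine ⟨g, h2, ?_, ?_⟩
    · have h3 : g * g ∈ X ⊔ Y := by
        rw [← QuotientGroup.eq_one_iff, QuotientGroup.mk_mul, h2, ← pow_two, ← ha]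
        exact pow_orderOf_eq_one _
      have h4 : π (g * g) ∈ X' := hNmap _ h3
      have h5 : Odd (orderOf (π (g * g))) := by
        have h6 : orderOf (⟨π (g * g), h4⟩ : X') ∣ Nat.card X' := orderOf_dvd_natCard _
        rw [Subgroup.orderOf_mk] at h6
        exact Odd.of_dvd_nat hX'odd h6
      have h6 : π (g * g) ^ 2 ^ j = 1 := by
        rw [← map_pow, ← pow_two, ← pow_mul, mul_comm, pow_mul, hj, one_pow, map_one]
      exact (QuotientGroup.eq_one_iff _).mp (eq_one_of_odd_of_two_pow h5 h6)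
    · intro hgY
      have h3 : (g : H ⧸ (X ⊔ Y)) = 1 := (QuotientGroup.eq_one_iff g).mpr (Subgroup.mem_sup_right hgY)
      rw [← h2, h3, orderOf_one] at ha
      omega
  -- the action of these elements on `F`
  have hinv : ∀ g : H, g * g ∈ Y → g ∉ Y → ∀ f ∈ F, π g * f * (π g)⁻¹ = f⁻¹ := by
    intro g hg2 hg1
    apply inverts F hFcomm
    · exact (QuotientGroup.eq_one_iff _).mpr hg2
    · intro f hf hc
      exact no_fixed hsol hO hI hg2 hg1 (hFodd' f hf) hc
  have hQcomm : ∀ a b : H ⧸ (X ⊔ Y), a * b = b * a := by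
    intro a b
    obtain ⟨g, rfl⟩ := QuotientGroup.mk_surjective a
    obtain ⟨h, rfl⟩ := QuotientGroup.mk_surjective b
    have h1 := (QuotientGroup.eq_one_iff _).mpr (hcommN g h)
    rw [QuotientGroup.mk_mul, QuotientGroup.mk_mul, QuotientGroup.mk_mul, QuotientGroup.mk_inv,
      QuotientGroup.mk_inv, mul_inv_eq_one, mul_inv_eq_iff_eq_mul] at h1
    exact h1
  apply isCyclic_of_unique_invol _ hQcomm hp
  intro a b ha hb
  obtain ⟨g, rfl, hg2, hg1⟩ := hlift a ha
  obtain ⟨h, rfl, hh2, hh1⟩ := hlift b hb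
  have h1 : π (g * h) ∈ F := by
    apply hcent
    rw [Subgroup.mem_centralizer_iff]
    intro f hf
    have e1 := hinv h hh2 hh1 f hf
    have e2 := hinv g hg2 hg1 _ (F.inv_mem hf)
    rw [map_mul]
    have e4 : (π g * π h) * f * (π g * π h)⁻¹ = f := by
      calc (π g * π h) * f * (π g * π h)⁻¹ = π g * (π h * f * (π h)⁻¹) * (π g)⁻¹ := by group
        _ = π g * f⁻¹ * (π g)⁻¹ := by rw [e1]
        _ = f := by rw [e2, inv_inv]
    rw [mul_inv_eq_iff_eq_mul] at e4
    exact e4.symm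
  have h2 : g * h ∈ X ⊔ Y := hmemN _ (hFle h1)
  have h3 : (g : H ⧸ (X ⊔ Y)) * (h : H ⧸ (X ⊔ Y)) = 1 := by
    rw [← QuotientGroup.mk_mul]
    exact (QuotientGroup.eq_one_iff _).mpr h2
  have h4 : (h : H ⧸ (X ⊔ Y)) * (h : H ⧸ (X ⊔ Y)) = 1 := by
    rw [← pow_two, ← hb]
    exact pow_orderOf_eq_one _
  calc (g : H ⧸ (X ⊔ Y)) = (g : H ⧸ (X ⊔ Y)) * ((h : H ⧸ (X ⊔ Y)) * (h : H ⧸ (X ⊔ Y))) := by rw [h4, mul_one]
    _ = _ := by rw [← mul_assoc, h3, one_mul]

end Cfsg.Agent.S3215
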