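import Cfsg.Statements.S3225
import Cfsg.Agent.Lib.InvolChar.TransferTwo

set_option autoImplicit false
open Cfsg
open Cfsg.Agent.Lib.InvolChar.TransferTwo

namespace Cfsg.Agent.S3225

/-- Let G be a finite group of even order with no subgroup of index 2, S a Sylow 2-subgroup of G and M a subgroup of index 2 in S such that, for some n ≥ 1, every element of S outside M has order greater than 2^(n−1). Then every element of S of order 2ⁿ is conjugate in G to an element of M. -/
theorem result {G : Type*} [Group G] [Finite G] (hev : Even (Nat.card G))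
    (hG : ∀ H : Subgroup G, H.index ≠ 2) (S : Sylow 2 G) (M : Subgroup G) (hMS : M ≤ (S : Subgroup G)) (hM : M.relIndex (S : Subgroup G) = 2)
    (n : ℕ) (hn : 1 ≤ n) (hord : ∀ y ∈ (S : Subgroup G), y ∉ M → 2 ^ (n - 1) < orderOf y)
    (x : G) (hx : x ∈ (S : Subgroup G)) (hxn : orderOf x = 2 ^ n) :
    ∃ g : G, g * x * g⁻¹ ∈ M := by
  by_contra hcon
  push Not at hcon
  obtain ⟨K, hKn, hidx, hexcl⟩ := exists_ker_transfer S M hMS hM n hord
  have hxK := hexcl x hx hxn hcon
  have h1 : K.index ≠ 1 := by
    intro h
    rw [Subgroup.index_eq_one] at h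
    exact hxK (h ▸ Subgroup.mem_top x)
  rcases (Nat.dvd_prime Nat.prime_two).1 hidx with h2 | h2
  · exact h1 h2
  · exact hG K h2

end Cfsg.Agent.S3225
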