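import Cfsg.Statements.S3246
import Cfsg.Agent.Lib.LocalStruct.SCNOdd

set_option autoImplicit false
open Cfsg

namespace Cfsg.Agent.S3246

open Subgroup Cfsg.Agent.Lib.CharP.Basic Cfsg.Agent.Lib.CharP.Inherit
  Cfsg.Agent.Lib.LocalStruct.SCNOdd

theorem charPIn_of_constrained {G : Type*} [Group G] [Finite G] {M : Subgroup G}
    (h1 : Cfsg.IsPConstrained 2 ↥M) (h2 : Cfsg.oddCore ↥M = ⊥) : CharPIn 2 M := by
  haveI : Fact (Nat.Prime 2) := ⟨Nat.prime_two⟩
  rw [charPIn_iff]
  have h3 := Cfsg.Agent.Lib.Core.Constrained.isPConstrained_iff.mp h1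
  have e : (↥M ⧸ Cfsg.pPrimeCore 2 ↥M) ≃* ↥M :=
    (QuotientGroup.quotientMulEquivOfEq h2).trans QuotientGroup.quotientBot
  exact Cfsg.Agent.Lib.Core.Constrained.IsCharP.of_equiv e h3

theorem commute_of_mem_normalizer_zpowers {G : Type*} [Group G] [Finite G] {t c : G}
    (ht : orderOf t = 2) (hc : c ∈ normalizer ((zpowers t : Subgroup G) : Set G)) : c * t = t * c := by
  have h1 : c * t * c⁻¹ ∈ zpowers t := (mem_normalizer_iff.mp hc t).mp (mem_zpowers t)
  obtain ⟨k, hk⟩ := h1
  have hk' : t ^ k = c * t * c⁻¹ := hk
  have h2 : t ^ k = t ^ (k % 2) := by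
    have h := zpow_mod_orderOf t k
    rw [ht] at h
    simpa using h.symm
  have hcases : k % 2 = 0 ∨ k % 2 = 1 := Int.emod_two_eq_zero_or_one k
  rcases hcases with h3 | h3
  · rw [h2, h3, zpow_zero] at hk'
    exfalso
    have h4 : t = 1 := by
      have h5 : c * t * c⁻¹ * c = 1 * c := by rw [← hk']
      have h6 : c * t = c := by simpa using h5
      simpa using h6
    rw [h4, orderOf_one] at ht
    omega
  · rw [h2, h3, zpow_one] at hk'
    calc c * t = (c * t * c⁻¹) * c := by group
      _ = t * c := by rw [← hk']

/-- Let G be a finite group whose Sylow 2-subgroup S has a self-centralizing normal subgroup of rank at least 3. Suppose that either every maximal 2-local subgroup of G is 2-constrained with no nontrivial normal subgroup of odd order, or the centralizer of every involution of G is 2-constrained with no nontrivial normal subgroup of odd order. Then S normalizes no nontrivial subgroup of G of odd order and every 2-local subgroup of G is 2-constrained. -/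
theorem result {G : Type*} [Group G] [Finite G]
    (S : Sylow 2 G) (A : Subgroup G) (hA : Cfsg.IsSCN (S : Subgroup G) A) (hA3 : ¬ Cfsg.PRankLE 2 2 ↥A)
    (h : (∀ M : Subgroup G, Cfsg.IsMaximalTwoLocal M → Cfsg.IsPConstrained 2 ↥M ∧ Cfsg.oddCore ↥M = ⊥) ∨
      (∀ t : G, orderOf t = 2 → Cfsg.IsPConstrained 2 ↥(Subgroup.centralizer ({t} : Set G)) ∧
        Cfsg.oddCore ↥(Subgroup.centralizer ({t} : Set G)) = ⊥)) :
    (∀ X : Subgroup G, Odd (Nat.card ↥X) → (S : Subgroup G) ≤ Subgroup.normalizer (X : Set G) → X = ⊥) ∧
      (∀ T : Subgroup G, IsPGroup 2 ↥T → T ≠ ⊥ → Cfsg.IsPConstrained 2 ↥(Subgroup.normalizer (T : Set G))) := by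
  haveI : Fact (Nat.Prime 2) := ⟨Nat.prime_two⟩
  -- involution centralizers have characteristic `2`
  have hC : ∀ t : G, orderOf t = 2 → CharPIn 2 (centralizer ({t} : Set G)) := by
    intro t ht
    rcases h with h | h
    · set T : Subgroup G := zpowers t with hT
      have htt : t ^ 2 ^ 1 = 1 := by
        have := pow_orderOf_eq_one t
        rwa [ht] at this
      have hTp : IsPGroup 2 T := by
        rintro ⟨x, k, rfl⟩
        refine ⟨1, Subtype.ext ?_⟩
        change (t ^ k) ^ 2 ^ 1 = 1
        rw [← zpow_natCast, ← zpow_mul, mul_comm, zpow_mul, zpow_natCast, htt, one_zpow]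
      have hT0 : T ≠ ⊥ := by
        intro h0
        have h1 : t ∈ T := mem_zpowers t
        rw [h0, Subgroup.mem_bot] at h1
        rw [h1, orderOf_one] at ht
        omega
      have hL : Cfsg.IsTwoLocal (normalizer (T : Set G)) := ⟨T, hTp, hT0, rfl⟩
      obtain ⟨M, hNM, hM⟩ := (Set.toFinite {N : Subgroup G | Cfsg.IsTwoLocal N}).exists_le_maximal hL
      have hMax : Cfsg.IsMaximalTwoLocal M :=
        ⟨hM.1, fun N hN hle => le_antisymm (hM.2 hN hle) hle⟩
      obtain ⟨hc, ho⟩ := h M hMax
      have hCM := charPIn_of_constrained hc ho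
      have hTM : T ≤ M := le_normalizer.trans hNM
      have h2 := hCM.inf_normalizer hTM hTp
      rw [inf_eq_right.mpr hNM] at h2
      have hcen : centralizer ({t} : Set G) = normalizer (T : Set G) := by
        ext c
        rw [mem_cen1]
        constructor
        · intro hc'
          rw [mem_normalizer_iff]
          have hcomm : Commute c t := hc'.symm
          intro y
          constructor
          · rintro ⟨k, rfl⟩
            refine ⟨k, ?_⟩
            change t ^ k = c * t ^ k * c⁻¹
            rw [(hcomm.zpow_right k).eq]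
            group
          · rintro ⟨k, hk⟩
            refine ⟨k, ?_⟩
            change t ^ k = y
            have hk' : t ^ k = c * y * c⁻¹ := hk
            have h5 : y = c⁻¹ * (c * y * c⁻¹) * c := by group
            rw [h5, ← hk']
            have h6 := (hcomm.zpow_right k).eq
            calc t ^ k = c⁻¹ * (c * t ^ k) := by group
              _ = c⁻¹ * (t ^ k * c) := by rw [h6]
              _ = c⁻¹ * t ^ k * c := by group
        · intro hc'
          exact (commute_of_mem_normalizer_zpowers ht hc').symm
      rw [hcen]
      exact h2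
    · obtain ⟨hc, ho⟩ := h t ht
      exact charPIn_of_constrained hc ho
  refine ⟨?_, ?_⟩
  · intro X hXo hXS
    have hXo' : ∀ x ∈ X, (orderOf x).Coprime 2 := by
      intro x hx
      have h1 : orderOf x ∣ Nat.card X := Subgroup.orderOf_dvd_natCard X hx
      exact (Nat.coprime_two_right.mpr hXo).coprime_dvd_left h1
    refine eq_bot_of_sylow_invariant S hA hC ?_ hXo' hXS
    intro z
    by_contra hcon
    push Not at hcon
    classical
    apply hA3
    intro B _ hB2
    have hB' : ∀ b : B, ((b : A) : G) = 1 ∨ ((b : A) : G) = z := by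
      intro b
      by_cases h1 : ((b : A) : G) = 1
      · exact Or.inl h1
      · refine Or.inr (hcon _ (b : A).2 ?_ h1)
        have := hB2 b b.2
        have h2 : ((b : A) : G) ^ 2 = 1 := by simpa using congrArg Subtype.val this
        rwa [pow_two] at h2
    have hinj : Function.Injective (fun b : B => decide (((b : A) : G) = 1)) := by
      intro a b hab
      have hab' : (((a : A) : G) = 1) ↔ (((b : A) : G) = 1) := decide_eq_decide.mp hab
      apply Subtype.ext
      apply Subtype.ext
      by_cases h1 : ((a : A) : G) = 1
      · rw [h1, hab'.mp h1]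
      · have h2 : ¬ ((b : A) : G) = 1 := fun h => h1 (hab'.mpr h)
        rw [(hB' a).resolve_left h1, (hB' b).resolve_left h2]
    have h3 := Nat.card_le_card_of_injective _ hinj
    rw [show Nat.card Bool = 2 by simp] at h3
    calc Nat.card B ≤ 2 := h3
      _ ≤ 2 ^ 2 := by norm_num
  · intro T hTp hT0
    rcases h with h | h
    · have hL : Cfsg.IsTwoLocal (normalizer (T : Set G)) := ⟨T, hTp, hT0, rfl⟩
      obtain ⟨M, hNM, hM⟩ := (Set.toFinite {N : Subgroup G | Cfsg.IsTwoLocal N}).exists_le_maximal hL
      have hMax : Cfsg.IsMaximalTwoLocal M :=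
        ⟨hM.1, fun N hN hle => le_antisymm (hM.2 hN hle) hle⟩
      obtain ⟨hc, -⟩ := h M hMax
      have hTM : T ≤ M := le_normalizer.trans hNM
      have h2 := isPConstrained_inf_normalizer hc hTp hTM
      rwa [inf_eq_right.mpr hNM] at h2
    · obtain ⟨t, htT, ht2, htc⟩ := exists_central_order_p hTp hT0
      obtain ⟨hc, -⟩ := h t ht2
      have hTC : T ≤ centralizer ({t} : Set G) := by
        intro x hx
        rw [mem_cen1]
        exact (htc x hx).symm
      have h2 := isPConstrained_inf_normalizer hc hTp hTC
      have h3 : Cfsg.IsPConstrained 2 ↥(centralizer (T : Set G)) := by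
        refine isPConstrained_of_le_normal h2 ?_ ?_
        · refine le_inf ?_ ?_
          · intro c hc'
            rw [mem_cen1]
            exact mem_centralizer_iff.mp hc' t htT
          · intro c hc'
            rw [mem_normalizer_iff]
            intro y
            have hcomm : ∀ y ∈ T, c * y = y * c := fun y hy => (mem_centralizer_iff.mp hc' y hy).symm
            constructor
            · intro hy
              rw [hcomm y hy]
              simpa using hy
            · intro hy
              have h5 : c * y * c⁻¹ ∈ T := hy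
              have h6 := hcomm _ h5
              have h7 : c * (c * y * c⁻¹) = (c * y * c⁻¹) * c := h6
              have h8 : c * y * c⁻¹ = y := by
                have : c * (c * y * c⁻¹) * c⁻¹ = c * y * c⁻¹ := by rw [h7]; group
                exact mul_left_cancel (a := c) (by
                  calc c * (c * y * c⁻¹) = (c * (c * y * c⁻¹) * c⁻¹) * c := by group
                    _ = (c * y * c⁻¹) * c := by rw [this]
                    _ = c * y := by group)
              rwa [h8] at h5
        · rintro y ⟨-, hy⟩ w hw
          exact (Cfsg.Agent.Lib.LocalStruct.Large2.le_normalizer_centralizer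
            (le_refl (normalizer (T : Set G))) hy |> fun h9 =>
              (mem_normalizer_iff.mp h9 w).mp hw)
      exact isPConstrained_normalizer_of_centralizer hTp h3

end Cfsg.Agent.S3246
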