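import Cfsg.Statements.S3247
import Cfsg.Agent.Lib.CharP.Inherit

set_option autoImplicit false
open Cfsg

namespace Cfsg.Agent.S3247

/-- Let G be a finite group and p a prime; here a p-local subgroup means the normalizer of a nontrivial p-subgroup, other than G itself. If every p-local subgroup of G that is maximal among p-local subgroups is p-constrained, or if the centralizer of every element of order p of G is p-constrained, then every p-local subgroup of G is p-constrained. -/
theorem result {G : Type*} [Group G] [Finite G] (p : ℕ) [hp : Fact p.Prime]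
    (h : (∀ M : Subgroup G, (∃ T : Subgroup G, IsPGroup p ↥T ∧ T ≠ ⊥ ∧ M = Subgroup.normalizer (T : Set G)) → M ≠ ⊤ →
        (∀ M' : Subgroup G, (∃ T' : Subgroup G, IsPGroup p ↥T' ∧ T' ≠ ⊥ ∧ M' = Subgroup.normalizer (T' : Set G)) → M' ≠ ⊤ → M ≤ M' → M = M') →
        Cfsg.IsPConstrained p ↥M) ∨
      (∀ x : G, orderOf x = p → Cfsg.IsPConstrained p ↥(Subgroup.centralizer ({x} : Set G))))
    (T : Subgroup G) (hT : IsPGroup p ↥T) (hT1 : T ≠ ⊥) (hTG : Subgroup.normalizer (T : Set G) ≠ ⊤) :
    Cfsg.IsPConstrained p ↥(Subgroup.normalizer (T : Set G)) := by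
  classical
  rcases h with h | h
  · -- a maximal proper `p`-local containing `N_G(T)`
    let S : Set (Subgroup G) := {M | (∃ T' : Subgroup G, IsPGroup p ↥T' ∧ T' ≠ ⊥ ∧
      M = Subgroup.normalizer (T' : Set G)) ∧ M ≠ ⊤}
    have hS : S.Finite := Set.toFinite S
    have hNS : Subgroup.normalizer (T : Set G) ∈ S := ⟨⟨T, hT, hT1, rfl⟩, hTG⟩
    obtain ⟨M, hNM, hM⟩ := hS.exists_le_maximal hNS
    have hMp := h M hM.prop.1 hM.prop.2 (fun M' h1 h2 h3 => le_antisymm h3 (hM.le_of_ge ⟨h1, h2⟩ h3))
    have h1 := Cfsg.Agent.Lib.CharP.Inherit.isPConstrained_inf_normalizer hMp hT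
      ((Subgroup.le_normalizer).trans hNM)
    rwa [inf_eq_right.mpr hNM] at h1
  · obtain ⟨x, hxT, hxo, hxc⟩ := Cfsg.Agent.Lib.CharP.Basic.exists_central_order_p hT hT1
    have hH := h x hxo
    have hTH : T ≤ Subgroup.centralizer ({x} : Set G) := by
      intro t ht
      refine Subgroup.mem_centralizer_iff.mpr ?_
      intro y hy
      rw [Set.mem_singleton_iff.mp hy]
      exact (hxc t ht).symm
    have h1 := Cfsg.Agent.Lib.CharP.Inherit.isPConstrained_inf_normalizer hH hT hTH
    have hWle : Subgroup.centralizer (T : Set G) ≤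
        Subgroup.centralizer ({x} : Set G) ⊓ Subgroup.normalizer (T : Set G) := by
      intro w hw
      refine ⟨?_, Subgroup.centralizer_le_normalizer _ hw⟩
      refine Subgroup.mem_centralizer_iff.mpr ?_
      intro y hy
      rw [Set.mem_singleton_iff.mp hy]
      exact Subgroup.mem_centralizer_iff.mp hw x hxT
    have h2 := Cfsg.Agent.Lib.CharP.Inherit.isPConstrained_of_le_normal h1 hWle (by
      rintro y ⟨_, hy⟩ w hw
      show y * w * y⁻¹ ∈ Subgroup.centralizer (T : Set G)
      rw [Subgroup.mem_centralizer_iff]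
      intro u hu
      have h3 : y⁻¹ * u * y ∈ T := by
        have := (Subgroup.mem_normalizer_iff.mp ((Subgroup.normalizer (T : Set G)).inv_mem hy) u).mp hu
        simpa using this
      have h4 := Subgroup.mem_centralizer_iff.mp hw _ h3
      calc u * (y * w * y⁻¹) = y * ((y⁻¹ * u * y) * w) * y⁻¹ := by group
        _ = y * (w * (y⁻¹ * u * y)) * y⁻¹ := by rw [h4]
        _ = y * w * y⁻¹ * u := by group)
    exact Cfsg.Agent.Lib.CharP.Inherit.isPConstrained_normalizer_of_centralizer hT h2

end Cfsg.Agent.S3247
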