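import Cfsg.Statements.S3261
import Cfsg.Agent.Lib.Invol8.Simple
import Cfsg.Agent.S0495
import Cfsg.Agent.S0497

set_option autoImplicit false
set_option linter.unusedVariables false
set_option linter.style.haveILetI false
open Cfsg

namespace Cfsg.Agent.S3261

open Equiv DihedralGroup

abbrev P6 := Equiv.Perm (Fin 6)

def ρ₆ : P6 := swap 0 2 * swap 2 1 * swap 1 3 * swap 4 5
def σ₆ : P6 := swap 0 1 * swap 4 5
def α₆ : P6 := swap 0 1 * swap 2 3

/-- The embedding of `D₈` in `S₆` with image the centraliser of `(0 1)(2 3)` in `A₆`. -/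
def φ₆ : DihedralGroup 4 → P6
  | r i => ρ₆ ^ i.val
  | sr i => σ₆ * ρ₆ ^ i.val

set_option maxRecDepth 100000 in
lemma φ₆_mul : ∀ x y, φ₆ (x * y) = φ₆ x * φ₆ y := by decide +kernel

set_option maxRecDepth 100000 in
lemma φ₆_one : φ₆ 1 = 1 := by decide +kernel

set_option maxRecDepth 100000 in
lemma φ₆_inj : ∀ x y, φ₆ x = φ₆ y → x = y := by decide +kernel

set_option maxRecDepth 100000 in
lemma φ₆_sign : ∀ x, Equiv.Perm.sign (φ₆ x) = 1 := by decide +kernel

set_option maxRecDepth 100000 in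
lemma φ₆_comm : ∀ x, φ₆ x * α₆ = α₆ * φ₆ x := by decide +kernel

set_option maxRecDepth 100000 in
lemma φ₆_surj : ∀ y : P6, y * α₆ = α₆ * y → Equiv.Perm.sign y = 1 → ∃ c, φ₆ c = y := by
  decide +kernel

set_option maxRecDepth 100000 in
lemma α₆_pow : α₆ ^ 2 = 1 := by decide +kernel

set_option maxRecDepth 100000 in
lemma α₆_ne : α₆ ≠ 1 := by decide +kernel

set_option maxRecDepth 100000 in
lemma α₆_supp : α₆.support.card = 4 := by decide +kernel

/-- Cycle type of an involution moving 4 points. -/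
lemma cycleType_of (x : P6) (hx : orderOf x = 2) (hs : x.support.card = 4) :
    x.cycleType = {2, 2} := by
  have h1 : ∀ n ∈ x.cycleType, n = 2 := by
    intro n hn
    have h2 := Equiv.Perm.dvd_of_mem_cycleType hn
    rw [hx] at h2
    have h3 := Equiv.Perm.two_le_of_mem_cycleType hn
    exact le_antisymm (Nat.le_of_dvd (by norm_num) h2) h3
  have h2 := Multiset.eq_replicate_card.mpr h1
  have h3 := Equiv.Perm.sum_cycleType x
  rw [h2, Multiset.sum_replicate, hs] at h3
  have h4 : Multiset.card x.cycleType = 2 := by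
    simp only [smul_eq_mul] at h3
    omega
  rw [h4] at h2
  rw [h2]
  rfl

/-- The centraliser in `A₆` of a double transposition is dihedral of order eight. -/
lemma exists_iso (αt : ↥(alternatingGroup (Fin 6))) (hαt : orderOf αt = 2)
    (hsupp : (αt : Equiv.Perm (Fin 6)).support.card = 4) :
    Nonempty (↥(Subgroup.centralizer ({αt} : Set ↥(alternatingGroup (Fin 6)))) ≃* DihedralGroup 4) := by
  have h1 : orderOf (αt : P6) = 2 := by
    rw [Subgroup.orderOf_coe]; exact hαt
  have h2 : orderOf α₆ = 2 := orderOf_eq_prime α₆_pow α₆_ne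
  have hconj : IsConj α₆ (αt : P6) := by
    rw [Equiv.Perm.isConj_iff_cycleType_eq, cycleType_of _ h1 hsupp, cycleType_of _ h2 α₆_supp]
  obtain ⟨g, hg⟩ := isConj_iff.mp hconj
  have hmem : ∀ x : DihedralGroup 4, g * φ₆ x * g⁻¹ ∈ alternatingGroup (Fin 6) := by
    intro x
    rw [Equiv.Perm.mem_alternatingGroup]
    simp [φ₆_sign]
  have hcent : ∀ x : DihedralGroup 4, (⟨g * φ₆ x * g⁻¹, hmem x⟩ : ↥(alternatingGroup (Fin 6))) ∈
      Subgroup.centralizer ({αt} : Set ↥(alternatingGroup (Fin 6))) := by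
    intro x
    rw [Subgroup.mem_centralizer_singleton_iff]
    apply Subtype.ext
    show g * φ₆ x * g⁻¹ * (αt : P6) = (αt : P6) * (g * φ₆ x * g⁻¹)
    rw [← hg]
    have := φ₆_comm x
    calc g * φ₆ x * g⁻¹ * (g * α₆ * g⁻¹) = g * (φ₆ x * α₆) * g⁻¹ := by group
      _ = g * (α₆ * φ₆ x) * g⁻¹ := by rw [this]
      _ = _ := by group
  let f : DihedralGroup 4 →* ↥(Subgroup.centralizer ({αt} : Set ↥(alternatingGroup (Fin 6)))) :=
    MonoidHom.mk' (fun x => ⟨⟨g * φ₆ x * g⁻¹, hmem x⟩, hcent x⟩) (by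
      intro x y
      apply Subtype.ext
      apply Subtype.ext
      show g * φ₆ (x * y) * g⁻¹ = g * φ₆ x * g⁻¹ * (g * φ₆ y * g⁻¹)
      rw [φ₆_mul]
      group)
  have hbij : Function.Bijective f := by
    constructor
    · intro x y h
      have h3 : g * φ₆ x * g⁻¹ = g * φ₆ y * g⁻¹ :=
        congrArg (fun z : ↥(Subgroup.centralizer ({αt} : Set ↥(alternatingGroup (Fin 6)))) => ((z : ↥(alternatingGroup (Fin 6))) : P6)) h
      apply φ₆_inj
      exact mul_left_cancel (mul_right_cancel h3)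
    · rintro ⟨⟨y, hy⟩, hyc⟩
      rw [Subgroup.mem_centralizer_singleton_iff] at hyc
      have hyc' : y * (αt : P6) = (αt : P6) * y := congrArg Subtype.val hyc
      have h4 : (g⁻¹ * y * g) * α₆ = α₆ * (g⁻¹ * y * g) := by
        rw [← hg] at hyc'
        calc (g⁻¹ * y * g) * α₆ = g⁻¹ * (y * (g * α₆ * g⁻¹)) * g := by group
          _ = g⁻¹ * ((g * α₆ * g⁻¹) * y) * g := by rw [hyc']
          _ = _ := by group
      have h5 : Equiv.Perm.sign (g⁻¹ * y * g) = 1 := by
        have : Equiv.Perm.sign y = 1 := Equiv.Perm.mem_alternatingGroup.mp hy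
        simp [this]
      obtain ⟨c, hc⟩ := φ₆_surj _ h4 h5
      refine ⟨c, ?_⟩
      apply Subtype.ext
      apply Subtype.ext
      show g * φ₆ c * g⁻¹ = y
      rw [hc]
      group
  exact ⟨(MulEquiv.ofBijective f hbij).symm⟩

/-- Let α̃ be an involution of the alternating group A₆ that is a product of two disjoint transpositions (it lies in the centre of a Sylow 2-subgroup of A₆; its centralizer is dihedral of order 8). Let G be a finite group that has no subgroup of index 2 and contains an involution α, central in some Sylow 2-subgroup of G, with C_G(α) ≅ C_{A₆}(α̃). Then G is isomorphic to A₆ or to PSL₂(7). -/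
theorem result {G : Type*} [Group G] [Finite G]
    (hG : ∀ H : Subgroup G, H.index ≠ 2)
    (αt : ↥(alternatingGroup (Fin 6))) (hαt : orderOf αt = 2) (hsupp : (αt : Equiv.Perm (Fin 6)).support.card = 4)
    (α : G) (hα : orderOf α = 2) (S : Sylow 2 G) (hαS : α ∈ (S : Subgroup G)) (hαc : ∀ s ∈ (S : Subgroup G), s * α = α * s)
    (e : ↥(Subgroup.centralizer ({α} : Set G)) ≃* ↥(Subgroup.centralizer ({αt} : Set ↥(alternatingGroup (Fin 6))))) :
    Nonempty (G ≃* ↥(alternatingGroup (Fin 6))) ∨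
      (∃ (F : Type) (_ : Field F) (_ : Fintype F), Fintype.card F = 7 ∧ Nonempty (G ≃* Matrix.ProjectiveSpecialLinearGroup (Fin 2) F)) := by
  obtain ⟨e'⟩ := exists_iso αt hαt hsupp
  let e₂ := e.trans e'
  haveI := Cfsg.Agent.Lib.Invol8.Simple.isSimpleGroup_of α e₂ hα hG
  rcases Cfsg.Agent.Lib.Invol8.Main.card_eq_168_or_360 α e₂ hα hG with h | h
  · right
    haveI : Fact (Nat.Prime 7) := ⟨by norm_num⟩
    exact ⟨ZMod 7, inferInstance, inferInstance, ZMod.card 7,
      Cfsg.Agent.S0495.result h (ZMod.card 7)⟩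
  · left
    exact Cfsg.Agent.S0497.result h

end Cfsg.Agent.S3261
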