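import Cfsg.Statements.S3264
import Cfsg.Agent.Lib.OddGraph.Basic

set_option autoImplicit false
open Cfsg

namespace Cfsg.Agent.S3264

/-- Let G be a non-abelian finite simple group and X a conjugacy class of involutions of G. Form the graph on X in which two distinct involutions are joined when their product has odd order. Then this graph is connected. (By the Baer–Suzuki Theorem the graph has at least one edge; connectedness is the stronger statement.) -/
theorem result {G : Type*} [Group G] [Finite G] [IsSimpleGroup G]
    (hG : ¬ IsMulCommutative G) (t : G) (ht : orderOf t = 2) :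
    (SimpleGraph.fromRel fun x y : {x : G // IsConj t x} => Odd (orderOf (x.1 * y.1))).Connected := by
  classical
  have hn : (Subgroup.normalClosure ({t} : Set G)).Normal := Subgroup.normalClosure_normal
  have hnc : Subgroup.normalClosure ({t} : Set G) = ⊤ := by
    rcases hn.eq_bot_or_eq_top with h | h
    · exfalso
      have h1 : t ∈ Subgroup.normalClosure ({t} : Set G) :=
        Subgroup.subset_normalClosure (Set.mem_singleton _)
      rw [h, Subgroup.mem_bot] at h1
      rw [h1, orderOf_one] at ht
      exact absurd ht (by decide)
    · exact h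
  have key : ∀ x : {x : G // IsConj t x},
      (SimpleGraph.fromRel fun x y : {x : G // IsConj t x} =>
        Odd (orderOf (x.1 * y.1))).Reachable ⟨t, IsConj.refl t⟩ x := by
    rintro ⟨x, hx⟩
    have h1 := Cfsg.Agent.Lib.OddGraph.Basic.conn_all _ G rfl t ht hnc x hx
    have h2 : ∀ y : G, Relation.ReflTransGen (Cfsg.Agent.Lib.OddGraph.Basic.Ed t) t y →
        ∃ hy : IsConj t y, (SimpleGraph.fromRel fun x y : {x : G // IsConj t x} =>
          Odd (orderOf (x.1 * y.1))).Reachable ⟨t, IsConj.refl t⟩ ⟨y, hy⟩ := by
      intro y hy
      induction hy with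
      | refl => exact ⟨IsConj.refl t, SimpleGraph.Reachable.refl _⟩
      | @tail b c _ h4 ih =>
        obtain ⟨hb, hr⟩ := ih
        refine ⟨h4.2.1, ?_⟩
        by_cases he : b = c
        · subst he
          exact hr
        · refine hr.trans (SimpleGraph.Adj.reachable ?_)
          rw [SimpleGraph.fromRel_adj]
          refine ⟨fun h5 => he (congrArg Subtype.val h5), Or.inl h4.2.2⟩
    exact (h2 x h1).2
  haveI : Nonempty {x : G // IsConj t x} := ⟨⟨t, IsConj.refl t⟩⟩
  exact SimpleGraph.connected_iff _ |>.2 ⟨fun x y => (key x).symm.trans (key y), inferInstance⟩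

end Cfsg.Agent.S3264
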