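import Cfsg.Statements.S3265
import Cfsg.Agent.Lib.InvolChar.SymOdd

set_option autoImplicit false
set_option maxRecDepth 100000
open Cfsg

namespace Cfsg.Agent.S3265

open Equiv Equiv.Perm Cfsg.Agent.Lib.InvolChar.OddGraph Cfsg.Agent.Lib.InvolChar.SymOdd

variable {α : Type*} [DecidableEq α] [Fintype α]

/-- A common odd neighbour supported on the moved points. -/
def Sol (x y z : Perm α) : Prop :=
  z * z = 1 ∧ Odd (orderOf (x * z)) ∧ Odd (orderOf (y * z)) ∧ ∀ w, x w = w → y w = w → z w = w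

/-- The exceptional configuration: two orthogonal double transpositions of four points. -/
def Bad (x y : Perm α) : Prop :=
  x * y = y * x ∧ (∀ w, x w ≠ w → y w ≠ w ∧ x w ≠ y w) ∧ (∀ w, y w ≠ w → x w ≠ w) ∧ mv x = 4

/-- A four-cycle of the union of `x` and `y` through `a`. -/
def HasC (x y : Perm α) (a : α) : Prop := x a ≠ a ∧ y a ≠ a ∧ x a ≠ y a ∧ x (y a) = y (x a)

/-- The induction hypothesis. -/
def IH (α : Type*) [DecidableEq α] [Fintype α] (M : ℕ) : Prop :=
  ∀ x y : Perm α, x * x = 1 → y * y = 1 → mv x = mv y → mv x < M → Bad x y ∨ ∃ z, Sol x y z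

omit [DecidableEq α] [Fintype α] in
lemma Sol_comm_aux {x y z : Perm α} (h : z * z = 1 ∧ Odd (orderOf (x * z)) ∧ Odd (orderOf (y * z)) ∧
    ∀ w, x w = w → y w = w → z w = w) : z * z = 1 ∧ Odd (orderOf (y * z)) ∧ Odd (orderOf (x * z)) ∧
    ∀ w, y w = w → x w = w → z w = w :=
  ⟨h.1, h.2.2.1, h.2.1, fun w h1 h2 => h.2.2.2 w h2 h1⟩

lemma Sol.symm {x y z : Perm α} (h : Sol x y z) : Sol y x z := Sol_comm_aux h

omit [DecidableEq α] [Fintype α] in
lemma disj_of_fix {k : ℕ} [DecidableEq α] (v : Fin k → α) (hv : Function.Injective v) {g : Perm α} (hg : ∀ i, g (v i) = v i)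
    (σ : Perm (Fin k)) : Disjoint g (phi v hv σ) := by
  intro w
  by_cases h : ∃ l, v l = w
  · obtain ⟨l, rfl⟩ := h
    exact Or.inl (hg l)
  · push Not at h
    exact Or.inr (phi_off v hv _ w h)

/-- Gluing a solution on the complement of a block with a table on the block. -/
lemma tbl {k : ℕ} (v : Fin k → α) (hv : Function.Injective v) {x y z' : Perm α}
    {X Y Z : Perm (Fin k)} (hXX : X * X = 1) (hYY : Y * Y = 1) (hZZ : Z * Z = 1)
    (hx : ∀ i, x (v i) = v (X i)) (hy : ∀ i, y (v i) = v (Y i))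
    (sol : Sol (x * phi v hv X) (y * phi v hv Y) z')
    {k₁ k₂ : ℕ} (o1 : Odd k₁) (o2 : Odd k₂) (h1 : (X * Z) ^ k₁ = 1) (h2 : (Y * Z) ^ k₂ = 1)
    (hU : ∀ i, X i ≠ i ∨ Y i ≠ i) :
    Sol x y (z' * phi v hv Z) := by
  have S₁ := strip_phi v hv hXX hx
  have S₂ := strip_phi v hv hYY hy
  have fx : ∀ i, (x * phi v hv X) (v i) = v i := phi_fix v hv hXX hx
  have fy : ∀ i, (y * phi v hv Y) (v i) = v i := phi_fix v hv hYY hy
  obtain ⟨zz, ox, oy, sup⟩ := sol
  have fz : ∀ i, z' (v i) = v i := fun i => sup _ (fx i) (fy i)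
  have dz := disj_of_fix v hv fz
  have dx := disj_of_fix v hv fx
  have dy := disj_of_fix v hv fy
  refine ⟨?_, ?_, ?_, ?_⟩
  · have hc : phi v hv Z * z' = z' * phi v hv Z := (dz Z).commute.symm.eq
    calc z' * phi v hv Z * (z' * phi v hv Z) = z' * (phi v hv Z * z') * phi v hv Z := by group
      _ = z' * (z' * phi v hv Z) * phi v hv Z := by rw [hc]
      _ = (z' * z') * (phi v hv Z * phi v hv Z) := by group
      _ = 1 := by rw [zz, ← map_mul, hZZ, map_one, one_mul]
  · rw [← S₁.eq]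
    apply odd_glue (dx X) (dx Z) (dz X) (dz Z) ox
    rw [← map_mul]
    apply odd_of_pow o1
    rw [← map_pow, h1, map_one]
  · rw [← S₂.eq]
    apply odd_glue (dy Y) (dy Z) (dz Y) (dz Z) oy
    rw [← map_mul]
    apply odd_of_pow o2
    rw [← map_pow, h2, map_one]
  · intro w hw1 hw2
    have hr : ∀ i, v i ≠ w := by
      intro i hi
      subst hi
      rcases hU i with h | h
      · rw [hx i] at hw1
        exact h (hv hw1)
      · rw [hy i] at hw2
        exact h (hv hw2)
    have e1 : (x * phi v hv X) w = w := by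
      rw [mul_apply, phi_off v hv _ w hr, hw1]
    have e2 : (y * phi v hv Y) w = w := by
      rw [mul_apply, phi_off v hv _ w hr, hw2]
    rw [mul_apply, phi_off v hv _ w hr, sup w e1 e2]

/-- A `Bad` pair obtained by stripping gives a four-cycle. -/
lemma bad_lift {x y X Y : Perm α} (S₁ : Strip x X) (S₂ : Strip y Y) (h : Bad (x * X) (y * Y)) :
    ∃ a, HasC x y a := by
  obtain ⟨hcomm, h1, h2, h4⟩ := h
  have : 0 < mv (x * X) := by omega
  obtain ⟨a, ha⟩ := Finset.card_pos.1 this
  simp only [Finset.mem_filter, Finset.mem_univ, true_and] at ha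
  obtain ⟨hya, hne⟩ := h1 a ha
  have off₁ : ∀ w, (x * X) w ≠ w → (x * X) w = x w := by
    intro w hw
    by_cases h0 : X w = w
    · exact S₁.off w h0
    · exact absurd (S₁.fix w h0) hw
  have off₂ : ∀ w, (y * Y) w ≠ w → (y * Y) w = y w := by
    intro w hw
    by_cases h0 : Y w = w
    · exact S₂.off w h0
    · exact absurd (S₂.fix w h0) hw
  have hinj : ∀ (g : Perm α) (w : α), g w ≠ w → g (g w) ≠ g w := fun g w hw e => hw (g.injective e)
  have hb := hinj _ a ha
  have hc := hinj _ a hya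
  have hb' := (h1 _ hb).1
  have hc' := h2 _ hc
  refine ⟨a, ?_, ?_, ?_, ?_⟩
  · rwa [← off₁ a ha]
  · rwa [← off₂ a hya]
  · rwa [← off₁ a ha, ← off₂ a hya]
  · rw [← off₁ a ha, ← off₂ a hya, ← off₁ _ hc', ← off₂ _ hb']
    have := congrArg (fun σ : Perm α => σ a) hcomm
    simpa only [mul_apply] using this

omit [DecidableEq α] [Fintype α] in
lemma inj_list {k : ℕ} (v : Fin k → α) (l : List α) (hl : List.ofFn v = l) (hn : l.Nodup) :
    Function.Injective v := by
  rw [← hl] at hn
  exact List.nodup_ofFn.1 hn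

omit [DecidableEq α] [Fintype α] in
lemma inj8 {a b c d e f g h : α}
    (h01 : a ≠ b) (h02 : a ≠ c) (h03 : a ≠ d) (h04 : a ≠ e) (h05 : a ≠ f) (h06 : a ≠ g) (h07 : a ≠ h)
    (h12 : b ≠ c) (h13 : b ≠ d) (h14 : b ≠ e) (h15 : b ≠ f) (h16 : b ≠ g) (h17 : b ≠ h)
    (h23 : c ≠ d) (h24 : c ≠ e) (h25 : c ≠ f) (h26 : c ≠ g) (h27 : c ≠ h)
    (h34 : d ≠ e) (h35 : d ≠ f) (h36 : d ≠ g) (h37 : d ≠ h)
    (h45 : e ≠ f) (h46 : e ≠ g) (h47 : e ≠ h)
    (h56 : f ≠ g) (h57 : f ≠ h)
    (h67 : g ≠ h) : Function.Injective ![a, b, c, d, e, f, g, h] :=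
  inj_list _ [a, b, c, d, e, f, g, h] rfl (by simp [*])

lemma mv_eq_zero {g : Perm α} (h : mv g = 0) : g = 1 := by
  ext w
  unfold mv at h
  rw [Finset.card_eq_zero, Finset.filter_eq_empty_iff] at h
  simpa using h (Finset.mem_univ w)

lemma sol_one : Sol (1 : Perm α) 1 1 := by
  refine ⟨by simp, by simp, by simp, fun _ _ _ => rfl⟩

/-- Block reduction with the induction hypothesis. -/
lemma block {M : ℕ} (ih : IH α M) {k : ℕ} (v : Fin k → α) (hv : Function.Injective v)
    {x y : Perm α} {X Y Z : Perm (Fin k)} (hx' : x * x = 1) (hy' : y * y = 1) (hbal : mv x = mv y)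
    (hM : mv x = M) (hnc : ∀ a, ¬ HasC x y a)
    (hXX : X * X = 1) (hYY : Y * Y = 1) (hZZ : Z * Z = 1)
    (hx : ∀ i, x (v i) = v (X i)) (hy : ∀ i, y (v i) = v (Y i))
    (hmv : mv X = mv Y) (hpos : 0 < mv X)
    {k₁ k₂ : ℕ} (o1 : Odd k₁) (o2 : Odd k₂) (h1 : (X * Z) ^ k₁ = 1) (h2 : (Y * Z) ^ k₂ = 1)
    (hU : ∀ i, X i ≠ i ∨ Y i ≠ i) : ∃ z, Sol x y z := by
  have S₁ := strip_phi v hv hXX hx
  have S₂ := strip_phi v hv hYY hy
  have m₁ := S₁.mv_eq
  have m₂ := S₂.mv_eq
  rw [mv_phi] at m₁ m₂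
  rcases ih _ _ (S₁.inv' hx') (S₂.inv' hy') (by omega) (by omega) with hb | ⟨z', hz'⟩
  · obtain ⟨a, ha⟩ := bad_lift S₁ S₂ hb
    exact absurd ha (hnc a)
  · exact ⟨_, tbl v hv hXX hYY hZZ hx hy hz' o1 o2 h1 h2 hU⟩

/-- A table covering everything. -/
lemma tbl_exact {k : ℕ} (v : Fin k → α) (hv : Function.Injective v)
    {x y : Perm α} {X Y Z : Perm (Fin k)}
    (hXX : X * X = 1) (hYY : Y * Y = 1) (hZZ : Z * Z = 1)
    (hx : ∀ i, x (v i) = v (X i)) (hy : ∀ i, y (v i) = v (Y i))
    (hmx : mv x = mv X) (hmy : mv y = mv Y)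
    {k₁ k₂ : ℕ} (o1 : Odd k₁) (o2 : Odd k₂) (h1 : (X * Z) ^ k₁ = 1) (h2 : (Y * Z) ^ k₂ = 1)
    (hU : ∀ i, X i ≠ i ∨ Y i ≠ i) : ∃ z, Sol x y z := by
  have S₁ := strip_phi v hv hXX hx
  have S₂ := strip_phi v hv hYY hy
  have m₁ := S₁.mv_eq
  have m₂ := S₂.mv_eq
  rw [mv_phi] at m₁ m₂
  have e₁ : x * phi v hv X = 1 := mv_eq_zero (by omega)
  have e₂ : y * phi v hv Y = 1 := mv_eq_zero (by omega)
  have hz : Sol (x * phi v hv X) (y * phi v hv Y) (1 : Perm α) := by
    rw [e₁, e₂]; exact sol_one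
  exact ⟨_, tbl v hv hXX hYY hZZ hx hy hz o1 o2 h1 h2 hU⟩

/-- Structure of a `Bad` pair at a moved point. -/
lemma Bad.pts {x y : Perm α} (hx' : x * x = 1) (hy' : y * y = 1) (h : Bad x y) {p : α}
    (hp : x p ≠ p) : ∃ q r s : α, x p = q ∧ x q = p ∧ x r = s ∧ x s = r ∧ y p = r ∧ y r = p ∧ y q = s ∧ y s = q ∧
      p ≠ q ∧ p ≠ r ∧ p ≠ s ∧ q ≠ r ∧ q ≠ s ∧ r ≠ s := by
  obtain ⟨hcomm, h1, h2, _⟩ := h
  have hxx := inv_app hx'
  have hyy := inv_app hy'
  obtain ⟨hyp, hne⟩ := h1 p hp
  refine ⟨x p, y p, x (y p), rfl, hxx p, rfl, hxx _, rfl, hyy p, ?_, ?_, hp.symm, hyp.symm, ?_, hne, ?_, ?_⟩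
  · have := congrArg (fun σ : Perm α => σ p) hcomm
    simpa only [mul_apply] using this.symm
  · have := congrArg (fun σ : Perm α => σ p) hcomm
    simp only [mul_apply] at this
    rw [this, hyy]
  · intro e
    apply hne
    have := congrArg x e
    rw [hxx] at this
    exact this
  · intro e
    apply hyp
    have := congrArg x e
    rw [hxx, hxx] at this
    exact this.symm
  · intro e
    have h3 : y (y p) ≠ y p := by rw [hyy]; exact hyp.symm
    exact (h2 _ h3) e.symm

/-- Attaching a four-cycle to a moved point of a solution. -/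
lemma m_lemma {x' y' z' : Perm α} {a b c d : α} (hab : a ≠ b) (hac : a ≠ c) (had : a ≠ d) (hbc : b ≠ c)
    (hbd : b ≠ d) (hcd : c ≠ d)
    (xa : x' a = a) (xb : x' b = b) (xc : x' c = c) (xd : x' d = d)
    (ya : y' a = a) (yb : y' b = b) (yc : y' c = c) (yd : y' d = d)
    (sol : Sol x' y' z') {p : α} (hp : z' p ≠ p) :
    ∃ z, Sol (x' * (swap a b * swap c d)) (y' * (swap a c * swap b d)) z := by
  obtain ⟨zz, ox, oy, sup⟩ := sol
  have zzz := inv_app zz
  obtain ⟨p', hp'⟩ : ∃ p', z' p = p' := ⟨_, rfl⟩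
  rw [hp'] at hp
  have hpp' : p ≠ p' := hp.symm
  have hp'p : z' p' = p := by rw [← hp', zzz]
  have za := sup a xa ya
  have zb := sup b xb yb
  have zc := sup c xc yc
  have zd := sup d xd yd
  have hpa : p ≠ a := by grind
  have hpb : p ≠ b := by grind
  have hpc : p ≠ c := by grind
  have hpd : p ≠ d := by grind
  have hp'a : p' ≠ a := by grind
  have hp'b : p' ≠ b := by grind
  have hp'c : p' ≠ c := by grind
  have hp'd : p' ≠ d := by grind
  have S₃ : Strip z' (swap p p') := strip_swap hpp' hp' zz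
  obtain ⟨z₀, hz₀⟩ : ∃ z₀, z₀ = z' * swap p p' := ⟨_, rfl⟩
  have z₀z₀ : z₀ * z₀ = 1 := hz₀ ▸ S₃.inv' zz
  have z0p : z₀ p = p := by rw [hz₀, mul_apply, swap_apply_left, hp'p]
  have z0p' : z₀ p' = p' := by rw [hz₀, mul_apply, swap_apply_right, hp']
  have z0off : ∀ u, u ≠ p → u ≠ p' → z₀ u = z' u := by
    intro u h1 h2
    rw [hz₀, mul_apply, swap_apply_of_ne_of_ne h1 h2]
  have z0a : z₀ a = a := by rw [z0off a hpa.symm hp'a.symm, za]
  have z0b : z₀ b = b := by rw [z0off b hpb.symm hp'b.symm, zb]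
  have z0c : z₀ c = c := by rw [z0off c hpc.symm hp'c.symm, zc]
  have z0d : z₀ d = d := by rw [z0off d hpd.symm hp'd.symm, zd]
  have hz' : z₀ * swap p p' = z' := by rw [hz₀]; exact S₃.eq
  have hv6 : Function.Injective ![p, a, b, c, d, p'] :=
    inj_list _ [p, a, b, c, d, p'] rfl (by simp; tauto)
  have hv6' : Function.Injective ![p, a, c, b, d, p'] :=
    inj_list _ [p, a, c, b, d, p'] rfl (by simp; tauto)
  obtain ⟨w, hwdef⟩ : ∃ w, w = swap p a * swap b c * swap d p' := ⟨_, rfl⟩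
  have hw : w = phi ![p, a, b, c, d, p'] hv6 (swap 0 1 * swap 2 3 * swap 4 5) := by
    rw [hwdef]
    simp only [map_mul, phi_swap]
    rfl
  have hww : w * w = 1 := by
    rw [hw, ← map_mul]
    have : (swap 0 1 * swap 2 3 * swap 4 5 * (swap 0 1 * swap 2 3 * swap 4 5) : Perm (Fin 6)) = 1 := by
      decide
    rw [this, map_one]
  have hd : Disjoint z₀ w := by
    rw [hw]
    apply disj_of_fix
    intro i
    fin_cases i
    exacts [z0p, z0a, z0b, z0c, z0d, z0p']
  have hκ1 : ∀ u, (swap a b * swap c d) u = u → u ≠ a ∧ u ≠ b ∧ u ≠ c ∧ u ≠ d := by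
    intro u hu
    rw [mul_apply] at hu
    refine ⟨?_, ?_, ?_, ?_⟩
    · rintro rfl
      rw [swap_apply_of_ne_of_ne hac had, swap_apply_left] at hu
      exact hab hu.symm
    · rintro rfl
      rw [swap_apply_of_ne_of_ne hbc hbd, swap_apply_right] at hu
      exact hab hu
    · rintro rfl
      rw [swap_apply_left, swap_apply_of_ne_of_ne had.symm hbd.symm] at hu
      exact hcd hu.symm
    · rintro rfl
      rw [swap_apply_right, swap_apply_of_ne_of_ne hac.symm hbc.symm] at hu
      exact hcd hu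
  have dx : Disjoint x' (swap a b * swap c d) := by
    intro u
    by_cases hu : (swap a b * swap c d) u = u
    · exact Or.inr hu
    · left
      have : u = a ∨ u = b ∨ u = c ∨ u = d := by
        by_contra hcon
        push Not at hcon
        apply hu
        rw [mul_apply, swap_apply_of_ne_of_ne hcon.2.2.1 hcon.2.2.2,
          swap_apply_of_ne_of_ne hcon.1 hcon.2.1]
      rcases this with rfl | rfl | rfl | rfl <;> assumption
  have dy : Disjoint y' (swap a c * swap b d) := by
    intro u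
    by_cases hu : (swap a c * swap b d) u = u
    · exact Or.inr hu
    · left
      have : u = a ∨ u = b ∨ u = c ∨ u = d := by
        by_contra hcon
        push Not at hcon
        apply hu
        rw [mul_apply, swap_apply_of_ne_of_ne hcon.2.1 hcon.2.2.2,
          swap_apply_of_ne_of_ne hcon.1 hcon.2.2.1]
      rcases this with rfl | rfl | rfl | rfl <;> assumption
  refine ⟨z₀ * w, ?_, ?_, ?_, ?_⟩
  · have hc : w * z₀ = z₀ * w := hd.commute.symm.eq
    calc z₀ * w * (z₀ * w) = z₀ * (w * z₀) * w := by group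
      _ = z₀ * (z₀ * w) * w := by rw [hc]
      _ = (z₀ * z₀) * (w * w) := by group
      _ = 1 := by rw [z₀z₀, hww, one_mul]
  · have := insert2 z₀ x' p a b c d p' hv6 z0a z0b z0c z0d z0p z0p' xa xb xc xd (by
      rw [hz', orderOf_comm]; exact ox)
    rw [orderOf_comm, hwdef]
    exact this
  · have := insert2 z₀ y' p a c b d p' hv6' z0a z0c z0b z0d z0p z0p' ya yc yb yd (by
      rw [hz', orderOf_comm]; exact oy)
    rw [swap_comm c b] at this
    rw [orderOf_comm, hwdef]
    exact this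
  · intro u hu1 hu2
    obtain ⟨h1, h2⟩ := dx.mul_apply_eq_iff.1 hu1
    obtain ⟨h3, h4⟩ := dy.mul_apply_eq_iff.1 hu2
    obtain ⟨h5, h6, h7, h8⟩ := hκ1 u h2
    have hzu : z' u = u := sup u h1 h3
    have hup : u ≠ p := by rintro rfl; exact hp (by rw [← hp', hzu])
    have hup' : u ≠ p' := by
      rintro rfl
      rw [hp'p] at hzu
      exact hpp' hzu
    have e1 : swap d p' u = u := swap_apply_of_ne_of_ne h8 hup'
    have e2 : swap b c u = u := swap_apply_of_ne_of_ne h6 h7
    have e3 : swap p a u = u := swap_apply_of_ne_of_ne hup h5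
    rw [mul_apply, hwdef, mul_apply, mul_apply, e1, e2, e3, z0off u hup hup', hzu]

lemma t3 {M : ℕ} (ih : IH α M) {x y : Perm α} (hx' : x * x = 1) (hy' : y * y = 1)
    (hbal : mv x = mv y) (hM : mv x = M) {a : α} (hC : HasC x y a) :
    Bad x y ∨ ∃ z, Sol x y z := by
  obtain ⟨h1, h2, h3, h4⟩ := hC
  have hxx := inv_app hx'
  have hyy := inv_app hy'
  obtain ⟨b, hb⟩ : ∃ b, x a = b := ⟨_, rfl⟩
  obtain ⟨c, hc⟩ : ∃ c, y a = c := ⟨_, rfl⟩
  obtain ⟨d, hd⟩ : ∃ d, x c = d := ⟨_, rfl⟩
  rw [hb] at h1 h3 h4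
  rw [hc] at h2 h3 h4
  have hyb : y b = d := by rw [← h4, hd]
  have hxb : x b = a := by rw [← hb, hxx]
  have hyc : y c = a := by rw [← hc, hyy]
  have hxd : x d = c := by rw [← hd, hxx]
  have hyd : y d = b := by rw [← hyb, hyy]
  have hab : a ≠ b := h1.symm
  have hac : a ≠ c := h2.symm
  have hbc : b ≠ c := h3
  have had : a ≠ d := by grind
  have hbd : b ≠ d := by grind
  have hcd : c ≠ d := by grind
  have hv : Function.Injective ![a, b, c, d] :=
    inj_list _ [a, b, c, d] rfl (by simp; tauto)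
  have hX : ∀ i, x (![a, b, c, d] i) = ![a, b, c, d] ((swap 0 1 * swap 2 3 : Perm (Fin 4)) i) := by
    intro i; fin_cases i; exacts [hb, hxb, hd, hxd]
  have hY : ∀ i, y (![a, b, c, d] i) = ![a, b, c, d] ((swap 0 2 * swap 1 3 : Perm (Fin 4)) i) := by
    intro i; fin_cases i; exacts [hc, hyb, hyc, hyd]
  have S₁ := strip_phi _ hv (by decide) hX
  have S₂ := strip_phi _ hv (by decide) hY
  have m₁ := S₁.mv_eq
  have m₂ := S₂.mv_eq
  rw [mv_phi] at m₁ m₂
  have e₁ : mv (swap 0 1 * swap 2 3 : Perm (Fin 4)) = 4 := by decide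
  have e₂ : mv (swap 0 2 * swap 1 3 : Perm (Fin 4)) = 4 := by decide
  rw [e₁] at m₁
  rw [e₂] at m₂
  have fx := phi_fix _ hv (X := swap 0 1 * swap 2 3) (by decide) hX
  have fy := phi_fix _ hv (X := swap 0 2 * swap 1 3) (by decide) hY
  have eX : phi ![a, b, c, d] hv (swap 0 1 * swap 2 3) = swap a b * swap c d := by
    simp only [map_mul, phi_swap]
    rfl
  have eY : phi ![a, b, c, d] hv (swap 0 2 * swap 1 3) = swap a c * swap b d := by
    simp only [map_mul, phi_swap]
    rfl
  have ex : x * (swap a b * swap c d) * (swap a b * swap c d) = x := by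
    have := S₁.eq
    rwa [eX] at this
  have ey : y * (swap a c * swap b d) * (swap a c * swap b d) = y := by
    have := S₂.eq
    rwa [eY] at this
  have i₁ := S₁.inv' hx'
  have i₂ := S₂.inv' hy'
  rw [eX] at S₁ fx m₁ i₁
  rw [eY] at S₂ fy m₂ i₂
  obtain ⟨x', hx'def⟩ : ∃ x', x' = x * (swap a b * swap c d) := ⟨_, rfl⟩
  obtain ⟨y', hy'def⟩ : ∃ y', y' = y * (swap a c * swap b d) := ⟨_, rfl⟩
  rw [← hx'def] at ex fx m₁ i₁
  rw [← hy'def] at ey fy m₂ i₂
  have xa : x' a = a := fx 0
  have xb : x' b = b := fx 1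
  have xc : x' c = c := fx 2
  have xd : x' d = d := fx 3
  have ya : y' a = a := fy 0
  have yb : y' b = b := fy 1
  have yc : y' c = c := fy 2
  have yd : y' d = d := fy 3
  rcases ih x' y' i₁ i₂ (by omega) (by omega) with hB | ⟨z', hz⟩
  · -- two four-cycles
    have h4' := hB.2.2.2
    have : 0 < mv x' := by omega
    obtain ⟨p, hp⟩ := Finset.card_pos.1 this
    simp only [Finset.mem_filter, Finset.mem_univ, true_and] at hp
    obtain ⟨q, r, s, e1, e2, e3, e4, e5, e6, e7, e8, n1, n2, n3, n4, n5, n6⟩ := hB.pts i₁ i₂ hp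
    have hoff : ∀ u, x' u ≠ u → u ≠ a ∧ u ≠ b ∧ u ≠ c ∧ u ≠ d := by
      intro u hu
      refine ⟨?_, ?_, ?_, ?_⟩ <;> (rintro rfl; contradiction)
    have hofx : ∀ u, x' u ≠ u → x' u = x u := by
      intro u hu
      obtain ⟨o1, o2, o3, o4⟩ := hoff u hu
      rw [hx'def, mul_apply, mul_apply, swap_apply_of_ne_of_ne o3 o4, swap_apply_of_ne_of_ne o1 o2]
    have hofy : ∀ u, y' u ≠ u → y' u = y u := by
      intro u hu
      have hu' : x' u ≠ u := by
        by_contra hc0
        apply hu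
        by_contra hc1
        exact hB.2.2.1 u hc1 hc0
      obtain ⟨o1, o2, o3, o4⟩ := hoff u hu'
      rw [hy'def, mul_apply, mul_apply, swap_apply_of_ne_of_ne o2 o4, swap_apply_of_ne_of_ne o1 o3]
    have mp : x' p ≠ p := hp
    have mq : x' q ≠ q := by rw [e2]; exact n1
    have mr : x' r ≠ r := by rw [e3]; exact n6.symm
    have ms : x' s ≠ s := by rw [e4]; exact n6
    have mp' : y' p ≠ p := by rw [e5]; exact n2.symm
    have mq' : y' q ≠ q := by rw [e7]; exact n5.symm
    have mr' : y' r ≠ r := by rw [e6]; exact n2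
    have ms' : y' s ≠ s := by rw [e8]; exact n5
    have f1 : x p = q := by rw [← hofx p mp, e1]
    have f2 : x q = p := by rw [← hofx q mq, e2]
    have f3 : x r = s := by rw [← hofx r mr, e3]
    have f4 : x s = r := by rw [← hofx s ms, e4]
    have f5 : y p = r := by rw [← hofy p mp', e5]
    have f6 : y r = p := by rw [← hofy r mr', e6]
    have f7 : y q = s := by rw [← hofy q mq', e7]
    have f8 : y s = q := by rw [← hofy s ms', e8]
    obtain ⟨pa, pb, pc, pd⟩ := hoff p mp
    obtain ⟨qa, qb, qc, qd⟩ := hoff q mq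
    obtain ⟨ra, rb, rc, rd⟩ := hoff r mr
    obtain ⟨sa, sb, sc, sd⟩ := hoff s ms
    have hv8 : Function.Injective ![a, b, c, d, p, q, r, s] :=
      inj8 hab hac had pa.symm qa.symm ra.symm sa.symm hbc hbd pb.symm qb.symm rb.symm sb.symm
        hcd pc.symm qc.symm rc.symm sc.symm pd.symm qd.symm rd.symm sd.symm n1 n2 n3 n4 n5 n6
    have hmv8 : mv (swap 0 1 * swap 2 3 * swap 4 5 * swap 6 7 : Perm (Fin 8)) = 8 := by decide
    have hmv8' : mv (swap 0 2 * swap 1 3 * swap 4 6 * swap 5 7 : Perm (Fin 8)) = 8 := by decide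
    right
    exact tbl_exact ![a, b, c, d, p, q, r, s] hv8
      (X := swap 0 1 * swap 2 3 * swap 4 5 * swap 6 7)
      (Y := swap 0 2 * swap 1 3 * swap 4 6 * swap 5 7)
      (Z := swap 0 1 * swap 2 4 * swap 3 6 * swap 5 7)
      (by decide) (by decide) (by decide)
      (by intro i; fin_cases i; exacts [hb, hxb, hd, hxd, f1, f2, f3, f4])
      (by intro i; fin_cases i; exacts [hc, hyb, hyc, hyd, f5, f7, f6, f8])
      (by omega) (by omega) (k₁ := 3) (k₂ := 3) (by decide) (by decide) (by decide) (by decide)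
      (by decide)
  · by_cases hp : ∃ p, z' p ≠ p
    · obtain ⟨p, hp⟩ := hp
      right
      have := m_lemma hab hac had hbc hbd hcd xa xb xc xd ya yb yc yd hz hp
      rwa [ex, ey] at this
    · push Not at hp
      left
      have hz1 : z' = 1 := Equiv.ext hp
      obtain ⟨_, ox, oy, _⟩ := hz
      rw [hz1, mul_one] at ox oy
      have triv : ∀ g : Perm α, g * g = 1 → Odd (orderOf g) → g = 1 := by
        intro g h1 h2
        have h3 : orderOf g ∣ 2 := orderOf_dvd_of_pow_eq_one (by rw [pow_two, h1])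
        have h4 : orderOf g ≤ 2 := Nat.le_of_dvd (by norm_num) h3
        have h5 : orderOf g = 1 := by
          rcases h2 with ⟨k, hk⟩
          omega
        exact orderOf_eq_one_iff.1 h5
      have hx1 := triv _ i₁ ox
      have hy1 := triv _ i₂ oy
      rw [hx1, one_mul] at ex
      rw [hy1, one_mul] at ey
      rw [← eX] at ex
      rw [← eY] at ey
      have htab : ∀ i : Fin 4, (swap 0 1 * swap 2 3 : Perm (Fin 4)) i ≠ i ∧
          (swap 0 2 * swap 1 3 : Perm (Fin 4)) i ≠ i ∧
          (swap 0 1 * swap 2 3 : Perm (Fin 4)) i ≠ (swap 0 2 * swap 1 3 : Perm (Fin 4)) i := by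
        decide
      have hran : ∀ w, (phi ![a, b, c, d] hv (swap 0 1 * swap 2 3) w ≠ w ∨
          phi ![a, b, c, d] hv (swap 0 2 * swap 1 3) w ≠ w) → ∃ l, ![a, b, c, d] l = w := by
        intro w hw
        by_contra hcon
        push Not at hcon
        rcases hw with hw | hw <;> exact hw (phi_off _ hv _ w hcon)
      refine ⟨?_, ?_, ?_, ?_⟩
      · rw [← ex, ← ey, ← map_mul, ← map_mul]
        exact congrArg _ (by decide)
      · intro w hw
        rw [← ex] at hw
        rw [← ex, ← ey]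
        obtain ⟨l, rfl⟩ := hran w (Or.inl hw)
        rw [phi_apply, phi_apply]
        obtain ⟨t1, t2, t3⟩ := htab l
        exact ⟨fun e => t2 (hv e), fun e => t3 (hv e)⟩
      · intro w hw
        rw [← ey] at hw
        rw [← ex]
        obtain ⟨l, rfl⟩ := hran w (Or.inr hw)
        rw [phi_apply]
        obtain ⟨t1, t2, t3⟩ := htab l
        exact fun e => t1 (hv e)
      · rw [← ex, mv_phi]
        exact e₁

lemma mv_swap {a f : α} (haf : a ≠ f) : mv (swap a f) = 2 := by
  have hv : Function.Injective ![a, f] := inj_list _ [a, f] rfl (by simp [haf])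
  have : swap a f = phi ![a, f] hv (swap 0 1) := by
    rw [phi_swap]
    rfl
  rw [this, mv_phi]
  decide

lemma r3 {M : ℕ} (ih : IH α M) {x y : Perm α} (hx' : x * x = 1) (hy' : y * y = 1)
    (hbal : mv x = mv y) (hM : mv x = M) {a b c d e f : α}
    (hb : x a = b) (hc : y b = c) (hd : x c = d) (he : y d = e) (hf : x e = f)
    (hab : a ≠ b) (hac : a ≠ c) (had : a ≠ d) (hae : a ≠ e) (haf : a ≠ f)
    (hbc : b ≠ c) (hbd : b ≠ d) (hbe : b ≠ e) (hbf : b ≠ f)
    (hcd : c ≠ d) (hce : c ≠ e) (hcf : c ≠ f) (hde : d ≠ e) (hdf : d ≠ f) (hef : e ≠ f) :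
    ∃ z, Sol x y z := by
  have hxx := inv_app hx'
  have hyy := inv_app hy'
  have xb : x b = a := by rw [← hb, hxx]
  have xd : x d = c := by rw [← hd, hxx]
  have xf : x f = e := by rw [← hf, hxx]
  have yc : y c = b := by rw [← hc, hyy]
  have ye : y e = d := by rw [← he, hyy]
  have hv6 : Function.Injective ![a, b, c, d, e, f] :=
    inj_list _ [a, b, c, d, e, f] rfl (by simp [*])
  have hv4 : Function.Injective ![b, c, d, e] :=
    inj_list _ [b, c, d, e] rfl (by simp [*])
  have hX : ∀ i, x (![a, b, c, d, e, f] i) =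
      ![a, b, c, d, e, f] ((swap 0 1 * swap 2 3 * swap 4 5 : Perm (Fin 6)) i) := by
    intro i; fin_cases i; exacts [hb, xb, hd, xd, hf, xf]
  have hY : ∀ i, y (![b, c, d, e] i) = ![b, c, d, e] ((swap 0 1 * swap 2 3 : Perm (Fin 4)) i) := by
    intro i; fin_cases i; exacts [hc, yc, he, ye]
  have S₁ := strip_phi _ hv6 (by decide) hX
  have S₂ := strip_phi _ hv4 (by decide) hY
  have m₁ := S₁.mv_eq
  have m₂ := S₂.mv_eq
  rw [mv_phi] at m₁ m₂
  have e₁ : mv (swap 0 1 * swap 2 3 * swap 4 5 : Perm (Fin 6)) = 6 := by decide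
  have e₂ : mv (swap 0 1 * swap 2 3 : Perm (Fin 4)) = 4 := by decide
  rw [e₁] at m₁
  rw [e₂] at m₂
  have fx := phi_fix _ hv6 (X := swap 0 1 * swap 2 3 * swap 4 5) (by decide) hX
  have fy := phi_fix _ hv4 (X := swap 0 1 * swap 2 3) (by decide) hY
  have eX : phi ![a, b, c, d, e, f] hv6 (swap 0 1 * swap 2 3 * swap 4 5) =
      swap a b * swap c d * swap e f := by
    simp only [map_mul, phi_swap]
    rfl
  have eY : phi ![b, c, d, e] hv4 (swap 0 1 * swap 2 3) = swap b c * swap d e := by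
    simp only [map_mul, phi_swap]
    rfl
  have ex := S₁.eq
  have ey := S₂.eq
  have i₀ := S₁.inv' hx'
  have i₂ := S₂.inv' hy'
  have dκ := fun (g : Perm α) (hg : ∀ i, g (![b, c, d, e] i) = ![b, c, d, e] i) =>
    disj_of_fix ![b, c, d, e] hv4 hg (swap 0 1 * swap 2 3)
  rw [eX] at ex fx m₁ i₀
  rw [eY] at ey fy m₂ i₂ dκ
  have κκ : swap b c * swap d e * (swap b c * swap d e) = 1 := by
    rw [← eY, ← map_mul]
    have : (swap 0 1 * swap 2 3 * (swap 0 1 * swap 2 3) : Perm (Fin 4)) = 1 := by decide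
    rw [this, map_one]
  obtain ⟨x₀, hx₀⟩ : ∃ x₀, x₀ = x * (swap a b * swap c d * swap e f) := ⟨_, rfl⟩
  obtain ⟨y', hy'def⟩ : ∃ y', y' = y * (swap b c * swap d e) := ⟨_, rfl⟩
  rw [← hx₀] at ex fx m₁ i₀
  rw [← hy'def] at ey fy m₂ i₂
  have xa0 : x₀ a = a := fx 0
  have xb0 : x₀ b = b := fx 1
  have xc0 : x₀ c = c := fx 2
  have xd0 : x₀ d = d := fx 3
  have xe0 : x₀ e = e := fx 4
  have xf0 : x₀ f = f := fx 5
  have hd0 : Disjoint x₀ (swap a f) := by
    intro w
    by_cases h1 : w = a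
    · left; rw [h1, xa0]
    · by_cases h2 : w = f
      · left; rw [h2, xf0]
      · right; exact swap_apply_of_ne_of_ne h1 h2
  obtain ⟨x', hx'def⟩ : ∃ x', x' = x₀ * swap a f := ⟨_, rfl⟩
  have i₁ : x' * x' = 1 := by
    have hcomm : swap a f * x₀ = x₀ * swap a f := hd0.commute.symm.eq
    rw [hx'def]
    calc x₀ * swap a f * (x₀ * swap a f) = x₀ * (swap a f * x₀) * swap a f := by group
      _ = x₀ * (x₀ * swap a f) * swap a f := by rw [hcomm]
      _ = (x₀ * x₀) * (swap a f * swap a f) := by group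
      _ = 1 := by rw [i₀, swap_mul_self, one_mul]
  have x'a : x' a = f := by rw [hx'def, mul_apply, swap_apply_left, xf0]
  have S₃ : Strip x' (swap a f) := strip_swap haf x'a i₁
  have m₃ := S₃.mv_eq
  rw [mv_swap haf] at m₃
  have e₃ : x' * swap a f = x₀ := by rw [hx'def, mul_assoc, swap_mul_self, mul_one]
  rw [e₃] at m₃
  have x'off : ∀ u, u ≠ a → u ≠ f → x' u = x₀ u := by
    intro u h1 h2
    rw [hx'def, mul_apply, swap_apply_of_ne_of_ne h1 h2]
  have xb' : x' b = b := by rw [x'off b hab.symm hbf, xb0]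
  have xc' : x' c = c := by rw [x'off c hac.symm hcf, xc0]
  have xd' : x' d = d := by rw [x'off d had.symm hdf, xd0]
  have xe' : x' e = e := by rw [x'off e hae.symm hef, xe0]
  have yb' : y' b = b := fy 0
  have yc' : y' c = c := fy 1
  have yd' : y' d = d := fy 2
  have ye' : y' e = e := fy 3
  have x0off : ∀ u, u ≠ a → u ≠ b → u ≠ c → u ≠ d → u ≠ e → u ≠ f → x₀ u = x u := by
    intro u h1 h2 h3 h4 h5 h6
    rw [hx₀, mul_apply, mul_apply, mul_apply, swap_apply_of_ne_of_ne h5 h6,
      swap_apply_of_ne_of_ne h3 h4, swap_apply_of_ne_of_ne h1 h2]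
  have y'off : ∀ u, u ≠ b → u ≠ c → u ≠ d → u ≠ e → y' u = y u := by
    intro u h1 h2 h3 h4
    rw [hy'def, mul_apply, mul_apply, swap_apply_of_ne_of_ne h3 h4, swap_apply_of_ne_of_ne h1 h2]
  rcases ih x' y' i₁ i₂ (by omega) (by omega) with hB | ⟨z', hz⟩
  · -- the eight-cycle
    have hm4 := hB.2.2.2
    have hp : x' a ≠ a := by rw [x'a]; exact haf.symm
    obtain ⟨q, r, s, e1, e2, e3', e4, e5, e6, e7, e8, n1, n2, n3, n4, n5, n6⟩ := hB.pts i₁ i₂ hp
    rw [x'a] at e1
    subst e1
    have rb : r ≠ b := by rintro rfl; rw [xb'] at e3'; exact n6 e3'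
    have rc : r ≠ c := by rintro rfl; rw [xc'] at e3'; exact n6 e3'
    have rd : r ≠ d := by rintro rfl; rw [xd'] at e3'; exact n6 e3'
    have re : r ≠ e := by rintro rfl; rw [xe'] at e3'; exact n6 e3'
    have sb : s ≠ b := by rintro rfl; rw [xb'] at e4; exact n6 e4.symm
    have sc : s ≠ c := by rintro rfl; rw [xc'] at e4; exact n6 e4.symm
    have sd : s ≠ d := by rintro rfl; rw [xd'] at e4; exact n6 e4.symm
    have se : s ≠ e := by rintro rfl; rw [xe'] at e4; exact n6 e4.symm
    have f1 : x r = s := by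
      rw [← x0off r n2.symm rb rc rd re n4.symm, ← x'off r n2.symm n4.symm, e3']
    have f2 : x s = r := by
      rw [← x0off s n3.symm sb sc sd se n5.symm, ← x'off s n3.symm n5.symm, e4]
    have f3 : y a = r := by
      rw [← y'off a hab hac had hae, e5]
    have f4 : y r = a := by
      rw [← y'off r rb rc rd re, e6]
    have f5 : y f = s := by
      rw [← y'off f hbf.symm hcf.symm hdf.symm hef.symm, e7]
    have f6 : y s = f := by
      rw [← y'off s sb sc sd se, e8]
    have hv8 : Function.Injective ![a, b, c, d, e, f, s, r] :=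
      inj8 hab hac had hae haf n3 n2 hbc hbd hbe hbf sb.symm rb.symm hcd hce hcf sc.symm rc.symm
        hde hdf sd.symm rd.symm hef se.symm re.symm n5 n4 n6.symm
    have hmv8 : mv (swap 0 1 * swap 2 3 * swap 4 5 * swap 6 7 : Perm (Fin 8)) = 8 := by decide
    have hmv8' : mv (swap 1 2 * swap 3 4 * swap 5 6 * swap 7 0 : Perm (Fin 8)) = 8 := by decide
    exact tbl_exact ![a, b, c, d, e, f, s, r] hv8
      (X := swap 0 1 * swap 2 3 * swap 4 5 * swap 6 7)
      (Y := swap 1 2 * swap 3 4 * swap 5 6 * swap 7 0)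
      (Z := swap 0 1 * swap 2 6 * swap 3 4 * swap 5 7)
      (by decide) (by decide) (by decide)
      (by intro i; fin_cases i; exacts [hb, xb, hd, xd, hf, xf, f2, f1])
      (by intro i; fin_cases i; exacts [f3, hc, yc, he, ye, f5, f6, f4])
      (by omega) (by omega) (k₁ := 3) (k₂ := 3) (by decide) (by decide) (by decide) (by decide)
      (by decide)
  · obtain ⟨zz, ox, oy, sup⟩ := hz
    have zb := sup b xb' yb'
    have zc := sup c xc' yc'
    have zd := sup d xd' yd'
    have ze := sup e xe' ye'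
    have dz : Disjoint z' (swap b c * swap d e) := dκ z' (by
      intro i; fin_cases i; exacts [zb, zc, zd, ze])
    have hcomm : swap b c * swap d e * z' = z' * (swap b c * swap d e) := dz.commute.symm.eq
    refine ⟨z' * (swap b c * swap d e), ?_, ?_, ?_, ?_⟩
    · calc z' * (swap b c * swap d e) * (z' * (swap b c * swap d e))
          = z' * (swap b c * swap d e * z') * (swap b c * swap d e) := by group
        _ = z' * (z' * (swap b c * swap d e)) * (swap b c * swap d e) := by rw [hcomm]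
        _ = (z' * z') * (swap b c * swap d e * (swap b c * swap d e)) := by group
        _ = 1 := by rw [zz, κκ, one_mul]
    · have := insert2 x₀ z' a b c d e f hv6 xb0 xc0 xd0 xe0 xa0 xf0 zb zc zd ze (by
        rw [← hx'def]; exact ox)
      rwa [ex] at this
    · rw [← ey]
      have : y' * (swap b c * swap d e) * (z' * (swap b c * swap d e)) = y' * z' := by
        calc y' * (swap b c * swap d e) * (z' * (swap b c * swap d e))
            = y' * (swap b c * swap d e * z') * (swap b c * swap d e) := by group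
          _ = y' * (z' * (swap b c * swap d e)) * (swap b c * swap d e) := by rw [hcomm]
          _ = (y' * z') * (swap b c * swap d e * (swap b c * swap d e)) := by group
          _ = y' * z' := by rw [κκ, mul_one]
      rw [this]
      exact oy
    · intro u hu1 hu2
      have ua : u ≠ a := by rintro rfl; exact hab (by rw [← hb, hu1])
      have ub : u ≠ b := by rintro rfl; exact hab (by rw [← xb, hu1])
      have uc : u ≠ c := by rintro rfl; exact hcd (by rw [← hd, hu1])
      have ud : u ≠ d := by rintro rfl; exact hcd (by rw [← xd, hu1])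
      have ue : u ≠ e := by rintro rfl; exact hef (by rw [← hf, hu1])
      have uf : u ≠ f := by rintro rfl; exact hef (by rw [← xf, hu1])
      have h1 : x' u = u := by rw [x'off u ua uf, x0off u ua ub uc ud ue uf, hu1]
      have h2 : y' u = u := by rw [y'off u ub uc ud ue, hu2]
      have h3 := sup u h1 h2
      rw [mul_apply, mul_apply, swap_apply_of_ne_of_ne ud ue, swap_apply_of_ne_of_ne ub uc, h3]

/-- Walking from an end of `x ∪ y`. -/
lemma end_walk {M : ℕ} (ih : IH α M) {x y : Perm α} (hx' : x * x = 1) (hy' : y * y = 1)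
    (hbal : mv x = mv y) (hM : mv x = M) (hnc : ∀ a, ¬ HasC x y a) {a : α} (ha : x a ≠ a)
    (hya : y a = a) :
    (∃ z, Sol x y z) ∨ y (x a) = x a ∨
      ∃ b c d, x a = b ∧ y b = c ∧ x c = d ∧ y d = d ∧
        a ≠ b ∧ a ≠ c ∧ a ≠ d ∧ b ≠ c ∧ b ≠ d ∧ c ≠ d := by
  have hxx := inv_app hx'
  have hyy := inv_app hy'
  obtain ⟨b, hb⟩ : ∃ b, x a = b := ⟨_, rfl⟩
  rw [hb] at ha
  by_cases h1 : y b = b
  · right; left; rw [hb]; exact h1
  obtain ⟨c, hc⟩ : ∃ c, y b = c := ⟨_, rfl⟩
  rw [hc] at h1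
  have xb : x b = a := by rw [← hb, hxx]
  have yc : y c = b := by rw [← hc, hyy]
  have hab : a ≠ b := ha.symm
  have hbc : b ≠ c := Ne.symm h1
  have hac : a ≠ c := by grind
  by_cases h2 : x c = c
  · left
    have hv : Function.Injective ![a, b, c] := inj_list _ [a, b, c] rfl (by simp [*])
    exact block ih ![a, b, c] hv (X := swap 0 1) (Y := swap 1 2) (Z := swap 0 1) hx' hy' hbal hM hnc
      (by decide) (by decide) (by decide)
      (by intro i; fin_cases i; exacts [hb, xb, h2])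
      (by intro i; fin_cases i; exacts [hya, hc, yc])
      (by decide) (by decide) (k₁ := 1) (k₂ := 3) (by decide) (by decide) (by decide) (by decide)
      (by decide)
  obtain ⟨d, hd⟩ : ∃ d, x c = d := ⟨_, rfl⟩
  rw [hd] at h2
  have xd : x d = c := by rw [← hd, hxx]
  have hcd : c ≠ d := Ne.symm h2
  have had : a ≠ d := by grind
  have hbd : b ≠ d := by grind
  by_cases h3 : y d = d
  · right; right
    exact ⟨b, c, d, hb, hc, hd, h3, hab, hac, had, hbc, hbd, hcd⟩
  obtain ⟨e, he⟩ : ∃ e, y d = e := ⟨_, rfl⟩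
  rw [he] at h3
  have ye : y e = d := by rw [← he, hyy]
  have hde : d ≠ e := Ne.symm h3
  have hae : a ≠ e := by grind
  have hbe : b ≠ e := by grind
  have hce : c ≠ e := by grind
  by_cases h4 : x e = e
  · left
    have hv : Function.Injective ![a, b, c, d, e] := inj_list _ [a, b, c, d, e] rfl (by simp [*])
    exact block ih ![a, b, c, d, e] hv (X := swap 0 1 * swap 2 3) (Y := swap 1 2 * swap 3 4)
      (Z := swap 0 1 * swap 2 3) hx' hy' hbal hM hnc
      (by decide) (by decide) (by decide)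
      (by intro i; fin_cases i; exacts [hb, xb, hd, xd, h4])
      (by intro i; fin_cases i; exacts [hya, hc, yc, he, ye])
      (by decide) (by decide) (k₁ := 1) (k₂ := 5) (by decide) (by decide) (by decide) (by decide)
      (by decide)
  obtain ⟨f, hf⟩ : ∃ f, x e = f := ⟨_, rfl⟩
  rw [hf] at h4
  have hef : e ≠ f := Ne.symm h4
  have xf : x f = e := by rw [← hf, hxx]
  have haf : a ≠ f := by grind
  have hbf : b ≠ f := by grind
  have hcf : c ≠ f := by grind
  have hdf : d ≠ f := by grind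
  left
  exact r3 ih hx' hy' hbal hM hb hc hd he hf hab hac had hae haf hbc hbd hbe hbf hcd hce hcf hde hdf hef

lemma pair22 {M : ℕ} (ih : IH α M) {x y : Perm α} (hx' : x * x = 1) (hy' : y * y = 1)
    (hbal : mv x = mv y) (hM : mv x = M) (hnc : ∀ a, ¬ HasC x y a) {a e : α} (ha : x a ≠ a)
    (hya : y a = a) (he : y e ≠ e) (hxe : x e = e) (h1 : y (x a) = x a) (h2 : x (y e) = y e) :
    ∃ z, Sol x y z := by
  have hxx := inv_app hx'
  have hyy := inv_app hy'
  obtain ⟨b, hb⟩ : ∃ b, x a = b := ⟨_, rfl⟩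
  obtain ⟨f, hf⟩ : ∃ f, y e = f := ⟨_, rfl⟩
  rw [hb] at ha h1
  rw [hf] at he h2
  have xb : x b = a := by rw [← hb, hxx]
  have yf : y f = e := by rw [← hf, hyy]
  have hab : a ≠ b := ha.symm
  have hef : e ≠ f := he.symm
  have hae : a ≠ e := by grind
  have haf : a ≠ f := by grind
  have hbe : b ≠ e := by grind
  have hbf : b ≠ f := by grind
  have hv : Function.Injective ![a, b, e, f] := inj_list _ [a, b, e, f] rfl (by simp [*])
  exact block ih ![a, b, e, f] hv (X := swap 0 1) (Y := swap 2 3) (Z := swap 1 2) hx' hy' hbal hM hnc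
      (by decide) (by decide) (by decide)
      (by intro i; fin_cases i; exacts [hb, xb, hxe, h2])
      (by intro i; fin_cases i; exacts [hya, h1, hf, yf])
      (by decide) (by decide) (k₁ := 3) (k₂ := 3) (by decide) (by decide) (by decide) (by decide)
      (by decide)

lemma pair42 {M : ℕ} (ih : IH α M) {x y : Perm α} (hx' : x * x = 1) (hy' : y * y = 1)
    (hbal : mv x = mv y) (hM : mv x = M) (hnc : ∀ a, ¬ HasC x y a) {a b c d e : α}
    (hya : y a = a) (hb : x a = b) (hc : y b = c) (hd : x c = d) (hyd : y d = d)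
    (hab : a ≠ b) (hac : a ≠ c) (had : a ≠ d) (hbc : b ≠ c) (hbd : b ≠ d) (hcd : c ≠ d)
    (he : y e ≠ e) (hxe : x e = e) (h2 : x (y e) = y e) :
    ∃ z, Sol x y z := by
  have hxx := inv_app hx'
  have hyy := inv_app hy'
  obtain ⟨f, hf⟩ : ∃ f, y e = f := ⟨_, rfl⟩
  rw [hf] at he h2
  have xb : x b = a := by rw [← hb, hxx]
  have xd : x d = c := by rw [← hd, hxx]
  have yc : y c = b := by rw [← hc, hyy]
  have yf : y f = e := by rw [← hf, hyy]
  have hef : e ≠ f := he.symm
  have hae : a ≠ e := by grind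
  have haf : a ≠ f := by grind
  have hbe : b ≠ e := by grind
  have hbf : b ≠ f := by grind
  have hce : c ≠ e := by grind
  have hcf : c ≠ f := by grind
  have hde : d ≠ e := by grind
  have hdf : d ≠ f := by grind
  have hv : Function.Injective ![a, b, c, d, e, f] := inj_list _ [a, b, c, d, e, f] rfl (by simp [*])
  exact block ih ![a, b, c, d, e, f] hv (X := swap 0 1 * swap 2 3) (Y := swap 1 2 * swap 4 5)
      (Z := swap 1 2 * swap 3 4) hx' hy' hbal hM hnc
      (by decide) (by decide) (by decide)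
      (by intro i; fin_cases i; exacts [hb, xb, hd, xd, hxe, h2])
      (by intro i; fin_cases i; exacts [hya, hc, yc, hyd, hf, yf])
      (by decide) (by decide) (k₁ := 5) (k₂ := 3) (by decide) (by decide) (by decide) (by decide)
      (by decide)

lemma pair44 {M : ℕ} (ih : IH α M) {x y : Perm α} (hx' : x * x = 1) (hy' : y * y = 1)
    (hbal : mv x = mv y) (hM : mv x = M) (hnc : ∀ a, ¬ HasC x y a) {a b c d e f g h : α}
    (hya : y a = a) (hb : x a = b) (hc : y b = c) (hd : x c = d) (hyd : y d = d)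
    (hab : a ≠ b) (hac : a ≠ c) (had : a ≠ d) (hbc : b ≠ c) (hbd : b ≠ d) (hcd : c ≠ d)
    (hxe : x e = e) (hf : y e = f) (hg : x f = g) (hh : y g = h) (hxh : x h = h)
    (hef : e ≠ f) (heg : e ≠ g) (heh : e ≠ h) (hfg : f ≠ g) (hfh : f ≠ h) (hgh : g ≠ h) :
    ∃ z, Sol x y z := by
  have hxx := inv_app hx'
  have hyy := inv_app hy'
  have xb : x b = a := by rw [← hb, hxx]
  have xd : x d = c := by rw [← hd, hxx]
  have yc : y c = b := by rw [← hc, hyy]
  have yf : y f = e := by rw [← hf, hyy]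
  have xg : x g = f := by rw [← hg, hxx]
  have yh : y h = g := by rw [← hh, hyy]
  have hae : a ≠ e := by grind
  have haf : a ≠ f := by grind
  have hag : a ≠ g := by grind
  have hah : a ≠ h := by grind
  have hbe : b ≠ e := by grind
  have hbf : b ≠ f := by grind
  have hbg : b ≠ g := by grind
  have hbh : b ≠ h := by grind
  have hce : c ≠ e := by grind
  have hcf : c ≠ f := by grind
  have hcg : c ≠ g := by grind
  have hch : c ≠ h := by grind
  have hde : d ≠ e := by grind
  have hdf : d ≠ f := by grind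
  have hdg : d ≠ g := by grind
  have hdh : d ≠ h := by grind
  have hv : Function.Injective ![a, b, c, d, e, f, g, h] :=
    inj8 hab hac had hae haf hag hah hbc hbd hbe hbf hbg hbh hcd hce hcf hcg hch hde hdf hdg hdh
      hef heg heh hfg hfh hgh
  exact block ih ![a, b, c, d, e, f, g, h] hv (X := swap 0 1 * swap 2 3 * swap 5 6)
      (Y := swap 1 2 * swap 4 5 * swap 6 7)
      (Z := swap 1 2 * swap 3 4 * swap 5 6) hx' hy' hbal hM hnc
      (by decide) (by decide) (by decide)
      (by intro i; fin_cases i; exacts [hb, xb, hd, xd, hxe, hg, xg, hxh])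
      (by intro i; fin_cases i; exacts [hya, hc, yc, hyd, hf, yf, hh, yh])
      (by decide) (by decide) (k₁ := 5) (k₂ := 5) (by decide) (by decide) (by decide) (by decide)
      (by decide)

/-- The main reduction. -/
theorem main (M : ℕ) : ∀ x y : Perm α, x * x = 1 → y * y = 1 → mv x = mv y → mv x = M →
    Bad x y ∨ ∃ z, Sol x y z := by
  induction M using Nat.strong_induction_on with
  | _ M IHM =>
  intro x y hx hy hbal hM
  have ih : IH α M := fun x' y' h1 h2 h3 h4 => IHM _ h4 x' y' h1 h2 h3 rfl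
  by_cases hC : ∃ a, HasC x y a
  · obtain ⟨a, ha⟩ := hC
    exact t3 ih hx hy hbal hM ha
  right
  push Not at hC
  have hxx := inv_app hx
  have hyy := inv_app hy
  by_cases hE : ∃ a, x a ≠ a ∧ x a = y a
  · obtain ⟨a, ha, hay⟩ := hE
    obtain ⟨b, hb⟩ : ∃ b, x a = b := ⟨_, rfl⟩
    rw [hb] at ha hay
    have xb : x b = a := by rw [← hb, hxx]
    have yb : y b = a := by rw [hay, hyy]
    have hab : a ≠ b := ha.symm
    have hv : Function.Injective ![a, b] := inj_list _ [a, b] rfl (by simp [hab])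
    exact block ih ![a, b] hv (X := swap 0 1) (Y := swap 0 1) (Z := swap 0 1) hx hy hbal hM hC
      (by decide) (by decide) (by decide)
      (by intro i; fin_cases i; exacts [hb, xb])
      (by intro i; fin_cases i; exacts [hay.symm, yb])
      (by decide) (by decide) (k₁ := 1) (k₂ := 1) (by decide) (by decide) (by decide) (by decide)
      (by decide)
  push Not at hE
  have hcard : ∀ (u v : Perm α), mv u = mv v → (∀ w, v w ≠ w → u w ≠ w) → ∀ w, u w ≠ w → v w ≠ w := by
    intro u v huv hsub w hw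
    have hs : Finset.univ.filter (fun w => v w ≠ w) ⊆ Finset.univ.filter (fun w => u w ≠ w) := by
      intro t ht
      simp only [Finset.mem_filter, Finset.mem_univ, true_and] at ht ⊢
      exact hsub t ht
    have heq := Finset.eq_of_subset_of_card_le hs (by unfold mv at huv; omega)
    have : w ∈ Finset.univ.filter (fun w => u w ≠ w) := by simp [hw]
    rw [← heq] at this
    simpa using this
  have hnc' : ∀ a, ¬ HasC y x a := by
    rintro a ⟨h1, h2, h3, h4⟩
    exact hC a ⟨h2, h1, h3.symm, h4.symm⟩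
  by_cases he : ∃ a, x a ≠ a ∧ y a = a
  · obtain ⟨a, ha, hya⟩ := he
    have hee : ∃ e, y e ≠ e ∧ x e = e := by
      by_contra hcon
      push Not at hcon
      exact hcard x y hbal hcon a ha hya
    obtain ⟨e, he, hxe⟩ := hee
    have hM' : mv y = M := by omega
    rcases end_walk ih hx hy hbal hM hC ha hya with hs | h2 | ⟨b, c, d, hb, hc, hd, hyd, n1, n2, n3, n4, n5, n6⟩
    · exact hs
    · rcases end_walk ih hy hx hbal.symm hM' hnc' he hxe with hs | h2' | ⟨f, g, h, hf, hg, hh, hxh, m1, m2, m3, m4, m5, m6⟩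
      · obtain ⟨z, hz⟩ := hs
        exact ⟨z, hz.symm⟩
      · exact pair22 ih hx hy hbal hM hC ha hya he hxe h2 h2'
      · obtain ⟨z, hz⟩ := pair42 ih hy hx hbal.symm hM' hnc' hxe hf hg hh hxh m1 m2 m3 m4 m5 m6 ha hya h2
        exact ⟨z, hz.symm⟩
    · rcases end_walk ih hy hx hbal.symm hM' hnc' he hxe with hs | h2' | ⟨f, g, h, hf, hg, hh, hxh, m1, m2, m3, m4, m5, m6⟩
      · obtain ⟨z, hz⟩ := hs
        exact ⟨z, hz.symm⟩
      · exact pair42 ih hx hy hbal hM hC hya hb hc hd hyd n1 n2 n3 n4 n5 n6 he hxe h2'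
      · exact pair44 ih hx hy hbal hM hC hya hb hc hd hyd n1 n2 n3 n4 n5 n6 hxe hf hg hh hxh m1 m2 m3 m4 m5 m6
  push Not at he
  have he' := hcard y x hbal.symm he
  by_cases hm : ∃ a, x a ≠ a
  · obtain ⟨a, ha⟩ := hm
    have hCa := hC a
    have hEa := hE a ha
    obtain ⟨b, hb⟩ : ∃ b, x a = b := ⟨_, rfl⟩
    rw [hb] at ha hEa
    have xb : x b = a := by rw [← hb, hxx]
    have hab : a ≠ b := ha.symm
    have h1 : y b ≠ b := he b (by rw [xb]; exact hab)
    obtain ⟨c, hc⟩ : ∃ c, y b = c := ⟨_, rfl⟩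
    rw [hc] at h1
    have yc : y c = b := by rw [← hc, hyy]
    have hbc : b ≠ c := Ne.symm h1
    have hac : a ≠ c := by
      rintro rfl
      exact hEa yc.symm
    have h2 : x c ≠ c := he' c (by rw [yc]; exact hbc)
    obtain ⟨d, hd⟩ : ∃ d, x c = d := ⟨_, rfl⟩
    rw [hd] at h2
    have xd : x d = c := by rw [← hd, hxx]
    have hcd : c ≠ d := Ne.symm h2
    have had : a ≠ d := by grind
    have hbd : b ≠ d := by grind
    have h3 : y d ≠ d := he d (by rw [xd]; exact hcd)
    obtain ⟨e, he₁⟩ : ∃ e, y d = e := ⟨_, rfl⟩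
    rw [he₁] at h3
    have ye : y e = d := by rw [← he₁, hyy]
    have hde : d ≠ e := Ne.symm h3
    have hbe : b ≠ e := by grind
    have hce : c ≠ e := by grind
    have hae : a ≠ e := by
      rintro rfl
      apply hCa
      refine ⟨?_, ?_, ?_, ?_⟩
      · rw [hb]; exact hab.symm
      · rw [ye]; exact had.symm
      · rw [hb, ye]; exact hbd
      · rw [hb, ye, xd, hc]
    have h4 : x e ≠ e := he' e (by rw [ye]; exact hde)
    obtain ⟨f, hf⟩ : ∃ f, x e = f := ⟨_, rfl⟩
    rw [hf] at h4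
    have hef : e ≠ f := Ne.symm h4
    have xf : x f = e := by rw [← hf, hxx]
    have haf : a ≠ f := by grind
    have hbf : b ≠ f := by grind
    have hcf : c ≠ f := by grind
    have hdf : d ≠ f := by grind
    exact r3 ih hx hy hbal hM hb hc hd he₁ hf hab hac had hae haf hbc hbd hbe hbf hcd hce hcf hde hdf hef
  · push Not at hm
    have hx1 : x = 1 := Equiv.ext hm
    have hy1 : y = 1 := by
      apply Equiv.ext
      intro w
      by_contra h0
      exact he' w h0 (hm w)
    rw [hx1, hy1]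
    exact ⟨1, sol_one⟩

lemma five_table (hn : 5 ≤ Fintype.card α) {x y : Perm α} (hx : x * x = 1) (hy : y * y = 1)
    (hB : Bad x y) : ∃ z : Perm α, z ^ 2 = 1 ∧ Odd (orderOf (x * z)) ∧ Odd (orderOf (y * z)) := by
  have hm4 := hB.2.2.2
  have : 0 < mv x := by omega
  obtain ⟨p, hp⟩ := Finset.card_pos.1 this
  simp only [Finset.mem_filter, Finset.mem_univ, true_and] at hp
  obtain ⟨q, r, s, e1, e2, e3, e4, e5, e6, e7, e8, n1, n2, n3, n4, n5, n6⟩ := hB.pts hx hy hp
  obtain ⟨o, ho⟩ : ∃ o, x o = o := by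
    by_contra hcon
    push Not at hcon
    have : mv x = Fintype.card α := by
      unfold mv
      rw [Finset.filter_true_of_mem (fun w _ => hcon w), Finset.card_univ]
    omega
  have ho' : y o = o := by
    by_contra h0
    exact hB.2.2.1 o h0 ho
  have op : o ≠ p := by grind
  have oq : o ≠ q := by grind
  have or' : o ≠ r := by grind
  have os : o ≠ s := by grind
  have hv : Function.Injective ![o, p, q, r, s] := inj_list _ [o, p, q, r, s] rfl (by simp [*])
  have hX : ∀ i, x (![o, p, q, r, s] i) = ![o, p, q, r, s] ((swap 1 2 * swap 3 4 : Perm (Fin 5)) i) := by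
    intro i; fin_cases i; exacts [ho, e1, e2, e3, e4]
  have hY : ∀ i, y (![o, p, q, r, s] i) = ![o, p, q, r, s] ((swap 1 3 * swap 2 4 : Perm (Fin 5)) i) := by
    intro i; fin_cases i; exacts [ho', e5, e7, e6, e8]
  have S₁ := strip_phi _ hv (by decide) hX
  have S₂ := strip_phi _ hv (by decide) hY
  have m₁ := S₁.mv_eq
  have m₂ := S₂.mv_eq
  rw [mv_phi] at m₁ m₂
  have e₁ : mv (swap 1 2 * swap 3 4 : Perm (Fin 5)) = 4 := by decide
  have e₂ : mv (swap 1 3 * swap 2 4 : Perm (Fin 5)) = 4 := by decide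
  have hmy : mv y = 4 := by
    have h4 : ∀ w, x w ≠ w ↔ y w ≠ w := fun w => ⟨fun h => (hB.2.1 w h).1, hB.2.2.1 w⟩
    rw [← hm4]
    unfold mv
    congr 1
    ext w
    simp only [Finset.mem_filter, Finset.mem_univ, true_and]
    exact (h4 w).symm
  have x1 : x * phi _ hv (swap 1 2 * swap 3 4) = 1 := mv_eq_zero (by omega)
  have y1 : y * phi _ hv (swap 1 3 * swap 2 4) = 1 := mv_eq_zero (by omega)
  have ex := S₁.eq
  have ey := S₂.eq
  rw [x1, one_mul] at ex
  rw [y1, one_mul] at ey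
  refine ⟨phi _ hv (swap 0 1 * swap 2 3), ?_, ?_, ?_⟩
  · rw [← map_pow]
    have : (swap 0 1 * swap 2 3 : Perm (Fin 5)) ^ 2 = 1 := by decide
    rw [this, map_one]
  · rw [← ex, ← map_mul]
    apply odd_of_pow (k := 5) (by decide)
    rw [← map_pow]
    have : ((swap 1 2 * swap 3 4 : Perm (Fin 5)) * (swap 0 1 * swap 2 3)) ^ 5 = 1 := by decide
    rw [this, map_one]
  · rw [← ey, ← map_mul]
    apply odd_of_pow (k := 5) (by decide)
    rw [← map_pow]
    have : ((swap 1 3 * swap 2 4 : Perm (Fin 5)) * (swap 0 1 * swap 2 3)) ^ 5 = 1 := by decide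
    rw [this, map_one]

lemma exists_even {t : Perm α} (ht : t * t = 1) (ht1 : t ≠ 1) (hn : 5 ≤ Fintype.card α) :
    ∃ y, IsConj t y ∧ ¬ Odd (orderOf (t * y)) := by
  have htt := inv_app ht
  have key : ∀ {k : ℕ} (v : Fin k → α) (hv : Function.Injective v) (σ : Perm (Fin k)),
      σ ^ 2 = 1 → σ ≠ 1 → ¬ Odd (orderOf (phi v hv σ)) := by
    intro k v hv σ h1 h2
    have h3 : orderOf (phi v hv σ) = 2 := by
      apply orderOf_eq_prime
      · rw [← map_pow, h1, map_one]
      · intro h4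
        apply h2
        apply viaEmbeddingHom_injective ⟨v, hv⟩
        rw [map_one]
        exact h4
    rw [h3]
    decide
  obtain ⟨a, ha⟩ : ∃ a, t a ≠ a := by
    by_contra hcon
    push Not at hcon
    exact ht1 (Equiv.ext hcon)
  obtain ⟨b, hb⟩ : ∃ b, t a = b := ⟨_, rfl⟩
  rw [hb] at ha
  have tb : t b = a := by rw [← hb, htt]
  have hab : a ≠ b := ha.symm
  by_cases hc : ∃ c, c ≠ a ∧ c ≠ b ∧ t c ≠ c
  · obtain ⟨c, hca, hcb, hc⟩ := hc
    obtain ⟨d, hd⟩ : ∃ d, t c = d := ⟨_, rfl⟩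
    rw [hd] at hc
    have td : t d = c := by rw [← hd, htt]
    have hcd : c ≠ d := Ne.symm hc
    have hac : a ≠ c := Ne.symm hca
    have hbc : b ≠ c := Ne.symm hcb
    have had : a ≠ d := by grind
    have hbd : b ≠ d := by grind
    have hv : Function.Injective ![a, b, c, d] := inj_list _ [a, b, c, d] rfl (by simp [*])
    have hX : ∀ i, t (![a, b, c, d] i) = ![a, b, c, d] ((swap 0 1 * swap 2 3 : Perm (Fin 4)) i) := by
      intro i; fin_cases i; exacts [hb, tb, hd, td]
    have S₁ := strip_phi _ hv (by decide) hX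
    have fx := phi_fix _ hv (X := swap 0 1 * swap 2 3) (by decide) hX
    have dd := disj_of_fix _ hv fx
    obtain ⟨t', ht'⟩ : ∃ t', t' = t * phi ![a, b, c, d] hv (swap 0 1 * swap 2 3) := ⟨_, rfl⟩
    have et := S₁.eq
    have i₁ := S₁.inv' ht
    rw [← ht'] at et dd i₁
    refine ⟨phi _ hv (swap 1 2) * t * (phi _ hv (swap 1 2))⁻¹, isConj_iff.2 ⟨_, rfl⟩, ?_⟩
    have e : t * (phi _ hv (swap 1 2) * t * (phi _ hv (swap 1 2))⁻¹) =
        phi _ hv ((swap 0 1 * swap 2 3) * (swap 1 2 * (swap 0 1 * swap 2 3) * (swap 1 2)⁻¹)) := by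
      have hG : phi ![a, b, c, d] hv (swap 1 2) * t' = t' * phi ![a, b, c, d] hv (swap 1 2) :=
        (dd (swap 1 2)).commute.symm.eq
      have hA : phi ![a, b, c, d] hv (swap 0 1 * swap 2 3) * t' =
          t' * phi ![a, b, c, d] hv (swap 0 1 * swap 2 3) :=
        (dd (swap 0 1 * swap 2 3)).commute.symm.eq
      simp only [map_mul, map_inv]
      simp only [map_mul] at et hA
      rw [← et] 
      generalize phi ![a, b, c, d] hv (swap 1 2) = G at hG ⊢
      generalize phi ![a, b, c, d] hv (swap 0 1) = A₁ at hA ⊢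
      generalize phi ![a, b, c, d] hv (swap 2 3) = A₂ at hA ⊢
      obtain ⟨A, hAdef⟩ : ∃ A, A = A₁ * A₂ := ⟨_, rfl⟩
      rw [← hAdef] at hA
      have e1 : A₁ * A₂ * (G * (t' * (A₁ * A₂)) * G⁻¹) = A * (t' * (G * A * G⁻¹)) := by
        rw [← hAdef, ← mul_assoc G t', hG]
        group
      calc t' * (A₁ * A₂) * (G * (t' * (A₁ * A₂)) * G⁻¹)
          = t' * (A * (t' * (G * A * G⁻¹))) := by rw [mul_assoc, e1]
        _ = t' * (A * t') * (G * A * G⁻¹) := by group
        _ = t' * (t' * A) * (G * A * G⁻¹) := by rw [hA]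
        _ = (t' * t') * (A * (G * A * G⁻¹)) := by group
        _ = A₁ * A₂ * (G * (A₁ * A₂) * G⁻¹) := by rw [i₁, one_mul, hAdef]
    rw [e]
    apply key
    · decide
    · decide
  · push Not at hc
    have hts : t = swap a b := by
      ext w
      by_cases h1 : w = a
      · rw [h1, swap_apply_left, hb]
      · by_cases h2 : w = b
        · rw [h2, swap_apply_right, tb]
        · rw [swap_apply_of_ne_of_ne h1 h2, hc w h1 h2]
    have hcard : 1 < (Finset.univ \ {a, b} : Finset α).card := by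
      have h1 := Finset.le_card_sdiff ({a, b} : Finset α) (Finset.univ : Finset α)
      have h2 : ({a, b} : Finset α).card ≤ 2 := Finset.card_le_two
      rw [Finset.card_univ] at h1
      omega
    obtain ⟨c, hc1, d, hd1, hcd⟩ := Finset.one_lt_card.1 hcard
    simp only [Finset.mem_sdiff, Finset.mem_univ, true_and, Finset.mem_insert, Finset.mem_singleton,
      not_or] at hc1 hd1
    have hac : a ≠ c := Ne.symm hc1.1
    have hbc : b ≠ c := Ne.symm hc1.2
    have had : a ≠ d := Ne.symm hd1.1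
    have hbd : b ≠ d := Ne.symm hd1.2
    have hv : Function.Injective ![a, b, c, d] := inj_list _ [a, b, c, d] rfl (by simp [*])
    refine ⟨swap c d, by rw [hts]; exact isConj_swap hab hcd, ?_⟩
    have e : t * swap c d = phi _ hv (swap 0 1 * swap 2 3) := by
      simp only [map_mul, phi_swap]
      rw [hts]
      rfl
    rw [e]
    apply key
    · decide
    · decide

/-- Let n ≥ 5 and let X be a conjugacy class of involutions of the symmetric group of degree n. The graph on X joining two distinct involutions whose product has odd order is connected and has diameter exactly 2. -/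
theorem result (n : ℕ) (hn : 5 ≤ n) (t : Equiv.Perm (Fin n)) (ht : orderOf t = 2) :
    (SimpleGraph.fromRel fun x y : {x : Equiv.Perm (Fin n) // IsConj t x} =>
        Odd (orderOf (x.1 * y.1))).Connected ∧
      (SimpleGraph.fromRel fun x y : {x : Equiv.Perm (Fin n) // IsConj t x} =>
        Odd (orderOf (x.1 * y.1))).diam = 2 := by
  have ht2 : t ^ 2 = 1 := by
    have := pow_orderOf_eq_one t
    rwa [ht] at this
  have ht1 : t * t = 1 := by rw [← pow_two, ht2]
  have htne : t ≠ 1 := by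
    intro h
    rw [h, orderOf_one] at ht
    omega
  have hcl : ∀ x, IsConj t x → x * x = 1 ∧ mv x = mv t := by
    intro x hx
    obtain ⟨c, rfl⟩ := isConj_iff.1 hx
    refine ⟨?_, ?_⟩
    · calc c * t * c⁻¹ * (c * t * c⁻¹) = c * (t * t) * c⁻¹ := by group
        _ = 1 := by rw [ht1]; group
    · exact card_support_conj
  have hcard : 5 ≤ Fintype.card (Fin n) := by simpa using hn
  apply graph_main t ht2
  · intro x y hx hy _ _
    obtain ⟨h1, h2⟩ := hcl x hx
    obtain ⟨h3, h4⟩ := hcl y hy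
    rcases main (mv x) x y h1 h3 (by omega) rfl with hB | ⟨z, hz⟩
    · exact five_table hcard h1 h3 hB
    · exact ⟨z, by rw [pow_two]; exact hz.1, hz.2.1, hz.2.2.1⟩
  · obtain ⟨y, hy, hno⟩ := exists_even ht1 htne hcard
    refine ⟨t, y, IsConj.refl _, hy, ?_, hno⟩
    rintro rfl
    apply hno
    rw [ht1, orderOf_one]
    exact odd_one

end Cfsg.Agent.S3265
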