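import Cfsg.Statements.S3266
import Cfsg.Agent.Lib.InvolChar.PSL2Odd

set_option autoImplicit false
open Cfsg

namespace Cfsg.Agent.S3266

open Cfsg.Agent.Lib.InvolChar.PSL2Odd Cfsg.Agent.Lib.InvolChar.OddGraph

variable {F : Type*} [Field F]

lemma poly_det (a₁ b₁ c₁ a₂ b₂ c₂ τ₁ τ₂ g T : F) (h₁ : a₁ ^ 2 + b₁ * c₁ = -1)
    (h₂ : a₂ ^ 2 + b₂ * c₂ = -1) (hT : T = 2 * a₁ * a₂ + b₁ * c₂ + c₁ * b₂)
    (hg : g ^ 2 = 4 - T ^ 2 - τ₁ ^ 2 - τ₂ ^ 2 - T * τ₁ * τ₂) :
    -((2 * τ₁ + T * τ₂) * a₁ + (T * τ₁ + 2 * τ₂) * a₂ + g * (b₁ * c₂ - b₂ * c₁)) ^ 2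
      - ((2 * τ₁ + T * τ₂) * b₁ + (T * τ₁ + 2 * τ₂) * b₂ + g * (2 * (a₁ * b₂ - a₂ * b₁)))
        * ((2 * τ₁ + T * τ₂) * c₁ + (T * τ₁ + 2 * τ₂) * c₂ + g * (2 * (c₁ * a₂ - c₂ * a₁)))
      = (T ^ 2 - 4) ^ 2 := by
  have hQN : (b₁ * c₂ - b₂ * c₁) ^ 2 + (2 * (a₁ * b₂ - a₂ * b₁)) * (2 * (c₁ * a₂ - c₂ * a₁))
      = T ^ 2 - 4 := by
    subst hT
    linear_combination (-4 * (a₂ ^ 2 + b₂ * c₂)) * h₁ + 4 * h₂
  linear_combination (-((2 * τ₁ + T * τ₂) ^ 2)) * h₁ + (-((T * τ₁ + 2 * τ₂) ^ 2)) * h₂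
    + (-(g ^ 2)) * hQN + (-(T ^ 2 - 4)) * hg
    + (-(2 * τ₁ + T * τ₂) * (T * τ₁ + 2 * τ₂)) * (-hT)

lemma ent_of_trc (A : SL2' F) (hA : trc A = 0) :
    (A : Matrix (Fin 2) (Fin 2) F) 1 1 = - (A : Matrix (Fin 2) (Fin 2) F) 0 0 := by
  have : (A : Matrix (Fin 2) (Fin 2) F) 0 0 + (A : Matrix (Fin 2) (Fin 2) F) 1 1 = 0 := hA
  linear_combination this

lemma rel_of_trc (A : SL2' F) (hA : trc A = 0) :
    (A : Matrix (Fin 2) (Fin 2) F) 0 0 ^ 2 + (A : Matrix (Fin 2) (Fin 2) F) 0 1 * (A : Matrix (Fin 2) (Fin 2) F) 1 0 = -1 := by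
  have hd := det_eq A
  rw [ent_of_trc A hA] at hd
  linear_combination -hd

lemma trc_mul (A B : SL2' F) : trc (A * B) =
    (A : Matrix (Fin 2) (Fin 2) F) 0 0 * (B : Matrix (Fin 2) (Fin 2) F) 0 0
    + (A : Matrix (Fin 2) (Fin 2) F) 0 1 * (B : Matrix (Fin 2) (Fin 2) F) 1 0
    + (A : Matrix (Fin 2) (Fin 2) F) 1 0 * (B : Matrix (Fin 2) (Fin 2) F) 0 1
    + (A : Matrix (Fin 2) (Fin 2) F) 1 1 * (B : Matrix (Fin 2) (Fin 2) F) 1 1 := by
  unfold trc
  rw [mul_ent, mul_ent]
  ring

/-- A trace-zero element with prescribed coordinates. -/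
def mkC (x y z : F) (h : -x ^ 2 - y * z = 1) : SL2' F :=
  ⟨!![x, y; z, -x], by rw [Matrix.det_fin_two_of]; linear_combination h⟩

lemma mkC_00 (x y z : F) (h : -x ^ 2 - y * z = 1) : ((mkC x y z h : SL2' F) : Matrix (Fin 2) (Fin 2) F) 0 0 = x := rfl
lemma mkC_01 (x y z : F) (h : -x ^ 2 - y * z = 1) : ((mkC x y z h : SL2' F) : Matrix (Fin 2) (Fin 2) F) 0 1 = y := rfl
lemma mkC_10 (x y z : F) (h : -x ^ 2 - y * z = 1) : ((mkC x y z h : SL2' F) : Matrix (Fin 2) (Fin 2) F) 1 0 = z := rfl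
lemma mkC_11 (x y z : F) (h : -x ^ 2 - y * z = 1) : ((mkC x y z h : SL2' F) : Matrix (Fin 2) (Fin 2) F) 1 1 = -x := rfl

lemma trc_mkC (x y z : F) (h : -x ^ 2 - y * z = 1) : trc (mkC x y z h) = 0 := by
  unfold trc
  rw [mkC_00, mkC_11]
  ring

lemma trc_mul_mkC (A : SL2' F) (hA : trc A = 0) (x y z : F) (h : -x ^ 2 - y * z = 1) :
    trc (A * mkC x y z h) = 2 * (A : Matrix (Fin 2) (Fin 2) F) 0 0 * x
      + (A : Matrix (Fin 2) (Fin 2) F) 0 1 * z + (A : Matrix (Fin 2) (Fin 2) F) 1 0 * y := by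
  rw [trc_mul, mkC_00, mkC_01, mkC_10, mkC_11, ent_of_trc A hA]
  ring

/-- Existence of a trace-zero element with prescribed traces against `A` and `B`. -/
lemma exists_C (A B : SL2' F) (hA : trc A = 0) (hB : trc B = 0) (τ₁ τ₂ g : F)
    (hD : trc (A * B) ^ 2 - 4 ≠ 0)
    (hg : g ^ 2 = 4 - trc (A * B) ^ 2 - τ₁ ^ 2 - τ₂ ^ 2 - trc (A * B) * τ₁ * τ₂) :
    ∃ C : SL2' F, trc C = 0 ∧ trc (A * C) = τ₁ ∧ trc (B * C) = τ₂ := by
  set T := trc (A * B) with hT
  set a₁ := (A : Matrix (Fin 2) (Fin 2) F) 0 0 with ha₁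
  set b₁ := (A : Matrix (Fin 2) (Fin 2) F) 0 1 with hb₁
  set c₁ := (A : Matrix (Fin 2) (Fin 2) F) 1 0 with hc₁
  set a₂ := (B : Matrix (Fin 2) (Fin 2) F) 0 0 with ha₂
  set b₂ := (B : Matrix (Fin 2) (Fin 2) F) 0 1 with hb₂
  set c₂ := (B : Matrix (Fin 2) (Fin 2) F) 1 0 with hc₂
  have h₁ : a₁ ^ 2 + b₁ * c₁ = -1 := rel_of_trc A hA
  have h₂ : a₂ ^ 2 + b₂ * c₂ = -1 := rel_of_trc B hB
  have hT' : T = 2 * a₁ * a₂ + b₁ * c₂ + c₁ * b₂ := by
    rw [hT, trc_mul, ent_of_trc A hA, ent_of_trc B hB]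
    ring
  have hdet := poly_det a₁ b₁ c₁ a₂ b₂ c₂ τ₁ τ₂ g T h₁ h₂ hT' hg
  set D := T ^ 2 - 4 with hDdef
  set X := (2 * τ₁ + T * τ₂) * a₁ + (T * τ₁ + 2 * τ₂) * a₂ + g * (b₁ * c₂ - b₂ * c₁) with hX
  set Y := (2 * τ₁ + T * τ₂) * b₁ + (T * τ₁ + 2 * τ₂) * b₂ + g * (2 * (a₁ * b₂ - a₂ * b₁)) with hY
  set Z := (2 * τ₁ + T * τ₂) * c₁ + (T * τ₁ + 2 * τ₂) * c₂ + g * (2 * (c₁ * a₂ - c₂ * a₁)) with hZ
  have hdet' : -(X / D) ^ 2 - (Y / D) * (Z / D) = 1 := by
    field_simp
    linear_combination hdet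
  refine ⟨mkC (X / D) (Y / D) (Z / D) hdet', trc_mkC _ _ _ _, ?_, ?_⟩
  · rw [trc_mul_mkC A hA]
    have e : 2 * a₁ * X + b₁ * Z + c₁ * Y = τ₁ * D := by
      rw [hX, hY, hZ, hDdef, hT']
      linear_combination (2 * (2 * τ₁ + (2 * a₁ * a₂ + b₁ * c₂ + c₁ * b₂) * τ₂)) * h₁
    show 2 * a₁ * (X / D) + b₁ * (Z / D) + c₁ * (Y / D) = τ₁
    field_simp
    linear_combination e
  · rw [trc_mul_mkC B hB]
    have e : 2 * a₂ * X + b₂ * Z + c₂ * Y = τ₂ * D := by
      rw [hX, hY, hZ, hDdef, hT']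
      linear_combination (2 * ((2 * a₁ * a₂ + b₁ * c₂ + c₁ * b₂) * τ₁ + 2 * τ₂)) * h₂
    show 2 * a₂ * (X / D) + b₂ * (Z / D) + c₂ * (Y / D) = τ₂
    field_simp
    linear_combination e

section Sum

variable [Fintype F] [DecidableEq F]

/-- The quadratic-character sum of a separable monic quadratic. -/
lemma sum_char (h2 : ringChar F ≠ 2) (T : F) (hD : T ^ 2 - 4 ≠ 0) :
    ∑ u : F, quadraticChar F (u ^ 2 + T * u + 1) = -1 := by
  have h2' : (2 : F) ≠ 0 := Ring.two_ne_zero h2
  set S : Finset (F × F) := Finset.univ.filter (fun p => p.2 ^ 2 = p.1 ^ 2 + T * p.1 + 1) with hS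
  have hcard1 : (S.card : ℤ) = ∑ u : F, (quadraticChar F (u ^ 2 + T * u + 1) + 1) := by
    have : S.card = ∑ u : F, (Finset.univ.filter (fun y : F => y ^ 2 = u ^ 2 + T * u + 1)).card := by
      rw [hS, Finset.card_filter]
      rw [← Finset.univ_product_univ, Finset.sum_product]
      apply Finset.sum_congr rfl
      intro u _
      rw [Finset.card_filter]
    rw [this]
    push_cast
    apply Finset.sum_congr rfl
    intro u _
    have := quadraticChar_card_sqrts h2 (u ^ 2 + T * u + 1)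
    rw [← this]
    congr 2
    ext y
    simp
  obtain ⟨h, hTh⟩ : ∃ h : F, T = 2 * h := ⟨T / 2, by field_simp⟩
  set κ : F := 1 - h ^ 2 with hκ
  have hκ0 : κ ≠ 0 := by
    intro h0
    apply hD
    rw [hTh]
    rw [hκ] at h0
    linear_combination -4 * h0
  obtain ⟨i2, hi2⟩ : ∃ i : F, 2 * i = 1 := ⟨2⁻¹, mul_inv_cancel₀ h2'⟩
  have key : ∀ p : F × F, p.2 ^ 2 = p.1 ^ 2 + T * p.1 + 1 →
      (p.2 - p.1 - h) * (p.2 + p.1 + h) = κ := by
    intro p hp
    rw [hκ, hTh] at *
    linear_combination hp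
  have hcard2 : S.card = Fintype.card F - 1 := by
    have : S.card = (Finset.univ.erase (0 : F)).card := by
      apply Finset.card_nbij' (fun p => p.2 - p.1 - h)
        (fun r => (i2 * (κ / r - r) - h, i2 * (κ / r + r)))
      · intro p hp
        simp only [hS, Finset.coe_filter, Finset.mem_univ, true_and, Set.mem_setOf_eq] at hp
        simp only [Finset.coe_erase, Finset.coe_univ, Set.mem_diff, Set.mem_univ, Set.mem_singleton_iff,
          true_and]
        intro h0
        apply hκ0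
        rw [← key p hp, h0, zero_mul]
      · intro r hr
        simp only [Finset.coe_erase, Finset.coe_univ, Set.mem_diff, Set.mem_univ, Set.mem_singleton_iff,
          true_and] at hr
        simp only [hS, Finset.coe_filter, Finset.mem_univ, true_and, Set.mem_setOf_eq]
        have hs : κ / r * r = κ := div_mul_cancel₀ _ hr
        set s := κ / r
        have e4 : (2 * i2) ^ 2 = 1 := by rw [hi2]; ring
        rw [hTh]
        rw [hκ] at hs
        linear_combination (4 * i2 ^ 2) * hs + (1 - h ^ 2) * e4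
      · intro p hp
        simp only [hS, Finset.coe_filter, Finset.mem_univ, true_and, Set.mem_setOf_eq] at hp
        have hk := key p hp
        have hne : p.2 - p.1 - h ≠ 0 := by
          intro h0
          apply hκ0
          rw [← hk, h0, zero_mul]
        have hk' : κ / (p.2 - p.1 - h) = p.2 + p.1 + h := by
          rw [div_eq_iff hne, ← hk]; ring
        ext
        · simp only
          rw [hk']
          linear_combination (p.1 + h) * hi2
        · simp only
          rw [hk']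
          linear_combination p.2 * hi2
      · intro r hr
        simp only
        linear_combination r * hi2
    rw [this, Finset.card_erase_of_mem (Finset.mem_univ _), Finset.card_univ]
  have hq : 1 ≤ Fintype.card F := Fintype.card_pos
  have hsum : ∑ u : F, (quadraticChar F (u ^ 2 + T * u + 1) + 1) =
      ∑ u : F, quadraticChar F (u ^ 2 + T * u + 1) + Fintype.card F := by
    rw [Finset.sum_add_distrib]
    simp
  rw [hcard2, hsum] at hcard1
  push_cast [hq] at hcard1
  linarith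

/-- Given a non-square discriminant and `-1` a non-square, find `u, v` in the same square class
with `P(u)P(v)` a non-square. -/
lemma exists_uv (h2 : ringChar F ≠ 2) (hq : ¬ IsSquare (-1 : F)) (hc : 3 < Fintype.card F) (T : F)
    (hD : ¬ IsSquare (T ^ 2 - 4)) :
    ∃ u v : F, u ≠ 0 ∧ v ≠ 0 ∧ IsSquare (u * v) ∧
      quadraticChar F (u ^ 2 + T * u + 1) * quadraticChar F (v ^ 2 + T * v + 1) = -1 := by
  have h2' : (2 : F) ≠ 0 := Ring.two_ne_zero h2
  have hD0 : T ^ 2 - 4 ≠ 0 := by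
    intro h0
    apply hD
    rw [h0]
    exact IsSquare.zero
  have hP : ∀ u : F, u ^ 2 + T * u + 1 ≠ 0 := by
    intro u hu
    apply hD
    refine ⟨2 * u + T, ?_⟩
    linear_combination -4 * hu
  by_contra hno
  push Not at hno
  set χ := quadraticChar F with hχ
  have hval : ∀ u : F, χ (u ^ 2 + T * u + 1) = 1 ∨ χ (u ^ 2 + T * u + 1) = -1 :=
    fun u => quadraticChar_dichotomy (hP u)
  -- constancy on classes
  have hsame : ∀ u v : F, u ≠ 0 → v ≠ 0 → IsSquare (u * v) →
      χ (u ^ 2 + T * u + 1) = χ (v ^ 2 + T * v + 1) := by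
    intro u v hu hv huv
    have := hno u v hu hv huv
    rcases hval u with h1 | h1 <;> rcases hval v with h3 | h3
    · rw [h1, h3]
    · exfalso; apply this; rw [h1, h3]; norm_num
    · exfalso; apply this; rw [h1, h3]; norm_num
    · rw [h1, h3]
  set e₀ := χ ((1 : F) ^ 2 + T * 1 + 1) with he₀
  set e₁ := χ ((-1 : F) ^ 2 + T * (-1) + 1) with he₁
  have hχm1 : χ (-1) = -1 := quadraticChar_neg_one_iff_not_isSquare.2 hq
  have hform : ∀ u : F, u ≠ 0 → 2 * χ (u ^ 2 + T * u + 1) = (e₀ + e₁) + (e₀ - e₁) * χ u := by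
    intro u hu
    rcases quadraticChar_dichotomy hu with h1 | h1
    · have hsq : IsSquare (u * 1) := by
        rw [mul_one]; exact (quadraticChar_one_iff_isSquare hu).1 h1
      rw [hsame u 1 hu one_ne_zero hsq, h1]
      ring
    · have hsq : IsSquare (u * (-1)) := by
        have : χ (u * (-1)) = 1 := by rw [map_mul, h1, hχm1]; norm_num
        exact (quadraticChar_one_iff_isSquare (mul_ne_zero hu (neg_ne_zero.2 one_ne_zero))).1 this
      rw [hsame u (-1) hu (neg_ne_zero.2 one_ne_zero) hsq, h1]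
      ring
  have hs := sum_char h2 T hD0
  have hs0 : χ ((0 : F) ^ 2 + T * 0 + 1) = 1 := by
    have : (0 : F) ^ 2 + T * 0 + 1 = 1 := by ring
    rw [this]; exact map_one _
  have hsplit : ∑ u : F, χ (u ^ 2 + T * u + 1) =
      χ ((0 : F) ^ 2 + T * 0 + 1) + ∑ u ∈ Finset.univ.erase (0 : F), χ (u ^ 2 + T * u + 1) :=
    (Finset.add_sum_erase _ _ (Finset.mem_univ _)).symm
  have hs1 : ∑ u ∈ Finset.univ.erase (0 : F), χ (u ^ 2 + T * u + 1) = -2 := by
    rw [hs, hs0] at hsplit
    linarith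
  have hχ0 : ∑ u ∈ Finset.univ.erase (0 : F), χ u = 0 := by
    have h0 : ∑ a : F, χ a = 0 := quadraticChar_sum_zero h2
    have h00 : χ 0 = 0 := quadraticChar_zero
    have := (Finset.add_sum_erase Finset.univ (fun a => χ a) (Finset.mem_univ (0 : F)))
    rw [h0] at this
    simpa [h00] using this
  have hmul : 2 * ∑ u ∈ Finset.univ.erase (0 : F), χ (u ^ 2 + T * u + 1) =
      ∑ u ∈ Finset.univ.erase (0 : F), ((e₀ + e₁) + (e₀ - e₁) * χ u) := by
    rw [Finset.mul_sum]
    apply Finset.sum_congr rfl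
    intro u hu
    exact hform u (Finset.ne_of_mem_erase hu)
  rw [hs1, Finset.sum_add_distrib, ← Finset.mul_sum, hχ0, mul_zero, add_zero, Finset.sum_const,
    Finset.card_erase_of_mem (Finset.mem_univ _), Finset.card_univ, nsmul_eq_mul] at hmul
  have hqc : ((Fintype.card F - 1 : ℕ) : ℤ) = (Fintype.card F : ℤ) - 1 := by
    rw [Nat.cast_sub (by omega)]; simp
  rw [hqc] at hmul
  have hc' : (4 : ℤ) ≤ Fintype.card F := by exact_mod_cast hc
  rcases hval 1 with h1 | h1 <;> rcases hval (-1) with h3 | h3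
  · rw [← he₀] at h1; rw [← he₁] at h3; rw [h1, h3] at hmul; nlinarith
  · rw [← he₀] at h1; rw [← he₁] at h3; rw [h1, h3] at hmul; nlinarith
  · rw [← he₀] at h1; rw [← he₁] at h3; rw [h1, h3] at hmul; nlinarith
  · rw [← he₀] at h1; rw [← he₁] at h3; rw [h1, h3] at hmul; nlinarith

end Sum

section Neighbor

variable [Fintype F] [DecidableEq F]

lemma odd_neighbor (h2 : ringChar F ≠ 2) (hc : 3 < Fintype.card F) (A B : SL2' F)
    (hA : trc A = 0) (hB : trc B = 0)
    (hno : ¬ Odd (orderOf (pr (A * B)))) :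
    ∃ C : SL2' F, trc C = 0 ∧ Odd (orderOf (pr (A * C))) ∧ Odd (orderOf (pr (B * C))) := by
  have h2' : (2 : F) ≠ 0 := Ring.two_ne_zero h2
  set T := trc (A * B) with hT
  have hD : T ^ 2 - 4 ≠ 0 := by
    intro h0
    apply hno
    apply odd_of_trc_two (A * B) (T / 2) _ _ h2
    · field_simp
      linear_combination h0
    · rw [← hT]; field_simp
  by_cases hi : IsSquare (-1 : F)
  · obtain ⟨i, hi⟩ := hi
    obtain ⟨C, hC, hAC, hBC⟩ := exists_C A B hA hB 2 2 (i * (T + 2)) hD (by
      rw [mul_pow, pow_two i, ← hi]; ring)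
    refine ⟨C, hC, ?_, ?_⟩
    · exact odd_of_trc_two (A * C) 1 (by norm_num) (by rw [hAC]; ring) h2
    · exact odd_of_trc_two (B * C) 1 (by norm_num) (by rw [hBC]; ring) h2
  · have hq : Fintype.card F % 4 = 3 := by
      rw [FiniteField.isSquare_neg_one_iff] at hi
      omega
    have hsq : ¬ IsSquare (T ^ 2 - 4) := by
      rintro ⟨r, hr⟩
      apply hno
      have hr0 : r ≠ 0 := by
        rintro rfl
        apply hD
        rw [hr]; ring
      have h4 : (T + r) * (T - r) = 4 := by linear_combination hr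
      set t := (T + r) / 2 with ht
      have ht0 : t ≠ 0 := by
        intro h0
        rw [ht] at h0
        have : T + r = 0 := by
          field_simp at h0
          simpa using h0
        rw [this, zero_mul] at h4
        have : (4 : F) = 2 * 2 := by norm_num
        rw [this] at h4
        exact mul_ne_zero h2' h2' h4.symm
      have hti : t⁻¹ = (T - r) / 2 := by
        rw [inv_eq_iff_eq_inv, ht]
        field_simp
        have h4' : (T - r) ≠ 0 := by
          intro h0
          rw [h0, mul_zero] at h4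
          have : (4 : F) = 2 * 2 := by norm_num
          rw [this] at h4
          exact mul_ne_zero h2' h2' h4.symm
        field_simp
        linear_combination h4
      apply odd_of_trc_split (A * B) t ht0 _ _ hq
      · intro h1
        apply hr0
        have e1 : t - t⁻¹ = r := by
          rw [hti, ht]; field_simp; ring
        have e2 : t = t⁻¹ := by
          field_simp
          linear_combination h1
        rw [← e1, sub_eq_zero]
        exact e2
      · rw [hti, ht, ← hT]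
        field_simp
        ring
    obtain ⟨u, v, hu, hv, huv, hχ⟩ := exists_uv h2 hi hc T hsq
    obtain ⟨t, ht⟩ := huv
    have ht0 : t ≠ 0 := by
      rintro rfl
      rw [mul_zero] at ht
      exact mul_ne_zero hu hv ht
    have hPn : ∀ x : F, x ^ 2 + T * x + 1 ≠ 0 := by
      intro x hx
      apply hsq
      refine ⟨2 * x + T, ?_⟩
      linear_combination -4 * hx
    set w := u / t with hw
    have hw0 : w ≠ 0 := div_ne_zero hu ht0
    have hvw : v = t / w := by
      rw [hw]
      field_simp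
      linear_combination ht
    have huw : u = t * w := by
      rw [hw]; field_simp
    have htsq : t ^ 2 ≠ 1 := by
      intro h1
      have huv1 : u * v = 1 := by rw [ht, ← pow_two, h1]
      have : quadraticChar F (u ^ 2 + T * u + 1) * quadraticChar F (v ^ 2 + T * v + 1) = 1 := by
        rw [← map_mul]
        have e : (u ^ 2 + T * u + 1) * (v ^ 2 + T * v + 1) = ((u ^ 2 + T * u + 1) * v) ^ 2 := by
          linear_combination (-(u ^ 2 + T * u + 1) * (T * v + 1 + u * v)) * huv1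
        rw [e]
        exact quadraticChar_sq_one' (mul_ne_zero (hPn u) hv)
      rw [this] at hχ
      norm_num at hχ
    have hwsq : w ^ 2 ≠ 1 := by
      intro h1
      have huv1 : u = v := by
        have hvw' : t = v * w := by
          rw [eq_div_iff hw0] at hvw
          exact hvw.symm
        calc u = t * w := huw
          _ = v * (w ^ 2) := by
            conv_lhs => rw [hvw']
            ring
          _ = v := by rw [h1, mul_one]
      rw [huv1] at hχ
      rw [← map_mul] at hχ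
      have : quadraticChar F ((v ^ 2 + T * v + 1) * (v ^ 2 + T * v + 1)) = 1 := by
        rw [← pow_two]
        exact quadraticChar_sq_one' (hPn v)
      rw [this] at hχ
      norm_num at hχ
    -- the square root
    have hsq2 : IsSquare (-((u ^ 2 + T * u + 1) * (v ^ 2 + T * v + 1))) := by
      have hne : -((u ^ 2 + T * u + 1) * (v ^ 2 + T * v + 1)) ≠ 0 :=
        neg_ne_zero.2 (mul_ne_zero (hPn u) (hPn v))
      rw [← quadraticChar_one_iff_isSquare hne]
      have : -((u ^ 2 + T * u + 1) * (v ^ 2 + T * v + 1)) =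
          (-1) * ((u ^ 2 + T * u + 1) * (v ^ 2 + T * v + 1)) := by ring
      rw [this, map_mul, map_mul, hχ, quadraticChar_neg_one_iff_not_isSquare.2 hi]
      norm_num
    obtain ⟨g₀, hg₀⟩ := hsq2
    obtain ⟨C, hC, hAC, hBC⟩ := exists_C A B hA hB (t + t⁻¹) (w + w⁻¹) (g₀ / t) hD (by
      rw [div_pow, pow_two g₀, ← hg₀]
      rw [huw] at ht ⊢
      rw [hvw]
      field_simp
      ring)
    refine ⟨C, hC, ?_, ?_⟩
    · exact odd_of_trc_split (A * C) t ht0 htsq hAC hq
    · exact odd_of_trc_split (B * C) w hw0 hwsq hBC hq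

lemma even_neighbor (h2 : (2 : F) = 0) (A B : SL2' F)
    (hA : trc A = 0) (hB : trc B = 0) (hA1 : pr A ≠ 1) (hB1 : pr B ≠ 1) :
    ∃ C : SL2' F, trc C = 0 ∧ trc (A * C) ≠ 0 ∧ trc (B * C) ≠ 0 := by
  have hchar : ringChar F = 2 := by
    have hne : (ringChar F) ∣ 2 := by
      rw [← CharP.cast_eq_zero_iff F (ringChar F)]
      exact_mod_cast h2
    rcases (Nat.dvd_prime Nat.prime_two).1 hne with h | h
    · exact absurd h (CharP.ringChar_ne_one)
    · exact h
  have hns : ∀ A' : SL2' F, trc A' = 0 → pr A' ≠ 1 →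
      (A' : Matrix (Fin 2) (Fin 2) F) 0 1 ≠ 0 ∨ (A' : Matrix (Fin 2) (Fin 2) F) 1 0 ≠ 0 := by
    intro A' hA' h1
    by_contra hcon
    push Not at hcon
    apply h1
    rw [pr_eq_one_iff]
    apply mem_center_of A' hcon.1 hcon.2
    rw [ent_of_trc A' hA']
    linear_combination (A' : Matrix (Fin 2) (Fin 2) F) 0 0 * h2
  have hL : ∀ (A' : SL2' F), trc A' = 0 → ∀ (x y z : F) (h : -x ^ 2 - y * z = 1),
      trc (A' * mkC x y z h) = (A' : Matrix (Fin 2) (Fin 2) F) 0 1 * z
        + (A' : Matrix (Fin 2) (Fin 2) F) 1 0 * y := by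
    intro A' hA' x y z h
    rw [trc_mul_mkC A' hA']
    linear_combination (A' : Matrix (Fin 2) (Fin 2) F) 0 0 * x * h2
  -- the choice of `(y, z)`
  obtain ⟨y₁, z₁, h₁⟩ : ∃ y z : F, (A : Matrix (Fin 2) (Fin 2) F) 0 1 * z
      + (A : Matrix (Fin 2) (Fin 2) F) 1 0 * y ≠ 0 := by
    rcases hns A hA hA1 with h | h
    · exact ⟨0, 1, by simpa using h⟩
    · exact ⟨1, 0, by simpa using h⟩
  obtain ⟨y₂, z₂, h₂⟩ : ∃ y z : F, (B : Matrix (Fin 2) (Fin 2) F) 0 1 * z
      + (B : Matrix (Fin 2) (Fin 2) F) 1 0 * y ≠ 0 := by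
    rcases hns B hB hB1 with h | h
    · exact ⟨0, 1, by simpa using h⟩
    · exact ⟨1, 0, by simpa using h⟩
  obtain ⟨y, z, hy1, hy2⟩ : ∃ y z : F, (A : Matrix (Fin 2) (Fin 2) F) 0 1 * z
      + (A : Matrix (Fin 2) (Fin 2) F) 1 0 * y ≠ 0 ∧ (B : Matrix (Fin 2) (Fin 2) F) 0 1 * z
      + (B : Matrix (Fin 2) (Fin 2) F) 1 0 * y ≠ 0 := by
    by_cases e1 : (B : Matrix (Fin 2) (Fin 2) F) 0 1 * z₁ + (B : Matrix (Fin 2) (Fin 2) F) 1 0 * y₁ = 0
    · by_cases e2 : (A : Matrix (Fin 2) (Fin 2) F) 0 1 * z₂ + (A : Matrix (Fin 2) (Fin 2) F) 1 0 * y₂ = 0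
      · refine ⟨y₁ + y₂, z₁ + z₂, ?_, ?_⟩
        · intro h0
          apply h₁
          linear_combination h0 - e2
        · intro h0
          apply h₂
          linear_combination h0 - e1
      · exact ⟨y₂, z₂, e2, h₂⟩
    · exact ⟨y₁, z₁, h₁, e1⟩
  obtain ⟨x, hx⟩ := FiniteField.isSquare_of_char_two hchar (-1 - y * z)
  have h' : -x ^ 2 - y * z = 1 := by
    have e : x ^ 2 = -1 - y * z := by rw [hx]; ring
    rw [e]; ring
  refine ⟨mkC x y z h', trc_mkC _ _ _ _, ?_, ?_⟩
  · rw [hL A hA]; exact hy1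
  · rw [hL B hB]; exact hy2

lemma exists_sol (h2 : ringChar F ≠ 2) (a b c : F) (hc : c ≠ 0) (h : a ^ 2 + b * c = -1) :
    ∃ x y z : F, -x ^ 2 - y * z = 1 ∧ 2 * a * x + b * z + c * y = 0 := by
  obtain ⟨r, s, hrs⟩ := FiniteField.exists_root_sum_quadratic
    (f := (Polynomial.X ^ 2 : Polynomial F)) (g := Polynomial.X ^ 2 + Polynomial.C (c ^ 2))
    (Polynomial.degree_X_pow 2) (by
      rw [Polynomial.degree_add_eq_left_of_degree_lt]
      · exact Polynomial.degree_X_pow 2
      · rw [Polynomial.degree_X_pow]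
        exact lt_of_le_of_lt Polynomial.degree_C_le (by norm_num))
    (FiniteField.odd_card_of_char_ne_two h2)
  simp only [Polynomial.eval_pow, Polynomial.eval_X, Polynomial.eval_add, Polynomial.eval_C] at hrs
  refine ⟨(r + a * s) / c, -(2 * a * ((r + a * s) / c) + b * s) / c, s, ?_, ?_⟩
  · field_simp
    linear_combination (s ^ 2) * h - hrs
  · field_simp
    ring

lemma exists_commuting (hF : 4 ≤ Fintype.card F) (A : SL2' F) (hA : trc A = 0) (hA1 : pr A ≠ 1) :
    ∃ C : SL2' F, trc C = 0 ∧ pr C ≠ 1 ∧ trc (A * C) = 0 ∧ pr (A * C) ≠ 1 := by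
  set a := (A : Matrix (Fin 2) (Fin 2) F) 0 0 with ha
  set b := (A : Matrix (Fin 2) (Fin 2) F) 0 1 with hb
  set c := (A : Matrix (Fin 2) (Fin 2) F) 1 0 with hc
  have hrel : a ^ 2 + b * c = -1 := rel_of_trc A hA
  by_cases h2 : (2 : F) = 0
  · -- characteristic two
    have hchar : ringChar F = 2 := by
      have hne : (ringChar F) ∣ 2 := by
        rw [← CharP.cast_eq_zero_iff F (ringChar F)]
        exact_mod_cast h2
      rcases (Nat.dvd_prime Nat.prime_two).1 hne with h | h
      · exact absurd h (CharP.ringChar_ne_one)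
      · exact h
    have hns : b ≠ 0 ∨ c ≠ 0 := by
      by_contra hcon
      push Not at hcon
      apply hA1
      rw [pr_eq_one_iff]
      apply mem_center_of A hcon.1 hcon.2
      rw [ent_of_trc A hA]
      linear_combination a * h2
    obtain ⟨l, hl0, hl1⟩ : ∃ l : F, l ≠ 0 ∧ l ≠ 1 := by
      by_contra hcon
      push Not at hcon
      have hsub : (Finset.univ : Finset F) ⊆ {0, 1} := by
        intro x _
        by_cases hx : x = 0
        · simp [hx]
        · simp [hcon x hx]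
      have := Finset.card_le_card hsub
      rw [Finset.card_univ] at this
      have h2' := Finset.card_le_two (a := (0 : F)) (b := 1)
      omega
    obtain ⟨x, hx⟩ := FiniteField.isSquare_of_char_two hchar (-1 - (l * b) * (l * c))
    have h' : -x ^ 2 - (l * b) * (l * c) = 1 := by
      have e : x ^ 2 = -1 - (l * b) * (l * c) := by rw [hx]; ring
      rw [e]; ring
    have htr : trc (A * mkC x (l * b) (l * c) h') = 0 := by
      rw [trc_mul_mkC A hA]
      show 2 * a * x + b * (l * c) + c * (l * b) = 0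
      linear_combination (a * x + b * l * c) * h2
    have hC1 : pr (mkC x (l * b) (l * c) h') ≠ 1 := by
      intro h1
      rw [pr_eq_one_iff] at h1
      obtain ⟨h01, h10, -⟩ := center_ent _ h1
      rw [mkC_01] at h01
      rw [mkC_10] at h10
      rcases hns with h | h
      · exact mul_ne_zero hl0 h h01
      · exact mul_ne_zero hl0 h h10
    refine ⟨mkC x (l * b) (l * c) h', trc_mkC _ _ _ _, hC1, htr, ?_⟩
    intro h1
    rw [pr_eq_one_iff] at h1
    obtain ⟨h01, h10, h00⟩ := center_ent _ h1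
    rw [mul_ent, mkC_01, mkC_11] at h01
    rw [mul_ent, mkC_00, mkC_10] at h10
    rw [mul_ent, mul_ent, mkC_00, mkC_01, mkC_10, mkC_11] at h00
    have hd : (A : Matrix (Fin 2) (Fin 2) F) 1 1 = - a := ent_of_trc A hA
    rw [hd] at h10 h00
    change a * (l * b) + b * -x = 0 at h01
    change c * x + -a * (l * c) = 0 at h10
    have e1 : b * (a * l - x) = 0 := by linear_combination h01
    have e2 : c * (x - a * l) = 0 := by linear_combination h10
    have hxa : x = a * l := by
      rcases hns with h | h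
      · have := (mul_eq_zero.1 e1).resolve_left h
        linear_combination -this
      · have := (mul_eq_zero.1 e2).resolve_left h
        linear_combination this
    have : l ^ 2 = 1 := by
      have e : x ^ 2 + l ^ 2 * (b * c) = -1 := by linear_combination -h'
      rw [hxa] at e
      have e3 : l ^ 2 * (a ^ 2 + b * c) = -1 := by linear_combination e
      rw [hrel] at e3
      linear_combination -e3
    have hl : (l - 1) ^ 2 = 0 := by
      linear_combination this + (1 - l) * h2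
    exact hl1 (sub_eq_zero.1 (pow_eq_zero_iff (two_ne_zero)|>.1 hl))
  · have h2r : ringChar F ≠ 2 := by
      intro h
      apply h2
      have := ringChar.Nat.cast_ringChar (R := F)
      rw [h] at this
      exact_mod_cast this
    have hnc : ∀ C : SL2' F, trc (A * C) = 0 → pr (A * C) ≠ 1 := by
      intro C htr h1
      rw [pr_eq_one_iff] at h1
      obtain ⟨h01, h10, h00⟩ := center_ent _ h1
      unfold trc at htr
      rw [h00] at htr
      have hz : ((A * C : SL2' F) : Matrix (Fin 2) (Fin 2) F) 1 1 = 0 := by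
        have : 2 * ((A * C : SL2' F) : Matrix (Fin 2) (Fin 2) F) 1 1 = 0 := by
          linear_combination htr
        exact (mul_eq_zero.1 this).resolve_left h2
      have hdet := det_eq (A * C)
      rw [h01, hz] at hdet
      simp at hdet
    have hnc' : ∀ C : SL2' F, trc C = 0 → pr C ≠ 1 := by
      intro C htr h1
      rw [pr_eq_one_iff] at h1
      obtain ⟨h01, h10, h00⟩ := center_ent _ h1
      unfold trc at htr
      rw [h00] at htr
      have hz : (C : Matrix (Fin 2) (Fin 2) F) 1 1 = 0 := by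
        have : 2 * (C : Matrix (Fin 2) (Fin 2) F) 1 1 = 0 := by
          linear_combination htr
        exact (mul_eq_zero.1 this).resolve_left h2
      have hdet := det_eq C
      rw [h01, hz] at hdet
      simp at hdet
    by_cases hc0 : c = 0
    · by_cases hb0 : b = 0
      · have h' : -(0 : F) ^ 2 - 1 * (-1) = 1 := by ring
        have htr : trc (A * mkC 0 1 (-1) h') = 0 := by
          rw [trc_mul_mkC A hA]
          show 2 * a * 0 + b * (-1) + c * 1 = 0
          rw [hb0, hc0]; ring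
        exact ⟨mkC 0 1 (-1) h', trc_mkC _ _ _ _, hnc' _ (trc_mkC _ _ _ _), htr, hnc _ htr⟩
      · obtain ⟨x, y, z, h', h''⟩ := exists_sol h2r a c b hb0 (by linear_combination hrel)
        have hy : -x ^ 2 - z * y = 1 := by linear_combination h'
        have htr : trc (A * mkC x z y hy) = 0 := by
          rw [trc_mul_mkC A hA]
          show 2 * a * x + b * y + c * z = 0
          linear_combination h''
        exact ⟨mkC x z y hy, trc_mkC _ _ _ _, hnc' _ (trc_mkC _ _ _ _), htr, hnc _ htr⟩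
    · obtain ⟨x, y, z, h', h''⟩ := exists_sol h2r a b c hc0 hrel
      have htr : trc (A * mkC x y z h') = 0 := by
        rw [trc_mul_mkC A hA]
        exact h''
      exact ⟨mkC x y z h', trc_mkC _ _ _ _, hnc' _ (trc_mkC _ _ _ _), htr, hnc _ htr⟩

end Neighbor

/-- Let F be a finite field with at least 4 elements and let X be a conjugacy class of involutions of PSL(2, F). The graph on X joining two distinct involutions whose product has odd order is connected and has diameter exactly 2. -/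
theorem result {F : Type*} [Field F] [Fintype F] (hF : 4 ≤ Fintype.card F)
    (t : Matrix.ProjectiveSpecialLinearGroup (Fin 2) F) (ht : orderOf t = 2) :
    (SimpleGraph.fromRel fun x y : {x : Matrix.ProjectiveSpecialLinearGroup (Fin 2) F // IsConj t x} =>
        Odd (orderOf (x.1 * y.1))).Connected ∧
      (SimpleGraph.fromRel fun x y : {x : Matrix.ProjectiveSpecialLinearGroup (Fin 2) F // IsConj t x} =>
        Odd (orderOf (x.1 * y.1))).diam = 2 := by
  classical
  have ht2 : t ^ 2 = 1 := by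
    have := pow_orderOf_eq_one t
    rwa [ht] at this
  have ht1 : t ≠ 1 := by
    intro h
    rw [h, orderOf_one] at ht
    omega
  have hcl : ∀ x, IsConj t x → x ^ 2 = 1 ∧ x ≠ 1 := by
    intro x hx
    obtain ⟨c, rfl⟩ := isConj_iff.1 hx
    refine ⟨by rw [conj_pow, ht2]; simp, ?_⟩
    intro h
    apply ht1
    have : c * t * c⁻¹ * c = 1 * c := by rw [h]
    rw [mul_assoc, inv_mul_cancel, mul_one, one_mul] at this
    exact mul_left_cancel (a := c) (by rw [this, mul_one])
  have hcore : ∀ x y : Matrix.ProjectiveSpecialLinearGroup (Fin 2) F, x ^ 2 = 1 → x ≠ 1 → y ^ 2 = 1 → y ≠ 1 →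
      ¬ Odd (orderOf (x * y)) → ∃ z, z ^ 2 = 1 ∧ Odd (orderOf (x * z)) ∧ Odd (orderOf (y * z)) := by
    intro x y hx hx1 hy hy1 hno
    obtain ⟨A, rfl⟩ := pr_surj x
    obtain ⟨B, rfl⟩ := pr_surj y
    have hA := trc_zero_of_invol A hx1 hx
    have hB := trc_zero_of_invol B hy1 hy
    by_cases h2 : (2 : F) = 0
    · obtain ⟨C, hC, hAC, hBC⟩ := even_neighbor h2 A B hA hB hx1 hy1
      refine ⟨pr C, pr_sq_of_trc C hC, ?_, ?_⟩
      · rw [← map_mul]; exact odd_of_trc_ne_zero _ h2 hAC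
      · rw [← map_mul]; exact odd_of_trc_ne_zero _ h2 hBC
    · have h2r : ringChar F ≠ 2 := by
        intro h
        apply h2
        have := ringChar.Nat.cast_ringChar (R := F)
        rw [h] at this
        exact_mod_cast this
      rw [← map_mul] at hno
      obtain ⟨C, hC, hAC, hBC⟩ := odd_neighbor h2r (by omega) A B hA hB hno
      refine ⟨pr C, pr_sq_of_trc C hC, ?_, ?_⟩
      · rw [← map_mul]; exact hAC
      · rw [← map_mul]; exact hBC
  apply graph_main t ht2
  · intro x y hx hy _ hno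
    exact hcore x y (hcl x hx).1 (hcl x hx).2 (hcl y hy).1 (hcl y hy).2 hno
  · obtain ⟨A, rfl⟩ := pr_surj t
    have hA := trc_zero_of_invol A ht1 ht2
    obtain ⟨C, hC, hC1, hAC, hAC1⟩ := exists_commuting hF A hA ht1
    have hy2 := pr_sq_of_trc C hC
    have hne : ¬ Odd (orderOf (pr A * pr C)) := by
      rw [← map_mul]
      have h2' := pr_sq_of_trc (A * C) hAC
      have : orderOf (pr (A * C)) = 2 := orderOf_eq_prime h2' hAC1
      rw [this]
      decide
    refine ⟨pr A, pr C, IsConj.refl _, ?_, ?_, hne⟩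
    · obtain ⟨z, hz, h1, h2⟩ := hcore _ _ ht2 ht1 hy2 hC1 hne
      exact (isConj_of_odd ht2 hz h1).trans (isConj_of_odd hy2 hz h2).symm
    · intro h
      apply hAC1
      rw [map_mul, ← h, ← pow_two, ht2]

end Cfsg.Agent.S3266
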