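import Cfsg.Statements.S3276
import Mathlib

set_option autoImplicit false
open Cfsg

namespace Cfsg.Agent.S3276

variable {G : Type*} [Group G]

private lemma conj_inv_pow (x y : G) (hx : x * x = 1) (hy : y * y = 1) (m : ℕ) :
    x * (y * x) ^ m * x = ((y * x) ^ m)⁻¹ := by
  have hxi : x⁻¹ = x := inv_eq_of_mul_eq_one_left hx
  have h1 : x * (y * x) * x⁻¹ = (y * x)⁻¹ := by
    rw [hxi]
    rw [mul_inv_rev, hxi]
    have hyi : y⁻¹ = y := inv_eq_of_mul_eq_one_left hy
    rw [hyi]
    calc x * (y * x) * x = x * y * (x * x) := by group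
      _ = x * y := by rw [hx, mul_one]
  have h2 := conj_pow (a := x) (b := y * x) (i := m)
  rw [h1, hxi] at h2
  rw [← h2, inv_pow]

/-- Two involutions whose product has odd order are conjugate. -/
private lemma isConj_of_odd (x y : G) (hx : x * x = 1) (hy : y * y = 1)
    (h : Odd (orderOf (x * y))) : IsConj x y := by
  have hxi : x⁻¹ = x := inv_eq_of_mul_eq_one_left hx
  have hyi : y⁻¹ = y := inv_eq_of_mul_eq_one_left hy
  have hinv : (y * x) = (x * y)⁻¹ := by rw [mul_inv_rev, hxi, hyi]
  have hord : orderOf (y * x) = orderOf (x * y) := by rw [hinv, orderOf_inv]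
  obtain ⟨k, hk⟩ := h
  let w := (y * x) ^ (k + 1)
  have hw2 : w * w = y * x := by
    change (y * x) ^ (k + 1) * (y * x) ^ (k + 1) = y * x
    rw [← pow_add]
    have : k + 1 + (k + 1) = orderOf (y * x) + 1 := by rw [hord, hk]; ring
    rw [this, pow_succ, pow_orderOf_eq_one, one_mul]
  have hxw : x * w * x = w⁻¹ := conj_inv_pow x y hx hy (k + 1)
  rw [isConj_iff]
  refine ⟨w, ?_⟩
  have e1 : w⁻¹ = x * w * x := hxw.symm
  rw [e1]
  calc w * x * (x * w * x) = w * (x * x) * w * x := by group
    _ = w * w * x := by rw [hx, mul_one]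
    _ = y * x * x := by rw [hw2]
    _ = y := by rw [mul_assoc, hx, mul_one]

/-- If the product of two involutions has even order, then some involution commutes with both. -/
private lemma exists_central_invol [Finite G] (x y : G) (hx : x * x = 1) (hy : y * y = 1)
    (h : Even (orderOf (x * y))) (hxy : x * y ≠ 1) :
    ∃ u : G, orderOf u = 2 ∧ Commute u x ∧ Commute u y := by
  have hxi : x⁻¹ = x := inv_eq_of_mul_eq_one_left hx
  have hyi : y⁻¹ = y := inv_eq_of_mul_eq_one_left hy
  have hinv : (y * x) = (x * y)⁻¹ := by rw [mul_inv_rev, hxi, hyi]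
  have hord : orderOf (y * x) = orderOf (x * y) := by rw [hinv, orderOf_inv]
  obtain ⟨k, hk⟩ := h
  have hpos : 0 < orderOf (y * x) := orderOf_pos _
  let u := (y * x) ^ k
  have hk0 : k ≠ 0 := by
    rintro rfl
    rw [hord] at hpos
    omega
  have hu2 : u * u = 1 := by
    change (y * x) ^ k * (y * x) ^ k = 1
    rw [← pow_add, ← hk, ← hord, pow_orderOf_eq_one]
  have hu1 : u ≠ 1 := by
    intro h1
    have := orderOf_le_of_pow_eq_one (by omega) h1
    rw [hord] at this
    omega
  have hui : u⁻¹ = u := inv_eq_of_mul_eq_one_left hu2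
  have hc1 : x * u * x = u := by
    have h3 := conj_inv_pow x y hx hy k
    change x * u * x = u⁻¹ at h3
    rw [h3, hui]
  have hv : (x * y) ^ k = u⁻¹ := by
    change (x * y) ^ k = ((y * x) ^ k)⁻¹
    rw [hinv, inv_pow, inv_inv]
  have hc2 : y * u * y = u := by
    have h3 := conj_inv_pow y x hy hx k
    rw [hv, hui] at h3
    rw [h3, hui]
  refine ⟨u, ?_, ?_, ?_⟩
  · apply orderOf_eq_prime (by rw [pow_two]; exact hu2) hu1
  · unfold Commute SemiconjBy
    calc u * x = (x * u * x) * x := by rw [hc1]
      _ = x * u * (x * x) := by group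
      _ = x * u := by rw [hx, mul_one]
  · unfold Commute SemiconjBy
    calc u * y = (y * u * y) * y := by rw [hc2]
      _ = y * u * (y * y) := by group
      _ = y * u := by rw [hy, mul_one]

/-- Let x and y be commuting, non-conjugate involutions of a finite group G, and suppose that for every involution u commuting with x, each conjugate of y that commutes with u also commutes with y. Then the normal closure of y is a proper, normal, elementary abelian 2-subgroup of G; and if y is the only involution of that normal closure commuting with x, it has order at most 4. -/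
theorem result {G : Type*} [Group G] [Finite G] (x y : G) (hx : orderOf x = 2) (hy : orderOf y = 2)
    (hxy : Commute x y) (hnc : ¬ IsConj x y)
    (hstar : ∀ u : G, orderOf u = 2 → Commute u x → ∀ g : G, Commute (g * y * g⁻¹) u → Commute (g * y * g⁻¹) y) :
    Subgroup.normalClosure ({y} : Set G) ≠ ⊤ ∧ Cfsg.IsElementaryAbelian 2 (Subgroup.normalClosure ({y} : Set G)) ∧
      ((∀ u ∈ Subgroup.normalClosure ({y} : Set G), orderOf u = 2 → Commute u x → u = y) →
        Nat.card ↥(Subgroup.normalClosure ({y} : Set G)) ≤ 4) := by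
  have hxx : x * x = 1 := by rw [← pow_two, ← hx, pow_orderOf_eq_one]
  have hyy : y * y = 1 := by rw [← pow_two, ← hy, pow_orderOf_eq_one]
  -- every conjugate of y commutes with y
  have hcomm : ∀ g : G, Commute (g * y * g⁻¹) y := by
    intro g
    set y' := g * y * g⁻¹ with hy'
    have hy'y' : y' * y' = 1 := by
      rw [hy']
      calc g * y * g⁻¹ * (g * y * g⁻¹) = g * (y * y) * g⁻¹ := by group
        _ = 1 := by rw [hyy]; group
    have hconj : IsConj y y' := by
      rw [isConj_iff]; exact ⟨g, rfl⟩
    have hne : x * y' ≠ 1 := by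
      intro h1
      have : x = y' := by
        have h2 : y'⁻¹ = y' := inv_eq_of_mul_eq_one_left hy'y'
        calc x = x * y' * y'⁻¹ := by group
          _ = y' := by rw [h1, one_mul, h2]
      apply hnc
      rw [this]
      exact hconj.symm
    rcases Nat.even_or_odd (orderOf (x * y')) with he | ho
    · obtain ⟨u, hu, hux, huy'⟩ := exists_central_invol x y' hxx hy'y' he hne
      exact hstar u hu hux g huy'.symm
    · exact absurd ((isConj_of_odd x y' hxx hy'y' ho).trans hconj.symm) hnc
  -- all conjugates commute pairwise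
  have hpair : ∀ a b : G, Commute (a * y * a⁻¹) (b * y * b⁻¹) := by
    intro a b
    have h : (b⁻¹ * a) * y * (b⁻¹ * a)⁻¹ * y = y * ((b⁻¹ * a) * y * (b⁻¹ * a)⁻¹) := hcomm (b⁻¹ * a)
    unfold Commute SemiconjBy
    calc a * y * a⁻¹ * (b * y * b⁻¹)
        = b * ((b⁻¹ * a) * y * (b⁻¹ * a)⁻¹ * y) * b⁻¹ := by group
      _ = b * (y * ((b⁻¹ * a) * y * (b⁻¹ * a)⁻¹)) * b⁻¹ := by rw [h]
      _ = b * y * b⁻¹ * (a * y * a⁻¹) := by group
  set N := Subgroup.normalClosure ({y} : Set G) with hN
  have hNcl : N = Subgroup.closure (Group.conjugatesOfSet ({y} : Set G)) := rfl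
  have hconjmem : ∀ u ∈ Group.conjugatesOfSet ({y} : Set G), ∃ g, u = g * y * g⁻¹ := by
    intro u hu
    rw [Group.mem_conjugatesOfSet_iff] at hu
    obtain ⟨a, ha, hau⟩ := hu
    rw [Set.mem_singleton_iff] at ha
    subst ha
    rw [isConj_iff] at hau
    obtain ⟨g, hg⟩ := hau
    exact ⟨g, hg.symm⟩
  have hNcomm : ∀ a ∈ N, ∀ b ∈ N, a * b = b * a := by
    have h1 : N ≤ Subgroup.centralizer (N : Set G) := by
      rw [hNcl]
      rw [Subgroup.closure_le]
      intro u hu
      rw [SetLike.mem_coe, Subgroup.mem_centralizer_iff]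
      intro v hv
      rw [SetLike.mem_coe] at hv
      obtain ⟨g, rfl⟩ := hconjmem u hu
      have h2 : N ≤ Subgroup.centralizer {g * y * g⁻¹} := by
        rw [hNcl, Subgroup.closure_le]
        intro w hw
        obtain ⟨k, rfl⟩ := hconjmem w hw
        rw [SetLike.mem_coe, Subgroup.mem_centralizer_iff]
        intro c hc
        rw [Set.mem_singleton_iff] at hc
        subst hc
        exact (hpair g k)
      have h3 := h2 hv
      rw [Subgroup.mem_centralizer_iff] at h3
      exact (h3 _ rfl).symm
    intro a ha b hb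
    have := h1 ha
    rw [Subgroup.mem_centralizer_iff] at this
    exact (this b hb).symm
  have hyN : y ∈ N := Subgroup.subset_normalClosure (Set.mem_singleton y)
  have hNsq : ∀ a ∈ N, a * a = 1 := by
    intro a ha
    rw [hNcl] at ha
    induction ha using Subgroup.closure_induction with
    | mem u hu =>
        obtain ⟨g, rfl⟩ := hconjmem u hu
        calc g * y * g⁻¹ * (g * y * g⁻¹) = g * (y * y) * g⁻¹ := by group
          _ = 1 := by rw [hyy]; group
    | one => simp
    | mul a b ha hb iha ihb =>
        have hab : a * b = b * a := hNcomm a (by rw [hNcl]; exact ha) b (by rw [hNcl]; exact hb)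
        calc a * b * (a * b) = a * (b * a) * b := by group
          _ = a * (a * b) * b := by rw [hab]
          _ = (a * a) * (b * b) := by group
          _ = 1 := by rw [iha, ihb, one_mul]
    | inv a ha iha =>
        have h2 : a⁻¹ = a := inv_eq_of_mul_eq_one_left iha
        rw [h2]; exact iha
  have hNnormal : N.Normal := Subgroup.normalClosure_normal
  have hxN1 : x ≠ 1 := by
    rintro rfl
    simp at hx
  have hy1 : y ≠ 1 := by
    rintro rfl
    simp at hy
  have hinvol : ∀ u : G, u * u = 1 → u ≠ 1 → orderOf u = 2 := by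
    intro u hu hu1
    exact orderOf_eq_prime (by rw [pow_two]; exact hu) hu1
  refine ⟨?_, ⟨⟨⟨?_⟩⟩, ?_⟩, ?_⟩
  · -- proper
    intro htop
    have hall : ∀ a b : G, a * b = b * a := fun a b =>
      hNcomm a (by rw [htop]; trivial) b (by rw [htop]; trivial)
    have hxcl : x ∈ N := by rw [htop]; trivial
    have hle : N ≤ Subgroup.zpowers y := by
      rw [hNcl, Subgroup.closure_le]
      intro u hu
      obtain ⟨g, rfl⟩ := hconjmem u hu
      have : g * y * g⁻¹ = y := by rw [hall g y]; group
      rw [this]
      exact Subgroup.mem_zpowers y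
    have hxz := hle hxcl
    rw [Subgroup.mem_zpowers_iff] at hxz
    obtain ⟨k, hk⟩ := hxz
    rcases Int.even_or_odd' k with ⟨m, rfl | rfl⟩
    · rw [zpow_mul, zpow_two, hyy, one_zpow] at hk
      exact hxN1 hk.symm
    · rw [zpow_add, zpow_mul, zpow_two, hyy, one_zpow, one_mul, zpow_one] at hk
      exact hnc (by rw [hk])
  · rintro ⟨a, ha⟩ ⟨b, hb⟩
    exact Subtype.ext (hNcomm a ha b hb)
  · intro a ha
    rw [pow_two]
    exact hNsq a ha
  · intro huniq
    -- the key map
    let f : N →* G :=
      { toFun := fun n => (n : G) * (x * (n : G) * x⁻¹)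
        map_one' := by simp
        map_mul' := by
          rintro ⟨a, ha⟩ ⟨b, hb⟩
          have hxb : x * a * x⁻¹ ∈ N := hNnormal.conj_mem a ha x
          have hcomm2 : x * a * x⁻¹ * b = b * (x * a * x⁻¹) := hNcomm _ hxb _ hb
          change a * b * (x * (a * b) * x⁻¹) = a * (x * a * x⁻¹) * (b * (x * b * x⁻¹))
          calc a * b * (x * (a * b) * x⁻¹)
              = a * (b * (x * a * x⁻¹)) * (x * b * x⁻¹) := by group
            _ = a * ((x * a * x⁻¹) * b) * (x * b * x⁻¹) := by rw [hcomm2]
            _ = a * (x * a * x⁻¹) * (b * (x * b * x⁻¹)) := by group }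
    have hxi : x⁻¹ = x := inv_eq_of_mul_eq_one_left hxx
    have hzcard : Nat.card (Subgroup.zpowers y) = 2 := by rw [Nat.card_zpowers, hy]
    have hfix : ∀ u ∈ N, x * u * x⁻¹ = u → u ∈ Subgroup.zpowers y := by
      intro u hu hxu
      by_cases hu1 : u = 1
      · rw [hu1]; exact one_mem _
      · have : u = y := huniq u hu (hinvol u (hNsq u hu) hu1) (by
          unfold Commute SemiconjBy
          calc u * x = (x * u * x⁻¹) * x := by rw [hxu]
            _ = x * u := by group)
        rw [this]
        exact Subgroup.mem_zpowers y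
    have hrange : f.range ≤ Subgroup.zpowers y := by
      rintro _ ⟨⟨n, hn⟩, rfl⟩
      have hxn : x * n * x⁻¹ ∈ N := hNnormal.conj_mem n hn x
      apply hfix _ (N.mul_mem hn hxn)
      have hc := hNcomm _ hxn n hn
      change x * (n * (x * n * x⁻¹)) * x⁻¹ = n * (x * n * x⁻¹)
      rw [hxi] at hc ⊢
      calc x * (n * (x * n * x)) * x = (x * n * x * n) * (x * x) := by group
        _ = x * n * x * n := by rw [hxx, mul_one]
        _ = n * (x * n * x) := hc
    have hker : f.ker.map N.subtype ≤ Subgroup.zpowers y := by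
      rintro _ ⟨⟨n, hn⟩, hnk, rfl⟩
      rw [SetLike.mem_coe, MonoidHom.mem_ker] at hnk
      change n * (x * n * x⁻¹) = 1 at hnk
      apply hfix n hn
      have : x * n * x⁻¹ = n⁻¹ := eq_inv_of_mul_eq_one_right hnk
      rw [this]
      exact inv_eq_of_mul_eq_one_left (hNsq n hn)
    have h1 : Nat.card f.range ≤ 2 := by
      rw [← hzcard]; exact Subgroup.card_le_of_le hrange
    have h2 : Nat.card f.ker ≤ 2 := by
      rw [← hzcard, ← Subgroup.card_map_of_injective (f := N.subtype) N.subtype_injective]
      exact Subgroup.card_le_of_le hker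
    have h3 : Nat.card f.ker * f.ker.index = Nat.card N := Subgroup.card_mul_index _
    rw [Subgroup.index_ker] at h3
    rw [← h3]
    exact Nat.mul_le_mul h2 h1

end Cfsg.Agent.S3276
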