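import Cfsg.Statements.S3277
import Cfsg.Agent.Lib.Perm.KleinCent
import Cfsg.Agent.S3276
import Cfsg.Agent.S0494
import Cfsg.Agent.Lib.Involutions2.KleinSylow

set_option autoImplicit false
open Cfsg

namespace Cfsg.Agent.S3277

open Subgroup Cfsg.Agent.Lib.Perm.KleinCent Cfsg.Agent.Lib.Involutions2.KleinSylow

private lemma elems {G : Type*} [Group G] [Fintype G] {x a : G} (hx : orderOf x = 2)
    (hC4 : Nat.card ↥(Subgroup.centralizer ({x} : Set G)) = 4)
    (hCe : ∀ c ∈ Subgroup.centralizer ({x} : Set G), c ^ 2 = 1)
    (ha : a * x = x * a) (ha1 : a ≠ 1) (hax : a ≠ x) :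
    ∀ c : G, c * x = x * c → c = 1 ∨ c = x ∨ c = a ∨ c = x * a := by
  classical
  intro c hc
  by_contra hne
  push Not at hne
  obtain ⟨h1, h2, h3, h4⟩ := hne
  have hsub : ({1, x, a, x * a, c} : Finset G) ⊆ KC.Cf x := by
    intro u hu
    simp only [Finset.mem_insert, Finset.mem_singleton] at hu
    rw [KC.mem_Cf]
    rcases hu with rfl | rfl | rfl | rfl | rfl
    · simp
    · rfl
    · exact ha
    · rw [mul_assoc, ha, ← mul_assoc]
    · exact hc
  have hcard := Finset.card_le_card hsub
  rw [KC.card_Cf, hC4] at hcard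
  have hx1 : x ≠ 1 := ne_one_of hx
  have h5 : ({1, x, a, x * a, c} : Finset G).card = 5 := by
    have e1 : x * a ≠ 1 := by
      intro e
      apply hax
      have := eq_inv_of_mul_eq_one_right e
      rw [this, inv_of hx]
    have e2 : x * a ≠ x := by
      intro e
      exact ha1 (mul_eq_left.1 e)
    have e3 : x * a ≠ a := by
      intro e
      exact hx1 (mul_eq_right.1 e)
    rw [Finset.card_insert_of_notMem, Finset.card_insert_of_notMem, Finset.card_insert_of_notMem,
      Finset.card_insert_of_notMem, Finset.card_singleton]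
    · simp only [Finset.mem_singleton]
      exact h4.symm
    · simp only [Finset.mem_insert, Finset.mem_singleton, not_or]
      exact ⟨e3.symm, h3.symm⟩
    · simp only [Finset.mem_insert, Finset.mem_singleton, not_or]
      exact ⟨hax.symm, e2.symm, h2.symm⟩
    · simp only [Finset.mem_insert, Finset.mem_singleton, not_or]
      exact ⟨hx1.symm, ha1.symm, e1.symm, h1.symm⟩
  omega

/-- The use of the lemma on nonconjugate commuting involutions. -/
private lemma claimK {G : Type*} [Group G] [Finite G] {x a : G} (hx : orderOf x = 2)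
    (hC4 : Nat.card ↥(Subgroup.centralizer ({x} : Set G)) = 4)
    (hCe : ∀ c ∈ Subgroup.centralizer ({x} : Set G), c ^ 2 = 1)
    (ha : a * x = x * a) (ha1 : a ≠ 1) (hax : a ≠ x)
    (hCa : ∀ c : G, c * a = a * c → c * x = x * c)
    (hnc : ¬ IsConj x (x * a))
    (hne : ∀ E : Subgroup G, E.Normal → Cfsg.IsElementaryAbelian 2 E → Nat.card ↥E ≠ 2 ∧ Nat.card ↥E ≠ 4) :
    False := by
  classical
  have := Fintype.ofFinite G
  have hel := elems hx hC4 hCe ha ha1 hax
  have hcommV : ∀ u v : G, u * x = x * u → v * x = x * v → u * v = v * u := by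
    intro u v hu hv
    have h1 := hCe u (mem_C.2 hu)
    have h2 := hCe v (mem_C.2 hv)
    have h3 : (u * v) ^ 2 = 1 := hCe (u * v) (mem_C.2 (by rw [mul_assoc, hv, ← mul_assoc, hu, mul_assoc]))
    rw [sq] at h1 h2 h3
    have e1 : u⁻¹ = u := inv_eq_of_mul_eq_one_left h1
    have e2 : v⁻¹ = v := inv_eq_of_mul_eq_one_left h2
    have e3 : (u * v)⁻¹ = u * v := inv_eq_of_mul_eq_one_left h3
    rw [mul_inv_rev, e1, e2] at e3
    exact e3.symm
  set z := x * a with hz
  have hzx : z * x = x * z := by
    rw [hz, mul_assoc, ha, ← mul_assoc]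
  have haa : a * a = 1 := by
    have := hCe a (mem_C.2 ha)
    rwa [sq] at this
  have hxx := mul_self_of hx
  have hzo : orderOf z = 2 := by
    apply order_two (hCe z (mem_C.2 hzx))
    intro e
    apply hax
    have := eq_inv_of_mul_eq_one_right e
    rw [this, inv_of hx]
  have hstar : ∀ u : G, orderOf u = 2 → Commute u x → ∀ g : G,
      Commute (g * z * g⁻¹) u → Commute (g * z * g⁻¹) z := by
    intro u hu hux g hgu
    rcases hel u hux with rfl | rfl | rfl | h
    · exact absurd hu (by simp)
    · exact hcommV _ _ hgu hzx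
    · exact hcommV _ _ (hCa _ hgu) hzx
    · rw [h] at hgu
      exact hgu
  obtain ⟨-, hEel, hEc⟩ := Cfsg.Agent.S3276.result x z hx hzo hzx.symm hnc hstar
  set E := normalClosure ({z} : Set G) with hE
  have hEn : E.Normal := normalClosure_normal
  have hzE : z ∈ E := subset_normalClosure rfl
  obtain ⟨hne2, hne4⟩ := hne E hEn hEel
  have hcommE : ∀ u ∈ E, ∀ v ∈ E, u * v = v * u := by
    intro u hu v hv
    have h1 := hEel.1
    have := mul_comm' (⟨u, hu⟩ : E) ⟨v, hv⟩
    exact congrArg Subtype.val this
  by_cases hu : ∀ u ∈ E, orderOf u = 2 → Commute u x → u = z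
  · have h1 := hEc hu
    have h2 : 2 ∣ Nat.card E := by
      have := Subgroup.orderOf_dvd_natCard E hzE
      rwa [hzo] at this
    have h3 : Nat.card E ≠ 0 := Nat.card_pos.ne'
    omega
  · push Not at hu
    obtain ⟨u, huE, huo, hux, hune⟩ := hu
    have hxE : x ∈ E := by
      rcases hel u hux with rfl | rfl | rfl | h
      · exact absurd huo (by simp)
      · exact huE
      · have : x = z * u := by
          rw [hz, mul_assoc, haa, mul_one]
        rw [this]
        exact E.mul_mem hzE huE
      · exact absurd h hune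
    have haE : a ∈ E := by
      have : a = x * z := by
        rw [hz, ← mul_assoc, hxx, one_mul]
      rw [this]
      exact E.mul_mem hxE hzE
    have hEV : E = centralizer ({x} : Set G) := by
      ext c
      constructor
      · intro hc
        exact mem_C.2 (hcommE c hc x hxE)
      · intro hc
        rcases hel c (mem_C.1 hc) with rfl | rfl | rfl | rfl
        · exact one_mem _
        · exact hxE
        · exact haE
        · exact hzE
    apply hne4
    rw [hEV, hC4]

/-- Let G be a finite group containing an involution whose centralizer is elementary abelian of order 4. If G has no normal 2-complement and no normal elementary abelian 2-subgroup of order 2 or 4, then G is isomorphic to the alternating group of degree 5 (that is, to PSL(2, 5)). -/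
theorem result {G : Type*} [Group G] [Finite G] (x : G) (hx : orderOf x = 2)
    (hC4 : Nat.card ↥(Subgroup.centralizer ({x} : Set G)) = 4) (hCe : ∀ c ∈ Subgroup.centralizer ({x} : Set G), c ^ 2 = 1)
    (hnc : ¬ Cfsg.HasNormalPComplement 2 G)
    (hne : ∀ E : Subgroup G, E.Normal → Cfsg.IsElementaryAbelian 2 E → Nat.card ↥E ≠ 2 ∧ Nat.card ↥E ≠ 4) :
    Nonempty (G ≃* ↥(alternatingGroup (Fin 5))) := by
  classical
  have := Fintype.ofFinite G
  have hFact : Fact (Nat.Prime 2) := ⟨Nat.prime_two⟩
  have hxx := mul_self_of hx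
  have hx1 := ne_one_of hx
  set V := centralizer ({x} : Set G) with hV
  have hxV : x ∈ V := mem_C.2 rfl
  have hcommV : ∀ u v : G, u * x = x * u → v * x = x * v → u * v = v * u := by
    intro u v hu hv
    have h1 := hCe u (mem_C.2 hu)
    have h2 := hCe v (mem_C.2 hv)
    have h3 : (u * v) ^ 2 = 1 := hCe (u * v) (mem_C.2 (by rw [mul_assoc, hv, ← mul_assoc, hu, mul_assoc]))
    rw [sq] at h1 h2 h3
    have e1 : u⁻¹ = u := inv_eq_of_mul_eq_one_left h1
    have e2 : v⁻¹ = v := inv_eq_of_mul_eq_one_left h2
    have e3 : (u * v)⁻¹ = u * v := inv_eq_of_mul_eq_one_left h3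
    rw [mul_inv_rev, e1, e2] at e3
    exact e3.symm
  -- choose a second element
  obtain ⟨y, hy, hyne⟩ : ∃ y ∈ KC.Cf x, y ∉ ({1, x} : Finset G) := by
    apply Finset.exists_mem_notMem_of_card_lt_card
    rw [KC.card_Cf, hC4]
    exact lt_of_le_of_lt Finset.card_le_two (by norm_num)
  simp only [Finset.mem_insert, Finset.mem_singleton, not_or] at hyne
  obtain ⟨hy1, hyx⟩ := hyne
  have hyc : y * x = x * y := KC.mem_Cf.1 hy
  have hel := elems hx hC4 hCe hyc hy1 hyx
  have hV2 : IsPGroup 2 V := IsPGroup.of_card (n := 2) (by rw [hC4]; norm_num)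
  obtain ⟨P, hVP⟩ := hV2.exists_le_sylow
  by_cases hPV : (P : Subgroup G) = V
  · -- `V` is a Sylow subgroup
    have hPmem : ∀ c : G, c ∈ P ↔ c * x = x * c := by
      intro c
      show c ∈ (P : Subgroup G) ↔ _
      rw [hPV]
      exact mem_C
    have hsq : ∀ c : G, c * x = x * c → c ≠ 1 → orderOf c = 2 :=
      fun c hc hc1 => order_two (hCe c (mem_C.2 hc)) hc1
    have hzc : (x * y) * x = x * (x * y) := by rw [mul_assoc, hyc, ← mul_assoc]
    have hz1 : x * y ≠ 1 := by
      intro e
      apply hyx
      have := eq_inv_of_mul_eq_one_right e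
      rw [this, inv_of hx]
    have hKD : KleinData P x y (x * y) := {
      ha := (hPmem x).2 rfl
      hb := (hPmem y).2 hyc
      hc := (hPmem _).2 hzc
      oa := hx
      ob := hsq y hyc hy1
      oc := hsq _ hzc hz1
      hab := fun e => hyx e.symm
      hac := by
        intro e
        exact hy1 (mul_eq_left.1 e.symm)
      hbc := by
        intro e
        exact hx1 (mul_eq_right.1 e.symm)
      hall := by
        intro c hc
        exact hel c ((hPmem c).1 hc)
      comm := by
        intro u hu v hv
        exact hcommV u v ((hPmem u).1 hu) ((hPmem v).1 hv) }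
    rcases hKD.dichotomy with ⟨h1, h2⟩ | ⟨h1, h2, h3⟩
    · -- all conjugate
      have hconj : ∀ t : G, orderOf t = 2 → IsConj x t := by
        intro t ht
        rcases hKD.conj_abc ht with h | h | h
        · exact h.symm
        · exact h1.trans h.symm
        · exact h2.trans h.symm
      have hK : KC G := by
        intro t ht
        obtain ⟨g, rfl⟩ := isConj_iff.1 (hconj t ht)
        refine ⟨by rw [card_C_conj, hC4], ?_⟩
        intro c hc
        have hc' := mem_C.1 hc
        have h4 : (g⁻¹ * c * g) * x = x * (g⁻¹ * c * g) := by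
          calc g⁻¹ * c * g * x = g⁻¹ * (c * (g * x * g⁻¹)) * g := by group
            _ = g⁻¹ * ((g * x * g⁻¹) * c) * g := by rw [hc']
            _ = _ := by group
        have h5 := hCe _ (mem_C.2 h4)
        have h6 : c ^ 2 = g * ((g⁻¹ * c * g) ^ 2) * g⁻¹ := by
          rw [sq, sq]; group
        rw [h6, h5]
        group
      rcases KC.normal_or_simple hK hx hconj with hN | ⟨hS, h60⟩
      · exfalso
        refine (hne V hN ?_).2 hC4
        refine ⟨⟨⟨?_⟩⟩, ?_⟩
        · rintro ⟨u, hu⟩ ⟨v, hv⟩
          apply Subtype.ext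
          exact hcommV u v (mem_C.1 hu) (mem_C.1 hv)
        · exact hCe
      · exact Cfsg.Agent.S0494.result (by rw [Nat.card_eq_fintype_card, h60])
    · -- Burnside
      exfalso
      apply hnc
      have hnorm : normalizer ((P : Subgroup G) : Set G) ≤ centralizer ((P : Subgroup G) : Set G) := by
        intro n hn
        rw [Subgroup.mem_centralizer_iff]
        intro c hc
        have hnmem := (Subgroup.mem_normalizer_iff.1 hn)
        have hfix : ∀ t : G, t ∈ (P : Subgroup G) → ¬ t = 1 →
            (∀ s ∈ (P : Subgroup G), s ≠ 1 → IsConj t s → t = s) → t * n = n * t := by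
          intro t ht ht1 huniq
          have h4 : n * t * n⁻¹ ∈ (P : Subgroup G) := (hnmem t).1 ht
          have h5 : n * t * n⁻¹ ≠ 1 := by
            intro e
            apply ht1
            calc t = n⁻¹ * (n * t * n⁻¹) * n := by group
              _ = 1 := by rw [e]; group
          have h6 := huniq _ h4 h5 (isConj_iff.2 ⟨n, rfl⟩)
          calc t * n = (n * t * n⁻¹) * n := by rw [← h6]
            _ = n * t := by group
        by_cases hc1 : c = 1
        · rw [hc1]; simp
        apply hfix c hc hc1
        intro s hs hs1 hcs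
        have hc' := hel c ((hPmem c).1 hc)
        have hs' := hel s ((hPmem s).1 hs)
        rcases hc' with rfl | rfl | rfl | rfl <;> rcases hs' with rfl | rfl | rfl | rfl <;>
          first
            | rfl
            | exact absurd rfl hc1
            | exact absurd rfl hs1
            | exact absurd hcs h1
            | exact absurd hcs.symm h1
            | exact absurd hcs h2
            | exact absurd hcs.symm h2
            | exact absurd hcs h3
            | exact absurd hcs.symm h3
      exact ⟨P, _, inferInstance, MonoidHom.ker_transferSylow_isComplement' P hnorm⟩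
  · -- `V` is not a Sylow subgroup
    exfalso
    have hlt : V < (P : Subgroup G) := lt_of_le_of_ne hVP (Ne.symm hPV)
    have hPnil : Group.IsNilpotent ↥(P : Subgroup G) := P.isPGroup'.isNilpotent
    have hcond := Group.normalizerCondition_of_isNilpotent (G := ↥(P : Subgroup G))
    have hV' : V.subgroupOf (P : Subgroup G) < ⊤ := by
      rw [lt_top_iff_ne_top]
      intro e
      rw [Subgroup.subgroupOf_eq_top] at e
      exact absurd (le_antisymm hVP e) (ne_of_lt hlt)
    obtain ⟨g, hgN, hgV⟩ := SetLike.exists_of_lt (hcond _ hV')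
    have hgV' : (g : G) ∉ V := fun h => hgV h
    have hgnorm : ∀ c ∈ V, (g : G) * c * (g : G)⁻¹ ∈ V := by
      intro c hc
      have h1 := (Subgroup.mem_normalizer_iff.1 hgN ⟨c, hVP hc⟩).1 hc
      exact h1
    obtain ⟨g₀, hg₀⟩ : ∃ g₀ : G, g₀ = (g : G) := ⟨_, rfl⟩
    rw [← hg₀] at hgV' hgnorm
    have hg₀P : g₀ ∈ (P : Subgroup G) := by rw [hg₀]; exact g.2
    obtain ⟨k, hk⟩ : ∃ k : ℕ, g₀ ^ (2 ^ k) = 1 := by
      obtain ⟨k, hk⟩ := P.isPGroup' ⟨g₀, hg₀P⟩
      exact ⟨k, by simpa only [SubgroupClass.coe_pow, OneMemClass.coe_one] using congrArg Subtype.val hk⟩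
    have hconjinj : ∀ u v : G, g₀ * u * g₀⁻¹ = g₀ * v * g₀⁻¹ → u = v := by
      intro u v e
      exact mul_left_cancel (mul_right_cancel e)
    have hconjone : ∀ u : G, g₀ * u * g₀⁻¹ = 1 → u = 1 := by
      intro u e
      apply hconjinj
      rw [e]; group
    set a := g₀ * x * g₀⁻¹ with ha
    have haV : a ∈ V := hgnorm x hxV
    have hac : a * x = x * a := mem_C.1 haV
    have ha1 : a ≠ 1 := fun e => hx1 (hconjone x e)
    have hax : a ≠ x := by
      intro e
      apply hgV'
      apply mem_C.2
      calc g₀ * x = (g₀ * x * g₀⁻¹) * g₀ := by group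
        _ = x * g₀ := by rw [← ha, e]
    set b := g₀ * a * g₀⁻¹ with hb
    have hbV : b ∈ V := hgnorm a haV
    have hbc : b * x = x * b := mem_C.1 hbV
    have hb1 : b ≠ 1 := fun e => ha1 (hconjone a e)
    have hba : b ≠ a := by
      intro e
      apply hax
      exact hconjinj a x (by rw [← hb, e])
    have hela := elems hx hC4 hCe hac ha1 hax
    by_cases hbx : b = x
    · -- the good case
      have hzcomm : (x * a) * g₀ = g₀ * (x * a) := by
        have h1 : g₀ * a = x * g₀ := by
          calc g₀ * a = (g₀ * a * g₀⁻¹) * g₀ := by group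
            _ = x * g₀ := by rw [← hb, hbx]
        have h2 : g₀ * x = a * g₀ := by
          calc g₀ * x = (g₀ * x * g₀⁻¹) * g₀ := by group
            _ = a * g₀ := by rw [← ha]
        calc (x * a) * g₀ = (a * x) * g₀ := by rw [hac]
          _ = a * (x * g₀) := by group
          _ = a * (g₀ * a) := by rw [h1]
          _ = (a * g₀) * a := by group
          _ = (g₀ * x) * a := by rw [h2]
          _ = g₀ * (x * a) := by group
      have hzc : (x * a) * x = x * (x * a) := by rw [mul_assoc, hac, ← mul_assoc]
      refine claimK hx hC4 hCe hac ha1 hax ?_ ?_ hne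
      · intro c hc
        -- `C(a) = V`
        have hle : V ≤ centralizer ({a} : Set G) := by
          intro d hd
          exact mem_C.2 (hcommV d a (mem_C.1 hd) hac)
        have hcard : Nat.card ↥(centralizer ({a} : Set G)) = 4 := by
          rw [ha, card_C_conj, hC4]
        have heq : V = centralizer ({a} : Set G) :=
          Subgroup.eq_of_le_of_card_ge hle (by rw [hcard, hC4])
        have : c ∈ V := by rw [heq]; exact mem_C.2 hc
        exact mem_C.1 this
      · intro hcj
        obtain ⟨n, hn⟩ := isConj_iff.1 hcj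
        have hle : V ≤ centralizer ({x * a} : Set G) := by
          intro d hd
          exact mem_C.2 (hcommV d _ (mem_C.1 hd) hzc)
        have hcard : Nat.card ↥(centralizer ({x * a} : Set G)) = 4 := by
          rw [← hn, card_C_conj, hC4]
        have heq : V = centralizer ({x * a} : Set G) :=
          Subgroup.eq_of_le_of_card_ge hle (by rw [hcard, hC4])
        apply hgV'
        rw [heq]
        exact mem_C.2 hzcomm.symm
    · -- the bad case: a 3-cycle
      set d := g₀ * b * g₀⁻¹ with hd
      have hdV : d ∈ V := hgnorm b hbV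
      have hd1 : d ≠ 1 := fun e => hb1 (hconjone b e)
      have hdb : d ≠ b := fun e => hba (hconjinj b a (by rw [← hd, e]))
      have hda : d ≠ a := fun e => hbx (hconjinj b x (by rw [← hd, e]))
      have hbel := hela b hbc
      have hb_eq : b = x * a := by
        rcases hbel with h | h | h | h
        · exact absurd h hb1
        · exact absurd h hbx
        · exact absurd h hba
        · exact h
      have hdx : d = x := by
        rcases hela d (mem_C.1 hdV) with h | h | h | h
        · exact absurd h hd1
        · exact h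
        · exact absurd h hda
        · exact absurd (h.trans hb_eq.symm) hdb
      have h3 : (g₀ ^ 3) * x = x * (g₀ ^ 3) := by
        have e1 : g₀ * x = a * g₀ := by
          calc g₀ * x = (g₀ * x * g₀⁻¹) * g₀ := by group
            _ = a * g₀ := by rw [← ha]
        have e2 : g₀ * a = b * g₀ := by
          calc g₀ * a = (g₀ * a * g₀⁻¹) * g₀ := by group
            _ = b * g₀ := by rw [← hb]
        have e3 : g₀ * b = x * g₀ := by
          calc g₀ * b = (g₀ * b * g₀⁻¹) * g₀ := by group
            _ = d * g₀ := by rw [← hd]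
            _ = x * g₀ := by rw [hdx]
        calc (g₀ ^ 3) * x = g₀ * g₀ * (g₀ * x) := by simp only [pow_succ, pow_zero, one_mul, mul_assoc]
          _ = g₀ * g₀ * (a * g₀) := by rw [e1]
          _ = g₀ * (g₀ * a) * g₀ := by group
          _ = g₀ * (b * g₀) * g₀ := by rw [e2]
          _ = (g₀ * b) * g₀ * g₀ := by group
          _ = (x * g₀) * g₀ * g₀ := by rw [e3]
          _ = x * (g₀ ^ 3) := by simp only [pow_succ, pow_zero, one_mul, mul_assoc]
      have h6 : (g₀ ^ 3) ^ 2 = 1 := hCe _ (mem_C.2 h3)
      have h7 : orderOf g₀ ∣ 6 := orderOf_dvd_of_pow_eq_one (by rw [← pow_mul] at h6; exact h6)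
      have h8 : orderOf g₀ ∣ 2 ^ k := orderOf_dvd_of_pow_eq_one hk
      have h9 : orderOf g₀ ∣ 2 := by
        obtain ⟨j, hj, hj2⟩ := (Nat.dvd_prime_pow Nat.prime_two).1 h8
        rw [hj2] at h7 ⊢
        have h10 : j ≤ 1 := by
          by_contra hcon
          have h11 : 2 ^ 2 ∣ 2 ^ j := pow_dvd_pow 2 (by omega)
          have h12 := h11.trans h7
          norm_num at h12
        exact pow_dvd_pow 2 (by omega : j ≤ 1) |>.trans (by norm_num)
      have h10 : g₀ ^ 2 = 1 := orderOf_dvd_iff_pow_eq_one.1 h9
      apply hgV'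
      have h11 : g₀ ^ 3 = g₀ := by rw [pow_succ, h10, one_mul]
      rw [h11] at h3
      exact mem_C.2 h3

end Cfsg.Agent.S3277
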