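import Cfsg.Statements.S3279
import Cfsg.Agent.Lib.ZStar.Main
import Cfsg.Agent.Lib.Involutions.Dihedral
import Cfsg.Agent.Lib.Core.Basic
import Cfsg.Agent.Lib.Kazarin.Main

set_option autoImplicit false
open Cfsg

namespace Cfsg.Agent.S3279

section helpers

variable {G : Type*} [Group G] [Finite G]

/-- In a simple group an isolated involution is central. -/
theorem central_of_isolated [IsSimpleGroup G] {z : G} (hz : IsIsolatedInvolution z) (g : G) :
    Commute z g := by
  have h := Cfsg.Agent.Lib.ZStar.Main.zstar G z hz g
  have hn : (pPrimeCore 2 G).Normal := inferInstance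
  rcases hn.eq_bot_or_eq_top with hb | ht
  · rw [hb, Subgroup.mem_bot] at h
    have h1 : z * g * z⁻¹ = g := mul_inv_eq_one.mp h
    have h2 : z * g = g * z := mul_inv_eq_iff_eq_mul.mp h1
    exact h2
  · exfalso
    have hc : (Nat.card G).Coprime 2 := (Cfsg.Agent.Lib.Core.Basic.pPrimeCore_eq_top_iff).mp ht
    have hd : 2 ∣ Nat.card G := by
      rw [← hz.1]; exact orderOf_dvd_natCard z
    have := Nat.Coprime.eq_one_of_dvd hc.symm hd
    omega

/-- In a simple group a central involution is the only involution. -/
theorem eq_of_central [IsSimpleGroup G] {z u : G} (hz : orderOf z = 2)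
    (hc : ∀ g, Commute z g) (hu : orderOf u = 2) : u = z := by
  have hn : (Subgroup.zpowers z).Normal := by
    constructor
    intro a ha g
    obtain ⟨k, rfl⟩ := Subgroup.mem_zpowers_iff.mp ha
    have : g * z ^ k * g⁻¹ = z ^ k := by
      rw [((hc g).zpow_left k).eq.symm, mul_assoc, mul_inv_cancel, mul_one]
    rw [this]
    exact Subgroup.zpow_mem_zpowers z k
  rcases hn.eq_bot_or_eq_top with hb | ht
  · exfalso
    have h1 : z = 1 := by
      have : z ∈ Subgroup.zpowers z := Subgroup.mem_zpowers z
      rw [hb, Subgroup.mem_bot] at this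
      exact this
    rw [h1] at hz
    simp at hz
  · have hm : u ∈ Subgroup.zpowers z := by rw [ht]; exact Subgroup.mem_top u
    obtain ⟨k, rfl⟩ := Subgroup.mem_zpowers_iff.mp hm
    have hz2 : z ^ 2 = 1 := by rw [← hz]; exact pow_orderOf_eq_one z
    rcases Int.even_or_odd' k with ⟨m, rfl | rfl⟩
    · exfalso
      rw [zpow_mul, zpow_ofNat, hz2, one_zpow] at hu
      simp at hu
    · rw [zpow_add, zpow_mul, zpow_ofNat, hz2, one_zpow, one_mul, zpow_one]

/-- Counting lemma: three distinct involutions in the centralizer exhaust it. -/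
theorem mem_three {x : G} (h3 : Nat.card {u : ↥(Subgroup.centralizer ({x} : Set G)) // orderOf u = 2} ≤ 3)
    {a b c u : G} (ha : orderOf a = 2) (hb : orderOf b = 2) (hc : orderOf c = 2) (hu : orderOf u = 2)
    (hax : Commute a x) (hbx : Commute b x) (hcx : Commute c x) (hux : Commute u x)
    (hab : a ≠ b) (hac : a ≠ c) (hbc : b ≠ c) : u = a ∨ u = b ∨ u = c := by
  by_contra hne
  push Not at hne
  obtain ⟨hua, hub, huc⟩ := hne
  classical
  haveI := Fintype.ofFinite {u : ↥(Subgroup.centralizer ({x} : Set G)) // orderOf u = 2}
  have mk : ∀ v : G, orderOf v = 2 → Commute v x →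
      ∃ w : {u : ↥(Subgroup.centralizer ({x} : Set G)) // orderOf u = 2}, ((w : ↥(Subgroup.centralizer ({x} : Set G))) : G) = v := by
    intro v hv hvx
    have hm : v ∈ Subgroup.centralizer ({x} : Set G) := by
      rw [Subgroup.mem_centralizer_iff]
      intro h hh
      rw [Set.mem_singleton_iff] at hh
      subst hh
      exact hvx.eq.symm
    refine ⟨⟨⟨v, hm⟩, ?_⟩, rfl⟩
    rw [Subgroup.orderOf_mk]; exact hv
  obtain ⟨wa, hwa⟩ := mk a ha hax
  obtain ⟨wb, hwb⟩ := mk b hb hbx
  obtain ⟨wc, hwc⟩ := mk c hc hcx
  obtain ⟨wu, hwu⟩ := mk u hu hux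
  have hne' : ∀ {p q : {u : ↥(Subgroup.centralizer ({x} : Set G)) // orderOf u = 2}} {r s : G},
      ((p : ↥(Subgroup.centralizer ({x} : Set G))) : G) = r → ((q : ↥(Subgroup.centralizer ({x} : Set G))) : G) = s → r ≠ s → p ≠ q := by
    intro p q r s hp hq hrs hpq
    apply hrs
    rw [← hp, ← hq, hpq]
  have hcard : (({wa, wb, wc, wu} : Finset _)).card = 4 := by
    rw [Finset.card_insert_of_notMem, Finset.card_insert_of_notMem, Finset.card_insert_of_notMem,
      Finset.card_singleton]
    · simp only [Finset.mem_singleton]; exact hne' hwc hwu huc.symm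
    · simp only [Finset.mem_insert, Finset.mem_singleton, not_or]
      exact ⟨hne' hwb hwc hbc, hne' hwb hwu hub.symm⟩
    · simp only [Finset.mem_insert, Finset.mem_singleton, not_or]
      exact ⟨hne' hwa hwb hab, hne' hwa hwc hac, hne' hwa hwu hua.symm⟩
  have h4 := Finset.card_le_univ ({wa, wb, wc, wu} : Finset {u : ↥(Subgroup.centralizer ({x} : Set G)) // orderOf u = 2})
  rw [hcard, ← Nat.card_eq_fintype_card] at h4
  omega

end helpers

/-- Let G be a finite simple group and x an involution of G whose centralizer contains at most three involutions. Then C_G(x) contains a Sylow 2-subgroup of G, and all involutions of G are conjugate. -/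
theorem result {G : Type*} [Group G] [Finite G] [IsSimpleGroup G] (x : G) (hx : orderOf x = 2)
    (h3 : Nat.card {u : ↥(Subgroup.centralizer ({x} : Set G)) // orderOf u = 2} ≤ 3) :
    (∃ S : Sylow 2 G, (S : Subgroup G) ≤ Subgroup.centralizer ({x} : Set G)) ∧
      ∀ u v : G, orderOf u = 2 → orderOf v = 2 → IsConj u v := by
  classical
  haveI : Fact (Nat.Prime 2) := ⟨Nat.prime_two⟩
  have hx2 : x ^ 2 = 1 := by rw [← hx]; exact pow_orderOf_eq_one x
  have sq_of : ∀ {v : G}, orderOf v = 2 → v ^ 2 = 1 := fun {v} hv => by
    rw [← hv]; exact pow_orderOf_eq_one v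
  have conj_order : ∀ (g v : G), orderOf (g * v * g⁻¹) = orderOf v := fun g v =>
    orderOf_eq_orderOf_iff.mpr (fun n => by
      rw [conj_pow]
      constructor
      · intro h
        have := congrArg (fun t => g⁻¹ * t * g) h
        simpa [mul_assoc] using this
      · intro h
        rw [h]
        simp)
  have part1 : ∃ S : Sylow 2 G, (S : Subgroup G) ≤ Subgroup.centralizer ({x} : Set G) := by
    by_contra hn
    set C := Subgroup.centralizer ({x} : Set G) with hC
    have memC : ∀ {v : G}, v ∈ C ↔ Commute v x := by
      intro v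
      rw [hC, Subgroup.mem_centralizer_iff]
      constructor
      · intro h
        exact (h x (Set.mem_singleton x)).symm
      · intro h w hw
        rw [Set.mem_singleton_iff] at hw
        subst hw
        exact h.eq.symm
    -- a Sylow subgroup of `C`, extended to `G`
    obtain Q : Sylow 2 C := default
    obtain ⟨S, hS⟩ := Sylow.exists_comap_subtype_eq Q
    -- `x` lies in `S`
    have hxC : x ∈ C := memC.mpr (Commute.refl x)
    have hxQ : (⟨x, hxC⟩ : C) ∈ (Q : Subgroup C) := by
      have hnorm : (Subgroup.zpowers (⟨x, hxC⟩ : C)).Normal := by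
        constructor
        intro a ha g
        obtain ⟨k, rfl⟩ := Subgroup.mem_zpowers_iff.mp ha
        have hcomm : Commute (⟨x, hxC⟩ : C) g := by
          apply Subtype.ext
          exact (memC.mp g.2).symm.eq
        have : g * (⟨x, hxC⟩ : C) ^ k * g⁻¹ = (⟨x, hxC⟩ : C) ^ k := by
          rw [(hcomm.zpow_left k).eq.symm, mul_assoc, mul_inv_cancel, mul_one]
        rw [this]
        exact Subgroup.zpow_mem_zpowers _ k
      have hp : IsPGroup 2 (Subgroup.zpowers (⟨x, hxC⟩ : C)) := by
        apply IsPGroup.of_card (n := 1)
        rw [Nat.card_zpowers, Subgroup.orderOf_mk, hx, pow_one]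
      have h1 := Cfsg.Agent.Lib.Core.Basic.le_pCore hnorm hp
      exact Cfsg.Agent.Lib.Core.Basic.pCore_le_sylow Q (h1 (Subgroup.mem_zpowers _))
    have hS' : ∀ v (hv : v ∈ C), v ∈ (S : Subgroup G) ↔ (⟨v, hv⟩ : C) ∈ (Q : Subgroup C) := by
      intro v hv
      rw [← hS]
      rfl
    have hxS : x ∈ (S : Subgroup G) := (hS' x hxC).mpr hxQ
    -- `S` is not contained in `C`: find a conjugate of `x` under `S` commuting with `x`
    have hSC : ¬ (S : Subgroup G) ≤ C := fun h => hn ⟨S, h⟩
    -- normalizer growth in the `2`-group `S`
    set K : Subgroup (S : Subgroup G) := (C).subgroupOf (S : Subgroup G) with hK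
    have hKlt : K < ⊤ := by
      rw [lt_top_iff_ne_top]
      intro htop
      apply hSC
      intro v hv
      have : (⟨v, hv⟩ : (S : Subgroup G)) ∈ K := by rw [htop]; exact Subgroup.mem_top _
      exact this
    have hnil : Group.IsNilpotent (S : Subgroup G) := (S.isPGroup').isNilpotent
    have hnc := (Group.normalizerCondition_of_isNilpotent (G := (S : Subgroup G))) K hKlt
    obtain ⟨u', hu'N, hu'K⟩ := SetLike.exists_of_lt hnc
    set u : G := (u' : G) with hu
    have huS : u ∈ (S : Subgroup G) := u'.2
    have huC : u ∉ C := hu'K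
    have hxK : (⟨x, hxS⟩ : (S : Subgroup G)) ∈ K := hxC
    have hy1 : u * x * u⁻¹ ∈ C := by
      have := (Subgroup.mem_normalizer_iff.mp hu'N (⟨x, hxS⟩ : (S : Subgroup G))).mp hxK
      exact this
    -- a central involution of `S`
    haveI : Nontrivial (S : Subgroup G) := by
      refine ⟨⟨⟨x, hxS⟩, 1, ?_⟩⟩
      intro h
      have := congrArg Subtype.val h
      simp only [Subgroup.coe_one] at this
      rw [this] at hx
      simp at hx
    haveI : Nontrivial (Subgroup.center (S : Subgroup G)) := (S.isPGroup').center_nontrivial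
    have hcen2 : 2 ∣ Nat.card (Subgroup.center (S : Subgroup G)) := by
      have hpg : IsPGroup 2 (Subgroup.center (S : Subgroup G)) := (S.isPGroup').to_subgroup _
      obtain ⟨n, hn'⟩ := IsPGroup.iff_card.mp hpg
      have hne : n ≠ 0 := by
        rintro rfl
        have h1 : Nat.card (Subgroup.center (S : Subgroup G)) = 1 := by simpa using hn'
        have := Finite.one_lt_card (α := Subgroup.center (S : Subgroup G))
        omega
      rw [hn']
      exact dvd_pow_self 2 hne
    obtain ⟨z', hz'⟩ := exists_prime_orderOf_dvd_card' 2 hcen2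
    set z : G := ((z' : (S : Subgroup G)) : G) with hz
    have hzord : orderOf z = 2 := by
      rw [hz, Subgroup.orderOf_coe, Subgroup.orderOf_coe, hz']
    have hzS : z ∈ (S : Subgroup G) := (z' : (S : Subgroup G)).2
    have hzcomm : ∀ v ∈ (S : Subgroup G), Commute z v := by
      intro v hv
      have := (Subgroup.mem_center_iff.mp z'.2) ⟨v, hv⟩
      exact (congrArg Subtype.val this).symm
    have hzx : Commute z x := hzcomm x hxS
    have huxne : u * x * u⁻¹ ≠ x := by
      intro h
      apply huC
      apply memC.mpr
      have : u * x = x * u := mul_inv_eq_iff_eq_mul.mp h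
      exact this
    have hzne : z ≠ x := by
      rintro h
      apply huxne
      rw [← h]
      rw [(hzcomm u huS).eq.symm, mul_assoc, mul_inv_cancel, mul_one]
    have hz2 : z ^ 2 = 1 := sq_of hzord
    have hxz2 : (x * z) ^ 2 = 1 := by
      rw [hzx.symm.mul_pow, hx2, hz2, one_mul]
    have hxzne1 : x * z ≠ 1 := by
      intro h
      have h1 : z = x⁻¹ := eq_inv_of_mul_eq_one_right h
      apply hzne
      rw [h1]
      exact inv_eq_of_mul_eq_one_left (by rw [← sq]; exact hx2)
    have hxzord : orderOf (x * z) = 2 := orderOf_eq_prime hxz2 hxzne1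
    have hxzx : Commute (x * z) x := (Commute.refl x).mul_left hzx
    have hxzne : x * z ≠ x := by
      intro h
      have : z = 1 := by simpa using h
      rw [this] at hzord
      simp at hzord
    have hxzne' : x * z ≠ z := by
      intro h
      have : x = 1 := by simpa using h
      rw [this] at hx
      simp at hx
    have hI : ∀ v : G, orderOf v = 2 → Commute v x → v = x ∨ v = z ∨ v = x * z := by
      intro v hv hvx
      exact mem_three h3 hx hzord hxzord hv (Commute.refl x) hzx hxzx hvx hzne.symm hxzne.symm
        hxzne'.symm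
    -- `z` is not conjugate to `x`
    have hznc : ∀ g : G, g * x * g⁻¹ ≠ z := by
      intro g hg
      apply hn
      refine ⟨g⁻¹ • S, ?_⟩
      intro v hv
      rw [Sylow.coe_subgroup_smul] at hv
      obtain ⟨w, hw, rfl⟩ := hv
      apply memC.mpr
      have hwz := hzcomm w hw
      rw [← hg] at hwz
      show Commute (g⁻¹ * w * g⁻¹⁻¹) x
      have h1 : w * (g * x * g⁻¹) = (g * x * g⁻¹) * w := hwz.symm.eq
      simp only [inv_inv]
      show g⁻¹ * w * g * x = x * (g⁻¹ * w * g)
      have h2 := congrArg (fun t => g⁻¹ * t * g) h1
      simpa [mul_assoc] using h2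
    -- `u x u⁻¹ = x z`
    have huxz : u * x * u⁻¹ = x * z := by
      have hc1 : Commute (u * x * u⁻¹) x := memC.mp hy1
      rcases hI _ ((conj_order u x).trans hx) hc1 with h | h | h
      · exact absurd h huxne
      · exact absurd h (hznc u)
      · exact h
    have hxznc : ∀ g : G, g * (x * z) * g⁻¹ ≠ z := by
      intro g hg
      rw [← huxz] at hg
      apply hznc (g * u)
      rw [← hg]
      group
    -- uniqueness of the partner
    have hB : ∀ h k : G, Commute (k * z * k⁻¹) (h * x * h⁻¹) → k * z * k⁻¹ = h * z * h⁻¹ := by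
      intro h k hc
      have h1 : Commute (h⁻¹ * (k * z * k⁻¹) * h) x := by
        have := congrArg (fun t => h⁻¹ * t * h) hc.eq
        show h⁻¹ * (k * z * k⁻¹) * h * x = x * (h⁻¹ * (k * z * k⁻¹) * h)
        simpa [mul_assoc] using this
      have h2 : orderOf (h⁻¹ * (k * z * k⁻¹) * h) = 2 := by
        have h3 := conj_order h⁻¹ (k * z * k⁻¹)
        rw [inv_inv] at h3
        rw [h3, conj_order, hzord]
      rcases hI _ h2 h1 with h4 | h4 | h4
      · exfalso
        apply hznc (k⁻¹ * h)
        have : k * z * k⁻¹ = h * x * h⁻¹ := by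
          rw [← h4]; group
        calc (k⁻¹ * h) * x * (k⁻¹ * h)⁻¹ = k⁻¹ * (h * x * h⁻¹) * k := by group
          _ = k⁻¹ * (k * z * k⁻¹) * k := by rw [this]
          _ = z := by group
      · have : k * z * k⁻¹ = h * (h⁻¹ * (k * z * k⁻¹) * h) * h⁻¹ := by group
        rw [this, h4]
      · exfalso
        apply hxznc (k⁻¹ * h)
        have : k * z * k⁻¹ = h * (x * z) * h⁻¹ := by
          rw [← h4]; group
        calc (k⁻¹ * h) * (x * z) * (k⁻¹ * h)⁻¹ = k⁻¹ * (h * (x * z) * h⁻¹) * k := by group
          _ = k⁻¹ * (k * z * k⁻¹) * k := by rw [this]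
          _ = z := by group
    -- all conjugates of `z` commute
    have hcomm : ∀ g k : G, Commute (k * z * k⁻¹) (g * z * g⁻¹) := by
      intro g k
      set a := k * z * k⁻¹ with ha
      set b := g * x * g⁻¹ with hb
      have ha2 : a ^ 2 = 1 := sq_of ((conj_order k z).trans hzord)
      have hb2 : b ^ 2 = 1 := sq_of ((conj_order g x).trans hx)
      have haord : orderOf a = 2 := (conj_order k z).trans hzord
      have hbord : orderOf b = 2 := (conj_order g x).trans hx
      have heven : Even (orderOf (a * b)) := by
        rw [← Nat.not_odd_iff_even]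
        intro hodd
        obtain ⟨d, -, hd⟩ := Cfsg.Agent.Lib.Involutions.Dihedral.exists_conj_of_odd hb2 ha2
          (by
            have : b * a = (a * b)⁻¹ := by
              rw [mul_inv_rev, inv_eq_of_mul_eq_one_left (by rw [← sq]; exact ha2 : a * a = 1),
                inv_eq_of_mul_eq_one_left (by rw [← sq]; exact hb2 : b * b = 1)]
            rw [this, orderOf_inv]; exact hodd)
        apply hznc (k⁻¹ * d * g)
        have : z = k⁻¹ * a * k := by rw [ha]; group
        rw [this, ← hd, hb]; group
      obtain ⟨hw1, hw2, hw3⟩ := Cfsg.Agent.Lib.Involutions.Dihedral.central_involution ha2 hb2 heven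
      set w := (a * b) ^ (orderOf (a * b) / 2) with hw
      have hc1 : Commute (g⁻¹ * w * g) x := by
        have := congrArg (fun t => g⁻¹ * t * g) hw3.eq
        show g⁻¹ * w * g * x = x * (g⁻¹ * w * g)
        simpa [hb, mul_assoc] using this
      have hc2 : orderOf (g⁻¹ * w * g) = 2 := by
        have h3 := conj_order g⁻¹ w
        rw [inv_inv] at h3
        rw [h3, hw1]
      have hwconj : w = g * (g⁻¹ * w * g) * g⁻¹ := by group
      rcases hI _ hc2 hc1 with h4 | h4 | h4
      · exfalso
        have hwb : w = b := by rw [hwconj, h4]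
        have hbz : b ∈ Subgroup.zpowers (a * b) := by
          have h7 : w ∈ Subgroup.zpowers (a * b) := Subgroup.npow_mem_zpowers (a * b) _
          rwa [hwb] at h7
        have hab : a * b ∈ Subgroup.zpowers (a * b) := Subgroup.mem_zpowers _
        have ham : a ∈ Subgroup.zpowers (a * b) := by
          have := (Subgroup.zpowers (a * b)).mul_mem hab ((Subgroup.zpowers (a * b)).inv_mem hbz)
          simpa using this
        exact Cfsg.Agent.Lib.Involutions.Dihedral.not_mem_zpowers haord hbord ham
      · have hwz : w = g * z * g⁻¹ := by rw [hwconj, h4]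
        rw [← hwz]
        exact hw2.symm
      · have hwxz : w = (g * u) * x * (g * u)⁻¹ := by
          rw [hwconj, h4, ← huxz]; group
        have hca : Commute a w := hw2.symm
        rw [hwxz] at hca
        have := hB (g * u) k hca
        have huz : (g * u) * z * (g * u)⁻¹ = g * z * g⁻¹ := by
          have h1 : u * z = z * u := (hzcomm u huS).eq.symm
          calc (g * u) * z * (g * u)⁻¹ = g * (u * z) * u⁻¹ * g⁻¹ := by group
            _ = g * (z * u) * u⁻¹ * g⁻¹ := by rw [h1]
            _ = g * z * g⁻¹ := by group
        rw [huz] at this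
        rw [ha] at *
        rw [this]
    -- hence `G` is commutative
    have hNC : (Subgroup.normalClosure ({z} : Set G)) = ⊤ := by
      rcases (Subgroup.normalClosure_normal (s := ({z} : Set G))).eq_bot_or_eq_top with hb | ht
      · exfalso
        have : z ∈ Subgroup.normalClosure ({z} : Set G) :=
          Subgroup.subset_normalClosure (Set.mem_singleton z)
        rw [hb, Subgroup.mem_bot] at this
        rw [this] at hzord
        simp at hzord
      · exact ht
    have hcomm' : ∀ p ∈ Group.conjugatesOfSet ({z} : Set G), ∀ q ∈ Group.conjugatesOfSet ({z} : Set G),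
        Commute p q := by
      intro p hp q hq
      rw [Group.mem_conjugatesOfSet_iff] at hp hq
      obtain ⟨a, ha, hap⟩ := hp
      obtain ⟨b, hb, hbq⟩ := hq
      rw [Set.mem_singleton_iff] at ha hb
      subst ha
      subst hb
      obtain ⟨k, rfl⟩ := isConj_iff.mp hap
      obtain ⟨g, rfl⟩ := isConj_iff.mp hbq
      exact hcomm g k
    have h1 := Subgroup.isMulCommutative_closure hcomm'
    have hall : ∀ p q : G, Commute p q := by
      intro p q
      have hp : p ∈ Subgroup.closure (Group.conjugatesOfSet ({z} : Set G)) := by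
        have : p ∈ Subgroup.normalClosure ({z} : Set G) := by rw [hNC]; exact Subgroup.mem_top p
        exact this
      have hq : q ∈ Subgroup.closure (Group.conjugatesOfSet ({z} : Set G)) := by
        have : q ∈ Subgroup.normalClosure ({z} : Set G) := by rw [hNC]; exact Subgroup.mem_top q
        exact this
      have := h1.is_comm.comm (⟨p, hp⟩ : Subgroup.closure _) ⟨q, hq⟩
      exact congrArg Subtype.val this
    apply huxne
    rw [(hall u x).eq, mul_assoc, mul_inv_cancel, mul_one]
  obtain ⟨S, hSC⟩ := part1
  refine ⟨⟨S, hSC⟩, ?_⟩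
  -- Part 2: all involutions are conjugate.
  have memS : ∀ {v : G}, v ∈ (S : Subgroup G) → Commute v x := by
    intro v hv
    have := hSC hv
    rw [Subgroup.mem_centralizer_iff] at this
    exact (this x (Set.mem_singleton x)).symm
  -- every involution has a conjugate in `S`
  have hconjS : ∀ v : G, orderOf v = 2 → ∃ g : G, g * v * g⁻¹ ∈ (S : Subgroup G) := by
    intro v hv
    have hp : IsPGroup 2 (Subgroup.zpowers v) := by
      apply IsPGroup.of_card (n := 1)
      rw [Nat.card_zpowers, hv, pow_one]
    obtain ⟨R, hR⟩ := hp.exists_le_sylow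
    obtain ⟨g, hg⟩ := MulAction.exists_smul_eq G R S
    refine ⟨g, ?_⟩
    rw [← hg, Sylow.coe_subgroup_smul]
    exact ⟨v, hR (Subgroup.mem_zpowers v), rfl⟩
  -- it suffices: every involution of `C(x)` is conjugate to `x`.
  have key : ∀ y : G, orderOf y = 2 → Commute y x → IsConj x y := by
    intro y hy hyx
    by_contra hnc
    -- then `y` lies outside the class of `x`.
    by_cases hiso : IsIsolatedInvolution x
    · -- `x` is central; then `x` is the only involution
      have hcen := central_of_isolated hiso
      have := eq_of_central hx hcen hy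
      exact hnc (this ▸ IsConj.refl x)
    · -- `x` has another conjugate commuting with it
      have hex : ∃ g : G, Commute x (g * x * g⁻¹) ∧ g * x * g⁻¹ ≠ x := by
        by_contra hcon
        push Not at hcon
        exact hiso ⟨hx, hcon⟩
      obtain ⟨g, hgc, hgne⟩ := hex
      set x' := g * x * g⁻¹ with hx'
      have hx'ord : orderOf x' = 2 := (conj_order g x).trans hx
      have hx'2 : x' ^ 2 = 1 := sq_of hx'ord
      have hyne : y ≠ x := fun h => hnc (h ▸ IsConj.refl x)
      have hyne' : y ≠ x' := fun h => hnc (by rw [h]; exact isConj_iff.mpr ⟨g, rfl⟩)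
      have hxx'ord : orderOf (x * x') = 2 := by
        apply orderOf_eq_prime
        · rw [hgc.mul_pow, hx2, hx'2, one_mul]
        · intro h
          have h1 : x' = x⁻¹ := eq_inv_of_mul_eq_one_right h
          apply hgne
          rw [h1]
          exact inv_eq_of_mul_eq_one_left (by rw [← sq]; exact hx2)
      have hcx : Commute (x * x') x := (Commute.refl x).mul_left hgc.symm
      have hne1 : x * x' ≠ x := by
        intro h
        have : x' = 1 := by simpa using h
        rw [this] at hx'ord
        simp at hx'ord
      have hne2 : x * x' ≠ x' := by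
        intro h
        have : x = 1 := by simpa using h
        rw [this] at hx
        simp at hx
      have hall := fun (v : G) (hv : orderOf v = 2) (hvx : Commute v x) =>
        mem_three h3 hx hx'ord hxx'ord hv (Commute.refl x) hgc.symm hcx hvx (Ne.symm hgne)
          (Ne.symm hne1) (Ne.symm hne2)
      have hyw : y = x * x' := by
        rcases hall y hy hyx with h | h | h
        · exact absurd h hyne
        · exact absurd h hyne'
        · exact h
      -- `y` is isolated
      have hisoy : IsIsolatedInvolution y := by
        refine ⟨hy, ?_⟩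
        intro k hk
        set y' := k * y * k⁻¹ with hy'
        have hy'ord : orderOf y' = 2 := (conj_order k y).trans hy
        have hy2 : y ^ 2 = 1 := sq_of hy
        have hy'2 : y' ^ 2 = 1 := sq_of hy'ord
        -- a Sylow subgroup containing both
        have hA : IsPGroup 2 (Subgroup.closure ({y, y'} : Set G)) := by
          have hcl : ∀ w ∈ Subgroup.closure ({y, y'} : Set G), w ^ 2 = 1 := by
            intro w hw
            have hcm : ∀ p ∈ ({y, y'} : Set G), ∀ q ∈ ({y, y'} : Set G), Commute p q := by
              intro p hp q hq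
              rcases hp with rfl | hp <;> rcases hq with rfl | hq
              · exact Commute.refl _
              · rw [Set.mem_singleton_iff] at hq; subst hq; exact hk
              · rw [Set.mem_singleton_iff] at hp; subst hp; exact hk.symm
              · rw [Set.mem_singleton_iff] at hp hq; subst hp; subst hq; exact Commute.refl _
            have hn1 : ∀ p ∈ ({y, y'} : Set G), p ^ 2 = 1 := by
              intro p hp
              rcases hp with rfl | hp
              · exact hy2
              · rw [Set.mem_singleton_iff] at hp; subst hp; exact hy'2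
            exact Cfsg.Agent.Lib.Kazarin.Main.pow_eq_one_of_mem_closure hcm hn1 hw
          intro w
          exact ⟨1, by rw [pow_one]; exact Subtype.ext (by simpa using hcl w w.2)⟩
        obtain ⟨R, hR⟩ := hA.exists_le_sylow
        obtain ⟨d, hd⟩ := MulAction.exists_smul_eq G R S
        have hmem : ∀ v ∈ Subgroup.closure ({y, y'} : Set G), d * v * d⁻¹ ∈ (S : Subgroup G) := by
          intro v hv
          rw [← hd, Sylow.coe_subgroup_smul]
          exact ⟨v, hR hv, rfl⟩
        have hdy := hmem y (Subgroup.subset_closure (Set.mem_insert y _))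
        have hdy' := hmem y' (Subgroup.subset_closure (Set.mem_insert_of_mem _ (Set.mem_singleton _)))
        -- an element of `S` conjugate to `y` equals `y`
        have huniq : ∀ v : G, v ∈ (S : Subgroup G) → IsConj y v → v = y := by
          intro v hv hconj
          have hvord : orderOf v = 2 := by
            obtain ⟨c, rfl⟩ := isConj_iff.mp hconj
            exact (conj_order c y).trans hy
          rcases hall v hvord (memS hv) with h | h | h
          · exfalso
            apply hnc
            rw [h] at hconj
            exact hconj.symm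
          · exfalso
            apply hnc
            rw [h] at hconj
            exact (isConj_iff.mpr ⟨g, rfl⟩ : IsConj x x').trans hconj.symm
          · rw [h, hyw]
        have e1 := huniq _ hdy (isConj_iff.mpr ⟨d, rfl⟩)
        have e2 := huniq _ hdy' (isConj_iff.mpr ⟨d * k, by rw [hy']; group⟩)
        have : d * y' * d⁻¹ = d * y * d⁻¹ := by rw [e1, e2]
        have h5 := congrArg (fun t => d⁻¹ * t * d) this
        simpa [mul_assoc] using h5
      have hcen := central_of_isolated hisoy
      have := eq_of_central hy hcen hx
      exact hyne this.symm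
  intro u v hu hv
  obtain ⟨g, hg⟩ := hconjS u hu
  obtain ⟨k, hk⟩ := hconjS v hv
  have h1 : IsConj x (g * u * g⁻¹) := key _ ((conj_order g u).trans hu) (memS hg)
  have h2 : IsConj x (k * v * k⁻¹) := key _ ((conj_order k v).trans hv) (memS hk)
  have h3' : IsConj u (g * u * g⁻¹) := isConj_iff.mpr ⟨g, rfl⟩
  have h4 : IsConj v (k * v * k⁻¹) := isConj_iff.mpr ⟨k, rfl⟩
  exact h3'.trans (h1.symm.trans (h2.trans h4.symm))

end Cfsg.Agent.S3279
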