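import Cfsg.Statements.S3299
import Cfsg.Agent.Lib.LocalStruct.LxTransfer

set_option autoImplicit false
open Cfsg

namespace Cfsg.Agent.S3299

/-- Let G be a finite group with no nontrivial 2-group quotient (O^2(G) = G), z an involution of G with H = C_G(z), and suppose E = O_2(H) is extraspecial with C_G(E) ≤ E and of order 2^(2n+1) with n ≥ 2. Then E is contained in every normal subgroup of H of index 2. -/
theorem result {G : Type*} [Group G] [Finite G] (hres : Cfsg.pResidual 2 G = ⊤) (z : G) (hz : orderOf z = 2)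
    (E : Subgroup G) (hE : E = (Cfsg.pCore 2 ↥(Subgroup.centralizer ({z} : Set G))).map (Subgroup.centralizer ({z} : Set G)).subtype)
    (hext : Cfsg.IsExtraspecial 2 ↥E) (hcent : Subgroup.centralizer (E : Set G) ≤ E) (n : ℕ) (hn : 2 ≤ n) (hcard : Nat.card ↥E = 2 ^ (2 * n + 1))
    (K : Subgroup G) (hKH : K ≤ Subgroup.centralizer ({z} : Set G))
    (hKn : ∀ h ∈ Subgroup.centralizer ({z} : Set G), K.map (MulAut.conj h).toMonoidHom = K)
    (hKi : K.relIndex (Subgroup.centralizer ({z} : Set G)) = 2) : E ≤ K := by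
  subst hE
  have hLX := Cfsg.Agent.Lib.LocalStruct.LxExtra.lx_of_qq hz hext hcent
  refine Cfsg.Agent.Lib.LocalStruct.LxTransfer.le_of_relIndex
    (Cfsg.Agent.Lib.LocalStruct.LxTransfer.hom_trivial hres) hLX ?_ hKH hKi
  rw [hcard]
  calc 32 = 2 ^ 5 := by norm_num
    _ ≤ 2 ^ (2 * n + 1) := Nat.pow_le_pow_right (by norm_num) (by omega)


end Cfsg.Agent.S3299
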