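import Cfsg.Statements.S3300
import Cfsg.Agent.Lib.ExtraFusion.Main

set_option autoImplicit false
open Cfsg

namespace Cfsg.Agent.S3300

/-- Let G be a finite group with no nontrivial 2-group quotient (O^2(G) = G), z an involution of G with H = C_G(z), and suppose E = O_2(H) is extraspecial with C_G(E) ≤ E and of order 2^(2n+1) with n ≥ 3. If H has a normal subgroup of index 2, then z is conjugate in G to an element of E other than z. -/
theorem result {G : Type*} [Group G] [Finite G] (hres : Cfsg.pResidual 2 G = ⊤) (z : G) (hz : orderOf z = 2)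
    (E : Subgroup G) (hE : E = (Cfsg.pCore 2 ↥(Subgroup.centralizer ({z} : Set G))).map (Subgroup.centralizer ({z} : Set G)).subtype)
    (hext : Cfsg.IsExtraspecial 2 ↥E) (hcent : Subgroup.centralizer (E : Set G) ≤ E) (n : ℕ) (hn : 3 ≤ n) (hcard : Nat.card ↥E = 2 ^ (2 * n + 1))
    (K : Subgroup G) (hKH : K ≤ Subgroup.centralizer ({z} : Set G))
    (hKn : ∀ h ∈ Subgroup.centralizer ({z} : Set G), K.map (MulAut.conj h).toMonoidHom = K)
    (hKi : K.relIndex (Subgroup.centralizer ({z} : Set G)) = 2) :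
    ∃ g : G, g * z * g⁻¹ ∈ E ∧ g * z * g⁻¹ ≠ z := by
  classical
  subst hE
  by_contra hcon
  push Not at hcon
  have hzq : Cfsg.IsExtraspecial 2 ↥(Cfsg.Agent.Lib.LargeExtra.Basic.QQ z) := hext
  have hS := Cfsg.Agent.Lib.LargeExtra.Basic.settingAt_of_extraspecial hz hzq
  have hnorm : ∀ h ∈ Cfsg.Agent.Lib.ExtraTransfer.Main.HH z, ∀ e ∈ Cfsg.Agent.Lib.LargeExtra.Basic.QQ z,
      h * e * h⁻¹ ∈ Cfsg.Agent.Lib.LargeExtra.Basic.QQ z := by
    intro h hh e he
    have h1 := Cfsg.Agent.Lib.LargeExtra.Basic.QQ_conj h z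
    have h2 : h * z * h⁻¹ = z := by
      rw [← Cfsg.Agent.Lib.ExtraTransfer.Main.mem_HH.1 hh]
      group
    rw [h2] at h1
    rw [h1]
    exact ⟨e, he, rfl⟩
  have ctx : Cfsg.Agent.Lib.ExtraFusion.Setup.Ctx z (Cfsg.Agent.Lib.LargeExtra.Basic.QQ z) :=
    ⟨hS, hcent, hnorm, hcon⟩
  have h128 : 128 ≤ Nat.card ↥(Cfsg.Agent.Lib.LargeExtra.Basic.QQ z) := by
    have h1 : Nat.card ↥(Cfsg.Agent.Lib.LargeExtra.Basic.QQ z) = 2 ^ (2 * n + 1) := hcard
    rw [h1]
    calc 128 = 2 ^ 7 := by norm_num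
      _ ≤ 2 ^ (2 * n + 1) := Nat.pow_le_pow_right (by norm_num) (by omega)
  -- the sign character with kernel `K`
  let H := Subgroup.centralizer ({z} : Set G)
  have hidx : (K.subgroupOf H).index = 2 := hKi
  let κ₀ : H → ℤˣ := fun h => if (h : G) ∈ K then 1 else -1
  have hmul : ∀ a b : H, κ₀ (a * b) = κ₀ a * κ₀ b := by
    intro a b
    have h1 := Subgroup.mul_mem_iff_of_index_two hidx (a := a) (b := b)
    simp only [Subgroup.mem_subgroupOf] at h1
    simp only [κ₀]
    by_cases ha : (a : G) ∈ K <;> by_cases hb : (b : G) ∈ K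
    · rw [if_pos (h1.2 (by simp [ha, hb])), if_pos ha, if_pos hb]; rfl
    · rw [if_neg (fun h => hb ((h1.1 h).1 ha)), if_pos ha, if_neg hb]; rfl
    · rw [if_neg (fun h => ha ((h1.1 h).2 hb)), if_neg ha, if_pos hb]; rfl
    · rw [if_pos (h1.2 (by simp [ha, hb])), if_neg ha, if_neg hb]; rfl
  let κ : H →* ℤˣ := MonoidHom.mk' κ₀ hmul
  have hall := Cfsg.Agent.Lib.ExtraFusion.Main.main hres ctx h128 κ
  have hle : K.subgroupOf H = ⊤ := by
    rw [Subgroup.eq_top_iff']
    intro a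
    rw [Subgroup.mem_subgroupOf]
    by_contra ha
    have h1 := hall a
    change κ₀ a = 1 at h1
    simp only [κ₀] at h1
    rw [if_neg ha] at h1
    exact absurd h1 (by decide)
  rw [hle, Subgroup.index_top] at hidx
  omega

end Cfsg.Agent.S3300
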