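import Cfsg.Statements.S3301
import Cfsg.Agent.Lib.ExtraTransfer.Main

set_option autoImplicit false
open Cfsg

namespace Cfsg.Agent.S3301

/-- Let G be a finite group with no nontrivial 2-group quotient (O^2(G) = G), z an involution of G with H = C_G(z), and suppose E = O_2(H) is extraspecial with C_G(E) ≤ E. Then the Sylow 2-subgroups of H/[H, H] are elementary abelian: every element of 2-power order of the abelianization of H has order at most 2. -/
theorem result {G : Type*} [Group G] [Finite G] (hres : Cfsg.pResidual 2 G = ⊤) (z : G) (hz : orderOf z = 2)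
    (E : Subgroup G) (hE : E = (Cfsg.pCore 2 ↥(Subgroup.centralizer ({z} : Set G))).map (Subgroup.centralizer ({z} : Set G)).subtype)
    (hext : Cfsg.IsExtraspecial 2 ↥E) (hcent : Subgroup.centralizer (E : Set G) ≤ E) :
    ∀ q : Abelianization ↥(Subgroup.centralizer ({z} : Set G)), (∃ k : ℕ, orderOf q = 2 ^ k) → q ^ 2 = 1 := by
  classical
  subst hE
  have hzq : Cfsg.IsExtraspecial 2 ↥(Cfsg.Agent.Lib.LargeExtra.Basic.QQ z) := hext
  have hS := Cfsg.Agent.Lib.LargeExtra.Basic.settingAt_of_extraspecial hz hzq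
  have hnorm : ∀ h ∈ Cfsg.Agent.Lib.ExtraTransfer.Main.HH z, ∀ e ∈ Cfsg.Agent.Lib.LargeExtra.Basic.QQ z,
      h * e * h⁻¹ ∈ Cfsg.Agent.Lib.LargeExtra.Basic.QQ z := by
    intro h hh e he
    have h1 := Cfsg.Agent.Lib.LargeExtra.Basic.QQ_conj h z
    have h2 : h * z * h⁻¹ = z := by
      rw [← Cfsg.Agent.Lib.ExtraTransfer.Main.mem_HH.1 hh]
      group
    rw [h2] at h1
    rw [h1]
    exact ⟨e, he, rfl⟩
  have hcard : ∃ n : ℕ, Nat.card ↥(Cfsg.Agent.Lib.LargeExtra.Basic.QQ z) = 2 ^ (2 * n + 1) := by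
    have : Fact (Nat.Prime 2) := ⟨Nat.prime_two⟩
    obtain ⟨n, -, hn⟩ := Cfsg.Agent.Lib.PGroups.Special.IsExtraspecial.card_eq hzq
    exact ⟨n, hn⟩
  intro q hq
  by_contra hq2
  obtain ⟨κ, hL, u, hu⟩ := Cfsg.Agent.Lib.ExtraTransfer.Main.exists_sign_char q hq hq2
  exact hu (Cfsg.Agent.Lib.ExtraTransfer.Main.core hres hS hcent hnorm hcard κ hL u)

end Cfsg.Agent.S3301
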