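import Cfsg.Statements.S3304
import Cfsg.Agent.Lib.TwoFusion.RankOneQ8
import Cfsg.Agent.Lib.SolvStruct.Fit
import Cfsg.Agent.Lib.LBalance.Basic
import Cfsg.Agent.S0520
import Cfsg.Agent.S0016

set_option autoImplicit false
open Cfsg

namespace Cfsg.Agent.S3304


open Subgroup Cfsg.Agent.Lib.TwoFusion.RankOneQ8 Cfsg.Agent.Lib.ElementFusion.SL23

section lift

variable {G Q : Type*} [Group G] [Finite G] [Group Q]

/-- A Sylow 2-subgroup over a given one, containing a given 2-subgroup. -/
lemma exists_sylow_over (π : G →* Q) (hπ : Function.Surjective π) {P : Subgroup G}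
    (hP : IsPGroup 2 P) (S : Sylow 2 Q) (hPS : P.map π ≤ S) :
    ∃ T : Sylow 2 G, P ≤ T ∧ (T : Subgroup G).map π = S := by
  haveI : Fact (Nat.Prime 2) := ⟨Nat.prime_two⟩
  haveI : Finite Q := Finite.of_surjective π hπ
  set X := (S : Subgroup Q).comap π with hX
  have hPX : P ≤ X := Subgroup.map_le_iff_le_comap.mp hPS
  have hP' : IsPGroup 2 (P.subgroupOf X) := hP.comap_of_injective X.subtype X.subtype_injective
  obtain ⟨R, hR⟩ := hP'.exists_le_sylow
  let T₀ : Subgroup G := R.map X.subtype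
  have hT₀ : IsPGroup 2 T₀ := R.2.map X.subtype
  have hT₀i : ¬ 2 ∣ T₀.index := by
    have hXi : X.index = (S : Subgroup Q).index := Subgroup.index_comap_of_surjective _ hπ
    rw [Subgroup.index_map_subtype R.1, hXi]
    exact Nat.Prime.not_dvd_mul Fact.out R.not_dvd_index S.not_dvd_index
  let T : Sylow 2 G := hT₀.toSylow hT₀i
  have hT : (T : Subgroup G) = T₀ := IsPGroup.toSylow_coe hT₀ hT₀i
  refine ⟨T, ?_, ?_⟩
  · rw [hT]
    intro p hp
    exact ⟨⟨p, hPX hp⟩, hR (by simpa [mem_subgroupOf] using hp), rfl⟩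
  · have hle : (T : Subgroup G).map π ≤ S := by
      rw [hT, Subgroup.map_le_iff_le_comap]
      exact Subgroup.map_subtype_le R.1
    have hs := (T.mapSurjective hπ).3 S.2 hle
    rw [Sylow.coe_mapSurjective] at hs
    exact hs.symm

/-- Lifting a 2-subgroup. -/
lemma exists_lift (π : G →* Q) (hπ : Function.Surjective π) (A : Subgroup Q) (hA : IsPGroup 2 A) :
    ∃ P : Subgroup G, IsPGroup 2 P ∧ P.map π = A := by
  haveI : Fact (Nat.Prime 2) := ⟨Nat.prime_two⟩
  haveI : Finite Q := Finite.of_surjective π hπ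
  let f : A.comap π →* A := π.subgroupComap A
  have hf : Function.Surjective f := π.subgroupComap_surjective_of_surjective A hπ
  have htop : IsPGroup 2 (⊤ : Subgroup A) := hA.to_subgroup ⊤
  let S₀ : Sylow 2 A := htop.toSylow (by simp)
  obtain ⟨R, hR⟩ := Sylow.mapSurjective_surjective hf 2 S₀
  refine ⟨(R : Subgroup (A.comap π)).map (A.comap π).subtype, R.2.map _, ?_⟩
  apply le_antisymm
  · rintro _ ⟨_, ⟨r, -, rfl⟩, rfl⟩
    exact r.2
  · intro a ha
    have h1 : (⟨a, ha⟩ : A) ∈ ((R.mapSurjective hf : Sylow 2 A) : Subgroup A) := by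
      rw [hR]
      change (⟨a, ha⟩ : A) ∈ (S₀ : Subgroup A)
      rw [show (S₀ : Subgroup A) = ⊤ from IsPGroup.toSylow_coe htop _]
      trivial
    rw [Sylow.coe_mapSurjective] at h1
    obtain ⟨r, hr, hra⟩ := h1
    refine ⟨r, ⟨r, hr, rfl⟩, ?_⟩
    exact congrArg Subtype.val hra

end lift

theorem core_thm {G Q : Type*} [Group G] [Finite G] [Group Q] [Finite Q] [Group.IsSolvable Q]
    (π : G →* Q) (hπ : Function.Surjective π) (hker' : ∀ x, π x = 1 → (orderOf x).Coprime 2)
    (hQO : Cfsg.pPrimeCore 2 Q = ⊥)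
    (hI : ∀ S T : Sylow 2 G, S ≠ T → Cfsg.PRankLE 2 1 ↥((S : Subgroup G) ⊓ (T : Subgroup G))) :
    (∃ P : Sylow 2 Q, (P : Subgroup Q).Normal) ∨
    Nonempty (Q ≃* GL (Fin 2) (ZMod 3)) ∨
    (Nat.card Q = 48 ∧ Nat.card ↥(Subgroup.center Q) = 2 ∧
      Nonempty (Q ⧸ Subgroup.center Q ≃* Equiv.Perm (Fin 4)) ∧
      ∀ P : Sylow 2 Q, Nonempty (↥(P : Subgroup Q) ≃* QuaternionGroup 4)) := by

  classical
  haveI : Fact (Nat.Prime 2) := ⟨Nat.prime_two⟩
  by_cases hn : ∃ P : Sylow 2 Q, (P : Subgroup Q).Normal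
  · exact Or.inl hn
  right
  set V := Cfsg.pCore 2 Q with hV
  haveI hVn : V.Normal := Cfsg.pCore_normal 2 Q
  have hVp : IsPGroup 2 V := Cfsg.Agent.Lib.Core.Basic.pCore_isPGroup
  have hF : Cfsg.fittingSubgroup Q ≤ V := Cfsg.Agent.Lib.LBalance.Basic.fitting_le_pCore hQO
  have hC : centralizer (V : Set Q) ≤ V :=
    (Subgroup.centralizer_le hF).trans
      (Cfsg.Agent.Lib.SolvStruct.Fit.centralizer_fitting_le.trans hF)
  -- two distinct Sylow subgroups of `Q`
  obtain ⟨S₁, S₂, hS⟩ : ∃ S₁ S₂ : Sylow 2 Q, S₁ ≠ S₂ := by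
    by_contra h
    push Not at h
    obtain ⟨S⟩ : Nonempty (Sylow 2 Q) := inferInstance
    haveI : Subsingleton (Sylow 2 Q) := ⟨h⟩
    exact hn ⟨S, S.normal_of_subsingleton⟩
  -- no four-group in `V`
  have hnoK : ∀ U : Subgroup Q, U ≤ V → ¬ IsKleinFour U := by
    intro U hUV hK
    have hUc := (Cfsg.Agent.S0520.isKleinFour_iff'.mp hK).1
    have hUsq := (Cfsg.Agent.S0520.isKleinFour_iff'.mp hK).2
    have hUp : IsPGroup 2 U := IsPGroup.of_card (n := 2) (by rw [hUc]; norm_num)
    obtain ⟨P, hPp, hPU⟩ := exists_lift π hπ U hUp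
    have hle : ∀ S : Sylow 2 Q, P.map π ≤ S := fun S => by
      rw [hPU]
      exact hUV.trans (Cfsg.Agent.Lib.Core.Basic.pCore_le_sylow S)
    obtain ⟨T₁, hT₁, hT₁S⟩ := exists_sylow_over π hπ hPp S₁ (hle S₁)
    obtain ⟨T₂, hT₂, hT₂S⟩ := exists_sylow_over π hπ hPp S₂ (hle S₂)
    have hTne : T₁ ≠ T₂ := by
      rintro rfl
      apply hS
      exact Sylow.ext (hT₁S.symm.trans hT₂S)
    have hr := hI T₁ T₂ hTne
    -- `P` is a four-group
    have hker : ∀ x ∈ P, π x = 1 → x = 1 := by
      intro x hx h1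
      have hodd := hker' x h1
      obtain ⟨k, hk⟩ := (IsPGroup.iff_orderOf.mp hPp) ⟨x, hx⟩
      have hk' : orderOf x = 2 ^ k := by
        rw [← hk, Subgroup.orderOf_mk]
      rw [hk'] at hodd
      rcases k with _ | k
      · rw [pow_zero] at hk'
        exact orderOf_eq_one_iff.mp hk'
      · exfalso
        rw [pow_succ] at hodd
        have : 2 ∣ Nat.gcd (2 ^ k * 2) 2 := Nat.dvd_gcd (dvd_mul_left _ _) dvd_rfl
        rw [hodd] at this
        omega
    have hPU' : Function.Bijective (π.subgroupMap P) := by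
      constructor
      · rw [injective_iff_map_eq_one]
        intro x hx
        have h2 : π x = 1 := congrArg Subtype.val hx
        exact Subtype.ext (hker x x.2 h2)
      · exact π.subgroupMap_surjective P
    have hPcard : Nat.card P = 4 := by
      rw [Nat.card_congr (Equiv.ofBijective _ hPU'), hPU, hUc]
    have hPsq : ∀ x : P, x ^ 2 = 1 := by
      intro x
      obtain ⟨u, hu⟩ : ∃ u : U, (u : Q) = π x := by
        refine ⟨⟨π x, ?_⟩, rfl⟩
        rw [← hPU]
        exact ⟨x, x.2, rfl⟩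
      have h1 : π ((x : G) ^ 2) = 1 := by
        rw [map_pow, ← hu]
        have := congrArg Subtype.val (hUsq u)
        simpa using this
      exact Subtype.ext (hker _ (pow_mem x.2 2) h1)
    have hPK : IsKleinFour P := Cfsg.Agent.S0520.isKleinFour_iff'.mpr ⟨hPcard, hPsq⟩
    exact Cfsg.Agent.S0520.not_rank_of_fourIn ⟨P, le_inf hT₁ hT₂, hPK⟩ hr
  -- a unique subgroup of order two
  have huniq : ∀ A B : Subgroup V, Nat.card A = 2 → Nat.card B = 2 → A = B := by
    intro A B hA hB
    have hne : Nontrivial V := by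
      by_contra h
      rw [not_nontrivial_iff_subsingleton] at h
      have : Nat.card A = 1 := Nat.card_of_subsingleton (1 : A)
      omega
    haveI := hne
    obtain ⟨c, hc⟩ : ∃ c : Subgroup.center V, orderOf c = 2 := by
      have hcn := hVp.center_nontrivial
      have hcp : IsPGroup 2 (Subgroup.center V) := hVp.to_subgroup _
      obtain ⟨n, hn'⟩ := IsPGroup.iff_card.mp hcp
      apply exists_prime_orderOf_dvd_card'
      rw [hn']
      have hn0 : n ≠ 0 := by
        rintro rfl
        rw [pow_zero] at hn'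
        exact (Finite.one_lt_card (α := Subgroup.center V)).ne' hn'
      exact dvd_pow_self 2 hn0
    have key : ∀ X : Subgroup V, Nat.card X = 2 → X = zpowers (c : V) := by
      intro X hX
      obtain ⟨x, hx⟩ : ∃ x : X, orderOf x = 2 :=
        exists_prime_orderOf_dvd_card' 2 (by rw [hX])
      have hx' : orderOf (x : V) = 2 := by rw [← hx]; exact Subgroup.orderOf_coe x
      have hc' : orderOf (c : V) = 2 := by rw [← hc]; exact Subgroup.orderOf_coe c
      have hxc : (x : V) = c := by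
        by_contra hne'
        have hcomm : (x : V) * c = c * x := Subgroup.mem_center_iff.mp c.2 x
        obtain ⟨W, hW, -⟩ := Cfsg.Agent.S0502.exists_four (x : V) (c : V)
          (by rw [← hx', pow_orderOf_eq_one]) (by rw [← hc', pow_orderOf_eq_one]) hcomm
          (by intro h; rw [h, orderOf_one] at hx'; omega)
          (by intro h; rw [h, orderOf_one] at hc'; omega) hne'
        refine hnoK (W.map V.subtype) ?_ (Cfsg.Agent.S0520.klein_map _ Subtype.val_injective W hW)
        rintro _ ⟨w, -, rfl⟩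
        exact w.2
      symm
      apply Subgroup.eq_of_le_of_card_ge
      · rw [zpowers_le, ← hxc]
        exact x.2
      · rw [hX, Nat.card_zpowers, hc']
    rw [key A hA, key B hB]
  -- the odd elements
  have hconc : (∀ y : Q, Odd (orderOf y) → MulAut.conjNormal y = (1 : MulAut V)) → False := by
    intro hy
    have hp : IsPGroup 2 Q := by
      intro x
      obtain ⟨k, m, hm, hk⟩ := Nat.exists_eq_two_pow_mul_odd (orderOf_pos x).ne'
      refine ⟨k, ?_⟩
      have h1 : (x ^ 2 ^ k) ^ m = 1 := by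
        rw [← pow_mul, ← hk, pow_orderOf_eq_one]
      have h2 : orderOf (x ^ 2 ^ k) ∣ m := orderOf_dvd_of_pow_eq_one h1
      have h3 : Odd (orderOf (x ^ 2 ^ k)) := Odd.of_dvd_nat hm h2
      have h4 : x ^ 2 ^ k ∈ centralizer (V : Set Q) := by
        rw [mem_centralizer_iff]
        intro v hv
        have h5 := DFunLike.congr_fun (hy _ h3) ⟨v, hv⟩
        have h6 := congrArg Subtype.val h5
        simp only [MulAut.conjNormal_apply, MulAut.one_apply] at h6
        rw [mul_inv_eq_iff_eq_mul] at h6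
        exact h6.symm
      have h7 := hC h4
      obtain ⟨j, hj⟩ := (IsPGroup.iff_orderOf.mp hVp) ⟨_, h7⟩
      rw [Subgroup.orderOf_mk] at hj
      rw [hj] at h3
      rcases j with _ | j
      · rw [pow_zero] at hj
        exact orderOf_eq_one_iff.mp hj
      · exfalso
        rw [pow_succ] at h3
        exact (Nat.not_even_iff_odd.mpr h3) ⟨2 ^ j, by ring⟩
    have hp' : IsPGroup 2 (⊤ : Subgroup Q) := hp.to_subgroup ⊤
    exact hn ⟨hp'.toSylow (by simp), by simp⟩
  have hσpow : ∀ y : Q, (MulAut.conjNormal y : MulAut V) ^ orderOf y = 1 := by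
    intro y
    rw [← map_pow, pow_orderOf_eq_one, map_one]
  rcases Cfsg.Agent.S0016.result 2 hVp huniq with hcyc | ⟨-, k, ⟨φ⟩⟩
  · exfalso
    apply hconc
    intro y hy
    exact Cfsg.Agent.Lib.Zassen.QuatAut.cyclic_odd_aut hVp _ hy (hσpow y)
  · obtain rfl | rfl | hk : k = 0 ∨ k = 1 ∨ 2 ≤ k := by omega
    · exfalso
      apply hconc
      intro y hy
      have hτ : (MulAut.congr φ) (MulAut.conjNormal y : MulAut V) = 1 := by
        haveI : IsCyclic (QuaternionGroup (2 ^ 0)) := QuaternionGroup.quaternionGroup_one_isCyclic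
        refine Cfsg.Agent.Lib.Zassen.QuatAut.cyclic_odd_aut
          (IsPGroup.of_card (n := 2) ?_) _ hy ?_
        · rw [Nat.card_eq_fintype_card, QuaternionGroup.card]
          norm_num
        · rw [← map_pow, hσpow, map_one]
      exact (MulAut.congr φ).injective (by rw [hτ, map_one])
    · exact main_q8 (V := V) (φ : V ≃* Q8) hC hn
    · exfalso
      apply hconc
      intro y hy
      have hτ : (MulAut.congr φ) (MulAut.conjNormal y : MulAut V) = 1 :=
        Cfsg.Agent.Lib.Zassen.QuatAut.quat_large_odd_aut k hk _ hy (by rw [← map_pow, hσpow, map_one])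
      exact (MulAut.congr φ).injective (by rw [hτ, map_one])


/-- Let G be a finite solvable group in which the intersection of any two distinct Sylow 2-subgroups has 2-rank at most 1 (contains no Klein four-group). Write Q = G/O(G), O(G) the largest normal subgroup of odd order. Then Q has a normal Sylow 2-subgroup; or Q is isomorphic to GL(2,3); or Q has order 48, centre of order 2 with central quotient isomorphic to the symmetric group of degree 4, and generalized quaternion Sylow 2-subgroups of order 16 (the binary octahedral group). The last two are the two representation groups of the symmetric group of degree 4. -/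
theorem result {G : Type*} [Group G] [Finite G] (hs : Group.IsSolvable G)
    (hI : ∀ S T : Sylow 2 G, S ≠ T → Cfsg.PRankLE 2 1 ↥((S : Subgroup G) ⊓ (T : Subgroup G))) :
    (∃ P : Sylow 2 (G ⧸ Cfsg.oddCore G), (P : Subgroup (G ⧸ Cfsg.oddCore G)).Normal) ∨
    Nonempty ((G ⧸ Cfsg.oddCore G) ≃* GL (Fin 2) (ZMod 3)) ∨
    (Nat.card (G ⧸ Cfsg.oddCore G) = 48 ∧ Nat.card ↥(Subgroup.center (G ⧸ Cfsg.oddCore G)) = 2 ∧
      Nonempty ((G ⧸ Cfsg.oddCore G) ⧸ Subgroup.center (G ⧸ Cfsg.oddCore G) ≃* Equiv.Perm (Fin 4)) ∧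
      ∀ P : Sylow 2 (G ⧸ Cfsg.oddCore G), Nonempty (↥(P : Subgroup (G ⧸ Cfsg.oddCore G)) ≃* QuaternionGroup 4)) := by
  haveI := hs
  exact core_thm (QuotientGroup.mk' (Cfsg.oddCore G)) (QuotientGroup.mk'_surjective _)
    (fun x h1 => Cfsg.Agent.Lib.Core.Basic.orderOf_coprime_of_mem_pPrimeCore (p := 2)
      ((QuotientGroup.eq_one_iff x).1 h1))
    Cfsg.Agent.Lib.Core.Basic.pPrimeCore_quotient_eq_bot hI

end Cfsg.Agent.S3304
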