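import Cfsg.Statements.S3309
import Cfsg.Agent.Lib.TwoFusion.GoodAut
import Cfsg.Agent.Lib.TwoFusion.IndexTwo

set_option autoImplicit false
set_option linter.style.haveILetI false
set_option linter.unusedSectionVars false
open Cfsg

namespace Cfsg.Agent.S3309

open DihedralGroup Subgroup Cfsg.Agent.Lib.PLocal.AlperinG Cfsg.Agent.Lib.TwoFusion

theorem transfer_key {N : Type*} [Group N] [Finite N] (S E : Subgroup N) [hEn : E.Normal] (hES : E ≤ S)
    (hEc : ∀ a ∈ E, ∀ b ∈ E, a * b = b * a)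
    (hodd : Odd S.index)
    (r u z s : N) (hrS : r ∈ S) (hrE : r ∉ E) (hidx : ∀ t ∈ S, t ∉ E → r⁻¹ * t ∈ E)
    (hrr : r * r ∈ E) (hu : u ∈ E) (hz : z ∈ E) (hs : s ∈ E)
    (hru : r⁻¹ * u * r = u)
    (hrs : r⁻¹ * s * r = s * z)
    (hzne : z ≠ 1)
    (hcomz : ∀ a ∈ E, r⁻¹ * a * r = a ∨ r⁻¹ * a * r = a * z)
    (hfix : ∀ a ∈ E, r⁻¹ * a * r = a → a = 1 ∨ a = u ∨ a = z ∨ a = u * z)
    (ϕ : N → ZMod 2) (hϕ : ∀ a ∈ S, ∀ b ∈ S, ϕ (a * b) = ϕ a + ϕ b)
    (hϕu : ϕ u = 1) (hϕz : ϕ z = 0) :
    ∃ F : N → ZMod 2, (∀ a ∈ E, ∀ b ∈ E, F (a * b) = F a + F b) ∧ F u = 1 ∧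
      (∀ x : N, ∀ a ∈ E, F (x⁻¹ * a * x) = F a) := by
  classical
  have : Fintype (N ⧸ S) := Fintype.ofFinite _
  have hconj : ∀ (g a : N), a ∈ E → g⁻¹ * a * g ∈ E := by
    intro g a ha
    have := hEn.conj_mem a ha g⁻¹
    simpa using this
  have hϕ1 : ϕ 1 = 0 := by
    have := hϕ 1 S.one_mem 1 S.one_mem
    rw [one_mul] at this
    have h2 : ϕ 1 + ϕ 1 = 0 := CharTwo.add_self_eq_zero _
    rw [← this] at h2
    exact h2
  have hϕconj : ∀ t ∈ S, ∀ b ∈ S, ϕ (t⁻¹ * b * t) = ϕ b := by
    intro t ht b hb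
    rw [hϕ _ (S.mul_mem (S.inv_mem ht) hb) _ ht, hϕ _ (S.inv_mem ht) _ hb]
    have h1 := hϕ t⁻¹ (S.inv_mem ht) t ht
    rw [inv_mul_cancel, hϕ1] at h1
    calc ϕ t⁻¹ + ϕ b + ϕ t = ϕ b + (ϕ t⁻¹ + ϕ t) := by ring
      _ = ϕ b := by rw [← h1, add_zero]
  have hval : ∀ (g h a : N), a ∈ E → (g : N ⧸ S) = (h : N ⧸ S) → ϕ (g⁻¹ * a * g) = ϕ (h⁻¹ * a * h) := by
    intro g h a ha hgh
    have ht : g⁻¹ * h ∈ S := QuotientGroup.eq.mp hgh
    have h1 := hϕconj _ ht _ (hES (hconj g a ha))
    rw [← h1]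
    congr 1
    group
  have hout : ∀ (q : N ⧸ S), ((q.out : N) : N ⧸ S) = q := fun q => QuotientGroup.out_eq' q
  let F : N → ZMod 2 := fun a => ∑ q : N ⧸ S, ϕ ((q.out)⁻¹ * a * q.out)
  refine ⟨F, ?_, ?_, ?_⟩
  · intro a ha b hb
    show ∑ q : N ⧸ S, ϕ ((q.out)⁻¹ * (a * b) * q.out) =
      ∑ q : N ⧸ S, ϕ ((q.out)⁻¹ * a * q.out) + ∑ q : N ⧸ S, ϕ ((q.out)⁻¹ * b * q.out)
    rw [← Finset.sum_add_distrib]
    apply Finset.sum_congr rfl
    intro q _
    rw [← hϕ _ (hES (hconj _ a ha)) _ (hES (hconj _ b hb))]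
    congr 1
    group
  · -- the key computation
    have hq : ∀ q : N ⧸ S, ϕ ((r • q).out⁻¹ * u * (r • q).out) = ϕ ((q.out)⁻¹ * u * q.out) := by
      intro q
      have h1 : ((r * q.out : N) : N ⧸ S) = ((r • q).out : N) := by
        rw [hout]
        conv_rhs => rw [← hout q]
        rfl
      rw [← hval _ _ u hu h1]
      congr 1
      calc (r * q.out)⁻¹ * u * (r * q.out) = q.out⁻¹ * (r⁻¹ * u * r) * q.out := by group
        _ = q.out⁻¹ * u * q.out := by rw [hru]
    have hfixed : ∀ q : N ⧸ S, r • q = q → ϕ ((q.out)⁻¹ * u * q.out) = 1 := by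
      intro q hq
      set g : N := q.out with hg
      -- `c x = g⁻¹ x g`
      have hrg : g⁻¹ * r * g ∈ S := by
        have h1 : ((r * g : N) : N ⧸ S) = (g : N ⧸ S) := by
          have h0 : ((g : N) : N ⧸ S) = q := hout q
          have h00 : ((r * g : N) : N ⧸ S) = r • ((g : N) : N ⧸ S) := rfl
          rw [h00, h0, hq]
        have h2 := QuotientGroup.eq.mp h1.symm
        have h3 : g⁻¹ * (r * g) = g⁻¹ * r * g := by group
        rwa [h3] at h2
      have hrgE : g⁻¹ * r * g ∉ E := by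
        intro h
        have h2 := hconj g⁻¹ _ h
        have h3 : (g⁻¹)⁻¹ * (g⁻¹ * r * g) * g⁻¹ = r := by group
        rw [h3] at h2
        exact hrE h2
      have hb := hidx _ hrg hrgE
      set b := r⁻¹ * (g⁻¹ * r * g) with hbdef
      have hrg' : g⁻¹ * r * g = r * b := by rw [hbdef]; group
      -- action of `c r` on `E`
      have hact : ∀ a ∈ E, g⁻¹ * (r⁻¹ * (g * a * g⁻¹) * r) * g = r⁻¹ * a * r := by
        intro a ha
        have h1 : g⁻¹ * (r⁻¹ * (g * a * g⁻¹) * r) * g = (g⁻¹ * r * g)⁻¹ * a * (g⁻¹ * r * g) := by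
          group
        rw [h1, hrg']
        have h2 : (r * b)⁻¹ * a * (r * b) = b⁻¹ * (r⁻¹ * a * r) * b := by group
        rw [h2]
        have h3 : r⁻¹ * a * r ∈ E := hconj r a ha
        have h4 := hEc _ (E.inv_mem hb) _ h3
        rw [h4, mul_assoc, inv_mul_cancel, mul_one] 
      set v := g⁻¹ * u * g with hv
      have hvE : v ∈ E := hconj g u hu
      have hvfix : r⁻¹ * v * r = v := by
        have h1 := hact v hvE
        rw [← h1]
        have h2 : g * v * g⁻¹ = u := by rw [hv]; group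
        rw [h2, hru]
      have hzfix : g⁻¹ * z * g = z := by
        -- `s' = g⁻¹ s g`
        set s' := g⁻¹ * s * g with hs'
        have hs'E : s' ∈ E := hconj g s hs
        have h1 := hact s' hs'E
        have h2 : g * s' * g⁻¹ = s := by rw [hs']; group
        rw [h2, hrs] at h1
        have h3 : g⁻¹ * (s * z) * g = s' * (g⁻¹ * z * g) := by rw [hs']; group
        rw [h3] at h1
        rcases hcomz s' hs'E with h4 | h4
        · rw [h4] at h1
          have h5 : g⁻¹ * z * g = 1 := by simpa using h1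
          have h6 : z = 1 := by
            have : z = g * (g⁻¹ * z * g) * g⁻¹ := by group
            rw [this, h5]; group
          exact absurd h6 hzne
        · rw [h4] at h1
          exact mul_left_cancel h1
      rcases hfix v hvE hvfix with h | h | h | h
      · -- `v = 1`
        exfalso
        have h6 : u = 1 := by
          have : u = g * v * g⁻¹ := by rw [hv]; group
          rw [this, h]; group
        rw [h6, hϕ1] at hϕu
        exact absurd hϕu (by decide)
      · rw [h, hϕu]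
      · -- `v = z`
        exfalso
        have h6 : u = z := by
          have h7 : u = g * v * g⁻¹ := by rw [hv]; group
          have h8 : z = g * (g⁻¹ * z * g) * g⁻¹ := by group
          rw [h7, h]
          rw [hzfix] at h8
          exact h8.symm
        rw [h6, hϕz] at hϕu
        exact absurd hϕu (by decide)
      · rw [h, hϕ _ (hES hu) _ (hES hz), hϕu, hϕz, add_zero]
    have hinv : ∀ q : N ⧸ S, r • r • q = q := by
      intro q
      rw [smul_smul]
      conv_lhs => rw [← hout q]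
      conv_rhs => rw [← hout q]
      have : (r * r) • ((q.out : N) : N ⧸ S) = ((r * r * q.out : N) : N ⧸ S) := rfl
      rw [this, QuotientGroup.eq]
      have h1 := hconj q.out _ hrr
      have h2 : (r * r * q.out)⁻¹ * q.out = (q.out⁻¹ * (r * r) * q.out)⁻¹ := by group
      rw [h2]
      exact S.inv_mem (hES h1)
    have hsum : ∑ q : N ⧸ S, (ϕ ((q.out)⁻¹ * u * q.out) + 1) = 0 := by
      apply Finset.sum_involution (fun q _ => r • q)
      · intro q _
        rw [hq]
        exact CharTwo.add_self_eq_zero _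
      · intro q _ hne hfx
        apply hne
        rw [hfixed q hfx]
        decide
      · intro q _
        exact hinv q
      · intro q _
        exact Finset.mem_univ _
    rw [Finset.sum_add_distrib, Finset.sum_const, Finset.card_univ] at hsum
    have hcard : Fintype.card (N ⧸ S) = S.index := by
      rw [← Nat.card_eq_fintype_card]; rfl
    rw [hcard, nsmul_eq_mul] at hsum
    have h2 : ((S.index : ℕ) : ZMod 2) = 1 := by
      rw [ZMod.natCast_eq_one_iff_odd]
      exact hodd
    rw [h2, mul_one] at hsum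
    have h3 : F u = ∑ q : N ⧸ S, ϕ ((q.out)⁻¹ * u * q.out) := rfl
    rw [h3]
    have h4 : ∀ w : ZMod 2, w + 1 = 0 → w = 1 := by decide
    exact h4 _ hsum
  · intro x a ha
    show ∑ q : N ⧸ S, ϕ ((q.out)⁻¹ * (x⁻¹ * a * x) * q.out) = ∑ q : N ⧸ S, ϕ ((q.out)⁻¹ * a * q.out)
    have h1 : ∀ q : N ⧸ S, ϕ ((q.out)⁻¹ * (x⁻¹ * a * x) * q.out) =
        ϕ ((x • q).out⁻¹ * a * (x • q).out) := by
      intro q
      have h2 : ((x * q.out : N) : N ⧸ S) = ((x • q).out : N) := by
        rw [hout]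
        conv_rhs => rw [← hout q]
        rfl
      rw [← hval _ _ a ha h2]
      congr 1
      group
    rw [Finset.sum_congr rfl (fun q _ => h1 q)]
    exact Equiv.sum_comp (MulAction.toPerm x : Equiv.Perm (N ⧸ S))
      (fun q => ϕ (q.out⁻¹ * a * q.out))


section model

/-- The model of the Sylow subgroup. -/
abbrev Γ := Multiplicative (ZMod 2) × DihedralGroup 4

def gu : Γ := (Multiplicative.ofAdd 1, 1)
def gr : Γ := (1, r 1)
def gz : Γ := (1, r 2)

/-- The parity of an element of `ℤ/4`. -/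
def par (i : ZMod 4) : ZMod 2 := (i.val : ZMod 2)

/-- The reflection of parity `i`. -/
def ge (i : ZMod 2) : Γ := (1, sr (i.val : ZMod 4))

/-- The homomorphism `Γ → 𝔽₂` with `u ↦ 1`, `sr 0 ↦ α`, `sr 1 ↦ β`. -/
def ell (α β : ZMod 2) (x : Γ) : ZMod 2 :=
  Multiplicative.toAdd x.1 + match x.2 with
    | r i => (α + β) * par i
    | sr i => α + (α + β) * par i

def ell2 (i a : ZMod 2) (x : Γ) : ZMod 2 := ell (a * (1 + i)) (a * i) x

/-- Membership in the elementary abelian subgroup of order `8` of parity `i`. -/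
def inEb (i : ZMod 2) (x : Γ) : Bool :=
  match x.2 with
  | r j => par j == 0
  | sr j => par j == i

def reflb (i : ZMod 2) (x : Γ) : Bool :=
  match x.2 with
  | r _ => false
  | sr j => par j == i

def isRot (x : Γ) : Bool :=
  match x.2 with
  | r _ => true
  | sr _ => false

def fstA (x : Γ) : ZMod 2 := Multiplicative.toAdd x.1

set_option maxRecDepth 100000

theorem ell_mul : ∀ (α β : ZMod 2) (x y : Γ), ell α β (x * y) = ell α β x + ell α β y := by
  decide

theorem ell_conj : ∀ (α β : ZMod 2) (ν γ : Γ), ell α β (ν⁻¹ * γ * ν) = ell α β γ := by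
  decide

theorem ell_bridge : ∀ (α β i : ZMod 2) (γ : Γ), inEb i γ = true →
    ell α β γ = ell2 i (if i = 0 then α else β) γ := by
  decide

theorem ell2_u : ∀ (i a : ZMod 2), ell2 i a gu = 1 := by decide
theorem ell2_z : ∀ (i a : ZMod 2), ell2 i a gz = 0 := by decide
theorem ell2_e : ∀ (i a : ZMod 2), ell2 i a (ge i) = a := by decide
theorem ell2_one : ∀ (i a : ZMod 2), ell2 i a 1 = 0 := by decide
theorem ell_u : ∀ (α β : ZMod 2), ell α β gu = 1 := by decide

theorem inE_mul : ∀ (i : ZMod 2) (x y : Γ), inEb i x = true → inEb i y = true → inEb i (x * y) = true := by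
  decide
theorem inE_one : ∀ (i : ZMod 2), inEb i 1 = true := by decide
theorem inE_inv : ∀ (i : ZMod 2) (x : Γ), inEb i x = true → inEb i x⁻¹ = true := by decide
theorem inE_conj : ∀ (i : ZMod 2) (ν γ : Γ), inEb i (ν * γ * ν⁻¹) = inEb i γ := by decide
theorem inE_comm : ∀ (i : ZMod 2) (x y : Γ), inEb i x = true → inEb i y = true → x * y = y * x := by
  decide
theorem inE_r : ∀ (i : ZMod 2), inEb i gr = false := by decide
theorem inE_idx : ∀ (i : ZMod 2) (τ : Γ), inEb i τ = false → inEb i (gr⁻¹ * τ) = true := by decide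
theorem inE_rr : ∀ (i : ZMod 2), inEb i (gr * gr) = true := by decide
theorem inE_u : ∀ (i : ZMod 2), inEb i gu = true := by decide
theorem inE_z : ∀ (i : ZMod 2), inEb i gz = true := by decide
theorem inE_e : ∀ (i : ZMod 2), inEb i (ge i) = true := by decide
theorem gr_u : gr⁻¹ * gu * gr = gu := by decide
theorem gr_e : ∀ (i : ZMod 2), gr⁻¹ * ge i * gr = ge i * gz := by decide
theorem gz_ne : gz ≠ 1 := by decide
theorem gr_com : ∀ (i : ZMod 2) (γ : Γ), inEb i γ = true → gr⁻¹ * γ * gr = γ ∨ gr⁻¹ * γ * gr = γ * gz := by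
  decide
set_option synthInstance.maxSize 1000 in
set_option synthInstance.maxHeartbeats 200000 in
theorem gr_fix : ∀ (i : ZMod 2) (γ : Γ), inEb i γ = true → gr⁻¹ * γ * gr = γ →
    γ = 1 ∨ γ = gu ∨ γ = gz ∨ γ = gu * gz := by
  decide
theorem fst_mul : ∀ x y : Γ, fstA (x * y) = fstA x + fstA y := by decide
theorem fst_u : fstA gu = 1 := by decide
theorem fst_z : fstA gz = 0 := by decide

theorem inE_dec : ∀ (i : ZMod 2) (γ : Γ), inEb i γ = true →
    ∃ b₁ b₂ b₃ : Bool, γ = (if b₁ then ge i else 1) * (if b₂ then gu else 1) * (if b₃ then gz else 1) := by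
  decide

theorem central_u : ∀ x : Γ, gu * x = x * gu := by decide
theorem central_z : ∀ x : Γ, gz * x = x * gz := by decide
theorem not_comm_refl : ∀ δ : Γ, gr * δ ≠ δ * gr → ∃ i : ZMod 2, reflb i δ = true := by decide

theorem L1 : ∀ (i : ZMod 2) (δ x : Γ), reflb i δ = true → inEb i x = false →
    ∃ a b c : Bool, gr = x * (if a then δ else 1) * (if b then gu else 1) * (if c then gz else 1) := by
  decide

theorem L2 : ∀ (i : ZMod 2) (δ x : Γ), reflb i δ = true → inEb i x = true →
    ∃ a b c : Bool, x = (if a then δ else 1) * (if b then gu else 1) * (if c then gz else 1) := by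
  decide

theorem X4 : ∀ γ : Γ, γ * γ ≠ 1 → γ = gr ∨ γ = gr⁻¹ ∨ γ = gr * gu ∨ γ = (gr * gu)⁻¹ := by decide
theorem gr_sq : gr * gr ≠ 1 := by decide
theorem gru_sq : (gr * gu) * (gr * gu) ≠ 1 := by decide
theorem gr_ne1 : gr * gu ≠ gr := by decide
theorem gr_ne2 : gr * gu ≠ gr⁻¹ := by decide
theorem gu_eq : gu = gr⁻¹ * (gr * gu) := by decide
theorem rot_dec : ∀ γ : Γ, isRot γ = true → ∃ (a : Fin 4) (b : Fin 2), γ = gr ^ (a : ℕ) * gu ^ (b : ℕ) := by
  decide
theorem rot_mul : ∀ γ γ' : Γ, isRot γ = false → isRot γ' = false → isRot (γ⁻¹ * γ') = true := by decide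
theorem pow_four : ∀ γ : Γ, γ ^ 4 = 1 := by decide

end model

section four

variable {G : Type*} [Group G]

theorem four_aux (c : G ≃* G) {p q : G} (hp : c p = p ∨ c p = p⁻¹ ∨ c p = q ∨ c p = q⁻¹)
    (hq : c q = p ∨ c q = p⁻¹ ∨ c q = q ∨ c q = q⁻¹) (h1 : q ≠ p) (h2 : q ≠ p⁻¹) :
    c (c p) = p ∨ c (c p) = p⁻¹ := by
  rcases hp with h | h | h | h
  · left; rw [h, h]
  · left; rw [h, map_inv, h, inv_inv]
  · rcases hq with h' | h' | h' | h'
    · left; rw [h, h']
    · right; rw [h, h']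
    · exfalso
      exact h1 (c.injective (h'.trans h.symm))
    · exfalso
      apply h2
      apply c.injective
      rw [map_inv, h', h]
  · rcases hq with h' | h' | h' | h'
    · right; rw [h, map_inv, h']
    · left; rw [h, map_inv, h', inv_inv]
    · exfalso
      apply h2
      apply c.injective
      rw [map_inv, h', h, inv_inv]
    · exfalso
      exact h1 (c.injective (h'.trans h.symm))

theorem four (c : G ≃* G) {p q : G} (hp : c p = p ∨ c p = p⁻¹ ∨ c p = q ∨ c p = q⁻¹)
    (hq : c q = p ∨ c q = p⁻¹ ∨ c q = q ∨ c q = q⁻¹) (h1 : q ≠ p) (h2 : q ≠ p⁻¹) :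
    c (c (c (c p))) = p := by
  rcases four_aux c hp hq h1 h2 with h | h
  · rw [h, h]
  · rw [h, map_inv, map_inv, h, inv_inv]

end four

section main

variable {G : Type*} [Group G] [Finite G] (P : Sylow 2 G) (e : ↥(P : Subgroup G) ≃* Γ)

/-- The embedding of the model. -/
def iota : Γ →* G := (P : Subgroup G).subtype.comp e.symm.toMonoidHom

theorem iota_inj : Function.Injective (iota P e) := by
  intro a b h
  have h1 : e.symm a = e.symm b := Subtype.ext h
  exact e.symm.injective h1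

theorem iota_mem (γ : Γ) : iota P e γ ∈ (P : Subgroup G) := (e.symm γ).2

theorem exists_iota {a : G} (ha : a ∈ (P : Subgroup G)) : ∃ γ, iota P e γ = a :=
  ⟨e ⟨a, ha⟩, by simp [iota]⟩

/-- The subgroup `E_i` of the model. -/
def E0 (i : ZMod 2) : Subgroup Γ where
  carrier := {x | inEb i x = true}
  mul_mem' := fun {a b} ha hb => inE_mul i a b ha hb
  one_mem' := inE_one i
  inv_mem' := fun {a} ha => inE_inv i a ha

/-- The subgroup `E_i` in `G`. -/
def EE (i : ZMod 2) : Subgroup G := (E0 i).map (iota P e)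

theorem mem_EE {i : ZMod 2} {γ : Γ} : iota P e γ ∈ EE P e i ↔ inEb i γ = true := by
  constructor
  · rintro ⟨δ, hδ, h⟩
    have := iota_inj P e h
    rw [← this]
    exact hδ
  · intro h
    exact ⟨γ, h, rfl⟩

theorem EE_le (i : ZMod 2) : EE P e i ≤ (P : Subgroup G) := by
  rintro _ ⟨δ, -, rfl⟩
  exact iota_mem P e δ

theorem le_normalizer_EE (i : ZMod 2) :
    (P : Subgroup G) ≤ normalizer (EE P e i : Set G) := by
  intro p hp
  obtain ⟨ν, rfl⟩ := exists_iota P e hp
  rw [mem_normalizer_iff]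
  intro h
  constructor
  · intro hh
    have h0 := EE_le P e i hh
    obtain ⟨γ, rfl⟩ := exists_iota P e h0
    rw [mem_EE] at hh
    have : iota P e ν * iota P e γ * (iota P e ν)⁻¹ = iota P e (ν * γ * ν⁻¹) := by simp
    rw [this, mem_EE, inE_conj]
    exact hh
  · intro hh
    have h0 : iota P e ν * h * (iota P e ν)⁻¹ ∈ (P : Subgroup G) := EE_le P e i hh
    have h1 : h ∈ (P : Subgroup G) := by
      have := (P : Subgroup G).mul_mem ((P : Subgroup G).mul_mem
        ((P : Subgroup G).inv_mem (iota_mem P e ν)) h0) (iota_mem P e ν)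
      simpa [mul_assoc] using this
    obtain ⟨γ, rfl⟩ := exists_iota P e h1
    have : iota P e ν * iota P e γ * (iota P e ν)⁻¹ = iota P e (ν * γ * ν⁻¹) := by simp
    rw [this, mem_EE, inE_conj] at hh
    rw [mem_EE]
    exact hh

theorem exists_inv_E (i : ZMod 2) : ∃ a : ZMod 2,
    (¬ 2 ∣ ((P : Subgroup G) ⊓ normalizer (EE P e i : Set G)).relIndex (normalizer (EE P e i : Set G))) →
    ∀ x ∈ normalizer (EE P e i : Set G), ∀ γ γ' : Γ, inEb i γ = true → inEb i γ' = true →
      iota P e γ' = x⁻¹ * iota P e γ * x → ell2 i a γ' = ell2 i a γ := by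
  classical
  by_cases ht : ¬ 2 ∣ ((P : Subgroup G) ⊓ normalizer (EE P e i : Set G)).relIndex
      (normalizer (EE P e i : Set G))
  swap
  · exact ⟨0, fun h => absurd h ht⟩
  set E : Subgroup G := EE P e i with hE
  set N : Subgroup G := normalizer (E : Set G) with hN
  have hPN : (P : Subgroup G) ≤ N := le_normalizer_EE P e i
  let mk : Γ →* ↥N := (iota P e).codRestrict N (fun γ => hPN (iota_mem P e γ))
  have hmk : ∀ γ, ((mk γ : ↥N) : G) = iota P e γ := fun γ => rfl
  have hmkinj : Function.Injective mk := by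
    intro a b h
    apply iota_inj P e
    have := congrArg Subtype.val h
    simpa [hmk] using this
  let S' : Subgroup ↥N := (P : Subgroup G).subgroupOf N
  let E' : Subgroup ↥N := E.subgroupOf N
  have hE'n : E'.Normal := by
    show (E.subgroupOf (normalizer (E : Set G))).Normal
    infer_instance
  have hEP : E ≤ (P : Subgroup G) := EE_le P e i
  have hES : E' ≤ S' := by
    intro x hx
    exact hEP hx
  have hEmk : ∀ γ, mk γ ∈ E' ↔ inEb i γ = true := by
    intro γ
    show ((mk γ : ↥N) : G) ∈ E ↔ _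
    rw [hmk]
    exact mem_EE P e
  have hS'mk : ∀ t ∈ S', ∃ τ, mk τ = t := by
    intro t ht'
    obtain ⟨τ, hτ⟩ := exists_iota P e (show (t : G) ∈ (P : Subgroup G) from ht')
    exact ⟨τ, Subtype.ext hτ⟩
  have hmkS : ∀ γ, mk γ ∈ S' := fun γ => iota_mem P e γ
  have hEmk' : ∀ t ∈ E', ∃ τ, mk τ = t := fun t h => hS'mk t (hES h)
  have hodd : Odd S'.index := by
    have h1 : (P : Subgroup G) ⊓ N = P := inf_eq_left.mpr hPN
    rw [h1] at ht
    rw [← Nat.not_even_iff_odd, even_iff_two_dvd]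
    exact ht
  let ϕ : ↥N → ZMod 2 := fun g => fstA (Function.invFun mk g)
  have hϕmk : ∀ γ, ϕ (mk γ) = fstA γ := by
    intro γ
    show fstA (Function.invFun mk (mk γ)) = _
    rw [Function.leftInverse_invFun hmkinj γ]
  obtain ⟨F, hFadd, hFu, hFinv⟩ := transfer_key (N := ↥N) S' E' hES
    (by
      intro a ha b hb
      obtain ⟨α, rfl⟩ := hEmk' a ha
      obtain ⟨β, rfl⟩ := hEmk' b hb
      rw [← map_mul, ← map_mul, inE_comm i α β ((hEmk α).1 ha) ((hEmk β).1 hb)])
    hodd (mk gr) (mk gu) (mk gz) (mk (ge i))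
    (hmkS _)
    (by rw [hEmk, inE_r]; decide)
    (by
      intro t ht1 ht2
      obtain ⟨τ, rfl⟩ := hS'mk t ht1
      rw [hEmk] at ht2
      rw [← map_inv, ← map_mul, hEmk]
      exact inE_idx i τ (by simpa using ht2))
    (by rw [← map_mul, hEmk]; exact inE_rr i)
    ((hEmk _).2 (inE_u i)) ((hEmk _).2 (inE_z i)) ((hEmk _).2 (inE_e i))
    (by rw [← map_inv, ← map_mul, ← map_mul, gr_u])
    (by rw [← map_inv, ← map_mul, ← map_mul, ← map_mul, gr_e])
    (by
      intro h
      apply gz_ne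
      apply hmkinj
      rw [h, map_one])
    (by
      intro a ha
      obtain ⟨α, rfl⟩ := hEmk' a ha
      rw [hEmk] at ha
      rcases gr_com i α ha with h | h
      · left; rw [← map_inv, ← map_mul, ← map_mul, h]
      · right; rw [← map_inv, ← map_mul, ← map_mul, ← map_mul, h])
    (by
      intro a ha h
      obtain ⟨α, rfl⟩ := hEmk' a ha
      rw [hEmk] at ha
      rw [← map_inv, ← map_mul, ← map_mul] at h
      rcases gr_fix i α ha (hmkinj h) with h1 | h1 | h1 | h1
      · left; rw [h1, map_one]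
      · right; left; rw [h1]
      · right; right; left; rw [h1]
      · right; right; right; rw [h1, map_mul])
    ϕ
    (by
      intro a ha b hb
      obtain ⟨α, rfl⟩ := hS'mk a ha
      obtain ⟨β, rfl⟩ := hS'mk b hb
      rw [← map_mul, hϕmk, hϕmk, hϕmk, fst_mul])
    (by rw [hϕmk, fst_u]) (by rw [hϕmk, fst_z])
  let f : Γ → ZMod 2 := fun γ => F (mk γ)
  refine ⟨f (ge i), fun _ x hx γ γ' hγ hγ' h => ?_⟩
  -- `F` agrees with `ell2` on `E`.
  have hf1 : f 1 = 0 := by
    have h1 := hFadd 1 E'.one_mem 1 E'.one_mem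
    rw [mul_one, CharTwo.add_self_eq_zero] at h1
    show F (mk 1) = 0
    rw [map_one, h1]
  have hfz : f gz = 0 := by
    have h1 := hFinv (mk gr) (mk (ge i)) ((hEmk _).2 (inE_e i))
    rw [← map_inv, ← map_mul, ← map_mul, gr_e, map_mul, hFadd _ ((hEmk _).2 (inE_e i)) _ ((hEmk _).2 (inE_z i))] at h1
    have h2 : ∀ w v : ZMod 2, w + v = w → v = 0 := by decide
    exact h2 _ _ h1
  have hagree : ∀ γ, inEb i γ = true → f γ = ell2 i (f (ge i)) γ := by
    intro γ hγ
    let Q : Γ → Prop := fun γ => inEb i γ = true ∧ f γ = ell2 i (f (ge i)) γ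
    have hQmul : ∀ x y, Q x → Q y → Q (x * y) := by
      rintro x y ⟨hx, hx'⟩ ⟨hy, hy'⟩
      refine ⟨inE_mul i x y hx hy, ?_⟩
      show F (mk (x * y)) = _
      rw [map_mul, hFadd _ ((hEmk _).2 hx) _ ((hEmk _).2 hy)]
      have : ell2 i (f (ge i)) (x * y) = ell2 i (f (ge i)) x + ell2 i (f (ge i)) y := ell_mul _ _ _ _
      rw [this, ← hx', ← hy']
    have hQ1 : Q 1 := ⟨inE_one i, by rw [hf1, ell2_one]⟩
    have hQu : Q gu := ⟨inE_u i, by rw [ell2_u]; exact hFu⟩
    have hQz : Q gz := ⟨inE_z i, by rw [ell2_z]; exact hfz⟩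
    have hQe : Q (ge i) := ⟨inE_e i, by rw [ell2_e]⟩
    obtain ⟨b₁, b₂, b₃, rfl⟩ := inE_dec i γ hγ
    apply (hQmul _ _ (hQmul _ _ _ _) _).2
    · cases b₁
      · exact hQ1
      · exact hQe
    · cases b₂
      · exact hQ1
      · exact hQu
    · cases b₃
      · exact hQ1
      · exact hQz
  rw [← hagree γ' hγ', ← hagree γ hγ]
  show F (mk γ') = F (mk γ)
  have h3 : mk γ' = (⟨x, hx⟩ : ↥N)⁻¹ * mk γ * (⟨x, hx⟩ : ↥N) := Subtype.ext h
  rw [h3]
  exact hFinv _ _ ((hEmk _).2 hγ)

/-- Odd elements of the normalizer of a subgroup containing `⟨u, r⟩` centralize it. -/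
theorem odd_central_A {D : Subgroup G} (hDP : D ≤ (P : Subgroup G)) (hr : iota P e gr ∈ D)
    (hu : iota P e gu ∈ D) {y : G} (hy : y ∈ normalizer (D : Set G)) (hodd : Odd (orderOf y)) :
    y ∈ centralizer (D : Set G) := by
  have hc : ∀ a ∈ D, y⁻¹ * a * y ∈ D := by
    intro a ha
    have := (mem_normalizer_iff.1 (inv_mem hy) a).1 ha
    simpa using this
  let c : G ≃* G := MulAut.conj y⁻¹
  have hcapp : ∀ a, c a = y⁻¹ * a * y := by
    intro a
    simp [c, MulAut.conj_apply]
  set p := iota P e gr with hp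
  set q := iota P e (gr * gu) with hq
  have hqD : q ∈ D := by
    rw [hq, map_mul]
    exact D.mul_mem hr hu
  have hX : ∀ a ∈ D, a * a ≠ 1 → a = p ∨ a = p⁻¹ ∨ a = q ∨ a = q⁻¹ := by
    intro a ha hne
    obtain ⟨γ, rfl⟩ := exists_iota P e (hDP ha)
    have h1 : γ * γ ≠ 1 := by
      intro h
      apply hne
      rw [← map_mul, h, map_one]
    rcases X4 γ h1 with h | h | h | h
    · left; rw [h]
    · right; left; rw [h, map_inv]
    · right; right; left; rw [h]
    · right; right; right; rw [h, map_inv]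
  have hpp : p * p ≠ 1 := by
    intro h
    apply gr_sq
    apply iota_inj P e
    rw [map_mul, map_one]
    exact h
  have hqq : q * q ≠ 1 := by
    intro h
    apply gru_sq
    apply iota_inj P e
    rw [map_mul, map_one]
    exact h
  have hcp := hX (c p) (by rw [hcapp]; exact hc p hr) (by
    rw [← map_mul]
    intro h
    exact hpp (c.injective (h.trans (map_one c).symm)))
  have hcq := hX (c q) (by rw [hcapp]; exact hc q hqD) (by
    rw [← map_mul]
    intro h
    exact hqq (c.injective (h.trans (map_one c).symm)))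
  have hqp : q ≠ p := fun h => gr_ne1 (iota_inj P e h)
  have hqp' : q ≠ p⁻¹ := fun h => gr_ne2 (iota_inj P e (by rw [map_inv]; exact h))
  have hpq : p ≠ q := hqp.symm
  have hpq' : p ≠ q⁻¹ := fun h => hqp' (by rw [h, inv_inv])
  have h4p := four c hcp hcq hqp hqp'
  have h4q := four c (by tauto) (by tauto) hpq hpq'
  have hc4 : ∀ a, c (c (c (c a))) = (y ^ 4)⁻¹ * a * y ^ 4 := by
    intro a
    simp only [hcapp]
    simp only [pow_succ, pow_zero, one_mul]
    group
  have hcomm4 : ∀ a, c (c (c (c a))) = a → Commute y a := by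
    intro a ha
    rw [hc4] at ha
    have h1 : Commute (y ^ 4) a := by
      show y ^ 4 * a = a * y ^ 4
      calc y ^ 4 * a = y ^ 4 * ((y ^ 4)⁻¹ * a * y ^ 4) := by rw [ha]
        _ = a * y ^ 4 := by group
    have hco : Nat.Coprime 4 (orderOf y) := by
      have : Nat.Coprime 2 (orderOf y) := Nat.coprime_two_left.mpr hodd
      exact Nat.Coprime.pow_left 2 this
    obtain ⟨m, hm⟩ := exists_pow_eq_self_of_coprime hco
    rw [← hm]
    exact h1.pow_left m
  have hyp : Commute y p := hcomm4 p h4p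
  have hyq : Commute y q := hcomm4 q h4q
  have hyu : Commute y (iota P e gu) := by
    rw [gu_eq, map_mul, map_inv]
    exact hyp.inv_right.mul_right hyq
  have hrot : ∀ γ : Γ, isRot γ = true → Commute y (iota P e γ) := by
    intro γ hγ
    obtain ⟨a, b, rfl⟩ := rot_dec γ hγ
    rw [map_mul, map_pow, map_pow]
    exact (hyp.pow_right _).mul_right (hyu.pow_right _)
  rw [mem_centralizer_iff]
  intro a ha
  have haD : a ∈ D := ha
  obtain ⟨γ, rfl⟩ := exists_iota P e (hDP haD)
  symm
  by_cases hγ : isRot γ = true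
  · exact hrot γ hγ
  obtain ⟨γ', hγ'⟩ := exists_iota P e (hDP (hc _ haD))
  have hγ'rot : isRot γ' = false := by
    by_contra h
    have h1 : isRot γ' = true := by simpa using h
    have h2 := hrot γ' h1
    have h3 : iota P e γ = iota P e γ' := by
      have h4 : iota P e γ = y * iota P e γ' * y⁻¹ := by rw [hγ']; group
      rw [h4, h2.eq]
      group
    rw [iota_inj P e h3] at hγ
    exact hγ h1
  have hm := rot_mul γ γ' (by simpa using hγ) hγ'rot
  set m := iota P e (γ⁻¹ * γ') with hmdef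
  have hym : Commute y m := hrot _ hm
  have hcm : y⁻¹ * iota P e γ * y = iota P e γ * m := by
    rw [← hγ', hmdef, map_mul, map_inv]
    group
  have hpow : ∀ k : ℕ, (y ^ k)⁻¹ * iota P e γ * y ^ k = iota P e γ * m ^ k := by
    intro k
    induction k with
    | zero => simp
    | succ k ih =>
      have h1 : (y ^ (k + 1))⁻¹ * iota P e γ * y ^ (k + 1) =
          y⁻¹ * ((y ^ k)⁻¹ * iota P e γ * y ^ k) * y := by
        rw [pow_succ]; group
      rw [h1, ih]
      have h2 : y⁻¹ * (iota P e γ * m ^ k) * y = (y⁻¹ * iota P e γ * y) * (y⁻¹ * m ^ k * y) := by group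
      rw [h2, hcm]
      have h3 : y⁻¹ * m ^ k * y = m ^ k := by
        have := (hym.pow_right k).eq
        rw [mul_assoc, ← this]
        group
      rw [h3, pow_succ']
      group
  have hmk := hpow (orderOf y)
  rw [pow_orderOf_eq_one] at hmk
  have hmk1 : m ^ orderOf y = 1 := by
    have : iota P e γ = iota P e γ * m ^ orderOf y := by
      rw [← hmk]; group
    simpa using this
  have hm4 : m ^ 4 = 1 := by
    rw [hmdef, ← map_pow, pow_four, map_one]
  have hco : Nat.Coprime 4 (orderOf y) := by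
    have : Nat.Coprime 2 (orderOf y) := Nat.coprime_two_left.mpr hodd
    exact Nat.Coprime.pow_left 2 this
  have hm1 : m = 1 := by
    have h1 : orderOf m ∣ 4 := orderOf_dvd_of_pow_eq_one hm4
    have h2 : orderOf m ∣ orderOf y := orderOf_dvd_of_pow_eq_one hmk1
    have h3 : orderOf m = 1 := Nat.eq_one_of_dvd_coprimes hco h1 h2
    exact orderOf_eq_one_iff.mp h3
  rw [hm1, mul_one] at hcm
  show y * _ = _ * y
  calc y * iota P e γ = y * (y⁻¹ * iota P e γ * y) * y⁻¹ * y * y⁻¹ * y := by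
        rw [hcm]; group
    _ = iota P e γ * y := by group

/-- The elementary step. -/
theorem step (α β : ZMod 2)
    (ha₀ : (¬ 2 ∣ ((P : Subgroup G) ⊓ normalizer (EE P e 0 : Set G)).relIndex (normalizer (EE P e 0 : Set G))) →
      ∀ x ∈ normalizer (EE P e 0 : Set G), ∀ γ γ' : Γ, inEb 0 γ = true → inEb 0 γ' = true →
      iota P e γ' = x⁻¹ * iota P e γ * x → ell2 0 α γ' = ell2 0 α γ)
    (ha₁ : (¬ 2 ∣ ((P : Subgroup G) ⊓ normalizer (EE P e 1 : Set G)).relIndex (normalizer (EE P e 1 : Set G))) →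
      ∀ x ∈ normalizer (EE P e 1 : Set G), ∀ γ γ' : Γ, inEb 1 γ = true → inEb 1 γ' = true →
      iota P e γ' = x⁻¹ * iota P e γ * x → ell2 1 β γ' = ell2 1 β γ)
    (D : Subgroup G) (hD : Good P D) (x : G) (hx : x ∈ normalizer (D : Set G)) (γ γ' : Γ)
    (hγ : iota P e γ ∈ D) (h : iota P e γ' = x⁻¹ * iota P e γ * x) :
    ell α β γ' = ell α β γ := by
  have hDP : D ≤ (P : Subgroup G) := hD.le
  have hcen : ∀ δ : Γ, (∀ κ : Γ, iota P e κ ∈ D → δ * κ = κ * δ) → iota P e δ ∈ D := by
    intro δ hδ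
    apply GoodAut.Good.cent_le hD (iota_mem P e δ)
    rw [mem_centralizer_iff]
    intro a ha
    obtain ⟨κ, rfl⟩ := exists_iota P e (hDP ha)
    rw [← map_mul, ← map_mul, hδ κ ha]
  have huD : iota P e gu ∈ D := hcen gu (fun κ _ => central_u κ)
  have hzD : iota P e gz ∈ D := hcen gz (fun κ _ => central_z κ)
  by_cases hr : iota P e gr ∈ D
  · obtain ⟨v, hvP, -, hv⟩ := GoodAut.conj_of_odd_central P hD.tame
      (fun y hy hodd => odd_central_A P e hDP hr huD hy hodd) hx
    obtain ⟨ν, rfl⟩ := exists_iota P e hvP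
    have h1 := hv _ hγ
    rw [← h, ← map_inv, ← map_mul, ← map_mul] at h1
    rw [iota_inj P e h1, ell_conj]
  · -- `D` is one of the two elementary abelian subgroups
    have h0 : ∃ δ : Γ, iota P e δ ∈ D ∧ gr * δ ≠ δ * gr := by
      by_contra hno
      push Not at hno
      exact hr (hcen gr hno)
    obtain ⟨δ, hδD, hδ⟩ := h0
    obtain ⟨i, hi⟩ := not_comm_refl δ hδ
    have hDE : D = EE P e i := by
      apply le_antisymm
      · intro a ha
        obtain ⟨κ, rfl⟩ := exists_iota P e (hDP ha)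
        rw [mem_EE]
        by_contra hκ
        obtain ⟨a', b', c', h2⟩ := L1 i δ κ hi (by simpa using hκ)
        apply hr
        rw [h2, map_mul, map_mul, map_mul]
        refine D.mul_mem (D.mul_mem (D.mul_mem ha ?_) ?_) ?_
        · cases a' <;> simp [hδD]
        · cases b' <;> simp [huD]
        · cases c' <;> simp [hzD]
      · intro a ha
        obtain ⟨κ, rfl⟩ := exists_iota P e (EE_le P e i ha)
        rw [mem_EE] at ha
        obtain ⟨a', b', c', h2⟩ := L2 i δ κ hi ha
        rw [h2, map_mul, map_mul]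
        refine D.mul_mem (D.mul_mem ?_ ?_) ?_
        · cases a' <;> simp [hδD]
        · cases b' <;> simp [huD]
        · cases c' <;> simp [hzD]
    subst hDE
    have hγ0 : inEb i γ = true := (mem_EE P e).1 hγ
    have hx' : x⁻¹ * iota P e γ * x ∈ EE P e i := by
      have := (mem_normalizer_iff.1 (inv_mem hx) _).1 hγ
      simpa using this
    rw [← h] at hx'
    have hγ1 : inEb i γ' = true := (mem_EE P e).1 hx'
    rw [ell_bridge α β i γ hγ0, ell_bridge α β i γ' hγ1]
    have hi2 : ∀ i : ZMod 2, i = 0 ∨ i = 1 := by decide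
    rcases hi2 i with rfl | rfl
    · simp only [if_true]
      exact ha₀ hD.tame x hx γ γ' hγ0 hγ1 h
    · simp only [one_ne_zero, if_false]
      exact ha₁ hD.tame x hx γ γ' hγ0 hγ1 h

end main

/-- A finite group whose Sylow 2-subgroups are isomorphic to the direct product of a group of order 2 and the dihedral group of order 8 is not a non-abelian simple group. -/
theorem result {G : Type*} [Group G] [Finite G] (S : Sylow 2 G) (hS : Nonempty (↥(S : Subgroup G) ≃* Multiplicative (ZMod 2) × DihedralGroup 4))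
    [IsSimpleGroup G] (hG : ¬ IsMulCommutative G) : False := by
  classical
  obtain ⟨e⟩ := hS
  obtain ⟨α, hα⟩ := exists_inv_E S e 0
  obtain ⟨β, hβ⟩ := exists_inv_E S e 1
  have hstep := step S e α β hα hβ
  let f : ↥(S : Subgroup G) →* Multiplicative (ZMod 2) :=
    MonoidHom.mk' (fun x => Multiplicative.ofAdd (ell α β (e x))) (by
      intro a b
      rw [map_mul, ell_mul, ofAdd_add])
  have hf : ∀ x, x ∈ f.ker ↔ ell α β (e x) = 0 := by
    intro x
    rw [MonoidHom.mem_ker]
    show Multiplicative.ofAdd (ell α β (e x)) = 1 ↔ _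
    exact ofAdd_eq_one
  have hsurj : Function.Surjective f := by
    intro y
    have hy : ∀ y : Multiplicative (ZMod 2), y = 1 ∨ y = Multiplicative.ofAdd 1 := by decide
    rcases hy y with rfl | rfl
    · exact ⟨1, map_one f⟩
    · refine ⟨e.symm gu, ?_⟩
      show Multiplicative.ofAdd (ell α β (e (e.symm gu))) = _
      rw [MulEquiv.apply_symm_apply, ell_u]
  have hidx : f.ker.index = 2 := by
    rw [Subgroup.index_ker, f.range_eq_top.mpr hsurj, Subgroup.card_top, Nat.card_eq_fintype_card]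
    rfl
  let I : G → Prop := fun a => ∃ γ, iota S e γ = a ∧ ell α β γ = 0
  have hI : ∀ (D : Subgroup G), Good S D → ∀ x ∈ normalizer (D : Set G), ∀ a ∈ D, I a → I (x⁻¹ * a * x) := by
    rintro D hD x hx a ha ⟨γ, rfl, hγ⟩
    have h1 : x⁻¹ * iota S e γ * x ∈ D := by
      have := (mem_normalizer_iff.1 (inv_mem hx) _).1 ha
      simpa using this
    obtain ⟨γ', hγ'⟩ := exists_iota S e (hD.le h1)
    exact ⟨γ', hγ', by rw [hstep D hD x hx γ γ' ha hγ', hγ]⟩
  obtain ⟨K, hKn, hKidx, -⟩ := IndexTwo.exists_index_two S f.ker hidx (by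
    intro a b g hb ha
    have h1 : I (g⁻¹⁻¹ * (a : G) * g⁻¹) := by
      apply GoodAut.invariant_of_good S I hI a.2
      · rw [inv_inv, ← hb]
        exact b.2
      · refine ⟨e a, ?_, (hf a).1 ha⟩
        simp [iota]
    rw [inv_inv, ← hb] at h1
    obtain ⟨γ, hγ, hγ0⟩ := h1
    rw [hf]
    have h2 : e b = γ := by
      apply e.symm.injective
      apply Subtype.ext
      rw [MulEquiv.symm_apply_apply]
      exact hγ.symm
    rw [h2, hγ0])
  rcases IsSimpleGroup.eq_bot_or_eq_top_of_normal K hKn with h | h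
  · rw [h, Subgroup.index_bot] at hKidx
    apply hG
    have : Fact (Nat.card G).Prime := ⟨by rw [hKidx]; exact Nat.prime_two⟩
    have := isCyclic_of_prime_card (α := G) rfl
    exact IsCyclic.isMulCommutative
  · rw [h, Subgroup.index_top] at hKidx
    omega

end Cfsg.Agent.S3309
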