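import Cfsg.Statements.S3347
import Cfsg.Agent.Lib.InvSylow.Top

set_option autoImplicit false
open Cfsg

namespace Cfsg.Agent.S3347

/-- Let G be a finite group, p an odd prime, and P an abelian, non-cyclic Sylow p-subgroup of G with [N_G(P) : C_G(P)] = 2. Then either O^p(G) is a proper subgroup of G, or G has p-length 1 (G = O_{p',p,p'}(G)). -/
theorem result {G : Type*} [Group G] [Finite G]
    (p : ℕ) [Fact p.Prime] (hp : p ≠ 2) (P : Sylow p G) (hab : IsMulCommutative (P : Subgroup G)) (hnc : ¬ IsCyclic (P : Subgroup G))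
    (hidx : ((Subgroup.centralizer ((P : Subgroup G) : Set G)).subgroupOf (Subgroup.normalizer ((P : Subgroup G) : Set G))).index = 2) :
    Cfsg.pResidual p G ≠ ⊤ ∨ Cfsg.PLengthLE p 1 G := by
  by_cases hres : Cfsg.pResidual p G = ⊤
  · right
    exact Cfsg.Agent.Lib.InvSylow.Induct.T_aux p _ G P rfl
      (Cfsg.Agent.Lib.InvSylow.Top.invHyp_of_index_two hp P hab hidx hres) hnc
  · left
    exact hres

end Cfsg.Agent.S3347
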