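import Cfsg.Statements.S3349
import Cfsg.Agent.Lib.PGroups.Critical
import Cfsg.Agent.Lib.PGroups.Special

set_option autoImplicit false
open Cfsg
open scoped commutatorElement

namespace Cfsg.Agent.S3349



/-- Let Q be a finite extraspecial p-group and α an automorphism of Q fixing every element of some maximal abelian subgroup of Q. Then the order of α is a power of p. -/
theorem result {Q : Type*} [Group Q] [Finite Q]
    (p : ℕ) [Fact p.Prime] (hQ : Cfsg.IsExtraspecial p Q) (α : MulAut Q)
    (A : Subgroup Q) (hA : IsMulCommutative A) (hmax : ∀ B : Subgroup Q, A ≤ B → IsMulCommutative B → B = A)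
    (hfix : ∀ a ∈ A, α a = a) :
    ∃ k : ℕ, orderOf α = p ^ k := by
  classical
  have hs := Cfsg.Agent.Lib.PGroups.Special.extraLike_of_isExtraspecial hQ
  have hacomm : ∀ a ∈ A, ∀ b ∈ A, a * b = b * a := fun a ha b hb =>
    congrArg Subtype.val (hA.is_comm.comm (⟨a, ha⟩ : A) ⟨b, hb⟩)
  have hCA : Subgroup.centralizer (A : Set Q) ≤ A := by
    intro x hx
    rw [Subgroup.mem_centralizer_iff] at hx
    have hcl : IsMulCommutative (Subgroup.closure ((A : Set Q) ∪ {x})) := by
      have hc : ∀ a ∈ (A : Set Q) ∪ {x}, ∀ b ∈ (A : Set Q) ∪ {x}, a * b = b * a := by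
        rintro a (ha | rfl) b (hb | rfl)
        · exact hacomm a ha b hb
        · exact hx a ha
        · exact (hx b hb).symm
        · rfl
      exact Subgroup.isMulCommutative_closure hc
    have hB := hmax (Subgroup.closure ((A : Set Q) ∪ {x}))
      ((Set.subset_union_left).trans Subgroup.subset_closure) hcl
    rw [← hB]
    exact Subgroup.subset_closure (Or.inr rfl)
  have hZ : Subgroup.center Q ≤ A := by
    intro z hz
    apply hCA
    rw [Subgroup.mem_centralizer_iff]
    intro a _
    exact (Subgroup.mem_center_iff.mp hz a)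
  refine Cfsg.Agent.Lib.PGroups.Critical.orderOf_eq_pow_of_trivial α A (hQ.1.1.to_subgroup A) hfix ?_
  intro x
  apply hCA
  rw [Subgroup.mem_centralizer_iff]
  intro a ha
  have h1 : α ⁅x, a⁆ = ⁅x, a⁆ := hfix _ (hZ (hs.comm_mem x a))
  rw [map_commutatorElement, hfix a ha] at h1
  simp only [commutatorElement_def] at h1
  have h2 : α x * a * (α x)⁻¹ = x * a * x⁻¹ := by
    simpa using h1
  have h3 : (x⁻¹ * α x) * a = x⁻¹ * (α x * a * (α x)⁻¹) * α x := by group
  rw [h3, h2]
  group

end Cfsg.Agent.S3349
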