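import Cfsg.Statements.S3376
import Cfsg.Agent.Lib.PGroups.Basic
import Cfsg.Agent.Lib.Coprime.Action
import Mathlib

set_option autoImplicit false

open Cfsg

namespace Cfsg.Agent.S3376

def c0 : Equiv.Perm (Fin 9) :=
  Equiv.swap (0 : Fin 9) 1 * Equiv.swap 1 2 * Equiv.swap 3 4 * Equiv.swap 4 5 * Equiv.swap 6 7 *
    Equiv.swap 7 8

lemma c0_type : c0.cycleType = {3, 3, 3} := by decide +kernel

lemma card_centralizer_c0 : Nat.card (Subgroup.centralizer ({c0} : Set (Equiv.Perm (Fin 9)))) = 162 := by
  rw [Equiv.Perm.nat_card_centralizer, c0_type]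
  decide +kernel

lemma isConj_c0 (π : Equiv.Perm (Fin 9)) (h3 : π ^ 3 = 1) (hfix : ∀ x, π x ≠ x) : IsConj π c0 := by
  rw [Equiv.Perm.isConj_iff_cycleType_eq, c0_type]
  have hall : ∀ n ∈ π.cycleType, n = 3 := by
    intro n hn
    have h1 : n ∣ orderOf π := Equiv.Perm.dvd_of_mem_cycleType hn
    have h2 : orderOf π ∣ 3 := orderOf_dvd_of_pow_eq_one h3
    have h4 := (Nat.dvd_prime Nat.prime_three).1 (h1.trans h2)
    have h5 := Equiv.Perm.two_le_of_mem_cycleType hn
    omega
  have hsum : π.cycleType.sum = 9 := by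
    rw [Equiv.Perm.sum_cycleType]
    have : π.support = Finset.univ := by
      ext x
      simp [Equiv.Perm.mem_support, hfix x]
    rw [this]
    simp
  have hrep := Multiset.eq_replicate.2 ⟨rfl, hall⟩
  rw [hrep] at hsum
  rw [hrep]
  simp only [Multiset.sum_replicate, smul_eq_mul] at hsum
  have hk : Multiset.card π.cycleType = 3 := by omega
  rw [hk]
  rfl

lemma exists_inv_complement {A : Type*} [CommGroup A] [Finite A] (hcard : Nat.card A = 27)
    (hexp : ∀ a : A, a ^ 3 = 1) (τ : A →* A) (hτ : ∀ a, τ (τ a) = a) (z : A) (hz : z ≠ 1)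
    (hτz : τ z = z) : ∃ L : Subgroup A, Nat.card L = 9 ∧ z ∉ L ∧ ∀ a ∈ L, τ a ∈ L := by
  obtain ⟨φ, hφ⟩ := CommGroup.exists_apply_ne_one_of_hasEnoughRootsOfUnity A ℂ hz
  let ψ : A →* ℂˣ := φ * φ.comp τ
  have hψ : ∀ a, ψ a = φ a * φ (τ a) := fun a => rfl
  have hψτ : ∀ a, ψ (τ a) = ψ a := by
    intro a
    rw [hψ, hψ, hτ, mul_comm]
  have hψ3 : ∀ a, (ψ a) ^ 3 = 1 := by
    intro a
    rw [← map_pow, hexp, map_one]
  have hψz : ψ z ≠ 1 := by
    rw [hψ, hτz]
    intro h
    apply hφ
    have h3 : (φ z) ^ 3 = 1 := by rw [← map_pow, hexp, map_one]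
    have h4 : (φ z) ^ 3 = (φ z * φ z) * φ z := by rw [pow_succ, pow_two]
    rw [h4, h, one_mul] at h3
    exact h3
  refine ⟨ψ.ker, ?_, ?_, ?_⟩
  · have hidx : ψ.ker.index = Nat.card ψ.range := Subgroup.index_ker ψ
    have hcr : Nat.card ψ.range = 3 := by
      haveI : Finite ψ.range := Finite.of_surjective ψ.rangeRestrict ψ.rangeRestrict_surjective
      obtain ⟨g, hg⟩ := IsCyclic.exists_generator (α := ψ.range)
      have h1 : orderOf g = Nat.card ψ.range := orderOf_eq_card_of_forall_mem_zpowers hg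
      have h2 : g ^ 3 = 1 := by
        obtain ⟨g, a, rfl⟩ := g
        apply Subtype.ext
        apply hψ3
      have h3 : orderOf g ∣ 3 := orderOf_dvd_of_pow_eq_one h2
      rw [h1] at h3
      rcases (Nat.dvd_prime Nat.prime_three).1 h3 with h4 | h4
      · exfalso
        have h5 := (Nat.card_eq_one_iff_unique.1 h4).1
        have h6 : (⟨ψ z, z, rfl⟩ : ψ.range) = 1 := Subsingleton.elim _ _
        exact hψz (congrArg Subtype.val h6)
      · exact h4
    have h7 := Subgroup.card_mul_index ψ.ker
    rw [hidx, hcr, hcard] at h7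
    omega
  · intro h
    exact hψz h
  · intro a ha
    have : ψ a = 1 := ha
    show ψ (τ a) = 1
    rw [hψτ, this]

theorem result {G : Type*} [Group G] [Finite G] (hG : Nat.card G = 162)
    (S : Sylow 3 G) (T : Sylow 2 G) (J : Subgroup G) [hJn : J.Normal] (hJcomm : IsMulCommutative J)
    (hJexp : ∀ a ∈ J, a ^ 3 = 1) (hJcard : Nat.card J = 27)
    (Z : Subgroup G) (hZ : Z = (S : Subgroup G) ⊓ Subgroup.centralizer ((S : Subgroup G) : Set G)) (hZcard : Nat.card Z = 3)
    (hZT : Z ≤ Subgroup.centralizer ((T : Subgroup G) : Set G))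
    (hST : (S : Subgroup G) ⊓ Subgroup.centralizer ((T : Subgroup G) : Set G) ≠ S) :
    Nonempty (G ≃* Subgroup.centralizer ({Equiv.swap (0 : Fin 9) 1 * Equiv.swap 1 2 * Equiv.swap 3 4 * Equiv.swap 4 5 * Equiv.swap 6 7 * Equiv.swap 7 8} : Set (Equiv.Perm (Fin 9)))) := by
  classical
  change Nonempty (G ≃* Subgroup.centralizer ({c0} : Set (Equiv.Perm (Fin 9))))
  have hfact3 : (162 : ℕ).factorization 3 = 4 := by
    have : (162 : ℕ) = 2 * 3 ^ 4 := by norm_num
    rw [this, Nat.factorization_mul (by norm_num) (by norm_num),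
      Nat.Prime.factorization_pow Nat.prime_three]
    simp [Nat.factorization_eq_zero_of_not_dvd]
  have hfact2 : (162 : ℕ).factorization 2 = 1 := by
    have : (162 : ℕ) = 2 ^ 1 * 3 ^ 4 := by norm_num
    rw [this, Nat.factorization_mul (by norm_num) (by norm_num),
      Nat.Prime.factorization_pow Nat.prime_two, Nat.Prime.factorization_pow Nat.prime_three]
    simp
  have hS81 : Nat.card (S : Subgroup G) = 81 := by
    rw [Sylow.card_eq_multiplicity, hG, hfact3]; norm_num
  have hT2 : Nat.card (T : Subgroup G) = 2 := by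
    rw [Sylow.card_eq_multiplicity, hG, hfact2]; norm_num
  have hSidx : (S : Subgroup G).index = 2 := by
    have := Subgroup.card_mul_index (S : Subgroup G)
    rw [hS81, hG] at this
    omega
  have hSn : (S : Subgroup G).Normal := Subgroup.normal_of_index_eq_two hSidx
  have hsqS : ∀ a : G, a ^ 2 ∈ (S : Subgroup G) := Subgroup.sq_mem_of_index_two hSidx
  -- 3-elements are in `S`
  have h3S : ∀ a : G, a ^ 3 = 1 → a ∈ (S : Subgroup G) := by
    intro a ha
    have h1 : a = (a ^ 2)⁻¹ := by
      rw [eq_inv_iff_mul_eq_one, ← pow_succ', ha]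
    rw [h1]
    exact Subgroup.inv_mem _ (hsqS a)
  have hodd : ∀ x ∈ (S : Subgroup G), x ^ 2 = 1 → x = 1 := by
    intro x hx hx2
    have h1 : orderOf x ∣ 81 := by
      rw [← hS81]; exact Subgroup.orderOf_dvd_natCard _ hx
    have h2 : orderOf x ∣ 2 := orderOf_dvd_of_pow_eq_one hx2
    have h3 : orderOf x ∣ Nat.gcd 81 2 := Nat.dvd_gcd h1 h2
    rw [show Nat.gcd 81 2 = 1 by norm_num] at h3
    exact orderOf_eq_one_iff.1 (Nat.dvd_one.1 h3)
  -- the involution `t`
  obtain ⟨t0, ht0⟩ := exists_prime_orderOf_dvd_card' (G := (T : Subgroup G)) 2 (by rw [hT2])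
  set t : G := (t0 : G) with ht
  have htord : orderOf t = 2 := by rw [ht, Subgroup.orderOf_coe]; exact ht0
  have ht2 : t ^ 2 = 1 := by rw [← htord]; exact pow_orderOf_eq_one t
  have ht1 : t ≠ 1 := by
    intro h
    rw [h, orderOf_one] at htord
    omega
  have htS : t ∉ (S : Subgroup G) := fun h => ht1 (hodd t h ht2)
  have hTt : (T : Subgroup G) = Subgroup.zpowers t := by
    symm
    apply Subgroup.eq_of_le_of_card_ge
    · rw [Subgroup.zpowers_le]; exact t0.2
    · rw [Nat.card_zpowers, htord, hT2]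
  -- the central element `z`
  obtain ⟨z0, hz0⟩ := exists_prime_orderOf_dvd_card' (G := Z) 3 (by rw [hZcard])
  set z : G := (z0 : G) with hz
  have hzord : orderOf z = 3 := by rw [hz, Subgroup.orderOf_coe]; exact hz0
  have hz3 : z ^ 3 = 1 := by rw [← hzord]; exact pow_orderOf_eq_one z
  have hz1 : z ≠ 1 := by
    intro h
    rw [h, orderOf_one] at hzord
    omega
  have hzZ : z ∈ Z := z0.2
  have hZz : Z = Subgroup.zpowers z := by
    symm
    apply Subgroup.eq_of_le_of_card_ge
    · rw [Subgroup.zpowers_le]; exact hzZ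
    · rw [Nat.card_zpowers, hzord, hZcard]
  have hzS : z ∈ (S : Subgroup G) := by
    have := hzZ
    rw [hZ] at this
    exact this.1
  have hzcent : ∀ g : G, g * z = z * g := by
    have hc : Subgroup.centralizer ({z} : Set G) = ⊤ := by
      apply Subgroup.eq_top_of_card_eq
      have h1 : (S : Subgroup G) ≤ Subgroup.centralizer ({z} : Set G) := by
        intro x hx
        rw [Subgroup.mem_centralizer_iff]
        rintro y rfl
        have := hzZ
        rw [hZ] at this
        exact (Subgroup.mem_centralizer_iff.1 this.2 x hx).symm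
      have h2 : (T : Subgroup G) ≤ Subgroup.centralizer ({z} : Set G) := by
        intro x hx
        rw [Subgroup.mem_centralizer_iff]
        rintro y rfl
        exact (Subgroup.mem_centralizer_iff.1 (hZT hzZ) x hx).symm
      have h3 : 81 ∣ Nat.card (Subgroup.centralizer ({z} : Set G)) := by
        rw [← hS81]; exact Subgroup.card_dvd_of_le h1
      have h4 : 2 ∣ Nat.card (Subgroup.centralizer ({z} : Set G)) := by
        rw [← hT2]; exact Subgroup.card_dvd_of_le h2
      have h5 : 162 ∣ Nat.card (Subgroup.centralizer ({z} : Set G)) :=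
        Nat.Coprime.mul_dvd_of_dvd_of_dvd (by norm_num : Nat.Coprime 81 2) h3 h4
      have h6 : Nat.card (Subgroup.centralizer ({z} : Set G)) ∣ 162 := by
        rw [← hG]; exact Subgroup.card_subgroup_dvd_card _
      rw [hG]
      exact Nat.dvd_antisymm h6 h5
    intro g
    have : g ∈ Subgroup.centralizer ({z} : Set G) := by rw [hc]; trivial
    exact (Subgroup.mem_centralizer_iff.1 this z rfl).symm
  have hJS : J ≤ (S : Subgroup G) := fun a ha => h3S a (hJexp a ha)
  -- `z ∈ J`
  have hzJ : z ∈ J := by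
    by_contra hzJ
    set J1 := J ⊔ Subgroup.zpowers z with hJ1
    have hJ1S : J1 ≤ (S : Subgroup G) := sup_le hJS (by rw [Subgroup.zpowers_le]; exact hzS)
    have hJJ1 : J < J1 := by
      refine lt_of_le_of_ne le_sup_left ?_
      intro h
      apply hzJ
      rw [h]
      exact Subgroup.mem_sup_right (Subgroup.mem_zpowers z)
    have hc1 : Nat.card J1 ∣ 81 := by
      rw [← hS81]; exact Subgroup.card_dvd_of_le hJ1S
    have hc2 : 27 ∣ Nat.card J1 := by
      rw [← hJcard]; exact Subgroup.card_dvd_of_le hJJ1.le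
    have hc3 : Nat.card J < Nat.card J1 := Cfsg.Agent.Lib.PGroups.Basic.card_lt_of_lt hJJ1
    obtain ⟨k, hk⟩ := hc2
    have hk3 : Nat.card J1 = 81 := by
      rw [hk] at hc1 ⊢
      rw [hJcard, hk] at hc3
      have h9 : k ∣ 3 := Nat.dvd_of_mul_dvd_mul_left (by norm_num : 0 < 27) (by simpa using hc1)
      rcases (Nat.dvd_prime Nat.prime_three).1 h9 with h | h <;> rw [h] at hc3 ⊢ <;> omega
    have hJ1S' : J1 = (S : Subgroup G) :=
      Subgroup.eq_of_le_of_card_ge hJ1S (by rw [hk3, hS81])
    -- commutativity of `J1`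
    have hcJ : J1 ≤ Subgroup.centralizer (J : Set G) := by
      refine sup_le ?_ ?_
      · intro a ha
        rw [Subgroup.mem_centralizer_iff]
        intro b hb
        have := hJcomm.is_comm.comm (⟨b, hb⟩ : J) ⟨a, ha⟩
        exact congrArg Subtype.val this
      · rw [Subgroup.zpowers_le, Subgroup.mem_centralizer_iff]
        intro b _
        exact hzcent b
    have hcJ1 : J1 ≤ Subgroup.centralizer (J1 : Set G) := by
      refine sup_le ?_ ?_
      · intro a ha
        rw [Subgroup.mem_centralizer_iff]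
        intro b hb
        exact ((Subgroup.mem_centralizer_iff.1 (hcJ hb)) a ha).symm
      · rw [Subgroup.zpowers_le, Subgroup.mem_centralizer_iff]
        intro b _
        exact hzcent b
    have hZS : Z = (S : Subgroup G) := by
      rw [hZ, ← hJ1S']
      exact inf_eq_left.2 hcJ1
    rw [hZS, hS81] at hZcard
    omega
  -- the invariant complement of `⟨z⟩` in `J`
  letI : CommGroup J := { (inferInstance : Group J) with mul_comm := hJcomm.is_comm.comm }
  let τ : J →* J := (MulAut.conjNormal t : MulAut J).toMonoidHom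
  have hτ : ∀ a : J, ((τ a : J) : G) = t * a * t⁻¹ := fun a => rfl
  have htinv : t⁻¹ = t := by rw [inv_eq_iff_mul_eq_one, ← pow_two, ht2]
  obtain ⟨L, hL9, hzL, hLτ⟩ := exists_inv_complement (A := J) hJcard
    (fun a => Subtype.ext (hJexp a.1 a.2)) τ
    (by
      intro a
      apply Subtype.ext
      rw [hτ, hτ, htinv]
      have : t * (t * (a : G) * t) * t = t ^ 2 * a * t ^ 2 := by
        simp only [pow_two, mul_assoc]
      rw [this, ht2]
      simp)
    (⟨z, hzJ⟩ : J)
    (by
      intro h
      exact hz1 (congrArg Subtype.val h))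
    (by
      apply Subtype.ext
      show t * z * t⁻¹ = z
      rw [hzcent t]
      simp)
  set K0 : Subgroup G := L.map J.subtype with hK0
  have hK0card : Nat.card K0 = 9 := by
    rw [hK0, Subgroup.card_map_of_injective J.subtype_injective, hL9]
  have hK0J : K0 ≤ J := Subgroup.map_subtype_le L
  have hzK0 : z ∉ K0 := by
    rintro ⟨a, ha, hhh⟩
    apply hzL
    have : a = ⟨z, hzJ⟩ := Subtype.ext hhh
    rwa [← this]
  have hK0t : ∀ x ∈ K0, t * x * t⁻¹ ∈ K0 := by
    rintro _ ⟨a, ha, rfl⟩
    exact ⟨τ a, hLτ a ha, rfl⟩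
  set K : Subgroup G := K0 ⊔ Subgroup.zpowers t with hKdef
  have hnorm : Subgroup.zpowers t ≤ Subgroup.normalizer (K0 : Set G) := by
    rw [Subgroup.zpowers_le, Subgroup.mem_normalizer_iff]
    intro h
    refine ⟨hK0t h, fun h1 => ?_⟩
    have h2 := hK0t _ h1
    have h3 : t * (t * h * t⁻¹) * t⁻¹ = h := by
      rw [htinv]
      have : t * (t * h * t) * t = t ^ 2 * h * t ^ 2 := by simp only [pow_two, mul_assoc]
      rw [this, ht2]
      simp
    rwa [h3] at h2
  have hdisj : K0 ⊓ Subgroup.zpowers t = ⊥ := by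
    rw [eq_bot_iff]
    rintro x ⟨hx1, hx2⟩
    have h3 : x ^ 3 = 1 := hJexp x (hK0J hx1)
    have h2 : x ^ 2 = 1 := by
      obtain ⟨k, rfl⟩ := Subgroup.mem_zpowers_iff.1 hx2
      rw [← zpow_natCast, ← zpow_mul, mul_comm, zpow_mul]
      simp [ht2]
    have : x = 1 := hodd x (h3S x h3) h2
    simpa using this
  have hKcard : Nat.card K = 18 := by
    have := Cfsg.Agent.Lib.Coprime.Action.card_sup_of_le_normalizer hnorm hdisj
    rw [hK0card, Nat.card_zpowers, htord] at this
    exact this.symm
  have hzK : z ∉ K := by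
    intro hzK
    have h1 : K ⊓ (S : Subgroup G) = K0 := by
      symm
      apply Subgroup.eq_of_le_of_card_ge
      · exact le_inf le_sup_left (hK0J.trans hJS)
      · rw [hK0card]
        have h2 : Nat.card (K ⊓ (S : Subgroup G) : Subgroup G) ∣ 18 := by
          rw [← hKcard]; exact Subgroup.card_dvd_of_le inf_le_left
        have h3 : Nat.card (K ⊓ (S : Subgroup G) : Subgroup G) ∣ 81 := by
          rw [← hS81]; exact Subgroup.card_dvd_of_le inf_le_right
        have h4 := Nat.dvd_gcd h2 h3
        rw [show Nat.gcd 18 81 = 9 by norm_num] at h4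
        exact Nat.le_of_dvd (by norm_num) h4
    apply hzK0
    rw [← h1]
    exact ⟨hzK, hzS⟩
  -- every nontrivial normal subgroup contains `z`
  have hN : ∀ M : Subgroup G, M.Normal → M ≠ ⊥ → z ∈ M := by
    intro M hM hMb
    have hMS : M ⊓ (S : Subgroup G) ≠ ⊥ := by
      intro hinf
      obtain ⟨⟨m, hm⟩, hm1'⟩ := Subgroup.ne_bot_iff_exists_ne_one.1 hMb
      have hm1 : m ≠ 1 := fun h => hm1' (Subtype.ext h)
      have hinfm : ∀ x ∈ M, x ∈ (S : Subgroup G) → x = 1 := by
        intro x hx hxS
        have : x ∈ M ⊓ (S : Subgroup G) := ⟨hx, hxS⟩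
        rw [hinf] at this
        simpa using this
      have hmS : m ∉ (S : Subgroup G) := fun h => hm1 (hinfm m hm h)
      have hnotS : ∀ x y : G, x ∉ (S : Subgroup G) → y ∉ (S : Subgroup G) →
          x * y ∈ (S : Subgroup G) := by
        intro x y hx hy
        rw [Subgroup.mul_mem_iff_of_index_two hSidx]
        exact ⟨fun h => absurd h hx, fun h => absurd h hy⟩
      have hMm : ∀ x ∈ M, x = 1 ∨ x = m := by
        intro x hx
        by_cases hx1 : x = 1
        · exact Or.inl hx1
        · right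
          have hxS : x ∉ (S : Subgroup G) := fun h => hx1 (hinfm x hx h)
          have h2 := hinfm _ (M.mul_mem (M.inv_mem hm) hx) (by
            apply hnotS _ _ _ hxS
            intro h
            exact hmS (by simpa using (S : Subgroup G).inv_mem h))
          exact (inv_mul_eq_one.1 h2).symm
      have hmcent : ∀ g : G, g * m = m * g := by
        intro g
        have h2 := hM.conj_mem m hm g
        rcases hMm _ h2 with h3 | h3
        · exfalso
          apply hm1
          rwa [conj_eq_one_iff] at h3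
        · have := congrArg (· * g) h3
          simpa using this
      have hm2 : m ^ 2 = 1 := hinfm _ (M.pow_mem hm 2) (hsqS m)
      have htm : t = m := by
        have h2 : t * m ∈ (S : Subgroup G) := hnotS _ _ htS hmS
        have h3 : (t * m) ^ 2 = 1 := by
          rw [(show Commute t m from hmcent t).mul_pow, ht2, hm2, one_mul]
        have h4 := hodd _ h2 h3
        have h5 : t = m⁻¹ := eq_inv_of_mul_eq_one_left h4
        rw [h5, inv_eq_iff_mul_eq_one, ← pow_two, hm2]
      apply hST
      apply inf_eq_left.2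
      intro x _
      rw [hTt, Subgroup.mem_centralizer_iff]
      intro y hy
      have hyt : y ∈ Subgroup.zpowers t := hy
      obtain ⟨k, rfl⟩ := Subgroup.mem_zpowers_iff.1 hyt
      have hcomm : Commute t x := by
        rw [htm]
        exact (hmcent x).symm
      exact (hcomm.zpow_left k).eq
    -- a central element of `S` in `M`
    have hSp : IsPGroup 3 (S : Subgroup G) := S.isPGroup'
    let N : Subgroup (S : Subgroup G) := M.subgroupOf S
    have hNn : N.Normal := hM.subgroupOf _
    have hNb : N ≠ ⊥ := by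
      intro h
      apply hMS
      rw [eq_bot_iff]
      rintro x ⟨hx1, hx2⟩
      have : (⟨x, hx2⟩ : (S : Subgroup G)) ∈ N := hx1
      rw [h, Subgroup.mem_bot] at this
      have := congrArg Subtype.val this
      simpa using this
    obtain ⟨x, hxN, hxc, hxo⟩ :=
      Cfsg.Agent.Lib.PGroups.Basic.exists_central_orderOf_eq hSp N hNb
    have hxM : (x : G) ∈ M := hxN
    have hxZ : (x : G) ∈ Z := by
      rw [hZ]
      refine ⟨x.2, Subgroup.mem_centralizer_iff.2 ?_⟩
      intro y hy
      have := Subgroup.mem_center_iff.1 hxc ⟨y, hy⟩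
      exact congrArg Subtype.val this
    have hxord : orderOf (x : G) = 3 := by
      rw [Subgroup.orderOf_coe]; exact hxo
    have hzx : Subgroup.zpowers (x : G) = Z := by
      apply Subgroup.eq_of_le_of_card_ge
      · rw [Subgroup.zpowers_le]; exact hxZ
      · rw [Nat.card_zpowers, hxord, hZcard]
    have : z ∈ Subgroup.zpowers (x : G) := by rw [hzx]; exact hzZ
    exact (Subgroup.zpowers_le.2 hxM) this
  -- the permutation representation
  have hidx : K.index = 9 := by
    have := Subgroup.card_mul_index K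
    rw [hKcard, hG] at this
    omega
  have hcardX : Nat.card (G ⧸ K) = 9 := hidx
  let e : (G ⧸ K) ≃ Fin 9 := Finite.equivFinOfCardEq hcardX
  let φ1 : G →* Equiv.Perm (Fin 9) :=
    (Equiv.permCongrHom e).toMonoidHom.comp (MulAction.toPermHom G (G ⧸ K))
  have hφ1 : ∀ (g : G) (x : Fin 9), φ1 g x = e (g • e.symm x) := fun g x => rfl
  have hnofix : ∀ y : G ⧸ K, z • y ≠ y := by
    intro y
    induction y using QuotientGroup.induction_on with
    | H h =>
      intro h1
      apply hzK
      rw [MulAction.Quotient.smul_coe, QuotientGroup.eq] at h1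
      have h2 : z⁻¹ ∈ K := by
        have h3 : (z • h)⁻¹ * h = z⁻¹ := by
          rw [smul_eq_mul, ← hzcent h, mul_inv_rev, mul_assoc, inv_mul_cancel, mul_one]
        rwa [h3] at h1
      simpa using K.inv_mem h2
  have hπfix : ∀ x, φ1 z x ≠ x := by
    intro x h
    rw [hφ1] at h
    apply hnofix (e.symm x)
    apply e.injective
    rw [h, e.apply_symm_apply]
  have hφ1inj : Function.Injective φ1 := by
    rw [injective_iff_map_eq_one]
    intro g hg
    by_contra hg1
    have hker : φ1.ker ≠ ⊥ := by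
      intro h
      have : g ∈ φ1.ker := hg
      rw [h, Subgroup.mem_bot] at this
      exact hg1 this
    have hzker := hN φ1.ker inferInstance hker
    have h2 : φ1 z = 1 := hzker
    apply hπfix 0
    rw [h2]
    rfl
  have hπ3 : (φ1 z) ^ 3 = 1 := by rw [← map_pow, hz3, map_one]
  obtain ⟨σ, hσ⟩ := isConj_iff.1 (isConj_c0 (φ1 z) hπ3 hπfix)
  let φ2 : G →* Equiv.Perm (Fin 9) := (MulAut.conj σ).toMonoidHom.comp φ1
  have hφ2z : φ2 z = c0 := hσ
  have hφ2inj : Function.Injective φ2 := (MulAut.conj σ).injective.comp hφ1inj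
  have hmem : ∀ g, φ2 g ∈ Subgroup.centralizer ({c0} : Set (Equiv.Perm (Fin 9))) := by
    intro g
    rw [Subgroup.mem_centralizer_iff]
    rintro y rfl
    rw [← hφ2z, ← map_mul, ← map_mul, hzcent g]
  let φ3 : G →* Subgroup.centralizer ({c0} : Set (Equiv.Perm (Fin 9))) := φ2.codRestrict _ hmem
  have hφ3inj : Function.Injective φ3 := by
    intro a b hab
    apply hφ2inj
    exact congrArg Subtype.val hab
  have hbij : Function.Bijective φ3 :=
    hφ3inj.bijective_of_nat_card_le (by rw [card_centralizer_c0, hG])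
  exact ⟨MulEquiv.ofBijective φ3 hbij⟩

end Cfsg.Agent.S3376
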