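import Cfsg.Statements.S3389
import Mathlib

set_option autoImplicit false
open Cfsg

namespace Cfsg.Agent.S3389

open MulAction Subgroup

/-- counting: the non-identity elements fixing a point of an orbit make up at least half the group. -/
theorem two_mul_card_ge {H X : Type*} [Group H] [Finite H] [MulAction H X] (x : X)
    (hx : stabilizer H x ≠ ⊥)
    (huniq : ∀ h : H, h ≠ 1 → ∀ z ∈ orbit H x, ∀ w ∈ orbit H x, h • z = z → h • w = w → z = w) :
    Nat.card H ≤ 2 * {h : H | h ≠ 1 ∧ ∃ z ∈ orbit H x, h • z = z}.ncard := by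
  classical
  have := Fintype.ofFinite H
  set O : Finset X := Finset.univ.image (fun h : H => h • x) with hO
  have hOmem : ∀ z, z ∈ O ↔ z ∈ orbit H x := by
    intro z
    simp [hO, MulAction.mem_orbit_iff]
  have hOcard : O.card = (orbit H x).ncard := by
    rw [← Set.ncard_coe_finset]
    congr 1
    ext z
    simp [hOmem]
  set F : X → Finset H := fun z => Finset.univ.filter (fun h => h ≠ 1 ∧ h • z = z) with hF
  have hS : {h : H | h ≠ 1 ∧ ∃ z ∈ orbit H x, h • z = z} = ↑(O.biUnion F) := by
    ext h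
    simp only [Set.mem_ofPred_eq, Finset.coe_biUnion, Set.mem_iUnion, Finset.mem_coe, exists_prop, hF,
      Finset.mem_filter, Finset.mem_univ, true_and, hOmem]
    constructor
    · rintro ⟨h1, z, hz, h2⟩; exact ⟨z, hz, h1, h2⟩
    · rintro ⟨z, hz, h1, h2⟩; exact ⟨h1, z, hz, h2⟩
  have hcm : ∀ z : X, Nat.card (stabilizer H z) * (orbit H z).ncard = Nat.card H := by
    intro z
    rw [← index_stabilizer, Subgroup.card_mul_index]
  have hstab : ∀ z ∈ O, Nat.card (stabilizer H z) = Nat.card (stabilizer H x) := by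
    intro z hz
    rw [hOmem] at hz
    have h1 := hcm z
    have h2 := hcm x
    rw [orbit_eq_iff.mpr hz] at h1
    have hpos : 0 < (orbit H x).ncard := by
      by_contra h
      have : (orbit H x).ncard = 0 := by omega
      rw [this, mul_zero] at h2
      exact Nat.card_pos.ne h2
    exact Nat.eq_of_mul_eq_mul_right hpos (h1.trans h2.symm)
  have hFcard : ∀ z, Nat.card (stabilizer H z) = (F z).card + 1 := by
    intro z
    have h1 : Nat.card (stabilizer H z) = (Finset.univ.filter (fun h : H => h ∈ stabilizer H z)).card := by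
      rw [Nat.card_eq_fintype_card, Fintype.card_subtype]
    rw [h1]
    have h2 : Finset.univ.filter (fun h : H => h ∈ stabilizer H z) = insert 1 (F z) := by
      ext h
      simp only [hF, Finset.mem_filter, Finset.mem_univ, true_and, Finset.mem_insert, mem_stabilizer_iff]
      constructor
      · intro h3
        by_cases h4 : h = 1
        · exact Or.inl h4
        · exact Or.inr ⟨h4, h3⟩
      · rintro (rfl | h3)
        · simp
        · exact h3.2
    rw [h2, Finset.card_insert_of_notMem]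
    simp [hF]
  have hx2 : 2 ≤ Nat.card (stabilizer H x) := by
    have := (Subgroup.one_lt_card_iff_ne_bot _).mpr hx
    omega
  rw [hS, Set.ncard_coe_finset, Finset.card_biUnion]
  · rw [Finset.mul_sum]
    calc Nat.card H = ∑ z ∈ O, Nat.card (stabilizer H x) := by
          rw [Finset.sum_const, smul_eq_mul, hOcard, mul_comm]
          exact (hcm x).symm
      _ ≤ ∑ z ∈ O, 2 * (F z).card := by
          apply Finset.sum_le_sum
          intro z hz
          have h1 := hstab z hz
          have h2 := hFcard z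
          omega
  · intro z hz w hw hzw
    rw [Function.onFun, Finset.disjoint_left]
    intro h h1 h2
    simp only [hF, Finset.mem_filter, Finset.mem_univ, true_and] at h1 h2
    exact hzw (huniq h h1.1 z ((hOmem z).mp hz) w ((hOmem w).mp hw) h1.2 h2.2)

theorem same_orbit {H X : Type*} [Group H] [Finite H] [MulAction H X] (x y : X)
    (hx : stabilizer H x ≠ ⊥) (hy : stabilizer H y ≠ ⊥)
    (huniq : ∀ h : H, h ≠ 1 → ∀ z w, (z ∈ orbit H x ∨ z ∈ orbit H y) → (w ∈ orbit H x ∨ w ∈ orbit H y) →
      h • z = z → h • w = w → z = w) : y ∈ orbit H x := by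
  by_contra hne
  have h1 := two_mul_card_ge x hx (fun h hh z hz w hw => huniq h hh z w (Or.inl hz) (Or.inl hw))
  have h2 := two_mul_card_ge y hy (fun h hh z hz w hw => huniq h hh z w (Or.inr hz) (Or.inr hw))
  set Sx := {h : H | h ≠ 1 ∧ ∃ z ∈ orbit H x, h • z = z} with hSx
  set Sy := {h : H | h ≠ 1 ∧ ∃ z ∈ orbit H y, h • z = z} with hSy
  have hdisj : Disjoint Sx Sy := by
    rw [Set.disjoint_left]
    rintro h ⟨h1, z, hz, hzz⟩ ⟨-, w, hw, hww⟩
    have := huniq h h1 z w (Or.inl hz) (Or.inr hw) hzz hww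
    subst this
    apply hne
    have e1 := orbit_eq_iff.mpr hz
    have e2 := orbit_eq_iff.mpr hw
    rw [← e1, e2]
    exact mem_orbit_self y
  have hsub : Sx ∪ Sy ⊆ {h : H | h ≠ 1} := by
    rintro h (⟨h1, -⟩ | ⟨h1, -⟩) <;> exact h1
  have hc : (Sx ∪ Sy).ncard ≤ {h : H | h ≠ 1}.ncard := Set.ncard_le_ncard hsub (Set.toFinite _)
  rw [Set.ncard_union_eq hdisj (Set.toFinite _) (Set.toFinite _)] at hc
  have hc2 : {h : H | h ≠ 1}.ncard + 1 = Nat.card H := by
    have := Set.ncard_add_ncard_compl ({h : H | h ≠ 1})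
    rw [← this]
    congr 1
    have : ({h : H | h ≠ 1})ᶜ = {1} := by
      ext h; simp
    rw [this, Set.ncard_singleton]
  omega

/-- The centre acts freely on the fixed points of an element. -/
theorem center_dvd {G : Type*} [Group G] [Finite G] {Ω : Type*} [Fintype Ω] [MulAction G Ω] [FaithfulSMul G Ω]
    (htr : MulAction.IsPretransitive G Ω) (g : G) :
    Nat.card (Subgroup.center G) ∣ Nat.card (MulAction.fixedBy Ω g) := by
  let _ : MulAction (Subgroup.center G) (MulAction.fixedBy Ω g) :=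
    { smul := fun z x => ⟨(z : G) • (x : Ω), by
        have hx : g • (x : Ω) = x := x.2
        show g • (z : G) • (x : Ω) = (z : G) • (x : Ω)
        rw [smul_smul, Subgroup.mem_center_iff.mp z.2 g, mul_smul, hx]⟩
      one_smul := fun x => Subtype.ext (one_smul G (x : Ω))
      mul_smul := fun a b x => Subtype.ext (mul_smul (a : G) (b : G) (x : Ω)) }
  have hsmul : ∀ (z : Subgroup.center G) (x : MulAction.fixedBy Ω g), ((z • x : MulAction.fixedBy Ω g) : Ω) = (z : G) • (x : Ω) :=
    fun _ _ => rfl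
  have hfree : ∀ x : MulAction.fixedBy Ω g, stabilizer (Subgroup.center G) x = ⊥ := by
    intro x
    rw [eq_bot_iff]
    intro z hz
    rw [mem_stabilizer_iff] at hz
    have h1 : (z : G) • (x : Ω) = x := by
      rw [← hsmul, hz]
    have h2 : (z : G) = 1 := by
      apply FaithfulSMul.eq_of_smul_eq_smul (α := Ω)
      intro y
      obtain ⟨t, rfl⟩ := htr.exists_smul_eq (x : Ω) y
      rw [smul_smul, (Subgroup.mem_center_iff.mp z.2 t).symm, mul_smul, h1, one_smul]
    rw [Subgroup.mem_bot]
    exact Subtype.ext h2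
  have e := MulAction.selfEquivOrbitsQuotientProd hfree
  rw [Nat.card_congr e, Nat.card_prod]
  exact dvd_mul_left _ _

/-- Fixity 2 forces even order. -/
theorem even_of_two {G : Type*} [Group G] [Finite G] {Ω : Type*} [Fintype Ω] [MulAction G Ω] [FaithfulSMul G Ω]
    (htr : MulAction.IsPretransitive G Ω)
    (hfix : ∀ g : G, g ≠ 1 → Nat.card (MulAction.fixedBy Ω g) ≤ 2) (g₀ : G) (hg₀ : g₀ ≠ 1)
    (hcard : Nat.card (MulAction.fixedBy Ω g₀) = 2) : 2 ∣ Nat.card G := by
  classical
  -- two fixed points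
  have hc : (MulAction.fixedBy Ω g₀).ncard = 2 := hcard
  obtain ⟨a, b, hab, hset⟩ := Set.ncard_eq_two.mp hc
  have ha : g₀ • a = a := by
    have : a ∈ MulAction.fixedBy Ω g₀ := by rw [hset]; simp
    exact this
  have hb : g₀ • b = b := by
    have : b ∈ MulAction.fixedBy Ω g₀ := by rw [hset]; simp
    exact this
  -- at most two fixed points
  have hthree : ∀ h : G, h ≠ 1 → ∀ x y z : Ω, x ≠ y → x ≠ z → y ≠ z → h • x = x → h • y = y → h • z = z → False := by
    intro h hh x y z hxy hxz hyz hx hy hz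
    have h1 := hfix h hh
    have h2 : ({x, y, z} : Set Ω) ⊆ MulAction.fixedBy Ω h := by
      rintro w (rfl | rfl | rfl) <;> assumption
    have h3 : ({x, y, z} : Set Ω).ncard = 3 := by
      rw [Set.ncard_eq_three]
      exact ⟨x, y, z, hxy, hxz, hyz, rfl⟩
    have h4 := Set.ncard_le_ncard h2 (Set.toFinite _)
    have h5 : (MulAction.fixedBy Ω h).ncard = Nat.card (MulAction.fixedBy Ω h) := rfl
    omega
  obtain ⟨g, hg⟩ := htr.exists_smul_eq b a
  set c := g • a with hc
  have hca : c ≠ a := by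
    intro h
    apply hab
    have : g • a = g • b := by rw [hg]; exact h
    exact smul_left_cancel g this
  let H := stabilizer G a
  -- two non-trivial stabilizers
  have hnt : ∀ x : Ω, ∀ d : G, d ≠ 1 → d • a = a → d • x = x → stabilizer H x ≠ ⊥ := by
    intro x d hd h1 h2 hbot
    have hm : (⟨d, h1⟩ : H) ∈ stabilizer H x := by
      rw [mem_stabilizer_iff]; exact h2
    rw [hbot, Subgroup.mem_bot] at hm
    exact hd (congrArg Subtype.val hm)
  have hb' : stabilizer H b ≠ ⊥ := hnt b g₀ hg₀ ha hb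
  have hc' : stabilizer H c ≠ ⊥ := by
    apply hnt c (g * g₀ * g⁻¹)
    · intro h
      apply hg₀
      have : g₀ = g⁻¹ * (g * g₀ * g⁻¹) * g := by group
      rw [this, h]; group
    · rw [mul_smul, mul_smul, ← hg, inv_smul_smul, hb]
    · rw [hc, mul_smul, mul_smul, inv_smul_smul, ha]
  have hnotorb : ∀ x, x ≠ a → ∀ z ∈ orbit H x, z ≠ a := by
    rintro x hx z ⟨⟨h, hh⟩, rfl⟩ heq
    apply hx
    have h1 : h • x = a := heq
    have h2 : h • a = a := hh
    have : h • x = h • a := by rw [h1, h2]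
    exact smul_left_cancel h this
  have hmem := same_orbit b c hb' hc' (by
    intro h hh z w hz hw hzz hww
    by_contra hzw
    have hz1 : z ≠ a := by
      rcases hz with hz | hz
      · exact hnotorb b hab.symm z hz
      · exact hnotorb c hca z hz
    have hw1 : w ≠ a := by
      rcases hw with hw | hw
      · exact hnotorb b hab.symm w hw
      · exact hnotorb c hca w hw
    have hh' : (h : G) ≠ 1 := fun h1 => hh (Subtype.ext h1)
    exact hthree (h : G) hh' a z w hz1.symm hw1.symm hzw h.2 hzz hww)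
  obtain ⟨⟨h, hh⟩, hhc⟩ := hmem
  have hhc' : h • b = c := hhc
  have hh1 : h • a = a := hh
  -- the swap
  set u := h⁻¹ * g with hu
  have hua : u • a = b := by
    rw [hu, mul_smul, ← hc, ← hhc', inv_smul_smul]
  have hub : u • b = a := by
    rw [hu, mul_smul, hg, inv_smul_eq_iff, hh1]
  by_contra hodd
  have hodd' : Odd (orderOf u) := by
    rw [← Nat.not_even_iff_odd, even_iff_two_dvd]
    intro h2
    exact hodd (h2.trans (orderOf_dvd_natCard u))
  obtain ⟨m, hm⟩ := hodd'
  have h1 : u ^ (orderOf u) • a = a := by rw [pow_orderOf_eq_one, one_smul]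
  have h2 : ∀ n : ℕ, (u ^ 2) ^ n • a = a := by
    intro n
    induction n with
    | zero => simp
    | succ n ih =>
      have h3 : u ^ 2 • a = a := by rw [pow_two, mul_smul, hua, hub]
      rw [pow_succ, mul_smul, h3, ih]
  rw [hm, pow_succ', pow_mul, mul_smul, h2, hua] at h1
  exact hab h1.symm

/-- A point stabilizer containing elements of order `p > k` contains a Sylow `p`-subgroup. -/
theorem sylow_part {G : Type*} [Group G] [Finite G] {Ω : Type*} [Fintype Ω] [MulAction G Ω]
    (k : ℕ) (hfix : ∀ g : G, g ≠ 1 → Nat.card (MulAction.fixedBy Ω g) ≤ k)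
    (p : ℕ) (hp : p.Prime) (hkp : k < p) (α : Ω) (h1 : p ∣ Nat.card (MulAction.stabilizer G α))
    (h2 : p ∣ (MulAction.stabilizer G α).index) : False := by
  classical
  have hf : Fact p.Prime := ⟨hp⟩
  set S := stabilizer G α with hS
  obtain ⟨Q₀⟩ : Nonempty (Sylow p S) := inferInstance
  set Q : Subgroup G := (Q₀ : Subgroup S).map S.subtype with hQ
  have hQS : Q ≤ S := Subgroup.map_subtype_le _
  have hQp : IsPGroup p Q := Q₀.isPGroup'.map S.subtype
  have hQne : Q ≠ ⊥ := by
    intro h
    have h3 : (Q₀ : Subgroup S) = ⊥ := by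
      have := (Subgroup.map_eq_bot_iff_of_injective _ S.subtype_injective).mp h
      exact this
    have h4 := Q₀.not_dvd_index
    rw [h3, Subgroup.index_bot] at h4
    exact h4 h1
  obtain ⟨P, hP⟩ := hQp.exists_le_sylow
  have hQP : Q ≠ P := by
    intro h
    have hle : (P : Subgroup G) ≤ S := by rw [← h]; exact hQS
    exact P.not_dvd_index (h2.trans (Subgroup.index_dvd_of_le hle))
  -- the normalizer grows
  obtain ⟨t, htP, htQ, htN⟩ : ∃ t ∈ (P : Subgroup G), t ∉ Q ∧ t ∈ Subgroup.normalizer (Q : Set G) := by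
    have hnil : Group.IsNilpotent P := P.isPGroup'.isNilpotent
    set R := Q.subgroupOf (P : Subgroup G) with hR
    have hRne : R ≠ ⊤ := by
      intro h
      apply hQP
      apply le_antisymm hP
      intro x hx
      have : (⟨x, hx⟩ : P) ∈ R := by rw [h]; trivial
      exact Subgroup.mem_subgroupOf.mp this
    have hnorm : Subgroup.normalizer (R : Set P) ≠ R := fun h =>
      hRne (normalizerCondition_iff_only_full_group_self_normalizing.mp
        Group.normalizerCondition_of_isNilpotent R h)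
    have hlt : R < Subgroup.normalizer (R : Set P) :=
      lt_of_le_of_ne Subgroup.le_normalizer (Ne.symm hnorm)
    obtain ⟨⟨t, ht⟩, htN, htR⟩ := SetLike.exists_of_lt hlt
    refine ⟨t, ht, fun h => htR (Subgroup.mem_subgroupOf.mpr h), ?_⟩
    rw [Subgroup.mem_normalizer_iff] at htN ⊢
    intro q
    constructor
    · intro hq
      have h3 := (htN ⟨q, hP hq⟩).mp (Subgroup.mem_subgroupOf.mpr hq)
      exact Subgroup.mem_subgroupOf.mp h3
    · intro hq
      have h4 : q ∈ (P : Subgroup G) := by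
        have h5 := hP hq
        have h6 : q = t⁻¹ * (t * q * t⁻¹) * t := by group
        rw [h6]
        exact P.1.mul_mem (P.1.mul_mem (P.1.inv_mem ht) h5) ht
      have h3 := (htN ⟨q, h4⟩).mpr (Subgroup.mem_subgroupOf.mpr hq)
      exact Subgroup.mem_subgroupOf.mp h3
  -- a nontrivial element of Q
  obtain ⟨⟨q, hq⟩, hq1⟩ := (Subgroup.ne_bot_iff_exists_ne_one.mp hQne)
  have hq1' : q ≠ 1 := fun h => hq1 (Subtype.ext h)
  have hZ : zpowers t ≤ (P : Subgroup G) := (Subgroup.zpowers_le).mpr htP
  have hZp : IsPGroup p (zpowers t) := P.isPGroup'.to_le hZ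
  have hZN : zpowers t ≤ Subgroup.normalizer (Q : Set G) := (Subgroup.zpowers_le).mpr htN
  -- the orbit is in the fixed set of `q`
  have hsub : orbit (zpowers t) α ⊆ MulAction.fixedBy Ω q := by
    rintro _ ⟨⟨s, hs⟩, rfl⟩
    have hsN := hZN hs
    have h3 : s⁻¹ * q * s ∈ Q := by
      rw [Subgroup.mem_normalizer_iff''] at hsN
      exact (hsN q).mp hq
    have h4 : (s⁻¹ * q * s) • α = α := hQS h3
    show q • s • α = s • α
    have h5 : q * s = s * (s⁻¹ * q * s) := by group
    rw [smul_smul, h5, mul_smul, h4]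
  have hcardle : (orbit (zpowers t) α).ncard ≤ k := by
    have h3 := Set.ncard_le_ncard hsub (Set.toFinite _)
    have h4 := hfix q hq1'
    have h5 : (MulAction.fixedBy Ω q).ncard = Nat.card (MulAction.fixedBy Ω q) := rfl
    omega
  obtain ⟨n, hn⟩ := hZp.card_orbit α
  have hone : (orbit (zpowers t) α).ncard = 1 := by
    have h3 : (orbit (zpowers t) α).ncard = p ^ n := hn
    rw [h3] at hcardle ⊢
    rcases n with _ | n
    · simp
    · exfalso
      have : p ≤ p ^ (n + 1) := Nat.le_self_pow (by omega) p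
      omega
  have htα : t ∈ S := by
    obtain ⟨y, hy⟩ := Set.ncard_eq_one.mp hone
    have h3 : α ∈ orbit (zpowers t) α := mem_orbit_self α
    have h4 : t • α ∈ orbit (zpowers t) α := ⟨⟨t, Subgroup.mem_zpowers t⟩, rfl⟩
    rw [hy] at h3 h4
    rw [Set.mem_singleton_iff] at h3 h4
    show t • α = α
    exact h4.trans h3.symm
  -- now t normalizes the Sylow subgroup of S
  let t' : S := ⟨t, htα⟩
  have hp' : IsPGroup p (zpowers t') :=
    (P.isPGroup'.comap_of_injective S.subtype S.subtype_injective).to_le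
      ((Subgroup.zpowers_le).mpr htP)
  have hinf := hp'.inf_normalizer_sylow Q₀
  have hQmem : ∀ x : S, x ∈ (Q₀ : Subgroup S) ↔ (x : G) ∈ Q := fun x =>
    (Subgroup.mem_map_iff_mem S.subtype_injective).symm
  have hmem : t' ∈ zpowers t' ⊓ normalizer (Q₀ : Set S) := by
    refine Subgroup.mem_inf.mpr ⟨Subgroup.mem_zpowers t', ?_⟩
    rw [Subgroup.mem_set_normalizer_iff]
    intro x
    have h3 := hQmem x
    have h4 := hQmem (t' * x * t'⁻¹)
    have h5 : ((t' * x * t'⁻¹ : S) : G) = t * (x : G) * t⁻¹ := rfl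
    rw [h5] at h4
    have h6 := (Subgroup.mem_normalizer_iff.mp htN) (x : G)
    show x ∈ (Q₀ : Subgroup S) ↔ t' * x * t'⁻¹ ∈ (Q₀ : Subgroup S)
    rw [h3, h4, h6]
  rw [hinf] at hmem
  apply htQ
  exact ⟨t', hmem.2, rfl⟩

theorem result {G : Type*} [Group G] [Finite G] {Ω : Type*} [Fintype Ω] [MulAction G Ω] [FaithfulSMul G Ω]
    (htr : MulAction.IsPretransitive G Ω) (k : ℕ) (hk : 1 ≤ k)
    (hfix : ∀ g : G, g ≠ 1 → Nat.card (MulAction.fixedBy Ω g) ≤ k) (hex : ∃ g : G, g ≠ 1 ∧ Nat.card (MulAction.fixedBy Ω g) = k) :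
    Nat.card (Subgroup.center G) ∣ k ∧ (k = 2 → 2 ∣ Nat.card G) ∧
      ∀ (p : ℕ), p.Prime → k < p → p ∣ Nat.card G → ∀ α : Ω,
        ¬ p ∣ Nat.card (MulAction.stabilizer G α) ∨ ¬ p ∣ (MulAction.stabilizer G α).index := by
  obtain ⟨g₀, hg₀, hg₀k⟩ := hex
  refine ⟨?_, ?_, ?_⟩
  · rw [← hg₀k]
    exact center_dvd htr g₀
  · rintro rfl
    exact even_of_two htr hfix g₀ hg₀ hg₀k
  · intro p hp hkp _ α
    by_contra hcon
    push Not at hcon
    exact sylow_part k hfix p hp hkp α hcon.1 hcon.2

end Cfsg.Agent.S3389
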