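import Cfsg.Statements.S3390
import Cfsg.Agent.Lib.PGroups.MaximalClass
import Cfsg.Agent.Lib.PGroups.Presentations
import Cfsg.Agent.Lib.Transfer.Focal
import Cfsg.Agent.Lib.Coprime.Action
import Mathlib

set_option autoImplicit false

open Cfsg MulAction

namespace Cfsg.Agent.S3390

section Suzuki

variable {X : Type*} [Group X] [Finite X]

/-- A finite `2`-group with a non-central involution whose centralizer has order at most four is
dihedral or semidihedral. -/
theorem suzuki (hX : IsPGroup 2 X) {u : X} (hu : u ^ 2 = 1) (hnc : u ∉ Subgroup.center X)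
    (hC : Nat.card (Subgroup.centralizer ({u} : Set X)) ≤ 4) :
    (∃ n : ℕ, Nonempty (X ≃* DihedralGroup n)) ∨ Cfsg.IsQuasiDihedral X := by
  classical
  have hu1 : u ≠ 1 := by
    rintro rfl
    exact hnc (Subgroup.one_mem _)
  obtain ⟨n, hn⟩ := (IsPGroup.iff_card).1 hX
  haveI : Nontrivial X := ⟨⟨u, 1, hu1⟩⟩
  -- a central involution
  obtain ⟨z, -, hzZ, hzo⟩ := Cfsg.Agent.Lib.PGroups.Basic.exists_central_orderOf_eq hX (⊤ : Subgroup X)
    (by
      intro h
      have : u ∈ (⊥ : Subgroup X) := by rw [← h]; trivial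
      exact hu1 ((Subgroup.mem_bot).1 this))
  have hz2 : z ^ 2 = 1 := by rw [← hzo]; exact pow_orderOf_eq_one z
  have hz1 : z ≠ 1 := by
    rintro rfl
    simp at hzo
  have hzu : z ≠ u := by
    rintro rfl
    exact hnc hzZ
  have hzc : ∀ g, g * z = z * g := Subgroup.mem_center_iff.1 hzZ
  set C := Subgroup.centralizer ({u} : Set X) with hCdef
  have hmemC : ∀ g, g ∈ C ↔ g * u = u * g := by
    intro g
    rw [hCdef, Subgroup.mem_centralizer_singleton_iff]
  have huC : u ∈ C := (hmemC u).2 rfl
  have hzC : z ∈ C := (hmemC z).2 (hzc u).symm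
  have h3 : 3 ≤ Nat.card C := by
    have : Fintype C := Fintype.ofFinite _
    have h6 : ({1, (⟨u, huC⟩ : C), (⟨z, hzC⟩ : C)} : Finset C).card = 3 := by
      rw [Finset.card_eq_three]
      refine ⟨_, _, _, ?_, ?_, ?_, rfl⟩
      · intro h; exact hu1 (congrArg Subtype.val h).symm
      · intro h; exact hz1 (congrArg Subtype.val h).symm
      · intro h; exact hzu (congrArg (fun e : C => (e : X)) h).symm
    have h7 := Finset.card_le_univ ({1, (⟨u, huC⟩ : C), (⟨z, hzC⟩ : C)} : Finset C)
    rw [h6, ← Nat.card_eq_fintype_card] at h7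
    exact h7
  have hCc : Nat.card C = 2 ^ 2 := by
    obtain ⟨k, hk⟩ := (IsPGroup.iff_card).1 (hX.to_subgroup C)
    have hk2 : k ≤ 2 := by
      by_contra h
      have h1 : 2 ^ 3 ≤ 2 ^ k := Nat.pow_le_pow_right (by norm_num) (by omega)
      omega
    interval_cases k
    · rw [hk] at h3
      norm_num at h3
    · rw [hk] at h3
      norm_num at h3
    · exact hk
  have hCcomm := (IsPGroup.isMulCommutative_of_card_eq_prime_sq (p := 2) hCc).is_comm.comm
  have hCC : Subgroup.centralizer (C : Set X) = C := by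
    apply le_antisymm
    · intro g hg
      rw [hmemC]
      exact (Subgroup.mem_centralizer_iff.1 hg u huC).symm
    · intro g hg
      rw [Subgroup.mem_centralizer_iff]
      intro h hh
      exact congrArg Subtype.val (hCcomm ⟨h, hh⟩ ⟨g, hg⟩)
  have hcl := Cfsg.Agent.Lib.PGroups.MaximalClass.class_of_self_centralizing n hn C hCc hCC
  have hn3 : 3 ≤ n := by
    by_contra hlt
    have hn2 : n ≤ 2 := by omega
    have h1 : Nat.card X ≤ 2 ^ 2 := by
      rw [hn]
      exact Nat.pow_le_pow_right (by norm_num) hn2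
    have h2 : Nat.card C = Nat.card X := by
      apply le_antisymm (Subgroup.card_le_card_group C)
      rw [hCc]
      exact h1
    have h3' : C = ⊤ := Subgroup.eq_top_of_card_eq C h2
    apply hnc
    rw [Subgroup.mem_center_iff]
    intro g
    have : g ∈ C := by rw [h3']; trivial
    exact (hmemC g).1 this
  have h4 := Cfsg.Agent.Lib.PGroups.LowerCentral.index_commutator_of_maximal_class hX hn3 hn hcl
  obtain ⟨a, y, r, s, hao, hidx, hy, hr, hr3, hr1, hy2, hs⟩ :=
    Cfsg.Agent.Lib.PGroups.MaximalClass.exists_structure hn3 hn (by rw [h4]; norm_num)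
  obtain ⟨m, rfl⟩ : ∃ m, n = m + 3 := ⟨n - 3, by omega⟩
  simp only [show m + 3 - 1 = m + 2 by omega, show m + 3 - 2 = m + 1 by omega] at hao hr1 hs
  have hcomm_a : ∀ b ∈ Subgroup.zpowers a, ∀ c ∈ Subgroup.zpowers a, b * c = c * b := by
    intro b hb c hc
    obtain ⟨i, rfl⟩ := Subgroup.mem_zpowers_iff.1 hb
    obtain ⟨j, rfl⟩ := Subgroup.mem_zpowers_iff.1 hc
    rw [← zpow_add, ← zpow_add, add_comm]
  -- `u` is not in the cyclic maximal subgroup
  have huA : u ∉ Subgroup.zpowers a := by
    intro huA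
    apply hnc
    rw [Subgroup.mem_center_iff]
    obtain ⟨i, hi⟩ := Subgroup.mem_zpowers_iff.1 huA
    have hyu : y * u * y⁻¹ = u := by
      rw [← hi, ← conj_zpow, hr, ← zpow_mul, mul_comm, zpow_mul, hi]
      obtain ⟨q, hq⟩ : ∃ q, r = 2 * q + 1 := ⟨r / 2, by omega⟩
      rw [hq, zpow_add, zpow_mul, zpow_one]
      have : u ^ (2 : ℤ) = 1 := by
        rw [show (2 : ℤ) = ((2 : ℕ) : ℤ) by norm_num, zpow_natCast]
        exact hu
      rw [this]
      simp
    intro g
    by_cases hg : g ∈ Subgroup.zpowers a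
    · exact hcomm_a g hg u huA
    · have h1 : y⁻¹ * g ∈ Subgroup.zpowers a := by
        rw [Subgroup.mul_mem_iff_of_index_two hidx]
        exact ⟨fun h => absurd ((Subgroup.inv_mem_iff _).1 h) hy, fun h => absurd h hg⟩
      have h2 : g = y * (y⁻¹ * g) := by group
      have h3' := hcomm_a _ h1 u huA
      have h4' : y * u = u * y := by
        rwa [mul_inv_eq_iff_eq_mul] at hyu
      rw [h2, mul_assoc, h3', ← mul_assoc, h4', mul_assoc]
  have hb : y⁻¹ * u ∈ Subgroup.zpowers a := by
    rw [Subgroup.mul_mem_iff_of_index_two hidx]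
    exact ⟨fun h => absurd ((Subgroup.inv_mem_iff _).1 h) hy, fun h => absurd h huA⟩
  have huconj : u * a * u⁻¹ = a ^ r := by
    have h1 : (y⁻¹ * u) * a = a * (y⁻¹ * u) := hcomm_a _ hb _ (Subgroup.mem_zpowers a)
    have h2 : u = y * (y⁻¹ * u) := by group
    rw [← hr]
    calc u * a * u⁻¹ = y * ((y⁻¹ * u) * a) * (y⁻¹ * u)⁻¹ * y⁻¹ := by group
      _ = y * a * y⁻¹ := by rw [h1]; group
  have huo : orderOf u = 2 := orderOf_eq_prime hu hu1
  obtain ⟨e, he⟩ := hr1
  rcases Int.even_or_odd' e with ⟨k, hk | hk⟩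
  · -- dihedral
    left
    have h1 : a ^ (r + 1) = 1 := by
      rw [← orderOf_dvd_iff_zpow_eq_one, hao]
      refine ⟨k, ?_⟩
      rw [he, hk]
      push_cast
      ring
    have h2 : a ^ r = a⁻¹ := by
      rw [zpow_add, zpow_one] at h1
      exact eq_inv_of_mul_eq_one_left h1
    rw [h2] at huconj
    have : NeZero (2 ^ (m + 2)) := ⟨by positivity⟩
    obtain ⟨e'⟩ := Cfsg.Agent.Lib.PGroups.Presentations.nonempty_dihedral_equiv (m := 2 ^ (m + 2))
      (a := a) (y := u) hao hu huconj huA (by rw [hn]; ring)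
    exact ⟨_, ⟨e'.symm⟩⟩
  · -- semidihedral
    rcases Nat.eq_zero_or_pos m with rfl | hm
    · exfalso
      norm_num at he
      omega
    · right
      obtain ⟨m', rfl⟩ : ∃ m', m = m' + 1 := ⟨m - 1, by omega⟩
      refine ⟨m' + 1 + 2, by omega, by rw [hn], a, u, hao, huo, ?_⟩
      rw [huconj]
      simp only [show m' + 1 + 2 - 1 = m' + 2 by omega]
      have h1 : r = (2 : ℤ) ^ (m' + 1 + 2) * k + (((2 ^ (m' + 2) - 1 : ℕ)) : ℤ) := by
        have h2 : 1 ≤ 2 ^ (m' + 2) := Nat.one_le_two_pow
        push_cast [Nat.cast_sub h2]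
        have h3' : r = (2 : ℤ) ^ (m' + 1 + 1) * e - 1 := by linarith
        rw [h3', hk]
        ring
      rw [h1, zpow_add, zpow_mul, zpow_natCast]
      have h2 : a ^ ((2 : ℤ) ^ (m' + 1 + 2)) = 1 := by
        rw [← orderOf_dvd_iff_zpow_eq_one, hao]
        push_cast
        exact dvd_rfl
      rw [h2]
      simp

end Suzuki

section Frob

variable {G : Type*} [Group G] [Finite G] {Ω : Type*} [Finite Ω] [MulAction G Ω] [FaithfulSMul G Ω]

open scoped Pointwise

/-- The Frobenius part of the conclusion. -/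
theorem frob_part
    (hfix3 : ∀ (g : G) (a b c : Ω), a ≠ b → a ≠ c → b ≠ c → g • a = a → g • b = b → g • c = c → g = 1)
    (htr : IsPretransitive G Ω) (S : Sylow 2 G) {α β : Ω} {x : G}
    (hxP : x ∈ (S : Subgroup G)) (hxα : x • α = β) (hxβ : x • β = α) (hαβ : β ≠ α)
    (hT : (S : Subgroup G) ⊓ stabilizer G α ≠ ⊥)
    (hTβ : ∀ t ∈ (S : Subgroup G) ⊓ stabilizer G α, t • β = β)
    (hpair : ∀ y ∈ (S : Subgroup G), y • α = α ∨ y • α = β)
    (hidx : ((S : Subgroup G) ⊓ stabilizer G α).relIndex (S : Subgroup G) = 2)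
    (hA2 : ∀ γ : Ω, γ ≠ α → γ ≠ β → ∀ u ∈ (S : Subgroup G), u ≠ 1 → u • γ ≠ γ) :
    ∃ N : Subgroup G, N.Normal ∧ N.index = 2 ∧ ∃ H : Subgroup ↥N, Cfsg.IsFrobeniusComplement H := by
  classical
  set P := (S : Subgroup G) with hP
  set T := P ⊓ stabilizer G α with hTdef
  have hmemT : ∀ t, t ∈ T ↔ t ∈ P ∧ t • α = α := fun t => Iff.rfl
  have hTi : (T.subgroupOf P).index = 2 := hidx
  have hmm : ∀ a b : P, (a * b : P) ∈ T.subgroupOf P ↔ (a ∈ T.subgroupOf P ↔ b ∈ T.subgroupOf P) :=
    fun a b => Subgroup.mul_mem_iff_of_index_two hTi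
  have hmem' : ∀ a : P, a ∈ T.subgroupOf P ↔ (a : G) • α = α := by
    intro a
    rw [Subgroup.mem_subgroupOf, hmemT]
    exact ⟨fun h => h.2, fun h => ⟨a.2, h⟩⟩
  let φ : P →* ℤˣ := MonoidHom.mk' (fun y => if y ∈ T.subgroupOf P then 1 else -1) (by
    intro a b
    have := hmm a b
    by_cases ha : a ∈ T.subgroupOf P <;> by_cases hb : b ∈ T.subgroupOf P <;>
      simp [ha, hb, this])
  have hφ1 : ∀ y : P, y ∈ T.subgroupOf P → φ y = 1 := fun y hy => by
    show (if y ∈ T.subgroupOf P then (1 : ℤˣ) else -1) = 1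
    rw [if_pos hy]
  have hφ2 : ∀ y : P, y ∉ T.subgroupOf P → φ y = -1 := fun y hy => by
    show (if y ∈ T.subgroupOf P then (1 : ℤˣ) else -1) = -1
    rw [if_neg hy]
  -- membership in `T` is conjugation invariant
  have hkey : ∀ y : P, y ∈ T.subgroupOf P ↔ ∃ γ : Ω, (y : G) • γ = γ := by
    intro y
    constructor
    · intro hy
      exact ⟨α, (hmem' y).1 hy⟩
    · rintro ⟨γ, hγ⟩
      by_cases hy1 : (y : G) = 1
      · rw [hmem', hy1, one_smul]
      · rw [hmem']
        by_cases h1 : γ = α
        · rw [← h1]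
          exact hγ
        by_cases h2 : γ = β
        · rcases hpair y y.2 with h3 | h3
          · exact h3
          · exfalso
            rw [h2] at hγ
            have := MulAction.injective (y : G) (h3.trans hγ.symm)
            exact hαβ this.symm
        · exact absurd hγ (hA2 γ h1 h2 y y.2 hy1)
  have hφc : ∀ (u v : P) (g : G), (v : G) = g * u * g⁻¹ → φ v = φ u := by
    intro u v g huv
    have h1 : v ∈ T.subgroupOf P ↔ u ∈ T.subgroupOf P := by
      rw [hkey, hkey]
      constructor
      · rintro ⟨γ, hγ⟩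
        refine ⟨g⁻¹ • γ, ?_⟩
        rw [huv] at hγ
        simp only [mul_smul] at hγ
        rw [smul_eq_iff_eq_inv_smul] at hγ
        exact hγ
      · rintro ⟨γ, hγ⟩
        refine ⟨g • γ, ?_⟩
        rw [huv]
        simp only [mul_smul, inv_smul_smul]
        rw [hγ]
    by_cases hu : u ∈ T.subgroupOf P
    · rw [hφ1 u hu, hφ1 v (h1.2 hu)]
    · rw [hφ2 u hu, hφ2 v (fun h => hu (h1.1 h))]
  have hcardU : Nat.card ℤˣ = 2 := by
    rw [Nat.card_eq_fintype_card]
    rfl
  have hoddP : ¬ 2 ∣ P.index := S.not_dvd_index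
  have hco : Nat.Coprime (Nat.card ℤˣ) P.index := by
    rw [hcardU]
    exact (Nat.Prime.coprime_iff_not_dvd Nat.prime_two).2 hoddP
  obtain ⟨f, hf⟩ := Cfsg.Agent.Lib.Transfer.Focal.exists_extension hco φ hφc
  have hxT : (⟨x, hxP⟩ : P) ∉ T.subgroupOf P := by
    rw [hmem']
    show x • α ≠ α
    rw [hxα]
    exact hαβ
  have hfx : f x = -1 := by
    have := hf ⟨x, hxP⟩
    rw [hφ2 _ hxT] at this
    exact this
  have hfT : ∀ t ∈ T, f t = 1 := by
    intro t ht
    have h1 : (⟨t, ht.1⟩ : P) ∈ T.subgroupOf P := ht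
    have := hf ⟨t, ht.1⟩
    rw [hφ1 _ h1] at this
    exact this
  have hfu : ∀ g : G, f g = 1 ∨ f g = -1 := fun g => Int.units_eq_one_or (f g)
  refine ⟨f.ker, inferInstance, ?_, ?_⟩
  · rw [Subgroup.index_ker]
    have h1 : f.range = ⊤ := by
      rw [eq_top_iff]
      intro u _
      rcases Int.units_eq_one_or u with rfl | rfl
      · exact Subgroup.one_mem _
      · exact ⟨x, hfx⟩
    rw [h1, Subgroup.card_top, hcardU]
  -- no element of the kernel maps `α` to `β`
  have hTN : T ≤ f.ker := fun t ht => hfT t ht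
  have hnoy : ∀ y ∈ f.ker, y • α ≠ β := by
    intro y hy hyα
    have hfy : f y = 1 := hy
    -- transitivity of the kernel
    have htrN : ∀ γ : Ω, ∃ n ∈ f.ker, n • α = γ := by
      intro γ
      obtain ⟨g, hg⟩ := htr.exists_smul_eq α γ
      rcases hfu g with h1 | h1
      · exact ⟨g, h1, hg⟩
      · refine ⟨g * x⁻¹ * y, ?_, ?_⟩
        · show f (g * x⁻¹ * y) = 1
          rw [map_mul, map_mul, map_inv, h1, hfx, hfy]
          decide
        · rw [mul_smul, mul_smul, hyα, ← hxα, inv_smul_smul, hg]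
    -- parity
    have h2n : 2 ∣ Nat.card Ω := by
      have h1 := (S.isPGroup').card_modEq_card_fixedPoints Ω
      have h2 : IsEmpty (fixedPoints P Ω) := by
        refine ⟨fun ω => ?_⟩
        have hω : ∀ p : P, p • (ω : Ω) = ω := ω.2
        by_cases h3 : (ω : Ω) = α
        · have h4 := hω ⟨x, hxP⟩
          rw [h3] at h4
          exact hαβ ((hxα.symm.trans h4))
        by_cases h4 : (ω : Ω) = β
        · have h5 := hω ⟨x, hxP⟩
          rw [h4] at h5
          exact hαβ ((h5.symm.trans hxβ))
        · obtain ⟨t, ht, ht1⟩ : ∃ t ∈ T, t ≠ 1 := by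
            by_contra hcon
            push Not at hcon
            exact hT ((Subgroup.eq_bot_iff_forall _).2 hcon)
          exact hA2 ω h3 h4 t ht.1 ht1 (hω ⟨t, ht.1⟩)
      have h3 : Nat.card (fixedPoints P Ω) = 0 := Nat.card_of_isEmpty
      rw [h3] at h1
      exact (Nat.modEq_zero_iff_dvd).1 h1
    -- orbit-stabilizer in the kernel
    let D : Subgroup f.ker := stabilizer f.ker α
    have hDi : D.index = Nat.card Ω := by
      rw [MulAction.index_stabilizer]
      have h1 : orbit f.ker α = Set.univ := by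
        rw [Set.eq_univ_iff_forall]
        intro γ
        obtain ⟨n, hn, hnα⟩ := htrN γ
        exact ⟨⟨n, hn⟩, hnα⟩
      rw [h1, Set.ncard_univ]
    have hD1 := Subgroup.card_mul_index D
    have hTD : T.subgroupOf f.ker ≤ D := by
      intro t ht
      exact ((hmemT t).1 ht).2
    have hdvd : Nat.card T ∣ Nat.card D := by
      have h1 := Subgroup.card_dvd_of_le hTD
      have h2 : Nat.card (T.subgroupOf f.ker) = Nat.card T :=
        Nat.card_congr (Subgroup.subgroupOfEquivOfLe hTN).toEquiv
      rwa [h2] at h1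
    obtain ⟨h, hh⟩ := hdvd
    have hN2 : Nat.card f.ker * 2 = Nat.card G := by
      have h1 := Subgroup.card_mul_index f.ker
      rw [Subgroup.index_ker] at h1
      have h3 : f.range = ⊤ := by
        rw [eq_top_iff]
        intro u _
        rcases Int.units_eq_one_or u with rfl | rfl
        · exact Subgroup.one_mem _
        · exact ⟨x, hfx⟩
      rw [h3, Subgroup.card_top, hcardU] at h1
      exact h1
    have hP2 : Nat.card P = Nat.card T * 2 := by
      have h1 := Cfsg.Agent.Lib.Coprime.Action.card_eq_card_mul_relIndex (H := T) (K := P) inf_le_left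
      rw [hidx] at h1
      exact h1
    have hG1 := Subgroup.card_mul_index P
    -- `n * h` is the odd index
    have hT0 : 0 < Nat.card T := Nat.card_pos
    have h5 : Nat.card Ω * h = P.index := by
      rw [hP2] at hG1
      rw [← hN2, ← hD1, hDi, hh] at hG1
      have h6 : (Nat.card T * 2) * (Nat.card Ω * h) = (Nat.card T * 2) * P.index := by
        rw [hG1]
        ring
      exact Nat.eq_of_mul_eq_mul_left (by omega) h6
    apply hoddP
    rw [← h5]
    exact Dvd.dvd.mul_right h2n h
  -- the complement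
  let K : Subgroup G := f.ker ⊓ stabilizer G α ⊓ stabilizer G β
  have hmemK : ∀ k, k ∈ K ↔ f k = 1 ∧ k • α = α ∧ k • β = β := by
    intro k
    constructor
    · rintro ⟨⟨h1, h2⟩, h3⟩
      exact ⟨h1, h2, h3⟩
    · rintro ⟨h1, h2, h3⟩
      exact ⟨⟨h1, h2⟩, h3⟩
  refine ⟨K.subgroupOf f.ker, ?_, ?_, ?_⟩
  · -- non-trivial
    intro hb
    apply hT
    rw [Subgroup.eq_bot_iff_forall] at hb ⊢
    intro t ht
    have h1 : (⟨t, hfT t ht⟩ : f.ker) ∈ K.subgroupOf f.ker := by
      rw [Subgroup.mem_subgroupOf]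
      exact (hmemK t).2 ⟨hfT t ht, ht.2, hTβ t ht⟩
    have h2 := hb _ h1
    exact congrArg Subtype.val h2
  · -- proper
    intro htop
    obtain ⟨t, ht, ht1⟩ : ∃ t ∈ T, t ≠ 1 := by
      by_contra hcon
      push Not at hcon
      exact hT ((Subgroup.eq_bot_iff_forall _).2 hcon)
    apply ht1
    apply FaithfulSMul.eq_of_smul_eq_smul (α := Ω)
    intro γ
    rw [one_smul]
    have hNfix : ∀ n ∈ f.ker, n • α = α ∧ n • β = β := by
      intro n hn
      have h1 : (⟨n, hn⟩ : f.ker) ∈ K.subgroupOf f.ker := by rw [htop]; trivial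
      rw [Subgroup.mem_subgroupOf] at h1
      exact ((hmemK n).1 h1).2
    obtain ⟨g, hg⟩ := htr.exists_smul_eq α γ
    rcases hfu g with h1 | h1
    · rw [← hg, (hNfix g h1).1]
      exact ht.2
    · have h2 : g * x⁻¹ ∈ f.ker := by
        show f (g * x⁻¹) = 1
        rw [map_mul, map_inv, h1, hfx]
        decide
      have h3 : γ = β := by
        rw [← hg]
        have h4 : g • α = (g * x⁻¹) • x • α := by
          rw [mul_smul, inv_smul_smul]
        rw [h4, hxα, (hNfix _ h2).2]
      rw [h3]
      exact hTβ t ht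
  · -- Frobenius property
    intro g hg
    rw [eq_bot_iff]
    rintro w ⟨hw1, hw2⟩
    rw [Subgroup.mem_bot]
    by_contra hw
    have hw' : (w : G) ≠ 1 := fun h => hw (Subtype.ext h)
    replace hw1 : w ∈ K.subgroupOf f.ker := hw1
    replace hw2 : w ∈ MulAut.conj g • K.subgroupOf f.ker := hw2
    rw [Subgroup.mem_subgroupOf, hmemK] at hw1
    rw [Subgroup.mem_pointwise_smul_iff_inv_smul_mem, Subgroup.mem_subgroupOf, hmemK] at hw2
    have hgw : ((MulAut.conj g)⁻¹ • w : f.ker) = g⁻¹ * w * g := by
      rw [MulAut.smul_def, MulAut.inv_def, MulAut.conj_symm_apply]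
    rw [hgw] at hw2
    obtain ⟨-, h1, h2⟩ := hw2
    obtain ⟨-, h3, h4⟩ := hw1
    have hgk : (g : G) ∈ f.ker := g.2
    -- `g • α` and `g • β` are fixed by `w`
    have h5 : (w : G) • ((g : G) • α) = (g : G) • α := by
      have : ((g : G)⁻¹ * w * g) • α = α := by
        have h6 := h1
        push_cast at h6
        exact h6
      simp only [mul_smul] at this
      rw [inv_smul_eq_iff] at this
      exact this
    have h6 : (w : G) • ((g : G) • β) = (g : G) • β := by
      have : ((g : G)⁻¹ * w * g) • β = β := by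
        have h6 := h2
        push_cast at h6
        exact h6
      simp only [mul_smul] at this
      rw [inv_smul_eq_iff] at this
      exact this
    have hg1 : (g : G) • α = α := by
      by_contra h7
      have h8 : (g : G) • α ≠ β := hnoy _ hgk
      exact hw' (hfix3 _ α β _ hαβ.symm (Ne.symm h7) (Ne.symm h8) h3 h4 h5)
    have hg2 : (g : G) • β = β := by
      by_contra h7
      have h8 : (g : G) • β ≠ α := by
        intro h9
        rw [← hg1] at h9
        exact hαβ (MulAction.injective _ h9)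
      exact hw' (hfix3 _ α β _ hαβ.symm (Ne.symm h8) (Ne.symm h7) h3 h4 h6)
    apply hg
    rw [Subgroup.mem_subgroupOf, hmemK]
    exact ⟨hgk, hg1, hg2⟩

end Frob

/-- Let G be a finite group acting faithfully and transitively on a finite set Ω with fixity 2 (every non-identity element fixes at most two points, and some fixes exactly two). Let α ∈ Ω and S a Sylow 2-subgroup of G. Then one of the following holds: the stabilizer S_α of α in S is trivial; S is dihedral or semidihedral and either |S_α| = 2 or |S : S_α| = 2; |S| ≥ 4, S has exactly one orbit of size 2 on Ω, every other S-orbit is regular, and G has a normal subgroup of index 2 or of index |S| which is a Frobenius group; or S ≤ G_α. -/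
theorem result {G : Type*} [Group G] [Finite G] {Ω : Type*} [Fintype Ω] [MulAction G Ω] [FaithfulSMul G Ω] (htr : MulAction.IsPretransitive G Ω)
    (hfix : ∀ g : G, g ≠ 1 → Nat.card (MulAction.fixedBy Ω g) ≤ 2) (hex : ∃ g : G, g ≠ 1 ∧ Nat.card (MulAction.fixedBy Ω g) = 2) (α : Ω) (S : Sylow 2 G) :
    (S : Subgroup G) ⊓ MulAction.stabilizer G α = ⊥ ∨
    (((∃ n : ℕ, Nonempty (↥(S : Subgroup G) ≃* DihedralGroup n)) ∨ Cfsg.IsQuasiDihedral ↥(S : Subgroup G)) ∧
       (Nat.card ↥((S : Subgroup G) ⊓ MulAction.stabilizer G α) = 2 ∨ ((S : Subgroup G) ⊓ MulAction.stabilizer G α).relIndex (S : Subgroup G) = 2)) ∨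
    (4 ≤ Nat.card (S : Subgroup G) ∧
       (∃ ω : Ω, Nat.card (MulAction.orbit ↥(S : Subgroup G) ω) = 2 ∧
          ∀ ω' : Ω, ω' ∉ MulAction.orbit ↥(S : Subgroup G) ω → Nat.card (MulAction.orbit ↥(S : Subgroup G) ω') = Nat.card (S : Subgroup G)) ∧
       ∃ N : Subgroup G, N.Normal ∧ (N.index = 2 ∨ N.index = Nat.card (S : Subgroup G)) ∧ (∃ H : Subgroup ↥N, Cfsg.IsFrobeniusComplement H)) ∨
    (S : Subgroup G) ≤ MulAction.stabilizer G α := by
  classical
  have hfix3 : ∀ (g : G) (a b c : Ω), a ≠ b → a ≠ c → b ≠ c → g • a = a → g • b = b → g • c = c →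
      g = 1 := by
    intro g a b c hab hac hbc ha hb hc
    by_contra hg
    have h1 := hfix g hg
    have h2 : ({a, b, c} : Set Ω) ⊆ fixedBy Ω g := by
      intro y hy
      simp only [Set.mem_insert_iff, Set.mem_singleton_iff] at hy
      rcases hy with rfl | rfl | rfl <;> assumption
    have h3 := Set.ncard_le_ncard h2 (Set.toFinite _)
    rw [Set.ncard_eq_three.2 ⟨a, b, c, hab, hac, hbc, rfl⟩, ← Nat.card_coe_set_eq] at h3
    omega
  set P := (S : Subgroup G) with hP
  have hPp : IsPGroup 2 P := S.isPGroup'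
  by_cases hT : P ⊓ stabilizer G α = ⊥
  · exact Or.inl hT
  by_cases hPα : P ≤ stabilizer G α
  · exact Or.inr (Or.inr (Or.inr hPα))
  right
  set T := P ⊓ stabilizer G α with hTdef
  have hmemT : ∀ t, t ∈ T ↔ t ∈ P ∧ t • α = α := fun t => Iff.rfl
  have hTP : T ≤ P := inf_le_left
  have hmemT' : ∀ a : P, a ∈ T.subgroupOf P ↔ (a : G) • α = α := by
    intro a
    rw [Subgroup.mem_subgroupOf, hmemT]
    exact ⟨fun h => h.2, fun h => ⟨a.2, h⟩⟩
  obtain ⟨t₀, ht₀, ht₀1⟩ : ∃ t ∈ T, t ≠ 1 := by
    by_contra hcon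
    push Not at hcon
    exact hT ((Subgroup.eq_bot_iff_forall _).2 hcon)
  -- an element normalizing `T`
  obtain ⟨x, hxP, hxT, hxN⟩ : ∃ x ∈ P, x ∉ T ∧ ∀ t ∈ P, (t ∈ T ↔ x * t * x⁻¹ ∈ T) := by
    have := hPp.isNilpotent
    have hlt : T.subgroupOf P < ⊤ := by
      rw [lt_top_iff_ne_top]
      intro h
      apply hPα
      intro y hy
      have : (⟨y, hy⟩ : P) ∈ T.subgroupOf P := by rw [h]; trivial
      exact ((hmemT' _).1 this)
    obtain ⟨x, hx1, hx2⟩ := SetLike.exists_of_lt (Group.normalizerCondition_of_isNilpotent _ hlt)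
    refine ⟨x, x.2, fun h => hx2 h, fun t ht => ?_⟩
    have h3 := (Subgroup.mem_normalizer_iff.1 hx1) ⟨t, ht⟩
    rw [Subgroup.mem_subgroupOf, Subgroup.mem_subgroupOf] at h3
    exact h3
  set β := x • α with hβ
  have hβα : β ≠ α := fun h => hxT ((hmemT x).2 ⟨hxP, h⟩)
  have hTβ : ∀ t ∈ T, t • β = β := by
    intro t ht
    have h1 : x⁻¹ * t * x ∈ T := by
      rw [hxN _ (P.mul_mem (P.mul_mem (P.inv_mem hxP) ht.1) hxP)]
      have : x * (x⁻¹ * t * x) * x⁻¹ = t := by group
      rw [this]
      exact ht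
    have h2 := ((hmemT _).1 h1).2
    simp only [mul_smul] at h2
    rw [inv_smul_eq_iff] at h2
    exact h2
  have hTfix : ∀ t ∈ T, t ≠ 1 → ∀ γ : Ω, t • γ = γ → γ = α ∨ γ = β := by
    intro t ht ht1 γ hγ
    by_contra hcon
    push Not at hcon
    exact ht1 (hfix3 t α β γ hβα.symm (Ne.symm hcon.1) (Ne.symm hcon.2) ht.2 (hTβ t ht) hγ)
  have hxβ : x • β = α := by
    have h1 : x * t₀ * x⁻¹ ∈ T := (hxN _ ht₀.1).1 ht₀
    have h2 : x * t₀ * x⁻¹ ≠ 1 := by
      intro h
      apply ht₀1
      have : t₀ = x⁻¹ * (x * t₀ * x⁻¹) * x := by group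
      rw [this, h]
      group
    have h3 : (x * t₀ * x⁻¹) • (x • β) = x • β := by
      simp only [mul_smul, inv_smul_smul]
      rw [hTβ t₀ ht₀]
    rcases hTfix _ h1 h2 _ h3 with h4 | h4
    · exact h4
    · exfalso
      exact hβα (MulAction.injective x (h4.trans hβ))
  have hsecond : ∀ y ∈ P, y • α = β → y • β = α := by
    intro y hy hyα
    have h1 : x⁻¹ * y ∈ T := by
      refine (hmemT _).2 ⟨P.mul_mem (P.inv_mem hxP) hy, ?_⟩
      rw [mul_smul, hyα, hβ, inv_smul_smul]
    have h2 := hTβ _ h1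
    rw [mul_smul, inv_smul_eq_iff, hxβ] at h2
    exact h2
  have hidx_of : (∀ y ∈ P, y • α = α ∨ y • α = β) → T.relIndex P = 2 := by
    intro hpair
    have h1 : T.subgroupOf P = stabilizer (↥P) α := by
      ext y
      rw [hmemT', mem_stabilizer_iff]
      rfl
    have h2 : orbit (↥P) α = {α, β} := by
      ext γ
      constructor
      · rintro ⟨y, rfl⟩
        exact hpair y y.2
      · rintro (rfl | rfl)
        · exact ⟨1, one_smul _ _⟩
        · exact ⟨⟨x, hxP⟩, rfl⟩
    rw [Subgroup.relIndex, h1, index_stabilizer, h2, Set.ncard_pair hβα.symm]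
  have hfixu : ∀ u ∈ P, u ∉ T → ∀ v ∈ P, (u • α = β) → (v • α = β) → v⁻¹ * u ∈ T := by
    intro u hu _ v hv huα hvα
    refine (hmemT _).2 ⟨P.mul_mem (P.inv_mem hv) hu, ?_⟩
    rw [mul_smul, huα, ← hvα, inv_smul_smul]
  by_cases hcen : ∃ z ∈ T, z ≠ 1 ∧ ∀ y ∈ P, y * z = z * y
  · -- Case A
    obtain ⟨z, hzT, hz1, hzc⟩ := hcen
    have hpair : ∀ y ∈ P, y • α = α ∨ y • α = β := by
      intro y hy
      apply hTfix z hzT hz1
      have h1 := hzc y hy
      have h2 : z • y • α = (z * y) • α := (mul_smul _ _ _).symm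
      rw [h2, ← h1, mul_smul, hzT.2]
    have hidx := hidx_of hpair
    have hPc : Nat.card P = Nat.card T * 2 := by
      have h1 := Cfsg.Agent.Lib.Coprime.Action.card_eq_card_mul_relIndex (H := T) (K := P) inf_le_left
      rw [hidx] at h1
      exact h1
    have hT2 : 2 ≤ Nat.card T := by
      have : Nontrivial T := ⟨⟨⟨z, hzT⟩, 1, fun h => hz1 (congrArg Subtype.val h)⟩⟩
      exact Finite.one_lt_card
    by_cases hreg : ∃ γ : Ω, γ ≠ α ∧ γ ≠ β ∧ ∃ u ∈ P, u ≠ 1 ∧ u • γ = γ
    · -- `S` is dihedral or semidihedral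
      left
      refine ⟨?_, Or.inr hidx⟩
      obtain ⟨γ, hγα, hγβ, u, huP, hu1, huγ⟩ := hreg
      have hTtriv : ∀ t ∈ T, t • γ = γ → t = 1 := by
        intro t ht htγ
        by_contra h1
        rcases hTfix t ht h1 γ htγ with h2 | h2
        · exact hγα h2
        · exact hγβ h2
      have huT : u ∉ T := fun h => hu1 (hTtriv u h huγ)
      have huα : u • α = β := by
        rcases hpair u huP with h1 | h1
        · exact absurd ((hmemT u).2 ⟨huP, h1⟩) huT
        · exact h1
      have htwo : ∀ v ∈ P, v • γ = γ → v = 1 ∨ v = u := by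
        intro v hv hvγ
        by_cases hvT : v ∈ T
        · exact Or.inl (hTtriv v hvT hvγ)
        · right
          have hvα : v • α = β := by
            rcases hpair v hv with h1 | h1
            · exact absurd ((hmemT v).2 ⟨hv, h1⟩) hvT
            · exact h1
          have h2 := hfixu u huP huT v hv huα hvα
          have h3 : v⁻¹ * u = 1 := by
            apply hTtriv _ h2
            rw [mul_smul, huγ, inv_smul_eq_iff, hvγ]
          have h4 : v⁻¹ = u⁻¹ := by
            rwa [mul_eq_one_iff_eq_inv] at h3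
          exact inv_injective h4
      have hu2 : u ^ 2 = 1 := by
        have h1 : u ^ 2 • γ = γ := by
          rw [pow_two, mul_smul, huγ, huγ]
        rcases htwo (u ^ 2) (P.pow_mem huP 2) h1 with h2 | h2
        · exact h2
        · exfalso
          apply hu1
          rw [pow_two] at h2
          exact mul_eq_left.1 h2
      -- the centralizer of `u` has order at most four
      let u' : P := ⟨u, huP⟩
      have hu'2 : u' ^ 2 = 1 := Subtype.ext (by simpa using hu2)
      let C : Subgroup P := Subgroup.centralizer ({u'} : Set P)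
      have hmemC : ∀ c : P, c ∈ C ↔ c * u' = u' * c := by
        intro c
        exact Subgroup.mem_centralizer_singleton_iff
      have hC4 : Nat.card C ≤ 4 := by
        let D : Subgroup C := stabilizer C γ
        have hD : Nat.card D ≤ 2 := by
          let f : D → ({1, u} : Set G) := fun d => ⟨((d : C) : P), by
            have h1 : ((d : C) : P) • γ = γ := d.2
            have h2 := htwo _ (((d : C) : P).2) h1
            simpa using h2⟩
          have hf : Function.Injective f := by
            intro a b hab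
            have := congrArg Subtype.val hab
            exact Subtype.ext (Subtype.ext (Subtype.ext this))
          have h1 := Nat.card_le_card_of_injective f hf
          rw [Nat.card_coe_set_eq] at h1
          exact h1.trans ((Set.ncard_insert_le _ _).trans (by simp))
        have hI : D.index ≤ 2 := by
          rw [index_stabilizer]
          have h1 : orbit C γ ⊆ fixedBy Ω u := by
            rintro _ ⟨c, rfl⟩
            rw [mem_fixedBy]
            have h2 := (hmemC _).1 c.2
            have h3 : u * ((c : P) : G) = ((c : P) : G) * u :=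
              (congrArg Subtype.val h2).symm
            show u • ((c : P) : G) • γ = ((c : P) : G) • γ
            rw [← mul_smul, h3, mul_smul, huγ]
          have h2 := Set.ncard_le_ncard h1 (Set.toFinite _)
          have h3 := hfix u hu1
          rw [Nat.card_coe_set_eq] at h3
          exact h2.trans h3
        have h1 := Subgroup.card_mul_index D
        rw [← h1]
        exact Nat.mul_le_mul hD hI
      by_cases hu'c : u' ∈ Subgroup.center P
      · -- `S` has order four
        have hCtop : C = ⊤ := by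
          rw [eq_top_iff]
          intro c _
          exact (hmemC c).2 ((Subgroup.mem_center_iff.1 hu'c) c)
        have hP4 : Nat.card P ≤ 4 := by
          rw [hCtop, Subgroup.card_top] at hC4
          exact hC4
        have hT2' : Nat.card T = 2 := by omega
        have hP4' : Nat.card P = 2 * 2 := by omega
        let z' : P := ⟨z, hzT.1⟩
        have hz'1 : z' ≠ 1 := fun h => hz1 (congrArg Subtype.val h)
        have hz'T : z' ∈ T.subgroupOf P := hzT
        have hz2 : z ^ 2 = 1 := by
          have h1 : (⟨z, hzT⟩ : T) ^ Nat.card T = 1 := pow_card_eq_one'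
          rw [hT2'] at h1
          exact congrArg Subtype.val h1
        have hz'2 : z' ^ 2 = 1 := Subtype.ext (by simpa using hz2)
        have hzo : orderOf z' = 2 := orderOf_eq_prime hz'2 hz'1
        left
        refine ⟨2, ?_⟩
        have hnot : u' ∉ Subgroup.zpowers z' := by
          intro h
          have h1 : Subgroup.zpowers z' ≤ T.subgroupOf P := by
            rw [Subgroup.zpowers_le]
            exact hz'T
          exact huT (h1 h)
        have hconj : u' * z' * u'⁻¹ = z'⁻¹ := by
          have h1 : u' * z' = z' * u' := by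
            exact (Subgroup.mem_center_iff.1 hu'c z').symm
          rw [h1, mul_inv_cancel_right]
          rw [eq_inv_iff_mul_eq_one, ← pow_two, hz'2]
        obtain ⟨e⟩ := Cfsg.Agent.Lib.PGroups.Presentations.nonempty_dihedral_equiv hzo hu'2 hconj hnot hP4'
        exact ⟨e.symm⟩
      · exact suzuki hPp hu'2 hu'c hC4
    · -- the Frobenius case
      push Not at hreg
      have hA2 : ∀ γ : Ω, γ ≠ α → γ ≠ β → ∀ u ∈ P, u ≠ 1 → u • γ ≠ γ := hreg
      right
      left
      refine ⟨by omega, ⟨α, ?_, ?_⟩, ?_⟩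
      · have h2 : orbit (↥P) α = {α, β} := by
          ext γ
          constructor
          · rintro ⟨y, rfl⟩
            exact hpair y y.2
          · rintro (rfl | rfl)
            · exact ⟨1, one_smul _ _⟩
            · exact ⟨⟨x, hxP⟩, rfl⟩
        rw [h2, Nat.card_coe_set_eq, Set.ncard_pair hβα.symm]
      · intro ω hω
        have h1 : ω ≠ α := by
          rintro rfl
          exact hω ⟨1, one_smul _ _⟩
        have h2 : ω ≠ β := by
          rintro rfl
          exact hω ⟨⟨x, hxP⟩, rfl⟩
        have h3 : stabilizer (↥P) ω = ⊥ := by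
          rw [Subgroup.eq_bot_iff_forall]
          intro y hy
          by_contra hy1
          exact hA2 ω h1 h2 y y.2 (fun h => hy1 (Subtype.ext h)) hy
        have h4 := index_stabilizer (↥P) ω
        rw [h3, Subgroup.index_bot] at h4
        rw [Nat.card_coe_set_eq]
        exact h4.symm
      · obtain ⟨N, hN, hN2, hF⟩ := frob_part hfix3 htr S hxP hβ.symm hxβ hβα hT hTβ hpair hidx hA2
        exact ⟨N, hN, Or.inl hN2, hF⟩
  · -- Case B
    push Not at hcen
    left
    haveI : Nontrivial P := ⟨⟨⟨x, hxP⟩, 1, fun h => hxT (by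
      have : x = 1 := congrArg Subtype.val h
      rw [this]
      exact T.one_mem)⟩⟩
    obtain ⟨z, -, hzZ, hzo⟩ := Cfsg.Agent.Lib.PGroups.Basic.exists_central_orderOf_eq hPp (⊤ : Subgroup P)
      top_ne_bot
    have hz1 : (z : G) ≠ 1 := by
      intro h
      have : z = 1 := Subtype.ext h
      rw [this] at hzo
      simp at hzo
    have hzc : ∀ y : P, y * z = z * y := Subgroup.mem_center_iff.1 hzZ
    have hzcG : ∀ y ∈ P, y * (z : G) = z * y := fun y hy => congrArg Subtype.val (hzc ⟨y, hy⟩)
    have hzT : (z : G) ∉ T := by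
      intro h
      obtain ⟨y, hy, hyz⟩ := hcen _ h hz1
      exact hyz (hzcG y hy)
    have hzβ : (z : G) • α = β := by
      have h1 : t₀ • (z : G) • α = (z : G) • α := by
        rw [← mul_smul, hzcG t₀ ht₀.1, mul_smul, ht₀.2]
      rcases hTfix t₀ ht₀ ht₀1 _ h1 with h2 | h2
      · exact absurd ((hmemT _).2 ⟨z.2, h2⟩) hzT
      · exact h2
    -- the set-stabilizer of `{α, β}`
    let Q : Subgroup P :=
      { carrier := {y | (y : G) • α = α ∨ (y : G) • α = β}
        one_mem' := Or.inl (one_smul _ _)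
        mul_mem' := by
          intro a b ha hb
          show ((a : G) * (b : G)) • α = α ∨ ((a : G) * (b : G)) • α = β
          rw [mul_smul]
          rcases hb with hb | hb
          · rw [hb]
            exact ha
          · rw [hb]
            rcases ha with ha | ha
            · exact Or.inr (hTβ _ ((hmemT _).2 ⟨a.2, ha⟩))
            · exact Or.inl (hsecond _ a.2 ha)
        inv_mem' := by
          intro a ha
          show ((a : G)⁻¹) • α = α ∨ ((a : G)⁻¹) • α = β
          rcases ha with ha | ha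
          · left
            rw [inv_smul_eq_iff, ha]
          · right
            rw [inv_smul_eq_iff, hsecond _ a.2 ha] }
    have hmemQ : ∀ y : P, y ∈ Q ↔ (y : G) • α = α ∨ (y : G) • α = β := fun y => Iff.rfl
    have hQtop : Q ≠ ⊤ := by
      intro h
      have hpair : ∀ y ∈ P, y • α = α ∨ y • α = β := by
        intro y hy
        have : (⟨y, hy⟩ : P) ∈ Q := by rw [h]; trivial
        exact this
      have hidx := hidx_of hpair
      haveI : (T.subgroupOf P).Normal := Subgroup.normal_of_index_eq_two hidx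
      have hne : T.subgroupOf P ≠ ⊥ := by
        intro hb
        have h1 : (⟨t₀, ht₀.1⟩ : P) ∈ T.subgroupOf P := ht₀
        rw [hb, Subgroup.mem_bot] at h1
        exact ht₀1 (congrArg Subtype.val h1)
      obtain ⟨w, hwT, hwZ, hwo⟩ := Cfsg.Agent.Lib.PGroups.Basic.exists_central_orderOf_eq hPp _ hne
      have hw1 : (w : G) ≠ 1 := by
        intro h
        have : w = 1 := Subtype.ext h
        rw [this] at hwo
        simp at hwo
      obtain ⟨y, hy, hyw⟩ := hcen _ hwT hw1
      exact hyw (congrArg Subtype.val ((Subgroup.mem_center_iff.1 hwZ) ⟨y, hy⟩))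
    have := hPp.isNilpotent
    obtain ⟨y, hy1, hy2⟩ := SetLike.exists_of_lt (Group.normalizerCondition_of_isNilpotent _ (lt_top_iff_ne_top.2 hQtop))
    -- conjugation by `y` moves `T` off itself
    have hconj : ∀ t ∈ T, t ≠ 1 → ((y : G) * t * (y : G)⁻¹) • α = β := by
      intro t ht ht1
      have h1 : (⟨t, ht.1⟩ : P) ∈ Q := Or.inl ht.2
      have h2 : y * (⟨t, ht.1⟩ : P) * y⁻¹ ∈ Q := (Subgroup.mem_normalizer_iff.1 hy1 _).1 h1
      have h3 : ((y : G) * t * (y : G)⁻¹) • α = α ∨ ((y : G) * t * (y : G)⁻¹) • α = β := h2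
      rcases h3 with h3 | h3
      · exfalso
        have h4 : t • ((y : G)⁻¹ • α) = (y : G)⁻¹ • α := by
          simp only [mul_smul] at h3
          rw [smul_eq_iff_eq_inv_smul] at h3
          exact h3
        have h5 : y⁻¹ ∈ Q := by
          have := hTfix t ht ht1 _ h4
          exact this
        exact hy2 (by simpa using Q.inv_mem h5)
      · exact h3
    have hTone : ∀ t ∈ T, t ≠ 1 → t = t₀ := by
      intro t ht ht1
      by_contra hne
      have h1 : t₀⁻¹ * t ∈ T := T.mul_mem (T.inv_mem ht₀) ht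
      have h2 : t₀⁻¹ * t ≠ 1 := by
        intro h
        apply hne
        rw [mul_eq_one_iff_eq_inv] at h
        exact (inv_injective h).symm
      have h3 := hconj _ h1 h2
      have h4 := hconj t ht ht1
      have h5 := hconj t₀ ht₀ ht₀1
      have h6 : (y : G) * (t₀⁻¹ * t) * (y : G)⁻¹ =
          ((y : G) * t₀ * (y : G)⁻¹)⁻¹ * ((y : G) * t * (y : G)⁻¹) := by group
      rw [h6, mul_smul, h4, ← h5, inv_smul_smul] at h3
      rw [h5] at h3
      exact hβα h3.symm
    have ht₀2 : t₀ ^ 2 = 1 := by
      by_contra h1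
      have h2 := hTone (t₀ ^ 2) (T.pow_mem ht₀ 2) h1
      rw [pow_two] at h2
      exact ht₀1 (mul_eq_left.1 h2)
    have hTset : (T : Set G) = {1, t₀} := by
      ext t
      constructor
      · intro ht
        by_cases h1 : t = 1
        · exact Or.inl h1
        · exact Or.inr (hTone t ht h1)
      · rintro (rfl | rfl)
        · exact T.one_mem
        · exact ht₀
    have hTcard : Nat.card T = 2 := by
      have h1 : Nat.card T = Nat.card (T : Set G) := rfl
      rw [h1, hTset, Nat.card_coe_set_eq, Set.ncard_pair ht₀1.symm]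
    refine ⟨?_, Or.inl hTcard⟩
    let u' : P := ⟨t₀, ht₀.1⟩
    have hu'2 : u' ^ 2 = 1 := Subtype.ext (by simpa using ht₀2)
    have hu'c : u' ∉ Subgroup.center P := by
      intro h
      obtain ⟨y, hy, hyt⟩ := hcen t₀ ht₀ ht₀1
      exact hyt (congrArg Subtype.val ((Subgroup.mem_center_iff.1 h) ⟨y, hy⟩))
    have hC4 : Nat.card (Subgroup.centralizer ({u'} : Set P)) ≤ 4 := by
      let f : (Subgroup.centralizer ({u'} : Set P)) → ({1, t₀, (z : G), (z : G) * t₀} : Set G) := fun c =>
        ⟨((c : P) : G), by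
          have h1 : (c : P) * u' = u' * c := Subgroup.mem_centralizer_singleton_iff.1 c.2
          have h2 : ((c : P) : G) * t₀ = t₀ * ((c : P) : G) := congrArg Subtype.val h1
          have h3 : t₀ • ((c : P) : G) • α = ((c : P) : G) • α := by
            rw [← mul_smul, ← h2, mul_smul, ht₀.2]
          rcases hTfix t₀ ht₀ ht₀1 _ h3 with h4 | h4
          · have h5 : ((c : P) : G) ∈ T := (hmemT _).2 ⟨(c : P).2, h4⟩
            by_cases h6 : ((c : P) : G) = 1
            · exact Or.inl h6
            · exact Or.inr (Or.inl (hTone _ h5 h6))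
          · have h5 : (z : G)⁻¹ * ((c : P) : G) ∈ T := by
              refine (hmemT _).2 ⟨P.mul_mem (P.inv_mem z.2) (c : P).2, ?_⟩
              rw [mul_smul, h4, ← hzβ, inv_smul_smul]
            by_cases h6 : (z : G)⁻¹ * ((c : P) : G) = 1
            · right; right; left
              rw [mul_eq_one_iff_eq_inv] at h6
              exact inv_injective h6 ▸ rfl
            · right; right; right
              have h7 := hTone _ h5 h6
              rw [← h7, mul_inv_cancel_left]
              rfl⟩
      have hf : Function.Injective f := by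
        intro a b hab
        have := congrArg Subtype.val hab
        exact Subtype.ext (Subtype.ext this)
      have h1 := Nat.card_le_card_of_injective f hf
      rw [Nat.card_coe_set_eq] at h1
      refine h1.trans ?_
      refine (Set.ncard_insert_le _ _).trans ?_
      have h2 := Set.ncard_insert_le t₀ ({(z : G), (z : G) * t₀} : Set G)
      have h3 := Set.ncard_insert_le (z : G) ({(z : G) * t₀} : Set G)
      rw [Set.ncard_singleton] at h3
      omega
    exact suzuki hPp hu'2 hu'c hC4

end Cfsg.Agent.S3390
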