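import Cfsg.Statements.S3391
import Cfsg.Agent.Lib.SzIso.Fix2

set_option autoImplicit false
open Cfsg
open Cfsg.Agent.Lib.Suzuki.Elements Cfsg.Agent.Lib.SzIso.Fix2 Cfsg.Agent.Lib.SzIso.Basic Cfsg.Agent.Lib.Suzuki.Stab Cfsg.Agent.Lib.Suzuki.Core Cfsg.Agent.Lib.SzIso.OutSz Cfsg.Agent.Lib.SzIso.SubSz

namespace Cfsg.Agent.S3391


/-- Let q = 2^{2m+1} ≥ 8 and let G be isomorphic to the Suzuki group Sz(q). If G acts faithfully and transitively on a finite set Ω with fixity 2 (every non-identity element fixes at most two points, and some fixes exactly two), then either |Ω| = q² + 1 and the action is 2-transitive, or |Ω| = q²(q² + 1) and the point stabilizers have order q − 1. -/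
theorem result {G : Type*} [Group G] [Finite G] (F : Type) [Field F] [Fintype F] (m : ℕ) (hm : 1 ≤ m) (hF : Fintype.card F = 2 ^ (2 * m + 1))
    (e : G ≃* ↥(Cfsg.Lie.Sz F (2 ^ (m + 1)))) {Ω : Type*} [Fintype Ω] [MulAction G Ω] [FaithfulSMul G Ω] (htr : MulAction.IsPretransitive G Ω)
    (hfix : ∀ g : G, g ≠ 1 → Nat.card (MulAction.fixedBy Ω g) ≤ 2) (hex : ∃ g : G, g ≠ 1 ∧ Nat.card (MulAction.fixedBy Ω g) = 2) :
    (Fintype.card Ω = Fintype.card F ^ 2 + 1 ∧ MulAction.IsMultiplyPretransitive G Ω 2) ∨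
    (Fintype.card Ω = Fintype.card F ^ 2 * (Fintype.card F ^ 2 + 1) ∧ ∀ α : Ω, Nat.card (MulAction.stabilizer G α) = Fintype.card F - 1) := by
  have hch : CharP F 2 := charP_two_of_card hF
  have hc := ctx_of_card hm hF
  let φ : Cfsg.Sz F m ≃* G := (equivSz hc).trans e.symm
  letI act : MulAction (Cfsg.Sz F m) Ω := MulAction.compHom Ω φ.toMonoidHom
  have hsmul : ∀ (g : Cfsg.Sz F m) (ω : Ω), g • ω = φ g • ω := fun _ _ => rfl
  haveI : MulAction.IsPretransitive (Cfsg.Sz F m) Ω := ⟨fun a b => by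
    obtain ⟨g, hg⟩ := MulAction.exists_smul_eq G a b
    refine ⟨φ.symm g, ?_⟩
    rw [hsmul, MulEquiv.apply_symm_apply]
    exact hg⟩
  have hne : ∀ g : Cfsg.Sz F m, g ≠ 1 → φ g ≠ 1 := fun g hg h =>
    hg ((map_eq_one_iff φ φ.injective).1 h)
  have hfb : ∀ g : Cfsg.Sz F m, Nat.card (MulAction.fixedBy Ω g) = Nat.card (MulAction.fixedBy Ω (φ g)) :=
    fun g => rfl
  have hfix' : ∀ g : Cfsg.Sz F m, g ≠ 1 → Nat.card (MulAction.fixedBy Ω g) ≤ 2 := fun g hg => by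
    rw [hfb]
    exact hfix _ (hne g hg)
  have hex' : ∃ g : Cfsg.Sz F m, g ≠ 1 ∧ Nat.card (MulAction.fixedBy Ω g) = 2 := by
    obtain ⟨g, hg, hg2⟩ := hex
    refine ⟨φ.symm g, ?_, ?_⟩
    · intro h
      apply hg
      have h2 := congrArg φ h
      rwa [MulEquiv.apply_symm_apply, map_one] at h2
    · rw [hfb, MulEquiv.apply_symm_apply]
      exact hg2
  rcases main_Fix2 hc hfix' hex' with ⟨h1, h2⟩ | ⟨h1, h2⟩
  · left
    refine ⟨by rw [← Nat.card_eq_fintype_card, h1, hF], ?_⟩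
    rw [MulAction.is_two_pretransitive_iff] at h2 ⊢
    intro a b c d hab hcd
    obtain ⟨g, h3, h4⟩ := h2 hab hcd
    exact ⟨φ g, h3, h4⟩
  · right
    refine ⟨by rw [← Nat.card_eq_fintype_card, h1, hF], fun α => ?_⟩
    rw [hF, ← h2 α]
    refine Nat.card_congr (Equiv.subtypeEquiv φ.symm.toEquiv ?_)
    intro g
    show g • α = α ↔ φ (φ.symm g) • α = α
    rw [MulEquiv.apply_symm_apply]

end Cfsg.Agent.S3391
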