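-- A finite group with the commuting graph of PSL₃(3) is isomorphic to PSL₃(3): it acts on the flags.
import Cfsg.Statements.S3412
import Cfsg.Agent.Lib.L33Comm.Main

set_option autoImplicit false
open Cfsg

namespace Cfsg.Agent.S3412

open Cfsg.Agent.Lib.L33Comm in
/-- Let H be a finite group whose commuting graph (vertices the non-identity elements, two joined when they commute) is isomorphic to that of PSL_3(3): there is a bijection between the non-identity elements of H and of PSL_3(3) under which two elements commute exactly when their images do. Then H ≅ PSL_3(3). -/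
theorem result {H : Type*} [Group H] [Finite H]
    (f : {h : H // h ≠ 1} ≃ {g : Matrix.ProjectiveSpecialLinearGroup (Fin 3) (ZMod 3) // g ≠ 1})
    (hf : ∀ x y : {h : H // h ≠ 1}, (x : H) * y = y * x ↔ ((f x) : Matrix.ProjectiveSpecialLinearGroup (Fin 3) (ZMod 3)) * (f y) = (f y) * (f x)) :
    Nonempty (H ≃* Matrix.ProjectiveSpecialLinearGroup (Fin 3) (ZMod 3)) := by
  classical
  have hc : Subgroup.center Tv.X = ⊥ := by
    apply Subgroup.eq_bot_of_card_eq
    have := Cfsg.Agent.Lib.Classical.SLBasic.card_center_sl (ι := Fin 3) (F := ZMod 3)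
    rw [this]
    simp [ZMod.card]
  let eL : Matrix.ProjectiveSpecialLinearGroup (Fin 3) (ZMod 3) ≃* Tv.X :=
    (QuotientGroup.quotientMulEquivOfEq hc).trans QuotientGroup.quotientBot
  let F0 : H ≃ Matrix.ProjectiveSpecialLinearGroup (Fin 3) (ZMod 3) :=
    { toFun := fun h => if hh : h = 1 then 1 else (f ⟨h, hh⟩).1
      invFun := fun g => if hg : g = 1 then 1 else (f.symm ⟨g, hg⟩).1
      left_inv := fun h => by
        by_cases hh : h = 1
        · simp [hh]
        · have h1 : (f ⟨h, hh⟩).1 ≠ 1 := (f ⟨h, hh⟩).2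
          simp only [dif_neg hh]
          rw [dif_neg h1]
          simp
      right_inv := fun g => by
        by_cases hg : g = 1
        · simp [hg]
        · have h1 : (f.symm ⟨g, hg⟩).1 ≠ 1 := (f.symm ⟨g, hg⟩).2
          simp only [dif_neg hg]
          rw [dif_neg h1]
          simp }
  have hF0one : F0 1 = 1 := by simp [F0]
  have hF0 : ∀ x y, Commute x y ↔ Commute (F0 x) (F0 y) := by
    intro x y
    by_cases hx : x = 1
    · rw [hx, hF0one]
      simp
    · by_cases hy : y = 1
      · rw [hy, hF0one]
        simp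
      · have h1 := hf ⟨x, hx⟩ ⟨y, hy⟩
        have h2 : F0 x = (f ⟨x, hx⟩).1 := by simp [F0, hx]
        have h3 : F0 y = (f ⟨y, hy⟩).1 := by simp [F0, hy]
        rw [h2, h3]
        exact h1
  have hone : (F0.trans eL.toEquiv) 1 = 1 := by
    simp [hF0one]
  have hF : ∀ x y, Commute x y ↔ Commute ((F0.trans eL.toEquiv) x) ((F0.trans eL.toEquiv) y) := by
    intro x y
    rw [hF0]
    simp only [Equiv.trans_apply, MulEquiv.toEquiv_eq_coe, EquivLike.coe_coe]
    constructor
    · intro h
      show eL (F0 x) * eL (F0 y) = eL (F0 y) * eL (F0 x)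
      rw [← map_mul eL, ← map_mul eL, h.eq]
    · intro h
      have h1 : eL (F0 x) * eL (F0 y) = eL (F0 y) * eL (F0 x) := h
      rw [← map_mul eL, ← map_mul eL] at h1
      exact eL.injective h1
  obtain ⟨e⟩ := Main.main (F0.trans eL.toEquiv) hone hF
  exact ⟨e.trans eL.symm⟩

end Cfsg.Agent.S3412
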