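-- A finite group with the commuting graph of M11 is isomorphic to M11.
import Cfsg.Statements.S3413
import Cfsg.Agent.Lib.M11Rec.Bridge
import Cfsg.Agent.Lib.M11Rec.Comm

set_option autoImplicit false
open Cfsg

namespace Cfsg.Agent.S3413

open Cfsg.Agent.Lib.M11Rec Cfsg.Agent.Lib.M11Rec.Bridge

/-- Let H be a finite group whose commuting graph (vertices the non-identity elements, two joined when they commute) is isomorphic to that of the Mathieu group M_11: there is a bijection between the non-identity elements of H and of M_11 under which two elements commute exactly when their images do. Then H ≅ M_11. -/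
theorem result {H : Type*} [Group H] [Finite H]
    (f : {h : H // h ≠ 1} ≃ {g : ↥Cfsg.Spor.M11 // g ≠ 1})
    (hf : ∀ x y : {h : H // h ≠ 1}, (x : H) * y = y * x ↔ ((f x) : ↥Cfsg.Spor.M11) * (f y) = (f y) * (f x)) :
    Nonempty (H ≃* ↥Cfsg.Spor.M11) := by
  have hG : Nat.card H = 7920 := by
    have h1 := Comm.card_ne_one_add H
    have h2 := Comm.card_ne_one_add ↥Cfsg.Spor.M11
    rw [Nat.card_congr f] at h1
    rw [card_M11] at h2
    omega
  obtain ⟨c1, c2, c3, c4, c5, c6, c8, c11⟩ := Table.O_count
  have h11 : Nat.card {g : H // orderOf g = 11} = 1440 := by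
    rw [Comm.card_order_transfer (p := 11) (by norm_num) (by rw [card_M11]; norm_num) ?_ f hf,
      card_order, c11]
    intro g hg
    rcases orderOf_cases g with h | h | h | h | h | h | h | h <;> rw [h] at hg ⊢ <;> omega
  have h5 : Nat.card {g : H // orderOf g = 5} = 1584 := by
    rw [Comm.card_order_transfer (p := 5) (by norm_num) (by rw [card_M11]; norm_num) ?_ f hf,
      card_order, c5]
    intro g hg
    rcases orderOf_cases g with h | h | h | h | h | h | h | h <;> rw [h] at hg ⊢ <;> omega
  exact nonempty_iso_of_counts hG h11 h5

end Cfsg.Agent.S3413
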