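import Cfsg.Statements.S3498
import Cfsg.Agent.Lib.Coprime.Action
import Mathlib

set_option autoImplicit false
open Cfsg
open scoped Pointwise

namespace Cfsg.Agent.S3498

open Cfsg.Agent.Lib.Coprime.Action

/-- A normal subgroup of prime order inside or outside `T` gives a contradiction. -/
theorem not_normal {G : Type*} [Group G] [Finite G] (T : Subgroup G) [hTn : T.Normal]
    (hT : IsSimpleGroup T) (hTc : ¬ IsMulCommutative T)
    (hC : Subgroup.centralizer (T : Set G) = ⊥) (H : Subgroup G) (hp : (Nat.card H).Prime)
    (hN : H.Normal) : False := by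
  have hne : H ≠ ⊥ := by
    rintro rfl
    simp at hp
    exact Nat.not_prime_one hp
  by_cases hint : H ⊓ T = ⊥
  · apply hne
    rw [eq_bot_iff, ← hC]
    intro h hh
    rw [Subgroup.mem_centralizer_iff]
    intro t ht
    have h1 : t * h * t⁻¹ * h⁻¹ ∈ H ⊓ T := by
      refine ⟨?_, ?_⟩
      · exact H.mul_mem (hN.conj_mem h hh t) (H.inv_mem hh)
      · have := hTn.conj_mem t⁻¹ (T.inv_mem ht) h
        rw [mul_assoc, mul_assoc]
        apply T.mul_mem ht
        rw [← mul_assoc]
        exact this
    rw [hint, Subgroup.mem_bot] at h1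
    have : t * h * t⁻¹ = h := by
      rw [mul_inv_eq_one] at h1; exact h1
    rw [mul_inv_eq_iff_eq_mul] at this
    exact this
  · -- H ≤ T
    have hle : H ≤ T := by
      have : Fact (Nat.card H).Prime := ⟨hp⟩
      have h2 := Subgroup.eq_bot_or_eq_top_of_prime_card ((H ⊓ T).subgroupOf H)
      rcases h2 with h2 | h2
      · exfalso
        apply hint
        rw [eq_bot_iff]
        intro x hx
        have : (⟨x, hx.1⟩ : H) ∈ (H ⊓ T).subgroupOf H := by
          rw [Subgroup.mem_subgroupOf]; exact hx
        rw [h2, Subgroup.mem_bot] at this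
        simpa using congrArg Subtype.val this
      · intro x hx
        have : (⟨x, hx⟩ : H) ∈ (H ⊓ T).subgroupOf H := by rw [h2]; trivial
        exact (Subgroup.mem_subgroupOf.mp this).2
    have hnorm : (H.subgroupOf T).Normal := hN.subgroupOf T
    rcases IsSimpleGroup.eq_bot_or_eq_top_of_normal _ hnorm with h | h
    · apply hne
      rw [eq_bot_iff]
      intro x hx
      have : (⟨x, hle hx⟩ : T) ∈ H.subgroupOf T := by
        simpa [Subgroup.mem_subgroupOf] using hx
      rw [h, Subgroup.mem_bot] at this
      simpa using congrArg Subtype.val this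
    · have hTH : T ≤ H := by
        intro x hx
        have : (⟨x, hx⟩ : T) ∈ H.subgroupOf T := by rw [h]; trivial
        exact Subgroup.mem_subgroupOf.mp this
      have hTeq : T = H := le_antisymm hTH hle
      subst hTeq
      apply hTc
      have : Fact (Nat.card T).Prime := ⟨hp⟩
      have : IsCyclic T := isCyclic_of_prime_card rfl
      exact IsCyclic.isMulCommutative

/-- A maximal subgroup of a finite almost simple group does not have prime order. Here G is almost simple in the sense that it has a non-abelian simple normal subgroup T with trivial centralizer. -/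
theorem result {G : Type*} [Group G] [Finite G] (T : Subgroup G) [T.Normal] (hT : IsSimpleGroup T) (hTc : ¬ IsMulCommutative T)
    (hC : Subgroup.centralizer (T : Set G) = ⊥) (H : Subgroup G) (hmax : IsCoatom H) : ¬ (Nat.card H).Prime := by
  intro hp
  have hnn : ¬ H.Normal := fun hN => not_normal T hT hTc hC H hp hN
  -- H is self-normalizing
  have hnorm : Subgroup.normalizer (H : Set G) = H := by
    by_contra hne
    have hlt : H < Subgroup.normalizer (H : Set G) :=
      lt_of_le_of_ne Subgroup.le_normalizer (Ne.symm hne)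
    have := hmax.2 _ hlt
    exact hnn (Subgroup.normalizer_eq_top_iff.mp this)
  set p := Nat.card H with hpdef
  have hfact : Fact p.Prime := ⟨hp⟩
  have hHp : IsPGroup p H := IsPGroup.of_card (n := 1) (by simp [hpdef])
  obtain ⟨P, hP⟩ := hHp.exists_le_sylow
  -- H is Sylow
  have hHP : H = P := by
    by_contra hne
    have hlt : H < (P : Subgroup G) := lt_of_le_of_ne hP hne
    have hcoat := hmax.2 _ hlt
    have hGp : IsPGroup p G := by
      have := P.isPGroup'
      rw [hcoat] at this
      exact IsPGroup.of_equiv this Subgroup.topEquiv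
    have hnil : Group.IsNilpotent G := hGp.isNilpotent
    have := normalizerCondition_iff_only_full_group_self_normalizing.mp
      Group.normalizerCondition_of_isNilpotent H hnorm
    exact hmax.1 this
  have hab : Subgroup.normalizer ((P : Subgroup G) : Set G) ≤ Subgroup.centralizer ((P : Subgroup G) : Set G) := by
    rw [← hHP, hnorm]
    have : IsCyclic H := isCyclic_of_prime_card hpdef.symm
    intro x hx
    rw [Subgroup.mem_centralizer_iff]
    intro y hy
    let := IsCyclic.commGroup (α := H)
    have h3 := mul_comm (⟨y, hy⟩ : H) ⟨x, hx⟩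
    exact congrArg Subtype.val h3
  have hcomp := MonoidHom.ker_transferSylow_isComplement' P hab
  set K := (MonoidHom.transferSylow P hab).ker with hK
  have hKn : K.Normal := MonoidHom.normal_ker _
  rw [← hHP] at hcomp
  have hcardG : Nat.card K * p = Nat.card G := hcomp.card_mul_card
  have hpK : ¬ p ∣ Nat.card K := by
    have := MonoidHom.not_dvd_card_ker_transferSylow P hab
    exact this
  have hcop : (Nat.card H).Coprime (Nat.card K) := (Nat.Prime.coprime_iff_not_dvd hp).mpr hpK
  -- K nontrivial
  by_cases hK1 : Nat.card K = 1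
  · -- G = H has prime order
    have hGc : IsCyclic G := by
      apply isCyclic_of_prime_card (p := p)
      rw [← hcardG, hK1, one_mul]
    let := IsCyclic.commGroup (α := G)
    apply hTc
    exact ⟨⟨fun a b => Subtype.ext (mul_comm (a : G) b)⟩⟩
  obtain ⟨q, hq, hqK⟩ := Nat.exists_prime_and_dvd hK1
  have hfq : Fact q.Prime := ⟨hq⟩
  have hAK : H ≤ Subgroup.normalizer (K : Set G) := by
    rw [Subgroup.normalizer_eq_top_iff.mpr hKn]; exact le_top
  have hHs : Group.IsSolvable H := by
    have : IsCyclic H := isCyclic_of_prime_card hpdef.symm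
    have := IsCyclic.isMulCommutative (α := H)
    infer_instance
  obtain ⟨Q, ⟨hQK, hQp, hQi⟩, hQH⟩ := exists_invariant_sylowIn (p := q) hAK hcop (Or.inl hHs)
  -- Q H is everything
  have hQH' : Q ⊔ H = ⊤ := by
    apply hmax.2
    apply lt_of_le_of_ne le_sup_right
    intro heq
    have hQle : Q ≤ H := by rw [heq]; exact le_sup_left
    have hQbot : Q = ⊥ := by
      have h1 : Q ≤ K ⊓ H := le_inf hQK hQle
      have h2 : K ⊓ H = ⊥ := disjoint_iff.mp hcomp.disjoint
      rw [h2] at h1
      exact le_bot_iff.mp h1
    rw [hQbot] at hQi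
    simp at hQi
    exact hQi hqK
  have hcardQH : Nat.card Q * Nat.card H = Nat.card G := by
    have hHQ : H ≤ Subgroup.normalizer (Q : Set G) := hQH
    have hcopQ : (Nat.card H).Coprime (Nat.card Q) :=
      Nat.Coprime.coprime_dvd_right (Subgroup.card_dvd_of_le hQK) hcop
    have hdisj : Q ⊓ H = ⊥ := by
      have h1 : Q ⊓ H ≤ K ⊓ H := inf_le_inf_right _ hQK
      have h2 : K ⊓ H = ⊥ := disjoint_iff.mp hcomp.disjoint
      rw [h2] at h1
      exact le_bot_iff.mp h1
    have := card_sup_of_le_normalizer hHQ hdisj
    rw [hQH', Nat.card_congr Subgroup.topEquiv.toEquiv] at this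
    exact this
  have hQK' : Q = K := by
    apply Subgroup.eq_of_le_of_card_ge hQK
    have := Nat.eq_of_mul_eq_mul_right (Nat.card_pos (α := H)) (hcardQH.trans hcardG.symm)
    rw [this]
  have hKsolv : Group.IsSolvable K := by
    rw [← hQK']
    have : Group.IsNilpotent Q := hQp.isNilpotent
    infer_instance
  have hGsolv : Group.IsSolvable G := by
    have h1 : Group.IsSolvable (G ⧸ K) := by
      have hsurj : Function.Surjective ((QuotientGroup.mk' K).comp H.subtype) := by
        intro y
        obtain ⟨x, rfl⟩ := QuotientGroup.mk'_surjective K y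
        have hx : x ∈ K ⊔ H := by
          have : K ⊔ H = ⊤ := hcomp.sup_eq_top
          rw [this]; trivial
        have hnormal : (K : Set G) * (H : Set G) = ((K ⊔ H : Subgroup G) : Set G) := by
          exact (Subgroup.normal_mul K H).symm
        rw [← SetLike.mem_coe, ← hnormal] at hx
        obtain ⟨k, hk, h, hh, rfl⟩ := hx
        refine ⟨⟨h, hh⟩, ?_⟩
        simp only [MonoidHom.coe_comp, Function.comp, Subgroup.subtype_apply, QuotientGroup.mk'_apply]
        rw [QuotientGroup.eq]
        have : h⁻¹ * (k * h) = h⁻¹ * k * h⁻¹⁻¹ := by group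
        rw [this]
        exact hKn.conj_mem k hk _
      exact Group.isSolvable_of_surjective hsurj
    exact Group.isSolvable_of_ker_le_range K.subtype (QuotientGroup.mk' K) (by simp)
  have hTs : Group.IsSolvable T := inferInstance
  apply hTc
  exact ⟨⟨IsSimpleGroup.comm_iff_isSolvable.mpr hTs⟩⟩

end Cfsg.Agent.S3498
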