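import Cfsg.Statements.S3504
import Mathlib

set_option autoImplicit false
open Cfsg

namespace Cfsg.Agent.S3504

open Equiv.Perm

theorem exists_perm (n p : ℕ) (hp : p.Prime) (hpn : p ∣ n) :
    ∃ g : Equiv.Perm (Fin n), g.cycleType = Multiset.replicate (n / p) p := by
  apply (exists_with_cycleType_iff (Fin n)).mpr
  constructor
  · simp [Nat.div_mul_cancel hpn]
  · intro a ha
    rw [Multiset.mem_replicate] at ha
    rw [ha.2]
    exact hp.two_le

theorem fpf_iff {n : ℕ} (g : Equiv.Perm (Fin n)) :
    (∀ i, g i ≠ i) ↔ g.cycleType.sum = n := by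
  rw [sum_cycleType]
  constructor
  · intro h
    have : g.support = Finset.univ := by
      ext i; simp [h i]
    rw [this]; simp
  · intro h i
    have h1 : g.support = Finset.univ := by
      apply Finset.eq_univ_of_card
      simpa using h
    have : i ∈ g.support := by rw [h1]; exact Finset.mem_univ i
    exact mem_support.mp this

theorem type_of {n : ℕ} (g : Equiv.Perm (Fin n)) (hg : (orderOf g).Prime) (hf : ∀ i, g i ≠ i) :
    orderOf g ∣ n ∧ g.cycleType = Multiset.replicate (n / orderOf g) (orderOf g) := by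
  have h1 := cycleType_prime_order hg
  have h2 := (fpf_iff g).mp hf
  obtain ⟨k, hk⟩ := h1
  rw [hk, Multiset.sum_replicate, smul_eq_mul] at h2
  have hdvd : orderOf g ∣ n := ⟨k + 1, by rw [mul_comm]; exact h2.symm⟩
  refine ⟨hdvd, ?_⟩
  have : n / orderOf g = k + 1 := by
    apply Nat.div_eq_of_eq_mul_left hg.pos
    exact h2.symm
  rw [this]; exact hk

/-- For n ≥ 5, the fixed-point-free permutations of prime order in the symmetric group of degree n form a single conjugacy class if and only if n is a prime power. -/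
theorem result (n : ℕ) (hn : 5 ≤ n) :
    Nat.card {c : ConjClasses (Equiv.Perm (Fin n)) // ∃ g : Equiv.Perm (Fin n), ConjClasses.mk g = c ∧ (orderOf g).Prime ∧ ∀ i : Fin n, g i ≠ i} = 1 ↔ IsPrimePow n := by
  rw [isPrimePow_iff_card_primeFactors_eq_one]
  suffices h : Nat.card {c : ConjClasses (Equiv.Perm (Fin n)) // ∃ g : Equiv.Perm (Fin n), ConjClasses.mk g = c ∧ (orderOf g).Prime ∧ ∀ i : Fin n, g i ≠ i} = n.primeFactors.card by
    rw [h]
  have hn0 : n ≠ 0 := by omega
  have hg : ∀ p : n.primeFactors, ∃ g : Equiv.Perm (Fin n), g.cycleType = Multiset.replicate (n / (p : ℕ)) (p : ℕ) := by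
    intro p
    have hp := Nat.prime_of_mem_primeFactors p.2
    exact exists_perm n p hp (Nat.dvd_of_mem_primeFactors p.2)
  choose g hgt using hg
  have hord : ∀ p : n.primeFactors, orderOf (g p) = p := by
    intro p
    have hp := Nat.prime_of_mem_primeFactors p.2
    have hdvd := Nat.dvd_of_mem_primeFactors p.2
    rw [← lcm_cycleType, hgt]
    have hne : n / (p : ℕ) ≠ 0 := by
      intro h
      have := Nat.div_mul_cancel hdvd
      rw [h, zero_mul] at this
      exact hn0 this.symm
    apply Nat.dvd_antisymm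
    · rw [Multiset.lcm_dvd]
      intro b hb
      rw [(Multiset.mem_replicate.mp hb).2]
    · apply Multiset.dvd_lcm
      exact Multiset.mem_replicate.mpr ⟨hne, rfl⟩
  have hprop : ∀ p : n.primeFactors, (orderOf (g p)).Prime ∧ ∀ i : Fin n, g p i ≠ i := by
    intro p
    have hp := Nat.prime_of_mem_primeFactors p.2
    have hdvd := Nat.dvd_of_mem_primeFactors p.2
    refine ⟨by rw [hord]; exact hp, ?_⟩
    rw [fpf_iff, hgt, Multiset.sum_replicate, smul_eq_mul, Nat.div_mul_cancel hdvd]
  let f : n.primeFactors → {c : ConjClasses (Equiv.Perm (Fin n)) // ∃ g : Equiv.Perm (Fin n), ConjClasses.mk g = c ∧ (orderOf g).Prime ∧ ∀ i : Fin n, g i ≠ i} :=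
    fun p => ⟨ConjClasses.mk (g p), g p, rfl, (hprop p).1, (hprop p).2⟩
  have hfbij : Function.Bijective f := by
    constructor
    · intro p q hpq
      have h1 : ConjClasses.mk (g p) = ConjClasses.mk (g q) := congrArg Subtype.val hpq
      rw [ConjClasses.mk_eq_mk_iff_isConj, isConj_iff_cycleType_eq] at h1
      have h2 : IsConj (g p) (g q) := isConj_iff_cycleType_eq.mpr h1
      have h3 : orderOf (g p) = orderOf (g q) := by
        rw [← lcm_cycleType, ← lcm_cycleType, h1]
      rw [hord, hord] at h3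
      exact Subtype.ext h3
    · rintro ⟨c, h, rfl, hh1, hh2⟩
      obtain ⟨hdvd, ht⟩ := type_of h hh1 hh2
      let q : n.primeFactors := ⟨orderOf h, Nat.mem_primeFactors.mpr ⟨hh1, hdvd, hn0⟩⟩
      refine ⟨q, Subtype.ext ?_⟩
      show ConjClasses.mk (g q) = ConjClasses.mk h
      rw [ConjClasses.mk_eq_mk_iff_isConj, isConj_iff_cycleType_eq, hgt, ht]
  rw [← Nat.card_congr (Equiv.ofBijective f hfbij), Nat.card_eq_fintype_card, Fintype.card_coe]

end Cfsg.Agent.S3504
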