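import Cfsg.Statements.S3508
import Mathlib

set_option autoImplicit false
open Cfsg

namespace Cfsg.Agent.S3508

open Polynomial

/-- The polynomial identity behind the unipotent computation. -/
theorem poly_pow (p s : ℕ) [Fact p.Prime] :
    ((X : (ZMod p)[X]) - 1) ^ (p ^ s) = X ^ (p ^ s) - 1 := by
  rw [sub_pow_char_pow, one_pow]

theorem poly_geom (p s : ℕ) [Fact p.Prime] :
    ∑ i ∈ Finset.range (p ^ s), (X : (ZMod p)[X]) ^ i = (X - 1) ^ (p ^ s - 1) := by
  have hne : (X : (ZMod p)[X]) - 1 ≠ 0 := by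
    have := Polynomial.X_sub_C_ne_zero (1 : ZMod p)
    simpa using this
  apply mul_right_cancel₀ hne
  rw [geom_sum_mul, ← poly_pow, ← pow_succ, Nat.sub_add_cancel (Nat.one_le_pow _ _ (Fact.out : p.Prime).pos)]

/-- Unipotent computation. -/
theorem unipotent {V : Type*} [AddCommGroup V] [Finite V] (p m r s : ℕ) [Fact p.Prime]
    [Module (ZMod p) V] (hcard : Nat.card V = p ^ m)
    (A : Module.End (ZMod p) V) (hA : A ^ (p ^ r) = 1) (hs : m < p ^ s) :
    A ^ (p ^ s) = 1 ∧ ∑ i ∈ Finset.range (p ^ s), A ^ i = 0 := by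
  have hpr : (Fact.out : p.Prime).one_lt = (Fact.out : p.Prime).one_lt := rfl
  have hfin : Module.Finite (ZMod p) V := Module.Finite.of_finite
  have hfr : Module.finrank (ZMod p) V = m := by
    have h1 := Module.natCard_eq_pow_finrank (K := ZMod p) (V := V)
    rw [hcard, Nat.card_zmod] at h1
    exact (Nat.pow_right_injective (Fact.out : p.Prime).two_le h1).symm
  have hnil : IsNilpotent (A - 1) := by
    refine ⟨p ^ r, ?_⟩
    have := congrArg (Polynomial.aeval A) (poly_pow p r)
    simpa [hA] using this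
  have hm : (A - 1) ^ m = 0 := by
    rw [← hfr]
    have h1 := (LinearMap.isNilpotent_iff_charpoly (A - 1)).mp hnil
    have h2 := LinearMap.aeval_self_charpoly (A - 1)
    rw [h1] at h2
    simpa using h2
  have h1 : A ^ (p ^ s) = 1 := by
    have := congrArg (Polynomial.aeval A) (poly_pow p s)
    simp only [map_pow, map_sub, aeval_X, map_one] at this
    rw [pow_eq_zero_of_le hs.le hm] at this
    exact (sub_eq_zero.mp this.symm)
  refine ⟨h1, ?_⟩
  have := congrArg (Polynomial.aeval A) (poly_geom p s)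
  simp only [map_sum, map_pow, map_sub, aeval_X, map_one] at this
  rw [this]
  exact pow_eq_zero_of_le (by omega) hm

theorem unipotent_add {V : Type*} [AddCommGroup V] [Finite V] (p m r s : ℕ) [Fact p.Prime]
    [Module (ZMod p) V] (hcard : Nat.card V = p ^ m)
    (α : V →+ V) (hα : ∀ x, α^[p ^ r] x = x) (hs : m < p ^ s) :
    (∀ x, α^[p ^ s] x = x) ∧ ∀ x, ∑ i ∈ Finset.range (p ^ s), α^[i] x = 0 := by
  let A : Module.End (ZMod p) V := α.toZModLinearMap p
  have hApow : ∀ (k : ℕ) (x : V), (A ^ k) x = α^[k] x := by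
    intro k
    induction k with
    | zero => intro x; simp
    | succ k ih =>
      intro x
      rw [pow_succ', Module.End.mul_apply, ih, Function.iterate_succ_apply']
      rfl
  have hA1 : A ^ (p ^ r) = 1 := by
    ext x
    rw [hApow, hα]
    rfl
  obtain ⟨h1, h2⟩ := unipotent p m r s hcard A hA1 hs
  constructor
  · intro x
    rw [← hApow, h1]
    rfl
  · intro x
    have h3 := congrArg (fun f : Module.End (ZMod p) V => f x) h2
    simpa only [LinearMap.sum_apply, hApow, LinearMap.zero_apply] using h3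

theorem unipotent_mul {W : Type*} [CommGroup W] [Finite W] (p m r s : ℕ) [Fact p.Prime]
    (hcard : Nat.card W = p ^ m) (hW : ∀ x : W, x ^ p = 1)
    (α : W →* W) (hα : ∀ x, α^[p ^ r] x = x) (hs : m < p ^ s) :
    (∀ x, α^[p ^ s] x = x) ∧ ∀ x, ∏ i ∈ Finset.range (p ^ s), α^[i] x = 1 := by
  have hVp : ∀ x : Additive W, p • x = 0 := fun x => by
    apply Additive.toMul.injective
    simpa using hW x.toMul
  letI : Module (ZMod p) (Additive W) := AddCommGroup.zmodModule hVp
  let a : Additive W →+ Additive W := MonoidHom.toAdditive α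
  have hit : ∀ (k : ℕ) (x : W), a^[k] (Additive.ofMul x) = Additive.ofMul (α^[k] x) := by
    intro k
    induction k with
    | zero => intro x; rfl
    | succ k ih =>
      intro x
      rw [Function.iterate_succ_apply', Function.iterate_succ_apply', ih]
      rfl
  have ha : ∀ x, a^[p ^ r] x = x := by
    intro x
    have := hit (p ^ r) x.toMul
    rw [hα] at this
    exact this
  obtain ⟨h1, h2⟩ := unipotent_add (V := Additive W) p m r s hcard a ha hs
  constructor
  · intro x
    have := hit (p ^ s) x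
    rw [h1] at this
    exact (Additive.ofMul.injective this).symm
  · intro x
    have h3 := h2 (Additive.ofMul x)
    simp only [hit] at h3
    apply Additive.ofMul.injective
    rw [ofMul_prod]
    exact h3

theorem bound {G : Type*} [Group G] [Finite G] {Ω : Type*} [Fintype Ω] [MulAction G Ω] [FaithfulSMul G Ω] (p m : ℕ) (hp : p.Prime) (hcard : Fintype.card Ω = p ^ m)
    (N : Subgroup G) [N.Normal] (hNc : IsMulCommutative N) (hNp : ∀ n ∈ N, n ^ p = 1)
    (hNtr : MulAction.IsPretransitive N Ω) (hNreg : ∀ ω : Ω, MulAction.stabilizer N ω = ⊥)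
    (g : G) (r : ℕ) (hr : 1 ≤ r) (hg : orderOf g = p ^ r) :
    p ^ (r - 1) ≤ m := by
  by_contra hlt
  push Not at hlt
  have hfp : Fact p.Prime := ⟨hp⟩
  let _ : CommGroup N := { (inferInstance : Group N) with mul_comm := mul_comm' }
  have hΩ : Nonempty Ω := by
    apply Fintype.card_pos_iff.mp
    rw [hcard]; exact pow_pos hp.pos _
  obtain ⟨ω₀⟩ := hΩ
  -- cardinality of N
  have hNcard : Nat.card N = p ^ m := by
    rw [← hcard, ← Nat.card_eq_fintype_card]
    apply Nat.card_eq_of_bijective (fun n : N => n • ω₀)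
    constructor
    · intro a b hab
      have hab' : a • ω₀ = b • ω₀ := hab
      have : b⁻¹ * a ∈ MulAction.stabilizer N ω₀ := by
        rw [MulAction.mem_stabilizer_iff, mul_smul, hab', inv_smul_smul]
      rw [hNreg, Subgroup.mem_bot] at this
      exact (inv_mul_eq_one.mp this).symm
    · intro ω
      exact MulAction.exists_smul_eq N ω₀ ω
  let α : N →* N := (MulAut.conjNormal g : MulAut N).toMonoidHom
  have hαval : ∀ x : N, ((α x : N) : G) = g * (x : G) * g⁻¹ := fun x => rfl
  have hαpow : ∀ (k : ℕ) (x : N), ((α^[k] x : N) : G) = g ^ k * (x : G) * (g ^ k)⁻¹ := by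
    intro k
    induction k with
    | zero => intro x; simp
    | succ k ih =>
      intro x
      rw [Function.iterate_succ_apply', hαval, ih, pow_succ']
      group
  have hα1 : ∀ x, α^[p ^ r] x = x := by
    intro x
    apply Subtype.ext
    rw [hαpow, ← hg, pow_orderOf_eq_one]
    simp
  have hW : ∀ x : N, x ^ p = 1 := fun x => Subtype.ext (hNp _ x.2)
  obtain ⟨h1, h2⟩ := unipotent_mul p m r (r - 1) hNcard hW α hα1 hlt
  -- g ω₀ in N ω₀
  obtain ⟨n₀, hn₀⟩ := MulAction.exists_smul_eq N ω₀ (g • ω₀)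
  have hn₀' : (n₀ : G) • ω₀ = g • ω₀ := hn₀
  -- g^k ω₀
  have hiter : ∀ k : ℕ, g ^ k • ω₀ = ((∏ i ∈ Finset.range k, α^[i] n₀ : N) : G) • ω₀ := by
    intro k
    induction k with
    | zero => simp
    | succ k ih =>
      rw [Finset.prod_range_succ, mul_comm, Subgroup.coe_mul, mul_smul, ← ih, hαpow, pow_succ,
        mul_smul, ← hn₀']
      rw [smul_smul, smul_smul]
      congr 1
      group
  -- conclusion
  have hone : g ^ (p ^ (r - 1)) = 1 := by
    apply FaithfulSMul.eq_of_smul_eq_smul (α := Ω)
    intro x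
    obtain ⟨n, rfl⟩ := MulAction.exists_smul_eq N ω₀ x
    have h3 := hiter (p ^ (r - 1))
    rw [h2, Subgroup.coe_one, one_smul] at h3
    have h4 : ((α^[p ^ (r - 1)] n : N) : G) = n := by rw [h1]
    rw [hαpow] at h4
    rw [one_smul]
    have h5 : g ^ (p ^ (r - 1)) * (n : G) = (n : G) * g ^ (p ^ (r - 1)) := by
      rw [mul_inv_eq_iff_eq_mul] at h4
      exact h4
    show g ^ (p ^ (r - 1)) • ((n : G) • ω₀) = (n : G) • ω₀
    rw [smul_smul, h5, mul_smul, h3]
  have hdvd := orderOf_dvd_of_pow_eq_one hone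
  rw [hg] at hdvd
  have := Nat.le_of_dvd (pow_pos hp.pos _) hdvd
  have h6 : p ^ (r - 1) < p ^ r := Nat.pow_lt_pow_right hp.one_lt (by omega)
  omega

/-- Let a finite group G act faithfully on a set Ω with p ^ m points (p prime) and have an elementary abelian normal p-subgroup N acting regularly on Ω (so G is a group of affine transformations of an m-dimensional space over the field with p elements). If G contains an element of order p ^ r with r ≥ 1, then p ^ (r − 1) ≤ m. In particular an element of order p ^ m forces m ≤ 2, and m ≤ 1 when p is odd. -/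
theorem result {G : Type*} [Group G] [Finite G] {Ω : Type*} [Fintype Ω] [MulAction G Ω] [FaithfulSMul G Ω] (p m : ℕ) (hp : p.Prime) (hcard : Fintype.card Ω = p ^ m)
    (N : Subgroup G) [N.Normal] (hNc : IsMulCommutative N) (hNp : ∀ n ∈ N, n ^ p = 1)
    (hNtr : MulAction.IsPretransitive N Ω) (hNreg : ∀ ω : Ω, MulAction.stabilizer N ω = ⊥)
    (g : G) (r : ℕ) (hr : 1 ≤ r) (hg : orderOf g = p ^ r) :
    p ^ (r - 1) ≤ m ∧ (r = m → m ≤ 2 ∧ (2 < p → m ≤ 1)) := by
  have h := bound p m hp hcard N hNc hNp hNtr hNreg g r hr hg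
  refine ⟨h, ?_⟩
  rintro rfl
  obtain ⟨s, rfl⟩ : ∃ s, r = s + 1 := ⟨r - 1, by omega⟩
  simp only [Nat.add_sub_cancel] at h
  have h3 : ∀ s : ℕ, 2 ≤ s → s + 1 < 2 ^ s := by
    intro s hs
    induction s, hs using Nat.le_induction with
    | base => norm_num
    | succ s hs ih => rw [pow_succ]; omega
  have h2 : 2 ^ s ≤ p ^ s := Nat.pow_le_pow_left hp.two_le _
  constructor
  · by_contra hm
    have := h3 s (by omega)
    omega
  · intro hp2
    by_contra hm
    have h4 : s ≠ 0 := by omega
    have h5 : p ≤ p ^ s := Nat.le_self_pow h4 p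
    rcases Nat.lt_or_ge s 2 with hs | hs
    · have : s = 1 := by omega
      subst this
      omega
    · have := h3 s hs
      omega

end Cfsg.Agent.S3508
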