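import Cfsg.Statements.S3511
import Mathlib

set_option autoImplicit false
open Cfsg

namespace Cfsg.Agent.S3511

/-- Let a finite group G act faithfully on a set Ω. If every element of G of square-free order has a regular cycle (an orbit of the cyclic group it generates with trivial stabilizer), then every element of G has a regular cycle. -/
theorem result {G : Type*} [Group G] [Finite G] {Ω : Type*} [MulAction G Ω] [FaithfulSMul G Ω]
    (h : ∀ g : G, Squarefree (orderOf g) → ∃ ω : Ω, MulAction.stabilizer (Subgroup.zpowers g) ω = ⊥) (g : G) :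
    ∃ ω : Ω, MulAction.stabilizer (Subgroup.zpowers g) ω = ⊥ := by
  classical
  set n := orderOf g with hn
  have hnpos : 0 < n := orderOf_pos g
  set r := ∏ p ∈ n.primeFactors, p with hr
  have hrdvd : r ∣ n := Nat.prod_primeFactors_dvd n
  obtain ⟨k, hk⟩ := hrdvd
  have hrpos : 0 < r := Nat.pos_of_dvd_of_pos ⟨k, hk⟩ hnpos
  have hkpos : 0 < k := by
    rcases Nat.eq_zero_or_pos k with h0 | h0
    · rw [h0] at hk; omega
    · exact h0
  have hord : orderOf (g ^ k) = r := by
    rw [orderOf_pow, ← hn]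
    have : n.gcd k = k := Nat.gcd_eq_right ⟨r, by rw [hk]; ring⟩
    rw [this, hk]
    exact Nat.mul_div_cancel _ hkpos
  have hsq : Squarefree r := by
    rw [hr]
    refine Finset.squarefree_prod_of_pairwise_isCoprime ?_ ?_
    · intro a ha b hb hab
      have hpa := Nat.prime_of_mem_primeFactors ha
      have hpb := Nat.prime_of_mem_primeFactors hb
      exact Nat.coprime_iff_isRelPrime.mp ((Nat.coprime_primes hpa hpb).mpr hab)
    · intro a ha
      exact (Nat.prime_of_mem_primeFactors ha).prime.squarefree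
  obtain ⟨ω, hω⟩ := h (g ^ k) (by rw [hord]; exact hsq)
  refine ⟨ω, ?_⟩
  rw [eq_bot_iff]
  intro x hx
  rw [Subgroup.mem_bot]
  by_contra hx1
  -- x has a power of prime order in the stabilizer
  have hxord : orderOf x ≠ 1 := by
    intro h1
    exact hx1 (orderOf_eq_one_iff.mp h1)
  obtain ⟨p, hp, hpd⟩ := Nat.exists_prime_and_dvd hxord
  obtain ⟨t, ht⟩ := hpd
  set y := x ^ t with hy
  have hyord : orderOf y = p := by
    rw [hy, orderOf_pow, ht]
    have htpos : 0 < t := by
      rcases Nat.eq_zero_or_pos t with h0 | h0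
      · rw [h0] at ht
        have := orderOf_pos x
        omega
      · exact h0
    have : (p * t).gcd t = t := Nat.gcd_eq_right ⟨p, by ring⟩
    rw [this]
    exact Nat.mul_div_cancel _ htpos
  have hyfix : y ∈ MulAction.stabilizer (Subgroup.zpowers g) ω :=
    Subgroup.pow_mem _ hx t
  -- y as an element of G
  have hyG : orderOf (y : G) = p := by
    rw [← hyord]; exact Subgroup.orderOf_coe y
  obtain ⟨m, hm⟩ : ∃ m : ℕ, g ^ m = (y : G) := by
    have : (y : G) ∈ Submonoid.powers g := mem_powers_iff_mem_zpowers.mpr y.2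
    obtain ⟨m, hm⟩ := this
    exact ⟨m, hm⟩
  have hpn : p ∣ n := by
    rw [hn, ← hyG, ← hm]
    exact orderOf_dvd_of_pow_eq_one (by
      rw [← pow_mul, mul_comm, pow_mul, pow_orderOf_eq_one, one_pow])
  have hpr : p ∣ r := by
    rw [hr]
    exact Finset.dvd_prod_of_mem _ (Nat.mem_primeFactors.mpr ⟨hp, hpn, hnpos.ne'⟩)
  obtain ⟨s, hs⟩ := hpr
  have hnps : n = p * (s * k) := by rw [hk, hs]; ring
  -- n ∣ m * p
  have hdvd : n ∣ m * p := by
    rw [hn]
    apply orderOf_dvd_of_pow_eq_one
    rw [pow_mul, hm, ← hyG, pow_orderOf_eq_one]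
  have hsk : s * k ∣ m := by
    rw [hnps] at hdvd
    have : p * (s * k) ∣ p * m := by rwa [mul_comm m p] at hdvd
    exact Nat.dvd_of_mul_dvd_mul_left hp.pos this
  obtain ⟨u, hu⟩ := hsk
  have hym : (y : G) = (g ^ k) ^ (s * u) := by
    rw [← hm, hu, ← pow_mul]
    congr 1
    ring
  -- y lies in zpowers (g^k), fixing ω, hence trivial
  have hmem : (y : G) ∈ Subgroup.zpowers (g ^ k) := by
    rw [hym]
    exact Subgroup.pow_mem _ (Subgroup.mem_zpowers _) _
  have : (⟨(y : G), hmem⟩ : Subgroup.zpowers (g ^ k)) ∈ MulAction.stabilizer (Subgroup.zpowers (g ^ k)) ω := by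
    rw [MulAction.mem_stabilizer_iff] at hyfix ⊢
    exact hyfix
  rw [hω, Subgroup.mem_bot] at this
  have hy1 : (y : G) = 1 := congrArg Subtype.val this
  rw [hy1, orderOf_one] at hyG
  exact hp.one_lt.ne hyG

end Cfsg.Agent.S3511
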