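import Cfsg.Statements.S3514
-- import your own Cfsg.Agent.* helpers here

set_option autoImplicit false
open Cfsg

namespace Cfsg.Agent.S3514

/-- Second isomorphism theorem in `relIndex` form, for finite groups. -/
theorem relIndex_sup_of_le_normalizer {G : Type*} [Group G] [Finite G] (T N : Subgroup G)
    (hT : T ≤ Subgroup.normalizer (N : Set G)) : T.relIndex (T ⊔ N) = T.relIndex N := by
  have e : N.relIndex T = N.relIndex (T ⊔ N) := by
    letI := Subgroup.normal_subgroupOf_of_le_normalizer hT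
    letI := Subgroup.normal_subgroupOf_sup_of_le_normalizer hT
    exact Nat.card_congr (QuotientGroup.quotientInfEquivProdNormalizerQuotient T N hT).toEquiv
  have hcardrel : ∀ A B : Subgroup G, A ≤ B → A.relIndex B * Nat.card A = Nat.card B := by
    intro A B hAB
    have := Subgroup.relIndex_mul_relIndex (⊥ : Subgroup G) A B bot_le hAB
    rw [Subgroup.relIndex_bot_left, Subgroup.relIndex_bot_left] at this
    rw [← this, mul_comm]
  set L := T ⊔ N with hL
  have h1 := hcardrel T L le_sup_left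
  have h2 := hcardrel N L le_sup_right
  have h3 := hcardrel (N ⊓ T) T inf_le_right
  have h4 := hcardrel (T ⊓ N) N inf_le_right
  rw [Subgroup.inf_relIndex_right] at h3 h4
  rw [inf_comm] at h3
  rw [← e] at h2
  have hpos : 0 < N.relIndex T * Nat.card ↥(T ⊓ N) := by
    apply Nat.pos_of_ne_zero
    rw [h3]
    exact Nat.card_pos.ne'
  have hpos' : 0 < Nat.card ↥(T ⊓ N) := Nat.pos_of_mul_pos_left hpos |> fun h => h
  have hpos'' : 0 < N.relIndex T := Nat.pos_of_ne_zero (fun h => by simp [h] at hpos)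
  have h5 : T.relIndex L * (N.relIndex T * Nat.card ↥(T ⊓ N)) = N.relIndex T * Nat.card N := by
    rw [h3, h1, h2]
  have h6 : T.relIndex L * Nat.card ↥(T ⊓ N) = Nat.card N := by
    apply Nat.eq_of_mul_eq_mul_left hpos''
    rw [← h5]
    ring
  apply Nat.eq_of_mul_eq_mul_right hpos'
  rw [h6, h4]

/-- Let p be a prime, V a finite vector space over the field with p elements, and H a group of linear transformations of V all of whose orbits on V have size coprime to p. (i) Every normal subgroup K of H has all its orbits on V of size coprime to p. (ii) If N is a group of linear transformations of V of order coprime to p that is normalized by H, then the group generated by N and H has all its orbits on V of size coprime to p. -/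
theorem result (p : ℕ) [Fact p.Prime] {V : Type*} [AddCommGroup V] [Module (ZMod p) V] [Finite V]
    (H : Subgroup (V ≃ₗ[ZMod p] V)) (hH : ∀ v : V, ¬ p ∣ Nat.card {u : V | ∃ h ∈ H, h v = u}) :
    (∀ K : Subgroup (V ≃ₗ[ZMod p] V), K ≤ H → H ≤ Subgroup.normalizer (K : Set (V ≃ₗ[ZMod p] V)) →
        ∀ v : V, ¬ p ∣ Nat.card {u : V | ∃ k ∈ K, k v = u}) ∧
    (∀ N : Subgroup (V ≃ₗ[ZMod p] V), ¬ p ∣ Nat.card N → H ≤ Subgroup.normalizer (N : Set (V ≃ₗ[ZMod p] V)) →
        ∀ v : V, ¬ p ∣ Nat.card {u : V | ∃ x ∈ N ⊔ H, x v = u}) := by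
  classical
  have hfinG : Finite (V ≃ₗ[ZMod p] V) := by
    refine Finite.of_injective (fun f => (f : V → V)) ?_
    intro f g h
    ext x
    exact congrFun h x
  -- orbit sets in terms of stabilisers
  have horb : ∀ (L : Subgroup (V ≃ₗ[ZMod p] V)) (v : V),
      Nat.card {u : V | ∃ h ∈ L, h v = u} = (L ⊓ MulAction.stabilizer (V ≃ₗ[ZMod p] V) v).relIndex L := by
    intro L v
    have h1 : {u : V | ∃ h ∈ L, h v = u} = MulAction.orbit L v := by
      ext u
      constructor
      · rintro ⟨h, hh, rfl⟩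
        exact ⟨⟨h, hh⟩, rfl⟩
      · rintro ⟨⟨h, hh⟩, rfl⟩
        exact ⟨h, hh, rfl⟩
    rw [h1]
    have h2 := MulAction.index_stabilizer L v
    have h3 : (L ⊓ MulAction.stabilizer (V ≃ₗ[ZMod p] V) v).relIndex L =
        (MulAction.stabilizer L v).index := by
      rw [Subgroup.relIndex]
      congr 1
      ext x
      simp [Subgroup.mem_subgroupOf, MulAction.mem_stabilizer_iff]
      rfl
    rw [h3, h2]
    rfl
  have hH' : ∀ v : V, ¬ p ∣ (H ⊓ MulAction.stabilizer (V ≃ₗ[ZMod p] V) v).relIndex H := by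
    intro v
    rw [← horb]
    exact hH v
  refine ⟨?_, ?_⟩
  · intro K hKH hnorm v
    rw [horb]
    intro hdiv
    apply hH' v
    set S := MulAction.stabilizer (V ≃ₗ[ZMod p] V) v with hS
    have h1 : (H ⊓ S).relIndex ((H ⊓ S) ⊔ K) = (H ⊓ S).relIndex K :=
      relIndex_sup_of_le_normalizer _ _ (inf_le_left.trans hnorm)
    have h2 : (H ⊓ S).relIndex K = (K ⊓ S).relIndex K := by
      rw [← Subgroup.inf_relIndex_right (H ⊓ S) K, ← Subgroup.inf_relIndex_right (K ⊓ S) K]
      congr 1
      ext x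
      simp only [Subgroup.mem_inf]
      constructor
      · rintro ⟨⟨_, h2⟩, h3⟩
        exact ⟨⟨h3, h2⟩, h3⟩
      · rintro ⟨⟨_, h2⟩, h3⟩
        exact ⟨⟨hKH h3, h2⟩, h3⟩
    have h3 : (H ⊓ S).relIndex ((H ⊓ S) ⊔ K) ∣ (H ⊓ S).relIndex H :=
      ⟨((H ⊓ S) ⊔ K).relIndex H,
        (Subgroup.relIndex_mul_relIndex _ _ _ le_sup_left (sup_le inf_le_left hKH)).symm⟩
    rw [h1, h2] at h3
    exact hdiv.trans h3
  · intro N hN hnorm v
    rw [horb]
    intro hdiv
    set S := MulAction.stabilizer (V ≃ₗ[ZMod p] V) v with hS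
    set L := N ⊔ H with hL
    have hLH : L = H ⊔ N := sup_comm _ _
    have h1 : H.relIndex L = H.relIndex N := by
      rw [hLH]
      exact relIndex_sup_of_le_normalizer _ _ hnorm
    have h2 : (H ⊓ S).relIndex H * H.relIndex L = (H ⊓ S).relIndex L :=
      Subgroup.relIndex_mul_relIndex _ _ _ inf_le_left le_sup_right
    have h3 : (L ⊓ S).relIndex L ∣ (H ⊓ S).relIndex L :=
      Subgroup.relIndex_dvd_of_le_left L (inf_le_inf_right S le_sup_right)
    have hpp : Nat.Prime p := Fact.out
    have h4 : p ∣ (H ⊓ S).relIndex H * H.relIndex L := by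
      rw [h2]
      exact hdiv.trans h3
    rcases hpp.dvd_mul.mp h4 with h5 | h5
    · exact hH' v h5
    · rw [h1] at h5
      exact hN (h5.trans (Subgroup.relIndex_dvd_card H N))

end Cfsg.Agent.S3514
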