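import Cfsg.Statements.S3515
import Cfsg.Agent.Lib.PermRec.Affine

set_option autoImplicit false
open Cfsg

namespace Cfsg.Agent.S3515

theorem key_two : ∀ x y : Fin 2 → ZMod 2, x ≠ 0 → x ≠ Pi.single 0 1 → x ≠ Pi.single 1 1 →
    y ≠ 0 → y ≠ Pi.single 0 1 → y ≠ Pi.single 1 1 → y = x := by decide

/-- Every primitive affine permutation group of degree p² is 3-closed. Let p be a prime and G a group of permutations of the plane V = F_p² consisting of affine maps x ↦ Ax + b, containing all translations, and acting primitively on V. Then any permutation σ of V that agrees on every triple of points with some element of G (σ preserves every G-orbit on ordered triples) already lies in G. -/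
theorem result (p : ℕ) [Fact p.Prime] (G : Subgroup (Equiv.Perm (Fin 2 → ZMod p)))
    (haff : (G : Set (Equiv.Perm (Fin 2 → ZMod p))) ⊆ {τ : Equiv.Perm (Fin 2 → ZMod p) | ∃ (A : (Fin 2 → ZMod p) ≃ₗ[ZMod p] (Fin 2 → ZMod p)) (b : Fin 2 → ZMod p), ∀ x, τ x = A x + b})
    (htrans : ∀ b : Fin 2 → ZMod p, ∃ g ∈ G, ∀ x, g x = x + b) (hprim : MulAction.IsPreprimitive G (Fin 2 → ZMod p))
    (σ : Equiv.Perm (Fin 2 → ZMod p)) (hσ : (∀ t : Fin 3 → (Fin 2 → ZMod p), ∃ g ∈ G, ∀ i, σ (t i) = g (t i))) : σ ∈ G := by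
  by_cases hp2 : p = 2
  · subst hp2
    obtain ⟨g, hg, hgt⟩ := hσ ![0, Pi.single 0 1, Pi.single 1 1]
    have h0 := hgt 0
    have h1 := hgt 1
    have h2 := hgt 2
    simp only [Matrix.cons_val_zero, Matrix.cons_val_one, Matrix.cons_val] at h0 h1 h2
    let ρ : Equiv.Perm (Fin 2 → ZMod 2) := g⁻¹ * σ
    have hρ0 : ρ 0 = 0 := by simp [ρ, h0]
    have hρ1 : ρ (Pi.single 0 1) = Pi.single 0 1 := by simp [ρ, h1]
    have hρ2 : ρ (Pi.single 1 1) = Pi.single 1 1 := by simp [ρ, h2]
    have hρid : ρ = 1 := by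
      ext1 x
      by_cases hx0 : x = 0
      · rw [hx0, hρ0]; rfl
      by_cases hx1 : x = Pi.single 0 1
      · rw [hx1, hρ1]; rfl
      by_cases hx2 : x = Pi.single 1 1
      · rw [hx2, hρ2]; rfl
      refine key_two x (ρ x) hx0 hx1 hx2 ?_ ?_ ?_
      · intro h
        exact hx0 (ρ.injective (h.trans hρ0.symm))
      · intro h
        exact hx1 (ρ.injective (h.trans hρ1.symm))
      · intro h
        exact hx2 (ρ.injective (h.trans hρ2.symm))
    have : σ = g := by
      have h := hρid
      simp only [ρ] at h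
      rw [inv_mul_eq_one] at h
      exact h.symm
    rw [this]
    exact hg
  · obtain ⟨g, hg, hgt⟩ := hσ ![0, Pi.single 0 1, Pi.single 1 1]
    have h0 := hgt 0
    have h1 := hgt 1
    have h2 := hgt 2
    simp only [Matrix.cons_val_zero, Matrix.cons_val_one, Matrix.cons_val] at h0 h1 h2
    let ρ : Equiv.Perm (Fin 2 → ZMod p) := g⁻¹ * σ
    have hρ : ∀ x y z : Fin 2 → ZMod p, ∃ (A : (Fin 2 → ZMod p) →ₗ[ZMod p] (Fin 2 → ZMod p))
        (b : Fin 2 → ZMod p), ρ x = A x + b ∧ ρ y = A y + b ∧ ρ z = A z + b := by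
      intro x y z
      obtain ⟨g', hg', hgt'⟩ := hσ ![x, y, z]
      have hgg : g⁻¹ * g' ∈ G := G.mul_mem (G.inv_mem hg) hg'
      obtain ⟨A, b, hAb⟩ := haff hgg
      refine ⟨A.toLinearMap, b, ?_, ?_, ?_⟩
      · have := hgt' 0
        simp only [Matrix.cons_val_zero] at this
        simp [ρ, this, ← hAb]
      · have := hgt' 1
        simp only [Matrix.cons_val_one, Matrix.cons_val_zero] at this
        simp [ρ, this, ← hAb]
      · have := hgt' 2
        simp only [Matrix.cons_val] at this
        simp [ρ, this, ← hAb]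
    obtain ⟨L, hL⟩ := Cfsg.Agent.Lib.PermRec.Affine.exists_linearMap_of_three_approx hp2 (⇑ρ) hρ
    have hρ0 : ρ 0 = 0 := by simp [ρ, h0]
    have hρ1 : ρ (Pi.single 0 1) = Pi.single 0 1 := by simp [ρ, h1]
    have hρ2 : ρ (Pi.single 1 1) = Pi.single 1 1 := by simp [ρ, h2]
    have hLid : L = LinearMap.id := by
      apply LinearMap.pi_ext'
      intro i
      ext
      fin_cases i
      · have := hL (Pi.single 0 1)
        rw [hρ0, add_zero, hρ1] at this
        simp [← this]
      · have := hL (Pi.single 1 1)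
        rw [hρ0, add_zero, hρ2] at this
        simp [← this]
    have hρid : ρ = 1 := by
      ext1 x
      rw [hL, hρ0, add_zero, hLid]
      rfl
    have : σ = g := by
      have h := hρid
      simp only [ρ] at h
      rw [inv_mul_eq_one] at h
      exact h.symm
    rw [this]
    exact hg

end Cfsg.Agent.S3515
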