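import Cfsg.Statements.S3516
import Cfsg.Agent.Lib.PermRec.Affine

set_option autoImplicit false
open Cfsg

namespace Cfsg.Agent.S3516

/-- Let p be an odd prime, d ≥ 3, and G a group of affine permutations x ↦ Ax + b of V = F_p^d containing all translations and all maps x ↦ Ax with A of determinant 1. Then the 3-closure of G is the full affine group: a permutation σ of V agrees on every triple of points with some element of G if and only if σ is an affine map. -/
theorem result (p : ℕ) [Fact p.Prime] (hp : p ≠ 2) (d : ℕ) (hd : 3 ≤ d) (G : Subgroup (Equiv.Perm (Fin d → ZMod p)))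
    (haff : (G : Set (Equiv.Perm (Fin d → ZMod p))) ⊆ {τ : Equiv.Perm (Fin d → ZMod p) | ∃ (A : (Fin d → ZMod p) ≃ₗ[ZMod p] (Fin d → ZMod p)) (b : Fin d → ZMod p), ∀ x, τ x = A x + b})
    (htrans : ∀ b : Fin d → ZMod p, ∃ g ∈ G, ∀ x, g x = x + b)
    (hsl : ∀ A : (Fin d → ZMod p) ≃ₗ[ZMod p] (Fin d → ZMod p), LinearMap.det (A : (Fin d → ZMod p) →ₗ[ZMod p] (Fin d → ZMod p)) = 1 → ∃ g ∈ G, ∀ x, g x = A x)
    (σ : Equiv.Perm (Fin d → ZMod p)) :
    (∀ t : Fin 3 → (Fin d → ZMod p), ∃ g ∈ G, ∀ i, σ (t i) = g (t i)) ↔ σ ∈ {τ : Equiv.Perm (Fin d → ZMod p) | ∃ (A : (Fin d → ZMod p) ≃ₗ[ZMod p] (Fin d → ZMod p)) (b : Fin d → ZMod p), ∀ x, τ x = A x + b} := by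
  classical
  constructor
  · intro hσ
    have hρ : ∀ x y z : Fin d → ZMod p, ∃ (A : (Fin d → ZMod p) →ₗ[ZMod p] (Fin d → ZMod p))
        (b : Fin d → ZMod p), σ x = A x + b ∧ σ y = A y + b ∧ σ z = A z + b := by
      intro x y z
      obtain ⟨g', hg', hgt'⟩ := hσ ![x, y, z]
      obtain ⟨A, b, hAb⟩ := haff hg'
      refine ⟨A.toLinearMap, b, ?_, ?_, ?_⟩
      · have := hgt' 0
        simp only [Matrix.cons_val_zero] at this
        simp [this, ← hAb]
      · have := hgt' 1
        simp only [Matrix.cons_val_one, Matrix.cons_val_zero] at this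
        simp [this, ← hAb]
      · have := hgt' 2
        simp only [Matrix.cons_val] at this
        simp [this, ← hAb]
    obtain ⟨L, hL⟩ := Cfsg.Agent.Lib.PermRec.Affine.exists_linearMap_of_three_approx hp (⇑σ) hρ
    have hinj : Function.Injective L := by
      intro x y hxy
      apply σ.injective
      rw [hL x, hL y, hxy]
    refine ⟨LinearEquiv.ofInjectiveEndo L hinj, σ 0, fun x => ?_⟩
    exact hL x
  · rintro ⟨A, b, hAb⟩ t
    let U : Submodule (ZMod p) (Fin d → ZMod p) :=
      Submodule.span (ZMod p) {t 1 - t 0, t 2 - t 0}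
    have hU : U < ⊤ := by
      apply lt_of_le_of_ne le_top
      intro h
      have h1 : Module.finrank (ZMod p) U ≤ 2 := by
        have := finrank_span_finset_le_card (R := ZMod p) ({t 1 - t 0, t 2 - t 0} : Finset (Fin d → ZMod p))
        have h2 : ({t 1 - t 0, t 2 - t 0} : Finset (Fin d → ZMod p)).card ≤ 2 := Finset.card_le_two
        have h3 : U = Submodule.span (ZMod p) (({t 1 - t 0, t 2 - t 0} : Finset (Fin d → ZMod p)) : Set (Fin d → ZMod p)) := by
          simp [U]
        rw [h3]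
        exact this.trans h2
      rw [h, finrank_top] at h1
      simp at h1
      omega
    obtain ⟨f, hf0, hfU⟩ := Submodule.exists_le_ker_of_lt_top U hU
    obtain ⟨v', hv'⟩ : ∃ v', f v' ≠ 0 := by
      by_contra hcon
      push Not at hcon
      exact hf0 (LinearMap.ext hcon)
    have hdet : LinearMap.det (A : (Fin d → ZMod p) →ₗ[ZMod p] (Fin d → ZMod p)) ≠ 0 :=
      (LinearEquiv.isUnit_det' A).ne_zero
    set D := LinearMap.det (A : (Fin d → ZMod p) →ₗ[ZMod p] (Fin d → ZMod p)) with hD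
    let v : Fin d → ZMod p := ((D⁻¹ - 1) / f v') • v'
    have hfv : 1 + f v = D⁻¹ := by
      simp only [v, map_smul, smul_eq_mul]
      field_simp
      ring
    have hunit : IsUnit (1 + f v) := by
      rw [hfv]
      exact (IsUnit.mk0 _ (inv_ne_zero hdet))
    let E : (Fin d → ZMod p) ≃ₗ[ZMod p] (Fin d → ZMod p) := LinearEquiv.dilatransvection hunit
    have hE : ∀ x, E x = x + f x • v := fun x => LinearEquiv.dilatransvection.apply
    have hdetE : LinearMap.det (E : (Fin d → ZMod p) →ₗ[ZMod p] (Fin d → ZMod p)) = D⁻¹ := by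
      change LinearMap.det (LinearMap.transvection f v) = D⁻¹
      rw [LinearMap.transvection.det, hfv]
    let C : (Fin d → ZMod p) ≃ₗ[ZMod p] (Fin d → ZMod p) := E.trans A
    have hdetC : LinearMap.det (C : (Fin d → ZMod p) →ₗ[ZMod p] (Fin d → ZMod p)) = 1 := by
      have : (C : (Fin d → ZMod p) →ₗ[ZMod p] (Fin d → ZMod p)) =
          (A : (Fin d → ZMod p) →ₗ[ZMod p] (Fin d → ZMod p)) ∘ₗ
          (E : (Fin d → ZMod p) →ₗ[ZMod p] (Fin d → ZMod p)) := rfl
      rw [this, LinearMap.det_comp, hdetE, ← hD]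
      exact mul_inv_cancel₀ hdet
    obtain ⟨g, hg, hgC⟩ := hsl C hdetC
    obtain ⟨τ, hτ, hτw⟩ := htrans (b - f (t 0) • A v)
    refine ⟨τ * g, G.mul_mem hτ hg, fun i => ?_⟩
    have hfi : f (t i) = f (t 0) := by
      have h1 : f (t 1 - t 0) = 0 := hfU (Submodule.subset_span (by simp))
      have h2 : f (t 2 - t 0) = 0 := hfU (Submodule.subset_span (by simp))
      rw [map_sub, sub_eq_zero] at h1 h2
      fin_cases i
      · rfl
      · exact h1
      · exact h2
    rw [hAb, Equiv.Perm.coe_mul, Function.comp_apply, hτw, hgC]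
    simp only [C, LinearEquiv.trans_apply, hE, map_add, map_smul, hfi]
    abel

end Cfsg.Agent.S3516
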