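import Cfsg.Statements.S3517
import Cfsg.Agent.Lib.PermRec.Affine

set_option autoImplicit false
open Cfsg

namespace Cfsg.Agent.S3517

open Cfsg.Agent.Lib.PermRec.Affine

variable {d : ℕ}

private theorem add_self' (y : Fin d → ZMod 2) : y + y = 0 := by
  ext i
  simp only [Pi.add_apply, Pi.zero_apply]
  exact CharTwo.add_self_eq_zero (y i)

private theorem eq_of_sub_eq_zero' (x y : Fin d → ZMod 2) (h : x + y = 0) : x = y :=
  add_right_cancel (h.trans (add_self' y).symm)

private theorem pair_indep (x y : Fin d → ZMod 2) (hx : x ≠ 0) (hy : y ≠ 0) (hxy : x ≠ y) :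
    LinearIndependent (ZMod 2) ![x, y] := by
  rw [LinearIndependent.pair_iff]
  intro s t hst
  have key : ∀ s : ZMod 2, s = 0 ∨ s = 1 := by decide
  rcases key s with rfl | rfl <;> rcases key t with rfl | rfl
  · exact ⟨rfl, rfl⟩
  · simp at hst; exact absurd hst hy
  · simp at hst; exact absurd hst hx
  · exfalso
    apply hxy
    apply eq_of_sub_eq_zero'
    simpa using hst

private theorem single_move (x y : Fin d → ZMod 2) (hx : x ≠ 0) (hy : y ≠ 0) :
    ∃ A : (Fin d → ZMod 2) ≃ₗ[ZMod 2] (Fin d → ZMod 2), A x = y := by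
  have h1 : LinearIndependent (ZMod 2) (fun _ : Unit => x) := by
    rw [linearIndependent_unique_iff]; exact hx
  have h2 : LinearIndependent (ZMod 2) (fun _ : Unit => y) := by
    rw [linearIndependent_unique_iff]; exact hy
  obtain ⟨A, hA⟩ := exists_linearEquiv_of_linearIndependent _ _ h1 h2
  exact ⟨A, hA ()⟩

/-- For d ≥ 3, the 3-closure of the affine group AGL_d(2) acting on F_2^d is the full symmetric group: every permutation of F_2^d agrees on every ordered triple of points with some affine map (AGL_d(2) is 3-transitive). -/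
theorem result (d : ℕ) (hd : 3 ≤ d) (σ : Equiv.Perm (Fin d → ZMod 2)) (t : Fin 3 → (Fin d → ZMod 2)) :
    ∃ (A : (Fin d → ZMod 2) ≃ₗ[ZMod 2] (Fin d → ZMod 2)) (b : Fin d → ZMod 2), ∀ i, σ (t i) = A (t i) + b := by
  -- it suffices to find a linear equivalence matching the differences
  suffices h : ∃ A : (Fin d → ZMod 2) ≃ₗ[ZMod 2] (Fin d → ZMod 2),
      A (t 1 - t 0) = σ (t 1) - σ (t 0) ∧ A (t 2 - t 0) = σ (t 2) - σ (t 0) by
    obtain ⟨A, h1, h2⟩ := h
    refine ⟨A, σ (t 0) - A (t 0), fun i => ?_⟩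
    rw [map_sub] at h1 h2
    fin_cases i
    · simp
    · show σ (t 1) = A (t 1) + (σ (t 0) - A (t 0))
      have : σ (t 1) = (A (t 1) - A (t 0)) + σ (t 0) := by rw [h1]; abel
      rw [this]; abel
    · show σ (t 2) = A (t 2) + (σ (t 0) - A (t 0))
      have : σ (t 2) = (A (t 2) - A (t 0)) + σ (t 0) := by rw [h2]; abel
      rw [this]; abel
  have hne : ∀ a b : Fin d → ZMod 2, a - b ≠ 0 ↔ σ a - σ b ≠ 0 := by
    intro a b
    simp only [ne_eq, sub_eq_zero, EmbeddingLike.apply_eq_iff_eq]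
  have hz : ∀ a b : Fin d → ZMod 2, a - b = 0 → σ a - σ b = 0 := by
    intro a b h
    rw [sub_eq_zero] at h ⊢
    rw [h]
  by_cases h1 : t 1 - t 0 = 0
  · by_cases h2 : t 2 - t 0 = 0
    · exact ⟨LinearEquiv.refl _ _, by simp [h1, hz _ _ h1], by simp [h2, hz _ _ h2]⟩
    · obtain ⟨A, hA⟩ := single_move _ _ h2 ((hne _ _).1 h2)
      exact ⟨A, by simp [h1, hz _ _ h1], hA⟩
  · by_cases h2 : t 2 - t 0 = 0
    · obtain ⟨A, hA⟩ := single_move _ _ h1 ((hne _ _).1 h1)
      exact ⟨A, hA, by simp [h2, hz _ _ h2]⟩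
    · by_cases h12 : t 1 - t 0 = t 2 - t 0
      · obtain ⟨A, hA⟩ := single_move _ _ h1 ((hne _ _).1 h1)
        have e1 : t 1 = t 2 := by simpa using h12
        refine ⟨A, hA, ?_⟩
        rw [← h12, hA, e1]
      · have hu := pair_indep _ _ h1 h2 h12
        have h12' : σ (t 1) - σ (t 0) ≠ σ (t 2) - σ (t 0) := by
          intro h
          apply h12
          have e : σ (t 1) = σ (t 2) := by simpa using h
          rw [σ.injective e]
        have hw := pair_indep _ _ ((hne _ _).1 h1) ((hne _ _).1 h2) h12'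
        obtain ⟨A, hA⟩ := exists_linearEquiv_of_linearIndependent _ _ hu hw
        exact ⟨A, hA 0, hA 1⟩

end Cfsg.Agent.S3517
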