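import Cfsg.Statements.S3518
import Cfsg.Agent.Lib.PermRec.Affine
import Cfsg.Agent.Lib.PermRec.McConnel

set_option autoImplicit false
open Cfsg

namespace Cfsg.Agent.S3518

/-- the affine permutation `x ↦ a x + b` -/
def affPerm {p : ℕ} [Fact p.Prime] (a : (ZMod p)ˣ) (b : ZMod p) : Equiv.Perm (ZMod p) :=
  (Units.mulLeft a).trans (Equiv.addRight b)

theorem affPerm_apply {p : ℕ} [Fact p.Prime] (a : (ZMod p)ˣ) (b x : ZMod p) :
    affPerm a b x = (a : ZMod p) * x + b := rfl

theorem affPerm_mem {p : ℕ} [Fact p.Prime] (a : (ZMod p)ˣ) (b : ZMod p) :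
    affPerm a b ∈ Cfsg.affineGroup (ZMod p) := ⟨a, b, fun _ => rfl⟩

theorem choose_ne {p : ℕ} [Fact p.Prime] (k : ℕ) (hk : k < p) (j : ℕ) (hj : j ≤ k) :
    ((k.choose j : ℕ) : ZMod p) ≠ 0 := by
  rw [Ne, ZMod.natCast_eq_zero_iff]
  intro h
  have hp : p.Prime := Fact.out
  have h1 : p ∣ k.factorial := by
    rw [← Nat.choose_mul_factorial_mul_factorial hj]
    exact Dvd.dvd.mul_right (Dvd.dvd.mul_right h _) _
  exact absurd ((hp.dvd_factorial).mp h1) (by omega)

theorem part1 (p : ℕ) [Fact p.Prime] (G : Subgroup (Equiv.Perm (ZMod p)))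
    (hG : G ≤ Cfsg.affineGroup (ZMod p))
    (htrans : ∀ b : ZMod p, ∃ g ∈ G, ∀ x, g x = x + b)
    (hne : G ≠ Cfsg.affineGroup (ZMod p)) (σ : Equiv.Perm (ZMod p))
    (hσ : ∀ t : Fin 2 → ZMod p, ∃ g ∈ G, ∀ i, σ (t i) = g (t i)) : σ ∈ G := by
  classical
  have hp : p.Prime := Fact.out
  -- the multiplier group
  let A : Subgroup (ZMod p)ˣ :=
    { carrier := {a | ∃ b, affPerm a b ∈ G}
      one_mem' := by
        obtain ⟨g, hg, hgx⟩ := htrans 0
        refine ⟨0, ?_⟩
        have : affPerm 1 0 = g := by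
          ext1 x
          rw [hgx, affPerm_apply]
          simp
        rwa [this]
      mul_mem' := by
        rintro a a' ⟨b, hb⟩ ⟨b', hb'⟩
        refine ⟨(a : ZMod p) * b' + b, ?_⟩
        have : affPerm (a * a') ((a : ZMod p) * b' + b) = affPerm a b * affPerm a' b' := by
          ext1 x
          simp only [Equiv.Perm.coe_mul, Function.comp_apply, affPerm_apply, Units.val_mul]
          ring
        rw [this]
        exact G.mul_mem hb hb'
      inv_mem' := by
        rintro a ⟨b, hb⟩
        refine ⟨-((a⁻¹ : (ZMod p)ˣ) : ZMod p) * b, ?_⟩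
        have : affPerm a⁻¹ (-((a⁻¹ : (ZMod p)ˣ) : ZMod p) * b) = (affPerm a b)⁻¹ := by
          rw [eq_inv_iff_mul_eq_one]
          ext1 x
          simp only [Equiv.Perm.coe_mul, Function.comp_apply, affPerm_apply, Equiv.Perm.coe_one, id]
          have h1 : ((a⁻¹ : (ZMod p)ˣ) : ZMod p) * (a : ZMod p) = 1 := a.inv_mul
          linear_combination x * h1
        rw [this]
        exact G.inv_mem hb }
  have hAmem : ∀ a, a ∈ A ↔ ∃ b, affPerm a b ∈ G := fun a => Iff.rfl
  -- elements of `G` have the affine form with multiplier in `A`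
  have hGform : ∀ g ∈ G, ∃ a ∈ A, ∃ b : ZMod p, ∀ x, g x = (a : ZMod p) * x + b := by
    intro g hg
    obtain ⟨a, b, hab⟩ := hG hg
    refine ⟨a, ⟨b, ?_⟩, b, hab⟩
    have : affPerm a b = g := by
      ext1 x
      rw [hab, affPerm_apply]
    rwa [this]
  -- `A` is a proper subgroup
  have hAne : A ≠ ⊤ := by
    intro hA
    apply hne
    apply le_antisymm hG
    rintro τ ⟨a, b, hab⟩
    have ha : a ∈ A := by rw [hA]; exact Subgroup.mem_top a
    obtain ⟨b', hb'⟩ := ha
    obtain ⟨g, hg, hgx⟩ := htrans (b - b')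
    have : τ = g * affPerm a b' := by
      ext1 x
      simp only [Equiv.Perm.coe_mul, Function.comp_apply, hgx, affPerm_apply, hab]
      ring
    rw [this]
    exact G.mul_mem hg hb'
  set k := Nat.card A with hk
  have hk1 : 1 ≤ k := Nat.card_pos
  have hcardU : Nat.card (ZMod p)ˣ = p - 1 := by
    rw [Nat.card_eq_fintype_card, ZMod.card_units_eq_totient, Nat.totient_prime hp]
  have hkdvd : k ∣ p - 1 := by
    rw [← hcardU]
    exact Subgroup.card_subgroup_dvd_card A
  have hkne : k ≠ p - 1 := by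
    intro h
    apply hAne
    apply Subgroup.eq_top_of_card_eq
    rw [← hk, h, hcardU]
  have hk2 : 2 * k < p := by
    obtain ⟨m, hm⟩ := hkdvd
    have hp1 : 1 ≤ p - 1 := by have := hp.two_le; omega
    have hm0 : m ≠ 0 := by
      rintro rfl
      omega
    have hm1 : m ≠ 1 := by
      rintro rfl
      omega
    have hm2 : 2 ≤ m := by omega
    have : 2 * k ≤ p - 1 := by
      rw [hm, mul_comm]
      exact Nat.mul_le_mul_left k hm2
    omega
  have hpow : ∀ x y, (σ x - σ y) ^ k = (x - y) ^ k := by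
    intro x y
    obtain ⟨g, hg, hgt⟩ := hσ ![x, y]
    obtain ⟨a, ha, b, hab⟩ := hGform g hg
    have h0 := hgt 0
    have h1 := hgt 1
    simp only [Matrix.cons_val_zero, Matrix.cons_val_one] at h0 h1
    rw [h0, h1, hab, hab]
    have h2 : (a : ZMod p) * x + b - ((a : ZMod p) * y + b) = (a : ZMod p) * (x - y) := by ring
    rw [h2, mul_pow]
    have h3 : a ^ k = 1 := by
      have h4 : (⟨a, ha⟩ : A) ^ k = 1 := pow_card_eq_one'
      exact congrArg Subtype.val h4
    have h4 : (a : ZMod p) ^ k = 1 := by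
      rw [← Units.val_pow_eq_pow_val, h3, Units.val_one]
    rw [h4, one_mul]
  have : NeZero p := ⟨hp.ne_zero⟩
  have hcardF : Fintype.card (ZMod p) = p := ZMod.card p
  obtain ⟨α, β, hαβ⟩ := Cfsg.Agent.Lib.PermRec.McConnel.affine_of_pow_sub_eq k hk1 (by omega)
    (fun j hj => choose_ne k (by omega) j hj) σ σ.injective hpow
  obtain ⟨g, hg, hgt⟩ := hσ ![0, 1]
  obtain ⟨a, ha, b, hab⟩ := hGform g hg
  have h0 := hgt 0
  have h1 := hgt 1
  simp only [Matrix.cons_val_zero, Matrix.cons_val_one] at h0 h1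
  rw [hαβ, hab] at h0 h1
  simp only [mul_zero, zero_add, mul_one] at h0 h1
  have h2 : α = a := by
    rw [h0] at h1
    exact add_right_cancel h1
  have : σ = g := by
    ext1 x
    rw [hαβ, hab, h2, h0]
  rw [this]
  exact hg

/-- Closures of subgroups of the one-dimensional affine group. Let p be a prime and G a group of permutations of F_p lying in the affine group AGL₁(p) = {x ↦ ax + b, a ≠ 0} and containing all translations. (1) If G is a proper subgroup of AGL₁(p), then G is 2-closed: a permutation of F_p agreeing on every ordered pair of points with some element of G lies in G. (2) Every permutation of F_p agrees on every ordered pair with some element of AGL₁(p) (the 2-closure of AGL₁(p) is the symmetric group). (3) AGL₁(p) is 3-closed: a permutation agreeing on every ordered triple with some affine map is affine. -/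
theorem result (p : ℕ) [Fact p.Prime] (G : Subgroup (Equiv.Perm (ZMod p))) (hG : G ≤ Cfsg.affineGroup (ZMod p))
    (htrans : ∀ b : ZMod p, ∃ g ∈ G, ∀ x, g x = x + b) :
    (G ≠ Cfsg.affineGroup (ZMod p) → ∀ σ : Equiv.Perm (ZMod p), (∀ t : Fin 2 → ZMod p, ∃ g ∈ G, ∀ i, σ (t i) = g (t i)) → σ ∈ G) ∧
    (∀ σ : Equiv.Perm (ZMod p), (∀ t : Fin 2 → ZMod p, ∃ g ∈ Cfsg.affineGroup (ZMod p), ∀ i, σ (t i) = g (t i))) ∧
    (∀ σ : Equiv.Perm (ZMod p), (∀ t : Fin 3 → ZMod p, ∃ g ∈ Cfsg.affineGroup (ZMod p), ∀ i, σ (t i) = g (t i)) → σ ∈ Cfsg.affineGroup (ZMod p)) := by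
  classical
  refine ⟨part1 p G hG htrans, ?_, ?_⟩
  · intro σ t
    by_cases ht : t 0 = t 1
    · refine ⟨affPerm 1 (σ (t 0) - t 0), affPerm_mem _ _, fun i => ?_⟩
      have hi : t i = t 0 := by
        fin_cases i
        · rfl
        · exact ht.symm
      rw [hi, affPerm_apply]
      simp
    · have hd : t 0 - t 1 ≠ 0 := sub_ne_zero.mpr ht
      have hs : σ (t 0) - σ (t 1) ≠ 0 := sub_ne_zero.mpr (fun h => ht (σ.injective h))
      let a : (ZMod p)ˣ := Units.mk0 ((σ (t 0) - σ (t 1)) / (t 0 - t 1)) (div_ne_zero hs hd)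
      have ha : (a : ZMod p) = (σ (t 0) - σ (t 1)) / (t 0 - t 1) := rfl
      refine ⟨affPerm a (σ (t 0) - (a : ZMod p) * t 0), affPerm_mem _ _, fun i => ?_⟩
      rw [affPerm_apply, ha]
      fin_cases i
      · simp
      · simp only [Fin.mk_one, Fin.isValue]
        field_simp
        ring
  · intro σ hσ
    by_cases hp2 : p = 2
    · subst hp2
      obtain ⟨g, hg, hgt⟩ := hσ ![0, 1, 0]
      have h0 := hgt 0
      have h1 := hgt 1
      simp only [Matrix.cons_val_zero, Matrix.cons_val_one] at h0 h1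
      have : σ = g := by
        ext1 x
        fin_cases x
        · exact h0
        · exact h1
      rw [this]
      exact hg
    · have hρ : ∀ x y z : ZMod p, ∃ (A : ZMod p →ₗ[ZMod p] ZMod p)
          (b : ZMod p), σ x = A x + b ∧ σ y = A y + b ∧ σ z = A z + b := by
        intro x y z
        obtain ⟨g', hg', hgt'⟩ := hσ ![x, y, z]
        obtain ⟨a, b, hAb⟩ := hg'
        refine ⟨LinearMap.mulLeft (ZMod p) (a : ZMod p), b, ?_, ?_, ?_⟩
        · have := hgt' 0
          simp only [Matrix.cons_val_zero] at this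
          simp [this, hAb]
        · have := hgt' 1
          simp only [Matrix.cons_val_one, Matrix.cons_val_zero] at this
          simp [this, hAb]
        · have := hgt' 2
          simp only [Matrix.cons_val] at this
          simp [this, hAb]
      obtain ⟨L, hL⟩ := Cfsg.Agent.Lib.PermRec.Affine.exists_linearMap_of_three_approx hp2 (⇑σ) hρ
      have hL1 : ∀ x, L x = L 1 * x := by
        intro x
        have : x = x • (1 : ZMod p) := by simp
        conv_lhs => rw [this]
        rw [map_smul, smul_eq_mul, mul_comm]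
      have hne : L 1 ≠ 0 := by
        intro h0
        have : σ 1 = σ 0 := by
          rw [hL 1, h0]
          simp
        have := σ.injective this
        exact one_ne_zero this
      refine ⟨Units.mk0 (L 1) hne, σ 0, fun x => ?_⟩
      rw [hL, hL1]
      rfl

end Cfsg.Agent.S3518
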