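import Cfsg.Statements.S3532
import Cfsg.Agent.Lib.PrimeGraph.FrobCrit
import Cfsg.Agent.Lib.PrimeGraph.PSL2Spec

set_option autoImplicit false
open Cfsg

namespace Cfsg.Agent.S3532

theorem image2_aux (A B : Set ℕ) (p : ℕ) :
    Set.image2 Nat.lcm (A ∪ {p}) (B ∪ {p}) =
      Set.image2 Nat.lcm ((A ∪ {p}) ∪ B) ((A ∪ {p}) ∪ B) ∨
    ¬ (∀ a ∈ A, ∀ a' ∈ A, Nat.lcm a a' ∈ A) ∨ ¬ (∀ b ∈ B, ∀ b' ∈ B, Nat.lcm b b' ∈ B) ∨
    ¬ (1 ∈ A ∧ 1 ∈ B) := by
  by_cases hA : ∀ a ∈ A, ∀ a' ∈ A, Nat.lcm a a' ∈ A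
  · by_cases hB : ∀ b ∈ B, ∀ b' ∈ B, Nat.lcm b b' ∈ B
    · by_cases h1 : 1 ∈ A ∧ 1 ∈ B
      · left
        ext x
        simp only [Set.mem_image2]
        constructor
        · rintro ⟨a, ha, b, hb, rfl⟩
          refine ⟨a, ?_, b, ?_, rfl⟩
          · rcases ha with ha | ha
            · exact Or.inl (Or.inl ha)
            · exact Or.inl (Or.inr ha)
          · rcases hb with hb | hb
            · exact Or.inr hb
            · exact Or.inl (Or.inr hb)
        · rintro ⟨a, ha, b, hb, rfl⟩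
          rcases ha with (ha | ha) | ha <;> rcases hb with (hb | hb) | hb
          · exact ⟨Nat.lcm a b, Or.inl (hA a ha b hb), 1, Or.inl h1.2, by simp⟩
          · exact ⟨a, Or.inl ha, b, Or.inr hb, rfl⟩
          · exact ⟨a, Or.inl ha, b, Or.inl hb, rfl⟩
          · exact ⟨b, Or.inl hb, a, Or.inr ha, Nat.lcm_comm _ _⟩
          · exact ⟨a, Or.inr ha, b, Or.inr hb, rfl⟩
          · exact ⟨a, Or.inr ha, b, Or.inl hb, rfl⟩
          · exact ⟨b, Or.inl hb, a, Or.inl ha, Nat.lcm_comm _ _⟩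
          · exact ⟨b, Or.inr hb, a, Or.inl ha, Nat.lcm_comm _ _⟩
          · exact ⟨1, Or.inl h1.1, Nat.lcm a b, Or.inl (hB a ha b hb), by simp⟩
      · exact Or.inr (Or.inr (Or.inr h1))
    · exact Or.inr (Or.inr (Or.inl hB))
  · exact Or.inr (Or.inl hA)

/-- Let q ≥ 4 be a prime power and L = PSL(2,q). There is a finite solvable group with the same set of element orders as L × L (so L × L is not determined by its spectrum). -/
theorem result {F : Type*} [Field F] [Fintype F] (hF : 4 ≤ Fintype.card F) :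
    ∃ (H : Type) (_ : Group H) (_ : Finite H), Group.IsSolvable H ∧
      Set.range (orderOf : H → ℕ) = Set.range (orderOf : Matrix.ProjectiveSpecialLinearGroup (Fin 2) F × Matrix.ProjectiveSpecialLinearGroup (Fin 2) F → ℕ) := by
  classical
  obtain ⟨p, hcp⟩ := CharP.exists F
  have hp : p.Prime := by
    rcases CharP.char_is_prime_or_zero F p with h | h
    · exact h
    · subst h
      exact absurd (CharP.charP_to_charZero F) (by
        intro h
        haveI := h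
        exact not_finite F)
  haveI : Fact p.Prime := ⟨hp⟩
  have hq : ∃ n : ℕ, n ≠ 0 ∧ Fintype.card F = p ^ n := by
    obtain ⟨n, _, h⟩ := FiniteField.card F p
    exact ⟨n, n.ne_zero, h⟩
  obtain ⟨n, hn, hqn⟩ := hq
  have hpq : p ∣ Fintype.card F := by
    rw [hqn]
    exact dvd_pow_self _ hn
  have hone : 1 < Fintype.card F := Fintype.one_lt_card
  open Cfsg.Agent.Lib.PrimeGraph.PSL2Spec in
  have hA : p.Coprime (aN F) := by
    have h1 : aN F ∣ Fintype.card F - 1 := ⟨_, (aN_mul F).symm⟩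
    have h2 : ¬ p ∣ Fintype.card F - 1 := by
      intro h3
      have := (Nat.dvd_sub_iff_right (by omega) hpq).1 h3
      exact hp.one_lt.ne' (Nat.dvd_one.1 this)
    exact (hp.coprime_iff_not_dvd).2 fun h3 => h2 (h3.trans h1)
  open Cfsg.Agent.Lib.PrimeGraph.PSL2Spec in
  have hB : p.Coprime (bN F) := by
    have h1 : bN F ∣ Fintype.card F + 1 := ⟨_, (bN_mul F).symm⟩
    have h2 : ¬ p ∣ Fintype.card F + 1 := by
      intro h3
      have := (Nat.dvd_add_iff_right hpq).2 h3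
      exact hp.one_lt.ne' (Nat.dvd_one.1 this)
    exact (hp.coprime_iff_not_dvd).2 fun h3 => h2 (h3.trans h1)
  obtain ⟨F1, g1, f1, s1, -, r1⟩ := Cfsg.Agent.Lib.PrimeGraph.FrobCrit.exists_frob_solvable p _ 0 hp
    (Cfsg.Agent.Lib.PrimeGraph.PSL2Spec.aN_pos F) hA
  obtain ⟨F2, g2, f2, s2, -, r2⟩ := Cfsg.Agent.Lib.PrimeGraph.FrobCrit.exists_frob_solvable p _ 0 hp
    (Cfsg.Agent.Lib.PrimeGraph.PSL2Spec.bN_pos F) hB
  refine ⟨F1 × F2, inferInstance, inferInstance, ?_, ?_⟩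
  · exact Group.isSolvable_of_ker_le_range (MonoidHom.inl F1 F2) (MonoidHom.snd F1 F2) (fun x hx =>
      ⟨x.1, Prod.ext rfl (by simpa using hx.symm)⟩)
  · have hL := Cfsg.Agent.Lib.PrimeGraph.PSL2Spec.range_orderOf (F := F) p
    rw [Cfsg.Agent.Lib.PrimeGraph.FrobGroup.range_orderOf_prod, Cfsg.Agent.Lib.PrimeGraph.FrobGroup.range_orderOf_prod, r1, r2, hL]
    rcases image2_aux {d | d ∣ Cfsg.Agent.Lib.PrimeGraph.PSL2Spec.aN F} {d | d ∣ Cfsg.Agent.Lib.PrimeGraph.PSL2Spec.bN F} p with h | h | h | h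
    · exact h
    · exfalso
      apply h
      intro a ha b hb
      exact Nat.lcm_dvd ha hb
    · exfalso
      apply h
      intro a ha b hb
      exact Nat.lcm_dvd ha hb
    · exfalso
      apply h
      exact ⟨one_dvd _, one_dvd _⟩

end Cfsg.Agent.S3532
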