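import Cfsg.Statements.S3548
import Cfsg.Agent.Lib.PermRec.Derangements

set_option autoImplicit false
open Cfsg

namespace Cfsg.Agent.S3548

/-- Let G act faithfully and transitively on a finite set with n ≥ 2 points and let D be the subgroup generated by the derangements. Then the index of D in G divides n − 1, and if it equals n − 1 then n is a prime power. -/
theorem result {G Ω : Type*} [Group G] [Finite G] [MulAction G Ω] [FaithfulSMul G Ω] [Finite Ω]
    (htrans : MulAction.IsPretransitive G Ω) (hΩ : 2 ≤ Nat.card Ω) :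
    (Subgroup.closure {g : G | ∀ ω : Ω, g • ω ≠ ω}).index ∣ Nat.card Ω - 1 ∧
    ((Subgroup.closure {g : G | ∀ ω : Ω, g • ω ≠ ω}).index = Nat.card Ω - 1 → IsPrimePow (Nat.card Ω)) := by
  classical

  have hne : Nonempty Ω := by
    by_contra h
    rw [not_nonempty_iff] at h
    rw [Nat.card_of_isEmpty] at hΩ
    omega
  obtain ⟨a⟩ := hne
  set D := Subgroup.closure {g : G | ∀ ω : Ω, g • ω ≠ ω} with hD
  have hDn : D.Normal := Cfsg.Agent.Lib.PermRec.Derangements.derangementSubgroup_normal (G := G) (X := Ω)
  have hDt : MulAction.IsPretransitive D Ω :=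
    Cfsg.Agent.Lib.PermRec.Derangements.derangementSubgroup_pretransitive htrans
  have h1 : ∀ g, g ∉ D → Nat.card (MulAction.fixedBy Ω g) = 1 := fun g hg =>
    Cfsg.Agent.Lib.PermRec.Derangements.card_fixedBy_eq_one_of_notMem htrans hg
  refine ⟨Cfsg.Agent.Lib.PermRec.Derangements.index_dvd_card_sub_one D hDt h1 a, fun hi => ?_⟩
  let A := MulAction.stabilizer G a
  let C : Subgroup A := D.subgroupOf A
  have hCidx : C.index = Nat.card Ω - 1 := by
    rw [← hi]
    exact Cfsg.Agent.Lib.PermRec.Derangements.index_subgroupOf_stabilizer D hDt a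
  let Y := SubMulAction.ofStabilizer G a
  have hY : Nat.card Y = Nat.card Ω - 1 := SubMulAction.nat_card_ofStabilizer_eq G a
  have hstabC : ∀ y : Y, MulAction.stabilizer A y ≤ C := by
    rintro ⟨y, hy⟩ ⟨h, hh⟩ hfix
    rw [Subgroup.mem_subgroupOf]
    refine Cfsg.Agent.Lib.PermRec.Derangements.mem_of_two_fixed D h1 (a := a) (b := y) (Ne.symm hy) hh ?_
    exact congrArg Subtype.val (MulAction.mem_stabilizer_iff.mp hfix)
  -- orbit sizes
  have hidx : ∀ y : Y, (MulAction.stabilizer A y).index = Nat.card Y := by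
    intro y
    have h2 : C.index ∣ (MulAction.stabilizer A y).index := Subgroup.index_dvd_of_le (hstabC y)
    have h3 : (MulAction.stabilizer A y).index ≠ 0 := Subgroup.index_ne_zero_of_finite
    have h4 : (MulAction.stabilizer A y).index ≤ Nat.card Y := by
      rw [MulAction.index_stabilizer, ← Set.ncard_univ]
      exact Set.ncard_le_ncard (Set.subset_univ _)
    have h5 := Nat.le_of_dvd (Nat.pos_of_ne_zero h3) h2
    rw [hCidx, ← hY] at h5
    omega
  -- (a) `C` fixes everything
  have hCfix : ∀ (c : G), c ∈ D → c • a = a → c = 1 := by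
    intro c hc hca
    apply FaithfulSMul.eq_of_smul_eq_smul (α := Ω)
    intro ω
    rw [one_smul]
    by_cases hω : ω = a
    · rw [hω, hca]
    · let y : Y := ⟨ω, hω⟩
      have h2 : MulAction.stabilizer A y = C := by
        have h3 := Subgroup.relIndex_mul_index (hstabC y)
        rw [hidx, hCidx, ← hY] at h3
        have hpos : 0 < Nat.card Y := by
          have : Nonempty Y := ⟨y⟩
          exact Nat.card_pos
        have h4 : (MulAction.stabilizer A y).relIndex C = 1 := by
          apply Nat.eq_of_mul_eq_mul_right hpos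
          rw [h3, one_mul]
        exact le_antisymm (hstabC y) (Subgroup.relIndex_eq_one.mp h4)
      have h3 : (⟨c, hca⟩ : A) ∈ MulAction.stabilizer A y := by
        rw [h2, Subgroup.mem_subgroupOf]
        exact hc
      exact congrArg Subtype.val (MulAction.mem_stabilizer_iff.mp h3)
  -- (b) `A` is transitive on the other points
  have hAtr : ∀ y y' : Y, ∃ h : A, h • y = y' := by
    intro y y'
    have h2 : MulAction.orbit A y = Set.univ := by
      rw [Set.eq_univ_iff_ncard, ← hidx y, MulAction.index_stabilizer]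
    have h3 : y' ∈ MulAction.orbit A y := by rw [h2]; exact Set.mem_univ _
    exact h3
  -- regularity
  have hreg : Nat.card D = Nat.card Ω := by
    apply Nat.card_eq_of_bijective (fun d : D => (d : G) • a)
    constructor
    · intro d d' hdd
      have hdd' : (d : G) • a = (d' : G) • a := hdd
      have h2 : (d' : G)⁻¹ * d = 1 := by
        apply hCfix _ (D.mul_mem (D.inv_mem d'.2) d.2)
        rw [mul_smul, hdd', inv_smul_smul]
      apply Subtype.ext
      rw [inv_mul_eq_one] at h2
      exact h2.symm
    · intro ω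
      obtain ⟨d, hd⟩ := hDt.exists_smul_eq a ω
      exact ⟨d, hd⟩
  have hcard2 : Nat.card D ≠ 1 := by omega
  obtain ⟨q, hq, hqd⟩ := Nat.exists_prime_and_dvd hcard2
  have : Fact q.Prime := ⟨hq⟩
  obtain ⟨x, hx⟩ := exists_prime_orderOf_dvd_card' (G := D) q hqd
  have hx1 : x ≠ 1 := by
    rintro rfl
    rw [orderOf_one] at hx
    exact hq.one_lt.ne hx
  have hord : ∀ d : D, d ≠ 1 → orderOf d = q := by
    intro d hd1
    have hne_of : ∀ e : D, e ≠ 1 → (e : G) • a ≠ a := by
      intro e he hea
      exact he (Subtype.ext (hCfix _ e.2 hea))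
    let y : Y := ⟨(x : G) • a, hne_of x hx1⟩
    let y' : Y := ⟨(d : G) • a, hne_of d hd1⟩
    obtain ⟨h, hh⟩ := hAtr y y'
    have hh' : (h : G) • (x : G) • a = (d : G) • a := congrArg Subtype.val hh
    have hha : (h : G) • a = a := h.2
    -- `h x h⁻¹` agrees with `d` on `a`
    have hconj : (h : G) * x * (h : G)⁻¹ = d := by
      have h2 : ((d : G))⁻¹ * ((h : G) * x * (h : G)⁻¹) = 1 := by
        apply hCfix _ (D.mul_mem (D.inv_mem d.2) (hDn.conj_mem _ x.2 _))
        have h3 : (h : G)⁻¹ • a = a := by
          rw [inv_smul_eq_iff, hha]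
        rw [mul_smul, mul_smul, mul_smul, h3, hh', inv_smul_smul]
      rw [inv_mul_eq_one] at h2
      exact h2.symm
    have h2 : orderOf (d : G) = orderOf (x : G) := by
      rw [← hconj]
      exact MulEquiv.orderOf_eq (MulAut.conj (h : G)) (x : G)
    rw [← Subgroup.orderOf_coe d, h2, Subgroup.orderOf_coe x, hx]
  have hpg : IsPGroup q D := by
    intro d
    refine ⟨1, ?_⟩
    by_cases hd : d = 1
    · rw [hd, one_pow]
    · rw [pow_one, ← hord d hd]
      exact pow_orderOf_eq_one d
  obtain ⟨m, hm⟩ := IsPGroup.iff_card.mp hpg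
  rw [← hreg, hm]
  have hm0 : m ≠ 0 := by
    rintro rfl
    rw [pow_zero] at hm
    exact hcard2 hm
  exact (Nat.Prime.isPrimePow hq).pow hm0

end Cfsg.Agent.S3548
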