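import Cfsg.Statements.S3549
import Cfsg.Agent.Lib.PermRec.Derangements

set_option autoImplicit false
open Cfsg

namespace Cfsg.Agent.S3549

open scoped Pointwise

/-- Let G act faithfully, transitively but imprimitively on a finite set with n points, and let D be the subgroup generated by the derangements. Then the index of D in G is at most √n − 1. -/
theorem result {G Ω : Type*} [Group G] [Finite G] [MulAction G Ω] [FaithfulSMul G Ω] [Finite Ω]
    (htrans : MulAction.IsPretransitive G Ω) (himp : ¬ MulAction.IsPreprimitive G Ω) :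
    ((Subgroup.closure {g : G | ∀ ω : Ω, g • ω ≠ ω}).index : ℝ) ≤ Real.sqrt (Nat.card Ω) - 1 := by
  classical
  have hBex : ∃ B : Set Ω, MulAction.IsBlock G B ∧ ¬ B.Subsingleton ∧ B ≠ Set.univ := by
    by_contra hcon
    push Not at hcon
    apply himp
    exact { htrans with
      isTrivialBlock_of_isBlock := fun {B} hB => by
        by_cases h : B.Subsingleton
        · exact Or.inl h
        · exact Or.inr (hcon B hB (Set.not_subsingleton_iff.mp h)) }
  obtain ⟨B, hB, hBs, hBu⟩ := hBex
  obtain ⟨a, ha, a', ha', haa'⟩ := Set.not_subsingleton_iff.mp hBs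
  set D := Subgroup.closure {g : G | ∀ ω : Ω, g • ω ≠ ω} with hD
  have hDn : D.Normal := Cfsg.Agent.Lib.PermRec.Derangements.derangementSubgroup_normal (G := G) (X := Ω)
  have hDt : MulAction.IsPretransitive D Ω :=
    Cfsg.Agent.Lib.PermRec.Derangements.derangementSubgroup_pretransitive htrans
  have h1 : ∀ g, g ∉ D → Nat.card (MulAction.fixedBy Ω g) = 1 := fun g hg =>
    Cfsg.Agent.Lib.PermRec.Derangements.card_fixedBy_eq_one_of_notMem htrans hg
  have hmk : B.ncard * (MulAction.orbit G B).ncard = Nat.card Ω :=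
    hB.ncard_block_mul_ncard_orbit_eq ⟨a, ha⟩
  have hnpos : 0 < Nat.card Ω := by
    have : Nonempty Ω := ⟨a⟩
    exact Nat.card_pos
  have hblock : ∀ (g₁ g₂ : G) (x : Ω), x ∈ B → g₁ • x = g₂ • x → g₁ • B = g₂ • B := by
    intro g₁ g₂ x hx hxx
    apply MulAction.isBlock_iff_smul_eq_smul_of_nonempty.mp hB
    exact ⟨g₂ • x, ⟨x, hx, hxx⟩, ⟨x, hx, rfl⟩⟩
  -- transitivity on translates
  let Y := MulAction.orbit G B
  have hDtY : MulAction.IsPretransitive D Y := by
    refine ⟨?_⟩
    rintro ⟨_, ⟨g₁, rfl⟩⟩ ⟨_, ⟨g₂, rfl⟩⟩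
    obtain ⟨d, hd⟩ := hDt.exists_smul_eq (g₁ • a) (g₂ • a)
    have hd' : (d : G) • g₁ • a = g₂ • a := hd
    refine ⟨d, Subtype.ext ?_⟩
    have := hblock ((d : G) * g₁) g₂ a ha (by rw [mul_smul, hd'])
    change (d : G) • g₁ • B = g₂ • B
    rw [← this, mul_smul]
  have h1Y : ∀ g, g ∉ D → Nat.card (MulAction.fixedBy Y g) = 1 := by
    intro g hg
    have : Nonempty Y := ⟨⟨B, MulAction.mem_orbit_self B⟩⟩
    refine Cfsg.Agent.Lib.PermRec.Derangements.card_fixedBy_eq_one D hDtY g ?_
    intro d hd
    have hgd : g * d ∉ D := by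
      intro h
      apply hg
      have := D.mul_mem h (D.inv_mem hd)
      simpa using this
    have hder : ∃ ω : Ω, (g * d) • ω = ω := by
      by_contra hcon
      push Not at hcon
      exact hgd (Subgroup.subset_closure hcon)
    obtain ⟨ω, hω⟩ := hder
    obtain ⟨h, rfl⟩ := htrans.exists_smul_eq a ω
    refine ⟨⟨h • B, ⟨h, rfl⟩⟩, Subtype.ext ?_⟩
    change (g * d) • h • B = h • B
    have := hblock ((g * d) * h) h a ha (by rw [mul_smul, hω])
    rw [← mul_smul]
    exact this
  have hik : D.index ∣ Nat.card Y - 1 :=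
    Cfsg.Agent.Lib.PermRec.Derangements.index_dvd_card_sub_one D hDtY h1Y
      ⟨B, MulAction.mem_orbit_self B⟩
  have hcardY : Nat.card Y = (MulAction.orbit G B).ncard := Nat.card_coe_set_eq _
  have hk0 : (MulAction.orbit G B).ncard ≠ 0 := by
    intro h
    rw [h] at hmk
    omega
  have hk1 : (MulAction.orbit G B).ncard ≠ 1 := by
    intro h
    rw [h, mul_one] at hmk
    exact hBu ((Set.eq_univ_iff_ncard B).mpr hmk)
  have hik' : D.index ≤ (MulAction.orbit G B).ncard - 1 := by
    apply Nat.le_of_dvd (by omega)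
    rw [← hcardY]
    exact hik
  -- the point stabiliser acts on the block
  let A := MulAction.stabilizer G a
  have hAB : ∀ h : A, (h : G) • B = B := by
    intro h
    have := hblock (h : G) 1 a ha (by rw [one_smul]; exact h.2)
    rwa [one_smul] at this
  let Z : SubMulAction A Ω :=
    { carrier := B \ {a}
      smul_mem' := by
        rintro h x ⟨hxB, hxa⟩
        refine ⟨?_, ?_⟩
        · have h2 : (h : G) • x ∈ (h : G) • B := Set.smul_mem_smul_set hxB
          rw [hAB h] at h2
          exact h2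
        · intro h3
          apply hxa
          have h4 : (h : G) • x = (h : G) • a := by
            have h5 : (h : G) • a = a := h.2
            rw [h5]
            exact h3
          exact smul_left_cancel _ h4 }
  have hZcard : Nat.card Z = B.ncard - 1 := by
    have h2 : Nat.card Z = (B \ {a}).ncard := Nat.card_coe_set_eq _
    rw [h2, Set.ncard_sdiff_singleton_of_mem ha]
  have hiZ : (D.subgroupOf A).index ∣ Nat.card Z := by
    apply Cfsg.Agent.Lib.PermRec.Derangements.index_dvd_card_of_stabilizer_le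
    rintro ⟨y, hyB, hya⟩ ⟨h, hh⟩ hfix
    rw [Subgroup.mem_subgroupOf]
    refine Cfsg.Agent.Lib.PermRec.Derangements.mem_of_two_fixed D h1 (a := a) (b := y) (Ne.symm hya) hh ?_
    exact congrArg Subtype.val (MulAction.mem_stabilizer_iff.mp hfix)
  rw [Cfsg.Agent.Lib.PermRec.Derangements.index_subgroupOf_stabilizer D hDt a, hZcard] at hiZ
  have hm2 : 2 ≤ B.ncard := by
    have : ({a, a'} : Set Ω) ⊆ B := by
      intro x hx
      rcases hx with rfl | rfl
      · exact ha
      · exact ha'
    have h3 := Set.ncard_le_ncard this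
    rwa [Set.ncard_pair haa'] at h3
  have hiB : D.index ≤ B.ncard - 1 := Nat.le_of_dvd (by omega) hiZ
  have hfinal : (D.index + 1) ^ 2 ≤ Nat.card Ω := by
    rw [← hmk, sq]
    exact Nat.mul_le_mul (by omega) (by omega)
  have h5 : ((D.index : ℝ) + 1) ≤ Real.sqrt (Nat.card Ω) := by
    apply Real.le_sqrt_of_sq_le
    exact_mod_cast hfinal
  linarith

end Cfsg.Agent.S3549
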