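import Cfsg.Statements.S3560
import Cfsg.Agent.Lib.PermRec.Hamming

set_option autoImplicit false
open Cfsg

namespace Cfsg.Agent.S3560



/-- Let K be a finite group isomorphic to a direct product of r ≥ 2 groups all of the same order m ≥ 3. Then K is not a B-group: there is a primitive but not doubly transitive permutation group (on some finite set) containing a regular subgroup isomorphic to K. -/
theorem result {K : Type*} [Group K] [Finite K] {ι : Type*} [Fintype ι] (F : ι → Type*) [∀ i, Group (F i)]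
    (hr : 2 ≤ Fintype.card ι) (m : ℕ) (hm : 3 ≤ m) (hcard : ∀ i, Nat.card (F i) = m) (e : K ≃* (∀ i, F i)) :
    ∃ (n : ℕ) (G R : Subgroup (Equiv.Perm (Fin n))), R ≤ G ∧ Nonempty (↥R ≃* K) ∧
      MulAction.IsPretransitive ↥R (Fin n) ∧ (∀ a : Fin n, MulAction.stabilizer ↥R a = ⊥) ∧
      MulAction.IsPreprimitive ↥G (Fin n) ∧ ¬ MulAction.IsMultiplyPretransitive ↥G (Fin n) 2 := by
  classical
  haveI hFin : ∀ i, Finite (F i) := fun i => Nat.finite_of_card_ne_zero (by rw [hcard]; omega)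
  have e0 : ∀ i, F i ≃ Fin m := fun i => Finite.equivFinOfCardEq (hcard i)
  let Ω := ι → Fin m
  let n := Fintype.card Ω
  let eqv : Ω ≃ Fin n := Fintype.equivFin Ω
  let Ψ : Equiv.Perm Ω ≃* Equiv.Perm (Fin n) := eqv.permCongrHom
  have hΨ : ∀ (σ : Equiv.Perm Ω) (a : Ω), Ψ σ (eqv a) = eqv (σ a) := by
    intro σ a
    simp [Ψ, Equiv.permCongrHom, Equiv.permCongr_apply]
  let G' : Subgroup (Equiv.Perm (Fin n)) := (Cfsg.Agent.Lib.PermRec.Hamming.isoG ι (Fin m)).map Ψ.toMonoidHom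
  let ψ : K →* Equiv.Perm (Fin n) :=
    Ψ.toMonoidHom.comp ((Cfsg.Agent.Lib.PermRec.Hamming.regHom e0).comp e.toMonoidHom)
  haveI : Nonempty (Fin m) := ⟨⟨0, by omega⟩⟩
  have hψinj : Function.Injective ψ := by
    intro a b hab
    exact e.injective (Cfsg.Agent.Lib.PermRec.Hamming.regHom_injective e0 (Ψ.injective hab))
  refine ⟨n, G', ψ.range, ?_, ⟨(MonoidHom.ofInjective hψinj).symm⟩, ?_, ?_, ?_, ?_⟩
  · rintro _ ⟨k, rfl⟩
    exact ⟨_, Cfsg.Agent.Lib.PermRec.Hamming.regHom_mem e0 (e k), rfl⟩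
  · refine ⟨fun a b => ?_⟩
    obtain ⟨f, hf⟩ := Cfsg.Agent.Lib.PermRec.Hamming.regHom_exists e0 (eqv.symm a) (eqv.symm b)
    refine ⟨⟨ψ (e.symm f), ⟨_, rfl⟩⟩, ?_⟩
    change ψ (e.symm f) a = b
    have h1 : ψ (e.symm f) = Ψ (Cfsg.Agent.Lib.PermRec.Hamming.regHom e0 f) := by simp [ψ]
    rw [h1]
    have h2 := hΨ (Cfsg.Agent.Lib.PermRec.Hamming.regHom e0 f) (eqv.symm a)
    rw [hf] at h2
    simpa using h2
  · intro a
    rw [eq_bot_iff]
    rintro ⟨_, k, rfl⟩ hk
    have hk' : ψ k a = a := hk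
    have h1 : ψ k = Ψ (Cfsg.Agent.Lib.PermRec.Hamming.regHom e0 (e k)) := rfl
    rw [h1] at hk'
    have h2 := hΨ (Cfsg.Agent.Lib.PermRec.Hamming.regHom e0 (e k)) (eqv.symm a)
    simp only [Equiv.apply_symm_apply] at h2
    rw [hk'] at h2
    have h3 : Cfsg.Agent.Lib.PermRec.Hamming.regHom e0 (e k) (eqv.symm a) = eqv.symm a := by
      apply eqv.injective
      rw [← h2, Equiv.apply_symm_apply]
    have h4 := Cfsg.Agent.Lib.PermRec.Hamming.regHom_eq_one e0 _ h3
    have h5 : k = 1 := e.injective (by rw [h4, map_one])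
    rw [Subgroup.mem_bot]
    apply Subtype.ext
    rw [h5]
    exact map_one ψ
  · haveI hprim := Cfsg.Agent.Lib.PermRec.Hamming.isPreprimitive_isoG (ι := ι) (Δ := Fin m) (by simpa using hm)
    let φ : Cfsg.Agent.Lib.PermRec.Hamming.isoG ι (Fin m) → G' := fun σ => ⟨Ψ σ, Subgroup.mem_map_of_mem _ σ.2⟩
    let f : Ω →ₑ[φ] Fin n :=
      { toFun := eqv
        map_smul' := by
          intro σ a
          exact (hΨ σ a).symm }
    exact MulAction.IsPreprimitive.of_surjective (f := f) eqv.surjective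
  · intro h2
    haveI : Nontrivial (Fin m) := Fin.nontrivial_iff_two_le.2 (by omega)
    obtain ⟨x, y, x', y', hxy, hxy', hd⟩ := Cfsg.Agent.Lib.PermRec.Hamming.exists_dist (ι := ι) (Δ := Fin m) hr inferInstance
    obtain ⟨⟨_, σ, hσ, rfl⟩, h1, h3⟩ := (MulAction.is_two_pretransitive_iff.1 h2)
      (eqv.injective.ne hxy) (eqv.injective.ne hxy')
    have h1' : Ψ σ (eqv x) = eqv x' := h1
    have h3' : Ψ σ (eqv y) = eqv y' := h3
    rw [hΨ] at h1' h3'
    have h4 := eqv.injective h1'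
    have h5 := eqv.injective h3'
    apply hd
    rw [← hσ x y, h4, h5]

end Cfsg.Agent.S3560
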