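import Cfsg.Statements.S3571
import Cfsg.Agent.Lib.PermRec.AltDer

set_option autoImplicit false
open Cfsg

namespace Cfsg.Agent.S3571

/-- Let G be an almost simple group whose socle is an alternating group of degree m ≥ 5 (G has a normal subgroup T isomorphic to that alternating group with trivial centralizer), acting faithfully and primitively on a finite set Ω with at least two points, and let r be the largest prime divisor of the number of points. Then G contains an element of order r fixing no point. -/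
theorem result {G Ω : Type*} [Group G] [Finite G] [MulAction G Ω] [FaithfulSMul G Ω] [Finite Ω]
    (T : Subgroup G) (hT : T.Normal) (hTc : Subgroup.centralizer (T : Set G) = ⊥) (m : ℕ) (hm : 5 ≤ m)
    (eT : ↥T ≃* ↥(alternatingGroup (Fin m))) (hprim : MulAction.IsPreprimitive G Ω) (hΩ : 2 ≤ Nat.card Ω)
    (r : ℕ) (hr : r.Prime) (hrd : r ∣ Nat.card Ω) (hmax : ∀ s : ℕ, s.Prime → s ∣ Nat.card Ω → s ≤ r) :
    ∃ g : G, orderOf g = r ∧ ∀ ω : Ω, g • ω ≠ ω := by
  classical
  by_contra hno
  push Not at hno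
  haveI : Nontrivial (Fin m) := by
    apply Fintype.one_lt_card_iff_nontrivial.mp
    rw [Fintype.card_fin]; omega
  have hcardA : 2 * Nat.card (alternatingGroup (Fin m)) = m.factorial := by
    rw [two_mul_nat_card_alternatingGroup, Nat.card_perm, Nat.card_eq_fintype_card, Fintype.card_fin]
  have hcardT : Nat.card T = Nat.card (alternatingGroup (Fin m)) := Nat.card_congr eT.toEquiv
  have hTne : ∃ t : T, t ≠ 1 := by
    have h1 : 1 < Nat.card T := by
      rw [hcardT]
      have h2 : 2 * 2 ≤ m.factorial := by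
        calc 2 * 2 ≤ Nat.factorial 5 := by decide
          _ ≤ m.factorial := Nat.factorial_le hm
      omega
    haveI : Nontrivial T := Finite.one_lt_card_iff_nontrivial.mp h1
    exact exists_ne 1
  haveI : T.Normal := hT
  haveI hqp : MulAction.IsQuasiPreprimitive G Ω := inferInstance
  haveI htrans : MulAction.IsPretransitive T Ω := by
    apply MulAction.IsQuasiPreprimitive.isPretransitive_of_normal
    obtain ⟨t, ht⟩ := hTne
    have ht' : (t : G) ≠ 1 := fun h => ht (Subtype.ext h)
    have : ∃ ω : Ω, (t : G) • ω ≠ ω := by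
      by_contra hall
      push Not at hall
      apply ht'
      apply eq_of_smul_eq_smul (α := Ω)
      intro ω
      rw [hall ω, one_smul]
    obtain ⟨ω, hω⟩ := this
    intro hfix
    have : ω ∈ MulAction.fixedPoints T Ω := by rw [hfix]; trivial
    exact hω (this t)
  have hΩne : Nonempty Ω := by
    by_contra hne
    rw [not_nonempty_iff] at hne
    rw [Nat.card_of_isEmpty] at hΩ
    omega
  obtain ⟨ω₀⟩ := hΩne
  have hindex : Nat.card Ω * Nat.card (MulAction.stabilizer T ω₀) = Nat.card T := by
    rw [← MulAction.index_stabilizer_of_transitive T ω₀]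
    exact Subgroup.index_mul_card _
  let f : T →* Equiv.Perm (Fin m) := (alternatingGroup (Fin m)).subtype.comp eT.toMonoidHom
  have hf : Function.Injective f := fun a b h => eT.injective (Subtype.ext h)
  let S : Subgroup (Equiv.Perm (Fin m)) := (MulAction.stabilizer T ω₀).map f
  have hcardS : Nat.card S = Nat.card (MulAction.stabilizer T ω₀) :=
    Subgroup.card_map_of_injective hf
  have hconj : ∀ x (hx : x ∈ alternatingGroup (Fin m)) (ω : Ω),
      ((eT.symm ⟨x, hx⟩ : T) : G) • ω = ω → ∃ y ∈ S, y.cycleType = x.cycleType := by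
    intro x hx ω hω
    obtain ⟨τ, hτ⟩ := MulAction.exists_smul_eq T ω₀ ω
    set t' : T := eT.symm ⟨x, hx⟩ with ht'
    have hst : τ⁻¹ * t' * τ ∈ MulAction.stabilizer T ω₀ := by
      rw [MulAction.mem_stabilizer_iff, mul_smul, mul_smul, hτ]
      have : t' • ω = ω := hω
      rw [this, ← hτ, inv_smul_smul]
    refine ⟨f (τ⁻¹ * t' * τ), ⟨_, hst, rfl⟩, ?_⟩
    have e1 : f t' = x := by
      show ((eT t' : alternatingGroup (Fin m)) : Equiv.Perm (Fin m)) = x
      rw [ht', MulEquiv.apply_symm_apply]
    have e2 : f (τ⁻¹ * t' * τ) = (f τ)⁻¹ * x * ((f τ)⁻¹)⁻¹ := by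
      rw [map_mul, map_mul, map_inv, e1, inv_inv]
    rw [e2, Equiv.Perm.cycleType_conj]
  have hordx : ∀ x (hx : x ∈ alternatingGroup (Fin m)),
      orderOf ((eT.symm ⟨x, hx⟩ : T) : G) = orderOf x := by
    intro x hx
    rw [Subgroup.orderOf_coe, MulEquiv.orderOf_eq, Subgroup.orderOf_mk]
  have hmax' : ∀ s, s.Prime → s ∣ Nat.card Ω → s ≤ r := hmax
  refine Cfsg.Agent.Lib.PermRec.AltDer.core (α := Fin m) (by rw [Fintype.card_fin]; exact hm) S
    (Nat.card Ω) ?_ hr hrd hmax' ?_ ?_
  · rw [Fintype.card_fin, hcardS, mul_assoc, hindex, hcardT, hcardA]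
  · intro x hx hxo
    obtain ⟨ω, hω⟩ := hno ((eT.symm ⟨x, hx⟩ : T) : G) (by rw [hordx, hxo])
    exact hconj x hx ω hω
  · intro hr2 x hx hxo
    set g : G := ((eT.symm ⟨x, hx⟩ : T) : G) with hg
    have hgo : orderOf g = 3 := by rw [hg, hordx, hxo]
    have h3 : ¬ 3 ∣ Nat.card Ω := fun h => by
      have := hmax' 3 Nat.prime_three h
      omega
    haveI : Fact (Nat.Prime 3) := ⟨Nat.prime_three⟩
    have hP : IsPGroup 3 (Subgroup.zpowers g) := by
      apply IsPGroup.of_card (n := 1)
      rw [Nat.card_zpowers, hgo, pow_one]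
    obtain ⟨ω, hω⟩ := hP.nonempty_fixed_point_of_prime_not_dvd_card Ω h3
    refine hconj x hx ω ?_
    exact hω ⟨g, Subgroup.mem_zpowers g⟩

end Cfsg.Agent.S3571
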