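import Cfsg.Statements.S3573
import Cfsg.Agent.Lib.PermRec.PrimeOrderPerm

set_option autoImplicit false
open Cfsg

namespace Cfsg.Agent.S3573

open Cfsg.Agent.Lib.PermRec.PrimeOrderPerm in
theorem core (n k : ℕ) (hkn : k ≤ n) (r : ℕ) (hr : r.Prime) (hrn : r ≤ n) :
    (∀ σ : Equiv.Perm (Fin n), orderOf σ = r → ∃ s : Finset (Fin n), s.card = k ∧ s.image σ = s) ↔
      k % r ≤ n % r := by
  classical
  constructor
  · intro h
    obtain ⟨σ, hσ, hfix⟩ := exists_max_perm n r hr hrn
    obtain ⟨s, hs, hsi⟩ := h σ hσ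
    have hσr : σ ^ r = 1 := by
      have h1 := pow_orderOf_eq_one σ
      rwa [hσ] at h1
    have := card_mod_le_of_invariant hr σ hσr s hsi
    rwa [hs, hfix] at this
  · intro h σ hσ
    obtain ⟨v, hv, hinv⟩ := exists_invariant hr σ hσ
    set f := (Finset.univ.filter (fun x => σ x = x)).card with hf
    have hfmod : n % r ≤ f := by
      have h1 : n % r = f % r := by
        rw [hv, Nat.mul_add_mod]
      rw [h1]
      exact Nat.mod_le _ _
    by_cases hcase : k / r ≤ v
    · obtain ⟨s, hs, hsi⟩ := hinv (k / r) (k % r) hcase (h.trans hfmod)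
      exact ⟨s, by rw [hs, Nat.div_add_mod], hsi⟩
    · have hlt : v < k / r := by omega
      have hle : r * v ≤ k := by
        have h1 : r * (k / r) ≤ k := Nat.mul_div_le k r
        have h2 : r * v ≤ r * (k / r) := Nat.mul_le_mul_left _ hlt.le
        omega
      obtain ⟨s, hs, hsi⟩ := hinv v (k - r * v) le_rfl (by omega)
      exact ⟨s, by omega, hsi⟩

theorem le_of_mod (n k r : ℕ) (hkn : k ≤ n) (hr : r.Prime) (hrd : r ∣ Nat.choose n k)
    (h : k % r ≤ n % r) : r ≤ k := by
  by_contra hlt
  have hlt' : k < r := by omega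
  haveI := Fact.mk hr
  have hl := Choose.choose_modEq_choose_mod_mul_choose_div_nat (n := n) (k := k) (p := r)
  rw [Nat.mod_eq_of_lt hlt', Nat.div_eq_of_lt hlt', Nat.choose_zero_right, mul_one] at hl
  rw [Nat.mod_eq_of_lt hlt'] at h
  have h1 : r ∣ Nat.choose (n % r) k := by
    have := (hl.dvd_iff (dvd_refl r)).1 hrd
    exact this
  have hm : n % r < r := Nat.mod_lt _ hr.pos
  have h2 : r ∣ (n % r).factorial := by
    have h3 := Nat.choose_mul_factorial_mul_factorial h
    rw [← h3]
    exact Dvd.dvd.mul_right (Dvd.dvd.mul_right h1 _) _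
  have := (Nat.Prime.dvd_factorial hr).1 h2
  omega

theorem le_of_dvd_choose (n k r : ℕ) (hkn : k ≤ n) (hr : r.Prime) (hrd : r ∣ Nat.choose n k) :
    r ≤ n := by
  have h3 := Nat.choose_mul_factorial_mul_factorial hkn
  have h2 : r ∣ n.factorial := by
    rw [← h3]
    exact Dvd.dvd.mul_right (Dvd.dvd.mul_right hrd _) _
  exact (Nat.Prime.dvd_factorial hr).1 h2

/-- Let 1 ≤ k with 2k < n and consider the symmetric group of degree n acting on the k-subsets of an n-set. Let r be a prime dividing the number C(n,k) of k-subsets. If r is odd, then every permutation of order r fixes some k-subset if and only if r ≤ k and the remainder of k modulo r is at most the remainder of n modulo r. If r = 2, then every involution fixes some k-subset if and only if k is even or n is odd. -/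
theorem result (n k : ℕ) (hk : 1 ≤ k) (hkn : 2 * k < n) (r : ℕ) (hr : r.Prime) (hrd : r ∣ Nat.choose n k) :
    (r ≠ 2 → ((∀ σ : Equiv.Perm (Fin n), orderOf σ = r → ∃ s : Finset (Fin n), s.card = k ∧ s.image σ = s) ↔
      (r ≤ k ∧ k % r ≤ n % r))) ∧
    (r = 2 → ((∀ σ : Equiv.Perm (Fin n), orderOf σ = 2 → ∃ s : Finset (Fin n), s.card = k ∧ s.image σ = s) ↔
      (Even k ∨ Odd n))) := by
  have hk' : k ≤ n := by omega
  have hrn := le_of_dvd_choose n k r hk' hr hrd
  have hc := core n k hk' r hr hrn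
  refine ⟨fun _ => ?_, fun h2 => ?_⟩
  · rw [hc]
    exact ⟨fun h => ⟨le_of_mod n k r hk' hr hrd h, h⟩, fun h => h.2⟩
  · subst h2
    rw [hc, Nat.even_iff, Nat.odd_iff]
    omega

end Cfsg.Agent.S3573
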