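import Cfsg.Statements.S3575
import Cfsg.Agent.Lib.PermRec.PartitionFix

set_option autoImplicit false
open Cfsg

namespace Cfsg.Agent.S3575

theorem n1 (a b r v : ℕ) (hr : 0 < r) (ha : 0 < a) (hkl : (b % r) * (a % r) < r)
    (hgap : b < r ∨ a % r ≤ (b % r) * (a / r) + 1) (hv : r * v ≤ a * b) :
    ∃ t, r * t ≤ b ∧ t * a ≤ v ∧ v - t * a ≤ (b - r * t) * (a / r) := by
  have ea : r * (a / r) + a % r = a := Nat.div_add_mod a r
  have eb : r * (b / r) + b % r = b := Nat.div_add_mod b r
  set a₀ := a / r with ha₀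
  set l := a % r with hl
  set b₀ := b / r with hb₀
  set k := b % r with hk
  clear_value a₀ l b₀ k
  have hX : v ≤ b * a₀ + b₀ * l := by
    by_contra hcon
    have h1 : b * a₀ + b₀ * l + 1 ≤ v := by omega
    have h2 : r * (b * a₀ + b₀ * l + 1) ≤ r * v := Nat.mul_le_mul_left _ h1
    have h3 : a * b = r * (b * a₀ + b₀ * l) + k * l := by
      conv_lhs => rw [← ea, ← eb]
      conv_rhs => rw [← eb]
      ring
    have h4 : r * (b * a₀ + b₀ * l + 1) = r * (b * a₀ + b₀ * l) + r := by ring
    omega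
  obtain ⟨t, ht⟩ : ∃ t, t = min b₀ (v / a) := ⟨_, rfl⟩
  have ht1 : t ≤ b₀ := by rw [ht]; exact min_le_left _ _
  have ht2 : t ≤ v / a := by rw [ht]; exact min_le_right _ _
  have hrt : r * t ≤ b := by
    have : r * t ≤ r * b₀ := Nat.mul_le_mul_left _ ht1
    omega
  have hta : t * a ≤ v := (Nat.mul_le_mul_right a ht2).trans (Nat.div_mul_le_self v a)
  refine ⟨t, hrt, hta, ?_⟩
  obtain ⟨m, hm⟩ := Nat.exists_eq_add_of_le hrt
  have hbm : b - r * t = m := by omega
  rw [hbm]
  have hid : t * a + m * a₀ = b * a₀ + t * l := by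
    rw [hm]
    conv_lhs => rw [← ea]
    ring
  suffices h : v ≤ b * a₀ + t * l by omega
  by_cases hcase : b₀ ≤ v / a
  · have : t = b₀ := by rw [ht]; exact min_eq_left hcase
    rw [this]
    linarith [mul_comm b₀ l]
  · have ht3 : t = v / a := by rw [ht]; exact min_eq_right (by omega)
    have ht4 : t + 1 ≤ b₀ := by omega
    have hlt : v < a * (t + 1) := by
      rw [ht3]
      exact Nat.lt_mul_div_succ v ha
    have hbr : r ≤ b := by
      have h1 : 1 ≤ b₀ := by omega
      have h2 : r * 1 ≤ r * b₀ := Nat.mul_le_mul_left _ h1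
      omega
    have hlk : l ≤ k * a₀ + 1 := by
      rcases hgap with h | h
      · omega
      · exact h
    have h5 : r * a₀ * (t + 1) ≤ r * a₀ * b₀ := Nat.mul_le_mul_left _ ht4
    have h6 : a * (t + 1) = r * a₀ * (t + 1) + l * t + l := by
      conv_lhs => rw [← ea]
      ring
    have h7 : b * a₀ = r * a₀ * b₀ + k * a₀ := by
      conv_lhs => rw [← eb]
      ring
    rw [h6] at hlt
    rw [h7]
    have h8 : t * l = l * t := mul_comm _ _
    omega

theorem n2 (a b r : ℕ) (hr : r.Prime) (ha : 2 ≤ a) (hb : 2 ≤ b) (hrab : r ≤ a * b)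
    (H : ∀ v, 1 ≤ v → r * v ≤ a * b → ∃ t, r * t ≤ b ∧ t * a ≤ v ∧
      v ≤ b * (a / r) + t * (a % r)) :
    r ≤ a ∧ (a % r = 0 ∨ (b % r = 0 ∧ a % r = 1) ∨
      (a % r ≠ 0 ∧ b % r ≠ 0 ∧ (b % r) * (a % r) < r ∧
        (b < r ∨ (b % r + r) * (a % r) ≤ (b % r) * a + r))) := by
  have ea : r * (a / r) + a % r = a := Nat.div_add_mod a r
  have eb : r * (b / r) + b % r = b := Nat.div_add_mod b r
  have hlr : a % r < r := Nat.mod_lt _ hr.pos
  have hkr : b % r < r := Nat.mod_lt _ hr.pos
  set a₀ := a / r with ha₀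
  set l := a % r with hl
  set b₀ := b / r with hb₀
  set k := b % r with hk
  clear_value a₀ l b₀ k
  have hab : a * b = r * (b * a₀ + b₀ * l) + k * l := by
    conv_lhs => rw [← ea, ← eb]
    conv_rhs => rw [← eb]
    ring
  -- (i)
  have h1 : r ≤ a := by
    obtain ⟨t, _, h3, h4⟩ := H 1 le_rfl (by omega)
    have ht0 : t = 0 := by
      by_contra hcon
      have : 1 ≤ t := by omega
      have := Nat.mul_le_mul this ha
      omega
    rw [ht0] at h4
    simp only [zero_mul, add_zero] at h4
    have h5 : 1 ≤ a₀ := by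
      by_contra hcon
      have : a₀ = 0 := by omega
      rw [this] at h4
      simp at h4
    have h6 : r * 1 ≤ r * a₀ := Nat.mul_le_mul_left _ h5
    omega
  -- (ii)
  have h2 : k * l < r := by
    by_contra hcon
    have hc : r ≤ k * l := by omega
    obtain ⟨t, h3, _, h4⟩ := H (b * a₀ + b₀ * l + 1) (by omega) (by
      rw [hab]
      have : r * (b * a₀ + b₀ * l + 1) = r * (b * a₀ + b₀ * l) + r := by ring
      omega)
    have ht : t ≤ b₀ := by
      by_contra hcon2
      have h5 : b₀ + 1 ≤ t := by omega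
      have h6 : r * (b₀ + 1) ≤ r * t := Nat.mul_le_mul_left _ h5
      have h7 : r * (b₀ + 1) = r * b₀ + r := by ring
      have h8 : k < r := hkr
      omega
    have h5 : t * l ≤ b₀ * l := Nat.mul_le_mul_right _ ht
    omega
  -- (iii)
  have h3 : r ≤ b → l ≤ k * a₀ + 1 := by
    intro hbr
    by_contra hcon
    have hb₀1 : 1 ≤ b₀ := by
      have := Nat.div_pos hbr hr.pos
      omega
    obtain ⟨b₁, hb₁⟩ : ∃ b₁, b₀ = b₁ + 1 := ⟨b₀ - 1, by omega⟩
    have hl1 : 1 ≤ l := by omega
    have hX : b₀ * l = b₁ * l + l := by rw [hb₁]; ring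
    obtain ⟨t, h4, h5, h6⟩ := H (b * a₀ + b₁ * l + 1) (by omega) (by
      rw [hab]
      have : b * a₀ + b₁ * l + 1 ≤ b * a₀ + b₀ * l := by omega
      have h7 := Nat.mul_le_mul_left r this
      omega)
    have ht : t ≤ b₀ := by
      by_contra hcon2
      have h7 : b₀ + 1 ≤ t := by omega
      have h8 : r * (b₀ + 1) ≤ r * t := Nat.mul_le_mul_left _ h7
      have h9 : r * (b₀ + 1) = r * b₀ + r := by ring
      have h10 : k < r := hkr
      omega
    have ht2 : b₁ + 1 ≤ t := by
      by_contra hcon2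
      have h7 : t ≤ b₁ := by omega
      have h8 : t * l ≤ b₁ * l := Nat.mul_le_mul_right _ h7
      omega
    have ht3 : t = b₁ + 1 := by omega
    rw [ht3] at h5
    have h7 : (b₁ + 1) * a = (b₁ + 1) * (r * a₀) + b₁ * l + l := by
      conv_lhs => rw [← ea]
      ring
    have h8 : b * a₀ = (b₁ + 1) * (r * a₀) + k * a₀ := by
      conv_lhs => rw [← eb]
      rw [hb₁]
      ring
    omega
  refine ⟨h1, ?_⟩
  by_cases hl0 : l = 0
  · exact Or.inl hl0
  by_cases hk0 : k = 0
  · right; left
    refine ⟨hk0, ?_⟩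
    have hbr : r ≤ b := by
      have hd : r ∣ b := Nat.dvd_of_mod_eq_zero (by rw [← hk]; exact hk0)
      exact Nat.le_of_dvd (by omega) hd
    have := h3 hbr
    rw [hk0] at this
    simp only [zero_mul] at this
    omega
  · right; right
    refine ⟨hl0, hk0, h2, ?_⟩
    by_cases hbr : b < r
    · exact Or.inl hbr
    · right
      have h4 := h3 (by omega)
      have h5 : r * l ≤ r * (k * a₀ + 1) := Nat.mul_le_mul_left _ h4
      have h6 : k * a + r = r * (k * a₀ + 1) + k * l := by
        conv_lhs => rw [← ea]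
        ring
      have h7 : (k + r) * l = k * l + r * l := by ring
      omega

theorem conds (a b r : ℕ) (hr : 0 < r)
    (h : a % r = 0 ∨ (b % r = 0 ∧ a % r = 1) ∨
      (a % r ≠ 0 ∧ b % r ≠ 0 ∧ (b % r) * (a % r) < r ∧
        (b < r ∨ (b % r + r) * (a % r) ≤ (b % r) * a + r))) :
    (b % r) * (a % r) < r ∧ (b < r ∨ a % r ≤ (b % r) * (a / r) + 1) := by
  rcases h with h | ⟨h1, h2⟩ | ⟨_, _, h3, h4⟩
  · rw [h]
    exact ⟨by simpa using hr, Or.inr (by omega)⟩
  · rw [h1, h2]
    exact ⟨by simpa using hr, Or.inr (by omega)⟩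
  · refine ⟨h3, ?_⟩
    rcases h4 with h4 | h4
    · exact Or.inl h4
    · right
      have ea : r * (a / r) + a % r = a := Nat.div_add_mod a r
      set a₀ := a / r with ha₀
      set l := a % r with hl
      set k := b % r with hk
      clear_value a₀ l k
      have h6 : k * a + r = r * (k * a₀ + 1) + k * l := by
        conv_lhs => rw [← ea]
        ring
      have h7 : (k + r) * l = k * l + r * l := by ring
      have h5 : r * l ≤ r * (k * a₀ + 1) := by omega
      exact Nat.le_of_mul_le_mul_left h5 hr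

/-- Let a, b ≥ 2 and consider the symmetric group of degree a·b acting on the partitions of an (a·b)-set into b parts of size a (encoded as maps onto a b-element set all of whose fibres have a elements; a permutation fixes such a partition when it permutes the fibres). Let r be a prime dividing the number (ab)!/((a!)^b·b!) of such partitions, and let ℓ and k be the remainders of a and b modulo r. Then every permutation of order r fixes some such partition if and only if r ≤ a and one of the following holds: ℓ = 0; or k = 0 and ℓ = 1; or ℓ and k are non-zero, k·ℓ < r, and either b < r or (k + r)·ℓ ≤ k·a + r. -/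
theorem result (a b : ℕ) (ha : 2 ≤ a) (hb : 2 ≤ b) (r : ℕ) (hr : r.Prime)
    (hrd : r ∣ (a * b).factorial / (a.factorial ^ b * b.factorial)) :
    (∀ σ : Equiv.Perm (Fin (a * b)), orderOf σ = r →
        ∃ f : Fin (a * b) → Fin b, (∀ j : Fin b, Nat.card {x : Fin (a * b) // f x = j} = a) ∧
          ∃ π : Equiv.Perm (Fin b), ∀ x : Fin (a * b), f (σ x) = π (f x)) ↔
      (r ≤ a ∧ (a % r = 0 ∨ (b % r = 0 ∧ a % r = 1) ∨
        (a % r ≠ 0 ∧ b % r ≠ 0 ∧ (b % r) * (a % r) < r ∧ (b < r ∨ (b % r + r) * (a % r) ≤ (b % r) * a + r)))) := by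
  classical
  have hrab : r ≤ a * b := by
    have h1 := Nat.uniformBell_mul_eq b (n := a) (by omega)
    rw [mul_assoc, mul_comm b a] at h1
    have h2 : (a * b).factorial / (a.factorial ^ b * b.factorial) = b.uniformBell a :=
      Nat.div_eq_of_eq_mul_left (by positivity) h1.symm
    rw [h2] at hrd
    have h3 : r ∣ (a * b).factorial := by
      rw [← h1]
      exact Dvd.dvd.mul_right hrd _
    exact (Nat.Prime.dvd_factorial hr).1 h3
  haveI := Fact.mk hr
  constructor
  · intro H
    refine n2 a b r hr ha hb hrab (fun v hv1 hv2 => ?_)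
    obtain ⟨σ, hσ, hfix⟩ := Cfsg.Agent.Lib.PermRec.PartitionFix.exists_perm_fix (a * b) r v hr hv2
    have hσ1 : σ ≠ 1 := by
      intro h
      rw [h] at hfix
      simp only [Equiv.Perm.one_apply, Finset.filter_true, Finset.card_univ, Fintype.card_fin] at hfix
      have : 0 < r * v := Nat.mul_pos hr.pos hv1
      have h2 : 1 ≤ a * b := by omega
      omega
    obtain ⟨f, hf, π, hπ⟩ := H σ (orderOf_eq_prime hσ hσ1)
    obtain ⟨c, hc1, hc2, hc3, hc4⟩ := Cfsg.Agent.Lib.PermRec.PartitionFix.fix_bounds a b r (by omega)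
      hr σ hσ f hf π hπ
    rw [hfix] at hc3 hc4
    have hd : r ∣ b - c := (Nat.modEq_iff_dvd' hc1).1 hc2
    obtain ⟨t, ht⟩ := hd
    have hb' : b = c + r * t := by omega
    refine ⟨t, by omega, ?_, ?_⟩
    · have h1 : a * b = a * c + r * (t * a) := by rw [hb']; ring
      have h2 : c * a = a * c := mul_comm _ _
      have h3 : r * (t * a) ≤ r * v := by omega
      exact Nat.le_of_mul_le_mul_left h3 hr.pos
    · have ea : r * (a / r) + a % r = a := Nat.div_add_mod a r
      set a₀ := a / r with ha₀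
      set l := a % r with hl
      clear_value a₀ l
      have h1 : a * b = r * (b * a₀ + t * l) + c * l := by
        conv_lhs => rw [← ea, hb']
        conv_rhs => rw [hb']
        ring
      have h3 : r * v ≤ r * (b * a₀ + t * l) := by omega
      exact Nat.le_of_mul_le_mul_left h3 hr.pos
  · rintro ⟨h1, h2⟩ σ hσ
    obtain ⟨hkl, hgap⟩ := conds a b r hr.pos h2
    obtain ⟨v, hv, _⟩ := Cfsg.Agent.Lib.PermRec.PrimeOrderPerm.exists_invariant hr σ hσ
    have hσr : σ ^ r = 1 := by
      have h3 := pow_orderOf_eq_one σ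
      rwa [hσ] at h3
    obtain ⟨t, ht1, ht2, ht3⟩ := n1 a b r v hr.pos (by omega) hkl hgap (by omega)
    refine Cfsg.Agent.Lib.PermRec.PartitionFix.exists_partition a b r hr σ hσr t (v - t * a) ht1 ht3 ?_
    have h3 : t * a + (v - t * a) = v := by omega
    rw [h3]
    omega

end Cfsg.Agent.S3575
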