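-- Statement S4181: a counting proof by a "deficiency budget" along chains of subgroups
-- generated by Sylow subgroups (see the comments below).
import Cfsg.Statements.S4181

set_option autoImplicit false
open Cfsg

namespace Cfsg.Agent.S4181

open scoped Pointwise
open Classical

section aux

attribute [local instance] Fintype.ofFinite

variable {G : Type*} [Group G] [Finite G] {p : ℕ} [Fact p.Prime]

/-- Conjugate of a subgroup. -/
def cj (g : G) (H : Subgroup G) : Subgroup G := MulAut.conj g • H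

lemma mem_cj {g x : G} {H : Subgroup G} : x ∈ cj g H ↔ g⁻¹ * x * g ∈ H := by
  simp [cj, Subgroup.mem_pointwise_smul_iff_inv_smul_mem, MulAut.smul_def]

lemma cj_one (H : Subgroup G) : cj (1 : G) H = H := by
  ext x; simp [mem_cj]

lemma cj_mul (a b : G) (H : Subgroup G) : cj (a * b) H = cj a (cj b H) := by
  ext x; simp [mem_cj, mul_assoc]

lemma cj_inv_cj (g : G) (H : Subgroup G) : cj g⁻¹ (cj g H) = H := by
  rw [← cj_mul, inv_mul_cancel, cj_one]

lemma cj_cj_inv (g : G) (H : Subgroup G) : cj g (cj g⁻¹ H) = H := by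
  rw [← cj_mul, mul_inv_cancel, cj_one]

lemma cj_le_cj {g : G} {A B : Subgroup G} : cj g A ≤ cj g B ↔ A ≤ B :=
  Subgroup.pointwise_smul_le_pointwise_smul_iff

lemma cj_injective (g : G) : Function.Injective (cj g) := fun A B h => by
  simpa [cj_inv_cj] using congrArg (cj g⁻¹) h

lemma coe_smul_sylow (g : G) (Q : Sylow p G) : ((g • Q : Sylow p G) : Subgroup G) = cj g Q :=
  Sylow.coe_subgroup_smul

lemma cj_of_mem {z : G} {Z : Subgroup G} (hz : z ∈ Z) : cj z Z = Z := by
  ext x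
  rw [mem_cj]
  constructor
  · intro h
    have := Z.mul_mem (Z.mul_mem hz h) (Z.inv_mem hz)
    simpa [mul_assoc] using this
  · intro h
    exact Z.mul_mem (Z.mul_mem (Z.inv_mem hz) h) hz

lemma cj_eq_of_mem_normalizer {g : G} {M : Subgroup G} (hg : g ∈ Subgroup.normalizer (M : Set G)) :
    cj g M = M := by
  ext x
  rw [mem_cj]
  have := Subgroup.mem_normalizer_iff.mp hg (g⁻¹ * x * g)
  rw [show g * (g⁻¹ * x * g) * g⁻¹ = x by group] at this
  exact this

lemma mem_normalizer_of_cj_eq {g : G} {M : Subgroup G} (hg : cj g M = M) :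
    g ∈ Subgroup.normalizer (M : Set G) := by
  rw [Subgroup.mem_normalizer_iff]
  intro h
  have h1 : g * h * g⁻¹ ∈ cj g M ↔ h ∈ M := by
    rw [mem_cj, show g⁻¹ * (g * h * g⁻¹) * g = h by group]
  rw [hg] at h1
  exact h1.symm

/-- Sylow subgroups contained in `A`. -/
noncomputable def syl (p : ℕ) [Fact p.Prime] (A : Subgroup G) : Finset (Sylow p G) :=
  Finset.univ.filter (fun Q => (Q : Subgroup G) ≤ A)

lemma mem_syl {Q : Sylow p G} {A : Subgroup G} : Q ∈ syl p A ↔ (Q : Subgroup G) ≤ A := by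
  simp [syl]

/-- Their number. -/
noncomputable def s (p : ℕ) [Fact p.Prime] (A : Subgroup G) : ℕ := (syl p A).card

/-- Join of a family of Sylow subgroups. -/
noncomputable def gen (D : Finset (Sylow p G)) : Subgroup G := ⨆ Q ∈ D, (Q : Subgroup G)

lemma gen_le {D : Finset (Sylow p G)} {A : Subgroup G} (h : ∀ Q ∈ D, (Q : Subgroup G) ≤ A) :
    gen D ≤ A := iSup₂_le h

lemma le_gen {D : Finset (Sylow p G)} {Q : Sylow p G} (h : Q ∈ D) : (Q : Subgroup G) ≤ gen D :=
  le_iSup₂_of_le Q h le_rfl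

/-- A subgroup generated by the Sylow subgroups of `G` it contains (there being at least one). -/
def Full (p : ℕ) [Fact p.Prime] (A : Subgroup G) : Prop :=
  (syl p A).Nonempty ∧ gen (syl p A) = A

lemma smul_mem_syl_cj {g : G} {Q : Sylow p G} {A : Subgroup G} (h : Q ∈ syl p A) :
    g • Q ∈ syl p (cj g A) := by
  rw [mem_syl, coe_smul_sylow, cj_le_cj]; exact mem_syl.mp h

lemma s_cj (g : G) (A : Subgroup G) : s p (cj g A) = s p A := by
  unfold s
  refine Finset.card_nbij' (fun Q => g⁻¹ • Q) (fun Q => g • Q) ?_ ?_ ?_ ?_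
  · intro Q hQ
    have := smul_mem_syl_cj (g := g⁻¹) (Finset.mem_coe.mp hQ)
    rw [cj_inv_cj] at this
    exact this
  · intro Q hQ
    exact smul_mem_syl_cj (Finset.mem_coe.mp hQ)
  · intro Q _; simp
  · intro Q _; simp

lemma Full.cj {A : Subgroup G} (hA : Full p A) (g : G) : Full p (cj g A) := by
  refine ⟨?_, le_antisymm (gen_le fun Q hQ => mem_syl.mp hQ) ?_⟩
  · obtain ⟨Q, hQ⟩ := hA.1
    exact ⟨g • Q, smul_mem_syl_cj hQ⟩
  · conv_lhs => rw [← hA.2]
    have : gen (syl p A) ≤ Cfsg.Agent.S4181.cj g⁻¹ (gen (syl p (Cfsg.Agent.S4181.cj g A))) := by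
      refine gen_le fun Q hQ => ?_
      have h1 := le_gen (smul_mem_syl_cj (g := g) hQ)
      rw [coe_smul_sylow] at h1
      have h2 := (cj_le_cj (g := g⁻¹)).mpr h1
      rwa [cj_inv_cj] at h2
    have h2 := (cj_le_cj (g := g)).mpr this
    rwa [cj_cj_inv] at h2

lemma Full.eq_of_le {A B : Subgroup G} (hA : Full p A) (hB : Full p B) (h : A ≤ B)
    (hs : s p B ≤ s p A) : A = B := by
  have h1 : syl p A ⊆ syl p B := fun Q hQ => mem_syl.mpr ((mem_syl.mp hQ).trans h)
  have h2 := Finset.eq_of_subset_of_card_le h1 hs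
  rw [← hA.2, ← hB.2, h2]

/-- Sylow conjugacy inside a subgroup. -/
lemma exists_conj_of_mem {Z : Subgroup G} {Q Q' : Sylow p G} (hQ : Q ∈ syl p Z)
    (hQ' : Q' ∈ syl p Z) : ∃ z ∈ Z, z • Q = Q' := by
  have hQ1 := mem_syl.mp hQ
  have hQ2 := mem_syl.mp hQ'
  obtain ⟨z, hz⟩ := MulAction.exists_smul_eq (↥Z) (Q.subtype hQ1) (Q'.subtype hQ2)
  refine ⟨z, z.2, ?_⟩
  rw [Sylow.smul_subtype] at hz
  exact Sylow.subtype_injective hz

/-- A `p`-subgroup normalizing a subgroup containing a Sylow subgroup lies in it. -/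
lemma le_of_le_normalizer {M R : Subgroup G} (hM : (syl p M).Nonempty) (hR : IsPGroup p R)
    (hRN : R ≤ Subgroup.normalizer (M : Set G)) : R ≤ M := by
  obtain ⟨P₀, hP₀⟩ := hM
  have hP₀M := mem_syl.mp hP₀
  set N := Subgroup.normalizer (M : Set G) with hN
  have hMN : M ≤ N := Subgroup.le_normalizer
  have hP₀N : (P₀ : Subgroup G) ≤ N := hP₀M.trans hMN
  have hRp : IsPGroup p (R.subgroupOf N) := hR.to_le (by
    intro x hx; exact hx) |>.of_injective (Subgroup.subgroupOfEquivOfLe hRN).toMonoidHom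
      (Subgroup.subgroupOfEquivOfLe hRN).injective
  obtain ⟨S₁, hS₁⟩ := hRp.exists_le_sylow
  obtain ⟨n, hn⟩ := MulAction.exists_smul_eq (↥N) (P₀.subtype hP₀N) S₁
  rw [Sylow.smul_subtype] at hn
  intro r hr
  have h1 : (⟨r, hRN hr⟩ : ↥N) ∈ (S₁ : Subgroup ↥N) := hS₁ (by simpa [Subgroup.mem_subgroupOf] using hr)
  rw [← hn, Sylow.coe_subtype, Subgroup.mem_subgroupOf] at h1
  have h2 : r ∈ ((n : G) • P₀ : Sylow p G) := h1
  have h3 : r ∈ cj (n : G) (P₀ : Subgroup G) := by
    rw [← coe_smul_sylow]; exact h2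
  have h4 : cj (n : G) (P₀ : Subgroup G) ≤ cj (n : G) M := cj_le_cj.mpr hP₀M
  have h5 := h4 h3
  rwa [cj_eq_of_mem_normalizer n.2] at h5

/-- `Z`-conjugates of `E`. -/
noncomputable def orb (Z E : Subgroup G) : Finset (Subgroup G) :=
  Finset.univ.filter (fun M => ∃ z ∈ Z, M = cj z E)

lemma mem_orb {Z E M : Subgroup G} : M ∈ orb Z E ↔ ∃ z ∈ Z, M = cj z E := by
  simp [orb]

lemma self_mem_orb (Z E : Subgroup G) : E ∈ orb Z E :=
  mem_orb.mpr ⟨1, Z.one_mem, (cj_one E).symm⟩

lemma cj_mem_orb {Z E M : Subgroup G} {z : G} (hz : z ∈ Z) (hM : M ∈ orb Z E) : cj z M ∈ orb Z E := by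
  obtain ⟨y, hy, rfl⟩ := mem_orb.mp hM
  exact mem_orb.mpr ⟨z * y, Z.mul_mem hz hy, (cj_mul z y E).symm⟩

lemma orb_eq_of_mem {Z E M : Subgroup G} (hM : M ∈ orb Z E) : orb Z M = orb Z E := by
  obtain ⟨y, hy, rfl⟩ := mem_orb.mp hM
  ext N
  simp only [mem_orb]
  constructor
  · rintro ⟨z, hz, rfl⟩
    exact ⟨z * y, Z.mul_mem hz hy, (cj_mul z y E).symm⟩
  · rintro ⟨z, hz, rfl⟩
    refine ⟨z * y⁻¹, Z.mul_mem hz (Z.inv_mem hy), ?_⟩
    rw [cj_mul, cj_inv_cj]

lemma orb_subset {Z Y E : Subgroup G} (h : Z ≤ Y) : orb Z E ⊆ orb Y E := fun M hM => by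
  obtain ⟨z, hz, rfl⟩ := mem_orb.mp hM
  exact mem_orb.mpr ⟨z, h hz, rfl⟩

lemma orb_nonempty (Z E : Subgroup G) : (orb Z E).Nonempty := ⟨E, self_mem_orb Z E⟩

/-- Counting lemma: for `Q` a Sylow subgroup in `Z`, the proportion of `Z`-conjugates of `E`
containing `Q` equals the proportion of Sylow subgroups of `Z` contained in `E`. -/
lemma dc {Z E : Subgroup G} {Q : Sylow p G} (hQ : Q ∈ syl p Z) :
    ((orb Z E).filter (fun M => (Q : Subgroup G) ≤ M)).card * s p Z =
      (orb Z E).card * (syl p Z ∩ syl p E).card := by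
  have key := Finset.sum_card_bipartiteAbove_eq_sum_card_bipartiteBelow (s := syl p Z) (t := orb Z E)
    (fun (Q' : Sylow p G) (M : Subgroup G) => (Q' : Subgroup G) ≤ M)
  have h1 : ∀ Q' ∈ syl p Z, ((orb Z E).bipartiteAbove
      (fun (Q' : Sylow p G) (M : Subgroup G) => (Q' : Subgroup G) ≤ M) Q').card =
      ((orb Z E).filter (fun M => (Q : Subgroup G) ≤ M)).card := by
    intro Q' hQ'
    obtain ⟨z, hz, rfl⟩ := exists_conj_of_mem hQ hQ'
    unfold Finset.bipartiteAbove
    refine Finset.card_nbij' (fun M => cj z⁻¹ M) (fun M => cj z M) ?_ ?_ ?_ ?_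
    · intro M hM
      have hM' := Finset.mem_filter.mp (Finset.mem_coe.mp hM)
      refine Finset.mem_coe.mpr (Finset.mem_filter.mpr ⟨cj_mem_orb (Z.inv_mem hz) hM'.1, ?_⟩)
      have : ((z • Q : Sylow p G) : Subgroup G) ≤ M := hM'.2
      rw [coe_smul_sylow] at this
      have h2 := (cj_le_cj (g := z⁻¹)).mpr this
      rwa [cj_inv_cj] at h2
    · intro M hM
      have hM' := Finset.mem_filter.mp (Finset.mem_coe.mp hM)
      refine Finset.mem_coe.mpr (Finset.mem_filter.mpr ⟨cj_mem_orb hz hM'.1, ?_⟩)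
      show ((z • Q : Sylow p G) : Subgroup G) ≤ cj z M
      rw [coe_smul_sylow]
      exact cj_le_cj.mpr hM'.2
    · intro M _; exact cj_cj_inv z M
    · intro M _; exact cj_inv_cj z M
  have h2 : ∀ M ∈ orb Z E, ((syl p Z).bipartiteBelow
      (fun (Q' : Sylow p G) (M : Subgroup G) => (Q' : Subgroup G) ≤ M) M).card =
      (syl p Z ∩ syl p E).card := by
    intro M hM
    obtain ⟨z, hz, rfl⟩ := mem_orb.mp hM
    unfold Finset.bipartiteBelow
    refine Finset.card_nbij' (fun Q' => z⁻¹ • Q') (fun Q' => z • Q') ?_ ?_ ?_ ?_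
    · intro Q' hQ'
      have hQ'' := Finset.mem_filter.mp (Finset.mem_coe.mp hQ')
      refine Finset.mem_coe.mpr (Finset.mem_inter.mpr ⟨?_, ?_⟩)
      · have := smul_mem_syl_cj (g := z⁻¹) hQ''.1
        rwa [cj_of_mem (Z.inv_mem hz)] at this
      · have := smul_mem_syl_cj (g := z⁻¹) (mem_syl.mpr hQ''.2)
        rwa [cj_inv_cj] at this
    · intro Q' hQ'
      have hQ'' := Finset.mem_inter.mp (Finset.mem_coe.mp hQ')
      refine Finset.mem_coe.mpr (Finset.mem_filter.mpr ⟨?_, ?_⟩)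
      · have := smul_mem_syl_cj (g := z) hQ''.1
        rwa [cj_of_mem hz] at this
      · show ((z • Q' : Sylow p G) : Subgroup G) ≤ cj z E
        rw [coe_smul_sylow]
        exact cj_le_cj.mpr (mem_syl.mp hQ''.2)
    · intro Q' _; simp
    · intro Q' _; simp
  rw [Finset.sum_congr rfl h1, Finset.sum_congr rfl h2, Finset.sum_const, Finset.sum_const,
    smul_eq_mul, smul_eq_mul] at key
  unfold s
  rw [mul_comm, key]

/-- Weight of a subgroup relative to a Sylow subgroup `Q`. -/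
noncomputable def wt (Q : Sylow p G) (M : Subgroup G) : ℤ :=
  if (Q : Subgroup G) ≤ M then -(p : ℤ) else (p : ℤ) - 1

/-- Total weight of a family. -/
noncomputable def wsum (Q : Sylow p G) (S : Finset (Subgroup G)) : ℤ := ∑ M ∈ S, wt Q M

lemma wsum_eq (Q : Sylow p G) (S : Finset (Subgroup G)) :
    wsum Q S = ((p : ℤ) - 1) * S.card -
      (2 * (p : ℤ) - 1) * (S.filter (fun M => (Q : Subgroup G) ≤ M)).card := by
  unfold wsum wt
  rw [Finset.sum_ite, Finset.sum_const, Finset.sum_const, nsmul_eq_mul, nsmul_eq_mul]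
  have h := Finset.card_filter_add_card_filter_not (s := S) (fun M => (Q : Subgroup G) ≤ M)
  have h' : (S.card : ℤ) = ((S.filter (fun M => (Q : Subgroup G) ≤ M)).card : ℤ) +
      ((S.filter (fun M => ¬ (Q : Subgroup G) ≤ M)).card : ℤ) := by exact_mod_cast h.symm
  rw [h']; ring

lemma wsum_union (Q : Sylow p G) {S S' : Finset (Subgroup G)} (h : Disjoint S S') :
    wsum Q (S ∪ S') = wsum Q S + wsum Q S' := Finset.sum_union h

lemma wsum_orb_mul {Z : Subgroup G} {Q : Sylow p G} (hQ : Q ∈ syl p Z) (E : Subgroup G) :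
    wsum Q (orb Z E) * s p Z = (orb Z E).card *
      (((p : ℤ) - 1) * s p Z - (2 * (p : ℤ) - 1) * (syl p Z ∩ syl p E).card) := by
  have h := dc (E := E) hQ
  have h' : (((orb Z E).filter (fun M => (Q : Subgroup G) ≤ M)).card : ℤ) * (s p Z : ℤ) =
      ((orb Z E).card : ℤ) * ((syl p Z ∩ syl p E).card : ℤ) := by exact_mod_cast h
  rw [wsum_eq]
  linear_combination (-(2 * (p : ℤ) - 1)) * h'

lemma s_pos {Z : Subgroup G} (h : (syl p Z).Nonempty) : 0 < s p Z := Finset.card_pos.mpr h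

lemma p_ge : 2 ≤ p := (Fact.out : p.Prime).two_le

/-- The common part of two subgroups generated by Sylow subgroups. -/
noncomputable def core (Z M : Subgroup G) : Subgroup G := gen (syl p Z ∩ syl p M)

lemma core_le_left (Z M : Subgroup G) : core (p := p) Z M ≤ Z :=
  gen_le fun _ hQ => mem_syl.mp (Finset.mem_inter.mp hQ).1

lemma core_le_right (Z M : Subgroup G) : core (p := p) Z M ≤ M :=
  gen_le fun _ hQ => mem_syl.mp (Finset.mem_inter.mp hQ).2

lemma syl_core (Z M : Subgroup G) : syl p (core (p := p) Z M) = syl p Z ∩ syl p M := by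
  ext Q
  constructor
  · intro hQ
    exact Finset.mem_inter.mpr ⟨mem_syl.mpr ((mem_syl.mp hQ).trans (core_le_left Z M)),
      mem_syl.mpr ((mem_syl.mp hQ).trans (core_le_right Z M))⟩
  · intro hQ
    exact mem_syl.mpr (le_gen hQ)

lemma full_core {Z M : Subgroup G} (h : (syl p Z ∩ syl p M).Nonempty) : Full p (core (p := p) Z M) := by
  refine ⟨by rw [syl_core]; exact h, ?_⟩
  rw [syl_core]; rfl

lemma syl_inter_cj {Z M : Subgroup G} {z : G} (hz : z ∈ Z) {Q : Sylow p G} :
    Q ∈ syl p Z ∩ syl p (cj z M) ↔ z⁻¹ • Q ∈ syl p Z ∩ syl p M := by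
  constructor
  · intro h
    obtain ⟨h1, h2⟩ := Finset.mem_inter.mp h
    refine Finset.mem_inter.mpr ⟨?_, ?_⟩
    · have := smul_mem_syl_cj (g := z⁻¹) h1
      rwa [cj_of_mem (Z.inv_mem hz)] at this
    · have := smul_mem_syl_cj (g := z⁻¹) h2
      rwa [cj_inv_cj] at this
  · intro h
    obtain ⟨h1, h2⟩ := Finset.mem_inter.mp h
    refine Finset.mem_inter.mpr ⟨?_, ?_⟩
    · have := smul_mem_syl_cj (g := z) h1
      rwa [cj_of_mem hz, smul_inv_smul] at this
    · have := smul_mem_syl_cj (g := z) h2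
      rwa [smul_inv_smul] at this

lemma core_cj {Z M : Subgroup G} {z : G} (hz : z ∈ Z) :
    core (p := p) Z (cj z M) = cj z (core (p := p) Z M) := by
  apply le_antisymm
  · refine gen_le fun Q hQ => ?_
    have h1 := (syl_inter_cj hz).mp hQ
    have h2 : ((z⁻¹ • Q : Sylow p G) : Subgroup G) ≤ core (p := p) Z M := le_gen h1
    rw [coe_smul_sylow] at h2
    have h3 := (cj_le_cj (g := z)).mpr h2
    rwa [cj_cj_inv] at h3
  · have : core (p := p) Z M ≤ cj z⁻¹ (core (p := p) Z (cj z M)) := by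
      refine gen_le fun Q hQ => ?_
      have h1 : z • Q ∈ syl p Z ∩ syl p (cj z M) := by
        rw [syl_inter_cj hz, inv_smul_smul]; exact hQ
      have h2 : ((z • Q : Sylow p G) : Subgroup G) ≤ core (p := p) Z (cj z M) := le_gen h1
      rw [coe_smul_sylow] at h2
      have h3 := (cj_le_cj (g := z⁻¹)).mpr h2
      rwa [cj_inv_cj] at h3
    have h3 := (cj_le_cj (g := z)).mpr this
    rwa [cj_cj_inv] at h3

/-- The bound to be proved, for a fixed overgroup `Y`. -/
def T (p : ℕ) [Fact p.Prime] (Y : Subgroup G) : Prop :=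
  ∀ R, Full p R → R < Y → (2 * (p : ℤ) - 1) * (s p R : ℤ) ≤ ((p : ℤ) - 1) * (s p Y : ℤ)

/-- If `Q` is a Sylow subgroup of `Z` and `Q ≤ M'`, then the orbit of `M'` under `Z` has
nonnegative weight. -/
lemma wsum_orb_nonneg {Z M : Subgroup G} {Q : Sylow p G} (hZ : Full p Z) (hT : T p Z)
    (hQ : Q ∈ syl p Z) (hM : Full p M) (hne : ¬ Z ≤ M) : 0 ≤ wsum Q (orb Z M) := by
  have hp : (2 : ℤ) ≤ (p : ℤ) := by exact_mod_cast p_ge (p := p)
  by_cases hex : ∃ M' ∈ orb Z M, (Q : Subgroup G) ≤ M'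
  · obtain ⟨M', hM', hQM'⟩ := hex
    obtain ⟨z, hz, rfl⟩ := mem_orb.mp hM'
    have hint : (syl p Z ∩ syl p M).Nonempty := by
      refine ⟨z⁻¹ • Q, (syl_inter_cj hz).mp (Finset.mem_inter.mpr ⟨hQ, mem_syl.mpr hQM'⟩)⟩
    have hfull := full_core hint
    have hlt : core (p := p) Z M < Z := by
      refine lt_of_le_of_ne (core_le_left Z M) ?_
      intro h
      apply hne
      rw [← h]
      exact core_le_right Z M
    have h1 := hT _ hfull hlt
    have hscore : (s p (core (p := p) Z M) : ℤ) = ((syl p Z ∩ syl p M).card : ℤ) := by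
      unfold s; rw [syl_core]
    rw [hscore] at h1
    have h2 := wsum_orb_mul hQ M
    have hspos : (0 : ℤ) < (s p Z : ℤ) := by exact_mod_cast s_pos hZ.1
    have h3 : 0 ≤ wsum Q (orb Z M) * (s p Z : ℤ) := by
      rw [h2]
      exact mul_nonneg (by positivity) (by linarith)
    exact nonneg_of_mul_nonneg_left h3 hspos
  · push Not at hex
    have : wsum Q (orb Z M) = ((p : ℤ) - 1) * (orb Z M).card := by
      unfold wsum
      rw [Finset.sum_congr rfl (g := fun _ => (p : ℤ) - 1)]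
      · rw [Finset.sum_const, nsmul_eq_mul, mul_comm]
      · intro N hN
        simp [wt, hex N hN]
    rw [this]
    exact mul_nonneg (by linarith) (by positivity)

/-- Invariant families of subgroups not above `Z` have nonnegative weight. -/
lemma wsum_inv_nonneg {Z : Subgroup G} {Q : Sylow p G} (hZ : Full p Z) (hT : T p Z)
    (hQ : Q ∈ syl p Z) : ∀ (n : ℕ) (B : Finset (Subgroup G)), B.card = n →
      (∀ M ∈ B, ∀ z ∈ Z, cj z M ∈ B) → (∀ M ∈ B, Full p M ∧ ¬ Z ≤ M) → 0 ≤ wsum Q B := by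
  intro n
  induction n using Nat.strong_induction_on with
  | _ n ih =>
    intro B hB hinv hfull
    rcases B.eq_empty_or_nonempty with rfl | ⟨M, hM⟩
    · simp [wsum]
    · have hsub : orb Z M ⊆ B := by
        intro N hN
        obtain ⟨z, hz, rfl⟩ := mem_orb.mp hN
        exact hinv M hM z hz
      have hsplit : B = orb Z M ∪ (B \ orb Z M) := (Finset.union_sdiff_of_subset hsub).symm
      have hdisj : Disjoint (orb Z M) (B \ orb Z M) := Finset.disjoint_sdiff
      rw [hsplit, wsum_union _ hdisj]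
      have h1 := wsum_orb_nonneg hZ hT hQ (hfull M hM).1 (hfull M hM).2
      have hcard : (B \ orb Z M).card < n := by
        rw [← hB]
        apply Finset.card_lt_card
        refine ⟨Finset.sdiff_subset, fun h => ?_⟩
        have := h hM
        exact (Finset.mem_sdiff.mp this).2 (self_mem_orb Z M)
      have h2 := ih _ hcard (B \ orb Z M) rfl ?_ ?_
      · linarith
      · intro N hN z hz
        obtain ⟨hN1, hN2⟩ := Finset.mem_sdiff.mp hN
        refine Finset.mem_sdiff.mpr ⟨hinv N hN1 z hz, fun h3 => hN2 ?_⟩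
        have := cj_mem_orb (Z.inv_mem hz) h3
        rwa [cj_inv_cj] at this
      · intro N hN
        exact hfull N (Finset.mem_sdiff.mp hN).1

/-- Divisibility: a family invariant under `Q` none of whose members contains `Q` has size
divisible by `p`. -/
lemma p_dvd_card {S : Finset (Subgroup G)} {Q : Sylow p G}
    (hinv : ∀ q ∈ (Q : Subgroup G), ∀ M ∈ S, cj q M ∈ S)
    (hfull : ∀ M ∈ S, (syl p M).Nonempty) (hno : ∀ M ∈ S, ¬ (Q : Subgroup G) ≤ M) : p ∣ S.card := by
  letI : MulAction (↥(Q : Subgroup G)) (↥S) :=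
    { smul := fun q M => ⟨cj (q : G) M.1, hinv q q.2 M.1 M.2⟩
      one_smul := fun M => Subtype.ext (cj_one M.1)
      mul_smul := fun a b M => Subtype.ext (cj_mul (a : G) (b : G) M.1) }
  have hp : IsPGroup p (↥(Q : Subgroup G)) := Q.isPGroup'
  have h := hp.card_modEq_card_fixedPoints (↥S)
  have hfix : IsEmpty (MulAction.fixedPoints (↥(Q : Subgroup G)) (↥S)) := by
    constructor
    rintro ⟨M, hM⟩
    refine hno M.1 M.2 (le_of_le_normalizer (hfull M.1 M.2) Q.isPGroup' ?_)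
    intro q hq
    refine mem_normalizer_of_cj_eq ?_
    have := hM ⟨q, hq⟩
    exact congrArg Subtype.val this
  have h0 : Nat.card (MulAction.fixedPoints (↥(Q : Subgroup G)) (↥S)) = 0 := Nat.card_of_isEmpty
  rw [h0] at h
  have h2 : Nat.card (↥S) = S.card := by simp
  rw [h2] at h
  exact (Nat.modEq_zero_iff_dvd).mp h

lemma wsum_of_no {S : Finset (Subgroup G)} {Q : Sylow p G} (h : ∀ M ∈ S, ¬ (Q : Subgroup G) ≤ M) :
    wsum Q S = ((p : ℤ) - 1) * S.card := by
  unfold wsum
  rw [Finset.sum_congr rfl (g := fun _ => (p : ℤ) - 1)]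
  · rw [Finset.sum_const, nsmul_eq_mul, mul_comm]
  · intro N hN
    simp [wt, h N hN]

/-- Passing from a `Y`-orbit to a `Z`-orbit costs at most `p`. -/
lemma step_bound {Y Z E : Subgroup G} {Q : Sylow p G} (hZY : Z ≤ Y) (hQ : Q ∈ syl p Z)
    (hZ : Full p Z) (hT : T p Z) (hfull : ∀ M ∈ orb Y E, Full p M)
    (hmax : ∀ M ∈ orb Y E, Z ≤ M → M = Z) :
    wsum Q (orb Z E) ≤ wsum Q (orb Y E) + p := by
  have hp : (0 : ℤ) ≤ (p : ℤ) := by positivity
  set A := orb Y E \ orb Z E with hA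
  have h1 : orb Y E = orb Z E ∪ A := (Finset.union_sdiff_of_subset (orb_subset hZY)).symm
  have h2 : wsum Q (orb Y E) = wsum Q (orb Z E) + wsum Q A := by
    conv_lhs => rw [h1]
    exact wsum_union _ Finset.disjoint_sdiff
  set B := A.erase Z with hB
  have hBnn : 0 ≤ wsum Q B := by
    refine wsum_inv_nonneg hZ hT hQ _ B rfl ?_ ?_
    · intro M hM z hz
      obtain ⟨hMZ, hMA⟩ := Finset.mem_erase.mp hM
      obtain ⟨hMY, hMn⟩ := Finset.mem_sdiff.mp hMA
      refine Finset.mem_erase.mpr ⟨?_, Finset.mem_sdiff.mpr ⟨cj_mem_orb (hZY hz) hMY, ?_⟩⟩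
      · intro h
        apply hMZ
        have := cj_inv_cj z M
        rw [h, cj_of_mem (Z.inv_mem hz)] at this
        exact this.symm
      · intro h
        apply hMn
        have := cj_mem_orb (Z.inv_mem hz) h
        rwa [cj_inv_cj] at this
    · intro M hM
      obtain ⟨hMZ, hMA⟩ := Finset.mem_erase.mp hM
      obtain ⟨hMY, _⟩ := Finset.mem_sdiff.mp hMA
      exact ⟨hfull M hMY, fun h => hMZ (hmax M hMY h)⟩
  have h3 : - (p : ℤ) + wsum Q B ≤ wsum Q A := by
    by_cases hZA : Z ∈ A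
    · have hAB : A = insert Z B := (Finset.insert_erase hZA).symm
      have h4 : wsum Q A = wt Q Z + wsum Q B := by
        rw [hAB]
        unfold wsum
        rw [Finset.sum_insert (Finset.notMem_erase Z A)]
      have h5 : wt Q Z = -(p : ℤ) := by
        simp [wt, mem_syl.mp hQ]
      rw [h4, h5]
    · have hBA : B = A := Finset.erase_eq_of_notMem hZA
      rw [hBA]; linarith
  linarith

/-- A Sylow subgroup fixing no member of an orbit forces a large weight. -/
lemma exists_fixed {Z E : Subgroup G} {Q : Sylow p G} (hQ : Q ∈ syl p Z)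
    (hbd : wsum Q (orb Z E) < (p : ℤ) * ((p : ℤ) - 1))
    (hfull : ∀ M ∈ orb Z E, (syl p M).Nonempty) :
    ∃ M ∈ orb Z E, (Q : Subgroup G) ≤ M := by
  by_contra hno
  push Not at hno
  have hd : p ∣ (orb Z E).card :=
    p_dvd_card (Q := Q) (fun q hq M hM => cj_mem_orb (mem_syl.mp hQ hq) hM) hfull hno
  have hpos : 0 < (orb Z E).card := Finset.card_pos.mpr (orb_nonempty Z E)
  have hle : p ≤ (orb Z E).card := Nat.le_of_dvd hpos hd
  have h1 := wsum_of_no hno
  have hp : (2 : ℤ) ≤ (p : ℤ) := by exact_mod_cast p_ge (p := p)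
  have hle' : (p : ℤ) ≤ ((orb Z E).card : ℤ) := by exact_mod_cast hle
  rw [h1] at hbd
  nlinarith

/-- Weight of the orbit of the core. -/
lemma next_level {Z E : Subgroup G} {Q : Sylow p G} (hZ : Full p Z) (hT : T p Z) (hQ : Q ∈ syl p Z)
    (hW : Full p (core (p := p) Z E)) (hlt : core (p := p) Z E < Z) :
    wsum Q (orb Z (core (p := p) Z E)) ≤ wsum Q (orb Z E) := by
  have h1 := wsum_orb_mul hQ (core (p := p) Z E)
  have h2 := wsum_orb_mul hQ E
  have hs : syl p (core (p := p) Z E) = syl p Z ∩ syl p E := syl_core Z E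
  have hWZ : syl p Z ∩ syl p (core (p := p) Z E) = syl p Z ∩ syl p E := by
    rw [hs, ← Finset.inter_assoc, Finset.inter_self]
  have hT' := hT _ hW hlt
  have hscore : (s p (core (p := p) Z E) : ℤ) = ((syl p Z ∩ syl p E).card : ℤ) := by
    unfold s; rw [hs]
  rw [hscore] at hT'
  have hcard : (orb Z (core (p := p) Z E)).card ≤ (orb Z E).card := by
    have hsub : orb Z (core (p := p) Z E) ⊆ (orb Z E).image (core (p := p) Z) := by
      intro N hN
      obtain ⟨z, hz, rfl⟩ := mem_orb.mp hN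
      exact Finset.mem_image.mpr ⟨cj z E, mem_orb.mpr ⟨z, hz, rfl⟩, core_cj hz⟩
    exact (Finset.card_le_card hsub).trans Finset.card_image_le
  have hspos : (0 : ℤ) < (s p Z : ℤ) := by exact_mod_cast s_pos hZ.1
  have h3 : wsum Q (orb Z (core (p := p) Z E)) * (s p Z : ℤ) ≤ wsum Q (orb Z E) * (s p Z : ℤ) := by
    rw [h1, h2, hWZ]
    refine mul_le_mul_of_nonneg_right (by exact_mod_cast hcard) (by linarith)
  exact le_of_mul_le_mul_right h3 hspos

/-- A budget for the members of a family of proper subgroups yields a common Sylow subgroup. -/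
lemma common_sylow : ∀ (m : ℕ) (Y : Subgroup G) (F : Finset (Subgroup G)), F.card = m + 1 →
    (∀ Y', Y' < Y → Full p Y' → T p Y') →
    (∀ E ∈ F, Full p E ∧ E < Y) →
    (∀ E ∈ F, ∀ Q ∈ syl p Y, wsum Q (orb Y E) + (m : ℤ) * (p : ℤ) < (p : ℤ) * ((p : ℤ) - 1)) →
    ∃ Q : Sylow p G, ∀ E ∈ F, (Q : Subgroup G) ≤ E := by
  intro m
  induction m using Nat.strong_induction_on with
  | _ m ih =>
    intro Y F hcard hIH hE hbd
    have hne : F.Nonempty := Finset.card_pos.mp (by omega)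
    obtain ⟨Z, hZF, hZmax⟩ := Finset.exists_max_image F (s p) hne
    obtain ⟨hZfull, hZlt⟩ := hE Z hZF
    have hTZ := hIH Z hZlt hZfull
    rcases Nat.eq_zero_or_pos m with rfl | hm
    · obtain ⟨Q, hQ⟩ := hZfull.1
      refine ⟨Q, fun E hE' => ?_⟩
      have : E = Z := Finset.card_le_one.mp (by omega) E hE' Z hZF
      rw [this]; exact mem_syl.mp hQ
    · set F' := F.erase Z with hF'
      have hF'card : F'.card = m := by rw [Finset.card_erase_of_mem hZF]; omega
      have hF'ne : F'.Nonempty := Finset.card_pos.mp (by omega)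
      have hF'sub : ∀ {E}, E ∈ F' → E ∈ F := fun h => Finset.mem_of_mem_erase h
      have hZsyl : ∀ {Q : Sylow p G}, Q ∈ syl p Z → Q ∈ syl p Y := fun h =>
        mem_syl.mpr ((mem_syl.mp h).trans hZlt.le)
      -- members of the `Y`-orbit of `E`
      have horbfull : ∀ E ∈ F', ∀ M ∈ orb Y E, Full p M := by
        intro E hEF M hM
        obtain ⟨y, _, rfl⟩ := mem_orb.mp hM
        exact (hE E (hF'sub hEF)).1.cj y
      have horbmax : ∀ E ∈ F', ∀ M ∈ orb Y E, Z ≤ M → M = Z := by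
        intro E hEF M hM hZM
        obtain ⟨y, _, rfl⟩ := mem_orb.mp hM
        refine (Full.eq_of_le hZfull ((hE E (hF'sub hEF)).1.cj y) hZM ?_).symm
        rw [s_cj]
        exact hZmax E (hF'sub hEF)
      have hstep : ∀ E ∈ F', ∀ Q ∈ syl p Z,
          wsum Q (orb Z E) + ((m : ℤ) - 1) * (p : ℤ) < (p : ℤ) * ((p : ℤ) - 1) := by
        intro E hEF Q hQ
        have h1 := step_bound hZlt.le hQ hZfull hTZ (horbfull E hEF) (horbmax E hEF)
        have h2 := hbd E (hF'sub hEF) Q (hZsyl hQ)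
        linarith
      have hcore : ∀ E ∈ F', Full p (core (p := p) Z E) ∧ core (p := p) Z E < Z := by
        intro E hEF
        obtain ⟨Q, hQ⟩ := hZfull.1
        have h1 := hstep E hEF Q hQ
        have hm1 : (1 : ℤ) ≤ (m : ℤ) := by exact_mod_cast hm
        have hp0 : (0 : ℤ) ≤ (p : ℤ) := by positivity
        have h2 : wsum Q (orb Z E) < (p : ℤ) * ((p : ℤ) - 1) := by
          have : 0 ≤ ((m : ℤ) - 1) * (p : ℤ) := mul_nonneg (by linarith) hp0
          linarith
        obtain ⟨M, hM, hQM⟩ := exists_fixed hQ h2 (fun M hM => by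
          obtain ⟨z, _, rfl⟩ := mem_orb.mp hM
          exact ((hE E (hF'sub hEF)).1.cj z).1)
        obtain ⟨z, hz, rfl⟩ := mem_orb.mp hM
        have hint : (syl p Z ∩ syl p E).Nonempty :=
          ⟨z⁻¹ • Q, (syl_inter_cj hz).mp (Finset.mem_inter.mpr ⟨hQ, mem_syl.mpr hQM⟩)⟩
        refine ⟨full_core hint, lt_of_le_of_ne (core_le_left Z E) fun h => ?_⟩
        have hZE : Z ≤ E := by rw [← h]; exact core_le_right Z E
        have hEq := Full.eq_of_le hZfull (hE E (hF'sub hEF)).1 hZE (hZmax E (hF'sub hEF))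
        exact (Finset.mem_erase.mp hEF).1 hEq.symm
      set F'' := F'.image (core (p := p) Z) with hF''
      have hne'' : F''.Nonempty := hF'ne.image _
      obtain ⟨m', hm'⟩ : ∃ m', F''.card = m' + 1 :=
        ⟨F''.card - 1, by have := Finset.card_pos.mpr hne''; omega⟩
      have hm'le : m' + 1 ≤ m := by
        have : F''.card ≤ F'.card := Finset.card_image_le
        omega
      obtain ⟨Q₁, hQ₁⟩ := ih m' (by omega) Z F'' hm' (fun Y' h => hIH Y' (h.trans hZlt)) (by
        intro W hW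
        obtain ⟨E, hEF, rfl⟩ := Finset.mem_image.mp hW
        exact hcore E hEF) (by
        intro W hW Q hQ
        obtain ⟨E, hEF, rfl⟩ := Finset.mem_image.mp hW
        have h1 := next_level hZfull hTZ hQ (hcore E hEF).1 (hcore E hEF).2
        have h2 := hstep E hEF Q hQ
        have hm'' : ((m' : ℤ) + 1) ≤ (m : ℤ) := by exact_mod_cast hm'le
        have hp0 : (0 : ℤ) ≤ (p : ℤ) := by positivity
        have h3 : (m' : ℤ) * (p : ℤ) ≤ ((m : ℤ) - 1) * (p : ℤ) :=
          mul_le_mul_of_nonneg_right (by linarith) hp0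
        linarith)
      obtain ⟨E₀, hE₀⟩ := hF'ne
      refine ⟨Q₁, fun E hEF => ?_⟩
      by_cases hEZ : E = Z
      · rw [hEZ]
        exact (hQ₁ _ (Finset.mem_image_of_mem _ hE₀)).trans (core_le_left Z E₀)
      · exact (hQ₁ _ (Finset.mem_image_of_mem _ (Finset.mem_erase.mpr ⟨hEZ, hEF⟩))).trans
          (core_le_right Z E)

lemma exists_sqrt_elt {g : G} {N : Subgroup G} (hg : g ∉ N) {k : ℕ} (hk : g ^ (p ^ k) ∈ N) :
    ∃ n, g ^ (p ^ n) ∉ N ∧ (g ^ (p ^ n)) ^ p ∈ N := by
  have hex : ∃ k, g ^ (p ^ k) ∈ N := ⟨k, hk⟩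
  have hn0 := Nat.find_spec hex
  have hmin := fun m => Nat.find_min hex (m := m)
  obtain ⟨n, hn⟩ : ∃ n, Nat.find hex = n + 1 := by
    apply Nat.exists_eq_succ_of_ne_zero
    intro h
    rw [h] at hn0
    simp only [pow_zero, pow_one] at hn0
    exact hg hn0
  refine ⟨n, hmin n (by omega), ?_⟩
  rw [hn] at hn0
  rwa [← pow_mul, ← pow_succ]

lemma mem_of_pow_mem_of_coprime {N : Subgroup G} {y : G} {a b : ℕ} (h : Nat.Coprime a b)
    (ha : y ^ a ∈ N) (hb : y ^ b ∈ N) : y ∈ N := by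
  obtain ⟨u, v, huv⟩ := Nat.isCoprime_iff_coprime.mpr h
  have hy : y = (y ^ a) ^ u * (y ^ b) ^ v := by
    rw [← zpow_natCast, ← zpow_natCast, ← zpow_mul, ← zpow_mul, ← zpow_add, mul_comm (a : ℤ),
      mul_comm (b : ℤ), huv, zpow_one]
  rw [hy]
  exact N.mul_mem (N.zpow_mem ha u) (N.zpow_mem hb v)

/-- The main induction. -/
lemma T_of_full (Y : Subgroup G) : Full p Y → T p Y := by
  induction Y using WellFoundedLT.induction with
  | _ Y ih =>
  intro hY R hR hRY
  by_contra hcon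
  push Not at hcon
  set XX : Finset (Subgroup G) := Finset.univ.filter (fun X => Full p X ∧ X < Y) with hXX
  have hRmem : R ∈ XX := by simp [hXX, hR, hRY]
  obtain ⟨X, hXmem, hXmax⟩ := Finset.exists_max_image XX (s p) ⟨R, hRmem⟩
  obtain ⟨hXfull, hXlt⟩ := (Finset.mem_filter.mp hXmem).2
  have hsX : (s p R : ℤ) ≤ (s p X : ℤ) := by exact_mod_cast hXmax R hRmem
  have hp : (2 : ℤ) ≤ (p : ℤ) := by exact_mod_cast p_ge (p := p)
  -- negativity of the weight
  have hneg : ∀ Q ∈ syl p Y, wsum Q (orb Y X) < 0 := by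
    intro Q hQ
    have h1 := wsum_orb_mul hQ X
    have h2 : syl p Y ∩ syl p X = syl p X :=
      Finset.inter_eq_right.mpr fun Q hQ => mem_syl.mpr ((mem_syl.mp hQ).trans hXlt.le)
    rw [h2] at h1
    have h3 : ((syl p X).card : ℤ) = (s p X : ℤ) := rfl
    rw [h3] at h1
    have hspos : (0 : ℤ) < (s p Y : ℤ) := by exact_mod_cast s_pos hY.1
    have hcpos : (0 : ℤ) < ((orb Y X).card : ℤ) := by
      exact_mod_cast Finset.card_pos.mpr (orb_nonempty Y X)
    have h4 : (2 * (p : ℤ) - 1) * (s p R : ℤ) ≤ (2 * (p : ℤ) - 1) * (s p X : ℤ) :=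
      mul_le_mul_of_nonneg_left hsX (by linarith)
    have h5 : wsum Q (orb Y X) * (s p Y : ℤ) < 0 := by
      rw [h1]
      exact mul_neg_of_pos_of_neg hcpos (by linarith)
    by_contra h6
    push Not at h6
    have := mul_nonneg h6 hspos.le
    linarith
  -- a `p`-element moving `X`
  have hnorm : ∃ Q' ∈ syl p Y, ¬ (Q' : Subgroup G) ≤ Subgroup.normalizer (X : Set G) := by
    by_contra hno
    push Not at hno
    have h1 : Y ≤ X := by
      rw [← hY.2]
      exact gen_le fun Q hQ => le_of_le_normalizer hXfull.1 Q.isPGroup' (hno Q hQ)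
    exact absurd h1 (not_le_of_gt hXlt)
  obtain ⟨Q', hQ'Y, hQ'N⟩ := hnorm
  obtain ⟨g, hgQ', hgN⟩ := SetLike.not_le_iff_exists.mp hQ'N
  obtain ⟨k, hk⟩ : ∃ k, g ^ (p ^ k) = 1 := by
    obtain ⟨k, hk⟩ := (IsPGroup.iff_orderOf.mp Q'.isPGroup') ⟨g, hgQ'⟩
    refine ⟨k, ?_⟩
    have h1 := pow_orderOf_eq_one (⟨g, hgQ'⟩ : ↥(Q' : Subgroup G))
    rw [hk] at h1
    simpa using congrArg Subtype.val h1
  obtain ⟨n, hyN, hypN⟩ := exists_sqrt_elt (p := p) hgN (k := k)
    (by rw [hk]; exact Subgroup.one_mem _)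
  set y := g ^ (p ^ n) with hy
  have hyQ' : y ∈ (Q' : Subgroup G) := Subgroup.pow_mem _ hgQ' _
  have hyY : y ∈ Y := mem_syl.mp hQ'Y hyQ'
  -- the family of conjugates
  set N := Subgroup.normalizer (X : Set G) with hN
  have hinj : Set.InjOn (fun i : ℕ => cj (y ^ i) X) (Finset.range p : Set ℕ) := by
    have key : ∀ i j : ℕ, i < j → j < p → cj (y ^ i) X ≠ cj (y ^ j) X := by
      intro i j hij hjp h
      have h1 : cj (y ^ (j - i)) X = X := by
        have h2 : y ^ j = y ^ i * y ^ (j - i) := by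
          rw [← pow_add]; congr 1; omega
        rw [h2, cj_mul] at h
        exact (cj_injective _ h).symm
      have h2 : y ^ (j - i) ∈ N := mem_normalizer_of_cj_eq h1
      have hcop : Nat.Coprime (j - i) p := by
        rw [Nat.coprime_comm]
        exact (Nat.Prime.coprime_iff_not_dvd Fact.out).mpr
          (Nat.not_dvd_of_pos_of_lt (by omega) (by omega))
      exact hyN (mem_of_pow_mem_of_coprime hcop h2 hypN)
    intro i hi j hj h
    have hi' := Finset.mem_range.mp (Finset.mem_coe.mp hi)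
    have hj' := Finset.mem_range.mp (Finset.mem_coe.mp hj)
    rcases lt_trichotomy i j with hij | hij | hij
    · exact absurd h (key i j hij hj')
    · exact hij
    · exact absurd h.symm (key j i hij hi')
  set F := (Finset.range p).image (fun i : ℕ => cj (y ^ i) X) with hF
  have hFcard : F.card = (p - 1) + 1 := by
    rw [hF, Finset.card_image_of_injOn hinj, Finset.card_range]
    have := p_ge (p := p)
    omega
  have hFmem : ∀ E ∈ F, Full p E ∧ E < Y ∧ orb Y E = orb Y X := by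
    intro E hE
    obtain ⟨i, _, rfl⟩ := Finset.mem_image.mp hE
    have hyi : y ^ i ∈ Y := Y.pow_mem hyY i
    refine ⟨hXfull.cj _, ?_, orb_eq_of_mem (mem_orb.mpr ⟨y ^ i, hyi, rfl⟩)⟩
    have h1 : cj (y ^ i) X < cj (y ^ i) Y := by
      refine lt_of_le_of_ne (cj_le_cj.mpr hXlt.le) fun h => ?_
      exact hXlt.ne (cj_injective _ h)
    rwa [cj_of_mem hyi] at h1
  obtain ⟨Q, hQ⟩ := common_sylow (p - 1) Y F hFcard (fun Y' h h' => ih Y' h h')
    (fun E hE => ⟨(hFmem E hE).1, (hFmem E hE).2.1⟩) (by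
      intro E hE Q hQ
      rw [(hFmem E hE).2.2]
      have h1 := hneg Q hQ
      have h2 : ((p - 1 : ℕ) : ℤ) = (p : ℤ) - 1 := by
        rw [Nat.cast_sub (p_ge (p := p) |>.trans' (by norm_num))]; simp
      rw [h2]
      linarith)
  -- all conjugates by powers of `y`
  have hall : ∀ i : ℕ, (Q : Subgroup G) ≤ cj (y ^ i) X := by
    intro i
    have hpos : 0 < p := by have := p_ge (p := p); omega
    have h1 := hQ _ (Finset.mem_image_of_mem _ (Finset.mem_range.mpr (Nat.mod_lt i hpos)))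
    have h2 : cj (y ^ i) X = cj (y ^ (i % p)) X := by
      conv_lhs => rw [← Nat.mod_add_div i p, pow_add, cj_mul, pow_mul]
      rw [cj_eq_of_mem_normalizer (N.pow_mem hypN _)]
    rw [h2]
    exact h1
  -- the join of the conjugates of `Q`
  have hoy : ∀ g ∈ Subgroup.zpowers y, ∃ i : ℕ, g = y ^ i := by
    intro g hg
    obtain ⟨i, hi⟩ := Submonoid.mem_powers_iff _ _ |>.mp (mem_powers_iff_mem_zpowers.mpr hg)
    exact ⟨i, hi.symm⟩
  set U : Subgroup G := ⨆ i : ℕ, cj (y ^ i) (Q : Subgroup G) with hU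
  have hUX : U ≤ X := by
    refine iSup_le fun i => ?_
    obtain ⟨j, hj⟩ := hoy (y ^ i)⁻¹ (Subgroup.inv_mem _ (Subgroup.npow_mem_zpowers y i))
    have h1 := hall j
    rw [← hj] at h1
    have h2 := (cj_le_cj (g := y ^ i)).mpr h1
    rwa [cj_cj_inv] at h2
  have hQU : (Q : Subgroup G) ≤ U := by
    have : cj (y ^ 0) (Q : Subgroup G) ≤ U := le_iSup (fun i : ℕ => cj (y ^ i) (Q : Subgroup G)) 0
    simpa [cj_one] using this
  have hcjU : ∀ i : ℕ, cj (y ^ i) U ≤ U := by
    intro i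
    have : U ≤ cj (y ^ i)⁻¹ U := by
      refine iSup_le fun j => ?_
      have h1 : cj (y ^ (i + j)) (Q : Subgroup G) ≤ U :=
        le_iSup (fun i : ℕ => cj (y ^ i) (Q : Subgroup G)) (i + j)
      rw [pow_add, cj_mul] at h1
      have h2 := (cj_le_cj (g := (y ^ i)⁻¹)).mpr h1
      rwa [cj_inv_cj] at h2
    have h2 := (cj_le_cj (g := y ^ i)).mpr this
    rwa [cj_cj_inv] at h2
  have hyNU : Subgroup.zpowers y ≤ Subgroup.normalizer (U : Set G) := by
    intro g hg
    obtain ⟨i, rfl⟩ := hoy g hg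
    refine mem_normalizer_of_cj_eq (le_antisymm (hcjU i) ?_)
    obtain ⟨j, hj⟩ := hoy (y ^ i)⁻¹ (Subgroup.inv_mem _ (Subgroup.npow_mem_zpowers y i))
    have h1 := (cj_le_cj (g := y ^ i)).mpr (hcjU j)
    rwa [← hj, cj_cj_inv] at h1
  have hpU : IsPGroup p (Subgroup.zpowers y) :=
    Q'.isPGroup'.to_le (Subgroup.zpowers_le.mpr hyQ')
  have hyU : Subgroup.zpowers y ≤ U :=
    le_of_le_normalizer (p := p) ⟨Q, mem_syl.mpr hQU⟩ hpU hyNU
  exact hyN (Subgroup.le_normalizer (hUX (hyU (Subgroup.mem_zpowers y))))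

lemma full_top (hgen : Subgroup.closure {g : G | ∃ k : ℕ, orderOf g = p ^ k} = ⊤) :
    Full p (⊤ : Subgroup G) := by
  have h1 : (syl p (⊤ : Subgroup G)).Nonempty := ⟨default, mem_syl.mpr le_top⟩
  refine ⟨h1, le_antisymm le_top ?_⟩
  have h2 : Subgroup.closure {g : G | ∃ k : ℕ, orderOf g = p ^ k} ≤ gen (syl p (⊤ : Subgroup G)) := by
    rw [Subgroup.closure_le]
    rintro g ⟨k, hk⟩
    have hpg : IsPGroup p (Subgroup.zpowers g) := by
      refine IsPGroup.of_card (n := k) ?_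
      rw [Nat.card_zpowers, hk]
    obtain ⟨S, hS⟩ := hpg.exists_le_sylow
    exact le_gen (D := syl p (⊤ : Subgroup G)) (Q := S) (mem_syl.mpr le_top)
      (hS (Subgroup.mem_zpowers g))
  rwa [hgen] at h2

lemma card_sylow_subgroup (H : Subgroup G) (P : Sylow p G) (hP : (P : Subgroup G) ≤ H) :
    Nat.card (Sylow p ↥H) = s p H := by
  let f : (↥(syl p H)) → Sylow p ↥H := fun Q => Sylow.subtype Q.1 (mem_syl.mp Q.2)
  have hf : Function.Bijective f := by
    constructor
    · intro a b hab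
      exact Subtype.ext (Sylow.subtype_injective hab)
    · intro S
      obtain ⟨h, hh⟩ := MulAction.exists_smul_eq (↥H) (P.subtype hP) S
      have hle : (((h : G) • P : Sylow p G) : Subgroup G) ≤ H := Sylow.smul_le hP h
      refine ⟨⟨(h : G) • P, mem_syl.mpr hle⟩, ?_⟩
      rw [← hh, Sylow.smul_subtype hP h]
      rfl
  rw [← Nat.card_congr (Equiv.ofBijective f hf)]
  simp [s]

lemma s_top : s p (⊤ : Subgroup G) = Nat.card (Sylow p G) := by
  unfold s syl
  simp

end aux

/-- Let p be a prime and G a finite group generated by its elements of p-power order, and let H be a proper subgroup of G containing a Sylow p-subgroup of G. Then 2p − 1 times the number of Sylow p-subgroups of H is at most p − 1 times the number of Sylow p-subgroups of G. -/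
theorem result {G : Type*} [Group G] [Finite G] (p : ℕ) [Fact p.Prime] (hgen : Subgroup.closure {g : G | ∃ k : ℕ, orderOf g = p ^ k} = ⊤)
    (H : Subgroup G) (hH : H ≠ ⊤) (P : Sylow p G) (hP : (P : Subgroup G) ≤ H) :
    (2 * p - 1) * Nat.card (Sylow p ↥H) ≤ (p - 1) * Nat.card (Sylow p G) := by
  have hfull := full_top (p := p) hgen
  have hsyl : syl p (gen (syl p H)) = syl p H := by
    ext Q
    constructor
    · intro hQ
      exact mem_syl.mpr ((mem_syl.mp hQ).trans (gen_le fun _ h => mem_syl.mp h))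
    · intro hQ
      exact mem_syl.mpr (le_gen hQ)
  have hZ : Full p (gen (syl p H)) := by
    refine ⟨⟨P, mem_syl.mpr (le_gen (mem_syl.mpr hP))⟩, ?_⟩
    rw [hsyl]
  have hle : gen (syl p H) ≤ H := gen_le fun _ h => mem_syl.mp h
  have hlt : gen (syl p H) < ⊤ := lt_of_le_of_ne le_top fun h => hH (top_le_iff.mp (h ▸ hle))
  have h1 := T_of_full (⊤ : Subgroup G) hfull _ hZ hlt
  have h2 : s p (gen (syl p H)) = s p H := by unfold s; rw [hsyl]
  rw [h2, s_top] at h1
  rw [card_sylow_subgroup H P hP]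
  have hp : 2 ≤ p := (Fact.out : p.Prime).two_le
  zify [show 1 ≤ 2 * p by omega, show 1 ≤ p by omega]
  exact h1

end Cfsg.Agent.S4181
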