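-- Statement S3580: Sylow orbits; follows from the fixed-point bound proved for S4181.
import Cfsg.Statements.S3580
import Cfsg.Agent.S4181

set_option autoImplicit false
open Cfsg

namespace Cfsg.Agent.S3580

open scoped Pointwise
open Classical
open Cfsg.Agent.S4181

section aux

attribute [local instance] Fintype.ofFinite

/-- Non-fixed orbits of a `p`-group have at least `p` points. -/
lemma orbit_bound {P Ω : Type*} [Group P] [Finite P] [MulAction P Ω] [Finite Ω] (p : ℕ)
    [Fact p.Prime] (hP : IsPGroup p P) :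
    p * Nat.card (MulAction.orbitRel.Quotient P Ω) ≤
      Nat.card Ω + (p - 1) * Nat.card (MulAction.fixedPoints P Ω) := by
  have hcard : Nat.card Ω = ∑ q : MulAction.orbitRel.Quotient P Ω,
      Nat.card (MulAction.orbit P (Quotient.out q)) := by
    rw [Nat.card_congr (MulAction.selfEquivSigmaOrbits P Ω), Nat.card_sigma]
  set F : Finset (MulAction.orbitRel.Quotient P Ω) :=
    Finset.univ.filter (fun q => Nat.card (MulAction.orbit P (Quotient.out q)) = 1) with hF
  have hFcard : F.card ≤ Nat.card (MulAction.fixedPoints P Ω) := by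
    have hinj : Function.Injective (fun q : F => (⟨Quotient.out q.1, by
        have := (Finset.mem_filter.mp q.2).2
        exact MulAction.mem_fixedPoints_iff_card_orbit_eq_one.mpr (by
          rw [Nat.card_eq_fintype_card] at this; exact this)⟩ :
        MulAction.fixedPoints P Ω)) := by
      intro a b hab
      have h : Quotient.out a.1 = Quotient.out b.1 := congrArg Subtype.val hab
      exact Subtype.ext (Quotient.out_inj.mp h)
    have := Nat.card_le_card_of_injective _ hinj
    rwa [Nat.card_eq_fintype_card (α := F), Fintype.card_coe] at this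
  have hterm : ∀ q : MulAction.orbitRel.Quotient P Ω,
      p ≤ Nat.card (MulAction.orbit P (Quotient.out q)) + (p - 1) * (if q ∈ F then 1 else 0) := by
    intro q
    have hp2 := (Fact.out : p.Prime).two_le
    by_cases hq : q ∈ F
    · have := (Finset.mem_filter.mp hq).2
      rw [if_pos hq, this]; omega
    · rw [if_neg hq]
      obtain ⟨k, hk⟩ := hP.card_orbit (Quotient.out q)
      have hk0 : k ≠ 0 := by
        rintro rfl
        apply hq
        refine Finset.mem_filter.mpr ⟨Finset.mem_univ _, ?_⟩
        simpa using hk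
      have : p ≤ p ^ k := Nat.le_self_pow hk0 p
      rw [hk]; omega
  calc p * Nat.card (MulAction.orbitRel.Quotient P Ω)
      = ∑ _q : MulAction.orbitRel.Quotient P Ω, p := by
        simp [mul_comm]
    _ ≤ ∑ q : MulAction.orbitRel.Quotient P Ω,
        (Nat.card (MulAction.orbit P (Quotient.out q)) + (p - 1) * (if q ∈ F then 1 else 0)) :=
        Finset.sum_le_sum fun q _ => hterm q
    _ = Nat.card Ω + (p - 1) * F.card := by
        rw [Finset.sum_add_distrib, ← hcard, ← Finset.mul_sum]
        simp
    _ ≤ _ := by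
        exact Nat.add_le_add_left (Nat.mul_le_mul_left _ hFcard) _

variable {G Ω : Type*} [Group G] [Finite G] [MulAction G Ω] [Finite Ω]

lemma stabilizer_smul (g : G) (ω : Ω) :
    MulAction.stabilizer G (g • ω) = cj g (MulAction.stabilizer G ω) := by
  ext x
  rw [mem_cj, MulAction.mem_stabilizer_iff, MulAction.mem_stabilizer_iff]
  constructor
  · intro h
    calc (g⁻¹ * x * g) • ω = g⁻¹ • x • g • ω := by simp [mul_smul]
      _ = ω := by rw [h]; simp
  · intro h
    calc x • g • ω = g • (g⁻¹ * x * g) • ω := by simp [mul_smul]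
      _ = g • ω := by rw [h]

lemma card_fixedPoints (Q : Subgroup G) :
    Nat.card (MulAction.fixedPoints ↥Q Ω) =
      ((Finset.univ : Finset Ω).filter (fun ω => Q ≤ MulAction.stabilizer G ω)).card := by
  refine Nat.subtype_card _ fun ω => ?_
  simp only [Finset.mem_filter, Finset.mem_univ, true_and]
  constructor
  · intro h q
    exact h q.2
  · intro h q hq
    exact h ⟨q, hq⟩

/-- Double count of pairs (Sylow subgroup, fixed point). -/
lemma fix_count (htrans : MulAction.IsPretransitive G Ω) (p : ℕ) [Fact p.Prime]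
    (P : Sylow p G) (ω₀ : Ω) :
    Nat.card (MulAction.fixedPoints ↥(P : Subgroup G) Ω) * Nat.card (Sylow p G) =
      Nat.card Ω * s p (MulAction.stabilizer G ω₀) := by
  have key := Finset.sum_card_bipartiteAbove_eq_sum_card_bipartiteBelow
    (s := (Finset.univ : Finset (Sylow p G))) (t := (Finset.univ : Finset Ω))
    (fun (Q : Sylow p G) (ω : Ω) => (Q : Subgroup G) ≤ MulAction.stabilizer G ω)
  have h1 : ∀ Q ∈ (Finset.univ : Finset (Sylow p G)), ((Finset.univ : Finset Ω).bipartiteAbove
      (fun (Q : Sylow p G) (ω : Ω) => (Q : Subgroup G) ≤ MulAction.stabilizer G ω) Q).card =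
      Nat.card (MulAction.fixedPoints ↥(P : Subgroup G) Ω) := by
    intro Q _
    obtain ⟨g, rfl⟩ := MulAction.exists_smul_eq G P Q
    rw [card_fixedPoints]
    unfold Finset.bipartiteAbove
    refine Finset.card_nbij' (fun ω => g⁻¹ • ω) (fun ω => g • ω) ?_ ?_ ?_ ?_
    · intro ω hω
      have hω' : ((g • P : Sylow p G) : Subgroup G) ≤ MulAction.stabilizer G ω :=
        (Finset.mem_filter.mp (Finset.mem_coe.mp hω)).2
      refine Finset.mem_coe.mpr (Finset.mem_filter.mpr ⟨Finset.mem_univ _, ?_⟩)
      rw [coe_smul_sylow] at hω'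
      have h2 := (cj_le_cj (g := g⁻¹)).mpr hω'
      rwa [cj_inv_cj, ← stabilizer_smul] at h2
    · intro ω hω
      have hω' := (Finset.mem_filter.mp (Finset.mem_coe.mp hω)).2
      refine Finset.mem_coe.mpr (Finset.mem_filter.mpr ⟨Finset.mem_univ _, ?_⟩)
      show ((g • P : Sylow p G) : Subgroup G) ≤ MulAction.stabilizer G (g • ω)
      rw [coe_smul_sylow, stabilizer_smul]
      exact cj_le_cj.mpr hω'
    · intro ω _; simp
    · intro ω _; simp
  have h2 : ∀ ω ∈ (Finset.univ : Finset Ω), ((Finset.univ : Finset (Sylow p G)).bipartiteBelow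
      (fun (Q : Sylow p G) (ω : Ω) => (Q : Subgroup G) ≤ MulAction.stabilizer G ω) ω).card =
      s p (MulAction.stabilizer G ω₀) := by
    intro ω _
    obtain ⟨g, rfl⟩ := MulAction.exists_smul_eq G ω₀ ω
    rw [← s_cj g (MulAction.stabilizer G ω₀), ← stabilizer_smul]
    rfl
  rw [Finset.sum_congr rfl h1, Finset.sum_congr rfl h2, Finset.sum_const, Finset.sum_const,
    smul_eq_mul, smul_eq_mul] at key
  simpa [mul_comm] using key

/-- The fixed point bound for a Sylow subgroup. -/
lemma fix_bound [FaithfulSMul G Ω] (htrans : MulAction.IsPretransitive G Ω) (p : ℕ) [Fact p.Prime]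
    (hpG : p ∣ Nat.card G) (P : Sylow p G) :
    (2 * p - 1) * Nat.card (MulAction.fixedPoints ↥(P : Subgroup G) Ω) ≤ (p - 1) * Nat.card Ω := by
  by_cases hf : Nat.card (MulAction.fixedPoints ↥(P : Subgroup G) Ω) = 0
  · rw [hf, mul_zero]; exact Nat.zero_le _
  · obtain ⟨⟨ω₀, hω₀⟩⟩ : Nonempty (MulAction.fixedPoints ↥(P : Subgroup G) Ω) := by
      by_contra h
      rw [not_nonempty_iff] at h
      exact hf Nat.card_of_isEmpty
    set H := MulAction.stabilizer G ω₀ with hH
    have hPH : (P : Subgroup G) ≤ H := fun q hq => hω₀ ⟨q, hq⟩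
    -- the subgroup generated by all Sylow subgroups
    set Y : Subgroup G := gen (Finset.univ : Finset (Sylow p G)) with hY
    have hsylY : syl p Y = Finset.univ := by
      ext Q
      simp only [Finset.mem_univ, iff_true]
      exact mem_syl.mpr (le_gen (Finset.mem_univ Q))
    have hYfull : Full p Y := ⟨⟨P, by rw [hsylY]; exact Finset.mem_univ _⟩, by rw [hsylY]⟩
    have hsylR : syl p (gen (syl p H)) = syl p H := by
      ext Q
      constructor
      · intro hQ
        exact mem_syl.mpr ((mem_syl.mp hQ).trans (gen_le fun _ h => mem_syl.mp h))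
      · intro hQ
        exact mem_syl.mpr (le_gen hQ)
    have hRfull : Full p (gen (syl p H)) := by
      refine ⟨⟨P, mem_syl.mpr (le_gen (mem_syl.mpr hPH))⟩, ?_⟩
      rw [hsylR]
    have hRle : gen (syl p H) ≤ Y := gen_le fun Q _ => le_gen (Finset.mem_univ Q)
    have hRne : gen (syl p H) ≠ Y := by
      intro hEq
      have hall : ∀ Q : Sylow p G, (Q : Subgroup G) ≤ H := by
        intro Q
        have : (Q : Subgroup G) ≤ gen (syl p H) := by
          rw [hEq]; exact le_gen (Finset.mem_univ Q)
        exact this.trans (gen_le fun _ h => mem_syl.mp h)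
      have hbot : (P : Subgroup G) = ⊥ := by
        rw [eq_bot_iff]
        intro x hx
        rw [Subgroup.mem_bot]
        refine (FaithfulSMul.eq_of_smul_eq_smul (α := Ω) fun ω => ?_ : x = 1)
        rw [one_smul]
        obtain ⟨g, rfl⟩ := MulAction.exists_smul_eq G ω₀ ω
        have h1 : ((g⁻¹ • P : Sylow p G) : Subgroup G) ≤ H := hall _
        rw [coe_smul_sylow] at h1
        have h2 := (cj_le_cj (g := g)).mpr h1
        rw [cj_cj_inv, ← stabilizer_smul] at h2
        exact h2 hx
      exact (Sylow.ne_bot_of_dvd_card P hpG) hbot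
    have hT := T_of_full Y hYfull _ hRfull (lt_of_le_of_ne hRle hRne)
    have hsR : s p (gen (syl p H)) = s p H := by unfold s; rw [hsylR]
    have hsY : s p Y = Nat.card (Sylow p G) := by
      unfold s; rw [hsylY]; simp
    rw [hsR, hsY] at hT
    have hcount := fix_count htrans p P ω₀
    have hp : 2 ≤ p := (Fact.out : p.Prime).two_le
    have hNpos : 0 < Nat.card (Sylow p G) := Nat.card_pos
    have hT' : (2 * p - 1) * s p H ≤ (p - 1) * Nat.card (Sylow p G) := by
      zify [show 1 ≤ 2 * p by omega, show 1 ≤ p by omega]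
      exact hT
    refine Nat.le_of_mul_le_mul_right ?_ hNpos
    calc (2 * p - 1) * Nat.card (MulAction.fixedPoints ↥(P : Subgroup G) Ω) * Nat.card (Sylow p G)
        = (2 * p - 1) * (Nat.card Ω * s p H) := by rw [mul_assoc, hcount]
      _ = Nat.card Ω * ((2 * p - 1) * s p H) := by ring
      _ ≤ Nat.card Ω * ((p - 1) * Nat.card (Sylow p G)) := Nat.mul_le_mul_left _ hT'
      _ = (p - 1) * Nat.card Ω * Nat.card (Sylow p G) := by ring

end aux

/-- Let G act faithfully and transitively on a finite set Ω, let p be an odd prime dividing the order of G and P a Sylow p-subgroup of G. Then the number of orbits of P on Ω is at most (p/(2p − 1))·(number of points). -/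
theorem result {G Ω : Type*} [Group G] [Finite G] [MulAction G Ω] [FaithfulSMul G Ω] [Finite Ω]
    (htrans : MulAction.IsPretransitive G Ω) (p : ℕ) [Fact p.Prime] (hp2 : p ≠ 2) (hpG : p ∣ Nat.card G)
    (P : Sylow p G) :
    (2 * p - 1) * Nat.card (MulAction.orbitRel.Quotient ↥(P : Subgroup G) Ω) ≤ p * Nat.card Ω := by
  have h1 := orbit_bound (P := ↥(P : Subgroup G)) (Ω := Ω) p P.isPGroup'
  have h2 := fix_bound (Ω := Ω) htrans p hpG P
  obtain ⟨b, hb⟩ : ∃ b, p = b + 1 := ⟨p - 1, by have := (Fact.out : p.Prime).two_le; omega⟩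
  have ha : 2 * p - 1 = 2 * b + 1 := by omega
  have hb' : p - 1 = b := by omega
  rw [ha, hb'] at h2
  rw [hb'] at h1
  rw [ha]
  set o := Nat.card (MulAction.orbitRel.Quotient ↥(P : Subgroup G) Ω)
  set n := Nat.card Ω
  set f := Nat.card (MulAction.fixedPoints ↥(P : Subgroup G) Ω)
  have hppos : 0 < p := by omega
  refine Nat.le_of_mul_le_mul_left ?_ hppos
  calc p * ((2 * b + 1) * o) = (2 * b + 1) * (p * o) := by ring
    _ ≤ (2 * b + 1) * (n + b * f) := Nat.mul_le_mul_left _ h1
    _ = (2 * b + 1) * n + b * ((2 * b + 1) * f) := by ring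
    _ ≤ (2 * b + 1) * n + b * (b * n) := Nat.add_le_add_left (Nat.mul_le_mul_left _ h2) _
    _ = p * (p * n) := by rw [hb]; ring

end Cfsg.Agent.S3580
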