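import Cfsg.Statements.S3589
import Cfsg.Agent.Lib.SpEight.Embed

set_option autoImplicit false

open Cfsg

namespace Cfsg.Agent.S3589

open Cfsg.Agent.Lib.Classical.Quad Cfsg.Agent.Lib.Classical.QuadOrders
open Cfsg.Agent.Lib.SpEight.Atoms Cfsg.Agent.Lib.SpEight.Models Cfsg.Agent.Lib.SpEight.Poly
open Cfsg.Agent.Lib.SpEight.Orders Cfsg.Agent.Lib.SpEight.Embed

/-- Let F be a finite field of characteristic 2 and let a, b ∈ F make the binary form z₁² + a z₁z₂ + b z₂² anisotropic. Then the symplectic group PSp(8,F) (= Sp(8,F)) and the full isometry group of the non-singular quadratic form x₁y₁ + x₂y₂ + x₃y₃ + (z₁² + a z₁z₂ + b z₂²) of minus type in dimension 8 have the same set of element orders. -/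
theorem result {F : Type*} [Field F] [Fintype F]
    [CharP F 2] (a b : F) (han : ∀ z₁ z₂ : F, z₁ ^ 2 + a * z₁ * z₂ + b * z₂ ^ 2 = 0 → z₁ = 0 ∧ z₂ = 0) :
    Set.range (orderOf : Cfsg.PSp 4 F → ℕ) = Set.range (orderOf : ↥(Cfsg.isometryGroup F (Cfsg.quadFormMinus 3 F a b)) → ℕ) := by
  have ha : a ≠ 0 := a_ne_zero han
  rw [range_psp, range_go]
  ext n
  constructor
  · rintro ⟨A, rfl⟩
    obtain ⟨T, hT, hAT⟩ := exists_exp_sp A
    rw [← Nat.card_eq_fintype_card] at hT
    have hH : Has (qMinus 3 a b) T := has_all han hT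
    obtain ⟨t, ht⟩ := orderOf_dvd_of_pow_eq_one hAT
    haveI := finite_oGroup a b
    have hT0 : T ≠ 0 := by
      obtain ⟨g, hg⟩ := hH
      rw [← hg]
      exact (orderOf_pos g).ne'
    rw [ht] at hH
    rw [ht] at hT0
    have hmul : t * orderOf A = orderOf A * t := mul_comm _ _
    rw [← hmul] at hH
    exact hH.pow (left_ne_zero_of_mul (by rw [hmul]; exact hT0)) (right_ne_zero_of_mul (by rw [hmul]; exact hT0))
  · rintro ⟨g, rfl⟩
    obtain ⟨A, hA⟩ := order_mem_sp ha b g
    exact ⟨A, hA⟩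

end Cfsg.Agent.S3589
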