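import Cfsg.Statements.S3590
import Cfsg.Agent.Lib.SpEight.Real
import Cfsg.Agent.Lib.SpEight.Semi
import Cfsg.Agent.Lib.Orth.Omega

set_option autoImplicit false
set_option linter.unusedVariables false

open Cfsg

namespace Cfsg.Agent.S3590

open Module QuadraticMap
open Cfsg.Agent.Lib.Classical.Quad Cfsg.Agent.Lib.Classical.QuadOrders Cfsg.Agent.Lib.Classical.QuadHyp
open Cfsg.Agent.Lib.SpEight.Atoms Cfsg.Agent.Lib.SpEight.Models Cfsg.Agent.Lib.SpEight.Poly
open Cfsg.Agent.Lib.SpEight.Orders Cfsg.Agent.Lib.SpEight.Embed Cfsg.Agent.Lib.SpEight.Key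
open Cfsg.Agent.Lib.SpEight.Real Cfsg.Agent.Lib.SpEight.Semi
open Cfsg.Agent.Lib.Witt.Quadratic Cfsg.Agent.Lib.Orth.Spin Cfsg.Agent.Lib.Orth.Wall
open Cfsg.Agent.Lib.Orth.Gen Cfsg.Agent.Lib.Orth.Omega
open Cfsg.Agent.Lib.PrimeGraph.Lift

universe u

section

variable {F : Type u} [Field F] [Finite F] [CharP F 2]

theorem exists_aniso : ∃ a b : F, ∀ z₁ z₂ : F, z₁ ^ 2 + a * z₁ * z₂ + b * z₂ ^ 2 = 0 → z₁ = 0 ∧ z₂ = 0 := by
  have hinj : ¬ Function.Injective (fun t : F => t ^ 2 + t) := by
    intro h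
    have h1 : (fun t : F => t ^ 2 + t) 0 = (fun t : F => t ^ 2 + t) 1 := by
      simp [CharTwo.add_self_eq_zero]
    exact zero_ne_one (h h1)
  have hsurj : ¬ Function.Surjective (fun t : F => t ^ 2 + t) :=
    fun h => hinj (Finite.injective_iff_surjective.2 h)
  simp only [Function.Surjective, not_forall, not_exists] at hsurj
  obtain ⟨ζ, hζ⟩ := hsurj
  refine ⟨1, ζ, fun z₁ z₂ h => ?_⟩
  by_cases hz : z₂ = 0
  · subst hz
    have : z₁ ^ 2 = 0 := by simpa using h
    exact ⟨pow_eq_zero_iff (by norm_num) |>.1 this, rfl⟩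
  · exfalso
    apply hζ (z₁ / z₂)
    have h2 : (2 : F) = 0 := CharTwo.two_eq_zero
    field_simp
    linear_combination h - ζ * z₂ ^ 2 * h2

/-- The group of isometries with even parity. -/
def XG {V : Type*} [AddCommGroup V] [Module F V] [FiniteDimensional F V] (Q : QuadraticForm F V)
    (hQ : (polarBilin Q).Nondegenerate) (hgen : ∀ g ∈ isoGroup Q, g ∈ W Q) : Subgroup (V ≃ₗ[F] V) where
  carrier := {g | g ∈ isoGroup Q ∧ rp g = 0}
  mul_mem' := by
    rintro a b ⟨ha, ha'⟩ ⟨hb, hb'⟩
    refine ⟨Subgroup.mul_mem _ ha hb, ?_⟩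
    rw [rp_mul hQ hgen ha hb, ha', hb', add_zero]
  one_mem' := ⟨Subgroup.one_mem _, rp_one⟩
  inv_mem' := by
    rintro a ⟨ha, ha'⟩
    have hi := Subgroup.inv_mem _ ha
    refine ⟨hi, ?_⟩
    have h1 := rp_mul hQ hgen hi ha
    rw [inv_mul_cancel, rp_one, ha', add_zero] at h1
    exact h1.symm

end

/-- Let F be a finite field of characteristic 2. Then PSp(8,F) is not determined by its set of element orders, not even up to finitely many groups: for every bound there is a finite group of larger order with exactly the same set of element orders as PSp(8,F). -/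
theorem result {F : Type*} [Field F] [Fintype F]
    [CharP F 2] (M : ℕ) :
    ∃ (H : Type) (_ : Group H) (_ : Fintype H), M < Fintype.card H ∧ Set.range (orderOf : H → ℕ) = Set.range (orderOf : Cfsg.PSp 4 F → ℕ) := by
  classical
  obtain ⟨a, b, hab⟩ := exists_aniso (F := F)
  have ha : a ≠ 0 := a_ne_zero hab
  set Q := qMinus 3 a b with hQdef
  have hQ : (polarBilin Q).Nondegenerate :=
    nondeg_congr (minusEquiv 3 F).symm (fun x => by
      rw [hQdef, ← qMinus_apply, LinearEquiv.apply_symm_apply]) (sumHyp_nondeg (qBin_nondeg hab) 3)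
  have hgen : ∀ g ∈ isoGroup Q, g ∈ W Q := fun g hg =>
    mem_W hQ (Or.inr (by rw [finrank_V8]; norm_num)) hg
  let X := XG Q hQ hgen
  haveI hfinO := finite_oGroup a b
  have hfinX : Finite X := by
    have hle : X ≤ oGroup Q := fun g hg => hg.1
    exact Finite.of_injective (Subgroup.inclusion hle) (Subgroup.inclusion_injective hle)
  let n := M + 1
  let H0 := HH X n
  haveI : Finite (Multiplicative (Fin n → V8 F)) :=
    Finite.of_equiv (Fin n → V8 F) Multiplicative.ofAdd
  haveI hfinH : Finite H0 := Finite.of_equiv _ (SemidirectProduct.equivProd.symm)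
  have hcard : M < Nat.card H0 := lt_trans (Nat.lt_succ_self M) (card_HH_ge hfinX)
  -- the element orders of `H0`
  have hsub : ∀ h : H0, orderOf h ∈ Set.range (orderOf : Matrix.symplecticGroup (Fin 4) F → ℕ) := by
    intro h
    have hO : ∀ g : V8 F ≃ₗ[F] V8 F, (∀ x, Q (g x) = Q x) →
        orderOf g ∈ Set.range (orderOf : Matrix.symplecticGroup (Fin 4) F → ℕ) := by
      intro g hg
      have hg' : g ∈ oGroup Q := hg
      obtain ⟨A, hA⟩ := order_mem_sp ha b ⟨g, hg'⟩
      exact ⟨A, by rw [hA, Subgroup.orderOf_mk]⟩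
    by_cases hy : Multiplicative.toAdd (h ^ orderOf h.right).left = 0
    · rw [order_eq_of_left hfinX h hy, ← Subgroup.orderOf_coe]
      exact hO _ h.right.2.1
    · rw [order_eq_two_mul hfinX h hy]
      obtain ⟨j, hj⟩ := Function.ne_iff.1 hy
      rw [left_pow_apply] at hj
      have hord : orderOf h.right = orderOf h.right.1 := (Subgroup.orderOf_coe _).symm
      rw [hord] at hj ⊢
      obtain ⟨T, hT, hdvd⟩ := key ha h.right.1 h.right.2.1 h.right.2.2 _ hj
      rw [← Nat.card_eq_fintype_card] at hT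
      have hH : Has Q T := has_all hab hT
      have hT0 : T ≠ 0 := by
        obtain ⟨g, hg⟩ := hH
        rw [← hg]
        exact (orderOf_pos g).ne'
      obtain ⟨c, rfl⟩ := hdvd
      have hH' : Has Q (c * (2 * orderOf h.right.1)) := by rwa [mul_comm]
      obtain ⟨g, hg⟩ := hH'.pow (right_ne_zero_of_mul hT0) (left_ne_zero_of_mul hT0)
      rw [← hg, ← Subgroup.orderOf_coe]
      exact hO _ g.2
  have hsup : ∀ A : Matrix.symplecticGroup (Fin 4) F, ∃ h : H0, orderOf h = orderOf A := by
    intro A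
    obtain ⟨T, hT, hAT⟩ := exists_exp_sp A
    rw [← Nat.card_eq_fintype_card] at hT
    have hreal : ∃ h : H0, orderOf h = T := by
      rcases real_all hab hT with ⟨g, hg, ho, hε⟩ | ⟨N, hN, g, hg, ho, hε, v, hv⟩
      · let x : X := ⟨g, hg, hε⟩
        refine ⟨mkH x 0, ?_⟩
        have h1 : Multiplicative.toAdd ((mkH x (0 : Fin n → V8 F) : H0) ^ orderOf (mkH x (0 : Fin n → V8 F) : H0).right).left = 0 := by
          rw [left_pow]
          refine Finset.sum_eq_zero fun i _ => ?_
          funext j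
          exact map_zero _
        rw [order_eq_of_left hfinX _ h1, mkH_right, ← ho, ← Subgroup.orderOf_coe]
      · let x : X := ⟨g, hg, hε⟩
        let w : Fin n → V8 F := fun _ => v
        refine ⟨mkH x w, ?_⟩
        have hox : orderOf x = N := by
          rw [← ho, ← Subgroup.orderOf_coe]
        have h1 : Multiplicative.toAdd ((mkH x w : H0) ^ orderOf (mkH x w : H0).right).left ≠ 0 := by
          intro h0
          have h2 := congrFun h0 (0 : Fin n)
          rw [left_pow_apply, mkH_right, mkH_left] at h2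
          apply hv
          rw [hox] at h2
          exact h2
        rw [order_eq_two_mul hfinX _ h1, mkH_right, hox, hN]
    obtain ⟨h, hh⟩ := hreal
    have hT0 : T ≠ 0 := by
      rw [← hh]
      exact (orderOf_pos h).ne'
    obtain ⟨c, hc⟩ := orderOf_dvd_of_pow_eq_one hAT
    have hc0 : c ≠ 0 := right_ne_zero_of_mul (hc ▸ hT0)
    refine ⟨h ^ c, ?_⟩
    rw [orderOf_pow_of_dvd hc0 (by rw [hh, hc]; exact dvd_mul_left _ _), hh, hc]
    exact Nat.mul_div_cancel _ (Nat.pos_of_ne_zero hc0)
  obtain ⟨H, gH, fH, hc, hr⟩ := exists_type_model H0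
  refine ⟨H, gH, fH, by rw [hc]; exact hcard, ?_⟩
  rw [hr, range_psp]
  ext r
  constructor
  · rintro ⟨y, rfl⟩
    exact hsub y
  · rintro ⟨A, rfl⟩
    exact hsup A

end Cfsg.Agent.S3590
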