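-- The Mathieu group M11 is determined by its order and the set of numbers of elements of given order.
import Cfsg.Statements.S3592
import Cfsg.Agent.Lib.M11Rec.Bridge

set_option autoImplicit false
open Cfsg

namespace Cfsg.Agent.S3592

open Cfsg.Agent.Lib.M11Rec Cfsg.Agent.Lib.M11Rec.Bridge Cfsg.Agent.Lib.SmallSimple

/-- Let M be the Mathieu group M₁₁ (order 7920). If a finite group G has the same order as M and the same set of values of the function 'number of elements of order n' (taken over the element orders n that occur), then G is isomorphic to M. -/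
theorem result {G : Type*} [Group G] [Finite G]
    (hcard : Nat.card G = Nat.card ↥Cfsg.Spor.M11)
    (hnse : {c : ℕ | 0 < c ∧ ∃ n : ℕ, c = Nat.card {g : G // orderOf g = n}} =
      {c : ℕ | 0 < c ∧ ∃ n : ℕ, c = Nat.card {g : ↥Cfsg.Spor.M11 // orderOf g = n}}) :
    Nonempty (G ≃* ↥Cfsg.Spor.M11) := by
  classical
  have hG : Nat.card G = 7920 := hcard.trans card_M11
  have hval : ∀ n, 0 < Nat.card {g : G // orderOf g = n} →
      Nat.card {g : G // orderOf g = n} = 1 ∨ Nat.card {g : G // orderOf g = n} = 165 ∨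
      Nat.card {g : G // orderOf g = n} = 440 ∨ Nat.card {g : G // orderOf g = n} = 990 ∨
      Nat.card {g : G // orderOf g = n} = 1584 ∨ Nat.card {g : G // orderOf g = n} = 1320 ∨
      Nat.card {g : G // orderOf g = n} = 1980 ∨ Nat.card {g : G // orderOf g = n} = 1440 := by
    intro n hn
    have hmem : Nat.card {g : G // orderOf g = n} ∈
        {c : ℕ | 0 < c ∧ ∃ n : ℕ, c = Nat.card {g : G // orderOf g = n}} := ⟨hn, n, rfl⟩
    rw [hnse] at hmem
    obtain ⟨h1, m, hm⟩ := hmem
    rw [card_order] at hm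
    obtain ⟨c1, c2, c3, c4, c5, c6, c8, c11⟩ := Table.O_count
    by_cases hm' : m ≠ 1 ∧ m ≠ 2 ∧ m ≠ 3 ∧ m ≠ 4 ∧ m ≠ 5 ∧ m ≠ 6 ∧ m ≠ 8 ∧ m ≠ 11
    · rw [count_other hm'] at hm
      omega
    · have : m = 1 ∨ m = 2 ∨ m = 3 ∨ m = 4 ∨ m = 5 ∨ m = 6 ∨ m = 8 ∨ m = 11 := by omega
      rcases this with rfl | rfl | rfl | rfl | rfl | rfl | rfl | rfl <;> omega
  obtain ⟨P⟩ : Nonempty (Sylow 11 G) := inferInstance
  obtain ⟨Q⟩ : Nonempty (Sylow 5 G) := inferInstance
  have hP := Count.card_orderOf_eq_of_card_sylow P (Simple.card11 hG P)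
  have hQ := Count.card_orderOf_eq_of_card_sylow Q (Simple.card5 hG Q)
  have hm11 : Nat.card (Sylow 11 G) % 11 = 1 := by
    have := card_sylow_modEq_one 11 G
    exact this
  have hm5 : Nat.card (Sylow 5 G) % 5 = 1 := by
    have := card_sylow_modEq_one 5 G
    exact this
  have h11 := hval 11 (by rw [hP]; simp)
  have h5 := hval 5 (by rw [hQ]; simp)
  rw [hP] at h11
  rw [hQ] at h5
  have hc11 : Nat.card {g : G // orderOf g = 11} = 1440 := by
    rw [hP]
    omega
  have hc5 : Nat.card {g : G // orderOf g = 5} = 1584 := by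
    rw [hQ]
    omega
  exact nonempty_iso_of_counts hG hc11 hc5

end Cfsg.Agent.S3592
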