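import Cfsg.Statements.S3599
import Cfsg.Agent.Lib.PrimeGraph.CritProd

set_option autoImplicit false
open Cfsg

namespace Cfsg.Agent.S3599

theorem factorization_prod_single {ι : Type} [Fintype ι] [DecidableEq ι] (n : ι → ℕ)
    (hn : ∀ i, n i ≠ 0) (r : ℕ) (hr : r.Prime) (j : ι) (h : ∀ i, i ≠ j → ¬ r ∣ n i) :
    (∏ i, n i).factorization r = (n j).factorization r := by
  rw [← Finset.mul_prod_erase Finset.univ n (Finset.mem_univ j),
    Nat.factorization_mul (hn j) (Finset.prod_ne_zero_iff.2 fun i _ => hn i), Finsupp.add_apply]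
  have h1 : ¬ r ∣ ∏ i ∈ Finset.univ.erase j, n i := by
    intro h2
    obtain ⟨i, hi, h3⟩ := (Prime.dvd_finsetProd_iff hr.prime _).1 h2
    exact h i (Finset.ne_of_mem_erase hi) h3
  rw [Nat.factorization_eq_zero_of_not_dvd h1, add_zero]

theorem fin2_add_ne (i : Fin 2) : i ≠ i + 1 := by
  fin_cases i <;> decide

theorem fin2_add_add (i : Fin 2) : i + 1 + 1 = i := by
  fin_cases i <;> decide

theorem fin2_eq_add {i i' : Fin 2} (h : i ≠ i') : i' = i + 1 := by
  revert i i'
  decide

theorem fin2_cover {α : Type} (u : Fin 2 → α) (i : Fin 2) (x : α) :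
    (x = u 0 ∨ x = u 1) ↔ (x = u i ∨ x = u (i + 1)) := by
  fin_cases i
  · rfl
  · show _ ↔ (x = u 1 ∨ x = u 0)
    exact or_comm

/-- A finite group is critical with respect to a set Ω of natural numbers when its set of element orders is Ω while no proper section H/N (H a subgroup, N normal in H, (H, N) ≠ (whole group, 1)) has Ω as its set of element orders. Let s ≥ 1 and let p(j,0), p(j,1) (j < s) be 2s pairwise distinct primes, and let Ω be the set of all products c(0)·…·c(s−1) with each c(j) ∈ {1, p(j,0), p(j,1)}. Then there are 2^s pairwise non-isomorphic finite groups critical with respect to Ω. -/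
theorem result (s : ℕ) (hs : 1 ≤ s) (p : Fin s → Fin 2 → ℕ)
    (hp : ∀ j i, (p j i).Prime) (hinj : ∀ j i j' i', p j i = p j' i' → j = j' ∧ i = i') :
    ∃ (G : Fin (2 ^ s) → Type) (_ : ∀ a, Group (G a)) (_ : ∀ a, Fintype (G a)),
      (∀ a b, a ≠ b → ¬ Nonempty (G a ≃* G b)) ∧
      ∀ a, Set.range (orderOf : (G a) → ℕ) = {m : ℕ | ∃ c : Fin s → ℕ, (∀ j, c j = 1 ∨ c j = p j 0 ∨ c j = p j 1) ∧ m = ∏ j, c j} ∧
      ∀ (H : Subgroup (G a)) (N : Subgroup ↥H) [N.Normal], (H ≠ ⊤ ∨ N ≠ ⊥) → Set.range (orderOf : (↥H ⧸ N) → ℕ) ≠ {m : ℕ | ∃ c : Fin s → ℕ, (∀ j, c j = 1 ∨ c j = p j 0 ∨ c j = p j 1) ∧ m = ∏ j, c j} := by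
  classical
  have hne : ∀ (j : Fin s) (i : Fin 2), p j i ≠ p j (i + 1) := by
    intro j i h
    exact fin2_add_ne i (hinj _ _ _ _ h).2
  have key : ∀ (j : Fin s) (i : Fin 2), ∃ (F : Type) (_ : Group F) (_ : Finite F) (a : ℕ),
      Cfsg.Agent.Lib.PrimeGraph.FrobCritB.IsCrit (p j i) (p j (i + 1)) a F := fun j i =>
    Cfsg.Agent.Lib.PrimeGraph.FrobCritB.exists_isCrit _ _ (hp j i) (hp j (i + 1)) (hne j i)
  choose F gF fF a hF using key
  letI : ∀ j i, Group (F j i) := gF
  haveI : ∀ j i, Finite (F j i) := fF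
  let fn : Fin (2 ^ s) → (Fin s → Fin 2) := fun b => finFunctionFinEquiv.symm b
  have hfn : Function.Injective fn := finFunctionFinEquiv.symm.injective
  -- the facts for each choice function
  have hcop : ∀ (f : Fin s → Fin 2) (i j : Fin s), i ≠ j →
      Nat.Coprime (Nat.card (F i (f i))) (Nat.card (F j (f j))) := by
    intro f i j hij
    rw [(hF i (f i)).card_eq, (hF j (f j)).card_eq]
    have hh : ∀ u v, Nat.Coprime (p i u) (p j v) := fun u v =>
      (Nat.coprime_primes (hp _ _) (hp _ _)).2 fun h => hij (hinj _ _ _ _ h).1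
    apply Nat.Coprime.mul_left
    · exact Nat.Coprime.pow_left _ (Nat.Coprime.mul_right (Nat.Coprime.pow_right _ (hh _ _)) (hh _ _))
    · exact Nat.Coprime.mul_right (Nat.Coprime.pow_right _ (hh _ _)) (hh _ _)
  have hrange : ∀ (f : Fin s → Fin 2), Set.range (orderOf : (∀ j, F j (f j)) → ℕ) =
      {m : ℕ | ∃ c : Fin s → ℕ, (∀ j, c j = 1 ∨ c j = p j 0 ∨ c j = p j 1) ∧ m = ∏ j, c j} := by
    intro f
    ext m
    constructor
    · rintro ⟨x, rfl⟩
      refine ⟨fun j => orderOf (x j), ?_, Cfsg.Agent.Lib.PrimeGraph.CritProd.orderOf_pi (hcop f) x⟩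
      intro j
      have h1 : orderOf (x j) ∈ Set.range (orderOf : F j (f j) → ℕ) := ⟨_, rfl⟩
      rw [(hF j (f j)).range_eq] at h1
      rw [fin2_cover (p j) (f j)]
      rcases h1 with h1 | h1
      · rcases (Nat.dvd_prime (hp j (f j + 1))).1 h1 with h2 | h2
        · exact Or.inl h2
        · exact Or.inr (Or.inr h2)
      · exact Or.inr (Or.inl h1)
    · rintro ⟨c, hc, rfl⟩
      have h1 : ∀ j, ∃ y : F j (f j), orderOf y = c j := by
        intro j
        have h2 : c j ∈ Set.range (orderOf : F j (f j) → ℕ) := by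
          rw [(hF j (f j)).range_eq]
          rcases hc j with h3 | h3
          · left
            rw [h3]
            exact one_dvd _
          · rcases (fin2_cover (p j) (f j) (c j)).1 h3 with h4 | h4
            · exact Or.inr h4
            · left
              rw [h4]
              exact dvd_rfl
        exact h2
      choose y hy using h1
      refine ⟨y, ?_⟩
      rw [Cfsg.Agent.Lib.PrimeGraph.CritProd.orderOf_pi (hcop f) y]
      exact Finset.prod_congr rfl fun j _ => hy j
  have hcard : ∀ f : Fin s → Fin 2, Nat.card (∀ j, F j (f j)) =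
      ∏ j, (p j (f j) ^ a j (f j) * p j (f j + 1)) := by
    intro f
    rw [Nat.card_pi]
    exact Finset.prod_congr rfl fun j _ => (hF j (f j)).card_eq
  have hnz : ∀ (j : Fin s) (i : Fin 2), p j i ^ a j i * p j (i + 1) ≠ 0 := by
    intro j i
    exact mul_ne_zero (pow_ne_zero _ (hp j i).ne_zero) (hp j (i + 1)).ne_zero
  have hndvd : ∀ (f : Fin s → Fin 2) (j i : Fin s) (u : Fin 2), i ≠ j →
      ¬ p j u ∣ p i (f i) ^ a i (f i) * p i (f i + 1) := by
    intro f j i u hij h
    rcases (hp j u).dvd_mul.1 h with h1 | h1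
    · have h2 := (hp j u).dvd_of_dvd_pow h1
      have h3 := (Nat.prime_dvd_prime_iff_eq (hp _ _) (hp _ _)).1 h2
      exact hij (hinj _ _ _ _ h3).1.symm
    · have h3 := (Nat.prime_dvd_prime_iff_eq (hp _ _) (hp _ _)).1 h1
      exact hij (hinj _ _ _ _ h3).1.symm
  refine ⟨fun b => ∀ j, F j (fn b j), fun b => inferInstance, fun b => Fintype.ofFinite _, ?_, ?_⟩
  · -- pairwise non-isomorphic
    intro b b' hbb' hiso
    obtain ⟨φ⟩ := hiso
    have hc := Nat.card_congr φ.toEquiv
    rw [hcard, hcard] at hc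
    have hf : fn b ≠ fn b' := fun h => hbb' (hfn h)
    obtain ⟨j, hj⟩ := Function.ne_iff.1 hf
    set i := fn b j with hi
    have hi' : fn b' j = i + 1 := fin2_eq_add hj
    have e1 := factorization_prod_single _ (fun k => hnz k (fn b k)) (p j i) (hp j i) j
      (fun k hk => hndvd (fn b) j k i hk)
    have e2 := factorization_prod_single _ (fun k => hnz k (fn b' k)) (p j i) (hp j i) j
      (fun k hk => hndvd (fn b') j k i hk)
    have e3 := factorization_prod_single _ (fun k => hnz k (fn b k)) (p j (i + 1)) (hp j (i + 1)) j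
      (fun k hk => hndvd (fn b) j k (i + 1) hk)
    have e4 := factorization_prod_single _ (fun k => hnz k (fn b' k)) (p j (i + 1)) (hp j (i + 1)) j
      (fun k hk => hndvd (fn b') j k (i + 1) hk)
    beta_reduce at e1 e2 e3 e4
    rw [hc, e2] at e1
    rw [hc, e4] at e3
    rw [← hi, hi', fin2_add_add] at e1 e3
    have hA : ∀ (u v : ℕ) (e : ℕ), u.Prime → v.Prime → u ≠ v →
        (u ^ e * v).factorization u = e ∧ (u ^ e * v).factorization v = 1 := by
      intro u v e hu hv huv
      rw [Nat.factorization_mul (pow_ne_zero _ hu.ne_zero) hv.ne_zero, Finsupp.add_apply,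
        Finsupp.add_apply, Nat.factorization_pow, hu.factorization, hv.factorization]
      simp [huv, huv.symm]
    obtain ⟨h1, h2⟩ := hA (p j i) (p j (i + 1)) (a j i) (hp _ _) (hp _ _) (hne j i)
    obtain ⟨h3, h4⟩ := hA (p j (i + 1)) (p j i) (a j (i + 1)) (hp _ _) (hp _ _) (hne j i).symm
    rw [h4, h1] at e1
    rw [h3, h2] at e3
    have h5 := (hF j i).a_one e1.symm
    have h6 := (hF j (i + 1)).a_one e3
    rw [fin2_add_add] at h6
    have hp1 := (hp j i).one_lt
    have hp2 := (hp j (i + 1)).one_lt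
    have h7 := Nat.le_of_dvd (by omega) h5
    have h8 := Nat.le_of_dvd (by omega) h6
    omega
  · intro b
    refine ⟨hrange (fn b), ?_⟩
    intro H N _ hHN hr
    have hmem : ∀ (u : Fin s) (i : Fin 2), ∃ z : H ⧸ N, orderOf z = p u i := by
      intro u i
      have h1 : p u i ∈ Set.range (orderOf : (H ⧸ N) → ℕ) := by
        rw [hr]
        refine ⟨Function.update (fun _ => 1) u (p u i), ?_, ?_⟩
        · intro j
          by_cases hj : j = u
          · subst hj
            rw [Function.update_self]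
            right
            fin_cases i
            · exact Or.inl rfl
            · exact Or.inr rfl
          · rw [Function.update_of_ne hj]
            exact Or.inl rfl
        · rw [Fintype.prod_eq_single u (fun j hj => by rw [Function.update_of_ne hj]),
            Function.update_self]
      exact h1
    have := Cfsg.Agent.Lib.PrimeGraph.CritProd.section_eq_top
      (P := fun j => p j (fn b j)) (Q := fun j => p j (fn b j + 1)) (a := fun j => a j (fn b j))
      (fun j => hp _ _) (fun j => hp _ _) (fun j => hne _ _) (hcop (fn b)) (fun j => hF j (fn b j))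
      H N (fun j => hmem j _) (fun j => hmem j _)
    rcases hHN with h | h
    · exact h this.1
    · exact h this.2

end Cfsg.Agent.S3599
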