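import Cfsg.Statements.S3627
import Cfsg.Agent.Lib.PrimeGraph.FrobGroup
import Cfsg.Agent.Lib.PermComp.Spor.J1Spec

set_option autoImplicit false
open Cfsg

namespace Cfsg.Agent.S3627

open Cfsg.Agent.Lib.PrimeGraph.FrobGroup in
/-- The set of orders of `J₁`, as a finset. -/
def w1 : Finset ℕ := {1, 2, 3, 5, 6, 7, 10, 11, 15, 19}

/-- The common spectrum. -/
def target : Finset ℕ := (Nat.divisors 43890).erase 43890

/-- Orders of the Frobenius factor. -/
def frobOrd (p m : ℕ) : Finset ℕ := Nat.divisors m ∪ {p}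

theorem coe_frobOrd (p m : ℕ) (hm : 0 < m) : ({d | d ∣ m} ∪ {p} : Set ℕ) = (frobOrd p m : Finset ℕ) := by
  ext x
  simp [frobOrd, Nat.mem_divisors, hm.ne']

theorem j4_spec : Finset.image₂ Nat.lcm w1 (Finset.image₂ Nat.lcm w1 (Finset.image₂ Nat.lcm w1 w1)) = target := by
  decide +kernel

theorem h5_spec : Finset.image₂ Nat.lcm (frobOrd 2 21945) (Finset.image₂ Nat.lcm (frobOrd 3 7315)
    (Finset.image₂ Nat.lcm (frobOrd 5 1463) (Finset.image₂ Nat.lcm (frobOrd 7 209) (frobOrd 11 19)))) = target := by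
  decide +kernel

/-- Let J be the first Janko group. Then there are finite groups of arbitrarily large order with exactly the same set of element orders as J × J × J × J. -/
theorem result (N : ℕ) : ∃ (H : Type) (_ : Group H) (_ : Fintype H), N < Fintype.card H ∧
      Set.range (orderOf : H → ℕ) = Set.range (orderOf : ↥Cfsg.Spor.J1 × ↥Cfsg.Spor.J1 × ↥Cfsg.Spor.J1 × ↥Cfsg.Spor.J1 → ℕ) := by
  classical
  have hJ : Set.range (orderOf : ↥Cfsg.Spor.J1 → ℕ) = (w1 : Finset ℕ) := by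
    rw [Cfsg.Agent.Lib.PermComp.Spor.J1Spec.range_orderOf_J1]
    ext x
    simp [w1]
  obtain ⟨F1, g1, f1, h1, s1⟩ := Cfsg.Agent.Lib.PrimeGraph.FrobGroup.exists_frob 2 21945 N (by norm_num) (by norm_num) (by norm_num)
  obtain ⟨F2, g2, f2, h2, s2⟩ := Cfsg.Agent.Lib.PrimeGraph.FrobGroup.exists_frob 3 7315 N (by norm_num) (by norm_num) (by norm_num)
  obtain ⟨F3, g3, f3, h3, s3⟩ := Cfsg.Agent.Lib.PrimeGraph.FrobGroup.exists_frob 5 1463 N (by norm_num) (by norm_num) (by norm_num)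
  obtain ⟨F4, g4, f4, h4, s4⟩ := Cfsg.Agent.Lib.PrimeGraph.FrobGroup.exists_frob 7 209 N (by norm_num) (by norm_num) (by norm_num)
  obtain ⟨F5, g5, f5, h5, s5⟩ := Cfsg.Agent.Lib.PrimeGraph.FrobGroup.exists_frob 11 19 N (by norm_num) (by norm_num) (by norm_num)
  refine ⟨F1 × F2 × F3 × F4 × F5, inferInstance, inferInstance, ?_, ?_⟩
  · rw [Fintype.card_prod]
    have : 0 < Fintype.card (F2 × F3 × F4 × F5) := Fintype.card_pos
    nlinarith
  · simp only [Cfsg.Agent.Lib.PrimeGraph.FrobGroup.range_orderOf_prod, hJ, s1, s2, s3, s4, s5]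
    rw [coe_frobOrd _ _ (by norm_num), coe_frobOrd _ _ (by norm_num), coe_frobOrd _ _ (by norm_num), coe_frobOrd _ _ (by norm_num), coe_frobOrd _ _ (by norm_num)]
    simp only [← Finset.coe_image₂]
    rw [j4_spec, h5_spec]

end Cfsg.Agent.S3627
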