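import Cfsg.Statements.S3633
import Cfsg.Agent.Lib.PrimeGraph.ThreeLevels

set_option autoImplicit false
open Cfsg

namespace Cfsg.Agent.S3633

open Cfsg.Agent.Lib.PrimeGraph in
theorem exists_prime_quotient {G : Type*} [Group G] [Finite G] (K : Subgroup G) [K.Normal]
    (hK : Group.IsSolvable K) (hK1 : K ≠ ⊥) :
    ∃ x : ℕ, x.Prime ∧ ∃ N : Subgroup G, N.Normal ∧ N ≤ K ∧ ∃ c : ℕ, 0 < c ∧
      Nat.card K = Nat.card N * x ^ c := by
  classical
  haveI : Nontrivial K := (Subgroup.nontrivial_iff_ne_bot K).mpr hK1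
  have hlt : commutator K < ⊤ := Group.IsSolvable.commutator_lt_top_of_nontrivial K
  haveI : Nontrivial (Abelianization K) := by
    exact QuotientGroup.nontrivial_iff.mpr hlt.ne
  set A := Abelianization K with hA
  obtain ⟨x, hx, hxd⟩ : ∃ x : ℕ, x.Prime ∧ x ∣ Nat.card A := by
    refine ⟨(Nat.card A).minFac, Nat.minFac_prime ?_, Nat.minFac_dvd _⟩
    exact Finite.one_lt_card.ne'
  haveI := Fact.mk hx
  obtain ⟨a, ha⟩ := exists_prime_orderOf_dvd_card' x hxd
  have hcard0 : Nat.card A ≠ 0 := Nat.card_pos.ne'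
  set m := ordCompl[x] (Nat.card A) with hm
  have hxm : ¬ x ∣ m := Nat.not_dvd_ordCompl hx hcard0
  have hAm : x ^ (Nat.card A).factorization x * m = Nat.card A := Nat.ordProj_mul_ordCompl_eq_self _ x
  let h : K →* A := (powMonoidHom m).comp (Abelianization.of)
  have hmem : ∀ k : K, k ∈ h.ker ↔ ((k : G) ^ m ∈ ⁅K, K⁆) := by
    intro k
    rw [MonoidHom.mem_ker]
    have e : h k = Abelianization.of (k ^ m) := by
      simp [h, map_pow]
    rw [e]
    have e2 : Abelianization.of (k ^ m) = 1 ↔ k ^ m ∈ commutator K := by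
      exact QuotientGroup.eq_one_iff _
    rw [e2]
    have e3 : (⁅K, K⁆ : Subgroup G) = (commutator K).map K.subtype := by
      rw [Subgroup.map_subtype_commutator]
    rw [e3]
    constructor
    · intro hk
      exact ⟨k ^ m, hk, by simp⟩
    · rintro ⟨z, hz, hze⟩
      have : z = k ^ m := Subtype.ext (by simpa using hze)
      rwa [← this]
  refine ⟨x, hx, h.ker.map K.subtype, ?_, Subgroup.map_subtype_le _, ?_⟩
  · constructor
    intro y hy g
    obtain ⟨k, hk, rfl⟩ := hy
    refine ⟨⟨g * k * g⁻¹, ‹K.Normal›.conj_mem _ k.2 g⟩, ?_, rfl⟩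
    rw [SetLike.mem_coe, hmem] at *
    have := (Subgroup.commutator_normal K K).conj_mem _ hk g
    simpa [conj_pow] using this
  · have hp : IsPGroup x h.range := by
      rintro ⟨_, k, rfl⟩
      refine ⟨(Nat.card A).factorization x, ?_⟩
      apply Subtype.ext
      have : (h k) ^ (x ^ (Nat.card A).factorization x) = (Abelianization.of k) ^ (Nat.card A) := by
        simp only [h, MonoidHom.comp_apply, powMonoidHom_apply]
        rw [← pow_mul, mul_comm, hAm]
      show (h k) ^ (x ^ (Nat.card A).factorization x) = 1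
      rw [this]
      exact pow_card_eq_one'
    obtain ⟨c, hc⟩ := IsPGroup.iff_card.mp hp
    refine ⟨c, ?_, ?_⟩
    · rcases Nat.eq_zero_or_pos c with h0 | h0
      · exfalso
        rw [h0, pow_zero] at hc
        obtain ⟨k, hk⟩ := QuotientGroup.mk'_surjective (commutator K) a
        have hk' : Abelianization.of k = a := hk
        have h1 : h k = 1 := by
          have : Subsingleton h.range := (Nat.card_eq_one_iff_unique.mp hc).1
          have h2 := Subsingleton.elim (⟨h k, k, rfl⟩ : h.range) 1
          exact congrArg Subtype.val h2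
        have h3 : x ∣ m := by
          rw [← ha]
          apply orderOf_dvd_of_pow_eq_one
          rw [← hk']
          simpa [h] using h1
        exact hxm h3
      · exact h0
    · rw [Subgroup.card_map_of_injective K.subtype_injective, ← hc, ← Subgroup.index_ker h,
        Subgroup.card_mul_index]

theorem aux_induct {G : Type*} [Group G] [Finite G] (ρ : Finset ℕ)
    (hprime : ∀ r ∈ ρ, r.Prime)
    (hc : ∀ r ∈ ρ, ∀ s ∈ ρ, r ≠ s → ¬ ∃ x : G, orderOf x = r * s) (n : ℕ) :
    ∀ (K : Subgroup G), K.Normal → Group.IsSolvable K → Nat.card K = n →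
    ∀ r ∈ ρ, ∀ s ∈ ρ, ∀ t ∈ ρ, r ≠ s → r ≠ t → s ≠ t →
      r ∣ Nat.card K → s ∣ Nat.card K → t ∣ Nat.card G → False := by
  induction n using Nat.strong_induction_on with
  | _ n ih =>
    intro K hKn hKs hKc r hr s hs t ht hrs hrt hst hrK hsK htG
    have hK1 : K ≠ ⊥ := by
      rintro rfl
      rw [Subgroup.card_bot] at hrK
      exact (hprime r hr).one_lt.ne' (Nat.dvd_one.mp hrK)
    obtain ⟨x, hx, N, hNn, hNK, c, hc0, hcard⟩ := exists_prime_quotient K hKs hK1
    have hNs : Group.IsSolvable N :=
      Group.isSolvable_of_isSolvable_injective (Subgroup.inclusion_injective hNK)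
    have hNlt : Nat.card N < n := by
      rw [← hKc, hcard]
      have h1 : 1 < x ^ c := Nat.one_lt_pow hc0.ne' hx.one_lt
      have h2 : 0 < Nat.card N := Nat.card_pos
      nlinarith
    have hnotx : ∀ u, u.Prime → u ∣ Nat.card K → u ≠ x → u ∣ Nat.card N := by
      intro u hu huK hux
      rw [hcard] at huK
      rcases (Nat.Prime.dvd_mul hu).mp huK with h | h
      · exact h
      · exact absurd ((Nat.prime_dvd_prime_iff_eq hu hx).mp (hu.dvd_of_dvd_pow h)) hux
    have key : ∀ r ∈ ρ, ∀ s ∈ ρ, ∀ t ∈ ρ, r ≠ s → r ≠ t → s ≠ t →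
        r ∣ Nat.card K → s ∣ Nat.card K → t ∣ Nat.card G → ¬ r ∣ Nat.card N → False := by
      intro r hr s hs t ht hrs hrt hst hrK hsK htG hrN
      have hrx : r = x := by
        by_contra hne
        exact hrN (hnotx r (hprime r hr) hrK hne)
      subst hrx
      have hsN : s ∣ Nat.card N := hnotx s (hprime s hs) hsK (Ne.symm hrs)
      by_cases htK : t ∣ Nat.card K
      · have htN : t ∣ Nat.card N := hnotx t (hprime t ht) htK (Ne.symm hrt)
        exact ih _ hNlt N hNn hNs rfl s hs t ht r hr hst (Ne.symm hrs) (Ne.symm hrt) hsN htN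
          ((Nat.dvd_of_mem_primeFactors (by
            exact Nat.mem_primeFactors.mpr ⟨hprime r hr, hrK.trans (Subgroup.card_subgroup_dvd_card K),
              Nat.card_pos.ne'⟩)))
      · have h1 : t ∣ K.index := by
          rw [← Subgroup.card_mul_index K] at htG
          rcases (Nat.Prime.dvd_mul (hprime t ht)).mp htG with h | h
          · exact absurd h htK
          · exact h
        have h2 : N.relIndex K = r ^ c := by
          have := Subgroup.relIndex_mul_relIndex (⊥ : Subgroup G) N K bot_le hNK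
          rw [Subgroup.relIndex_bot_left, Subgroup.relIndex_bot_left, hcard] at this
          have hpos : 0 < Nat.card N := Nat.card_pos
          exact Nat.eq_of_mul_eq_mul_left hpos this
        rcases Cfsg.Agent.Lib.PrimeGraph.ThreeLevels.main N K hNK (hprime s hs) (hprime r hr)
          (hprime t ht) (Ne.symm hrs) hst hrt hsN
          (by rw [h2]; exact dvd_pow_self r hc0.ne') h1 with h | h | h
        · exact hc s hs r hr (Ne.symm hrs) h
        · exact hc s hs t ht hst h
        · exact hc r hr t ht hrt h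
    by_cases hrN : r ∣ Nat.card N
    · by_cases hsN : s ∣ Nat.card N
      · exact ih _ hNlt N hNn hNs rfl r hr s hs t ht hrs hrt hst hrN hsN htG
      · exact key s hs r hr t ht (Ne.symm hrs) hst hrt hsK hrK htG hsN
    · exact key r hr s hs t ht hrs hrt hst hrK hsK htG hrN

/-- Let G be a finite group and ρ a set of at least three prime divisors of the order of G that are pairwise non-adjacent in the prime graph (no element of order rs for distinct r, s ∈ ρ). Then at most one prime of ρ divides the order of any given solvable normal subgroup of G; in particular G is not solvable. -/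
theorem result {G : Type*} [Group G] [Finite G] (ρ : Finset ℕ) (hρ : 3 ≤ ρ.card) (hc : ((∀ r ∈ ρ, r.Prime ∧ r ∣ Nat.card G) ∧ (∀ r ∈ ρ, ∀ s ∈ ρ, r ≠ s → ¬ ∃ x : G, orderOf x = r * s)))
    (K : Subgroup G) [K.Normal] (hK : Group.IsSolvable ↥K) :
    (∀ r ∈ ρ, ∀ s ∈ ρ, r ∣ Nat.card ↥K → s ∣ Nat.card ↥K → r = s) ∧ ¬ Group.IsSolvable G := by
  obtain ⟨hp, hadj⟩ := hc
  have hprime : ∀ r ∈ ρ, r.Prime := fun r hr => (hp r hr).1
  have htop : ∀ (L : Subgroup G), L.Normal → Group.IsSolvable L →
      ∀ r ∈ ρ, ∀ s ∈ ρ, r ≠ s → r ∣ Nat.card L → s ∣ Nat.card L → False := by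
    intro L hLn hLs r hr s hs hrs hrL hsL
    obtain ⟨t, ht⟩ : ((ρ.erase r).erase s).Nonempty := by
      rw [← Finset.card_pos, Finset.card_erase_of_mem (Finset.mem_erase.mpr ⟨Ne.symm hrs, hs⟩),
        Finset.card_erase_of_mem hr]
      omega
    have hts := Finset.ne_of_mem_erase ht
    have ht2 := Finset.mem_of_mem_erase ht
    have htr := Finset.ne_of_mem_erase ht2
    have ht3 := Finset.mem_of_mem_erase ht2
    exact aux_induct ρ hprime hadj _ L hLn hLs rfl r hr s hs t ht3 hrs (Ne.symm htr) (Ne.symm hts)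
      hrL hsL (hp t ht3).2
  refine ⟨?_, ?_⟩
  · intro r hr s hs hrK hsK
    by_contra hne
    exact htop K inferInstance hK r hr s hs hne hrK hsK
  · intro hG
    obtain ⟨r, hr, s, hs, hrs⟩ := Finset.one_lt_card.mp (by omega : 1 < ρ.card)
    refine htop ⊤ inferInstance ?_ r hr s hs hrs ?_ ?_
    · exact Group.isSolvable_of_isSolvable_injective (f := (⊤ : Subgroup G).subtype) (Subgroup.subtype_injective _)
    · rw [Subgroup.card_top]; exact (hp r hr).2
    · rw [Subgroup.card_top]; exact (hp s hs).2

end Cfsg.Agent.S3633
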