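import Cfsg.Statements.S3639
import Cfsg.Agent.Lib.PrimeGraph.Lift
import Cfsg.Agent.Lib.PrimeGraph.Suzuki

set_option autoImplicit false
open Cfsg

namespace Cfsg.Agent.S3639

open scoped Matrix MatrixGroups

/-- Let S be the Suzuki group over the field with q = 2^(2m+1) ≥ 8 elements. Then there are finite groups of arbitrarily large order with the same prime graph as S. -/
theorem result {F : Type*} [Field F] [Fintype F] {m : ℕ} (hm : 1 ≤ m) (hF : Fintype.card F = 2 ^ (2 * m + 1)) (N : ℕ) :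
    ∃ (H : Type) (_ : Group H) (_ : Fintype H), N < Fintype.card H ∧ ((∀ r : ℕ, r.Prime → (r ∣ Nat.card ↥(Cfsg.Lie.Sz F (2 ^ (m + 1))) ↔ r ∣ Nat.card H)) ∧
      (∀ r s : ℕ, r.Prime → s.Prime → r ≠ s → ((∃ x : ↥(Cfsg.Lie.Sz F (2 ^ (m + 1))), orderOf x = r * s) ↔ (∃ y : H, orderOf y = r * s)))) := by
  classical

  have h2 : (2 : F) = 0 := by
    have h := FiniteField.cast_card_eq_zero F
    rw [hF] at h
    push_cast at h
    exact pow_eq_zero_iff (by omega) |>.mp h
  have hfac : Fact (Nat.Prime 2) := ⟨Nat.prime_two⟩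
  have hchar : CharP F 2 := CharTwo.of_one_ne_zero_of_two_eq_zero one_ne_zero h2
  have hexp : ExpChar F 2 := ExpChar.prime Nat.prime_two
  let e : ℕ := 2 ^ (m + 1)
  let f : F →+* F := iterateFrobenius F 2 (m + 1)
  have hf : ∀ x, f x = x ^ e := fun x => iterateFrobenius_def 2 (m + 1) x
  have hfinM : Finite (Matrix (Fin 4) (Fin 4) F) := inferInstanceAs (Finite (Fin 4 → Fin 4 → F))
  have hfinG : Finite (GL (Fin 4) F) :=
    Finite.of_injective (fun g : GL (Fin 4) F => (g : Matrix (Fin 4) (Fin 4) F)) Units.val_injective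
  let S := ↥(Cfsg.Lie.Sz F e)
  let act : S → (Fin 4 → F) → (Fin 4 → F) := fun s v => ((s : GL (Fin 4) F) : Matrix (Fin 4) (Fin 4) F) *ᵥ v
  refine Cfsg.Agent.Lib.PrimeGraph.Lift.exists_lift (S := S) act ?_ ?_ ?_ ?_ ?_ ?_ ?_ N
  · intro w
    simp [act]
  · intro a b w
    simp only [act, Matrix.mulVec_mulVec]
    rfl
  · intro s x y
    simp [act, Matrix.mulVec_add]
  · intro w
    rw [← two_smul F w, h2, zero_smul]
  · refine ⟨Pi.single 0 1, ?_⟩
    intro h
    have := congrFun h 0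
    simp at this
  · -- `2` divides the order
    let t : S := ⟨Cfsg.Agent.Lib.PrimeGraph.Suzuki.invUnit h2,
      Cfsg.Agent.Lib.PrimeGraph.Suzuki.invUnit_mem h2 e (by positivity)⟩
    have ht2 : t ^ 2 = 1 := by
      apply Subtype.ext
      apply Units.ext
      simp only [t, sq]
      exact Cfsg.Agent.Lib.PrimeGraph.Suzuki.invMat_mul_self h2
    have ht1 : t ≠ 1 := by
      intro h
      have h3 := congrArg (fun z : S => ((z : GL (Fin 4) F) : Matrix (Fin 4) (Fin 4) F) 2 0) h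
      simp [t, Cfsg.Agent.Lib.PrimeGraph.Suzuki.invUnit, Cfsg.Agent.Lib.PrimeGraph.Suzuki.invMat] at h3
    have hord : orderOf t = 2 := orderOf_eq_prime ht2 ht1
    rw [← hord]
    exact orderOf_dvd_natCard t
  · intro y q hq hq2 hyq w hw
    by_contra hw0
    have hg := Cfsg.Agent.Lib.PrimeGraph.Suzuki.mem_good h2 e f hf y.2
    have hstar : Cfsg.Lie.star4 ((y : GL (Fin 4) F) : Matrix (Fin 4) (Fin 4) F) =
        ((y : GL (Fin 4) F) : Matrix (Fin 4) (Fin 4) F).map f := by
      have hfun : (fun x : F => x ^ e) = ⇑f := funext fun x => (hf x).symm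
      rw [hg.2, hfun]
    have h4 := Cfsg.Agent.Lib.PrimeGraph.Suzuki.pow_four_eq_one h2 f hg.1 hstar hw0 hw
    have h5 : y ^ 4 = 1 := by
      apply Subtype.ext
      apply Units.ext
      have h9 : (((y ^ 4 : S) : GL (Fin 4) F) : Matrix (Fin 4) (Fin 4) F) =
          ((y : GL (Fin 4) F) : Matrix (Fin 4) (Fin 4) F) ^ 4 := rfl
      rw [h9, h4]
      rfl
    have h6 : q ∣ 4 := by
      rw [← hyq]
      exact orderOf_dvd_of_pow_eq_one h5
    have h7 : q ∣ 2 ^ 2 := by simpa using h6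
    have h8 := hq.dvd_of_dvd_pow h7
    exact hq2 ((Nat.prime_dvd_prime_iff_eq hq Nat.prime_two).mp h8)

end Cfsg.Agent.S3639
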