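import Cfsg.Statements.S3663
import Cfsg.Agent.Lib.PrimeGraph.U34Mod
import Cfsg.Agent.Lib.PrimeGraph.SUCongr

set_option autoImplicit false
open Cfsg

namespace Cfsg.Agent.S3663

/-- The prime graph of a finite group has the prime divisors of its order as vertices, two distinct primes p, q being joined when the group has an element of order pq; two groups have the same prime graph when they have the same prime divisors and the same joined pairs. Let F be the field with 16 elements and L = PSU(3,4) realised over F. There are finite groups of arbitrarily large order with the same prime graph as L. -/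
theorem result {F : Type*} [Field F] [Fintype F] (hF : Fintype.card F = 16) (N : ℕ) :
    ∃ (H : Type) (_ : Group H) (_ : Finite H), N < Nat.card H ∧
      ((∀ p : ℕ, p.Prime → (p ∣ Nat.card (Cfsg.PSU 3 F 4) ↔ p ∣ Nat.card H)) ∧
      (∀ p q : ℕ, p.Prime → q.Prime → p ≠ q → ((∃ g : (Cfsg.PSU 3 F 4), orderOf g = p * q) ↔ (∃ g : H, orderOf g = p * q)))) := by
  classical
  have hK : Fintype.card F = Fintype.card Cfsg.Agent.Lib.PrimeGraph.K16Field.K16 := by
    rw [hF, Cfsg.Agent.Lib.PrimeGraph.K16Field.K16.card_eq]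
  obtain ⟨e3⟩ := Cfsg.Agent.Lib.PrimeGraph.SUCongr.nonempty_su_congr (FiniteField.ringEquivOfCardEq hK) 3 4
  have hK' : Fintype.card F = 4 ^ 2 := by rw [hF]; norm_num
  have hc := Cfsg.Agent.Lib.Classical.HermOrders.card_center_SU (F := F) (q := 4) hK' 3 (by norm_num)
  have hbot : Subgroup.center (Cfsg.SU 3 F 4) = ⊥ := by
    apply Subgroup.eq_bot_of_card_eq
    rw [hc]
    norm_num
  have e4 : Cfsg.PSU 3 F 4 ≃* Cfsg.SU 3 F 4 :=
    (QuotientGroup.quotientMulEquivOfEq hbot).trans QuotientGroup.quotientBot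
  let e := e4.trans e3
  obtain ⟨H, gH, fH, hN, h1, h2⟩ := Cfsg.Agent.Lib.PrimeGraph.U34Mod.main_K N
  refine ⟨H, gH, inferInstance, by rwa [Nat.card_eq_fintype_card], fun p hp => ?_, fun p q hp hq hpq => ?_⟩
  · rw [Nat.card_congr e.toEquiv]
    exact h1 p hp
  · rw [← h2 p q hp hq hpq]
    constructor
    · rintro ⟨g, hg⟩
      exact ⟨e g, by rw [MulEquiv.orderOf_eq]; exact hg⟩
    · rintro ⟨g, hg⟩
      exact ⟨e.symm g, by rw [MulEquiv.orderOf_eq]; exact hg⟩

end Cfsg.Agent.S3663
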