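-- under Cfsg/Agent/.
import Cfsg.Statements.S3670
import Cfsg.Agent.Lib.IrrCert.U33
import Cfsg.Agent.Lib.IrrCert.SmallH
import Cfsg.Agent.Lib.Chev.G22
import Cfsg.Agent.Lib.Char.Product
import Cfsg.Agent.Lib.Char.Burnside
import Cfsg.Agent.Lib.GL2.PSLDeg

set_option autoImplicit false
open Cfsg

namespace Cfsg.Agent.S3670

open Cfsg.Agent.Lib.PermComp Cfsg.Agent.Lib.PermComp.Core Cfsg.Agent.Lib.IrrCert.Perm
  Cfsg.Agent.Lib.IrrCert.SmallH Cfsg.Agent.Lib.Char.Product Cfsg.Agent.Lib.Char.Degree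

/-- Primes dividing `6048`. -/
theorem prime_of_dvd {p : ℕ} (hp : p.Prime) (h : p ∣ 6048) : p = 2 ∨ p = 3 ∨ p = 7 := by
  have h1 : (6048 : ℕ) = 2 ^ 5 * 3 ^ 3 * 7 := by norm_num
  rw [h1] at h
  rcases (Nat.Prime.dvd_mul hp).1 h with h | h
  · rcases (Nat.Prime.dvd_mul hp).1 h with h | h
    · exact Or.inl ((Nat.prime_dvd_prime_iff_eq hp Nat.prime_two).1 (hp.dvd_of_dvd_pow h))
    · exact Or.inr (Or.inl ((Nat.prime_dvd_prime_iff_eq hp Nat.prime_three).1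
        (hp.dvd_of_dvd_pow h)))
  · exact Or.inr (Or.inr ((Nat.prime_dvd_prime_iff_eq hp (by norm_num)).1 h))

/-- A group of order `6048` with irreducible characters of degrees divisible by `6`, `14` and `21`
has the complete degree graph on `{2, 3, 7}`. -/
theorem graph_complete {G : Type*} [Group G] [Finite G] (hc : Nat.card G = 6048)
    (h6 : ∃ χ : G → ℂ, IsIrrCharacter G χ ∧ 6 ∣ charDegree χ)
    (h14 : ∃ χ : G → ℂ, IsIrrCharacter G χ ∧ 14 ∣ charDegree χ)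
    (h21 : ∃ χ : G → ℂ, IsIrrCharacter G χ ∧ 21 ∣ charDegree χ) :
    degreePrimes G = {2, 3, 7} ∧ ∀ p q, (degreeGraph G).Adj p q ↔
      p ≠ q ∧ (p = 2 ∨ p = 3 ∨ p = 7) ∧ (q = 2 ∨ q = 3 ∨ q = 7) := by
  obtain ⟨χ6, hχ6, h6'⟩ := h6
  obtain ⟨χ14, hχ14, h14'⟩ := h14
  obtain ⟨χ21, hχ21, h21'⟩ := h21
  have hm6 : charDegree χ6 ∈ charDegrees G := ⟨⟨χ6, hχ6⟩, rfl⟩
  have hm14 : charDegree χ14 ∈ charDegrees G := ⟨⟨χ14, hχ14⟩, rfl⟩
  have hm21 : charDegree χ21 ∈ charDegrees G := ⟨⟨χ21, hχ21⟩, rfl⟩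
  have hdiv : ∀ d ∈ charDegrees G, d ∣ 6048 := by
    rintro d ⟨χ, rfl⟩
    rw [← hc]
    exact charDegree_dvd_card χ.2
  have hpr : ∀ p, p.Prime → ∀ d ∈ charDegrees G, p ∣ d → p = 2 ∨ p = 3 ∨ p = 7 :=
    fun p hp d hd hpd => prime_of_dvd hp (hpd.trans (hdiv d hd))
  have h2p : Nat.Prime 2 := Nat.prime_two
  have h3p : Nat.Prime 3 := Nat.prime_three
  have h7p : Nat.Prime 7 := by norm_num
  constructor
  · ext p
    simp only [degreePrimes, Set.mem_ofPred_eq, Set.mem_insert_iff, Set.mem_singleton_iff]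
    constructor
    · rintro ⟨hp, d, hd, hpd⟩
      exact hpr p hp d hd hpd
    · rintro (rfl | rfl | rfl)
      · exact ⟨h2p, _, hm6, (by norm_num : 2 ∣ 6).trans h6'⟩
      · exact ⟨h3p, _, hm6, (by norm_num : 3 ∣ 6).trans h6'⟩
      · exact ⟨h7p, _, hm14, (by norm_num : 7 ∣ 14).trans h14'⟩
  · intro p q
    constructor
    · rintro ⟨hne, hp, hq, d, hd, hpq⟩
      exact ⟨hne, hpr p hp d hd ((Nat.dvd_mul_right p q).trans hpq),
        hpr q hq d hd ((Nat.dvd_mul_left q p).trans hpq)⟩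
    · rintro ⟨hne, hp, hq⟩
      rcases hp with rfl | rfl | rfl <;> rcases hq with rfl | rfl | rfl
      · exact absurd rfl hne
      · exact ⟨hne, h2p, h3p, _, hm6, h6'⟩
      · exact ⟨hne, h2p, h7p, _, hm14, h14'⟩
      · exact ⟨hne, h3p, h2p, _, hm6, h6'⟩
      · exact absurd rfl hne
      · exact ⟨hne, h3p, h7p, _, hm21, h21'⟩
      · exact ⟨hne, h7p, h2p, _, hm14, h14'⟩
      · exact ⟨hne, h7p, h3p, _, hm21, h21'⟩
      · exact absurd rfl hne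

/-- The permutation group of order `6048`. -/
abbrev GU := Core.H 9 511 (Equiv.refl (Fin 63)) Cfsg.Agent.Lib.Chev.G22Data.cA_T

theorem gl_dvd6 : ∃ χ : GU → ℂ, IsIrrCharacter GU χ ∧ 6 ∣ charDegree χ :=
  exists_irr_dvd_of_checkAll Cfsg.Agent.Lib.Chev.G22.exists_repA
    Cfsg.Agent.Lib.Chev.G22Data.cA_ok Cfsg.Agent.Lib.IrrCert.U33.grp1 Cfsg.Agent.Lib.IrrCert.U33.ar6

theorem gl_dvd21 : ∃ χ : GU → ℂ, IsIrrCharacter GU χ ∧ 21 ∣ charDegree χ :=
  exists_irr_dvd_of_checkAll Cfsg.Agent.Lib.Chev.G22.exists_repA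
    Cfsg.Agent.Lib.Chev.G22Data.cA_ok Cfsg.Agent.Lib.IrrCert.U33.grp1 Cfsg.Agent.Lib.IrrCert.U33.ar21

theorem gl_dvd14 : ∃ χ : GU → ℂ, IsIrrCharacter GU χ ∧ 14 ∣ charDegree χ :=
  exists_irr_dvd_of_checkAll Cfsg.Agent.Lib.Chev.G22.exists_repA
    Cfsg.Agent.Lib.Chev.G22Data.cA_ok Cfsg.Agent.Lib.IrrCert.U33.grp2 Cfsg.Agent.Lib.IrrCert.U33.ar14

/-- The isomorphism with the unitary group. -/
theorem nonempty_psu_equiv {F : Type*} [Field F] [Fintype F] (hF : Fintype.card F = 9) :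
    Nonempty (PSU 3 F 3 ≃* GU) := by
  open Cfsg.Agent.Lib.Chev.G22 Cfsg.Agent.Lib.Small.F9 in
  obtain ⟨e3'⟩ := A_equiv_B
  obtain ⟨e4'⟩ := nonempty_SU_equiv
  have hK9 : Fintype.card F = Fintype.card Fnine := by rw [hF, Fnine.card_eq]
  obtain ⟨e3⟩ := nonempty_su_congr (FiniteField.ringEquivOfCardEq hK9) 3 3
  have hK' : Fintype.card F = 3 ^ 2 := by rw [hF]; norm_num
  have hc := Cfsg.Agent.Lib.Classical.HermOrders.card_center_SU (F := F) (q := 3) hK' 3 (by norm_num)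
  have hbot : Subgroup.center (Cfsg.SU 3 F 3) = ⊥ := by
    apply Subgroup.eq_bot_of_card_eq
    rw [hc]
    norm_num
  have e4 : Cfsg.PSU 3 F 3 ≃* Cfsg.SU 3 F 3 :=
    (QuotientGroup.quotientMulEquivOfEq hbot).trans QuotientGroup.quotientBot
  exact ⟨e4.trans (e3.trans (e4'.trans e3'.symm))⟩

/-- The group of order `56`. -/
abbrev GA := Core.H gA_w gA_mask (Equiv.refl (Fin gA_n)) gA_T

/-- The group of order `108`. -/
abbrev GB := Core.H gB_w gB_mask (Equiv.refl (Fin gB_n)) gB_T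

theorem ga_rep : ∀ c ∈ gA_T, ∃ g, Rep gA_w gA_mask (Equiv.refl (Fin gA_n)) c g :=
  exists_rep_of_checkAll (e := Equiv.refl (Fin gA_n)) gA_check gA_valid

theorem gb_rep : ∀ c ∈ gB_T, ∃ g, Rep gB_w gB_mask (Equiv.refl (Fin gB_n)) c g :=
  exists_rep_of_checkAll (e := Equiv.refl (Fin gB_n)) gB_check gB_valid

theorem ga_card : Nat.card GA = 56 := by
  obtain ⟨-, -, -, -, -, h⟩ := main_of_checkAll (e := Equiv.refl (Fin gA_n)) ga_rep gA_check
  rw [h, gA_order]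

theorem gb_card : Nat.card GB = 108 := by
  obtain ⟨-, -, -, -, -, h⟩ := main_of_checkAll (e := Equiv.refl (Fin gB_n)) gb_rep gB_check
  rw [h, gB_order]

theorem ga_dvd : ∃ χ : GA → ℂ, IsIrrCharacter GA χ ∧ 7 ∣ charDegree χ :=
  exists_irr_dvd_of_checkAll ga_rep gA_check gA_grp gA_ar

theorem gb_dvd : ∃ χ : GB → ℂ, IsIrrCharacter GB χ ∧ 6 ∣ charDegree χ :=
  exists_irr_dvd_of_checkAll gb_rep gB_check gB_grp gB_ar

theorem gab_dvd : ∃ χ : GA × GB → ℂ, IsIrrCharacter (GA × GB) χ ∧ 42 ∣ charDegree χ := by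
  obtain ⟨φ, hφ, h7⟩ := ga_dvd
  obtain ⟨ψ, hψ, h6⟩ := gb_dvd
  refine ⟨tensorFun φ ψ, isIrr_tensorFun hφ hψ, ?_⟩
  have h1 : charDegree (tensorFun φ ψ) = charDegree φ * charDegree ψ := by
    have h2 := Cfsg.Agent.Lib.Char.Degree.charDegree_natCast
      (Cfsg.Agent.Lib.Char.Basic.isCharacter_of_isIrrCharacter (isIrr_tensorFun hφ hψ))
    have h3 := Cfsg.Agent.Lib.Char.Degree.charDegree_natCast
      (Cfsg.Agent.Lib.Char.Basic.isCharacter_of_isIrrCharacter hφ)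
    have h4 := Cfsg.Agent.Lib.Char.Degree.charDegree_natCast
      (Cfsg.Agent.Lib.Char.Basic.isCharacter_of_isIrrCharacter hψ)
    have h5 : (charDegree (tensorFun φ ψ) : ℂ) = ((charDegree φ * charDegree ψ : ℕ) : ℂ) := by
      rw [h2]
      push_cast
      rw [h3, h4]
      rfl
    exact_mod_cast h5
  rw [h1]
  exact (by norm_num : 42 = 7 * 6) ▸ Nat.mul_dvd_mul h7 h6

/-- **S3670** -/
theorem result {F : Type*} [Field F] [Fintype F] (hF : Fintype.card F = 9) :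
    ∃ (H : Type) (_ : Group H) (_ : Fintype H), Group.IsSolvable H ∧ Nat.card H = 6048 ∧ Cfsg.degreePrimes H = Cfsg.degreePrimes (Cfsg.PSU 3 F 3) ∧ Cfsg.degreeGraph H = Cfsg.degreeGraph (Cfsg.PSU 3 F 3) := by
  obtain ⟨e⟩ := nonempty_psu_equiv hF
  have hA : Group.IsSolvable GA :=
    Cfsg.Agent.Lib.Char.Burnside.isSolvable_of_card_eq 2 7 3 1 Nat.prime_two (by norm_num)
      (by rw [ga_card]; norm_num)
  have hB : Group.IsSolvable GB :=
    Cfsg.Agent.Lib.Char.Burnside.isSolvable_of_card_eq 2 3 2 3 Nat.prime_two Nat.prime_three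
      (by rw [gb_card]; norm_num)
  have hcard : Nat.card (GA × GB) = 6048 := by
    rw [Nat.card_prod, ga_card, gb_card]
  obtain ⟨χ, hχ, h42⟩ := gab_dvd
  have hH := graph_complete hcard ⟨χ, hχ, (by norm_num : 6 ∣ 42).trans h42⟩
    ⟨χ, hχ, (by norm_num : 14 ∣ 42).trans h42⟩ ⟨χ, hχ, (by norm_num : 21 ∣ 42).trans h42⟩
  have hG := graph_complete Cfsg.Agent.Lib.Chev.G22.card_A gl_dvd6 gl_dvd14 gl_dvd21
  have hdeg : charDegrees (PSU 3 F 3) = charDegrees GU :=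
    Cfsg.Agent.Lib.GL2.PSLDeg.charDegrees_of_equiv e
  have hP : degreePrimes (PSU 3 F 3) = degreePrimes GU := by
    simp only [degreePrimes, hdeg]
  have hQ : degreeGraph (PSU 3 F 3) = degreeGraph GU := by
    ext p q
    simp only [degreeGraph, hdeg]
  refine ⟨GA × GB, inferInstance, Fintype.ofFinite _, inferInstance, hcard, ?_, ?_⟩
  · rw [hP, hH.1, hG.1]
  · rw [hQ]
    ext p q
    rw [hH.2, hG.2]

end Cfsg.Agent.S3670
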