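import Cfsg.Statements.S3678
import Cfsg.Agent.Lib.PrimeGraph.SL2
import Cfsg.Agent.Lib.Classical.AltIso
import Cfsg.Agent.Lib.Classical.SL2Sylow

set_option autoImplicit false
open Cfsg

namespace Cfsg.Agent.S3678

open Cfsg.Agent.Lib.PrimeGraph.SL2
open scoped MatrixGroups

section
variable {F : Type*} [Field F] (t : F)
theorem cheb_2 : cheb t 2 = t := by
  show t * cheb t 1 - cheb t 0 = t
  rw [cheb_one, cheb_zero]; ring
theorem cheb_3 : cheb t 3 = t ^ 2 - 1 := by
  show t * cheb t 2 - cheb t 1 = _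
  rw [cheb_2, cheb_one]; ring
theorem cheb_4 : cheb t 4 = t ^ 3 - 2 * t := by
  show t * cheb t 3 - cheb t 2 = _
  rw [cheb_3, cheb_2]; ring
theorem cheb_5 : cheb t 5 = t ^ 4 - 3 * t ^ 2 + 1 := by
  show t * cheb t 4 - cheb t 3 = _
  rw [cheb_4, cheb_3]; ring
theorem cheb_6 : cheb t 6 = t ^ 5 - 4 * t ^ 3 + 3 * t := by
  show t * cheb t 5 - cheb t 4 = _
  rw [cheb_5, cheb_4]; ring
theorem cheb_7 : cheb t 7 = t ^ 6 - 5 * t ^ 4 + 6 * t ^ 2 - 1 := by
  show t * cheb t 6 - cheb t 5 = _
  rw [cheb_6, cheb_5]; ring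
theorem cheb_8 : cheb t 8 = t ^ 7 - 6 * t ^ 5 + 10 * t ^ 3 - 4 * t := by
  show t * cheb t 7 - cheb t 6 = _
  rw [cheb_7, cheb_6]; ring
theorem cheb_9 : cheb t 9 = t ^ 8 - 7 * t ^ 6 + 15 * t ^ 4 - 10 * t ^ 2 + 1 := by
  show t * cheb t 8 - cheb t 7 = _
  rw [cheb_8, cheb_7]; ring
end

/-- If `x ^ n` is a scalar `s` with `s² = 1`, the image of `x` in `PSL₂` has `n`-th power 1. -/
theorem psl_pow_eq_one {F : Type*} [Field F] (x : SL(2, F)) (n : ℕ) (s : F) (hs : s ^ 2 = 1)
    (h : (x : Matrix (Fin 2) (Fin 2) F) ^ n = s • (1 : Matrix (Fin 2) (Fin 2) F)) :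
    (QuotientGroup.mk x : Matrix.ProjectiveSpecialLinearGroup (Fin 2) F) ^ n = 1 := by
  rw [← QuotientGroup.mk_pow, QuotientGroup.eq_one_iff]
  rw [Matrix.SpecialLinearGroup.mem_center_iff]
  refine ⟨s, by simpa using hs, ?_⟩
  rw [Matrix.SpecialLinearGroup.coe_pow, h]
  ext i j
  simp [Matrix.one_apply, Matrix.diagonal_apply]

/-- Orders in `PSL₂(7)`. -/
theorem psl7_pow {F : Type*} [Field F] [Fintype F] (hF : Fintype.card F = 7)
    (g : Matrix.ProjectiveSpecialLinearGroup (Fin 2) F) : g ^ 3 = 1 ∨ g ^ 4 = 1 ∨ g ^ 7 = 1 := by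
  have h7 : (7 : F) = 0 := by
    have h := FiniteField.cast_card_eq_zero F
    rw [hF] at h
    exact_mod_cast h
  obtain ⟨x, rfl⟩ := QuotientGroup.mk_surjective g
  · set t := tr2 (x : Matrix (Fin 2) (Fin 2) F) with ht
    have htt : t ^ 7 = t := by
      have := FiniteField.pow_card t
      rwa [hF] at this
    have hprod : t * ((t ^ 2 - 1) * ((t ^ 2 - 2) * (t ^ 2 - 4))) = 0 := by
      linear_combination htt + (-t ^ 5 + 2 * t ^ 3 - t) * h7
    rcases mul_eq_zero.mp hprod with h0 | hprod
    · -- trace zero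
      right; left
      have h2 := pow_eq x 1
      rw [← ht] at h2
      have h3 : (x : Matrix (Fin 2) (Fin 2) F) ^ 2 = (-1 : F) • (1 : Matrix (Fin 2) (Fin 2) F) := by
        rw [h2, cheb_2, cheb_one, h0]
        simp
      have h4 : (x : Matrix (Fin 2) (Fin 2) F) ^ 4 = (1 : F) • (1 : Matrix (Fin 2) (Fin 2) F) := by
        rw [show 4 = 2 * 2 from rfl, pow_mul, h3]
        simp [sq]
      exact psl_pow_eq_one x 4 1 (by simp) h4
    rcases mul_eq_zero.mp hprod with h1 | hprod
    · left
      have h2 := pow_eq x 2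
      rw [← ht] at h2
      have ht2 : t ^ 2 = 1 := sub_eq_zero.mp h1
      refine psl_pow_eq_one x 3 (-t) (by rw [neg_sq, ht2]) ?_
      rw [h2]
      have e3 : cheb t 3 = 0 := by
        rw [cheb_3]
        linear_combination h1
      rw [e3, cheb_2]
      simp
    rcases mul_eq_zero.mp hprod with h1 | h1
    · right; left
      have h2 := pow_eq x 3
      rw [← ht] at h2
      refine psl_pow_eq_one x 4 (-1) (by simp) ?_
      rw [h2]
      have e4 : cheb t 4 = 0 := by
        rw [cheb_4]
        linear_combination t * h1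
      have e3 : cheb t 3 = 1 := by
        rw [cheb_3]
        linear_combination h1
      rw [e4, e3]
      simp
    · right; right
      have h2 := pow_eq x 6
      rw [← ht] at h2
      have ht2 : t ^ 2 = 4 := sub_eq_zero.mp h1
      refine psl_pow_eq_one x 7 (-(3 * t)) ?_ ?_
      · rw [neg_sq, mul_pow, ht2]
        linear_combination 5 * h7
      rw [h2]
      have e7 : cheb t 7 = 0 := by
        rw [cheb_7]
        linear_combination (t ^ 4 - t ^ 2 + 2) * h1 + h7
      have e6 : cheb t 6 = 3 * t := by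
        rw [cheb_6]
        linear_combination (t ^ 3) * h1
      rw [e7, e6]
      simp

/-- Orders in `SL₂(8)`. -/
theorem sl8_pow {K : Type*} [Field K] [Fintype K] (hK : Fintype.card K = 8) (h2 : (2 : K) = 0)
    (y : SL(2, K)) : y ^ 2 = 1 ∨ y ^ 7 = 1 ∨ y ^ 9 = 1 := by
  have hcoe : ∀ n : ℕ, (y : Matrix (Fin 2) (Fin 2) K) ^ n = (1 : K) • (1 : Matrix (Fin 2) (Fin 2) K) →
      y ^ n = 1 := by
    intro n h
    apply Subtype.ext
    rw [Matrix.SpecialLinearGroup.coe_pow, h, Matrix.SpecialLinearGroup.coe_one, one_smul]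
  set t := tr2 (y : Matrix (Fin 2) (Fin 2) K) with ht
  have htt : t ^ 8 = t := by
    have := FiniteField.pow_card t
    rwa [hK] at this
  have hm1 : (-1 : K) = 1 := by linear_combination (-1) * h2
  have hm1M : (-1 : Matrix (Fin 2) (Fin 2) K) = 1 := by
    have : (-1 : Matrix (Fin 2) (Fin 2) K) = (-1 : K) • (1 : Matrix (Fin 2) (Fin 2) K) := by simp
    rw [this, hm1, one_smul]
  by_cases h0 : t = 0
  · left
    apply hcoe
    have h3 := pow_eq y 1
    rw [← ht] at h3
    rw [h3, cheb_2, cheb_one, h0]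
    simp [hm1M]
  · right
    have ht7 : t ^ 7 = 1 := by
      have : t * (t ^ 7 - 1) = 0 := by linear_combination htt
      rcases mul_eq_zero.mp this with h | h
      · exact absurd h h0
      · exact sub_eq_zero.mp h
    have hprod : (t ^ 6 + t ^ 4 + 1) * (t ^ 6 + t ^ 4 + t + 1) = 0 := by
      linear_combination (t ^ 5 + t + 1) * ht7 + (t ^ 10 + t ^ 6 + t ^ 5 + t ^ 4 + t + 1) * h2
    rcases mul_eq_zero.mp hprod with h | h
    · left
      apply hcoe
      have h3 := pow_eq y 6
      rw [← ht] at h3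
      have e7 : cheb t 7 = 0 := by
        rw [cheb_7]
        linear_combination h + (-3 * t ^ 4 + 3 * t ^ 2 - 1) * h2
      have e6 : cheb t 6 = -1 := by
        rw [cheb_6]
        linear_combination t * h - ht7 + (t - 2 * t ^ 3) * h2
      rw [h3, e7, e6]
      simp
    · right
      apply hcoe
      have h3 := pow_eq y 8
      rw [← ht] at h3
      have e9 : cheb t 9 = 0 := by
        rw [cheb_9]
        linear_combination h + t * ht7 + (-4 * t ^ 6 + 7 * t ^ 4 - 5 * t ^ 2) * h2
      have e8 : cheb t 8 = -1 := by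
        rw [cheb_8]
        linear_combination ht7 + (1 - 3 * t ^ 5 + 5 * t ^ 3 - 2 * t) * h2
      rw [h3, e9, e8]
      simp

theorem not_dvd_prime_pow (p q r k : ℕ) (hp : p.Prime) (hq : q.Prime) (hr : r.Prime) (hpq : p ≠ q) :
    ¬ p * q ∣ r ^ k := by
  intro h
  have h1 : p ∣ r ^ k := dvd_trans (dvd_mul_right _ _) h
  have h2 : q ∣ r ^ k := dvd_trans (dvd_mul_left _ _) h
  have h3 := (Nat.prime_dvd_prime_iff_eq hp hr).mp (hp.dvd_of_dvd_pow h1)
  have h4 := (Nat.prime_dvd_prime_iff_eq hq hr).mp (hq.dvd_of_dvd_pow h2)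
  exact hpq (h3.trans h4.symm)

/-- The prime graph of a finite group has the prime divisors of its order as vertices, two distinct primes p, q being joined when the group has an element of order pq; two groups have the same prime graph when they have the same prime divisors and the same joined pairs. Let F be the field with 7 elements. There are finite groups of arbitrarily large order with the same prime graph as PSL(2,F) (the graph on {2, 3, 7} with no edges, which is also the prime graph of PSL(2,8)). -/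
theorem result {F : Type*} [Field F] [Fintype F] (hF : Fintype.card F = 7) (N : ℕ) :
    ∃ (H : Type) (_ : Group H) (_ : Finite H), N < Nat.card H ∧
      ((∀ p : ℕ, p.Prime → (p ∣ Nat.card (Matrix.ProjectiveSpecialLinearGroup (Fin 2) F) ↔ p ∣ Nat.card H)) ∧
      (∀ p q : ℕ, p.Prime → q.Prime → p ≠ q → ((∃ g : (Matrix.ProjectiveSpecialLinearGroup (Fin 2) F), orderOf g = p * q) ↔ (∃ g : H, orderOf g = p * q)))) := by
  classical
  let K := GaloisField 2 3
  have : Fact (Nat.Prime 2) := ⟨Nat.prime_two⟩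
  have hKf : Finite K := by
    apply Nat.finite_of_card_ne_zero
    rw [GaloisField.card 2 3 (by norm_num)]
    norm_num
  let fK : Fintype K := Fintype.ofFinite K
  have hK : Fintype.card K = 8 := by
    rw [← Nat.card_eq_fintype_card, GaloisField.card 2 3 (by norm_num)]
    norm_num
  have h2 : (2 : K) = 0 := by
    have := CharP.cast_eq_zero K 2
    exact_mod_cast this
  obtain ⟨H, gH, fH, hN, hp, hq⟩ := Cfsg.Agent.Lib.PrimeGraph.SL2.exists_lift_SL2 (F := K) h2 N
  have hcardK : Nat.card (SL(2, K)) = 504 := by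
    rw [Cfsg.Agent.Lib.Classical.SL2Sylow.card_SL2, hK]
  have hcardF : Nat.card (Matrix.ProjectiveSpecialLinearGroup (Fin 2) F) = 168 := by
    have h1 := Cfsg.Agent.Lib.Classical.AltIso.card_psl_two_mul (F := F)
    rw [hF] at h1
    have h3 : Nat.gcd (7 - 1) 2 = 2 := by decide
    rw [h3] at h1
    omega
  refine ⟨H, gH, inferInstance, ?_, ?_, ?_⟩
  · rw [Nat.card_eq_fintype_card]
    exact hN
  · intro p hpp
    rw [← hp p hpp, hcardF, hcardK]
    constructor
    · intro h
      exact h.trans (by norm_num)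
    · intro h
      have h504 : (504 : ℕ) = 168 * 3 := by norm_num
      rw [h504] at h
      rcases (Nat.Prime.dvd_mul hpp).mp h with h3 | h3
      · exact h3
      · have := (Nat.prime_dvd_prime_iff_eq hpp Nat.prime_three).mp h3
        rw [this]
        norm_num
  · intro r q hr hq' hrq
    rw [← hq r q hr hq' hrq]
    constructor
    · rintro ⟨g, hg⟩
      exfalso
      have hord : ∀ n, g ^ n = 1 → r * q ∣ n := fun n h => hg ▸ orderOf_dvd_of_pow_eq_one h
      rcases psl7_pow hF g with h | h | h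
      · exact not_dvd_prime_pow r q 3 1 hr hq' Nat.prime_three hrq (by simpa using hord 3 h)
      · exact not_dvd_prime_pow r q 2 2 hr hq' Nat.prime_two hrq (by simpa using hord 4 h)
      · exact not_dvd_prime_pow r q 7 1 hr hq' (by norm_num) hrq (by simpa using hord 7 h)
    · rintro ⟨g, hg⟩
      exfalso
      have hord : ∀ n, g ^ n = 1 → r * q ∣ n := fun n h => hg ▸ orderOf_dvd_of_pow_eq_one h
      rcases sl8_pow hK h2 g with h | h | h
      · exact not_dvd_prime_pow r q 2 1 hr hq' Nat.prime_two hrq (by simpa using hord 2 h)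
      · exact not_dvd_prime_pow r q 7 1 hr hq' (by norm_num) hrq (by simpa using hord 7 h)
      · exact not_dvd_prime_pow r q 3 2 hr hq' Nat.prime_three hrq (by simpa using hord 9 h)

end Cfsg.Agent.S3678
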