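import Cfsg.Statements.S3683
-- import your own Cfsg.Agent.* helpers here

set_option autoImplicit false
open Cfsg

namespace Cfsg.Agent.S3683

/-- Let a finite group G act faithfully and primitively on a set Ω, and suppose the stabilizer of a point a fixes a second point b ≠ a (a suborbit of length 1 other than {a}). Then the stabilizer of a is trivial and G is cyclic of prime order. -/
theorem result {G Ω : Type*} [Group G] [Finite G] [MulAction G Ω] [FaithfulSMul G Ω] [Finite Ω]
    (hprim : MulAction.IsPreprimitive G Ω) (a b : Ω) (hab : a ≠ b) (hfix : ∀ g : G, g • a = a → g • b = b) :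
    MulAction.stabilizer G a = ⊥ ∧ IsCyclic G ∧ (Nat.card G).Prime := by
  classical
  have := hprim
  have : Nontrivial Ω := ⟨⟨a, b, hab⟩⟩
  have hco : IsCoatom (MulAction.stabilizer G a) :=
    MulAction.IsPreprimitive.isCoatom_stabilizer_of_isPreprimitive (G := G) a
  obtain ⟨g, hg⟩ := MulAction.exists_smul_eq G a b
  set S := MulAction.stabilizer G a with hS
  have hSb : MulAction.stabilizer G b = S := by
    symm
    apply Subgroup.eq_of_le_of_card_ge
    · intro x hx
      exact hfix x hx
    · rw [← hg, MulAction.stabilizer_smul_eq_stabilizer_map_conj,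
        Subgroup.card_map_of_injective (MulEquiv.injective _)]
  have hmemS : ∀ x : G, x ∈ S ↔ x • a = a := fun x => MulAction.mem_stabilizer_iff
  have hmemSb : ∀ x : G, x ∈ S ↔ x • b = b := fun x => by
    rw [← hSb]; exact MulAction.mem_stabilizer_iff
  have hnorm : g ∈ Subgroup.normalizer (S : Set G) := by
    rw [Subgroup.mem_normalizer_iff]
    intro h
    constructor
    · intro hh
      rw [hmemSb, ← hg]
      have := (hmemS h).mp hh
      simp [mul_smul, this]
    · intro hh
      rw [hmemS]
      have := (hmemSb _).mp hh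
      rw [← hg] at this
      simpa [mul_smul] using this
  have hgS : g ∉ S := by
    rw [hmemS, hg]
    exact fun h => hab h.symm
  have hntop : Subgroup.normalizer (S : Set G) = ⊤ := by
    apply hco.2
    refine lt_of_le_of_ne Subgroup.le_normalizer ?_
    intro heq
    apply hgS
    rw [heq]
    exact hnorm
  have hSn : S.Normal := Subgroup.normalizer_eq_top_iff.mp hntop
  have hbot : S = ⊥ := by
    rw [eq_bot_iff]
    intro x hx
    rw [Subgroup.mem_bot]
    apply FaithfulSMul.eq_of_smul_eq_smul (α := Ω)
    intro ω
    obtain ⟨h, rfl⟩ := MulAction.exists_smul_eq G a ω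
    have h1 : h⁻¹ * x * h ∈ S := by
      have := hSn.conj_mem x hx h⁻¹
      simpa using this
    have h2 := (hmemS _).mp h1
    simp only [mul_smul] at h2
    rw [one_smul]
    rw [smul_eq_iff_eq_inv_smul] at h2
    rw [inv_inv] at h2
    exact h2
  have hgne : g ≠ 1 := by
    rintro rfl
    exact hab ((one_smul G a).symm.trans hg)
  have : Nontrivial G := ⟨⟨g, 1, hgne⟩⟩
  have hsub : ∀ H : Subgroup G, H = ⊥ ∨ H = ⊤ := by
    intro H
    by_cases hH : H = ⊥
    · exact Or.inl hH
    · right
      apply hco.2
      rw [hbot]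
      exact bot_lt_iff_ne_bot.mpr hH
  have hcyc : IsCyclic G := by
    refine ⟨⟨g, fun x => ?_⟩⟩
    rcases hsub (Subgroup.zpowers g) with h | h
    · exact absurd (Subgroup.zpowers_eq_bot.mp h) hgne
    · have hx : x ∈ Subgroup.zpowers g := by rw [h]; exact Subgroup.mem_top x
      exact Subgroup.mem_zpowers_iff.mp hx
  refine ⟨hbot, hcyc, ?_⟩
  let : CommGroup G := IsCyclic.commGroup
  have hsimple : IsSimpleGroup G := ⟨fun H _ => hsub H⟩
  exact IsSimpleGroup.prime_card

end Cfsg.Agent.S3683
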