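import Cfsg.Statements.S3684
import Cfsg.Agent.Lib.Involutions.Dihedral

set_option autoImplicit false
open Cfsg

namespace Cfsg.Agent.S3684

/-- Let a finite group G act faithfully and primitively on a set Ω, and suppose the stabilizer of a point a has an orbit of length 2. Then the stabilizer of a has order 2 and G is isomorphic to the dihedral group of order 2p for some prime p. -/
theorem result {G Ω : Type*} [Group G] [Finite G] [MulAction G Ω] [FaithfulSMul G Ω] [Finite Ω]
    (hprim : MulAction.IsPreprimitive G Ω) (a b : Ω) (h2 : Nat.card (MulAction.orbit (MulAction.stabilizer G a) b) = 2) :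
    Nat.card (MulAction.stabilizer G a) = 2 ∧ ∃ p : ℕ, p.Prime ∧ Nonempty (G ≃* DihedralGroup p) := by
  classical
  have := hprim
  have hab : a ≠ b := by
    rintro rfl
    have : MulAction.orbit (MulAction.stabilizer G a) a = {a} := by
      ext x
      constructor
      · rintro ⟨⟨g, hg⟩, rfl⟩
        exact hg
      · rintro rfl
        exact MulAction.mem_orbit_self _
    rw [this] at h2
    simp at h2
  have : Nontrivial Ω := ⟨⟨a, b, hab⟩⟩
  set A := MulAction.stabilizer G a with hA
  set B := MulAction.stabilizer G b with hB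
  have hco : IsCoatom A := MulAction.IsPreprimitive.isCoatom_stabilizer_of_isPreprimitive (G := G) a
  -- `|A| = |B|`
  obtain ⟨g, hg⟩ := MulAction.exists_smul_eq G a b
  have hcardAB : Nat.card B = Nat.card A := by
    rw [hB, hA, ← hg, MulAction.stabilizer_smul_eq_stabilizer_map_conj,
        Subgroup.card_map_of_injective (MulEquiv.injective _)]
  -- index two
  have hidxA : (MulAction.stabilizer A b).index = 2 := by
    rw [MulAction.index_stabilizer, ← Nat.card_coe_set_eq]
    exact h2
  let K : Subgroup G := A ⊓ B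
  have hcardrel : ∀ P Q : Subgroup G, P ≤ Q → P.relIndex Q * Nat.card P = Nat.card Q := by
    intro P Q hPQ
    have := Subgroup.relIndex_mul_relIndex (⊥ : Subgroup G) P Q bot_le hPQ
    rw [Subgroup.relIndex_bot_left, Subgroup.relIndex_bot_left] at this
    rw [← this, mul_comm]
  have hrelA : K.relIndex A = 2 := by
    rw [← hidxA, Subgroup.inf_relIndex_left]
    change (B.subgroupOf A).index = _
    congr 1
  have hcardK : 0 < Nat.card K := Nat.card_pos
  have hrelB : K.relIndex B = 2 := by
    have h1 := hcardrel K A inf_le_left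
    have h3 := hcardrel K B inf_le_right
    rw [hrelA] at h1
    apply Nat.eq_of_mul_eq_mul_right hcardK
    rw [h3, h1, hcardAB]
  have hnorm : ∀ Q : Subgroup G, K ≤ Q → K.relIndex Q = 2 → Q ≤ Subgroup.normalizer (K : Set G) := by
    intro Q hKQ hrel q hq
    have hn : (K.subgroupOf Q).Normal := Subgroup.normal_of_index_eq_two hrel
    rw [Subgroup.mem_normalizer_iff]
    intro h
    constructor
    · intro hh
      have := hn.conj_mem ⟨h, hKQ hh⟩ (by simpa [Subgroup.mem_subgroupOf] using hh) ⟨q, hq⟩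
      simpa [Subgroup.mem_subgroupOf] using this
    · intro hh
      have := hn.conj_mem ⟨q * h * q⁻¹, hKQ hh⟩ (by simpa [Subgroup.mem_subgroupOf] using hh) ⟨q⁻¹, Q.inv_mem hq⟩
      simpa [Subgroup.mem_subgroupOf, mul_assoc] using this
  -- elements outside `K`
  obtain ⟨x, hxA, hxK⟩ : ∃ x ∈ A, x ∉ K := by
    by_contra hcon
    push Not at hcon
    have : K.relIndex A = 1 := Subgroup.relIndex_eq_one.mpr hcon
    omega
  obtain ⟨y, hyB, hyK⟩ : ∃ y ∈ B, y ∉ K := by
    by_contra hcon
    push Not at hcon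
    have : K.relIndex B = 1 := Subgroup.relIndex_eq_one.mpr hcon
    omega
  have hyA : y ∉ A := fun h => hyK ⟨h, hyB⟩
  have hxB : x ∉ B := fun h => hxK ⟨hxA, h⟩
  have hNtop : Subgroup.normalizer (K : Set G) = ⊤ := by
    apply hco.2
    refine lt_of_le_of_ne (hnorm A inf_le_left hrelA) ?_
    intro h
    apply hyA
    rw [h]
    exact hnorm B inf_le_right hrelB hyB
  have hKn : K.Normal := Subgroup.normalizer_eq_top_iff.mp hNtop
  have hKbot : K = ⊥ := by
    rw [eq_bot_iff]
    intro k hk
    rw [Subgroup.mem_bot]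
    apply FaithfulSMul.eq_of_smul_eq_smul (α := Ω)
    intro ω
    obtain ⟨h, rfl⟩ := MulAction.exists_smul_eq G a ω
    have h1 : h⁻¹ * k * h ∈ K := by
      have := hKn.conj_mem k hk h⁻¹
      simpa using this
    have h2 : (h⁻¹ * k * h) • a = a := h1.1
    simp only [mul_smul] at h2
    rw [one_smul]
    rw [smul_eq_iff_eq_inv_smul, inv_inv] at h2
    exact h2
  have hcardK1 : Nat.card K = 1 := by
    rw [hKbot]
    simp
  have hcardA : Nat.card A = 2 := by
    have h1 := hcardrel K A inf_le_left
    rw [hrelA, hcardK1] at h1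
    omega
  have hcardB : Nat.card B = 2 := by rw [hcardAB, hcardA]
  refine ⟨hcardA, ?_⟩
  -- involutions
  have hx1 : x ≠ 1 := fun h => hxK (h ▸ K.one_mem)
  have hy1 : y ≠ 1 := fun h => hyK (h ▸ K.one_mem)
  have hx2 : x ^ 2 = 1 := by
    have h4 : (⟨x, hxA⟩ : A) ^ 2 = 1 := by
      rw [← hcardA]
      exact pow_card_eq_one'
    exact congrArg Subtype.val h4
  have hy2 : y ^ 2 = 1 := by
    have h4 : (⟨y, hyB⟩ : B) ^ 2 = 1 := by
      rw [← hcardB]
      exact pow_card_eq_one'
    exact congrArg Subtype.val h4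
  have : Fact (Nat.Prime 2) := ⟨Nat.prime_two⟩
  have hxo : orderOf x = 2 := orderOf_eq_prime hx2 hx1
  have hyo : orderOf y = 2 := orderOf_eq_prime hy2 hy1
  have hAx : ∀ z ∈ A, z = 1 ∨ z = x := by
    intro z hz
    by_cases hz1 : z = 1
    · exact Or.inl hz1
    · right
      obtain ⟨w, -, hw⟩ := (Nat.card_eq_two_iff' (1 : A)).mp hcardA
      have e1 : (⟨z, hz⟩ : A) = w := hw _ (fun h => hz1 (congrArg Subtype.val h))
      have e2 : (⟨x, hxA⟩ : A) = w := hw _ (fun h => hx1 (congrArg Subtype.val h))
      exact congrArg Subtype.val (e1.trans e2.symm)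
  have hle : ∀ w : G, A ≤ Subgroup.closure ({x, w} : Set G) := by
    intro w z hz
    rcases hAx z hz with rfl | rfl
    · exact Subgroup.one_mem _
    · exact Subgroup.subset_closure (by simp)
  have hHtop : Subgroup.closure ({x, y} : Set G) = ⊤ := by
    apply hco.2
    refine lt_of_le_of_ne (hle y) ?_
    intro h
    apply hyA
    rw [h]
    exact Subgroup.subset_closure (by simp)
  obtain ⟨e⟩ := Cfsg.Agent.Lib.Involutions.Dihedral.nonempty_closure_equiv hxo hyo
  have eG : G ≃* DihedralGroup (orderOf (x * y)) :=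
    (Subgroup.topEquiv.symm.trans (MulEquiv.subgroupCongr hHtop.symm)).trans e
  refine ⟨orderOf (x * y), ?_, ⟨eG⟩⟩
  set m := orderOf (x * y) with hm
  have hm0 : 0 < m := orderOf_pos _
  have hm1 : m ≠ 1 := by
    intro h
    have h1 : x * y = 1 := orderOf_eq_one_iff.mp h
    have h2 : y = x⁻¹ := (inv_eq_of_mul_eq_one_right h1).symm
    apply hyA
    rw [h2]
    exact A.inv_mem hxA
  have hcardG : Nat.card G = 2 * m := by
    rw [Nat.card_congr eG.toEquiv, DihedralGroup.nat_card]
  by_contra hmp
  obtain ⟨d, hdm, hd2, hdlt⟩ := Nat.exists_dvd_of_not_prime2 (by omega) hmp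
  set r := x * y with hr
  let y' : G := x * r ^ d
  have hxy' : x * y' = r ^ d := by
    simp only [y']
    rw [← mul_assoc, ← sq, hx2, one_mul]
  have hy'2 : y' ^ 2 = 1 := by
    have := Cfsg.Agent.Lib.Involutions.Dihedral.refl_sq hx2 hy2 (d : ℤ)
    simpa [y', zpow_natCast] using this
  have hy'1 : y' ≠ 1 := by
    intro h
    apply Cfsg.Agent.Lib.Involutions.Dihedral.not_mem_zpowers hxo hyo
    have h1 : x = (r ^ d)⁻¹ := eq_inv_of_mul_eq_one_left h
    have h2 : (r ^ d)⁻¹ ∈ Subgroup.zpowers r := Subgroup.inv_mem _ (Subgroup.npow_mem_zpowers r d)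
    rw [← h1] at h2
    exact h2
  have hy'o : orderOf y' = 2 := orderOf_eq_prime hy'2 hy'1
  obtain ⟨e'⟩ := Cfsg.Agent.Lib.Involutions.Dihedral.nonempty_closure_equiv hxo hy'o
  have hord : orderOf (x * y') = m / d := by
    rw [hxy', orderOf_pow_of_dvd (by omega) hdm]
  have hcardH' : Nat.card (Subgroup.closure ({x, y'} : Set G)) = 2 * (m / d) := by
    rw [Nat.card_congr e'.toEquiv, DihedralGroup.nat_card, hord]
  obtain ⟨c, hc⟩ := hdm
  have hdpos : 0 < d := by omega
  have hmd : m / d = c := by
    rw [hc]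
    exact Nat.mul_div_cancel_left c hdpos
  rw [hmd] at hcardH'
  rcases hco.le_iff.mp (hle y') with h | h
  · rw [h] at hcardH'
    simp only [Subgroup.card_top, hcardG] at hcardH'
    have h3 : m = c := by omega
    rw [h3] at hc
    have h5 : 0 < c := by omega
    nlinarith
  · rw [h, hcardA] at hcardH'
    have h3 : c = 1 := by omega
    rw [h3, mul_one] at hc
    omega

end Cfsg.Agent.S3684
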