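import Cfsg.Statements.S3687
import Cfsg.Agent.Lib.Knapp.Three

set_option autoImplicit false
open Cfsg

namespace Cfsg.Agent.S3687

/-- Let a finite group G act faithfully and primitively on a set Ω, let a and b be points such that the orbit Δ of b under the stabilizer H of a has d ≥ 6 elements, and suppose that the permutation group induced by H on Δ contains the alternating group of Δ (the image of H in the symmetric group of Δ has index at most 2) while H does not act faithfully on Δ. Then either H induces exactly the alternating group of Δ and H is isomorphic to the direct product of the alternating groups of degrees d and d - 1; or H induces the full symmetric group of Δ and H is isomorphic to one of: the direct product of the symmetric groups of degrees d and d - 1, the direct product of the symmetric group of degree d with the alternating group of degree d - 1, or the subgroup of the direct product of the symmetric groups of degrees d and d - 1 consisting of the pairs of permutations with equal signs. -/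
theorem result {G Ω : Type*} [Group G] [Finite G] [MulAction G Ω] [FaithfulSMul G Ω] [Finite Ω]
    (hprim : MulAction.IsPreprimitive G Ω) (a b : Ω) (d : ℕ) (hd : Nat.card (MulAction.orbit (MulAction.stabilizer G a) b) = d) (h6 : 6 ≤ d)
    (halt : (MulAction.toPermHom (MulAction.stabilizer G a) (MulAction.orbit (MulAction.stabilizer G a) b)).range.index ≤ 2)
    (hunf : ¬ Function.Injective (MulAction.toPermHom (MulAction.stabilizer G a) (MulAction.orbit (MulAction.stabilizer G a) b))) :
    ((MulAction.toPermHom (MulAction.stabilizer G a) (MulAction.orbit (MulAction.stabilizer G a) b)).range.index = 2 ∧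
      Nonempty (MulAction.stabilizer G a ≃* alternatingGroup (Fin d) × alternatingGroup (Fin (d - 1)))) ∨
    ((MulAction.toPermHom (MulAction.stabilizer G a) (MulAction.orbit (MulAction.stabilizer G a) b)).range = ⊤ ∧
      (Nonempty (MulAction.stabilizer G a ≃* Equiv.Perm (Fin d) × Equiv.Perm (Fin (d - 1))) ∨
       Nonempty (MulAction.stabilizer G a ≃* Equiv.Perm (Fin d) × alternatingGroup (Fin (d - 1))) ∨
       Nonempty (MulAction.stabilizer G a ≃* ((Equiv.Perm.sign.comp (MonoidHom.fst (Equiv.Perm (Fin d)) (Equiv.Perm (Fin (d - 1))))) *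
         (Equiv.Perm.sign.comp (MonoidHom.snd (Equiv.Perm (Fin d)) (Equiv.Perm (Fin (d - 1)))))).ker))) := by
  classical
  obtain ⟨hw, hout, hin⟩ := Cfsg.Agent.Lib.WBound.data_of_hyp hprim a b hd (by omega)
  set R : Ω → Ω → Prop := Cfsg.Agent.Lib.WBound.orbitalRel G a b with hR
  have hab : R a b := Cfsg.Agent.Lib.WBound.orbitalRel_base a b
  have hset : (MulAction.orbit (MulAction.stabilizer G a) b : Set Ω) = {c | R a c} := by
    ext c
    constructor
    · rintro ⟨⟨g, hg⟩, rfl⟩
      exact ⟨g, hg, rfl⟩
    · rintro ⟨g, hg, rfl⟩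
      exact ⟨⟨g, hg⟩, rfl⟩
  have hP : Cfsg.Agent.Lib.Knapp.Act.Pres (MulAction.stabilizer G a)
      (MulAction.orbit (MulAction.stabilizer G a) b : Set Ω) := by
    rw [hset]
    exact Cfsg.Agent.Lib.Knapp.One.pres_out hw le_rfl
  have he : MulAction.toPermHom (MulAction.stabilizer G a) (MulAction.orbit (MulAction.stabilizer G a) b)
      = Cfsg.Agent.Lib.Knapp.Act.actP (MulAction.stabilizer G a) _ hP := by
    ext g y
    rfl
  have hindΔ : Cfsg.Agent.Lib.Knapp.Act.Induces (MulAction.stabilizer G a)
      (MulAction.orbit (MulAction.stabilizer G a) b : Set Ω) := by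
    apply Cfsg.Agent.Lib.Knapp.Act.induces_of_le_range hP
    rw [← he]
    haveI : Fintype (MulAction.orbit (MulAction.stabilizer G a) b) := Fintype.ofFinite _
    rw [Cfsg.Agent.Lib.Knapp.Perm.Alt_eq]
    exact Equiv.Perm.alternatingGroup_le_of_index_le_two halt
  have halt' : ∀ x, Cfsg.Agent.Lib.Knapp.Act.Induces (MulAction.stabilizer G x) {y | R x y} := by
    intro x
    refine Cfsg.Agent.Lib.Knapp.Three.alt_transfer hw (a := a) ?_ x
    rw [← hset]
    exact hindΔ
  have hne₀ : (Cfsg.Agent.Lib.WBound.Qi (Cfsg.Agent.Lib.Knapp.One.Op R) a : Subgroup G) ≠ ⊥ := by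
    intro hbot
    apply hunf
    rw [injective_iff_map_eq_one]
    intro g hg
    have hf := (Cfsg.Agent.Lib.Knapp.Act.mem_ker_actP hP g).mp (by rw [← he]; exact hg)
    have hmem : (g : G) ∈ (Cfsg.Agent.Lib.WBound.Qi (Cfsg.Agent.Lib.Knapp.One.Op R) a : Subgroup G) := by
      rw [Cfsg.Agent.Lib.Knapp.One.mem_Qi_op]
      refine ⟨g.2, fun y hy => ?_⟩
      rw [hset] at hf
      exact (mem_fixingSubgroup_iff G).mp hf y hy
    rw [hbot, Subgroup.mem_bot] at hmem
    exact Subtype.ext hmem
  have hne : ∀ x, (Cfsg.Agent.Lib.WBound.Qi (Cfsg.Agent.Lib.Knapp.One.Op R) x : Subgroup G) ≠ ⊥ := by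
    intro x hbot
    obtain ⟨k, rfl⟩ := hw.exists_smul a x
    apply hne₀
    have h1 := hw.op.Qi_conj k a
    rw [hbot] at h1
    have h2 : Nat.card (Cfsg.Agent.Lib.WBound.Qi (Cfsg.Agent.Lib.Knapp.One.Op R) a : Subgroup G) = 1 := by
      rw [← Cfsg.Agent.Lib.Subnormal.Basic.card_conj k, h1]
      simp
    exact (Subgroup.eq_bot_iff_card _).mpr h2
  have hS : Cfsg.Agent.Lib.Knapp.Two.SymHyp G R d :=
    Cfsg.Agent.Lib.Knapp.Two.symHyp_of hw hout hin h6 halt' hne
  rw [he]
  exact Cfsg.Agent.Lib.Knapp.Three.structure_main' hS hab _ hset hP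

end Cfsg.Agent.S3687
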