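import Cfsg.Statements.S3696


set_option autoImplicit false
open Cfsg

namespace Cfsg.Agent.S3696

theorem pow_add_le (p : ℕ) (hp : 2 ≤ p) (b : ℕ) (hb : 1 ≤ b) (t : ℕ) :
    p ^ b + t * p ≤ p ^ (b + t) := by
  induction t with
  | zero => simp
  | succ t ih =>
    have h1 : p ^ (b + (t + 1)) = p ^ (b + t) * p := by
      rw [← add_assoc, pow_succ]
    have h2 : p ≤ p ^ (b + t) := by
      calc p = p ^ 1 := (pow_one p).symm
        _ ≤ p ^ (b + t) := Nat.pow_le_pow_right (by omega) (by omega)
    rw [h1]
    have h3 : p ^ (b + t) * 2 ≤ p ^ (b + t) * p := Nat.mul_le_mul_left _ hp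
    nlinarith

theorem amgm_fin (k : ℕ) (f : Fin k → ℕ) : (∏ i, f i) * k ^ k ≤ (∑ i, f i) ^ k := by
  rcases Nat.eq_zero_or_pos k with rfl | hk
  · simp
  have hk0 : (0 : ℝ) < k := by exact_mod_cast hk
  have hgm := Real.geom_mean_le_arith_mean (Finset.univ : Finset (Fin k)) (fun _ => (1 : ℝ))
    (fun i => (f i : ℝ)) (fun _ _ => zero_le_one) (by simpa using hk) (fun _ _ => Nat.cast_nonneg _)
  simp only [Real.rpow_one, Finset.sum_const, Finset.card_univ, Fintype.card_fin, nsmul_eq_mul,
    mul_one, one_mul] at hgm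
  have hprod0 : (0 : ℝ) ≤ ∏ i, (f i : ℝ) := Finset.prod_nonneg fun _ _ => Nat.cast_nonneg _
  have h1 : (∏ i, (f i : ℝ)) ≤ ((∑ i, (f i : ℝ)) / k) ^ k := by
    have h2 := pow_le_pow_left₀ (Real.rpow_nonneg hprod0 _) hgm k
    rwa [Real.rpow_inv_natCast_pow hprod0 hk.ne'] at h2
  rw [div_pow, le_div_iff₀ (by positivity)] at h1
  exact_mod_cast h1

theorem amgm_list (l : List ℕ) : l.prod * l.length ^ l.length ≤ l.sum ^ l.length := by
  have h := amgm_fin l.length l.get
  rw [← List.prod_ofFn, ← List.sum_ofFn, List.ofFn_get] at h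
  exact h

theorem exists_list {Ω : Type*} [Fintype Ω] [DecidableEq Ω] (p : ℕ) [Fact p.Prime] (N : ℕ) :
    ∀ (A U : Subgroup (Equiv.Perm Ω)) (T : Finset Ω) (k : ℕ), Nat.card A ≤ N → IsPGroup p A →
      (∀ x ∈ A, ∀ y ∈ A, x * y = y * x) → (∀ x, x ∈ U ↔ x ∈ A ∧ x ^ p = 1) → Nat.card U = p ^ k →
      (∀ a ∈ A, ∀ ω, ω ∉ T → a ω = ω) →
      ∃ l : List ℕ, l.length = k ∧ l.sum ≤ T.card ∧ Nat.card A ≤ l.prod := by
  classical
  have hpp : p.Prime := Fact.out
  induction N with
  | zero =>
    intro A U T k hcard
    have : 0 < Nat.card A := Nat.card_pos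
    omega
  | succ N ih =>
    intro A U T k hcard hpg hcomm hU hUk hT
    by_cases hbot : U = ⊥
    · -- `A` is trivial
      have hA : A = ⊥ := by
        by_contra hne
        have hnt : Nontrivial A := (Subgroup.nontrivial_iff_ne_bot A).mpr hne
        obtain ⟨q, hq, hqd⟩ := Nat.exists_prime_and_dvd (Finite.one_lt_card (α := A)).ne'
        obtain ⟨m, hm⟩ := IsPGroup.iff_card.mp hpg
        have hqp : q = p := by
          rw [hm] at hqd
          exact (Nat.prime_dvd_prime_iff_eq hq hpp).mp (hq.dvd_of_dvd_pow hqd)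
        subst hqp
        obtain ⟨x, hx⟩ := exists_prime_orderOf_dvd_card' (G := A) q hqd
        have h1 : (x : Equiv.Perm Ω) ∈ U := by
          rw [hU]
          refine ⟨x.2, ?_⟩
          have := pow_orderOf_eq_one x
          rw [hx] at this
          exact congrArg Subtype.val this
        rw [hbot, Subgroup.mem_bot] at h1
        have h2 : x = 1 := Subtype.ext h1
        rw [h2, orderOf_one] at hx
        exact hq.one_lt.ne hx
      have hk0 : k = 0 := by
        rw [hbot] at hUk
        simp only [Subgroup.card_bot] at hUk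
        by_contra hk
        have : 1 < p ^ k := Nat.one_lt_pow hk hpp.one_lt
        omega
      refine ⟨[], by simp [hk0], by simp, ?_⟩
      rw [hA]
      simp
    · -- pick a moved point of an element of order `p`
      obtain ⟨x, hxU, hx1⟩ : ∃ x ∈ U, x ≠ 1 := by
        by_contra hcon
        push Not at hcon
        exact hbot ((Subgroup.eq_bot_iff_forall U).mpr hcon)
      obtain ⟨ω, hω⟩ : ∃ ω, x ω ≠ ω := by
        by_contra hcon
        push Not at hcon
        exact hx1 (Equiv.ext hcon)
      have hxA : x ∈ A := ((hU x).mp hxU).1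
      have hωT : ω ∈ T := by
        by_contra h
        exact hω (hT x hxA ω h)
      let S : Subgroup (Equiv.Perm Ω) := MulAction.stabilizer (Equiv.Perm Ω) ω
      have hS : ∀ y, y ∈ S ↔ y ω = ω := fun y => MulAction.mem_stabilizer_iff
      let K : Subgroup (Equiv.Perm Ω) := A ⊓ S
      let U' : Subgroup (Equiv.Perm Ω) := U ⊓ S
      have hKA : K ≤ A := inf_le_left
      have hxK : x ∉ K := fun h => hω ((hS x).mp h.2)
      have hU'U : U' ≤ U := inf_le_left
      have hxU' : x ∉ U' := fun h => hω ((hS x).mp h.2)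
      -- the orbit
      let O : Finset Ω := Finset.univ.filter fun y => ∃ a ∈ A, a ω = y
      have hOmem : ∀ y, y ∈ O ↔ ∃ a ∈ A, a ω = y := by
        intro y
        simp [O]
      have hOT : O ⊆ T := by
        intro y hy
        obtain ⟨a, ha, rfl⟩ := (hOmem y).mp hy
        by_contra hyT
        have h1 : a (a ω) = a ω := hT a ha _ hyT
        have h2 : a ω = ω := a.injective h1
        rw [h2] at hyT
        exact hyT hωT
      -- orbit-stabiliser
      have hOcard : O.card = K.relIndex A := by
        have h1 : K.relIndex A = (MulAction.stabilizer A ω).index := by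
          rw [Subgroup.relIndex]
          congr 1
          ext y
          rw [Subgroup.mem_subgroupOf, MulAction.mem_stabilizer_iff]
          constructor
          · intro hy
            exact (hS _).mp hy.2
          · intro hy
            exact ⟨y.2, (hS _).mpr hy⟩
        rw [h1, MulAction.index_stabilizer]
        have h2 : MulAction.orbit A ω = (O : Set Ω) := by
          ext y
          rw [Finset.mem_coe, hOmem]
          constructor
          · rintro ⟨⟨a, ha⟩, rfl⟩
            exact ⟨a, ha, rfl⟩
          · rintro ⟨a, ha, rfl⟩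
            exact ⟨⟨a, ha⟩, rfl⟩
        rw [h2, Set.ncard_coe_finset]
      have hrelA : K.relIndex A * Nat.card K = Nat.card A := by
        have := Subgroup.relIndex_mul_relIndex (⊥ : Subgroup (Equiv.Perm Ω)) K A bot_le hKA
        rw [Subgroup.relIndex_bot_left, Subgroup.relIndex_bot_left] at this
        rw [← this, mul_comm]
      have hcardKpos : 0 < Nat.card K := Nat.card_pos
      have hm0 : K.relIndex A ≠ 0 := by
        intro h
        rw [h, zero_mul] at hrelA
        have : 0 < Nat.card A := Nat.card_pos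
        omega
      have hm1 : K.relIndex A ≠ 1 := by
        intro h
        exact hxK (Subgroup.relIndex_eq_one.mp h hxA)
      have hKlt : Nat.card K ≤ N := by
        have h2 : 2 * Nat.card K ≤ K.relIndex A * Nat.card K :=
          Nat.mul_le_mul_right _ (by omega)
        omega
      have hU'A : U' ≤ A := inf_le_left.trans (fun y hy => ((hU y).mp hy).1)
      have hKpg : IsPGroup p K := hpg.to_le hKA
      obtain ⟨k', hk'⟩ := IsPGroup.iff_card.mp (hpg.to_le hU'A)
      have hKcomm : ∀ y ∈ K, ∀ z ∈ K, y * z = z * y := fun y hy z hz => hcomm y hy.1 z hz.1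
      have hU'mem : ∀ y, y ∈ U' ↔ y ∈ K ∧ y ^ p = 1 := by
        intro y
        constructor
        · rintro ⟨h1, h2⟩
          exact ⟨⟨((hU y).mp h1).1, h2⟩, ((hU y).mp h1).2⟩
        · rintro ⟨⟨h1, h2⟩, h3⟩
          exact ⟨(hU y).mpr ⟨h1, h3⟩, h2⟩
      have hKT : ∀ b ∈ K, ∀ y, y ∉ T \ O → b y = y := by
        intro b hb y hy
        by_cases hyT : y ∈ T
        · have hyO : y ∈ O := by
            by_contra h
            exact hy (Finset.mem_sdiff.mpr ⟨hyT, h⟩)
          obtain ⟨a, ha, rfl⟩ := (hOmem y).mp hyO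
          have h1 : b * a = a * b := hcomm b hb.1 a ha
          have h2 : (b * a) ω = (a * b) ω := by rw [h1]
          simp only [Equiv.Perm.coe_mul, Function.comp_apply] at h2
          rw [h2, (hS b).mp hb.2]
        · exact hT b hb.1 y hyT
      obtain ⟨l', hl'len, hl'sum, hl'prod⟩ := ih K U' (T \ O) k' hKlt hKpg hKcomm hU'mem hk' hKT
      have hTcard : (T \ O).card = T.card - O.card := Finset.card_sdiff_of_subset hOT
      have hOle : O.card ≤ T.card := Finset.card_le_card hOT
      -- the orbit size is a power of `p`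
      obtain ⟨n0, hn0⟩ := IsPGroup.iff_card.mp hpg
      have hmdvd : K.relIndex A ∣ p ^ n0 := by
        rw [← hn0, ← hrelA]
        exact dvd_mul_right _ _
      obtain ⟨a, -, ha⟩ := (Nat.dvd_prime_pow hpp).mp hmdvd
      have ha0 : a ≠ 0 := by
        rintro rfl
        rw [pow_zero] at ha
        exact hm1 ha
      -- the rank drops
      have hrelU : U'.relIndex U * Nat.card U' = Nat.card U := by
        have := Subgroup.relIndex_mul_relIndex (⊥ : Subgroup (Equiv.Perm Ω)) U' U bot_le hU'U
        rw [Subgroup.relIndex_bot_left, Subgroup.relIndex_bot_left] at this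
        rw [← this, mul_comm]
      have hU1 : U'.relIndex U ≠ 1 := by
        intro h
        exact hxU' (Subgroup.relIndex_eq_one.mp h hxU)
      have hU0 : U'.relIndex U ≠ 0 := by
        intro h
        rw [h, zero_mul] at hrelU
        have : 0 < Nat.card U := Nat.card_pos
        omega
      rw [hk', hUk] at hrelU
      have hpp0 : 0 < p := hpp.pos
      have hk'lt : k' < k := by
        have h3 : p ^ k' < p ^ k := by
          rw [← hrelU]
          have : 2 ≤ U'.relIndex U := by omega
          have h4 : 0 < p ^ k' := pow_pos hpp0 _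
          nlinarith
        exact (Nat.pow_lt_pow_iff_right hpp.one_lt).mp h3
      set s := k - k' with hs
      have hs1 : 1 ≤ s := by omega
      have hks : k = k' + s := by omega
      have hidx : U'.relIndex U = p ^ s := by
        have h4 : 0 < p ^ k' := pow_pos hpp0 _
        apply Nat.eq_of_mul_eq_mul_right h4
        rw [hrelU, hks, pow_add, mul_comm]
      have hidxle : U'.relIndex U ≤ K.relIndex A := by
        have h5 : U'.relIndex U = S.relIndex U := Subgroup.inf_relIndex_left U S
        have h6 : K.relIndex A = S.relIndex A := Subgroup.inf_relIndex_left A S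
        rw [h5, h6]
        apply Subgroup.relIndex_le_of_le_right (fun y hy => ((hU y).mp hy).1)
        rw [← h6]
        exact hm0
      have hsa : s ≤ a := by
        rw [hidx, ha] at hidxle
        exact (Nat.pow_le_pow_iff_right hpp.one_lt).mp hidxle
      refine ⟨l' ++ (p ^ (a - s + 1)) :: List.replicate (s - 1) p, ?_, ?_, ?_⟩
      · simp only [List.length_append, List.length_cons, List.length_replicate, hl'len]
        omega
      · simp only [List.sum_append, List.sum_cons, List.sum_replicate, smul_eq_mul]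
        have h7 := pow_add_le p hpp.two_le (a - s + 1) (by omega) (s - 1)
        have h8 : a - s + 1 + (s - 1) = a := by omega
        rw [h8] at h7
        rw [hOcard, ha] at hTcard hOle
        omega
      · simp only [List.prod_append, List.prod_cons, List.prod_replicate]
        have h8 : p ^ (a - s + 1) * p ^ (s - 1) = p ^ a := by
          rw [← pow_add]
          congr 1
          omega
        rw [h8, ← hrelA, ha, mul_comm]
        exact Nat.mul_le_mul_right _ hl'prod

/-- Let p be a prime, Ω a finite set with n ≥ p elements, and A an abelian p-subgroup of the symmetric group on Ω whose elements of order dividing p number p^k (so k is the rank of A). Then |A| · k^k ≤ n^k, that is, |A| ≤ (n/k)^k. -/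
theorem result {Ω : Type*} [Fintype Ω] [DecidableEq Ω]
    (p : ℕ) (hp : p.Prime) (hn : p ≤ Fintype.card Ω) (A : Subgroup (Equiv.Perm Ω)) (hA : IsPGroup p A) (hab : IsMulCommutative A)
    (k : ℕ) (hk : Nat.card {x : A // x ^ p = 1} = p ^ k) :
    Nat.card A * k ^ k ≤ Fintype.card Ω ^ k := by
  classical
  have : Fact p.Prime := ⟨hp⟩
  have hcomm : ∀ x ∈ A, ∀ y ∈ A, x * y = y * x := by
    intro x hx y hy
    have := hab.is_comm.comm (⟨x, hx⟩ : A) ⟨y, hy⟩
    exact congrArg Subtype.val this
  let U : Subgroup (Equiv.Perm Ω) :=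
    { carrier := {x | x ∈ A ∧ x ^ p = 1}
      one_mem' := ⟨A.one_mem, one_pow _⟩
      mul_mem' := by
        rintro x y ⟨hx, hxp⟩ ⟨hy, hyp⟩
        refine ⟨A.mul_mem hx hy, ?_⟩
        have : Commute x y := hcomm x hx y hy
        rw [this.mul_pow, hxp, hyp, one_mul]
      inv_mem' := by
        rintro x ⟨hx, hxp⟩
        exact ⟨A.inv_mem hx, by rw [inv_pow, hxp, inv_one]⟩ }
  have hU : ∀ x, x ∈ U ↔ x ∈ A ∧ x ^ p = 1 := fun x => Iff.rfl
  have hUk : Nat.card U = p ^ k := by
    rw [← hk]
    refine Nat.card_congr ⟨fun x => ⟨⟨x.1, x.2.1⟩, Subtype.ext x.2.2⟩,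
      fun x => ⟨x.1.1, x.1.2, congrArg Subtype.val x.2⟩, fun _ => rfl, fun _ => rfl⟩
  obtain ⟨l, hlen, hsum, hprod⟩ := exists_list p (Nat.card A) A U Finset.univ k le_rfl hA hcomm hU hUk
    (fun _ _ ω hω => absurd (Finset.mem_univ ω) hω)
  have h := amgm_list l
  rw [hlen] at h
  calc Nat.card A * k ^ k ≤ l.prod * k ^ k := Nat.mul_le_mul_right _ hprod
    _ ≤ l.sum ^ k := h
    _ ≤ Fintype.card Ω ^ k := Nat.pow_le_pow_left (by simpa using hsum) k

end Cfsg.Agent.S3696
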