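import Cfsg.Statements.S3702
import Cfsg.Agent.Lib.Nine.A9Main

set_option autoImplicit false
open Cfsg
open Cfsg.Agent.Lib.Nine.ModelA9

namespace Cfsg.Agent.S3702

/-- Let K ≤ Sym(9) be generated by (1 2 3), (1 4 7)(2 5 8)(3 6 9), (1 2)(4 5) and (1 4)(2 5)(3 6)(7 8) (the normalizer in Alt(9) of the elementary abelian group generated by (1 2 3), (4 5 6), (7 8 9)). Let G be a finite group with a subgroup H ≅ K and J = O₃(H). If C_G(j) ≤ H for every j ≠ 1 in J and J is strongly closed in H with respect to G (a G-conjugate of an element of J lying in H lies in J), then G = H. -/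
theorem result {G : Type*} [Group G] [Finite G] (H : Subgroup G)
    (hH : Nonempty (↥H ≃* ↥(Subgroup.closure ({Equiv.swap (0 : Fin 9) 1 * Equiv.swap 1 2,
        Equiv.swap (0 : Fin 9) 3 * Equiv.swap 3 6 * (Equiv.swap (1 : Fin 9) 4 * Equiv.swap 4 7) * (Equiv.swap (2 : Fin 9) 5 * Equiv.swap 5 8),
        Equiv.swap (0 : Fin 9) 1 * Equiv.swap 3 4, Equiv.swap (0 : Fin 9) 3 * Equiv.swap 1 4 * Equiv.swap 2 5 * Equiv.swap 6 7} : Set (Equiv.Perm (Fin 9))))))
    (J : Subgroup G) (hJ : J = (Cfsg.pCore 3 ↥H).map H.subtype)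
    (hC : ∀ j ∈ J, j ≠ 1 → Subgroup.centralizer ({j} : Set G) ≤ H) (hsc : Cfsg.IsStronglyClosed J H) : H = ⊤ := by
  classical
  letI : Fintype G := Fintype.ofFinite G
  obtain ⟨e⟩ := hH
  let φ₀ : Gam →* K₀ := φ.codRestrict K₀ (fun x => by rw [← range_φ]; exact ⟨x, rfl⟩)
  let E₀ : Gam →* H := e.symm.toMonoidHom.comp φ₀
  let ι : Gam →* G := H.subtype.comp E₀
  have hE₀ : ∀ x, (e.symm (φ₀ x) : H) = E₀ x := fun x => rfl
  have hinjE : Function.Injective E₀ := by
    intro a b hab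
    apply φ_inj
    have h2 := e.symm.injective hab
    exact congrArg Subtype.val h2
  have hsurj : Function.Surjective E₀ := by
    intro h
    have h1 : ((e h : K₀) : Equiv.Perm (Fin 9)) ∈ φ.range := by
      rw [range_φ]
      exact (e h).2
    obtain ⟨x, hx⟩ := h1
    refine ⟨x, ?_⟩
    have h2 : φ₀ x = e h := Subtype.ext hx
    change e.symm (φ₀ x) = h
    rw [h2, MulEquiv.symm_apply_apply]
  have hinj : Function.Injective ι := H.subtype_injective.comp hinjE
  have hrange : ι.range = H := by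
    apply le_antisymm
    · rintro _ ⟨x, rfl⟩
      exact (E₀ x).2
    · intro h hh
      obtain ⟨x, hx⟩ := hsurj ⟨h, hh⟩
      exact ⟨x, congrArg Subtype.val hx⟩
  have hTGn : TG.Normal := ⟨fun x hx c => TG_conj c x hx⟩
  have hcore : Cfsg.pCore 3 ↥H = TG.map E₀ := by
    apply le_antisymm
    · refine sSup_le ?_
      rintro N ⟨hN, hp⟩ x hx
      obtain ⟨c, rfl⟩ := hsurj x
      refine ⟨c, ?_, rfl⟩
      have hN' : (N.comap E₀).Normal := hN.comap E₀
      have hp' : IsPGroup 3 (N.comap E₀) := by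
        rintro ⟨y, hy⟩
        obtain ⟨k, hk⟩ := hp ⟨E₀ y, hy⟩
        refine ⟨k, ?_⟩
        apply Subtype.ext
        apply hinjE
        have := congrArg Subtype.val hk
        simpa using this
      exact le_TG_of_normal _ hN' hp' hx
    · refine le_sSup ⟨hTGn.map E₀ hsurj, ?_⟩
      exact TG_isP.map E₀
  have hJι : ∀ x : G, x ∈ J ↔ ∃ c, c ∈ TG ∧ ι c = x := by
    intro x
    rw [hJ, hcore]
    constructor
    · rintro ⟨_, ⟨c, hc, rfl⟩, rfl⟩
      exact ⟨c, hc, rfl⟩
    · rintro ⟨c, hc, rfl⟩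
      exact ⟨_, ⟨c, hc, rfl⟩, rfl⟩
  have hyp : Cfsg.Agent.Lib.Nine.A9Local.Hyp ι := by
    refine ⟨hinj, ?_, ?_⟩
    · intro x hx hx1 g hg
      rw [hrange]
      refine hC (ι x) ((hJι _).mpr ⟨x, hx, rfl⟩) (fun h1 => hx1 (hinj (by rw [h1, map_one]))) ?_
      rw [Subgroup.mem_centralizer_singleton_iff]
      exact hg
    · intro x hx g c he
      have h1 : g * ι x * g⁻¹ ∈ H := by
        rw [he, ← hrange]
        exact ⟨c, rfl⟩
      have h2 := hsc.2 (ι x) ((hJι _).mpr ⟨x, hx, rfl⟩) g h1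
      rw [he] at h2
      obtain ⟨c', hc', he'⟩ := (hJι _).mp h2
      rw [← hinj he']
      exact hc'
  rw [← hrange]
  exact Cfsg.Agent.Lib.Nine.A9Main.range_eq_top hyp

end Cfsg.Agent.S3702
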