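import Cfsg.Statements.S3703
import Cfsg.Agent.Lib.PrimeGraph.FrobLift
import Cfsg.Agent.Lib.Coprime.Complement
import Cfsg.Agent.Lib.Frobenius.Basic

set_option autoImplicit false
open Cfsg

namespace Cfsg.Agent.S3703

open scoped Pointwise

open Cfsg.Agent.Lib.Coprime.Action Cfsg.Agent.Lib.Coprime.SchurZassenhaus
  Cfsg.Agent.Lib.Coprime.Complement Cfsg.Agent.Lib.PrimeGraph.FrobLift
  Cfsg.Agent.Lib.Frobenius.Basic Cfsg.Agent.Lib.PrimeGraph.FrobSum

theorem le_of_forall_sylowIn {G : Type*} [Group G] [Finite G] (S K : Subgroup G)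
    (h : ∀ t : ℕ, t.Prime → ∃ T, IsSylowIn t T K ∧ T ≤ S) : K ≤ S := by
  by_contra hK
  have hd : (S ⊓ K).relIndex K ≠ 1 := by
    intro h1
    rw [Subgroup.relIndex_eq_one] at h1
    exact hK (h1.trans inf_le_left)
  obtain ⟨t, ht, htd⟩ := Nat.exists_prime_and_dvd hd
  obtain ⟨T, hT, hTS⟩ := h t ht
  apply hT.2.2
  have := Subgroup.relIndex_mul_relIndex T (S ⊓ K) K (le_inf hTS hT.1) inf_le_right
  rw [← this]
  exact htd.trans (Dvd.intro_left _ rfl)

theorem main_aux {G : Type*} [Group G] [Finite G] (N : Subgroup G) [N.Normal]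
    (Fb Hb : Subgroup (G ⧸ N)) [Fb.Normal] (hHb : Cfsg.IsFrobeniusComplement Hb)
    (hker : Cfsg.frobeniusKernel Hb = (Fb : Set (G ⧸ N)))
    (hcyc : IsCyclic Hb) (hcop : (Nat.card Fb).Coprime (Nat.card N))
    (hnot : ¬ Fb ≤ (Subgroup.centralizer (N : Set G)).map (QuotientGroup.mk' N)) :
    ∃ p : ℕ, p.Prime ∧ p ∣ Nat.card N ∧ ∃ g : G, orderOf g = p * Nat.card Hb := by
  classical
  by_contra hcon
  push Not at hcon
  set n := Nat.card Hb with hn
  let π := QuotientGroup.mk' N
  have hπs : Function.Surjective π := QuotientGroup.mk'_surjective N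
  have hπk : π.ker = N := QuotientGroup.ker_mk' N
  obtain ⟨h0, hh0⟩ := IsCyclic.exists_generator (α := Hb)
  set h : G ⧸ N := (h0 : G ⧸ N) with hh
  have hhH : h ∈ Hb := h0.2
  have hordh : orderOf h = n := by
    rw [hh, Subgroup.orderOf_coe]
    exact orderOf_eq_card_of_forall_mem_zpowers hh0
  have hn1 : 1 < n := by
    haveI : Nontrivial Hb := (Subgroup.nontrivial_iff_ne_bot Hb).mpr hHb.1
    exact Finite.one_lt_card
  have hfpf : ∀ i, 0 < i → i < n → ∀ a ∈ Fb, h ^ i * a * (h ^ i)⁻¹ = a → a = 1 := by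
    intro i hi0 hin a ha he
    by_contra ha1
    have hker' : a ∈ Cfsg.frobeniusKernel Hb := by rw [hker]; exact ha
    have ha2 : ∀ g, a ∉ MulAut.conj g • Hb := hker'.resolve_left ha1
    have haH : a ∉ Hb := by
      intro h'
      apply ha2 1
      simpa using h'
    have z1 := eq_one_of_mem_of_conj_mem hHb haH (x := h ^ i) (Hb.pow_mem hhH i) (by
      have : a * h ^ i * a⁻¹ = h ^ i := by
        have e : h ^ i * a = a * h ^ i := by
          calc h ^ i * a = (h ^ i * a * (h ^ i)⁻¹) * h ^ i := by group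
            _ = a * h ^ i := by rw [he]
        calc a * h ^ i * a⁻¹ = h ^ i * a * a⁻¹ := by rw [e]
          _ = h ^ i := by group
      rw [this]
      exact Hb.pow_mem hhH i)
    exact pow_ne_one_of_lt_orderOf hi0.ne' (by rwa [hordh]) z1
  have hFnorm : ∀ a ∈ Fb, h * a * h⁻¹ ∈ Fb := fun a ha => ‹Fb.Normal›.conj_mem a ha h
  have hcopFH : (Nat.card Hb).Coprime (Nat.card Fb) := by
    have h1 : Nat.card Fb = Hb.index := by
      rw [← card_frobeniusKernel hHb]
      rw [hker]
      rfl
    rw [h1]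
    have h2 := index_mod hHb
    have h3 : Hb.index ≡ 1 [MOD Nat.card Hb] := h2
    have h4 := h3.gcd_eq
    rw [Nat.Coprime, Nat.gcd_comm, h4]
    simp
  have hfhord : ∀ f ∈ Fb, orderOf (f * h) = n := by
    intro f hf
    have b1 : Function.Bijective (cmap Fb h hFnorm) :=
      Finite.injective_iff_bijective.mp (cmap_injective Fb h hFnorm (by
        intro a ha he
        exact hfpf 1 one_pos hn1 a ha (by simpa using he)))
    obtain ⟨a, ha⟩ := b1.2 ⟨f, hf⟩
    have e : f * h = a * h * (a : G ⧸ N)⁻¹ := by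
      have := mul_eq_conj Fb h hFnorm a
      rw [ha] at this
      exact this
    rw [e, ← hordh]
    exact MulEquiv.orderOf_eq (MulAut.conj (a : G ⧸ N)) h
  have claim : ∀ g : G, ∀ f ∈ Fb, π g = f * h → g ^ n = 1 := by
    intro g f hf hg
    by_contra hgn
    have h1 : orderOf (π g) = n := by rw [hg]; exact hfhord f hf
    have h2 : n ∣ orderOf g := h1 ▸ orderOf_map_dvd π g
    have hmem : g ^ n ∈ N := by
      rw [← hπk, MonoidHom.mem_ker, map_pow, ← h1]
      exact pow_orderOf_eq_one _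
    set m := orderOf (g ^ n) with hm
    have hmd : m ∣ Nat.card N := by
      have := Subgroup.orderOf_dvd_natCard N hmem
      exact this
    have hom : orderOf g = n * m := by
      rw [hm, orderOf_pow_of_dvd (by omega) h2]
      exact (Nat.mul_div_cancel' h2).symm
    have hm1 : m ≠ 1 := by
      intro h3
      exact hgn (orderOf_eq_one_iff.mp h3)
    have hp := Nat.minFac_prime hm1
    set p := m.minFac with hpdef
    have hpm : p ∣ m := Nat.minFac_dvd m
    obtain ⟨q, hq⟩ := hpm
    have hm0 : 0 < m := orderOf_pos _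
    have hq0 : 0 < q := by
      rcases Nat.eq_zero_or_pos q with h4 | h4
      · rw [h4, mul_zero] at hq; omega
      · exact h4
    have hqd : q ∣ orderOf g := ⟨n * p, by rw [hom, hq]; ring⟩
    have hord' : orderOf (g ^ q) = p * n := by
      rw [orderOf_pow_of_dvd hq0.ne' hqd, hom, hq]
      rw [show n * (p * q) = (p * n) * q by ring]
      exact Nat.mul_div_cancel _ hq0
    exact hcon p hp (Dvd.dvd.trans ⟨q, hq⟩ hmd) (g ^ q) hord'
  have hHs : Group.IsSolvable Hb := Group.isSolvable_of_comm (fun a b => by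
    haveI := hcyc
    have : IsMulCommutative Hb := IsCyclic.isMulCommutative
    exact this.is_comm.comm a b)
  -- a Sylow subgroup of `Fb`
  obtain ⟨t, ht, T, hTs, hTH, hTI⟩ : ∃ t : ℕ, t.Prime ∧ ∃ T, IsSylowIn t T Fb ∧
      Hb ≤ Subgroup.normalizer (T : Set (G ⧸ N)) ∧
      ¬ T ≤ (Subgroup.centralizer (N : Set G)).map (QuotientGroup.mk' N) := by
    by_contra hall
    push Not at hall
    apply hnot
    apply le_of_forall_sylowIn
    intro t ht
    haveI := Fact.mk ht
    obtain ⟨T, hT, hT2⟩ := exists_invariant_sylowIn (p := t) (A := Hb) (K := Fb)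
      (by rw [Subgroup.normalizer_eq_top]; exact le_top) hcopFH (Or.inl hHs)
    exact ⟨T, hT, hall t ht T hT hT2⟩
  haveI := Fact.mk ht
  -- the lift
  let That : Subgroup G := T.comap π
  have hNT : N ≤ That := by
    intro x hx
    have : π x = 1 := by rw [← MonoidHom.mem_ker, hπk]; exact hx
    show π x ∈ T
    rw [this]; exact one_mem _
  have hThatcard : Nat.card T * Nat.card N = Nat.card That := by
    have h1 := card_map_mul_card_inf_ker π That
    have h2 : That.map π = T := Subgroup.map_comap_eq_self_of_surjective hπs T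
    rw [h2, hπk, inf_eq_right.mpr hNT] at h1
    exact h1
  have hTF : Nat.card T ∣ Nat.card Fb := Subgroup.card_dvd_of_le hTs.1
  have hcopNT : (Nat.card N).Coprime (Nat.card T) :=
    (Nat.Coprime.coprime_dvd_left hTF hcop).symm
  let N' : Subgroup That := N.subgroupOf That
  haveI : N'.Normal := Subgroup.normal_subgroupOf
  have hN'card : Nat.card N' = Nat.card N := card_subgroupOf_of_le hNT
  have hN'index : N'.index = Nat.card T := by
    have h1 := Subgroup.card_mul_index N'
    rw [hN'card, ← hThatcard, mul_comm (Nat.card T)] at h1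
    exact Nat.eq_of_mul_eq_mul_left Nat.card_pos h1
  obtain ⟨B, hB⟩ := Subgroup.exists_right_complement'_of_coprime (N := N')
    (by rw [hN'card, hN'index]; exact hcopNT)
  let F₀ : Subgroup G := B.map That.subtype
  have hF₀T : F₀ ≤ That := Subgroup.map_subtype_le B
  have hF₀card : Nat.card F₀ = Nat.card T := by
    rw [Subgroup.card_map_of_injective That.subtype_injective, ← hB.symm.index_eq_card, hN'index]
  have hcopF₀N : (Nat.card F₀).Coprime (Nat.card N) := by
    rw [hF₀card]; exact hcopNT.symm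
  have hF₀N : F₀ ⊓ N = ⊥ := disjoint_of_coprime_card hcopF₀N
  have hF₀map : F₀.map π = T := by
    apply Subgroup.eq_of_le_of_card_ge
    · exact Subgroup.map_le_iff_le_comap.mpr hF₀T
    · rw [card_map_of_disjoint_ker π F₀ (by rw [hπk]; exact hF₀N), hF₀card]
  have hF₀t : IsPGroup t F₀ := by
    obtain ⟨k, hk⟩ := IsPGroup.iff_card.mp hTs.2.1
    exact IsPGroup.iff_card.mpr ⟨k, by rw [hF₀card, hk]⟩
  have hF₀s : Group.IsSolvable F₀ := by
    haveI : Group.IsNilpotent F₀ := hF₀t.isNilpotent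
    infer_instance
  have hNtop : ∀ x : G, x ∈ Subgroup.normalizer (N : Set G) := by
    intro x
    rw [Subgroup.normalizer_eq_top]
    exact Subgroup.mem_top x
  -- lift of the generator normalising `F₀`
  obtain ⟨y₀, hy₀⟩ := hπs h
  have hexists_conj : ∃ c ∈ N, MulAut.conj c • F₀ = MulAut.conj y₀ • F₀ := by
    apply exists_conj_of_le_sup (fun x _ => hNtop x)
    · intro x hx
      rw [mem_conj_smul_iff] at hx
      have h1 : π (y₀⁻¹ * x * y₀) ∈ T := hF₀T hx
      have h2 : π x ∈ T := by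
        have e : π x = h * π (y₀⁻¹ * x * y₀) * h⁻¹ := by
          simp only [map_mul, map_inv, hy₀]
          group
        rw [e]
        exact (Subgroup.mem_normalizer_iff.mp (hTH hhH) _).mp h1
      rw [← hF₀map] at h2
      obtain ⟨a, ha, hae⟩ := h2
      have h3 : x * a⁻¹ ∈ N := by
        rw [← hπk, MonoidHom.mem_ker, map_mul, map_inv, ← hae]
        group
      have e : x = (x * a⁻¹) * a := by group
      rw [e]
      exact Subgroup.mul_mem_sup h3 ha
    · exact card_conj_smul _ _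
    · exact hcopF₀N.symm
    · exact Or.inr hF₀s
  obtain ⟨c₁, hc₁N, hc₁⟩ := hexists_conj
  set y₁ : G := c₁⁻¹ * y₀ with hy₁
  have hy₁π : π y₁ = h := by
    have : π c₁ = 1 := by rw [← MonoidHom.mem_ker, hπk]; exact hc₁N
    rw [hy₁, map_mul, map_inv, this, hy₀]
    simp
  have hy₁F : y₁ ∈ Subgroup.normalizer (F₀ : Set G) := by
    apply mem_normalizer_of_conj_smul_eq
    rw [hy₁, conj_mul_smul, ← hc₁, ← conj_mul_smul]
    simp
  -- the invariant Sylow subgroup
  have hF₀Nn : F₀ ≤ Subgroup.normalizer (N : Set G) := fun x _ => hNtop x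
  obtain ⟨p, hp, Q, hQs, hQF, hQc⟩ : ∃ p : ℕ, p.Prime ∧ ∃ Q, IsSylowIn p Q N ∧
      F₀ ≤ Subgroup.normalizer (Q : Set G) ∧ ¬ F₀ ≤ Subgroup.centralizer (Q : Set G) := by
    by_contra hall
    push Not at hall
    have hNle : N ≤ Subgroup.centralizer (F₀ : Set G) :=
      le_of_forall_sylowIn _ _ (fun p hp => by
        haveI := Fact.mk hp
        obtain ⟨Q, hQ, hQ2⟩ := exists_invariant_sylowIn (p := p) (A := F₀) (K := N) hF₀Nn hcopF₀N
          (Or.inl hF₀s)
        exact ⟨Q, hQ, (Subgroup.le_centralizer_iff).mp (hall p hp Q hQ hQ2)⟩)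
    apply hTI
    rw [← hF₀map]
    exact Subgroup.map_mono ((Subgroup.le_centralizer_iff).mp hNle)
  haveI := Fact.mk hp
  have hQ₂s : IsSylowIn p (MulAut.conj y₁ • Q) N := hQs.conj_of_mem_normalizer (hNtop y₁)
  have hQ₂F : F₀ ≤ Subgroup.normalizer ((MulAut.conj y₁ • Q : Subgroup G) : Set G) := by
    intro a ha
    rw [mem_normalizer_conj_iff]
    apply hQF
    have := (Subgroup.mem_normalizer_iff.mp ((Subgroup.normalizer (F₀ : Set G)).inv_mem hy₁F) a).mp ha
    simpa using this
  obtain ⟨c₂, hc₂, hc₂Q⟩ := invariant_sylowIn_conj hF₀Nn hcopF₀N (Or.inl hF₀s) hQs hQ₂s hQF hQ₂F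
  set y : G := c₂⁻¹ * y₁ with hy
  have hc₂N : c₂ ∈ N := (Subgroup.mem_inf.mp hc₂).1
  have hc₂C : c₂ ∈ Subgroup.centralizer (F₀ : Set G) := (Subgroup.mem_inf.mp hc₂).2
  have hyπ : π y = h := by
    have : π c₂ = 1 := by rw [← MonoidHom.mem_ker, hπk]; exact hc₂N
    rw [hy, map_mul, map_inv, this, hy₁π]
    simp
  have hyQ : y ∈ Subgroup.normalizer (Q : Set G) := by
    apply mem_normalizer_of_conj_smul_eq
    rw [hy, conj_mul_smul, ← hc₂Q, ← conj_mul_smul]
    simp
  have hyF : ∀ a ∈ F₀, y * a * y⁻¹ ∈ F₀ := by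
    intro a ha
    have h1 : y₁ * a * y₁⁻¹ ∈ F₀ := (Subgroup.mem_normalizer_iff.mp hy₁F a).mp ha
    have h2 := (Subgroup.mem_centralizer_iff.mp ((Subgroup.centralizer (F₀ : Set G)).inv_mem hc₂C)) _ h1
    have e : y * a * y⁻¹ = c₂⁻¹ * (y₁ * a * y₁⁻¹) * c₂ := by rw [hy]; group
    rw [e]
    have e2 : c₂⁻¹ * (y₁ * a * y₁⁻¹) * c₂ = y₁ * a * y₁⁻¹ := by
      rw [← h2]; group
    rw [e2]
    exact h1
  have hQcard : Nat.card Q ∣ Nat.card N := Subgroup.card_dvd_of_le hQs.1
  have hfinal := le_centralizer_of_forall_pow_eq_one (p := p) Q F₀ y n hn1 hQs.2.1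
    (Nat.Coprime.coprime_dvd_right hQcard hcopF₀N) hQF hyQ hyF
    (by
      intro i hi0 hin a ha he
      have h1 : π a ∈ T := hF₀T ha
      have h2 : π a = 1 := by
        apply hfpf i hi0 hin _ (hTs.1 h1)
        have := congrArg π he
        simpa [map_mul, map_inv, map_pow, hyπ] using this
      have h3 : a ∈ F₀ ⊓ N := ⟨ha, by rw [← hπk]; exact h2⟩
      rw [hF₀N] at h3
      exact h3)
    (by
      intro f hf c hc
      apply claim _ (π f) (hTs.1 (hF₀T hf))
      have : π c = 1 := by rw [← MonoidHom.mem_ker, hπk]; exact hQs.1 hc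
      rw [map_mul, map_mul, hyπ, this, mul_one])
  exact hQc hfinal

/-- Let N be a normal subgroup of the finite group G such that G/N is a Frobenius group with kernel F and cyclic complement H, where the order of F is coprime to that of N and F is not contained in the image of C_G(N) in G/N. Then G has an element of order p·#H for some prime p dividing the order of N. (A standard tool in recognising groups by their element orders.) -/
theorem result {G : Type*} [Group G] [Finite G] (N : Subgroup G) [N.Normal]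
    (Fb Hb : Subgroup (G ⧸ N)) [Fb.Normal] (hHb : Cfsg.IsFrobeniusComplement Hb) (hker : Cfsg.frobeniusKernel Hb = (Fb : Set (G ⧸ N)))
    (hcyc : IsCyclic Hb) (hcop : (Nat.card Fb).Coprime (Nat.card N))
    (hnot : ¬ Fb ≤ (Subgroup.centralizer (N : Set G)).map (QuotientGroup.mk' N)) :
    ∃ p : ℕ, p.Prime ∧ p ∣ Nat.card N ∧ ∃ g : G, orderOf g = p * Nat.card Hb := by
  exact main_aux N Fb Hb hHb hker hcyc hcop hnot

end Cfsg.Agent.S3703
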