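import Cfsg.Statements.S3742
import Mathlib

set_option autoImplicit false
open Cfsg

namespace Cfsg.Agent.S3742

open QuaternionGroup

private abbrev Q := QuaternionGroup 2

private def ev (e : Q × Q) : Q → Q
  | .a i => e.1 ^ (ZMod.val i)
  | .xa i => e.2 * e.1 ^ (ZMod.val i)

private def tbl : List (Q × Q) :=
  [ (1, 1),
    (1, 1),
    (1, 1),
    (1, 1),
    (1, 1),
    (1, 1),
    (a 1, xa 0),
    (xa 2, a 3),
    (1, 1),
    (a 3, xa 3),
    (1, 1),
    (xa 1, a 1),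
    (1, 1),
    (xa 0, xa 1),
    (xa 3, xa 2),
    (1, 1),
    (1, 1),
    (1, 1),
    (xa 0, a 1),
    (a 3, xa 2),
    (1, 1),
    (1, 1),
    (1, 1),
    (1, 1),
    (xa 2, xa 1),
    (1, 1),
    (1, 1),
    (xa 3, xa 0),
    (a 1, xa 3),
    (1, 1),
    (xa 1, a 3),
    (1, 1),
    (1, 1),
    (xa 3, a 3),
    (1, 1),
    (a 1, xa 1),
    (xa 1, xa 2),
    (1, 1),
    (1, 1),
    (xa 0, xa 3),
    (1, 1),
    (1, 1),
    (1, 1),
    (1, 1),
    (a 3, xa 0),
    (xa 2, a 1),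
    (1, 1),
    (1, 1),
    (1, 1),
    (xa 1, xa 0),
    (xa 2, xa 3),
    (1, 1),
    (xa 3, a 1),
    (1, 1),
    (a 3, xa 1),
    (1, 1),
    (xa 0, a 3),
    (a 1, xa 2),
    (1, 1),
    (1, 1),
    (1, 1),
    (1, 1),
    (1, 1),
    (1, 1) ]

private def s (σ : Equiv.Perm (Fin 4)) : Q × Q :=
  tbl.getD ((σ 0).val * 16 + (σ 1).val * 4 + (σ 2).val) (1, 1)

private theorem hhom : ∀ (σ : Equiv.Perm (Fin 4)) (g h : Q),
    ev (s σ) (g * h) = ev (s σ) g * ev (s σ) h := by decide +kernel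

private theorem hinj : ∀ (σ : Equiv.Perm (Fin 4)) (g h : Q),
    ev (s σ) g = ev (s σ) h → g = h := by decide +kernel

private theorem hmul : ∀ (σ τ : Equiv.Perm (Fin 4)) (g : Q),
    ev (s (σ * τ)) g = ev (s σ) (ev (s τ) g) := by decide +kernel

private theorem hsinj : ∀ (σ τ : Equiv.Perm (Fin 4)), s σ = s τ → σ = τ := by decide +kernel

private theorem hsurj : ∀ x y : Q, x ^ 2 ≠ 1 → y ^ 2 ≠ 1 → x ^ 2 = y ^ 2 → x ≠ y → x ≠ y⁻¹ →
    ∃ σ : Equiv.Perm (Fin 4), s σ = (x, y) := by decide +kernel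

private theorem hgen : ∀ g : Q, ev (.a 1, .xa 0) g = g := by decide +kernel

private theorem hs1 : ∀ σ : Equiv.Perm (Fin 4),
    ev (s σ) (.a 1) = (s σ).1 ∧ ev (s σ) (.xa 0) = (s σ).2 := by decide +kernel

private theorem hinv : ((.a 1 : Q) ^ 2 ≠ 1) ∧ ((.xa 0 : Q) ^ 2 ≠ 1) ∧ ((.a 1 : Q) ^ 2 = (.xa 0 : Q) ^ 2) ∧
    ((.a 1 : Q) ≠ .xa 0) ∧ ((.a 1 : Q) ≠ (.xa 0 : Q)⁻¹) := by decide +kernel

private noncomputable def Φ : Equiv.Perm (Fin 4) →* MulAut Q where
  toFun σ := MulEquiv.ofBijective (MonoidHom.mk' (ev (s σ)) (hhom σ))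
    (Finite.injective_iff_bijective.1 (fun g h hgh => hinj σ g h hgh))
  map_one' := by
    ext g
    show ev (s 1) g = g
    have : ∀ g : Q, ev (s 1) g = g := by decide +kernel
    exact this g
  map_mul' σ τ := by
    ext g
    exact hmul σ τ g

private theorem Φ_apply (σ : Equiv.Perm (Fin 4)) (g : Q) : Φ σ g = ev (s σ) g := rfl

private theorem Φ_bij : Function.Bijective Φ := by
  constructor
  · intro σ τ h
    apply hsinj
    have h1 := hs1 σ
    have h2 := hs1 τ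
    have h3 : ∀ g, ev (s σ) g = ev (s τ) g := fun g => by
      rw [← Φ_apply, ← Φ_apply, h]
    exact Prod.ext (by rw [← h1.1, ← h2.1, h3]) (by rw [← h1.2, ← h2.2, h3])
  · intro f
    have hf : ∀ u v : Q, u ≠ v → f u ≠ f v := fun u v huv h => huv (f.injective h)
    obtain ⟨h1, h2, h3, h4, h5⟩ := hinv
    obtain ⟨σ, hσ⟩ := hsurj (f (.a 1)) (f (.xa 0))
      (by rw [← map_pow]; exact fun h => h1 (f.injective (by rw [h, map_one])))
      (by rw [← map_pow]; exact fun h => h2 (f.injective (by rw [h, map_one])))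
      (by rw [← map_pow, ← map_pow, h3])
      (hf _ _ h4)
      (by rw [← map_inv]; exact hf _ _ h5)
    refine ⟨σ, ?_⟩
    ext g
    rw [Φ_apply, hσ]
    conv_rhs => rw [← hgen g]
    cases g with
    | a i => simp only [ev, map_pow]
    | xa i => simp only [ev, map_mul, map_pow]

/-- The automorphism group of the quaternion group of order 8 is isomorphic to the symmetric group of degree 4. -/
theorem result : Nonempty (MulAut (QuaternionGroup 2) ≃* Equiv.Perm (Fin 4)) := by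
  exact ⟨(MulEquiv.ofBijective Φ Φ_bij).symm⟩

end Cfsg.Agent.S3742
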