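import Cfsg.Statements.S3802
import Cfsg.Agent.Lib.Subnormal.Basic
-- import your own Cfsg.Agent.* helpers here

set_option autoImplicit false
open Cfsg
open Cfsg.Agent.Lib.Subnormal.Basic
open scoped Pointwise

namespace Cfsg.Agent.S3802

/-- Let G be a finite group, M a maximal subgroup of G and N a subnormal subgroup of G contained in M. Then N is contained in every conjugate of M, that is, N lies in the core of M in G. -/
theorem result {G : Type*} [Group G] [Finite G] (M N : Subgroup G) (hM : IsCoatom M) (hN : N.IsSubnormal) (hNM : N ≤ M) :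
    N ≤ Subgroup.normalCore M := by
  classical
  have hNs : SN N ⊤ := isSubnormal_iff_SN_top.mp hN
  have hne : ({U : Subgroup G | SN U ⊤ ∧ U ≤ M ∧ N ≤ U}).Nonempty := ⟨N, hNs, hNM, le_rfl⟩
  obtain ⟨S, hS⟩ := (Set.toFinite _).exists_maximal hne
  obtain ⟨⟨hSs, hSM, hNS⟩, hSmax⟩ := hS
  have hlargest : ∀ U : Subgroup G, SN U ⊤ → U ≤ M → U ≤ S := by
    intro U hU hUM
    have h1 : S ⊔ U ∈ {U : Subgroup G | SN U ⊤ ∧ U ≤ M ∧ N ≤ U} :=
      ⟨hSs.sup hU, sup_le hSM hUM, hNS.trans le_sup_left⟩
    have h2 := hSmax h1 le_sup_left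
    exact le_sup_right.trans h2
  have hMS : M ≤ Subgroup.normalizer (S : Set G) := by
    intro x hx
    apply mem_normalizer_of_conj_eq
    have h1 : SN (MulAut.conj x • S) ⊤ := by
      have h2 := hSs.conj x
      have h3 : MulAut.conj x • (⊤ : Subgroup G) = ⊤ := by
        ext y
        simp [mem_conj]
      rwa [h3] at h2
    have h2 : MulAut.conj x • S ≤ M := conj_le_of_mem hx hSM
    have h3 := hlargest _ h1 h2
    apply Subgroup.eq_of_le_of_card_ge h3
    rw [card_conj]
  by_cases hSn : S.Normal
  · exact hNS.trans (Subgroup.normal_le_normalCore.mpr hSM)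
  · exfalso
    have hnt : Subgroup.normalizer (S : Set G) ≠ ⊤ := by
      intro h
      exact hSn (Subgroup.normalizer_eq_top_iff.mp h)
    have hNM' : Subgroup.normalizer (S : Set G) = M := by
      by_contra hcon
      exact hnt (hM.2 _ (lt_of_le_of_ne hMS (Ne.symm hcon)))
    have hSne : S ≠ ⊤ := by
      intro h
      apply hM.1
      rw [eq_top_iff, ← h]
      exact hSM
    have hstep : ∀ A : Subgroup G, SN A ⊤ → A ≠ ⊤ → ∃ B, A < B ∧ Nml A B ∧ SN B ⊤ := by
      intro A hA
      induction hA using Relation.ReflTransGen.head_induction_on with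
      | refl => exact fun h => absurd rfl h
      | head h1 h2 ih =>
        rename_i X Y
        intro hX
        by_cases hXY : X = Y
        · subst hXY
          exact ih hX
        · exact ⟨Y, lt_of_le_of_ne h1.1 hXY, h1, h2⟩
    obtain ⟨B, hSB, hSB', hBs⟩ := hstep S hSs hSne
    have hBM : B ≤ M := by
      rw [← hNM']
      exact hSB'.2
    exact absurd (hlargest B hBs hBM) (not_le_of_gt hSB)

end Cfsg.Agent.S3802
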