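import Cfsg.Statements.S3815
import Cfsg.Agent.Lib.Core.Basic

set_option autoImplicit false
open Cfsg

namespace Cfsg.Agent.S3815

/-- Let G be a finite group, p a prime and d ∈ G an element of order prime to p. If dg has order prime to p for every element g ∈ G of order prime to p, then d ∈ O_{p'}(G). -/
theorem result {G : Type*} [Group G] [Finite G] {p : ℕ} [Fact p.Prime]
    (d : G) (hd : (orderOf d).Coprime p)
    (h : ∀ g : G, (orderOf g).Coprime p → (orderOf (d * g)).Coprime p) :
    d ∈ Cfsg.pPrimeCore p G := by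
  classical
  let S : Set G := {x | (orderOf x).Coprime p ∧ ∀ g : G, (orderOf g).Coprime p → (orderOf (x * g)).Coprime p}
  have h1 : (1 : G) ∈ S := by
    refine ⟨by simp, fun g hg => by simpa using hg⟩
  have hmul : ∀ {x y : G}, x ∈ S → y ∈ S → x * y ∈ S := by
    intro x y hx hy
    refine ⟨hx.2 y hy.1, fun g hg => ?_⟩
    rw [mul_assoc]
    exact hx.2 _ (hy.2 g hg)
  have hpow : ∀ {x : G}, x ∈ S → ∀ n : ℕ, x ^ n ∈ S := by
    intro x hx n
    induction n with
    | zero => simpa using h1
    | succ n ih =>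
      rw [pow_succ]
      exact hmul ih hx
  have hinv : ∀ {x : G}, x ∈ S → x⁻¹ ∈ S := by
    intro x hx
    have hfin : IsOfFinOrder x := isOfFinOrder_of_finite x
    have : x⁻¹ = x ^ (orderOf x - 1) := by
      rw [eq_comm, ← mul_eq_one_iff_eq_inv, ← pow_succ, Nat.sub_add_cancel hfin.orderOf_pos, pow_orderOf_eq_one]
    rw [this]
    exact hpow hx _
  let D : Subgroup G :=
    { carrier := S
      mul_mem' := hmul
      one_mem' := h1
      inv_mem' := hinv }
  have hconj : ∀ (c g : G), orderOf (c * g * c⁻¹) = orderOf g := by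
    intro c g
    rw [← MulAut.conj_apply, MulEquiv.orderOf_eq]
  have hnorm : D.Normal := by
    constructor
    intro x hx c
    refine ⟨?_, fun g hg => ?_⟩
    · rw [hconj]; exact hx.1
    · have h2 : (orderOf (c⁻¹ * g * c)).Coprime p := by
        have := hconj c⁻¹ g
        simp only [inv_inv] at this
        rw [this]; exact hg
      have h3 := hx.2 _ h2
      have : c * x * c⁻¹ * g = c * (x * (c⁻¹ * g * c)) * c⁻¹ := by group
      rw [this, hconj]
      exact h3
  have : D ≤ Cfsg.pPrimeCore p G :=
    Cfsg.Agent.Lib.Core.Basic.le_pPrimeCore_of_orderOf hnorm (fun x hx => hx.1)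
  exact this ⟨hd, h⟩

end Cfsg.Agent.S3815
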