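import Cfsg.Statements.S3816
import Mathlib
-- import your own Cfsg.Agent.* helpers here

set_option autoImplicit false
open Cfsg

namespace Cfsg.Agent.S3816

section Aux

open Subgroup
open scoped commutatorElement

variable {H : Type*} [Group H]

/-- The subgroup `[h, P]`. -/
def Lx (x : MulAut H) (h : H) : Subgroup H := closure {c | ∃ i : ℕ, c = h⁻¹ * (x ^ i) h}

/-- The subgroup `[U, P]`. -/
def Mx (x : MulAut H) (U : Subgroup H) : Subgroup H :=
  closure {c | ∃ h ∈ U, ∃ i : ℕ, c = h⁻¹ * (x ^ i) h}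

/-- The fixed points. -/
def Fx (x : MulAut H) : Subgroup H := (x : H →* H).eqLocus (MonoidHom.id H)

/-- The subgroup generated by the fixed points of the `[h, P]`. -/
def Jx (x : MulAut H) : Subgroup H := ⨆ h : H, Lx x h ⊓ Fx x

/-- Invariant subgroups. -/
def XInv (x : MulAut H) (U : Subgroup H) : Prop := ∀ u ∈ U, x u ∈ U

theorem mem_Fx {x : MulAut H} {c : H} : c ∈ Fx x ↔ x c = c := Iff.rfl

theorem pow_apply_of_fix {x : MulAut H} {c : H} (hc : x c = c) (i : ℕ) : (x ^ i) c = c := by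
  induction i with
  | zero => rfl
  | succ n ih =>
    rw [pow_succ']
    show x ((x ^ n) c) = c
    rw [ih, hc]

theorem pow_succ_apply (x : MulAut H) (i : ℕ) (h : H) : (x ^ (i + 1)) h = x ((x ^ i) h) := by
  rw [pow_succ']
  rfl

theorem pow_succ_apply' (x : MulAut H) (i : ℕ) (h : H) : (x ^ (i + 1)) h = (x ^ i) (x h) := by
  rw [pow_succ]
  rfl

theorem XInv.pow {x : MulAut H} {U : Subgroup H} (hU : XInv x U) (i : ℕ) : ∀ u ∈ U, (x ^ i) u ∈ U := by
  induction i with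
  | zero => exact fun u hu => hu
  | succ n ih =>
    intro u hu
    rw [pow_succ_apply]
    exact hU _ (ih u hu)

theorem Lx_le_Mx {x : MulAut H} {U : Subgroup H} {h : H} (hh : h ∈ U) : Lx x h ≤ Mx x U := by
  refine closure_mono ?_
  rintro _ ⟨i, rfl⟩
  exact ⟨h, hh, i, rfl⟩

theorem mem_Lx (x : MulAut H) (h : H) (i : ℕ) : h⁻¹ * (x ^ i) h ∈ Lx x h :=
  subset_closure ⟨i, rfl⟩

theorem mem_Mx {x : MulAut H} {U : Subgroup H} {h : H} (hh : h ∈ U) (i : ℕ) : h⁻¹ * (x ^ i) h ∈ Mx x U :=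
  subset_closure ⟨h, hh, i, rfl⟩

theorem Mx_le {x : MulAut H} {U : Subgroup H} (hU : XInv x U) : Mx x U ≤ U := by
  rw [Mx, closure_le]
  rintro _ ⟨h, hh, i, rfl⟩
  exact U.mul_mem (U.inv_mem hh) (hU.pow i h hh)

theorem Lx_le {x : MulAut H} {U : Subgroup H} (hU : XInv x U) {h : H} (hh : h ∈ U) : Lx x h ≤ U :=
  (Lx_le_Mx hh).trans (Mx_le hU)

theorem Mx_mono {x : MulAut H} {U V : Subgroup H} (h : U ≤ V) : Mx x U ≤ Mx x V := by
  refine closure_mono ?_
  rintro _ ⟨a, ha, i, rfl⟩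
  exact ⟨a, h ha, i, rfl⟩

theorem Lx_inv (x : MulAut H) (h : H) : XInv x (Lx x h) := by
  intro u hu
  induction hu using closure_induction with
  | mem c hc =>
    obtain ⟨i, rfl⟩ := hc
    have h1 : x (h⁻¹ * (x ^ i) h) = (h⁻¹ * (x ^ 1) h)⁻¹ * (h⁻¹ * (x ^ (i + 1)) h) := by
      rw [pow_one, pow_succ_apply x i h, map_mul, map_inv]
      show (x h)⁻¹ * x ((x ^ i) h) = (h⁻¹ * x h)⁻¹ * (h⁻¹ * x ((x ^ i) h))
      group
    rw [h1]
    exact mul_mem (inv_mem (mem_Lx x h 1)) (mem_Lx x h (i + 1))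
  | one => simp [one_mem]
  | mul a b _ _ ha hb => rw [map_mul]; exact mul_mem ha hb
  | inv a _ ha => rw [map_inv]; exact inv_mem ha

theorem Mx_inv {x : MulAut H} {U : Subgroup H} (hU : XInv x U) : XInv x (Mx x U) := by
  intro u hu
  induction hu using closure_induction with
  | mem c hc =>
    obtain ⟨h, hh, i, rfl⟩ := hc
    have h1 : x (h⁻¹ * (x ^ i) h) = (x h)⁻¹ * (x ^ i) (x h) := by
      rw [map_mul, map_inv, ← pow_succ_apply, pow_succ_apply']
    rw [h1]
    exact mem_Mx (hU h hh) i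
  | one => simp [one_mem]
  | mul a b _ _ ha hb => rw [map_mul]; exact mul_mem ha hb
  | inv a _ ha => rw [map_inv]; exact inv_mem ha

theorem Mx_conj {x : MulAut H} {U : Subgroup H} {a c : H} (ha : a ∈ U) (hc : c ∈ Mx x U) :
    a⁻¹ * c * a ∈ Mx x U := by
  induction hc using closure_induction with
  | mem c hc =>
    obtain ⟨h, hh, i, rfl⟩ := hc
    have h1 : a⁻¹ * (h⁻¹ * (x ^ i) h) * a =
        (h * a)⁻¹ * (x ^ i) (h * a) * (a⁻¹ * (x ^ i) a)⁻¹ := by
      rw [map_mul]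
      group
    rw [h1]
    exact mul_mem (mem_Mx (mul_mem hh ha) i) (inv_mem (mem_Mx ha i))
  | one => simp [one_mem]
  | mul b d _ _ hb hd =>
    have : a⁻¹ * (b * d) * a = (a⁻¹ * b * a) * (a⁻¹ * d * a) := by group
    rw [this]
    exact mul_mem hb hd
  | inv b _ hb =>
    have : a⁻¹ * b⁻¹ * a = (a⁻¹ * b * a)⁻¹ := by group
    rw [this]
    exact inv_mem hb

theorem Lx_le_Jx_of_fix {x : MulAut H} {h c : H} (hc : c ∈ Lx x h) (hf : x c = c) : c ∈ Jx x :=
  (le_iSup (fun h => Lx x h ⊓ Fx x) h) ⟨hc, hf⟩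

section Fin

variable [Finite H]

theorem mem_of_pow_mem {p : ℕ} (hcop : (Nat.card H).Coprime p) {S : Subgroup H} {a : H} (ha : a ^ p ∈ S) : a ∈ S := by
  have h1 := Nat.gcd_eq_gcd_ab (Nat.card H) p
  rw [hcop.gcd_eq_one] at h1
  have h2 : a = (a ^ (Nat.card H)) ^ (Nat.gcdA (Nat.card H) p) * (a ^ p) ^ (Nat.gcdB (Nat.card H) p) := by
    rw [← zpow_natCast, ← zpow_natCast, ← zpow_mul, ← zpow_mul, ← zpow_add, ← h1]
    simp
  rw [h2, pow_card_eq_one', one_zpow, one_mul]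
  exact zpow_mem ha _

theorem eq_one_of_pow_eq_one {p : ℕ} (hcop : (Nat.card H).Coprime p) {a : H} (ha : a ^ p = 1) : a = 1 := by
  have : a ∈ (⊥ : Subgroup H) := mem_of_pow_mem hcop (by simpa using ha)
  simpa using this

/-- `[[h, P], P] = [h, P]`. -/
theorem Lx_le_Mx_Lx {p : ℕ} {x : MulAut H} (hp : x ^ p = 1) (hcop : (Nat.card H).Coprime p) (h : H) :
    Lx x h ≤ Mx x (Lx x h) := by
  set L := Lx x h with hL
  set L₀ := Mx x L with hL₀
  set c := h⁻¹ * x h with hc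
  have hcL : c ∈ L := by
    have := mem_Lx x h 1
    rwa [pow_one] at this
  have h1 : ∀ i : ℕ, (c ^ i)⁻¹ * (h⁻¹ * (x ^ i) h) ∈ L₀ := by
    intro i
    induction i with
    | zero => simp [one_mem]
    | succ n ih =>
      have e : (c ^ (n + 1))⁻¹ * (h⁻¹ * (x ^ (n + 1)) h) =
          (c⁻¹ * ((c ^ n)⁻¹ * (h⁻¹ * (x ^ n) h)) * c) * (c⁻¹ * (x ^ n) c) := by
        have e1 : (x ^ n) c = ((x ^ n) h)⁻¹ * (x ^ (n + 1)) h := by
          rw [hc, map_mul, map_inv, pow_succ_apply']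
        rw [e1, pow_succ]
        group
      rw [e]
      exact mul_mem (Mx_conj hcL ih) (mem_Mx hcL n)
  have h2 : c ^ p ∈ L₀ := by
    have := h1 p
    rw [hp] at this
    simpa using this
  have h3 : c ∈ L₀ := mem_of_pow_mem hcop h2
  rw [hL, Lx, closure_le]
  rintro _ ⟨i, rfl⟩
  have h4 := mul_mem (pow_mem h3 i) (h1 i)
  simpa using h4

theorem coset_fixed {p : ℕ} [hpp : Fact p.Prime] {x : MulAut H} (hp : x ^ p = 1)
    (hcop : (Nat.card H).Coprime p) {A : Subgroup H} (hA : XInv x A) {u : H} (hu : u⁻¹ * x u ∈ A) :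
    ∃ a ∈ A, x (u * a) = u * a := by
  classical
  haveI := Fintype.ofFinite A
  set d := u⁻¹ * x u with hd
  let f : Function.End A := fun a => ⟨d * x a, A.mul_mem hu (hA a a.2)⟩
  have hf : ∀ (k : ℕ) (a : A), (((f ^ k) a : A) : H) = u⁻¹ * (x ^ k) (u * a) := by
    intro k a
    induction k with
    | zero =>
      simp only [pow_zero]
      show (a : H) = u⁻¹ * (u * a)
      group
    | succ n ih =>
      rw [pow_succ']
      show d * x (((f ^ n) a : A) : H) = _
      rw [ih, pow_succ_apply, map_mul, map_inv, hd]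
      group
  have hfp : f ^ p ^ 1 = 1 := by
    funext a
    apply Subtype.ext
    rw [pow_one, hf, hp]
    show u⁻¹ * (u * a) = (a : H)
    group
  have hm := Equiv.Perm.card_fixedPoints_modEq hfp
  by_contra hno
  have hempty : Fintype.card (Function.fixedPoints f) = 0 := by
    rw [Fintype.card_eq_zero_iff]
    refine ⟨fun a => hno ⟨a.1.1, a.1.2, ?_⟩⟩
    have h1 : f a.1 = a.1 := a.2
    have h2 : d * x a.1.1 = a.1.1 := congrArg Subtype.val h1
    have h3 : x u * x a.1.1 = u * a.1.1 := by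
      have h4 : x u = u * d := by rw [hd]; group
      rw [h4, mul_assoc, h2]
    rw [map_mul]
    exact h3
  rw [hempty] at hm
  have h4 : p ∣ Fintype.card A := (Nat.modEq_zero_iff_dvd).mp hm
  rw [← Nat.card_eq_fintype_card] at h4
  have h5 : p ∣ Nat.card H := h4.trans (Subgroup.card_subgroup_dvd_card A)
  have h6 := Nat.Coprime.eq_one_of_dvd hcop.symm h5
  exact hpp.out.one_lt.ne' h6

theorem exists_fix_mul {p : ℕ} [Fact p.Prime] {x : MulAut H} (hp : x ^ p = 1)
    (hcop : (Nat.card H).Coprime p) {U : Subgroup H} (hU : XInv x U) {u : H} (hu : u ∈ U) :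
    ∃ f ∈ U, x f = f ∧ ∃ c ∈ Mx x U, u = f * c := by
  have h1 : u⁻¹ * x u ∈ Mx x U := by
    have := mem_Mx (x := x) hu 1
    rwa [pow_one] at this
  obtain ⟨a, ha, hfa⟩ := coset_fixed hp hcop (Mx_inv hU) h1
  exact ⟨u * a, U.mul_mem hu (Mx_le hU ha), hfa, a⁻¹, inv_mem ha, by group⟩

theorem Mx_form {x : MulAut H} {W : Subgroup H} (hWi : XInv x W) (hWc : ∀ a ∈ W, ∀ b ∈ W, a * b = b * a)
    {c : H} (hc : c ∈ Mx x W) : ∃ w ∈ W, c = w⁻¹ * x w := by
  have hmul : ∀ v ∈ W, ∀ u ∈ W, (v⁻¹ * x v) * (u⁻¹ * x u) = (v * u)⁻¹ * x (v * u) := by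
    intro v hv u hu
    have h1 : (v⁻¹ * x v) * u⁻¹ = u⁻¹ * (v⁻¹ * x v) :=
      hWc _ (mul_mem (inv_mem hv) (hWi v hv)) _ (inv_mem hu)
    calc (v⁻¹ * x v) * (u⁻¹ * x u) = ((v⁻¹ * x v) * u⁻¹) * x u := by group
      _ = u⁻¹ * (v⁻¹ * x v) * x u := by rw [h1]
      _ = (v * u)⁻¹ * x (v * u) := by rw [map_mul]; group
  induction hc using closure_induction with
  | mem c hc =>
    obtain ⟨h, hh, i, rfl⟩ := hc
    induction i with
    | zero => exact ⟨1, one_mem _, by simp⟩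
    | succ n ih =>
      obtain ⟨v, hv, hvv⟩ := ih
      refine ⟨v * (x ^ n) h, mul_mem hv (hWi.pow n h hh), ?_⟩
      rw [← hmul v hv _ (hWi.pow n h hh), ← hvv, pow_succ_apply]
      group
  | one => exact ⟨1, one_mem _, by simp⟩
  | mul a b _ _ ha hb =>
    obtain ⟨v, hv, rfl⟩ := ha
    obtain ⟨u, hu, rfl⟩ := hb
    exact ⟨v * u, mul_mem hv hu, hmul v hv u hu⟩
  | inv a _ ha =>
    obtain ⟨v, hv, rfl⟩ := ha
    refine ⟨v⁻¹, inv_mem hv, ?_⟩
    have h1 : (x v)⁻¹ * v = v * (x v)⁻¹ := hWc _ (inv_mem (hWi v hv)) _ hv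
    rw [mul_inv_rev, inv_inv, h1, map_inv]

theorem Mx_fix_eq_one {p : ℕ} {x : MulAut H} (hp : x ^ p = 1) (hcop : (Nat.card H).Coprime p)
    {W : Subgroup H} (hWi : XInv x W) (hWc : ∀ a ∈ W, ∀ b ∈ W, a * b = b * a)
    {c : H} (hc : c ∈ Mx x W) (hf : x c = c) : c = 1 := by
  obtain ⟨w, hw, rfl⟩ := Mx_form hWi hWc hc
  set c := w⁻¹ * x w with hcd
  have h1 : ∀ k : ℕ, (x ^ k) w = w * c ^ k := by
    intro k
    induction k with
    | zero => simp
    | succ n ih =>
      have h4 : x w = w * c := by rw [hcd]; group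
      rw [pow_succ_apply, ih, map_mul, map_pow, hf, pow_succ', ← mul_assoc, h4]
  have h2 := h1 p
  rw [hp] at h2
  have h3 : c ^ p = 1 := by
    have : w * c ^ p = w * 1 := by rw [← h2]; simp
    exact mul_left_cancel this
  exact eq_one_of_pow_eq_one hcop h3

theorem XInv.sup {x : MulAut H} {U V : Subgroup H} (hU : XInv x U) (hV : XInv x V) : XInv x (U ⊔ V) := by
  have : U ⊔ V ≤ (U ⊔ V).comap x.toMonoidHom :=
    sup_le (fun u hu => mem_sup_left (hU u hu)) (fun v hv => mem_sup_right (hV v hv))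
  exact fun u hu => this hu

theorem XInv.inf {x : MulAut H} {U V : Subgroup H} (hU : XInv x U) (hV : XInv x V) : XInv x (U ⊓ V) :=
  fun u hu => ⟨hU u hu.1, hV u hu.2⟩

theorem Jx_le_Fx (x : MulAut H) : Jx x ≤ Fx x := iSup_le fun _ => inf_le_right

theorem Lx_conj_of_fix {x : MulAut H} {c h y : H} (hc : x c = c) (hy : y ∈ Lx x h) :
    c⁻¹ * y * c ∈ Lx x (c⁻¹ * h * c) := by
  induction hy using closure_induction with
  | mem y hy =>
    obtain ⟨i, rfl⟩ := hy
    have h1 : c⁻¹ * (h⁻¹ * (x ^ i) h) * c = (c⁻¹ * h * c)⁻¹ * (x ^ i) (c⁻¹ * h * c) := by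
      simp only [map_mul, map_inv, pow_apply_of_fix hc]
      group
    rw [h1]
    exact mem_Lx x _ i
  | one => simp [one_mem]
  | mul a b _ _ ha hb =>
    have : c⁻¹ * (a * b) * c = (c⁻¹ * a * c) * (c⁻¹ * b * c) := by group
    rw [this]
    exact mul_mem ha hb
  | inv a _ ha =>
    have : c⁻¹ * a⁻¹ * c = (c⁻¹ * a * c)⁻¹ := by group
    rw [this]
    exact inv_mem ha

theorem Jx_conj {x : MulAut H} {c j : H} (hc : x c = c) (hj : j ∈ Jx x) : c⁻¹ * j * c ∈ Jx x := by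
  have hle : Jx x ≤ (Jx x).comap (MulAut.conj c⁻¹).toMonoidHom := by
    refine iSup_le fun h => ?_
    rintro y ⟨hy, hy'⟩
    have h1 := Lx_conj_of_fix hc hy
    have h2 : x (c⁻¹ * y * c) = c⁻¹ * y * c := by
      have hy'' : x y = y := hy'
      simp [map_mul, hc, hy'']
    have h3 := Lx_le_Jx_of_fix h1 h2
    show (MulAut.conj c⁻¹) y ∈ Jx x
    simpa [MulAut.conj_apply] using h3
  have := hle hj
  simpa [MulAut.conj_apply] using this

theorem Mx_conj_fix {x : MulAut H} {W : Subgroup H} (hWn : W.Normal) {c d : H} (hc : x c = c)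
    (hd : d ∈ Mx x W) : c⁻¹ * d * c ∈ Mx x W := by
  induction hd using closure_induction with
  | mem y hy =>
    obtain ⟨h, hh, i, rfl⟩ := hy
    have h1 : c⁻¹ * (h⁻¹ * (x ^ i) h) * c = (c⁻¹ * h * c)⁻¹ * (x ^ i) (c⁻¹ * h * c) := by
      simp only [map_mul, map_inv, pow_apply_of_fix hc]
      group
    rw [h1]
    refine mem_Mx ?_ i
    have := hWn.conj_mem h hh c⁻¹
    simpa using this
  | one => simp [one_mem]
  | mul a b _ _ ha hb =>
    have : c⁻¹ * (a * b) * c = (c⁻¹ * a * c) * (c⁻¹ * b * c) := by group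
    rw [this]
    exact mul_mem ha hb
  | inv a _ ha =>
    have : c⁻¹ * a⁻¹ * c = (c⁻¹ * a * c)⁻¹ := by group
    rw [this]
    exact inv_mem ha

/-- The hypotheses on a minimal counterexample. -/
structure MC (p : ℕ) (x : MulAut H) : Prop where
  prime : p.Prime
  odd : p ≠ 2
  pow : x ^ p = 1
  cop : (Nat.card H).Coprime p
  top : Mx x ⊤ = ⊤
  sub : ∀ M : Subgroup H, M ≠ ⊤ → XInv x M → Mx x M ⊓ Fx x ≤ Jx x
  fac : ∀ D : Subgroup H, D ≠ ⊥ → D.Normal → XInv x D → ∀ c, x c = c →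
    ∃ j ∈ Jx x, ∃ d ∈ D, x d = d ∧ c = j * d
  nle : ¬ Fx x ≤ Jx x

theorem MC.nofix {p : ℕ} {x : MulAut H} (hM : MC p x) {D : Subgroup H} (hD : D ≠ ⊥) (hDn : D.Normal)
    (hDi : XInv x D) (hfix : ∀ d ∈ D, x d = d → d ∈ Jx x) : False := by
  apply hM.nle
  intro c hc
  obtain ⟨j, hj, d, hd, hdf, rfl⟩ := hM.fac D hD hDn hDi c hc
  exact mul_mem hj (hfix d hd hdf)

/-- The kernel of the map to the fixed points modulo `J`. -/
def IW (x : MulAut H) (W : Subgroup H) (hWi : XInv x W) (hWc : ∀ a ∈ W, ∀ b ∈ W, a * b = b * a) :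
    Subgroup H where
  carrier := {z | ∃ j ∈ W, j ∈ Jx x ∧ ∃ c ∈ Mx x W, z = j * c}
  mul_mem' := by
    rintro _ _ ⟨j, hj, hj', c, hc, rfl⟩ ⟨j₂, hj₂, hj₂', c₂, hc₂, rfl⟩
    refine ⟨j * j₂, mul_mem hj hj₂, mul_mem hj' hj₂', c * c₂, mul_mem hc hc₂, ?_⟩
    have : c * j₂ = j₂ * c := hWc _ (Mx_le hWi hc) _ hj₂
    calc j * c * (j₂ * c₂) = j * (c * j₂) * c₂ := by group
      _ = j * (j₂ * c) * c₂ := by rw [this]
      _ = j * j₂ * (c * c₂) := by group
  one_mem' := ⟨1, one_mem _, one_mem _, 1, one_mem _, by simp⟩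
  inv_mem' := by
    rintro _ ⟨j, hj, hj', c, hc, rfl⟩
    refine ⟨j⁻¹, inv_mem hj, inv_mem hj', c⁻¹, inv_mem hc, ?_⟩
    rw [mul_inv_rev]
    exact hWc _ (Mx_le hWi (inv_mem hc)) _ (inv_mem hj)

theorem IW_fix {p : ℕ} {x : MulAut H} (hp : x ^ p = 1) (hcop : (Nat.card H).Coprime p)
    {W : Subgroup H} (hWi : XInv x W) (hWc : ∀ a ∈ W, ∀ b ∈ W, a * b = b * a)
    {z : H} (hz : z ∈ IW x W hWi hWc) (hf : x z = z) : z ∈ Jx x := by
  obtain ⟨j, hj, hj', c, hc, rfl⟩ := hz
  have h1 : x j = j := Jx_le_Fx x hj'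
  have h2 : x c = c := by
    rw [map_mul, h1] at hf
    exact mul_left_cancel hf
  rw [Mx_fix_eq_one hp hcop hWi hWc hc h2, mul_one]
  exact hj'

theorem conj_mem' {W : Subgroup H} (hWn : W.Normal) {w : H} (hw : w ∈ W) (c : H) : c⁻¹ * w * c ∈ W := by
  have := hWn.conj_mem w hw c⁻¹
  simpa using this

/-- Elements acting trivially modulo `I`. -/
def StW (x : MulAut H) (W : Subgroup H) (hWn : W.Normal) (hWi : XInv x W)
    (hWc : ∀ a ∈ W, ∀ b ∈ W, a * b = b * a) : Subgroup H where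
  carrier := {c | ∀ w ∈ W, w⁻¹ * (c⁻¹ * w * c) ∈ IW x W hWi hWc}
  mul_mem' := by
    intro c d hc hd w hw
    have hw' : c⁻¹ * w * c ∈ W := conj_mem' hWn hw c
    have e : w⁻¹ * ((c * d)⁻¹ * w * (c * d)) =
        (w⁻¹ * (c⁻¹ * w * c)) * ((c⁻¹ * w * c)⁻¹ * (d⁻¹ * (c⁻¹ * w * c) * d)) := by group
    rw [e]
    exact mul_mem (hc w hw) (hd _ hw')
  one_mem' := by
    intro w _
    simp [one_mem]
  inv_mem' := by
    intro c hc w hw
    have hw' : c * w * c⁻¹ ∈ W := hWn.conj_mem w hw c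
    have h1 := inv_mem (hc _ hw')
    have e : (( c * w * c⁻¹)⁻¹ * (c⁻¹ * (c * w * c⁻¹) * c))⁻¹ = w⁻¹ * (c⁻¹⁻¹ * w * c⁻¹) := by group
    rwa [e] at h1

section MCW

variable {p : ℕ} {x : MulAut H} (hM : MC p x) {W : Subgroup H} (hWne : W ≠ ⊥) (hWn : W.Normal)
  (hWi : XInv x W) (hWc : ∀ a ∈ W, ∀ b ∈ W, a * b = b * a)

include hM

theorem Lx_le_St {y : H} (hne : W ⊔ Lx x y ≠ ⊤) : Lx x y ≤ StW x W hWn hWi hWc := by
  haveI : Fact p.Prime := ⟨hM.prime⟩
  intro c hc w hw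
  set M := W ⊔ Lx x y with hMd
  have hMi : XInv x M := hWi.sup (Lx_inv x y)
  have hcM : c ∈ Mx x M := Mx_mono le_sup_right (Lx_le_Mx_Lx hM.pow hM.cop y hc)
  have hwM : w ∈ M := mem_sup_left hw
  have hzW : w⁻¹ * (c⁻¹ * w * c) ∈ W := mul_mem (inv_mem hw) (conj_mem' hWn hw c)
  have hzM : w⁻¹ * (c⁻¹ * w * c) ∈ Mx x M := by
    have e : w⁻¹ * (c⁻¹ * w * c) = (w⁻¹ * c⁻¹ * w) * c := by group
    rw [e]
    exact mul_mem (Mx_conj hwM (inv_mem hcM)) hcM
  have hUi : XInv x (Mx x M ⊓ W) := (Mx_inv hMi).inf hWi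
  obtain ⟨f, hfU, hfx, d, hd, hzfd⟩ := exists_fix_mul hM.pow hM.cop hUi (⟨hzM, hzW⟩ : _ ∈ Mx x M ⊓ W)
  have hfJ : f ∈ Jx x := hM.sub M hne hMi ⟨hfU.1, hfx⟩
  exact ⟨f, hfU.2, hfJ, d, Mx_mono inf_le_right hd, hzfd⟩

include hWne

theorem fix_le_St {c : H} (hc : x c = c) : c ∈ StW x W hWn hWi hWc := by
  haveI : Fact p.Prime := ⟨hM.prime⟩
  intro w hw
  obtain ⟨f, hf, hfx, d, hd, rfl⟩ := exists_fix_mul hM.pow hM.cop hWi hw
  obtain ⟨j, hj, b, hb, hbx, rfl⟩ := hM.fac W hWne hWn hWi c hc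
  have hjx : x j = j := Jx_le_Fx x hj
  have hdW : d ∈ W := Mx_le hWi hd
  set f₁ := j⁻¹ * f * j with hf₁
  set d₁ := j⁻¹ * d * j with hd₁
  have hf₁W : f₁ ∈ W := conj_mem' hWn hf j
  have hd₁W : d₁ ∈ W := conj_mem' hWn hdW j
  have hd₁M : d₁ ∈ Mx x W := Mx_conj_fix hWn hjx hd
  have e1 : (j * b)⁻¹ * (f * d) * (j * b) = f₁ * d₁ := by
    have h1 : b⁻¹ * (f₁ * d₁) * b = f₁ * d₁ := by
      have : (f₁ * d₁) * b = b * (f₁ * d₁) := hWc _ (mul_mem hf₁W hd₁W) _ hb
      rw [mul_assoc, this]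
      group
    rw [← h1, hf₁, hd₁]
    group
  have hc1 : (f⁻¹ * f₁) ∈ Jx x := by
    have h2 : f⁻¹ * j⁻¹ * f ∈ Jx x := Jx_conj hfx (inv_mem hj)
    have e : f⁻¹ * f₁ = (f⁻¹ * j⁻¹ * f) * j := by rw [hf₁]; group
    rw [e]
    exact mul_mem h2 hj
  refine ⟨f⁻¹ * f₁, mul_mem (inv_mem hf) hf₁W, hc1, d⁻¹ * d₁, mul_mem (inv_mem hd) hd₁M, ?_⟩
  rw [e1]
  have h3 : d⁻¹ * (f⁻¹ * f₁) = (f⁻¹ * f₁) * d⁻¹ :=
    hWc _ (inv_mem hdW) _ (mul_mem (inv_mem hf) hf₁W)
  calc (f * d)⁻¹ * (f₁ * d₁) = (d⁻¹ * (f⁻¹ * f₁)) * d₁ := by group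
    _ = (f⁻¹ * f₁) * d⁻¹ * d₁ := by rw [h3]
    _ = f⁻¹ * f₁ * (d⁻¹ * d₁) := by group

omit hWne in
theorem le_centralizer_of_le_St {R : Subgroup H} (hRn : R.Normal) (hRi : XInv x R)
    (hR : R ≤ StW x W hWn hWi hWc) : R ≤ centralizer (W : Set H) := by
  have hDi : XInv x ⁅W, R⁆ := by
    have : ⁅W, R⁆ ≤ ⁅W, R⁆.comap x.toMonoidHom := by
      rw [commutator_le]
      intro a ha b hb
      show x ⁅a, b⁆ ∈ ⁅W, R⁆
      rw [map_commutatorElement]
      exact commutator_mem_commutator (hWi a ha) (hRi b hb)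
    exact fun u hu => this hu
  have hDn : (⁅W, R⁆).Normal := by
    haveI := hWn
    haveI := hRn
    exact Subgroup.commutator_normal W R
  have hDI : ⁅W, R⁆ ≤ IW x W hWi hWc := by
    rw [commutator_le]
    intro a ha b hb
    have h1 := hR (inv_mem hb) a⁻¹ (inv_mem ha)
    have e : (a⁻¹)⁻¹ * ((b⁻¹)⁻¹ * a⁻¹ * b⁻¹) = ⁅a, b⁆ := by
      rw [commutatorElement_def]
      group
    rwa [e] at h1
  have hD : ⁅W, R⁆ = ⊥ := by
    by_contra hne
    exact hM.nofix hne hDn hDi (fun d hd hf => IW_fix hM.pow hM.cop hWi hWc (hDI hd) hf)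
  intro r hr
  rw [mem_centralizer_iff]
  intro w hw
  have h1 : ⁅w, r⁆ ∈ ⁅W, R⁆ := commutator_mem_commutator hw hr
  rw [hD, mem_bot, commutatorElement_eq_one_iff_mul_comm] at h1
  exact h1

end MCW

theorem perfect_mod [Group.IsSolvable H] {K R : Subgroup H} (hK : K.Normal) (h : R ≤ ⁅R, R⁆ ⊔ K) : R ≤ K := by
  haveI := hK
  let q := QuotientGroup.mk' K
  have hkq : q.ker = K := QuotientGroup.ker_mk' K
  by_contra hne
  have hR' : R.map q ≠ ⊥ := by
    intro hb
    apply hne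
    rw [Subgroup.map_eq_bot_iff, hkq] at hb
    exact hb
  have hlt := Group.IsSolvable.commutator_lt_of_ne_bot hR'
  apply not_le_of_gt hlt
  calc R.map q ≤ (⁅R, R⁆ ⊔ K).map q := map_mono h
    _ = ⁅R.map q, R.map q⁆ := by
      rw [Subgroup.map_sup, map_commutator]
      have : K.map q = ⊥ := by
        rw [Subgroup.map_eq_bot_iff, hkq]
      rw [this, sup_bot_eq]

/-- The structure forced by a noncentral abelian normal subgroup. -/
structure StrW (x : MulAut H) (W : Subgroup H) : Prop where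
  cent : centralizer (W : Set H) ≤ W
  comm : ∀ a b : H, ⁅a, b⁆ ∈ W
  fpf : ∀ g, g⁻¹ * x g ∈ W → g ∈ W
  ab : ∀ g, g ∉ W → ∀ a ∈ Lx x g, ∀ b ∈ Lx x g, a * b = b * a

theorem XInv.inv_mem {p : ℕ} {x : MulAut H} (hp : x ^ p = 1) (hpp : p.Prime) {U : Subgroup H} (hU : XInv x U)
    {u : H} (hu : u ∈ U) : (x⁻¹) u ∈ U := by
  have h1 : x⁻¹ = x ^ (p - 1) := by
    rw [inv_eq_iff_mul_eq_one, ← pow_succ', Nat.sub_add_cancel hpp.one_lt.le, hp]
  rw [h1]
  exact hU.pow _ u hu

theorem exists_StrW [Group.IsSolvable H] {p : ℕ} {x : MulAut H} (hM : MC p x) {W : Subgroup H} (hWne : W ≠ ⊥)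
    (hWn : W.Normal) (hWi : XInv x W) (hWc : ∀ a ∈ W, ∀ b ∈ W, a * b = b * a)
    (hnc : ¬ ∀ a ∈ W, ∀ b : H, a * b = b * a) : StrW x W := by
  classical
  haveI : Fact p.Prime := ⟨hM.prime⟩
  set K : Subgroup H := centralizer (W : Set H) with hK
  have hmemK : ∀ {k : H}, k ∈ K ↔ ∀ w ∈ W, w * k = k * w := by
    intro k
    rw [hK, mem_centralizer_iff]
    exact Iff.rfl
  have hKn : K.Normal := by
    refine ⟨fun k hk g => ?_⟩
    rw [hmemK] at hk ⊢
    intro w hw
    have h1 := hk (g⁻¹ * w * g) (conj_mem' hWn hw g)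
    calc w * (g * k * g⁻¹) = g * ((g⁻¹ * w * g) * k) * g⁻¹ := by group
      _ = g * (k * (g⁻¹ * w * g)) * g⁻¹ := by rw [h1]
      _ = g * k * g⁻¹ * w := by group
  have hKi : XInv x K := by
    intro k hk
    rw [hmemK] at hk ⊢
    intro w hw
    have h1 := hk _ (XInv.inv_mem hM.pow hM.prime hWi hw)
    have h2 := congrArg x h1
    simpa using h2
  have hWK : W ≤ K := fun w hw => hmemK.mpr (fun v hv => hWc v hv w hw)
  have hKne : K ≠ ⊤ := by
    intro h
    apply hnc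
    intro a ha b
    have : b ∈ K := by rw [h]; trivial
    exact hmemK.mp this a ha
  -- (A1)
  have hA1 : ∀ R : Subgroup H, R.Normal → XInv x R → K ≤ R → R ≠ ⊤ → R ≤ K := by
    intro R hRn hRi hKR hRne
    have hRSt : R ≤ StW x W hWn hWi hWc := by
      intro u hu
      obtain ⟨f, hf, hfx, d, hd, rfl⟩ := exists_fix_mul hM.pow hM.cop hRi hu
      refine Subgroup.mul_mem _ (fix_le_St hM hWne hWn hWi hWc hfx) ?_
      have hle : Mx x R ≤ StW x W hWn hWi hWc := by
        rw [Mx, closure_le]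
        rintro _ ⟨h, hh, i, rfl⟩
        have hne : W ⊔ Lx x h ≠ ⊤ := by
          intro htop
          apply hRne
          rw [eq_top_iff, ← htop]
          exact sup_le (hWK.trans hKR) (Lx_le hRi hh)
        exact Lx_le_St hM hWn hWi hWc hne (mem_Lx x h i)
      exact hle hd
    exact le_centralizer_of_le_St hM hWn hWi hWc hRn hRi hRSt
  -- (A2)
  have hA2 : ∀ a b : H, ⁅a, b⁆ ∈ K := by
    have hRne : commutator H ⊔ K ≠ ⊤ := by
      intro h
      have h1 : (⊤ : Subgroup H) ≤ K := by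
        refine perfect_mod hKn ?_
        rw [← h]
        rw [h]
        have : ⁅(⊤ : Subgroup H), (⊤ : Subgroup H)⁆ = commutator H := rfl
        rw [this, h]
      exact hKne (top_le_iff.mp h1)
    have hRn : (commutator H ⊔ K).Normal := by
      haveI : (commutator H).Normal := inferInstance
      haveI := hKn
      exact Subgroup.sup_normal _ _
    have hRi : XInv x (commutator H ⊔ K) := by
      refine XInv.sup ?_ hKi
      have : commutator H ≤ (commutator H).comap x.toMonoidHom := by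
        rw [commutator_def, commutator_le]
        intro a _ b _
        show x ⁅a, b⁆ ∈ ⁅(⊤ : Subgroup H), (⊤ : Subgroup H)⁆
        rw [map_commutatorElement]
        exact commutator_mem_commutator (mem_top _) (mem_top _)
      exact fun u hu => this hu
    have := hA1 _ hRn hRi le_sup_right hRne
    intro a b
    exact this (mem_sup_left (commutator_mem_commutator (mem_top _) (mem_top _)))
  -- groups containing `K` are normal
  have hnormal : ∀ R : Subgroup H, K ≤ R → R.Normal := by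
    intro R hKR
    refine ⟨fun r hr g => ?_⟩
    have : g * r * g⁻¹ = ⁅g, r⁆ * r := by
      rw [commutatorElement_def]
      group
    rw [this]
    exact mul_mem (hKR (hA2 g r)) hr
  -- (A3)
  let R₃ : Subgroup H :=
    { carrier := {g | g⁻¹ * x g ∈ K}
      mul_mem' := by
        intro g h hg hh
        show (g * h)⁻¹ * x (g * h) ∈ K
        have e : (g * h)⁻¹ * x (g * h) = (h⁻¹ * (g⁻¹ * x g) * h) * (h⁻¹ * x h) := by
          rw [map_mul]
          group
        rw [e]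
        exact mul_mem (conj_mem' hKn hg h) hh
      one_mem' := by
        show (1 : H)⁻¹ * x 1 ∈ K
        simp [one_mem]
      inv_mem' := by
        intro g hg
        show g⁻¹⁻¹ * x g⁻¹ ∈ K
        have e : g⁻¹⁻¹ * x g⁻¹ = g * (g⁻¹ * x g)⁻¹ * g⁻¹ := by
          rw [map_inv]
          group
        rw [e]
        exact hKn.conj_mem _ (inv_mem hg) g }
  have hKR₃ : K ≤ R₃ := fun k hk => by
    show k⁻¹ * x k ∈ K
    exact mul_mem (inv_mem hk) (hKi k hk)
  have hR₃i : XInv x R₃ := by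
    intro g hg
    show (x g)⁻¹ * x (x g) ∈ K
    have := hKi _ hg
    simpa using this
  have hR₃ne : R₃ ≠ ⊤ := by
    intro h
    apply hKne
    have h1 : ∀ g : H, g⁻¹ * x g ∈ K := fun g => by
      have : g ∈ R₃ := by rw [h]; trivial
      exact this
    have h2 : ∀ (i : ℕ) (g : H), g⁻¹ * (x ^ i) g ∈ K := by
      intro i
      induction i with
      | zero => simp [one_mem]
      | succ n ih =>
        intro g
        have e : g⁻¹ * (x ^ (n + 1)) g = (g⁻¹ * (x ^ n) g) * (((x ^ n) g)⁻¹ * x ((x ^ n) g)) := by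
          rw [pow_succ_apply]
          group
        rw [e]
        exact mul_mem (ih g) (h1 _)
    rw [eq_top_iff, ← hM.top, Mx, closure_le]
    rintro _ ⟨h, -, i, rfl⟩
    exact h2 i h
  have hA3 : ∀ g, g⁻¹ * x g ∈ K → g ∈ K := fun g hg => hA1 R₃ (hnormal R₃ hKR₃) hR₃i hKR₃ hR₃ne hg
  -- (A4)
  have hA4 : ∀ g, g ∉ K → Lx x g ⊔ K = ⊤ := by
    intro g hg
    by_contra hne
    have hle := hA1 (Lx x g ⊔ K) (hnormal _ le_sup_right) ((Lx_inv x g).sup hKi) le_sup_right hne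
    apply hg
    apply hA3
    apply hle
    apply mem_sup_left
    have := mem_Lx x g 1
    rwa [pow_one] at this
  have hKSt : K ≤ StW x W hWn hWi hWc := by
    intro k hk w hw
    have h1 := hmemK.mp hk w hw
    have e : w⁻¹ * (k⁻¹ * w * k) = 1 := by
      rw [mul_assoc k⁻¹, h1]
      group
    rw [e]
    exact one_mem _
  have hA4' : ∀ g, g ∉ K → W ⊔ Lx x g = ⊤ := by
    intro g hg
    by_contra hne
    have hle := Lx_le_St hM hWn hWi hWc hne
    have htop : (⊤ : Subgroup H) ≤ StW x W hWn hWi hWc := by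
      rw [← hA4 g hg]
      exact sup_le hle hKSt
    have := le_centralizer_of_le_St hM hWn hWi hWc (R := ⊤) inferInstance (fun _ _ => mem_top _) htop
    exact hKne (top_le_iff.mp this)
  -- (A5)
  have hA5 : ∀ g, g ∉ K → Lx x g ⊓ K = ⊥ := by
    intro g hg
    by_contra hne
    refine hM.nofix hne ?_ ((Lx_inv x g).inf hKi) ?_
    · refine ⟨fun a ha h => ?_⟩
      have hh : h ∈ W ⊔ Lx x g := by rw [hA4' g hg]; trivial
      haveI := hWn
      obtain ⟨w, hw, l, hl, rfl⟩ := mem_sup_of_normal_left.mp hh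
      have h1 : l * a * l⁻¹ ∈ Lx x g := mul_mem (mul_mem hl ha.1) (inv_mem hl)
      have h2 : l * a * l⁻¹ ∈ K := hKn.conj_mem a ha.2 l
      have h3 := hmemK.mp h2 w hw
      have e : (w * l) * a * (w * l)⁻¹ = l * a * l⁻¹ := by
        calc (w * l) * a * (w * l)⁻¹ = w * (l * a * l⁻¹) * w⁻¹ := by group
          _ = (l * a * l⁻¹) * w * w⁻¹ := by rw [h3]
          _ = l * a * l⁻¹ := by group
      rw [e]
      exact ⟨h1, h2⟩
    · intro d hd hf
      exact Lx_le_Jx_of_fix hd.1 hf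
  obtain ⟨g₀, hg₀⟩ : ∃ g, g ∉ K := by
    by_contra hno
    push Not at hno
    exact hKne (eq_top_iff.mpr fun g _ => hno g)
  have hKW : K ≤ W := by
    intro k hk
    have hh : k ∈ W ⊔ Lx x g₀ := by rw [hA4' g₀ hg₀]; trivial
    haveI := hWn
    obtain ⟨w, hw, l, hl, rfl⟩ := mem_sup_of_normal_left.mp hh
    have hlK : l ∈ K := by
      have : l = w⁻¹ * (w * l) := by group
      rw [this]
      exact mul_mem (inv_mem (hWK hw)) hk
    have hl1 : l ∈ Lx x g₀ ⊓ K := ⟨hl, hlK⟩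
    rw [hA5 g₀ hg₀, mem_bot] at hl1
    rw [hl1, mul_one]
    exact hw
  have hKeq : K = W := le_antisymm hKW hWK
  refine ⟨hKW, fun a b => hKW (hA2 a b), fun g hg => hKW (hA3 g (hWK hg)), ?_⟩
  intro g hg a ha b hb
  have hgK : g ∉ K := by rwa [hKeq]
  have h1 : ⁅a, b⁆ ∈ Lx x g ⊓ K := by
    refine ⟨?_, hA2 a b⟩
    rw [commutatorElement_def]
    exact (Lx x g).mul_mem ((Lx x g).mul_mem ((Lx x g).mul_mem ha hb) ((Lx x g).inv_mem ha)) ((Lx x g).inv_mem hb)
  rw [hA5 g hgK, mem_bot, commutatorElement_eq_one_iff_mul_comm] at h1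
  exact h1

/-- The relation coming from the commutativity of `[gv, P]`. -/
theorem starstar {x : MulAut H} {W : Subgroup H} (hS : StrW x W)
    (hWn : W.Normal) (hWi : XInv x W) (hWc : ∀ a ∈ W, ∀ b ∈ W, a * b = b * a) {g v : H} (hg : g ∉ W) (hv : v ∈ W) :
    (v⁻¹ * x v)⁻¹ * ((g⁻¹ * (x ^ 2) g)⁻¹ * (v⁻¹ * x v) * (g⁻¹ * (x ^ 2) g)) =
      (v⁻¹ * (x ^ 2) v)⁻¹ * ((g⁻¹ * x g)⁻¹ * (v⁻¹ * (x ^ 2) v) * (g⁻¹ * x g)) := by
  set c₁ := g⁻¹ * x g with hc₁
  set c₂ := g⁻¹ * (x ^ 2) g with hc₂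
  set α := v⁻¹ * x v with hα
  set β := v⁻¹ * (x ^ 2) v with hβ
  have hxv : x v ∈ W := hWi v hv
  have hx2v : (x ^ 2) v ∈ W := hWi.pow 2 v hv
  have hαW : α ∈ W := mul_mem (inv_mem hv) hxv
  have hβW : β ∈ W := mul_mem (inv_mem hv) hx2v
  have hgv : g * v ∉ W := by
    intro h
    apply hg
    have : g = (g * v) * v⁻¹ := by group
    rw [this]
    exact mul_mem h (inv_mem hv)
  have h12 : c₁ * c₂ = c₂ * c₁ := by
    have h1 := mem_Lx x g 1
    rw [pow_one] at h1
    exact hS.ab g hg _ h1 _ (mem_Lx x g 2)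
  have he : (v⁻¹ * c₁ * x v) * (v⁻¹ * c₂ * (x ^ 2) v) = (v⁻¹ * c₂ * (x ^ 2) v) * (v⁻¹ * c₁ * x v) := by
    have h1 := mem_Lx x (g * v) 1
    have h2 := mem_Lx x (g * v) 2
    rw [pow_one] at h1
    have e1 : (g * v)⁻¹ * x (g * v) = v⁻¹ * c₁ * x v := by
      rw [map_mul, hc₁]
      group
    have e2 : (g * v)⁻¹ * (x ^ 2) (g * v) = v⁻¹ * c₂ * (x ^ 2) v := by
      rw [map_mul, hc₂]
      group
    rw [e1] at h1
    rw [e2] at h2
    exact hS.ab _ hgv _ h1 _ h2
  set α' := c₂⁻¹ * α * c₂ with hα'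
  set β' := c₁⁻¹ * β * c₁ with hβ'
  have hα'W : α' ∈ W := conj_mem' hWn hαW c₂
  have hβ'W : β' ∈ W := conj_mem' hWn hβW c₁
  have e3 : x v = v * α := by rw [hα]; group
  have e4 : (x ^ 2) v = v * β := by rw [hβ]; group
  have e5 : α' * v * β = β' * v * α := by
    have h5 : (c₁ * c₂) * (α' * (v * β)) = (c₁ * c₂) * (β' * (v * α)) := by
      have l1 : (c₁ * c₂) * (α' * (v * β)) = v * ((v⁻¹ * c₁ * x v) * (v⁻¹ * c₂ * (x ^ 2) v)) := by
        rw [hα', e3, e4]
        have : α * v = v * α := hWc _ hαW _ hv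
        calc (c₁ * c₂) * (c₂⁻¹ * α * c₂ * (v * β)) = c₁ * (α * c₂) * (v * β) := by group
          _ = v * (v⁻¹ * c₁ * (v * α) * (v⁻¹ * c₂ * (v * β))) := by
            have : v * α * v⁻¹ = α := by
              rw [← this]
              group
            have e6 : (v * α) * (v⁻¹ * c₂) = α * c₂ := by
              calc (v * α) * (v⁻¹ * c₂) = (v * α * v⁻¹) * c₂ := by group
                _ = α * c₂ := by rw [this]
            calc c₁ * (α * c₂) * (v * β) = c₁ * ((v * α) * (v⁻¹ * c₂)) * (v * β) := by rw [e6]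
              _ = _ := by group
      have l2 : (c₁ * c₂) * (β' * (v * α)) = v * ((v⁻¹ * c₂ * (x ^ 2) v) * (v⁻¹ * c₁ * x v)) := by
        rw [hβ', h12, e3, e4]
        have : β * v = v * β := hWc _ hβW _ hv
        calc (c₂ * c₁) * (c₁⁻¹ * β * c₁ * (v * α)) = c₂ * (β * c₁) * (v * α) := by group
          _ = v * (v⁻¹ * c₂ * (v * β) * (v⁻¹ * c₁ * (v * α))) := by
            have : v * β * v⁻¹ = β := by
              rw [← this]
              group
            have e6 : (v * β) * (v⁻¹ * c₁) = β * c₁ := by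
              calc (v * β) * (v⁻¹ * c₁) = (v * β * v⁻¹) * c₁ := by group
                _ = β * c₁ := by rw [this]
            calc c₂ * (β * c₁) * (v * α) = c₂ * ((v * β) * (v⁻¹ * c₁)) * (v * α) := by rw [e6]
              _ = _ := by group
      rw [l1, l2, he]
    have h6 := mul_left_cancel h5
    calc α' * v * β = α' * (v * β) := by group
      _ = β' * (v * α) := h6
      _ = β' * v * α := by group
  have e6 : α' * β = β' * α := by
    have c1 : α' * v = v * α' := hWc _ hα'W _ hv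
    have c2 : β' * v = v * β' := hWc _ hβ'W _ hv
    have e8 : v * (α' * β) = v * (β' * α) := by
      calc v * (α' * β) = (v * α') * β := by group
        _ = α' * v * β := by rw [c1]
        _ = β' * v * α := e5
        _ = (v * β') * α := by rw [c2]
        _ = v * (β' * α) := by group
    exact mul_left_cancel e8
  have c3 : β⁻¹ * α' = α' * β⁻¹ := hWc _ (inv_mem hβW) _ hα'W
  have c4 : β⁻¹ * β' = β' * β⁻¹ := hWc _ (inv_mem hβW) _ hβ'W
  have c5 : α * β = β * α := hWc _ hαW _ hβW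
  -- goal: α⁻¹ α' = β⁻¹ β'
  have e7 : α' = β' * α * β⁻¹ := by rw [← e6]; group
  rw [e7]
  have c6 : α⁻¹ * β' = β' * α⁻¹ := hWc _ (inv_mem hαW) _ hβ'W
  have c7 : α * β⁻¹ = β⁻¹ * α := hWc _ hαW _ (inv_mem hβW)
  calc α⁻¹ * (β' * α * β⁻¹) = (α⁻¹ * β') * (α * β⁻¹) := by group
    _ = (β' * α⁻¹) * (β⁻¹ * α) := by rw [c6, c7]
    _ = β' * β⁻¹ := by
      have c8 : α⁻¹ * β⁻¹ = β⁻¹ * α⁻¹ := hWc _ (inv_mem hαW) _ (inv_mem hβW)
      calc (β' * α⁻¹) * (β⁻¹ * α) = β' * (α⁻¹ * β⁻¹) * α := by group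
        _ = β' * (β⁻¹ * α⁻¹) * α := by rw [c8]
        _ = β' * β⁻¹ := by group
    _ = β⁻¹ * β' := c4.symm

end Fin

/-- Arithmetic of an automorphism of odd prime order without fixed points. -/
theorem add_facts {A : Type*} [AddCommGroup A] [Finite A] (σ : A →+ A) {k : ℕ}
    (hp : ∀ a, σ^[2 * k + 1] a = a) (hf : ∀ a, σ a = a → a = 0) :
    (∀ y, ∃ t, y = σ t - t) ∧ (∀ y, ∃ t, y = σ (σ t) - t) ∧ (∀ a, σ (σ a) = a → a = 0) ∧
      (∀ a, σ (σ (σ (σ a))) + 2 • σ a = a + 2 • σ (σ (σ a)) → a = 0) := by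
  have h2 : ∀ a, σ (σ a) = a → a = 0 := by
    intro a ha
    have h3 : ∀ n : ℕ, σ^[2 * n] a = a := by
      intro n
      induction n with
      | zero => rfl
      | succ m ih =>
        rw [show 2 * (m + 1) = 2 * m + 2 by ring, Function.iterate_add_apply]
        simp only [Function.iterate_succ, Function.iterate_zero, Function.comp, id]
        rw [ha, ih]
    have h4 := hp a
    rw [Function.iterate_succ_apply', h3] at h4
    exact hf a h4
  have hinj1 : Function.Injective (fun t : A => σ t - t) := by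
    intro a b hab
    have h5 : σ (a - b) = a - b := by
      have hab' : σ a - a = σ b - b := hab
      rw [map_sub]
      rw [sub_eq_sub_iff_sub_eq_sub] at hab' 
      exact hab'
    have := hf _ h5
    exact sub_eq_zero.mp this
  have hinj2 : Function.Injective (fun t : A => σ (σ t) - t) := by
    intro a b hab
    have h5 : σ (σ (a - b)) = a - b := by
      have hab' : σ (σ a) - a = σ (σ b) - b := hab
      rw [map_sub, map_sub]
      rw [sub_eq_sub_iff_sub_eq_sub] at hab'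
      exact hab'
    have := h2 _ h5
    exact sub_eq_zero.mp this
  refine ⟨?_, ?_, h2, ?_⟩
  · intro y
    obtain ⟨t, ht⟩ := Finite.surjective_of_injective hinj1 y
    exact ⟨t, ht.symm⟩
  · intro y
    obtain ⟨t, ht⟩ := Finite.surjective_of_injective hinj2 y
    exact ⟨t, ht.symm⟩
  · intro a ha
    have h6 : (fun t : A => σ t - t) ((fun t : A => σ t - t) ((fun t : A => σ t - t) (σ a + a))) = 0 := by
      simp only [map_sub, map_add]
      have h7 : σ (σ (σ (σ a))) = a + 2 • σ (σ (σ a)) - 2 • σ a := by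
        rw [← ha]
        abel
      rw [h7]
      abel
    have h8 : (fun t : A => σ t - t) ((fun t : A => σ t - t) ((fun t : A => σ t - t) (σ a + a))) =
        (fun t : A => σ t - t) ((fun t : A => σ t - t) ((fun t : A => σ t - t) 0)) := by
      rw [h6]
      simp
    have h9 := hinj1 (hinj1 (hinj1 h8))
    have h10 : σ (σ a) = a := by
      have h11 : σ a = -a := eq_neg_of_add_eq_zero_left h9
      rw [h11, map_neg, h11, neg_neg]
    exact h2 a h10

/-- The algebraic core: elimination of powers of `s`. -/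
theorem alg_core {R : Type*} [Ring R] {s s' C₁ C₂ a₀ a₁ a₂ b₀ b₁ b₂ : R} (hs : s * s' = 1)
    (E0 : C₂ * (s - 1) = C₁ * (s * s - 1))
    (ha0 : s * a₀ = a₁ * s) (ha1 : s * a₁ = a₂ * s) (hb0 : s * b₀ = b₁ * s) (hb1 : s * b₁ = b₂ * s)
    (c1 : a₀ * C₁ = C₁ * a₀) (c2 : a₀ * C₂ = C₂ * a₀) (c3 : b₂ * C₁ = C₁ * b₂) (c4 : b₂ * C₂ = C₂ * b₂)
    (c5 : b₂ * a₁ = a₁ * b₂) (c6 : b₂ * a₀ = a₀ * b₂) (c7 : b₂ * a₂ = a₂ * b₂) :
    C₂ * (a₁ - a₀) * (b₂ - b₁) = 0 := by
  have hssa : s * s * a₀ = a₂ * (s * s) := by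
    calc s * s * a₀ = s * (s * a₀) := by rw [mul_assoc]
      _ = s * (a₁ * s) := by rw [ha0]
      _ = (s * a₁) * s := by rw [mul_assoc]
      _ = a₂ * s * s := by rw [ha1]
      _ = a₂ * (s * s) := by rw [mul_assoc]
  have hssb : s * s * b₀ = b₂ * (s * s) := by
    calc s * s * b₀ = s * (s * b₀) := by rw [mul_assoc]
      _ = s * (b₁ * s) := by rw [hb0]
      _ = (s * b₁) * s := by rw [mul_assoc]
      _ = b₂ * s * s := by rw [hb1]
      _ = b₂ * (s * s) := by rw [mul_assoc]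
  -- first elimination
  have E1 : C₂ * (a₁ * s - a₀) = C₁ * (a₂ * (s * s) - a₀) := by
    calc C₂ * (a₁ * s - a₀) = C₂ * (s - 1) * a₀ := by
          rw [mul_assoc, sub_mul, ha0, one_mul]
      _ = C₁ * (s * s - 1) * a₀ := by rw [E0]
      _ = C₁ * (a₂ * (s * s) - a₀) := by
          rw [mul_assoc, sub_mul, hssa, one_mul]
  have E2 : C₂ * a₀ * (s - 1) = C₁ * a₀ * (s * s - 1) := by
    rw [← c2, ← c1, mul_assoc, E0, mul_assoc]
  have E3 : C₂ * (a₁ - a₀) * s = C₁ * (a₂ - a₀) * (s * s) := by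
    have e1 : C₂ * (a₁ - a₀) * s = C₂ * (a₁ * s - a₀) - C₂ * a₀ * (s - 1) := by noncomm_ring
    have e2 : C₁ * (a₂ - a₀) * (s * s) = C₁ * (a₂ * (s * s) - a₀) - C₁ * a₀ * (s * s - 1) := by noncomm_ring
    rw [e1, e2, E1, E2]
  -- second elimination
  have E4 : C₂ * (a₁ - a₀) * b₁ * s = C₁ * (a₂ - a₀) * b₂ * (s * s) := by
    calc C₂ * (a₁ - a₀) * b₁ * s = C₂ * (a₁ - a₀) * (b₁ * s) := by rw [mul_assoc]
      _ = C₂ * (a₁ - a₀) * (s * b₀) := by rw [hb0]
      _ = C₂ * (a₁ - a₀) * s * b₀ := by simp only [mul_assoc]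
      _ = C₁ * (a₂ - a₀) * (s * s) * b₀ := by rw [E3]
      _ = C₁ * (a₂ - a₀) * (s * s * b₀) := by simp only [mul_assoc]
      _ = C₁ * (a₂ - a₀) * (b₂ * (s * s)) := by rw [hssb]
      _ = C₁ * (a₂ - a₀) * b₂ * (s * s) := by simp only [mul_assoc]
  have e5 : b₂ * (C₂ * (a₁ - a₀)) = C₂ * (a₁ - a₀) * b₂ := by
    have h1 : b₂ * (a₁ - a₀) = (a₁ - a₀) * b₂ := by rw [mul_sub, sub_mul, c5, c6]
    rw [← mul_assoc, c4, mul_assoc, h1, mul_assoc]
  have e6 : b₂ * (C₁ * (a₂ - a₀)) = C₁ * (a₂ - a₀) * b₂ := by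
    have h1 : b₂ * (a₂ - a₀) = (a₂ - a₀) * b₂ := by rw [mul_sub, sub_mul, c7, c6]
    rw [← mul_assoc, c3, mul_assoc, h1, mul_assoc]
  have E5 : C₂ * (a₁ - a₀) * b₂ * s = C₁ * (a₂ - a₀) * b₂ * (s * s) := by
    calc C₂ * (a₁ - a₀) * b₂ * s = b₂ * (C₂ * (a₁ - a₀)) * s := by rw [e5]
      _ = b₂ * (C₂ * (a₁ - a₀) * s) := by rw [mul_assoc]
      _ = b₂ * (C₁ * (a₂ - a₀) * (s * s)) := by rw [E3]
      _ = b₂ * (C₁ * (a₂ - a₀)) * (s * s) := by simp only [mul_assoc]
      _ = C₁ * (a₂ - a₀) * b₂ * (s * s) := by rw [e6]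
  have E6 : C₂ * (a₁ - a₀) * (b₂ - b₁) * s = 0 := by
    have : C₂ * (a₁ - a₀) * (b₂ - b₁) * s = C₂ * (a₁ - a₀) * b₂ * s - C₂ * (a₁ - a₀) * b₁ * s := by noncomm_ring
    rw [this, E4, E5, sub_self]
  calc C₂ * (a₁ - a₀) * (b₂ - b₁) = C₂ * (a₁ - a₀) * (b₂ - b₁) * (s * s') := by rw [hs, mul_one]
    _ = (C₂ * (a₁ - a₀) * (b₂ - b₁) * s) * s' := by simp only [mul_assoc]
    _ = 0 := by rw [E6, zero_mul]

theorem alg_final {V : Type*} [AddCommGroup V] {T : Type*} [Group T] (ρ : T → AddMonoid.End V)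
    (s s' : AddMonoid.End V) (y : T → T) (hysurj : Function.Surjective y)
    (hρmul : ∀ a b, ρ (a * b) = ρ b * ρ a) (hρone : ρ 1 = 1)
    (hρcomm : ∀ a b, ρ a * ρ b = ρ b * ρ a)
    (hs : s * s' = 1) (hsρ : ∀ t, s * ρ t = ρ (y t) * s)
    (c₁ c₂ : T) (E0 : (ρ c₂ - 1) * (s - 1) = (ρ c₁ - 1) * (s * s - 1)) (t u : T) :
    (ρ c₂ - 1) * (ρ (t⁻¹ * y t) - 1) * (ρ (u⁻¹ * y u) - 1) = 0 := by
  obtain ⟨u₀, rfl⟩ := hysurj u
  have hC : ∀ a b : T, ρ a * (ρ b - 1) = (ρ b - 1) * ρ a := by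
    intro a b
    rw [mul_sub, sub_mul, hρcomm, mul_one, one_mul]
  have main := alg_core (s := s) (s' := s') (C₁ := ρ c₁ - 1) (C₂ := ρ c₂ - 1) (a₀ := ρ t) (a₁ := ρ (y t))
    (a₂ := ρ (y (y t))) (b₀ := ρ u₀) (b₁ := ρ (y u₀)) (b₂ := ρ (y (y u₀))) hs E0 (hsρ _) (hsρ _) (hsρ _) (hsρ _)
    (hC _ _) (hC _ _) (hC _ _) (hC _ _) (hρcomm _ _) (hρcomm _ _) (hρcomm _ _)
  have hinv : ∀ t : T, ρ t⁻¹ * ρ t = 1 := by
    intro t
    rw [← hρmul, mul_inv_cancel, hρone]
  have e : ∀ t : T, ρ (y t) - ρ t = ρ t * (ρ (t⁻¹ * y t) - 1) := by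
    intro t
    have h1 : ρ t * ρ (t⁻¹ * y t) = ρ (y t) := by
      rw [hρmul, hρcomm (y t), ← mul_assoc, hρcomm t, hinv, one_mul]
    rw [mul_sub, h1, mul_one]
  rw [e t, e (y u₀)] at main
  set a := ρ t with ha
  set b := ρ (y u₀) with hb
  set A := ρ (t⁻¹ * y t) - 1 with hA
  set B := ρ ((y u₀)⁻¹ * y (y u₀)) - 1 with hB
  set C := ρ c₂ - 1 with hCd
  have h1 : C * a = a * C := (hC _ _).symm
  have h2 : C * b = b * C := (hC _ _).symm
  have h3 : A * b = b * A := (hC _ _).symm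
  have e2 : C * (a * A) * (b * B) = a * (b * (C * A * B)) := by
    calc C * (a * A) * (b * B) = (C * a) * A * (b * B) := by simp only [mul_assoc]
      _ = a * C * A * (b * B) := by rw [h1]
      _ = a * (C * (A * b) * B) := by simp only [mul_assoc]
      _ = a * (C * (b * A) * B) := by rw [h3]
      _ = a * ((C * b) * A * B) := by simp only [mul_assoc]
      _ = a * (b * C * A * B) := by rw [h2]
      _ = a * (b * (C * A * B)) := by simp only [mul_assoc]
  rw [e2] at main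
  have h4 : ρ t⁻¹ * (a * (b * (C * A * B))) = b * (C * A * B) := by
    rw [← mul_assoc, ha, hinv, one_mul]
  have h5 : b * (C * A * B) = 0 := by rw [← h4, main, mul_zero]
  have h6 : ρ (y u₀)⁻¹ * (b * (C * A * B)) = C * A * B := by
    rw [← mul_assoc, hb, hinv, one_mul]
  rw [← h6, h5, mul_zero]

section Fin2

variable [Finite H]

/-- The relative commutator. -/
def bc (z y : H) : H := z⁻¹ * (y⁻¹ * z * y)

theorem comm_of_bc_eq_one {v E : H} (h : bc v E = 1) : v * E = E * v := by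
  rw [bc, inv_mul_eq_one] at h
  calc v * E = E * (E⁻¹ * v * E) := by rw [h]; group
    _ = E * v := by rw [← h]

theorem comm_eq_bc (n y : H) : ⁅n, y⁆ = bc n⁻¹ y⁻¹ := by
  rw [commutatorElement_def, bc]
  group

theorem bc_mem {W : Subgroup H} (hWn : W.Normal) {z : H} (hz : z ∈ W) (y : H) : bc z y ∈ W :=
  mul_mem (inv_mem hz) (conj_mem' hWn hz y)

theorem bc_mul_left {W : Subgroup H} (hWn : W.Normal) (hWc : ∀ a ∈ W, ∀ b ∈ W, a * b = b * a) {a b : H}
    (ha : a ∈ W) (hb : b ∈ W) (y : H) : bc (a * b) y = bc a y * bc b y := by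
  have h1 : b⁻¹ * (a⁻¹ * (y⁻¹ * a * y)) = (a⁻¹ * (y⁻¹ * a * y)) * b⁻¹ :=
    hWc _ (inv_mem hb) _ (bc_mem hWn ha y)
  calc bc (a * b) y = (b⁻¹ * (a⁻¹ * (y⁻¹ * a * y))) * (y⁻¹ * b * y) := by
        simp only [bc]
        group
    _ = (a⁻¹ * (y⁻¹ * a * y)) * b⁻¹ * (y⁻¹ * b * y) := by rw [h1]
    _ = bc a y * bc b y := by
        simp only [bc]
        group

theorem bc_one (y : H) : bc 1 y = 1 := by simp [bc]

theorem bc_inv_left {W : Subgroup H} (hWn : W.Normal) (hWc : ∀ a ∈ W, ∀ b ∈ W, a * b = b * a) {a : H}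
    (ha : a ∈ W) (y : H) : bc a⁻¹ y = (bc a y)⁻¹ := by
  have h1 := bc_mul_left hWn hWc ha (inv_mem ha) y
  rw [mul_inv_cancel, bc_one] at h1
  exact eq_inv_of_mul_eq_one_right h1.symm

theorem comm2_le {W : Subgroup H} (hWn : W.Normal) (hWc : ∀ a ∈ W, ∀ b ∈ W, a * b = b * a) {Zc : Subgroup H}
    (h : ∀ v ∈ W, ∀ y y' : H, bc (bc v y') y ∈ Zc) : ⁅⁅W, (⊤ : Subgroup H)⁆, (⊤ : Subgroup H)⁆ ≤ Zc := by
  have h1 : ∀ d ∈ ⁅W, (⊤ : Subgroup H)⁆, d ∈ W ∧ ∀ y, bc d y ∈ Zc := by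
    intro d hd
    rw [Subgroup.commutator_def] at hd
    induction hd using closure_induction with
    | mem d hd =>
      obtain ⟨n, hn, y', -, rfl⟩ := hd
      rw [comm_eq_bc]
      exact ⟨bc_mem hWn (inv_mem hn) _, fun y => h _ (inv_mem hn) _ _⟩
    | one =>
      exact ⟨one_mem _, fun y => by rw [bc_one]; exact one_mem _⟩
    | mul a b _ _ ha hb =>
      refine ⟨mul_mem ha.1 hb.1, fun y => ?_⟩
      rw [bc_mul_left hWn hWc ha.1 hb.1]
      exact mul_mem (ha.2 y) (hb.2 y)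
    | inv a _ ha =>
      refine ⟨inv_mem ha.1, fun y => ?_⟩
      rw [bc_inv_left hWn hWc ha.1]
      exact inv_mem (ha.2 y)
  rw [commutator_le]
  intro d hd y _
  rw [comm_eq_bc]
  exact (h1 _ (inv_mem hd)).2 _

theorem mod_facts {p : ℕ} {x : MulAut H} (hp : x ^ p = 1) (hpp : p.Prime) (hodd : p ≠ 2) {W : Subgroup H}
    (hWn : W.Normal) (hWi : XInv x W) (hcomm : ∀ a b : H, ⁅a, b⁆ ∈ W) (hfpf : ∀ g, g⁻¹ * x g ∈ W → g ∈ W) :
    (∀ y, ∃ t, (t⁻¹ * x t)⁻¹ * y ∈ W) ∧ (∀ y, ∃ t, (t⁻¹ * (x ^ 2) t)⁻¹ * y ∈ W) ∧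
    (∀ g, g⁻¹ * (x ^ 2) g ∈ W → g ∈ W) ∧
    (∀ g, (((x ^ 2) g)⁻¹ * (x ^ 4) g)⁻¹ * ((x g)⁻¹ * (x ^ 3) g) * (g⁻¹ * x g)⁻¹ * (((x ^ 2) g)⁻¹ * (x ^ 3) g) ∈ W →
      g ∈ W) := by
  classical
  haveI := hWn
  obtain ⟨k, hk⟩ : ∃ k, p = 2 * k + 1 := by
    rcases hpp.eq_two_or_odd' with h | h
    · exact absurd h hodd
    · exact h
  letI : CommGroup (H ⧸ W) :=
    { (inferInstance : Group (H ⧸ W)) with
      mul_comm := by
        intro a b
        induction a using QuotientGroup.induction_on with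
        | H a =>
          induction b using QuotientGroup.induction_on with
          | H b =>
            rw [← QuotientGroup.mk_mul, ← QuotientGroup.mk_mul, QuotientGroup.eq]
            have h1 := hcomm b⁻¹ a⁻¹
            have e : (a * b)⁻¹ * (b * a) = ⁅b⁻¹, a⁻¹⁆ := by
              rw [commutatorElement_def]
              group
            rw [e]
            exact h1 }
  let s : (H ⧸ W) →* (H ⧸ W) := QuotientGroup.map W W x.toMonoidHom (fun w hw => hWi w hw)
  let σ : Additive (H ⧸ W) →+ Additive (H ⧸ W) := s.toAdditive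
  let m : H → Additive (H ⧸ W) := fun h => Additive.ofMul (h : H ⧸ W)
  have hm_mul : ∀ a b, m (a * b) = m a + m b := fun a b => rfl
  have hm_inv : ∀ a, m a⁻¹ = - m a := fun a => rfl
  have hm_x : ∀ a, σ (m a) = m (x a) := fun a => rfl
  have hm_surj : ∀ a : Additive (H ⧸ W), ∃ h, a = m h := by
    intro a
    induction a using Additive.rec with
    | ofMul a =>
      induction a using QuotientGroup.induction_on with
      | H h => exact ⟨h, rfl⟩
  have hm_mem : ∀ z, m z = 0 → z ∈ W := by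
    intro z hz
    have : (z : H ⧸ W) = 1 := hz
    exact (QuotientGroup.eq_one_iff z).mp this
  have hm_zero : ∀ z, z ∈ W → m z = 0 := by
    intro z hz
    exact (QuotientGroup.eq_one_iff z).mpr hz
  have hσ : ∀ (n : ℕ) (a : H), σ^[n] (m a) = m ((x ^ n) a) := by
    intro n a
    induction n with
    | zero => rfl
    | succ n ih =>
      rw [Function.iterate_succ_apply', ih, hm_x, pow_succ_apply]
  have hpow : ∀ a, σ^[2 * k + 1] a = a := by
    intro a
    obtain ⟨h, rfl⟩ := hm_surj a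
    rw [hσ, ← hk, hp]
    rfl
  have hf : ∀ a, σ a = a → a = 0 := by
    intro a ha
    obtain ⟨h, rfl⟩ := hm_surj a
    rw [hm_x] at ha
    apply hm_zero
    apply hfpf
    apply hm_mem
    rw [hm_mul, hm_inv, ha]
    abel
  obtain ⟨f1, f2, f3, f4⟩ := add_facts σ hpow hf
  have hσ2 : ∀ a, σ (σ (m a)) = m ((x ^ 2) a) := fun a => hσ 2 a
  have hσ3 : ∀ a, σ (σ (σ (m a))) = m ((x ^ 3) a) := fun a => hσ 3 a
  have hσ4 : ∀ a, σ (σ (σ (σ (m a)))) = m ((x ^ 4) a) := fun a => hσ 4 a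
  refine ⟨?_, ?_, ?_, ?_⟩
  · intro y
    obtain ⟨t, ht⟩ := f1 (m y)
    obtain ⟨t, rfl⟩ := hm_surj t
    refine ⟨t, hm_mem _ ?_⟩
    rw [hm_x] at ht
    simp only [hm_mul, hm_inv, ht]
    abel
  · intro y
    obtain ⟨t, ht⟩ := f2 (m y)
    obtain ⟨t, rfl⟩ := hm_surj t
    refine ⟨t, hm_mem _ ?_⟩
    rw [hσ2] at ht
    simp only [hm_mul, hm_inv, ht]
    abel
  · intro g hg
    apply hm_mem
    apply f3
    rw [hσ2]
    have := hm_zero _ hg
    rw [hm_mul, hm_inv] at this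
    have h2 : m ((x ^ 2) g) = m g + (- m g + m ((x ^ 2) g)) := by abel
    rw [h2, this, add_zero]
  · intro g hg
    apply hm_mem
    apply f4
    have := hm_zero _ hg
    simp only [hm_mul, hm_inv] at this
    rw [hσ4, hσ3, hm_x]
    have h2 : m ((x ^ 4) g) + 2 • m (x g) - (m g + 2 • m ((x ^ 3) g)) =
        - (-(-m ((x ^ 2) g) + m ((x ^ 4) g)) + (- m (x g) + m ((x ^ 3) g)) + -(- m g + m (x g)) +
          (- m ((x ^ 2) g) + m ((x ^ 3) g))) := by
      abel
    rw [this, neg_zero] at h2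
    exact sub_eq_zero.mp h2

@[reducible] def cW (W : Subgroup H) (hWc : ∀ a ∈ W, ∀ b ∈ W, a * b = b * a) : CommGroup W :=
  { (inferInstance : Group W) with mul_comm := fun a b => Subtype.ext (hWc a a.2 b b.2) }

theorem three_comm {p : ℕ} {x : MulAut H} (hp : x ^ p = 1) (hpp : p.Prime) (hodd : p ≠ 2) {W : Subgroup H}
    (hS : StrW x W) (hWn : W.Normal) (hWi : XInv x W) (hWc : ∀ a ∈ W, ∀ b ∈ W, a * b = b * a)
    {g : H} (hg : g ∉ W) : ∀ v ∈ W, ∀ y y' : H,
      (g⁻¹ * (x ^ 2) g)⁻¹ * bc (bc v y') y * (g⁻¹ * (x ^ 2) g) = bc (bc v y') y := by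
  classical
  letI := cW W hWc
  obtain ⟨f1, -, -, -⟩ := mod_facts hp hpp hodd hWn hWi hS.comm hS.fpf
  let elt : (z : H) → z ∈ W → Additive W := fun z hz => Additive.ofMul ⟨z, hz⟩
  have helt_add : ∀ (a b : H) (ha : a ∈ W) (hb : b ∈ W), elt a ha + elt b hb = elt (a * b) (mul_mem ha hb) :=
    fun a b ha hb => rfl
  have helt_sub : ∀ (a b : H) (ha : a ∈ W) (hb : b ∈ W),
      elt a ha - elt b hb = elt (b⁻¹ * a) (mul_mem (inv_mem hb) ha) := by
    intro a b ha hb
    rw [sub_eq_iff_eq_add', helt_add]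
    congr 1
    group
  have helt_surj : ∀ a : Additive W, ∃ z hz, a = elt z hz := fun a => ⟨_, (Additive.toMul a).2, rfl⟩
  let ρ : H → AddMonoid.End (Additive W) := fun t =>
    { toFun := fun v => Additive.ofMul ⟨t⁻¹ * ((Additive.toMul v : W) : H) * t,
        conj_mem' hWn (Additive.toMul v).2 t⟩
      map_zero' := by
        apply congrArg Additive.ofMul
        apply Subtype.ext
        show t⁻¹ * 1 * t = 1
        group
      map_add' := by
        intro a b
        apply congrArg Additive.ofMul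
        apply Subtype.ext
        show t⁻¹ * (((Additive.toMul a : W) : H) * ((Additive.toMul b : W) : H)) * t =
          (t⁻¹ * ((Additive.toMul a : W) : H) * t) * (t⁻¹ * ((Additive.toMul b : W) : H) * t)
        group }
  have hρ : ∀ (t z : H) (hz : z ∈ W), ρ t (elt z hz) = elt (t⁻¹ * z * t) (conj_mem' hWn hz t) :=
    fun t z hz => rfl
  have hρ1 : ∀ (t z : H) (hz : z ∈ W), (ρ t - 1) (elt z hz) = elt (bc z t) (bc_mem hWn hz t) := by
    intro t z hz
    show ρ t (elt z hz) - elt z hz = _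
    rw [hρ, helt_sub]
    rfl
  let s : AddMonoid.End (Additive W) :=
    { toFun := fun v => Additive.ofMul ⟨x ((Additive.toMul v : W) : H), hWi _ (Additive.toMul v).2⟩
      map_zero' := by
        apply congrArg Additive.ofMul
        apply Subtype.ext
        exact map_one x
      map_add' := by
        intro a b
        apply congrArg Additive.ofMul
        apply Subtype.ext
        exact map_mul x _ _ }
  let s' : AddMonoid.End (Additive W) :=
    { toFun := fun v => Additive.ofMul ⟨(x⁻¹) ((Additive.toMul v : W) : H),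
        XInv.inv_mem hp hpp hWi (Additive.toMul v).2⟩
      map_zero' := by
        apply congrArg Additive.ofMul
        apply Subtype.ext
        exact map_one (x⁻¹)
      map_add' := by
        intro a b
        apply congrArg Additive.ofMul
        apply Subtype.ext
        exact map_mul (x⁻¹) _ _ }
  have hs_elt : ∀ (z : H) (hz : z ∈ W), s (elt z hz) = elt (x z) (hWi z hz) := fun z hz => rfl
  have hss : s * s' = 1 := by
    apply AddMonoidHom.ext
    intro v
    apply congrArg Additive.ofMul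
    apply Subtype.ext
    show x ((x⁻¹) ((Additive.toMul v : W) : H)) = ((Additive.toMul v : W) : H)
    simp
  have hρmul : ∀ a b, ρ (a * b) = ρ b * ρ a := by
    intro a b
    apply AddMonoidHom.ext
    intro v
    apply congrArg Additive.ofMul
    apply Subtype.ext
    show (a * b)⁻¹ * ((Additive.toMul v : W) : H) * (a * b) = b⁻¹ * (a⁻¹ * ((Additive.toMul v : W) : H) * a) * b
    group
  have hρone : ρ 1 = 1 := by
    apply AddMonoidHom.ext
    intro v
    apply congrArg Additive.ofMul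
    apply Subtype.ext
    show (1 : H)⁻¹ * ((Additive.toMul v : W) : H) * 1 = ((Additive.toMul v : W) : H)
    group
  have hρW : ∀ w ∈ W, ρ w = 1 := by
    intro w hw
    apply AddMonoidHom.ext
    intro v
    apply congrArg Additive.ofMul
    apply Subtype.ext
    show w⁻¹ * ((Additive.toMul v : W) : H) * w = ((Additive.toMul v : W) : H)
    have := hWc w hw _ (Additive.toMul v).2
    rw [mul_assoc, ← this]
    group
  have hρcomm : ∀ a b, ρ a * ρ b = ρ b * ρ a := by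
    intro a b
    rw [← hρmul, ← hρmul]
    have e : a * b = (b * a) * ⁅a⁻¹, b⁻¹⁆ := by
      rw [commutatorElement_def]
      group
    have hw : ρ (a * b) = ρ (b * a) := by
      rw [e, hρmul (b * a), hρW _ (hS.comm _ _), one_mul]
    exact hw.symm
  have hsρ : ∀ t, s * ρ t = ρ (x t) * s := by
    intro t
    apply AddMonoidHom.ext
    intro v
    apply congrArg Additive.ofMul
    apply Subtype.ext
    show x (t⁻¹ * ((Additive.toMul v : W) : H) * t) = (x t)⁻¹ * x ((Additive.toMul v : W) : H) * x t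
    simp [map_mul]
  have hsurj : Function.Surjective (x : H → H) := x.surjective
  set c₁ := g⁻¹ * x g with hc₁
  set c₂ := g⁻¹ * (x ^ 2) g with hc₂
  have E0 : (ρ c₂ - 1) * (s - 1) = (ρ c₁ - 1) * (s * s - 1) := by
    apply AddMonoidHom.ext
    intro v
    obtain ⟨z, hz, rfl⟩ := helt_surj v
    have h1 : (s - 1) (elt z hz) = elt (z⁻¹ * x z) (mul_mem (inv_mem hz) (hWi z hz)) := by
      show s (elt z hz) - elt z hz = _
      rw [hs_elt, helt_sub]
    have h2 : (s * s - 1) (elt z hz) = elt (z⁻¹ * (x ^ 2) z) (mul_mem (inv_mem hz) (hWi.pow 2 z hz)) := by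
      show s (s (elt z hz)) - elt z hz = _
      rw [hs_elt, hs_elt, helt_sub]
      rfl
    show (ρ c₂ - 1) ((s - 1) (elt z hz)) = (ρ c₁ - 1) ((s * s - 1) (elt z hz))
    rw [h1, h2, hρ1, hρ1]
    have h3 := starstar hS hWn hWi hWc hg hz
    apply congrArg Additive.ofMul
    apply Subtype.ext
    exact h3
  have key : ∀ y y', (ρ c₂ - 1) * (ρ y - 1) * (ρ y' - 1) = 0 := by
    intro y y'
    obtain ⟨t, ht⟩ := f1 y
    obtain ⟨u, hu⟩ := f1 y'
    have e1 : ρ y = ρ (t⁻¹ * x t) := by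
      have : ρ ((t⁻¹ * x t) * ((t⁻¹ * x t)⁻¹ * y)) = ρ (t⁻¹ * x t) := by
        rw [hρmul, hρW _ ht, one_mul]
      rwa [mul_inv_cancel_left] at this
    have e2 : ρ y' = ρ (u⁻¹ * x u) := by
      have : ρ ((u⁻¹ * x u) * ((u⁻¹ * x u)⁻¹ * y')) = ρ (u⁻¹ * x u) := by
        rw [hρmul, hρW _ hu, one_mul]
      rwa [mul_inv_cancel_left] at this
    rw [e1, e2]
    exact alg_final ρ s s' x hsurj hρmul hρone hρcomm hss hsρ c₁ c₂ E0 t u
  intro v hv y y'
  have h3 : (ρ c₂ - 1) ((ρ y - 1) ((ρ y' - 1) (elt v hv))) = 0 := by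
    have := key y y'
    exact congrArg (fun f : AddMonoid.End (Additive W) => f (elt v hv)) this
  rw [hρ1, hρ1, hρ1] at h3
  have h4 : bc (bc (bc v y') y) c₂ = 1 := congrArg (fun a : Additive W => ((Additive.toMul a : W) : H)) h3
  rw [bc] at h4
  exact (inv_mul_eq_one.mp h4).symm

theorem no_noncentral_min [Group.IsSolvable H] {p : ℕ} {x : MulAut H} (hM : MC p x) {N : Subgroup H} (hN : N ≠ ⊥)
    (hNn : N.Normal) (hNi : XInv x N) (hNc : ∀ a ∈ N, ∀ b ∈ N, a * b = b * a)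
    (hmin : ∀ D : Subgroup H, D.Normal → XInv x D → D ≤ N → D ≠ ⊥ → D = N)
    (hnc : ¬ ∀ a ∈ N, ∀ b : H, a * b = b * a) : False := by
  classical
  have hS := exists_StrW hM hN hNn hNi hNc hnc
  obtain ⟨-, -, f3, -⟩ := mod_facts hM.pow hM.prime hM.odd hNn hNi hS.comm hS.fpf
  haveI := hNn
  have hcomm : ⁅N, (⊤ : Subgroup H)⁆ = N := by
    refine hmin _ (Subgroup.commutator_normal _ _) ?_ ?_ ?_
    · have : ⁅N, (⊤ : Subgroup H)⁆ ≤ ⁅N, (⊤ : Subgroup H)⁆.comap x.toMonoidHom := by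
        rw [commutator_le]
        intro a ha b _
        show x ⁅a, b⁆ ∈ ⁅N, (⊤ : Subgroup H)⁆
        rw [map_commutatorElement]
        exact commutator_mem_commutator (hNi a ha) (mem_top _)
      exact fun u hu => this hu
    · rw [commutator_le]
      intro a ha b _
      rw [commutatorElement_def]
      exact mul_mem (hNn.conj_mem a ha b) (inv_mem ha) |> fun h => by
        have e : a * b * a⁻¹ * b⁻¹ = a * (b * a⁻¹ * b⁻¹) := by group
        rw [e]
        exact mul_mem ha (hNn.conj_mem _ (inv_mem ha) b)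
    · intro hb
      apply hnc
      intro a ha b
      have h1 : ⁅a, b⁆ ∈ ⁅N, (⊤ : Subgroup H)⁆ := commutator_mem_commutator ha (mem_top _)
      rw [hb, mem_bot, commutatorElement_eq_one_iff_mul_comm] at h1
      exact h1
  obtain ⟨g, hg⟩ : ∃ g, g ∉ N := by
    by_contra hno
    push Not at hno
    exact hnc (fun a ha b => hNc a ha b (hno b))
  have h3 := three_comm hM.pow hM.prime hM.odd hS hNn hNi hNc hg
  set c₂ := g⁻¹ * (x ^ 2) g with hc₂
  have hle : ⁅⁅N, (⊤ : Subgroup H)⁆, (⊤ : Subgroup H)⁆ ≤ centralizer ({c₂} : Set H) := by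
    apply comm2_le hNn hNc
    intro v hv y y'
    rw [mem_centralizer_singleton_iff]
    have := h3 v hv y y'
    have h5 : c₂ * (c₂⁻¹ * bc (bc v y') y * c₂) = c₂ * bc (bc v y') y := by rw [this]
    simpa [mul_assoc] using h5
  rw [hcomm, hcomm] at hle
  have hc₂N : c₂ ∈ N := hS.cent (by
    rw [mem_centralizer_iff]
    intro w hw
    have := hle hw
    rw [mem_centralizer_singleton_iff] at this
    exact this)
  exact hg (f3 g hc₂N)

theorem central_of_fix {p : ℕ} {x : MulAut H} (hM : MC p x) {D : Subgroup H} (hDn : D.Normal)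
    (hDf : ∀ d ∈ D, x d = d) : ∀ d ∈ D, ∀ h, d * h = h * d := by
  intro d hd h
  have hcent : (⊤ : Subgroup H) ≤ centralizer ({d} : Set H) := by
    rw [← hM.top, Mx, closure_le]
    rintro _ ⟨a, -, i, rfl⟩
    show _ ∈ centralizer ({d} : Set H)
    rw [mem_centralizer_singleton_iff]
    have h1 : (x ^ i) (a * d * a⁻¹) = a * d * a⁻¹ := pow_apply_of_fix (hDf _ (hDn.conj_mem d hd a)) i
    rw [map_mul, map_mul, map_inv, pow_apply_of_fix (hDf d hd)] at h1
    have h2 : a⁻¹ * ((x ^ i) a * d * ((x ^ i) a)⁻¹) * (x ^ i) a = a⁻¹ * (a * d * a⁻¹) * (x ^ i) a := by rw [h1]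
    calc a⁻¹ * (x ^ i) a * d = a⁻¹ * ((x ^ i) a * d * ((x ^ i) a)⁻¹) * (x ^ i) a := by group
      _ = a⁻¹ * (a * d * a⁻¹) * (x ^ i) a := h2
      _ = d * (a⁻¹ * (x ^ i) a) := by group
  have := hcent (mem_top h)
  rw [mem_centralizer_singleton_iff] at this
  exact this.symm

theorem case_central {p : ℕ} {x : MulAut H} (hM : MC p x) {N N₂ : Subgroup H} (hN : N ≠ ⊥) (hNn : N.Normal)
    (hNi : XInv x N) (hlt : N < N₂) (hN₂i : XInv x N₂) (hcen : ∀ a ∈ N₂, ∀ b, a * b = b * a) : False := by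
  haveI : Fact p.Prime := ⟨hM.prime⟩
  have hc₂ : ∀ a ∈ N₂, ∀ b ∈ N₂, a * b = b * a := fun a ha b _ => hcen a ha b
  have hMx : Mx x N₂ = ⊥ := by
    by_contra hne
    refine hM.nofix hne ?_ (Mx_inv hN₂i) ?_
    · refine ⟨fun d hd g => ?_⟩
      have := hcen d (Mx_le hN₂i hd) g
      rw [← this]
      simpa using hd
    · intro d hd hf
      rw [Mx_fix_eq_one hM.pow hM.cop hN₂i hc₂ hd hf]
      exact one_mem _
  have hfix : ∀ u ∈ N₂, x u = u := by
    intro u hu
    obtain ⟨f, hf, hfx, c, hc, rfl⟩ := exists_fix_mul hM.pow hM.cop hN₂i hu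
    rw [hMx, mem_bot] at hc
    subst hc
    simpa using hfx
  obtain ⟨u, hu, huN⟩ := SetLike.exists_of_lt hlt
  obtain ⟨j, hj, d, hd, hdx, huj⟩ := hM.fac N hN hNn hNi u (hfix u hu)
  have hjN₂ : j ∈ N₂ := by
    have : j = u * d⁻¹ := by rw [huj]; group
    rw [this]
    exact mul_mem hu (inv_mem (hlt.le hd))
  have hjne : j ≠ 1 := by
    rintro rfl
    apply huN
    rw [huj]
    simpa using hd
  refine hM.nofix (D := zpowers j) ?_ ?_ ?_ ?_
  · intro h
    exact hjne (zpowers_eq_bot.mp h)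
  · refine ⟨fun a ha g => ?_⟩
    obtain ⟨k, rfl⟩ := ha
    have h1 : ∀ k : ℤ, j ^ k ∈ N₂ := fun k => zpow_mem hjN₂ k
    have := hcen _ (h1 k) g
    rw [← this]
    simpa using zpow_mem (mem_zpowers j) k
  · intro a ha
    obtain ⟨k, rfl⟩ := ha
    show x (j ^ k) ∈ zpowers j
    rw [map_zpow, hfix j hjN₂]
    exact zpow_mem (mem_zpowers j) k
  · intro d' hd' _
    exact (zpowers_le.mpr hj) hd'

theorem x2_apply (x : MulAut H) (a : H) : (x ^ 2) a = x (x a) := by
  rw [pow_two]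
  rfl

theorem x3_apply (x : MulAut H) (a : H) : (x ^ 3) a = x (x (x a)) := by
  rw [pow_succ_apply, x2_apply]

theorem x4_apply (x : MulAut H) (a : H) : (x ^ 4) a = x (x (x (x a))) := by
  rw [pow_succ_apply, x3_apply]

theorem case_noncentral [Group.IsSolvable H] {p : ℕ} {x : MulAut H} (hM : MC p x) {N W : Subgroup H}
    (hNn : N.Normal) (hNi : XInv x N) (hNz : ∀ a ∈ N, ∀ b, a * b = b * a) (hNf : ∀ n ∈ N, x n = n)
    (hlt : N < W) (hWn : W.Normal) (hWi : XInv x W) (hWc : ∀ a ∈ W, ∀ b ∈ W, a * b = b * a)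
    (hmin : ∀ D : Subgroup H, D.Normal → XInv x D → N ≤ D → D ≤ W → D = N ∨ D = W)
    (hnc : ¬ ∀ a ∈ W, ∀ b : H, a * b = b * a) : False := by
  classical
  have hWne : W ≠ ⊥ := by
    rintro rfl
    exact hnc (fun a ha b => by
      rw [mem_bot] at ha
      simp [ha])
  have hS := exists_StrW hM hWne hWn hWi hWc hnc
  obtain ⟨f1, f2, f3, f4⟩ := mod_facts hM.pow hM.prime hM.odd hWn hWi hS.comm hS.fpf
  haveI := hWn
  haveI := hNn
  have hcl : ∀ {A : Subgroup H}, A ≤ W → ⁅A, (⊤ : Subgroup H)⁆ ≤ W := by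
    intro A hA
    rw [commutator_le]
    intro a ha b _
    have e : ⁅a, b⁆ = a * (b * a⁻¹ * b⁻¹) := by
      rw [commutatorElement_def]
      group
    rw [e]
    exact mul_mem (hA ha) (hWn.conj_mem _ (inv_mem (hA ha)) b)
  have hci : ∀ {A : Subgroup H}, XInv x A → XInv x ⁅A, (⊤ : Subgroup H)⁆ := by
    intro A hA
    have : ⁅A, (⊤ : Subgroup H)⁆ ≤ ⁅A, (⊤ : Subgroup H)⁆.comap x.toMonoidHom := by
      rw [commutator_le]
      intro a ha b _
      show x ⁅a, b⁆ ∈ ⁅A, (⊤ : Subgroup H)⁆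
      rw [map_commutatorElement]
      exact commutator_mem_commutator (hA a ha) (mem_top _)
    exact fun u hu => this hu
  set D₁ : Subgroup H := ⁅W, (⊤ : Subgroup H)⁆ with hD₁
  set W₂ : Subgroup H := ⁅D₁, (⊤ : Subgroup H)⁆ with hW₂
  have hD₁W : D₁ ≤ W := hcl le_rfl
  have hW₂W : W₂ ≤ W := hcl hD₁W
  have hD₁i : XInv x D₁ := hci hWi
  have hW₂i : XInv x W₂ := hci hD₁i
  haveI hD₁n : D₁.Normal := Subgroup.commutator_normal _ _
  haveI hW₂n : W₂.Normal := Subgroup.commutator_normal _ _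
  have hW₂z : ∀ u ∈ W₂, ∀ h, u * h = h * u := by
    intro u hu h
    obtain ⟨t, ht⟩ := f2 h
    set w := (t⁻¹ * (x ^ 2) t)⁻¹ * h with hw
    have hh : h = (t⁻¹ * (x ^ 2) t) * w := by rw [hw]; group
    have hcw : u * w = w * u := hWc _ (hW₂W hu) _ ht
    by_cases htW : t ∈ W
    · have hhW : h ∈ W := by
        rw [hh]
        exact mul_mem (mul_mem (inv_mem htW) (hWi.pow 2 t htW)) ht
      exact hWc _ (hW₂W hu) _ hhW
    · have h3 := three_comm hM.pow hM.prime hM.odd hS hWn hWi hWc htW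
      set c₂ := t⁻¹ * (x ^ 2) t with hc₂
      have hle : W₂ ≤ centralizer ({c₂} : Set H) := by
        apply comm2_le hWn hWc
        intro v hv y y'
        rw [mem_centralizer_singleton_iff]
        have := h3 v hv y y'
        have h5 : c₂ * (c₂⁻¹ * bc (bc v y') y * c₂) = c₂ * bc (bc v y') y := by rw [this]
        simpa [mul_assoc] using h5
      have h6 := hle hu
      rw [mem_centralizer_singleton_iff] at h6
      rw [hh]
      calc u * (c₂ * w) = (u * c₂) * w := by group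
        _ = c₂ * u * w := by rw [h6]
        _ = c₂ * (u * w) := by group
        _ = c₂ * (w * u) := by rw [hcw]
        _ = c₂ * w * u := by group
  have hW₂N : W₂ ≤ N := by
    rcases hmin (W₂ ⊔ N) (Subgroup.sup_normal _ _) (hW₂i.sup hNi) le_sup_right (sup_le hW₂W hlt.le) with h | h
    · rw [← h]
      exact le_sup_left
    · exfalso
      apply hnc
      intro a ha b
      have ha' : a ∈ W₂ ⊔ N := by rw [h]; exact ha
      have hle : W₂ ⊔ N ≤ center H := by
        refine sup_le ?_ ?_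
        · intro u hu
          rw [mem_center_iff]
          intro g
          exact (hW₂z u hu g).symm
        · intro u hu
          rw [mem_center_iff]
          intro g
          exact (hNz u hu g).symm
      have := hle ha'
      rw [mem_center_iff] at this
      exact (this b).symm
  have hD₁N : D₁ ≤ N := by
    rcases hmin (D₁ ⊔ N) (Subgroup.sup_normal _ _) (hD₁i.sup hNi) le_sup_right (sup_le hD₁W hlt.le) with h | h
    · rw [← h]
      exact le_sup_left
    · rw [hD₁, commutator_le]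
      intro v hv y _
      have hv' : v ∈ D₁ ⊔ N := by rw [h]; exact hv
      obtain ⟨d, hd, n, hn, rfl⟩ := mem_sup_of_normal_right.mp hv'
      have e : ⁅d * n, y⁆ = ⁅d, y⁆ := by
        rw [commutatorElement_def, commutatorElement_def]
        have h1 : n * y = y * n := hNz n hn y
        calc d * n * y * (d * n)⁻¹ * y⁻¹ = d * (n * y) * n⁻¹ * d⁻¹ * y⁻¹ := by group
          _ = d * (y * n) * n⁻¹ * d⁻¹ * y⁻¹ := by rw [h1]
          _ = d * y * d⁻¹ * y⁻¹ := by group
      rw [e]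
      exact hW₂N (commutator_mem_commutator hd (mem_top _))
  -- the pairing
  have hbN : ∀ v ∈ W, ∀ t, bc v t ∈ N := by
    intro v hv t
    have e : bc v t = ⁅v⁻¹, t⁻¹⁆ := by
      rw [comm_eq_bc]
      simp
    rw [e]
    exact hD₁N (commutator_mem_commutator (inv_mem hv) (mem_top _))
  have hb_mul : ∀ v ∈ W, ∀ t₁ t₂, bc v (t₁ * t₂) = bc v t₁ * bc v t₂ := by
    intro v hv t₁ t₂
    set n₁ := bc v t₁ with hn₁
    set n₂ := bc v t₂ with hn₂
    have h1 : t₁⁻¹ * v * t₁ = v * n₁ := by rw [hn₁, bc]; group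
    have h2 : t₂⁻¹ * v * t₂ = v * n₂ := by rw [hn₂, bc]; group
    have h3 : n₁ * t₂ = t₂ * n₁ := hNz _ (hbN v hv t₁) t₂
    have h4 : n₂ * n₁ = n₁ * n₂ := hNz _ (hbN v hv t₂) n₁
    have e : (t₁ * t₂)⁻¹ * v * (t₁ * t₂) = t₂⁻¹ * (t₁⁻¹ * v * t₁) * t₂ := by group
    rw [bc, e, h1]
    calc v⁻¹ * (t₂⁻¹ * (v * n₁) * t₂) = v⁻¹ * (t₂⁻¹ * v * (n₁ * t₂)) := by group
      _ = v⁻¹ * (t₂⁻¹ * v * (t₂ * n₁)) := by rw [h3]
      _ = v⁻¹ * ((t₂⁻¹ * v * t₂) * n₁) := by group
      _ = v⁻¹ * (v * n₂ * n₁) := by rw [h2]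
      _ = n₂ * n₁ := by group
      _ = n₁ * n₂ := h4
  have hb_one : ∀ v : H, bc v 1 = 1 := by
    intro v
    simp [bc]
  have hb_inv : ∀ v ∈ W, ∀ t, bc v t⁻¹ = (bc v t)⁻¹ := by
    intro v hv t
    have := hb_mul v hv t t⁻¹
    rw [mul_inv_cancel, hb_one] at this
    exact eq_inv_of_mul_eq_one_right this.symm
  have hb_x : ∀ v t : H, v ∈ W → bc (x v) (x t) = bc v t := by
    intro v t hv
    have h1 : x (bc v t) = bc v t := hNf _ (hbN v hv t)
    rw [← h1, bc, bc]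
    simp [map_mul]
  obtain ⟨g', hg'⟩ : ∃ g, g ∉ W := by
    by_contra hno
    push Not at hno
    exact hnc (fun a ha b => hWc a ha b (hno b))
  apply hg'
  apply f4
  apply hS.cent
  rw [mem_centralizer_iff]
  intro v hv
  have hv' : v ∈ W := hv
  set g := (x ^ 2) g' with hg
  have hgW : g ∉ W := by
    intro h
    apply hg'
    have h1 := XInv.inv_mem hM.pow hM.prime hWi (XInv.inv_mem hM.pow hM.prime hWi h)
    rw [hg, x2_apply] at h1
    simpa using h1
  have hs := starstar hS hWn hWi hWc hgW hv'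
  have hxv := hWi v hv'
  have hxxv := hWi _ hxv
  set c₁ := g⁻¹ * x g with hc₁
  set c₂ := g⁻¹ * (x ^ 2) g with hc₂
  set t₁ := g'⁻¹ * x g' with ht₁
  set t₂ := (x g')⁻¹ * (x ^ 3) g' with ht₂
  have e₁ : c₁ = x (x t₁) := by
    rw [hc₁, ht₁, hg]
    simp [x2_apply, map_mul]
  have e₂ : c₂ = x t₂ := by
    rw [hc₂, ht₂, hg]
    simp [x2_apply, x3_apply, map_mul]
  have hs' : bc (v⁻¹ * x v) c₂ = bc (v⁻¹ * (x ^ 2) v) c₁ := hs
  rw [bc_mul_left hWn hWc (inv_mem hv') hxv, bc_inv_left hWn hWc hv', x2_apply,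
    bc_mul_left hWn hWc (inv_mem hv') hxxv, bc_inv_left hWn hWc hv'] at hs'
  have h1 : bc (x v) c₂ = bc v t₂ := by rw [e₂]; exact hb_x v _ hv'
  have h2 : bc (x (x v)) c₁ = bc v t₁ := by
    rw [e₁, hb_x _ _ hxv, hb_x v _ hv']
  rw [h1, h2] at hs'
  -- the element
  have hE : bc v ((((x ^ 2) g')⁻¹ * (x ^ 4) g')⁻¹ * t₂ * t₁⁻¹ * (((x ^ 2) g')⁻¹ * (x ^ 3) g')) = 1 := by
    have e3 : ((x ^ 2) g')⁻¹ * (x ^ 4) g' = c₂ := by
      rw [hc₂, hg]
      simp [x2_apply, x4_apply]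
    have e4 : ((x ^ 2) g')⁻¹ * (x ^ 3) g' = c₁ := by
      rw [hc₁, hg]
      simp [x2_apply, x3_apply]
    rw [e3, e4, hb_mul v hv', hb_mul v hv', hb_mul v hv', hb_inv v hv', hb_inv v hv', hs']
    group
  exact comm_of_bc_eq_one hE

theorem case_nonabelian [Group.IsSolvable H] {p : ℕ} {x : MulAut H} (hM : MC p x) {N W : Subgroup H}
    (hNn : N.Normal) (hNi : XInv x N) (hNz : ∀ a ∈ N, ∀ b, a * b = b * a) (hNf : ∀ n ∈ N, x n = n)
    (hNJ : ¬ N ≤ Jx x) (hNmin : ∀ D : Subgroup H, D.Normal → XInv x D → D ≤ N → D ≠ ⊥ → D = N)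
    (hlt : N < W) (hWn : W.Normal) (hWi : XInv x W)
    (hmin : ∀ D : Subgroup H, D.Normal → XInv x D → N ≤ D → D ≤ W → D = N ∨ D = W)
    (hna : ¬ ∀ a ∈ W, ∀ b ∈ W, a * b = b * a) : False := by
  classical
  haveI := hWn
  haveI := hNn
  have hD : ⁅W, W⁆ ≤ N := by
    have hcW : ⁅W, W⁆ ≤ W := by
      rw [commutator_le]
      intro a ha b hb
      rw [commutatorElement_def]
      exact mul_mem (mul_mem (mul_mem ha hb) (inv_mem ha)) (inv_mem hb)
    have hci : XInv x ⁅W, W⁆ := by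
      have : ⁅W, W⁆ ≤ ⁅W, W⁆.comap x.toMonoidHom := by
        rw [commutator_le]
        intro a ha b hb
        show x ⁅a, b⁆ ∈ ⁅W, W⁆
        rw [map_commutatorElement]
        exact commutator_mem_commutator (hWi a ha) (hWi b hb)
      exact fun u hu => this hu
    rcases hmin (⁅W, W⁆ ⊔ N) (Subgroup.sup_normal _ _) (hci.sup hNi) le_sup_right (sup_le hcW hlt.le) with h | h
    · rw [← h]
      exact le_sup_left
    · exfalso
      have hle : W ≤ N := perfect_mod hNn h.ge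
      exact not_le_of_gt hlt hle
  have hf : ∀ a ∈ W, ∀ b ∈ W, ⁅a, b⁆ ∈ N := fun a ha b hb => hD (commutator_mem_commutator ha hb)
  have hfz : ∀ a ∈ W, ∀ b ∈ W, ∀ c, ⁅a, b⁆ * c = c * ⁅a, b⁆ := fun a ha b hb c => hNz _ (hf a ha b hb) c
  have fmul_left : ∀ a ∈ W, ∀ b ∈ W, ∀ c ∈ W, ⁅a * b, c⁆ = ⁅a, c⁆ * ⁅b, c⁆ := by
    intro a ha b hb c hc
    have e : ⁅a * b, c⁆ = a * ⁅b, c⁆ * a⁻¹ * ⁅a, c⁆ := by
      simp only [commutatorElement_def]
      group
    rw [e, ← hfz b hb c hc a]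
    simp only [mul_inv_cancel_right]
    exact hfz b hb c hc _
  have fmul_right : ∀ a ∈ W, ∀ b ∈ W, ∀ c ∈ W, ⁅a, b * c⁆ = ⁅a, b⁆ * ⁅a, c⁆ := by
    intro a ha b hb c hc
    have e : ⁅a, b * c⁆ = ⁅a, b⁆ * (b * ⁅a, c⁆ * b⁻¹) := by
      simp only [commutatorElement_def]
      group
    rw [e, ← hfz a ha c hc b]
    simp
  have f_inv_left : ∀ a ∈ W, ∀ c ∈ W, ⁅a⁻¹, c⁆ = ⁅a, c⁆⁻¹ := by
    intro a ha c hc
    have h1 := fmul_left a ha a⁻¹ (inv_mem ha) c hc
    rw [mul_inv_cancel, commutatorElement_one_left] at h1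
    exact eq_inv_of_mul_eq_one_right h1.symm
  have f_inv_right : ∀ a ∈ W, ∀ c ∈ W, ⁅a, c⁻¹⁆ = ⁅a, c⁆⁻¹ := by
    intro a ha c hc
    have h1 := fmul_right a ha c hc c⁻¹ (inv_mem hc)
    rw [mul_inv_cancel, commutatorElement_one_right] at h1
    exact eq_inv_of_mul_eq_one_right h1.symm
  have f_x : ∀ a ∈ W, ∀ b ∈ W, ⁅x a, x b⁆ = ⁅a, b⁆ := by
    intro a ha b hb
    rw [← map_commutatorElement]
    exact hNf _ (hf a ha b hb)
  -- the `[v, P]` are abelian
  have hLab : ∀ v ∈ W, ∀ a ∈ Lx x v, ∀ b ∈ Lx x v, ⁅a, b⁆ = 1 := by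
    intro v hv
    set L := Lx x v with hL
    have hLW : L ≤ W := Lx_le hWi hv
    have hT : ⁅L, L⁆ = ⊥ := by
      by_contra hne
      have hTN : ⁅L, L⁆ ≤ N := (commutator_mono hLW hLW).trans hD
      have hTn : (⁅L, L⁆).Normal := by
        refine ⟨fun d hd g => ?_⟩
        have := hNz d (hTN hd) g
        rw [← this]
        simpa using hd
      have hTi : XInv x ⁅L, L⁆ := fun u hu => by
        rw [hNf u (hTN hu)]
        exact hu
      have hTeq := hNmin _ hTn hTi hTN hne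
      apply hNJ
      intro n hn
      have hnL : n ∈ L := by
        have h1 : n ∈ ⁅L, L⁆ := by rw [hTeq]; exact hn
        have h2 : ⁅L, L⁆ ≤ L := by
          rw [commutator_le]
          intro a ha b hb
          rw [commutatorElement_def]
          exact L.mul_mem (L.mul_mem (L.mul_mem ha hb) (L.inv_mem ha)) (L.inv_mem hb)
        exact h2 h1
      exact Lx_le_Jx_of_fix hnL (hNf n hn)
    intro a ha b hb
    have := commutator_mem_commutator ha hb
    rwa [hT, mem_bot] at this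
  have hxW : ∀ (i : ℕ) (v : H), v ∈ W → (x ^ i) v ∈ W := fun i v hv => hWi.pow i v hv
  have ha : ∀ v ∈ W, ∀ j : ℕ, ⁅v, (x ^ (j + 1)) v⁆ = ⁅v, x v⁆ * ⁅v, (x ^ j) v⁆ := by
    intro v hv j
    have hxv := hWi v hv
    have hu := hxW j v hv
    set u := (x ^ j) v with hud
    have hw : (x ^ (j + 1)) v = x u := pow_succ_apply x j v
    rw [hw]
    have hxu := hWi u hu
    have h1 : v⁻¹ * x v ∈ Lx x v := by
      have := mem_Lx x v 1
      rwa [pow_one] at this
    have h2 : v⁻¹ * x u ∈ Lx x v := by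
      have := mem_Lx x v (j + 1)
      rwa [hw] at this
    have h3 := hLab v hv _ h1 _ h2
    have hvi := inv_mem hv
    rw [fmul_left _ hvi _ hxv _ (mul_mem hvi hxu), fmul_right _ hvi _ hvi _ hxu, fmul_right _ hxv _ hvi _ hxu,
      commutatorElement_self, one_mul, f_inv_left v hv _ hxu, f_inv_right _ hxv v hv, f_x v hv u hu,
      commutatorElement_inv (x v) v] at h3
    exact inv_mul_eq_one.mp h3
  have hb : ∀ v ∈ W, ∀ j : ℕ, ⁅v, (x ^ j) v⁆ = ⁅v, x v⁆ ^ j := by
    intro v hv j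
    induction j with
    | zero => simp
    | succ n ih => rw [ha v hv, ih, pow_succ']
  have hc : ∀ v ∈ W, ⁅v, x v⁆ = 1 := by
    intro v hv
    have h1 := hb v hv p
    rw [hM.pow] at h1
    have h2 : ⁅v, x v⁆ ^ p = 1 := by
      rw [← h1]
      exact commutatorElement_self v
    exact eq_one_of_pow_eq_one hM.cop h2
  have hlin : ∀ u ∈ W, ∀ v ∈ W, ⁅u, x v⁆ * ⁅v, x u⁆ = 1 := by
    intro u hu v hv
    have hxu := hWi u hu
    have hxv := hWi v hv
    have h1 := hc _ (mul_mem hu hv)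
    rw [map_mul, fmul_left u hu v hv _ (mul_mem hxu hxv), fmul_right u hu _ hxu _ hxv, fmul_right v hv _ hxu _ hxv,
      hc u hu, hc v hv, one_mul, mul_one] at h1
    exact h1
  have hsym : ∀ u ∈ W, ∀ w ∈ W, ⁅u, x (x w)⁆ = ⁅u, w⁆ := by
    intro u hu w hw
    have hxw := hWi w hw
    have h1 := hlin u hu _ hxw
    have h2 : ⁅x w, x u⁆ = ⁅w, u⁆ := f_x w hw u hu
    rw [h2, ← commutatorElement_inv u w] at h1
    exact mul_inv_eq_one.mp h1
  -- the centre of `W`
  have hZ : ∀ z ∈ W, (∀ u ∈ W, ⁅u, z⁆ = 1) → z ∈ N := by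
    let Z : Subgroup H := W ⊓ centralizer (W : Set H)
    have hZn : Z.Normal := by
      refine ⟨fun a ha g => ⟨hWn.conj_mem a ha.1 g, ?_⟩⟩
      show g * a * g⁻¹ ∈ centralizer (W : Set H)
      rw [mem_centralizer_iff]
      intro w hw
      have h1 := (mem_centralizer_iff.mp ha.2) (g⁻¹ * w * g) (conj_mem' hWn hw g)
      calc w * (g * a * g⁻¹) = g * ((g⁻¹ * w * g) * a) * g⁻¹ := by group
        _ = g * (a * (g⁻¹ * w * g)) * g⁻¹ := by rw [h1]
        _ = g * a * g⁻¹ * w := by group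
    have hZi : XInv x Z := by
      refine fun a ha => ⟨hWi a ha.1, ?_⟩
      show x a ∈ centralizer (W : Set H)
      rw [mem_centralizer_iff]
      intro w hw
      have h1 := (mem_centralizer_iff.mp ha.2) _ (XInv.inv_mem hM.pow hM.prime hWi hw)
      have h2 := congrArg x h1
      simpa using h2
    have hNZ : N ≤ Z := fun n hn => ⟨hlt.le hn, by
      show n ∈ centralizer (W : Set H)
      rw [mem_centralizer_iff]
      intro w _
      exact (hNz n hn w).symm⟩
    rcases hmin Z hZn hZi hNZ inf_le_left with h | h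
    · intro z hz hz'
      rw [← h]
      refine ⟨hz, ?_⟩
      show z ∈ centralizer (W : Set H)
      rw [mem_centralizer_iff]
      intro u hu
      have := hz' u hu
      rwa [commutatorElement_eq_one_iff_mul_comm] at this
    · exfalso
      apply hna
      intro a ha b hb
      have hb' : b ∈ Z := by rw [h]; exact hb
      exact (mem_centralizer_iff.mp hb'.2) a ha
  have hx2 : ∀ w ∈ W, x (x w) = w := by
    intro w hw
    have hxxw := hWi _ (hWi w hw)
    have hn₁N' : x (x w) * w⁻¹ ∈ N := by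
      apply hZ _ (mul_mem hxxw (inv_mem hw))
      intro u hu
      rw [fmul_right u hu _ hxxw _ (inv_mem hw), f_inv_right u hu w hw, hsym u hu w hw, mul_inv_cancel]
    obtain ⟨n₁, hn₁N, h1⟩ : ∃ n₁ ∈ N, x (x w) = n₁ * w := ⟨_, hn₁N', by group⟩
    have hn₁x : x n₁ = n₁ := hNf _ hn₁N
    have h2 : ∀ k : ℕ, (x ^ (2 * k)) w = n₁ ^ k * w := by
      intro k
      induction k with
      | zero => simp
      | succ m ih =>
        have e : (x ^ (2 * (m + 1))) w = x (x ((x ^ (2 * m)) w)) := by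
          rw [show 2 * (m + 1) = 2 * m + 1 + 1 by ring, pow_succ_apply, pow_succ_apply]
        rw [e, ih, map_mul, map_mul, map_pow, map_pow, hn₁x, hn₁x, h1, pow_succ, mul_assoc]
    have h3 := h2 p
    rw [mul_comm 2 p, pow_mul, hM.pow, one_pow] at h3
    have h4 : n₁ ^ p = 1 := by
      have h5 : n₁ ^ p * w = 1 * w := by
        rw [← h3]
        simp
      exact mul_right_cancel h5
    have h6 : n₁ = 1 := eq_one_of_pow_eq_one hM.cop h4
    rw [h1, h6, one_mul]
  have hfixW : ∀ w ∈ W, x w = w := by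
    intro w hw
    obtain ⟨k, hk⟩ : ∃ k, p = 2 * k + 1 := by
      rcases hM.prime.eq_two_or_odd' with h | h
      · exact absurd h hM.odd
      · exact h
    have h1 : ∀ m : ℕ, (x ^ (2 * m)) w = w := by
      intro m
      induction m with
      | zero => simp
      | succ n ih =>
        have e : (x ^ (2 * (n + 1))) w = x (x ((x ^ (2 * n)) w)) := by
          rw [show 2 * (n + 1) = 2 * n + 1 + 1 by ring, pow_succ_apply, pow_succ_apply]
        rw [e, ih, hx2 w hw]
    have h2 := h1 (k + 1)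
    have e : 2 * (k + 1) = p + 1 := by rw [hk]; ring
    rw [e, pow_succ, hM.pow, one_mul] at h2
    exact h2
  apply hna
  intro a ha b hb
  exact central_of_fix hM hWn hfixW a ha b

theorem MC.false [Group.IsSolvable H] {p : ℕ} {x : MulAut H} (hM : MC p x) : False := by
  classical
  let S : Set (Subgroup H) := {D | D ≠ ⊥ ∧ D.Normal ∧ XInv x D}
  have htopne : (⊤ : Subgroup H) ≠ ⊥ := by
    intro h
    apply hM.nle
    intro c _
    have : c ∈ (⊥ : Subgroup H) := by rw [← h]; exact mem_top c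
    rw [mem_bot] at this
    rw [this]
    exact one_mem _
  have hSne : S.Nonempty := ⟨⊤, htopne, inferInstance, fun _ _ => mem_top _⟩
  obtain ⟨N, ⟨hN1, hN2, hN3⟩, hNmin'⟩ := wellFounded_lt.has_min S hSne
  have hNmin : ∀ D : Subgroup H, D.Normal → XInv x D → D ≤ N → D ≠ ⊥ → D = N := by
    intro D hDn hDi hle hne
    by_contra hDN
    exact hNmin' D ⟨hne, hDn, hDi⟩ (lt_of_le_of_ne hle hDN)
  haveI := hN2
  have hNc : ∀ a ∈ N, ∀ b ∈ N, a * b = b * a := by
    have h1 : ⁅N, N⁆ = ⊥ := by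
      by_contra hne
      have hlt := Group.IsSolvable.commutator_lt_of_ne_bot hN1
      have hi : XInv x ⁅N, N⁆ := by
        have : ⁅N, N⁆ ≤ ⁅N, N⁆.comap x.toMonoidHom := by
          rw [commutator_le]
          intro a ha b hb
          show x ⁅a, b⁆ ∈ ⁅N, N⁆
          rw [map_commutatorElement]
          exact commutator_mem_commutator (hN3 a ha) (hN3 b hb)
        exact fun u hu => this hu
      have := hNmin _ (Subgroup.commutator_normal _ _) hi hlt.le hne
      exact hlt.ne this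
    intro a ha b hb
    have := commutator_mem_commutator ha hb
    rwa [h1, mem_bot, commutatorElement_eq_one_iff_mul_comm] at this
  have hNz : ∀ a ∈ N, ∀ b : H, a * b = b * a := by
    by_contra hnc
    exact no_noncentral_min hM hN1 hN2 hN3 hNc hNmin hnc
  haveI : Fact p.Prime := ⟨hM.prime⟩
  have hNf : ∀ n ∈ N, x n = n := by
    let Z : Subgroup H := N ⊓ Fx x
    have hZn : Z.Normal := by
      refine ⟨fun a ha g => ?_⟩
      have := hNz a ha.1 g
      rw [← this]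
      simpa using ha
    have hZi : XInv x Z := fun a ha => by
      have hax : x a = a := ha.2
      rw [hax]
      exact ha
    have hZne : Z ≠ ⊥ := by
      intro hb
      refine hM.nofix hN1 hN2 hN3 ?_
      intro d hd hf
      have : d ∈ Z := ⟨hd, hf⟩
      rw [hb, mem_bot] at this
      rw [this]
      exact one_mem _
    have h1 := hNmin Z hZn hZi inf_le_left hZne
    intro n hn
    have : n ∈ Z := by rw [h1]; exact hn
    exact this.2
  have hNJ : ¬ N ≤ Jx x := fun h => hM.nofix hN1 hN2 hN3 (fun d hd _ => h hd)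
  have hNtop : N ≠ ⊤ := by
    intro h
    apply htopne
    rw [eq_bot_iff, ← hM.top, Mx, closure_le]
    rintro _ ⟨a, -, i, rfl⟩
    have : a ∈ N := by rw [h]; exact mem_top a
    rw [pow_apply_of_fix (hNf a this)]
    simp [one_mem]
  let S₂ : Set (Subgroup H) := {D | N < D ∧ D.Normal ∧ XInv x D}
  have hS₂ne : S₂.Nonempty := ⟨⊤, lt_of_le_of_ne le_top hNtop, inferInstance, fun _ _ => mem_top _⟩
  obtain ⟨W, ⟨hlt, hWn, hWi⟩, hWmin'⟩ := wellFounded_lt.has_min S₂ hS₂ne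
  have hmin : ∀ D : Subgroup H, D.Normal → XInv x D → N ≤ D → D ≤ W → D = N ∨ D = W := by
    intro D hDn hDi hND hDW
    by_cases h1 : D = N
    · exact Or.inl h1
    · right
      by_contra h2
      exact hWmin' D ⟨lt_of_le_of_ne hND (Ne.symm h1), hDn, hDi⟩ (lt_of_le_of_ne hDW h2)
  by_cases hab : ∀ a ∈ W, ∀ b ∈ W, a * b = b * a
  · by_cases hcen : ∀ a ∈ W, ∀ b : H, a * b = b * a
    · exact case_central hM hN1 hN2 hN3 hlt hWi hcen
    · exact case_noncentral hM hN2 hN3 hNz hNf hlt hWn hWi hab hmin hcen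
  · exact case_nonabelian hM hN2 hN3 hNz hNf hNJ hNmin hlt hWn hWi hmin hab

theorem fac_of_quot {p : ℕ} [Fact p.Prime] {x : MulAut H} (hp : x ^ p = 1) (hcop : (Nat.card H).Coprime p)
    {D : Subgroup H} [hDn : D.Normal] (hDi : XInv x D) (htop : Mx x ⊤ = ⊤)
    (xb : MulAut (H ⧸ D)) (hxb : ∀ h : H, xb (h : H ⧸ D) = ((x h : H) : H ⧸ D))
    (hT : Mx xb ⊤ ⊓ Fx xb ≤ Jx xb) :
    ∀ c, x c = c → ∃ j ∈ Jx x, ∃ d ∈ D, x d = d ∧ c = j * d := by
  have hpow : ∀ (i : ℕ) (h : H), (xb ^ i) (h : H ⧸ D) = (((x ^ i) h : H) : H ⧸ D) := by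
    intro i h
    induction i with
    | zero => rfl
    | succ n ih => rw [pow_succ_apply, ih, hxb, pow_succ_apply]
  have htb0 : ∀ y : H, (y : H ⧸ D) ∈ Mx xb ⊤ := by
    intro y
    have hy : y ∈ Mx x ⊤ := by rw [htop]; exact mem_top y
    induction hy using closure_induction with
    | mem y hy =>
      obtain ⟨a, -, i, rfl⟩ := hy
      have e : ((a⁻¹ * (x ^ i) a : H) : H ⧸ D) = (a : H ⧸ D)⁻¹ * (xb ^ i) (a : H ⧸ D) := by
        rw [hpow]
        rfl
      rw [e]
      exact mem_Mx (mem_top _) i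
    | one => exact one_mem _
    | mul a b _ _ ha hb =>
      rw [QuotientGroup.mk_mul]
      exact mul_mem ha hb
    | inv a _ ha =>
      rw [QuotientGroup.mk_inv]
      exact inv_mem ha
  have htb : Mx xb ⊤ = ⊤ := by
    rw [eq_top_iff]
    intro y _
    obtain ⟨y, rfl⟩ := QuotientGroup.mk_surjective y
    exact htb0 y
  intro c hc
  have h1 : (c : H ⧸ D) ∈ Jx xb := hT ⟨by rw [htb]; exact mem_top _, by
    show xb (c : H ⧸ D) = (c : H ⧸ D)
    rw [hxb, hc]⟩
  have hJ : Jx xb ≤ (Jx x).map (QuotientGroup.mk' D) := by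
    refine iSup_le fun h' => ?_
    induction h' using QuotientGroup.induction_on with
    | H h =>
      rintro y ⟨hy, hyf⟩
      have hL : Lx xb (h : H ⧸ D) ≤ (Lx x h).map (QuotientGroup.mk' D) := by
        rw [Lx, closure_le]
        rintro _ ⟨i, rfl⟩
        refine ⟨h⁻¹ * (x ^ i) h, mem_Lx x h i, ?_⟩
        rw [hpow]
        rfl
      obtain ⟨l, hl, rfl⟩ := hL hy
      have hlD : l⁻¹ * x l ∈ D := by
        have h2 : xb (l : H ⧸ D) = (l : H ⧸ D) := hyf
        rw [hxb] at h2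
        exact QuotientGroup.eq.mp h2.symm
      have hl1 : l⁻¹ * x l ∈ Lx x h ⊓ D := ⟨(Lx x h).mul_mem ((Lx x h).inv_mem hl) (Lx_inv x h l hl), hlD⟩
      obtain ⟨a, ha, hfa⟩ := coset_fixed hp hcop ((Lx_inv x h).inf hDi) hl1
      refine ⟨l * a, Lx_le_Jx_of_fix (mul_mem hl ha.1) hfa, ?_⟩
      apply QuotientGroup.eq.mpr
      have e : (l * a)⁻¹ * l = a⁻¹ := by group
      rw [e]
      exact inv_mem ha.2
  obtain ⟨j, hj, hjc⟩ := hJ h1
  have hjx : x j = j := Jx_le_Fx x hj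
  refine ⟨j, hj, j⁻¹ * c, QuotientGroup.eq.mp hjc, ?_, by group⟩
  rw [map_mul, map_inv, hjx, hc]

theorem sub_of_restr {x : MulAut H} {M : Subgroup H} (hMi : XInv x M)
    (y : MulAut M) (hy : ∀ m : M, ((y m : M) : H) = x m) (hT : Mx y ⊤ ⊓ Fx y ≤ Jx y) :
    Mx x M ⊓ Fx x ≤ Jx x := by
  have hpow : ∀ (i : ℕ) (m : M), (((y ^ i) m : M) : H) = (x ^ i) m := by
    intro i m
    induction i with
    | zero => rfl
    | succ n ih => rw [pow_succ_apply, hy, ih, pow_succ_apply]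
  rintro c ⟨hc, hcf⟩
  have h1 : ∀ (z : H) (hz : z ∈ Mx x M), (⟨z, Mx_le hMi hz⟩ : M) ∈ Mx y ⊤ := by
    intro z hz
    induction hz using closure_induction with
    | mem z hz =>
      obtain ⟨a, ha, i, rfl⟩ := hz
      have e : (⟨a⁻¹ * (x ^ i) a, Mx_le hMi (mem_Mx ha i)⟩ : M) = (⟨a, ha⟩ : M)⁻¹ * (y ^ i) (⟨a, ha⟩ : M) := by
        apply Subtype.ext
        show a⁻¹ * (x ^ i) a = a⁻¹ * (((y ^ i) (⟨a, ha⟩ : M) : M) : H)
        rw [hpow]
      rw [e]
      exact mem_Mx (mem_top _) i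
    | one => exact one_mem _
    | mul a b ha hb h₁ h₂ => exact mul_mem h₁ h₂
    | inv a ha h₁ => exact inv_mem h₁
  have h2 : (⟨c, Mx_le hMi hc⟩ : M) ∈ Jx y := hT ⟨h1 c hc, Subtype.ext (by
    show ((y ⟨c, Mx_le hMi hc⟩ : M) : H) = c
    rw [hy]
    exact hcf)⟩
  have h3 : Jx y ≤ (Jx x).comap M.subtype := by
    refine iSup_le fun m => ?_
    rintro a ⟨ha, haf⟩
    have hle : Lx y m ≤ (Lx x (m : H)).comap M.subtype := by
      rw [Lx, closure_le]
      rintro _ ⟨i, rfl⟩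
      show ((m⁻¹ * (y ^ i) m : M) : H) ∈ Lx x (m : H)
      have e : ((m⁻¹ * (y ^ i) m : M) : H) = (m : H)⁻¹ * (x ^ i) (m : H) := by
        show (m : H)⁻¹ * (((y ^ i) m : M) : H) = _
        rw [hpow]
      rw [e]
      exact mem_Lx x _ i
    refine Lx_le_Jx_of_fix (hle ha) ?_
    have h4 : y a = a := haf
    have h5 := congrArg Subtype.val h4
    rwa [hy] at h5
  exact h3 h2

end Fin2

universe u

theorem main_le (p : ℕ) [hpp : Fact p.Prime] (hodd : p ≠ 2) :
    ∀ (n : ℕ) (H : Type u) [Group H] [Finite H] [Group.IsSolvable H] (x : MulAut H), Nat.card H = n →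
      x ^ p = 1 → (Nat.card H).Coprime p → Mx x ⊤ ⊓ Fx x ≤ Jx x := by
  intro n
  induction n using Nat.strong_induction_on with
  | _ n ih =>
    intro H _ _ _ x hn hp hcop
    have hsub : ∀ M : Subgroup H, M ≠ ⊤ → XInv x M → Mx x M ⊓ Fx x ≤ Jx x := by
      intro M hM hMi
      let y : MulAut M :=
        { toFun := fun m => ⟨x m, hMi m m.2⟩
          invFun := fun m => ⟨(x⁻¹) m, XInv.inv_mem hp hpp.out hMi m.2⟩
          left_inv := fun m => Subtype.ext (by simp)
          right_inv := fun m => Subtype.ext (by simp)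
          map_mul' := fun a b => Subtype.ext (by simp) }
      have hlt : Nat.card M < n := by
        rw [← hn]
        refine lt_of_le_of_ne (Subgroup.card_le_card_group M) ?_
        intro h
        exact hM (Subgroup.eq_top_of_card_eq M h)
      have hcopM : (Nat.card M).Coprime p := Nat.Coprime.coprime_dvd_left (Subgroup.card_subgroup_dvd_card M) hcop
      have hyp : y ^ p = 1 := by
        have hpow : ∀ (i : ℕ) (m : M), (((y ^ i) m : M) : H) = (x ^ i) m := by
          intro i m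
          induction i with
          | zero => rfl
          | succ n ih =>
            rw [pow_succ_apply, pow_succ_apply, ← ih]
            rfl
        ext m
        rw [hpow, hp]
        rfl
      have hT := ih _ hlt M y rfl hyp hcopM
      exact sub_of_restr hMi y (fun _ => rfl) hT
    by_cases htop : Mx x ⊤ = ⊤
    · by_contra hcon
      have hMC : MC p x :=
        { prime := hpp.out
          odd := hodd
          pow := hp
          cop := hcop
          top := htop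
          sub := hsub
          fac := by
            intro D hDne hDn hDi
            haveI := hDn
            have hmap : D.map x.toMonoidHom = D := by
              apply le_antisymm
              · rintro _ ⟨d, hd, rfl⟩
                exact hDi d hd
              · intro d hd
                exact ⟨(x⁻¹) d, XInv.inv_mem hp hpp.out hDi hd, by simp⟩
            let xb : MulAut (H ⧸ D) := QuotientGroup.congr D D x hmap
            have hxb : ∀ h : H, xb (h : H ⧸ D) = ((x h : H) : H ⧸ D) := fun h => rfl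
            have hlt : Nat.card (H ⧸ D) < n := by
              rw [← hn]
              have h1 := Subgroup.card_eq_card_quotient_mul_card_subgroup D
              have h2 : 1 < Nat.card D := by
                have h3 : Nontrivial D := (Subgroup.nontrivial_iff_ne_bot D).mpr hDne
                exact Finite.one_lt_card
              rw [h1]
              have h4 : 0 < Nat.card (H ⧸ D) := Nat.card_pos
              nlinarith
            have hcopb : (Nat.card (H ⧸ D)).Coprime p :=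
              Nat.Coprime.coprime_dvd_left (Subgroup.card_quotient_dvd_card D) hcop
            have hpow : ∀ (i : ℕ) (h : H), (xb ^ i) (h : H ⧸ D) = (((x ^ i) h : H) : H ⧸ D) := by
              intro i h
              induction i with
              | zero => rfl
              | succ n ih => rw [pow_succ_apply, ih, hxb, pow_succ_apply]
            have hbp : xb ^ p = 1 := by
              ext y
              induction y using QuotientGroup.induction_on with
              | H y =>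
                rw [hpow, hp]
                rfl
            have hT := ih _ hlt (H ⧸ D) xb rfl hbp hcopb
            exact fac_of_quot hp hcop hDi htop xb hxb hT
          nle := fun h => hcon (inf_le_right.trans h) }
      exact hMC.false
    · have h1 := hsub (Mx x ⊤) htop (Mx_inv (fun _ _ => mem_top _))
      have h2 : Mx x ⊤ ≤ Mx x (Mx x ⊤) := by
        rw [Mx, closure_le]
        rintro _ ⟨h, -, i, rfl⟩
        exact Mx_mono (Lx_le_Mx (mem_top h)) (Lx_le_Mx_Lx hp hcop h (mem_Lx x h i))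
      rintro c ⟨hc, hcf⟩
      exact h1 ⟨h2 hc, hcf⟩

end Aux

/-- Let p be an odd prime, H a finite solvable group of order prime to p, and x an automorphism of H of order p (so P = ⟨x⟩ has prime order p > 2 and acts coprimely on H). For h ∈ H let [h, P] be the subgroup generated by the commutators h⁻¹·xⁱ(h), and let [H, P] be the subgroup generated by all of these. Then the fixed points of x in [H, P] are generated by the fixed points of x in the subgroups [h, P], h ∈ H. -/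
theorem result {H : Type*} [Group H] [Finite H]
    [Group.IsSolvable H] {p : ℕ} [Fact p.Prime] (hp : p ≠ 2) (hcop : (Nat.card H).Coprime p)
    (x : MulAut H) (hx : orderOf x = p) :
    Subgroup.closure {c : H | ∃ h : H, ∃ i : ℕ, c = h⁻¹ * (x ^ i) h} ⊓ (x : H →* H).eqLocus (MonoidHom.id H) =
      ⨆ h : H, Subgroup.closure {c : H | ∃ i : ℕ, c = h⁻¹ * (x ^ i) h} ⊓ (x : H →* H).eqLocus (MonoidHom.id H) := by
  haveI : Fact p.Prime := inferInstance
  have hp' : x ^ p = 1 := by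
    rw [← hx]
    exact pow_orderOf_eq_one x
  have e : Subgroup.closure {c : H | ∃ h : H, ∃ i : ℕ, c = h⁻¹ * (x ^ i) h} = Mx x ⊤ := by
    simp [Mx]
  apply le_antisymm
  · rw [e]
    exact main_le p hp _ H x rfl hp' hcop
  · refine iSup_le fun h => inf_le_inf_right _ (Subgroup.closure_mono ?_)
    rintro _ ⟨i, rfl⟩
    exact ⟨h, i, rfl⟩

end Cfsg.Agent.S3816
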