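import Cfsg.Statements.S3818
import Cfsg.Agent.Lib.FGS.TGen
import Cfsg.Agent.Lib.HallHigman.FixedPoints
-- import your own Cfsg.Agent.* helpers here

set_option autoImplicit false
open Cfsg

namespace Cfsg.Agent.S3818

/-- Let G be a finite solvable group and P a subgroup of G of prime order p > 3 whose conjugates generate G. Let V be a faithful irreducible representation of G over a field of positive characteristic, finite-dimensional. Then the subspace of V fixed by P has dimension less than half the dimension of V. -/
theorem result {G : Type*} [Group G] [Finite G] [Group.IsSolvable G]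
    {p : ℕ} [Fact p.Prime] (hp : 3 < p) (P : Subgroup G) (hP : Nat.card P = p) (hgen : Subgroup.normalClosure (P : Set G) = ⊤)
    {k : Type*} [Field k] (ℓ : ℕ) [Fact ℓ.Prime] [CharP k ℓ]
    {V : Type*} [AddCommGroup V] [Module k V] [FiniteDimensional k V]
    (ρ : Representation k G V) [ρ.IsIrreducible] (hfaith : Function.Injective ρ) :
    2 * Module.finrank k ↥(⨅ g : ↥P, LinearMap.ker (ρ (g : G) - LinearMap.id)) < Module.finrank k V := by
  classical
  have hpp : p.Prime := Fact.out
  have hp5 : 5 ≤ p := by
    by_contra h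
    have h4 : p = 4 := by omega
    rw [h4] at hpp
    exact absurd hpp (by norm_num)
  obtain ⟨x, hxP, hord, hzx⟩ :=
    Cfsg.Agent.Lib.HallHigman.FixedPoints.exists_generator_of_prime hpp hP
  have hgen' : Subgroup.normalClosure ({x} : Set G) = ⊤ := by
    rw [eq_top_iff, ← hgen]
    apply Subgroup.normalClosure_le_normal
    intro g hg
    have h1 : g ∈ Subgroup.zpowers x := by rw [hzx]; exact hg
    have h2 : Subgroup.zpowers x ≤ Subgroup.normalClosure ({x} : Set G) :=
      (Subgroup.zpowers_le).mpr (Subgroup.subset_normalClosure rfl)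
    exact h2 h1
  have hirr : ∀ U : Submodule k V, (∀ g, ∀ u ∈ U, ρ g u ∈ U) → U = ⊥ ∨ U = ⊤ := by
    intro U hU
    let U' : Subrepresentation ρ := ⟨U, fun g v hv => hU g v hv⟩
    rcases eq_bot_or_eq_top U' with h | h
    · left
      exact congrArg Subrepresentation.toSubmodule h
    · right
      exact congrArg Subrepresentation.toSubmodule h
  have h := Cfsg.Agent.Lib.FGS.TGen.T_gen ℓ ρ hfaith hirr hpp hp5 x hord hgen'
  have h1 : (⨅ g : ↥P, LinearMap.ker (ρ (g : G) - LinearMap.id)) ≤
      LinearMap.ker (ρ x - 1 : Module.End k V) := iInf_le _ (⟨x, hxP⟩ : ↥P)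
  have h2 := Submodule.finrank_mono h1
  omega

end Cfsg.Agent.S3818
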