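import Cfsg.Statements.S3819
import Mathlib
import Cfsg.Agent.Lib.Core.Basic
import Cfsg.Agent.Lib.Solvable.Fitting
import Cfsg.Agent.Lib.Coprime.Action
import Cfsg.Agent.Lib.Coprime.Quotient
import Cfsg.Agent.Lib.CharP.Basic
-- import your own Cfsg.Agent.* helpers here

set_option autoImplicit false
open Cfsg

namespace Cfsg.Agent.S3819

section Aux

open Cfsg.Agent.Lib.Coprime.Action Cfsg.Agent.Lib.Core.Basic
open scoped commutatorElement

theorem char_conj {G : Type*} [Group G] (K : Subgroup G) (C : Subgroup ↥K) [C.Characteristic] {g : G}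
    (hg : g ∈ Subgroup.normalizer (K : Set G)) {c : G} (hc : c ∈ C.map K.subtype) :
    g * c * g⁻¹ ∈ C.map K.subtype := by
  obtain ⟨c', hc', rfl⟩ := hc
  let e : ↥K ≃* ↥K := K.normalizerMonoidHom ⟨g, hg⟩
  have h1 : C.map e.toMonoidHom = C := Subgroup.characteristic_iff_map_eq.mp inferInstance e
  have h2 : e c' ∈ C := by
    rw [← h1]
    exact ⟨c', hc', rfl⟩
  exact ⟨e c', h2, rfl⟩

theorem core_free {G : Type*} [Group G] [Finite G] {p q : ℕ} [Fact p.Prime] [Fact q.Prime]
    (H P A B : Subgroup G) (hPH : P ≤ Subgroup.normalizer (H : Set G))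
    (hcop : (Nat.card P).Coprime (Nat.card H)) (hPp : IsPGroup p P)
    (hsol : Group.IsSolvable ↥⁅H, P⁆)
    (z : G) (hzH : z ∈ H) (hzP : z ∈ Subgroup.centralizer (P : Set G)) (hz : ∃ k : ℕ, z ^ q ^ k = 1)
    (hcore : ∀ Y : Subgroup G, Y ≤ H → H ≤ Subgroup.normalizer (Y : Set G) →
      (Nat.card Y).Coprime q → Y = ⊥)
    (hAle : A ≤ H ⊓ Subgroup.centralizer ({z} : Set G))
    (hAn : H ⊓ Subgroup.centralizer ({z} : Set G) ≤ Subgroup.normalizer (A : Set G))
    (hAq : (Nat.card A).Coprime q) (hAP : P ≤ Subgroup.normalizer (A : Set G))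
    (hBle : B ≤ H ⊓ Subgroup.centralizer (P : Set G))
    (hBn : H ⊓ Subgroup.centralizer (P : Set G) ≤ Subgroup.normalizer (B : Set G))
    (hBq : (Nat.card B).Coprime q) : ⁅A, P⁆ = ⊥ ∧ A ⊓ B = ⊥ := by
  classical
  set K : Subgroup G := ⁅H, P⁆ with hK
  have hKH : K ≤ H := commutator_le_of_le_normalizer hPH
  have hKnH : H ≤ Subgroup.normalizer (K : Set G) := le_normalizer_commutator_left H P
  have hKnP : P ≤ Subgroup.normalizer (K : Set G) := le_normalizer_commutator_right H P
  haveI : Group.IsSolvable ↥K := hsol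
  -- O_{q'}(K) = 1
  have hO : pPrimeCore q ↥K = ⊥ := by
    have h := hcore ((pPrimeCore q ↥K).map K.subtype)
      ((Subgroup.map_subtype_le _).trans hKH)
      (Subgroup.le_normalizer_iff.mpr fun g hg c hc => char_conj K _ (hKnH hg) hc)
      (by
        rw [Subgroup.card_map_of_injective K.subtype_injective]
        exact pPrimeCore_coprime)
    exact (Subgroup.map_eq_bot_iff_of_injective _ K.subtype_injective).mp h
  set Q : Subgroup G := (pCore q ↥K).map K.subtype with hQdef
  have hQK : Q ≤ K := Subgroup.map_subtype_le _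
  have hQq : IsPGroup q Q := (pCore_isPGroup (p := q) (G := ↥K)).map K.subtype
  have hQH : ∀ h ∈ H, ∀ x ∈ Q, h * x * h⁻¹ ∈ Q := fun g hg c hc => char_conj K _ (hKnH hg) hc
  have hQP : ∀ h ∈ P, ∀ x ∈ Q, h * x * h⁻¹ ∈ Q := fun g hg c hc => char_conj K _ (hKnP hg) hc
  have hCK : ∀ x ∈ K, (∀ y ∈ Q, x * y = y * x) → x ∈ Q := by
    intro x hx hc
    have h := Cfsg.Agent.Lib.Solvable.Fitting.centralizer_pCore_le (G := ↥K) q hO
    have hmem : (⟨x, hx⟩ : ↥K) ∈ Subgroup.centralizer ((pCore q ↥K : Subgroup ↥K) : Set ↥K) := by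
      rw [Subgroup.mem_centralizer_iff]
      intro y hy
      apply Subtype.ext
      exact (hc y.1 ⟨y, hy, rfl⟩).symm
    exact ⟨⟨x, hx⟩, h hmem, rfl⟩
  have hAQ : ∀ x, x ∈ A → x ∈ Q → x = 1 := by
    intro x h1 h2
    have h := inf_eq_bot_of_isPGroup_of_coprime hQq hAq
    have : x ∈ Q ⊓ A := ⟨h2, h1⟩
    rw [h] at this
    exact this
  have hAH : A ≤ H := hAle.trans inf_le_left
  have hAz : ∀ a ∈ A, a * z = z * a := by
    intro a ha
    have := (Subgroup.mem_inf.mp (hAle ha)).2
    rw [Subgroup.mem_centralizer_iff] at this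
    exact (this z rfl).symm
  have hzq : IsPGroup q (Subgroup.zpowers z) := by
    obtain ⟨k, hk⟩ := hz
    have h1 : orderOf z ∣ q ^ k := orderOf_dvd_of_pow_eq_one hk
    obtain ⟨m, -, hm⟩ := (Nat.dvd_prime_pow (Fact.out : q.Prime)).mp h1
    exact IsPGroup.of_card (n := m) (by rw [Nat.card_zpowers, hm])
  -- A centralizes Q
  have hAC : ∀ a ∈ A, ∀ x ∈ Q, a * x = x * a := by
    intro a ha
    refine Cfsg.Agent.Lib.CharP.Basic.thompson_AB Q (Subgroup.zpowers z) hQq hzq ?_ a
      (hQH a (hAH ha)) ?_ ?_ ?_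
    · intro r hr x hx
      obtain ⟨n, rfl⟩ := Subgroup.mem_zpowers_iff.mp hr
      exact hQH _ (H.zpow_mem hzH n) x hx
    · intro r hr
      obtain ⟨n, rfl⟩ := Subgroup.mem_zpowers_iff.mp hr
      exact (Commute.zpow_right (hAz a ha) n)
    · exact Nat.Coprime.coprime_dvd_left
        (by
          have := Subgroup.orderOf_dvd_natCard A ha
          exact this) hAq
    · intro x hx hxz
      have hxn : x ∈ H ⊓ Subgroup.centralizer ({z} : Set G) := by
        refine ⟨hKH (hQK hx), ?_⟩
        show x ∈ Subgroup.centralizer ({z} : Set G)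
        rw [Subgroup.mem_centralizer_iff]
        intro w hw
        rw [Set.mem_singleton_iff.mp hw]
        exact hxz z (Subgroup.mem_zpowers z) |>.symm ▸ rfl
      have h1 : a * x * a⁻¹ * x⁻¹ ∈ A := by
        have : a * x * a⁻¹ * x⁻¹ = a * (x * a⁻¹ * x⁻¹) := by group
        rw [this]
        exact A.mul_mem ha (Subgroup.le_normalizer_iff.mp hAn x hxn _ (A.inv_mem ha))
      have h2 : a * x * a⁻¹ * x⁻¹ ∈ Q := Q.mul_mem (hQH a (hAH ha) x hx) (Q.inv_mem hx)
      have h3 := hAQ _ h1 h2
      have h4 : a * x * a⁻¹ = x := by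
        rwa [mul_inv_eq_one] at h3
      rw [mul_inv_eq_iff_eq_mul] at h4
      exact h4
  refine ⟨?_, ?_⟩
  · rw [eq_bot_iff, Subgroup.commutator_le]
    intro a ha u hu
    rw [Subgroup.mem_bot]
    apply hAQ
    · rw [commutatorElement_def]
      have : a * u * a⁻¹ * u⁻¹ = a * (u * a⁻¹ * u⁻¹) := by group
      rw [this]
      exact A.mul_mem ha (Subgroup.le_normalizer_iff.mp hAP u hu _ (A.inv_mem ha))
    · apply hCK _ (Subgroup.commutator_mem_commutator (hAH ha) hu)
      intro y hy
      have h1 := hAC a ha y hy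
      have h2 := hAC a ha (u⁻¹ * y * u) (by
        have := hQP u⁻¹ (P.inv_mem hu) y hy
        simpa using this)
      have h3 : Commute (u * a * u⁻¹) y := by
        show u * a * u⁻¹ * y = y * (u * a * u⁻¹)
        calc u * a * u⁻¹ * y = u * (a * (u⁻¹ * y * u)) * u⁻¹ := by group
          _ = u * ((u⁻¹ * y * u) * a) * u⁻¹ := by rw [h2]
          _ = y * (u * a * u⁻¹) := by group
      have h4 : Commute a y := h1
      have h5 : Commute (a * (u * a * u⁻¹)⁻¹) y := h4.mul_left h3.inv_left
      have e : ⁅a, u⁆ = a * (u * a * u⁻¹)⁻¹ := by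
        rw [commutatorElement_def]; group
      rw [e]
      exact h5
  · -- B₁
    set B₁ : Subgroup G := B ⊓ Subgroup.centralizer (Q : Set G) with hB₁
    have hBH : B ≤ H := hBle.trans inf_le_left
    have hyq : ∀ y ∈ B₁, (orderOf y).Coprime q := fun y hy =>
      Nat.Coprime.coprime_dvd_left (Subgroup.orderOf_dvd_natCard B hy.1) hBq
    have hyC : ∀ y ∈ B₁, ∀ x ∈ Q, y * x = x * y := by
      intro y hy x hx
      have := (Subgroup.mem_inf.mp hy).2
      rw [Subgroup.mem_centralizer_iff] at this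
      exact (this x hx).symm
    -- [B₁, K] = 1
    have hcomm : ∀ y ∈ B₁, ∀ k ∈ K, y * k = k * y := by
      intro y hy k hk
      set c : G := y * k * y⁻¹ * k⁻¹ with hc
      have hcK : c ∈ K := K.mul_mem
        (Subgroup.le_normalizer_iff.mp hKnH y (hBH hy.1) k hk) (K.inv_mem hk)
      have hcQ : c ∈ Q := by
        apply hCK c hcK
        intro x hx
        have h1 := hyC y hy x hx
        have h2 := hyC y hy (k⁻¹ * x * k) (by
          have := hQH k⁻¹ (H.inv_mem (hKH hk)) x hx
          simpa using this)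
        have h3 : Commute (k * y * k⁻¹) x := by
          show k * y * k⁻¹ * x = x * (k * y * k⁻¹)
          calc k * y * k⁻¹ * x = k * (y * (k⁻¹ * x * k)) * k⁻¹ := by group
            _ = k * ((k⁻¹ * x * k) * y) * k⁻¹ := by rw [h2]
            _ = x * (k * y * k⁻¹) := by group
        have h4 : Commute y x := h1
        have h5 : Commute (y * (k * y * k⁻¹)⁻¹) x := h4.mul_left h3.inv_left
        have e : c = y * (k * y * k⁻¹)⁻¹ := by
          rw [hc]; group
        rw [e]
        exact h5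
      have hcy : y * c = c * y := hyC y hy c hcQ
      have hstep : ∀ n : ℕ, y ^ n * k * (y ^ n)⁻¹ = c ^ n * k := by
        intro n
        induction n with
        | zero => simp
        | succ n ih =>
          have hcyn : Commute y (c ^ n) := (show Commute y c from hcy).pow_right n
          have h1 : y * k * y⁻¹ = c * k := by rw [hc]; group
          calc y ^ (n + 1) * k * (y ^ (n + 1))⁻¹
              = y * (y ^ n * k * (y ^ n)⁻¹) * y⁻¹ := by
                rw [pow_succ' y n, mul_inv_rev]; group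
            _ = y * (c ^ n * k) * y⁻¹ := by rw [ih]
            _ = c ^ n * (y * k * y⁻¹) := by
                rw [← mul_assoc y, hcyn.eq]; group
            _ = c ^ (n + 1) * k := by rw [h1, pow_succ]; group
      have h1 := hstep (orderOf y)
      rw [pow_orderOf_eq_one, one_mul, inv_one, mul_one] at h1
      have h2 : c ^ orderOf y = 1 := by
        have := h1
        exact mul_eq_right.mp this.symm
      have h3 : c = 1 := by
        obtain ⟨m, hm⟩ := hQq ⟨c, hcQ⟩
        have h5 : c ^ q ^ m = 1 := by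
          have := congrArg Subtype.val hm
          simpa using this
        have h6 : orderOf c ∣ q ^ m := orderOf_dvd_of_pow_eq_one h5
        have h7 : orderOf c ∣ orderOf y := orderOf_dvd_of_pow_eq_one h2
        have h8 : (orderOf y).Coprime (q ^ m) := (hyq y hy).pow_right m
        have h9 : orderOf c = 1 := Nat.eq_one_of_dvd_coprimes h8 h7 h6
        exact orderOf_eq_one_iff.mp h9
      have h4 : y * k * y⁻¹ * k⁻¹ = 1 := h3
      have h5 : y * k * y⁻¹ = k := by rwa [mul_inv_eq_one] at h4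
      rw [mul_inv_eq_iff_eq_mul] at h5
      exact h5
    have hB₁bot : B₁ = ⊥ := by
      apply hcore B₁ (inf_le_left.trans hBH)
      · rw [Subgroup.le_normalizer_iff]
        intro h hh y hy
        have hhm : h ∈ K ⊔ (H ⊓ Subgroup.centralizer (P : Set G)) := by
          rw [hK, commutator_sup_fixed hPH hcop (Or.inl ?_)]
          · exact hh
          · haveI := hPp.isNilpotent
            infer_instance
        obtain ⟨k, hk, c, hc, rfl⟩ := exists_mul_of_mem_sup (inf_le_left.trans hKnH) hhm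
        have h1 : c * y * c⁻¹ ∈ B₁ := by
          refine ⟨Subgroup.le_normalizer_iff.mp hBn c hc y hy.1, ?_⟩
          show _ ∈ Subgroup.centralizer (Q : Set G)
          rw [Subgroup.mem_centralizer_iff]
          intro x hx
          have hcH : c ∈ H := hc.1
          have h2 := hyC y hy (c⁻¹ * x * c) (by
            have := hQH c⁻¹ (H.inv_mem hcH) x hx
            simpa using this)
          calc x * (c * y * c⁻¹) = c * ((c⁻¹ * x * c) * y) * c⁻¹ := by group
            _ = c * (y * (c⁻¹ * x * c)) * c⁻¹ := by rw [h2]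
            _ = c * y * c⁻¹ * x := by group
        have h2 := hcomm _ h1 k hk
        have e : k * c * y * (k * c)⁻¹ = k * (c * y * c⁻¹) * k⁻¹ := by group
        rw [e, ← h2]
        simpa using h1
      · exact Nat.Coprime.coprime_dvd_left
          (Subgroup.card_dvd_of_le inf_le_left) hBq
    rw [eq_bot_iff, ← hB₁bot]
    rintro a ⟨ha, hb⟩
    refine ⟨hb, ?_⟩
    show _ ∈ Subgroup.centralizer (Q : Set G)
    rw [Subgroup.mem_centralizer_iff]
    intro x hx
    exact (hAC a ha x hx).symm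


theorem card_map_dvd' {G G' : Type*} [Group G] [Group G'] [Finite G] (f : G →* G') (S : Subgroup G) :
    Nat.card (S.map f) ∣ Nat.card S := by
  have hs : Function.Surjective (f.subgroupMap S) := f.subgroupMap_surjective S
  exact Cfsg.Agent.Lib.Core.Basic.card_dvd_of_surjective _ hs

theorem map_conj' {G G' : Type*} [Group G] [Group G'] (f : G →* G') {S : Subgroup G} {g : G}
    (h : ∀ s ∈ S, g * s * g⁻¹ ∈ S) : ∀ s ∈ S.map f, f g * s * (f g)⁻¹ ∈ S.map f := by
  rintro _ ⟨s, hs, rfl⟩
  exact ⟨g * s * g⁻¹, h s hs, by simp⟩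

theorem reduction {G : Type*} [Group G] [Finite G] {p q : ℕ} [Fact p.Prime] [Fact q.Prime]
    (H P A B R : Subgroup G) (hHn : H.Normal) (hRn : R.Normal) (hRH : R ≤ H)
    (hRq : (Nat.card R).Coprime q) (hRp : (Nat.card R).Coprime p)
    (hRmax : ∀ Y : Subgroup G, Y ≤ H → H ≤ Subgroup.normalizer (Y : Set G) →
      (Nat.card Y).Coprime q → Y ≤ R)
    (hcop : (Nat.card P).Coprime (Nat.card H)) (hPp : IsPGroup p P)
    (hsol : Group.IsSolvable ↥⁅H, P⁆)
    (z : G) (hzH : z ∈ H) (hzP : z ∈ Subgroup.centralizer (P : Set G)) (hz : ∃ k : ℕ, z ^ q ^ k = 1)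
    (hAle : A ≤ H ⊓ Subgroup.centralizer ({z} : Set G))
    (hAn : H ⊓ Subgroup.centralizer ({z} : Set G) ≤ Subgroup.normalizer (A : Set G))
    (hAq : (Nat.card A).Coprime q) (hAP : P ≤ Subgroup.normalizer (A : Set G))
    (hBle : B ≤ H ⊓ Subgroup.centralizer (P : Set G))
    (hBn : H ⊓ Subgroup.centralizer (P : Set G) ≤ Subgroup.normalizer (B : Set G))
    (hBq : (Nat.card B).Coprime q) : (A ⊓ B) ⊔ ⁅A, P⁆ ≤ R := by
  classical
  haveI := hRn
  let φ : G →* G ⧸ R := QuotientGroup.mk' R
  have hφ : Function.Surjective φ := QuotientGroup.mk'_surjective R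
  have hφker : ∀ x, φ x = 1 ↔ x ∈ R := fun x => QuotientGroup.eq_one_iff x
  have hlift : ∀ x y : G, φ x = φ y → y ∈ H → x ∈ H := by
    intro x y hxy hy
    have h1 : φ (y⁻¹ * x) = 1 := by
      rw [map_mul, map_inv, hxy, inv_mul_cancel]
    have h2 := hRH ((hφker _).mp h1)
    have : x = y * (y⁻¹ * x) := by group
    rw [this]
    exact H.mul_mem hy h2
  have key := core_free (p := p) (q := q) (H.map φ) (P.map φ) (A.map φ) (B.map φ)
    (by
      rw [Subgroup.le_normalizer_iff]
      intro g _ k hk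
      exact (hHn.map φ hφ).conj_mem k hk g)
    (Nat.Coprime.coprime_dvd_left (card_map_dvd' φ P)
      (Nat.Coprime.coprime_dvd_right (card_map_dvd' φ H) hcop))
    (hPp.map φ)
    (by
      rw [← Subgroup.map_commutator]
      exact Group.isSolvable_of_surjective (φ.subgroupMap_surjective ⁅H, P⁆))
    (φ z) (Subgroup.mem_map_of_mem φ hzH)
    (by
      rw [Subgroup.mem_centralizer_iff]
      rintro _ ⟨u, hu, rfl⟩
      rw [Subgroup.mem_centralizer_iff] at hzP
      rw [← map_mul, ← map_mul, hzP u hu])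
    (by
      obtain ⟨k, hk⟩ := hz
      exact ⟨k, by rw [← map_pow, hk, map_one]⟩)
    (by
      intro Y hYH hYn hYq
      have hZH : Y.comap φ ≤ H := by
        intro x hx
        obtain ⟨h, hh, e⟩ := hYH hx
        exact hlift x h e.symm hh
      have hZn : H ≤ Subgroup.normalizer ((Y.comap φ : Subgroup G) : Set G) := by
        rw [Subgroup.le_normalizer_iff]
        intro h hh x hx
        show φ (h * x * h⁻¹) ∈ Y
        rw [map_mul, map_mul, map_inv]
        exact Subgroup.le_normalizer_iff.mp hYn _ (Subgroup.mem_map_of_mem φ hh) _ hx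
      have hZq : (Nat.card (Y.comap φ)).Coprime q := by
        rw [Cfsg.Agent.Lib.Core.Basic.coprime_card_iff_forall_orderOf]
        intro x hx
        have h1 : (orderOf (φ x)).Coprime q :=
          (Cfsg.Agent.Lib.Core.Basic.coprime_card_iff_forall_orderOf Y).mp hYq _ hx
        have h2 : x ^ orderOf (φ x) ∈ R := by
          rw [← hφker, map_pow, pow_orderOf_eq_one]
        have h3 : (orderOf (x ^ orderOf (φ x))).Coprime q :=
          (Cfsg.Agent.Lib.Core.Basic.coprime_card_iff_forall_orderOf R).mp hRq _ h2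
        have h4 : orderOf x ∣ orderOf (φ x) * orderOf (x ^ orderOf (φ x)) := by
          apply orderOf_dvd_of_pow_eq_one
          rw [pow_mul, pow_orderOf_eq_one]
        exact Nat.Coprime.coprime_dvd_left h4 (Nat.Coprime.mul_left h1 h3)
      have hZR := hRmax _ hZH hZn hZq
      rw [eq_bot_iff]
      intro y hy
      obtain ⟨x, rfl⟩ := hφ y
      exact (hφker x).mpr (hZR hy)) 
    (by
      rintro _ ⟨a, ha, rfl⟩
      refine ⟨Subgroup.mem_map_of_mem φ (hAle ha).1, ?_⟩
      show φ a ∈ Subgroup.centralizer ({φ z} : Set (G ⧸ R))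
      rw [Subgroup.mem_centralizer_iff]
      intro w hw
      rw [Set.mem_singleton_iff.mp hw]
      have this : a ∈ Subgroup.centralizer ({z} : Set G) := (hAle ha).2
      rw [Subgroup.mem_centralizer_iff] at this
      rw [← map_mul, ← map_mul, this z rfl])
    (by
      rw [Subgroup.le_normalizer_iff]
      rintro g ⟨⟨h, hh, rfl⟩, hg⟩ s hs
      -- lift h to the centralizer of z
      have hzq : IsPGroup q (Subgroup.zpowers z) := by
        obtain ⟨k, hk⟩ := hz
        have h1 : orderOf z ∣ q ^ k := orderOf_dvd_of_pow_eq_one hk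
        obtain ⟨m, -, hm⟩ := (Nat.dvd_prime_pow (Fact.out : q.Prime)).mp h1
        exact IsPGroup.of_card (n := m) (by rw [Nat.card_zpowers, hm])
      have hh2 : (φ h) ∈ Subgroup.centralizer (((Subgroup.zpowers z).map (QuotientGroup.mk' R) : Subgroup (G ⧸ R)) : Set (G ⧸ R)) := by
        rw [Subgroup.mem_centralizer_iff]
        rintro _ ⟨w, hw, rfl⟩
        obtain ⟨n, rfl⟩ := Subgroup.mem_zpowers_iff.mp hw
        have hg' : φ h ∈ Subgroup.centralizer ({φ z} : Set (G ⧸ R)) := hg
        rw [Subgroup.mem_centralizer_iff] at hg'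
        have h3 : Commute (φ z) (φ h) := hg' (φ z) rfl
        have h4 : Commute (φ (z ^ n)) (φ h) := by
          rw [map_zpow]
          exact h3.zpow_left n
        exact h4
      rw [Cfsg.Agent.Lib.Coprime.Quotient.centralizer_map_mk_eq R hRq _ hzq] at hh2
      obtain ⟨c, hc, hcφ⟩ := hh2
      have hcφ' : φ c = φ h := hcφ
      have hcH : c ∈ H := hlift c h hcφ' hh
      have hcz : c ∈ Subgroup.centralizer ({z} : Set G) := by
        rw [SetLike.mem_coe, Subgroup.mem_centralizer_iff] at hc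
        rw [Subgroup.mem_centralizer_iff]
        intro w hw
        rw [Set.mem_singleton_iff.mp hw]
        exact hc z (Subgroup.mem_zpowers z)
      rw [← hcφ']
      exact map_conj' φ (Subgroup.le_normalizer_iff.mp hAn c ⟨hcH, hcz⟩) s hs)
    (Nat.Coprime.coprime_dvd_left (card_map_dvd' φ A) hAq)
    (by
      rw [Subgroup.le_normalizer_iff]
      rintro _ ⟨u, hu, rfl⟩ s hs
      exact map_conj' φ (Subgroup.le_normalizer_iff.mp hAP u hu) s hs)
    (by
      rintro _ ⟨a, ha, rfl⟩
      refine ⟨Subgroup.mem_map_of_mem φ (hBle ha).1, ?_⟩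
      show φ a ∈ Subgroup.centralizer ((P.map φ : Subgroup (G ⧸ R)) : Set (G ⧸ R))
      rw [Subgroup.mem_centralizer_iff]
      rintro _ ⟨u, hu, rfl⟩
      have this : a ∈ Subgroup.centralizer ((P : Subgroup G) : Set G) := (hBle ha).2
      rw [Subgroup.mem_centralizer_iff] at this
      rw [← map_mul, ← map_mul, this u hu])
    (by
      rw [Subgroup.le_normalizer_iff]
      rintro g ⟨⟨h, hh, rfl⟩, hg⟩ s hs
      have hh2 : (φ h) ∈ Subgroup.centralizer ((P.map (QuotientGroup.mk' R) : Subgroup (G ⧸ R)) : Set (G ⧸ R)) := hg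
      rw [Cfsg.Agent.Lib.Coprime.Quotient.centralizer_map_mk_eq R hRp _ hPp] at hh2
      obtain ⟨c, hc, hcφ⟩ := hh2
      have hcφ' : φ c = φ h := hcφ
      have hcH : c ∈ H := hlift c h hcφ' hh
      rw [← hcφ']
      exact map_conj' φ (Subgroup.le_normalizer_iff.mp hBn c ⟨hcH, hc⟩) s hs)
    (Nat.Coprime.coprime_dvd_left (card_map_dvd' φ B) hBq)
  obtain ⟨h1, h2⟩ := key
  apply sup_le
  · rintro x ⟨hxA, hxB⟩
    rw [← hφker]
    have : φ x ∈ A.map φ ⊓ B.map φ := ⟨Subgroup.mem_map_of_mem φ hxA, Subgroup.mem_map_of_mem φ hxB⟩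
    rw [h2] at this
    exact this
  · rw [Subgroup.commutator_le]
    intro a ha u hu
    rw [← hφker]
    have : φ ⁅a, u⁆ ∈ ⁅A.map φ, P.map φ⁆ := by
      rw [map_commutatorElement]
      exact Subgroup.commutator_mem_commutator (Subgroup.mem_map_of_mem φ ha) (Subgroup.mem_map_of_mem φ hu)
    rw [h1] at this
    exact this

end Aux

/-- Let G be a finite group with Sylow p-subgroup P and H = O_{p'}(G), and suppose G = PH and the commutator subgroup [H, P] is solvable. Let q be a prime and z an element of q-power order of C_H(P). Then (O_{q'}(C_H(z)) ∩ O_{q'}(C_H(P))) · [O_{q'}(C_H(z)), P] ≤ O_{q'}(H). -/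
theorem result {G : Type*} [Group G] [Finite G] {p : ℕ} [Fact p.Prime]
    (P : Sylow p G) (hPH : Cfsg.pPrimeCore p G ⊔ (P : Subgroup G) = ⊤)
    (hsol : Group.IsSolvable ↥⁅Cfsg.pPrimeCore p G, (P : Subgroup G)⁆)
    {q : ℕ} [Fact q.Prime] (z : G) (hzH : z ∈ Cfsg.pPrimeCore p G) (hzP : z ∈ Subgroup.centralizer ((P : Subgroup G) : Set G))
    (hz : ∃ k : ℕ, orderOf z = q ^ k) :
    ((Cfsg.pPrimeCore q ↥(Cfsg.pPrimeCore p G ⊓ Subgroup.centralizer ({z} : Set G))).map
        (Cfsg.pPrimeCore p G ⊓ Subgroup.centralizer ({z} : Set G)).subtype ⊓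
      (Cfsg.pPrimeCore q ↥(Cfsg.pPrimeCore p G ⊓ Subgroup.centralizer ((P : Subgroup G) : Set G))).map
        (Cfsg.pPrimeCore p G ⊓ Subgroup.centralizer ((P : Subgroup G) : Set G)).subtype) ⊔
    ⁅(Cfsg.pPrimeCore q ↥(Cfsg.pPrimeCore p G ⊓ Subgroup.centralizer ({z} : Set G))).map
        (Cfsg.pPrimeCore p G ⊓ Subgroup.centralizer ({z} : Set G)).subtype, (P : Subgroup G)⁆ ≤
    (Cfsg.pPrimeCore q ↥(Cfsg.pPrimeCore p G)).map (Cfsg.pPrimeCore p G).subtype := by
  classical
  open Cfsg.Agent.Lib.Core.Basic in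
  haveI hHn : (Cfsg.pPrimeCore p G).Normal := inferInstance
  open Cfsg.Agent.Lib.Core.Basic in
  haveI hK1 : (Cfsg.pPrimeCore q ↥(Cfsg.pPrimeCore p G ⊓ Subgroup.centralizer ({z} : Set G))).Characteristic := inferInstance
  have hPnH : (P : Subgroup G) ≤ Subgroup.normalizer ((Cfsg.pPrimeCore p G ⊓ Subgroup.centralizer ({z} : Set G) : Subgroup G) : Set G) := by
    rw [Subgroup.le_normalizer_iff]
    rintro u hu k ⟨hk1, hk2⟩
    refine ⟨hHn.conj_mem k hk1 u, ?_⟩
    show _ ∈ Subgroup.centralizer ({z} : Set G)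
    have hk2' : k ∈ Subgroup.centralizer ({z} : Set G) := hk2
    rw [Subgroup.mem_centralizer_iff] at hk2'
    rw [Subgroup.mem_centralizer_iff] at hzP ⊢
    intro w hw
    rw [Set.mem_singleton_iff.mp hw]
    have h1 := hk2' z rfl
    have h2 : u * z = z * u := (hzP u hu).symm ▸ rfl
    calc z * (u * k * u⁻¹) = u * z * k * u⁻¹ := by rw [h2]; group
      _ = u * (z * k) * u⁻¹ := by group
      _ = u * (k * z) * u⁻¹ := by rw [h1]
      _ = u * k * (z * u⁻¹) := by group
      _ = u * k * (u⁻¹ * z) := by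
          congr 1
          have : u⁻¹ * (u * z) * u⁻¹ = u⁻¹ * (z * u) * u⁻¹ := by rw [h2]
          simpa [mul_assoc] using this
      _ = u * k * u⁻¹ * z := by group
  apply reduction (p := p) (q := q) (Cfsg.pPrimeCore p G) (P : Subgroup G) _ _ _ hHn
  · have htop : (⊤ : Subgroup G) ≤ Subgroup.normalizer ((Cfsg.pPrimeCore p G : Subgroup G) : Set G) := by
      rw [Subgroup.le_normalizer_iff]
      intro g _ k hk
      exact hHn.conj_mem k hk g
    exact ⟨fun r hr g => char_conj _ _ (htop trivial) hr⟩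
  · exact Subgroup.map_subtype_le _
  · rw [Subgroup.card_map_of_injective (Subgroup.subtype_injective _)]
    exact Cfsg.Agent.Lib.Core.Basic.pPrimeCore_coprime
  · exact Nat.Coprime.coprime_dvd_left (Subgroup.card_dvd_of_le (Subgroup.map_subtype_le _))
      Cfsg.Agent.Lib.Core.Basic.pPrimeCore_coprime
  · intro Y hYH hYn hYq y hy
    have hnorm : (Y.subgroupOf (Cfsg.pPrimeCore p G)).Normal := by
      constructor
      rintro n hn g
      rw [Subgroup.mem_subgroupOf] at hn ⊢
      exact Subgroup.le_normalizer_iff.mp hYn g.1 g.2 _ hn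
    have hc : (Nat.card (Y.subgroupOf (Cfsg.pPrimeCore p G))).Coprime q := by
      rw [Nat.card_congr (Subgroup.subgroupOfEquivOfLe hYH).toEquiv]
      exact hYq
    have h1 := Cfsg.Agent.Lib.Core.Basic.le_pPrimeCore hnorm hc
    exact ⟨⟨y, hYH hy⟩, h1 (by rw [Subgroup.mem_subgroupOf]; exact hy), rfl⟩
  · obtain ⟨n, hn⟩ := IsPGroup.iff_card.mp P.isPGroup'
    rw [hn]
    exact Nat.Coprime.pow_left n (Cfsg.Agent.Lib.Core.Basic.pPrimeCore_coprime (p := p) (G := G)).symm
  · exact P.isPGroup'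
  · exact hsol
  · exact hzH
  · exact hzP
  · obtain ⟨k, hk⟩ := hz
    exact ⟨k, by rw [← hk, pow_orderOf_eq_one]⟩
  · exact Subgroup.map_subtype_le _
  · rw [Subgroup.le_normalizer_iff]
    intro g hg c hc
    exact char_conj _ _ (Subgroup.le_normalizer hg) hc
  · rw [Subgroup.card_map_of_injective (Subgroup.subtype_injective _)]
    exact Cfsg.Agent.Lib.Core.Basic.pPrimeCore_coprime
  · rw [Subgroup.le_normalizer_iff]
    intro g hg c hc
    exact char_conj _ _ (hPnH hg) hc
  · exact Subgroup.map_subtype_le _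
  · rw [Subgroup.le_normalizer_iff]
    intro g hg c hc
    exact char_conj _ _ (Subgroup.le_normalizer hg) hc
  · rw [Subgroup.card_map_of_injective (Subgroup.subtype_injective _)]
    exact Cfsg.Agent.Lib.Core.Basic.pPrimeCore_coprime

end Cfsg.Agent.S3819
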