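import Cfsg.Statements.S3820
import Mathlib

set_option autoImplicit false
open Cfsg

namespace Cfsg.Agent.S3820

theorem map_conj_mul {G : Type*} [Group G] (H : Subgroup G) (a b : G) :
    H.map (MulAut.conj (a * b)).toMonoidHom = (H.map (MulAut.conj b).toMonoidHom).map (MulAut.conj a).toMonoidHom := by
  rw [Subgroup.map_map]
  congr 1
  ext x
  simp [MulAut.conj_apply, mul_assoc]

theorem mem_map_conj {G : Type*} [Group G] (H : Subgroup G) (a x : G) :
    x ∈ H.map (MulAut.conj a).toMonoidHom ↔ a⁻¹ * x * a ∈ H := by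
  constructor
  · rintro ⟨y, hy, rfl⟩
    simpa [MulAut.conj_apply, mul_assoc] using hy
  · intro h
    exact ⟨a⁻¹ * x * a, h, by simp [MulAut.conj_apply, mul_assoc]⟩

/-- Call a subgroup H of G pronormal if H and gHg⁻¹ are conjugate inside ⟨H, gHg⁻¹⟩ for every g ∈ G. Let S ≤ H ≤ G be subgroups of a finite group with S pronormal in G (for instance S a Sylow subgroup). Then H is pronormal in G if and only if H and gHg⁻¹ are conjugate inside ⟨H, gHg⁻¹⟩ for every g ∈ N_G(S). In particular H is pronormal whenever N_G(S) ≤ H. -/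
theorem result {G : Type*} [Group G] [Finite G] (S H : Subgroup G) (hSH : S ≤ H)
    (hS : Cfsg.IsPronormal S) :
    Cfsg.IsPronormal H ↔
      ∀ g ∈ Subgroup.normalizer (S : Set G), ∃ w ∈ H ⊔ H.map (MulAut.conj g).toMonoidHom,
        H.map (MulAut.conj g).toMonoidHom = H.map (MulAut.conj w).toMonoidHom := by
  constructor
  · intro h g _
    exact h g
  · intro h g
    obtain ⟨x, hx, hxS⟩ := hS g
    -- x ∈ J := ⟨H, gHg⁻¹⟩
    set J := H ⊔ H.map (MulAut.conj g).toMonoidHom with hJ
    have hle : S ⊔ S.map (MulAut.conj g).toMonoidHom ≤ J :=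
      sup_le_sup hSH (Subgroup.map_mono hSH)
    have hxJ : x ∈ J := hle hx
    -- n := x⁻¹ g normalizes S
    set n := x⁻¹ * g with hn
    have hnS : n ∈ Subgroup.normalizer (S : Set G) := by
      have hS' : S.map (MulAut.conj n).toMonoidHom = S := by
        rw [hn, map_conj_mul, hxS, ← map_conj_mul, inv_mul_cancel]
        ext y
        rw [mem_map_conj]
        simp
      rw [Subgroup.mem_normalizer_iff]
      intro y
      constructor
      · intro hy
        have : n * y * n⁻¹ ∈ S.map (MulAut.conj n).toMonoidHom := ⟨y, hy, by simp [MulAut.conj_apply]⟩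
        rwa [hS'] at this
      · intro hy
        rw [← hS', mem_map_conj] at hy
        simpa [mul_assoc] using hy
    obtain ⟨w, hw, hwH⟩ := h n hnS
    -- nHn⁻¹ = x⁻¹ gHg⁻¹ x ≤ J
    have hnJ : H.map (MulAut.conj n).toMonoidHom ≤ J := by
      intro y hy
      have hg : x * y * x⁻¹ ∈ H.map (MulAut.conj g).toMonoidHom := by
        rw [mem_map_conj]
        rw [mem_map_conj] at hy
        have : g⁻¹ * (x * y * x⁻¹) * g = n⁻¹ * y * n := by
          simp [hn]; group
        rw [this]; exact hy
      have h1 : x * y * x⁻¹ ∈ J := (le_sup_right : _ ≤ J) hg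
      have : y = x⁻¹ * (x * y * x⁻¹) * x := by group
      rw [this]
      exact J.mul_mem (J.mul_mem (J.inv_mem hxJ) h1) hxJ
    have hwJ : w ∈ J := (sup_le le_sup_left hnJ) hw
    refine ⟨x * w, J.mul_mem hxJ hwJ, ?_⟩
    have hg : g = x * n := by simp [hn]
    rw [map_conj_mul, ← hwH, ← map_conj_mul, ← hg]

end Cfsg.Agent.S3820
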