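import Cfsg.Statements.S3821
import Mathlib

set_option autoImplicit false
open Cfsg

namespace Cfsg.Agent.S3821

theorem map_conj_mul {G : Type*} [Group G] (H : Subgroup G) (a b : G) :
    H.map (MulAut.conj (a * b)).toMonoidHom = (H.map (MulAut.conj b).toMonoidHom).map (MulAut.conj a).toMonoidHom := by
  rw [Subgroup.map_map]
  congr 1
  ext x
  simp [MulAut.conj_apply, mul_assoc]

theorem mem_map_conj {G : Type*} [Group G] (H : Subgroup G) (a x : G) :
    x ∈ H.map (MulAut.conj a).toMonoidHom ↔ a⁻¹ * x * a ∈ H := by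
  constructor
  · rintro ⟨y, hy, rfl⟩
    simpa [MulAut.conj_apply, mul_assoc] using hy
  · intro h
    exact ⟨a⁻¹ * x * a, h, by simp [MulAut.conj_apply, mul_assoc]⟩

theorem map_subtype_conj {G : Type*} [Group G] (A H : Subgroup G) (hHA : H ≤ A) (g : A) :
    ((H.subgroupOf A).map (MulAut.conj g).toMonoidHom).map A.subtype =
      H.map (MulAut.conj (g : G)).toMonoidHom := by
  ext y
  rw [mem_map_conj]
  constructor
  · rintro ⟨z, hz, rfl⟩
    rw [SetLike.mem_coe, mem_map_conj, Subgroup.mem_subgroupOf] at hz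
    simpa using hz
  · intro hy
    have hyA : y ∈ A := by
      have h1 : (g : G)⁻¹ * y * g ∈ A := hHA hy
      have : y = g * ((g : G)⁻¹ * y * g) * (g : G)⁻¹ := by group
      rw [this]
      exact A.mul_mem (A.mul_mem g.2 h1) (A.inv_mem g.2)
    refine ⟨⟨y, hyA⟩, ?_, rfl⟩
    rw [SetLike.mem_coe, mem_map_conj, Subgroup.mem_subgroupOf]
    simpa using hy

theorem mem_normalizer_of_map_eq {G : Type*} [Group G] {H : Subgroup G} {n : G}
    (hS' : H.map (MulAut.conj n).toMonoidHom = H) : n ∈ Subgroup.normalizer (H : Set G) := by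
  rw [Subgroup.mem_normalizer_iff]
  intro y
  constructor
  · intro hy
    have : n * y * n⁻¹ ∈ H.map (MulAut.conj n).toMonoidHom :=
      ⟨y, hy, by simp [MulAut.conj_apply]⟩
    rwa [hS'] at this
  · intro hy
    rw [← hS', mem_map_conj] at hy
    simpa [mul_assoc] using hy

theorem map_eq_of_mem_normalizer {G : Type*} [Group G] {H : Subgroup G} {n : G}
    (hn : n ∈ Subgroup.normalizer (H : Set G)) : H.map (MulAut.conj n).toMonoidHom = H := by
  ext y
  rw [mem_map_conj]
  rw [Subgroup.mem_normalizer_iff] at hn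
  have := hn (n⁻¹ * y * n)
  rw [this]
  simp [mul_assoc]

/-- Let A be a normal subgroup of the finite group G and H a subgroup of A. Then H is pronormal in G (H and gHg⁻¹ conjugate inside ⟨H, gHg⁻¹⟩ for every g ∈ G) if and only if H is pronormal in A and G = A · N_G(H). -/
theorem result {G : Type*} [Group G] [Finite G] (A H : Subgroup G) [A.Normal] (hHA : H ≤ A) :
    Cfsg.IsPronormal H ↔ (Cfsg.IsPronormal (H.subgroupOf A) ∧ A ⊔ Subgroup.normalizer (H : Set G) = ⊤) := by
  have hmapH : (H.subgroupOf A).map A.subtype = H := Subgroup.map_subgroupOf_eq_of_le hHA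
  have hinj : Function.Injective A.subtype := A.subtype_injective
  have hconjle : ∀ g : G, H.map (MulAut.conj g).toMonoidHom ≤ A := by
    intro g y hy
    rw [mem_map_conj] at hy
    have h1 := hHA hy
    have : y = g * (g⁻¹ * y * g) * g⁻¹ := by group
    rw [this]
    exact ‹A.Normal›.conj_mem _ h1 g
  constructor
  · intro h
    constructor
    · intro g
      obtain ⟨x, hx, hxH⟩ := h (g : G)
      have hxA : x ∈ A := (sup_le hHA (hconjle _)) hx
      refine ⟨⟨x, hxA⟩, ?_, ?_⟩
      · have h3 : x ∈ (H.subgroupOf A ⊔ (H.subgroupOf A).map (MulAut.conj g).toMonoidHom).map A.subtype := by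
          rw [Subgroup.map_sup, hmapH, map_subtype_conj A H hHA]
          exact hx
        obtain ⟨y, hy, hyx⟩ := h3
        have : y = ⟨x, hxA⟩ := Subtype.ext hyx
        rw [← this]
        exact hy
      · apply Subgroup.map_injective hinj
        rw [map_subtype_conj A H hHA, map_subtype_conj A H hHA]
        exact hxH
    · rw [eq_top_iff]
      intro g _
      obtain ⟨x, hx, hxH⟩ := h g
      have hxA : x ∈ A := (sup_le hHA (hconjle _)) hx
      have hnN : x⁻¹ * g ∈ Subgroup.normalizer (H : Set G) := by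
        have hS' : H.map (MulAut.conj (x⁻¹ * g)).toMonoidHom = H := by
          rw [map_conj_mul, hxH, ← map_conj_mul, inv_mul_cancel]
          ext y
          rw [mem_map_conj]
          simp
        exact mem_normalizer_of_map_eq hS'
      have : g = x * (x⁻¹ * g) := by group
      rw [this]
      exact Subgroup.mul_mem _ (Subgroup.mem_sup_left hxA) (Subgroup.mem_sup_right hnN)
  · rintro ⟨h1, h2⟩ g
    have hg : g ∈ A ⊔ Subgroup.normalizer (H : Set G) := by rw [h2]; trivial
    rw [Subgroup.mem_sup_of_normal_left] at hg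
    obtain ⟨a, ha, n, hn, rfl⟩ := hg
    have hHn : H.map (MulAut.conj (a * n)).toMonoidHom = H.map (MulAut.conj a).toMonoidHom := by
      rw [map_conj_mul, map_eq_of_mem_normalizer hn]
    obtain ⟨x, hx, hxH⟩ := h1 ⟨a, ha⟩
    refine ⟨x, ?_, ?_⟩
    · have h3 : (x : G) ∈ (H.subgroupOf A ⊔ (H.subgroupOf A).map (MulAut.conj (⟨a, ha⟩ : A)).toMonoidHom).map A.subtype :=
        ⟨x, hx, rfl⟩
      rw [Subgroup.map_sup, hmapH, map_subtype_conj A H hHA] at h3
      rw [hHn]
      exact h3
    · rw [hHn]
      have h3 := congrArg (Subgroup.map A.subtype) hxH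
      rw [map_subtype_conj A H hHA, map_subtype_conj A H hHA] at h3
      exact h3

end Cfsg.Agent.S3821
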