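import Cfsg.Statements.S3822
import Cfsg.Agent.Lib.FGS.KeyClaim
-- import your own Cfsg.Agent.* helpers here

set_option autoImplicit false
open Cfsg

namespace Cfsg.Agent.S3822

/-- Let G be a finite group and P a subgroup of prime order p > 3. Consider the solvable subgroups A of G of the form A = ⟨P, aPa⁻¹⟩ for some a ∈ A, and let A be maximal under inclusion among them. Then for every nilpotent subgroup V of G normalized by A, the subgroup F(A)V generated by the Fitting subgroup of A and V is nilpotent. -/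
theorem result {G : Type*} [Group G] [Finite G]
    {p : ℕ} [Fact p.Prime] (hp : 3 < p) (P : Subgroup G) (hP : Nat.card P = p) (A : Subgroup G)
    (hA : Group.IsSolvable ↥A ∧ ∃ a ∈ A, A = P ⊔ P.map (MulAut.conj a).toMonoidHom)
    (hmax : ∀ B : Subgroup G, A ≤ B → Group.IsSolvable ↥B → (∃ b ∈ B, B = P ⊔ P.map (MulAut.conj b).toMonoidHom) → B = A)
    (V : Subgroup G) (hV : Group.IsNilpotent ↥V) (hAV : A ≤ Subgroup.normalizer (V : Set G)) :
    Group.IsNilpotent ↥((Cfsg.fittingSubgroup ↥A).map A.subtype ⊔ V) := by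
  classical
  obtain ⟨hsol, a, haA, hAeq⟩ := hA
  have hpp : p.Prime := Fact.out
  have hp5 : 5 ≤ p := by
    by_contra h
    have h4 : p = 4 := by omega
    rw [h4] at hpp
    exact absurd hpp (by norm_num)
  let Dq : Nat.Primes → Subgroup G := fun q => (Cfsg.pCore (q : ℕ) ↥A).map A.subtype
  let Wq : Nat.Primes → Subgroup G := fun q => (Cfsg.pCore (q : ℕ) ↥V).map V.subtype
  have hDq : ∀ q : Nat.Primes, IsPGroup (q : ℕ) (Dq q) := by
    intro q
    haveI : Fact (q : ℕ).Prime := ⟨q.2⟩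
    exact Cfsg.Agent.Lib.Core.Basic.pCore_isPGroup.map _
  have hWq : ∀ q : Nat.Primes, IsPGroup (q : ℕ) (Wq q) := by
    intro q
    haveI : Fact (q : ℕ).Prime := ⟨q.2⟩
    exact Cfsg.Agent.Lib.Core.Basic.pCore_isPGroup.map _
  have hDqA : ∀ q, Dq q ≤ A := fun q => Subgroup.map_subtype_le _
  have hDqn : ∀ q, ∀ g ∈ A, ∀ d ∈ Dq q, g * d * g⁻¹ ∈ Dq q := by
    rintro q g hg _ ⟨d, hd, rfl⟩
    have h1 := (Cfsg.pCore_normal (q : ℕ) ↥A).conj_mem d hd ⟨g, hg⟩
    exact ⟨_, h1, rfl⟩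
  have hWqn : ∀ q, A ≤ Subgroup.normalizer (Wq q : Set G) := by
    intro q g hg
    haveI : Fact (q : ℕ).Prime := ⟨q.2⟩
    have hgV : ∀ g ∈ A, ∀ v ∈ V, g * v * g⁻¹ ∈ V := fun g hg v hv =>
      (Subgroup.mem_normalizer_iff.mp (hAV hg) v).mp hv
    have hgV' : ∀ g ∈ A, ∀ v ∈ V, g⁻¹ * v * g ∈ V := fun g hg v hv => by
      have := hgV g⁻¹ (A.inv_mem hg) v hv
      simpa using this
    have hfw : ∀ g ∈ A, ∀ w ∈ Wq q, g * w * g⁻¹ ∈ Wq q := by
      rintro g hg _ ⟨v, hv, rfl⟩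
      let φ : ↥V ≃* ↥V :=
        { toFun := fun v => ⟨g * v * g⁻¹, hgV g hg v v.2⟩
          invFun := fun v => ⟨g⁻¹ * v * g, hgV' g hg v v.2⟩
          left_inv := fun v => Subtype.ext (by
            show g⁻¹ * (g * (v : G) * g⁻¹) * g = v
            group)
          right_inv := fun v => Subtype.ext (by
            show g * (g⁻¹ * (v : G) * g) * g⁻¹ = v
            group)
          map_mul' := fun u v => Subtype.ext (by
            show g * ((u : G) * v) * g⁻¹ = (g * u * g⁻¹) * (g * v * g⁻¹)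
            group) }
      have hc : (Cfsg.pCore (q : ℕ) ↥V).Characteristic := inferInstance
      have h1 : φ v ∈ Cfsg.pCore (q : ℕ) ↥V := by
        have h2 := Subgroup.characteristic_iff_map_eq.mp hc φ
        rw [← h2]
        exact ⟨v, hv, rfl⟩
      exact ⟨_, h1, rfl⟩
    refine Subgroup.mem_normalizer_iff.mpr fun h => ⟨hfw g hg h, fun hh => ?_⟩
    have := hfw g⁻¹ (A.inv_mem hg) _ hh
    simpa [mul_assoc] using this
  have hkey : ∀ q q' : Nat.Primes, q ≠ q' → ∀ t ∈ Wq q, ∀ d ∈ Dq q', t * d = d * t := by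
    intro q q' hne
    haveI : Fact (q : ℕ).Prime := ⟨q.2⟩
    haveI : Fact (q' : ℕ).Prime := ⟨q'.2⟩
    exact Cfsg.Agent.Lib.FGS.KeyClaim.key_claim hp5
      (fun h => hne (Subtype.ext h)) P A hP hsol a haA hAeq hmax (Dq q') (hDqA q') (hDqn q') (hDq q')
      (Wq q) (hWq q) (hWqn q)
  have hDcomm : ∀ q q' : Nat.Primes, q ≠ q' → ∀ d ∈ Dq q, ∀ d' ∈ Dq q', d * d' = d' * d := by
    rintro q q' hne _ ⟨d, hd, rfl⟩ _ ⟨d', hd', rfl⟩
    haveI : Fact (q : ℕ).Prime := ⟨q.2⟩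
    haveI : Fact (q' : ℕ).Prime := ⟨q'.2⟩
    have hdisj : Disjoint (Cfsg.pCore (q : ℕ) ↥A) (Cfsg.pCore (q' : ℕ) ↥A) :=
      IsPGroup.disjoint_of_ne (q : ℕ) (q' : ℕ) (fun h => hne (Subtype.ext h)) _ _
        Cfsg.Agent.Lib.Core.Basic.pCore_isPGroup Cfsg.Agent.Lib.Core.Basic.pCore_isPGroup
    exact congrArg Subtype.val (Subgroup.commute_of_normal_of_disjoint _ _ (Cfsg.pCore_normal _ _)
      (Cfsg.pCore_normal _ _) hdisj d d' hd hd')
  have hWcomm : ∀ q q' : Nat.Primes, q ≠ q' → ∀ d ∈ Wq q, ∀ d' ∈ Wq q', d * d' = d' * d := by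
    rintro q q' hne _ ⟨d, hd, rfl⟩ _ ⟨d', hd', rfl⟩
    haveI : Fact (q : ℕ).Prime := ⟨q.2⟩
    haveI : Fact (q' : ℕ).Prime := ⟨q'.2⟩
    have hdisj : Disjoint (Cfsg.pCore (q : ℕ) ↥V) (Cfsg.pCore (q' : ℕ) ↥V) :=
      IsPGroup.disjoint_of_ne (q : ℕ) (q' : ℕ) (fun h => hne (Subtype.ext h)) _ _
        Cfsg.Agent.Lib.Core.Basic.pCore_isPGroup Cfsg.Agent.Lib.Core.Basic.pCore_isPGroup
    exact congrArg Subtype.val (Subgroup.commute_of_normal_of_disjoint _ _ (Cfsg.pCore_normal _ _)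
      (Cfsg.pCore_normal _ _) hdisj d d' hd hd')
  let R : Nat.Primes → Subgroup G := fun q => Dq q ⊔ Wq q
  have hRp : ∀ q : Nat.Primes, IsPGroup (q : ℕ) (R q) := by
    intro q
    haveI : Fact (q : ℕ).Prime := ⟨q.2⟩
    have h1 := Cfsg.Agent.Lib.Solvable.WielandtHall.card_sup_mul_card_inf_of_le_normalizer
      ((hDqA q).trans (hWqn q))
    obtain ⟨m, hm⟩ := IsPGroup.iff_card.mp (hDq q)
    obtain ⟨n, hn⟩ := IsPGroup.iff_card.mp (hWq q)
    rw [hm, hn, ← pow_add] at h1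
    have h2 : Nat.card (R q) ∣ (q : ℕ) ^ (m + n) := ⟨_, h1.symm⟩
    obtain ⟨k, -, hk⟩ := (Nat.dvd_prime_pow q.2).mp h2
    exact IsPGroup.of_card hk
  have hcomm : ∀ q q' : Nat.Primes, q ≠ q' → ∀ a ∈ R q, ∀ b ∈ R q', a * b = b * a := by
    intro q q' hne a ha b hb
    have hR : R q ≤ Subgroup.centralizer (R q' : Set G) := by
      apply sup_le
      · rw [Subgroup.le_centralizer_iff]
        apply sup_le
        · intro d' hd'
          exact Subgroup.mem_centralizer_iff.mpr fun h hh => hDcomm q q' hne h hh d' hd'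
        · intro w hw
          exact Subgroup.mem_centralizer_iff.mpr fun h hh => (hkey q' q hne.symm w hw h hh).symm
      · rw [Subgroup.le_centralizer_iff]
        apply sup_le
        · intro d' hd'
          exact Subgroup.mem_centralizer_iff.mpr fun h hh => hkey q q' hne h hh d' hd'
        · intro w hw
          exact Subgroup.mem_centralizer_iff.mpr fun h hh => hWcomm q q' hne h hh w hw
    exact (Subgroup.mem_centralizer_iff.mp (hR ha) b hb).symm
  apply Cfsg.Agent.Lib.FGS.KeyClaim.nilpotent_of_parts R hRp hcomm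
  apply sup_le
  · rw [Cfsg.Agent.Lib.Core.Basic.fittingSubgroup_eq_iSup_pCore, Subgroup.map_iSup]
    exact iSup_le fun q => le_trans le_sup_left (le_iSup R q)
  · intro v hv
    haveI := hV
    have h1 : (⟨v, hv⟩ : V) ∈ Cfsg.fittingSubgroup ↥V :=
      (Cfsg.Agent.Lib.Core.Basic.le_fittingSubgroup (N := (⊤ : Subgroup V)) inferInstance inferInstance) trivial
    have h2 : v ∈ (Cfsg.fittingSubgroup ↥V).map V.subtype := ⟨_, h1, rfl⟩
    rw [Cfsg.Agent.Lib.Core.Basic.fittingSubgroup_eq_iSup_pCore, Subgroup.map_iSup] at h2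
    exact (iSup_le fun q => le_trans le_sup_right (le_iSup R q)) h2

end Cfsg.Agent.S3822
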