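import Cfsg.Statements.S3825
import Mathlib.GroupTheory.FixedPointFree
-- import your own Cfsg.Agent.* helpers here

set_option autoImplicit false
open Cfsg

namespace Cfsg.Agent.S3825

/-- Let U be a subgroup of a finite group H and w an involution of H normalizing U and commuting with exactly two elements of U, the identity and y. If V is a non-cyclic elementary abelian 2-subgroup of U containing y which is normal in U and invariant under w, then V is a Sylow 2-subgroup of U, V has order 4, and U/V is abelian. -/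
theorem result {H : Type*} [Group H] [Finite H] (U : Subgroup H) (w : H) (hw : orderOf w = 2)
    (hwU : w ∈ Subgroup.normalizer (U : Set H)) (y : H) (hy : y ≠ 1) (hyU : y ∈ U)
    (hfix : ∀ u ∈ U, w * u * w⁻¹ = u ↔ (u = 1 ∨ u = y))
    (V : Subgroup H) (hVU : V ≤ U) (hVn : (V.subgroupOf U).Normal) (hVw : ∀ v ∈ V, w * v * w⁻¹ ∈ V)
    (hVe : Cfsg.IsElementaryAbelian 2 V) (hVc : ¬ IsCyclic ↥V) (hyV : y ∈ V) :
    ¬ 2 ∣ V.relIndex U ∧ Nat.card ↥V = 4 ∧ ⁅U, U⁆ ≤ V := by
  classical
  have hw2 : w * w = 1 := by rw [← sq, ← hw]; exact pow_orderOf_eq_one w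
  have hwi : w⁻¹ = w := inv_eq_of_mul_eq_one_left hw2
  have hσU : ∀ u ∈ U, w * u * w⁻¹ ∈ U := fun u hu => (Subgroup.mem_normalizer_iff.mp hwU u).mp hu
  obtain ⟨hVcomm, hVexp⟩ := hVe
  have hVc2 : ∀ a ∈ V, ∀ b ∈ V, a * b = b * a := by
    intro a ha b hb
    have := hVcomm.is_comm.comm (⟨a, ha⟩ : V) ⟨b, hb⟩
    exact congrArg Subtype.val this
  have hvinv : ∀ v ∈ V, v⁻¹ = v := fun v hv => inv_eq_of_mul_eq_one_left (by rw [← sq]; exact hVexp v hv)
  have hσσ : ∀ v : H, w * (w * v * w⁻¹) * w⁻¹ = v := by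
    intro v
    rw [hwi]
    calc w * (w * v * w) * w = (w * w) * v * (w * w) := by group
      _ = v := by rw [hw2]; group
  have hσmul : ∀ a b : H, w * (a * b) * w⁻¹ = (w * a * w⁻¹) * (w * b * w⁻¹) := by
    intro a b; group
  -- the map `φ`
  have hfV : ∀ v : V, (v : H) * (w * v * w⁻¹) ∈ V := fun v => mul_mem v.2 (hVw v v.2)
  let φ : V →* V := MonoidHom.mk' (fun v => ⟨(v : H) * (w * v * w⁻¹), hfV v⟩) (by
    intro a b
    apply Subtype.ext
    show ((a : H) * b) * (w * ((a : H) * b) * w⁻¹) = ((a : H) * (w * a * w⁻¹)) * ((b : H) * (w * b * w⁻¹))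
    rw [hσmul]
    have h1 := hVc2 b b.2 (w * a * w⁻¹) (hVw a a.2)
    calc (a : H) * b * ((w * a * w⁻¹) * (w * b * w⁻¹))
        = a * ((b : H) * (w * a * w⁻¹)) * (w * b * w⁻¹) := by group
      _ = a * ((w * a * w⁻¹) * b) * (w * b * w⁻¹) := by rw [h1]
      _ = _ := by group)
  have hφval : ∀ v : V, ((φ v : V) : H) = (v : H) * (w * v * w⁻¹) := fun v => rfl
  set K : Subgroup V := Subgroup.zpowers ⟨y, hyV⟩ with hK
  have hy2 : y ^ 2 = 1 := hVexp y hyV
  have hKc : Nat.card K = 2 := by
    rw [hK, Nat.card_zpowers]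
    apply orderOf_eq_prime
    · apply Subtype.ext
      simpa using hy2
    · intro h
      exact hy (congrArg Subtype.val h)
  have hmemK : ∀ v : V, ((v : H) = 1 ∨ (v : H) = y) → v ∈ K := by
    intro v hv
    rcases hv with hv | hv
    · have : v = 1 := Subtype.ext hv
      rw [this]
      exact one_mem _
    · have : v = ⟨y, hyV⟩ := Subtype.ext hv
      rw [this]
      exact Subgroup.mem_zpowers _
  -- image and kernel are inside `K`
  have hrange : φ.range ≤ K := by
    rintro _ ⟨v, rfl⟩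
    apply hmemK
    rw [hφval]
    apply (hfix _ (hVU (hfV v))).mp
    rw [hσmul, hσσ]
    exact hVc2 _ (hVw v v.2) _ v.2
  have hker : φ.ker ≤ K := by
    intro v hv
    rw [MonoidHom.mem_ker] at hv
    have h1 : (v : H) * (w * v * w⁻¹) = 1 := by
      rw [← hφval, hv]; rfl
    apply hmemK
    apply (hfix _ (hVU v.2)).mp
    have h2 := eq_inv_of_mul_eq_one_right h1
    rw [h2, hvinv _ v.2]
  have hcardV : Nat.card V = 4 := by
    have h1 : Nat.card φ.ker * φ.ker.index = Nat.card V := Subgroup.card_mul_index _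
    have h2 : φ.ker.index = Nat.card φ.range := Subgroup.index_ker φ
    have h3 : Nat.card φ.ker ≤ 2 := hKc ▸ Subgroup.card_le_of_le hker
    have h4 : Nat.card φ.range ≤ 2 := hKc ▸ Subgroup.card_le_of_le hrange
    have hle : Nat.card V ≤ 4 := by
      rw [← h1, h2]
      exact Nat.mul_le_mul h3 h4
    have hpg : IsPGroup 2 V := by
      intro v
      exact ⟨1, by apply Subtype.ext; simpa using hVexp v v.2⟩
    obtain ⟨k, hk⟩ := hpg.exists_card_eq
    have hk2 : k = 2 := by
      have hk3 : k ≤ 2 := by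
        by_contra hcon
        have : 2 ^ 3 ≤ 2 ^ k := Nat.pow_le_pow_right (by norm_num) (by omega)
        rw [← hk] at this
        omega
      interval_cases k
      · exfalso
        apply hVc
        have : Subsingleton V := (Nat.card_eq_one_iff_unique.mp (by simpa using hk)).1
        exact isCyclic_of_subsingleton
      · exfalso
        apply hVc
        have : Fact (Nat.Prime (Nat.card V)) := ⟨by rw [hk, pow_one]; exact Nat.prime_two⟩
        exact isCyclic_of_prime_card rfl
      · rfl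
    rw [hk, hk2]
    norm_num
  -- `φ` hits `y`
  have hsurj : ∃ v : V, (v : H) * (w * v * w⁻¹) = y := by
    by_contra hcon
    push Not at hcon
    have hrb : φ.range = ⊥ := by
      rw [eq_bot_iff]
      rintro _ ⟨v, rfl⟩
      have h1 := (hfix _ (hVU (hfV v))).mp (by rw [hσmul, hσσ]; exact hVc2 _ (hVw v v.2) _ v.2)
      rcases h1 with h1 | h1
      · rw [Subgroup.mem_bot]
        exact Subtype.ext h1
      · exact absurd h1 (hcon v)
    have h1 : Nat.card φ.ker * φ.ker.index = Nat.card V := Subgroup.card_mul_index _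
    have h2 : φ.ker.index = Nat.card φ.range := Subgroup.index_ker φ
    have h3 : Nat.card φ.ker ≤ 2 := hKc ▸ Subgroup.card_le_of_le hker
    rw [h2, hrb, Subgroup.card_bot, mul_one, hcardV] at h1
    omega
  -- invariant cosets contain fixed points
  have hcoset : ∀ u ∈ U, u⁻¹ * (w * u * w⁻¹) ∈ V → u ∈ V := by
    intro u hu hv₀
    set v₀ := u⁻¹ * (w * u * w⁻¹) with hv₀e
    have hu₁ : w * u * w⁻¹ = u * v₀ := by rw [hv₀e]; group
    have h1 : v₀ * (w * v₀ * w⁻¹) = 1 := by
      have h2 := hσσ u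
      rw [hu₁, hσmul, hu₁, mul_assoc] at h2
      exact mul_left_cancel (h2.trans (mul_one u).symm)
    have hfixv₀ : w * v₀ * w⁻¹ = v₀ := by
      have h2 := eq_inv_of_mul_eq_one_right h1
      rw [h2, hvinv _ hv₀]
    have hv₀' := (hfix _ (hVU hv₀)).mp hfixv₀
    obtain ⟨v, hv⟩ : ∃ v : V, (v : H) * (w * v * w⁻¹) = v₀ := by
      rcases hv₀' with h2 | h2
      · exact ⟨1, by simp [h2]⟩
      · rw [h2]
        exact hsurj
    have hσv : (w * (v : H) * w⁻¹) ^ 2 = 1 := hVexp _ (hVw v v.2)
    have hσv' : (w * (v : H) * w⁻¹) * (w * (v : H) * w⁻¹) = 1 := by rwa [← sq]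
    have h3 : w * (u * v) * w⁻¹ = u * v := by
      rw [hσmul, hu₁, ← hv]
      calc u * ((v : H) * (w * v * w⁻¹)) * (w * v * w⁻¹)
          = u * v * ((w * (v : H) * w⁻¹) * (w * (v : H) * w⁻¹)) := by group
        _ = u * v := by rw [hσv']; group
    have h4 := (hfix _ (mul_mem hu (hVU v.2))).mp h3
    have h5 : u * v ∈ V := by
      rcases h4 with h4 | h4
      · rw [h4]; exact one_mem _
      · rw [h4]; exact hyV
    have h6 : u = (u * v) * (v : H)⁻¹ := by group
    rw [h6]
    exact mul_mem h5 (inv_mem v.2)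
  -- the fixed point free involution on the quotient
  let σ : U →* U := MonoidHom.mk' (fun u => ⟨w * u * w⁻¹, hσU u u.2⟩) (by
    intro a b
    apply Subtype.ext
    exact hσmul a b)
  have hσval : ∀ u : U, ((σ u : U) : H) = w * u * w⁻¹ := fun u => rfl
  have hcomap : V.subgroupOf U ≤ (V.subgroupOf U).comap σ := by
    intro u hu
    rw [Subgroup.mem_comap, Subgroup.mem_subgroupOf, hσval]
    exact hVw _ (Subgroup.mem_subgroupOf.mp hu)
  let σq : (U ⧸ V.subgroupOf U) →* (U ⧸ V.subgroupOf U) := QuotientGroup.map _ _ σ hcomap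
  have hσqval : ∀ u : U, σq (u : U ⧸ V.subgroupOf U) = ((σ u : U) : U ⧸ V.subgroupOf U) := fun u => rfl
  have hinv : Function.Involutive σq := by
    intro q
    induction q using QuotientGroup.induction_on with | H u => ?_
    rw [hσqval, hσqval]
    congr 1
    apply Subtype.ext
    exact hσσ u
  have hfpf : MonoidHom.FixedPointFree σq := by
    intro q
    induction q using QuotientGroup.induction_on with | H u => ?_
    intro h1
    rw [hσqval, QuotientGroup.eq] at h1
    rw [QuotientGroup.eq_one_iff, Subgroup.mem_subgroupOf]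
    rw [Subgroup.mem_subgroupOf] at h1
    apply hcoset u u.2
    have h2 : (w * (u : H) * w⁻¹)⁻¹ * u ∈ V := by simpa [hσval] using h1
    have h3 := inv_mem h2
    simpa using h3
  refine ⟨?_, hcardV, ?_⟩
  · have hodd := hfpf.odd_card_of_involutive hinv
    rw [Subgroup.relIndex, Subgroup.index]
    intro h2
    rw [Nat.odd_iff] at hodd
    omega
  · rw [Subgroup.commutator_le]
    intro u₁ hu₁ u₂ hu₂
    have h1 := (hfpf.commute_all_of_involutive hinv ((⟨u₁, hu₁⟩ : U) : U ⧸ V.subgroupOf U)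
      ((⟨u₂, hu₂⟩ : U) : U ⧸ V.subgroupOf U)).eq
    have h2 : (⟨u₁, hu₁⟩ : U) * (⟨u₂, hu₂⟩ : U) * (⟨u₁, hu₁⟩ : U)⁻¹ * (⟨u₂, hu₂⟩ : U)⁻¹ ∈
        V.subgroupOf U := by
      rw [← QuotientGroup.eq_one_iff, QuotientGroup.mk_mul, QuotientGroup.mk_mul,
        QuotientGroup.mk_mul, QuotientGroup.mk_inv, QuotientGroup.mk_inv, h1]
      group
    rw [Subgroup.mem_subgroupOf] at h2
    rw [commutatorElement_def]
    exact h2

end Cfsg.Agent.S3825
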