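import Cfsg.Statements.S3835
import Mathlib
import Cfsg.Agent.Lib.Invol2.QdFree
-- import your own Cfsg.Agent.* helpers here

set_option autoImplicit false
open Cfsg

namespace Cfsg.Agent.S3835

section Aux

open Equiv

theorem perm_comm {p : ℕ} (hp : p.Prime) {P X : Type} [Group P] [Finite P] [Finite X] (ρ : P →* Perm X)
    (hP : IsPGroup p P) (hX : Nat.card X < p ^ 2) (a b : P) : ρ a * ρ b = ρ b * ρ a := by
  classical
  have : Fact p.Prime := ⟨hp⟩
  let _ : MulAction P X := MulAction.compHom X ρ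
  have hsmul : ∀ (g : P) (x : X), g • x = ρ g x := fun _ _ => rfl
  ext z
  have hΩX : Nat.card (MulAction.orbit P z) ≤ Nat.card X :=
    Nat.card_le_card_of_injective _ Subtype.val_injective
  have hΩ : Nat.card (MulAction.orbit P z) ∣ Nat.card P := by
    have h1 := MulAction.index_stabilizer P z
    rw [← Nat.card_coe_set_eq] at h1
    rw [← h1]
    exact Subgroup.index_dvd_card _
  obtain ⟨m, hm⟩ := IsPGroup.iff_card.mp hP
  rw [hm] at hΩ
  obtain ⟨k, -, hk⟩ := (Nat.dvd_prime_pow hp).mp hΩ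
  have hk1 : k < 2 := by
    rw [hk] at hΩX
    exact (Nat.pow_lt_pow_iff_right hp.one_lt).mp (lt_of_le_of_lt hΩX hX)
  have hle : Nat.card (MulAction.orbit P z) ≤ p := by
    rw [hk]
    calc p ^ k ≤ p ^ 1 := Nat.pow_le_pow_right hp.pos (by omega)
      _ = p := pow_one p
  let f := MulAction.toPermHom P (MulAction.orbit P z)
  have hRp : IsPGroup p f.range := IsPGroup.of_surjective hP f.rangeRestrict f.rangeRestrict_surjective
  obtain ⟨j, hj⟩ := IsPGroup.iff_card.mp hRp
  have hRd : Nat.card f.range ∣ p.factorial := by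
    have h1 : Nat.card f.range ∣ Nat.card (Perm (MulAction.orbit P z)) := Subgroup.card_subgroup_dvd_card _
    rw [Nat.card_perm] at h1
    exact h1.trans (Nat.factorial_dvd_factorial hle)
  have hj1 : j < 2 := by
    by_contra hcon
    have h2 : p ^ 2 ∣ p.factorial := by
      refine dvd_trans (pow_dvd_pow p (by omega)) (hj ▸ hRd)
    obtain ⟨e, he⟩ : ∃ e, p = e + 1 := ⟨p - 1, by have := hp.pos; omega⟩
    rw [he, Nat.factorial_succ, ← he, sq] at h2
    have h3 : p ∣ e.factorial := Nat.dvd_of_mul_dvd_mul_left hp.pos h2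
    have h4 := (Nat.Prime.dvd_factorial hp).mp h3
    omega
  have hcomm : f a * f b = f b * f a := by
    have hcases : j = 0 ∨ j = 1 := by omega
    rcases hcases with rfl | rfl
    · have h1 : Nat.card f.range = 1 := by simpa using hj
      have h2 : f.range = ⊥ := Subgroup.eq_bot_of_card_eq _ h1
      have ha : f a = 1 := by
        have : f a ∈ f.range := ⟨a, rfl⟩
        rw [h2] at this
        exact this
      have hb : f b = 1 := by
        have : f b ∈ f.range := ⟨b, rfl⟩
        rw [h2] at this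
        exact this
      rw [ha, hb]
    · have hc : IsCyclic f.range := isCyclic_of_prime_card (p := p) (by simpa using hj)
      let _ := IsCyclic.commGroup (α := f.range)
      have := mul_comm (⟨f a, ⟨a, rfl⟩⟩ : f.range) ⟨f b, ⟨b, rfl⟩⟩
      exact congrArg Subtype.val this
  have h := congrArg (fun g : Perm (MulAction.orbit P z) => (g ⟨z, MulAction.mem_orbit_self z⟩ : MulAction.orbit P z).1) hcomm
  exact h

variable {p : ℕ} [Fact p.Prime]

theorem last_row (M : Matrix.SpecialLinearGroup (Fin 3) (ZMod p)) (hM : M ∈ Cfsg.qd p) :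
    (M : Matrix (Fin 3) (Fin 3) (ZMod p)) 2 0 = 0 ∧ (M : Matrix (Fin 3) (Fin 3) (ZMod p)) 2 1 = 0 ∧
      (M : Matrix (Fin 3) (Fin 3) (ZMod p)) 2 2 = 1 := by
  unfold Cfsg.qd at hM
  induction hM using Subgroup.closure_induction with
  | mem x hx => exact hx
  | one => simp
  | mul x y _ _ hx hy =>
    obtain ⟨h1, h2, h3⟩ := hx
    obtain ⟨k1, k2, k3⟩ := hy
    simp [Matrix.mul_apply, Fin.sum_univ_three, h1, h2, h3, k1, k2, k3]
  | inv x _ hx =>
    obtain ⟨h1, h2, h3⟩ := hx
    have hd : Matrix.det (x : Matrix (Fin 3) (Fin 3) (ZMod p)) = 1 := x.2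
    rw [Matrix.det_fin_three] at hd
    rw [Matrix.SpecialLinearGroup.coe_inv, Matrix.adjugate_fin_three]
    rw [h1, h2, h3] at hd
    refine ⟨?_, ?_, ?_⟩
    · simp [h1, h2, h3]
    · simp [h1, h2, h3]
    · simp [h1, h2, h3]
      linear_combination hd

/-- The affine action on `F_p²`. -/
def actFun (M : Matrix (Fin 3) (Fin 3) (ZMod p)) (x : ZMod p × ZMod p) : ZMod p × ZMod p :=
  (M 0 0 * x.1 + M 0 1 * x.2 + M 0 2, M 1 0 * x.1 + M 1 1 * x.2 + M 1 2)

/-- The affine action of `Qd(p)`. -/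
def qdAction : MulAction (Cfsg.qd p) (ZMod p × ZMod p) where
  smul M x := actFun (M.1 : Matrix (Fin 3) (Fin 3) (ZMod p)) x
  one_smul x := by
    show actFun _ x = x
    ext <;> simp [actFun, Matrix.one_apply]
  mul_smul M N x := by
    show actFun _ x = actFun _ (actFun _ x)
    obtain ⟨k1, k2, k3⟩ := last_row N.1 N.2
    simp only [actFun, Subgroup.coe_mul, Matrix.SpecialLinearGroup.coe_mul]
    ext
    · simp only [Matrix.mul_apply, Fin.sum_univ_three, k1, k2, k3]
      ring
    · simp only [Matrix.mul_apply, Fin.sum_univ_three, k1, k2, k3]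
      ring

/-- The permutation representation. -/
def qdPerm : Cfsg.qd p →* Perm (ZMod p × ZMod p) :=
  letI := qdAction (p := p)
  MulAction.toPermHom (Cfsg.qd p) (ZMod p × ZMod p)

theorem qdPerm_apply (M : Cfsg.qd p) (x : ZMod p × ZMod p) :
    qdPerm M x = actFun (M.1 : Matrix (Fin 3) (Fin 3) (ZMod p)) x := rfl

theorem qdPerm_injective : Function.Injective (qdPerm (p := p)) := by
  rw [injective_iff_map_eq_one]
  intro M hM
  obtain ⟨k1, k2, k3⟩ := last_row M.1 M.2
  have h0 := qdPerm_apply M (0, 0)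
  have h1 := qdPerm_apply M (1, 0)
  have h2 := qdPerm_apply M (0, 1)
  rw [hM] at h0 h1 h2
  simp only [Equiv.Perm.one_apply, actFun, Prod.mk.injEq, mul_zero, mul_one, zero_add, add_zero] at h0 h1 h2
  obtain ⟨a0, a1⟩ := h0
  obtain ⟨b0, b1⟩ := h1
  obtain ⟨c0, c1⟩ := h2
  rw [← a0, add_zero] at b0 c0
  rw [← a1, add_zero] at b1 c1
  apply Subtype.ext
  apply Subtype.ext
  ext i j
  fin_cases i <;> fin_cases j <;> simp [← a0, ← a1, ← b0, ← b1, ← c0, ← c1, k1, k2, k3]

/-- A matrix in `Qd(p)`. -/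
def qdMk (M : Matrix (Fin 3) (Fin 3) (ZMod p)) (hd : M.det = 1) (h1 : M 2 0 = 0) (h2 : M 2 1 = 0)
    (h3 : M 2 2 = 1) : Cfsg.qd p :=
  ⟨⟨M, hd⟩, Subgroup.subset_closure ⟨h1, h2, h3⟩⟩

theorem chi_of_sq (hp : p ≠ 2) (χ : Cfsg.qd p →* ℤˣ) (M : Cfsg.qd p)
    (hM : ((M.1 : Matrix (Fin 3) (Fin 3) (ZMod p)) - 1) * ((M.1 : Matrix (Fin 3) (Fin 3) (ZMod p)) - 1) = 0) :
    χ M = 1 := by
  have hpp : p.Prime := Fact.out
  have hp3 : 2 ≤ p := hpp.two_le
  set A : Matrix (Fin 3) (Fin 3) (ZMod p) := (M.1 : Matrix (Fin 3) (Fin 3) (ZMod p)) with hA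
  set N : Matrix (Fin 3) (Fin 3) (ZMod p) := A - 1 with hN
  have hpow : N ^ p = 0 := by
    obtain ⟨k, rfl⟩ : ∃ k, p = 2 + k := ⟨p - 2, by omega⟩
    rw [pow_add, sq, hM, zero_mul]
  have hA2 : A = N + 1 := by simp [hN]
  have hApow : A ^ p = 1 := by
    rw [hA2]
    have hc : Commute N (1 : Matrix (Fin 3) (Fin 3) (ZMod p)) := Commute.one_right N
    rw [add_pow_char_of_commute p hc, hpow]
    simp
  have hMp : M ^ p = 1 := by
    apply Subtype.ext
    apply Subtype.ext
    simp only [Subgroup.coe_pow, Matrix.SpecialLinearGroup.coe_pow, OneMemClass.coe_one,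
      Matrix.SpecialLinearGroup.coe_one]
    exact hApow
  have h1 : χ M ^ p = 1 := by rw [← map_pow, hMp, map_one]
  have hodd : Odd p := hpp.odd_of_ne_two hp
  rcases Int.units_eq_one_or (χ M) with h | h
  · exact h
  · rw [h, hodd.neg_one_pow] at h1
    exact absurd h1 (by decide)

theorem chi_of_ne (hp : p ≠ 2) (χ : Cfsg.qd p →* ℤˣ) (M : Cfsg.qd p)
    (hc : (M.1 : Matrix (Fin 3) (Fin 3) (ZMod p)) 1 0 ≠ 0) : χ M = 1 := by
  obtain ⟨k1, k2, k3⟩ := last_row M.1 M.2
  set A : Matrix (Fin 3) (Fin 3) (ZMod p) := (M.1 : Matrix (Fin 3) (Fin 3) (ZMod p)) with hA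
  have hd : A.det = 1 := M.1.2
  rw [Matrix.det_fin_three, k1, k2, k3] at hd
  let T : Matrix (Fin 3) (Fin 3) (ZMod p) := !![1, 0, A 0 2; 0, 1, A 1 2; 0, 0, 1]
  let U : ZMod p → Matrix (Fin 3) (Fin 3) (ZMod p) := fun x => !![1, x, 0; 0, 1, 0; 0, 0, 1]
  let L : Matrix (Fin 3) (Fin 3) (ZMod p) := !![1, 0, 0; A 1 0, 1, 0; 0, 0, 1]
  have hTd : T.det = 1 := by simp [T, Matrix.det_fin_three]
  have hUd : ∀ x, (U x).det = 1 := fun x => by simp [U, Matrix.det_fin_three]
  have hLd : L.det = 1 := by simp [L, Matrix.det_fin_three]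
  let T' := qdMk T hTd (by simp [T]) (by simp [T]) (by simp [T])
  let U' : ZMod p → Cfsg.qd p := fun x => qdMk (U x) (hUd x) (by simp [U]) (by simp [U]) (by simp [U])
  let L' := qdMk L hLd (by simp [L]) (by simp [L]) (by simp [L])
  have hT' : χ T' = 1 := chi_of_sq hp χ _ (by
    show (T - 1) * (T - 1) = 0
    ext i j
    fin_cases i <;> fin_cases j <;> simp [T, Matrix.mul_apply, Fin.sum_univ_three, Matrix.one_apply])
  have hU' : ∀ x, χ (U' x) = 1 := fun x => chi_of_sq hp χ _ (by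
    show (U x - 1) * (U x - 1) = 0
    ext i j
    fin_cases i <;> fin_cases j <;> simp [U, Matrix.mul_apply, Fin.sum_univ_three, Matrix.one_apply])
  have hL' : χ L' = 1 := chi_of_sq hp χ _ (by
    show (L - 1) * (L - 1) = 0
    ext i j
    fin_cases i <;> fin_cases j <;> simp [L, Matrix.mul_apply, Fin.sum_univ_three, Matrix.one_apply])
  have hdecomp : M = T' * U' ((A 0 0 - 1) / A 1 0) * L' * U' ((A 1 1 - 1) / A 1 0) := by
    apply Subtype.ext
    apply Subtype.ext
    show A = T * U ((A 0 0 - 1) / A 1 0) * L * U ((A 1 1 - 1) / A 1 0)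
    ext i j
    fin_cases i <;> fin_cases j <;>
      simp [T, U, L, Matrix.mul_apply, Fin.sum_univ_three, k1, k2, k3] <;> field_simp <;>
      first
        | ring1
        | linear_combination (1 : ZMod p) * hd
        | linear_combination (-1 : ZMod p) * hd
        | skip
  rw [hdecomp, map_mul, map_mul, map_mul, hT', hU', hU', hL']
  simp

theorem chi_trivial (hp : p ≠ 2) (χ : Cfsg.qd p →* ℤˣ) (M : Cfsg.qd p) : χ M = 1 := by
  by_cases hc : (M.1 : Matrix (Fin 3) (Fin 3) (ZMod p)) 1 0 = 0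
  · obtain ⟨k1, k2, k3⟩ := last_row M.1 M.2
    set A : Matrix (Fin 3) (Fin 3) (ZMod p) := (M.1 : Matrix (Fin 3) (Fin 3) (ZMod p)) with hA
    have hd : A.det = 1 := M.1.2
    rw [Matrix.det_fin_three, k1, k2, k3, hc] at hd
    have hd1 : A 1 1 ≠ 0 := by
      intro h
      rw [h] at hd
      simp at hd
    let L : Matrix (Fin 3) (Fin 3) (ZMod p) := !![1, 0, 0; 1, 1, 0; 0, 0, 1]
    have hLd : L.det = 1 := by simp [L, Matrix.det_fin_three]
    let L' := qdMk L hLd (by simp [L]) (by simp [L]) (by simp [L])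
    have hL' : χ L' = 1 := chi_of_sq hp χ _ (by
      show (L - 1) * (L - 1) = 0
      ext i j
      fin_cases i <;> fin_cases j <;> simp [L, Matrix.mul_apply, Fin.sum_univ_three, Matrix.one_apply])
    have h1 : χ (M * L') = 1 := by
      apply chi_of_ne hp
      show (A * L) 1 0 ≠ 0
      simpa [L, Matrix.mul_apply, Fin.sum_univ_three, hc] using hd1
    rwa [map_mul, hL', mul_one] at h1
  · exact chi_of_ne hp χ M hc

end Aux

/-- Let p be an odd prime and n a natural number. The alternating group of degree n has a subgroup isomorphic to Qd(p) (the natural semidirect product of an elementary abelian group of order p² by SL₂(p)) if and only if n ≥ p²; and if n < p² then Qd(p) is not even involved in it. -/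
theorem result {p : ℕ} [Fact p.Prime] (hp : p ≠ 2) (n : ℕ) : ((∃ H : Subgroup (alternatingGroup (Fin n)), Nonempty (↥H ≃* ↥(Cfsg.qd p))) ↔ p ^ 2 ≤ n) ∧ (n < p ^ 2 → ¬ Cfsg.Involves ↥(Cfsg.qd p) ↥(alternatingGroup (Fin n))) := by
  have hpp : p.Prime := Fact.out
  have hsecond : n < p ^ 2 → ¬ Cfsg.Involves ↥(Cfsg.qd p) ↥(alternatingGroup (Fin n)) := by
    intro hn
    apply Cfsg.Agent.Lib.Invol2.QdFree.not_involves_of_sylow_comm hp
    intro P
    let ρ : (P : Subgroup (alternatingGroup (Fin n))) →* Equiv.Perm (Fin n) :=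
      (alternatingGroup (Fin n)).subtype.comp (P : Subgroup (alternatingGroup (Fin n))).subtype
    have hρ : Function.Injective ρ :=
      (Subgroup.subtype_injective _).comp (Subgroup.subtype_injective _)
    have hcomm := perm_comm hpp ρ P.2 (by simpa using hn)
    refine ⟨⟨fun a b => hρ ?_⟩⟩
    rw [map_mul, map_mul]
    exact hcomm a b
  refine ⟨⟨?_, ?_⟩, hsecond⟩
  · rintro ⟨H, ⟨e⟩⟩
    by_contra hlt
    push Not at hlt
    apply hsecond hlt
    refine ⟨H, ⊥, ?_, ⟨?_⟩⟩
    · rw [Subgroup.bot_subgroupOf]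
      infer_instance
    · have e1 : (⊥ : Subgroup (alternatingGroup (Fin n))).subgroupOf H = ⊥ := Subgroup.bot_subgroupOf H
      exact (QuotientGroup.quotientMulEquivOfEq e1).trans (QuotientGroup.quotientBot.trans e)
  · intro hle
    classical
    have hcard : Fintype.card (ZMod p × ZMod p) ≤ Fintype.card (Fin n) := by
      simp only [Fintype.card_prod, ZMod.card, Fintype.card_fin]
      rw [← sq]
      exact hle
    obtain ⟨ι⟩ := Function.Embedding.nonempty_of_card_le hcard
    let ψ : Cfsg.qd p →* Equiv.Perm (Fin n) := (Equiv.Perm.viaEmbeddingHom ι).comp qdPerm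
    have hψ : Function.Injective ψ := (Equiv.Perm.viaEmbeddingHom_injective ι).comp qdPerm_injective
    have heven : ∀ M, ψ M ∈ alternatingGroup (Fin n) := by
      intro M
      rw [Equiv.Perm.mem_alternatingGroup]
      exact chi_trivial hp (Equiv.Perm.sign.comp ψ) M
    let ψ' : Cfsg.qd p →* alternatingGroup (Fin n) := ψ.codRestrict _ heven
    have hψ' : Function.Injective ψ' := by
      intro a b hab
      apply hψ
      exact congrArg Subtype.val hab
    exact ⟨ψ'.range, ⟨(MonoidHom.ofInjective hψ').symm⟩⟩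

end Cfsg.Agent.S3835
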