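import Cfsg.Statements.S3836
import Cfsg.Agent.Lib.Core.Basic
-- import your own Cfsg.Agent.* helpers here

set_option autoImplicit false
open Cfsg

namespace Cfsg.Agent.S3836

/-- Let G be a finite group that is p-stable in the normalizer form: for every p-subgroup Q and every x ∈ N_G(Q) with [Q, x, x] = 1, the image of x in N_G(Q)/C_G(Q) lies in O_p(N_G(Q)/C_G(Q)). Then every subgroup of G is p-stable in the same sense. -/
theorem result {G : Type*} [Group G] [Finite G] {p : ℕ} [Fact p.Prime] (hst : Cfsg.IsNormalizerPStable p G) (H : Subgroup G) : Cfsg.IsNormalizerPStable p ↥H := by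
  intro P hP g hg hcomm
  classical
  set P₁ : Subgroup G := P.map H.subtype with hP₁
  have hP₁p : IsPGroup p P₁ := hP.map H.subtype
  have hmem : ∀ x : ↥(Subgroup.normalizer (P : Set H)),
      ((x : H) : G) ∈ Subgroup.normalizer (P₁ : Set G) := by
    intro x
    exact Subgroup.le_normalizer_map H.subtype (Subgroup.mem_map_of_mem _ x.2)
  have hg₁ : ((g : H) : G) ∈ Subgroup.normalizer (P₁ : Set G) := hmem ⟨g, hg⟩
  have hcomm₁ : ⁅⁅P₁, Subgroup.zpowers (g : G)⁆, Subgroup.zpowers (g : G)⁆ = ⊥ := by
    have h1 : Subgroup.zpowers (g : G) = (Subgroup.zpowers g).map H.subtype := by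
      rw [MonoidHom.map_zpowers]
      rfl
    rw [h1, hP₁, ← Subgroup.map_commutator, ← Subgroup.map_commutator, hcomm, Subgroup.map_bot]
  have hst' := hst P₁ hP₁p (g : G) hg₁ hcomm₁
  let f : ↥(Subgroup.normalizer (P : Set H)) →* ↥(Subgroup.normalizer (P₁ : Set G)) :=
    (H.subtype.comp (Subgroup.normalizer (P : Set H)).subtype).codRestrict _ hmem
  have hker : ∀ x : ↥(Subgroup.normalizer (P : Set H)),
      f x ∈ (Subgroup.centralizer (P₁ : Set G)).subgroupOf (Subgroup.normalizer (P₁ : Set G)) ↔
      x ∈ (Subgroup.centralizer (P : Set H)).subgroupOf (Subgroup.normalizer (P : Set H)) := by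
    intro x
    rw [Subgroup.mem_subgroupOf, Subgroup.mem_subgroupOf, Subgroup.mem_centralizer_iff,
      Subgroup.mem_centralizer_iff]
    constructor
    · intro h1 h hh
      apply Subtype.ext
      exact h1 h (Subgroup.mem_map_of_mem _ hh)
    · rintro h1 _ ⟨h, hh, rfl⟩
      exact congrArg Subtype.val (h1 h hh)
  let ψ : (↥(Subgroup.normalizer (P : Set H)) ⧸
        (Subgroup.centralizer (P : Set H)).subgroupOf (Subgroup.normalizer (P : Set H))) →*
      (↥(Subgroup.normalizer (P₁ : Set G)) ⧸
        (Subgroup.centralizer (P₁ : Set G)).subgroupOf (Subgroup.normalizer (P₁ : Set G))) :=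
    QuotientGroup.map _ _ f (fun x hx => (hker x).mpr hx)
  have hψ : Function.Injective ψ := by
    rw [injective_iff_map_eq_one]
    intro q
    induction q using QuotientGroup.induction_on with | H x => ?_
    intro h1
    have h3 : ((f x : ↥(Subgroup.normalizer (P₁ : Set G))) :
        ↥(Subgroup.normalizer (P₁ : Set G)) ⧸
        (Subgroup.centralizer (P₁ : Set G)).subgroupOf (Subgroup.normalizer (P₁ : Set G))) = 1 := h1
    rw [QuotientGroup.eq_one_iff] at h3
    rw [QuotientGroup.eq_one_iff]
    exact (hker x).mp h3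
  have hle : (pCore p _).comap ψ ≤ pCore p _ := by
    apply Cfsg.Agent.Lib.Core.Basic.le_pCore
    · exact Subgroup.Normal.comap inferInstance ψ
    · exact IsPGroup.comap_of_injective Cfsg.Agent.Lib.Core.Basic.pCore_isPGroup ψ hψ
  exact hle hst'

end Cfsg.Agent.S3836
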