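import Cfsg.Statements.S3857
import Mathlib
import Cfsg.Agent.Lib.Core.Basic
import Cfsg.Agent.Lib.Solvable.Fitting
import Cfsg.Agent.Lib.Solvable.Hall
import Cfsg.Agent.Lib.Frobenius.Normal
import Cfsg.Agent.Lib.Coprime.Generation
import Cfsg.Agent.Lib.Coprime.Action
import Cfsg.Agent.Lib.Transfer.Basic
import Cfsg.Agent.Lib.HSubgroup.Sec
import Cfsg.Agent.Lib.PGroups.NormalRankTwo
import Cfsg.Agent.Lib.Signal.Basic
-- import your own Cfsg.Agent.* helpers here

set_option autoImplicit false
open Cfsg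

namespace Cfsg.Agent.S3857

section Aux

open Subgroup Cfsg.Agent.Lib.Core.Basic
open scoped Pointwise

variable {G : Type*} [Group G]

/-- All prime divisors lie in `π`. -/
def PN (π : Set ℕ) (n : ℕ) : Prop := ∀ r : ℕ, r.Prime → r ∣ n → r ∈ π

/-- No prime divisor lies in `π`. -/
def QN (π : Set ℕ) (n : ℕ) : Prop := ∀ r : ℕ, r.Prime → r ∣ n → r ∉ π

theorem coprime_PN_QN {π : Set ℕ} {a b : ℕ} (ha : PN π a) (hb : QN π b) : a.Coprime b :=
  Nat.coprime_of_dvd (fun r hr h1 h2 => hb r hr h2 (ha r hr h1))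

theorem PN.of_dvd {π : Set ℕ} {a b : ℕ} (h : PN π b) (hd : a ∣ b) : PN π a :=
  fun r hr h1 => h r hr (h1.trans hd)

theorem QN.of_dvd {π : Set ℕ} {a b : ℕ} (h : QN π b) (hd : a ∣ b) : QN π a :=
  fun r hr h1 => h r hr (h1.trans hd)

theorem QN.mul {π : Set ℕ} {a b : ℕ} (h : QN π a) (h' : QN π b) : QN π (a * b) := by
  intro r hr h1
  rcases (Nat.Prime.dvd_mul hr).mp h1 with h2 | h2
  · exact h r hr h2
  · exact h' r hr h2

theorem PN.mul {π : Set ℕ} {a b : ℕ} (h : PN π a) (h' : PN π b) : PN π (a * b) := by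
  intro r hr h1
  rcases (Nat.Prime.dvd_mul hr).mp h1 with h2 | h2
  · exact h r hr h2
  · exact h' r hr h2

theorem QN.compl {π : Set ℕ} {a : ℕ} (h : QN π a) : PN πᶜ a := fun r hr h1 => h r hr h1

theorem PN.compl {π : Set ℕ} {a : ℕ} (h : PN π a) : QN πᶜ a := fun r hr h1 h2 => h2 (h r hr h1)

theorem orderOf_PN {π : Set ℕ} [Finite G] {H : Subgroup G} (hH : PN π (Nat.card H)) {x : G} (hx : x ∈ H) :
    PN π (orderOf x) := by
  apply hH.of_dvd
  have := orderOf_dvd_natCard (⟨x, hx⟩ : H)
  simpa using this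

theorem orderOf_QN {π : Set ℕ} [Finite G] {H : Subgroup G} (hH : QN π (Nat.card H)) {x : G} (hx : x ∈ H) :
    QN π (orderOf x) := by
  apply hH.of_dvd
  have := orderOf_dvd_natCard (⟨x, hx⟩ : H)
  simpa using this

/-- The Fitting subgroup is a `π'`-group if `O_π` is trivial. -/
theorem fitting_QN {X : Type*} [Group X] [Finite X] (π : Set ℕ) (h : piCore π X = ⊥) :
    QN π (Nat.card (fittingSubgroup X)) := by
  intro r hr hd hrπ
  have : Fact r.Prime := ⟨hr⟩
  have hnil : Group.IsNilpotent (fittingSubgroup X) := fittingSubgroup_isNilpotent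
  obtain ⟨S⟩ : Nonempty (Sylow r (fittingSubgroup X)) := inferInstance
  have hn : (S : Subgroup (fittingSubgroup X)).Normal :=
    Sylow.normal_of_normalizerCondition (Group.normalizerCondition_of_isNilpotent) S
  have hc : (S : Subgroup (fittingSubgroup X)).Characteristic := Sylow.characteristic_of_normal S hn
  have hT : ((S : Subgroup (fittingSubgroup X)).map (fittingSubgroup X).subtype).Normal :=
    Cfsg.Agent.Lib.Transfer.Basic.map_subtype_normal_of_characteristic _ _
  have hcard : Nat.card ((S : Subgroup (fittingSubgroup X)).map (fittingSubgroup X).subtype) = Nat.card S :=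
    Subgroup.card_map_of_injective (Subgroup.subtype_injective _)
  have hle := le_piCore (π := π) hT (by
    intro q hq hdq
    rw [hcard] at hdq
    obtain ⟨k, hk⟩ := IsPGroup.iff_card.mp S.2
    rw [hk] at hdq
    rwa [(Nat.prime_dvd_prime_iff_eq hq hr).mp (hq.dvd_of_dvd_pow hdq)])
  rw [h, le_bot_iff] at hle
  have hS1 : (S : Subgroup (fittingSubgroup X)) = ⊥ := by
    have := (Subgroup.map_eq_bot_iff_of_injective _ (Subgroup.subtype_injective _)).mp hle
    exact this
  have := S.not_dvd_index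
  rw [hS1, Subgroup.index_bot] at this
  exact this hd

section Main

variable [Finite G] [Group.IsSolvable G] (π : Set ℕ)
  (hmix : ∀ x y : G, x ≠ 1 → y ≠ 1 → PN π (orderOf x) → QN π (orderOf y) → Commute x y → False)

include hmix

omit hmix in
/-- Frattini argument for a normal subgroup with a coprime normal complement-type decomposition. -/
theorem frattini_of_complement {Q K H : Subgroup G} [Q.Normal] [K.Normal] (hQK : Q ≤ K) (hHK : H ≤ K)
    (hc : (Q.subgroupOf K).IsComplement' (H.subgroupOf K))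
    (hcop : (Nat.card (Q.subgroupOf K)).Coprime (Nat.card (H.subgroupOf K))) (g : G) :
    ∃ q ∈ Q, ∃ n ∈ normalizer (H : Set G), g = q * n := by
  classical
  let B : Subgroup G := MulAut.conj g • H
  have hBK : B ≤ K := by
    intro x hx
    have h1 := (Cfsg.Agent.Lib.Coprime.SchurZassenhaus.mem_conj_smul_iff g x H).mp hx
    have h2 := ‹K.Normal›.conj_mem _ (hHK h1) g
    have h3 : g * (g⁻¹ * x * g) * g⁻¹ = x := by group
    rwa [h3] at h2
  have hsolv : Group.IsSolvable (Q.subgroupOf K) := inferInstance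
  have hBc : Nat.card (B.subgroupOf K) = Nat.card (H.subgroupOf K) := by
    rw [Cfsg.Agent.Lib.Coprime.SchurZassenhaus.card_subgroupOf_of_le hBK,
      Cfsg.Agent.Lib.Coprime.SchurZassenhaus.card_subgroupOf_of_le hHK]
    exact Cfsg.Agent.Lib.Coprime.SchurZassenhaus.card_conj_smul g H
  obtain ⟨y, hy⟩ := Cfsg.Agent.Lib.Coprime.SchurZassenhaus.conj_of_card (Q.subgroupOf K) (H.subgroupOf K) (B.subgroupOf K)
    (Or.inl hsolv) hc.card_mul_card hBc hcop
  have hy' : MulAut.conj (y : G) • H = B :=
    Cfsg.Agent.Lib.Coprime.SchurZassenhaus.conj_of_subgroupOf hHK hBK y hy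
  have hn : (y : G)⁻¹ * g ∈ normalizer (H : Set G) := by
    apply Cfsg.Agent.Lib.Coprime.Action.mem_normalizer_of_conj_smul_eq
    rw [Cfsg.Agent.Lib.Coprime.SchurZassenhaus.conj_mul_smul]
    show MulAut.conj (y : G)⁻¹ • B = H
    rw [← hy', ← Cfsg.Agent.Lib.Coprime.SchurZassenhaus.conj_mul_smul]
    simp
  obtain ⟨⟨q, h⟩, hqh⟩ := hc.2 y
  have hqh' : ((q : K) : G) * ((h : K) : G) = (y : G) := congrArg Subtype.val hqh
  refine ⟨q, q.2, (h : G) * ((y : G)⁻¹ * g), ?_, ?_⟩
  · exact (normalizer (H : Set G)).mul_mem (Subgroup.le_normalizer h.2) hn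
  · rw [← hqh']
    group

/-- Abelian subgroups acting fixed point freely are cyclic. -/
theorem ab_cyclic {Q A : Subgroup G} (hQ : PN π (Nat.card Q)) (hQ1 : Q ≠ ⊥) (hA : QN π (Nat.card A))
    (hAQ : A ≤ normalizer (Q : Set G)) (hcomm : IsMulCommutative A) : IsCyclic A := by
  by_contra hnc
  have hcop : (Nat.card A).Coprime (Nat.card Q) := (coprime_PN_QN hQ hA).symm
  have h1 := Cfsg.Agent.Lib.Coprime.Generation.iSup_centralizer_eq hnc hAQ hcop
  apply hQ1
  rw [← h1, eq_bot_iff]
  apply iSup₂_le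
  rintro a ⟨ha, ha1⟩ x ⟨hxQ, hxc⟩
  rw [mem_bot]
  by_contra hx1
  have hxc' : x * a = a * x := by
    have := mem_centralizer_iff.mp hxc a (Set.mem_singleton a)
    exact this.symm
  exact hmix x a hx1 ha1 (orderOf_PN hQ hxQ) (orderOf_QN hA ha) hxc'

/-- The complement is cyclic when it admits a fixed-point-free element of order prime to it. -/
theorem isCyclic_of_fpf {Q H : Subgroup G} (hQ : PN π (Nat.card Q)) (hQ1 : Q ≠ ⊥) (hH : QN π (Nat.card H))
    (hHQ : H ≤ normalizer (Q : Set G)) (hnil : Group.IsNilpotent H) {b : G} (hb1 : b ≠ 1)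
    (hbp : PN π (orderOf b)) (hbH : b ∈ normalizer (H : Set G)) : IsCyclic H := by
  have hab : ∀ A : Subgroup G, A ≤ H → IsMulCommutative A → IsCyclic A := by
    intro A hAH hc
    exact ab_cyclic π hmix hQ hQ1 (hH.of_dvd (Subgroup.card_dvd_of_le hAH)) (hAH.trans hHQ) hc
  have hZ : IsZGroup H := by
    refine ⟨fun ℓ hℓ S => ?_⟩
    have hℓ' : Fact ℓ.Prime := ⟨hℓ⟩
    by_cases hℓ2 : ℓ = 2
    · subst hℓ2
      -- the Sylow `2`-subgroup is trivial
      have hSn : (S : Subgroup H).Normal :=
        Sylow.normal_of_normalizerCondition (Group.normalizerCondition_of_isNilpotent) S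
      have hbot : (⊤ : Subgroup S) = ⊥ := by
        by_contra hne
        obtain ⟨t, -, htc, hto⟩ :=
          Cfsg.Agent.Lib.PGroups.Basic.exists_central_orderOf_eq S.2 (⊤ : Subgroup S) hne
        -- the element of `G`
        let tH : H := (t : H)
        let tG : G := (tH : G)
        have htGo : orderOf tG = 2 := by
          show orderOf ((t : H) : G) = 2
          rw [Subgroup.orderOf_coe, Subgroup.orderOf_coe, hto]
        have htGH : tG ∈ H := tH.2
        -- the conjugate
        have hyH : b * tG * b⁻¹ ∈ H := (mem_normalizer_iff.mp hbH tG).mp htGH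
        have hyo : orderOf (b * tG * b⁻¹) = 2 := by
          rw [← MulAut.conj_apply, MulEquiv.orderOf_eq, htGo]
        let yH : H := ⟨b * tG * b⁻¹, hyH⟩
        have hyHo : orderOf yH = 2 := by
          rw [Subgroup.orderOf_mk, hyo]
        -- it lies in `S`
        have hyS : yH ∈ (S : Subgroup H) := by
          have hz : IsPGroup 2 (zpowers yH) := by
            apply IsPGroup.of_card (n := 1)
            rw [Nat.card_zpowers, hyHo, pow_one]
          obtain ⟨S', hS'⟩ := hz.exists_le_sylow
          obtain ⟨g, hg⟩ := MulAction.exists_smul_eq H S S'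
          have h2 : g • S = S := Sylow.smul_eq_of_normal
          rw [h2] at hg
          rw [← hg] at hS'
          exact hS' (mem_zpowers _)
        -- the subgroup generated by both is commutative
        have hcomm : ∀ x ∈ ({tG, b * tG * b⁻¹} : Set G), ∀ y ∈ ({tG, b * tG * b⁻¹} : Set G), x * y = y * x := by
          have h1 : tG * (b * tG * b⁻¹) = (b * tG * b⁻¹) * tG := by
            have := mem_center_iff.mp htc ⟨yH, hyS⟩
            have h3 := congrArg (fun z : S => ((z : H) : G)) this
            exact h3.symm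
          rintro x (rfl | rfl) y (rfl | rfl)
          · rfl
          · exact h1
          · exact h1.symm
          · rfl
        have hle : closure ({tG, b * tG * b⁻¹} : Set G) ≤ H := by
          rw [closure_le]
          rintro x (rfl | rfl)
          · exact htGH
          · exact hyH
        have hcyc := hab _ hle (Subgroup.isMulCommutative_closure hcomm)
        have htm : (⟨tG, subset_closure (by simp)⟩ : closure ({tG, b * tG * b⁻¹} : Set G)) ∈
            zpowers (⟨b * tG * b⁻¹, subset_closure (by simp)⟩ : closure ({tG, b * tG * b⁻¹} : Set G)) := by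
          have : Fact (Nat.Prime 2) := ⟨Nat.prime_two⟩
          apply Cfsg.Agent.Lib.PGroups.NormalRankTwo.mem_zpowers_of_pow_eq_one (p := 2)
          · rw [Subgroup.orderOf_mk, hyo]
          · apply Subtype.ext
            have := pow_orderOf_eq_one tG
            rw [htGo] at this
            simpa using this
        obtain ⟨k, hk⟩ := htm
        have hk' : (b * tG * b⁻¹) ^ k = tG := congrArg Subtype.val hk
        have hy2 : (b * tG * b⁻¹) ^ 2 = 1 := by
          rw [← hyo]
          exact pow_orderOf_eq_one _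
        have htG1 : tG ≠ 1 := by
          intro h
          rw [h, orderOf_one] at htGo
          omega
        have hfin : b * tG * b⁻¹ = tG := by
          rcases Int.even_or_odd' k with ⟨q, rfl | rfl⟩
          · exfalso
            apply htG1
            rw [← hk', zpow_mul]
            have : (b * tG * b⁻¹) ^ (2 : ℤ) = 1 := by exact_mod_cast hy2
            rw [this, one_zpow]
          · rw [zpow_add, zpow_mul, zpow_one] at hk'
            have : (b * tG * b⁻¹) ^ (2 : ℤ) = 1 := by exact_mod_cast hy2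
            rw [this, one_zpow, one_mul] at hk'
            exact hk'
        have hcomm2 : Commute b tG := by
          show b * tG = tG * b
          calc b * tG = (b * tG * b⁻¹) * b := by group
            _ = tG * b := by rw [hfin]
        exact hmix b tG hb1 htG1 hbp (orderOf_QN hH htGH) hcomm2
      have hsub : Subsingleton S := by
        constructor
        intro a c
        have h1 : a ∈ (⊤ : Subgroup S) := mem_top a
        have h2 : c ∈ (⊤ : Subgroup S) := mem_top c
        rw [hbot, mem_bot] at h1 h2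
        rw [h1, h2]
      infer_instance
    · by_contra hnc
      obtain ⟨E, -, hEe, hEc⟩ :=
        Cfsg.Agent.Lib.PGroups.NormalRankTwo.exists_normal_elementaryAbelian_sq hℓ2 S.2 hnc
      let f : E →* G := H.subtype.comp ((S : Subgroup H).subtype.comp E.subtype)
      have hf : Function.Injective f :=
        (Subgroup.subtype_injective _).comp ((Subgroup.subtype_injective _).comp (Subgroup.subtype_injective _))
      have hle : f.range ≤ H := by
        rintro _ ⟨x, rfl⟩
        exact ((x : S) : H).2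
      have hEcomm := hEe.1
      have hcomm : IsMulCommutative f.range := by
        refine ⟨⟨?_⟩⟩
        rintro ⟨_, x, rfl⟩ ⟨_, y, rfl⟩
        apply Subtype.ext
        show f x * f y = f y * f x
        rw [← map_mul, ← map_mul, mul_comm' x y]
      have hcyc := hab _ hle hcomm
      have hcE : IsCyclic E := isCyclic_of_injective f.rangeRestrict (MonoidHom.rangeRestrict_injective_iff.mpr hf)
      obtain ⟨g, hg⟩ := hcE
      have h1 : orderOf g = ℓ ^ 2 := by
        rw [orderOf_eq_card_of_forall_mem_zpowers hg, hEc]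
      have h2 : g ^ ℓ = 1 := by
        apply Subtype.ext
        exact hEe.2 g.1 g.2
      have h3 := orderOf_dvd_of_pow_eq_one h2
      rw [h1] at h3
      have h4 : ℓ ^ 2 ≤ ℓ := Nat.le_of_dvd hℓ.pos h3
      nlinarith [hℓ.two_le]
  have : Group.IsNilpotent H := hnil
  infer_instance

theorem main_aux (hb : ∃ b : ℕ, b.Prime ∧ b ∉ π ∧ b ∣ Nat.card G) (hQ1 : piCore π G ≠ ⊥) :
    (∃ C : Subgroup G, Cfsg.IsFrobeniusComplement C) ∨
    (∃ (H K : Subgroup G) (_ : H.Normal), K.Normal ∧ H < K ∧
      (∃ C : Subgroup ↥K, Cfsg.IsFrobeniusComplement C ∧ Cfsg.frobeniusKernel C = (H.subgroupOf K : Set ↥K)) ∧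
      (∃ C : Subgroup (G ⧸ H), Cfsg.IsFrobeniusComplement C ∧ Cfsg.frobeniusKernel C = (K.map (QuotientGroup.mk' H) : Set (G ⧸ H)))) := by
  classical
  obtain ⟨Q, hQdef⟩ : ∃ Q, Q = piCore π G := ⟨_, rfl⟩
  have hQn : Q.Normal := by rw [hQdef]; infer_instance
  have hQP : PN π (Nat.card Q) := by
    rw [hQdef]
    exact piCore_prop
  rw [← hQdef] at hQ1
  let mk := QuotientGroup.mk' Q
  have hker : mk.ker = Q := QuotientGroup.ker_mk' Q
  have hmks : Function.Surjective mk := QuotientGroup.mk'_surjective Q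
  have hmk1 : ∀ x : G, mk x = 1 ↔ x ∈ Q := fun x => by rw [← MonoidHom.mem_ker, hker]
  have hO : piCore π (G ⧸ Q) = ⊥ := by
    subst hQdef
    exact piCore_quotient_eq_bot
  obtain ⟨F, hFdef⟩ : ∃ F, F = fittingSubgroup (G ⧸ Q) := ⟨_, rfl⟩
  have hFn : F.Normal := by rw [hFdef]; infer_instance
  have hFQ : QN π (Nat.card F) := by
    rw [hFdef]
    exact fitting_QN π hO
  have hFnil : Group.IsNilpotent F := by
    rw [hFdef]
    exact fittingSubgroup_isNilpotent
  have hFcent : centralizer (F : Set (G ⧸ Q)) ≤ F := by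
    rw [hFdef]
    exact Cfsg.Agent.Lib.Solvable.Fitting.centralizer_fittingSubgroup_le
  have hGcard : Nat.card G = Nat.card (G ⧸ Q) * Nat.card Q := Subgroup.card_eq_card_quotient_mul_card_subgroup Q
  have hnt : Nontrivial (G ⧸ Q) := by
    obtain ⟨b, hb, hbπ, hbd⟩ := hb
    rw [hGcard] at hbd
    rcases (Nat.Prime.dvd_mul hb).mp hbd with h | h
    · by_contra hcon
      rw [not_nontrivial_iff_subsingleton] at hcon
      rw [Nat.card_of_subsingleton (1 : G ⧸ Q)] at h
      exact hb.one_lt.ne' (Nat.dvd_one.mp h)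
    · exact absurd (hQP b hb h) hbπ
  have hF1 : F ≠ ⊥ := by
    intro h
    rw [h] at hFcent
    have h1 : centralizer ((⊥ : Subgroup (G ⧸ Q)) : Set (G ⧸ Q)) = ⊤ := by
      simp
    rw [h1, top_le_iff] at hFcent
    exact bot_ne_top hFcent
  let K : Subgroup G := F.comap mk
  have hKn : K.Normal := hFn.comap mk
  have hQK : Q ≤ K := by
    intro x hx
    show mk x ∈ F
    rw [(hmk1 x).mpr hx]
    exact one_mem _
  have hKc : Nat.card K = Nat.card F * Nat.card Q :=
    Cfsg.Agent.Lib.Solvable.Hall.card_comap_mk' Q F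
  -- the complement
  let Q₁ : Subgroup K := Q.subgroupOf K
  have hQ₁c : Nat.card Q₁ = Nat.card Q := Cfsg.Agent.Lib.Coprime.SchurZassenhaus.card_subgroupOf_of_le hQK
  have hQpos : 0 < Nat.card Q := Nat.card_pos
  have hQ₁i : Q₁.index = Nat.card F := by
    have h1 := Q₁.card_mul_index
    rw [hQ₁c, hKc, mul_comm (Nat.card F)] at h1
    exact Nat.eq_of_mul_eq_mul_left hQpos h1
  have hQ₁n : Q₁.Normal := inferInstance
  have hcop : (Nat.card Q₁).Coprime Q₁.index := by
    rw [hQ₁c, hQ₁i]
    exact coprime_PN_QN hQP hFQ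
  obtain ⟨H₁, hH₁⟩ := Subgroup.exists_right_complement'_of_coprime hcop
  let H : Subgroup G := H₁.map K.subtype
  have hHK : H ≤ K := map_subtype_le _
  have hH₁c : Nat.card H₁ = Nat.card F := by
    have h1 := hH₁.card_mul_card
    have h2 := Q₁.card_mul_index
    rw [← h2] at h1
    rw [← hQ₁i]
    exact Nat.eq_of_mul_eq_mul_left Nat.card_pos h1
  have hHc : Nat.card H = Nat.card F := by
    show Nat.card (H₁.map K.subtype) = _
    rw [Subgroup.card_map_of_injective (subtype_injective K), hH₁c]
  have hHQN : QN π (Nat.card H) := by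
    rw [hHc]
    exact hFQ
  have hcopQH : (Nat.card Q).Coprime (Nat.card H) := coprime_PN_QN hQP hHQN
  have hdisj : Disjoint Q H := disjoint_iff.mpr (Cfsg.Agent.Lib.Coprime.SchurZassenhaus.disjoint_of_coprime_card hcopQH)
  have hH1 : H ≠ ⊥ := by
    intro h
    rw [h, Subgroup.card_bot] at hHc
    exact hF1 (Subgroup.eq_bot_of_card_eq _ hHc.symm)
  have hH₁' : H.subgroupOf K = H₁ := Subgroup.comap_map_eq_self_of_injective (subtype_injective K) H₁
  have hmkinj : ∀ h ∈ H, mk h = 1 → h = 1 := by
    intro h hh h1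
    exact Subgroup.disjoint_def.mp hdisj ((hmk1 h).mp h1) hh
  have hmkH : H.map mk = F := by
    apply Subgroup.eq_of_le_of_card_ge
    · rintro _ ⟨h, hh, rfl⟩
      exact hHK hh
    · rw [← hHc]
      apply le_of_eq
      symm
      apply Cfsg.Agent.Lib.Coprime.SchurZassenhaus.card_map_of_disjoint_ker mk H
      rw [hker, inf_comm]
      exact disjoint_iff.mp hdisj
  have hHnil : Group.IsNilpotent H := by
    have hinj : Function.Injective (mk.comp H.subtype) := by
      intro a c hac
      apply Subtype.ext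
      have h1 : mk ((a : G) * (c : G)⁻¹) = 1 := by
        have : mk (a : G) = mk (c : G) := hac
        rw [map_mul, map_inv, this, mul_inv_cancel]
      have := hmkinj _ (H.mul_mem a.2 (H.inv_mem c.2)) h1
      exact mul_inv_eq_one.mp this
    have hle : ∀ h : H, (mk.comp H.subtype) h ∈ F := fun h => hHK h.2
    let f : H →* F := (mk.comp H.subtype).codRestrict F hle
    have hf : Function.Injective f := by
      intro a c hac
      apply hinj
      exact congrArg Subtype.val hac
    exact Cfsg.Agent.Lib.Core.Basic.isNilpotent_of_injective f hf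
  have hcompl : (Q.subgroupOf K).IsComplement' (H.subgroupOf K) := by
    rw [hH₁']
    exact hH₁
  obtain ⟨N, hNdef⟩ : ∃ N, N = normalizer (H : Set G) := ⟨_, rfl⟩
  have hHN : H ≤ N := by
    rw [hNdef]
    exact Subgroup.le_normalizer
  have hfrat := frattini_of_complement hQK hHK hcompl (by
    rw [hQ₁c, Cfsg.Agent.Lib.Coprime.SchurZassenhaus.card_subgroupOf_of_le hHK]
    exact hcopQH)
  rw [← hNdef] at hfrat
  have hcomm_of : ∀ x ∈ Q, ∀ h ∈ H, Commute x h → x = 1 ∨ h = 1 := by
    intro x hx h hh hc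
    by_contra hcon
    push Not at hcon
    exact hmix x h hcon.1 hcon.2 (orderOf_PN hQP hx) (orderOf_QN hHQN hh) hc
  have hQN : ∀ x ∈ Q, x ∈ N → x = 1 := by
    intro x hx hxN
    obtain ⟨h, hh, hh1⟩ : ∃ h ∈ H, h ≠ 1 := by
      by_contra hcon
      push Not at hcon
      exact hH1 ((Subgroup.eq_bot_iff_forall _).mpr hcon)
    have hc : Commute x h := by
      rw [hNdef] at hxN
      have h1 : x * h * x⁻¹ ∈ H := (mem_normalizer_iff.mp hxN h).mp hh
      have h2 : x * h * x⁻¹ * h⁻¹ ∈ H := H.mul_mem h1 (H.inv_mem hh)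
      have h3 : x * h * x⁻¹ * h⁻¹ ∈ Q := by
        have h4 : h * x⁻¹ * h⁻¹ ∈ Q := hQn.conj_mem _ (Q.inv_mem hx) h
        have h5 : x * (h * x⁻¹ * h⁻¹) ∈ Q := Q.mul_mem hx h4
        convert h5 using 1
        group
      have h6 : x * h * x⁻¹ * h⁻¹ = 1 := Subgroup.disjoint_def.mp hdisj h3 h2
      show x * h = h * x
      have h7 : x * h = (x * h * x⁻¹ * h⁻¹) * (h * x) := by group
      rw [h7, h6, one_mul]
    exact (hcomm_of x hx h hh hc).resolve_right hh1
  have hdisjQN : Disjoint Q N := Subgroup.disjoint_def.mpr (fun {x} hx hxN => hQN x hx hxN)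
  have hmulQN : (Q : Set G) * (N : Set G) = Set.univ := by
    ext g
    simp only [Set.mem_univ, iff_true]
    obtain ⟨q, hq, n, hn, rfl⟩ := hfrat g
    exact Set.mul_mem_mul hq hn
  have hcQN : Q.IsComplement' N := Subgroup.isComplement'_of_disjoint_and_mul_eq_univ hdisjQN hmulQN
  have hN1 : N ≠ ⊥ := by
    intro h
    rw [h] at hHN
    exact hH1 (le_bot_iff.mp hHN)
  by_cases hNQ : QN π (Nat.card N)
  · left
    refine ⟨N, (Cfsg.Agent.Lib.Frobenius.Basic.isFrobeniusComplement_iff_of_isComplement' Q hcQN hQ1 hN1).mpr ?_⟩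
    intro n hn hn1
    rw [eq_bot_iff]
    rintro x ⟨hxQ, hxc⟩
    rw [mem_bot]
    by_contra hx1
    have hc : Commute x n := (mem_centralizer_iff.mp hxc n (Set.mem_singleton n)).symm
    exact hmix x n hx1 hn1 (orderOf_PN hQP hxQ) (orderOf_QN hNQ hn) hc
  · right
    obtain ⟨p, hp, hpd, hpπ⟩ : ∃ p : ℕ, p.Prime ∧ p ∣ Nat.card N ∧ p ∈ π := by
      by_contra hcon
      push Not at hcon
      exact hNQ hcon
    have : Fact p.Prime := ⟨hp⟩
    obtain ⟨b₀, hb₀⟩ := exists_prime_orderOf_dvd_card' p hpd
    let b : G := (b₀ : G)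
    have hbN : b ∈ N := b₀.2
    have hbo : orderOf b = p := by
      show orderOf ((b₀ : N) : G) = p
      rw [Subgroup.orderOf_coe, hb₀]
    have hb1 : b ≠ 1 := by
      intro h
      rw [h, orderOf_one] at hbo
      exact hp.one_lt.ne hbo
    have hbP : PN π (orderOf b) := by
      rw [hbo]
      intro r hr hrd
      rwa [(Nat.prime_dvd_prime_iff_eq hr hp).mp hrd]
    have hHcyc : IsCyclic H := isCyclic_of_fpf π hmix hQP hQ1 hHQN (by
      rw [normalizer_eq_top]
      exact le_top) hHnil hb1 hbP (by rw [← hNdef]; exact hbN)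
    -- elements of `N` centralizing `H` lie in `H`
    have hCNH : ∀ z ∈ N, (∀ h ∈ H, z * h = h * z) → z ∈ H := by
      intro z hzN hz
      have h1 : mk z ∈ centralizer (F : Set (G ⧸ Q)) := by
        rw [mem_centralizer_iff]
        intro y hy
        have hy' : y ∈ H.map mk := by
          rw [hmkH]
          exact hy
        obtain ⟨h, hh, rfl⟩ := hy'
        rw [← map_mul, ← map_mul, hz h hh]
      obtain ⟨h, hh, hhz⟩ : mk z ∈ H.map mk := by
        rw [hmkH]
        exact hFcent h1
      have h2 : z * h⁻¹ ∈ Q := by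
        rw [← hmk1, map_mul, map_inv, ← hhz, mul_inv_cancel]
      have h3 : z * h⁻¹ ∈ N := N.mul_mem hzN (N.inv_mem (hHN hh))
      have h4 := hQN _ h2 h3
      rw [mul_inv_eq_one] at h4
      rw [h4]
      exact hh
    -- `[N, N] ≤ H`
    have hcomm : ∀ x ∈ N, ∀ y ∈ N, x * y * x⁻¹ * y⁻¹ ∈ H := by
      intro x hx y hy
      apply hCNH _ (N.mul_mem (N.mul_mem (N.mul_mem hx hy) (N.inv_mem hx)) (N.inv_mem hy))
      intro h hh
      let φ := H.normalizerMonoidHom
      have hx' : x ∈ normalizer (H : Set G) := by rw [← hNdef]; exact hx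
      have hy' : y ∈ normalizer (H : Set G) := by rw [← hNdef]; exact hy
      let x' : normalizer (H : Set G) := ⟨x, hx'⟩
      let y' : normalizer (H : Set G) := ⟨y, hy'⟩
      have h1 : φ (x' * y' * x'⁻¹ * y'⁻¹) = 1 := by
        rw [map_mul, map_mul, map_mul, map_inv, map_inv,
          Cfsg.Agent.Lib.HSubgroup.Sec.commute_mulAut (φ x') (φ y')]
        group
      have h2 : ((φ (x' * y' * x'⁻¹ * y'⁻¹)) ⟨h, hh⟩ : H) = ⟨h, hh⟩ := by
        rw [h1]
        rfl
      have h3 : x * y * x⁻¹ * y⁻¹ * h * (x * y * x⁻¹ * y⁻¹)⁻¹ = h := congrArg Subtype.val h2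
      exact mul_inv_eq_iff_eq_mul.mp h3
    have hbzN : zpowers b ≤ N := zpowers_le.mpr hbN
    have hNN : N ≤ normalizer (H : Set G) := le_of_eq hNdef
    have hbPa : ∀ a ∈ zpowers b, PN π (orderOf a) := by
      intro a ha
      apply hbP.of_dvd
      have := Subgroup.orderOf_dvd_natCard (zpowers b) ha
      rwa [Nat.card_zpowers] at this
    -- `π'`-elements of `N` lie in `H`
    have hrH : ∀ r ∈ N, QN π (orderOf r) → r ∈ H := by
      intro r hrN hrQ
      by_contra hrH
      let L : Subgroup G := H ⊔ zpowers r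
      have hLN : L ≤ N := sup_le hHN (zpowers_le.mpr hrN)
      have hLQN : QN π (Nat.card L) := by
        have hdvd : Nat.card L ∣ Nat.card H * Nat.card (zpowers r) :=
          Cfsg.Agent.Lib.Signal.Basic.card_sup_dvd_of_le_normalizer (hNN.trans' (zpowers_le.mpr hrN))
        rw [Nat.card_zpowers] at hdvd
        exact (hHQN.mul hrQ).of_dvd hdvd
      have hcopAL : (Nat.card (zpowers b)).Coprime (Nat.card L) := by
        rw [Nat.card_zpowers]
        exact coprime_PN_QN hbP hLQN
      have hNL : ∀ a ∈ N, ∀ x ∈ L, a * x * a⁻¹ ∈ L := by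
        intro a ha x hx
        have h1 := hcomm a ha x (hLN hx)
        have h2 : a * x * a⁻¹ = (a * x * a⁻¹ * x⁻¹) * x := by group
        rw [h2]
        exact L.mul_mem (le_sup_left (a := H) h1) hx
      have hAL : zpowers b ≤ normalizer (L : Set G) := by
        intro a ha
        rw [mem_normalizer_iff]
        intro x
        constructor
        · exact hNL a (hbzN ha) x
        · intro hx
          have h1 := hNL a⁻¹ (N.inv_mem (hbzN ha)) _ hx
          have h2 : a⁻¹ * (a * x * a⁻¹) * a⁻¹⁻¹ = x := by group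
          rwa [h2] at h1
      obtain ⟨c, ⟨hcL, hcC⟩, hrc⟩ := Cfsg.Agent.Lib.Coprime.Action.exists_fixed_of_fixed_mod
        (A := zpowers b) (K := L) H hAL hcopAL (Or.inr inferInstance) le_sup_left (hLN.trans hNN)
        (hbzN.trans hNN) (k := r) (mem_sup_right (mem_zpowers r))
        (fun a ha => hcomm a (hbzN ha) r hrN)
      by_cases hc1 : c = 1
      · apply hrH
        rw [hc1, mul_one] at hrc
        simpa using hrc
      · have hcc : Commute b c := by
          have := mem_centralizer_iff.mp hcC b (mem_zpowers b)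
          exact this
        exact hmix b c hb1 hc1 hbP (orderOf_QN hLQN hcL) hcc
    -- the complement `B`
    let H₂ : Subgroup N := H.subgroupOf N
    have hH₂n : H₂.Normal := Subgroup.normal_subgroupOf_of_le_normalizer hNN
    have hH₂c : Nat.card H₂ = Nat.card H := Cfsg.Agent.Lib.Coprime.SchurZassenhaus.card_subgroupOf_of_le hHN
    have hindPN : PN π H₂.index := by
      intro ℓ hℓ hℓd
      by_contra hℓπ
      have : Fact ℓ.Prime := ⟨hℓ⟩
      obtain ⟨S⟩ : Nonempty (Sylow ℓ N) := inferInstance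
      have hSle : (S : Subgroup N) ≤ H₂ := by
        intro s hs
        show ((s : N) : G) ∈ H
        apply hrH _ s.2
        obtain ⟨k, hk⟩ := (IsPGroup.iff_orderOf.mp S.2) ⟨s, hs⟩
        have hk' : orderOf ((s : N) : G) = ℓ ^ k := by
          rw [Subgroup.orderOf_coe, ← hk]
          exact (Subgroup.orderOf_mk s hs).symm
        rw [hk']
        intro q hq hqd hqπ
        rw [(Nat.prime_dvd_prime_iff_eq hq hℓ).mp (hq.dvd_of_dvd_pow hqd)] at hqπ
        exact hℓπ hqπ
      exact S.not_dvd_index (hℓd.trans (Subgroup.index_dvd_of_le hSle))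
    have hcop₂ : (Nat.card H₂).Coprime H₂.index := by
      rw [hH₂c]
      exact (coprime_PN_QN hindPN hHQN).symm
    obtain ⟨B₂, hB₂⟩ := Subgroup.exists_right_complement'_of_coprime hcop₂
    have hB₂c : Nat.card B₂ = H₂.index := by
      have h1 := hB₂.card_mul_card
      have h2 := H₂.card_mul_index
      rw [← h2] at h1
      exact Nat.eq_of_mul_eq_mul_left Nat.card_pos h1
    let B : Subgroup G := B₂.map N.subtype
    have hBN : B ≤ N := map_subtype_le _
    have hBc : Nat.card B = H₂.index := by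
      show Nat.card (B₂.map N.subtype) = _
      rw [Subgroup.card_map_of_injective (subtype_injective N), hB₂c]
    have hBP : PN π (Nat.card B) := by
      rw [hBc]
      exact hindPN
    have hNcard : Nat.card N = Nat.card H * Nat.card B := by
      rw [hBc, ← hH₂c, H₂.card_mul_index]
    have hB1 : B ≠ ⊥ := by
      intro h
      rw [h, Subgroup.card_bot, mul_one] at hNcard
      rw [hNcard] at hpd
      exact hHQN p hp hpd hpπ
    have hcQ₁ : Q.subgroupOf K ≠ ⊥ := by
      intro h
      have h1 : Nat.card (Q.subgroupOf K) = Nat.card Q := hQ₁c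
      rw [h, Subgroup.card_bot] at h1
      exact hQ1 (Subgroup.eq_bot_of_card_eq _ h1.symm)
    have hcH₁ : H.subgroupOf K ≠ ⊥ := by
      intro h
      have h1 := Cfsg.Agent.Lib.Coprime.SchurZassenhaus.card_subgroupOf_of_le hHK
      rw [h, Subgroup.card_bot] at h1
      exact hH1 (Subgroup.eq_bot_of_card_eq _ h1.symm)
    have hF₁ : Cfsg.IsFrobeniusComplement (H.subgroupOf K) := by
      refine (Cfsg.Agent.Lib.Frobenius.Basic.isFrobeniusComplement_iff_of_isComplement'
        (Q.subgroupOf K) hcompl hcQ₁ hcH₁).mpr ?_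
      intro h hh hh1
      rw [eq_bot_iff]
      rintro x ⟨hxQ, hxc⟩
      rw [mem_bot]
      by_contra hx1
      have hc : Commute (x : G) (h : G) := by
        have := mem_centralizer_iff.mp hxc h (Set.mem_singleton h)
        exact (congrArg Subtype.val this).symm
      have hx1' : (x : G) ≠ 1 := fun e => hx1 (Subtype.ext e)
      have hh1' : (h : G) ≠ 1 := fun e => hh1 (Subtype.ext e)
      exact hmix _ _ hx1' hh1' (orderOf_PN hQP hxQ) (orderOf_QN hHQN hh) hc
    have hKmap : K.map mk = F := Subgroup.map_comap_eq_self_of_surjective hmks F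
    have hBker : B ⊓ mk.ker = ⊥ := by
      rw [hker, eq_bot_iff]
      rintro x ⟨hxB, hxQ⟩
      exact hQN x hxQ (hBN hxB)
    have hC₂c : Nat.card (B.map mk) = Nat.card B :=
      Cfsg.Agent.Lib.Coprime.SchurZassenhaus.card_map_of_disjoint_ker mk B hBker
    have hquot : Nat.card (G ⧸ Q) = Nat.card N := by
      have h1 := hcQN.card_mul_card
      rw [hGcard, mul_comm] at h1
      exact (Nat.eq_of_mul_eq_mul_right hQpos h1).symm
    have hc₂ : F.IsComplement' (B.map mk) := by
      apply Subgroup.isComplement'_of_coprime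
      · rw [hC₂c, hquot, hNcard, hHc]
      · rw [hC₂c, ← hHc]
        exact (coprime_PN_QN hBP hHQN).symm
    have hC₂1 : B.map mk ≠ ⊥ := by
      intro h
      rw [h, Subgroup.card_bot] at hC₂c
      exact hB1 (Subgroup.eq_bot_of_card_eq _ hC₂c.symm)
    have hF₂ : Cfsg.IsFrobeniusComplement (B.map mk) := by
      refine (Cfsg.Agent.Lib.Frobenius.Basic.isFrobeniusComplement_iff_of_isComplement'
        F hc₂ hF1 hC₂1).mpr ?_
      rintro _ ⟨c, hc, rfl⟩ hc1
      rw [eq_bot_iff]
      rintro x ⟨hxF, hxc⟩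
      rw [mem_bot]
      have hx' : x ∈ H.map mk := by
        rw [hmkH]
        exact hxF
      obtain ⟨h, hh, rfl⟩ := hx'
      by_contra hh1
      have hh1' : h ≠ 1 := by
        rintro rfl
        exact hh1 (map_one _)
      have hc1' : c ≠ 1 := by
        rintro rfl
        exact hc1 (map_one _)
      have hcm : mk c * mk h = mk h * mk c := mem_centralizer_iff.mp hxc (mk c) (Set.mem_singleton _)
      have h1 : c * h * c⁻¹ * h⁻¹ ∈ Q := by
        rw [← hmk1, map_mul, map_mul, map_mul, map_inv, map_inv, hcm]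
        group
      have h2 : c * h * c⁻¹ * h⁻¹ ∈ H := by
        have h3 := (mem_normalizer_iff.mp (hNN (hBN hc)) h).mp hh
        exact H.mul_mem h3 (H.inv_mem hh)
      have h4 : c * h * c⁻¹ * h⁻¹ = 1 := Subgroup.disjoint_def.mp hdisj h1 h2
      have hcc : Commute c h := by
        show c * h = h * c
        have h7 : c * h = (c * h * c⁻¹ * h⁻¹) * (h * c) := by group
        rw [h7, h4, one_mul]
      exact hmix c h hc1' hh1' (orderOf_PN hBP hc) (orderOf_QN hHQN hh) hcc
    refine ⟨Q, K, hQn, hKn, ?_, ⟨H.subgroupOf K, hF₁, ?_⟩, ⟨B.map mk, hF₂, ?_⟩⟩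
    · refine lt_of_le_of_ne hQK ?_
      intro hEq
      obtain ⟨h, hh, hh1⟩ : ∃ h ∈ H, h ≠ 1 := by
        by_contra hcon
        push Not at hcon
        exact hH1 ((Subgroup.eq_bot_iff_forall _).mpr hcon)
      exact hh1 (Subgroup.disjoint_def.mp hdisj (by rw [hEq]; exact hHK hh) hh)
    · exact (Cfsg.Agent.Lib.Frobenius.Normal.frobeniusKernel_eq_of_isComplement' hF₁ hcompl).symm
    · rw [hKmap]
      exact (Cfsg.Agent.Lib.Frobenius.Normal.frobeniusKernel_eq_of_isComplement' hF₂ hc₂).symm

end Main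

end Aux

/-- A finite solvable group whose prime graph (prime divisors of the order, two distinct primes joined when there is an element of order their product) is disconnected is a Frobenius group or a 2-Frobenius group (it has normal subgroups H < K with K a Frobenius group with kernel H and G/H a Frobenius group with kernel K/H). -/
theorem result {G : Type*} [Group G] [Finite G] (hsol : Group.IsSolvable G)
    (hdisc : (∃ A : Set ℕ, (∃ a ∈ A, a.Prime ∧ a ∣ Nat.card G) ∧ (∃ b ∉ A, b.Prime ∧ b ∣ Nat.card G) ∧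
      ∀ a ∈ A, ∀ b ∉ A, a.Prime → b.Prime → a ∣ Nat.card G → b ∣ Nat.card G → ¬ ∃ g : G, orderOf g = a * b)) :
    (∃ C : Subgroup G, Cfsg.IsFrobeniusComplement C) ∨
    (∃ (H K : Subgroup G) (_ : H.Normal), K.Normal ∧ H < K ∧
      (∃ C : Subgroup ↥K, Cfsg.IsFrobeniusComplement C ∧ Cfsg.frobeniusKernel C = (H.subgroupOf K : Set ↥K)) ∧
      (∃ C : Subgroup (G ⧸ H), Cfsg.IsFrobeniusComplement C ∧ Cfsg.frobeniusKernel C = (K.map (QuotientGroup.mk' H) : Set (G ⧸ H)))) := by
  classical
  have hsol' : Group.IsSolvable G := hsol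
  obtain ⟨A, ⟨a, haA, ha, had⟩, ⟨b, hbA, hb, hbd⟩, hdis⟩ := hdisc
  have hmixA : ∀ x y : G, x ≠ 1 → y ≠ 1 → PN A (orderOf x) → QN A (orderOf y) → Commute x y → False := by
    intro x y hx hy hxP hyQ hc
    have hxo : orderOf x ≠ 1 := fun h => hx (orderOf_eq_one_iff.mp h)
    have hyo : orderOf y ≠ 1 := fun h => hy (orderOf_eq_one_iff.mp h)
    have hxpos : orderOf x ≠ 0 := (orderOf_pos x).ne'
    have hypos : orderOf y ≠ 0 := (orderOf_pos y).ne'
    let p := (orderOf x).minFac
    let q := (orderOf y).minFac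
    have hp : p.Prime := Nat.minFac_prime hxo
    have hq : q.Prime := Nat.minFac_prime hyo
    have hpA : p ∈ A := hxP p hp (Nat.minFac_dvd _)
    have hqA : q ∉ A := hyQ q hq (Nat.minFac_dvd _)
    have hpq : p.Coprime q := by
      rw [Nat.coprime_primes hp hq]
      intro h
      rw [h] at hpA
      exact hqA hpA
    have hx' : orderOf (x ^ (orderOf x / p)) = p := orderOf_pow_orderOf_div hxpos (Nat.minFac_dvd _)
    have hy' : orderOf (y ^ (orderOf y / q)) = q := orderOf_pow_orderOf_div hypos (Nat.minFac_dvd _)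
    have hc' : Commute (x ^ (orderOf x / p)) (y ^ (orderOf y / q)) := hc.pow_pow _ _
    have hord := hc'.orderOf_mul_eq_mul_orderOf_of_coprime (by rw [hx', hy']; exact hpq)
    rw [hx', hy'] at hord
    exact hdis p hpA q hqA hp hq ((Nat.minFac_dvd _).trans (orderOf_dvd_natCard x))
      ((Nat.minFac_dvd _).trans (orderOf_dvd_natCard y)) ⟨_, hord⟩
  have hmixAc : ∀ x y : G, x ≠ 1 → y ≠ 1 → PN Aᶜ (orderOf x) → QN Aᶜ (orderOf y) → Commute x y → False := by
    intro x y hx hy hxP hyQ hc
    refine hmixA y x hy hx ?_ ?_ hc.symm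
    · intro r hr hd
      by_contra hrA
      exact hyQ r hr hd hrA
    · intro r hr hd hrA
      exact hxP r hr hd hrA
  by_cases h1 : Cfsg.piCore A G = ⊥
  · by_cases h2 : Cfsg.piCore Aᶜ G = ⊥
    · exfalso
      have hF1 := fitting_QN A h1
      have hF2 := fitting_QN Aᶜ h2
      have hcard : Nat.card (Cfsg.fittingSubgroup G) = 1 := by
        by_contra hne
        obtain ⟨r, hr, hrd⟩ := Nat.exists_prime_and_dvd hne
        exact hF2 r hr hrd (hF1 r hr hrd)
      have hbot := Subgroup.eq_bot_of_card_eq _ hcard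
      have hc := Cfsg.Agent.Lib.Solvable.Fitting.centralizer_fittingSubgroup_le (G := G)
      rw [hbot] at hc
      have h3 : Subgroup.centralizer (((⊥ : Subgroup G)) : Set G) = ⊤ := by simp
      rw [h3, top_le_iff] at hc
      have h4 : Nat.card G = 1 := by
        rw [← Subgroup.card_top (G := G), ← hc, Subgroup.card_bot]
      rw [h4] at had
      exact ha.one_lt.ne' (Nat.dvd_one.mp had)
    · exact main_aux Aᶜ hmixAc ⟨a, ha, fun h => h haA, had⟩ h2
  · exact main_aux A hmixA ⟨b, hb, hbA, hbd⟩ h1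

end Cfsg.Agent.S3857
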