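import Cfsg.Statements.S3858
import Cfsg.Agent.Lib.FGS.SylowMax
-- import your own Cfsg.Agent.* helpers here

set_option autoImplicit false
open Cfsg
open Cfsg.Agent.Lib.FGS.SylowMax

namespace Cfsg.Agent.S3858

/-- Let G be a finite group with a normal non-abelian simple subgroup T whose centralizer is trivial (G almost simple with socle T), r a prime and R a Sylow r-subgroup of G meeting T nontrivially. Then R lies in exactly one maximal subgroup of G if and only if G has exactly one conjugacy class of maximal subgroups whose index is prime to r. -/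
theorem result {G : Type*} [Group G] [Finite G] (T : Subgroup G) [T.Normal] (hT : IsSimpleGroup T) (hna : ¬ IsMulCommutative T)
    (hC : Subgroup.centralizer (T : Set G) = ⊥) {r : ℕ} [Fact r.Prime] (R : Sylow r G) (hR0 : (R : Subgroup G) ⊓ T ≠ ⊥) :
    (∃! M : Subgroup G, IsCoatom M ∧ (R : Subgroup G) ≤ M) ↔
      ((∃ M : Subgroup G, IsCoatom M ∧ ¬ r ∣ M.index) ∧
        ∀ M₁ M₂ : Subgroup G, IsCoatom M₁ → ¬ r ∣ M₁.index → IsCoatom M₂ → ¬ r ∣ M₂.index → ∃ g : G, M₂ = M₁.map (MulAut.conj g).toMonoidHom) := by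
  classical
  constructor
  · rintro ⟨M, ⟨hM, hRM⟩, huq⟩
    have hnot : ¬ r ∣ M.index := fun h => R.not_dvd_index (h.trans (Subgroup.index_dvd_of_le hRM))
    refine ⟨⟨M, hM, hnot⟩, ?_⟩
    have key : ∀ M' : Subgroup G, IsCoatom M' → ¬ r ∣ M'.index →
        ∃ x : G, M' = M.map (MulAut.conj x).toMonoidHom := by
      intro M' h1 h2
      obtain ⟨x, hx⟩ := exists_conj_le_of_not_dvd_index h2 R
      refine ⟨x, ?_⟩
      have hco : IsCoatom (M'.map (MulAut.conj x⁻¹).toMonoidHom) := by
        have := ((MulAut.conj x⁻¹).mapSubgroup (G := G)).isCoatom_iff M'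
        exact this.mpr h1
      have hle : (R : Subgroup G) ≤ M'.map (MulAut.conj x⁻¹).toMonoidHom := by
        intro a ha
        refine ⟨x * a * x⁻¹, hx a ha, ?_⟩
        simp [MulAut.conj_apply]
        group
      have h3 := huq _ ⟨hco, hle⟩
      rw [← h3, Subgroup.map_map]
      have e : ((MulAut.conj x).toMonoidHom.comp (MulAut.conj x⁻¹).toMonoidHom) = MonoidHom.id G := by
        ext y
        simp [MulAut.conj_apply]
        group
      rw [e, Subgroup.map_id]
    intro M₁ M₂ h1 h1' h2 h2'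
    obtain ⟨x₁, rfl⟩ := key M₁ h1 h1'
    obtain ⟨x₂, rfl⟩ := key M₂ h2 h2'
    refine ⟨x₂ * x₁⁻¹, ?_⟩
    rw [Subgroup.map_map]
    congr 1
    ext y
    simp [MulAut.conj_apply]
    group
  · rintro ⟨-, hconj⟩
    obtain ⟨M₀, hM₀, hle, -⟩ := exists_coatom_normalizer T hT hna R hR0
    have hRM₀ : (R : Subgroup G) ≤ M₀ := (le_normalizer_self_inf T R).trans hle
    have hnot : ∀ M : Subgroup G, (R : Subgroup G) ≤ M → ¬ r ∣ M.index :=
      fun M hRM h => R.not_dvd_index (h.trans (Subgroup.index_dvd_of_le hRM))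
    refine ⟨M₀, ⟨hM₀, hRM₀⟩, ?_⟩
    rintro M₁ ⟨hM₁, hRM₁⟩
    obtain ⟨g, rfl⟩ := hconj M₀ M₁ hM₀ (hnot _ hRM₀) hM₁ (hnot _ hRM₁)
    have h2 : ((g⁻¹ • R : Sylow r G) : Subgroup G) ≤ M₀ := by
      rw [Sylow.coe_subgroup_smul]
      intro c hc
      rw [Subgroup.mem_pointwise_smul_iff_inv_smul_mem] at hc
      have h3 : g * c * g⁻¹ ∈ (R : Subgroup G) := by
        simpa [MulAut.smul_def, MulAut.conj_apply] using hc
      obtain ⟨m, hm, hme⟩ := hRM₁ h3
      have h4 : m = c := by
        have h5 : g * m * g⁻¹ = g * c * g⁻¹ := by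
          rw [← hme]
          simp [MulAut.conj_apply]
        simpa using h5
      rw [← h4]
      exact hm
    obtain ⟨y, hy, hye⟩ := Cfsg.Agent.Lib.FGS.Product.exists_conj_of_sylow_le hRM₀ h2
    have h5 : (g * y) • R = R := by
      rw [mul_smul, hye, ← mul_smul]
      simp
    have h6 : g * y ∈ Subgroup.normalizer ((R : Subgroup G) : Set G) :=
      Sylow.smul_eq_iff_mem_normalizer.mp h5
    have h7 : g * y ∈ M₀ := hle (le_normalizer_inf_sylow T R h6)
    have h8 : g ∈ M₀ := by
      have := mul_mem h7 (inv_mem hy)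
      simpa using this
    ext x
    constructor
    · rintro ⟨m, hm, rfl⟩
      exact mul_mem (mul_mem h8 hm) (inv_mem h8)
    · intro hx
      refine ⟨g⁻¹ * x * g, mul_mem (mul_mem (inv_mem h8) hx) h8, ?_⟩
      simp [MulAut.conj_apply]
      group

end Cfsg.Agent.S3858
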