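import Cfsg.Statements.S3859
import Cfsg.Agent.Lib.FGS.SylowMax
-- import your own Cfsg.Agent.* helpers here

set_option autoImplicit false
open Cfsg
open Cfsg.Agent.Lib.FGS.SylowMax

namespace Cfsg.Agent.S3859

/-- Let G be a finite group with a normal non-abelian simple subgroup T whose centralizer is trivial (G almost simple with socle T), r a prime and R a Sylow r-subgroup of G meeting T nontrivially. If R lies in exactly one maximal subgroup of G, then G/T is an r-group. -/
theorem result {G : Type*} [Group G] [Finite G] (T : Subgroup G) [T.Normal] (hT : IsSimpleGroup T) (hna : ¬ IsMulCommutative T)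
    (hC : Subgroup.centralizer (T : Set G) = ⊥) {r : ℕ} [Fact r.Prime] (R : Sylow r G) (hR0 : (R : Subgroup G) ⊓ T ≠ ⊥)
    (huniq : ∃! M : Subgroup G, IsCoatom M ∧ (R : Subgroup G) ≤ M) : IsPGroup r (G ⧸ T) := by
  classical
  obtain ⟨M₀, hM₀, hle, hTM₀⟩ := exists_coatom_normalizer T hT hna R hR0
  have hRM₀ : (R : Subgroup G) ≤ M₀ := (le_normalizer_self_inf T R).trans hle
  obtain ⟨M, ⟨hM, hRM⟩, huq⟩ := huniq
  have hM₀M : M₀ = M := huq M₀ ⟨hM₀, hRM₀⟩
  have hsup : (R : Subgroup G) ⊔ T = ⊤ := by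
    by_contra hne
    obtain ⟨M₁, hM₁, hle₁⟩ := (eq_top_or_exists_le_coatom _).resolve_left hne
    have h1 : M₁ = M := huq M₁ ⟨hM₁, le_sup_left.trans hle₁⟩
    apply hTM₀
    rw [hM₀M, ← h1]
    exact le_sup_right.trans hle₁
  intro q
  induction q using QuotientGroup.induction_on with | H g => ?_
  have hg : g ∈ (R : Subgroup G) ⊔ T := by rw [hsup]; exact Subgroup.mem_top _
  rw [← SetLike.mem_coe, Subgroup.mul_normal] at hg
  obtain ⟨u, hu, t, ht, rfl⟩ := Set.mem_mul.mp hg
  obtain ⟨k, hk⟩ := R.2 ⟨u, hu⟩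
  have hk' : u ^ r ^ k = 1 := congrArg Subtype.val hk
  refine ⟨k, ?_⟩
  rw [QuotientGroup.mk_mul, (QuotientGroup.eq_one_iff t).mpr ht, mul_one, ← QuotientGroup.mk_pow, hk']
  rfl

end Cfsg.Agent.S3859
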