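import Cfsg.Statements.S3864
import Cfsg.Agent.Lib.TwoFusion.IndexTwo
import Cfsg.Agent.Lib.TwoFusion.DihKlein
import Cfsg.Agent.Lib.InvolChar.TransferTwo
-- import your own Cfsg.Agent.* helpers here

set_option autoImplicit false
open Cfsg

namespace Cfsg.Agent.S3864

section Aux

open DihedralGroup Subgroup
open Cfsg.Agent.Lib.TwoFusion.DihSylow Cfsg.Agent.Lib.TwoFusion.Dih Cfsg.Agent.Lib.TwoFusion.DihKlein
open Cfsg.Agent.Lib.InvolChar.TransferTwo Cfsg.Agent.Lib.TwoFusion.IndexTwo

variable {m : ℕ}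

/-- Parity in `ZMod m`. -/
def par (hm : 2 ∣ m) : ZMod m →+* ZMod 2 := ZMod.castHom hm (ZMod 2)

/-- Homomorphisms from a dihedral group onto a group of order two. -/
def fh (hm : 2 ∣ m) (u v : ZMod 2) : DihedralGroup m →* Multiplicative (ZMod 2) :=
  MonoidHom.mk' (fun x => match x with
    | r j => Multiplicative.ofAdd (u * par hm j)
    | sr j => Multiplicative.ofAdd (v + u * par hm j)) (by
    intro a b
    cases a with
    | r i =>
      cases b with
      | r j =>
        simp only [r_mul_r, map_add, ← ofAdd_add]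
        congr 1
        generalize par hm i = A
        generalize par hm j = B
        revert u v A B
        decide
      | sr j =>
        simp only [r_mul_sr, map_sub, ← ofAdd_add]
        congr 1
        generalize par hm i = A
        generalize par hm j = B
        revert u v A B
        decide
    | sr i =>
      cases b with
      | r j =>
        simp only [sr_mul_r, map_add, ← ofAdd_add]
        congr 1
        generalize par hm i = A
        generalize par hm j = B
        revert u v A B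
        decide
      | sr j =>
        simp only [sr_mul_sr, map_sub, ← ofAdd_add]
        congr 1
        generalize par hm i = A
        generalize par hm j = B
        revert u v A B
        decide)

theorem fh_r (hm : 2 ∣ m) (u v : ZMod 2) (j : ZMod m) :
    fh hm u v (r j) = Multiplicative.ofAdd (u * par hm j) := rfl

theorem fh_sr (hm : 2 ∣ m) (u v : ZMod 2) (j : ZMod m) :
    fh hm u v (sr j) = Multiplicative.ofAdd (v + u * par hm j) := rfl

theorem mem_ker_r (hm : 2 ∣ m) (u v : ZMod 2) (j : ZMod m) :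
    (r j : DihedralGroup m) ∈ (fh hm u v).ker ↔ u * par hm j = 0 := by
  rw [MonoidHom.mem_ker, fh_r, ofAdd_eq_one]

theorem mem_ker_sr (hm : 2 ∣ m) (u v : ZMod 2) (j : ZMod m) :
    (sr j : DihedralGroup m) ∈ (fh hm u v).ker ↔ v + u * par hm j = 0 := by
  rw [MonoidHom.mem_ker, fh_sr, ofAdd_eq_one]

theorem index_ker_fh (hm : 2 ∣ m) (u v : ZMod 2) (x : DihedralGroup m) (hx : fh hm u v x ≠ 1) :
    (fh hm u v).ker.index = 2 := by
  rw [Subgroup.index_ker]
  have h1 : (fh hm u v).range = ⊤ := by
    rw [eq_top_iff]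
    intro y _
    have key : ∀ a b : Multiplicative (ZMod 2), a ≠ 1 → (b = 1 ∨ b = a) := by decide
    rcases key _ y hx with h | h
    · rw [h]
      exact one_mem _
    · rw [h]
      exact ⟨x, rfl⟩
  rw [h1, Subgroup.card_top]
  simp [Nat.card_eq_fintype_card]

theorem par_one (hm : 2 ∣ m) : par hm 1 = 1 := map_one _

theorem par_half (hm : 2 ∣ m) (h4 : 4 ∣ m) : par hm (half m) = 0 := by
  unfold half
  rw [map_natCast, ZMod.natCast_eq_zero_iff]
  obtain ⟨c, rfl⟩ := h4
  have : 4 * c / 2 = 2 * c := by omega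
  rw [this]
  exact dvd_mul_right _ _

theorem exists_two_mul [NeZero m] (hm : 2 ∣ m) (x : ZMod m) (hx : par hm x = 0) : ∃ c : ZMod m, x = 2 * c := by
  have h1 : ((x.val : ℕ) : ZMod 2) = 0 := by
    rw [ZMod.natCast_val]
    exact hx
  rw [ZMod.natCast_eq_zero_iff] at h1
  obtain ⟨c, hc⟩ := h1
  refine ⟨(c : ZMod m), ?_⟩
  have h2 : ((x.val : ℕ) : ZMod m) = x := ZMod.natCast_zmod_val x
  rw [← h2, hc]
  push_cast
  rfl

theorem sr_conj_of_par [NeZero m] (hm : 2 ∣ m) (i j : ZMod m) (h : par hm i = par hm j) :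
    IsConj (sr i : DihedralGroup m) (sr j) := by
  obtain ⟨c, hc⟩ := exists_two_mul hm (i - j) (by rw [map_sub, h, sub_self])
  refine isConj_iff.mpr ⟨r c, ?_⟩
  rw [conj_r_sr, ← hc]
  congr 1
  ring

theorem par_cases (a : ZMod 2) : a = 0 ∨ a = 1 := by
  revert a
  decide

theorem fh_conj_ne [NeZero m] (hm : 2 ∣ m) (d : DihedralGroup m) (h5 : d * sr 0 * d⁻¹ = sr 1) : False := by
  have h6 := congrArg (fh hm 1 0) h5
  rw [map_mul, map_mul, map_inv, mul_comm (fh hm 1 0 d), mul_inv_cancel_right, fh_sr, fh_sr, par_one] at h6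
  revert h6
  simp only [map_zero]
  decide

theorem z2_eq : ∀ a b : ZMod 2, a + b = 0 → b = a := by decide

theorem comm_r_two {A : Type*} [Group A] (f : DihedralGroup m →* A) (hc : ∀ a b : A, a * b = b * a) (c : ZMod m) :
    f (r (2 * c)) = 1 := by
  have e1 : (r (2 * c) : DihedralGroup m) = r c * sr 0 * (r c)⁻¹ * (sr 0)⁻¹ := by
    simp only [inv_r, inv_sr, r_mul_sr, sr_mul_r, sr_mul_sr]
    congr 1
    ring
  rw [e1, map_mul, map_mul, map_mul, map_inv, map_inv, hc (f (r c)), mul_inv_cancel_right, mul_inv_cancel]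

section G

variable {G : Type*} [Group G] [Finite G]

theorem iota_order (P : Subgroup G) (e : P ≃* DihedralGroup m) (d : DihedralGroup m) :
    orderOf (iota P e d) = orderOf d := orderOf_injective _ (iota_injective P e) d

theorem exists_transfer (P : Sylow 2 G) (e : (P : Subgroup G) ≃* DihedralGroup m)
    [NeZero m] (Q : Subgroup (DihedralGroup m)) (hQ : Q.index = 2) :
    ∃ K : Subgroup G, K.Normal ∧ K.index ∣ 2 ∧ ∀ d : DihedralGroup m, orderOf d = 2 →
      (∀ g : G, ∀ x ∈ Q, g * iota (P : Subgroup G) e d * g⁻¹ ≠ iota (P : Subgroup G) e x) →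
        iota (P : Subgroup G) e d ∉ K := by
  have : Finite (DihedralGroup m) := inferInstance
  set ι := iota (P : Subgroup G) e with hι
  have hinj : Function.Injective ι := iota_injective _ _
  have hrange : (⊤ : Subgroup (DihedralGroup m)).map ι = (P : Subgroup G) := by
    rw [← MonoidHom.range_eq_map, hι, range_iota]
  have hQP : Q.map ι ≤ (P : Subgroup G) := by
    rw [← hrange]
    exact Subgroup.map_mono le_top
  have hQi : (Q.map ι).relIndex (P : Subgroup G) = 2 := by
    rw [← hrange, Subgroup.relIndex_map_map_of_injective _ _ hinj, Subgroup.relIndex_top_right]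
    exact hQ
  obtain ⟨K, hKn, hidx, hexcl⟩ := exists_ker_transfer P (Q.map ι) hQP hQi 1 (by
    intro y _ hy
    have hy1 : y ≠ 1 := fun h => hy (h ▸ one_mem _)
    have h1 := orderOf_pos y
    have h2 : orderOf y ≠ 1 := fun h => hy1 (orderOf_eq_one_iff.mp h)
    simp only [Nat.sub_self, pow_zero]
    omega)
  refine ⟨K, hKn, hidx, ?_⟩
  intro d hd hne
  apply hexcl _ (iota_mem _ _ _) (by rw [iota_order, hd, pow_one])
  rintro g ⟨x, hx, hxe⟩
  exact hne g x hx hxe.symm

theorem order_two_cases [NeZero m] (hev : Even m) (h2 : 2 ≤ m) (x : DihedralGroup m) (hx : orderOf x = 2) :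
    x = r (half m) ∨ ∃ i, x = sr i := by
  apply eq_of_sq hev h2
  · rw [← hx]
    exact pow_orderOf_eq_one x
  · rintro rfl
    rw [orderOf_one] at hx
    omega

theorem orderOf_r_half [NeZero m] (hev : Even m) (h2 : 2 ≤ m) : orderOf (r (half m) : DihedralGroup m) = 2 := by
  have : Fact (Nat.Prime 2) := ⟨Nat.prime_two⟩
  apply orderOf_eq_prime
  · rw [sq, r_mul_r, ← two_mul, two_mul_half hev, r_zero]
  · intro h1
    exact half_ne_zero hev h2 (r.inj (h1.trans r_zero.symm))

variable (P : Sylow 2 G) (e : (P : Subgroup G) ≃* DihedralGroup m)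

theorem conj_sr [NeZero m] (hm : 2 ∣ m) (i j : ZMod m) (h : par hm i = par hm j) :
    IsConj (iota (P : Subgroup G) e (sr i)) (iota (P : Subgroup G) e (sr j)) :=
  MonoidHom.map_isConj _ (sr_conj_of_par hm i j h)

/-- Lemma A: if no reflection is conjugate to the central involution, there is a normal complement. -/
theorem complement_of [NeZero m] (hm : 2 ∣ m) (h2 : 2 ≤ m)
    (hz : ∀ i : ZMod m, ¬ IsConj (iota (P : Subgroup G) e (sr i)) (iota (P : Subgroup G) e (r (half m)))) :
    Cfsg.HasNormalPComplement 2 G := by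
  have hev : Even m := even_iff_two_dvd.mpr hm
  have hinj := iota_injective (P : Subgroup G) e
  obtain ⟨K, hKn, hidx, hexcl⟩ := exists_transfer P e (fh hm 0 1).ker
    (index_ker_fh hm 0 1 (sr 0) (by
      rw [fh_sr, zero_mul, add_zero, Ne, ofAdd_eq_one]
      decide))
  have hK : ∀ i : ZMod m, iota (P : Subgroup G) e (sr i) ∉ K := by
    intro i
    apply hexcl _ (orderOf_sr i)
    intro g x hx heq
    have hox : orderOf x = 2 := by
      rw [← iota_order (P : Subgroup G) e x, ← heq, ← MulAut.conj_apply, MulEquiv.orderOf_eq,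
        iota_order, orderOf_sr]
    rcases order_two_cases hev h2 x hox with rfl | ⟨j, rfl⟩
    · exact hz i (isConj_iff.mpr ⟨g, heq⟩)
    · rw [mem_ker_sr, zero_mul, add_zero] at hx
      exact absurd hx (by decide)
  have hK1 : K.index ≠ 1 := by
    intro h
    rw [Subgroup.index_eq_one] at h
    exact hK 0 (h ▸ Subgroup.mem_top _)
  have hK2 : K.index = 2 := by
    rcases (Nat.dvd_prime Nat.prime_two).1 hidx with h | h
    · exact absurd h hK1
    · exact h
  have : Fact (Nat.Prime 2) := ⟨Nat.prime_two⟩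
  obtain ⟨P'⟩ : Nonempty (Sylow 2 K) := inferInstance
  obtain ⟨f⟩ := sylow_iso P hKn (M := K.subgroupOf (P : Subgroup G)) (fun s => Iff.rfl) P'
  have hrot : ∀ y : K.subgroupOf (P : Subgroup G), e y.1 ∈ rot m := by
    rintro ⟨y, hy⟩
    have hy' : (y : G) ∈ K := hy
    show e y ∈ rot m
    rcases hd : e y with j | j
    · exact mem_rot_r j
    · exfalso
      apply hK j
      have : iota (P : Subgroup G) e (sr j) = (y : G) := by
        rw [← hd]
        simp [iota]
      rw [this]
      exact hy'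
  let φ : K.subgroupOf (P : Subgroup G) →* rot m :=
    ((e : (P : Subgroup G) →* DihedralGroup m).comp (K.subgroupOf (P : Subgroup G)).subtype).codRestrict (rot m) hrot
  have hφ : Function.Injective φ := by
    intro a b hab
    have h1 : e a.1 = e b.1 := congrArg Subtype.val hab
    exact Subtype.ext (e.injective h1)
  have hcycM : IsCyclic (K.subgroupOf (P : Subgroup G)) := by
    have h1 : IsCyclic (rot m) := by
      unfold rot
      infer_instance
    exact isCyclic_of_injective φ hφ
  have hcyc : IsCyclic P' := isCyclic_of_injective f.toMonoidHom f.injective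
  have h1 : Cfsg.HasNormalPComplement 2 K := hasNormalTwoComplement_of_cyclic P' hcyc
  have : K.Normal := hKn
  have h3 : IsPGroup 2 (G ⧸ K) := by
    apply IsPGroup.of_card (n := 1)
    rw [← Subgroup.index_eq_card, hK2, pow_one]
  exact Cfsg.Agent.Lib.Transfer.Basic.hasNormalPComplement_of_normal_of_isPGroup_quotient K h1 h3

/-- A normal complement prevents fusion of the two classes of reflections. -/
theorem no_fusion_of_complement [NeZero m] (hm : 2 ∣ m) (h : Cfsg.HasNormalPComplement 2 G) :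
    ¬ IsConj (iota (P : Subgroup G) e (sr 0)) (iota (P : Subgroup G) e (sr 1)) := by
  have : Fact (Nat.Prime 2) := ⟨Nat.prime_two⟩
  intro hc
  obtain ⟨N, hNn, hN⟩ := Cfsg.Agent.Lib.Transfer.Basic.hasNormalPComplement_iff_forall.mp h P
  have : N.Normal := hNn
  obtain ⟨g, hg⟩ := isConj_iff.mp hc
  have hsup : (P : Subgroup G) ⊔ N = ⊤ := by
    rw [sup_comm]
    exact hN.sup_eq_top
  have hgt : g ∈ (P : Subgroup G) ⊔ N := by rw [hsup]; exact mem_top g
  rw [← SetLike.mem_coe, Subgroup.mul_normal] at hgt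
  obtain ⟨p, hp, n, hn, rfl⟩ := Set.mem_mul.mp hgt
  set ι := iota (P : Subgroup G) e with hι
  obtain ⟨d, rfl⟩ := exists_iota (P : Subgroup G) e hp
  set a := ι (sr 0) with ha
  set b := ι (sr 1) with hb
  -- modulo `N`, the elements `ι d * a * (ι d)⁻¹` and `b` agree
  have h1 : (ι (d * sr 0 * d⁻¹))⁻¹ * b ∈ N := by
    have e1 : b = (ι d * n) * a * (ι d * n)⁻¹ := hg.symm
    have e2 : ι (d * sr 0 * d⁻¹) = ι d * a * (ι d)⁻¹ := by
      simp [ha]
    have e3 : (ι (d * sr 0 * d⁻¹))⁻¹ * b = ι d * ((a⁻¹ * n * a⁻¹⁻¹) * n⁻¹) * (ι d)⁻¹ := by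
      rw [e2, e1]
      group
    rw [e3]
    exact hNn.conj_mem _ (mul_mem (hNn.conj_mem _ hn _) (inv_mem hn)) _
  have h2 : (ι (d * sr 0 * d⁻¹))⁻¹ * b ∈ (P : Subgroup G) := by
    apply mul_mem (inv_mem (iota_mem _ _ _)) (iota_mem _ _ _)
  have h3 : (ι (d * sr 0 * d⁻¹))⁻¹ * b = 1 := by
    have := hN.disjoint
    exact (Subgroup.disjoint_def.mp this) h1 h2
  have h4 : ι (d * sr 0 * d⁻¹) = ι (sr 1) := (inv_mul_eq_one.mp h3)
  have h5 : d * sr 0 * d⁻¹ = sr 1 := iota_injective _ _ h4
  exact fh_conj_ne hm d h5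

/-- Lemma B: a subgroup of index two from a non-fused class of reflections. -/
theorem exists_index_two_of [NeZero m] (hm : 2 ∣ m) (h2 : 2 ≤ m) (i j : ZMod m)
    (h1 : ¬ IsConj (iota (P : Subgroup G) e (sr j)) (iota (P : Subgroup G) e (r (half m))))
    (h3 : ¬ IsConj (iota (P : Subgroup G) e (sr j)) (iota (P : Subgroup G) e (sr i))) :
    ∃ N : Subgroup G, N.Normal ∧ N.index = 2 := by
  have hev : Even m := even_iff_two_dvd.mpr hm
  obtain ⟨K, hKn, hidx, hexcl⟩ := exists_transfer P e (fh hm 1 (par hm i)).ker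
    (index_ker_fh hm 1 (par hm i) (r 1) (by
      rw [fh_r, one_mul, par_one, Ne, ofAdd_eq_one]
      decide))
  have hK : iota (P : Subgroup G) e (sr j) ∉ K := by
    apply hexcl _ (orderOf_sr j)
    intro g x hx heq
    have hox : orderOf x = 2 := by
      rw [← iota_order (P : Subgroup G) e x, ← heq, ← MulAut.conj_apply, MulEquiv.orderOf_eq,
        iota_order, orderOf_sr]
    rcases order_two_cases hev h2 x hox with rfl | ⟨j', rfl⟩
    · exact h1 (isConj_iff.mpr ⟨g, heq⟩)
    · rw [mem_ker_sr, one_mul] at hx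
      exact h3 ((isConj_iff.mpr ⟨g, heq⟩).trans (conj_sr P e hm j' i (z2_eq _ _ hx)))
  have hK1 : K.index ≠ 1 := by
    intro h
    rw [Subgroup.index_eq_one] at h
    exact hK (h ▸ Subgroup.mem_top _)
  refine ⟨K, hKn, ?_⟩
  rcases (Nat.dvd_prime Nat.prime_two).1 hidx with h | h
  · exact absurd h hK1
  · exact h

theorem range_quot (L : Subgroup G) [L.Normal] (hQ : IsPGroup 2 (G ⧸ L)) :
    ((QuotientGroup.mk' L).comp (iota (P : Subgroup G) e)).range = ⊤ := by
  have : Fact (Nat.Prime 2) := ⟨Nat.prime_two⟩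
  have hs := QuotientGroup.mk'_surjective L
  have h1 : (⊤ : Subgroup (G ⧸ L)) = ((P.mapSurjective hs : Sylow 2 (G ⧸ L)) : Subgroup (G ⧸ L)) :=
    (P.mapSurjective hs).is_maximal' (hQ.to_subgroup _) le_top
  rw [MonoidHom.range_comp, range_iota]
  exact h1.symm

/-- Lemma C: no subgroup of index four. -/
theorem no_index_four [NeZero m] (hm : 2 ∣ m) (h4 : 4 ∣ m) (i : ZMod m)
    (hz : IsConj (iota (P : Subgroup G) e (sr i)) (iota (P : Subgroup G) e (r (half m))))
    (L : Subgroup G) (hL : L.Normal) (hi : L.index = 4) : False := by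
  have : L.Normal := hL
  have hcard : Nat.card (G ⧸ L) = 2 ^ 2 := by
    rw [← Subgroup.index_eq_card, hi]
    norm_num
  have hQ : IsPGroup 2 (G ⧸ L) := IsPGroup.of_card hcard
  have hc : ∀ a b : G ⧸ L, a * b = b * a := by
    have : Fact (Nat.Prime 2) := ⟨Nat.prime_two⟩
    have h1 := IsPGroup.isMulCommutative_of_card_eq_prime_sq hcard
    exact fun a b => mul_comm' a b
  set f := (QuotientGroup.mk' L).comp (iota (P : Subgroup G) e) with hf
  have hr := range_quot P e L hQ
  have h2c : ∀ c : ZMod m, f (r (2 * c)) = 1 := fun c => comm_r_two f hc c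
  have hsr : f (sr i) = 1 := by
    obtain ⟨g, hg⟩ := isConj_iff.mp hz
    have h1 : f (r (half m)) = 1 := by
      rw [← two_mul_quarter h4]
      exact h2c _
    have h2 : QuotientGroup.mk' L (iota (P : Subgroup G) e (r (half m))) = 1 := h1
    rw [← hg, map_mul, map_mul, map_inv, hc _ (QuotientGroup.mk' L _)⁻¹, inv_mul_cancel_left] at h2
    exact h2
  have hle : (fh hm 1 (par hm i)).ker ≤ f.ker := by
    intro x hx
    rw [MonoidHom.mem_ker]
    cases x with
    | r j =>
      rw [mem_ker_r, one_mul] at hx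
      obtain ⟨c, rfl⟩ := exists_two_mul hm j hx
      exact h2c c
    | sr j =>
      rw [mem_ker_sr, one_mul] at hx
      have hp : par hm j = par hm i := z2_eq _ _ hx
      obtain ⟨c, hc'⟩ := exists_two_mul hm (j - i) (by rw [map_sub, hp, sub_self])
      have e1 : (sr j : DihedralGroup m) = sr i * r (2 * c) := by
        rw [sr_mul_r, ← hc']
        congr 1
        ring
      rw [e1, map_mul, hsr, h2c, one_mul]
  have hd := Subgroup.index_dvd_of_le hle
  rw [Subgroup.index_ker f, hr, Subgroup.card_top, hcard] at hd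
  have hQi : (fh hm 1 (par hm i)).ker.index = 2 := index_ker_fh hm 1 (par hm i) (r 1) (by
      rw [fh_r, one_mul, par_one, Ne, ofAdd_eq_one]
      decide)
  rw [hQi] at hd
  omega

/-- Lemma D: no subgroup of index two when all involutions are conjugate. -/
theorem no_index_two [NeZero m] (hm : 2 ∣ m) (h4 : 4 ∣ m)
    (hz0 : IsConj (iota (P : Subgroup G) e (sr 0)) (iota (P : Subgroup G) e (r (half m))))
    (hz1 : IsConj (iota (P : Subgroup G) e (sr 1)) (iota (P : Subgroup G) e (r (half m))))
    (L : Subgroup G) (hL : L.Normal) (hi : L.index = 2) : False := by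
  have : L.Normal := hL
  have hcard : Nat.card (G ⧸ L) = 2 := by
    rw [← Subgroup.index_eq_card, hi]
  have hQ : IsPGroup 2 (G ⧸ L) := IsPGroup.of_card (n := 1) (by rw [hcard, pow_one])
  have hc : ∀ a b : G ⧸ L, a * b = b * a := by
    have : Fact (Nat.Prime 2) := ⟨Nat.prime_two⟩
    have h1 : IsCyclic (G ⧸ L) := isCyclic_of_prime_card hcard
    let _ := IsCyclic.commGroup (α := G ⧸ L)
    exact fun a b => mul_comm a b
  set f := (QuotientGroup.mk' L).comp (iota (P : Subgroup G) e) with hf
  have hr := range_quot P e L hQ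
  have h2c : ∀ c : ZMod m, f (r (2 * c)) = 1 := fun c => comm_r_two f hc c
  have h1 : f (r (half m)) = 1 := by
    rw [← two_mul_quarter h4]
    exact h2c _
  have hsr : ∀ i : ZMod m, IsConj (iota (P : Subgroup G) e (sr i)) (iota (P : Subgroup G) e (r (half m))) →
      f (sr i) = 1 := by
    intro i hz
    obtain ⟨g, hg⟩ := isConj_iff.mp hz
    have h2 : QuotientGroup.mk' L (iota (P : Subgroup G) e (r (half m))) = 1 := h1
    rw [← hg, map_mul, map_mul, map_inv, hc _ (QuotientGroup.mk' L _)⁻¹, inv_mul_cancel_left] at h2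
    exact h2
  have hs0 := hsr 0 hz0
  have hs1 := hsr 1 hz1
  have hr1 : f (r 1) = 1 := by
    have e1 : (r 1 : DihedralGroup m) = sr 0 * sr 1 := by
      rw [sr_mul_sr]
      congr 1
      ring
    rw [e1, map_mul, hs0, hs1, one_mul]
  have hrj : ∀ j : ZMod m, f (r j) = 1 := by
    intro j
    rcases par_cases (par hm j) with h | h
    · obtain ⟨c, rfl⟩ := exists_two_mul hm j h
      exact h2c c
    · obtain ⟨c, hc'⟩ := exists_two_mul hm (j - 1) (by rw [map_sub, h, par_one, sub_self])
      have e1 : (r j : DihedralGroup m) = r 1 * r (2 * c) := by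
        rw [r_mul_r, ← hc']
        congr 1
        ring
      rw [e1, map_mul, hr1, h2c, one_mul]
  have htriv : ∀ x, f x = 1 := by
    intro x
    cases x with
    | r j => exact hrj j
    | sr j =>
      have e1 : (sr j : DihedralGroup m) = sr 0 * r j := by
        rw [sr_mul_r, zero_add]
      rw [e1, map_mul, hs0, hrj, one_mul]
  have hbot : f.range = ⊥ := by
    rw [eq_bot_iff]
    rintro _ ⟨x, rfl⟩
    exact htriv x
  rw [hbot] at hr
  have h5 : Nat.card (⊥ : Subgroup (G ⧸ L)) = Nat.card (⊤ : Subgroup (G ⧸ L)) := by rw [hr]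
  rw [Subgroup.card_bot, Subgroup.card_top, hcard] at h5
  omega

theorem classes_eq [NeZero m] (hm : 2 ∣ m) (h2 : 2 ≤ m) :
    {C : ConjClasses G | ∃ g : G, ConjClasses.mk g = C ∧ orderOf g = 2} =
      {ConjClasses.mk (iota (P : Subgroup G) e (r (half m))),
       ConjClasses.mk (iota (P : Subgroup G) e (sr 0)),
       ConjClasses.mk (iota (P : Subgroup G) e (sr 1))} := by
  have hev : Even m := even_iff_two_dvd.mpr hm
  ext C
  simp only [Set.mem_ofPred_eq, Set.mem_insert_iff, Set.mem_singleton_iff]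
  constructor
  · rintro ⟨g, rfl, hg⟩
    have hg2 : g ^ 2 ^ 1 = 1 := by
      rw [pow_one, ← hg]
      exact pow_orderOf_eq_one g
    obtain ⟨c, hc⟩ := exists_conj_into P hg2
    obtain ⟨d, hd⟩ := exists_iota (P : Subgroup G) e hc
    have hod : orderOf d = 2 := by
      rw [← iota_order (P : Subgroup G) e d, hd, ← MulAut.conj_apply, MulEquiv.orderOf_eq, hg]
    have hconj : IsConj g (iota (P : Subgroup G) e d) := by
      rw [hd]
      exact isConj_iff.mpr ⟨c, rfl⟩
    rw [ConjClasses.mk_eq_mk_iff_isConj.mpr hconj]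
    rcases order_two_cases hev h2 d hod with rfl | ⟨i, rfl⟩
    · exact Or.inl rfl
    · rcases par_cases (par hm i) with h | h
      · right
        left
        exact ConjClasses.mk_eq_mk_iff_isConj.mpr (conj_sr P e hm i 0 (by rw [h, map_zero]))
      · right
        right
        exact ConjClasses.mk_eq_mk_iff_isConj.mpr (conj_sr P e hm i 1 (by rw [h, par_one]))
  · rintro (rfl | rfl | rfl)
    · exact ⟨_, rfl, by rw [iota_order, orderOf_r_half hev h2]⟩
    · exact ⟨_, rfl, by rw [iota_order, orderOf_sr]⟩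
    · exact ⟨_, rfl, by rw [iota_order, orderOf_sr]⟩

include P e in
theorem main_aux [NeZero m] (h4 : 4 ∣ m) :
    (Nat.card {C : ConjClasses G // ∃ g : G, ConjClasses.mk g = C ∧ orderOf g = 2} = 1 ∧
        ∀ N : Subgroup G, N.Normal → N.index ≠ 2) ∨
      (Nat.card {C : ConjClasses G // ∃ g : G, ConjClasses.mk g = C ∧ orderOf g = 2} = 2 ∧
        (∃ N : Subgroup G, N.Normal ∧ N.index = 2) ∧ ∀ N : Subgroup G, N.Normal → N.index ≠ 4) ∨
      (Nat.card {C : ConjClasses G // ∃ g : G, ConjClasses.mk g = C ∧ orderOf g = 2} = 3 ∧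
        Cfsg.HasNormalPComplement 2 G) := by
  have hm : 2 ∣ m := dvd_trans (by norm_num) h4
  have h2 : 2 ≤ m := by
    have := Nat.le_of_dvd (Nat.pos_of_ne_zero (NeZero.ne m)) h4
    omega
  have hT : Nat.card {C : ConjClasses G // ∃ g : G, ConjClasses.mk g = C ∧ orderOf g = 2} =
      ({ConjClasses.mk (iota (P : Subgroup G) e (r (half m))),
       ConjClasses.mk (iota (P : Subgroup G) e (sr 0)),
       ConjClasses.mk (iota (P : Subgroup G) e (sr 1))} : Set (ConjClasses G)).ncard := by
    rw [← classes_eq P e hm h2]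
    exact Nat.card_coe_set_eq _
  rw [hT]
  set z := iota (P : Subgroup G) e (r (half m)) with hz
  set a := iota (P : Subgroup G) e (sr 0) with ha
  set b := iota (P : Subgroup G) e (sr 1) with hb
  by_cases hza : IsConj a z <;> by_cases hzb : IsConj b z
  · left
    have e1 : ConjClasses.mk a = ConjClasses.mk z := ConjClasses.mk_eq_mk_iff_isConj.mpr hza
    have e2 : ConjClasses.mk b = ConjClasses.mk z := ConjClasses.mk_eq_mk_iff_isConj.mpr hzb
    refine ⟨by rw [e1, e2]; simp, fun N hN hi => no_index_two P e hm h4 hza hzb N hN hi⟩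
  · right
    left
    have e1 : ConjClasses.mk a = ConjClasses.mk z := ConjClasses.mk_eq_mk_iff_isConj.mpr hza
    have hne : ConjClasses.mk z ≠ ConjClasses.mk b := fun h =>
      hzb (ConjClasses.mk_eq_mk_iff_isConj.mp h.symm)
    refine ⟨by rw [e1]; simp [Set.ncard_pair hne], ?_, fun N hN hi => no_index_four P e hm h4 0 hza N hN hi⟩
    exact exists_index_two_of P e hm h2 0 1 hzb (fun h => hzb (h.trans hza))
  · right
    left
    have e2 : ConjClasses.mk b = ConjClasses.mk z := ConjClasses.mk_eq_mk_iff_isConj.mpr hzb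
    have hne : ConjClasses.mk z ≠ ConjClasses.mk a := fun h =>
      hza (ConjClasses.mk_eq_mk_iff_isConj.mp h.symm)
    refine ⟨by rw [e2, Set.insert_comm]; simp [Set.ncard_pair hne.symm], ?_,
      fun N hN hi => no_index_four P e hm h4 1 hzb N hN hi⟩
    exact exists_index_two_of P e hm h2 1 0 hza (fun h => hza (h.trans hzb))
  · right
    right
    have hall : ∀ i : ZMod m, ¬ IsConj (iota (P : Subgroup G) e (sr i)) z := by
      intro i hi
      rcases par_cases (par hm i) with h | h
      · exact hza ((conj_sr P e hm 0 i (by rw [h, map_zero])).trans hi)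
      · exact hzb ((conj_sr P e hm 1 i (by rw [h, par_one])).trans hi)
    have hcomp := complement_of P e hm h2 hall
    refine ⟨?_, hcomp⟩
    have hab : ¬ IsConj a b := no_fusion_of_complement P e hm hcomp
    have h1 : ConjClasses.mk z ≠ ConjClasses.mk a := fun h =>
      hza (ConjClasses.mk_eq_mk_iff_isConj.mp h.symm)
    have h2' : ConjClasses.mk z ≠ ConjClasses.mk b := fun h =>
      hzb (ConjClasses.mk_eq_mk_iff_isConj.mp h.symm)
    have h3 : ConjClasses.mk a ≠ ConjClasses.mk b := fun h =>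
      hab (ConjClasses.mk_eq_mk_iff_isConj.mp h)
    rw [Set.ncard_eq_three]
    exact ⟨_, _, _, h1, h2', h3, rfl⟩

end G

end Aux

/-- Let G be a finite group whose Sylow 2-subgroups are dihedral of order 2 ^ n with n ≥ 3, and count the conjugacy classes of involutions of G. Then exactly one of the following holds: there is one class of involutions and no normal subgroup of index 2; there are two classes of involutions, a normal subgroup of index 2 and none of index 4; there are three classes of involutions and G has a normal 2-complement. -/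
theorem result {G : Type*} [Group G] [Finite G] (P : Sylow 2 G) (n : ℕ) (hn : 3 ≤ n) (hdih : Nonempty (↥(P : Subgroup G) ≃* DihedralGroup (2 ^ (n - 1)))) : (Nat.card {C : ConjClasses G // ∃ g : G, ConjClasses.mk g = C ∧ orderOf g = 2} = 1 ∧ ∀ N : Subgroup G, N.Normal → N.index ≠ 2) ∨ (Nat.card {C : ConjClasses G // ∃ g : G, ConjClasses.mk g = C ∧ orderOf g = 2} = 2 ∧ (∃ N : Subgroup G, N.Normal ∧ N.index = 2) ∧ ∀ N : Subgroup G, N.Normal → N.index ≠ 4) ∨ (Nat.card {C : ConjClasses G // ∃ g : G, ConjClasses.mk g = C ∧ orderOf g = 2} = 3 ∧ Cfsg.HasNormalPComplement 2 G) := by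
  obtain ⟨e⟩ := hdih
  have h4 : 4 ∣ 2 ^ (n - 1) := by
    obtain ⟨k, hk⟩ : ∃ k, n - 1 = 2 + k := ⟨n - 3, by omega⟩
    rw [hk, pow_add]
    exact dvd_mul_right _ _
  have : NeZero (2 ^ (n - 1)) := ⟨by positivity⟩
  exact main_aux P e h4

end Cfsg.Agent.S3864
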