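-- Statement S3867.
import Cfsg.Statements.S3867
import Cfsg.Agent.Lib.FGS.Product

set_option autoImplicit false
open Cfsg

namespace Cfsg.Agent.S3867

open Subgroup Cfsg.Agent.Lib.FGS.Product
open scoped Pointwise

section Aux

variable {G : Type*} [Group G] [Finite G] {p : ℕ} [Fact p.Prime]

theorem card_sylow_quot (P : Sylow p G) (K : Subgroup G) [K.Normal] :
    Nat.card (Sylow p (G ⧸ K)) = (normalizer (((P : Subgroup G) ⊔ K : Subgroup G) : Set G)).index := by
  have hs := QuotientGroup.mk'_surjective K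
  rw [Sylow.card_eq_index_normalizer (P.mapSurjective hs)]
  change (normalizer (((P : Subgroup G).map (QuotientGroup.mk' K) : Subgroup (G ⧸ K)) :
    Set (G ⧸ K))).index = _
  rw [← index_comap_of_surjective _ hs, comap_normalizer_eq_of_surjective _ hs, comap_map_eq,
    QuotientGroup.ker_mk']

omit [Finite G] [Fact p.Prime] in
theorem conj_mem_sup {S K : Subgroup G} [K.Normal] {x : G} (hx : x ∈ normalizer (S : Set G)) {h : G}
    (hh : h ∈ S ⊔ K) : x * h * x⁻¹ ∈ S ⊔ K := by
  rw [← SetLike.mem_coe, mul_normal] at hh ⊢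
  obtain ⟨s, hs, k, hk, rfl⟩ := Set.mem_mul.mp hh
  have h1 : x * (s * k) * x⁻¹ = (x * s * x⁻¹) * (x * k * x⁻¹) := by group
  rw [h1]
  exact Set.mul_mem_mul ((mem_normalizer_iff.mp hx s).mp hs) (Subgroup.Normal.conj_mem ‹_› k hk x)

omit [Finite G] [Fact p.Prime] in
theorem mem_normalizer_sup {S K : Subgroup G} [K.Normal] {x : G} (hx : x ∈ normalizer (S : Set G)) :
    x ∈ normalizer ((S ⊔ K : Subgroup G) : Set G) := by
  rw [mem_normalizer_iff]
  intro h
  constructor
  · exact conj_mem_sup hx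
  · intro hh
    have := conj_mem_sup (inv_mem hx) hh
    have e : x⁻¹ * (x * h * x⁻¹) * x⁻¹⁻¹ = h := by group
    rwa [e] at this

omit [Finite G] [Fact p.Prime] in
theorem mem_normalizer_of_mem {S : Subgroup G} {x : G} (hx : x ∈ S) :
    x ∈ normalizer (S : Set G) := le_normalizer hx

omit [Finite G] [Fact p.Prime] in
theorem inf_sup_eq (P : Sylow p G) (M N : Subgroup G) [M.Normal] [N.Normal] (hMN : M ⊓ N = ⊥) :
    ((P : Subgroup G) ⊔ M) ⊓ ((P : Subgroup G) ⊔ N) = P := by
  have hpow : ∀ (K : Subgroup G) [K.Normal] (y : G), y ∈ (P : Subgroup G) ⊔ K →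
      ∃ k : ℕ, y ^ p ^ k ∈ K := by
    intro K _ y hy
    rw [← SetLike.mem_coe, mul_normal] at hy
    obtain ⟨u, hu, w, hw, rfl⟩ := Set.mem_mul.mp hy
    obtain ⟨k, hk⟩ := P.2 ⟨u, hu⟩
    have hk' : u ^ p ^ k = 1 := congrArg Subtype.val hk
    refine ⟨k, ?_⟩
    rw [← QuotientGroup.eq_one_iff, QuotientGroup.mk_pow, QuotientGroup.mk_mul,
      (QuotientGroup.eq_one_iff w).mpr hw, mul_one, ← QuotientGroup.mk_pow, hk']
    rfl
  have hpg : IsPGroup p (((P : Subgroup G) ⊔ M) ⊓ ((P : Subgroup G) ⊔ N) : Subgroup G) := by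
    rintro ⟨y, hy1, hy2⟩
    obtain ⟨k, hk⟩ := hpow M y hy1
    obtain ⟨l, hl⟩ := hpow N y hy2
    refine ⟨k + l, ?_⟩
    apply Subtype.ext
    have h1 : y ^ p ^ (k + l) ∈ M := by
      rw [pow_add, pow_mul]; exact Subgroup.pow_mem _ hk _
    have h2 : y ^ p ^ (k + l) ∈ N := by
      rw [pow_add, mul_comm, pow_mul]; exact Subgroup.pow_mem _ hl _
    have h3 : y ^ p ^ (k + l) ∈ M ⊓ N := ⟨h1, h2⟩
    rw [hMN, mem_bot] at h3
    simpa using h3
  exact P.3 hpg (le_inf le_sup_left le_sup_left)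

/-- The Frattini decomposition. -/
theorem exists_decomp (P : Sylow p G) (M N : Subgroup G) [M.Normal] [N.Normal] {d : G}
    (hd : d ∈ normalizer (((P : Subgroup G) ⊔ (M ⊔ N) : Subgroup G) : Set G)) :
    ∃ b ∈ normalizer (((P : Subgroup G) ⊔ M : Subgroup G) : Set G),
      ∃ c ∈ normalizer (((P : Subgroup G) ⊔ N : Subgroup G) : Set G), d = b * c := by
  set R := (P : Subgroup G) ⊔ (M ⊔ N) with hR
  have h1 : ((d • P : Sylow p G) : Subgroup G) ≤ R := by
    rw [Sylow.coe_subgroup_smul]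
    intro x hx
    rw [Subgroup.mem_pointwise_smul_iff_inv_smul_mem] at hx
    have h2 : (MulAut.conj d)⁻¹ • x ∈ R := le_sup_left (a := (P : Subgroup G)) hx
    have h3 : d⁻¹ * x * d ∈ R := by
      simpa [MulAut.smul_def] using h2
    have h4 := (mem_normalizer_iff.mp hd (d⁻¹ * x * d)).mp h3
    have e : d * (d⁻¹ * x * d) * d⁻¹ = x := by group
    rwa [e] at h4
  obtain ⟨r, hr, hr'⟩ := exists_conj_of_sylow_le (P₁ := P) (P₂ := d • P) (R := R) le_sup_left h1
  have hr2 : r ∈ (M ⊔ N) ⊔ (P : Subgroup G) := by rwa [sup_comm]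
  rw [← SetLike.mem_coe, normal_mul] at hr2
  obtain ⟨w, hw, u, hu, rfl⟩ := Set.mem_mul.mp hr2
  rw [normal_mul] at hw
  obtain ⟨m, hm, n, hn, rfl⟩ := Set.mem_mul.mp hw
  have hu' : u • P = P := Sylow.smul_eq_iff_mem_normalizer.mpr (le_normalizer hu)
  rw [mul_smul, hu'] at hr'
  have hx : ((m * n)⁻¹ * d) • P = P := by
    rw [mul_smul, ← hr', ← mul_smul]
    simp
  have hx' : (m * n)⁻¹ * d ∈ normalizer ((P : Subgroup G) : Set G) :=
    Sylow.smul_eq_iff_mem_normalizer.mp hx
  refine ⟨m, le_normalizer (le_sup_right (a := (P : Subgroup G)) hm), n * ((m * n)⁻¹ * d), ?_, by group⟩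
  refine mul_mem (le_normalizer (le_sup_right (a := (P : Subgroup G)) hn)) ?_
  exact mem_normalizer_sup hx'

end Aux

/-- Let M and N be nontrivial normal subgroups of the finite group G with M ⊓ N trivial, and let p be a prime. Writing n(X) for the number of Sylow p-subgroups of a group X, one has n(G) · n(G/MN) = n(G/M) · n(G/N). -/
theorem result {G : Type*} [Group G] [Finite G] (p : ℕ) [Fact p.Prime] (M N : Subgroup G) [M.Normal] [N.Normal] (hM : M ≠ ⊥) (hN : N ≠ ⊥) (hMN : M ⊓ N = ⊥) : Nat.card (Sylow p G) * Nat.card (Sylow p (G ⧸ (M ⊔ N))) = Nat.card (Sylow p (G ⧸ M)) * Nat.card (Sylow p (G ⧸ N)) := by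
  obtain ⟨P⟩ : Nonempty (Sylow p G) := inferInstance
  rw [card_sylow_quot P M, card_sylow_quot P N, card_sylow_quot P (M ⊔ N),
    Sylow.card_eq_index_normalizer P]
  set A := normalizer (((P : Subgroup G)) : Set G) with hA
  set B := normalizer (((P : Subgroup G) ⊔ M : Subgroup G) : Set G) with hB
  set C := normalizer (((P : Subgroup G) ⊔ N : Subgroup G) : Set G) with hC
  set D := normalizer (((P : Subgroup G) ⊔ (M ⊔ N) : Subgroup G) : Set G) with hD
  have hAeq : A = B ⊓ C := by
    apply le_antisymm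
    · intro x hx
      exact ⟨mem_normalizer_sup hx, mem_normalizer_sup hx⟩
    · rintro x ⟨hx1, hx2⟩
      rw [hA, mem_normalizer_iff]
      intro h
      rw [← SetLike.mem_coe, ← SetLike.mem_coe]
      have e := inf_sup_eq P M N hMN
      rw [← e, SetLike.mem_coe, SetLike.mem_coe, mem_inf, mem_inf,
        ← mem_normalizer_iff.mp hx1, ← mem_normalizer_iff.mp hx2]
  have hBD : B ≤ D := by
    intro x hx
    have := mem_normalizer_sup (K := N) hx
    rwa [sup_assoc] at this
  have hCD : C ≤ D := by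
    intro x hx
    have := mem_normalizer_sup (K := M) hx
    rwa [sup_assoc, sup_comm N M] at this
  have hDset : (D : Set G) = (B : Set G) * (C : Set G) := by
    ext d
    constructor
    · intro hd
      obtain ⟨b, hb, c, hc, rfl⟩ := exists_decomp P M N hd
      exact Set.mul_mem_mul hb hc
    · intro hd
      obtain ⟨b, hb, c, hc, rfl⟩ := Set.mem_mul.mp hd
      exact mul_mem (hBD hb) (hCD hc)
  have hprod := ncard_mul_mul_card_inf B C
  rw [← hDset, ← hAeq, ← Nat.card_coe_set_eq] at hprod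
  have hprod' : Nat.card D * Nat.card A = Nat.card B * Nat.card C := hprod
  have h1 := card_mul_index A
  have h2 := card_mul_index B
  have h3 := card_mul_index C
  have h4 := card_mul_index D
  have hpos : 0 < Nat.card B * Nat.card C := Nat.mul_pos Nat.card_pos Nat.card_pos
  apply Nat.eq_of_mul_eq_mul_left hpos
  calc Nat.card B * Nat.card C * (A.index * D.index)
      = (Nat.card D * Nat.card A) * (A.index * D.index) := by rw [hprod']
    _ = (Nat.card A * A.index) * (Nat.card D * D.index) := by ring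
    _ = (Nat.card B * B.index) * (Nat.card C * C.index) := by rw [h1, h2, h3, h4]
    _ = _ := by ring

end Cfsg.Agent.S3867
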