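import Cfsg.Statements.S3878
import Mathlib
-- import your own Cfsg.Agent.* helpers here

set_option autoImplicit false
open Cfsg

namespace Cfsg.Agent.S3878

section Aux

theorem kummer_mod {q n m : ℕ} (hq : q.Prime) (hmn : m ≤ n) (hnd : ¬ q ∣ n.choose m) (i : ℕ) :
    m % q ^ i ≤ n % q ^ i := by
  have : Fact q.Prime := ⟨hq⟩
  rcases Nat.eq_zero_or_pos i with rfl | hi
  · simp [Nat.mod_one]
  have hb : Nat.log q n < max (Nat.log q n + 1) (i + 1) := lt_of_lt_of_le (Nat.lt_succ_self _) (le_max_left _ _)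
  have h0 : padicValNat q (n.choose m) = 0 := padicValNat.eq_zero_of_not_dvd hnd
  rw [padicValNat_choose hmn hb] at h0
  rw [Finset.card_eq_zero, Finset.filter_eq_empty_iff] at h0
  have hi' : i ∈ Finset.Ico 1 (max (Nat.log q n + 1) (i + 1)) := by
    rw [Finset.mem_Ico]
    exact ⟨hi, lt_of_lt_of_le (Nat.lt_succ_self _) (le_max_right _ _)⟩
  have h1 := h0 hi'
  push Not at h1
  have h2 : n % q ^ i = m % q ^ i + (n - m) % q ^ i := by
    conv_lhs => rw [show n = m + (n - m) by omega, Nat.add_mod]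
    exact Nat.mod_eq_of_lt h1
  rw [h2]
  exact Nat.le_add_right _ _

theorem one_add_pow_aux (x j : ℕ) : ∃ y, (1 + x) ^ j = 1 + j * x + x * x * y := by
  induction j with
  | zero => exact ⟨0, by simp⟩
  | succ j ih =>
    obtain ⟨y, hy⟩ := ih
    refine ⟨y + j + x * y, ?_⟩
    rw [pow_succ, hy]
    ring

theorem exists_num {p q : ℕ} (hp : p.Prime) (hq : q.Prime) (hne : p ≠ q) (r : ℕ) :
    ∃ a b s : ℕ, r < q ^ b ∧ 1 < q ^ b ∧ 1 ≤ s ∧ p ^ a + q ^ b = 1 + s * (q ^ b * q ^ b) := by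
  obtain ⟨β, hβ⟩ : ∃ β, r + 1 < q ^ β := ⟨r + 1, Nat.lt_pow_self hq.one_lt⟩
  have hcop : Nat.Coprime p (q ^ β) := Nat.Coprime.pow_right _ ((Nat.coprime_primes hp hq).mpr hne)
  have hQpos : 0 < q ^ β := pow_pos hq.pos _
  set a₀ := Nat.totient (q ^ β) with ha₀
  have ha₀pos : 0 < a₀ := Nat.totient_pos.mpr hQpos
  have hmod := Nat.ModEq.pow_totient hcop
  have hp1 : 1 < p ^ a₀ := Nat.one_lt_pow ha₀pos.ne' hp.one_lt
  have hdvd : q ^ β ∣ p ^ a₀ - 1 := (Nat.modEq_iff_dvd' hp1.le).mp hmod.symm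
  have hN : p ^ a₀ - 1 ≠ 0 := by omega
  obtain ⟨b, t, htq, hNe⟩ := Nat.exists_eq_pow_mul_and_not_dvd hN q hq.ne_one
  have hβb : β ≤ b := by
    rw [hNe] at hdvd
    have hc : Nat.Coprime (q ^ β) t := Nat.Coprime.pow_left _ ((Nat.Prime.coprime_iff_not_dvd hq).mpr htq)
    have := hc.dvd_of_dvd_mul_right hdvd
    exact (Nat.pow_dvd_pow_iff_le_right hq.one_lt).mp this
  have hQβ : q ^ β ≤ q ^ b := Nat.pow_le_pow_right hq.pos hβb
  set Q := q ^ b with hQ
  have hQ1 : 1 < Q := by omega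
  have hcopt : Nat.Coprime t Q := by
    apply Nat.Coprime.pow_right
    exact ((Nat.Prime.coprime_iff_not_dvd hq).mpr htq).symm
  obtain ⟨m, -, hm⟩ := Nat.exists_mul_mod_eq_one_of_coprime hcopt hQ1
  -- `j := (Q - 1) * m`
  have hdvd2 : Q ∣ t * ((Q - 1) * m) + 1 := by
    have e1 : t * ((Q - 1) * m) + 1 = (Q - 1) * (t * m) + 1 := by ring
    rw [e1]
    have e2 : t * m = t * m / Q * Q + 1 := by
      have := Nat.div_add_mod (t * m) Q
      rw [hm] at this
      rw [mul_comm (t * m / Q)]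
      exact this.symm
    obtain ⟨d, hd⟩ : ∃ d, t * m = d * Q + 1 := ⟨_, e2⟩
    rw [hd]
    obtain ⟨e, he⟩ : ∃ e, Q = e + 1 := ⟨Q - 1, by omega⟩
    rw [he]
    simp only [Nat.add_sub_cancel]
    refine ⟨e * d + 1, ?_⟩
    ring
  obtain ⟨l, hl⟩ := hdvd2
  set j := (Q - 1) * m with hj
  have hl1 : 1 ≤ l := by
    rcases Nat.eq_zero_or_pos l with rfl | h
    · simp at hl
    · exact h
  obtain ⟨y, hy⟩ := one_add_pow_aux (Q * t) j
  have hpa : p ^ a₀ = 1 + Q * t := by omega
  refine ⟨a₀ * j, b, l + t * t * y, by omega, hQ1, by omega, ?_⟩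
  rw [pow_mul, hpa, hy]
  have : j * (Q * t) + Q = Q * (t * j + 1) := by ring
  rw [hl] at this
  rw [← hQ]
  nlinarith [this]

theorem mod_aux {P Q s c : ℕ} (hs : 1 ≤ s) (hP : P + Q = 1 + s * (Q * Q)) (hc : 0 < c) (hcQ : c < Q) :
    (c * P) % (Q * Q) + c * Q = c + Q * Q := by
  -- `c * P = (c + Q * Q - c * Q) + (c * s - 1) * (Q * Q)`
  have h1 : c * P + c * Q = c + c * s * (Q * Q) := by
    have : c * (P + Q) = c * (1 + s * (Q * Q)) := by rw [hP]
    nlinarith [this]
  obtain ⟨e, he⟩ : ∃ e, c * s = e + 1 := ⟨c * s - 1, by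
    have : 0 < c * s := by positivity
    omega⟩
  have hcQ2 : c * Q ≤ Q * Q := Nat.mul_le_mul_right _ hcQ.le
  have hQ1 : 1 < Q := by omega
  have hcQ3 : c < c * Q := by nlinarith
  obtain ⟨f, hf⟩ : ∃ f, Q * Q = c * Q + f := ⟨Q * Q - c * Q, by omega⟩
  have h2 : c * P = (c + f) + e * (Q * Q) := by
    rw [he] at h1
    nlinarith [h1, hf]
  rw [h2, Nat.add_mul_mod_self_right, Nat.mod_eq_of_lt (by omega)]
  omega

theorem final_contra {P Q s c r : ℕ} (hs : 1 ≤ s) (hP : P + Q = 1 + s * (Q * Q)) (hc : 0 < c) (hcr : c < r)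
    (hrQ : r < Q) (hle : (c * P) % (Q * Q) ≤ (r * P) % (Q * Q)) : False := by
  have h1 := mod_aux hs hP hc (hcr.trans hrQ)
  have h2 := mod_aux hs hP (hc.trans hcr) hrQ
  have h3 : c * Q + (r - c) * Q = r * Q := by
    rw [← add_mul]
    congr 1
    omega
  have h4 : (r - c) * Q ≤ r - c := by omega
  have h5 : 0 < r - c := by omega
  have h6 : 1 < Q := by omega
  nlinarith

theorem choose_dvd_index {α : Type} [Fintype α] [DecidableEq α] (H : Subgroup (Equiv.Perm α)) (Ω : Finset α)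
    (hΩ : ∀ h ∈ H, ∀ x, h x ∈ Ω ↔ x ∈ Ω) :
    (Fintype.card α).choose Ω.card ∣ H.index := by
  classical
  set f : α → Bool := fun x => decide (x ∈ Ω) with hf
  let S : Subgroup (Equiv.Perm α) :=
    { carrier := {g | f ∘ g = f}
      one_mem' := by
        show f ∘ (1 : Equiv.Perm α) = f
        rfl
      mul_mem' := by
        intro a b ha hb
        show f ∘ (a * b) = f
        ext x
        have h1 := congrFun ha (b x)
        have h2 := congrFun hb x
        simp only [Function.comp_apply] at h1 h2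
        simp only [Function.comp_apply, Equiv.Perm.mul_apply]
        rw [h1, h2]
      inv_mem' := by
        intro a ha
        show f ∘ (a⁻¹ : Equiv.Perm α) = f
        ext x
        have h1 := congrFun ha (a⁻¹ x)
        have e : a (a⁻¹ x) = x := by simp
        simp only [Function.comp_apply, e] at h1
        simp only [Function.comp_apply]
        exact h1.symm }
  have hHS : H ≤ S := by
    intro h hh
    show f ∘ h = f
    ext x
    simp only [hf, Function.comp_apply, decide_eq_decide]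
    exact hΩ h hh x
  have hcardS : Nat.card S = (Ω.card).factorial * (Fintype.card α - Ω.card).factorial := by
    have h1 : Nat.card S = Fintype.card {g : Equiv.Perm α // f ∘ g = f} := by
      rw [← Nat.card_eq_fintype_card]
      rfl
    rw [h1, DomMulAct.stabilizer_card, Fintype.prod_bool]
    have h2 : Fintype.card {a // f a = true} = Ω.card := by
      simp only [hf, decide_eq_true_eq]
      simp
    have h3 : Fintype.card {a // f a = false} = Fintype.card α - Ω.card := by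
      simp only [hf, decide_eq_false_iff_not]
      rw [Fintype.card_subtype_compl]
      simp
    rw [h2, h3]
  have hle : Ω.card ≤ Fintype.card α := Finset.card_le_univ Ω
  have hi : S.index = (Fintype.card α).choose Ω.card := by
    have h1 : Nat.card S * S.index = Nat.card (Equiv.Perm α) := S.card_mul_index
    rw [Nat.card_eq_fintype_card (α := Equiv.Perm α), Fintype.card_perm, hcardS] at h1
    have h2 := Nat.choose_mul_factorial_mul_factorial hle
    have hpos : 0 < (Ω.card).factorial * (Fintype.card α - Ω.card).factorial := by positivity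
    apply Nat.eq_of_mul_eq_mul_left hpos
    rw [h1, ← h2]
    ring
  rw [← hi]
  rw [← Subgroup.relIndex_mul_index hHS]
  exact dvd_mul_left _ _

theorem no_hall {π : Set ℕ} {p q r : ℕ} (hp : p.Prime) (hq : q.Prime) (hr : r.Prime) (hpπ : p ∈ π) (hqπ : q ∈ π)
    (hrπ : r ∉ π) (hne : p ≠ q) : ∃ n : ℕ, ¬ Cfsg.IsEPiGroup π (Equiv.Perm (Fin n)) := by
  classical
  obtain ⟨a, b, s, hrQ, hQ1, hs, hP⟩ := exists_num hp hq hne r
  obtain ⟨n, hn⟩ : ∃ n, n = r * p ^ a := ⟨_, rfl⟩
  refine ⟨n, ?_⟩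
  rintro ⟨H, hH1, hH2⟩
  have hnpos : 0 < n := by
    rw [hn]
    exact Nat.mul_pos hr.pos (pow_pos hp.pos _)
  let x₀ : Fin n := ⟨0, hnpos⟩
  let Ω : Finset (Fin n) := (MulAction.orbit H x₀).toFinset
  have hmemΩ : ∀ x, x ∈ Ω ↔ x ∈ MulAction.orbit H x₀ := fun x => by simp [Ω]
  have hinv : ∀ h ∈ H, ∀ x, h x ∈ Ω ↔ x ∈ Ω := by
    intro h hh x
    rw [hmemΩ, hmemΩ]
    have : h x = (⟨h, hh⟩ : H) • x := rfl
    rw [this, ← MulAction.orbit_eq_iff, ← MulAction.orbit_eq_iff, MulAction.orbit_smul]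
  have hdvd := choose_dvd_index H Ω hinv
  rw [Fintype.card_fin] at hdvd
  set m := Ω.card with hm
  have hmle : m ≤ n := by
    have := Finset.card_le_univ Ω
    rwa [Fintype.card_fin] at this
  have hmH : m ∣ Nat.card H := by
    have h1 := MulAction.card_orbit_mul_card_stabilizer_eq_card_group H x₀
    have h2 : m = Fintype.card (MulAction.orbit H x₀) := by
      rw [hm]
      simp [Ω]
    rw [h2, Nat.card_eq_fintype_card]
    exact Dvd.intro _ h1
  have hmpos : 0 < m := by
    apply Finset.card_pos.mpr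
    exact ⟨x₀, (hmemΩ x₀).mpr (MulAction.mem_orbit_self x₀)⟩
  have hmne : m ≠ n := by
    intro he
    rw [he] at hmH
    refine hrπ (hH1 r hr (dvd_trans ?_ hmH))
    rw [hn]
    exact dvd_mul_right r _
  have hnp : ¬ p ∣ n.choose m := fun h => hH2 p hp hpπ (dvd_trans h hdvd)
  have hnq : ¬ q ∣ n.choose m := fun h => hH2 q hq hqπ (dvd_trans h hdvd)
  -- `p ^ a ∣ m`
  have h1 := kummer_mod hp hmle hnp a
  have h2 : n % p ^ a = 0 := by
    rw [hn]
    simp
  rw [h2, Nat.le_zero] at h1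
  obtain ⟨c, hc⟩ := Nat.dvd_of_mod_eq_zero h1
  have hppos : 0 < p ^ a := pow_pos hp.pos _
  have hcpos : 0 < c := by
    rcases Nat.eq_zero_or_pos c with rfl | h
    · simp at hc; omega
    · exact h
  have hcr : c < r := by
    have : m < n := lt_of_le_of_ne hmle hmne
    rw [hc, hn, mul_comm] at this
    exact lt_of_mul_lt_mul_right this (Nat.zero_le _)
  have h3 := kummer_mod hq hmle hnq (b + b)
  rw [pow_add] at h3
  rw [hc, hn, mul_comm (p ^ a) c] at h3
  exact final_contra hs hP hcpos hcr hrQ h3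

theorem hall_of_d {π : Set ℕ} {G : Type} [Group G] [Finite G] (h : Cfsg.IsDPiGroup π G) : Cfsg.IsEPiGroup π G := by
  classical
  have hbot : Cfsg.IsPiSubgroup π (⊥ : Subgroup G) := by
    intro ℓ hℓ hd
    simp only [Subgroup.card_bot, Nat.dvd_one] at hd
    exact absurd hd hℓ.ne_one
  obtain ⟨H, -, hHmax⟩ := Finite.exists_le_maximal hbot
  refine ⟨H, hHmax.prop, ?_⟩
  intro ℓ hℓ hℓπ hd
  have : Fact ℓ.Prime := ⟨hℓ⟩
  obtain ⟨S⟩ : Nonempty (Sylow ℓ G) := inferInstance
  have hSπ : Cfsg.IsPiSubgroup π (S : Subgroup G) := by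
    intro u hu hdu
    obtain ⟨n, hn⟩ := IsPGroup.iff_card.mp S.2
    rw [hn] at hdu
    have := (Nat.prime_dvd_prime_iff_eq hu hℓ).mp (hu.dvd_of_dvd_pow hdu)
    rwa [this]
  obtain ⟨M, hSM, hMmax⟩ := Finite.exists_le_maximal hSπ
  obtain ⟨g, hg⟩ := h H M hHmax hMmax
  have h1 : H.index = M.index := by
    rw [hg]
    exact (Subgroup.index_map_equiv H (MulAut.conj g)).symm
  have h2 : M.index ∣ (S : Subgroup G).index := Subgroup.index_dvd_of_le hSM
  rw [h1] at hd
  exact S.not_dvd_index (dvd_trans hd h2)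

end Aux

/-- For a set of primes π the following are equivalent: every finite group has a Hall π-subgroup; in every finite group the maximal π-subgroups are pairwise conjugate; π contains at most one prime or contains every prime. -/
theorem result (π : Set ℕ) :
    ((∀ (G : Type) [Group G] [Finite G], Cfsg.IsEPiGroup π G) ↔
      ((∀ p q : ℕ, p.Prime → q.Prime → p ∈ π → q ∈ π → p = q) ∨ ∀ p : ℕ, p.Prime → p ∈ π)) ∧
    ((∀ (G : Type) [Group G] [Finite G], Cfsg.IsDPiGroup π G) ↔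
      ((∀ p q : ℕ, p.Prime → q.Prime → p ∈ π → q ∈ π → p = q) ∨ ∀ p : ℕ, p.Prime → p ∈ π)) := by
  classical
  have hE : ((∀ (G : Type) [Group G] [Finite G], Cfsg.IsEPiGroup π G) →
      ((∀ p q : ℕ, p.Prime → q.Prime → p ∈ π → q ∈ π → p = q) ∨ ∀ p : ℕ, p.Prime → p ∈ π)) := by
    intro h
    by_contra hcon
    push Not at hcon
    obtain ⟨⟨p, q, hp, hq, hpπ, hqπ, hne⟩, r, hr, hrπ⟩ := hcon
    obtain ⟨n, hn⟩ := no_hall hp hq hr hpπ hqπ hrπ hne
    exact hn (h _)
  refine ⟨⟨hE, ?_⟩, ⟨fun h => hE (fun G _ _ => hall_of_d (h G)), ?_⟩⟩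
  · rintro (h | h) G _ _
    · by_cases hex : ∃ p : ℕ, p.Prime ∧ p ∈ π
      · obtain ⟨p, hp, hpπ⟩ := hex
        have : Fact p.Prime := ⟨hp⟩
        obtain ⟨S⟩ : Nonempty (Sylow p G) := inferInstance
        refine ⟨S, ?_, ?_⟩
        · intro u hu hdu
          obtain ⟨n, hn⟩ := IsPGroup.iff_card.mp S.2
          rw [hn] at hdu
          have := (Nat.prime_dvd_prime_iff_eq hu hp).mp (hu.dvd_of_dvd_pow hdu)
          rwa [this]
        · intro u hu huπ
          rw [h u p hu hp huπ hpπ]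
          exact S.not_dvd_index
      · refine ⟨⊥, ?_, ?_⟩
        · intro u hu hdu
          simp only [Subgroup.card_bot, Nat.dvd_one] at hdu
          exact absurd hdu hu.ne_one
        · intro u hu huπ
          exact absurd ⟨u, hu, huπ⟩ hex
    · refine ⟨⊤, fun u hu _ => h u hu, fun u hu _ => ?_⟩
      rw [Subgroup.index_top]
      exact hu.one_lt.ne' ∘ Nat.dvd_one.mp
  · have htop : ∀ (G : Type) [Group G] [Finite G] (H : Subgroup G), Maximal (Cfsg.IsPiSubgroup π) H →
        (∀ p : ℕ, p.Prime → p ∈ π) → H = ⊤ := by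
      intro G _ _ H hH hall
      exact top_le_iff.mp (hH.le_of_ge (fun u hu _ => hall u hu) le_top)
    rintro (h | h) G _ _ H K hH hK
    · by_cases hex : ∃ p : ℕ, p.Prime ∧ p ∈ π
      · obtain ⟨p, hp, hpπ⟩ := hex
        have : Fact p.Prime := ⟨hp⟩
        have hsyl : ∀ H : Subgroup G, Maximal (Cfsg.IsPiSubgroup π) H → ∃ S : Sylow p G, (S : Subgroup G) = H := by
          intro H hH
          have hHp : IsPGroup p H := by
            rw [IsPGroup.iff_card]
            have := hH.prop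
            refine ⟨(Nat.card H).primeFactorsList.length, ?_⟩
            have hcardne : Nat.card H ≠ 0 := Nat.card_pos.ne'
            exact Nat.eq_prime_pow_of_unique_prime_dvd hcardne (fun {u} hu hdu => h u p hu hp (this u hu hdu) hpπ)
          obtain ⟨S, hS⟩ := hHp.exists_le_sylow
          have hSπ : Cfsg.IsPiSubgroup π (S : Subgroup G) := by
            intro u hu hdu
            obtain ⟨n, hn⟩ := IsPGroup.iff_card.mp S.2
            rw [hn] at hdu
            have := (Nat.prime_dvd_prime_iff_eq hu hp).mp (hu.dvd_of_dvd_pow hdu)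
            rwa [this]
          exact ⟨S, le_antisymm (hH.le_of_ge hSπ hS) hS⟩
        obtain ⟨S, rfl⟩ := hsyl H hH
        obtain ⟨T, rfl⟩ := hsyl K hK
        obtain ⟨g, hg⟩ := MulAction.exists_smul_eq G S T
        refine ⟨g, ?_⟩
        rw [← hg, Sylow.coe_subgroup_smul]
        rfl
      · have hb : ∀ H : Subgroup G, Maximal (Cfsg.IsPiSubgroup π) H → H = ⊥ := by
          intro H hH
          rw [Subgroup.eq_bot_iff_card]
          by_contra hne
          obtain ⟨u, hu, hdu⟩ := Nat.exists_prime_and_dvd hne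
          exact hex ⟨u, hu, hH.prop u hu hdu⟩
        refine ⟨1, ?_⟩
        rw [hb H hH, hb K hK]
        simp
    · refine ⟨1, ?_⟩
      rw [htop G H hH h, htop G K hK h]
      simp

end Cfsg.Agent.S3878
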