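import Cfsg.Statements.S3898
import Cfsg.Agent.Lib.Transfer.PiClasses2

set_option autoImplicit false
open Cfsg

namespace Cfsg.Agent.S3898

/-- Let π be a finite set of primes containing 2 and G a finite group. Write k_π(G) for the number of conjugacy classes of G consisting of π-elements (elements all of whose order's prime divisors lie in π) and |G|_π for the π-part of the order of G. If k_π(G) > |G|_π/2, then G has a normal π-complement (a normal subgroup of order prime to π whose index is a π-number) and an abelian Hall subgroup for the set of odd primes in π. -/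
theorem result {G : Type*} [Group G] [Finite G] (π : Finset ℕ) (hπ : ∀ r ∈ π, r.Prime) (h2 : 2 ∈ π)
    (hk : π.prod (fun r => r ^ (Nat.card G).factorization r) < 2 * Nat.card {c : ConjClasses G // ∀ x ∈ c.carrier, ∀ r : ℕ, r.Prime → r ∣ orderOf x → r ∈ π}) :
    (∃ N : Subgroup G, N.Normal ∧ (∀ r : ℕ, r.Prime → r ∣ Nat.card ↥N → r ∉ π) ∧ ∀ r : ℕ, r.Prime → r ∣ N.index → r ∈ π) ∧ ∃ H : Subgroup G, Cfsg.IsPiHall ((↑π : Set ℕ) \ {2}) H ∧ IsMulCommutative ↥H := by
  exact Cfsg.Agent.Lib.Transfer.PiClasses2.normal_complement_of_many_classes_two π hπ h2 hk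

end Cfsg.Agent.S3898
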