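import Cfsg.Statements.S3903
import Mathlib
import Cfsg.Agent.Lib.Coprime.Action

set_option autoImplicit false
set_option linter.style.haveILetI false
set_option linter.unusedSectionVars false
open Cfsg
open scoped Pointwise

namespace Cfsg.Agent.S3903

section helpers

variable {G : Type*} [Group G]

theorem mem_of_pow_mem {N : Subgroup G} {x : G} {n : ℕ} (hn : n.Coprime (orderOf x))
    (h : x ^ n ∈ N) : x ∈ N := by
  obtain ⟨m, hm⟩ := exists_pow_eq_self_of_coprime hn
  rw [← hm]; exact N.pow_mem h m

theorem solvable_of_coatom_normal {M : Subgroup G} (hM : IsCoatom M) [M.Normal]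
    [Group.IsSolvable M] : Group.IsSolvable G := by
  obtain ⟨g, hg⟩ := SetLike.exists_not_mem_of_ne_top M hM.1 rfl
  have hsup : M ⊔ Subgroup.zpowers g = ⊤ := by
    apply hM.2
    refine lt_of_le_of_ne le_sup_left fun heq => hg ?_
    rw [heq]
    exact (le_sup_right : Subgroup.zpowers g ≤ M ⊔ Subgroup.zpowers g)
      (Subgroup.mem_zpowers g)
  haveI : IsCyclic (G ⧸ M) := by
    refine ⟨⟨(g : G ⧸ M), ?_⟩⟩
    intro y
    obtain ⟨a, rfl⟩ := QuotientGroup.mk_surjective y
    have ha : a ∈ M ⊔ Subgroup.zpowers g := by rw [hsup]; trivial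
    obtain ⟨m, hm, z, hz, rfl⟩ := Subgroup.mem_sup_of_normal_left.1 ha
    obtain ⟨n, rfl⟩ := Subgroup.mem_zpowers_iff.1 hz
    refine Subgroup.mem_zpowers_iff.2 ⟨n, ?_⟩
    rw [← QuotientGroup.mk_zpow, eq_comm, QuotientGroup.eq]
    have hk : (g ^ n)⁻¹ * m⁻¹ * g ^ n ∈ M := by
      simpa using (‹M.Normal›.conj_mem m⁻¹ (M.inv_mem hm) (g ^ n)⁻¹)
    simpa [mul_assoc] using hk
  haveI : Group.IsSolvable (G ⧸ M) := Group.isSolvable_of_comm (fun a b => mul_comm' a b)
  exact Group.isSolvable_of_ker_le_range M.subtype (QuotientGroup.mk' M) (by simp)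

theorem not_isPrimePow_mul {p q k : ℕ} (hp : p.Prime) (hq : q.Prime) (hpq : q ≠ p) (hk : 0 < k) :
    ¬ IsPrimePow (p ^ k * q) := by
  intro h
  obtain ⟨r, n, hr, hn, he⟩ := (isPrimePow_nat_iff _).1 h
  have h1 : p ∣ r ^ n := he ▸ Dvd.dvd.mul_right (dvd_pow_self p hk.ne') q
  have h2 : q ∣ r ^ n := he ▸ Dvd.intro_left _ rfl
  have e1 := (Nat.prime_dvd_prime_iff_eq hp hr).1 (hp.dvd_of_dvd_pow h1)
  have e2 := (Nat.prime_dvd_prime_iff_eq hq hr).1 (hq.dvd_of_dvd_pow h2)
  exact hpq (e2.trans e1.symm)

variable [Finite G]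

/-- the centralizer of an element outside `N` is a `p`-group -/
theorem isPGroup_centralizer {N : Subgroup G}
    (h : ∀ x : G, x ∉ N → IsPrimePow (orderOf x) ∧ IsCoatom (Subgroup.centralizer ({x} : Set G)))
    {x : G} (hx : x ∉ N) {p k : ℕ} (hp : p.Prime) (hk : 0 < k) (hpk : p ^ k = orderOf x) :
    IsPGroup p (Subgroup.centralizer ({x} : Set G)) := by
  classical
  haveI := Fintype.ofFinite G
  have hcard : Nat.card (Subgroup.centralizer ({x} : Set G)) ≠ 0 := Nat.card_pos.ne'
  refine IsPGroup.of_card (Nat.eq_prime_pow_of_unique_prime_dvd hcard ?_)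
  intro q hq hqd
  by_contra hne
  haveI : Fact q.Prime := ⟨hq⟩
  haveI := Fintype.ofFinite (Subgroup.centralizer ({x} : Set G))
  rw [Nat.card_eq_fintype_card] at hqd
  obtain ⟨y, hy⟩ := exists_prime_orderOf_dvd_card q hqd
  have hy' : orderOf (y : G) = q := by rw [Subgroup.orderOf_coe]; exact hy
  have hcomm : Commute x (y : G) := by
    have := (Subgroup.mem_centralizer_iff.1 y.2) x (by simp)
    exact this
  have hcop : (orderOf x).Coprime (orderOf (y : G)) := by
    rw [hy', ← hpk]
    exact Nat.Coprime.pow_left _ ((Nat.coprime_primes hp hq).2 (Ne.symm hne))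
  have hord : orderOf (x * y) = orderOf x * orderOf (y : G) :=
    hcomm.orderOf_mul_eq_mul_orderOf_of_coprime hcop
  by_cases hmem : x * y ∈ N
  · -- x^q ∈ N
    have : x ^ q ∈ N := by
      have h1 : (x * y) ^ q = x ^ q := by
        rw [hcomm.mul_pow, ← hy', pow_orderOf_eq_one, mul_one]
      rw [← h1]; exact N.pow_mem hmem q
    refine hx (mem_of_pow_mem (n := q) ?_ this)
    rw [← hy']; exact hcop.symm
  · have := (h _ hmem).1
    rw [hord, hy', ← hpk] at this
    exact not_isPrimePow_mul hp hq hne hk this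


open Classical in
theorem card_filter_not_mem [Fintype G] (N : Subgroup G) :
    (Finset.univ.filter (fun u : G => u ∉ N)).card + Nat.card N = Nat.card G := by
  have h := Finset.card_filter_add_card_filter_not (s := (Finset.univ : Finset G)) (fun u => u ∈ N)
  rw [Finset.card_univ, ← Nat.card_eq_fintype_card] at h
  rw [← h, add_comm]
  congr 1
  rw [Nat.card_eq_fintype_card, Fintype.card_subtype]

open Classical in
theorem card_filter_mem_not_mem [Fintype G] (P N : Subgroup G) :
    (Finset.univ.filter (fun u : G => u ∈ P ∧ u ∉ N)).card + Nat.card (N ⊓ P : Subgroup G)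
      = Nat.card P := by
  have h := Finset.card_filter_add_card_filter_not
    (s := Finset.univ.filter (fun u : G => u ∈ P)) (fun u => u ∈ N)
  rw [Finset.filter_filter, Finset.filter_filter] at h
  have e1 : Nat.card (N ⊓ P : Subgroup G) = (Finset.univ.filter (fun u : G => u ∈ P ∧ u ∈ N)).card := by
    rw [Nat.card_eq_fintype_card, Fintype.card_subtype]
    congr 1
    ext u
    simp [Subgroup.mem_inf, and_comm]
  have e2 : Nat.card P = (Finset.univ.filter (fun u : G => u ∈ P)).card := by
    rw [Nat.card_eq_fintype_card, Fintype.card_subtype]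
  rw [e1, e2, ← h, add_comm]

/-- the counting identity `|G \ N| = [G:P] |P \ N|` -/
theorem card_not_mem_eq [Fintype G] {P N : Subgroup G} [N.Normal] (hsup : P ⊔ N = ⊤) [∀ u : G, Decidable (u ∉ N)]
    [∀ u : G, Decidable (u ∈ P ∧ u ∉ N)] :
    (Finset.univ.filter (fun u : G => u ∉ N)).card
      = P.index * (Finset.univ.filter (fun u : G => u ∈ P ∧ u ∉ N)).card := by
  classical
  have h1 := card_filter_not_mem N
  have h2 := card_filter_mem_not_mem P N
  have h3 : Nat.card N = P.index * Nat.card (N ⊓ P : Subgroup G) := by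
    have e1 : N.index = N.relIndex P := by
      rw [← Subgroup.relIndex_sup_right P N, hsup, Subgroup.relIndex_top_right]
    have e2 : N.relIndex P = (N ⊓ P).relIndex P := (Subgroup.inf_relIndex_right N P).symm
    have e3 : Nat.card P = Nat.card (N ⊓ P : Subgroup G) * (N ⊓ P).relIndex P := by
      exact Cfsg.Agent.Lib.Coprime.Action.card_eq_card_mul_relIndex inf_le_right
    have e4 : Nat.card N * N.index = Nat.card G := Subgroup.card_mul_index N
    have e5 : Nat.card P * P.index = Nat.card G := Subgroup.card_mul_index P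
    have hpos : 0 < N.index := Nat.pos_of_ne_zero Subgroup.index_ne_zero_of_finite
    rw [← e2, ← e1] at e3
    apply Nat.eq_of_mul_eq_mul_right hpos
    rw [e4, ← e5, e3]
    ring
  have h4 : Nat.card P * P.index = Nat.card G := Subgroup.card_mul_index P
  have e1 : (Finset.univ.filter (fun u : G => u ∉ N)) = (Finset.univ.filter (fun u : G => u ∉ N)) := rfl
  have hconv1 : (Finset.univ.filter (fun u : G => u ∉ N)).card + Nat.card N = Nat.card G := by
    convert h1
  have hconv2 : (Finset.univ.filter (fun u : G => u ∈ P ∧ u ∉ N)).card + Nat.card (N ⊓ P : Subgroup G)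
      = Nat.card P := by
    convert h2
  have : (Finset.univ.filter (fun u : G => u ∉ N)).card + P.index * Nat.card (N ⊓ P : Subgroup G)
      = (P.index * (Finset.univ.filter (fun u : G => u ∈ P ∧ u ∉ N)).card)
        + P.index * Nat.card (N ⊓ P : Subgroup G) := by
    rw [← mul_add, hconv2, ← h3, hconv1, ← h4, mul_comm]
  exact Nat.add_right_cancel this

theorem isSolvable_of_isPGroup {H : Type*} [Group H] [Finite H] {p : ℕ} [Fact p.Prime]
    (h : IsPGroup p H) : Group.IsSolvable H := by
  haveI := h.isNilpotent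
  exact IsNilpotent.to_isSolvable

/-- Burnside-type end of the proof: `P` an abelian Sylow subgroup which is a coatom and self-normalizing. -/
theorem solvable_of_abelian_coatom_sylow {p : ℕ} [Fact p.Prime] (P : Sylow p G)
    (hco : IsCoatom (P : Subgroup G))
    (hP : Subgroup.normalizer (P : Set G) ≤ Subgroup.centralizer (P : Set G)) :
    Group.IsSolvable G := by
  classical
  set K := (MonoidHom.transferSylow P hP).ker with hK
  have hcompl : K.IsComplement' (P : Subgroup G) := MonoidHom.ker_transferSylow_isComplement' P hP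
  have hcard : Nat.card K * Nat.card (P : Subgroup G) = Nat.card G := hcompl.card_mul_card
  have hindex : (P : Subgroup G).index = Nat.card K := by
    have := Subgroup.card_mul_index (P : Subgroup G)
    rw [← hcard, mul_comm] at this
    exact Nat.eq_of_mul_eq_mul_right Nat.card_pos this
  have hnp : ¬ p ∣ Nat.card K := hindex ▸ P.not_dvd_index
  have hcop : (Nat.card (P : Subgroup G)).Coprime (Nat.card K) := by
    obtain ⟨m, hm⟩ := P.isPGroup'.exists_card_eq
    rw [hm]
    exact Nat.Coprime.pow_left _ ((Nat.Prime.coprime_iff_not_dvd (Fact.out)).2 hnp)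
  haveI : Group.IsSolvable (P : Subgroup G) := isSolvable_of_isPGroup P.isPGroup'
  by_cases hK1 : Nat.card K = 1
  · -- then `G = P`
    exfalso
    have : (P : Subgroup G) = ⊤ := by
      apply Subgroup.eq_top_of_card_eq
      rw [← hcard, hK1, one_mul]
    exact hco.1 this
  obtain ⟨q, hq, hqd⟩ := Nat.exists_prime_and_dvd hK1
  haveI : Fact q.Prime := ⟨hq⟩
  have hAK : (P : Subgroup G) ≤ Subgroup.normalizer (K : Set G) := by
    rw [Subgroup.normalizer_eq_top]
    exact le_top
  obtain ⟨Q, ⟨hQK, hQp, hQi⟩, hQn⟩ :=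
    Cfsg.Agent.Lib.Coprime.Action.exists_invariant_sylowIn (p := q) hAK hcop (Or.inl inferInstance)
  have hcardK : Nat.card K = Nat.card Q * Q.relIndex K :=
    Cfsg.Agent.Lib.Coprime.Action.card_eq_card_mul_relIndex hQK
  have hqQ : q ∣ Nat.card Q := by
    rw [hcardK] at hqd
    exact (hq.dvd_mul.1 hqd).resolve_right hQi
  have hinf : Q ⊓ (P : Subgroup G) = ⊥ := by
    have hd : Disjoint K (P : Subgroup G) := hcompl.disjoint
    rw [eq_bot_iff]
    intro z hz
    exact Subgroup.disjoint_def.1 hd (hQK hz.1) hz.2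
  have hsupcard := Cfsg.Agent.Lib.Coprime.Action.card_sup_of_le_normalizer hQn hinf
  have hsup : Q ⊔ (P : Subgroup G) = ⊤ := by
    apply hco.2
    refine lt_of_le_of_ne le_sup_right fun heq => ?_
    rw [← heq] at hsupcard
    have hpos : 0 < Nat.card (P : Subgroup G) := Nat.card_pos
    have hQ1 : Nat.card Q = 1 := by
      apply Nat.eq_of_mul_eq_mul_right hpos
      rw [hsupcard, one_mul]
    rw [hQ1] at hqQ
    exact hq.one_lt.ne' (Nat.dvd_one.1 hqQ)
  have hQK' : Q = K := by
    apply Subgroup.eq_of_le_of_card_ge hQK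
    rw [hsup, Subgroup.card_top, ← hcard] at hsupcard
    exact (Nat.eq_of_mul_eq_mul_right Nat.card_pos hsupcard).ge
  have hKq : IsPGroup q K := hQK' ▸ hQp
  haveI : Group.IsSolvable K := isSolvable_of_isPGroup hKq
  exact Group.isSolvable_of_ker_le_range K.subtype (MonoidHom.transferSylow P hP) (by
    rw [Subgroup.range_subtype])

end helpers

theorem main {G : Type*} [Group G] [Finite G] (N : Subgroup G) [N.Normal] (hN : N ≠ ⊤)
    (h : ∀ x : G, x ∉ N → IsPrimePow (orderOf x) ∧ IsCoatom (Subgroup.centralizer ({x} : Set G))) :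
    Group.IsSolvable ↥N := by
  classical
  haveI := Fintype.ofFinite G
  obtain ⟨x, hx⟩ := SetLike.exists_not_mem_of_ne_top N hN rfl
  obtain ⟨hxp, hxc⟩ := h x hx
  obtain ⟨p, k, hp, hk, hpk⟩ := (isPrimePow_nat_iff _).1 hxp
  haveI : Fact p.Prime := ⟨hp⟩
  by_cases hNp : IsPGroup p N
  · exact isSolvable_of_isPGroup hNp
  have hnoS : ∀ Q : Sylow p G, ¬ N ≤ (Q : Subgroup G) := fun Q hQ => hNp (Q.isPGroup'.to_le hQ)
  have hCp := isPGroup_centralizer h hx hp hk hpk
  obtain ⟨P, hP⟩ := hCp.exists_le_sylow
  have hPne : (P : Subgroup G) ≠ ⊤ := fun e => hnoS P (e ▸ le_top)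
  have hPC : (P : Subgroup G) = Subgroup.centralizer ({x} : Set G) :=
    (hxc.le_iff.1 hP).resolve_left hPne
  have hPco : IsCoatom (P : Subgroup G) := hPC ▸ hxc
  have hxP : x ∈ (P : Subgroup G) := by
    rw [hPC, Subgroup.mem_centralizer_iff]
    rintro _ rfl
    rfl
  have hsup : (P : Subgroup G) ⊔ N = ⊤ := by
    apply hPco.2
    refine lt_of_le_of_ne le_sup_left fun heq => hnoS P ?_
    rw [heq]
    exact le_sup_right
  -- every element outside `N` has `p`-power order
  have hord : ∀ u : G, u ∉ N → ∃ e, 0 < e ∧ p ^ e = orderOf u := by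
    intro u hu
    obtain ⟨r, e, hr, he, hre⟩ := (isPrimePow_nat_iff _).1 (h u hu).1
    refine ⟨e, he, ?_⟩
    by_cases hrp : r = p
    · rw [← hrp]; exact hre
    exfalso
    have hidx : N.index ∣ Nat.card (P : Subgroup G) := by
      have e1 : N.index = N.relIndex P := by
        rw [← Subgroup.relIndex_sup_right (P : Subgroup G) N, hsup, Subgroup.relIndex_top_right]
      rw [e1]
      exact Subgroup.relIndex_dvd_card _ _
    obtain ⟨m, hm⟩ := P.isPGroup'.exists_card_eq
    have hco : (N.index).Coprime (orderOf u) := by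
      apply Nat.Coprime.coprime_dvd_left hidx
      rw [hm, ← hre]
      exact Nat.Coprime.pow _ _ ((Nat.coprime_primes hp hr).2 (Ne.symm hrp))
    exact hu (mem_of_pow_mem hco (Subgroup.pow_index_mem N u))
  -- centralizers of elements outside `N` are Sylow
  have hsyl : ∀ u : G, u ∉ N → ∃ Q : Sylow p G, (Q : Subgroup G) = Subgroup.centralizer ({u} : Set G) := by
    intro u hu
    obtain ⟨e, he, hpe⟩ := hord u hu
    obtain ⟨Q, hQ⟩ := (isPGroup_centralizer h hu hp he hpe).exists_le_sylow
    refine ⟨Q, (((h u hu).2.le_iff.1 hQ).resolve_left fun e => hnoS Q (e ▸ le_top))⟩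
  -- `P` normal or self-normalizing
  have hnorm : (P : Subgroup G) ≤ Subgroup.normalizer (P : Set G) := Subgroup.le_normalizer
  rcases hPco.le_iff.1 hnorm with hn | hn
  · haveI : (P : Subgroup G).Normal := Subgroup.normalizer_eq_top_iff.1 hn
    haveI : Group.IsSolvable (P : Subgroup G) := isSolvable_of_isPGroup P.isPGroup'
    haveI := solvable_of_coatom_normal hPco
    exact Group.isSolvable_of_isSolvable_injective N.subtype_injective
  -- counting
  set W : Finset G := Finset.univ.filter (fun z : G => z ∉ N ∧ Subgroup.centralizer ({z} : Set G) = P) with hW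
  set R : Finset G := Finset.univ.filter (fun z : G => z ∈ (P : Subgroup G) ∧ z ∉ N) with hR
  set S : Finset G := Finset.univ.filter (fun z : G => z ∉ N) with hS
  have hSR : S.card = (P : Subgroup G).index * R.card := card_not_mem_eq hsup
  have hWR : W ⊆ R := by
    intro z hz
    rw [hW, Finset.mem_filter] at hz
    rw [hR, Finset.mem_filter]
    refine ⟨Finset.mem_univ _, ?_, hz.2.1⟩
    rw [← hz.2.2, Subgroup.mem_centralizer_iff]
    rintro _ rfl
    rfl
  have hexg : ∀ Q : Sylow p G, ∃ g : G, g • P = Q := fun Q => MulAction.exists_smul_eq G P Q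
  choose g hg using hexg
  haveI : Fintype (Sylow p G) := Fintype.ofFinite _
  have hsub : S ⊆ (Finset.univ : Finset (Sylow p G)).biUnion
      (fun Q => W.image (fun z => g Q * z * (g Q)⁻¹)) := by
    intro u hu
    rw [hS, Finset.mem_filter] at hu
    obtain ⟨Q, hQ⟩ := hsyl u hu.2
    rw [Finset.mem_biUnion]
    refine ⟨Q, Finset.mem_univ _, ?_⟩
    rw [Finset.mem_image]
    refine ⟨(g Q)⁻¹ * u * g Q, ?_, by group⟩
    rw [hW, Finset.mem_filter]
    refine ⟨Finset.mem_univ _, ?_, ?_⟩
    · intro hmem
      apply hu.2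
      have := ‹N.Normal›.conj_mem _ hmem (g Q)
      simpa [mul_assoc] using this
    · ext y
      have e0 : y ∈ (P : Subgroup G) ↔ g Q * y * (g Q)⁻¹ ∈ (Q : Subgroup G) := by
        have hQ' : (Q : Subgroup G) = MulAut.conj (g Q) • (P : Subgroup G) := by
          rw [← Sylow.coe_subgroup_smul, hg]
        rw [hQ', Subgroup.mem_pointwise_smul_iff_inv_smul_mem]
        simp [MulAut.smul_def, MulAut.conj_inv_apply, mul_assoc]
      rw [e0, hQ, Subgroup.mem_centralizer_iff, Subgroup.mem_centralizer_iff]
      simp only [Set.mem_singleton_iff, forall_eq]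
      constructor
      · intro hc
        have := congrArg (fun t => g Q * t * (g Q)⁻¹) hc
        simp only [mul_assoc, mul_inv_cancel_left, mul_inv_cancel, mul_one] at this
        simpa [mul_assoc] using this
      · intro hc
        have := congrArg (fun t => (g Q)⁻¹ * t * (g Q)) hc
        simp only [mul_assoc, inv_mul_cancel_left, inv_mul_cancel, mul_one] at this
        simpa [mul_assoc] using this
  have hcount : S.card ≤ (P : Subgroup G).index * W.card := by
    have h1 := Finset.card_le_card hsub
    have h2 := Finset.card_biUnion_le_card_mul (Finset.univ : Finset (Sylow p G))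
      (fun Q => W.image (fun z => g Q * z * (g Q)⁻¹)) W.card
      (fun Q _ => Finset.card_image_le)
    have h3 : (Finset.univ : Finset (Sylow p G)).card = (P : Subgroup G).index := by
      rw [Finset.card_univ, ← Nat.card_eq_fintype_card, P.card_eq_index_normalizer]
      exact congrArg Subgroup.index hn
    rw [h3] at h2
    exact h1.trans h2
  have hRW : R.card ≤ W.card := by
    rw [hSR] at hcount
    exact Nat.le_of_mul_le_mul_left hcount (Nat.pos_of_ne_zero Subgroup.index_ne_zero_of_finite)
  have hWReq : W = R := Finset.eq_of_subset_of_card_le hWR hRW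
  have hallC : ∀ z ∈ (P : Subgroup G), z ∉ N → Subgroup.centralizer ({z} : Set G) = P := by
    intro z hzP hzN
    have : z ∈ R := by
      rw [hR, Finset.mem_filter]
      exact ⟨Finset.mem_univ _, hzP, hzN⟩
    rw [← hWReq, hW, Finset.mem_filter] at this
    exact this.2.2
  -- `P` is abelian
  have hcomm1 : ∀ y ∈ (P : Subgroup G), y ∉ N → ∀ z ∈ (P : Subgroup G), z * y = y * z := by
    intro y hy hyN z hz
    have hz' : z ∈ Subgroup.centralizer ({y} : Set G) := by rw [hallC y hy hyN]; exact hz
    rw [Subgroup.mem_centralizer_iff] at hz'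
    exact (hz' y rfl).symm
  have hab : ∀ a ∈ (P : Subgroup G), ∀ b ∈ (P : Subgroup G), a * b = b * a := by
    intro a ha b hb
    by_cases haN : a ∈ N
    · by_cases hbN : b ∈ N
      · have hxb : x * b ∉ N := fun hm => hx (by
          have := N.mul_mem hm (N.inv_mem hbN)
          simpa using this)
        have h1 := hcomm1 (x * b) (Subgroup.mul_mem _ hxP hb) hxb a ha
        have h2 := hcomm1 x hxP hx a ha
        -- a (x b) = (x b) a and a x = x a
        have : x * (a * b) = x * (b * a) := by
          calc x * (a * b) = (x * a) * b := by rw [mul_assoc]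
            _ = (a * x) * b := by rw [h2]
            _ = a * (x * b) := by rw [mul_assoc]
            _ = (x * b) * a := h1
            _ = x * (b * a) := by rw [mul_assoc]
        exact mul_left_cancel this
      · exact hcomm1 b hb hbN a ha
    · exact (hcomm1 a ha haN b hb).symm
  have hnc : Subgroup.normalizer (P : Set G) ≤ Subgroup.centralizer (P : Set G) := by
    rw [hn]
    intro a ha
    rw [Subgroup.mem_centralizer_iff]
    intro b hb
    exact hab b hb a ha
  haveI := solvable_of_abelian_coatom_sylow P hPco hnc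
  exact Group.isSolvable_of_isSolvable_injective N.subtype_injective

/-- Let N be a proper normal subgroup of the finite group G such that every element x of G outside N has prime power order and has centralizer C_G(x) a maximal subgroup of G. Then N is solvable. -/
theorem result {G : Type*} [Group G] [Finite G] (N : Subgroup G) [N.Normal] (hN : N ≠ ⊤)
    (h : ∀ x : G, x ∉ N → IsPrimePow (orderOf x) ∧ IsCoatom (Subgroup.centralizer ({x} : Set G))) : Group.IsSolvable ↥N := by
  exact main N hN h
end Cfsg.Agent.S3903
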