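import Cfsg.Statements.S3904
import Cfsg.Agent.Lib.CentMax.Main

set_option autoImplicit false
open Cfsg

namespace Cfsg.Agent.S3904

/-- Let G be a non-abelian finite group in which the centralizer of every non-central element is a maximal subgroup. Then G/Z(G) is either an elementary abelian p-group for some prime p, or a minimal non-abelian group (non-abelian with all proper subgroups abelian) of order p^a · q for distinct primes p, q with a normal Sylow p-subgroup. -/
theorem result {G : Type*} [Group G] [Finite G] (hna : ¬ IsMulCommutative G)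
    (h : ∀ x : G, x ∉ Subgroup.center G → IsCoatom (Subgroup.centralizer ({x} : Set G))) :
    (∃ p : ℕ, p.Prime ∧ Cfsg.IsElementaryAbelian p (⊤ : Subgroup (G ⧸ Subgroup.center G))) ∨
    (¬ IsMulCommutative (G ⧸ Subgroup.center G) ∧ (∀ H : Subgroup (G ⧸ Subgroup.center G), H ≠ ⊤ → IsMulCommutative ↥H) ∧
      ∃ p q a : ℕ, p.Prime ∧ q.Prime ∧ p ≠ q ∧ Nat.card (G ⧸ Subgroup.center G) = p ^ a * q ∧
        ∀ P : Subgroup (G ⧸ Subgroup.center G), Nat.card ↥P = p ^ a → P.Normal) := by
  by_cases hn : ∀ x : G, x ∉ Subgroup.center G → (Subgroup.centralizer ({x} : Set G)).Normal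
  · exact Or.inl (Cfsg.Agent.Lib.CentMax.Main.concl_of_normal h hn)
  · push Not at hn
    obtain ⟨w, hw, hwn⟩ := hn
    exact Or.inr (Cfsg.Agent.Lib.CentMax.Main.concl_of_not_normal h hw hwn)

end Cfsg.Agent.S3904
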