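import Cfsg.Statements.S3905
import Cfsg.Agent.Lib.MaxCent.Centerless
import Cfsg.Agent.Lib.Frobenius.DivisionRing
-- import your own Cfsg.Agent.* helpers here

set_option autoImplicit false
open Cfsg

namespace Cfsg.Agent.S3905

open Cfsg.Agent.Lib.MaxCent.Perfect Cfsg.Agent.Lib.MaxCent.Centerless
open Cfsg.Agent.Lib.Frobenius.Basic
open Cfsg.Agent.Lib.Frobenius.DivisionRing

section Transfer

variable {A B : Type*} [Group A] [Group B]

theorem frobProp_of_mulEquiv (e : B ≃* A) (h : FrobProp B) : FrobProp A := by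
  obtain ⟨Q, K, p, hp, hF, hc, hKn, hk, hab, hexp⟩ := h
  refine ⟨Q.map e.toMonoidHom, K.map e.toMonoidHom, p, hp, isFrobeniusComplement_map e hF, ?_, ?_, ?_, ?_, ?_⟩
  · rw [← Nat.card_congr (Q.equivMapOfInjective e.toMonoidHom e.injective).toEquiv]
    exact hc
  · exact hKn.map _ e.surjective
  · ext x
    have hx : x = e (e.symm x) := by simp
    obtain ⟨y, rfl⟩ := e.surjective x
    have h1 : e y ∈ ((K.map e.toMonoidHom : Subgroup A) : Set A) ↔ y ∈ (K : Set B) := by
      constructor
      · rintro ⟨z, hz, hzy⟩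
        have : z = y := e.injective hzy
        exact this ▸ hz
      · intro h
        exact ⟨y, h, rfl⟩
    rw [h1, hk]
    simp only [frobeniusKernel, Set.mem_ofPred_eq]
    constructor
    · rintro (h | h)
      · left
        rw [h, map_one]
      · right
        intro g hg
        rw [mem_conj_iff] at hg
        obtain ⟨z, hz, hzy⟩ := hg
        apply h (e.symm g)
        rw [mem_conj_iff]
        have : (e.symm g)⁻¹ * y * e.symm g = z := by
          apply e.injective
          rw [map_mul, map_mul, map_inv, MulEquiv.apply_symm_apply]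
          exact hzy.symm
        rw [this]
        exact hz
    · rintro (h | h)
      · left
        simpa using h
      · right
        intro g hg
        rw [mem_conj_iff] at hg
        apply h (e g)
        rw [mem_conj_iff]
        refine ⟨_, hg, ?_⟩
        simp
  · constructor
    constructor
    rintro ⟨_, a, ha, rfl⟩ ⟨_, b, hb, rfl⟩
    apply Subtype.ext
    show e a * e b = e b * e a
    rw [← map_mul, ← map_mul]
    congr 1
    have := hab.is_comm.comm ⟨a, ha⟩ ⟨b, hb⟩
    exact congrArg Subtype.val this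
  · rintro _ ⟨a, ha, rfl⟩
    show (e a) ^ p = 1
    rw [← map_pow, hexp a ha, map_one]

end Transfer

section CaseI

variable {G : Type*} [Group G] [Finite G]

theorem card_quotient_prime {H : Subgroup G} [H.Normal] (hH : IsCoatom H) :
    (Nat.card (G ⧸ H)).Prime := by
  have hnt : Nontrivial (G ⧸ H) := by
    rw [QuotientGroup.nontrivial_iff]
    exact hH.1
  have h1 : Nat.card (G ⧸ H) ≠ 1 := Finite.one_lt_card.ne'
  have hp := Nat.minFac_prime h1
  have : Fact (Nat.card (G ⧸ H)).minFac.Prime := ⟨hp⟩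
  obtain ⟨g, hg⟩ := exists_prime_orderOf_dvd_card' (Nat.card (G ⧸ H)).minFac (Nat.minFac_dvd _)
  have hg1 : g ≠ 1 := by
    rintro rfl
    rw [orderOf_one] at hg
    exact hp.one_lt.ne hg
  obtain ⟨g', rfl⟩ := QuotientGroup.mk_surjective g
  have hg'H : g' ∉ H := fun h => hg1 ((QuotientGroup.eq_one_iff g').2 h)
  have htop : (Subgroup.zpowers (g' : G ⧸ H)).comap (QuotientGroup.mk' H) = ⊤ := by
    apply hH.2
    apply lt_of_le_of_ne
    · intro x hx
      rw [Subgroup.mem_comap]
      have : (QuotientGroup.mk' H) x = 1 := (QuotientGroup.eq_one_iff x).2 hx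
      rw [this]
      exact Subgroup.one_mem _
    · intro h
      apply hg'H
      rw [h, Subgroup.mem_comap]
      exact Subgroup.mem_zpowers _
  have hz : Subgroup.zpowers (g' : G ⧸ H) = ⊤ := by
    rw [eq_top_iff]
    intro y _
    obtain ⟨y', rfl⟩ := QuotientGroup.mk_surjective y
    have : y' ∈ (Subgroup.zpowers (g' : G ⧸ H)).comap (QuotientGroup.mk' H) := by
      rw [htop]; trivial
    exact this
  have hc : Nat.card (G ⧸ H) = orderOf (g' : G ⧸ H) := by
    rw [← Nat.card_zpowers, hz, Subgroup.card_top]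
  rw [hc, hg]
  exact hp

/-- The easy case: all centralizers are normal. -/
theorem caseI (N : Subgroup G) [N.Normal]
    (h : ∀ x : G, x ∈ N → x ∉ Subgroup.centralizer (N : Set G) →
      IsCoatom (Subgroup.centralizer ({x} : Set G)))
    (hnorm : ∀ x : G, x ∈ N → x ∉ Subgroup.centralizer (N : Set G) →
      (Subgroup.centralizer ({x} : Set G)).Normal) :
    ∃ p : ℕ, p.Prime ∧ Cfsg.IsElementaryAbelian p (⊤ : Subgroup (↥N ⧸ Subgroup.center ↥N)) := by
  classical
  have hmemC : ∀ x : G, x ∈ Subgroup.centralizer (N : Set G) ↔ ∀ n ∈ N, n * x = x * n :=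
    fun x => Subgroup.mem_centralizer_iff
  -- prime index
  have ha : ∀ x ∈ N, x ∉ Subgroup.centralizer (N : Set G) → ∃ p : ℕ, p.Prime ∧
      (∀ g : G, g ^ p ∈ Y x) ∧ ∀ a b : G, a * b * a⁻¹ * b⁻¹ ∈ Y x := by
    intro x hx hxC
    have : (Y x).Normal := hnorm x hx hxC
    have hp := card_quotient_prime (h x hx hxC)
    refine ⟨_, hp, ?_, ?_⟩
    · intro g
      rw [← QuotientGroup.eq_one_iff, QuotientGroup.mk_pow]
      exact pow_card_eq_one'
    · have hcyc : IsCyclic (G ⧸ Y x) := isCyclic_of_prime_card (p := _) (hp := ⟨hp⟩) rfl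
      intro a b
      have hcomm : ((a : G ⧸ Y x) * (b : G ⧸ Y x)) = (b : G ⧸ Y x) * (a : G ⧸ Y x) :=
        hcyc.commGroup.mul_comm _ _
      rw [← QuotientGroup.eq_one_iff, QuotientGroup.mk_mul, QuotientGroup.mk_mul, QuotientGroup.mk_mul,
        QuotientGroup.mk_inv, QuotientGroup.mk_inv, hcomm]
      group
  -- commutators are central in `N`
  have hb : ∀ a ∈ N, ∀ b ∈ N, ∀ x ∈ N, x * (a * b * a⁻¹ * b⁻¹) = (a * b * a⁻¹ * b⁻¹) * x := by
    intro a ha' b hb' x hx
    have hcN : a * b * a⁻¹ * b⁻¹ ∈ N :=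
      N.mul_mem (N.mul_mem (N.mul_mem ha' hb') (N.inv_mem ha')) (N.inv_mem hb')
    by_cases hxC : x ∈ Subgroup.centralizer (N : Set G)
    · exact ((hmemC x).1 hxC _ hcN).symm
    · obtain ⟨p, -, -, h3⟩ := ha x hx hxC
      exact (mem_Y.1 (h3 a b)).symm.symm ▸ rfl
  -- powers
  have hc : ∀ x ∈ N, x ∉ Subgroup.centralizer (N : Set G) → ∃ p : ℕ, p.Prime ∧
      x ^ p ∈ Subgroup.centralizer (N : Set G) := by
    intro x hx hxC
    obtain ⟨p, hp, h1, -⟩ := ha x hx hxC
    refine ⟨p, hp, ?_⟩
    rw [hmemC]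
    intro g hg
    set c := x * g * x⁻¹ * g⁻¹ with hcdef
    have hcN : c ∈ N := N.mul_mem (N.mul_mem (N.mul_mem hx hg) (N.inv_mem hx)) (N.inv_mem hg)
    have hcc : ∀ y ∈ N, y * c = c * y := fun y hy => hb x hx g hg y hy
    have hxg : x * g * x⁻¹ = c * g := by
      rw [hcdef]
      group
    have hcomm : Commute c g := (hcc g hg).symm
    -- `c ^ p = 1`
    have h2 : x * g ^ p * x⁻¹ = c ^ p * g ^ p := by
      rw [← conj_pow, hxg, hcomm.mul_pow]
    have h3 : x * g ^ p * x⁻¹ = g ^ p := by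
      have : g ^ p * x = x * g ^ p := mem_Y.1 (h1 g)
      rw [← this]
      group
    have hcp : c ^ p = 1 := by
      rw [h3] at h2
      have : c ^ p * g ^ p = 1 * g ^ p := by rw [one_mul, ← h2]
      exact mul_right_cancel this
    have h4 : ∀ n : ℕ, x ^ n * g * (x ^ n)⁻¹ = c ^ n * g := by
      intro n
      induction n with
      | zero => simp
      | succ n ih =>
        have hxc : x * c ^ n = c ^ n * x := by
          have : Commute x c := hcc x hx
          exact (this.pow_right n)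
        calc x ^ (n + 1) * g * (x ^ (n + 1))⁻¹ = x * (x ^ n * g * (x ^ n)⁻¹) * x⁻¹ := by
              rw [pow_succ' x n, mul_inv_rev]
              group
          _ = x * (c ^ n * g) * x⁻¹ := by rw [ih]
          _ = (x * c ^ n) * g * x⁻¹ := by group
          _ = c ^ n * (x * g * x⁻¹) := by rw [hxc]; group
          _ = c ^ n * (c * g) := by rw [hxg]
          _ = c ^ (n + 1) * g := by rw [pow_succ]; group
    have h5 := h4 p
    rw [hcp, one_mul] at h5
    calc g * x ^ p = x ^ p * g * (x ^ p)⁻¹ * x ^ p := by rw [h5]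
      _ = x ^ p * g := by group
  -- the quotient
  have hmemZ : ∀ n : N, n ∈ Subgroup.center N ↔ (n : G) ∈ Subgroup.centralizer (N : Set G) := by
    intro n
    rw [Subgroup.mem_center_iff, hmemC]
    constructor
    · intro hn m hm
      exact congrArg Subtype.val (hn ⟨m, hm⟩)
    · intro hn m
      exact Subtype.ext (hn m m.2)
  have hd : IsMulCommutative (↥N ⧸ Subgroup.center ↥N) := by
    rw [Subgroup.Normal.quotient_commutative_iff_commutator_le, commutator_def, Subgroup.commutator_le]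
    intro a _ b _
    rw [hmemZ, hmemC]
    intro n hn
    exact hb a a.2 b b.2 n hn
  have he : ∀ a : (↥N ⧸ Subgroup.center ↥N), a ≠ 1 → (orderOf a).Prime := by
    intro a ha1
    obtain ⟨n, rfl⟩ := QuotientGroup.mk_surjective a
    have hnC : (n : G) ∉ Subgroup.centralizer (N : Set G) := by
      intro hC
      exact ha1 ((QuotientGroup.eq_one_iff n).2 ((hmemZ n).2 hC))
    obtain ⟨p, hp, hpow⟩ := hc n n.2 hnC
    have : Fact p.Prime := ⟨hp⟩
    have h1 : ((n : ↥N ⧸ Subgroup.center ↥N)) ^ p = 1 := by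
      rw [← QuotientGroup.mk_pow, QuotientGroup.eq_one_iff, hmemZ]
      simpa using hpow
    rw [orderOf_eq_prime h1 ha1]
    exact hp
  have hcomm : ∀ a b : (↥N ⧸ Subgroup.center ↥N), a * b = b * a := hd.is_comm.comm
  by_cases htriv : ∀ a : (↥N ⧸ Subgroup.center ↥N), a = 1
  · refine ⟨2, Nat.prime_two, ⟨⟨fun a b => Subtype.ext (hcomm _ _)⟩⟩, fun a _ => ?_⟩
    rw [htriv a, one_pow]
  push Not at htriv
  obtain ⟨a₀, ha₀⟩ := htriv
  have hp₀ := he a₀ ha₀
  refine ⟨orderOf a₀, hp₀, ⟨⟨fun a b => Subtype.ext (hcomm _ _)⟩⟩, fun b _ => ?_⟩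
  by_cases hb1 : b = 1
  · rw [hb1, one_pow]
  have hq := he b hb1
  have heq : orderOf b = orderOf a₀ := by
    by_contra hne
    have hcop : Nat.Coprime (orderOf a₀) (orderOf b) := (Nat.coprime_primes hp₀ hq).2 (Ne.symm hne)
    have hcm : Commute a₀ b := hcomm a₀ b
    have hord := hcm.orderOf_mul_eq_mul_orderOf_of_coprime hcop
    have hne1 : a₀ * b ≠ 1 := by
      intro h0
      rw [h0, orderOf_one] at hord
      have := Nat.eq_one_of_mul_eq_one_right hord.symm
      exact hp₀.one_lt.ne' this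
    have := he _ hne1
    rw [hord] at this
    exact Nat.not_prime_mul hp₀.ne_one hq.ne_one this
  rw [← heq]
  exact pow_orderOf_eq_one b

end CaseI

section CaseII

variable {G : Type*} [Group G] [Finite G]

/-- The main case: some centralizer is not normal. -/
theorem caseII (N : Subgroup G) [hNn : N.Normal]
    (h : ∀ x : G, x ∈ N → x ∉ Subgroup.centralizer (N : Set G) →
      IsCoatom (Subgroup.centralizer ({x} : Set G)))
    (x₀ : G) (hx₀N : x₀ ∈ N) (hx₀C : x₀ ∉ Subgroup.centralizer (N : Set G))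
    (hnn : ¬ (Subgroup.centralizer ({x₀} : Set G)).Normal) :
    FrobProp (↥N ⧸ Subgroup.center ↥N) := by
  classical
  set C : Subgroup G := Subgroup.centralizer (N : Set G) with hCdef
  have hCn : C.Normal := by
    rw [hCdef]
    infer_instance
  have hmemC : ∀ x : G, x ∈ C ↔ ∀ n ∈ N, n * x = x * n :=
    fun x => Subgroup.mem_centralizer_iff
  set H : Subgroup G := Y x₀ with hH
  have hHc : IsCoatom H := h x₀ hx₀N hx₀C
  set K : Subgroup G := H.normalCore with hK
  have hKH : K ≤ H := H.normalCore_le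
  have hKn : K.Normal := H.normalCore_normal
  have hCH : C ≤ H := fun c hc => mem_Y.2 (((hmemC c).1 hc) x₀ hx₀N).symm
  have hCK : C ≤ K := Subgroup.normal_le_normalCore.2 hCH
  -- Claim 1: the center of `G / K` is trivial
  have hc1 : ∀ g : G, (∀ t : G, t * g * t⁻¹ * g⁻¹ ∈ K) → g ∈ K := by
    intro g hg
    by_contra hgK
    have hgH : g ∉ H := by
      intro hgH
      apply hgK
      intro t
      have h2 : t * g * t⁻¹ = (t * g * t⁻¹ * g⁻¹) * g := by group
      rw [h2]
      exact H.mul_mem (hKH (hg t)) hgH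
    have hgn : g ∈ Subgroup.normalizer (H : Set G) := by
      rw [Subgroup.mem_set_normalizer_iff]
      intro y
      rw [SetLike.mem_coe, SetLike.mem_coe]
      constructor
      · intro hy
        have h2 : g * y * g⁻¹ = (y * g * y⁻¹ * g⁻¹)⁻¹ * y := by group
        rw [h2]
        exact H.mul_mem (H.inv_mem (hKH (hg y))) hy
      · intro hy
        have h3 := hKn.conj_mem _ (hg (g * y * g⁻¹)) g⁻¹
        have h2 : y = g⁻¹ * ((g * y * g⁻¹) * g * (g * y * g⁻¹)⁻¹ * g⁻¹) * g⁻¹⁻¹ * (g * y * g⁻¹) := by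
          group
        rw [h2]
        exact H.mul_mem (hKH h3) hy
    have hlt : H < Subgroup.normalizer (H : Set G) :=
      lt_of_le_of_ne Subgroup.le_normalizer (fun h2 => hgH (h2 ▸ hgn))
    apply hnn
    rw [← Subgroup.normalizer_eq_top_iff]
    exact hHc.2 _ hlt
  -- Claim 4
  have hc4 : ∀ r ∈ N, r ∉ K → K ≤ Y r := by
    intro r hrN hrK
    by_contra hle
    have hrC : r ∉ C := fun h2 => hrK (hCK h2)
    have hjoin := sup_eq_top_of_not_le (h r hrN hrC) hle
    apply hrK
    apply hc1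
    intro t
    obtain ⟨k, hk, c, hc, rfl⟩ := exists_mul_of_sup_eq_top hjoin t
    have hcr : c * r = r * c := mem_Y.1 hc
    have h2 : k * c * r * (k * c)⁻¹ * r⁻¹ = k * (r * k⁻¹ * r⁻¹) := by
      calc k * c * r * (k * c)⁻¹ * r⁻¹ = k * (c * r) * c⁻¹ * k⁻¹ * r⁻¹ := by group
        _ = k * (r * c) * c⁻¹ * k⁻¹ * r⁻¹ := by rw [hcr]
        _ = k * (r * k⁻¹ * r⁻¹) := by group
    rw [h2]
    exact K.mul_mem hk (hKn.conj_mem _ (K.inv_mem hk) r)
  have hNK : ∃ y ∈ N, y ∉ K := by
    by_contra hcon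
    push Not at hcon
    apply hx₀C
    rw [hmemC]
    intro n hn
    exact mem_Y.1 (hKH (hcon n hn))
  obtain ⟨y₀, hy₀N, hy₀K⟩ := hNK
  have hKC : K ≤ C := by
    intro k hk
    rw [hmemC]
    intro n hn
    by_cases hnK : n ∈ K
    · have h1 : n * y₀ ∈ N := N.mul_mem hn hy₀N
      have h2 : n * y₀ ∉ K := by
        intro h3
        apply hy₀K
        have : y₀ = n⁻¹ * (n * y₀) := by group
        rw [this]
        exact K.mul_mem (K.inv_mem hnK) h3
      have h3 : k * (n * y₀) = (n * y₀) * k := mem_Y.1 (hc4 _ h1 h2 hk)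
      have h4 : k * y₀ = y₀ * k := mem_Y.1 (hc4 _ hy₀N hy₀K hk)
      have h5 : k * n * y₀ = n * k * y₀ := by
        calc k * n * y₀ = k * (n * y₀) := by group
          _ = n * y₀ * k := h3
          _ = n * (y₀ * k) := by group
          _ = n * (k * y₀) := by rw [h4]
          _ = n * k * y₀ := by group
      exact (mul_right_cancel h5).symm
    · exact (mem_Y.1 (hc4 n hn hnK hk)).symm
  have hKeq : K = C := le_antisymm hKC hCK
  -- the quotient
  let f : G →* G ⧸ C := QuotientGroup.mk' C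
  have hfsurj : Function.Surjective f := QuotientGroup.mk'_surjective C
  have hf1 : ∀ g : G, f g = 1 ↔ g ∈ C := fun g => QuotientGroup.eq_one_iff g
  have hfcomm : ∀ a b : G, f a * f b = f b * f a ↔ a * b * a⁻¹ * b⁻¹ ∈ C := by
    intro a b
    rw [← hf1, map_mul, map_mul, map_mul, map_inv, map_inv]
    constructor
    · intro h2
      rw [h2]
      group
    · intro h2
      have h3 : f a * f b = (f a * f b * (f a)⁻¹ * (f b)⁻¹) * (f b * f a) := by group
      rw [h3, h2, one_mul]
  have hcc : ∀ g : G, (∀ t : G, f t * f g = f g * f t) → g ∈ C := by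
    intro g hg
    rw [← hKeq]
    apply hc1
    intro t
    exact hCK ((hfcomm t g).1 (hg t))
  let N₁ : Subgroup (G ⧸ C) := N.map f
  have hN₁n : N₁.Normal := hNn.map f hfsurj
  have hN₁1 : N₁ ≠ ⊥ := by
    intro hb
    have : f x₀ ∈ N₁ := ⟨x₀, hx₀N, rfl⟩
    rw [hb, Subgroup.mem_bot, hf1] at this
    exact hx₀C this
  -- `Z(N₁) = 1`
  have hZ : ∀ r ∈ N₁, (∀ n ∈ N₁, r * n = n * r) → r = 1 := by
    rintro _ ⟨r, hr, rfl⟩ hrc
    by_contra hr1
    have hrC : r ∉ C := fun h2 => hr1 ((hf1 r).2 h2)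
    let Q' : Subgroup G := N ⊓ (Subgroup.centralizer (N₁ : Set (G ⧸ C))).comap f
    have hQ'n : Q'.Normal := by
      have : (Subgroup.centralizer (N₁ : Set (G ⧸ C))).Normal := Subgroup.normal_centralizer
      have : ((Subgroup.centralizer (N₁ : Set (G ⧸ C))).comap f).Normal := Subgroup.Normal.comap this f
      exact Subgroup.normal_inf_normal _ _
    have hrQ : r ∈ Q' := by
      refine ⟨hr, ?_⟩
      show f r ∈ Subgroup.centralizer (N₁ : Set (G ⧸ C))
      rw [Subgroup.mem_centralizer_iff]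
      intro n hn
      exact (hrc n hn).symm
    have hnle : ¬ Q' ≤ H := by
      intro hle
      have := Subgroup.normal_le_normalCore.2 hle
      exact hrC (hKC (this hrQ))
    have hjoin := sup_eq_top_of_not_le hHc hnle
    apply hx₀C
    apply hKC
    apply hc1
    intro t
    obtain ⟨q, hq, c, hc, rfl⟩ := exists_mul_of_sup_eq_top hjoin t
    have hcx : c * x₀ = x₀ * c := mem_Y.1 hc
    have h2 : q * c * x₀ * (q * c)⁻¹ * x₀⁻¹ = q * x₀ * q⁻¹ * x₀⁻¹ := by
      calc q * c * x₀ * (q * c)⁻¹ * x₀⁻¹ = q * (c * x₀) * c⁻¹ * q⁻¹ * x₀⁻¹ := by group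
        _ = q * (x₀ * c) * c⁻¹ * q⁻¹ * x₀⁻¹ := by rw [hcx]
        _ = q * x₀ * q⁻¹ * x₀⁻¹ := by group
    rw [h2]
    apply hCK
    rw [← hfcomm]
    have h3 : f q ∈ Subgroup.centralizer (N₁ : Set (G ⧸ C)) := hq.2
    rw [Subgroup.mem_centralizer_iff] at h3
    exact (h3 (f x₀) ⟨x₀, hx₀N, rfl⟩).symm
  -- coatoms
  have hC₁ : ∀ r ∈ N₁, r ≠ 1 → IsCoatom (Y r) := by
    rintro _ ⟨r, hr, rfl⟩ hr1
    have hrC : r ∉ C := fun h2 => hr1 ((hf1 r).2 h2)
    have hcoat := h r hr hrC
    have hle : Y r ≤ (Y (f r)).comap f := by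
      intro g hg
      rw [Subgroup.mem_comap, mem_Y, ← map_mul, ← map_mul, mem_Y.1 hg]
    have hnt : (Y (f r)).comap f ≠ ⊤ := by
      intro htop
      apply hrC
      apply hcc
      intro t
      have : t ∈ (Y (f r)).comap f := by rw [htop]; trivial
      exact mem_Y.1 this
    have heq : Y r = (Y (f r)).comap f := by
      by_contra hne
      exact hnt (hcoat.2 _ (lt_of_le_of_ne hle hne))
    constructor
    · intro htop
      apply hnt
      rw [htop, Subgroup.comap_top]
    · intro T hT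
      have hle2 : (Y (f r)).comap f ≤ T.comap f := Subgroup.comap_mono hT.le
      have hne2 : (Y (f r)).comap f ≠ T.comap f := by
        intro he
        apply hT.ne
        apply Subgroup.comap_injective hfsurj
        exact he
      rw [← heq] at hle2 hne2
      have htop := hcoat.2 _ (lt_of_le_of_ne hle2 hne2)
      apply Subgroup.comap_injective hfsurj
      rw [htop, Subgroup.comap_top]
  have hFrob : FrobProp N₁ := frobProp hN₁1 hZ hC₁
  -- the isomorphism
  let φ : ↥N →* G ⧸ C := f.comp N.subtype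
  have hker : φ.ker = Subgroup.center ↥N := by
    ext n
    rw [MonoidHom.mem_ker, Subgroup.mem_center_iff]
    show f (n : G) = 1 ↔ _
    rw [hf1, hmemC]
    constructor
    · intro hn m
      exact Subtype.ext (hn m m.2)
    · intro hn m hm
      exact congrArg Subtype.val (hn ⟨m, hm⟩)
  have hrange : φ.range = N₁ := by
    ext y
    constructor
    · rintro ⟨n, rfl⟩
      exact ⟨n, n.2, rfl⟩
    · rintro ⟨n, hn, rfl⟩
      exact ⟨⟨n, hn⟩, rfl⟩
  let e : (↥N ⧸ Subgroup.center ↥N) ≃* ↥N₁ :=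
    (QuotientGroup.quotientMulEquivOfEq hker.symm).trans
      ((QuotientGroup.quotientKerEquivRange φ).trans (MulEquiv.subgroupCongr hrange))
  exact frobProp_of_mulEquiv e.symm hFrob

end CaseII

/-- Let N be a normal subgroup of the finite group G such that for every element x of N outside the center of N the centralizer C_G(x) is a maximal subgroup of G. Then N/Z(N) is either an elementary abelian p-group for some prime p, or a Frobenius group whose kernel is an elementary abelian normal subgroup and whose complement has prime order. -/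
theorem result {G : Type*} [Group G] [Finite G] (N : Subgroup G) [N.Normal]
    (h : ∀ x : G, x ∈ N → x ∉ Subgroup.centralizer (N : Set G) → IsCoatom (Subgroup.centralizer ({x} : Set G))) :
    (∃ p : ℕ, p.Prime ∧ Cfsg.IsElementaryAbelian p (⊤ : Subgroup (↥N ⧸ Subgroup.center ↥N))) ∨
    (∃ (Q K : Subgroup (↥N ⧸ Subgroup.center ↥N)) (p : ℕ), p.Prime ∧ Cfsg.IsFrobeniusComplement Q ∧ (Nat.card ↥Q).Prime ∧
      K.Normal ∧ (K : Set (↥N ⧸ Subgroup.center ↥N)) = Cfsg.frobeniusKernel Q ∧ Cfsg.IsElementaryAbelian p K) := by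
  by_cases hnorm : ∀ x : G, x ∈ N → x ∉ Subgroup.centralizer (N : Set G) →
      (Subgroup.centralizer ({x} : Set G)).Normal
  · exact Or.inl (caseI N h hnorm)
  · push Not at hnorm
    obtain ⟨x₀, hx₀N, hx₀C, hnn⟩ := hnorm
    exact Or.inr (caseII N h x₀ hx₀N hx₀C hnn)

end Cfsg.Agent.S3905
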