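import Cfsg.Statements.S3908
import Cfsg.Agent.Lib.PGroups.CyclicNormal
import Cfsg.Agent.Lib.PGroups.NormalRankTwo
import Cfsg.Agent.Lib.PGroups.Presentations
-- import your own Cfsg.Agent.* helpers here

set_option autoImplicit false
set_option linter.style.haveILetI false
open Cfsg

namespace Cfsg.Agent.S3908

/-- Under the conjugacy hypothesis, a subgroup of order `p ^ 2` of exponent `p` excludes elements
of order `p ^ 2`. -/
private theorem no_elt {G : Type*} [Group G] [Finite G]
    (hB : ∀ A B : Subgroup G, IsMulCommutative ↥A → IsMulCommutative ↥B → Nat.card ↥A = Nat.card ↥B → ∃ g : G, B = A.map (MulAut.conj g).toMonoidHom)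
    {p : ℕ} (hp : p.Prime) (E : Subgroup G) (hEc : IsMulCommutative ↥E) (hEe : ∀ a ∈ E, a ^ p = 1)
    (hEcard : Nat.card E = p ^ 2) (u : G) (hu : orderOf u = p ^ 2) : False := by
  have hcomm : IsMulCommutative ↥(Subgroup.zpowers u) := inferInstance
  obtain ⟨g, hg⟩ := hB E (Subgroup.zpowers u) hEc hcomm (by rw [hEcard, Nat.card_zpowers, hu])
  have hmem : u ∈ E.map (MulAut.conj g).toMonoidHom := hg ▸ Subgroup.mem_zpowers u
  obtain ⟨e, he, rfl⟩ := hmem
  have h1 : e ^ p = 1 := hEe e he
  have h2 : orderOf ((MulAut.conj g).toMonoidHom e) = orderOf e :=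
    orderOf_injective _ (MulAut.conj g).injective e
  rw [h2] at hu
  have h3 := orderOf_dvd_of_pow_eq_one h1
  rw [hu] at h3
  have h4 := Nat.le_of_dvd hp.pos h3
  have h5 : p * 2 ≤ p * p := Nat.mul_le_mul_left p hp.two_le
  nlinarith [hp.pos]

/-- An element outside exponent `p` gives an element of order `p ^ 2`. -/
private theorem exists_order_sq {G : Type*} [Group G] [Finite G] {p : ℕ} (hp : p.Prime) {P : Subgroup G}
    (hP : IsPGroup p P) {x : G} (hx : x ∈ P) (hxp : x ^ p ≠ 1) :
    ∃ u ∈ P, orderOf u = p ^ 2 := by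
  haveI : Fact p.Prime := ⟨hp⟩
  obtain ⟨k, hk⟩ := (hP ⟨x, hx⟩)
  have hk' : x ^ p ^ k = 1 := congrArg Subtype.val hk
  obtain ⟨j, -, hj⟩ := (Nat.dvd_prime_pow hp).mp (orderOf_dvd_of_pow_eq_one hk')
  have hj2 : 2 ≤ j := by
    by_contra hlt
    apply hxp
    have h1 : orderOf x ∣ p := by
      rw [hj]
      exact pow_dvd_pow_of_dvd (dvd_refl p) j |>.trans (by
        interval_cases j <;> simp) |> fun h => h
    exact orderOf_dvd_iff_pow_eq_one.mp h1
  refine ⟨x ^ p ^ (j - 2), P.pow_mem hx _, ?_⟩
  rw [orderOf_pow' _ (pow_ne_zero _ hp.ne_zero), hj, Nat.gcd_eq_right (pow_dvd_pow p (by omega))]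
  rw [Nat.pow_div (by omega) hp.pos]
  congr 1
  omega

/-- Two commuting distinct involutions generate a four-group. -/
private theorem klein {G : Type*} [Group G] (z t : G) (hzt : z * t = t * z) (hz : z ^ 2 = 1)
    (ht : t ^ 2 = 1) (hz1 : z ≠ 1) (ht1 : t ≠ 1) (hne : z ≠ t) :
    ∃ E : Subgroup G, IsMulCommutative ↥E ∧ (∀ a ∈ E, a ^ 2 = 1) ∧ Nat.card E = 2 ^ 2 := by
  classical
  have hzz : z * z = 1 := by rw [← sq]; exact hz
  have htt : t * t = 1 := by rw [← sq]; exact ht
  have h1 : z * (z * t) = t := by rw [← mul_assoc, hzz, one_mul]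
  have h2 : t * z = z * t := hzt.symm
  have h3 : t * (z * t) = z := by rw [← mul_assoc, h2, mul_assoc, htt, mul_one]
  have h4 : z * t * z = t := by rw [mul_assoc, h2, ← mul_assoc, hzz, one_mul]
  have h5 : z * t * t = z := by rw [mul_assoc, htt, mul_one]
  have h6 : z * t * (z * t) = 1 := by rw [← mul_assoc, h4, htt]
  have hzi : z⁻¹ = z := by rw [inv_eq_iff_mul_eq_one]; exact hzz
  have hti : t⁻¹ = t := by rw [inv_eq_iff_mul_eq_one]; exact htt
  let E : Subgroup G :=
    { carrier := {x | x = 1 ∨ x = z ∨ x = t ∨ x = z * t}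
      mul_mem' := by
        rintro a b (rfl | rfl | rfl | rfl) (rfl | rfl | rfl | rfl) <;>
          simp [h1, h2, h3, h4, h5, h6, hzz, htt]
      one_mem' := Or.inl rfl
      inv_mem' := by
        rintro a (rfl | rfl | rfl | rfl) <;> simp [hzi, hti, h2] }
  have hmem : ∀ x, x ∈ E ↔ x = 1 ∨ x = z ∨ x = t ∨ x = z * t := fun x => Iff.rfl
  refine ⟨E, ⟨⟨?_⟩⟩, ?_, ?_⟩
  · rintro ⟨a, ha⟩ ⟨b, hb⟩
    apply Subtype.ext
    rcases (hmem a).1 ha with rfl | rfl | rfl | rfl <;>
      rcases (hmem b).1 hb with rfl | rfl | rfl | rfl <;>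
        simp [h1, h2, h3, h4, h5, h6, hzz, htt]
  · intro a ha
    rcases (hmem a).1 ha with rfl | rfl | rfl | rfl <;> simp [sq, h6, hzz, htt]
  · let F : Finset G := {1, z, t, z * t}
    have hF : F.card = 4 := by
      rw [Finset.card_insert_of_notMem, Finset.card_insert_of_notMem, Finset.card_insert_of_notMem,
        Finset.card_singleton]
      · simp only [Finset.mem_singleton]
        intro h
        apply hz1
        have := mul_right_cancel (a := z) (b := t) (c := 1) (by rw [one_mul]; exact h.symm)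
        exact this
      · simp only [Finset.mem_insert, Finset.mem_singleton, not_or]
        refine ⟨hne, ?_⟩
        intro h
        apply ht1
        have := mul_left_cancel (a := z) (b := t) (c := 1) (by rw [mul_one]; exact h.symm)
        exact this
      · simp only [Finset.mem_insert, Finset.mem_singleton, not_or]
        refine ⟨hz1.symm, ht1.symm, ?_⟩
        intro h
        apply hne
        have h7 : z * t = z * z := by rw [← h, hzz]
        exact (mul_left_cancel h7).symm
    have h8 : Nat.card {x // x ∈ E} = F.card := Nat.subtype_card F (fun x => by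
      simp [F, hmem])
    rw [show Nat.card E = Nat.card {x // x ∈ E} from rfl, h8, hF]
    rfl

/-- Let G be a finite group in which any two abelian subgroups of the same order are conjugate. Then a Sylow 2-subgroup of G is cyclic, elementary abelian or generalized quaternion, and for an odd prime p a Sylow p-subgroup of G is cyclic or has exponent dividing p. -/
theorem result {G : Type*} [Group G] [Finite G] (hB : ∀ A B : Subgroup G, IsMulCommutative ↥A → IsMulCommutative ↥B → Nat.card ↥A = Nat.card ↥B → ∃ g : G, B = A.map (MulAut.conj g).toMonoidHom) :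
    (∀ P : Sylow 2 G, IsCyclic ↥(P : Subgroup G) ∨ Cfsg.IsElementaryAbelian 2 (P : Subgroup G) ∨ ∃ k : ℕ, Nonempty (↥(P : Subgroup G) ≃* QuaternionGroup (2 ^ k))) ∧
    ∀ (p : ℕ) [Fact p.Prime], p ≠ 2 → ∀ P : Sylow p G, IsCyclic ↥(P : Subgroup G) ∨ ∀ x ∈ (P : Subgroup G), x ^ p = 1 := by
  constructor
  · intro P
    haveI : Fact (Nat.Prime 2) := ⟨Nat.prime_two⟩
    by_cases hcyc : IsCyclic ↥(P : Subgroup G)
    · exact Or.inl hcyc
    right
    have hPp : IsPGroup 2 ↥(P : Subgroup G) := P.isPGroup'
    by_cases htwo : ∃ s t : ↥(P : Subgroup G), s ^ 2 = 1 ∧ t ^ 2 = 1 ∧ s ≠ 1 ∧ t ≠ 1 ∧ s ≠ t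
    · -- two involutions: elementary abelian
      left
      obtain ⟨s, t, hs, ht, hs1, ht1, hst⟩ := htwo
      haveI hnt : Nontrivial ↥(P : Subgroup G) := ⟨⟨s, 1, hs1⟩⟩
      obtain ⟨z, -, hz, hzo⟩ :=
        Cfsg.Agent.Lib.PGroups.Basic.exists_central_orderOf_eq hPp ⊤ top_ne_bot
      have hz2 : z ^ 2 = 1 := by
        have := pow_orderOf_eq_one z
        rwa [hzo] at this
      have hz1 : z ≠ 1 := by
        rintro rfl
        simp at hzo
      obtain ⟨w, hw2, hw1, hwz⟩ : ∃ w : ↥(P : Subgroup G), w ^ 2 = 1 ∧ w ≠ 1 ∧ w ≠ z := by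
        by_cases hsz : s = z
        · exact ⟨t, ht, ht1, fun h => hst (hsz.trans h.symm)⟩
        · exact ⟨s, hs, hs1, hsz⟩
      have hexp : ∀ x ∈ (P : Subgroup G), x ^ 2 = 1 := by
        intro x hx
        by_contra hxp
        obtain ⟨u, -, hu⟩ := exists_order_sq Nat.prime_two P.isPGroup' hx hxp
        obtain ⟨E, hEc, hEe, hEcard⟩ := klein (z : G) (w : G)
          (congrArg Subtype.val ((Subgroup.mem_center_iff.mp hz w).symm))
          (congrArg Subtype.val hz2) (congrArg Subtype.val hw2)
          (fun h => hz1 (Subtype.ext h)) (fun h => hw1 (Subtype.ext h))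
          (fun h => hwz (Subtype.ext h.symm))
        exact no_elt hB Nat.prime_two E hEc hEe hEcard u hu
      refine ⟨⟨⟨fun a b => Subtype.ext ?_⟩⟩, hexp⟩
      have ha := hexp a a.2
      have hb := hexp b b.2
      have hab := hexp ((a : G) * b) ((P : Subgroup G).mul_mem a.2 b.2)
      show (a : G) * b = b * a
      have h1 : (a : G)⁻¹ = a := by
        rw [inv_eq_iff_mul_eq_one, ← sq]; exact ha
      have h2 : (b : G)⁻¹ = b := by
        rw [inv_eq_iff_mul_eq_one, ← sq]; exact hb
      have h3 : ((a : G) * b)⁻¹ = a * b := by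
        rw [inv_eq_iff_mul_eq_one, ← sq]; exact hab
      rw [← h3, mul_inv_rev, h1, h2]
    · -- unique involution: quaternion
      right
      push Not at htwo
      have hn : ∀ A : Subgroup ↥(P : Subgroup G), A.Normal → IsMulCommutative A → IsCyclic A := by
        intro A _ hAc
        by_contra hAnc
        obtain ⟨x, y, hx, hy, hyx⟩ :=
          Cfsg.Agent.Lib.PGroups.NormalRankTwo.exists_two_independent_of_comm (G := A)
            (IsPGroup.to_subgroup hPp A) (fun a b => hAc.is_comm.comm a b) hAnc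
        have hx2 : x ^ 2 = 1 := by
          have := pow_orderOf_eq_one x
          rwa [hx] at this
        have hx1 : x ≠ 1 := by
          rintro rfl
          simp at hx
        have hy1 : y ≠ 1 := by
          rintro rfl
          exact hyx (Subgroup.one_mem _)
        have hxy : x ≠ y := by
          rintro rfl
          exact hyx (Subgroup.mem_zpowers _)
        exact hxy (Subtype.ext (htwo (x : ↥(P : Subgroup G)) (y : ↥(P : Subgroup G))
          (congrArg Subtype.val hx2)
          (congrArg Subtype.val hy) (fun h => hx1 (Subtype.ext h)) (fun h => hy1 (Subtype.ext h))))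
      obtain ⟨n, a, y, hn2, hao, hcard, hy, -, hcases⟩ :=
        Cfsg.Agent.Lib.PGroups.CyclicNormal.classify hPp hn hcyc
      have hn1 : 2 ^ n = 2 * 2 ^ (n - 1) := by
        rw [← pow_succ']
        congr 1
        omega
      have hinv : ∀ y' : ↥(P : Subgroup G), y' ^ 2 = 1 → y' ∉ Subgroup.zpowers a → False := by
        intro y' hy2 hy'
        have hz : a ^ 2 ^ (n - 1) ≠ 1 := by
          intro h
          have h1 := orderOf_dvd_of_pow_eq_one h
          rw [hao] at h1
          have h2 := (Nat.pow_dvd_pow_iff_le_right (by norm_num : 1 < 2)).mp h1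
          omega
        have hz2 : (a ^ 2 ^ (n - 1)) ^ 2 = 1 := by
          rw [← pow_mul, mul_comm, ← hn1, ← hao, pow_orderOf_eq_one]
        have hy1 : y' ≠ 1 := by
          rintro rfl
          exact hy' (Subgroup.one_mem _)
        have hne : a ^ 2 ^ (n - 1) ≠ y' := by
          rintro rfl
          exact hy' (Subgroup.pow_mem _ (Subgroup.mem_zpowers a) _)
        exact hne (htwo _ _ hz2 hy2 hz hy1)
      rcases hcases with ⟨hy2, hya⟩ | ⟨-, hy2, -⟩ | ⟨-, hy2, -⟩
      · haveI : NeZero (2 ^ (n - 1)) := ⟨by positivity⟩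
        obtain ⟨e⟩ := Cfsg.Agent.Lib.PGroups.Presentations.nonempty_quaternion_equiv
          (m := 2 ^ (n - 1)) (by rw [hao]; exact hn1) hy2 hya hy (by
            rw [hcard, pow_succ, hn1]
            ring)
        exact ⟨n - 1, ⟨e.symm⟩⟩
      · exact (hinv y hy2 hy).elim
      · exact (hinv y hy2 hy).elim
  · intro p _ hp2 P
    by_cases hcyc : IsCyclic ↥(P : Subgroup G)
    · exact Or.inl hcyc
    right
    intro x hx
    by_contra hxp
    have hp : p.Prime := Fact.out
    obtain ⟨u, -, hu⟩ := exists_order_sq hp P.isPGroup' hx hxp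
    obtain ⟨E, -, hEe, hEcard⟩ :=
      Cfsg.Agent.Lib.PGroups.NormalRankTwo.exists_normal_elementaryAbelian_sq hp2 P.isPGroup' hcyc
    let E' : Subgroup G := E.map (P : Subgroup G).subtype
    have hiso : E ≃* E' := E.equivMapOfInjective _ (P : Subgroup G).subtype_injective
    refine no_elt hB hp E' ?_ ?_ ?_ u hu
    · refine ⟨⟨fun a b => hiso.symm.injective ?_⟩⟩
      rw [map_mul, map_mul]
      exact hEe.1.is_comm.comm _ _
    · rintro a ⟨e, he, rfl⟩
      have := hEe.2 e he
      exact congrArg Subtype.val this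
    · rw [← Nat.card_congr hiso.toEquiv, hEcard]

end Cfsg.Agent.S3908
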