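import Cfsg.Statements.S3910

set_option autoImplicit false
open Cfsg

namespace Cfsg.Agent.S3910

section aux

variable {G : Type*} [Group G]

private lemma card_comap_mk [Finite G] (C : Subgroup G) [C.Normal] (H : Subgroup (G ⧸ C)) :
    Nat.card (H.comap (QuotientGroup.mk' C)) = Nat.card H * Nat.card C := by
  have h1 := Subgroup.card_mul_index (H.comap (QuotientGroup.mk' C))
  have h2 := Subgroup.card_mul_index H
  have h3 := Subgroup.card_mul_index C
  rw [Subgroup.index_comap_of_surjective _ (QuotientGroup.mk'_surjective C)] at h1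
  have h4 : C.index = Nat.card (G ⧸ C) := rfl
  have hi : H.index ≠ 0 := Subgroup.index_ne_zero_of_finite
  apply Nat.eq_of_mul_eq_mul_right (Nat.pos_of_ne_zero hi)
  rw [h1, mul_right_comm, h2, ← h4, mul_comm, h3]

private lemma mem_center_mk_iff (D : Subgroup G) [D.Normal] (x : G) :
    (QuotientGroup.mk' D x) ∈ Subgroup.center (G ⧸ D) ↔ ∀ y, x * y * x⁻¹ * y⁻¹ ∈ D := by
  constructor
  · intro h y
    have h1 := (Subgroup.mem_center_iff.mp h) (QuotientGroup.mk' D y)
    rw [← QuotientGroup.eq_one_iff]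
    have : (QuotientGroup.mk' D (x * y * x⁻¹ * y⁻¹)) = 1 := by
      simp only [map_mul, map_inv]
      rw [← h1]
      group
    exact this
  · intro h
    rw [Subgroup.mem_center_iff]
    intro y
    obtain ⟨y, rfl⟩ := QuotientGroup.mk'_surjective D y
    have h1 : (QuotientGroup.mk' D (x * y * x⁻¹ * y⁻¹)) = 1 := by
      exact (QuotientGroup.eq_one_iff _).mpr (h y)
    simp only [map_mul, map_inv] at h1
    have h2 := mul_inv_eq_one.mp h1
    have h3 := mul_inv_eq_iff_eq_mul.mp h2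
    exact h3.symm

private lemma exists_central_mod [Group.IsNilpotent G] (A D : Subgroup G) [A.Normal] [D.Normal]
    (h : ¬ A ≤ D) :
    ∃ x ∈ A, x ∉ D ∧ (QuotientGroup.mk' D x) ∈ Subgroup.center (G ⧸ D) := by
  classical
  obtain ⟨n, hn⟩ := Group.IsNilpotent.nilpotent (G := G)
  have hex : ∃ m, ∃ x ∈ A, x ∉ D ∧ x ∈ Subgroup.upperCentralSeries G m := by
    obtain ⟨x, hxA, hxD⟩ := Set.not_subset.mp h
    exact ⟨n, x, hxA, hxD, by rw [hn]; trivial⟩
  have hmin : ∀ {j}, j < Nat.find hex → ¬ _ := fun hj => Nat.find_min hex hj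
  obtain ⟨x, hxA, hxD, hxZ⟩ := Nat.find_spec hex
  rcases hcase : Nat.find hex with _ | k
  · rw [hcase] at hxZ
    exfalso
    have : x = 1 := by simpa using hxZ
    exact hxD (this ▸ D.one_mem)
  · rw [hcase] at hxZ
    refine ⟨x, hxA, hxD, ?_⟩
    rw [mem_center_mk_iff]
    intro y
    by_contra hcon
    have hcomm := (Subgroup.mem_upperCentralSeries_succ_iff.mp hxZ) y
    have hmemA : x * y * x⁻¹ * y⁻¹ ∈ A := by
      have h1 : y * x⁻¹ * y⁻¹ ∈ A := (inferInstance : A.Normal).conj_mem _ (A.inv_mem hxA) y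
      have : x * y * x⁻¹ * y⁻¹ = x * (y * x⁻¹ * y⁻¹) := by group
      rw [this]
      exact A.mul_mem hxA h1
    have hlt : k < Nat.find hex := by omega
    exact hmin hlt ⟨_, hmemA, hcon, hcomm⟩

private lemma exists_order_p {p : ℕ} (D : Subgroup G) [D.Normal]
    (x : G) (hpx : ∃ k, x ^ p ^ k = 1) (hx : x ∉ D)
    (hxc : (QuotientGroup.mk' D x) ∈ Subgroup.center (G ⧸ D)) :
    ∃ y : G, y ∈ Subgroup.zpowers x ∧ y ∉ D ∧ (QuotientGroup.mk' D y) ∈ Subgroup.center (G ⧸ D) ∧
      y ^ p ∈ D := by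
  classical
  have hex : ∃ k, x ^ p ^ k ∈ D := by
    obtain ⟨k, hk⟩ := hpx
    exact ⟨k, by rw [hk]; exact D.one_mem⟩
  have hmin : ∀ {j}, j < Nat.find hex → ¬ _ := fun hj => Nat.find_min hex hj
  have hspec := Nat.find_spec hex
  rcases hcase : Nat.find hex with _ | k
  · rw [hcase] at hspec
    exact absurd (by simpa using hspec) hx
  · rw [hcase] at hspec
    refine ⟨x ^ p ^ k, ?_, ?_, ?_, ?_⟩
    · exact Subgroup.npow_mem_zpowers _ _
    · exact hmin (by omega)
    · rw [map_pow]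
      exact Subgroup.pow_mem _ hxc _
    · rw [← pow_mul, ← pow_succ]
      exact hspec

private lemma mem_comap_zpowers (C : Subgroup G) [C.Normal] (x z : G)
    (hz : z ∈ (Subgroup.zpowers (QuotientGroup.mk' C x)).comap (QuotientGroup.mk' C)) :
    ∃ (k : ℤ) (c : G), c ∈ C ∧ z = c * x ^ k := by
  rw [Subgroup.mem_comap, Subgroup.mem_zpowers_iff] at hz
  obtain ⟨k, hk⟩ := hz
  refine ⟨k, z * (x ^ k)⁻¹, ?_, by group⟩
  rw [← map_zpow] at hk
  have := QuotientGroup.eq.mp hk
  have h2 := (inferInstance : C.Normal).conj_mem _ this (x ^ k)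
  have e : x ^ k * ((x ^ k)⁻¹ * z) * (x ^ k)⁻¹ = z * (x ^ k)⁻¹ := by group
  rwa [e] at h2

private lemma normal_comap_zpowers (C : Subgroup G) [C.Normal] (x : G)
    (hx : QuotientGroup.mk' C x ∈ Subgroup.center (G ⧸ C)) :
    ((Subgroup.zpowers (QuotientGroup.mk' C x)).comap (QuotientGroup.mk' C)).Normal := by
  have : (Subgroup.zpowers (QuotientGroup.mk' C x)).Normal := by
    constructor
    intro u hu g
    have hu' : u ∈ Subgroup.center (G ⧸ C) := by
      rw [Subgroup.mem_zpowers_iff] at hu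
      obtain ⟨k, rfl⟩ := hu
      exact Subgroup.zpow_mem _ hx k
    have : g * u * g⁻¹ = u := by
      rw [(Subgroup.mem_center_iff.mp hu') g]; group
    rw [this]; exact hu
  exact Subgroup.Normal.comap this _

private lemma card_comap_zpowers [Finite G] {p : ℕ} (hp : p.Prime) (C : Subgroup G) [C.Normal]
    (x : G) (hxC : x ∉ C) (hxp : x ^ p ∈ C) :
    Nat.card ((Subgroup.zpowers (QuotientGroup.mk' C x)).comap (QuotientGroup.mk' C))
      = p * Nat.card C := by
  have := Fact.mk hp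
  rw [card_comap_mk, Nat.card_zpowers]
  congr 1
  apply orderOf_eq_prime
  · rw [← map_pow]
    exact (QuotientGroup.eq_one_iff _).mpr hxp
  · intro h
    exact hxC ((QuotientGroup.eq_one_iff _).mp h)

end aux

private lemma sylow_comm {G : Type*} [Group G] [Finite G]
    (hB : ∀ A B : Subgroup G, IsMulCommutative ↥A → IsMulCommutative ↥B → Nat.card ↥A = Nat.card ↥B →
      ∃ g : G, B = A.map (MulAut.conj g).toMonoidHom)
    (hnil : Group.IsNilpotent G) {p : ℕ} [Fact p.Prime] (P : Sylow p G) :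
    ∀ a ∈ (P : Subgroup G), ∀ b ∈ (P : Subgroup G), a * b = b * a := by
  classical
  have hp : p.Prime := Fact.out
  have hPn : (P : Subgroup G).Normal := inferInstance
  have hpow : ∀ x ∈ (P : Subgroup G), ∃ k, x ^ p ^ k = 1 := by
    intro x hx
    obtain ⟨k, hk⟩ := P.isPGroup' ⟨x, hx⟩
    exact ⟨k, by simpa [Subtype.ext_iff] using hk⟩
  -- maximal normal abelian subgroup of `P`
  let 𝓧 : Set (Subgroup G) :=
    {A | A ≤ P ∧ A.Normal ∧ ∀ a ∈ A, ∀ b ∈ A, a * b = b * a}
  have hbot : (⊥ : Subgroup G) ∈ 𝓧 := by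
    refine ⟨bot_le, inferInstance, ?_⟩
    intro a ha b hb
    rw [Subgroup.mem_bot] at ha hb
    simp [ha, hb]
  obtain ⟨A, -, hAmax⟩ := (Set.toFinite 𝓧).exists_le_maximal hbot
  obtain ⟨hAP, hAn, hAc⟩ := hAmax.prop
  have := hAn
  by_cases hPA : (P : Subgroup G) ≤ A
  · intro a ha b hb
    exact hAc a (hPA ha) b (hPA hb)
  exfalso
  obtain ⟨x₀, hx₀P, hx₀A, hx₀c⟩ := exists_central_mod (P : Subgroup G) A hPA
  obtain ⟨g, hgz, hgA, hgc, hgp⟩ := exists_order_p (p := p) A x₀ (hpow x₀ hx₀P) hx₀A hx₀c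
  have hgP : g ∈ (P : Subgroup G) := by
    obtain ⟨k, rfl⟩ := Subgroup.mem_zpowers_iff.mp hgz
    exact Subgroup.zpow_mem _ hx₀P k
  have hgcomm : ∀ t : G, g * t * g⁻¹ * t⁻¹ ∈ A := (mem_center_mk_iff A g).mp hgc
  -- the centraliser of `g` in `A`
  let C : Subgroup G := A ⊓ Subgroup.centralizer {g}
  have hmemC : ∀ c, c ∈ C ↔ c ∈ A ∧ c * g = g * c := by
    intro c
    constructor
    · rintro ⟨h1, h2⟩
      refine ⟨h1, ?_⟩
      have := Subgroup.mem_centralizer_iff.mp h2 g (by simp)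
      exact this.symm
    · rintro ⟨h1, h2⟩
      refine ⟨h1, Subgroup.mem_centralizer_iff.mpr ?_⟩
      intro h hh
      rw [Set.mem_singleton_iff] at hh
      subst hh
      exact h2.symm
  have hCn : C.Normal := by
    constructor
    intro c hc t
    rw [hmemC] at hc ⊢
    obtain ⟨hcA, hcg⟩ := hc
    refine ⟨hAn.conj_mem c hcA t, ?_⟩
    -- `t⁻¹ g t = a g` with `a ∈ A`
    have hz : t⁻¹ * g * t * g⁻¹ ∈ A := by
      have h1 := A.inv_mem (hgcomm t⁻¹)
      have e : (g * t⁻¹ * g⁻¹ * t⁻¹⁻¹)⁻¹ = t⁻¹ * g * t * g⁻¹ := by group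
      rwa [e] at h1
    have hca := hAc c hcA _ hz
    have e1 : t * c * t⁻¹ * g = t * (c * (t⁻¹ * g * t * g⁻¹) * g) * t⁻¹ := by
      group
    have e2 : g * (t * c * t⁻¹) = t * ((t⁻¹ * g * t * g⁻¹) * (g * c)) * t⁻¹ := by group
    rw [e1, e2, hca, mul_assoc _ c g, hcg, mul_assoc]
  have := hCn
  have hCA : C ≤ A := inf_le_left
  -- `B = C⟨g⟩`
  set B : Subgroup G := (Subgroup.zpowers (QuotientGroup.mk' C g)).comap (QuotientGroup.mk' C) with hBdef
  have hgB : g ∈ B := by
    rw [hBdef, Subgroup.mem_comap]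
    exact Subgroup.mem_zpowers _
  have hgC : g ∉ C := fun h => hgA (hCA h)
  have hgpC : g ^ p ∈ C := by
    rw [hmemC]
    exact ⟨hgp, by rw [← pow_succ, pow_succ']⟩
  have hBcard : Nat.card B = p * Nat.card C := card_comap_zpowers hp C g hgC hgpC
  have hBcomm : IsMulCommutative B := by
    refine ⟨⟨fun x y => ?_⟩⟩
    ext
    obtain ⟨k, c, hc, hx⟩ := mem_comap_zpowers C g x.1 x.2
    obtain ⟨l, d, hd, hy⟩ := mem_comap_zpowers C g y.1 y.2
    obtain ⟨hcA, hcg⟩ := (hmemC c).mp hc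
    obtain ⟨hdA, hdg⟩ := (hmemC d).mp hd
    have hcgc : Commute c (g ^ l) := Commute.zpow_right hcg l
    have hdgc : Commute d (g ^ k) := Commute.zpow_right hdg k
    have hcd : Commute c d := hAc c hcA d hdA
    have hgg : Commute (g ^ k) (g ^ l) := (Commute.refl g).zpow_zpow k l
    show x.1 * y.1 = y.1 * x.1
    rw [hx, hy]
    calc c * g ^ k * (d * g ^ l) = c * (g ^ k * d) * g ^ l := by group
      _ = c * (d * g ^ k) * g ^ l := by rw [hdgc.eq.symm]
      _ = d * c * (g ^ k * g ^ l) := by rw [← mul_assoc, hcd.eq]; group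
      _ = d * (c * g ^ l) * g ^ k := by rw [hgg.eq]; group
      _ = d * (g ^ l * c) * g ^ k := by rw [hcgc.eq]
      _ = d * g ^ l * (c * g ^ k) := by group
  -- `A` does not centralise `g`, otherwise `A⟨g⟩` is larger
  have hAC : ¬ A ≤ C := by
    intro hle
    have hgAcomm : ∀ a ∈ A, a * g = g * a := fun a ha => ((hmemC a).mp (hle ha)).2
    set H : Subgroup G := (Subgroup.zpowers (QuotientGroup.mk' A g)).comap (QuotientGroup.mk' A) with hH
    have hHmem : H ∈ 𝓧 := by
      refine ⟨?_, normal_comap_zpowers A g hgc, ?_⟩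
      · intro z hz
        obtain ⟨k, c, hc, rfl⟩ := mem_comap_zpowers A g z hz
        exact Subgroup.mul_mem _ (hAP hc) (Subgroup.zpow_mem _ hgP k)
      · intro x hx y hy
        obtain ⟨k, c, hc, hx⟩ := mem_comap_zpowers A g x hx
        obtain ⟨l, d, hd, hy⟩ := mem_comap_zpowers A g y hy
        have hcgc : Commute c (g ^ l) := Commute.zpow_right (hgAcomm c hc) l
        have hdgc : Commute d (g ^ k) := Commute.zpow_right (hgAcomm d hd) k
        have hcd : Commute c d := hAc c hc d hd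
        have hgg : Commute (g ^ k) (g ^ l) := (Commute.refl g).zpow_zpow k l
        rw [hx, hy]
        calc c * g ^ k * (d * g ^ l) = c * (g ^ k * d) * g ^ l := by group
          _ = c * (d * g ^ k) * g ^ l := by rw [hdgc.eq.symm]
          _ = d * c * (g ^ k * g ^ l) := by rw [← mul_assoc, hcd.eq]; group
          _ = d * (c * g ^ l) * g ^ k := by rw [hgg.eq]; group
          _ = d * (g ^ l * c) * g ^ k := by rw [hcgc.eq]
          _ = d * g ^ l * (c * g ^ k) := by group
    have hAH : A ≤ H := by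
      intro a ha
      rw [hH, Subgroup.mem_comap]
      have : QuotientGroup.mk' A a = 1 := (QuotientGroup.eq_one_iff _).mpr ha
      rw [this]
      exact Subgroup.one_mem _
    have hHA := hAmax.le_of_ge hHmem hAH
    apply hgA
    apply hHA
    rw [hH, Subgroup.mem_comap]
    exact Subgroup.mem_zpowers _
  -- `D = C⟨y⟩ ≤ A`
  obtain ⟨y₀, hy₀A, hy₀C, hy₀c⟩ := exists_central_mod A C hAC
  obtain ⟨y, hyz, hyC, hyc, hyp⟩ := exists_order_p (p := p) C y₀ (hpow y₀ (hAP hy₀A)) hy₀C hy₀c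
  have hyA : y ∈ A := by
    obtain ⟨k, rfl⟩ := Subgroup.mem_zpowers_iff.mp hyz
    exact Subgroup.zpow_mem _ hy₀A k
  set D : Subgroup G := (Subgroup.zpowers (QuotientGroup.mk' C y)).comap (QuotientGroup.mk' C) with hDdef
  have hDcard : Nat.card D = p * Nat.card C := card_comap_zpowers hp C y hyC hyp
  have hDn : D.Normal := normal_comap_zpowers C y hyc
  have hDA : D ≤ A := by
    intro z hz
    obtain ⟨k, c, hc, rfl⟩ := mem_comap_zpowers C y z hz
    exact A.mul_mem (hCA hc) (A.zpow_mem hyA k)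
  have hDcomm : IsMulCommutative D := by
    refine ⟨⟨fun x y => ?_⟩⟩
    ext
    exact hAc _ (hDA x.2) _ (hDA y.2)
  obtain ⟨h, hh⟩ := hB D B hDcomm hBcomm (by rw [hDcard, hBcard])
  have hgD : g ∈ D := by
    have : g ∈ D.map (MulAut.conj h).toMonoidHom := hh ▸ hgB
    obtain ⟨z, hz, hzg⟩ := this
    rw [← hzg]
    exact hDn.conj_mem z hz h
  exact hgA (hDA hgD)

/-- A finite nilpotent group in which any two abelian subgroups of the same order are conjugate is cyclic. -/
theorem result {G : Type*} [Group G] [Finite G] (hB : ∀ A B : Subgroup G, IsMulCommutative ↥A → IsMulCommutative ↥B → Nat.card ↥A = Nat.card ↥B → ∃ g : G, B = A.map (MulAut.conj g).toMonoidHom) (hnil : Group.IsNilpotent G) : IsCyclic G := by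
  have hprime : ∀ p : (Nat.card G).primeFactors, Fact (p : ℕ).Prime := fun p =>
    ⟨Nat.prime_of_mem_primeFactors p.2⟩
  obtain ⟨ϕ⟩ := ((Group.isNilpotent_of_finite_tfae (G := G)).out 0 4).mp hnil
  have hcomm : ∀ x y : G, x * y = y * x := by
    intro x y
    apply ϕ.symm.injective
    rw [map_mul, map_mul]
    funext p P
    ext
    have := hprime p
    exact sylow_comm hB hnil P _ (ϕ.symm x p P).2 _ (ϕ.symm y p P).2
  let _ : CommGroup G := { (inferInstance : Group G) with mul_comm := hcomm }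
  have hconj : ∀ A B : Subgroup G, Nat.card A = Nat.card B → B = A := by
    intro A B hAB
    obtain ⟨g, hg⟩ := hB A B inferInstance inferInstance hAB
    rw [hg]
    ext z
    constructor
    · rintro ⟨w, hw, rfl⟩
      have : (MulAut.conj g).toMonoidHom w = w := by
        simp [MulAut.conj_apply, hcomm g w]
      rwa [this]
    · intro hz
      refine ⟨z, hz, ?_⟩
      simp [MulAut.conj_apply, hcomm g z]
  have he : Monoid.ExponentExists G := ⟨Nat.card G, Nat.card_pos, fun g => pow_card_eq_one'⟩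
  obtain ⟨x, hx⟩ := Monoid.exists_orderOf_eq_exponent he
  refine isCyclic_iff_exists_zpowers_eq_top.mpr ⟨x, ?_⟩
  rw [eq_top_iff]
  intro y _
  have hdvd : orderOf y ∣ orderOf x := by
    rw [hx]; exact Monoid.order_dvd_exponent y
  have hord : orderOf (x ^ (orderOf x / orderOf y)) = orderOf y := by
    have hd : orderOf x / orderOf y ∣ orderOf x := Nat.div_dvd_of_dvd hdvd
    have hpos : orderOf x / orderOf y ≠ 0 := by
      have h1 := Nat.pos_of_ne_zero (orderOf_pos x).ne'
      have h2 := Nat.div_pos (Nat.le_of_dvd h1 hdvd) (orderOf_pos y)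
      omega
    rw [orderOf_pow_of_dvd hpos hd]
    exact Nat.div_div_self hdvd (orderOf_pos x).ne'
  have heq := hconj (Subgroup.zpowers (x ^ (orderOf x / orderOf y))) (Subgroup.zpowers y)
    (by rw [Nat.card_zpowers, Nat.card_zpowers, hord])
  have hy : y ∈ Subgroup.zpowers (x ^ (orderOf x / orderOf y)) := by
    rw [← heq]; exact Subgroup.mem_zpowers y
  exact (Subgroup.zpowers_le.mpr (Subgroup.npow_mem_zpowers x _)) hy

end Cfsg.Agent.S3910
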