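import Cfsg.Statements.S3911
import Cfsg.Agent.Lib.BN.Quot

set_option autoImplicit false
open Cfsg

namespace Cfsg.Agent.S3911

/-- Let G be a finite group in which any two abelian subgroups of the same order are conjugate. If M is a normal subgroup of G of odd order, then any two abelian subgroups of G/M of the same order are conjugate in G/M. -/
theorem result {G : Type*} [Group G] [Finite G] (hB : ∀ A B : Subgroup G, IsMulCommutative ↥A → IsMulCommutative ↥B → Nat.card ↥A = Nat.card ↥B → ∃ g : G, B = A.map (MulAut.conj g).toMonoidHom) (M : Subgroup G) [M.Normal] (hM : Odd (Nat.card ↥M)) :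
    ∀ A B : Subgroup (G ⧸ M), IsMulCommutative ↥A → IsMulCommutative ↥B → Nat.card ↥A = Nat.card ↥B →
      ∃ g : G ⧸ M, B = A.map (MulAut.conj g).toMonoidHom := by
  intro A B hA hB' hAB
  have key : ∀ A : Subgroup (G ⧸ M), IsMulCommutative ↥A → ∀ p : ℕ, p.Prime → ∀ D ≤ A, IsPGroup p D →
      D ≠ ⊥ → Cfsg.Agent.Lib.BN.Lift.GoodP M p D := by
    intro A hA p hp D hDA hDp hDne
    haveI : Fact p.Prime := ⟨hp⟩
    have hDc := Cfsg.Agent.Lib.BN.Quot.isMulCommutative_of_le hDA hA
    by_cases hp2 : p = 2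
    · subst hp2
      refine Cfsg.Agent.Lib.BN.Lift.goodP_of_not_dvd M ?_ hDc hDp hDne
      intro h2
      rcases hM with ⟨k, hk⟩
      omega
    · exact Cfsg.Agent.Lib.BN.Quot.goodP_odd M hB hp2 hDc hDp hDne
  exact Cfsg.Agent.Lib.BN.Quot.conj_of_goodP M hB hA hB' hAB (key A hA) (key B hB')

end Cfsg.Agent.S3911
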