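import Cfsg.Statements.S3912
import Cfsg.Agent.Lib.BN.Quot

set_option autoImplicit false
set_option linter.style.haveILetI false
set_option linter.unusedSectionVars false
open Cfsg

namespace Cfsg.Agent.S3912

open Subgroup Cfsg.Agent.Lib.BN.Lift Cfsg.Agent.Lib.BN.Quot
open scoped commutatorElement

/-- Two elements of order four with a power of the commutator of order four rule out solvability. -/
private theorem no_order_four {G : Type*} [Group G] [Finite G] (hB : BNProp G)
    (hsol : Group.IsSolvable G) (u v : G) (hu : orderOf u = 4) (hv : orderOf v = 4) (t : ℕ)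
    (ht : orderOf (⁅u, v⁆ ^ t) = 4) : False := by
  have h : ∀ i, ∃ x ∈ derivedSeries G i, orderOf x = 4 := by
    intro i
    induction i with
    | zero => exact ⟨u, by simp, hu⟩
    | succ i ih =>
      obtain ⟨x, hx, hxo⟩ := ih
      have hm := (Cfsg.Agent.S3909.result hB (derivedSeries G i)).1
      have hum : u ∈ derivedSeries G i := hm u ⟨x, hx, by rw [hxo, hu]⟩
      have hvm : v ∈ derivedSeries G i := hm v ⟨x, hx, by rw [hxo, hv]⟩
      refine ⟨⁅u, v⁆ ^ t, ?_, ht⟩
      rw [derivedSeries_succ]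
      exact Subgroup.pow_mem _ (Subgroup.commutator_mem_commutator hum hvm) t
  obtain ⟨n, hn⟩ := hsol.solvable
  obtain ⟨x, hx, hxo⟩ := h n
  rw [hn, Subgroup.mem_bot] at hx
  subst hx
  simp at hxo

private theorem quat_comm (n : ℕ) :
    ⁅(QuaternionGroup.xa 0 : QuaternionGroup n), (QuaternionGroup.xa 1 : QuaternionGroup n)⁆ =
      QuaternionGroup.a 2 := by
  have hinv : ∀ i : ZMod (2 * n), (QuaternionGroup.xa i : QuaternionGroup n)⁻¹ =
      QuaternionGroup.xa ((n : ZMod (2 * n)) + i) := fun i => rfl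
  rw [commutatorElement_def]
  simp only [hinv, QuaternionGroup.xa_mul_xa, QuaternionGroup.a_mul_xa]
  congr 1
  have h : ((2 * n : ℕ) : ZMod (2 * n)) = 0 := ZMod.natCast_self _
  push_cast at h
  linear_combination h

private theorem no_big_quaternion {G : Type*} [Group G] [Finite G] (hB : BNProp G)
    (hsol : Group.IsSolvable G) (P : Subgroup G) (k : ℕ)
    (φ : P ≃* QuaternionGroup (2 ^ (k + 2))) : False := by
  let f : QuaternionGroup (2 ^ (k + 2)) →* G := P.subtype.comp φ.symm.toMonoidHom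
  have hf : Function.Injective f := P.subtype_injective.comp φ.symm.injective
  have ho : ∀ x, orderOf (f x) = orderOf x := fun x => orderOf_injective f hf x
  refine no_order_four hB hsol (f (QuaternionGroup.xa 0)) (f (QuaternionGroup.xa 1)) ?_ ?_ (2 ^ k) ?_
  · rw [ho, QuaternionGroup.orderOf_xa]
  · rw [ho, QuaternionGroup.orderOf_xa]
  · rw [← map_commutatorElement, ← map_pow, ho, quat_comm]
    have h2 : (QuaternionGroup.a 2 : QuaternionGroup (2 ^ (k + 2))) = QuaternionGroup.a 1 ^ 2 := by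
      rw [QuaternionGroup.a_one_pow]
      norm_num
    rw [h2, ← pow_mul, orderOf_pow_of_dvd (by positivity), QuaternionGroup.orderOf_a_one]
    · rw [show 2 * 2 ^ (k + 2) = 4 * (2 * 2 ^ k) by ring]
      exact Nat.mul_div_cancel _ (by positivity)
    · rw [QuaternionGroup.orderOf_a_one]
      exact ⟨4, by ring⟩

section q8

variable {G : Type*} [Group G] [Finite G] (M : Subgroup G) [hM : M.Normal]

/-- The shape of the Sylow `2`-subgroups in the remaining case. -/
private def Q8Shape (G : Type*) [Group G] : Prop :=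
  ∀ P : Sylow 2 G, Nat.card P = 8 ∧ ∃ z ∈ (P : Subgroup G), z ≠ 1 ∧ z ^ 2 = 1 ∧
    (∃ y ∈ (P : Subgroup G), y ^ 2 = z) ∧ ∀ x ∈ (P : Subgroup G), x = 1 ∨ x = z ∨ x ^ 2 = z

private theorem q8Shape_of_equiv (P₀ : Sylow 2 G) (φ : P₀ ≃* QuaternionGroup 2) : Q8Shape G := by
  intro P
  let ψ : P ≃* QuaternionGroup 2 := (P.equiv P₀).trans φ
  refine ⟨?_, ?_⟩
  · rw [Nat.card_congr ψ.toEquiv, Nat.card_eq_fintype_card, QuaternionGroup.card]
  · have hinj : Function.Injective (fun x : QuaternionGroup 2 => ((ψ.symm x : P) : G)) :=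
      Subtype.val_injective.comp ψ.symm.injective
    have hfmul : ∀ x y : QuaternionGroup 2, ((ψ.symm (x * y) : P) : G) =
        ((ψ.symm x : P) : G) * ((ψ.symm y : P) : G) := by
      intro x y
      rw [map_mul]
      rfl
    have hfpow : ∀ x : QuaternionGroup 2, ((ψ.symm x : P) : G) ^ 2 = ((ψ.symm (x ^ 2) : P) : G) := by
      intro x
      rw [pow_two, pow_two, hfmul]
    refine ⟨((ψ.symm (QuaternionGroup.a 2) : P) : G), (ψ.symm _).2, ?_, ?_, ⟨_, (ψ.symm (QuaternionGroup.xa 0)).2, ?_⟩, ?_⟩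
    · intro h
      have h1 : ψ.symm (QuaternionGroup.a 2) = 1 := Subtype.ext h
      have h2 : (QuaternionGroup.a 2 : QuaternionGroup 2) = 1 := by
        simpa using h1
      revert h2
      decide
    · rw [hfpow]
      have h3 : (QuaternionGroup.a 2 : QuaternionGroup 2) ^ 2 = 1 := by decide
      rw [h3, map_one]
      rfl
    · rw [hfpow]
      have h3 : (QuaternionGroup.xa 0 : QuaternionGroup 2) ^ 2 = QuaternionGroup.a 2 := by decide
      rw [h3]
    · intro x hx
      have hkey : ∀ w : QuaternionGroup 2, w = 1 ∨ w = QuaternionGroup.a 2 ∨ w ^ 2 = QuaternionGroup.a 2 := by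
        decide
      have hxe : x = ((ψ.symm (ψ ⟨x, hx⟩) : P) : G) := by simp
      rcases hkey (ψ ⟨x, hx⟩) with h | h | h
      · left
        rw [hxe, h, map_one]
        rfl
      · right
        left
        rw [hxe, h]
      · right
        right
        rw [hxe, hfpow, h]

variable (hS : Q8Shape G) (hB : BNProp G) (hM2 : 2 ∣ Nat.card M) (hM4 : ∀ m ∈ M, orderOf m ≠ 4)

private theorem orderOf_eq_two_of {z : G} (h1 : z ≠ 1) (h2 : z ^ 2 = 1) : orderOf z = 2 :=
  orderOf_eq_prime h2 h1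

private theorem orderOf_eq_four_of {x z : G} (h1 : z ≠ 1) (h2 : z ^ 2 = 1) (h3 : x ^ 2 = z) :
    orderOf x = 4 := by
  have : orderOf x = 2 ^ (1 + 1) := by
    apply orderOf_eq_prime_pow
    · rw [pow_one, h3]
      exact h1
    · rw [pow_succ, pow_one, pow_mul, h3]
      exact h2
  simpa using this

include hB hM2 in
private theorem inv_mem {z : G} (hz : orderOf z = 2) : z ∈ M := by
  haveI : Fact (Nat.Prime 2) := ⟨Nat.prime_two⟩
  obtain ⟨m, hm⟩ := exists_prime_orderOf_dvd_card' (G := M) 2 hM2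
  exact (Cfsg.Agent.S3909.result hB M).1 z ⟨m, m.2, by rw [Subgroup.orderOf_coe, hm, hz]⟩

include hS hB hM2 hM4 in
/-- The local structure of a `2`-subgroup not inside `M`. -/
private theorem local_structure {Q : Subgroup G} (hQ : IsPGroup 2 Q) (hQM : ¬ Q ≤ M) :
    ∃ x ∈ Q, orderOf x = 4 ∧ orderOf (x ^ 2) = 2 ∧ (∀ y ∈ Q, y ∈ M → y = 1 ∨ y = x ^ 2) ∧
      x ^ 2 ∈ M := by
  haveI : Fact (Nat.Prime 2) := ⟨Nat.prime_two⟩
  obtain ⟨P, hQP⟩ := hQ.exists_le_sylow
  obtain ⟨-, z, hzP, hz1, hz2, -, hall⟩ := hS P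
  have hzM : z ∈ M := inv_mem M hB hM2 (orderOf_eq_two_of hz1 hz2)
  obtain ⟨x, hxQ, hxM⟩ := SetLike.not_le_iff_exists.mp hQM
  have hxz : x ^ 2 = z := by
    rcases hall x (hQP hxQ) with h | h | h
    · exact absurd (h ▸ M.one_mem) hxM
    · exact absurd (h ▸ hzM) hxM
    · exact h
  refine ⟨x, hxQ, orderOf_eq_four_of hz1 hz2 hxz, ?_, ?_, ?_⟩
  · rw [hxz]
    exact orderOf_eq_two_of hz1 hz2
  · intro y hyQ hyM
    rw [hxz]
    rcases hall y (hQP hyQ) with h | h | h
    · exact Or.inl h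
    · exact Or.inr h
    · exact absurd (orderOf_eq_four_of hz1 hz2 h) (hM4 y hyM)
  · rw [hxz]
    exact hzM

include hS hB hM2 hM4 in
private theorem card_inf_eq_two {Q : Subgroup G} (hQ : IsPGroup 2 Q) (hQM : ¬ Q ≤ M) :
    Nat.card (Q ⊓ M : Subgroup G) = 2 := by
  obtain ⟨x, hxQ, -, hz, hall, hzM⟩ := local_structure M hS hB hM2 hM4 hQ hQM
  have h1 : Q ⊓ M = zpowers (x ^ 2) := by
    apply le_antisymm
    · rintro y ⟨hyQ, hyM⟩
      rcases hall y hyQ hyM with h | h
      · rw [h]
        exact Subgroup.one_mem _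
      · rw [h]
        exact Subgroup.mem_zpowers _
    · rw [Subgroup.zpowers_le]
      exact ⟨Subgroup.pow_mem _ hxQ _, hzM⟩
  rw [h1, Nat.card_zpowers, hz]

include hS hB hM2 hM4 in
private theorem mPart_eq_two : mPart M 2 = 2 := by
  haveI : Fact (Nat.Prime 2) := ⟨Nat.prime_two⟩
  obtain ⟨P⟩ : Nonempty (Sylow 2 G) := inferInstance
  rw [← card_sylow_inf M P]
  refine card_inf_eq_two M hS hB hM2 hM4 P.isPGroup' ?_
  intro hle
  obtain ⟨-, z, hzP, hz1, hz2, ⟨y, hyP, hy⟩, -⟩ := hS P
  exact hM4 y (hle hyP) (orderOf_eq_four_of hz1 hz2 hy)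

include hS hB hM2 hM4 in
private theorem clause_q8 {Q : Subgroup G} (hQ : IsPGroup 2 Q) (hQM : ¬ Q ≤ M) {v : G}
    (hv : v ∈ normalizer (Q : Set G)) (hco : (orderOf v).Coprime 2)
    (hc : ∀ b ∈ Q, v * b * v⁻¹ * b⁻¹ ∈ M) : v ∈ centralizer (Q : Set G) := by
  haveI : Fact (Nat.Prime 2) := ⟨Nat.prime_two⟩
  refine mem_centralizer_of_frattini Q hQ hv hco M ?_ hc
  intro y hyM
  obtain ⟨x, hxQ, -, -, hall, -⟩ := local_structure M hS hB hM2 hM4 hQ hQM
  rcases hall y y.2 hyM with h | h
  · have : y = 1 := Subtype.ext h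
    rw [this]
    exact Subgroup.one_mem _
  · have h2 : y = (⟨x, hxQ⟩ : Q) ^ 2 := Subtype.ext h
    rw [h2]
    exact Cfsg.Agent.Lib.PGroups.Basic.pow_mem_frattini hQ _

private theorem not_le_of_map_ne_bot {Q : Subgroup G} (h : Q.map (QuotientGroup.mk' M) ≠ ⊥) :
    ¬ Q ≤ M := by
  intro hle
  apply h
  rw [eq_bot_iff]
  rintro _ ⟨x, hx, rfl⟩
  exact (QuotientGroup.eq_one_iff x).2 (hle hx)

include hS hB hM2 hM4 in
/-- `GoodP` for subgroups of order two. -/
private theorem goodP_two {D : Subgroup (G ⧸ M)} (hD : Nat.card D = 2) : GoodP M 2 D := by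
  intro Q hQ hQD
  have hDne : D ≠ ⊥ := by
    rintro rfl
    simp at hD
  have hQM : ¬ Q ≤ M := not_le_of_map_ne_bot M (by rwa [hQD])
  have hcard : Nat.card Q = 4 := by
    rw [card_eq_card_inf_mul M Q, card_inf_eq_two M hS hB hM2 hM4 hQ hQM, hQD, hD]
  obtain ⟨x, hxQ, hx4, -, -, -⟩ := local_structure M hS hB hM2 hM4 hQ hQM
  have hQz : Q = zpowers x := by
    symm
    apply Subgroup.eq_of_le_of_card_ge
    · rwa [Subgroup.zpowers_le]
    · rw [hcard, Nat.card_zpowers, hx4]
  refine ⟨?_, ?_, fun v hv hco hc => clause_q8 M hS hB hM2 hM4 hQ hQM hv hco hc⟩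
  · rw [hQz]
    infer_instance
  · rw [hcard, hD, show (2 : ℕ) = 2 ^ 1 by norm_num, liftCard_prime_pow M Nat.prime_two one_ne_zero,
      mPart_eq_two M hS hB hM2 hM4]
    norm_num

include hS hB hM2 hM4 in
/-- The structure of an abelian subgroup of the quotient of order divisible by four. -/
private theorem exists_structure {A : Subgroup (G ⧸ M)} (hA : IsMulCommutative A)
    (h4 : 4 ∣ Nat.card A) :
    ∃ (Q X : Subgroup G) (n : ℕ), IsPGroup 2 Q ∧ Nat.card Q = 8 ∧ X ≤ centralizer (Q : Set G) ∧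
      IsMulCommutative X ∧ (Q ⊔ X).map (QuotientGroup.mk' M) = A ∧ Nat.card A = 4 * n ∧
      Nat.card X = liftCard M n := by
  haveI : Fact (Nat.Prime 2) := ⟨Nat.prime_two⟩
  obtain ⟨B, A₁, hBA, hA₁A, hBp, hBne, hcard, hco, hdec⟩ :=
    exists_primary A hA Nat.prime_two (Dvd.dvd.trans (by norm_num) h4)
  obtain ⟨Q, -, hQp, hQB, hidx⟩ := exists_sylow_lift M hBp (le_map_top M B)
  have hQM : ¬ Q ≤ M := not_le_of_map_ne_bot M (by rwa [hQB])
  have hQc : Nat.card Q = 2 * Nat.card B := by
    rw [card_eq_card_inf_mul M Q, card_inf_eq_two M hS hB hM2 hM4 hQp hQM, hQB]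
  have h4B : 4 ∣ Nat.card B := by
    rw [← hcard] at h4
    refine Nat.Coprime.dvd_of_dvd_mul_right ?_ h4
    have h5 := Nat.Coprime.pow_right 2 hco
    exact (by simpa using h5.symm : Nat.Coprime 4 (Nat.card A₁))
  obtain ⟨P, hQP⟩ := hQp.exists_le_sylow
  have h8 := (hS P).1
  have hdvd : Nat.card Q ∣ 8 := h8 ▸ Subgroup.card_dvd_of_le hQP
  have hB4 : Nat.card B = 4 := by
    rw [hQc] at hdvd
    have h1 : Nat.card B ∣ 4 := Nat.dvd_of_mul_dvd_mul_left (by norm_num : 0 < 2) (by simpa using hdvd)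
    exact Nat.dvd_antisymm h1 h4B
  have hQ8 : Nat.card Q = 8 := by rw [hQc, hB4]
  have hle : A₁ ≤ (centralizer (Q : Set G)).map (QuotientGroup.mk' M) := by
    intro y' hy'
    obtain ⟨y, rfl⟩ := QuotientGroup.mk'_surjective M y'
    obtain ⟨v, hv, hvy⟩ := exists_centralizing_lift M (C := ⊤) le_top hQp hQB
      (by simpa using hidx)
      (fun v hv hco hc => clause_q8 M hS hB hM2 hM4 hQp hQM hv hco hc)
      (y := y) trivial
      (by
        intro b hb
        have h9 := hA.is_comm.comm (⟨_, hA₁A hy'⟩ : A) ⟨b, hBA hb⟩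
        have h10 := congrArg Subtype.val h9
        exact h10)
      (by
        refine Nat.Coprime.coprime_dvd_left ?_ hco
        have := Subgroup.orderOf_dvd_natCard A₁ hy'
        exact this)
    exact ⟨v, hv.2, hvy⟩
  have hA₁c : IsMulCommutative A₁ := isMulCommutative_of_le hA₁A hA
  obtain ⟨X, hXC, hXc, hXm, hXcard⟩ := exists_lift M _ A₁ rfl hA₁c (by
    intro p hp D hDA hDp hDne
    haveI : Fact p.Prime := ⟨hp⟩
    have hDc := isMulCommutative_of_le (hDA.trans hA₁A) hA
    refine goodP_odd M hB ?_ hDc hDp hDne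
    rintro rfl
    obtain ⟨k, hk⟩ := IsPGroup.iff_card.mp hDp
    have hk0 : k ≠ 0 := by
      rintro rfl
      apply hDne
      have : Nat.card D = 1 := by simpa using hk
      exact Subgroup.eq_bot_of_card_eq D this
    have h2d : 2 ∣ Nat.card A₁ := by
      refine Dvd.dvd.trans ?_ (Subgroup.card_dvd_of_le hDA)
      rw [hk]
      exact dvd_pow_self 2 hk0
    have := Nat.Coprime.eq_one_of_dvd (Nat.Coprime.symm hco) h2d
    omega) (centralizer (Q : Set G)) hle
  refine ⟨Q, X, Nat.card A₁, hQp, hQ8, hXC, hXc, ?_, ?_, hXcard⟩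
  · rw [Subgroup.map_sup, hQB, hXm]
    apply le_antisymm (sup_le hBA hA₁A)
    intro x hx
    obtain ⟨b, hb, a, ha, rfl⟩ := hdec x hx
    exact Subgroup.mul_mem_sup hb ha
  · rw [← hcard, hB4]

include hS hB hM2 hM4 in
private theorem conj_of_four {A B : Subgroup (G ⧸ M)} (hA : IsMulCommutative A) (hB' : IsMulCommutative B)
    (hAB : Nat.card A = Nat.card B) (h4 : 4 ∣ Nat.card A) :
    ∃ g : G ⧸ M, B = A.map (MulAut.conj g).toMonoidHom := by
  haveI : Fact (Nat.Prime 2) := ⟨Nat.prime_two⟩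
  obtain ⟨Q, X, n, hQp, hQ8, hXC, hXc, hXm, hn, hXcard⟩ := exists_structure M hS hB hM2 hM4 hA h4
  obtain ⟨Q', X', n', hQ'p, hQ'8, hX'C, hX'c, hX'm, hn', hX'card⟩ :=
    exists_structure M hS hB hM2 hM4 hB' (hAB ▸ h4)
  have hnn : n = n' := by omega
  subst hnn
  obtain ⟨g, hg⟩ := hB X X' hXc hX'c (by rw [hXcard, hX'card])
  set S := Q.map (MulAut.conj g).toMonoidHom with hS'
  have hScard : Nat.card S = 8 := by
    rw [← hQ8]
    exact Nat.card_congr (Q.equivMapOfInjective _ (MulAut.conj g).injective).toEquiv.symm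
  have hSp : IsPGroup 2 S := by
    rw [hS']
    exact hQp.map _
  have hST : S ≤ centralizer (X' : Set G) := by
    rintro _ ⟨q, hq, rfl⟩
    rw [Subgroup.mem_centralizer_iff]
    rw [hg]
    rintro _ ⟨x, hx, rfl⟩
    have h1 := Subgroup.mem_centralizer_iff.mp (hXC hx) q hq
    have h2 : q * x = x * q := h1
    simp only [MulEquiv.coe_toMonoidHom, MulAut.conj_apply]
    calc g * x * g⁻¹ * (g * q * g⁻¹) = g * (x * q) * g⁻¹ := by group
      _ = g * (q * x) * g⁻¹ := by rw [h2]
      _ = g * q * g⁻¹ * (g * x * g⁻¹) := by group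
  have hQ'T : Q' ≤ centralizer (X' : Set G) := by
    intro q hq
    rw [Subgroup.mem_centralizer_iff]
    intro x hx
    exact (Subgroup.mem_centralizer_iff.mp (hX'C hx) q hq).symm
  have hidx : ¬ 2 ∣ (S.subgroupOf (centralizer (X' : Set G))).index := by
    intro hd
    obtain ⟨P⟩ : Nonempty (Sylow 2 G) := inferInstance
    have h8 := (hS P).1
    have h1 := Subgroup.card_mul_index (S.subgroupOf (centralizer (X' : Set G)))
    rw [Nat.card_congr (Subgroup.subgroupOfEquivOfLe hST).toEquiv, hScard] at h1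
    have h2 : 2 ^ 4 ∣ Nat.card G := by
      refine Dvd.dvd.trans ?_ (Subgroup.card_subgroup_dvd_card (centralizer (X' : Set G)))
      rw [← h1]
      rw [show 2 ^ 4 = 8 * 2 by norm_num]
      exact Nat.mul_dvd_mul_left 8 hd
    have h3 := Sylow.pow_dvd_card_of_pow_dvd_card P h2
    rw [h8] at h3
    omega
  obtain ⟨t, ht, htS⟩ := exists_conj_of_sylow_in hST hQ'T hSp hQ'p hidx (by rw [hScard, hQ'8])
  have hX't : X' = X'.map (MulAut.conj t).toMonoidHom := by
    ext y
    constructor
    · intro hy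
      refine ⟨y, hy, ?_⟩
      have := Subgroup.mem_centralizer_iff.mp ht y hy
      simp only [MulEquiv.coe_toMonoidHom, MulAut.conj_apply]
      rw [← this]
      group
    · rintro ⟨y', hy', rfl⟩
      have := Subgroup.mem_centralizer_iff.mp ht y' hy'
      simp only [MulEquiv.coe_toMonoidHom, MulAut.conj_apply]
      rw [← this]
      simpa using hy'
  refine ⟨_, conj_of_lifts M (g := t * g) hXm hX'm ?_⟩
  have hcomp : ∀ W : Subgroup G, W.map (MulAut.conj (t * g)).toMonoidHom =
      (W.map (MulAut.conj g).toMonoidHom).map (MulAut.conj t).toMonoidHom := by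
    intro W
    rw [Subgroup.map_map]
    congr 1
    ext x
    simp [MulAut.conj_apply, mul_assoc]
  rw [Subgroup.map_sup, hcomp, hcomp, ← hg, ← hX't, ← hS', ← htS]

end q8

/-- Let G be a finite solvable group in which any two abelian subgroups of the same order are conjugate. Then every quotient of G has the same property: any two abelian subgroups of the quotient of the same order are conjugate. -/
theorem result {G : Type*} [Group G] [Finite G] (hB : ∀ A B : Subgroup G, IsMulCommutative ↥A → IsMulCommutative ↥B → Nat.card ↥A = Nat.card ↥B → ∃ g : G, B = A.map (MulAut.conj g).toMonoidHom) (hsol : Group.IsSolvable G) (M : Subgroup G) [M.Normal] :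
    ∀ A B : Subgroup (G ⧸ M), IsMulCommutative ↥A → IsMulCommutative ↥B → Nat.card ↥A = Nat.card ↥B →
      ∃ g : G ⧸ M, B = A.map (MulAut.conj g).toMonoidHom := by
  intro A B hA hB' hAB
  have hodd : ∀ (hgood : ∀ D : Subgroup (G ⧸ M), IsMulCommutative D → IsPGroup 2 D → D ≠ ⊥ → GoodP M 2 D),
      ∃ g : G ⧸ M, B = A.map (MulAut.conj g).toMonoidHom := by
    intro hgood
    have key : ∀ A : Subgroup (G ⧸ M), IsMulCommutative ↥A → ∀ p : ℕ, p.Prime → ∀ D ≤ A, IsPGroup p D →
        D ≠ ⊥ → GoodP M p D := by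
      intro A hA p hp D hDA hDp hDne
      haveI : Fact p.Prime := ⟨hp⟩
      have hDc := isMulCommutative_of_le hDA hA
      by_cases hp2 : p = 2
      · subst hp2
        exact hgood D hDc hDp hDne
      · exact goodP_odd M hB hp2 hDc hDp hDne
    exact conj_of_goodP M hB hA hB' hAB (key A hA) (key B hB')
  haveI : Fact (Nat.Prime 2) := ⟨Nat.prime_two⟩
  by_cases h2M : 2 ∣ Nat.card M
  swap
  · exact hodd fun D hDc hDp hDne => goodP_of_not_dvd M h2M hDc hDp hDne
  obtain ⟨P₀⟩ : Nonempty (Sylow 2 G) := inferInstance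
  have hcyc : IsCyclic P₀ → ∃ g : G ⧸ M, B = A.map (MulAut.conj g).toMonoidHom := by
    intro hc
    exact hodd fun D hDc hDp hDne =>
      goodP_of_isCyclic M (fun P => isCyclic_sylow_of P₀ P hc) hDp hDne
  have hle : (P₀ : Subgroup G) ≤ M → ∃ g : G ⧸ M, B = A.map (MulAut.conj g).toMonoidHom := by
    intro h
    exact hodd fun D hDc hDp hDne => absurd (eq_bot_of_sylow_le M P₀ h D hDp) hDne
  rcases (Cfsg.Agent.S3908.result hB).1 P₀ with hc | he | ⟨k, ⟨φ⟩⟩
  · exact hcyc hc
  · exact hle (sylow_le_of_exponent M hB h2M P₀ he.2)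
  · rcases k with _ | _ | k
    · apply hcyc
      haveI : IsCyclic (QuaternionGroup (2 ^ 0)) := by
        have : (2 ^ 0 : ℕ) = 1 := rfl
        rw [this]
        exact QuaternionGroup.quaternionGroup_one_isCyclic
      exact isCyclic_of_surjective φ.symm.toMonoidHom φ.symm.surjective
    · have hS : Q8Shape G := q8Shape_of_equiv P₀ φ
      by_cases hM4 : ∃ m ∈ M, orderOf m = 4
      · apply hle
        obtain ⟨-, z, hzP, hz1, hz2, -, hall⟩ := hS P₀
        intro x hx
        obtain ⟨m, hm, hmo⟩ := hM4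
        have hm' := (Cfsg.Agent.S3909.result hB M).1
        rcases hall x hx with h | h | h
        · rw [h]
          exact M.one_mem
        · rw [h]
          exact inv_mem M hB h2M (orderOf_eq_two_of hz1 hz2)
        · exact hm' x ⟨m, hm, by rw [hmo, orderOf_eq_four_of hz1 hz2 h]⟩
      · push Not at hM4
        by_cases h4 : 4 ∣ Nat.card A
        · exact conj_of_four M hS hB h2M hM4 hA hB' hAB h4
        · have hsmall : ∀ A : Subgroup (G ⧸ M), ¬ 4 ∣ Nat.card A → ∀ D ≤ A, IsPGroup 2 D → D ≠ ⊥ →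
              Nat.card D = 2 := by
            intro A h4 D hDA hDp hDne
            obtain ⟨j, hj⟩ := IsPGroup.iff_card.mp hDp
            have hj0 : j ≠ 0 := by
              rintro rfl
              apply hDne
              exact Subgroup.eq_bot_of_card_eq D (by simpa using hj)
            have hj1 : j = 1 := by
              by_contra hne
              apply h4
              refine Dvd.dvd.trans ?_ (Subgroup.card_dvd_of_le hDA)
              rw [hj, show (4 : ℕ) = 2 ^ 2 by norm_num]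
              exact pow_dvd_pow 2 (by omega)
            rw [hj, hj1, pow_one]
          have key : ∀ A : Subgroup (G ⧸ M), ¬ 4 ∣ Nat.card A → IsMulCommutative ↥A → ∀ p : ℕ, p.Prime →
              ∀ D ≤ A, IsPGroup p D → D ≠ ⊥ → GoodP M p D := by
            intro A h4 hA p hp D hDA hDp hDne
            haveI : Fact p.Prime := ⟨hp⟩
            have hDc := isMulCommutative_of_le hDA hA
            by_cases hp2 : p = 2
            · subst hp2
              exact goodP_two M hS hB h2M hM4 (hsmall A h4 D hDA hDp hDne)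
            · exact goodP_odd M hB hp2 hDc hDp hDne
          exact conj_of_goodP M hB hA hB' hAB (key A h4 hA) (key B (hAB ▸ h4) hB')
    · exact (no_big_quaternion hB hsol P₀ k φ).elim

end Cfsg.Agent.S3912
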