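import Cfsg.Statements.S3917

set_option autoImplicit false
open Cfsg

namespace Cfsg.Agent.S3917

private lemma exists_independent {G : Type*} [CommGroup G] [Finite G] (hc : ¬ IsCyclic G) :
    ∃ p : ℕ, p.Prime ∧ ∃ a b : G, a ^ p = 1 ∧ b ^ p = 1 ∧ a ≠ 1 ∧ b ∉ Subgroup.zpowers a := by
  have he : Monoid.ExponentExists G := ⟨Nat.card G, Nat.card_pos, fun g => pow_card_eq_one'⟩
  obtain ⟨x, hx⟩ := Monoid.exists_orderOf_eq_exponent he
  have hlt : Subgroup.zpowers x ≠ ⊤ := by
    intro h
    exact hc (isCyclic_iff_exists_zpowers_eq_top.mpr ⟨x, h⟩)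
  -- a prime dividing the order of the quotient
  have hnt : Nontrivial (G ⧸ Subgroup.zpowers x) := by
    rw [QuotientGroup.nontrivial_iff]
    exact hlt
  obtain ⟨p, hp, hpd⟩ := Nat.exists_prime_and_dvd (Finite.one_lt_card (α := G ⧸ Subgroup.zpowers x)).ne'
  have := Fact.mk hp
  obtain ⟨q, hq⟩ := exists_prime_orderOf_dvd_card' p hpd
  obtain ⟨y, rfl⟩ := QuotientGroup.mk'_surjective _ q
  have hyx : y ∉ Subgroup.zpowers x := by
    intro h
    have : QuotientGroup.mk' (Subgroup.zpowers x) y = 1 := (QuotientGroup.eq_one_iff _).mpr h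
    rw [this, orderOf_one] at hq
    exact hp.one_lt.ne hq
  have hyp : y ^ p ∈ Subgroup.zpowers x := by
    have h : QuotientGroup.mk' (Subgroup.zpowers x) (y ^ p) = 1 := by
      rw [map_pow, ← hq, pow_orderOf_eq_one]
    exact (QuotientGroup.eq_one_iff _).mp h
  have hx0 : 0 < orderOf x := orderOf_pos x
  -- `p` divides the exponent
  have hpe : p ∣ orderOf x := by
    by_contra hnd
    apply hyx
    have hcop : Nat.Coprime p (orderOf y) := by
      refine Nat.Coprime.coprime_dvd_right (m := orderOf x) ?_ ((Nat.Prime.coprime_iff_not_dvd hp).mpr hnd)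
      rw [hx]; exact Monoid.order_dvd_exponent y
    have hy1 : orderOf y ≠ 1 := by
      intro h
      rw [orderOf_eq_one_iff] at h
      exact hyx (h ▸ Subgroup.one_mem _)
    have hy2 : 1 < orderOf y := by
      have := orderOf_pos y
      omega
    obtain ⟨t, -, ht⟩ := Nat.exists_mul_mod_eq_one_of_coprime hcop hy2
    have : y = (y ^ p) ^ t := by
      rw [← pow_mul, ← pow_mod_orderOf, ht, pow_one]
    rw [this]
    exact Subgroup.pow_mem _ hyp _
  obtain ⟨e', he'⟩ := hpe
  have hp0 := hp.pos
  have he'0 : 0 < e' := by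
    rcases Nat.eq_zero_or_pos e' with h | h
    · rw [h] at he'; omega
    · exact h
  -- write `y ^ p = x ^ k` with `p ∣ k`
  obtain ⟨k, hk⟩ := Subgroup.mem_zpowers_iff.mp hyp
  have hk2 : (p : ℤ) ∣ k := by
    have h1 : (y ^ p) ^ e' = 1 := by
      rw [← pow_mul, ← he', hx]
      exact Monoid.pow_exponent_eq_one y
    rw [← hk, ← zpow_natCast, ← zpow_mul] at h1
    have h2 := orderOf_dvd_iff_zpow_eq_one.mpr h1
    rw [he'] at h2
    push_cast at h2
    have h3 : (p : ℤ) * e' ∣ k * e' := h2
    exact Int.dvd_of_mul_dvd_mul_right (by exact_mod_cast he'0.ne') h3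
  obtain ⟨k', rfl⟩ := hk2
  refine ⟨p, hp, x ^ e', y * (x ^ k')⁻¹, ?_, ?_, ?_, ?_⟩
  · rw [← pow_mul, mul_comm, ← he', pow_orderOf_eq_one]
  · rw [mul_pow, inv_pow, ← zpow_natCast (x ^ k'), ← zpow_mul, mul_comm k', ← hk]
    simp
  · intro h
    have h2 := orderOf_dvd_of_pow_eq_one h
    have h3 := Nat.le_of_dvd he'0 h2
    rw [he'] at h3
    have : 2 ≤ p := hp.two_le
    nlinarith
  · intro h
    apply hyx
    have h2 : x ^ e' ∈ Subgroup.zpowers x := Subgroup.npow_mem_zpowers _ _
    have h3 : y * (x ^ k')⁻¹ ∈ Subgroup.zpowers x :=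
      (Subgroup.zpowers_le.mpr h2) h
    have h4 := Subgroup.mul_mem _ h3 (Subgroup.zpow_mem_zpowers x k')
    simpa using h4

/-- Say that a group has self-centralizing non-cyclic subgroups when every non-cyclic subgroup H satisfies C_G(H) ≤ H. A finite abelian group with self-centralizing non-cyclic subgroups is cyclic or elementary abelian of order p² for a prime p. -/
theorem result {G : Type*} [CommGroup G] [Finite G] (hX : (∀ H : Subgroup G, ¬ IsCyclic ↥H → Subgroup.centralizer (H : Set G) ≤ H)) :
    IsCyclic G ∨ ∃ p : ℕ, p.Prime ∧ Nat.card G = p ^ 2 ∧ Monoid.exponent G = p := by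
  -- every non-cyclic subgroup is everything
  have hprop : ∀ H : Subgroup G, ¬ IsCyclic H → H = ⊤ := by
    intro H hc
    have h := hX H hc
    rw [eq_top_iff]
    intro x _
    apply h
    rw [Subgroup.mem_centralizer_iff]
    intro y _
    exact mul_comm y x
  by_cases hcyc : IsCyclic G
  · exact Or.inl hcyc
  right
  obtain ⟨p, hp, a, b, hap, hbp, ha1, hba⟩ := exists_independent hcyc
  have := Fact.mk hp
  let L : Subgroup G := Subgroup.zpowers a ⊔ Subgroup.zpowers b
  have hLp : ∀ g ∈ L, g ^ p = 1 := by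
    intro g hg
    have : L ≤ (powMonoidHom p : G →* G).ker := by
      apply sup_le
      · rw [Subgroup.zpowers_le]; exact hap
      · rw [Subgroup.zpowers_le]; exact hbp
    exact this hg
  have hoa : orderOf a = p := orderOf_eq_prime hap ha1
  have hLc : ¬ IsCyclic L := by
    intro hL
    have h1 : Monoid.exponent L = Nat.card L := IsCyclic.exponent_eq_card
    have h2 : Monoid.exponent L ∣ p := by
      apply Monoid.exponent_dvd_of_forall_pow_eq_one
      intro g
      ext
      simpa using hLp g g.2
    have h3 : Nat.card L ≤ p := by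
      rw [← h1]; exact Nat.le_of_dvd hp.pos h2
    have hle : Subgroup.zpowers a ≤ L := le_sup_left
    have h4 : Nat.card (Subgroup.zpowers a) = p := by rw [Nat.card_zpowers, hoa]
    have h5 : Nat.card (Subgroup.zpowers a) ≤ Nat.card L :=
      Subgroup.card_le_of_le hle
    have heq : Subgroup.zpowers a = L :=
      Subgroup.eq_of_le_of_card_ge hle (by omega)
    apply hba
    rw [heq]
    exact (le_sup_right : Subgroup.zpowers b ≤ L) (Subgroup.mem_zpowers b)
  have hLtop := hprop L hLc
  have hall : ∀ g : G, g ^ p = 1 := fun g => hLp g (hLtop ▸ Subgroup.mem_top g)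
  refine ⟨p, hp, ?_, ?_⟩
  · have hpg : IsPGroup p G := fun g => ⟨1, by simpa using hall g⟩
    obtain ⟨n, hn⟩ := IsPGroup.iff_card.mp hpg
    rcases n with _ | _ | _ | n
    · exfalso
      have h1 : Nat.card G = 1 := by simpa using hn
      exact ha1 ((Nat.card_eq_one_iff_unique.mp h1).1.elim _ _)
    · exfalso
      have h1 : Nat.card G = p := by simpa using hn
      exact hcyc (isCyclic_of_prime_card h1)
    · simpa using hn
    · exfalso
      have hd : p ^ 2 ∣ Nat.card G := by
        rw [hn]; exact pow_dvd_pow _ (by omega)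
      obtain ⟨K, hK⟩ := Sylow.exists_subgroup_card_pow_prime (G := G) p hd
      have hKne : ¬ IsCyclic K → False := by
        intro hc
        have := hprop K hc
        rw [this, Subgroup.card_top, hn] at hK
        have h5 : p ^ (n + 1 + 1 + 1) = p ^ 2 := hK
        have := Nat.pow_right_injective hp.two_le h5
        omega
      have hKc : IsCyclic K := by
        by_contra h
        exact hKne h
      have h1 : Monoid.exponent K = Nat.card K := IsCyclic.exponent_eq_card
      have h2 : Monoid.exponent K ∣ p := by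
        apply Monoid.exponent_dvd_of_forall_pow_eq_one
        intro g
        ext
        simpa using hall g
      rw [h1, hK] at h2
      have h3 := Nat.le_of_dvd hp.pos h2
      have : 2 ≤ p := hp.two_le
      nlinarith
  · apply Nat.dvd_antisymm
    · exact Monoid.exponent_dvd_of_forall_pow_eq_one hall
    · rw [← hoa]; exact Monoid.order_dvd_exponent a

end Cfsg.Agent.S3917
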