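import Cfsg.Statements.S3918
import Cfsg.Agent.Lib.PGroups.NormalRankTwo

set_option autoImplicit false
open Cfsg

namespace Cfsg.Agent.S3918

open Subgroup Cfsg.Agent.Lib.PGroups.MaxAbelian Cfsg.Agent.Lib.PGroups.NormalRankTwo

/-- Say that a group has self-centralizing non-cyclic subgroups when every non-cyclic subgroup H satisfies C_G(H) ≤ H. For an odd prime p, a finite non-abelian p-group has self-centralizing non-cyclic subgroups if and only if it has order p³. -/
theorem result {G : Type*} [Group G] [Finite G] {p : ℕ} [Fact p.Prime] (hp : p ≠ 2) (hG : IsPGroup p G) (hna : ¬ IsMulCommutative G) :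
    (∀ H : Subgroup G, ¬ IsCyclic ↥H → Subgroup.centralizer (H : Set G) ≤ H) ↔ Nat.card G = p ^ 3 := by
  have hpp : p.Prime := Fact.out
  obtain ⟨n, hn⟩ := IsPGroup.iff_card.1 hG
  -- the order of a non-abelian `p`-group is at least `p³`
  have hn3 : 3 ≤ n := by
    by_contra hlt
    apply hna
    have hlt' : n < 3 := by omega
    interval_cases n
    · have : Subsingleton G := (Nat.card_eq_one_iff_unique.1 (by simpa using hn)).1
      exact ⟨⟨fun a b => Subsingleton.elim _ _⟩⟩
    · have : IsCyclic G := isCyclic_of_prime_card (p := p) (by simpa using hn)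
      exact IsCyclic.isMulCommutative
    · exact IsPGroup.isMulCommutative_of_card_eq_prime_sq hn
  constructor
  · intro h
    have hnc : ¬ IsCyclic G := fun hc => hna IsCyclic.isMulCommutative
    obtain ⟨A, hAn, hAe, hAc⟩ := exists_normal_elementaryAbelian_sq hp hG hnc
    have hAnc : ¬ IsCyclic ↥A := by
      intro hcyc
      obtain ⟨x, hx⟩ := hcyc.exists_generator
      have h1 : orderOf x = p ^ 2 := by
        rw [← hAc]
        exact orderOf_eq_card_of_forall_mem_zpowers hx
      have h2 : x ^ p = 1 := Subtype.ext (hAe.2 x x.2)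
      have h3 := orderOf_dvd_of_pow_eq_one h2
      rw [h1] at h3
      have := Nat.le_of_dvd hpp.pos h3
      have h4 : p * 2 ≤ p * p := Nat.mul_le_mul_left p hpp.two_le
      nlinarith [hpp.two_le]
    have hle := h A hAnc
    have hidx := index_centralizer_le hG 2 A hAe.1 hAc
    have hcard : Nat.card G = (centralizer (A : Set G)).index * Nat.card ↥(centralizer (A : Set G)) :=
      (Subgroup.index_mul_card _).symm
    have hcc : Nat.card ↥(centralizer (A : Set G)) ≤ p ^ 2 := by
      rw [← hAc]
      exact Nat.card_le_card_of_injective (Subgroup.inclusion hle) (Subgroup.inclusion_injective hle)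
    have hle3 : Nat.card G ≤ p ^ 3 := by
      rw [hcard]
      have : (centralizer (A : Set G)).index ≤ p := by simpa using hidx
      calc _ ≤ p * p ^ 2 := Nat.mul_le_mul this hcc
        _ = p ^ 3 := by ring
    rw [hn] at hle3 ⊢
    have : n ≤ 3 := (Nat.pow_le_pow_iff_right hpp.one_lt).1 hle3
    have : n = 3 := by omega
    rw [this]
  · intro hcard H hH c hc
    by_contra hcH
    -- `H` is proper or `c ∈ H` at once
    have hHtop : H ≠ ⊤ := by
      rintro rfl
      exact hcH trivial
    have hdvd : Nat.card H ∣ p ^ 3 := hcard ▸ Subgroup.card_subgroup_dvd_card H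
    obtain ⟨k, hk3, hk⟩ := (Nat.dvd_prime_pow hpp).1 hdvd
    have hk2 : k = 2 := by
      by_contra hk2
      have hcases : k = 0 ∨ k = 1 ∨ k = 3 := by omega
      rcases hcases with rfl | rfl | rfl
      · apply hH
        have : Nat.card H = 1 := by simpa using hk
        have : Subsingleton H := (Nat.card_eq_one_iff_unique.1 this).1
        exact isCyclic_of_subsingleton
      · exact hH (isCyclic_of_prime_card (p := p) (by simpa using hk))
      · apply hHtop
        apply Subgroup.eq_top_of_card_eq
        rw [hk, hcard]
    subst hk2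
    have hHab : IsMulCommutative H := IsPGroup.isMulCommutative_of_card_eq_prime_sq hk
    -- the abelian subgroup generated by `H` and `c`
    let K : Subgroup G := H ⊔ zpowers c
    have hcH' : ∀ h ∈ H, h * c = c * h := fun h hh => (mem_centralizer_iff.1 hc) h hh
    have hHcomm : ∀ a ∈ H, ∀ b ∈ H, a * b = b * a := fun a ha b hb =>
      congrArg Subtype.val (hHab.is_comm.comm ⟨a, ha⟩ ⟨b, hb⟩)
    -- every element of `K` commutes with `H` and with `c`
    have hK1 : K ≤ centralizer ((H : Set G) ∪ {c}) := by
      rw [sup_le_iff]
      constructor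
      · intro h hh
        rw [mem_centralizer_iff]
        rintro y (hy | rfl)
        · exact hHcomm y hy h hh
        · exact (hcH' h hh).symm
      · rw [zpowers_le, mem_centralizer_iff]
        rintro y (hy | rfl)
        · exact hcH' y hy
        · rfl
    have hK2 : ∀ x ∈ K, K ≤ centralizer {x} := by
      intro x hx
      have hx' := mem_centralizer_iff.1 (hK1 hx)
      rw [sup_le_iff]
      constructor
      · intro h hh
        rw [mem_centralizer_iff]
        rintro y rfl
        exact (hx' h (Or.inl hh)).symm
      · rw [zpowers_le, mem_centralizer_iff]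
        rintro y rfl
        exact (hx' c (Or.inr rfl)).symm
    have hHK : H < K := by
      refine lt_of_le_of_ne le_sup_left ?_
      intro heq
      apply hcH
      rw [heq]
      exact (le_sup_right : zpowers c ≤ K) (mem_zpowers c)
    have hKcard : p ^ 2 < Nat.card K := by
      rw [← hk]
      exact Cfsg.Agent.Lib.PGroups.Basic.card_lt_of_lt hHK
    have hKdvd : Nat.card K ∣ p ^ 3 := hcard ▸ Subgroup.card_subgroup_dvd_card K
    obtain ⟨l, hl3, hl⟩ := (Nat.dvd_prime_pow hpp).1 hKdvd
    have hl3' : l = 3 := by
      by_contra hne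
      have : l ≤ 2 := by omega
      have := Nat.pow_le_pow_right hpp.pos this
      omega
    subst hl3'
    have hKtop : K = ⊤ := Subgroup.eq_top_of_card_eq _ (by rw [hl, hcard])
    apply hna
    refine ⟨⟨fun a b => ?_⟩⟩
    have ha : a ∈ K := hKtop ▸ trivial
    have hb : b ∈ K := hKtop ▸ trivial
    exact (mem_centralizer_iff.1 (hK2 a ha hb)) a rfl

end Cfsg.Agent.S3918
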