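import Cfsg.Statements.S3919
import Cfsg.Agent.Lib.PGroups.MaximalClass
import Cfsg.Agent.Lib.PGroups.NormalRankTwo
-- import your own Cfsg.Agent.* helpers here

set_option autoImplicit false
set_option linter.style.haveILetI false
open Cfsg

namespace Cfsg.Agent.S3919

open Subgroup Cfsg.Agent.Lib.PGroups.CyclicNormal Cfsg.Agent.Lib.PGroups.MaximalClass
  Cfsg.Agent.Lib.PGroups.LowerCentral Cfsg.Agent.Lib.PGroups.Basic
open scoped commutatorElement

/-- Two commuting distinct involutions generate a four-group. -/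
private theorem klein {G : Type*} [Group G] (z t : G) (hzt : z * t = t * z) (hz : z ^ 2 = 1)
    (ht : t ^ 2 = 1) (hz1 : z ≠ 1) (ht1 : t ≠ 1) (hne : z ≠ t) :
    ∃ E : Subgroup G, IsMulCommutative ↥E ∧ (∀ a ∈ E, a ^ 2 = 1) ∧ Nat.card E = 2 ^ 2 := by
  classical
  have hzz : z * z = 1 := by rw [← sq]; exact hz
  have htt : t * t = 1 := by rw [← sq]; exact ht
  have h1 : z * (z * t) = t := by rw [← mul_assoc, hzz, one_mul]
  have h2 : t * z = z * t := hzt.symm
  have h3 : t * (z * t) = z := by rw [← mul_assoc, h2, mul_assoc, htt, mul_one]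
  have h4 : z * t * z = t := by rw [mul_assoc, h2, ← mul_assoc, hzz, one_mul]
  have h5 : z * t * t = z := by rw [mul_assoc, htt, mul_one]
  have h6 : z * t * (z * t) = 1 := by rw [← mul_assoc, h4, htt]
  have hzi : z⁻¹ = z := by rw [inv_eq_iff_mul_eq_one]; exact hzz
  have hti : t⁻¹ = t := by rw [inv_eq_iff_mul_eq_one]; exact htt
  let E : Subgroup G :=
    { carrier := {x | x = 1 ∨ x = z ∨ x = t ∨ x = z * t}
      mul_mem' := by
        rintro a b (rfl | rfl | rfl | rfl) (rfl | rfl | rfl | rfl) <;>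
          simp [h1, h2, h3, h4, h5, h6, hzz, htt]
      one_mem' := Or.inl rfl
      inv_mem' := by
        rintro a (rfl | rfl | rfl | rfl) <;> simp [hzi, hti, h2] }
  have hmem : ∀ x, x ∈ E ↔ x = 1 ∨ x = z ∨ x = t ∨ x = z * t := fun x => Iff.rfl
  refine ⟨E, ⟨⟨?_⟩⟩, ?_, ?_⟩
  · rintro ⟨a, ha⟩ ⟨b, hb⟩
    apply Subtype.ext
    rcases (hmem a).1 ha with rfl | rfl | rfl | rfl <;>
      rcases (hmem b).1 hb with rfl | rfl | rfl | rfl <;>
        simp [h1, h2, h3, h4, h5, h6, hzz, htt]
  · intro a ha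
    rcases (hmem a).1 ha with rfl | rfl | rfl | rfl <;> simp [sq, h6, hzz, htt]
  · let F : Finset G := {1, z, t, z * t}
    have hF : F.card = 4 := by
      rw [Finset.card_insert_of_notMem, Finset.card_insert_of_notMem, Finset.card_insert_of_notMem,
        Finset.card_singleton]
      · simp only [Finset.mem_singleton]
        intro h
        apply hz1
        have := mul_right_cancel (a := z) (b := t) (c := 1) (by rw [one_mul]; exact h.symm)
        exact this
      · simp only [Finset.mem_insert, Finset.mem_singleton, not_or]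
        refine ⟨hne, ?_⟩
        intro h
        apply ht1
        have := mul_left_cancel (a := z) (b := t) (c := 1) (by rw [mul_one]; exact h.symm)
        exact this
      · simp only [Finset.mem_insert, Finset.mem_singleton, not_or]
        refine ⟨hz1.symm, ht1.symm, ?_⟩
        intro h
        apply hne
        have h7 : z * t = z * z := by rw [← h, hzz]
        exact (mul_left_cancel h7).symm
    have h8 : Nat.card {x // x ∈ E} = F.card := Nat.subtype_card F (fun x => by
      simp [F, hmem])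
    rw [show Nat.card E = Nat.card {x // x ∈ E} from rfl, h8, hF]
    rfl

/-- The forward direction, computing with the classification. -/
private theorem forward {G : Type*} [Group G] [Finite G] (hna : ¬ IsMulCommutative G) (n : ℕ)
    (hG : Nat.card G = 2 ^ n) (hn3 : 3 ≤ n)
    (h : ∀ H : Subgroup G, ¬ IsCyclic ↥H → Subgroup.centralizer (H : Set G) ≤ H) :
    Group.nilpotencyClass G = n - 1 := by
  classical
  haveI : Fact (Nat.Prime 2) := ⟨Nat.prime_two⟩
  have hG2 : IsPGroup 2 G := IsPGroup.of_card hG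
  by_cases htwo : ∃ s t : G, s ^ 2 = 1 ∧ t ^ 2 = 1 ∧ s ≠ 1 ∧ t ≠ 1 ∧ s ≠ t
  · obtain ⟨s, t, hs, ht, hs1, ht1, hst⟩ := htwo
    haveI hnt : Nontrivial G := ⟨⟨s, 1, hs1⟩⟩
    obtain ⟨z, -, hz, hzo⟩ := exists_central_orderOf_eq hG2 ⊤ top_ne_bot
    have hz2 : z ^ 2 = 1 := by
      have := pow_orderOf_eq_one z
      rwa [hzo] at this
    have hz1 : z ≠ 1 := by
      rintro rfl
      simp at hzo
    obtain ⟨w, hw2, hw1, hwz⟩ : ∃ w : G, w ^ 2 = 1 ∧ w ≠ 1 ∧ w ≠ z := by
      by_cases hsz : s = z
      · exact ⟨t, ht, ht1, fun h => hst (hsz.trans h.symm)⟩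
      · exact ⟨s, hs, hs1, hsz⟩
    obtain ⟨E, hEc, hEe, hEcard⟩ := klein z w (Subgroup.mem_center_iff.mp hz w).symm hz2 hw2 hz1 hw1
      (fun h => hwz h.symm)
    have hEnc : ¬ IsCyclic ↥E := by
      intro hcyc
      obtain ⟨d, hd⟩ := IsCyclic.exists_ofOrder_eq_natCard (α := E)
      have h1 : d ^ 2 = 1 := Subtype.ext (hEe d d.2)
      have h2 := orderOf_dvd_of_pow_eq_one h1
      rw [hd, hEcard] at h2
      exact absurd (Nat.le_of_dvd (by norm_num) h2) (by norm_num)
    have hC : centralizer (E : Set G) = E := by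
      apply le_antisymm (h E hEnc)
      intro x hx
      rw [Subgroup.mem_centralizer_iff]
      intro y hy
      exact congrArg Subtype.val (hEc.is_comm.comm (⟨y, hy⟩ : E) ⟨x, hx⟩)
    exact class_of_self_centralizing (p := 2) n hG E hEcard hC
  · push Not at htwo
    have hn : ∀ A : Subgroup G, A.Normal → IsMulCommutative A → IsCyclic A := by
      intro A _ hAc
      by_contra hAnc
      obtain ⟨x, y, hx, hy, hyx⟩ :=
        Cfsg.Agent.Lib.PGroups.NormalRankTwo.exists_two_independent_of_comm (G := A)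
          (IsPGroup.to_subgroup hG2 A) (fun a b => hAc.is_comm.comm a b) hAnc
      have hx2 : x ^ 2 = 1 := by
        have := pow_orderOf_eq_one x
        rwa [hx] at this
      have hx1 : x ≠ 1 := by
        rintro rfl
        simp at hx
      have hy1 : y ≠ 1 := by
        rintro rfl
        exact hyx (Subgroup.one_mem _)
      have hxy : x ≠ y := by
        rintro rfl
        exact hyx (Subgroup.mem_zpowers _)
      exact hxy (Subtype.ext (htwo (x : G) (y : G) (congrArg Subtype.val hx2)
        (congrArg Subtype.val hy) (fun h => hx1 (Subtype.ext h)) (fun h => hy1 (Subtype.ext h))))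
    have hnc : ¬ IsCyclic G := fun hc => hna IsCyclic.isMulCommutative
    obtain ⟨m, a, y, hm2, hao, hcard, hy, -, hcases⟩ := classify hG2 hn hnc
    have hm1 : 2 ^ m = 2 * 2 ^ (m - 1) := by
      rw [← pow_succ']
      congr 1
      omega
    have hinv : ∀ y' : G, y' ^ 2 = 1 → y' ∉ Subgroup.zpowers a → False := by
      intro y' hy2 hy'
      have hz : a ^ 2 ^ (m - 1) ≠ 1 := by
        intro h
        have h1 := orderOf_dvd_of_pow_eq_one h
        rw [hao] at h1
        have h2 := (Nat.pow_dvd_pow_iff_le_right (by norm_num : 1 < 2)).mp h1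
        omega
      have hz2 : (a ^ 2 ^ (m - 1)) ^ 2 = 1 := by
        rw [← pow_mul, mul_comm, ← hm1, ← hao, pow_orderOf_eq_one]
      have hy1 : y' ≠ 1 := by
        rintro rfl
        exact hy' (Subgroup.one_mem _)
      have hne : a ^ 2 ^ (m - 1) ≠ y' := by
        rintro rfl
        exact hy' (Subgroup.pow_mem _ (Subgroup.mem_zpowers a) _)
      exact hne (htwo _ _ hz2 hy2 hz hy1)
    have hconj : y * a * y⁻¹ = a⁻¹ := by
      rcases hcases with ⟨-, hya⟩ | ⟨-, hy2, -⟩ | ⟨-, hy2, -⟩
      · exact hya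
      · exact (hinv y hy2 hy).elim
      · exact (hinv y hy2 hy).elim
    -- the commutator subgroup has index four
    have hsq : zpowers (a ^ 2) ≤ commutator G := by
      rw [Subgroup.zpowers_le]
      have h1 : ⁅a, y⁆ = a ^ 2 := by
        rw [commutatorElement_def]
        have : a * y * a⁻¹ * y⁻¹ = a * (y * a⁻¹ * y⁻¹) := by group
        rw [this, ← conj_inv, hconj, inv_inv, sq]
      rw [← h1]
      exact Subgroup.commutator_mem_commutator (Subgroup.mem_top _) (Subgroup.mem_top _)
    have hsqidx : (zpowers (a ^ 2)).index = 4 := by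
      have h1 := Subgroup.card_mul_index (zpowers (a ^ 2))
      rw [Nat.card_zpowers, hcard] at h1
      have h2 : orderOf (a ^ 2) = 2 ^ (m - 1) := by
        rw [orderOf_pow' a (by norm_num), hao, Nat.gcd_eq_right (dvd_pow_self 2 (by omega)), hm1]
        simp
      rw [h2] at h1
      have h3 : 2 ^ (m + 1) = 2 ^ (m - 1) * 4 := by
        rw [pow_succ, hm1]
        ring
      rw [h3] at h1
      exact Nat.eq_of_mul_eq_mul_left (by positivity) h1
    have hdvd : (commutator G).index ∣ 4 := hsqidx ▸ Subgroup.index_dvd_of_le hsq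
    have hnle : ¬ (commutator G).index ≤ 2 := fun hle => hnc (isCyclic_of_index_commutator_le hG2 hle)
    have h4 : (commutator G).index = 4 := by
      have hle := Nat.le_of_dvd (by norm_num) hdvd
      interval_cases hi : (commutator G).index <;> omega
    exact class_of_index_commutator_eq_four hn3 hG h4

/-- The backward direction. -/
private theorem backward {G : Type*} [Group G] [Finite G] (n : ℕ)
    (hG : Nat.card G = 2 ^ n) (hn3 : 3 ≤ n) (hcl : Group.nilpotencyClass G = n - 1) (H : Subgroup G)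
    (hH : ¬ IsCyclic ↥H) : Subgroup.centralizer (H : Set G) ≤ H := by
  classical
  haveI : Fact (Nat.Prime 2) := ⟨Nat.prime_two⟩
  have hG2 : IsPGroup 2 G := IsPGroup.of_card hG
  have h4 : (commutator G).index = 4 := by
    have := index_commutator_of_maximal_class hG2 hn3 hG hcl
    rw [this]
    norm_num
  obtain ⟨a, y, r, s, hao, hidx, hy, hr, hr3, hr1, hy2, hs⟩ := exists_structure hn3 hG h4
  obtain ⟨q, hq⟩ : ∃ q, r = 4 * q + 3 := ⟨r / 4, by omega⟩
  set z : G := a ^ ((2 : ℤ) ^ (n - 2)) with hz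
  have h2n : (2 : ℤ) ^ (n - 1) = 2 * 2 ^ (n - 2) := by
    rw [← pow_succ']
    congr 1
    omega
  have hz2 : z ^ (2 : ℤ) = 1 := by
    rw [hz, ← zpow_mul, mul_comm, ← h2n, zpow_eq_one_iff_dvd hao]
  -- the powers of `a` with exponent divisible by `2 ^ (n - 2)`
  have hsmall : ∀ j : ℤ, (2 : ℤ) ^ (n - 2) ∣ j → a ^ j = 1 ∨ a ^ j = z := by
    rintro j ⟨t, rfl⟩
    rcases Int.even_or_odd' t with ⟨u, rfl | rfl⟩
    · left
      rw [show (2 : ℤ) ^ (n - 2) * (2 * u) = (2 : ℤ) ^ (n - 1) * u by rw [h2n]; ring,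
        zpow_eq_one_iff_dvd hao]
      exact Dvd.intro _ rfl
    · right
      rw [hz, zpow_eq_zpow_iff_dvd hao]
      exact ⟨u, by rw [h2n]; ring⟩
  have hanorm : (zpowers a).Normal := Subgroup.normal_of_index_eq_two hidx
  have hmem2 : ∀ b c : G, b ∉ zpowers a → c ∉ zpowers a → c * b⁻¹ ∈ zpowers a := by
    intro b c hb hc
    haveI := hanorm
    have hb' : b⁻¹ ∉ zpowers a := fun h => hb (by simpa using Subgroup.inv_mem _ h)
    exact (Subgroup.mul_mem_iff_of_index_two hidx).2 (by tauto) |> fun h => h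
  -- pick `b ∈ H` outside `⟨a⟩`
  have hb : ∃ b ∈ H, b ∉ zpowers a := by
    by_contra hall
    push Not at hall
    apply hH
    have hle : H ≤ zpowers a := hall
    let f : H →* zpowers a := Subgroup.inclusion hle
    exact isCyclic_of_injective f (Subgroup.inclusion_injective hle)
  obtain ⟨b, hbH, hba⟩ := hb
  -- `b` acts as `y`
  obtain ⟨i, hi⟩ := Subgroup.mem_zpowers_iff.mp (hmem2 y b hy hba)
  have hb_eq : b = a ^ i * y := by
    rw [hi]
    group
  have hbconj : ∀ j : ℤ, b * a ^ j * b⁻¹ = a ^ (r * j) := by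
    intro j
    have h1 : y * a ^ j * y⁻¹ = a ^ (r * j) := conj_zpow_of hr j
    calc b * a ^ j * b⁻¹ = a ^ i * (y * a ^ j * y⁻¹) * (a ^ i)⁻¹ := by rw [hb_eq]; group
      _ = a ^ i * a ^ (r * j) * (a ^ i)⁻¹ := by rw [h1]
      _ = a ^ (r * j) := by
        rw [← zpow_neg, ← zpow_add, ← zpow_add]
        congr 1
        ring
  -- elements of `⟨a⟩` commuting with `b`
  have hcomb : ∀ j : ℤ, a ^ j * b = b * a ^ j → a ^ j = 1 ∨ a ^ j = z := by
    intro j hj
    apply hsmall
    have h1 : b * a ^ j * b⁻¹ = a ^ j := by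
      rw [← hj]
      group
    rw [hbconj, zpow_eq_zpow_iff_dvd hao] at h1
    have h2 : r * j - j = 2 * ((2 * q + 1) * j) := by rw [hq]; ring
    rw [h2, h2n] at h1
    have h3 := (mul_dvd_mul_iff_left (by norm_num : (2 : ℤ) ≠ 0)).mp h1
    exact (IsCoprime.dvd_of_dvd_mul_left (isCoprime_two_pow_odd (n - 2) q) h3)
  -- `z ∈ H`
  have hzH : z ∈ H := by
    -- a nontrivial element of `H ∩ ⟨a⟩`
    obtain ⟨c, hcH, hca, hc1⟩ : ∃ c ∈ H, c ∈ zpowers a ∧ c ≠ 1 := by
      by_contra hall
      push Not at hall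
      apply hH
      have hb2 : b ^ 2 ∈ zpowers a := by
        have h1 := hmem2 b⁻¹ b (fun h => hba (by simpa using Subgroup.inv_mem _ h)) hba
        simpa [sq] using h1
      have hb21 : b ^ 2 = 1 := hall _ (H.pow_mem hbH 2) hb2
      have hle : ∀ x ∈ H, x = 1 ∨ x = b := by
        intro x hx
        by_cases hxa : x ∈ zpowers a
        · exact Or.inl (hall x hx hxa)
        · right
          have h1 := hall (x * b⁻¹) (H.mul_mem hx (H.inv_mem hbH)) (hmem2 b x hba hxa)
          exact mul_inv_eq_one.mp h1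
      refine ⟨⟨⟨b, hbH⟩, fun x => ?_⟩⟩
      rcases hle x x.2 with h1 | h1
      · exact ⟨0, Subtype.ext (by simp [h1])⟩
      · exact ⟨1, Subtype.ext (by simp [h1])⟩
    have hcord := exists_orderOf_eq_of_ne_one (p := 2) hG2 hc1
    set w := c ^ (orderOf c / 2) with hw
    have hwH : w ∈ H := H.pow_mem hcH _
    have hwa : w ∈ zpowers a := Subgroup.pow_mem _ hca _
    obtain ⟨j, hj⟩ := Subgroup.mem_zpowers_iff.mp hwa
    have hw2 : w ^ 2 = 1 := by
      have := pow_orderOf_eq_one w
      rwa [hcord] at this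
    have hw1 : w ≠ 1 := by
      intro h
      rw [h, orderOf_one] at hcord
      omega
    have h1 : a ^ (2 * j) = 1 := by
      rw [mul_comm, zpow_mul, hj, zpow_two, ← sq, hw2]
    rw [zpow_eq_one_iff_dvd hao, h2n] at h1
    have h2 := (mul_dvd_mul_iff_left (by norm_num : (2 : ℤ) ≠ 0)).mp h1
    rcases hsmall j h2 with h3 | h3
    · rw [hj] at h3
      exact absurd h3 hw1
    · rw [← h3, hj]
      exact hwH
  -- conclusion
  intro g hg
  rw [Subgroup.mem_centralizer_iff] at hg
  have hgb : g * b = b * g := (hg b hbH).symm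
  have hone : (1 : G) ∈ H := H.one_mem
  by_cases hga : g ∈ zpowers a
  · obtain ⟨j, hj⟩ := Subgroup.mem_zpowers_iff.mp hga
    rw [← hj] at hgb ⊢
    rcases hcomb j hgb with h1 | h1
    · rw [h1]; exact hone
    · rw [h1]; exact hzH
  · have hgb' := hmem2 b g hba hga
    obtain ⟨j, hj⟩ := Subgroup.mem_zpowers_iff.mp hgb'
    have h2 : a ^ j * b = b * a ^ j := by
      rw [hj]
      calc g * b⁻¹ * b = g := by group
        _ = b * (g * b⁻¹) := by
          rw [← mul_assoc, ← hgb]
          group
    have h3 : g = a ^ j * b := by rw [hj]; group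
    rw [h3]
    refine H.mul_mem ?_ hbH
    rcases hcomb j h2 with h1 | h1
    · rw [h1]; exact hone
    · rw [h1]; exact hzH

/-- Say that a group has self-centralizing non-cyclic subgroups when every non-cyclic subgroup H satisfies C_G(H) ≤ H. A finite non-abelian 2-group G of order 2^n has self-centralizing non-cyclic subgroups if and only if G has nilpotency class n − 1 (that is, G is dihedral, semidihedral or generalized quaternion). -/
theorem result {G : Type*} [Group G] [Finite G] (hna : ¬ IsMulCommutative G) (n : ℕ) (hG : Nat.card G = 2 ^ n) :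
    (∀ H : Subgroup G, ¬ IsCyclic ↥H → Subgroup.centralizer (H : Set G) ≤ H) ↔ (⊤ : Subgroup G).lowerCentralSeries (n - 2) ≠ ⊥ := by
  haveI : Fact (Nat.Prime 2) := ⟨Nat.prime_two⟩
  have hG2 : IsPGroup 2 G := IsPGroup.of_card hG
  haveI := hG2.isNilpotent
  have hn3 : 3 ≤ n := by
    by_contra hlt
    apply hna
    have hn' : n = 0 ∨ n = 1 ∨ n = 2 := by omega
    rcases hn' with rfl | rfl | rfl
    · have : Subsingleton G := (Nat.card_eq_one_iff_unique.mp (by simpa using hG)).1
      exact ⟨⟨fun a b => Subsingleton.elim _ _⟩⟩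
    · have : IsCyclic G := isCyclic_of_prime_card (p := 2) (by simpa using hG)
      exact IsCyclic.isMulCommutative
    · exact IsPGroup.isMulCommutative_of_card_eq_prime_sq hG
  rw [Ne, Subgroup.lowerCentralSeries_eq_bot_iff_nilpotencyClass_le]
  constructor
  · intro h hle
    have := forward hna n hG hn3 h
    omega
  · intro hc H hH
    have hle := class_le hG2 (by omega) hG
    exact backward n hG hn3 (by omega) H hH

end Cfsg.Agent.S3919
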