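import Cfsg.Statements.S3920

set_option autoImplicit false
open Cfsg

namespace Cfsg.Agent.S3920

open DihedralGroup

private lemma zmod_two_pow_two_mul {k : ℕ} (a : ZMod (2 ^ (k + 1))) (ha : 2 * a = 0) :
    a = 0 ∨ a = ((2 ^ k : ℕ) : ZMod (2 ^ (k + 1))) := by
  have : NeZero (2 ^ (k + 1)) := ⟨by positivity⟩
  have hval : a.val < 2 ^ (k + 1) := ZMod.val_lt a
  have h1 : ((2 * a.val : ℕ) : ZMod (2 ^ (k + 1))) = 0 := by
    push_cast
    rw [ZMod.natCast_zmod_val]
    exact ha
  rw [ZMod.natCast_eq_zero_iff] at h1
  have h2 : 2 ^ k ∣ a.val :=
    Nat.dvd_of_mul_dvd_mul_left (by norm_num : 0 < 2) (by rw [← pow_succ']; exact h1)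
  obtain ⟨t, ht⟩ := h2
  have ht2 : t < 2 := by
    have : 2 ^ k * t < 2 ^ k * 2 := by
      rw [← ht, ← pow_succ]; exact hval
    exact Nat.lt_of_mul_lt_mul_left this
  have hcast : a = ((a.val : ℕ) : ZMod (2 ^ (k + 1))) := (ZMod.natCast_zmod_val a).symm
  interval_cases t
  · left
    rw [hcast, ht]; simp
  · right
    rw [hcast, ht]; simp

/-- Say that a group has self-centralizing non-cyclic subgroups when every non-cyclic subgroup H satisfies C_G(H) ≤ H. For n ≥ 3, the dihedral group of order 2n has self-centralizing non-cyclic subgroups if and only if n is odd or a power of 2. -/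
theorem result (n : ℕ) (hn : 3 ≤ n) : (∀ H : Subgroup (DihedralGroup n), ¬ IsCyclic ↥H → Subgroup.centralizer (H : Set (DihedralGroup n)) ≤ H) ↔ (Odd n ∨ ∃ k : ℕ, n = 2 ^ k) := by
  have : NeZero n := ⟨by omega⟩
  constructor
  · intro h
    by_contra hcon
    push Not at hcon
    obtain ⟨hodd, hpow⟩ := hcon
    obtain ⟨a, m, hm, hnm⟩ := Nat.exists_eq_two_pow_mul_odd (show n ≠ 0 by omega)
    have ha : a ≠ 0 := by
      rintro rfl
      apply hodd
      simpa [hnm] using hm
    have hm1 : m ≠ 1 := by
      rintro rfl
      exact hpow a (by simpa using hnm)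
    have hdvd : 2 ^ a ∣ n := ⟨m, hnm⟩
    have : NeZero (2 ^ a) := ⟨by positivity⟩
    let ψ : ZMod n →+* ZMod (2 ^ a) := ZMod.castHom hdvd (ZMod (2 ^ a))
    let H : Subgroup (DihedralGroup n) :=
      { carrier := {x | match x with
                        | r i => ψ i = 0
                        | sr i => ψ i = 0}
        one_mem' := by
          show ψ 0 = 0
          simp
        mul_mem' := by
          rintro (i | i) (j | j) hi hj
          · show ψ (i + j) = 0
            have hi' : ψ i = 0 := hi
            have hj' : ψ j = 0 := hj
            rw [map_add, hi', hj', add_zero]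
          · show ψ (j - i) = 0
            have hi' : ψ i = 0 := hi
            have hj' : ψ j = 0 := hj
            rw [map_sub, hi', hj', sub_zero]
          · show ψ (i + j) = 0
            have hi' : ψ i = 0 := hi
            have hj' : ψ j = 0 := hj
            rw [map_add, hi', hj', add_zero]
          · show ψ (j - i) = 0
            have hi' : ψ i = 0 := hi
            have hj' : ψ j = 0 := hj
            rw [map_sub, hi', hj', sub_zero]
        inv_mem' := by
          rintro (i | i) hi
          · show ψ (-i) = 0
            have hi' : ψ i = 0 := hi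
            rw [map_neg, hi', neg_zero]
          · exact hi }
    have h2a : ((2 ^ a : ℕ) : ZMod n) ≠ 0 := by
      intro h0
      rw [ZMod.natCast_eq_zero_iff] at h0
      have := Nat.le_of_dvd (by positivity) h0
      have hmge : 3 ≤ m := by
        have := hm.pos
        obtain ⟨t, rfl⟩ := hm
        omega
      have h2 : 0 < 2 ^ a := by positivity
      rw [hnm] at this
      nlinarith
    -- `H` is not abelian
    have hnotcyc : ¬ IsCyclic H := by
      intro hc
      have hcomm : ∀ x y : H, x * y = y * x := fun x y => (IsCyclic.commGroup (α := H)).mul_comm x y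
      have hx : sr (0 : ZMod n) ∈ H := by
        show ψ 0 = 0
        simp
      have hy : r ((2 ^ a : ℕ) : ZMod n) ∈ H := by
        show ψ ((2 ^ a : ℕ) : ZMod n) = 0
        rw [map_natCast]
        exact ZMod.natCast_self (2 ^ a)
      have := congrArg Subtype.val (hcomm ⟨_, hx⟩ ⟨_, hy⟩)
      simp only [Subgroup.coe_mul, sr_mul_r, r_mul_sr, sr.injEq] at this
      have h3 : ((2 * 2 ^ a : ℕ) : ZMod n) = 0 := by
        push_cast at this ⊢
        have h4 : (2 : ZMod n) * 2 ^ a = (0 + 2 ^ a) - (0 - 2 ^ a) := by ring
        rw [h4, this]; ring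
      rw [ZMod.natCast_eq_zero_iff, hnm] at h3
      have hmd : m ∣ 2 := by
        have h5 : 2 ^ a * m ∣ 2 ^ a * 2 := by
          rwa [mul_comm (2 ^ a) 2]
        exact Nat.dvd_of_mul_dvd_mul_left (by positivity) h5
      have h6 := Nat.le_of_dvd (by norm_num) hmd
      have hmge : 3 ≤ m := by
        have := hm.pos
        obtain ⟨t, rfl⟩ := hm
        omega
      omega
    -- the central element `r (n/2)`
    obtain ⟨b, hb⟩ : ∃ b, a = b + 1 := Nat.exists_eq_succ_of_ne_zero ha
    let c : ZMod n := ((2 ^ b * m : ℕ) : ZMod n)
    have hc2 : c + c = 0 := by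
      have : c + c = ((2 ^ (b + 1) * m : ℕ) : ZMod n) := by
        simp only [c]; push_cast; ring
      rw [this, ← hb, ← hnm]
      simp
    have hcent : r c ∈ Subgroup.centralizer (H : Set (DihedralGroup n)) := by
      rw [Subgroup.mem_centralizer_iff]
      rintro (i | i) _
      · simp [add_comm]
      · simp only [r_mul_sr, sr_mul_r, sr.injEq]
        have : -c = c := by
          rw [eq_comm, ← add_eq_zero_iff_eq_neg]; exact hc2
        rw [sub_eq_add_neg, this]
    have hnotin : r c ∉ H := by
      intro hin
      have h0 : ψ c = 0 := hin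
      simp only [c, map_natCast] at h0
      rw [ZMod.natCast_eq_zero_iff, hb, pow_succ] at h0
      have h5 : 2 ∣ m := Nat.dvd_of_mul_dvd_mul_left (by positivity) h0
      obtain ⟨t, rfl⟩ := hm
      omega
    exact hnotin (h H hnotcyc hcent)
  · rintro hcase H hH z hz
    have hcomm : ∀ x ∈ H, x * z = z * x := fun x hx => Subgroup.mem_centralizer_iff.mp hz x hx
    -- `H` contains a reflection
    have hrefl : ∃ i, sr i ∈ H := by
      by_contra hno
      push Not at hno
      apply hH
      have hle : H ≤ Subgroup.zpowers (r (1 : ZMod n)) := by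
        rintro (i | i) hi
        · refine Subgroup.mem_zpowers_iff.mpr ⟨(i.val : ℤ), ?_⟩
          rw [r_zpow]
          simp
        · exact absurd hi (hno i)
      exact Subgroup.isCyclic_of_le hle
    obtain ⟨i, hi⟩ := hrefl
    -- `H` contains a nontrivial rotation
    have hrot : ∃ j, j ≠ 0 ∧ r j ∈ H := by
      by_contra hno
      push Not at hno
      apply hH
      have hle : H ≤ Subgroup.zpowers (sr i) := by
        rintro (j | j) hj
        · have : j = 0 := by
            by_contra h0
            exact hno j h0 hj
          subst this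
          exact Subgroup.one_mem _
        · have h1 : sr i * sr j ∈ H := H.mul_mem hi hj
          rw [sr_mul_sr] at h1
          have h2 : j - i = 0 := by
            by_contra h0
            exact hno _ h0 h1
          have h3 : j = i := sub_eq_zero.mp h2
          subst h3
          exact Subgroup.mem_zpowers _
      exact Subgroup.isCyclic_of_le hle
    obtain ⟨j, hj0, hj⟩ := hrot
    have hci := hcomm _ hi
    have hcj := hcomm _ hj
    rcases hcase with hodd | ⟨k, hk⟩
    · -- n odd: 2 is a unit
      have hunit : ∀ a : ZMod n, 2 * a = 0 → a = 0 := by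
        intro a ha
        have hcop : Nat.Coprime 2 n := Nat.coprime_two_left.mpr hodd
        have h2 : IsUnit ((2 : ℕ) : ZMod n) := (ZMod.isUnit_iff_coprime 2 n).mpr hcop
        have h3 : ((2 : ℕ) : ZMod n) * a = 0 := by
          push_cast; exact ha
        exact (h2.mul_right_eq_zero).mp h3
      rcases z with a | b
      · simp only [r_mul_sr, sr_mul_r, sr.injEq] at hci
        have h2 : 2 * a = 0 := by
          have : i + a = i - a := hci
          linear_combination this
        rw [hunit a h2]
        exact H.one_mem
      · simp only [r_mul_sr, sr_mul_r, sr.injEq] at hcj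
        have h2 : 2 * j = 0 := by
          linear_combination -hcj
        exact absurd (hunit j h2) hj0
    · -- n = 2 ^ k
      subst hk
      obtain ⟨l, rfl⟩ : ∃ l, k = l + 1 := by
        refine Nat.exists_eq_succ_of_ne_zero ?_
        rintro rfl
        norm_num at hn
      set h0 : ZMod (2 ^ (l + 1)) := ((2 ^ l : ℕ) : ZMod (2 ^ (l + 1))) with hh0
      have h0ne : r h0 ∈ H := by
        -- take a suitable power of `r j`
        have hord : orderOf (r j) ∣ 2 ^ (l + 1) := by
          apply orderOf_dvd_of_pow_eq_one
          rw [r_pow]
          simp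
        obtain ⟨s, hs, hos⟩ := (Nat.dvd_prime_pow Nat.prime_two).mp hord
        have hs0 : s ≠ 0 := by
          rintro rfl
          rw [pow_zero, orderOf_eq_one_iff] at hos
          have : j = 0 := by
            have := hos
            rw [one_def] at this
            exact r.inj this
          exact hj0 this
        obtain ⟨s', rfl⟩ := Nat.exists_eq_succ_of_ne_zero hs0
        set y : DihedralGroup (2 ^ (l + 1)) := (r j) ^ (2 ^ s') with hy
        have hyH : y ∈ H := H.pow_mem hj _
        have hyr : y = r (j * ((2 ^ s' : ℕ) : ZMod (2 ^ (l + 1)))) := by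
          rw [hy, r_pow]
        set c := j * ((2 ^ s' : ℕ) : ZMod (2 ^ (l + 1))) with hc
        have hy2 : y ^ 2 = 1 := by
          rw [hy, ← pow_mul, ← pow_succ, ← hos]
          exact pow_orderOf_eq_one _
        have hy1 : y ≠ 1 := by
          intro h1
          have h2 := orderOf_dvd_of_pow_eq_one h1
          rw [hos] at h2
          have h3 := Nat.le_of_dvd (by positivity) h2
          have h4 : 2 ^ s' < 2 ^ (s' + 1) := Nat.pow_lt_pow_right (by norm_num) (by omega)
          omega
        have hc2 : 2 * c = 0 := by
          have h3 := hy2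
          rw [hyr, r_pow] at h3
          have h4 : c * ((2 : ℕ) : ZMod (2 ^ (l + 1))) = 0 := by
            rw [one_def] at h3
            exact r.inj h3
          push_cast at h4
          linear_combination h4
        rcases zmod_two_pow_two_mul c hc2 with h5 | h5
        · exfalso
          apply hy1
          rw [hyr, h5]
          rfl
        · have h6 : h0 = c := h5.symm
          rw [h6, ← hyr]
          exact hyH
      rcases z with a | b
      · simp only [r_mul_sr, sr_mul_r, sr.injEq] at hci
        have h2 : 2 * a = 0 := by
          have : i + a = i - a := hci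
          linear_combination this
        rcases zmod_two_pow_two_mul a h2 with h5 | h5
        · rw [h5]; exact H.one_mem
        · rw [h5]; exact h0ne
      · simp only [r_mul_sr, sr_mul_r, sr_mul_sr, sr.injEq, r.injEq] at hci
        have h2 : 2 * (b - i) = 0 := by
          have : b - i = i - b := hci
          linear_combination this
        rcases zmod_two_pow_two_mul _ h2 with h5 | h5
        · have : b = i := sub_eq_zero.mp h5
          rw [this]; exact hi
        · have : b = i + h0 := by
            rw [← hh0] at h5
            linear_combination h5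
          rw [this, ← sr_mul_r]
          exact H.mul_mem hi h0ne

end Cfsg.Agent.S3920
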