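import Cfsg.Statements.S3933
import Cfsg.Agent.Lib.Char.Burnside
import Cfsg.Agent.Lib.Core.SylowFacts

set_option autoImplicit false
open Cfsg

namespace Cfsg.Agent.S3933

open Subgroup

universe u

section Lemmas

variable {G : Type u} [Group G] [Finite G]

theorem card_eq_idx {X : Type*} [Group X] [Finite X] {p : ℕ} [Fact p.Prime] (P : Sylow p X) :
    Nat.card (Sylow p X) = (normalizer ((P : Subgroup X) : Set X)).index :=
  P.card_eq_index_normalizer

/-- The number of Sylow subgroups of a quotient divides the number for the group. -/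
theorem card_sylow_quot_dvd {Γ : Type u} [Group Γ] [Finite Γ] (φ : G →* Γ)
    (hφ : Function.Surjective φ) (p : ℕ) [Fact p.Prime] :
    Nat.card (Sylow p Γ) ∣ Nat.card (Sylow p G) := by
  obtain ⟨P⟩ : Nonempty (Sylow p G) := inferInstance
  let Q : Sylow p Γ := P.mapSurjective hφ
  have h1 : normalizer ((P : Subgroup G) : Set G) ≤
      (normalizer ((Q : Subgroup Γ) : Set Γ)).comap φ := by
    intro g hg
    rw [Subgroup.mem_comap, Subgroup.mem_normalizer_iff]
    intro x
    obtain ⟨y, rfl⟩ := hφ x
    have hQ : (Q : Subgroup Γ) = (P : Subgroup G).map φ := rfl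
    constructor
    · intro hx
      rw [hQ] at hx ⊢
      obtain ⟨y', hy', hyy'⟩ := hx
      refine ⟨g * y' * g⁻¹, (Subgroup.mem_normalizer_iff.mp hg y').mp hy', ?_⟩
      rw [map_mul, map_mul, map_inv, hyy']
    · intro hx
      rw [hQ] at hx ⊢
      obtain ⟨y', hy', hyy'⟩ := hx
      refine ⟨g⁻¹ * y' * g, ?_, ?_⟩
      · have h2 := (Subgroup.mem_normalizer_iff.mp (Subgroup.inv_mem _ hg) y').mp hy'
        have h3 : g⁻¹ * y' * g = g⁻¹ * y' * g⁻¹⁻¹ := by simp
        rw [h3]
        exact h2
      · rw [map_mul, map_mul, map_inv, hyy']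
        group
  have h2 := Subgroup.index_dvd_of_le h1
  rw [Subgroup.index_comap_of_surjective _ hφ] at h2
  rw [card_eq_idx Q, card_eq_idx P]
  exact h2

/-- The number of Sylow subgroups of a normal subgroup divides the number for the group. -/
theorem card_sylow_normal_dvd (N : Subgroup G) [N.Normal] (p : ℕ) [Fact p.Prime] :
    Nat.card (Sylow p N) ∣ Nat.card (Sylow p G) := by
  obtain ⟨P⟩ : Nonempty (Sylow p G) := inferInstance
  let S : Sylow p N := Cfsg.Agent.Lib.Core.SylowFacts.sylowOfNormal P N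
  let H : Subgroup G := normalizer (((P : Subgroup G) ⊓ N : Subgroup G) : Set G)
  have e1 : Nat.card (Sylow p N) = H.relIndex N := by
    rw [card_eq_idx S]
    have e7 : (S : Subgroup N) = ((P : Subgroup G) ⊓ N).subgroupOf N := by
      rw [Cfsg.Agent.Lib.Core.SylowFacts.coe_sylowOfNormal, Subgroup.inf_subgroupOf_right]
    rw [e7, Subgroup.relIndex]
    congr 1
    exact (Subgroup.comap_normalizer_eq_of_le_range (H := (P : Subgroup G) ⊓ N) (f := N.subtype)
      (by rw [Subgroup.range_subtype]; exact inf_le_right)).symm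
  have hle : normalizer ((P : Subgroup G) : Set G) ≤ H := by
    intro g hg
    rw [Subgroup.mem_normalizer_iff]
    intro x
    have hN : x ∈ N ↔ g * x * g⁻¹ ∈ N := by
      constructor
      · intro h
        exact Subgroup.Normal.conj_mem inferInstance x h g
      · intro h
        have := Subgroup.Normal.conj_mem (inferInstance : N.Normal) _ h g⁻¹
        simpa [mul_assoc] using this
    have hP := (Subgroup.mem_normalizer_iff.mp hg x)
    simp only [Subgroup.mem_inf, hP, hN]
  rw [e1, card_eq_idx P]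
  exact (Cfsg.Agent.Lib.Core.SylowFacts.relIndex_dvd_index_of_normal_right H N).trans
    (Subgroup.index_dvd_of_le hle)

/-- Two subgroups of coprime indices factorize the group. -/
theorem exists_mul_of_coprime_index (X Y : Subgroup G) (h : Nat.Coprime X.index Y.index)
    (b : G) : ∃ y ∈ Y, ∃ x ∈ X, b = y * x := by
  classical
  let f := Subgroup.quotientSubgroupOfEmbeddingOfLE X (le_top : Y ≤ ⊤)
  have hle : X.relIndex Y ≤ X.relIndex ⊤ := Nat.card_le_card_of_injective f f.injective
  have hA1 : (X ⊓ Y).relIndex Y * Y.index = (X ⊓ Y).index :=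
    Subgroup.relIndex_mul_index inf_le_right
  have hA2 : (X ⊓ Y).relIndex X * X.index = (X ⊓ Y).index :=
    Subgroup.relIndex_mul_index inf_le_left
  have hdvd : X.index ∣ X.relIndex Y := by
    have h1 : X.index ∣ (X ⊓ Y).relIndex Y * Y.index := by
      rw [hA1, ← hA2]; exact dvd_mul_left _ _
    rw [Subgroup.inf_relIndex_right] at h1
    exact h.dvd_of_dvd_mul_right h1
  have hpos : 0 < X.relIndex Y := Nat.pos_of_ne_zero (by
    rw [Subgroup.relIndex]; exact Subgroup.index_ne_zero_of_finite)
  have heq : X.relIndex ⊤ ≤ X.relIndex Y := by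
    rw [Subgroup.relIndex_top_right]
    exact Nat.le_of_dvd hpos hdvd
  have hbij : Function.Bijective f :=
    Function.Injective.bijective_of_nat_card_le f.injective heq
  obtain ⟨q, hq⟩ := hbij.2 (QuotientGroup.mk ⟨b, trivial⟩)
  induction q using QuotientGroup.induction_on with
  | H y =>
    rw [Subgroup.quotientSubgroupOfEmbeddingOfLE_apply_mk, QuotientGroup.eq] at hq
    have hq' : ((y : G))⁻¹ * b ∈ X := hq
    exact ⟨y, y.2, (y : G)⁻¹ * b, hq', by group⟩

/-- The basic trick: in a simple group, if `X` has index coprime to the index of the normalizer of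
a nontrivial Sylow `s`-subgroup, and `s` does not divide the index of `X`, then `X` is everything. -/
theorem eq_top_of_coprime_index [IsSimpleGroup G] (X : Subgroup G) {s : ℕ} [Fact s.Prime]
    (S : Sylow s G) (hcop : Nat.Coprime X.index (normalizer ((S : Subgroup G) : Set G)).index)
    (hS : (S : Subgroup G) ≠ ⊥) (hs : ¬ s ∣ X.index) : X = ⊤ := by
  classical
  set Y : Subgroup G := normalizer ((S : Subgroup G) : Set G) with hY
  -- a fixed point of `S` on the cosets of `X`
  have hcard : ¬ s ∣ Nat.card (G ⧸ X) := hs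
  obtain ⟨q, hq⟩ := S.isPGroup'.nonempty_fixed_point_of_prime_not_dvd_card (G ⧸ X) hcard
  induction q using QuotientGroup.induction_on with
  | H g =>
  have hg : ∀ t ∈ (S : Subgroup G), g⁻¹ * (t * g) ∈ X := by
    intro t ht
    have h1 := hq ⟨t, ht⟩
    have h2 : ((t * g : G) : G ⧸ X) = (g : G ⧸ X) := h1
    rw [QuotientGroup.eq] at h2
    have h3 : (g)⁻¹ * (t * g) ∈ X := by
      have := X.inv_mem h2
      simpa [mul_assoc] using this
    exact h3
  -- `g = y x`
  obtain ⟨y, hy, x, hx, rfl⟩ := exists_mul_of_coprime_index X Y hcop g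
  have hyS : ∀ t ∈ (S : Subgroup G), ∀ y ∈ Y, y * t * y⁻¹ ∈ (S : Subgroup G) := by
    intro t ht y hy
    exact (Subgroup.mem_normalizer_iff.mp hy t).mp ht
  have hSX : (S : Subgroup G) ≤ X := by
    intro t ht
    have h1 := hg (y * t * y⁻¹) (hyS t ht y hy)
    have h2 : (y * x)⁻¹ * (y * t * y⁻¹ * (y * x)) = x⁻¹ * t * x := by group
    rw [h2] at h1
    have h3 := X.mul_mem (X.mul_mem hx h1) (X.inv_mem hx)
    have h4 : x * (x⁻¹ * t * x) * x⁻¹ = t := by group
    rwa [h4] at h3
  -- every conjugate of `S` lies in `X`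
  have hcore : (S : Subgroup G) ≤ X.normalCore := by
    intro t ht
    show ∀ b : G, b * t * b⁻¹ ∈ X
    intro b
    obtain ⟨y', hy', x', hx', e⟩ := exists_mul_of_coprime_index X Y hcop b⁻¹
    have e' : b = x'⁻¹ * y'⁻¹ := by
      have := congrArg (·⁻¹) e
      simpa using this
    rw [e']
    have h1 : y'⁻¹ * t * y'⁻¹⁻¹ ∈ (S : Subgroup G) := hyS t ht _ (Y.inv_mem hy')
    have h2 := X.mul_mem (X.mul_mem (X.inv_mem hx') (hSX h1)) hx'
    have h3 : x'⁻¹ * (y'⁻¹ * t * y'⁻¹⁻¹) * x' = x'⁻¹ * y'⁻¹ * t * (x'⁻¹ * y'⁻¹)⁻¹ := by group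
    rwa [h3] at h2
  rcases IsSimpleGroup.eq_bot_or_eq_top_of_normal X.normalCore (Subgroup.normalCore_normal X) with
    h0 | h0
  · rw [h0] at hcore
    exact absurd (le_bot_iff.mp hcore) hS
  · rw [eq_top_iff, ← h0]
    exact Subgroup.normalCore_le X

end Lemmas

/-- The hypothesis on the Sylow numbers. -/
def Good (G : Type u) [Group G] [Finite G] : Prop :=
  ∀ (r : ℕ) [Fact r.Prime], Nat.card (Sylow r G) = 1 ∨ IsPrimePow (Nat.card (Sylow r G))

theorem good_of_dvd {a b : ℕ} (hb : b = 1 ∨ IsPrimePow b) (h : a ∣ b) : a = 1 ∨ IsPrimePow a := by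
  rcases hb with rfl | ⟨q, k, hq, hk, rfl⟩
  · left; exact Nat.dvd_one.mp h
  · have hq' : q.Prime := hq.nat_prime
    obtain ⟨j, -, rfl⟩ := (Nat.dvd_prime_pow hq').mp h
    rcases Nat.eq_zero_or_pos j with rfl | hj
    · left; simp
    · right; exact ⟨q, j, hq, hj, rfl⟩

/-- The simple case. -/
theorem solvable_of_simple {G : Type u} [Group G] [Finite G] [IsSimpleGroup G] (h : Good G) :
    Group.IsSolvable G := by
  classical
  by_contra hns
  -- data for each prime divisor
  have hdata : ∀ r : ℕ, r.Prime → r ∣ Nat.card G → ∃ q k : ℕ, q.Prime ∧ 0 < k ∧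
      q ≠ r ∧ q ∣ Nat.card G ∧ ∀ [Fact r.Prime], Nat.card (Sylow r G) = q ^ k := by
    intro r hr hd
    haveI : Fact r.Prime := ⟨hr⟩
    obtain ⟨P⟩ : Nonempty (Sylow r G) := inferInstance
    have hP : (P : Subgroup G) ≠ ⊥ := P.ne_bot_of_dvd_card hd
    have hne : Nat.card (Sylow r G) ≠ 1 := by
      intro h1
      have hnorm : (P : Subgroup G).Normal := by
        rw [← Subgroup.normalizer_eq_top_iff, ← Subgroup.index_eq_one, ← card_eq_idx P]
        exact h1
      rcases IsSimpleGroup.eq_bot_or_eq_top_of_normal _ hnorm with h0 | h0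
      · exact hP h0
      · apply hns
        have : IsPGroup r G := by
          have h2 := P.isPGroup'
          rw [h0] at h2
          intro g
          obtain ⟨k, hk⟩ := h2 ⟨g, trivial⟩
          exact ⟨k, congrArg Subtype.val hk⟩
        haveI := this.isNilpotent
        exact inferInstance
    rcases h r with h1 | ⟨q, k, hq, hk, hqk⟩
    · exact absurd h1 hne
    · have hq' : q.Prime := hq.nat_prime
      refine ⟨q, k, hq', hk, ?_, ?_, ?_⟩
      · rintro rfl
        have h2 := card_sylow_modEq_one q G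
        rw [← hqk] at h2
        have h3 : q ^ k ≡ 0 [MOD q] := (Nat.modEq_zero_iff_dvd).2 (dvd_pow_self _ hk.ne')
        have h4 := h2.symm.trans h3
        have h5 : q ∣ 1 := (Nat.modEq_zero_iff_dvd).1 h4
        exact hq'.one_lt.ne' (Nat.dvd_one.1 h5)
      · have h2 : q ∣ q ^ k := dvd_pow_self _ hk.ne'
        rw [hqk, card_eq_idx P] at h2
        exact h2.trans (Subgroup.index_dvd_card _)
      · intro _
        convert hqk.symm
  choose! q k hq hk hqr hqd hcard using hdata
  -- the key property
  have key : ∀ r s : ℕ, r.Prime → r ∣ Nat.card G → s.Prime → s ∣ Nat.card G → q r ≠ q s →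
      s = q r := by
    intro r s hr hrd hs hsd hne
    by_contra hsne
    haveI : Fact r.Prime := ⟨hr⟩
    haveI : Fact s.Prime := ⟨hs⟩
    obtain ⟨P⟩ : Nonempty (Sylow r G) := inferInstance
    obtain ⟨S⟩ : Nonempty (Sylow s G) := inferInstance
    have e1 : (normalizer ((P : Subgroup G) : Set G)).index = q r ^ k r := by
      rw [← card_eq_idx P]
      exact hcard r hr hrd
    have e2 : (normalizer ((S : Subgroup G) : Set G)).index = q s ^ k s := by
      rw [← card_eq_idx S]
      exact hcard s hs hsd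
    have htop := eq_top_of_coprime_index (normalizer ((P : Subgroup G) : Set G)) S
      (by
        rw [e1, e2]
        exact Nat.Coprime.pow _ _ ((Nat.coprime_primes (hq r hr hrd) (hq s hs hsd)).2 hne))
      (S.ne_bot_of_dvd_card hsd)
      (by
        rw [e1]
        intro hd
        exact hsne ((Nat.prime_dvd_prime_iff_eq hs (hq r hr hrd)).1 (hs.dvd_of_dvd_pow hd)))
    rw [htop, Subgroup.index_top] at e1
    have h5 : 1 < q r ^ k r := Nat.one_lt_pow (hk r hr hrd).ne' (hq r hr hrd).one_lt
    omega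
  -- a first prime
  have hn1 : Nat.card G ≠ 1 := by
    intro h1
    haveI : Subsingleton G := (Nat.card_eq_one_iff_unique.1 h1).1
    obtain ⟨a, b, hab⟩ : ∃ a b : G, a ≠ b := exists_pair_ne G
    exact hab (Subsingleton.elim a b)
  obtain ⟨p0, hp0, hp0d⟩ := Nat.exists_prime_and_dvd hn1
  set c := q p0 with hc
  have hcp : c.Prime := hq p0 hp0 hp0d
  have hcd : c ∣ Nat.card G := hqd p0 hp0 hp0d
  have hcne : c ≠ p0 := hqr p0 hp0 hp0d
  have hqc : q c ≠ c := hqr c hcp hcd
  have hqc' : q c = p0 := (key c p0 hcp hcd hp0 hp0d hqc).symm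
  -- every prime divisor is `p0` or `c`
  have hall : ∀ t : ℕ, t.Prime → t ∣ Nat.card G → t = p0 ∨ t = c := by
    intro t ht htd
    by_cases h1 : q t = c
    · left
      have h2 : q c ≠ q t := by rw [h1]; exact hqc
      have h3 := key c t hcp hcd ht htd h2
      rw [h3, hqc']
    · right
      have h2 : q p0 ≠ q t := fun e => h1 e.symm
      exact key p0 t hp0 hp0d ht htd h2
  apply hns
  -- Burnside
  have hn : Nat.card G ≠ 0 := Nat.card_pos.ne'
  obtain ⟨a, m, hm, hma⟩ := Nat.exists_eq_pow_mul_and_not_dvd hn p0 hp0.ne_one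
  have hm0 : m ≠ 0 := by
    rintro rfl
    simp at hma
    exact hn hma
  obtain ⟨b, l, hl, hlb⟩ := Nat.exists_eq_pow_mul_and_not_dvd hm0 c hcp.ne_one
  have hl1 : l = 1 := by
    by_contra hne
    obtain ⟨t, ht, htl⟩ := Nat.exists_prime_and_dvd hne
    have htm : t ∣ m := htl.trans (Dvd.intro_left _ hlb.symm)
    have htG : t ∣ Nat.card G := by
      rw [hma]; exact htm.trans (dvd_mul_left _ _)
    rcases hall t ht htG with rfl | rfl
    · exact hm htm
    · exact hl htl
  rw [hl1, mul_one] at hlb
  rw [hlb] at hma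
  exact Cfsg.Agent.Lib.Char.Burnside.isSolvable_of_card_eq p0 c a b hp0 hcp hma

theorem solvable_aux : ∀ (n : ℕ) (G : Type u) [Group G] [Finite G], Nat.card G = n →
    Good G → Group.IsSolvable G := by
  intro n
  induction n using Nat.strong_induction_on with
  | _ n ih =>
  intro G _ _ hn hG
  classical
  by_cases hs : IsSimpleGroup G
  · exact solvable_of_simple hG
  by_cases hnt : Nontrivial G
  · -- a proper nontrivial normal subgroup
    have hex : ∃ N : Subgroup G, N.Normal ∧ N ≠ ⊥ ∧ N ≠ ⊤ := by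
      by_contra hcon
      push Not at hcon
      apply hs
      exact ⟨fun N hN => by
        by_cases h : N = ⊥
        · exact Or.inl h
        · exact Or.inr (hcon N hN h)⟩
    obtain ⟨N, hN, hb, ht⟩ := hex
    haveI := hN
    have h1 : Nat.card N < n := by
      rw [← hn]
      have h3 := Subgroup.card_mul_index N
      have h4 : N.index ≠ 1 := fun h => ht (Subgroup.index_eq_one.1 h)
      have h5 : N.index ≠ 0 := Subgroup.index_ne_zero_of_finite
      have h6 : 0 < Nat.card N := Nat.card_pos
      have h7 : 2 ≤ N.index := by omega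
      nlinarith
    have h2 : Nat.card (G ⧸ N) < n := by
      rw [← hn]
      have h3 := Subgroup.card_eq_card_quotient_mul_card_subgroup N
      have h4 : Nat.card N ≠ 1 := fun h => hb (Subgroup.eq_bot_of_card_eq _ h)
      have h6 : 0 < Nat.card N := Nat.card_pos
      have h7 : 2 ≤ Nat.card N := by omega
      have h8 : 0 < Nat.card (G ⧸ N) := Nat.card_pos
      rw [h3]
      nlinarith
    haveI : Group.IsSolvable N := ih _ h1 N rfl (fun r _ =>
      good_of_dvd (hG r) (card_sylow_normal_dvd N r))
    haveI : Group.IsSolvable (G ⧸ N) := ih _ h2 (G ⧸ N) rfl (fun r _ =>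
      good_of_dvd (hG r) (card_sylow_quot_dvd (QuotientGroup.mk' N)
        (QuotientGroup.mk'_surjective N) r))
    exact solvable_of_ker_le_range N.subtype (QuotientGroup.mk' N) (by
      rw [QuotientGroup.ker_mk', Subgroup.range_subtype])
  · rw [not_nontrivial_iff_subsingleton] at hnt
    exact inferInstance

/-- If for every prime r the number of Sylow r-subgroups of the finite group G is a prime power or 1, then G is solvable. -/
theorem result {G : Type*} [Group G] [Finite G] (h : ∀ (r : ℕ) [Fact r.Prime], Nat.card (Sylow r G) = 1 ∨ IsPrimePow (Nat.card (Sylow r G))) :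
    Group.IsSolvable G := by
  exact solvable_aux _ G rfl h

end Cfsg.Agent.S3933
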