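import Cfsg.Statements.S3937
import Cfsg.Agent.Lib.Core.Basic
import Cfsg.Agent.Lib.Subnormal.Basic
-- import your own Cfsg.Agent.* helpers here

set_option autoImplicit false
open Cfsg

namespace Cfsg.Agent.S3937

open Cfsg.Agent.Lib.Subnormal.Basic
open scoped Pointwise

private theorem fold_succ {G : Type*} [Group G] (g x : G) (n : ℕ) :
    (List.replicate (n + 1) g).foldl (fun a b => a * b * a⁻¹ * b⁻¹) x =
      ((List.replicate n g).foldl (fun a b => a * b * a⁻¹ * b⁻¹) x) * g *
        ((List.replicate n g).foldl (fun a b => a * b * a⁻¹ * b⁻¹) x)⁻¹ * g⁻¹ := by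
  rw [List.replicate_succ', List.foldl_concat]

private theorem forward {G : Type*} [Group G] [Finite G] (g : G)
    (hg : g ∈ Cfsg.fittingSubgroup G) (x : G) :
    ∃ n : ℕ, (List.replicate n g).foldl (fun a b => a * b * a⁻¹ * b⁻¹) x = 1 := by
  have hnil : Group.IsNilpotent (Cfsg.fittingSubgroup G) :=
    Cfsg.Agent.Lib.Core.Basic.fittingSubgroup_isNilpotent
  have hN : (Cfsg.fittingSubgroup G).Normal := Cfsg.Agent.Lib.Core.Basic.fittingSubgroup_normal'
  set F := Cfsg.fittingSubgroup G with hF
  set y : ℕ → G := fun n => (List.replicate n g).foldl (fun a b => a * b * a⁻¹ * b⁻¹) x with hy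
  have hys : ∀ n, y (n + 1) = y n * g * (y n)⁻¹ * g⁻¹ := fun n => fold_succ g x n
  have key : ∀ n, ∃ w : F, (w : G) = y (n + 1) ∧ w ∈ (⊤ : Subgroup F).lowerCentralSeries n := by
    intro n
    induction n with
    | zero =>
      have h1 : y 0 = x := rfl
      refine ⟨⟨y 1, ?_⟩, rfl, ?_⟩
      · rw [show y 1 = y 0 * g * (y 0)⁻¹ * g⁻¹ from hys 0]
        exact F.mul_mem (hN.conj_mem g hg _) (F.inv_mem hg)
      · simp
    | succ n ih =>
      obtain ⟨w, hw, hw'⟩ := ih
      refine ⟨w * ⟨g, hg⟩ * w⁻¹ * (⟨g, hg⟩ : F)⁻¹, ?_, ?_⟩
      · rw [hys (n + 1), ← hw]; simp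
      · rw [Subgroup.lowerCentralSeries_succ]
        apply Subgroup.subset_closure
        exact ⟨w, hw', ⟨g, hg⟩, Subgroup.mem_top _, rfl⟩
  obtain ⟨c, hc⟩ := Subgroup.nilpotent_iff_lowerCentralSeries.mp hnil
  obtain ⟨w, hw, hw'⟩ := key c
  refine ⟨c + 1, ?_⟩
  rw [hc, Subgroup.mem_bot] at hw'
  have h2 : y (c + 1) = 1 := by rw [← hw, hw']; rfl
  exact h2

private theorem smul_lt_smul_iff_of_subgroup {G : Type*} [Group G] (c : G) {V : Subgroup G}
    (T : Subgroup G) : MulAut.conj c • V < MulAut.conj c • T ↔ V < T := by
  simp only [lt_iff_le_not_ge, Subgroup.pointwise_smul_le_pointwise_smul_iff]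

private theorem sn_of_engel {G : Type*} [Group G] [Finite G] (g : G)
    (h : ∀ x : G, ∃ n : ℕ, (List.replicate n g).foldl (fun a b => a * b * a⁻¹ * b⁻¹) x = 1) :
    ∀ T : Subgroup G, g ∈ T → SN (Subgroup.zpowers g) T := by
  intro T
  induction T using WellFoundedLT.induction with
  | _ T ih =>
    intro hgT
    by_contra hn
    have hST : Subgroup.zpowers g ≤ T := (Subgroup.zpowers_le).2 hgT
    have hpr : ∀ U, Subgroup.zpowers g ≤ U → U < T → SN (Subgroup.zpowers g) U := by
      intro U hU hUT
      exact ih U hUT ((Subgroup.zpowers_le).1 hU)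
    have hz := zipper hST hn hpr
    have hlt : Subgroup.zpowers g < T := by
      refine lt_of_le_of_ne hST ?_
      intro he
      apply hn
      rw [← he]
      exact SN.refl _
    obtain ⟨M, hM, hSM⟩ := exists_isMaxIn hlt
    have hgM : g ∈ M := (Subgroup.zpowers_le).1 hSM
    -- `M` is normal in `T`
    have hTN : T ≤ Subgroup.normalizer (M : Set G) := by
      by_contra hTN
      obtain ⟨x, hxT, hxN⟩ := Set.not_subset.mp hTN
      have hxM : x ∉ M := fun hx => hxN (Subgroup.le_normalizer hx)
      -- no element of `T` outside the normalizer ... we show some element of `T \ M` normalizes `M`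
      obtain ⟨n, hn1⟩ := h x
      set y : ℕ → G := fun n => (List.replicate n g).foldl (fun a b => a * b * a⁻¹ * b⁻¹) x with hy
      have hys : ∀ n, y (n + 1) = y n * g * (y n)⁻¹ * g⁻¹ := fun n => fold_succ g x n
      have hyT : ∀ n, y n ∈ T := by
        intro n
        induction n with
        | zero => exact hxT
        | succ n ih =>
          rw [hys]
          exact T.mul_mem (T.mul_mem (T.mul_mem ih hgT) (T.inv_mem ih)) (T.inv_mem hgT)
      have hex : ∃ n, y n ∈ M := ⟨n, by
        have : y n = 1 := hn1
        rw [this]; exact M.one_mem⟩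
      classical
      have hfind := Nat.find_spec hex
      have hmin := fun m => Nat.find_min hex (m := m)
      set k := Nat.find hex with hk
      have hk0 : k ≠ 0 := by
        intro h0
        rw [h0] at hfind
        exact hxM hfind
      obtain ⟨m, hm⟩ := Nat.exists_eq_succ_of_ne_zero hk0
      have hmM : y m ∉ M := hmin m (by omega)
      have hm1 : y (m + 1) ∈ M := by
        have : k = m + 1 := hm
        rw [← this]; exact hfind
      rw [hys] at hm1
      have hconj : y m * g * (y m)⁻¹ ∈ M := by
        have := M.mul_mem hm1 hgM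
        simpa [mul_assoc] using this
      -- the conjugate `M^{y m⁻¹}` is maximal in `T` and contains `g`
      set c := y m with hc
      have hcT : c ∈ T := hyT m
      have hconjmax : IsMaxIn T (MulAut.conj c⁻¹ • M) := by
        constructor
        · have h1 : MulAut.conj c⁻¹ • M ≤ T := by
            intro z hz
            rw [mem_conj] at hz
            have := T.mul_mem (T.mul_mem (T.inv_mem hcT) (hM.1.le hz)) hcT
            simpa [mul_assoc] using this
          refine lt_of_le_of_ne h1 ?_
          intro he
          have : M = MulAut.conj c • T := by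
            rw [← he, conj_conj_inv]
          have h2 : MulAut.conj c • T = T := by
            apply conj_eq_of_mem_normalizer
            exact Subgroup.le_normalizer hcT
          rw [h2] at this
          exact hM.1.ne this
        · intro V hV hVT
          apply hM.2 (MulAut.conj c • V)
          · have := (smul_lt_smul_iff_of_subgroup c V).2 hV
            rwa [conj_conj_inv] at this
          · have := (smul_lt_smul_iff_of_subgroup c T).2 hVT
            rwa [conj_eq_of_mem_normalizer (Subgroup.le_normalizer hcT)] at this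
      have hgconj : Subgroup.zpowers g ≤ MulAut.conj c⁻¹ • M := by
        rw [Subgroup.zpowers_le, mem_conj]
        simpa using hconj
      have heq := hz M _ hM hconjmax hSM hgconj
      have hcN : c ∈ Subgroup.normalizer (M : Set G) := by
        have h3 : c⁻¹ ∈ Subgroup.normalizer (M : Set G) :=
          mem_normalizer_of_conj_eq heq.symm
        simpa using Subgroup.inv_mem _ h3
      -- so `N_T(M) > M`, hence `N_T(M) = T`
      have hlt2 : M < T ⊓ Subgroup.normalizer (M : Set G) := by
        refine lt_of_le_of_ne (le_inf hM.1.le Subgroup.le_normalizer) ?_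
        intro he
        apply hmM
        rw [he]
        exact ⟨hcT, hcN⟩
      have hnlt := hM.2 _ hlt2
      have htt : T ⊓ Subgroup.normalizer (M : Set G) = T := by
        by_contra hne
        exact hnlt (lt_of_le_of_ne inf_le_left hne)
      exact hTN (htt ▸ inf_le_right)
    exact hn ((hpr M hSM hM.1).trans (SN.of_le_normalizer hM.1.le hTN))

/-- Baer's characterization of the Fitting subgroup: in a finite group G, an element g lies in the Fitting subgroup if and only if g is a left Engel element, that is, for every x there is n with [x, g, g, …, g] = 1 (n entries g, [a, b] = aba⁻¹b⁻¹). -/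
theorem result {G : Type*} [Group G] [Finite G] (g : G) :
    g ∈ Cfsg.fittingSubgroup G ↔ ∀ x : G, ∃ n : ℕ, (List.replicate n g).foldl (fun a b => a * b * a⁻¹ * b⁻¹) x = 1 := by
  constructor
  · exact fun hg x => forward g hg x
  · intro h
    have hs := sn_of_engel g h ⊤ (Subgroup.mem_top _)
    have hs' := isSubnormal_iff_SN_top.2 hs
    have hnil : Group.IsNilpotent (Subgroup.zpowers g) := by
      let _ : CommGroup (Subgroup.zpowers g) :=
        { (inferInstance : Group (Subgroup.zpowers g)) with
          mul_comm := fun a b => IsMulCommutative.is_comm.comm a b }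
      exact CommGroup.isNilpotent
    exact Cfsg.Agent.Lib.Core.Basic.le_fittingSubgroup_of_isSubnormal hs' hnil (Subgroup.mem_zpowers g)

end Cfsg.Agent.S3937
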