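import Cfsg.Statements.S3939
import Cfsg.Agent.Lib.OddLocal.CN
import Cfsg.Agent.Lib.SolvStruct.Fit
-- import your own Cfsg.Agent.* helpers here

set_option autoImplicit false
set_option linter.style.haveILetI false
open Cfsg

namespace Cfsg.Agent.S3939

open Subgroup
open scoped commutatorElement

private theorem nil_of_le {G : Type*} [Group G] {A B : Subgroup G} (hAB : A ≤ B)
    (hB : Group.IsNilpotent B) : Group.IsNilpotent A :=
  Cfsg.Agent.Lib.Core.Basic.isNilpotent_of_injective (Subgroup.inclusion hAB)
    (Subgroup.inclusion_injective hAB)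

/-- The core: trivial centre. -/
private theorem core {G : Type*} [Group G] [Finite G] (hZ : Subgroup.center G = ⊥) (g : G)
    (h : ∀ x : G, Group.IsNilpotent ↥(Subgroup.closure ({x, g} : Set G))) : g = 1 := by
  by_contra hg
  have hord : orderOf g ≠ 1 := by rwa [Ne, orderOf_eq_one_iff]
  obtain ⟨p, hp, m, hm⟩ := Nat.exists_prime_and_dvd hord
  haveI : Fact p.Prime := ⟨hp⟩
  have hord0 : 0 < orderOf g := orderOf_pos g
  have hm0 : 0 < m := Nat.pos_of_ne_zero (by rintro rfl; rw [mul_zero] at hm; omega)
  have hmlt : m < orderOf g := by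
    rw [hm]
    exact lt_mul_of_one_lt_left hm0 hp.one_lt
  set t := g ^ m with ht
  have htp : t ^ p = 1 := by
    rw [ht, ← pow_mul, mul_comm, ← hm, pow_orderOf_eq_one]
  have ht1 : t ≠ 1 := by
    intro h1
    exact absurd (orderOf_le_of_pow_eq_one hm0 h1) (by omega)
  have hcl : ∀ x : G, Group.IsNilpotent ↥(Subgroup.closure ({x, t} : Set G)) := by
    intro x
    refine nil_of_le ?_ (h x)
    rw [Subgroup.closure_le]
    rintro y (rfl | rfl)
    · exact Subgroup.subset_closure (by simp)
    · exact Subgroup.pow_mem _ (Subgroup.subset_closure (by simp)) _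
  have hordt : orderOf t = p := orderOf_eq_prime htp ht1
  -- every element of order prime to `p` commutes with `t`
  have hcomm : ∀ x : G, (orderOf x).Coprime p → Commute x t := by
    intro x hx
    haveI := hcl x
    let a : ↥(Subgroup.closure ({x, t} : Set G)) := ⟨x, Subgroup.subset_closure (by simp)⟩
    let b : ↥(Subgroup.closure ({x, t} : Set G)) := ⟨t, Subgroup.subset_closure (by simp)⟩
    have h1 : Commute a b := by
      apply Cfsg.Agent.Lib.OddLocal.CN.commute_of_coprime
      rw [show orderOf a = orderOf x from Subgroup.orderOf_mk _ _,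
        show orderOf b = orderOf t from Subgroup.orderOf_mk _ _, hordt]
      exact hx
    exact congrArg Subtype.val h1
  -- the subgroup generated by the `p'`-elements
  let K : Subgroup G := Subgroup.closure {x : G | (orderOf x).Coprime p}
  have hKn : K.Normal := by
    refine ⟨fun n hn u => ?_⟩
    have hc : K ≤ K.comap (MulAut.conj u).toMonoidHom := by
      rw [Subgroup.closure_le]
      intro x hx
      apply Subgroup.subset_closure
      have h9 : orderOf ((MulAut.conj u).toMonoidHom x) = orderOf x :=
        orderOf_injective _ (MulAut.conj u).injective x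
      show (orderOf ((MulAut.conj u).toMonoidHom x)).Coprime p
      rw [h9]
      exact hx
    simpa [Subgroup.mem_comap] using hc hn
  have hKt : ∀ k ∈ K, Commute k t := by
    intro k hk
    have : K ≤ Subgroup.centralizer {t} := by
      rw [Subgroup.closure_le]
      intro x hx
      rw [SetLike.mem_coe, Subgroup.mem_centralizer_singleton_iff]
      exact (hcomm x hx)
    have := this hk
    rw [Subgroup.mem_centralizer_singleton_iff] at this
    exact this
  have hKconj : ∀ u : G, ∀ k ∈ K, Commute k (u * t * u⁻¹) := by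
    intro u k hk
    have h1 := hKt (u⁻¹ * k * u) (by simpa using hKn.conj_mem k hk u⁻¹)
    have h2 := h1.eq
    unfold Commute SemiconjBy
    calc k * (u * t * u⁻¹) = u * (u⁻¹ * k * u * t) * u⁻¹ := by group
      _ = u * (t * (u⁻¹ * k * u)) * u⁻¹ := by rw [h2]
      _ = u * t * u⁻¹ * k := by group
  -- `G / K` is a `p`-group
  have hquot : IsPGroup p (G ⧸ K) := by
    intro y
    obtain ⟨x, rfl⟩ := QuotientGroup.mk_surjective y
    obtain ⟨a, b, hb, hab⟩ := Nat.exists_eq_pow_mul_and_not_dvd (orderOf_pos x).ne' p hp.ne_one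
    refine ⟨a, ?_⟩
    rw [← QuotientGroup.mk_pow, QuotientGroup.eq_one_iff]
    apply Subgroup.subset_closure
    have h1 : orderOf (x ^ p ^ a) = b := by
      rw [orderOf_pow' x (pow_ne_zero a hp.ne_zero), hab, Nat.gcd_eq_right (Dvd.intro b rfl)]
      exact Nat.mul_div_cancel_left b (pow_pos hp.pos a)
    show (orderOf (x ^ p ^ a)).Coprime p
    rw [h1, Nat.coprime_comm, Nat.Prime.coprime_iff_not_dvd hp]
    exact hb
  -- Sylow containing `t`
  have htP : IsPGroup p (Subgroup.zpowers t) := by
    rw [IsPGroup.iff_card]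
    exact ⟨1, by rw [Nat.card_zpowers, hordt, pow_one]⟩
  obtain ⟨P, hP⟩ := htP.exists_le_sylow
  have htmem : t ∈ (P : Subgroup G) := hP (Subgroup.mem_zpowers t)
  -- `G = K P`
  have hsup : K ⊔ (P : Subgroup G) = ⊤ := by
    rw [← Subgroup.index_eq_one]
    have h1 : (K ⊔ (P : Subgroup G)).index ∣ K.index := Subgroup.index_dvd_of_le le_sup_left
    have h2 : (K ⊔ (P : Subgroup G)).index ∣ (P : Subgroup G).index :=
      Subgroup.index_dvd_of_le le_sup_right
    obtain ⟨n, hn⟩ := IsPGroup.iff_card.mp hquot
    have h3 : K.index = p ^ n := by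
      rw [Subgroup.index, hn]
    rw [h3] at h1
    obtain ⟨j, -, hj⟩ := (Nat.dvd_prime_pow hp).mp h1
    by_contra hne
    have hj0 : j ≠ 0 := by
      rintro rfl
      rw [pow_zero] at hj
      exact hne hj
    have := P.not_dvd_index
    apply this
    rw [hj] at h2
    exact (dvd_pow_self p hj0).trans h2
  -- conjugates of `t` lie in `P`
  have hconjP : ∀ u : G, u * t * u⁻¹ ∈ (P : Subgroup G) := by
    intro u
    have hu : u ∈ K ⊔ (P : Subgroup G) := hsup ▸ Subgroup.mem_top u
    haveI := hKn
    rw [Subgroup.mem_sup_of_normal_left] at hu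
    obtain ⟨k, hk, a, ha, rfl⟩ := hu
    have h1 := hKconj a k hk
    have h2 : k * a * t * (k * a)⁻¹ = a * t * a⁻¹ := by
      have h3 := h1.eq
      calc k * a * t * (k * a)⁻¹ = (k * (a * t * a⁻¹)) * k⁻¹ := by group
        _ = (a * t * a⁻¹) * k * k⁻¹ := by rw [h3]
        _ = a * t * a⁻¹ := by group
    rw [h2]
    exact (P : Subgroup G).mul_mem ((P : Subgroup G).mul_mem ha htmem) ((P : Subgroup G).inv_mem ha)
  let N : Subgroup G := Subgroup.normalClosure {t}
  have hNP : N ≤ (P : Subgroup G) := by
    refine Subgroup.closure_le _ |>.2 ?_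
    intro y hy
    rw [Group.mem_conjugatesOfSet_iff] at hy
    obtain ⟨b, hb, hby⟩ := hy
    rw [Set.mem_singleton_iff] at hb
    subst hb
    obtain ⟨c, rfl⟩ := isConj_iff.mp hby
    exact hconjP c
  have htN : t ∈ N := Subgroup.subset_normalClosure rfl
  have hNK : ∀ z ∈ N, ∀ k ∈ K, Commute z k := by
    intro z hz k hk
    have : N ≤ Subgroup.centralizer {k} := by
      refine Subgroup.closure_le _ |>.2 ?_
      intro y hy
      rw [Group.mem_conjugatesOfSet_iff] at hy
      obtain ⟨b, hb, hby⟩ := hy
      rw [Set.mem_singleton_iff] at hb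
      subst hb
      obtain ⟨c, rfl⟩ := isConj_iff.mp hby
      rw [SetLike.mem_coe, Subgroup.mem_centralizer_singleton_iff]
      exact (hKconj c k hk).symm.eq.symm ▸ rfl
    have := this hz
    rw [Subgroup.mem_centralizer_singleton_iff] at this
    exact this
  -- a central element of `P` inside `N`
  let N' : Subgroup (P : Subgroup G) := N.subgroupOf (P : Subgroup G)
  haveI hN'n : N'.Normal := Subgroup.Normal.subgroupOf (Subgroup.normalClosure_normal) _
  have hN'ne : N' ≠ ⊥ := by
    intro h0
    have h1 : (⟨t, htmem⟩ : (P : Subgroup G)) ∈ N' := by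
      rw [Subgroup.mem_subgroupOf]; exact htN
    rw [h0, Subgroup.mem_bot] at h1
    exact ht1 (congrArg Subtype.val h1)
  haveI hnilP : Group.IsNilpotent (P : Subgroup G) := P.isPGroup'.isNilpotent
  have hcen := Cfsg.Agent.Lib.SolvStruct.Fit.inf_center_ne_bot N' hN'ne
  obtain ⟨z, hz, hz1⟩ := (Subgroup.bot_or_exists_ne_one _).resolve_left hcen
  have hzN : (z : G) ∈ N := by
    have : z ∈ N.subgroupOf (P : Subgroup G) := hz.1
    rwa [Subgroup.mem_subgroupOf] at this
  have hzc : (z : G) ∈ Subgroup.center G := by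
    rw [Subgroup.mem_center_iff]
    intro u
    have hu : u ∈ K ⊔ (P : Subgroup G) := hsup ▸ Subgroup.mem_top u
    haveI := hKn
    rw [Subgroup.mem_sup_of_normal_left] at hu
    obtain ⟨k, hk, a, ha, rfl⟩ := hu
    have h1 : (z : G) * k = k * z := (hNK z hzN k hk).eq
    have h2 : (z : G) * a = a * z := by
      have := (Subgroup.mem_center_iff.mp hz.2) (⟨a, ha⟩ : (P : Subgroup G))
      exact (congrArg Subtype.val this).symm
    calc k * a * z = k * (a * z) := by group
      _ = k * (z * a) := by rw [h2]
      _ = (k * z) * a := by group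
      _ = (z * k) * a := by rw [h1]
      _ = z * (k * a) := by group
  rw [hZ, Subgroup.mem_bot] at hzc
  exact hz1 (Subtype.ext hzc)

private theorem forward {G : Type*} [Group G] [Finite G] (g : G)
    (h : ∀ x : G, Group.IsNilpotent ↥(Subgroup.closure ({x, g} : Set G))) :
    g ∈ ⨆ n : ℕ, Subgroup.upperCentralSeries G n := by
  classical
  -- the hypercentre stabilises
  have hmono : Monotone (Subgroup.upperCentralSeries G) :=
    monotone_nat_of_le_succ fun n => Subgroup.upperCentralSeries_mono G (Nat.le_succ n)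
  obtain ⟨N, hN⟩ := WellFoundedGT.monotone_chain_condition ⟨_, hmono⟩
  have hsup : (⨆ n : ℕ, Subgroup.upperCentralSeries G n) = Subgroup.upperCentralSeries G N := by
    apply le_antisymm
    · refine iSup_le fun n => ?_
      rcases le_total n N with hn | hn
      · exact hmono hn
      · exact (hN n hn).symm.le
    · exact le_iSup (Subgroup.upperCentralSeries G) N
  rw [hsup]
  set Z := Subgroup.upperCentralSeries G N with hZ
  haveI hZn : Z.Normal := inferInstance
  let φ := QuotientGroup.mk' Z
  have hcen : Subgroup.center (G ⧸ Z) = ⊥ := by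
    rw [eq_bot_iff]
    intro y hy
    obtain ⟨x, rfl⟩ := QuotientGroup.mk_surjective y
    rw [Subgroup.mem_bot, QuotientGroup.eq_one_iff]
    have hx : x ∈ Subgroup.upperCentralSeries G (N + 1) := by
      rw [Subgroup.mem_upperCentralSeries_succ_iff]
      intro u
      rw [← hZ, ← QuotientGroup.eq_one_iff]
      have h1 := (Subgroup.mem_center_iff.mp hy) (u : G ⧸ Z)
      have : ((⁅x, u⁆ : G) : G ⧸ Z) = (x : G ⧸ Z) * u * (x : G ⧸ Z)⁻¹ * (u : G ⧸ Z)⁻¹ := rfl
      rw [this, ← h1]
      group
    have h5 : Subgroup.upperCentralSeries G N = Subgroup.upperCentralSeries G (N + 1) :=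
      hN (N + 1) (Nat.le_succ N)
    rw [← h5] at hx
    exact hx
  have hcore := core hcen (g : G ⧸ Z) (fun y => by
    obtain ⟨x, rfl⟩ := QuotientGroup.mk_surjective y
    have h1 : Subgroup.closure ({(x : G ⧸ Z), (g : G ⧸ Z)} : Set (G ⧸ Z)) =
        (Subgroup.closure ({x, g} : Set G)).map φ := by
      rw [MonoidHom.map_closure, Set.image_pair]
      rfl
    rw [h1]
    haveI := h x
    exact Group.nilpotent_of_surjective (φ.subgroupMap (Subgroup.closure ({x, g} : Set G)))
      (φ.subgroupMap_surjective _))
  exact (QuotientGroup.eq_one_iff g).1 hcore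

private theorem backward {G : Type*} [Group G] [Finite G] (g : G)
    (h : g ∈ ⨆ n : ℕ, Subgroup.upperCentralSeries G n) (x : G) :
    Group.IsNilpotent ↥(Subgroup.closure ({x, g} : Set G)) := by
  classical
  have hmono : Monotone (Subgroup.upperCentralSeries G) :=
    monotone_nat_of_le_succ fun n => Subgroup.upperCentralSeries_mono G (Nat.le_succ n)
  have hdir : Directed (· ≤ ·) (Subgroup.upperCentralSeries G) := hmono.directed_le
  obtain ⟨n, hn⟩ := (Subgroup.mem_iSup_of_directed hdir).1 h
  set H := Subgroup.closure ({x, g} : Set G) with hH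
  -- commutators of `H` lie in `Z_n`
  have hZnn : (Subgroup.upperCentralSeries G n).Normal := inferInstance
  have hcomm : ∀ a ∈ H, ∀ b ∈ H, a * b * a⁻¹ * b⁻¹ ∈ Subgroup.upperCentralSeries G n := by
    intro a ha b hb
    let φ := QuotientGroup.mk' (Subgroup.upperCentralSeries G n)
    have hle : H ≤ (Subgroup.zpowers (φ x)).comap φ := by
      rw [hH, Subgroup.closure_le]
      rintro y (rfl | rfl)
      · exact Subgroup.mem_zpowers _
      · have : φ y = 1 := (QuotientGroup.eq_one_iff y).2 hn
        rw [SetLike.mem_coe, Subgroup.mem_comap, this]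
        exact Subgroup.one_mem _
    obtain ⟨i, hi⟩ := Subgroup.mem_zpowers_iff.1 (hle ha)
    obtain ⟨j, hj⟩ := Subgroup.mem_zpowers_iff.1 (hle hb)
    rw [← QuotientGroup.eq_one_iff]
    have h1 : φ a * φ b = φ b * φ a := by
      rw [← hi, ← hj]
      exact ((Commute.refl (φ x)).zpow_zpow i j)
    have h2 : ((a * b * a⁻¹ * b⁻¹ : G) : G ⧸ Subgroup.upperCentralSeries G n) =
        φ a * φ b * (φ a)⁻¹ * (φ b)⁻¹ := rfl
    rw [h2, h1]
    group
  -- an ascending central series of `H`
  refine (Subgroup.nilpotent_iff_finite_ascending_central_series _).mpr ⟨n + 1, fun i =>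
    if i ≤ n then (Subgroup.upperCentralSeries G i).subgroupOf H else ⊤, ⟨?_, ?_⟩, ?_⟩
  · simp
  · intro a i ha b
    by_cases hi : i + 1 ≤ n
    · have hi' : i ≤ n := by omega
      simp only [hi, hi', if_true, Subgroup.mem_subgroupOf] at ha ⊢
      rw [Subgroup.mem_upperCentralSeries_succ_iff] at ha
      exact ha b
    · by_cases hi' : i ≤ n
      · have hin : i = n := by omega
        subst hin
        simp only [le_refl, if_true, Subgroup.mem_subgroupOf]
        exact hcomm a a.2 b b.2
      · simp [hi']
  · simp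

/-- In a finite group G the set of elements g such that the subgroup generated by g and x is nilpotent for every x ∈ G is exactly the hypercenter of G (the last term of the upper central series). -/
theorem result {G : Type*} [Group G] [Finite G] (g : G) :
    (∀ x : G, Group.IsNilpotent ↥(Subgroup.closure ({x, g} : Set G))) ↔ g ∈ ⨆ n : ℕ, Subgroup.upperCentralSeries G n :=
  ⟨forward g, backward g⟩

end Cfsg.Agent.S3939
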