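import Cfsg.Statements.S3941
import Mathlib

set_option autoImplicit false
open Cfsg

namespace Cfsg.Agent.S3941

open Equiv Equiv.Perm

private lemma mem_of_pelem {p : ℕ} [Fact p.Prime] {K : Type*} [Group K] [Finite K]
    (hc : Cfsg.IsPClosed p K) (P : Sylow p K) (x : K) (k : ℕ) (hx : orderOf x = p ^ k) :
    x ∈ (P : Subgroup K) := by
  have hx' : IsPGroup p (Subgroup.zpowers x) := by
    rw [IsPGroup.iff_card, Nat.card_zpowers, hx]
    exact ⟨k, rfl⟩
  obtain ⟨Q, hQ⟩ := hx'.exists_le_sylow
  have := Sylow.unique_of_normal P (hc P)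
  rw [← Subsingleton.elim Q P]
  exact hQ (Subgroup.mem_zpowers x)

private lemma moved_pow {α : Type*} (x : Perm α) (p k : ℕ) (hp : x ^ p = 1) (hk : Nat.Coprime k p)
    (b : α) (hb : (x ^ k) b = b) : x b = b := by
  obtain ⟨u, v, huv⟩ : ∃ u v : ℤ, (k : ℤ) * u + (p : ℤ) * v = 1 := by
    have := Nat.gcd_eq_gcd_ab k p
    rw [hk] at this
    refine ⟨Nat.gcdA k p, Nat.gcdB k p, ?_⟩
    simpa using this.symm
  have h1 : x = (x ^ k) ^ u := by
    have : x ^ (1 : ℤ) = x ^ ((k : ℤ) * u + (p : ℤ) * v) := by rw [huv]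
    rw [zpow_one, zpow_add, zpow_mul, zpow_mul, zpow_natCast, zpow_natCast, hp, one_zpow, mul_one] at this
    exact this
  have h2 : ∀ u : ℤ, ((x ^ k) ^ u) b = b := fun u => by
    have : (x ^ k) ∈ MulAction.stabilizer (Perm α) b := hb
    exact (Subgroup.zpow_mem _ this u)
  rw [h1]
  exact h2 u

/-- Let n ≥ 5 and p an odd prime with p ≤ n, and suppose that every proper subgroup of the alternating group of degree n whose order is divisible by p has a normal Sylow p-subgroup. Then n = p. -/
theorem result (n p : ℕ) (hn : 5 ≤ n) [Fact p.Prime] (hp : p ≠ 2) (hpn : p ≤ n)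
    (h : ∀ H : Subgroup ↥(alternatingGroup (Fin n)), H ≠ ⊤ → p ∣ Nat.card ↥H → Cfsg.IsPClosed p ↥H) : n = p := by
  by_contra hne
  have hlt : p < n := lt_of_le_of_ne hpn (Ne.symm hne)
  have hpp : p.Prime := Fact.out
  have hpodd : Odd p := hpp.odd_of_ne_two hp
  have n1 : n - 1 + 1 = n := by omega
  -- the point `a`
  let a : Fin n := ⟨n - 1, by omega⟩
  let H : Subgroup ↥(alternatingGroup (Fin n)) :=
    (MulAction.stabilizer (Perm (Fin n)) a).subgroupOf (alternatingGroup (Fin n))
  have memH : ∀ g : ↥(alternatingGroup (Fin n)), g ∈ H ↔ g.1 a = a := by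
    intro g
    rw [Subgroup.mem_subgroupOf, MulAction.mem_stabilizer_iff]
    rfl
  let f0 : Fin n := ⟨0, by omega⟩
  let f1 : Fin n := ⟨1, by omega⟩
  let f2 : Fin n := ⟨2, by omega⟩
  let f3 : Fin n := ⟨3, by omega⟩
  have h01 : f0 ≠ f1 := by simp [f0, f1, Fin.ext_iff]
  have h02 : f0 ≠ f2 := by simp [f0, f2, Fin.ext_iff]
  have h03 : f0 ≠ f3 := by simp [f0, f3, Fin.ext_iff]
  have h12 : f1 ≠ f2 := by simp [f1, f2, Fin.ext_iff]
  have h13 : f1 ≠ f3 := by simp [f1, f3, Fin.ext_iff]
  have h23 : f2 ≠ f3 := by simp [f2, f3, Fin.ext_iff]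
  have ha0 : a ≠ f0 := by simp [a, f0, Fin.ext_iff]; omega
  have ha1 : a ≠ f1 := by simp [a, f1, Fin.ext_iff]; omega
  have ha2 : a ≠ f2 := by simp [a, f2, Fin.ext_iff]; omega
  have ha3 : a ≠ f3 := by simp [a, f3, Fin.ext_iff]; omega
  -- H is proper
  have hHtop : H ≠ ⊤ := by
    intro ht
    have h3c : (swap a f0 * swap a f1).IsThreeCycle := isThreeCycle_swap_mul_swap_same ha0 ha1 h01
    have hm : (⟨_, h3c.mem_alternatingGroup⟩ : ↥(alternatingGroup (Fin n))) ∈ H := by
      rw [ht]; trivial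
    rw [memH] at hm
    have : (swap a f0 * swap a f1) a = a := hm
    rw [Perm.mul_apply, swap_apply_left, swap_apply_of_ne_of_ne (Ne.symm ha1) h01.symm] at this
    exact ha1 this.symm
  -- an element of order p
  let ι : Fin (n - 1) ↪ Fin n := Fin.castLEEmb (by omega)
  have hι : ∀ i, ι i ≠ a := by
    intro i
    simp only [ι, a, Fin.castLEEmb_apply, ne_eq, Fin.ext_iff, Fin.val_castLE]
    have := i.2
    omega
  obtain ⟨y, hy⟩ : ∃ y : Perm (Fin (n - 1)), orderOf y = p := by
    apply exists_prime_orderOf_dvd_card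
    rw [Fintype.card_perm, Fintype.card_fin]
    exact (hpp.dvd_factorial).2 (by omega)
  let x : Perm (Fin n) := viaEmbeddingHom ι y
  have hxord : orderOf x = p := by
    rw [orderOf_injective _ (viaEmbeddingHom_injective ι), hy]
  have hxa : x a = a := by
    apply viaEmbedding_apply_of_notMem
    rintro ⟨i, hi⟩
    exact hι i hi
  have hxsign : x ∈ alternatingGroup (Fin n) := by
    rw [mem_alternatingGroup]
    have h1 : sign x ^ p = 1 := by rw [← map_pow, ← hxord, pow_orderOf_eq_one, map_one]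
    rcases Int.units_eq_one_or (sign x) with h2 | h2
    · exact h2
    · rw [h2, hpodd.neg_one_pow] at h1
      exact absurd h1 (by decide)
  let xH : ↥H := ⟨⟨x, hxsign⟩, (memH _).2 hxa⟩
  have hxHord : orderOf xH = p := by
    rw [← Subgroup.orderOf_coe, ← Subgroup.orderOf_coe]
    exact hxord
  have hdvd : p ∣ Nat.card ↥H := hxHord ▸ orderOf_dvd_natCard xH
  have hc := h H hHtop hdvd
  obtain ⟨P⟩ : Nonempty (Sylow p ↥H) := inferInstance
  have hPn : (P : Subgroup ↥H).Normal := hc P
  have hPord : ∀ w : ↥H, w ∈ (P : Subgroup ↥H) → ∃ k, orderOf w = p ^ k := by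
    intro w hw
    obtain ⟨k, hk⟩ := (IsPGroup.iff_orderOf.1 P.isPGroup') ⟨w, hw⟩
    refine ⟨k, ?_⟩
    rw [← hk, ← Subgroup.orderOf_coe (⟨w, hw⟩ : ↥(P : Subgroup ↥H))]
  have hmem : ∀ w : ↥H, (∃ k, orderOf w = p ^ k) → w ∈ (P : Subgroup ↥H) := by
    rintro w ⟨k, hk⟩
    exact mem_of_pelem hc P w k hk
  by_cases hp3 : p = 3
  · -- p = 3
    have hx3 : (swap f1 f0 * swap f1 f2).IsThreeCycle :=
      isThreeCycle_swap_mul_swap_same (Ne.symm h01) h12 h02
    have hy3 : (swap f2 f1 * swap f2 f3).IsThreeCycle :=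
      isThreeCycle_swap_mul_swap_same (Ne.symm h12) h23 h13
    have hxfix : (swap f1 f0 * swap f1 f2) a = a := by
      rw [Perm.mul_apply, swap_apply_of_ne_of_ne ha1 ha2, swap_apply_of_ne_of_ne ha1 ha0]
    have hyfix : (swap f2 f1 * swap f2 f3) a = a := by
      rw [Perm.mul_apply, swap_apply_of_ne_of_ne ha2 ha3, swap_apply_of_ne_of_ne ha2 ha1]
    let X : ↥H := ⟨⟨_, hx3.mem_alternatingGroup⟩, (memH _).2 hxfix⟩
    let Y : ↥H := ⟨⟨_, hy3.mem_alternatingGroup⟩, (memH _).2 hyfix⟩
    have hX : X ∈ (P : Subgroup ↥H) := by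
      apply hmem
      refine ⟨1, ?_⟩
      rw [← Subgroup.orderOf_coe, ← Subgroup.orderOf_coe, hp3, pow_one]
      exact hx3.orderOf
    have hY : Y ∈ (P : Subgroup ↥H) := by
      apply hmem
      refine ⟨1, ?_⟩
      rw [← Subgroup.orderOf_coe, ← Subgroup.orderOf_coe, hp3, pow_one]
      exact hy3.orderOf
    have hXY := hPord _ ((P : Subgroup ↥H).mul_mem hX hY)
    have hval : ((X * Y : ↥H) : ↥(alternatingGroup (Fin n))).1 = swap f1 f0 * swap f2 f3 := by
      show (swap f1 f0 * swap f1 f2) * (swap f2 f1 * swap f2 f3) = _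
      rw [swap_comm f2 f1, mul_assoc, ← mul_assoc (swap f1 f2), swap_mul_self, one_mul]
    have hdisj : Commute (swap f1 f0) (swap f2 f3) := by
      apply Disjoint.commute
      intro i
      by_cases hi : i = f1
      · subst hi
        right
        exact swap_apply_of_ne_of_ne h12 h13
      · by_cases hi0 : i = f0
        · subst hi0
          right
          exact swap_apply_of_ne_of_ne h02 h03
        · left
          exact swap_apply_of_ne_of_ne hi hi0
    have hord2 : orderOf (swap f1 f0 * swap f2 f3) = 2 := by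
      have : Fact (Nat.Prime 2) := ⟨Nat.prime_two⟩
      apply orderOf_eq_prime
      · rw [hdisj.mul_pow, pow_two, pow_two, swap_mul_self, swap_mul_self, one_mul]
      · intro h1
        have : (swap f1 f0 * swap f2 f3) f2 = f2 := by rw [h1]; rfl
        rw [Perm.mul_apply, swap_apply_left, swap_apply_of_ne_of_ne h13.symm h03.symm] at this
        exact h23.symm this
    obtain ⟨k, hk⟩ := hXY
    rw [← Subgroup.orderOf_coe, ← Subgroup.orderOf_coe] at hk
    rw [hval, hord2, hp3] at hk
    have : k ≠ 0 := by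
      rintro rfl
      simp at hk
    have h3 : 3 ∣ 2 := by
      rw [hk]
      exact dvd_pow_self 3 this
    omega
  · -- p ≥ 5
    have hp5 : 5 ≤ p := by
      have := hpp.two_le
      by_contra hlt5
      have h4 : p = 4 := by omega
      rw [h4] at hpp
      exact absurd hpp (by norm_num)
    have hxne : x ≠ 1 := by
      intro h1
      rw [h1, orderOf_one] at hxord
      omega
    obtain ⟨b, hb⟩ : ∃ b, x b ≠ b := by
      by_contra hcon
      push Not at hcon
      exact hxne (Perm.ext hcon)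
    have hba : b ≠ a := by
      rintro rfl
      exact hb hxa
    have hxp : x ^ p = 1 := by rw [← hxord]; exact pow_orderOf_eq_one x
    have hcop : ∀ k, 0 < k → k < 5 → Nat.Coprime k p := by
      intro k hk0 hk5
      apply Nat.Coprime.symm
      apply (Nat.Prime.coprime_iff_not_dvd hpp).2
      intro hd
      have := Nat.le_of_dvd hk0 hd
      omega
    have h2ne : (x ^ 2) b ≠ b := fun hh => hb (moved_pow x p 2 hxp (hcop 2 (by norm_num) (by norm_num)) b hh)
    have h3ne : (x ^ 3) b ≠ b := fun hh => hb (moved_pow x p 3 hxp (hcop 3 (by norm_num) (by norm_num)) b hh)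
    set c := x b with hc_def
    set d := x c with hd_def
    set e := x d with he_def
    have hc2 : (x ^ 2) b = d := by rw [pow_two, Perm.mul_apply]
    have he3 : (x ^ 3) b = e := by
      rw [pow_succ', Perm.mul_apply, hc2]
    rw [hc2] at h2ne
    rw [he3] at h3ne
    have hbc : b ≠ c := Ne.symm hb
    have hbd : b ≠ d := Ne.symm h2ne
    have hbe : b ≠ e := Ne.symm h3ne
    have hcd : c ≠ d := fun hh => hbc (x.injective hh)
    have hce : c ≠ e := fun hh => hbd (x.injective hh)
    have hde : d ≠ e := fun hh => hcd (x.injective hh)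
    have hca : c ≠ a := fun hh => hba (x.injective (hh.trans hxa.symm))
    have hda : d ≠ a := fun hh => hca (x.injective (hh.trans hxa.symm))
    have h3τ : (swap c b * swap c d).IsThreeCycle :=
      isThreeCycle_swap_mul_swap_same (Ne.symm hbc) hcd hbd
    have hτfix : (swap c b * swap c d) a = a := by
      rw [Perm.mul_apply, swap_apply_of_ne_of_ne hca.symm hda.symm,
        swap_apply_of_ne_of_ne hca.symm hba.symm]
    let τ : ↥H := ⟨⟨_, h3τ.mem_alternatingGroup⟩, (memH _).2 hτfix⟩
    have hxH : xH ∈ (P : Subgroup ↥H) := hmem xH ⟨1, by rw [hxHord, pow_one]⟩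
    have hw : xH * (τ * xH⁻¹ * τ⁻¹) ∈ (P : Subgroup ↥H) :=
      (P : Subgroup ↥H).mul_mem hxH (hPn.conj_mem _ ((P : Subgroup ↥H).inv_mem hxH) τ)
    have hval : ((xH * (τ * xH⁻¹ * τ⁻¹) : ↥H) : ↥(alternatingGroup (Fin n))).1
        = swap c e * swap c b := by
      show x * ((swap c b * swap c d) * x⁻¹ * (swap c b * swap c d)⁻¹) = _
      have hconj : ∀ u v, x * swap u v * x⁻¹ = swap (x u) (x v) := by
        intro u v
        exact (swap_apply_apply x u v).symm
      have e1 : x * ((swap c b * swap c d) * x⁻¹ * (swap c b * swap c d)⁻¹)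
          = (x * swap c b * x⁻¹) * (x * swap c d * x⁻¹) * (swap c b * swap c d)⁻¹ := by group
      rw [e1, hconj, hconj, ← hd_def, ← he_def, ← hc_def, mul_inv_rev, swap_inv, swap_inv]
      -- swap d c * swap d e * (swap c d * swap c b)
      have e2 : swap c d * swap d e * swap c d = swap c e := by
        have := (Equiv.swap_apply_apply (swap c d) d e)
        rw [swap_apply_right, swap_apply_of_ne_of_ne hce.symm hde.symm] at this
        rw [this]
        rfl
      rw [swap_comm d c, ← e2]
      group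
    have h3w : (swap c e * swap c b).IsThreeCycle :=
      isThreeCycle_swap_mul_swap_same hce hbc.symm hbe.symm
    obtain ⟨k, hk⟩ := hPord _ hw
    rw [← Subgroup.orderOf_coe, ← Subgroup.orderOf_coe, hval, h3w.orderOf] at hk
    have : k ≠ 0 := by
      rintro rfl
      simp at hk
    have hd3 : p ∣ 3 := by
      rw [hk]
      exact dvd_pow_self p this
    have := Nat.le_of_dvd (by norm_num) hd3
    omega

end Cfsg.Agent.S3941
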