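import Mathlib
import Cfsg.Statements.S3982

set_option autoImplicit false
set_option linter.all false
open Cfsg
open scoped Pointwise

namespace Cfsg.Agent.S3982

variable {G : Type*} [Group G]

lemma mem_norm_pow {R : Subgroup G} {x : G} (hx : x ∈ Subgroup.normalizer (R : Set G)) (i : ℤ) {r : G}
    (hr : r ∈ R) : x ^ i * r * (x ^ i)⁻¹ ∈ R :=
  (Subgroup.mem_normalizer_iff.1 (Subgroup.zpow_mem _ hx i) r).1 hr

/-- The subgroup of the elements of `N(R)` acting on `R` as a power of `x`. -/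
def actW (R : Subgroup G) (x : G) (hx : x ∈ Subgroup.normalizer (R : Set G)) : Subgroup G where
  carrier := {w | w ∈ Subgroup.normalizer (R : Set G) ∧
    ∃ i : ℤ, ∀ r ∈ R, w * r * w⁻¹ = x ^ i * r * (x ^ i)⁻¹}
  mul_mem' := by
    rintro a b ⟨ha, i, hi⟩ ⟨hb, j, hj⟩
    refine ⟨Subgroup.mul_mem _ ha hb, i + j, ?_⟩
    intro r hr
    have h1 : a * b * r * (a * b)⁻¹ = a * (b * r * b⁻¹) * a⁻¹ := by group
    rw [h1, hj r hr, hi _ (mem_norm_pow hx j hr), zpow_add]
    group
  one_mem' := ⟨Subgroup.one_mem _, 0, by simp⟩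
  inv_mem' := by
    rintro a ⟨ha, i, hi⟩
    refine ⟨Subgroup.inv_mem _ ha, -i, ?_⟩
    intro r hr
    have h1 : r = a * (x ^ (-i) * r * (x ^ (-i))⁻¹) * a⁻¹ := by
      rw [hi _ (mem_norm_pow hx (-i) hr), zpow_neg]
      group
    have h2 : a⁻¹ * r * a⁻¹⁻¹ = a⁻¹ * (a * (x ^ (-i) * r * (x ^ (-i))⁻¹) * a⁻¹) * a⁻¹⁻¹ := by
      rw [← h1]
    rw [h2]
    group

lemma sylow_conj_even [Finite G] {p : ℕ} [Fact p.Prime] (V P : Sylow p G) (t : G) (ht : orderOf t = 2)
    (htV : t ∈ Subgroup.normalizer ((V : Subgroup G) : Set G)) :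
    Even (Nat.card ↥(Subgroup.normalizer ((P : Subgroup G) : Set G))) := by
  obtain ⟨a, ha⟩ := MulAction.exists_smul_eq G V P
  have hmem : ∀ y : G, y ∈ (P : Subgroup G) ↔ a⁻¹ * y * a ∈ (V : Subgroup G) := by
    intro y
    have h2 : ((a • V : Sylow p G) : Subgroup G) = MulAut.conj a • (V : Subgroup G) := by
      rw [Sylow.smul_def]; rfl
    rw [← ha, h2, Subgroup.mem_pointwise_smul_iff_inv_smul_mem]
    simp [MulAut.smul_def]
  have ht' : a * t * a⁻¹ ∈ Subgroup.normalizer ((P : Subgroup G) : Set G) := by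
    rw [Subgroup.mem_normalizer_iff]
    intro h
    rw [hmem, hmem, Subgroup.mem_normalizer_iff.1 htV]
    have : a⁻¹ * (a * t * a⁻¹ * h * (a * t * a⁻¹)⁻¹) * a = t * (a⁻¹ * h * a) * t⁻¹ := by group
    rw [this]
  rw [even_iff_two_dvd]
  have h1 : orderOf (a * t * a⁻¹) = 2 := by
    have := (MulAut.conj a).orderOf_eq t
    rw [MulAut.conj_apply] at this
    rw [this, ht]
  rw [← h1]
  exact Subgroup.orderOf_dvd_natCard _ ht'

/-- Let p be an odd prime and G a finite group of even order divisible by p in which the centralizer of every non-identity p-element has odd order. If some nontrivial p-subgroup of G has a normalizer of even order, then the normalizer of every Sylow p-subgroup of G has even order. -/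
theorem result {G : Type*} [Group G] [Finite G] (p : ℕ) [Fact p.Prime] (hp2 : p ≠ 2) (hpG : p ∣ Nat.card G) (h2G : 2 ∣ Nat.card G) (hC : ∀ g : G, g ≠ 1 → (∃ k : ℕ, orderOf g = p ^ k) → Odd (Nat.card ↥(Subgroup.centralizer ({g} : Set G)))) (Q : Subgroup G) (hQ : IsPGroup p ↥Q) (hQ1 : Q ≠ ⊥) (hev : Even (Nat.card ↥(Subgroup.normalizer (Q : Set G)))) (P : Sylow p G) : Even (Nat.card ↥(Subgroup.normalizer ((P : Subgroup G) : Set G))) := by
  classical
  have hpp : p.Prime := Fact.out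
  haveI f2 : Fact (Nat.Prime 2) := ⟨Nat.prime_two⟩
  -- no involution commutes with a nontrivial `p`-element
  have hnc : ∀ g s : G, g ≠ 1 → (∃ k : ℕ, orderOf g = p ^ k) → orderOf s = 2 → s * g ≠ g * s := by
    intro g s hg hk hs hcomm
    have h1 := hC g hg hk
    have h2 : s ∈ Subgroup.centralizer ({g} : Set G) := by
      rw [Subgroup.mem_centralizer_iff]
      rintro _ rfl
      exact hcomm.symm
    have h3 : orderOf s ∣ Nat.card ↥(Subgroup.centralizer ({g} : Set G)) :=
      Subgroup.orderOf_dvd_natCard _ h2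
    rw [hs] at h3
    exact (Nat.not_even_iff_odd.2 h1) (even_iff_two_dvd.2 h3)
  obtain ⟨t₀, ht₀⟩ := exists_prime_orderOf_dvd_card' (G := ↥(Subgroup.normalizer (Q : Set G))) 2
    (even_iff_two_dvd.1 hev)
  set t : G := (t₀ : G) with htdef
  have ht : orderOf t = 2 := by rw [htdef, Subgroup.orderOf_coe]; exact ht₀
  have htN : t ∈ Subgroup.normalizer (Q : Set G) := t₀.2
  have htt : t * t = 1 := by
    have h : t ^ 2 = 1 := ht ▸ pow_orderOf_eq_one t
    rwa [pow_two] at h
  have htinv : t⁻¹ = t := inv_eq_of_mul_eq_one_left htt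
  obtain ⟨R, hQR, hRmax⟩ := Finite.exists_le_maximal
    (p := fun R : Subgroup G => IsPGroup p R ∧ Q ≤ R ∧ t ∈ Subgroup.normalizer (R : Set G)) (a := Q)
    ⟨hQ, le_rfl, htN⟩
  obtain ⟨⟨hRp, -, htR⟩, hRm⟩ := hRmax
  have hR1 : ∃ r ∈ R, r ≠ 1 := by
    by_contra hcon
    push Not at hcon
    apply hQ1
    rw [eq_bot_iff]
    intro q hq
    exact hcon q (hQR hq)
  have hRord : ∀ r ∈ R, ∃ k : ℕ, orderOf r = p ^ k := by
    intro r hr
    obtain ⟨k, hk⟩ := IsPGroup.iff_orderOf.1 hRp ⟨r, hr⟩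
    exact ⟨k, by rw [← hk, Subgroup.orderOf_mk]⟩
  -- `t` acts without fixed points
  have hF1 : ∀ r ∈ R, t * r * t⁻¹ = r → r = 1 := by
    intro r hr h
    by_contra hr1
    apply hnc r t hr1 (hRord r hr) ht
    calc t * r = t * r * t⁻¹ * t := by group
      _ = r * t := by rw [h]
  have htR' : ∀ r ∈ R, t * r * t⁻¹ ∈ R := fun r hr => (Subgroup.mem_normalizer_iff.1 htR r).1 hr
  -- `t` inverts `R`
  have hinv : ∀ r ∈ R, t * r * t⁻¹ = r⁻¹ := by
    let φ : R → R := fun r => ⟨(r : G)⁻¹ * (t * r * t⁻¹), R.mul_mem (R.inv_mem r.2) (htR' r r.2)⟩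
    have hφinj : Function.Injective φ := by
      intro a b hab
      have h1 : (a : G)⁻¹ * (t * a * t⁻¹) = (b : G)⁻¹ * (t * b * t⁻¹) := congrArg Subtype.val hab
      have h2 : t * ((a : G) * (b : G)⁻¹) * t⁻¹ = (a : G) * (b : G)⁻¹ := by
        have : t * ((a : G) * (b : G)⁻¹) * t⁻¹ = (a : G) * ((a : G)⁻¹ * (t * a * t⁻¹)) * (t * (b : G)⁻¹ * t⁻¹) := by
          group
        rw [this, h1]
        group
      have h3 := hF1 _ (R.mul_mem a.2 (R.inv_mem b.2)) h2
      exact Subtype.ext (mul_inv_eq_one.1 h3)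
    have hφsurj := Finite.injective_iff_surjective.1 hφinj
    intro r hr
    obtain ⟨w, hw⟩ := hφsurj ⟨r, hr⟩
    have h1 : r = (w : G)⁻¹ * (t * w * t⁻¹) := (congrArg Subtype.val hw).symm
    rw [h1, htinv]
    simp only [mul_inv_rev, inv_inv, htinv, mul_assoc, htt, mul_one]
  have hRab : ∀ a ∈ R, ∀ b ∈ R, a * b = b * a := by
    intro a ha b hb
    have h1 : t * (a * b) * t⁻¹ = (t * a * t⁻¹) * (t * b * t⁻¹) := by group
    rw [hinv _ (R.mul_mem ha hb), hinv a ha, hinv b hb, mul_inv_rev] at h1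
    have h2 := congrArg (fun z => z⁻¹) h1
    simp only [mul_inv_rev, inv_inv] at h2
    exact h2
  obtain ⟨V, hV⟩ := IsPGroup.exists_le_sylow hRp
  by_cases hRV : (V : Subgroup G) = R
  · apply sylow_conj_even V P t ht
    rw [hRV]
    exact htR
  exfalso
  have hlt : R < (V : Subgroup G) := lt_of_le_of_ne hV (Ne.symm hRV)
  -- normalizer growth
  haveI : Group.IsNilpotent (V : Subgroup G) := IsPGroup.isNilpotent V.isPGroup'
  have hgrow : ∃ x ∈ (V : Subgroup G), x ∈ Subgroup.normalizer (R : Set G) ∧ x ∉ R := by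
    have hQ' : R.subgroupOf (V : Subgroup G) < ⊤ := by
      rw [lt_top_iff_ne_top]
      intro h
      apply hRV
      apply le_antisymm _ hV
      intro r hr
      have : (⟨r, hr⟩ : (V : Subgroup G)) ∈ R.subgroupOf (V : Subgroup G) := h ▸ Subgroup.mem_top _
      exact Subgroup.mem_subgroupOf.1 this
    have h2 := Group.normalizerCondition_of_isNilpotent (G := (V : Subgroup G)) _ hQ'
    obtain ⟨r, hr1, hr2⟩ := SetLike.exists_of_lt h2
    refine ⟨r, r.2, ?_, fun h => hr2 (Subgroup.mem_subgroupOf.2 h)⟩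
    rw [Subgroup.mem_normalizer_iff] at hr1 ⊢
    intro h
    by_cases hhV : h ∈ (V : Subgroup G)
    · have := hr1 ⟨h, hhV⟩
      simpa [Subgroup.mem_subgroupOf] using this
    · constructor
      · intro hh
        exact absurd (hV hh) hhV
      · intro hh
        have h1 := Subgroup.mul_mem _ (Subgroup.mul_mem _ (Subgroup.inv_mem _ r.2) (hV hh)) r.2
        have h2 : (r : G)⁻¹ * ((r : G) * h * (r : G)⁻¹) * r = h := by group
        rw [h2] at h1
        exact absurd h1 hhV
  obtain ⟨x, hxV, hxN, hxR⟩ := hgrow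
  obtain ⟨kx, hkx⟩ : ∃ k : ℕ, orderOf x = p ^ k := by
    obtain ⟨k, hk⟩ := IsPGroup.iff_orderOf.1 V.isPGroup' ⟨x, hxV⟩
    exact ⟨k, by rw [← hk, Subgroup.orderOf_mk]⟩
  have hxodd : Odd (orderOf x) := by
    rw [hkx]
    exact Odd.pow (hpp.odd_of_ne_two hp2)
  set W : Subgroup G := actW R x hxN with hW
  have hxW : x ∈ W := ⟨hxN, 1, by simp⟩
  have hRW : R ≤ W := by
    intro r₀ hr₀
    refine ⟨Subgroup.le_normalizer hr₀, 0, ?_⟩
    intro r hr
    rw [hRab r₀ hr₀ r hr]
    simp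
  have hWN : W ≤ Subgroup.normalizer (R : Set G) := fun w hw => hw.1
  have htW : ∀ w ∈ W, t * w * t⁻¹ ∈ W := by
    rintro w ⟨hw, i, hi⟩
    refine ⟨Subgroup.mul_mem _ (Subgroup.mul_mem _ htR hw) (Subgroup.inv_mem _ htR), i, ?_⟩
    intro r hr
    have h1 : r⁻¹ ∈ R := R.inv_mem hr
    have h2 := hi _ h1
    have h3 : t * w * t⁻¹ * r * (t * w * t⁻¹)⁻¹ = t * (w * r⁻¹ * w⁻¹) * t⁻¹ := by
      have h4 : r = t * r⁻¹ * t⁻¹ := by
        rw [hinv _ h1, inv_inv]
      calc t * w * t⁻¹ * r * (t * w * t⁻¹)⁻¹ = t * w * t⁻¹ * (t * r⁻¹ * t⁻¹) * (t * w * t⁻¹)⁻¹ := by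
            rw [← h4]
        _ = _ := by group
    rw [h3, h2, hinv _ (mem_norm_pow hxN i h1)]
    group
  -- `W` has odd order
  have hWodd : ¬ 2 ∣ Nat.card W := by
    intro h2
    obtain ⟨s₀, hs₀⟩ := exists_prime_orderOf_dvd_card' (G := W) 2 h2
    set s : G := (s₀ : G) with hsdef
    have hs : orderOf s = 2 := by rw [hsdef, Subgroup.orderOf_coe]; exact hs₀
    have hss : s * s = 1 := by
      have h : s ^ 2 = 1 := hs ▸ pow_orderOf_eq_one s
      rwa [pow_two] at h
    obtain ⟨hsN, i, hi⟩ := s₀.2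
    obtain ⟨r₀, hr₀, hr₀1⟩ := hR1
    apply hnc r₀ s hr₀1 (hRord r₀ hr₀) hs
    -- `x ^ (2 i)` centralizes `R`
    have h1 : ∀ r ∈ R, x ^ (2 * i) * r = r * x ^ (2 * i) := by
      intro r hr
      have h3 : r = s * (s * r * s⁻¹) * s⁻¹ := by
        have : s * (s * r * s⁻¹) * s⁻¹ = (s * s) * r * (s * s)⁻¹ := by group
        rw [this, hss]
        group
      have h4 := hi _ (mem_norm_pow hxN i hr)
      rw [hi r hr] at h3
      rw [h4] at h3
      have h5 : x ^ i * (x ^ i * r * (x ^ i)⁻¹) * (x ^ i)⁻¹ = x ^ (2 * i) * r * (x ^ (2 * i))⁻¹ := by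
        rw [two_mul, zpow_add]
        group
      rw [h5] at h3
      calc x ^ (2 * i) * r = (x ^ (2 * i) * r * (x ^ (2 * i))⁻¹) * x ^ (2 * i) := by group
        _ = r * x ^ (2 * i) := by rw [← h3]
    obtain ⟨m, hm⟩ := hxodd
    have h2' : x ^ i = (x ^ (2 * i)) ^ (m + 1) := by
      rw [← zpow_natCast, ← zpow_mul]
      have h6 : 2 * i * ((m + 1 : ℕ) : ℤ) = i + i * ((orderOf x : ℕ) : ℤ) := by
        rw [hm]; push_cast; ring
      rw [h6, zpow_add, zpow_mul', zpow_natCast, pow_orderOf_eq_one, one_zpow, mul_one]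
    have h7 : s * r₀ * s⁻¹ = r₀ := by
      rw [hi r₀ hr₀, h2']
      have h8 : Commute (x ^ (2 * i)) r₀ := h1 r₀ hr₀
      have h9 := h8.pow_left (m + 1)
      rw [h9.eq]
      group
    calc s * r₀ = s * r₀ * s⁻¹ * s := by group
      _ = r₀ * s := by rw [h7]
  -- the automorphism of `W`
  let φ : MulAut W :=
    { toFun := fun w => ⟨t * w * t⁻¹, htW w w.2⟩
      invFun := fun w => ⟨t * w * t⁻¹, htW w w.2⟩
      left_inv := by
        intro w
        apply Subtype.ext
        change t * (t * w * t⁻¹) * t⁻¹ = w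
        rw [htinv]
        calc t * (t * ↑w * t) * t = (t * t) * ↑w * (t * t) := by group
          _ = w := by rw [htt]; group
      right_inv := by
        intro w
        apply Subtype.ext
        change t * (t * w * t⁻¹) * t⁻¹ = w
        rw [htinv]
        calc t * (t * ↑w * t) * t = (t * t) * ↑w * (t * t) := by group
          _ = w := by rw [htt]; group
      map_mul' := by
        intro a b
        apply Subtype.ext
        change t * (↑a * ↑b) * t⁻¹ = (t * ↑a * t⁻¹) * (t * ↑b * t⁻¹)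
        group }
  have hφφ : φ * φ = 1 := by
    ext w
    change t * (t * (w : G) * t⁻¹) * t⁻¹ = w
    rw [htinv]
    calc t * (t * ↑w * t) * t = (t * t) * ↑w * (t * t) := by group
      _ = w := by rw [htt]; group
  letI : Fintype (Sylow p W) := Fintype.ofFinite _
  let σ : Equiv.Perm (Sylow p W) := MulAction.toPerm φ
  have hσ : σ ^ 2 = 1 := by
    ext1 S
    rw [pow_two]
    change φ • (φ • S) = S
    rw [← mul_smul, hφφ, one_smul]
  have hfix : ∃ S : Sylow p W, φ • S = S := by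
    by_contra hcon
    push Not at hcon
    have h1 := Equiv.Perm.two_dvd_card_support hσ
    have h2 : σ.support = Finset.univ := by
      ext S
      simp only [Equiv.Perm.mem_support, Finset.mem_univ, iff_true]
      exact hcon S
    rw [h2, Finset.card_univ, ← Nat.card_eq_fintype_card] at h1
    obtain ⟨S⟩ : Nonempty (Sylow p W) := inferInstance
    have h3 := Sylow.card_dvd_index S
    have h4 : (S : Subgroup W).index ∣ Nat.card W := Subgroup.index_dvd_card _
    exact hWodd (h1.trans (h3.trans h4))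
  obtain ⟨S, hS⟩ := hfix
  -- every Sylow subgroup of `W` contains `R`
  have hR₁n : (R.subgroupOf W).Normal := (Subgroup.normal_subgroupOf_iff_le_normalizer hRW).2 hWN
  have hR₁p : IsPGroup p (R.subgroupOf W) :=
    IsPGroup.comap_of_injective hRp _ W.subtype_injective
  have hRleS : ∀ T : Sylow p W, R.subgroupOf W ≤ (T : Subgroup W) := by
    intro T
    have h1 := IsPGroup.to_sup_of_normal_left hR₁p T.isPGroup'
    have h2 := T.is_maximal' h1 le_sup_right
    rw [← h2]
    exact le_sup_left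
  set S' : Subgroup G := (S : Subgroup W).map W.subtype with hS'
  have hS'p : IsPGroup p S' := S.isPGroup'.map _
  have htS' : t ∈ Subgroup.normalizer (S' : Set G) := by
    have key : ∀ h ∈ S', t * h * t⁻¹ ∈ S' := by
      rintro _ ⟨w, hw, rfl⟩
      have h1 : φ • w ∈ (φ • (S : Subgroup W)) := Subgroup.smul_mem_pointwise_smul _ _ _ hw
      have h2 : ((φ • S : Sylow p W) : Subgroup W) = φ • (S : Subgroup W) := Sylow.pointwise_smul_def
      rw [← h2, hS] at h1
      exact ⟨φ • w, h1, rfl⟩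
    rw [Subgroup.mem_normalizer_iff]
    intro h
    refine ⟨key h, fun hh => ?_⟩
    have h1 := key _ hh
    have h2 : t * (t * h * t⁻¹) * t⁻¹ = h := by
      rw [htinv]
      calc t * (t * h * t) * t = (t * t) * h * (t * t) := by group
        _ = h := by rw [htt]; group
    rwa [h2] at h1
  have hRS' : R ≤ S' := by
    intro r hr
    exact ⟨⟨r, hRW hr⟩, hRleS S (Subgroup.mem_subgroupOf.2 hr), rfl⟩
  have hSR := hRm ⟨hS'p, hQR.trans hRS', htS'⟩ hRS'
  have hSeq : S' = R := le_antisymm hSR hRS'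
  -- contradiction with `x`
  have hxp : IsPGroup p (Subgroup.zpowers (⟨x, hxW⟩ : W)) :=
    IsPGroup.of_card (n := kx) (by
      rw [Nat.card_zpowers, Subgroup.orderOf_mk]; exact hkx)
  obtain ⟨S₂, hS₂⟩ := IsPGroup.exists_le_sylow hxp
  have hcard1 : Nat.card (S₂ : Subgroup W) = Nat.card (S : Subgroup W) := by
    rw [Sylow.card_eq_multiplicity, Sylow.card_eq_multiplicity]
  have hcard2 : Nat.card (S : Subgroup W) = Nat.card (R.subgroupOf W) := by
    have h1 : Nat.card S' = Nat.card (S : Subgroup W) :=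
      Subgroup.card_map_of_injective W.subtype_injective
    rw [← h1, hSeq]
    exact (Nat.card_congr (Subgroup.subgroupOfEquivOfLe hRW).toEquiv).symm
  have hSeq2 : R.subgroupOf W = (S₂ : Subgroup W) :=
    Subgroup.eq_of_le_of_card_ge (hRleS S₂) (by rw [hcard1, hcard2])
  have hx2 : (⟨x, hxW⟩ : W) ∈ R.subgroupOf W := by
    rw [hSeq2]
    exact hS₂ (Subgroup.mem_zpowers _)
  exact hxR (Subgroup.mem_subgroupOf.1 hx2)

end Cfsg.Agent.S3982
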