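import Mathlib
import Cfsg.Statements.S3983

set_option autoImplicit false
set_option linter.all false
open Cfsg
open scoped Pointwise

namespace Cfsg.Agent.S3983

/-- Let P be a Sylow p-subgroup of the finite group G that meets each conjugate g P g⁻¹ with g outside N_G(P) trivially, and let U be a subgroup of G of order divisible by p. Then a Sylow p-subgroup Q of U has the same property inside U: Q meets each conjugate u Q u⁻¹ with u ∈ U outside N_U(Q) trivially. -/
theorem result {G : Type*} [Group G] [Finite G] (p : ℕ) [Fact p.Prime] (P : Sylow p G) (hTI : ∀ g : G, g ∉ Subgroup.normalizer ((P : Subgroup G) : Set G) → (P : Subgroup G) ⊓ (MulAut.conj g • (P : Subgroup G)) = ⊥) (U : Subgroup G) (hU : p ∣ Nat.card ↥U) (Q : Sylow p ↥U) : ∀ u : ↥U, u ∉ Subgroup.normalizer ((Q : Subgroup ↥U) : Set ↥U) → (Q : Subgroup ↥U) ⊓ (MulAut.conj u • (Q : Subgroup ↥U)) = ⊥ := by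
  -- elementwise TI for `P`
  have hTI' : ∀ h x : G, x ∈ (P : Subgroup G) → x ≠ 1 → h * x * h⁻¹ ∈ (P : Subgroup G) →
      h ∈ Subgroup.normalizer ((P : Subgroup G) : Set G) := by
    intro h x hx hx1 hhx
    by_contra hh
    have h1 := hTI h hh
    have h2 : h * x * h⁻¹ ∈ (P : Subgroup G) ⊓ (MulAut.conj h • (P : Subgroup G)) := by
      refine ⟨hhx, ?_⟩
      have := Subgroup.smul_mem_pointwise_smul _ (MulAut.conj h) (P : Subgroup G) hx
      rwa [MulAut.smul_def, MulAut.conj_apply] at this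
    rw [h1, Subgroup.mem_bot] at h2
    apply hx1
    have : x = h⁻¹ * (h * x * h⁻¹) * h := by group
    rw [this, h2]
    group
  -- a Sylow subgroup of `G` over `Q`
  have hQp : IsPGroup p ((Q : Subgroup U).map U.subtype) := Q.isPGroup'.map _
  obtain ⟨V, hV⟩ := IsPGroup.exists_le_sylow hQp
  obtain ⟨g, hg⟩ := MulAction.exists_smul_eq G P V
  have hVmem : ∀ y : G, y ∈ (V : Subgroup G) ↔ g⁻¹ * y * g ∈ (P : Subgroup G) := by
    intro y
    have h2 : ((g • P : Sylow p G) : Subgroup G) = MulAut.conj g • (P : Subgroup G) := by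
      rw [Sylow.smul_def]; rfl
    rw [← hg, h2, Subgroup.mem_pointwise_smul_iff_inv_smul_mem]
    simp [MulAut.smul_def]
  -- `Q` is exactly `V ∩ U`
  have hQV : ∀ h : U, h ∈ (Q : Subgroup U) ↔ (h : G) ∈ (V : Subgroup G) := by
    intro h
    constructor
    · intro hh
      exact hV ⟨h, hh, rfl⟩
    · intro hh
      have h1 : IsPGroup p ((V : Subgroup G).subgroupOf U) := by
        apply IsPGroup.comap_of_injective V.isPGroup'
        · exact U.subtype_injective
      have h2 : (Q : Subgroup U) ≤ (V : Subgroup G).subgroupOf U := by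
        intro a ha
        exact Subgroup.mem_subgroupOf.2 (hV ⟨a, ha, rfl⟩)
      have h3 := Q.is_maximal' h1 h2
      have h4 : h ∈ (V : Subgroup G).subgroupOf U := Subgroup.mem_subgroupOf.2 hh
      rwa [h3] at h4
  intro u hu
  rw [eq_bot_iff]
  rintro z ⟨hz1, hz2⟩
  rw [Subgroup.mem_bot]
  by_contra hz
  apply hu
  have hz3 : u⁻¹ * z * u ∈ (Q : Subgroup U) := by
    have := Subgroup.mem_pointwise_smul_iff_inv_smul_mem.1 hz2
    simpa [MulAut.smul_def] using this
  set x : G := ((u⁻¹ * z * u : U) : G) with hx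
  have hxV : x ∈ (V : Subgroup G) := (hQV _).1 hz3
  have hzV : (z : G) ∈ (V : Subgroup G) := (hQV _).1 hz1
  have hx1 : x ≠ 1 := by
    intro h
    apply hz
    have h1 : u⁻¹ * z * u = 1 := Subtype.ext h
    have : z = u * (u⁻¹ * z * u) * u⁻¹ := by group
    rw [this, h1]
    group
  -- `u` normalizes `V`
  have hux : (u : G) * x * (u : G)⁻¹ = z := by
    rw [hx]
    push_cast
    group
  have hx₀ := (hVmem x).1 hxV
  have hz₀ := (hVmem z).1 hzV
  have hu₀ : g⁻¹ * u * g ∈ Subgroup.normalizer ((P : Subgroup G) : Set G) := by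
    apply hTI' _ (g⁻¹ * x * g) hx₀
    · intro h
      apply hx1
      have : x = g * (g⁻¹ * x * g) * g⁻¹ := by group
      rw [this, h]
      group
    · have : (g⁻¹ * u * g) * (g⁻¹ * x * g) * (g⁻¹ * u * g)⁻¹ = g⁻¹ * ((u : G) * x * (u : G)⁻¹) * g := by
        group
      rw [this, hux]
      exact hz₀
  have huV : ∀ y : G, y ∈ (V : Subgroup G) ↔ (u : G) * y * (u : G)⁻¹ ∈ (V : Subgroup G) := by
    intro y
    rw [hVmem, hVmem, Subgroup.mem_normalizer_iff.1 hu₀ (g⁻¹ * y * g)]
    have : (g⁻¹ * u * g) * (g⁻¹ * y * g) * (g⁻¹ * u * g)⁻¹ = g⁻¹ * ((u : G) * y * (u : G)⁻¹) * g := by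
      group
    rw [this]
  rw [Subgroup.mem_normalizer_iff]
  intro h
  rw [hQV, hQV]
  push_cast
  exact huV h

end Cfsg.Agent.S3983
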