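import Cfsg.Statements.S3984
import Cfsg.Agent.Lib.Coprime.Complement

set_option autoImplicit false
open scoped Pointwise
open Cfsg
open Cfsg.Agent.Lib.Coprime.SchurZassenhaus Cfsg.Agent.Lib.Coprime.Action Cfsg.Agent.Lib.Coprime.Complement

namespace Cfsg.Agent.S3984

/-- Let P be a Sylow p-subgroup of the finite group G that meets each conjugate g P g⁻¹ with g outside N_G(P) trivially, and let N be a normal subgroup of G of order prime to p. Then every Sylow p-subgroup Q of G ⧸ N meets each conjugate x Q x⁻¹ with x outside its normalizer trivially. -/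
theorem result {G : Type*} [Group G] [Finite G] (p : ℕ) [Fact p.Prime] (P : Sylow p G) (hTI : ∀ g : G, g ∉ Subgroup.normalizer ((P : Subgroup G) : Set G) → (P : Subgroup G) ⊓ (MulAut.conj g • (P : Subgroup G)) = ⊥) (N : Subgroup G) [N.Normal] (hN : (Nat.card ↥N).Coprime p) (Q : Sylow p (G ⧸ N)) : ∀ x : G ⧸ N, x ∉ Subgroup.normalizer ((Q : Subgroup (G ⧸ N)) : Set (G ⧸ N)) → (Q : Subgroup (G ⧸ N)) ⊓ (MulAut.conj x • (Q : Subgroup (G ⧸ N))) = ⊥ := by
  intro x hx
  classical
  set f := QuotientGroup.mk' N with hf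
  have hfs : Function.Surjective f := QuotientGroup.mk'_surjective N
  obtain ⟨y, hy⟩ := MulAction.exists_smul_eq (G ⧸ N) (P.mapSurjective hfs) Q
  obtain ⟨g₀, rfl⟩ := hfs y
  have hQ : (Q : Subgroup (G ⧸ N)) = MulAut.conj (f g₀) • (P : Subgroup G).map f := by
    rw [← hy, Sylow.coe_subgroup_smul, Sylow.coe_mapSurjective]
  have hQ' : (Q : Subgroup (G ⧸ N)) = (MulAut.conj g₀ • (P : Subgroup G)).map f := by
    rw [hQ, map_conj_smul]
  set P' : Subgroup G := MulAut.conj g₀ • (P : Subgroup G) with hP'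
  have hP'p : IsPGroup p P' := P.isPGroup'.map _
  obtain ⟨h, rfl⟩ := hfs x
  rw [eq_bot_iff]
  intro z hz
  rw [Subgroup.mem_bot]
  by_contra hz1
  obtain ⟨hz₁, hz₂⟩ := Subgroup.mem_inf.mp hz
  rw [hQ'] at hz₁ hz₂
  obtain ⟨t, ht, rfl⟩ := hz₁
  rw [mem_conj_smul_iff] at hz₂
  obtain ⟨u, hu, hue⟩ := hz₂
  set u' : G := h * u * h⁻¹ with hu'
  have hfu : f u' = f t := by
    rw [hu', map_mul, map_mul, map_inv, hue]
    group
  have hNn : ∀ T : Subgroup G, T ≤ Subgroup.normalizer (N : Set G) := by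
    intro T
    rw [Subgroup.le_normalizer_iff]
    intro t _ x hx
    exact ‹N.Normal›.conj_mem x hx t
  have hcopP : ∀ T : Subgroup G, IsPGroup p T → (Nat.card N).Coprime (Nat.card T) := by
    intro T hT
    obtain ⟨k, hk⟩ := IsPGroup.iff_card.mp hT
    rw [hk]
    exact Nat.Coprime.pow_right k hN
  set K : Subgroup G := Subgroup.zpowers t with hK
  set K₁ : Subgroup G := Subgroup.zpowers u' with hK₁
  have hKP : K ≤ P' := by rw [hK, Subgroup.zpowers_le]; exact ht
  have hP'' : IsPGroup p (MulAut.conj h • P' : Subgroup G) := hP'p.map _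
  have hK₁P : K₁ ≤ MulAut.conj h • P' := by
    rw [hK₁, Subgroup.zpowers_le, hu']
    exact conj_mem_conj_smul h u P' hu
  have hKp : IsPGroup p K := hP'p.to_le hKP
  have hK₁p : IsPGroup p K₁ := hP''.to_le hK₁P
  have hker : f.ker = N := QuotientGroup.ker_mk' N
  have hcardK : Nat.card K₁ = Nat.card K := by
    have h1 : Nat.card (K.map f) = Nat.card K := by
      apply card_map_of_disjoint_ker
      rw [hker, inf_comm]
      exact disjoint_of_coprime_card (hcopP K hKp)
    have h2 : Nat.card (K₁.map f) = Nat.card K₁ := by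
      apply card_map_of_disjoint_ker
      rw [hker, inf_comm]
      exact disjoint_of_coprime_card (hcopP K₁ hK₁p)
    have h3 : K₁.map f = K.map f := by
      rw [hK, hK₁, MonoidHom.map_zpowers, MonoidHom.map_zpowers, hfu]
    rw [← h1, ← h2, h3]
  have hle : K₁ ≤ N ⊔ K := by
    rw [hK₁, Subgroup.zpowers_le]
    have h1 : t⁻¹ * u' ∈ N := QuotientGroup.eq.mp hfu.symm
    have h2 : u' = t * (t⁻¹ * u') := by group
    rw [h2, sup_comm]
    exact Subgroup.mul_mem_sup (Subgroup.mem_zpowers t) h1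
  obtain ⟨n, hn, hnK⟩ := exists_conj_of_le_sup (hNn K) hle hcardK (hcopP K hKp)
    (Or.inr (by
      have : Group.IsNilpotent K := hKp.isNilpotent
      infer_instance))
  have hu'n : u' ∈ MulAut.conj n • P' := by
    have h1 : u' ∈ MulAut.conj n • K := by
      rw [hnK, hK₁]
      exact Subgroup.mem_zpowers u'
    rw [mem_conj_smul_iff] at h1 ⊢
    exact hKP h1
  set A : G := n * g₀ with hA
  set B : G := h * g₀ with hB
  set v : G := A⁻¹ * u' * A with hv
  have hvP : v ∈ (P : Subgroup G) := by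
    rw [hP', mem_conj_smul_iff, mem_conj_smul_iff] at hu'n
    have : A⁻¹ * u' * A = g₀⁻¹ * (n⁻¹ * u' * n) * g₀ := by rw [hA]; group
    rw [hv, this]
    exact hu'n
  have hu'ne : u' ≠ 1 := by
    intro h0
    apply hz1
    rw [← hfu, h0, map_one]
  have hvne : v ≠ 1 := by
    intro h0
    apply hu'ne
    have : u' = A * v * A⁻¹ := by rw [hv]; group
    rw [this, h0]
    group
  have hvconj : v ∈ MulAut.conj (A⁻¹ * B) • (P : Subgroup G) := by
    rw [mem_conj_smul_iff]
    have h1 : (A⁻¹ * B)⁻¹ * v * (A⁻¹ * B) = g₀⁻¹ * u * g₀ := by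
      rw [hv, hu', hA, hB]
      group
    rw [h1]
    have hu2 : u ∈ MulAut.conj g₀ • (P : Subgroup G) := hu
    rw [mem_conj_smul_iff] at hu2
    exact hu2
  have hnorm : A⁻¹ * B ∈ Subgroup.normalizer ((P : Subgroup G) : Set G) := by
    by_contra hcon
    have h1 := hTI _ hcon
    have h2 : v ∈ (P : Subgroup G) ⊓ (MulAut.conj (A⁻¹ * B) • (P : Subgroup G)) :=
      Subgroup.mem_inf.mpr ⟨hvP, hvconj⟩
    rw [h1, Subgroup.mem_bot] at h2
    exact hvne h2
  have hconj : MulAut.conj B • (P : Subgroup G) = MulAut.conj A • (P : Subgroup G) := by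
    have h1 : B = A * (A⁻¹ * B) := by group
    rw [h1, conj_mul_smul, conj_smul_self_of_mem_normalizer hnorm]
  apply hx
  apply mem_normalizer_of_conj_smul_eq
  have hfn : f n = 1 := (QuotientGroup.eq_one_iff n).mpr hn
  rw [hQ, ← conj_mul_smul, ← map_mul, ← map_conj_smul]
  rw [show h * g₀ = B from rfl, hconj, map_conj_smul, hA, map_mul, hfn, one_mul]
end Cfsg.Agent.S3984
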