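import Mathlib
import Cfsg.Statements.S3985

set_option autoImplicit false
set_option linter.all false
open scoped Pointwise
open Cfsg

namespace Cfsg.Agent.S3985

lemma mem_sylow_of_normalizer {G : Type*} [Group G] {p : ℕ} [Fact p.Prime] (V : Sylow p G) {s : G} {n : ℕ}
    (hs : orderOf s ∣ p ^ n) (hN : s ∈ Subgroup.normalizer (((V : Subgroup G)) : Set G)) :
    s ∈ (V : Subgroup G) := by
  obtain ⟨j, -, hj⟩ := (Nat.dvd_prime_pow (Fact.out)).1 hs
  have h1 : IsPGroup p (Subgroup.zpowers s ⊔ (V : Subgroup G) : Subgroup G) := by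
    apply IsPGroup.to_sup_of_normal_right' (IsPGroup.of_card (n := j) (by rw [Nat.card_zpowers, hj])) V.isPGroup'
    rwa [Subgroup.zpowers_le]
  have h2 := V.is_maximal' h1 le_sup_right
  have h3 : s ∈ (Subgroup.zpowers s ⊔ (V : Subgroup G) : Subgroup G) :=
    Subgroup.mem_sup_left (Subgroup.mem_zpowers s)
  rw [h2] at h3
  exact h3

/-- Let P be a cyclic Sylow p-subgroup of the finite group G. Then P meets each conjugate g P g⁻¹ with g outside N_G(P) trivially if and only if P is weakly self-centralizing: C_G(x) = C_G(P) for every non-identity x ∈ P. -/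
theorem result {G : Type*} [Group G] [Finite G] (p : ℕ) [Fact p.Prime] (P : Sylow p G) (hcyc : IsCyclic ↥(P : Subgroup G)) : (∀ g : G, g ∉ Subgroup.normalizer ((P : Subgroup G) : Set G) → (P : Subgroup G) ⊓ (MulAut.conj g • (P : Subgroup G)) = ⊥) ↔ ∀ x : G, x ∈ (P : Subgroup G) → x ≠ 1 → Subgroup.centralizer ({x} : Set G) = Subgroup.centralizer ((P : Subgroup G) : Set G) := by
  have hpp : p.Prime := Fact.out
  obtain ⟨y₀, hy₀⟩ := hcyc.exists_monoid_generator
  set y : G := (y₀ : G) with hy
  have hyP : y ∈ (P : Subgroup G) := y₀.2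
  have hgen : ∀ w ∈ (P : Subgroup G), ∃ j : ℕ, w = y ^ j := by
    intro w hw
    obtain ⟨j, hj⟩ := hy₀ ⟨w, hw⟩
    refine ⟨j, ?_⟩
    have := congrArg Subtype.val hj
    simpa using this.symm
  have hPab : ∀ a ∈ (P : Subgroup G), ∀ b ∈ (P : Subgroup G), a * b = b * a := by
    intro a ha b hb
    obtain ⟨i, rfl⟩ := hgen a ha
    obtain ⟨j, rfl⟩ := hgen b hb
    exact ((Commute.refl y).pow_pow i j).eq
  have hcent : ∀ {c : G}, c * y = y * c → c ∈ Subgroup.centralizer ((P : Subgroup G) : Set G) := by
    intro c hc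
    rw [Subgroup.mem_centralizer_iff]
    intro h hh
    obtain ⟨j, rfl⟩ := hgen h hh
    have : Commute c y := hc
    exact (this.pow_right j).symm.eq
  constructor
  · intro hTI x hx hx1
    apply le_antisymm
    · intro g hg
      have hgx : g * x = x * g := by
        have := Subgroup.mem_centralizer_iff.1 hg x (Set.mem_singleton x)
        exact this.symm
      have hgN : g ∈ Subgroup.normalizer ((P : Subgroup G) : Set G) := by
        by_contra hh
        have h1 := hTI g hh
        have h2 : x ∈ (P : Subgroup G) ⊓ (MulAut.conj g • (P : Subgroup G)) := by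
          refine ⟨hx, ?_⟩
          have := Subgroup.smul_mem_pointwise_smul _ (MulAut.conj g) (P : Subgroup G) hx
          rw [MulAut.smul_def, MulAut.conj_apply, hgx, mul_inv_cancel_right] at this
          exact this
        rw [h1, Subgroup.mem_bot] at h2
        exact hx1 h2
      -- `g y g⁻¹ = y ^ k`
      obtain ⟨k, hk⟩ := hgen _ ((Subgroup.mem_normalizer_iff.1 hgN y).1 hyP)
      have hconjP : ∀ w ∈ (P : Subgroup G), g * w * g⁻¹ = w ^ k := by
        intro w hw
        obtain ⟨j, rfl⟩ := hgen w hw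
        rw [← conj_pow, hk, ← pow_mul, ← pow_mul, mul_comm]
      have hxk : x ^ k = x := by
        rw [← hconjP x hx, hgx, mul_inv_cancel_right]
      -- so `p ∣ k - 1`
      have hx_ord : p ∣ orderOf x := by
        have h1 : orderOf x ∣ Nat.card (P : Subgroup G) := Subgroup.orderOf_dvd_natCard _ hx
        obtain ⟨n, hn⟩ := IsPGroup.iff_card.1 P.isPGroup'
        rw [hn] at h1
        obtain ⟨j, -, hj⟩ := (Nat.dvd_prime_pow hpp).1 h1
        have hj0 : j ≠ 0 := by
          rintro rfl
          rw [pow_zero] at hj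
          exact hx1 (orderOf_eq_one_iff.1 hj)
        rw [hj]
        exact dvd_pow_self p hj0
      have hk1 : (p : ℤ) ∣ (k : ℤ) - 1 := by
        have h1 : x ^ ((k : ℤ) - 1) = 1 := by
          rw [zpow_sub, zpow_natCast, hxk, zpow_one, mul_inv_cancel]
        have h2 := orderOf_dvd_iff_zpow_eq_one.2 h1
        exact (Int.natCast_dvd_natCast.2 hx_ord).trans h2
      obtain ⟨n, hn⟩ := IsPGroup.iff_card.1 P.isPGroup'
      have hk2 := dvd_sub_pow_of_dvd_sub hk1 n
      rw [one_pow] at hk2
      have hyn : y ^ p ^ n = 1 := by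
        have := pow_card_eq_one' (x := y₀)
        rw [hn] at this
        exact congrArg Subtype.val this
      have hyo : (orderOf y : ℤ) ∣ ((p : ℤ) ^ (n + 1)) := by
        have h1 := orderOf_dvd_of_pow_eq_one hyn
        have h2 : orderOf y ∣ p ^ (n + 1) := h1.trans (pow_dvd_pow p (Nat.le_succ n))
        exact_mod_cast h2
      have hgpow : ∀ i : ℕ, g ^ i * y * g⁻¹ ^ i = y ^ (k ^ i) := by
        intro i
        induction i with
        | zero => simp
        | succ i ih =>
          have h1 : g ^ (i + 1) * y * g⁻¹ ^ (i + 1) = g * (g ^ i * y * g⁻¹ ^ i) * g⁻¹ := by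
            rw [pow_succ' g i, pow_succ g⁻¹ i]
            group
          rw [h1, ih, hconjP _ (Subgroup.pow_mem _ hyP _), ← pow_mul, pow_succ]
      have hgc : g ^ p ^ n * y = y * g ^ p ^ n := by
        have h1 := hgpow (p ^ n)
        have h2 : y ^ (k ^ p ^ n) = y := by
          have h3 : y ^ ((k ^ p ^ n : ℕ) : ℤ) = y ^ (1 : ℤ) := by
            rw [zpow_eq_zpow_iff_modEq]
            have h4 : ((orderOf y : ℕ) : ℤ) ∣ ((k : ℤ) ^ p ^ n - 1) := hyo.trans hk2
            exact (Int.modEq_iff_dvd.2 (by
              have h5 : (1 : ℤ) - ((k ^ p ^ n : ℕ) : ℤ) = -((k : ℤ) ^ p ^ n - 1) := by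
                push_cast; ring
              rw [h5]
              exact (dvd_neg).2 h4)).symm.symm
          rw [zpow_natCast, zpow_one] at h3
          exact h3
        rw [h2] at h1
        calc g ^ p ^ n * y = (g ^ p ^ n * y * g⁻¹ ^ p ^ n) * g ^ p ^ n := by
              rw [inv_pow]; group
          _ = y * g ^ p ^ n := by rw [h1]
      obtain ⟨s, o', ho', ho⟩ := Nat.exists_eq_pow_mul_and_not_dvd (orderOf_pos g).ne' p hpp.ne_one
      have h1 : g ^ p ^ n ∈ Subgroup.centralizer ((P : Subgroup G) : Set G) := hcent hgc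
      have h2 : g ^ o' ∈ Subgroup.centralizer ((P : Subgroup G) : Set G) := by
        have h3 : orderOf (g ^ o') ∣ p ^ s := by
          apply orderOf_dvd_of_pow_eq_one
          rw [← pow_mul, mul_comm, ← ho, pow_orderOf_eq_one]
        have h4 := mem_sylow_of_normalizer P h3 (Subgroup.pow_mem _ hgN _)
        rw [Subgroup.mem_centralizer_iff]
        intro a ha
        exact hPab a ha _ h4
      have hcop : IsCoprime ((p ^ n : ℕ) : ℤ) (o' : ℤ) := by
        rw [Nat.isCoprime_iff_coprime]
        exact Nat.Coprime.pow_left n ((Nat.Prime.coprime_iff_not_dvd hpp).2 ho')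
      obtain ⟨a, b, hab'⟩ := hcop
      have : g = (g ^ (p ^ n)) ^ a * (g ^ o') ^ b := by
        rw [← zpow_natCast, ← zpow_natCast g o', ← zpow_mul, ← zpow_mul, ← zpow_add]
        have : ((p ^ n : ℕ) : ℤ) * a + (o' : ℤ) * b = 1 := by linarith
        rw [this, zpow_one]
      rw [this]
      exact Subgroup.mul_mem _ (Subgroup.zpow_mem _ h1 _) (Subgroup.zpow_mem _ h2 _)
    · intro g hg
      rw [Subgroup.mem_centralizer_iff] at hg ⊢
      rintro h rfl
      exact hg h hx
  · intro hW g hg
    rw [eq_bot_iff]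
    rintro x ⟨hx1, hx2⟩
    rw [Subgroup.mem_bot]
    by_contra hx
    apply hg
    have hx₀ : g⁻¹ * x * g ∈ (P : Subgroup G) := by
      have := Subgroup.mem_pointwise_smul_iff_inv_smul_mem.1 hx2
      simpa [MulAut.smul_def] using this
    have hx₀1 : g⁻¹ * x * g ≠ 1 := by
      intro h
      apply hx
      have : x = g * (g⁻¹ * x * g) * g⁻¹ := by group
      rw [this, h]
      group
    have hC₀ := hW _ hx₀ hx₀1
    have hC := hW x hx1 hx
    let Q : Sylow p G := g • P
    have hQmem : ∀ z : G, z ∈ (Q : Subgroup G) ↔ g⁻¹ * z * g ∈ (P : Subgroup G) := by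
      intro z
      have h2 : ((g • P : Sylow p G) : Subgroup G) = MulAut.conj g • (P : Subgroup G) := by
        rw [Sylow.smul_def]; rfl
      change z ∈ ((g • P : Sylow p G) : Subgroup G) ↔ _
      rw [h2, Subgroup.mem_pointwise_smul_iff_inv_smul_mem]
      simp [MulAut.smul_def]
    have hQC : (Q : Subgroup G) ≤ Subgroup.centralizer ((P : Subgroup G) : Set G) := by
      intro z hz
      rw [← hC, Subgroup.mem_centralizer_iff]
      intro w hw
      have hw' : w = x := hw
      rw [hw']
      have h1 : g⁻¹ * z * g ∈ (P : Subgroup G) := (hQmem z).1 hz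
      have h2 : g⁻¹ * z * g ∈ Subgroup.centralizer ((P : Subgroup G) : Set G) := by
        rw [Subgroup.mem_centralizer_iff]
        intro a ha
        exact hPab a ha _ h1
      rw [← hC₀, Subgroup.mem_centralizer_iff] at h2
      have h3 := h2 _ (Set.mem_singleton _)
      have h4 : g⁻¹ * x * z * g = g⁻¹ * z * x * g := by
        calc g⁻¹ * x * z * g = (g⁻¹ * x * g) * (g⁻¹ * z * g) := by group
          _ = (g⁻¹ * z * g) * (g⁻¹ * x * g) := h3
          _ = _ := by group
      have h5 : g⁻¹ * (x * z) * g = g⁻¹ * (z * x) * g := by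
        simpa [mul_assoc] using h4
      exact mul_left_cancel (mul_right_cancel h5)
    have hsup : IsPGroup p ((P : Subgroup G) ⊔ (Q : Subgroup G) : Subgroup G) := by
      apply IsPGroup.to_sup_of_normal_left' P.isPGroup' Q.isPGroup'
      exact hQC.trans (Subgroup.centralizer_le_normalizer _)
    have hmax := P.is_maximal' hsup le_sup_left
    have hQP : (Q : Subgroup G) ≤ (P : Subgroup G) := by
      rw [← hmax]
      exact le_sup_right
    have hQeq : Q = P := by
      have := Q.is_maximal' P.isPGroup' hQP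
      exact Sylow.ext this.symm
    exact Sylow.smul_eq_iff_mem_normalizer.1 hQeq

end Cfsg.Agent.S3985
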