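import Mathlib
import Cfsg.Statements.S3986

set_option autoImplicit false
set_option linter.all false
open Cfsg

namespace Cfsg.Agent.S3986

variable {G : Type*} [Group G]

/-- A subgroup containing all elements of prime-power order with prime different from `p` contains
every element of order not divisible by `p`. -/
lemma mem_of_primary [Finite G] (C : Subgroup G) (p : ℕ)
    (hC : ∀ (y : G) (q b : ℕ), q.Prime → q ≠ p → orderOf y = q ^ b → y ∈ C) :
    ∀ (n : ℕ) (y : G), orderOf y = n → ¬ p ∣ n → y ∈ C := by
  intro n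
  induction n using Nat.recOnPosPrimePosCoprime with
  | prime_pow q n hq hn =>
    intro y hy hpn
    by_cases hqp : q = p
    · subst hqp
      exact absurd (dvd_pow_self q hn.ne') hpn
    · exact hC y q n hq hqp hy
  | zero =>
    intro y hy _
    exact absurd hy (orderOf_pos y).ne'
  | one =>
    intro y hy _
    rw [orderOf_eq_one_iff.1 hy]
    exact C.one_mem
  | coprime a b ha hb hab iha ihb =>
    intro y hy hpn
    have hoa : orderOf (y ^ b) = a := by
      rw [orderOf_pow_of_dvd (by omega) (by rw [hy]; exact dvd_mul_left b a), hy]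
      exact Nat.mul_div_cancel _ (by omega)
    have hob : orderOf (y ^ a) = b := by
      rw [orderOf_pow_of_dvd (by omega) (by rw [hy]; exact dvd_mul_right a b), hy]
      exact Nat.mul_div_cancel_left _ (by omega)
    have h1 := iha (y ^ b) hoa (fun h => hpn (dvd_mul_of_dvd_left h b))
    have h2 := ihb (y ^ a) hob (fun h => hpn (dvd_mul_of_dvd_right h a))
    obtain ⟨u, v, huv⟩ := Nat.isCoprime_iff_coprime.2 hab
    have : y = (y ^ a) ^ u * (y ^ b) ^ v := by
      rw [← zpow_natCast y a, ← zpow_natCast y b, ← zpow_mul, ← zpow_mul, ← zpow_add]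
      have : (a : ℤ) * u + (b : ℤ) * v = 1 := by linarith
      rw [this, zpow_one]
    rw [this]
    exact C.mul_mem (C.zpow_mem h2 _) (C.zpow_mem h1 _)

/-- In a direct factorization, the `p`-elements lie in `P`, and elements of order prime to `p`
in `K`. -/
lemma mem_factor [Finite G] (p : ℕ) [Fact p.Prime] (P : Sylow p G) (K : Subgroup G)
    (hP : (P : Subgroup G).Normal) (hK : K.Normal) (hinf : (P : Subgroup G) ⊓ K = ⊥)
    (hsup : (P : Subgroup G) ⊔ K = ⊤) :
    (∀ x : G, (∃ a : ℕ, orderOf x = p ^ a) → x ∈ (P : Subgroup G)) ∧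
    (∀ y : G, ¬ p ∣ orderOf y → y ∈ K) := by
  have hpp : p.Prime := Fact.out
  constructor
  · rintro x ⟨a, ha⟩
    have h1 : IsPGroup p (Subgroup.zpowers x ⊔ (P : Subgroup G) : Subgroup G) := by
      apply IsPGroup.to_sup_of_normal_right' (IsPGroup.of_card (n := a) (by rw [Nat.card_zpowers, ha]))
        P.isPGroup'
      rw [Subgroup.zpowers_le, Subgroup.normalizer_eq_top_iff.2 hP]
      exact Subgroup.mem_top x
    have h2 := P.is_maximal' h1 le_sup_right
    have h3 : x ∈ (Subgroup.zpowers x ⊔ (P : Subgroup G) : Subgroup G) :=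
      Subgroup.mem_sup_left (Subgroup.mem_zpowers x)
    rw [h2] at h3
    exact h3
  · intro y hy
    have hset : ((P : Subgroup G) ⊔ K : Subgroup G) = ((P : Subgroup G) ⊔ K : Subgroup G) := rfl
    have hmem : y ∈ (((P : Subgroup G) ⊔ K : Subgroup G) : Set G) := by
      rw [hsup]; exact Subgroup.mem_top y
    rw [Subgroup.mul_normal] at hmem
    obtain ⟨a, ha, b, hb, hab⟩ := Set.mem_mul.1 hmem
    have hdisj : Disjoint (P : Subgroup G) K := by
      rw [disjoint_iff]; exact hinf
    have hc : Commute a b := Subgroup.commute_of_normal_of_disjoint _ _ hP hK hdisj a b ha hb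
    set n := orderOf y with hn
    have h1 : a ^ n * b ^ n = 1 := by
      rw [← hc.mul_pow, hab, hn, pow_orderOf_eq_one]
    have h2 : a ^ n ∈ K := by
      rw [eq_inv_of_mul_eq_one_left h1]
      exact K.inv_mem (K.pow_mem hb n)
    have h3 : a ^ n ∈ (P : Subgroup G) := Subgroup.pow_mem _ ha n
    have h4 : a ^ n ∈ (P : Subgroup G) ⊓ K := ⟨h3, h2⟩
    rw [hinf, Subgroup.mem_bot] at h4
    have h5 : orderOf a ∣ n := orderOf_dvd_of_pow_eq_one h4
    obtain ⟨m, hm⟩ := IsPGroup.iff_card.1 P.isPGroup'
    have h6 : orderOf a ∣ p ^ m := hm ▸ Subgroup.orderOf_dvd_natCard _ ha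
    obtain ⟨j, -, hj⟩ := (Nat.dvd_prime_pow hpp).1 h6
    have h7 : j = 0 := by
      by_contra hne
      apply hy
      rw [hj] at h5
      exact (dvd_pow_self p hne).trans h5
    rw [h7, pow_zero] at hj
    rw [orderOf_eq_one_iff.1 hj, one_mul] at hab
    rw [← hab]
    exact hb

/-- Let p be a prime and G a finite group. Then some Sylow p-subgroup of G is a direct factor of G (it is normal and has a normal complement) if and only if every element of p-power order commutes with every element whose order is a power of a prime other than p. -/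
theorem result {G : Type*} [Group G] [Finite G] (p : ℕ) [Fact p.Prime] : (∃ (P : Sylow p G) (K : Subgroup G), (P : Subgroup G).Normal ∧ K.Normal ∧ (P : Subgroup G) ⊓ K = ⊥ ∧ (P : Subgroup G) ⊔ K = ⊤) ↔ ∀ x y : G, (∃ a : ℕ, orderOf x = p ^ a) → (∃ q b : ℕ, q.Prime ∧ q ≠ p ∧ orderOf y = q ^ b) → x * y = y * x := by
  have hpp : p.Prime := Fact.out
  constructor
  · rintro ⟨P, K, hP, hK, hinf, hsup⟩ x y hx ⟨q, b, hq, hqp, hy⟩
    obtain ⟨h1, h2⟩ := mem_factor p P K hP hK hinf hsup
    have hdisj : Disjoint (P : Subgroup G) K := by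
      rw [disjoint_iff]; exact hinf
    have hyK : y ∈ K := by
      apply h2
      rw [hy]
      intro h
      have := hpp.dvd_of_dvd_pow h
      exact hqp ((Nat.prime_dvd_prime_iff_eq hpp hq).1 this).symm
    exact Subgroup.commute_of_normal_of_disjoint _ _ hP hK hdisj x y (h1 x hx) hyK
  · intro hcomm
    obtain ⟨P⟩ : Nonempty (Sylow p G) := inferInstance
    -- all `p'`-primary elements normalize
    have hcent : ∀ x ∈ (P : Subgroup G), ∀ y : G, ¬ p ∣ orderOf y → x * y = y * x := by
      intro x hx y hy
      have hxp : ∃ a : ℕ, orderOf x = p ^ a := by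
        obtain ⟨m, hm⟩ := IsPGroup.iff_card.1 P.isPGroup'
        have h6 : orderOf x ∣ p ^ m := hm ▸ Subgroup.orderOf_dvd_natCard _ hx
        obtain ⟨j, -, hj⟩ := (Nat.dvd_prime_pow hpp).1 h6
        exact ⟨j, hj⟩
      have := mem_of_primary (Subgroup.centralizer ({x} : Set G)) p (by
        intro z q b hq hqp hz
        rw [Subgroup.mem_centralizer_iff]
        rintro _ rfl
        exact hcomm _ z hxp ⟨q, b, hq, hqp, hz⟩) _ y rfl hy
      exact Subgroup.mem_centralizer_iff.1 this x (Set.mem_singleton x)
    have hnorm : (P : Subgroup G).Normal := by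
      rw [← Subgroup.normalizer_eq_top_iff, ← Subgroup.index_eq_one]
      by_contra hne
      set N : Subgroup G := Subgroup.normalizer ((P : Subgroup G) : Set G) with hN
      obtain ⟨q, hq, hqd⟩ := Nat.exists_prime_and_dvd hne
      haveI : Fact q.Prime := ⟨hq⟩
      obtain ⟨Q⟩ : Nonempty (Sylow q G) := inferInstance
      by_cases hqp : q = p
      · subst hqp
        have h1 : N.index ∣ (P : Subgroup G).index := Subgroup.index_dvd_of_le Subgroup.le_normalizer
        exact P.not_dvd_index (hqd.trans h1)
      · have hQN : (Q : Subgroup G) ≤ N := by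
          intro z hz
          obtain ⟨m, hm⟩ := IsPGroup.iff_card.1 Q.isPGroup'
          have h6 : orderOf z ∣ q ^ m := hm ▸ Subgroup.orderOf_dvd_natCard _ hz
          obtain ⟨j, -, hj⟩ := (Nat.dvd_prime_pow hq).1 h6
          have hpz : ¬ p ∣ orderOf z := by
            rw [hj]
            intro h
            have := hpp.dvd_of_dvd_pow h
            exact hqp ((Nat.prime_dvd_prime_iff_eq hpp hq).1 this).symm
          rw [hN, Subgroup.mem_normalizer_iff]
          intro w
          constructor
          · intro hw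
            have : z * w * z⁻¹ = w := by
              rw [← hcent w hw z hpz]
              group
            rwa [this]
          · intro hw
            have h7 : w = z⁻¹ * (z * w * z⁻¹) * z := by group
            have h8 : ¬ p ∣ orderOf z⁻¹ := by rwa [orderOf_inv]
            rw [h7]
            have h9 := hcent _ hw z⁻¹ h8
            rw [← h9]
            simpa using hw
        have h1 : N.index ∣ (Q : Subgroup G).index := Subgroup.index_dvd_of_le hQN
        exact Q.not_dvd_index (hqd.trans h1)
    have hcop : (Nat.card (P : Subgroup G)).Coprime (P : Subgroup G).index := by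
      obtain ⟨m, hm⟩ := IsPGroup.iff_card.1 P.isPGroup'
      rw [hm]
      exact Nat.Coprime.pow_left m ((Nat.Prime.coprime_iff_not_dvd hpp).2 P.not_dvd_index)
    obtain ⟨K, hK⟩ := Subgroup.exists_right_complement'_of_coprime hcop
    have hKp : ∀ k ∈ K, ¬ p ∣ orderOf k := by
      intro k hk h
      have h1 : orderOf k ∣ Nat.card K := Subgroup.orderOf_dvd_natCard _ hk
      have h2 : Nat.card K = (P : Subgroup G).index := by
        have h3 := hK.card_mul_card
        have h4 := (P : Subgroup G).card_mul_index
        have h5 : 0 < Nat.card (P : Subgroup G) := Nat.card_pos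
        exact Nat.eq_of_mul_eq_mul_left h5 (h3.trans h4.symm)
      rw [h2] at h1
      exact P.not_dvd_index (h.trans h1)
    have hKnorm : K.Normal := by
      constructor
      intro k hk g
      have hg : g ∈ (((P : Subgroup G) ⊔ K : Subgroup G) : Set G) := by
        rw [hK.sup_eq_top]; exact Subgroup.mem_top g
      rw [Subgroup.normal_mul] at hg
      obtain ⟨a, ha, b, hb, hab⟩ := Set.mem_mul.1 hg
      have hbk : b * k * b⁻¹ ∈ K := K.mul_mem (K.mul_mem hb hk) (K.inv_mem hb)
      have h1 := hcent a ha _ (hKp _ hbk)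
      rw [← hab]
      have h2 : a * b * k * (a * b)⁻¹ = a * (b * k * b⁻¹) * a⁻¹ := by group
      rw [h2, h1]
      simpa using hbk
    exact ⟨P, K, hnorm, hKnorm, disjoint_iff.1 hK.disjoint, hK.sup_eq_top⟩

end Cfsg.Agent.S3986
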