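import Mathlib
import Cfsg.Statements.S3987
import Cfsg.Agent.S3986

set_option autoImplicit false
set_option linter.all false
open Cfsg

namespace Cfsg.Agent.S3987

/-- Let p be a prime and G a finite group. Then some Sylow p-subgroup of G is a direct factor of G (normal with a normal complement) if and only if for every element x of p-power order and every element y whose order is a power of a prime other than p, the conjugacy class of x y has as many elements as the product of the sizes of the classes of x and of y. -/
theorem result {G : Type*} [Group G] [Finite G] (p : ℕ) [Fact p.Prime] : (∃ (P : Sylow p G) (K : Subgroup G), (P : Subgroup G).Normal ∧ K.Normal ∧ (P : Subgroup G) ⊓ K = ⊥ ∧ (P : Subgroup G) ⊔ K = ⊤) ↔ ∀ x y : G, (∃ a : ℕ, orderOf x = p ^ a) → (∃ q b : ℕ, q.Prime ∧ q ≠ p ∧ orderOf y = q ^ b) → (Subgroup.centralizer ({x * y} : Set G)).index = (Subgroup.centralizer ({x} : Set G)).index * (Subgroup.centralizer ({y} : Set G)).index := by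
  have hpp : p.Prime := Fact.out
  have hcc : ∀ {x z : G}, z ∈ Subgroup.centralizer ({x} : Set G) ↔ z * x = x * z := by
    intro x z
    rw [Subgroup.mem_centralizer_iff]
    constructor
    · intro h
      exact (h x (Set.mem_singleton x)).symm
    · rintro h _ rfl
      exact h.symm
  constructor
  · rintro ⟨P, K, hP, hK, hinf, hsup⟩ x y hx ⟨q, b, hq, hqp, hy⟩
    obtain ⟨h1, h2⟩ := Cfsg.Agent.S3986.mem_factor p P K hP hK hinf hsup
    have hdisj : Disjoint (P : Subgroup G) K := by
      rw [disjoint_iff]; exact hinf
    have hcomm := Subgroup.commute_of_normal_of_disjoint _ _ hP hK hdisj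
    have hyp : ¬ p ∣ orderOf y := by
      rw [hy]
      intro h
      have := hpp.dvd_of_dvd_pow h
      exact hqp ((Nat.prime_dvd_prime_iff_eq hpp hq).1 this).symm
    have hxP := h1 x hx
    have hyK := h2 y hyp
    have hxy : Commute x y := hcomm x y hxP hyK
    obtain ⟨a, ha⟩ := hx
    -- `C(xy) = C(x) ∩ C(y)`
    have hcop : Nat.Coprime (orderOf x) (orderOf y) := by
      rw [ha]
      exact Nat.Coprime.pow_left a ((Nat.Prime.coprime_iff_not_dvd hpp).2 hyp)
    obtain ⟨u, v, huv⟩ := Nat.isCoprime_iff_coprime.2 hcop
    have hx1 : x ^ (u * (orderOf x : ℤ)) = 1 := by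
      rw [zpow_mul', zpow_natCast, pow_orderOf_eq_one, one_zpow]
    have hy1 : y ^ (v * (orderOf y : ℤ)) = 1 := by
      rw [zpow_mul', zpow_natCast, pow_orderOf_eq_one, one_zpow]
    have hpow1 : (x * y) ^ (v * (orderOf y : ℤ)) = x := by
      rw [hxy.mul_zpow, hy1, mul_one]
      have h4 : v * (orderOf y : ℤ) = 1 - u * (orderOf x : ℤ) := by linarith
      rw [h4, zpow_sub, zpow_one, hx1, inv_one, mul_one]
    have hpow2 : (x * y) ^ (u * (orderOf x : ℤ)) = y := by
      rw [hxy.mul_zpow, hx1, one_mul]
      have h4 : u * (orderOf x : ℤ) = 1 - v * (orderOf y : ℤ) := by linarith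
      rw [h4, zpow_sub, zpow_one, hy1, inv_one, mul_one]
    set A := Subgroup.centralizer ({x} : Set G) with hA
    set B := Subgroup.centralizer ({y} : Set G) with hB
    set C := Subgroup.centralizer ({x * y} : Set G) with hC
    have hCeq : C = A ⊓ B := by
      apply le_antisymm
      · intro z hz
        have hz' : Commute z (x * y) := hcc.1 hz
        refine Subgroup.mem_inf.2 ⟨?_, ?_⟩
        · rw [hA, hcc]
          have := hz'.zpow_right (v * (orderOf y : ℤ))
          rw [hpow1] at this
          exact this
        · rw [hB, hcc]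
          have := hz'.zpow_right (u * (orderOf x : ℤ))
          rw [hpow2] at this
          exact this
      · rintro z ⟨hz1, hz2⟩
        rw [hC, hcc]
        have h1 : z * x = x * z := hcc.1 hz1
        have h2 : z * y = y * z := hcc.1 hz2
        rw [← mul_assoc, h1, mul_assoc, h2, mul_assoc]
    have hcopidx : Nat.Coprime A.index B.index := by
      have hPB : (P : Subgroup G) ≤ B := by
        intro w hw
        rw [hB, hcc]
        exact hcomm w y hw hyK
      have hpB : ¬ p ∣ B.index := fun h =>
        P.not_dvd_index (h.trans (Subgroup.index_dvd_of_le hPB))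
      apply Nat.Coprime.symm
      apply Nat.coprime_of_dvd
      intro r hr hrB hrA
      by_cases hrp : r = p
      · subst hrp
        exact hpB hrB
      · haveI : Fact r.Prime := ⟨hr⟩
        obtain ⟨R⟩ : Nonempty (Sylow r G) := inferInstance
        have hRA : (R : Subgroup G) ≤ A := by
          intro z hz
          obtain ⟨m, hm⟩ := IsPGroup.iff_card.1 R.isPGroup'
          have h6 : orderOf z ∣ r ^ m := hm ▸ Subgroup.orderOf_dvd_natCard _ hz
          obtain ⟨j, -, hj⟩ := (Nat.dvd_prime_pow hr).1 h6
          have hpz : ¬ p ∣ orderOf z := by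
            rw [hj]
            intro h
            have := hpp.dvd_of_dvd_pow h
            exact hrp ((Nat.prime_dvd_prime_iff_eq hpp hr).1 this).symm
          rw [hA, hcc]
          exact (hcomm x z hxP (h2 z hpz)).symm
        exact R.not_dvd_index (hrA.trans (Subgroup.index_dvd_of_le hRA))
    rw [hCeq]
    apply le_antisymm Subgroup.index_inf_le
    apply Nat.le_of_dvd (Nat.pos_of_ne_zero Subgroup.index_ne_zero_of_finite)
    exact Nat.Coprime.mul_dvd_of_dvd_of_dvd hcopidx (Subgroup.index_dvd_of_le inf_le_left)
      (Subgroup.index_dvd_of_le inf_le_right)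
  · intro hidx
    apply (Cfsg.Agent.S3986.result p).2
    intro x y hx hy
    have h := hidx x y hx hy
    set A := Subgroup.centralizer ({x} : Set G) with hA
    set B := Subgroup.centralizer ({y} : Set G) with hB
    set C := Subgroup.centralizer ({x * y} : Set G) with hC
    have hle : A ⊓ B ≤ C := by
      rintro z ⟨hz1, hz2⟩
      rw [hC, hcc]
      have h1 : z * x = x * z := hcc.1 hz1
      have h2 : z * y = y * z := hcc.1 hz2
      rw [← mul_assoc, h1, mul_assoc, h2, mul_assoc]
    have h1 : (A ⊓ B).index ≤ C.index := by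
      rw [h]
      exact Subgroup.index_inf_le
    have h2 : C.index ∣ (A ⊓ B).index := Subgroup.index_dvd_of_le hle
    have h3 : (A ⊓ B).index = C.index :=
      le_antisymm h1 (Nat.le_of_dvd (Nat.pos_of_ne_zero Subgroup.index_ne_zero_of_finite) h2)
    have h4 : A ⊓ B = C := by
      apply Subgroup.eq_of_le_of_card_ge hle
      have h5 := (A ⊓ B).card_mul_index
      have h6 := C.card_mul_index
      rw [h3] at h5
      have h7 : Nat.card (A ⊓ B : Subgroup G) = Nat.card C :=
        Nat.eq_of_mul_eq_mul_right (Nat.pos_of_ne_zero Subgroup.index_ne_zero_of_finite) (h5.trans h6.symm)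
      exact h7.symm.le
    have h5 : x * y ∈ C := by
      rw [hC, hcc]
    rw [← h4] at h5
    have h6 : x * y * x = x * (x * y) := hcc.1 h5.1
    rw [mul_assoc] at h6
    exact (mul_left_cancel h6).symm

end Cfsg.Agent.S3987
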