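import Cfsg.Statements.S3992
import Cfsg.Agent.Lib.Solvable.EPPO2

set_option autoImplicit false
open Cfsg

namespace Cfsg.Agent.S3992

/-- Let G be a finite non-solvable group in which every element has prime-power order, and let R be its largest solvable normal subgroup. Then R is a p-group for some prime p; G/R has a non-abelian simple normal subgroup contained in every nontrivial normal subgroup of G/R (its unique minimal normal subgroup); and the order of every solvable subgroup of G has at most two prime divisors. -/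
theorem result {G : Type*} [Group G] [Finite G] (hns : ¬ Group.IsSolvable G) (hpp : ∀ g : G, g ≠ 1 → IsPrimePow (orderOf g))
    (R : Subgroup G) [R.Normal] (hRs : Group.IsSolvable ↥R) (hRmax : ∀ N : Subgroup G, N.Normal → Group.IsSolvable ↥N → N ≤ R) :
    (∃ p : ℕ, p.Prime ∧ IsPGroup p ↥R) ∧
      (∃ M : Subgroup (G ⧸ R), M.Normal ∧ IsSimpleGroup ↥M ∧ ¬ IsMulCommutative ↥M ∧
        ∀ N : Subgroup (G ⧸ R), N.Normal → N ≠ ⊥ → M ≤ N) ∧
      ∀ H : Subgroup G, Group.IsSolvable ↥H → (Nat.card ↥H).primeFactors.card ≤ 2 := by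
  classical
  have hRn : R.Normal := inferInstance
  refine ⟨Cfsg.Agent.Lib.Solvable.EPPO2.radical_isPGroup hns hpp R hRn hRs, ?_, ?_⟩
  · -- the quotient
    have hnt : Nontrivial (G ⧸ R) := by
      rw [QuotientGroup.nontrivial_iff]
      intro h
      apply hns
      rw [h] at hRs
      exact Group.isSolvable_of_surjective (f := (⊤ : Subgroup G).subtype)
        (fun g => ⟨⟨g, Subgroup.mem_top g⟩, rfl⟩)
    have hppq : ∀ g : G ⧸ R, g ≠ 1 → IsPrimePow (orderOf g) := by
      intro g hg
      obtain ⟨x, rfl⟩ := QuotientGroup.mk'_surjective R g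
      have hx1 : x ≠ 1 := by
        rintro rfl
        exact hg (map_one _)
      have hd : orderOf (QuotientGroup.mk' R x) ∣ orderOf x := orderOf_map_dvd _ x
      obtain ⟨t, k, ht, hk, hk'⟩ := (isPrimePow_nat_iff _).mp (hpp x hx1)
      rw [← hk'] at hd
      obtain ⟨j, -, hj⟩ := (Nat.dvd_prime_pow ht).mp hd
      have hj0 : j ≠ 0 := by
        rintro rfl
        rw [pow_zero, orderOf_eq_one_iff] at hj
        exact hg hj
      rw [hj]
      exact (isPrimePow_nat_iff _).mpr ⟨t, j, ht, Nat.pos_of_ne_zero hj0, rfl⟩
    have hrad : ∀ N : Subgroup (G ⧸ R), N.Normal → Group.IsSolvable N → N = ⊥ := by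
      intro N hN hNs
      have hC : (N.comap (QuotientGroup.mk' R)).Normal := hN.comap _
      have hRC : R ≤ N.comap (QuotientGroup.mk' R) := by
        intro x hx
        rw [Subgroup.mem_comap]
        have h1 : QuotientGroup.mk' R x = 1 := (QuotientGroup.eq_one_iff x).mpr hx
        rw [h1]
        exact Subgroup.one_mem _
      have hCs : Group.IsSolvable (N.comap (QuotientGroup.mk' R)) := by
        refine Group.isSolvable_of_ker_le_range (Subgroup.inclusion hRC)
          (((QuotientGroup.mk' R).comp (N.comap (QuotientGroup.mk' R)).subtype).codRestrict N (fun x => x.2)) ?_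
        intro x hx
        have h1 : QuotientGroup.mk' R (x : G) = 1 := congrArg Subtype.val hx
        exact ⟨⟨x, (QuotientGroup.eq_one_iff _).mp h1⟩, rfl⟩
      have h2 := hRmax _ hC hCs
      rw [eq_bot_iff]
      intro y hy
      obtain ⟨x, rfl⟩ := QuotientGroup.mk'_surjective R y
      have h3 : x ∈ R := h2 hy
      rw [Subgroup.mem_bot]
      exact (QuotientGroup.eq_one_iff x).mpr h3
    exact Cfsg.Agent.Lib.Solvable.EPPO2.exists_simple_normal hppq hrad
  · intro H hH
    refine Cfsg.Agent.Lib.Solvable.EPPO.card_primeFactors_le_two (G := H) ?_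
    intro g
    by_cases hg : g = 1
    · exact Or.inr hg
    · left
      rw [← Subgroup.orderOf_coe]
      exact hpp _ (fun h => hg (Subtype.ext h))

end Cfsg.Agent.S3992
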