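import Mathlib
import Cfsg.Statements.S4022
import Cfsg.Agent.Lib.Coprime.SchurZassenhaus
import Cfsg.Agent.Lib.FPF.UniqueOrderP

set_option autoImplicit false
set_option linter.all false
open Cfsg

namespace Cfsg.Agent.S4022

open Cfsg.Agent.Lib.Coprime.SchurZassenhaus Subgroup Pointwise

universe u

def Er (r : ℕ) (G : Type u) [Group G] : Prop :=
  ∀ H K : Subgroup G, IsPGroup r H → IsPGroup r K → Nat.card H = Nat.card K →
    ∃ g : G, MulAut.conj g • H = K

def Cy (r : ℕ) (G : Type u) [Group G] : Prop :=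
  ∀ p : ℕ, p.Prime → p ≠ r → ∀ P : Sylow p G, IsCyclic P

theorem Cy_of_surjective {r : ℕ} {G Q : Type u} [Group G] [Group Q] [Finite G] [Finite Q]
    (f : G →* Q) (hf : Function.Surjective f) (h : Cy r G) : Cy r Q := by
  intro p hp hne P
  haveI := Fact.mk hp
  obtain ⟨P₀, rfl⟩ := Sylow.mapSurjective_surjective hf p P
  haveI := h p hp hne P₀
  exact isCyclic_of_surjective (f.subgroupMap (P₀ : Subgroup G)) (f.subgroupMap_surjective _)

theorem Cy_of_subgroup {r : ℕ} {G : Type u} [Group G] [Finite G] (T : Subgroup G) (h : Cy r G) :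
    Cy r T := by
  intro p hp hne P
  haveI := Fact.mk hp
  have hP : IsPGroup p ((P : Subgroup T).map T.subtype) := P.isPGroup'.map _
  obtain ⟨Q, hQ⟩ := hP.exists_le_sylow
  haveI := h p hp hne Q
  have hmem : ∀ x : (P : Subgroup T), ((x : T) : G) ∈ (Q : Subgroup G) := fun x =>
    hQ ⟨x, x.2, rfl⟩
  exact isCyclic_of_injective
    ((T.subtype.comp (P : Subgroup T).subtype).codRestrict (Q : Subgroup G) hmem)
    (by
      intro x y hxy
      have := congrArg Subtype.val hxy
      exact Subtype.ext (Subtype.ext this))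

theorem exists_lift_pgroup {r : ℕ} [Fact r.Prime] {G Q : Type u} [Group G] [Group Q] [Finite G]
    [Finite Q] (f : G →* Q) (hf : Function.Surjective f) (X : Subgroup Q) (hX : IsPGroup r X) :
    ∃ U : Subgroup G, IsPGroup r U ∧ U.map f = X ∧
      Nat.card U = r ^ (Nat.card X * Nat.card f.ker).factorization r := by
  have hr : r.Prime := Fact.out
  let C := X.comap f
  obtain ⟨P⟩ : Nonempty (Sylow r C) := inferInstance
  let U : Subgroup G := (P : Subgroup C).map C.subtype
  have hU : IsPGroup r U := P.isPGroup'.map _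
  have cardU : Nat.card U = Nat.card P :=
    Subgroup.card_map_of_injective C.subtype_injective
  have cardC : Nat.card C = Nat.card X * Nat.card f.ker := by
    have := card_map_mul_card_inf_ker f C
    rw [Subgroup.map_comap_eq_self_of_surjective hf, inf_eq_right.mpr (Subgroup.ker_le_comap f X)]
      at this
    exact this.symm
  have cardP : Nat.card P = r ^ (Nat.card C).factorization r := Sylow.card_eq_multiplicity P
  have hU' : Nat.card U = r ^ (Nat.card X * Nat.card f.ker).factorization r := by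
    rw [cardU, cardP, cardC]
  refine ⟨U, hU, ?_, hU'⟩
  have hle : U.map f ≤ X := by
    rintro _ ⟨u, ⟨c, -, rfl⟩, rfl⟩
    exact c.2
  apply Subgroup.eq_of_le_of_card_ge hle
  have h1 := card_map_mul_card_inf_ker f U
  obtain ⟨a, ha⟩ := IsPGroup.iff_card.mp hX
  obtain ⟨c, hc⟩ := IsPGroup.iff_card.mp (hU.to_le (inf_le_left : U ⊓ f.ker ≤ U))
  have hkpos : Nat.card f.ker ≠ 0 := Nat.card_pos.ne'
  have hv : c ≤ (Nat.card f.ker).factorization r := by
    rw [← hr.pow_dvd_iff_le_factorization hkpos, ← hc]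
    exact Subgroup.card_dvd_of_le inf_le_right
  have hfac : (Nat.card X * Nat.card f.ker).factorization r =
      a + (Nat.card f.ker).factorization r := by
    rw [ha, Nat.factorization_mul (pow_ne_zero _ hr.ne_zero) hkpos, Nat.Prime.factorization_pow hr]
    simp
  rw [hU', hfac, hc, pow_add] at h1
  rw [ha]
  by_contra hlt
  push_neg at hlt
  have h2 : Nat.card (U.map f) * r ^ c < r ^ a * r ^ c :=
    Nat.mul_lt_mul_of_pos_right hlt (pow_pos hr.pos c)
  have h3 : r ^ a * r ^ c ≤ r ^ a * r ^ (Nat.card f.ker).factorization r :=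
    Nat.mul_le_mul_left _ (Nat.pow_le_pow_right hr.pos hv)
  omega

theorem Er_of_surjective {r : ℕ} [Fact r.Prime] {G Q : Type u} [Group G] [Group Q] [Finite G]
    [Finite Q] (f : G →* Q) (hf : Function.Surjective f) (h : Er r G) : Er r Q := by
  intro X Y hX hY hXY
  obtain ⟨U, hU, hUX, cU⟩ := exists_lift_pgroup f hf X hX
  obtain ⟨V, hV, hVY, cV⟩ := exists_lift_pgroup f hf Y hY
  obtain ⟨g, hg⟩ := h U V hU hV (by rw [cU, cV, hXY])
  refine ⟨f g, ?_⟩
  rw [← hUX, ← hVY, ← hg, map_conj_smul]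

theorem exists_N (G : Type u) [Group G] [Finite G] [Nontrivial G] [Group.IsSolvable G] :
    ∃ s : ℕ, s.Prime ∧ ∃ N : Subgroup G, N.Normal ∧ N ≠ ⊥ ∧ IsPGroup s N ∧ (∀ x ∈ N, x ^ s = 1) ∧
      (∀ x ∈ N, ∀ y ∈ N, x * y = y * x) := by
  obtain ⟨s, hs, D, hDn, hD, hDp⟩ := exists_normal_pSubgroup G
  haveI := Fact.mk hs
  let N : Subgroup G :=
    { carrier := {x | x ∈ D ∧ (∀ y ∈ D, x * y = y * x) ∧ x ^ s = 1}
      one_mem' := ⟨D.one_mem, by simp, by simp⟩
      mul_mem' := by
        rintro a b ⟨ha, ha', ha''⟩ ⟨hb, hb', hb''⟩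
        refine ⟨D.mul_mem ha hb, ?_, ?_⟩
        · intro y hy
          rw [mul_assoc, hb' y hy, ← mul_assoc, ha' y hy, mul_assoc]
        · have : Commute a b := ha' b hb
          rw [this.mul_pow, ha'', hb'', one_mul]
      inv_mem' := by
        rintro a ⟨ha, ha', ha''⟩
        refine ⟨D.inv_mem ha, ?_, ?_⟩
        · intro y hy
          have : Commute a y := ha' y hy
          exact this.inv_left
        · rw [inv_pow, ha'', inv_one] }
  have hNn : N.Normal := by
    constructor
    rintro a ⟨ha, ha', ha''⟩ g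
    refine ⟨hDn.conj_mem a ha g, ?_, ?_⟩
    · intro y hy
      have h1 := ha' (g⁻¹ * y * g) (by simpa using hDn.conj_mem y hy g⁻¹)
      calc g * a * g⁻¹ * y = g * (a * (g⁻¹ * y * g)) * g⁻¹ := by group
        _ = g * ((g⁻¹ * y * g) * a) * g⁻¹ := by rw [h1]
        _ = y * (g * a * g⁻¹) := by group
    · rw [conj_pow, ha'']; simp
  have hND : N ≤ D := fun x hx => hx.1
  refine ⟨s, hs, N, hNn, ?_, hDp.to_le hND, fun x hx => hx.2.2, fun x hx y hy => hx.2.1 y (hND hy)⟩
  haveI : Nontrivial D := (Subgroup.nontrivial_iff_ne_bot D).mpr hD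
  haveI := hDp.center_nontrivial
  have hZ : IsPGroup s (Subgroup.center D) := hDp.to_subgroup _
  have hdvd : s ∣ Nat.card (Subgroup.center D) := by
    rcases hZ.card_eq_or_dvd with h | h
    · exact absurd h Finite.one_lt_card.ne'
    · exact h
  obtain ⟨z, hz⟩ := exists_prime_orderOf_dvd_card' s hdvd
  intro hbot
  have hz1 : ((z : D) : G) ∈ N := by
    refine ⟨(z : D).2, ?_, ?_⟩
    · intro y hy
      have := (Subgroup.mem_center_iff.mp z.2) ⟨y, hy⟩
      have h2 := congrArg Subtype.val this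
      exact h2.symm
    · have : z ^ s = 1 := by rw [← hz]; exact pow_orderOf_eq_one z
      have h2 := congrArg (fun w : Subgroup.center D => ((w : D) : G)) this
      simpa using h2
  rw [hbot, Subgroup.mem_bot] at hz1
  have : z = 1 := Subtype.ext (Subtype.ext hz1)
  rw [this, orderOf_one] at hz
  exact hs.one_lt.ne hz

theorem lift_conj {G : Type u} [Group G] (B H K : Subgroup G) [B.Normal] (hH : B ≤ H) (hK : B ≤ K)
    (q : G ⧸ B)
    (h : MulAut.conj q • H.map (QuotientGroup.mk' B) = K.map (QuotientGroup.mk' B)) :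
    ∃ g : G, MulAut.conj g • H = K := by
  obtain ⟨g, rfl⟩ := QuotientGroup.mk_surjective q
  refine ⟨g, ?_⟩
  have h1 : (MulAut.conj g • H).map (QuotientGroup.mk' B) = K.map (QuotientGroup.mk' B) := by
    rw [map_conj_smul]; exact h
  have h2 : B ≤ MulAut.conj g • H := by
    intro x hx
    rw [mem_conj_smul_iff]
    apply hH
    simpa using ‹B.Normal›.conj_mem x hx g⁻¹
  have h3 := congrArg (Subgroup.comap (QuotientGroup.mk' B)) h1
  rwa [Subgroup.comap_map_eq_self (by rwa [QuotientGroup.ker_mk']),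
    Subgroup.comap_map_eq_self (by rwa [QuotientGroup.ker_mk'])] at h3

theorem hall_mod {L : Type u} [Group L] [Finite L] [Group.IsSolvable L] (N B H K : Subgroup L)
    [N.Normal] [B.Normal] (hBN : B ≤ N) (hBH : B ≤ H) (hBK : B ≤ K)
    (hcard : Nat.card K = Nat.card H) (n m : ℕ) (hN : Nat.card N = n * Nat.card B)
    (hH : Nat.card H = m * Nat.card B) (hL : Nat.card L = n * m * Nat.card B)
    (hc : n.Coprime m) : ∃ y : L, MulAut.conj y • H = K := by
  have hB0 : 0 < Nat.card B := Nat.card_pos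
  have cN := card_map_mk_of_le B N hBN
  have cH := card_map_mk_of_le B H hBH
  have cK := card_map_mk_of_le B K hBK
  have cL := card_quotient_mul B
  have hN' : Nat.card (N.map (QuotientGroup.mk' B)) = n :=
    Nat.eq_of_mul_eq_mul_right hB0 (by rw [cN, hN])
  have hH' : Nat.card (H.map (QuotientGroup.mk' B)) = m :=
    Nat.eq_of_mul_eq_mul_right hB0 (by rw [cH, hH])
  have hK' : Nat.card (K.map (QuotientGroup.mk' B)) = m :=
    Nat.eq_of_mul_eq_mul_right hB0 (by rw [cK, hcard, hH])
  have hL' : Nat.card (L ⧸ B) = n * m :=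
    Nat.eq_of_mul_eq_mul_right hB0 (by rw [cL, hL])
  haveI : (N.map (QuotientGroup.mk' B)).Normal :=
    Subgroup.Normal.map inferInstance _ (QuotientGroup.mk'_surjective B)
  obtain ⟨g, hg⟩ := conj_of_card (N.map (QuotientGroup.mk' B)) (H.map (QuotientGroup.mk' B))
    (K.map (QuotientGroup.mk' B)) (Or.inl inferInstance) (by rw [hN', hH', hL'])
    (by rw [hK', hH']) (by rwa [hN', hH'])
  exact lift_conj B H K hBH hBK g hg

theorem card_sup_mul_inf {G : Type u} [Group G] [Finite G] (K N : Subgroup G) [N.Normal] :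
    Nat.card (K ⊔ N : Subgroup G) * Nat.card (K ⊓ N : Subgroup G) = Nat.card K * Nat.card N := by
  have h1 := card_map_mul_card_inf_ker (QuotientGroup.mk' N) K
  rw [QuotientGroup.ker_mk'] at h1
  have h2 := card_map_mk_of_le N (K ⊔ N) le_sup_right
  have h3 : (K ⊔ N : Subgroup G).map (QuotientGroup.mk' N) = K.map (QuotientGroup.mk' N) := by
    rw [Subgroup.map_sup, QuotientGroup.map_mk'_self, sup_bot_eq]
  rw [h3] at h2
  rw [← h2, ← h1]
  ring

/-- The last step of both cases. -/
theorem final {G : Type u} [Group G] [Finite G] [Group.IsSolvable G] (N B H K : Subgroup G)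
    [N.Normal] (hBN : B ≤ N) (hBH : B ≤ H) (hBK : B ≤ K)
    (hT : (K ⊔ N : Subgroup G) ≤ Subgroup.normalizer (B : Set G))
    (hHL : H ≤ K ⊔ N) (hcard : Nat.card K = Nat.card H) (hKN : K ⊓ N = B) (n m : ℕ)
    (hN : Nat.card N = n * Nat.card B) (hK : Nat.card K = m * Nat.card B) (hc : n.Coprime m) :
    ∃ y : G, MulAut.conj y • H = K := by
  set L : Subgroup G := K ⊔ N with hL
  have hKL : K ≤ L := le_sup_left
  have hNL : N ≤ L := le_sup_right
  have hBL : B ≤ L := hBK.trans hKL
  haveI : (B.subgroupOf L).Normal := (Subgroup.normal_subgroupOf_iff_le_normalizer hBL).mpr hT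
  have hcardL := card_sup_mul_inf K N
  rw [hKN, hK, hN, ← hL] at hcardL
  have hB0 : 0 < Nat.card B := Nat.card_pos
  have hLc : Nat.card L = n * m * Nat.card B := by
    apply Nat.eq_of_mul_eq_mul_right hB0
    rw [hcardL]; ring
  obtain ⟨y, hy⟩ := hall_mod (L := L) (N.subgroupOf L) (B.subgroupOf L) (H.subgroupOf L)
    (K.subgroupOf L) (Subgroup.subgroupOf_mono _ hBN) (Subgroup.subgroupOf_mono _ hBH)
    (Subgroup.subgroupOf_mono _ hBK)
    (by rw [card_subgroupOf_of_le hKL, card_subgroupOf_of_le hHL]; exact hcard) n m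
    (by rw [card_subgroupOf_of_le hNL, card_subgroupOf_of_le hBL]; exact hN)
    (by rw [card_subgroupOf_of_le hHL, card_subgroupOf_of_le hBL, ← hcard]; exact hK)
    (by rw [card_subgroupOf_of_le hBL]; exact hLc) hc
  exact ⟨y, conj_of_subgroupOf hHL hKL y hy⟩

theorem mem_sup_of_map_eq {G : Type u} [Group G] (N H K : Subgroup G) [N.Normal]
    (h : H.map (QuotientGroup.mk' N) ≤ K.map (QuotientGroup.mk' N)) : H ≤ K ⊔ N := by
  intro x hx
  obtain ⟨k, hk, hkx⟩ := h ⟨x, hx, rfl⟩
  have h1 : k⁻¹ * x ∈ N := by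
    have := QuotientGroup.eq.mp hkx
    simpa using this
  have := (K ⊔ N).mul_mem (Subgroup.mem_sup_left hk) (Subgroup.mem_sup_right h1)
  simpa using this

/-- Case A: a normal subgroup of prime order containing all subgroups of that order. -/
theorem caseA {G : Type u} [Group G] [Finite G] [Group.IsSolvable G] (s : ℕ) (hs : s.Prime)
    (N : Subgroup G) [N.Normal] (hNc : Nat.card N = s)
    (hu : ∀ X : Subgroup G, Nat.card X = s → X = N)
    (IH : ∀ X Y : Subgroup (G ⧸ N), Nat.card X = Nat.card Y → ∃ g : G ⧸ N, MulAut.conj g • X = Y)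
    (H K : Subgroup G) (hHK : Nat.card H = Nat.card K) : ∃ g : G, MulAut.conj g • H = K := by
  haveI := Fact.mk hs
  have key : ∀ X : Subgroup G, s ∣ Nat.card X → N ≤ X := by
    intro X hX
    obtain ⟨x, hx⟩ := exists_prime_orderOf_dvd_card' s hX
    have : (Subgroup.zpowers x).map X.subtype = N := by
      apply hu
      rw [Subgroup.card_map_of_injective X.subtype_injective, Nat.card_zpowers, hx]
    rw [← this]
    exact Subgroup.map_subtype_le _
  by_cases hd : s ∣ Nat.card H
  · have hNH := key H hd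
    have hNK := key K (hHK ▸ hd)
    have c1 := card_map_mk_of_le N H hNH
    have c2 := card_map_mk_of_le N K hNK
    obtain ⟨g, hg⟩ := IH (H.map (QuotientGroup.mk' N)) (K.map (QuotientGroup.mk' N))
      (Nat.eq_of_mul_eq_mul_right Nat.card_pos (by rw [c1, c2, hHK]))
    exact lift_conj N H K hNH hNK g hg
  · have hc : (Nat.card H).Coprime s := ((Nat.Prime.coprime_iff_not_dvd hs).mpr hd).symm
    have hcH : H ⊓ N = ⊥ := disjoint_of_coprime_card (by rwa [hNc])
    have hcK : K ⊓ N = ⊥ := disjoint_of_coprime_card (by rwa [hNc, ← hHK])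
    have c1 := card_map_of_disjoint_ker (QuotientGroup.mk' N) H (by simpa using hcH)
    have c2 := card_map_of_disjoint_ker (QuotientGroup.mk' N) K (by simpa using hcK)
    obtain ⟨q, hq⟩ := IH _ _ (c1.trans (hHK.trans c2.symm))
    obtain ⟨g, rfl⟩ := QuotientGroup.mk_surjective q
    have h1 : (MulAut.conj g • H).map (QuotientGroup.mk' N) = K.map (QuotientGroup.mk' N) := by
      rw [map_conj_smul]; exact hq
    have h2 := mem_sup_of_map_eq N _ K h1.le
    obtain ⟨y, hy⟩ := final N ⊥ (MulAut.conj g • H) K bot_le bot_le bot_le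
      (by
        have : (Subgroup.normalizer ((⊥ : Subgroup G) : Set G)) = ⊤ :=
          Subgroup.normalizer_eq_top_iff.mpr inferInstance
        rw [this]; exact le_top)
      h2 (by rw [card_conj_smul]; exact hHK.symm) hcK s (Nat.card K) (by simp [hNc]) (by simp)
      ((by rwa [hHK] at hc : (Nat.card K).Coprime s).symm)
    refine ⟨y * g, ?_⟩
    rw [conj_mul_smul]; exact hy

theorem hall_of_big {G : Type u} [Group G] [Finite G] (r : ℕ) (hr : r.Prime) (N : Subgroup G)
    [hn : N.Normal] (hNb : N ≠ ⊥) (hNp : IsPGroup r N) (hNe : ∀ x ∈ N, x ^ r = 1)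
    (hNc : Nat.card N ≠ r) (hE : Er r G) : ∀ U : Subgroup G, IsPGroup r U → U ≤ N := by
  haveI := Fact.mk hr
  obtain ⟨k, hk⟩ := IsPGroup.iff_card.mp hNp
  have hk0 : k ≠ 0 := by
    rintro rfl
    apply hNb
    rw [← Subgroup.card_eq_one, hk, pow_zero]
  have hk1 : k ≠ 1 := by
    rintro rfl
    exact hNc (by rw [hk, pow_one])
  have hsub : ∀ (j : ℕ), j ≤ k → ∀ Y : Subgroup G, IsPGroup r Y → Nat.card Y = r ^ j → Y ≤ N := by
    intro j hj Y hY hYc
    have hdvd : r ^ j ∣ Nat.card N := by rw [hk]; exact pow_dvd_pow _ hj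
    obtain ⟨N₀, hN₀⟩ := Sylow.exists_subgroup_card_pow_prime r hdvd
    have c0 : Nat.card (N₀.map N.subtype) = r ^ j := by
      rw [Subgroup.card_map_of_injective N.subtype_injective, hN₀]
    have hp0 : IsPGroup r (N₀.map N.subtype) := IsPGroup.of_card c0
    obtain ⟨g, hg⟩ := hE _ Y hp0 hY (by rw [c0, hYc])
    rw [← hg]
    intro x hx
    rw [mem_conj_smul_iff] at hx
    have h1 : g⁻¹ * x * g ∈ N := Subgroup.map_subtype_le _ hx
    have := hn.conj_mem _ h1 g
    have h2 : g * (g⁻¹ * x * g) * g⁻¹ = x := by group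
    rwa [h2] at this
  have helt : ∀ x : G, (∃ e, orderOf x = r ^ e) → x ∈ N := by
    rintro x ⟨e, he⟩
    by_cases h2 : r ^ 2 ∣ orderOf x
    · exfalso
      have hx0 : orderOf x ≠ 0 := by rw [he]; exact pow_ne_zero _ hr.ne_zero
      have hy := orderOf_pow_orderOf_div hx0 h2
      set y := x ^ (orderOf x / r ^ 2) with hy'
      have hc : Nat.card (Subgroup.zpowers y) = r ^ 2 := by rw [Nat.card_zpowers, hy]
      have hle := hsub 2 (by omega) _ (IsPGroup.of_card hc) hc
      have hyN : y ∈ N := hle (Subgroup.mem_zpowers y)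
      have h3 := orderOf_dvd_of_pow_eq_one (hNe y hyN)
      rw [hy, pow_two] at h3
      have := Nat.le_of_dvd hr.pos h3
      nlinarith [hr.two_le]
    · have he1 : e ≤ 1 := by
        by_contra hgt
        apply h2
        rw [he]
        exact pow_dvd_pow _ (by omega)
      have hc : Nat.card (Subgroup.zpowers x) = r ^ e := by rw [Nat.card_zpowers, he]
      have hle := hsub e (by omega) _ (IsPGroup.of_card hc) hc
      exact hle (Subgroup.mem_zpowers x)
  intro U hU x hx
  apply helt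
  obtain ⟨e, he⟩ := (IsPGroup.iff_orderOf.mp hU) ⟨x, hx⟩
  exact ⟨e, by rw [← he]; exact (Subgroup.orderOf_mk x hx).symm⟩

theorem not_dvd_quot {G : Type u} [Group G] [Finite G] (r : ℕ) (hr : r.Prime) (N : Subgroup G)
    [N.Normal] (hNp : IsPGroup r N) (hall : ∀ U : Subgroup G, IsPGroup r U → U ≤ N)
    (T : Subgroup G) : ¬ r ∣ Nat.card (T ⧸ N.subgroupOf T) := by
  haveI := Fact.mk hr
  intro hd
  obtain ⟨q, hq⟩ := exists_prime_orderOf_dvd_card' r hd
  have hX : IsPGroup r (Subgroup.zpowers q) :=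
    IsPGroup.of_card (n := 1) (by rw [Nat.card_zpowers, hq, pow_one])
  have hkerp : IsPGroup r (QuotientGroup.mk' (N.subgroupOf T)).ker := by
    rw [QuotientGroup.ker_mk']
    have : (N.subgroupOf T) = N.comap T.subtype := rfl
    rw [this]
    exact hNp.comap_of_injective T.subtype T.subtype_injective
  have hC := hX.comap_of_ker_isPGroup (QuotientGroup.mk' (N.subgroupOf T)) hkerp
  have hC' := hC.map T.subtype
  have hle := hall _ hC'
  obtain ⟨y, rfl⟩ := QuotientGroup.mk_surjective q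
  have hyC : y ∈ (Subgroup.zpowers ((y : T ⧸ N.subgroupOf T))).comap (QuotientGroup.mk' (N.subgroupOf T)) :=
    Subgroup.mem_zpowers _
  have hyN : (y : G) ∈ N := hle ⟨y, hyC, rfl⟩
  have : (y : T ⧸ N.subgroupOf T) = 1 := (QuotientGroup.eq_one_iff y).mpr hyN
  rw [this, orderOf_one] at hq
  exact hr.one_lt.ne hq

/-- Case C: `N` is an abelian normal Hall `r`-subgroup. -/
theorem caseC {G : Type u} [Group G] [Finite G] [Group.IsSolvable G] (r : ℕ) (hr : r.Prime)
    (N : Subgroup G) [hn : N.Normal] (hNp : IsPGroup r N) (hNab : ∀ x ∈ N, ∀ y ∈ N, x * y = y * x)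
    (hall : ∀ U : Subgroup G, IsPGroup r U → U ≤ N) (hE : Er r G)
    (IH : ∀ T : Subgroup G, N ≤ T → ∀ X Y : Subgroup (T ⧸ N.subgroupOf T),
      Nat.card X = Nat.card Y → ∃ g : T ⧸ N.subgroupOf T, MulAut.conj g • X = Y)
    (H K : Subgroup G) (hHK : Nat.card H = Nat.card K) : ∃ g : G, MulAut.conj g • H = K := by
  haveI := Fact.mk hr
  -- decomposition of orders
  have hdec : ∀ X : Subgroup G, ∃ m a : ℕ, Nat.card X = m * r ^ a ∧
      Nat.card (X ⊓ N : Subgroup G) = r ^ a ∧ ¬ r ∣ m := by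
    intro X
    obtain ⟨a, ha⟩ := IsPGroup.iff_card.mp (hNp.to_le (inf_le_right : X ⊓ N ≤ N))
    refine ⟨Nat.card (X ⧸ N.subgroupOf X), a, ?_, ha, not_dvd_quot r hr N hNp hall X⟩
    rw [← ha, Subgroup.card_eq_card_quotient_mul_card_subgroup (N.subgroupOf X)]
    congr 1
    rw [← Subgroup.inf_subgroupOf_left N X, card_subgroupOf_of_le inf_le_left]
  have hnc : ∀ g x : G, g⁻¹ * x * g ∈ N ↔ x ∈ N := by
    intro g x
    constructor
    · intro h
      have := hn.conj_mem _ h g
      have h2 : g * (g⁻¹ * x * g) * g⁻¹ = x := by group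
      rwa [h2] at this
    · intro h
      simpa using hn.conj_mem x h g⁻¹
  have hinfc : ∀ (g : G) (X : Subgroup G),
      (MulAut.conj g • X) ⊓ N = MulAut.conj g • (X ⊓ N) := by
    intro g X
    ext x
    simp only [Subgroup.mem_inf, mem_conj_smul_iff, hnc]
  obtain ⟨m₁, a₁, h1, h1', h1''⟩ := hdec H
  obtain ⟨m₂, a₂, h2, h2', h2''⟩ := hdec K
  have haeq : r ^ a₁ = r ^ a₂ := by
    apply Nat.dvd_antisymm
    · have h3 : r ^ a₁ ∣ m₂ * r ^ a₂ := ⟨m₁, by rw [← h2, ← hHK, h1]; ring⟩
      exact (Nat.Coprime.pow_left _ ((Nat.Prime.coprime_iff_not_dvd hr).mpr h2'')).dvd_of_dvd_mul_left h3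
    · have h3 : r ^ a₂ ∣ m₁ * r ^ a₁ := ⟨m₂, by rw [← h1, hHK, h2]; ring⟩
      exact (Nat.Coprime.pow_left _ ((Nat.Prime.coprime_iff_not_dvd hr).mpr h1'')).dvd_of_dvd_mul_left h3
  have hinf : Nat.card (H ⊓ N : Subgroup G) = Nat.card (K ⊓ N : Subgroup G) := by
    rw [h1', h2', haeq]
  obtain ⟨g, hg⟩ := hE (H ⊓ N) (K ⊓ N) (hNp.to_le inf_le_right) (hNp.to_le inf_le_right) hinf
  have hBdef : ∃ B : Subgroup G, B = K ⊓ N := ⟨_, rfl⟩
  obtain ⟨B, hB⟩ := hBdef
  rw [← hB] at hg h2'
  have hH'def : ∃ H' : Subgroup G, H' = MulAut.conj g • H := ⟨_, rfl⟩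
  obtain ⟨H', hH'⟩ := hH'def
  have hH'N : H' ⊓ N = B := by rw [hH', hinfc, hg]
  have hH'c : Nat.card H' = Nat.card H := by rw [hH', card_conj_smul]
  have hBN : B ≤ N := by rw [hB]; exact inf_le_right
  have hBK : B ≤ K := by rw [hB]; exact inf_le_left
  have hBH' : B ≤ H' := by rw [← hH'N]; exact inf_le_left
  have hcomm : ∀ x ∈ N, ∀ y ∈ N, x * y * x⁻¹ = y := by
    intro x hx y hy
    rw [hNab x hx y hy]; group
  have hKT : K ≤ Subgroup.normalizer (B : Set G) := by
    rw [hB]; exact le_normalizer_inf K N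
  have hH'T : H' ≤ Subgroup.normalizer (B : Set G) := by
    rw [← hH'N]; exact le_normalizer_inf H' N
  have hNT : N ≤ Subgroup.normalizer (B : Set G) := by
    intro x hx
    rw [Subgroup.mem_normalizer_iff]
    intro y
    constructor
    · intro hy
      rw [hcomm x hx y (hBN hy)]; exact hy
    · intro hy
      have hyN : y ∈ N := by
        have h3 : x * y * x⁻¹ ∈ N := hBN hy
        have h4 := (hnc x⁻¹ y)
        rw [inv_inv] at h4
        exact h4.mp h3
      rwa [hcomm x hx y hyN] at hy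
  have hTdef : ∃ T : Subgroup G, T = Subgroup.normalizer (B : Set G) := ⟨_, rfl⟩
  obtain ⟨T, hT⟩ := hTdef
  rw [← hT] at hKT hH'T hNT
  have hBT : B ≤ T := hBK.trans hKT
  have hcm : ∀ X : Subgroup G, X ≤ T → X ⊓ N = B →
      Nat.card (((X.subgroupOf T).map (QuotientGroup.mk' (N.subgroupOf T)))) * Nat.card B
        = Nat.card X := by
    intro X hXT hXN
    have c1 := card_map_mul_card_inf_ker (QuotientGroup.mk' (N.subgroupOf T)) (X.subgroupOf T)
    rw [QuotientGroup.ker_mk'] at c1
    have c2 : X.subgroupOf T ⊓ N.subgroupOf T = B.subgroupOf T := by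
      rw [← hXN]
      ext x
      simp [Subgroup.mem_subgroupOf]
    rw [c2, card_subgroupOf_of_le hBT, card_subgroupOf_of_le hXT] at c1
    exact c1
  have c1 := hcm H' hH'T hH'N
  have c2 := hcm K hKT hB.symm
  obtain ⟨q, hq⟩ := IH T hNT ((H'.subgroupOf T).map (QuotientGroup.mk' (N.subgroupOf T)))
    ((K.subgroupOf T).map (QuotientGroup.mk' (N.subgroupOf T)))
    (Nat.eq_of_mul_eq_mul_right Nat.card_pos (by rw [c1, c2, hH'c, hHK]))
  obtain ⟨t, rfl⟩ := QuotientGroup.mk_surjective q
  have hH₁def : ∃ H₁ : Subgroup G, H₁ = MulAut.conj (t : G) • H' := ⟨_, rfl⟩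
  obtain ⟨H₁, hH₁⟩ := hH₁def
  have hconjB : MulAut.conj (t : G) • B = B := by
    ext x
    rw [mem_conj_smul_iff]
    have ht : (t : G)⁻¹ ∈ Subgroup.normalizer (B : Set G) := by
      rw [← hT]; exact T.inv_mem t.2
    have := (Subgroup.mem_normalizer_iff.mp ht) x
    rw [inv_inv] at this
    exact this.symm
  have hH₁N : H₁ ⊓ N = B := by rw [hH₁, hinfc, hH'N, hconjB]
  have hBH₁ : B ≤ H₁ := by rw [← hH₁N]; exact inf_le_left
  have hH₁c : Nat.card H₁ = Nat.card H := by rw [hH₁, card_conj_smul, hH'c]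
  have hH₁L : H₁ ≤ K ⊔ N := by
    intro x hx
    rw [hH₁, mem_conj_smul_iff] at hx
    have hxT : x ∈ T := by
      have h3 := T.mul_mem (T.mul_mem t.2 (hH'T hx)) (T.inv_mem t.2)
      have h4 : (t : G) * ((t : G)⁻¹ * x * t) * (t : G)⁻¹ = x := by group
      rwa [h4] at h3
    have hmem : (QuotientGroup.mk' (N.subgroupOf T) (⟨x, hxT⟩ : T)) ∈
        (K.subgroupOf T).map (QuotientGroup.mk' (N.subgroupOf T)) := by
      rw [← hq, mem_conj_smul_iff]
      refine ⟨t⁻¹ * ⟨x, hxT⟩ * t, ?_, ?_⟩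
      · exact Subgroup.mem_subgroupOf.mpr hx
      · simp
    obtain ⟨k, hk, hkx⟩ := hmem
    have h5 : k⁻¹ * (⟨x, hxT⟩ : T) ∈ N.subgroupOf T := QuotientGroup.eq.mp hkx
    rw [Subgroup.mem_subgroupOf] at h5
    have hk' : (k : G) ∈ K := Subgroup.mem_subgroupOf.mp hk
    have h6 := (K ⊔ N).mul_mem (Subgroup.mem_sup_left hk') (Subgroup.mem_sup_right h5)
    simpa using h6
  obtain ⟨c, hc⟩ := IsPGroup.iff_card.mp hNp
  have hac : a₂ ≤ c := by
    have h3 : r ^ a₂ ∣ r ^ c := by
      rw [← hc, ← h2']; exact Subgroup.card_dvd_of_le hBN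
    exact (Nat.pow_dvd_pow_iff_le_right hr.one_lt).mp h3
  obtain ⟨y, hy⟩ := final N B H₁ K hBN hBH₁ hBK
    (sup_le (by rw [← hT]; exact hKT) (by rw [← hT]; exact hNT)) hH₁L (by rw [hH₁c, hHK])
    (hB.symm) (r ^ (c - a₂)) m₂ (by rw [hc, h2', ← pow_add]; congr 1; omega)
    (by rw [h2, h2']) (Nat.Coprime.pow_left _ ((Nat.Prime.coprime_iff_not_dvd hr).mpr h2''))
  refine ⟨y * t * g, ?_⟩
  rw [conj_mul_smul, conj_mul_smul, ← hH', ← hH₁]
  exact hy

theorem core (n : ℕ) : ∀ (G : Type u) [Group G] [Finite G] [Group.IsSolvable G], Nat.card G = n →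
    ∀ r : ℕ, r.Prime → Cy r G → Er r G → ∀ H K : Subgroup G, Nat.card H = Nat.card K →
      ∃ g : G, MulAut.conj g • H = K := by
  induction n using Nat.strong_induction_on with
  | _ n ih =>
  intro G _ _ _ hn r hr hC hE H K hHK
  haveI := Fact.mk hr
  by_cases hG : Subsingleton G
  · refine ⟨1, ?_⟩
    have h1 : H = ⊥ := Subgroup.eq_bot_of_subsingleton H
    have h2 : K = ⊥ := Subgroup.eq_bot_of_subsingleton K
    rw [h1, h2, map_one, one_smul]
  haveI : Nontrivial G := not_subsingleton_iff_nontrivial.mp hG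
  obtain ⟨s, hs, N, hNn, hNb, hNp, hNe, hNab⟩ := exists_N G
  have hNc1 : 1 < Nat.card N := by
    have h0 : Nat.card N ≠ 0 := Nat.card_pos.ne'
    have h1 : Nat.card N ≠ 1 := fun h => hNb (Subgroup.card_eq_one.mp h)
    omega
  haveI := Fact.mk hs
  have hlt : ∀ T : Subgroup G, Nat.card (T ⧸ N.subgroupOf T) * Nat.card (N.subgroupOf T) = Nat.card T :=
    fun T => card_quotient_mul _
  have hA : Nat.card N = s → (∀ X : Subgroup G, Nat.card X = s → X = N) →
      ∃ g : G, MulAut.conj g • H = K := by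
    intro h1 h2
    refine caseA s hs N h1 h2 ?_ H K hHK
    intro X Y hXY
    have hlt' : Nat.card (G ⧸ N) < n := by
      have h3 := card_quotient_mul N
      have h4 : 0 < Nat.card (G ⧸ N) := Nat.card_pos
      rw [← hn, ← h3]
      nlinarith
    exact ih _ hlt' (G ⧸ N) rfl r hr
      (Cy_of_surjective (QuotientGroup.mk' N) (QuotientGroup.mk'_surjective N) hC)
      (Er_of_surjective (QuotientGroup.mk' N) (QuotientGroup.mk'_surjective N) hE) X Y hXY
  by_cases hsr : s = r
  · subst hsr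
    by_cases hc : Nat.card N = s
    · refine hA hc ?_
      intro X hX
      obtain ⟨g, hg⟩ := hE N X hNp (IsPGroup.of_card (n := 1) (by simpa using hX)) (hc.trans hX.symm)
      rw [← hg]
      ext x
      rw [mem_conj_smul_iff]
      constructor
      · intro h
        have h3 := hNn.conj_mem _ h g
        have h4 : g * (g⁻¹ * x * g) * g⁻¹ = x := by group
        rwa [h4] at h3
      · intro h
        simpa using hNn.conj_mem x h g⁻¹
    · have hall := hall_of_big s hs N hNb hNp hNe hc hE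
      refine caseC s hs N hNp hNab hall hE ?_ H K hHK
      intro T hNT X Y hXY
      have hnd := not_dvd_quot s hs N hNp hall T
      have hlt' : Nat.card (T ⧸ N.subgroupOf T) < n := by
        have h3 := card_quotient_mul (N.subgroupOf T)
        rw [card_subgroupOf_of_le hNT] at h3
        have h4 : 0 < Nat.card (T ⧸ N.subgroupOf T) := Nat.card_pos
        have h5 : Nat.card T ≤ Nat.card G := Subgroup.card_le_card_group T
        rw [← hn]
        nlinarith
      refine ih _ hlt' (T ⧸ N.subgroupOf T) rfl s hs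
        (Cy_of_surjective (QuotientGroup.mk' _) (QuotientGroup.mk'_surjective _)
          (Cy_of_subgroup T hC)) ?_ X Y hXY
      intro U V hU hV _
      have htriv : ∀ W : Subgroup (T ⧸ N.subgroupOf T), IsPGroup s W → W = ⊥ := by
        intro W hW
        rcases hW.card_eq_or_dvd with h | h
        · exact Subgroup.card_eq_one.mp h
        · exact absurd (h.trans (Subgroup.card_subgroup_dvd_card W)) hnd
      refine ⟨1, ?_⟩
      rw [htriv U hU, htriv V hV, map_one, one_smul]
  · obtain ⟨P, hP⟩ := hNp.exists_le_sylow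
    haveI := hC s hs hsr P
    haveI : IsCyclic N :=
      isCyclic_of_injective (Subgroup.inclusion hP) (Subgroup.inclusion_injective hP)
    have hcard : Nat.card N = s := by
      have h3 : Monoid.exponent N ∣ s :=
        Monoid.exponent_dvd_of_forall_pow_eq_one (fun x => Subtype.ext (hNe x x.2))
      rw [IsCyclic.exponent_eq_card] at h3
      rcases (Nat.dvd_prime hs).mp h3 with h | h
      · exact absurd h hNc1.ne'
      · exact h
    refine hA hcard ?_
    intro X hX
    have hXp : IsPGroup s X := IsPGroup.of_card (n := 1) (by simpa using hX)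
    obtain ⟨Q, hQ⟩ := hXp.exists_le_sylow
    haveI := hC s hs hsr Q
    have hNQ : N ≤ (Q : Subgroup G) := by
      have h1 : IsPGroup s ((Q : Subgroup G) ⊔ N : Subgroup G) :=
        IsPGroup.to_sup_of_normal_right Q.isPGroup' hNp
      have h2 := Q.is_maximal' h1 le_sup_left
      rw [← h2]
      exact le_sup_right
    have h3 : X.subgroupOf (Q : Subgroup G) = N.subgroupOf (Q : Subgroup G) :=
      Cfsg.Agent.Lib.FPF.UniqueOrderP.subgroup_eq_of_card_eq
        (by rw [card_subgroupOf_of_le hQ, card_subgroupOf_of_le hNQ, hX, hcard])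
    have h4 := Subgroup.subgroupOf_inj.mp h3
    rwa [inf_eq_left.mpr hQ, inf_eq_left.mpr hNQ] at h4

/-- Let G be a finite solvable group in which, for every prime p, any two p-subgroups of the same order are conjugate, and suppose the Sylow p-subgroups of G are cyclic for all primes p with at most one exception. Then any two subgroups of G of the same order are conjugate. -/
theorem result {G : Type*} [Group G] [Finite G]
    [Group.IsSolvable G] (hD : ∀ p : ℕ, p.Prime → ∀ H K : Subgroup G, IsPGroup p H → IsPGroup p K → Nat.card H = Nat.card K →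
      ∃ g : G, K = H.map (MulAut.conj g).toMonoidHom)
    (r : ℕ) (hcyc : ∀ p : ℕ, p.Prime → p ≠ r → ∀ P : Sylow p G, IsCyclic P) :
    ∀ H K : Subgroup G, Nat.card H = Nat.card K → ∃ g : G, K = H.map (MulAut.conj g).toMonoidHom := by
  intro H K hHK
  have hEr : ∀ p : ℕ, p.Prime → Er p G := by
    intro p hp H K h1 h2 h3
    obtain ⟨g, hg⟩ := hD p hp H K h1 h2 h3
    exact ⟨g, hg.symm⟩
  have hfin : ∃ g : G, MulAut.conj g • H = K := by
    by_cases hr : r.Prime
    · exact core _ G rfl r hr hcyc (hEr r hr) H K hHK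
    · refine core _ G rfl 2 Nat.prime_two ?_ (hEr 2 Nat.prime_two) H K hHK
      intro p hp _ P
      exact hcyc p hp (fun h => hr (h ▸ hp)) P
  obtain ⟨g, hg⟩ := hfin
  exact ⟨g, hg.symm⟩

end Cfsg.Agent.S4022
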