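import Mathlib
import Cfsg.Statements.S4004
import Cfsg.Agent.S3995
import Cfsg.Agent.S4003
import Cfsg.Agent.S4022
import Cfsg.Agent.Lib.FG7.EqualOrder
import Cfsg.Agent.Lib.Char.Burnside

set_option autoImplicit false
set_option linter.all false
open Cfsg

namespace Cfsg.Agent.S4004

open Subgroup Cfsg.Agent.S3995 Finset

section arith

lemma sum_two (F : ℕ → ℕ) {p q : ℕ} (hp : p.Prime) (hq : q.Prime) (hne : p ≠ q) :
    ∑ d ∈ (p * q).divisors, F d = F 1 + F p + F q + F (p * q) := by
  have h : ¬ q ∣ p := fun h => hne ((Nat.prime_dvd_prime_iff_eq hq hp).1 h).symm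
  rw [sum_mul_prime F p q hq h hp.ne_zero, hp.sum_divisors, hp.sum_divisors, one_mul]
  ring

lemma sum_three (F : ℕ → ℕ) {p q r : ℕ} (hp : p.Prime) (hq : q.Prime) (hr : r.Prime) (hpq : p ≠ q)
    (hpr : p ≠ r) (hqr : q ≠ r) :
    ∑ d ∈ (p * q * r).divisors, F d =
      F 1 + F p + F q + F (p * q) + F r + F (p * r) + F (q * r) + F (p * q * r) := by
  have h : ¬ r ∣ p * q := by
    intro h
    rcases (Nat.Prime.dvd_mul hr).1 h with h | h
    · exact hpr ((Nat.prime_dvd_prime_iff_eq hr hp).1 h).symm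
    · exact hqr ((Nat.prime_dvd_prime_iff_eq hr hq).1 h).symm
  rw [sum_mul_prime F (p * q) r hr h (mul_ne_zero hp.ne_zero hq.ne_zero), sum_two F hp hq hpq,
    sum_two (fun d => F (d * r)) hp hq hpq]
  simp only [one_mul]
  ring

lemma mul_ne_one_left {a b : ℕ} (h : a ≠ 1) : a * b ≠ 1 :=
  fun h1 => h (Nat.eq_one_of_mul_eq_one_right h1)

lemma lc {P x y z : ℤ} (hx : P ∣ x) (hy : P ∣ y) (a b : ℤ) (h : z = a * x + b * y) : P ∣ z :=
  h ▸ hx.linear_comb hy a b

end arith

section count

variable {G : Type*} [Group G] [Finite G]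

lemma fo_ne_one (hodd : Odd (Nat.card G)) {x : G} (hx : x ≠ 1) : fo G (orderOf x) ≠ 1 := by
  intro h
  have h2 := le_two_of_fo h
  have h3 : orderOf x ∣ 2 := orderOf_dvd_of_pow_eq_one h2
  have h4 : Odd (orderOf x) := hodd.of_dvd_nat (orderOf_dvd_natCard x)
  have h5 : orderOf x = 1 := by
    rcases (Nat.dvd_prime Nat.prime_two).1 h3 with h | h
    · exact h
    · rw [h] at h4
      exact absurd h4 (by decide)
  exact hx (orderOf_eq_one_iff.1 h5)

lemma fo_pos_of_dvd {p : ℕ} (hp : p.Prime) (hd : p ∣ Nat.card G) : 0 < fo G p := by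
  haveI := Fact.mk hp
  obtain ⟨x, hx⟩ := exists_prime_orderOf_dvd_card' p hd
  haveI : Nonempty {g : G // orderOf g = p} := ⟨⟨x, hx⟩⟩
  exact Nat.card_pos

lemma not_dvd_one' {p : ℕ} (hp : p.Prime) : ¬ (p : ℤ) ∣ 1 := by
  intro h
  have : p ∣ 1 := by exact_mod_cast h
  exact hp.one_lt.ne' (Nat.dvd_one.1 this)

lemma not_dvd_two' (hodd : Odd (Nat.card G)) {p : ℕ} (hp : p.Prime) (hd : p ∣ Nat.card G) :
    ¬ (p : ℤ) ∣ 2 := by
  intro h
  have h1 : p ∣ 2 := by exact_mod_cast h
  have h2 : p = 2 := (Nat.prime_dvd_prime_iff_eq hp Nat.prime_two).1 h1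
  rw [h2] at hd
  exact (Nat.not_even_iff_odd.2 hodd) (even_iff_two_dvd.2 hd)

lemma int_half {p : ℕ} (hp : p.Prime) (h2 : ¬ (p : ℤ) ∣ 2) {a : ℤ} (h : (p : ℤ) ∣ 2 * a) : (p : ℤ) ∣ a :=
  ((Nat.prime_iff_prime_int.1 hp).dvd_or_dvd h).resolve_left h2

lemma frob_one {p : ℕ} (hp : p.Prime) (hd : p ∣ Nat.card G) : (p : ℤ) ∣ 1 + (fo G p : ℤ) := by
  have h1 := frob (G := G) p hp.ne_zero hd
  rw [hp.sum_divisors, fo_one, add_comm] at h1
  exact_mod_cast h1

lemma mul_dvd_card {p q : ℕ} (hp : p.Prime) (hq : q.Prime) (hne : p ≠ q)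
    (hpd : p ∣ Nat.card G) (hqd : q ∣ Nat.card G) : p * q ∣ Nat.card G :=
  Nat.Coprime.mul_dvd_of_dvd_of_dvd ((Nat.coprime_primes hp hq).2 hne) hpd hqd

lemma frob_two {p q : ℕ} (hp : p.Prime) (hq : q.Prime) (hne : p ≠ q) (hd : p * q ∣ Nat.card G) :
    (p : ℤ) ∣ 1 + (fo G p : ℤ) + (fo G q : ℤ) + (fo G (p * q) : ℤ) := by
  have h1 := frob (G := G) (p * q) (mul_ne_zero hp.ne_zero hq.ne_zero) hd
  rw [sum_two _ hp hq hne, fo_one] at h1
  have h2 : p ∣ 1 + fo G p + fo G q + fo G (p * q) := (dvd_mul_right p q).trans h1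
  exact_mod_cast h2

lemma frob_two' {p q : ℕ} (hp : p.Prime) (hq : q.Prime) (hne : p ≠ q) (hd : p * q ∣ Nat.card G) :
    (q : ℤ) ∣ 1 + (fo G p : ℤ) + (fo G q : ℤ) + (fo G (p * q) : ℤ) := by
  have h1 := frob (G := G) (p * q) (mul_ne_zero hp.ne_zero hq.ne_zero) hd
  rw [sum_two _ hp hq hne, fo_one] at h1
  have h2 : q ∣ 1 + fo G p + fo G q + fo G (p * q) := (dvd_mul_left q p).trans h1
  exact_mod_cast h2

lemma frob_square {p : ℕ} (hp : p.Prime) (hd : p ^ 2 ∣ Nat.card G) :
    (p : ℤ) ∣ 1 + (fo G p : ℤ) + (fo G (p ^ 2) : ℤ) := by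
  have h1 := frob (G := G) (p ^ 2) (pow_ne_zero _ hp.ne_zero) hd
  rw [Nat.sum_divisors_prime_pow hp] at h1
  simp only [Finset.sum_range_succ, Finset.sum_range_zero, pow_zero, pow_one, zero_add] at h1
  rw [fo_one] at h1
  have h2 : p ∣ 1 + fo G p + fo G (p ^ 2) := (dvd_pow_self p (by norm_num)).trans h1
  exact_mod_cast h2

/-- third prime lemma: the count data. -/
lemma val3 {v w : ℕ} (hall : ∀ x : G, x ≠ 1 → fo G (orderOf x) = v ∨ fo G (orderOf x) = w) (m : ℕ)
    (hm : m ≠ 1) : fo G m = 0 ∨ fo G m = v ∨ fo G m = w := by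
  by_cases h : ∃ g : G, orderOf g = m
  · obtain ⟨g, rfl⟩ := h
    have h1 : g ≠ 1 := by
      rintro rfl
      exact hm orderOf_one
    exact Or.inr (hall g h1)
  · push_neg at h
    exact Or.inl (fo_eq_zero h)

lemma no_square (hodd : Odd (Nat.card G)) {r v w : ℕ} (hr : r.Prime)
    (hall : ∀ x : G, x ≠ 1 → fo G (orderOf x) = v ∨ fo G (orderOf x) = w) (hfr : fo G r = v)
    (hrd : r ∣ Nat.card G) (hr1 : (r : ℤ) ∣ (v : ℤ) + (w : ℤ)) (x : G) : orderOf x ≠ r ^ 2 := by
  intro hx
  have hd : r ^ 2 ∣ Nat.card G := by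
    rw [← hx]
    exact orderOf_dvd_natCard x
  have h1 := frob_square (G := G) hr hd
  have h2 := frob_one (G := G) hr hrd
  rw [hfr] at h1 h2
  have hx1 : x ≠ 1 := by
    rintro rfl
    rw [orderOf_one] at hx
    have := Nat.one_lt_pow (n := 2) (by norm_num) hr.one_lt
    omega
  have hnv : ¬ (r : ℤ) ∣ (v : ℤ) := fun h =>
    not_dvd_one' hr (lc h2 h 1 (-1) (by ring))
  have h3 := hall x hx1
  rw [hx] at h3
  rcases h3 with h3 | h3
  · rw [h3] at h1
    exact hnv (lc h1 h2 1 (-1) (by ring))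
  · rw [h3] at h1
    have h4 : (r : ℤ) ∣ (w : ℤ) := lc h1 h2 1 (-1) (by ring)
    exact hnv (lc hr1 h4 1 (-1) (by ring))

lemma pow_dvd_of_no_square {r v : ℕ} (hr : r.Prime) (hfr : fo G r = v)
    (hns : ∀ x : G, orderOf x ≠ r ^ 2) (k : ℕ) (hk : r ^ k ∣ Nat.card G) : r ^ k ∣ 1 + v := by
  cases k with
  | zero => simp
  | succ k =>
    have h1 := Cfsg.Agent.S3993.result (G := G) (r ^ (k + 1)) hk
    have h2 : Nat.card {g : G // g ^ (r ^ (k + 1)) = 1} = Nat.card {g : G // g ^ r = 1} := by
      apply Nat.card_congr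
      apply Equiv.subtypeEquivRight
      intro g
      constructor
      · intro hg
        obtain ⟨i, hi, hio⟩ := (Nat.dvd_prime_pow hr).1 (orderOf_dvd_of_pow_eq_one hg)
        have hi1 : i ≤ 1 := by
          by_contra hlt
          have h3 : r ^ 2 ∣ orderOf g := by
            rw [hio]
            exact pow_dvd_pow r (by omega)
          have h4 := orderOf_pow_orderOf_div (x := g) (n := r ^ 2)
            (by rw [hio]; exact pow_ne_zero _ hr.ne_zero) h3
          exact hns _ h4
        have h5 : orderOf g ∣ r := by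
          rw [hio]
          exact (pow_dvd_pow r hi1).trans (by simp)
        exact orderOf_dvd_iff_pow_eq_one.1 h5
      · intro hg
        rw [pow_succ', pow_mul, hg, one_pow]
    have h3 := card_pow_eq (G := G) r hr.ne_zero
    rw [hr.sum_divisors, fo_one, hfr, add_comm] at h3
    rw [h2, h3] at h1
    exact h1

lemma same_value (hodd : Odd (Nat.card G)) {p q v w : ℕ} (hp : p.Prime) (hq : q.Prime) (hne : p ≠ q)
    (hpd : p ∣ Nat.card G) (hqd : q ∣ Nat.card G) (hvw : v ≠ w)
    (hall : ∀ x : G, x ≠ 1 → fo G (orderOf x) = v ∨ fo G (orderOf x) = w)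
    (hfp : fo G p = v) (hfq : fo G q = v) : False := by
  have hval := val3 hall
  -- general pair facts
  have hpair : ∀ a b : ℕ, a.Prime → b.Prime → a ≠ b → a ∣ Nat.card G → b ∣ Nat.card G →
      fo G a = v → fo G b = v → fo G (a * b) = w ∧ (a : ℤ) ∣ (v : ℤ) + (w : ℤ) := by
    intro a b ha hb hab had hbd hfa hfb
    have h1 := frob_one (G := G) ha had
    have h2 := frob_two (G := G) ha hb hab (mul_dvd_card ha hb hab had hbd)
    rw [hfa, hfb] at h2
    rw [hfa] at h1
    have hnv : ¬ (a : ℤ) ∣ (v : ℤ) := fun h => not_dvd_one' ha (lc h1 h 1 (-1) (by ring))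
    rcases hval (a * b) (mul_ne_one_left ha.ne_one) with h3 | h3 | h3
    · exfalso
      rw [h3] at h2
      exact hnv (lc h2 h1 1 (-1) (by push_cast; ring))
    · exfalso
      rw [h3] at h2
      exact hnv (int_half ha (not_dvd_two' hodd ha had) (lc h2 h1 1 (-1) (by ring)))
    · refine ⟨h3, ?_⟩
      rw [h3] at h2
      exact lc h2 h1 1 (-1) (by ring)
  obtain ⟨hw, hpw⟩ := hpair p q hp hq hne hpd hqd hfp hfq
  obtain ⟨hw', hqw⟩ := hpair q p hq hp hne.symm hqd hpd hfq hfp
  -- third primes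
  have hthird : ∀ r : ℕ, r.Prime → r ∣ Nat.card G → r ≠ p → r ≠ q → fo G r ≠ w := by
    intro r hr hrd hrp hrq hfr
    have hgen : ∀ a : ℕ, a.Prime → a ≠ r → a ∣ Nat.card G → fo G a = v → (a : ℤ) ∣ (v : ℤ) + (w : ℤ) →
        fo G (a * r) = v ∧ (r : ℤ) ∣ (v : ℤ) := by
      intro a ha har had hfa hav
      have h1 := frob_one (G := G) ha had
      have hr1 := frob_one (G := G) hr hrd
      have h2 := frob_two (G := G) ha hr har (mul_dvd_card ha hr har had hrd)
      have h2' := frob_two' (G := G) ha hr har (mul_dvd_card ha hr har had hrd)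
      rw [hfa, hfr] at h2 h2'
      rw [hfa] at h1
      rw [hfr] at hr1
      have hnv : ¬ (a : ℤ) ∣ (v : ℤ) := fun h => not_dvd_one' ha (lc h1 h 1 (-1) (by ring))
      have hnw : ¬ (a : ℤ) ∣ (w : ℤ) := fun h => hnv (lc hav h 1 (-1) (by ring))
      have hf : fo G (a * r) = v := by
        rcases hval (a * r) (mul_ne_one_left ha.ne_one) with h3 | h3 | h3
        · exfalso
          rw [h3] at h2
          exact hnw (lc h2 h1 1 (-1) (by push_cast; ring))
        · exact h3
        · exfalso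
          rw [h3] at h2
          exact hnw (int_half ha (not_dvd_two' hodd ha had) (lc h2 h1 1 (-1) (by ring)))
      refine ⟨hf, ?_⟩
      rw [hf] at h2'
      exact int_half hr (not_dvd_two' hodd hr hrd) (lc h2' hr1 1 (-1) (by ring))
    obtain ⟨hpr, hrv⟩ := hgen p hp hrp.symm hpd hfp hpw
    obtain ⟨hqr, -⟩ := hgen q hq hrq.symm hqd hfq hqw
    have hdall : p * q * r ∣ Nat.card G := by
      apply Nat.Coprime.mul_dvd_of_dvd_of_dvd
      · apply Nat.Coprime.mul_left
        · exact (Nat.coprime_primes hp hr).2 hrp.symm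
        · exact (Nat.coprime_primes hq hr).2 hrq.symm
      · exact mul_dvd_card hp hq hne hpd hqd
      · exact hrd
    have h1 := frob (G := G) (p * q * r)
      (mul_ne_zero (mul_ne_zero hp.ne_zero hq.ne_zero) hr.ne_zero) hdall
    rw [sum_three _ hp hq hr hne hrp.symm hrq.symm, fo_one, hfp, hfq, hw, hfr, hpr, hqr] at h1
    have h1p : (p : ℤ) ∣ 1 + (v : ℤ) + v + w + w + v + v + (fo G (p * q * r) : ℤ) := by
      have : p ∣ 1 + v + v + w + w + v + v + fo G (p * q * r) :=
        ((dvd_mul_right p q).trans (dvd_mul_right (p * q) r)).trans h1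
      exact_mod_cast this
    have h1r : (r : ℤ) ∣ 1 + (v : ℤ) + v + w + w + v + v + (fo G (p * q * r) : ℤ) := by
      have : r ∣ 1 + v + v + w + w + v + v + fo G (p * q * r) := (dvd_mul_left r (p * q)).trans h1
      exact_mod_cast this
    have hp1 := frob_one (G := G) hp hpd
    rw [hfp] at hp1
    have hr1 := frob_one (G := G) hr hrd
    rw [hfr] at hr1
    have hF : (p : ℤ) ∣ (fo G (p * q * r) : ℤ) - 1 := by
      have h2 : (p : ℤ) ∣ 2 * (1 + (v : ℤ)) + 2 * ((v : ℤ) + w) :=
        dvd_add (dvd_mul_of_dvd_right hp1 _) (dvd_mul_of_dvd_right hpw _)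
      exact lc h1p h2 1 (-1) (by ring)
    have hnv : ¬ (p : ℤ) ∣ (v : ℤ) := fun h => not_dvd_one' hp (lc hp1 h 1 (-1) (by ring))
    rcases hval (p * q * r) (mul_ne_one_left (mul_ne_one_left hp.ne_one)) with h3 | h3 | h3
    · rw [h3] at hF
      exact not_dvd_one' hp (lc hF hF (-1) 0 (by simp))
    · rw [h3] at hF
      exact not_dvd_two' hodd hp hpd (lc hp1 hF 1 (-1) (by ring))
    · rw [h3] at h1r
      have : (r : ℤ) ∣ 2 := by
        have h4 : (r : ℤ) ∣ 4 * (v : ℤ) := dvd_mul_of_dvd_right hrv _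
        have h5 : (r : ℤ) ∣ 3 * (1 + (w : ℤ)) := dvd_mul_of_dvd_right hr1 _
        have h6 : (r : ℤ) ∣ 4 * (v : ℤ) + 3 * (1 + (w : ℤ)) := dvd_add h4 h5
        exact lc h6 h1r 1 (-1) (by ring)
      exact not_dvd_two' hodd hr hrd this
  -- all primes have value `v`
  have hallv : ∀ r : ℕ, r.Prime → r ∣ Nat.card G → r ^ 2 ∣ Nat.card G ∨ True → fo G r = v ∧
      (r : ℤ) ∣ (v : ℤ) + (w : ℤ) := by
    intro r hr hrd _
    by_cases hrp : r = p
    · subst hrp
      exact ⟨hfp, hpw⟩
    by_cases hrq : r = q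
    · subst hrq
      exact ⟨hfq, hqw⟩
    have hfr : fo G r = v := by
      haveI := Fact.mk hr
      obtain ⟨x, hx⟩ := exists_prime_orderOf_dvd_card' r hrd
      have hx1 : x ≠ 1 := by
        rintro rfl
        rw [orderOf_one] at hx
        exact hr.ne_one hx.symm
      have h1 := hall x hx1
      rw [hx] at h1
      exact h1.resolve_right (hthird r hr hrd hrp hrq)
    exact ⟨hfr, (hpair r p hr hp hrp hrd hpd hfr hfp).2⟩
  have hdvd : Nat.card G ∣ 1 + v := by
    rw [Nat.dvd_iff_prime_pow_dvd_dvd]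
    intro r k hr hk
    by_cases hk0 : k = 0
    · subst hk0
      simp
    have hrd : r ∣ Nat.card G := (dvd_pow_self r hk0).trans hk
    obtain ⟨hfr, hrw⟩ := hallv r hr hrd (Or.inr trivial)
    exact pow_dvd_of_no_square hr hfr (no_square hodd hr hall hfr hrd hrw) k hk
  have hle := Nat.le_of_dvd (by omega) hdvd
  have h5 : Nat.card {g : G // g ^ (p * q) = 1} ≤ Nat.card G := Finite.card_subtype_le _
  rw [card_pow_eq (G := G) (p * q) (mul_ne_zero hp.ne_zero hq.ne_zero), sum_two _ hp hq hne, fo_one,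
    hfp, hfq] at h5
  have h6 := fo_pos_of_dvd (G := G) hp hpd
  rw [hfp] at h6
  omega

/-- the conjugation action of a subgroup. -/
@[reducible] def conjAct (T : Subgroup G) : MulAction T G where
  smul g x := (g : G) * x * (g : G)⁻¹
  one_smul x := by
    show ((1 : T) : G) * x * ((1 : T) : G)⁻¹ = x
    simp
  mul_smul g h x := by
    show ((g * h : T) : G) * x * ((g * h : T) : G)⁻¹ = (g : G) * ((h : G) * x * (h : G)⁻¹) * (g : G)⁻¹
    simp [mul_assoc]

lemma dvd_fo_of_no_fixed {p : ℕ} [Fact p.Prime] (T : Subgroup G) (hT : IsPGroup p T) (m : ℕ)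
    (hfix : ∀ x : G, orderOf x = m → ∃ t ∈ T, t * x ≠ x * t) : p ∣ fo G m := by
  letI := conjAct T
  have h1 := Cfsg.Agent.S4003.dvd_of_no_fixed (p := p) (Q := T) hT (α := G) {x | orderOf x = m} ?_ ?_
  · have h2 : Nat.card {g : G // orderOf g = m} = ({x : G | orderOf x = m}).ncard :=
      Nat.card_coe_set_eq _
    rw [fo, h2]
    exact h1
  · intro g x hx
    show orderOf ((g : G) * x * (g : G)⁻¹) = m
    rw [← hx]
    have := MulEquiv.orderOf_eq (MulAut.conj (g : G)) x
    exact this
  · intro x hx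
    obtain ⟨t, ht, hne⟩ := hfix x hx
    refine ⟨⟨t, ht⟩, ?_⟩
    intro h
    have h1 : t * x * t⁻¹ = x := h
    apply hne
    calc t * x = t * x * t⁻¹ * t := by group
      _ = x * t := by rw [h1]

lemma no_pq_aux (hodd : Odd (Nat.card G)) {p q : ℕ} (hp : p.Prime) (hq : q.Prime) (hne : p ≠ q)
    (hpd : p ∣ Nat.card G) (hqd : q ∣ Nat.card G) (hf : fo G (p * q) = fo G q) : False := by
  haveI := Fact.mk hq
  have h1 := frob_one (G := G) hq hqd
  have h2 := frob_two' (G := G) hp hq hne (mul_dvd_card hp hq hne hpd hqd)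
  rw [hf] at h2
  have h3 : (q : ℤ) ∣ (fo G p : ℤ) - 1 := by
    have h4 : (q : ℤ) ∣ 2 * (1 + (fo G q : ℤ)) := dvd_mul_of_dvd_right h1 _
    exact lc h2 h4 1 (-1) (by ring)
  have hnq : ¬ q ∣ fo G p := by
    intro h
    have h5 : (q : ℤ) ∣ (fo G p : ℤ) := by exact_mod_cast h
    exact not_dvd_one' hq (lc h5 h3 1 (-1) (by ring))
  let Q : Sylow q G := default
  have hfix : ∃ x : G, orderOf x = p ∧ ∀ t ∈ (Q : Subgroup G), t * x = x * t := by
    by_contra hcon
    push_neg at hcon
    exact hnq (dvd_fo_of_no_fixed (Q : Subgroup G) Q.isPGroup' p hcon)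
  obtain ⟨x₀, hx₀, hx₀c⟩ := hfix
  -- every element of order `q` commutes with an element of order `p`
  have hex : ∀ y : {y : G // orderOf y = q}, ∃ x : G, orderOf x = p ∧ Commute x y.1 := by
    rintro ⟨y, hy⟩
    have hyp : IsPGroup q (zpowers y) := by
      apply IsPGroup.of_card (n := 1)
      rw [Nat.card_zpowers, hy, pow_one]
    obtain ⟨R, hR⟩ := hyp.exists_le_sylow
    obtain ⟨g, hg⟩ := MulAction.exists_smul_eq G Q R
    have hyR : y ∈ (R : Subgroup G) := hR (mem_zpowers y)
    rw [← hg, Sylow.coe_subgroup_smul] at hyR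
    obtain ⟨z, hz, hzy⟩ := Subgroup.mem_smul_pointwise_iff_exists _ _ _ |>.1 hyR
    have hzy' : g * z * g⁻¹ = y := hzy
    refine ⟨g * x₀ * g⁻¹, ?_, ?_⟩
    · rw [← hx₀]
      exact MulEquiv.orderOf_eq (MulAut.conj g) x₀
    · show g * x₀ * g⁻¹ * y = y * (g * x₀ * g⁻¹)
      rw [← hzy']
      have := hx₀c z hz
      calc g * x₀ * g⁻¹ * (g * z * g⁻¹) = g * (x₀ * z) * g⁻¹ := by group
        _ = g * (z * x₀) * g⁻¹ := by rw [this]
        _ = g * z * g⁻¹ * (g * x₀ * g⁻¹) := by group
  choose c hco hcc using hex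
  have hcop : p.Coprime q := (Nat.coprime_primes hp hq).2 hne
  have hxinv : ∀ y, c y ≠ (c y)⁻¹ := by
    intro y h
    have h1 : (c y) ^ 2 = 1 := by
      rw [pow_two]
      nth_rewrite 1 [h]
      simp
    have h2 := orderOf_dvd_of_pow_eq_one h1
    rw [hco y] at h2
    exact not_dvd_two' hodd hp hpd (by exact_mod_cast h2)
  -- the injection
  let f : {y : G // orderOf y = q} × Bool → {g : G // orderOf g = p * q} := fun a =>
    ⟨(if a.2 then c a.1 else (c a.1)⁻¹) * a.1.1, by
      rcases a with ⟨y, b⟩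
      cases b
      · simp only [Bool.false_eq_true, if_false]
        rw [((hcc y).inv_left).orderOf_mul_eq_mul_orderOf_of_coprime (by
          rw [orderOf_inv, hco y, y.2]; exact hcop), orderOf_inv, hco y, y.2]
      · simp only [if_true]
        rw [(hcc y).orderOf_mul_eq_mul_orderOf_of_coprime (by
          rw [hco y, y.2]; exact hcop), hco y, y.2]⟩
  have hinj : Function.Injective f := by
    have hpow : ∀ a : {y : G // orderOf y = q} × Bool, (f a).1 ^ p = a.1.1 ^ p := by
      rintro ⟨y, b⟩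
      have h1 : (c y) ^ p = 1 := by
        rw [← hco y]
        exact pow_orderOf_eq_one _
      cases b
      · show ((if false = true then c y else (c y)⁻¹) * y.1) ^ p = y.1 ^ p
        simp only [Bool.false_eq_true, if_false]
        rw [((hcc y).inv_left).mul_pow, inv_pow, h1]
        simp
      · show ((if true = true then c y else (c y)⁻¹) * y.1) ^ p = y.1 ^ p
        simp only [if_true]
        rw [(hcc y).mul_pow, h1, one_mul]
    obtain ⟨u, -, hu⟩ := Nat.exists_mul_mod_eq_one_of_coprime hcop hq.one_lt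
    have hrec : ∀ y : {y : G // orderOf y = q}, (y.1 ^ p) ^ u = y.1 := by
      intro y
      rw [← pow_mul, ← pow_mod_orderOf, y.2, hu, pow_one]
    rintro ⟨y, b⟩ ⟨y', b'⟩ h
    have h1 := hpow (y, b)
    have h2 := hpow (y', b')
    rw [h] at h1
    have h3 : y.1 ^ p = y'.1 ^ p := h1.symm.trans h2
    have h4 : y = y' := by
      apply Subtype.ext
      rw [← hrec y, h3, hrec y']
    subst h4
    have h5 : (if b then c y else (c y)⁻¹) * y.1 = (if b' then c y else (c y)⁻¹) * y.1 :=
      congrArg Subtype.val h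
    have h6 := mul_right_cancel h5
    have h7 : b = b' := by
      cases b <;> cases b' <;> simp at h6 ⊢
      · exact hxinv y h6.symm
      · exact hxinv y h6
    rw [h7]
  have hle := Nat.card_le_card_of_injective f hinj
  rw [Nat.card_prod, Nat.card_eq_fintype_card (α := Bool), Fintype.card_bool] at hle
  have h5 : Nat.card {y : G // orderOf y = q} * 2 ≤ fo G q := by
    rw [← hf]
    exact hle
  have h6 := fo_pos_of_dvd (G := G) hq hqd
  have h7 : Nat.card {y : G // orderOf y = q} = fo G q := rfl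
  omega

lemma no_pq (hodd : Odd (Nat.card G)) {p q : ℕ} (hp : p.Prime) (hq : q.Prime) (hne : p ≠ q)
    (hpd : p ∣ Nat.card G) (hqd : q ∣ Nat.card G)
    (hall : ∀ x : G, x ≠ 1 → fo G (orderOf x) = fo G p ∨ fo G (orderOf x) = fo G q) (x : G) :
    orderOf x ≠ p * q := by
  intro hx
  have hx1 : x ≠ 1 := by
    rintro rfl
    rw [orderOf_one] at hx
    exact mul_ne_one_left hp.ne_one hx.symm
  have h1 := hall x hx1
  rw [hx] at h1
  rcases h1 with h1 | h1
  · rw [mul_comm] at h1
    exact no_pq_aux hodd hq hp hne.symm hqd hpd h1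
  · exact no_pq_aux hodd hp hq hne hpd hqd h1

lemma no_sq (hodd : Odd (Nat.card G)) {p q : ℕ} (hp : p.Prime) (hq : q.Prime) (hne : p ≠ q)
    (hpd : p ∣ Nat.card G) (hqd : q ∣ Nat.card G)
    (hall : ∀ x : G, x ≠ 1 → fo G (orderOf x) = fo G p ∨ fo G (orderOf x) = fo G q)
    (hnopq : ∀ x : G, orderOf x ≠ p * q) (x : G) : orderOf x ≠ p ^ 2 := by
  intro hx
  haveI := Fact.mk hq
  have hd : p ^ 2 ∣ Nat.card G := by
    rw [← hx]
    exact orderOf_dvd_natCard x
  have h1 := frob_square (G := G) hp hd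
  have h2 := frob_one (G := G) hp hpd
  have hnv : ¬ (p : ℤ) ∣ (fo G p : ℤ) := fun h => not_dvd_one' hp (lc h2 h 1 (-1) (by ring))
  have hx1 : x ≠ 1 := by
    rintro rfl
    rw [orderOf_one] at hx
    have := Nat.one_lt_pow (n := 2) (by norm_num) hp.one_lt
    omega
  have hnq : ¬ (q : ℤ) ∣ (fo G q : ℤ) := fun h => not_dvd_one' hq (lc (frob_one (G := G) hq hqd) h 1 (-1) (by ring))
  have h3 := hall x hx1
  rw [hx] at h3
  rcases h3 with h3 | h3
  · rw [h3] at h1
    exact hnv (lc h1 h2 1 (-1) (by ring))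
  · -- `q` divides the count
    obtain ⟨y, hy⟩ := exists_prime_orderOf_dvd_card' q hqd
    have hT : IsPGroup q (zpowers y) := by
      apply IsPGroup.of_card (n := 1)
      rw [Nat.card_zpowers, hy, pow_one]
    have h4 : q ∣ fo G (p ^ 2) := by
      apply dvd_fo_of_no_fixed (zpowers y) hT
      intro z hz
      refine ⟨y, mem_zpowers y, ?_⟩
      intro hc
      have hc' : Commute (z ^ p) y := (Commute.pow_left hc.symm p)
      have h5 : orderOf (z ^ p) = p := by
        have := orderOf_pow_orderOf_div (x := z) (n := p)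
          (by rw [hz]; exact pow_ne_zero _ hp.ne_zero) (by rw [hz]; exact dvd_pow_self p (by norm_num))
        rw [hz] at this
        have h6 : p ^ 2 / p = p := by
          rw [pow_two]
          exact Nat.mul_div_cancel _ hp.pos
        rwa [h6] at this
      apply hnopq (z ^ p * y)
      rw [hc'.orderOf_mul_eq_mul_orderOf_of_coprime (by
        rw [h5, hy]; exact (Nat.coprime_primes hp hq).2 hne), h5, hy]
    rw [h3] at h4
    exact hnq (by exact_mod_cast h4)

lemma orders_of (hodd : Odd (Nat.card G)) {p q : ℕ} (hp : p.Prime) (hq : q.Prime) (hne : p ≠ q)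
    (hpd : p ∣ Nat.card G) (hqd : q ∣ Nat.card G)
    (hprimes : ∀ r : ℕ, r.Prime → r ∣ Nat.card G → r = p ∨ r = q)
    (hall : ∀ x : G, x ≠ 1 → fo G (orderOf x) = fo G p ∨ fo G (orderOf x) = fo G q) (x : G) :
    x = 1 ∨ orderOf x = p ∨ orderOf x = q := by
  have hnopq := no_pq hodd hp hq hne hpd hqd hall
  have hall' : ∀ x : G, x ≠ 1 → fo G (orderOf x) = fo G q ∨ fo G (orderOf x) = fo G p :=
    fun x hx => (hall x hx).symm
  have hnoqp : ∀ x : G, orderOf x ≠ q * p := by
    intro x
    rw [mul_comm]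
    exact hnopq x
  have hp2 := no_sq hodd hp hq hne hpd hqd hall hnopq
  have hq2 := no_sq hodd hq hp hne.symm hqd hpd hall' hnoqp
  set n := orderOf x with hn
  have hn0 : n ≠ 0 := (orderOf_pos x).ne'
  have hnd : n ∣ Nat.card G := orderOf_dvd_natCard x
  have hpp : ∀ a b : ℕ, a.Prime → b.Prime → (∀ x : G, orderOf x ≠ a ^ 2) →
      (∀ r : ℕ, r.Prime → r ∣ n → r = a ∨ r = b) → a ∣ n → ¬ b ∣ n → n = a := by
    intro a b ha hb ha2 hr han hbn
    have h1 : n = a ^ n.primeFactorsList.length := by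
      apply Nat.eq_prime_pow_of_unique_prime_dvd hn0
      intro d hd hdn
      rcases hr d hd hdn with h | h
      · exact h
      · subst h
        exact absurd hdn hbn
    set k := n.primeFactorsList.length
    have hk1 : k ≤ 1 := by
      by_contra hlt
      have h3 : a ^ 2 ∣ orderOf x := by
        rw [← hn, h1]
        exact pow_dvd_pow a (by omega)
      exact ha2 _ (orderOf_pow_orderOf_div (x := x) (n := a ^ 2) hn0 h3)
    have hk0 : k ≠ 0 := by
      intro h0
      rw [h0, pow_zero] at h1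
      rw [h1] at han
      exact ha.one_lt.ne' (Nat.dvd_one.1 han)
    have : k = 1 := by omega
    rw [h1, this, pow_one]
  have hr : ∀ r : ℕ, r.Prime → r ∣ n → r = p ∨ r = q := fun r h1 h2 => hprimes r h1 (h2.trans hnd)
  by_cases hpn : p ∣ n
  · by_cases hqn : q ∣ n
    · exfalso
      have h1 : p * q ∣ orderOf x :=
        Nat.Coprime.mul_dvd_of_dvd_of_dvd ((Nat.coprime_primes hp hq).2 hne) hpn hqn
      exact hnopq _ (orderOf_pow_orderOf_div (x := x) (n := p * q) hn0 h1)
    · exact Or.inr (Or.inl (hpp p q hp hq hp2 hr hpn hqn))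
  · by_cases hqn : q ∣ n
    · exact Or.inr (Or.inr (hpp q p hq hp hq2 (fun r h1 h2 => (hr r h1 h2).symm) hqn hpn))
    · left
      have h1 : n = 1 := by
        rw [Nat.eq_one_iff_not_exists_prime_dvd]
        intro r hrp hrn
        rcases hr r hrp hrn with h | h
        · subst h
          exact hpn hrn
        · subst h
          exact hqn hrn
      exact orderOf_eq_one_iff.1 h1

end count

section norm

variable {V' G : Type*} [CommGroup V'] [Group G]

lemma norm_eq (ι : V' →* G) (φ : G →* MulAut V') (hφ : ∀ g v, ι (φ g v) = g * ι v * g⁻¹)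
    (g : G) (v : V') (n : ℕ) :
    (ι v * g) ^ n = ι (∏ l ∈ Finset.range n, φ (g ^ l) v) * g ^ n := by
  induction n with
  | zero => simp
  | succ n ih =>
    have h1 : ∏ l ∈ Finset.range n, φ (g ^ (l + 1)) v = φ g (∏ l ∈ Finset.range n, φ (g ^ l) v) := by
      rw [map_prod]
      apply Finset.prod_congr rfl
      intro l _
      rw [pow_succ', map_mul]
      rfl
    have h2 : ∏ l ∈ Finset.range (n + 1), φ (g ^ l) v = v * φ g (∏ l ∈ Finset.range n, φ (g ^ l) v) := by
      rw [Finset.prod_range_succ', h1, mul_comm]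
      simp
    rw [pow_succ', ih, h2, map_mul, hφ, pow_succ']
    group

lemma norm_one (ι : V' →* G) (hι : Function.Injective ι) (φ : G →* MulAut V')
    (hφ : ∀ g v, ι (φ g v) = g * ι v * g⁻¹) {g : G} {v : V'} {n : ℕ} (h1 : (ι v * g) ^ n = 1)
    (h2 : g ^ n = 1) : ∏ l ∈ Finset.range n, φ (g ^ l) v = 1 := by
  have h3 := norm_eq ι φ hφ g v n
  rw [h1, h2, mul_one] at h3
  apply hι
  rw [← h3, map_one]

lemma nQ_core (φ : G →* MulAut V') {p q : ℕ} (hq : q.Prime) (hpos : 0 < p) (τ y : G) (c : ℕ → ℕ)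
    (hc0 : c 0 = 0) (hy : y ^ q = 1) (hcop : ∀ l, 1 ≤ l → l < p → (c l).Coprime q)
    (hg : ∀ j l, (τ * y ^ j) ^ l = τ ^ l * y ^ (j * c l))
    (hnormg : ∀ j v, ∏ l ∈ Finset.range p, φ ((τ * y ^ j) ^ l) v = 1)
    (hnormy : ∀ v, ∏ i ∈ Finset.range q, φ (y ^ i) v = 1) (v : V') : v ^ q = 1 := by
  have h0 : ∏ j ∈ Finset.range q, ∏ l ∈ Finset.range p, φ ((τ * y ^ j) ^ l) v = 1 :=
    Finset.prod_eq_one (fun j _ => hnormg j v)
  rw [Finset.prod_comm] at h0
  have h1 : ∀ l, ∏ j ∈ Finset.range q, φ ((τ * y ^ j) ^ l) v =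
      φ (τ ^ l) (∏ j ∈ Finset.range q, φ (y ^ (j * c l)) v) := by
    intro l
    rw [map_prod]
    apply Finset.prod_congr rfl
    intro j _
    rw [hg, map_mul]
    rfl
  simp only [h1] at h0
  obtain ⟨p', rfl⟩ : ∃ p', p = p' + 1 := ⟨p - 1, by omega⟩
  rw [Finset.prod_range_succ'] at h0
  have h2 : ∏ k ∈ Finset.range p', φ (τ ^ (k + 1)) (∏ j ∈ Finset.range q, φ (y ^ (j * c (k + 1))) v) = 1 := by
    apply Finset.prod_eq_one
    intro k hk
    have hk' := Finset.mem_range.1 hk
    have h3 := Cfsg.Agent.Lib.FG7.EqualOrder.prod_reindex (M := V') hq.pos (hcop (k + 1) (by omega) (by omega))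
      (fun n => φ (y ^ n) v) (by
        intro n
        have h4 : y ^ n = y ^ (n % q) := by
          conv_lhs => rw [← Nat.div_add_mod n q, pow_add, pow_mul, hy, one_pow, one_mul]
        show φ (y ^ n) v = φ (y ^ (n % q)) v
        rw [h4])
    rw [h3, hnormy, map_one]
  rw [h2, one_mul] at h0
  rw [hc0] at h0
  simpa using h0

end norm

section pow

variable {G : Type*} [Group G]

/-- the exponent sequence. -/
def cc (k : ℕ) : ℕ → ℕ
  | 0 => 0
  | l + 1 => cc k l * k + 1

lemma pow_formula {τ y : G} {k : ℕ} (h : y * τ = τ * y ^ k) (j l : ℕ) :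
    (τ * y ^ j) ^ l = τ ^ l * y ^ (j * cc k l) := by
  have aux : ∀ a : ℕ, y ^ a * τ = τ * y ^ (a * k) := by
    intro a
    induction a with
    | zero => simp
    | succ a ih =>
      calc y ^ (a + 1) * τ = y ^ a * (y * τ) := by rw [pow_succ]; group
        _ = (y ^ a * τ) * y ^ k := by rw [h]; group
        _ = τ * y ^ ((a + 1) * k) := by
          rw [ih, add_mul, one_mul, pow_add]; group
  induction l with
  | zero => simp [cc]
  | succ l ih =>
    rw [pow_succ, ih]
    calc τ ^ l * y ^ (j * cc k l) * (τ * y ^ j)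
        = τ ^ l * (y ^ (j * cc k l) * τ) * y ^ j := by group
      _ = τ ^ l * (τ * y ^ (j * cc k l * k)) * y ^ j := by rw [aux]
      _ = τ ^ (l + 1) * y ^ (j * cc k (l + 1)) := by
        have : j * cc k (l + 1) = j * cc k l * k + j := by
          show j * (cc k l * k + 1) = _
          ring
        rw [this, pow_add y, pow_succ τ l]
        group

end pow

section final

variable {G : Type*} [Group G] [Finite G]

lemma coset_pow {p q : ℕ} (hp : p.Prime) (hq : q.Prime) (hne : p ≠ q)
    (hord : ∀ x : G, x = 1 ∨ orderOf x = p ∨ orderOf x = q)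
    (V : Subgroup G) [hV : V.Normal] (hVe : ∀ v ∈ V, v ^ p = 1) {g : G} {r : ℕ}
    (hr : r = p ∨ r = q) (hg1 : g ≠ 1) (hgr : g ^ r = 1) {v : G} (hv : v ∈ V) : (v * g) ^ r = 1 := by
  have hcop : p.Coprime q := (Nat.coprime_primes hp hq).2 hne
  have hπ : ((v * g : G) : G ⧸ V) = (g : G ⧸ V) := by
    rw [QuotientGroup.mk_mul, (QuotientGroup.eq_one_iff v).mpr hv, one_mul]
  have hmem : ∀ s t : ℕ, s.Coprime t → (v * g) ^ s = 1 → g ^ t = 1 → g ∈ V := by
    intro s t hst h1 h2
    have h3 : (g : G ⧸ V) ^ s = 1 := by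
      rw [← hπ, ← QuotientGroup.mk_pow, h1]
      rfl
    have h4 : (g : G ⧸ V) ^ t = 1 := by
      rw [← QuotientGroup.mk_pow, h2]
      rfl
    have h5 : (g : G ⧸ V) ^ (Nat.gcd s t) = 1 := pow_gcd_eq_one.2 ⟨h3, h4⟩
    rw [hst.gcd_eq_one, pow_one] at h5
    exact (QuotientGroup.eq_one_iff g).mp h5
  rcases hr with rfl | rfl
  · rcases hord (v * g) with h | h | h
    · rw [h, one_pow]
    · rw [← h]
      exact pow_orderOf_eq_one _
    · have h1 : (v * g) ^ q = 1 := by
        rw [← h]
        exact pow_orderOf_eq_one _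
      have h2 := hmem q r hcop.symm h1 hgr
      exact hVe _ (V.mul_mem hv h2)
  · rcases hord (v * g) with h | h | h
    · rw [h, one_pow]
    · have h1 : (v * g) ^ p = 1 := by
        rw [← h]
        exact pow_orderOf_eq_one _
      have h2 := hmem p r hcop h1 hgr
      exfalso
      have h3 := hVe g h2
      have h4 : g ^ (Nat.gcd p r) = 1 := pow_gcd_eq_one.2 ⟨h3, hgr⟩
      rw [hcop.gcd_eq_one, pow_one] at h4
      exact hg1 h4
    · rw [← h]
      exact pow_orderOf_eq_one _

/-- the commutative group structure on an abelian subgroup. -/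
@[reducible] def commV (V : Subgroup G) (hVc : ∀ x ∈ V, ∀ y ∈ V, x * y = y * x) : CommGroup V :=
  { (inferInstance : Group V) with
    mul_comm := fun a b => Subtype.ext (hVc a a.2 b b.2) }

lemma not_card_sq {p q : ℕ} (hp : p.Prime) (hq : q.Prime) (hne : p ≠ q)
    (hord : ∀ x : G, x = 1 ∨ orderOf x = p ∨ orderOf x = q)
    (V : Subgroup G) [hV : V.Normal] (hVb : V ≠ ⊥) (hVe : ∀ v ∈ V, v ^ p = 1)
    (hVc : ∀ x ∈ V, ∀ y ∈ V, x * y = y * x) : ¬ q ^ 2 ∣ Nat.card G := by
  intro hsq
  haveI := Fact.mk hq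
  have hcop : p.Coprime q := (Nat.coprime_primes hp hq).2 hne
  obtain ⟨K, hK⟩ := Sylow.exists_subgroup_card_pow_prime (G := G) q (n := 2) hsq
  have hKc := IsPGroup.isMulCommutative_of_card_eq_prime_sq (G := K) (p := q) hK
  have hKp : IsPGroup q K := IsPGroup.of_card hK
  have hKord : ∀ x ∈ K, x ^ q = 1 := by
    intro x hx
    rcases hord x with h | h | h
    · rw [h, one_pow]
    · have h1 : orderOf x ∣ q ^ 2 := by
        have := Subgroup.orderOf_dvd_natCard K hx
        rwa [hK] at this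
      rw [h] at h1
      have h2 := hp.dvd_of_dvd_pow h1
      exact absurd ((Nat.prime_dvd_prime_iff_eq hp hq).1 h2) hne
    · rw [← h]
      exact pow_orderOf_eq_one _
  have hne1 : ∃ x ∈ K, x ≠ 1 := by
    by_contra hcon
    push_neg at hcon
    have : K = ⊥ := (Subgroup.eq_bot_iff_forall K).mpr hcon
    rw [this] at hK
    simp at hK
    exact hq.ne_one (Nat.pow_eq_one.1 hK.symm |>.resolve_right (by norm_num))
  obtain ⟨x, hxK, hx1⟩ := hne1
  have hxo : orderOf x = q := orderOf_eq_prime (hKord x hxK) hx1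
  have hne2 : ∃ y ∈ K, y ∉ Subgroup.zpowers x := by
    by_contra hcon
    push_neg at hcon
    have h1 : Nat.card K ≤ Nat.card (Subgroup.zpowers x) := Subgroup.card_le_of_le hcon
    rw [hK, Nat.card_zpowers, hxo] at h1
    have h2 := pow_two q
    nlinarith [hq.two_le]
  obtain ⟨y, hyK, hyx⟩ := hne2
  have hxy : x * y = y * x :=
    congrArg Subtype.val (hKc.is_comm.comm (⟨x, hxK⟩ : K) ⟨y, hyK⟩)
  have hy3 := hKord y hyK
  have hyne : y ≠ 1 := by
    rintro rfl
    exact hyx (Subgroup.one_mem _)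
  have hyo : orderOf y = q := orderOf_eq_prime hy3 hyne
  have hVc' : ∀ a b : V, a * b = b * a := fun a b => Subtype.ext (hVc a a.2 b b.2)
  -- elements of order `q` act fixed point freely
  have hfix : ∀ g : G, orderOf g = q → ∀ v : V, (MulAut.conjNormal g : MulAut V) v = v → v = 1 := by
    intro g hg v hv
    have h1 : g * v * g⁻¹ = v := congrArg Subtype.val hv
    have hc : Commute (v : G) g := by
      show (v : G) * g = g * v
      calc (v : G) * g = (g * v * g⁻¹) * g := by rw [h1]
        _ = g * v := by group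
    by_contra hne1
    haveI := Fact.mk hp
    have hv1 : (v : G) ≠ 1 := fun h => hne1 (Subtype.ext h)
    have hvo : orderOf (v : G) = p := orderOf_eq_prime (hVe v v.2) hv1
    have ho := hc.orderOf_mul_eq_mul_orderOf_of_coprime (by rw [hvo, hg]; exact hcop)
    rw [hvo, hg] at ho
    have hpq1 : p * q ≠ 1 := mul_ne_one_left hp.ne_one
    rcases hord ((v : G) * g) with h | h | h
    · rw [h, orderOf_one] at ho
      exact hpq1 ho.symm
    · rw [h] at ho
      have : p * 1 = p * q := by rw [mul_one]; exact ho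
      exact hq.ne_one (Nat.eq_of_mul_eq_mul_left hp.pos this).symm
    · rw [h] at ho
      have : 1 * q = p * q := by rw [one_mul]; exact ho
      exact hp.ne_one (Nat.eq_of_mul_eq_mul_right hq.pos this).symm
  have hpow : ∀ i : ℕ, x * y ^ i ≠ 1 := by
    intro i hi
    have h1 : y ^ i = x⁻¹ := eq_inv_of_mul_eq_one_right hi
    have h2 : x ∈ zpowers y := by
      have : x = (y ^ i)⁻¹ := by rw [h1, inv_inv]
      rw [this]
      exact Subgroup.inv_mem _ (Subgroup.pow_mem _ (mem_zpowers y) i)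
    have h3 : zpowers x = zpowers y := by
      apply Subgroup.eq_of_le_of_card_ge
      · rwa [zpowers_le]
      · rw [Nat.card_zpowers, Nat.card_zpowers, hxo, hyo]
    apply hyx
    rw [h3]
    exact mem_zpowers y
  have hall : ∀ v : V, v ^ q = 1 := by
    intro v
    have hcomm' : (MulAut.conjNormal x : MulAut V) * MulAut.conjNormal y =
        MulAut.conjNormal y * MulAut.conjNormal x := by
      rw [← map_mul, ← map_mul, hxy]
    refine Cfsg.Agent.Lib.FG7.EqualOrder.no_fpf_pair hVc' hq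
      (MulAut.conjNormal x) (MulAut.conjNormal y) hcomm'
      (by rw [← map_pow, hKord x hxK, map_one]) (by rw [← map_pow, hy3, map_one]) ?_ ?_ v
    · intro i w hw
      rw [← map_pow, ← map_mul] at hw
      refine hfix (x * y ^ i) ?_ w hw
      have hc : Commute x (y ^ i) := Commute.pow_right hxy i
      have hpw : (x * y ^ i) ^ q = 1 := by
        rw [hc.mul_pow, hKord x hxK, ← pow_mul, mul_comm, pow_mul, hy3, one_pow, one_mul]
      exact orderOf_eq_prime hpw (hpow i)
    · intro w hw
      exact hfix y hyo w hw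
  apply hVb
  rw [Subgroup.eq_bot_iff_forall]
  intro v hv
  have h1 : v ^ q = 1 := by
    have := hall ⟨v, hv⟩
    exact congrArg Subtype.val this
  have h2 : v ^ (Nat.gcd p q) = 1 := pow_gcd_eq_one.2 ⟨hVe v hv, h1⟩
  rwa [hcop.gcd_eq_one, pow_one] at h2

lemma final_frob {p q : ℕ} (hp : p.Prime) (hq : q.Prime) (hne : p ≠ q)
    (hord : ∀ x : G, x = 1 ∨ orderOf x = p ∨ orderOf x = q) (hqd : q ∣ Nat.card G)
    (V : Subgroup G) [hV : V.Normal] (hVb : V ≠ ⊥) (hVe : ∀ v ∈ V, v ^ p = 1)
    (hVc : ∀ x ∈ V, ∀ y ∈ V, x * y = y * x) :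
    ∃ C : Subgroup G, Cfsg.IsFrobeniusComplement C ∧ (Nat.card C).Prime := by
  haveI := Fact.mk hq
  have hcop : p.Coprime q := (Nat.coprime_primes hp hq).2 hne
  have hsq := not_card_sq hp hq hne hord V hVb hVe hVc
  let Q : Sylow q G := default
  have hQb : (Q : Subgroup G) ≠ ⊥ := Q.ne_bot_of_dvd_card hqd
  have hQcard : Nat.card (Q : Subgroup G) = q := by
    obtain ⟨k, hk⟩ := (IsPGroup.iff_card).1 Q.isPGroup'
    have h1 : k ≠ 0 := by
      rintro rfl
      rw [pow_zero] at hk
      exact hQb (Subgroup.card_eq_one.1 hk)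
    have h2 : k < 2 := by
      by_contra hlt
      apply hsq
      have h3 : q ^ 2 ∣ q ^ k := pow_dvd_pow q (by omega)
      rw [← hk] at h3
      exact h3.trans (Subgroup.card_subgroup_dvd_card _)
    have h3 : k = 1 := by omega
    rw [hk, h3, pow_one]
  have hne1 : ∃ x ∈ (Q : Subgroup G), x ≠ 1 := by
    by_contra hcon
    push_neg at hcon
    exact hQb ((Subgroup.eq_bot_iff_forall _).2 hcon)
  obtain ⟨y, hyQ, hy1⟩ := hne1
  have hordQ : ∀ z ∈ (Q : Subgroup G), z ≠ 1 → orderOf z = q := by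
    intro z hz hz1
    have h1 := Subgroup.orderOf_dvd_natCard (Q : Subgroup G) hz
    rw [hQcard] at h1
    exact orderOf_eq_prime (orderOf_dvd_iff_pow_eq_one.1 h1) hz1
  have hzp : ∀ z ∈ (Q : Subgroup G), z ≠ 1 → (Q : Subgroup G) = zpowers z := by
    intro z hz hz1
    symm
    apply Subgroup.eq_of_le_of_card_ge
    · rwa [zpowers_le]
    · rw [Nat.card_zpowers, hordQ z hz hz1, hQcard]
  have hyo := hordQ y hyQ hy1
  have hy : y ^ q = 1 := by
    rw [← hyo]
    exact pow_orderOf_eq_one _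
  -- elements of the normalizer outside `Q` have order `p`
  have hN : ∀ t ∈ Subgroup.normalizer ((Q : Subgroup G) : Set G), t ∉ (Q : Subgroup G) → t ≠ 1 ∧ t ^ p = 1 := by
    intro t htN htQ
    have ht1 : t ≠ 1 := by
      rintro rfl
      exact htQ (Subgroup.one_mem _)
    refine ⟨ht1, ?_⟩
    rcases hord t with h | h | h
    · exact absurd h ht1
    · rw [← h]
      exact pow_orderOf_eq_one _
    · exfalso
      have hT : IsPGroup q (zpowers t) := by
        apply IsPGroup.of_card (n := 1)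
        rw [Nat.card_zpowers, h, pow_one]
      have hle : zpowers t ≤ Subgroup.normalizer ((Q : Subgroup G) : Set G) := by
        rwa [zpowers_le]
      have hsup := IsPGroup.to_sup_of_normal_right' hT Q.isPGroup' hle
      have hmax := Q.is_maximal' hsup (le_sup_right)
      apply htQ
      rw [← hmax]
      exact (le_sup_left : zpowers t ≤ zpowers t ⊔ (Q : Subgroup G)) (mem_zpowers t)
  have hNQ : Subgroup.normalizer ((Q : Subgroup G) : Set G) ≤ Q := by
    intro τ hτN
    by_contra hτQ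
    obtain ⟨hτ1, hτp⟩ := hN τ hτN hτQ
    letI : CommGroup V := commV V hVc
    let φ : G →* MulAut V := MulAut.conjNormal
    let ι : V →* G := V.subtype
    have hι : Function.Injective ι := V.subtype_injective
    have hφ : ∀ g v, ι (φ g v) = g * ι v * g⁻¹ := fun g v => MulAut.conjNormal_apply g v
    -- the exponent `k`
    have hk : ∃ k : ℕ, y ^ k = τ⁻¹ * y * τ := by
      have h1 : τ⁻¹ * y * τ ∈ (Q : Subgroup G) := by
        have h2 := (Subgroup.mem_normalizer_iff.1 (Subgroup.inv_mem _ hτN)) y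
        have h3 := h2.1 hyQ
        simpa using h3
      rw [hzp y hyQ hy1] at h1
      exact mem_powers_iff_mem_zpowers.2 h1
    obtain ⟨k, hk⟩ := hk
    have hyτ : y * τ = τ * y ^ k := by
      rw [hk]
      group
    have hg := pow_formula hyτ
    have hyN : y ∈ Subgroup.normalizer ((Q : Subgroup G) : Set G) := Subgroup.le_normalizer hyQ
    have hgj : ∀ j : ℕ, τ * y ^ j ≠ 1 ∧ (τ * y ^ j) ^ p = 1 := by
      intro j
      apply hN
      · exact Subgroup.mul_mem _ hτN (Subgroup.pow_mem _ hyN j)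
      · intro h
        apply hτQ
        have h2 : τ = (τ * y ^ j) * (y ^ j)⁻¹ := by group
        rw [h2]
        exact Subgroup.mul_mem _ h (Subgroup.inv_mem _ (Subgroup.pow_mem _ hyQ j))
    have hcop2 : ∀ l, 1 ≤ l → l < p → (cc k l).Coprime q := by
      intro l hl1 hlp
      rw [Nat.coprime_comm, Nat.Prime.coprime_iff_not_dvd hq]
      intro hd
      have hpow1 : (τ * y ^ 1) ^ l = τ ^ l := by
        rw [hg, one_mul, orderOf_dvd_iff_pow_eq_one.1 (by rwa [hyo] : orderOf y ∣ cc k l), mul_one]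
      have hlc : l.Coprime p := by
        rw [Nat.coprime_comm, Nat.Prime.coprime_iff_not_dvd hp]
        intro h
        exact absurd (Nat.le_of_dvd (by omega) h) (by omega)
      obtain ⟨u, -, hu⟩ := Nat.exists_mul_mod_eq_one_of_coprime hlc hp.one_lt
      haveI := Fact.mk hp
      have ho1 : orderOf (τ * y ^ 1) = p := orderOf_eq_prime (hgj 1).2 (hgj 1).1
      have ho2 : orderOf τ = p := orderOf_eq_prime hτp hτ1
      have h1 : (τ * y ^ 1) = τ := by
        calc τ * y ^ 1 = (τ * y ^ 1) ^ (l * u % p) := by rw [hu]; exact (pow_one _).symm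
          _ = (τ * y ^ 1) ^ (l * u) := by
            conv_lhs => rw [← ho1]
            exact pow_mod_orderOf _ _
          _ = (τ ^ l) ^ u := by rw [pow_mul, hpow1]
          _ = τ ^ (l * u % p) := by
            rw [← pow_mul]
            conv_rhs => rw [← ho2]
            exact (pow_mod_orderOf _ _).symm
          _ = τ := by rw [hu, pow_one]
      have h2 : y ^ 1 = 1 := by
        have := mul_left_cancel (a := τ) (b := y ^ 1) (c := 1) (by rw [h1, mul_one])
        exact this
      rw [pow_one] at h2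
      exact hy1 h2
    have hnormg : ∀ j v, ∏ l ∈ Finset.range p, φ ((τ * y ^ j) ^ l) v = 1 := by
      intro j v
      apply norm_one ι hι φ hφ _ (hgj j).2
      exact coset_pow hp hq hne hord V hVe (Or.inl rfl) (hgj j).1 (hgj j).2 v.2
    have hnormy : ∀ v, ∏ i ∈ Finset.range q, φ (y ^ i) v = 1 := by
      intro v
      apply norm_one ι hι φ hφ _ hy
      exact coset_pow hp hq hne hord V hVe (Or.inr rfl) hy1 hy v.2
    have hall := nQ_core φ hq hp.pos τ y (cc k) rfl hy hcop2 hg hnormg hnormy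
    apply hVb
    rw [Subgroup.eq_bot_iff_forall]
    intro v hv
    have h1 : v ^ q = 1 := by
      have := hall ⟨v, hv⟩
      exact congrArg Subtype.val this
    have h2 : v ^ (Nat.gcd p q) = 1 := pow_gcd_eq_one.2 ⟨hVe v hv, h1⟩
    rwa [hcop.gcd_eq_one, pow_one] at h2
  refine ⟨Q, ⟨hQb, ?_, ?_⟩, by rw [hQcard]; exact hq⟩
  · intro htop
    apply hVb
    rw [Subgroup.eq_bot_iff_forall]
    intro v hv
    have h1 : v ∈ (Q : Subgroup G) := by
      rw [htop]
      exact Subgroup.mem_top v
    have h2 := Subgroup.orderOf_dvd_natCard (Q : Subgroup G) h1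
    rw [hQcard] at h2
    have h3 : v ^ q = 1 := orderOf_dvd_iff_pow_eq_one.1 h2
    have h4 : v ^ (Nat.gcd p q) = 1 := pow_gcd_eq_one.2 ⟨hVe v hv, h3⟩
    rwa [hcop.gcd_eq_one, pow_one] at h4
  · intro g hg
    rw [Subgroup.eq_bot_iff_forall]
    intro x hx
    by_contra hx1
    obtain ⟨hxQ, hxg⟩ := Subgroup.mem_inf.1 hx
    obtain ⟨z, hz, hzx⟩ := (Subgroup.mem_smul_pointwise_iff_exists _ _ _).1 hxg
    have hzx' : g * z * g⁻¹ = x := hzx
    have hz1 : z ≠ 1 := by
      rintro rfl
      apply hx1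
      rw [← hzx']
      group
    apply hg
    apply hNQ
    apply Subgroup.mem_normalizer_fintype
    intro n hn
    have hn' : n ∈ (Q : Subgroup G) := hn
    rw [hzp z hz hz1] at hn'
    obtain ⟨i, hi⟩ := Subgroup.mem_zpowers_iff.1 hn'
    show g * n * g⁻¹ ∈ (Q : Subgroup G)
    have h5 : g * n * g⁻¹ = x ^ i := by
      rw [← hi, ← hzx']
      exact (MulAut.conj g).toMonoidHom.map_zpow z i |>.symm ▸ rfl
    rw [h5]
    exact Subgroup.zpow_mem _ hxQ i

end final

/-- Let G be a finite group of odd order in which the numbers of elements of each order that occurs (the numbers #{g : o(g) = m}, m ranging over the element orders of G) take exactly three different values. Then the order of G has at most two prime divisors; and if it has exactly two, then every Sylow subgroup of G for a prime dividing its order has prime exponent, G is a Frobenius group, and some Frobenius complement of G has prime order. -/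
theorem result {G : Type*} [Group G] [Finite G] (hodd : Odd (Nat.card G)) (h : (((fun m : ℕ => Nat.card {g : G // orderOf g = m}) '' Set.range (orderOf : G → ℕ))).ncard = 3) :
    (Nat.card G).primeFactors.card ≤ 2 ∧
      ((Nat.card G).primeFactors.card = 2 →
        (∀ (p : ℕ) [Fact p.Prime] (P : Sylow p G), p ∣ Nat.card G → Monoid.exponent ↥(P : Subgroup G) = p) ∧
        ∃ C : Subgroup G, Cfsg.IsFrobeniusComplement C ∧ (Nat.card ↥C).Prime) := by
  classical
  obtain ⟨x₁, x₂, x₃, h12, h13, h23, hS⟩ := Set.ncard_eq_three.1 h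
  set S := ((fun m : ℕ => Nat.card {g : G // orderOf g = m}) '' Set.range (orderOf : G → ℕ)) with hSdef
  have hmemS : ∀ x : G, fo G (orderOf x) ∈ S := fun x => ⟨orderOf x, ⟨x, rfl⟩, rfl⟩
  have h1S : (1 : ℕ) ∈ S := by
    have := hmemS (1 : G)
    rwa [orderOf_one, fo_one] at this
  have hex : ∃ a b : ℕ, a ≠ b ∧ ∀ x : G, x ≠ 1 → fo G (orderOf x) = a ∨ fo G (orderOf x) = b := by
    rw [hS] at h1S
    have hg : ∀ x : G, x ≠ 1 → fo G (orderOf x) = x₁ ∨ fo G (orderOf x) = x₂ ∨ fo G (orderOf x) = x₃ := by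
      intro x _
      have := hmemS x
      rw [hS] at this
      simpa using this
    simp only [Set.mem_insert_iff, Set.mem_singleton_iff] at h1S
    rcases h1S with h0 | h0 | h0
    · subst h0
      refine ⟨x₂, x₃, h23, fun x hx => ?_⟩
      rcases hg x hx with h1 | h1 | h1
      · exact absurd h1 (fo_ne_one hodd hx)
      · exact Or.inl h1
      · exact Or.inr h1
    · subst h0
      refine ⟨x₁, x₃, h13, fun x hx => ?_⟩
      rcases hg x hx with h1 | h1 | h1
      · exact Or.inl h1
      · exact absurd h1 (fo_ne_one hodd hx)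
      · exact Or.inr h1
    · subst h0
      refine ⟨x₁, x₂, h12, fun x hx => ?_⟩
      rcases hg x hx with h1 | h1 | h1
      · exact Or.inl h1
      · exact Or.inr h1
      · exact absurd h1 (fo_ne_one hodd hx)
  obtain ⟨a, b, hab, hall⟩ := hex
  have hall' : ∀ x : G, x ≠ 1 → fo G (orderOf x) = b ∨ fo G (orderOf x) = a :=
    fun x hx => (hall x hx).symm
  have hval : ∀ r : ℕ, r.Prime → r ∣ Nat.card G → fo G r = a ∨ fo G r = b := by
    intro r hr hrd
    haveI := Fact.mk hr
    obtain ⟨x, hx⟩ := exists_prime_orderOf_dvd_card' r hrd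
    have hx1 : x ≠ 1 := by
      rintro rfl
      rw [orderOf_one] at hx
      exact hr.ne_one hx.symm
    have h1 := hall x hx1
    rwa [hx] at h1
  have hdist : ∀ p q : ℕ, p.Prime → q.Prime → p ≠ q → p ∣ Nat.card G → q ∣ Nat.card G → fo G p ≠ fo G q := by
    intro p q hp hq hne hpd hqd hf
    rcases hval p hp hpd with h1 | h1
    · exact same_value hodd hp hq hne hpd hqd hab hall h1 (hf ▸ h1)
    · exact same_value hodd hp hq hne hpd hqd hab.symm hall' h1 (hf ▸ h1)
  refine ⟨?_, ?_⟩
  · have hcard : ({a, b} : Finset ℕ).card = 2 := Finset.card_pair hab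
    rw [← hcard]
    apply Finset.card_le_card_of_injOn (fun r => fo G r)
    · intro r hr
      have hr' := Finset.mem_coe.1 hr
      have h1 := hval r (Nat.prime_of_mem_primeFactors hr') (Nat.dvd_of_mem_primeFactors hr')
      simpa using h1
    · intro r hr s hs hrs
      have hr' := Finset.mem_coe.1 hr
      have hs' := Finset.mem_coe.1 hs
      by_contra hne
      exact hdist r s (Nat.prime_of_mem_primeFactors hr') (Nat.prime_of_mem_primeFactors hs') hne
        (Nat.dvd_of_mem_primeFactors hr') (Nat.dvd_of_mem_primeFactors hs') hrs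
  · intro h2
    obtain ⟨p, q, hne, hpq⟩ := Finset.card_eq_two.1 h2
    have hmemp : p ∈ (Nat.card G).primeFactors := by rw [hpq]; simp
    have hmemq : q ∈ (Nat.card G).primeFactors := by rw [hpq]; simp
    have hp := Nat.prime_of_mem_primeFactors hmemp
    have hq := Nat.prime_of_mem_primeFactors hmemq
    have hpd := Nat.dvd_of_mem_primeFactors hmemp
    have hqd := Nat.dvd_of_mem_primeFactors hmemq
    have hn0 : Nat.card G ≠ 0 := Nat.card_pos.ne'
    have hprimes : ∀ r : ℕ, r.Prime → r ∣ Nat.card G → r = p ∨ r = q := by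
      intro r hr hrd
      have h1 : r ∈ (Nat.card G).primeFactors := Nat.mem_primeFactors.2 ⟨hr, hrd, hn0⟩
      rw [hpq] at h1
      simpa using h1
    have hfd := hdist p q hp hq hne hpd hqd
    have hall2 : ∀ x : G, x ≠ 1 → fo G (orderOf x) = fo G p ∨ fo G (orderOf x) = fo G q := by
      intro x hx
      have h1 := hall x hx
      rcases hval p hp hpd with h3 | h3 <;> rcases hval q hq hqd with h4 | h4 <;>
        rcases h1 with h1 | h1 <;> rw [h3, h4, h1] <;> simp_all
    have hord := orders_of hodd hp hq hne hpd hqd hprimes hall2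
    refine ⟨?_, ?_⟩
    · intro r _ P hrd
      have hr := (Fact.out : r.Prime)
      have hdv : Monoid.exponent ↥(P : Subgroup G) ∣ r := by
        apply Monoid.exponent_dvd_of_forall_pow_eq_one
        intro x
        apply Subtype.ext
        show (x : G) ^ r = 1
        obtain ⟨k, hk⟩ := (IsPGroup.iff_orderOf.1 P.isPGroup') x
        have hk' : orderOf (x : G) = r ^ k := by
          rw [Subgroup.orderOf_coe]
          exact hk
        have hsp : ∀ s : ℕ, s.Prime → orderOf (x : G) = s → (x : G) ^ r = 1 := by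
          intro s hs h3
          have h4 : s = r ^ k := by rw [← h3, hk']
          have hk0 : k ≠ 0 := by
            rintro rfl
            rw [pow_zero] at h4
            exact hs.ne_one h4
          have h5 : r ∣ s := by
            rw [h4]
            exact dvd_pow_self r hk0
          have h6 : r = s := (Nat.prime_dvd_prime_iff_eq hr hs).1 h5
          have h7 : orderOf (x : G) ∣ r := by rw [h3, h6]
          exact orderOf_dvd_iff_pow_eq_one.1 h7
        rcases hord (x : G) with h3 | h3 | h3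
        · rw [h3, one_pow]
        · exact hsp p hp h3
        · exact hsp q hq h3
      rcases (Nat.dvd_prime hr).1 hdv with h3 | h3
      · exfalso
        have h4 := Monoid.exp_eq_one_iff.1 h3
        exact P.ne_bot_of_dvd_card hrd (Subgroup.eq_bot_of_subsingleton _)
      · exact h3
    · have hcard : ∃ α β : ℕ, Nat.card G = p ^ α * q ^ β := by
        refine ⟨(Nat.card G).factorization p, (Nat.card G).factorization q, ?_⟩
        conv_lhs => rw [← Nat.factorization_prod_pow_eq_self hn0]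
        have hsub : (Nat.card G).factorization.support ⊆ {p, q} := by
          intro r hr
          have hr' := Nat.support_factorization (Nat.card G) ▸ hr
          have h1 := Nat.prime_of_mem_primeFactors hr'
          have h2 := Nat.dvd_of_mem_primeFactors hr'
          rcases hprimes r h1 h2 with h3 | h3 <;> simp [h3]
        rw [Finsupp.prod_of_support_subset _ hsub _ (by simp)]
        rw [Finset.prod_pair hne]
      obtain ⟨α, β, hαβ⟩ := hcard
      haveI hsol : Group.IsSolvable G :=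
        Cfsg.Agent.Lib.Char.Burnside.isSolvable_of_card_eq p q α β hp hq hαβ
      haveI : Nontrivial G := by
        haveI := Fact.mk hp
        obtain ⟨x, hx⟩ := exists_prime_orderOf_dvd_card' p hpd
        refine ⟨⟨x, 1, ?_⟩⟩
        rintro rfl
        rw [orderOf_one] at hx
        exact hp.ne_one hx.symm
      obtain ⟨s, hs, N, hNn, hNb, hNp, hNe, hNab⟩ := Cfsg.Agent.S4022.exists_N G
      have hne1 : ∃ x ∈ N, x ≠ 1 := by
        by_contra hcon
        push_neg at hcon
        exact hNb ((Subgroup.eq_bot_iff_forall _).2 hcon)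
      obtain ⟨x, hxN, hx1⟩ := hne1
      haveI := Fact.mk hs
      have hxo : orderOf x = s := orderOf_eq_prime (hNe x hxN) hx1
      have hsd : s ∣ Nat.card G := by
        rw [← hxo]
        exact orderOf_dvd_natCard x
      rcases hprimes s hs hsd with h3 | h3
      · subst h3
        exact final_frob hs hq hne hord hqd N hNb hNe hNab
      · subst h3
        exact final_frob hs hp hne.symm (fun x => by
          rcases hord x with h | h | h
          · exact Or.inl h
          · exact Or.inr (Or.inr h)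
          · exact Or.inr (Or.inl h)) hpd N hNb hNe hNab

end Cfsg.Agent.S4004
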