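import Mathlib
import Cfsg.Statements.S4013

set_option autoImplicit false
set_option linter.all false
open Cfsg

namespace Cfsg.Agent.S4013

/-- Let G be a finite p-group (p prime) and N < M normal subgroups of G such that for some g ∈ M ∖ N the conjugacy class of g is exactly M ∖ N. Then p = 2 and N has index 2 in M. -/
theorem result {G : Type*} [Group G] [Finite G] (p : ℕ) [Fact p.Prime] (hG : IsPGroup p G) (N M : Subgroup G) [N.Normal] [M.Normal] (hNM : N < M) (g : G) (hgM : g ∈ M) (hgN : g ∉ N) (hcl : {h : G | IsConj g h} = (M : Set G) \ (N : Set G)) : p = 2 ∧ N.relIndex M = 2 := by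
  have hpp : p.Prime := Fact.out
  -- the class size is a power of `p`
  have hS : {h : G | IsConj g h} = MulAction.orbit (ConjAct G) g := by
    ext h
    rw [ConjAct.mem_orbit_conjAct]
    exact ⟨fun h' => h'.symm, fun h' => h'.symm⟩
  have hidx : (MulAction.stabilizer (ConjAct G) g).index = (MulAction.orbit (ConjAct G) g).ncard :=
    MulAction.index_stabilizer _ _
  have hcardG : Nat.card (ConjAct G) = Nat.card G := Nat.card_congr ConjAct.toConjAct.symm.toEquiv
  have hdvd : (MulAction.orbit (ConjAct G) g).ncard ∣ Nat.card G := by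
    rw [← hidx, ← hcardG]
    exact Subgroup.index_dvd_card _
  rw [← hS, hcl] at hdvd
  obtain ⟨k, hk⟩ := IsPGroup.iff_card.1 hG
  rw [hk] at hdvd
  obtain ⟨s, -, hs⟩ := (Nat.dvd_prime_pow hpp).1 hdvd
  have hNleM : (N : Set G) ⊆ (M : Set G) := hNM.le
  have hnc : ((M : Set G) \ (N : Set G)).ncard = Nat.card M - Nat.card N := by
    rw [Set.ncard_diff hNleM (Set.toFinite _)]
    rw [← Nat.card_coe_set_eq, ← Nat.card_coe_set_eq]
    rfl
  have hr : N.relIndex M * Nat.card N = Nat.card M := by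
    have h1 := (N.subgroupOf M).index_mul_card
    have h2 : Nat.card (N.subgroupOf M) = Nat.card N :=
      Nat.card_congr (Subgroup.subgroupOfEquivOfLe hNM.le).toEquiv
    rw [h2] at h1
    exact h1
  set r := N.relIndex M with hrdef
  have hr1 : r ≠ 1 := by
    intro h
    have := Subgroup.relIndex_eq_one.1 h
    exact absurd (le_antisymm hNM.le this) hNM.ne
  have hMp : ∃ b, Nat.card M = p ^ b := by
    have : Nat.card M ∣ p ^ k := hk ▸ Subgroup.card_subgroup_dvd_card M
    obtain ⟨b, -, hb⟩ := (Nat.dvd_prime_pow hpp).1 this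
    exact ⟨b, hb⟩
  obtain ⟨b, hb⟩ := hMp
  have hrp : r ∣ p ^ b := hb ▸ Dvd.intro _ hr
  obtain ⟨c, -, hc⟩ := (Nat.dvd_prime_pow hpp).1 hrp
  have hNpos : 0 < Nat.card N := Nat.card_pos
  have hsub : (r - 1) * Nat.card N = p ^ s := by
    rw [Nat.sub_mul, one_mul, hr, ← hnc, hs]
  have hr1dvd : r - 1 ∣ p ^ s := Dvd.intro _ hsub
  obtain ⟨d, -, hd⟩ := (Nat.dvd_prime_pow hpp).1 hr1dvd
  have hc0 : c ≠ 0 := by
    rintro rfl
    rw [pow_zero] at hc
    exact hr1 hc
  have hrpos : 0 < r := by rw [hc]; exact pow_pos hpp.pos _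
  have hsum : p ^ c = p ^ d + 1 := by
    rw [← hc, ← hd]
    omega
  have hd0 : d = 0 := by
    by_contra hne
    have h1 : p ∣ p ^ c := dvd_pow_self p hc0
    have h2 : p ∣ p ^ d := dvd_pow_self p hne
    rw [hsum] at h1
    have h3 : p ∣ 1 := (Nat.dvd_add_right h2).1 h1
    exact hpp.one_lt.ne' (Nat.dvd_one.1 h3)
  subst hd0
  rw [pow_zero] at hsum
  have hp2 : p = 2 := by
    have h1 : p ∣ 2 := by
      have h2 : p ∣ p ^ c := dvd_pow_self p hc0
      rwa [hsum] at h2
    exact (Nat.prime_dvd_prime_iff_eq hpp Nat.prime_two).1 h1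
  refine ⟨hp2, ?_⟩
  rw [hc, hsum]

end Cfsg.Agent.S4013
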