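import Mathlib
import Cfsg.Statements.S4023
import Cfsg.Agent.Lib.PGroups.CyclicNormal

set_option autoImplicit false
set_option linter.all false
open Cfsg

namespace Cfsg.Agent.S4023

open Subgroup Cfsg.Agent.Lib.PGroups.Basic Cfsg.Agent.Lib.PGroups.MaxAbelian
  Cfsg.Agent.Lib.PGroups.NormalRankTwo Cfsg.Agent.Lib.PGroups.CyclicNormal
  Cfsg.Agent.Lib.PGroups.Presentations

section abstract

variable {P : Type*} [Group P] [Finite P] {p : ℕ} [hp : Fact p.Prime]

/-- commuting elements: every element of the join is a product. -/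
lemma exists_mul_of_mem_sup (x y : P) (h : Commute x y) (w : P)
    (hw : w ∈ (zpowers x ⊔ zpowers y : Subgroup P)) :
    ∃ a ∈ zpowers x, ∃ b ∈ zpowers y, w = a * b := by
  let f := (zpowers x).subtype
  let g := (zpowers y).subtype
  have hc : ∀ (a : zpowers x) (b : zpowers y), Commute (f a) (g b) := by
    rintro ⟨a, ha⟩ ⟨b, hb⟩
    obtain ⟨i, rfl⟩ := mem_zpowers_iff.1 ha
    obtain ⟨j, rfl⟩ := mem_zpowers_iff.1 hb
    exact h.zpow_zpow i j
  have hr := MonoidHom.noncommCoprod_range f g hc
  have h2 : f.range ⊔ g.range = zpowers x ⊔ zpowers y := by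
    simp [f, g]
  rw [h2] at hr
  rw [← hr] at hw
  obtain ⟨⟨a, b⟩, rfl⟩ := hw
  exact ⟨a, a.2, b, b.2, rfl⟩

lemma card_sup_zpowers_le (x y : P) (h : Commute x y) :
    Nat.card (zpowers x ⊔ zpowers y : Subgroup P) ≤ orderOf x * orderOf y := by
  let F : zpowers x × zpowers y → (zpowers x ⊔ zpowers y : Subgroup P) := fun q =>
    ⟨(q.1 : P) * (q.2 : P), Subgroup.mul_mem_sup q.1.2 q.2.2⟩
  have hF : Function.Surjective F := by
    rintro ⟨w, hw⟩
    obtain ⟨a, ha, b, hb, rfl⟩ := exists_mul_of_mem_sup x y h w hw
    exact ⟨(⟨a, ha⟩, ⟨b, hb⟩), rfl⟩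
  have := Nat.card_le_card_of_surjective F hF
  rwa [Nat.card_prod, Nat.card_zpowers, Nat.card_zpowers] at this

/-- The exponent `p` non-abelian case. -/
lemma exp_p_case (hP : IsPGroup p P)
    (hiso : ∀ H K : Subgroup P, Nat.card H = Nat.card K → Nonempty (H ≃* K))
    (hexp : ∀ x : P, x ^ p = 1) (hnc : ¬ ∀ a b : P, a * b = b * a) : Nat.card P = p ^ 3 := by
  classical
  have hpp : p.Prime := hp.out
  -- the elements
  obtain ⟨x, y, hxy, hc⟩ : ∃ x y : P, x * y ≠ y * x ∧ x * y * x⁻¹ * y⁻¹ ∈ center P := by
    have hZ : (⊤ : Subgroup (P ⧸ center P)) ≠ ⊥ := by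
      intro h
      apply hnc
      intro a b
      have h1 : (a : P ⧸ center P) = 1 := by
        have : (a : P ⧸ center P) ∈ (⊤ : Subgroup (P ⧸ center P)) := mem_top _
        rw [h, mem_bot] at this
        exact this
      have h2 : a ∈ center P := (QuotientGroup.eq_one_iff a).1 h1
      exact (mem_center_iff.1 h2 b).symm
    obtain ⟨z, -, hz, hzo⟩ := exists_central_orderOf_eq (hP.to_quotient (center P)) ⊤ hZ
    obtain ⟨x, rfl⟩ := QuotientGroup.mk_surjective z
    have hx : x ∉ center P := by
      intro h
      rw [(QuotientGroup.eq_one_iff x).2 h, orderOf_one] at hzo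
      exact hpp.ne_one hzo.symm
    rw [mem_center_iff] at hx
    push Not at hx
    obtain ⟨y, hy⟩ := hx
    refine ⟨x, y, fun h => hy h.symm, ?_⟩
    rw [← QuotientGroup.eq_one_iff]
    have h1 := mem_center_iff.1 hz (y : P ⧸ center P)
    show (x : P ⧸ center P) * (y : P ⧸ center P) * (x : P ⧸ center P)⁻¹ * (y : P ⧸ center P)⁻¹ = 1
    rw [← h1]
    group
  set c := x * y * x⁻¹ * y⁻¹ with hcdef
  -- the subgroup `B`
  let N : Subgroup P := zpowers c
  haveI hNn : N.Normal := by
    constructor
    intro n hn g
    obtain ⟨i, rfl⟩ := mem_zpowers_iff.1 hn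
    have : g * c ^ i * g⁻¹ = c ^ i := by
      have h1 : c ^ i ∈ center P := zpow_mem hc i
      rw [(mem_center_iff.1 h1 g)]
      group
    rw [this]
    exact zpow_mem (mem_zpowers c) i
  let f := QuotientGroup.mk' N
  have hfs : Function.Surjective f := QuotientGroup.mk'_surjective N
  have hcomm : Commute (f x) (f y) := by
    have h1 : f c = 1 := (QuotientGroup.eq_one_iff c).2 (mem_zpowers c)
    rw [hcdef] at h1
    simp only [map_mul, map_inv] at h1
    have h2 := mul_inv_eq_one.1 h1
    exact mul_inv_eq_iff_eq_mul.1 h2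
  have hord : ∀ w : P, orderOf w ≤ p := fun w =>
    Nat.le_of_dvd hpp.pos (orderOf_dvd_of_pow_eq_one (hexp w))
  have hordf : ∀ w : P, orderOf (f w) ≤ p := fun w =>
    (Nat.le_of_dvd (orderOf_pos w) (orderOf_map_dvd f w)).trans (hord w)
  let Sb : Subgroup (P ⧸ N) := zpowers (f x) ⊔ zpowers (f y)
  have hSb : Nat.card Sb ≤ p * p :=
    (card_sup_zpowers_le (f x) (f y) hcomm).trans (Nat.mul_le_mul (hordf x) (hordf y))
  let B : Subgroup P := Sb.comap f
  have hNB : N ≤ B := by
    intro n hn
    show f n ∈ Sb
    have : f n = 1 := (QuotientGroup.eq_one_iff n).2 hn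
    rw [this]
    exact one_mem _
  have hxB : x ∈ B := by
    show f x ∈ Sb
    exact Subgroup.mem_sup_left (mem_zpowers _)
  have hyB : y ∈ B := by
    show f y ∈ Sb
    exact Subgroup.mem_sup_right (mem_zpowers _)
  have hBcard : Nat.card B ≤ p ^ 3 := by
    have h1 : Nat.card (B.map f) = N.relIndex B := card_map_mk_eq_relIndex N B
    have h2 : B.map f = Sb := Subgroup.map_comap_eq_self_of_surjective hfs Sb
    have h3 := relIndex_mul_card hNB
    rw [← h1, h2] at h3
    rw [← h3]
    have h4 : Nat.card N ≤ p := by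
      rw [Nat.card_zpowers]
      exact hord c
    calc Nat.card Sb * Nat.card N ≤ (p * p) * p := Nat.mul_le_mul hSb h4
      _ = p ^ 3 := by ring
  obtain ⟨k, hk⟩ := IsPGroup.iff_card.1 (hP.to_subgroup B)
  have hk3 : k ≤ 3 := by
    rw [hk] at hBcard
    exact (Nat.pow_le_pow_iff_right hpp.one_lt).1 hBcard
  obtain ⟨m, hm⟩ := IsPGroup.iff_card.1 hP
  have hm3 : 3 ≤ m := by
    by_contra hlt
    have hm2 : m ≤ 2 := by omega
    apply hnc
    interval_cases m
    · have : Subsingleton P := (Nat.card_eq_one_iff_unique.1 (by simpa using hm)).1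
      intro a b
      exact Subsingleton.elim _ _
    · have h1 : IsCyclic P := isCyclic_of_prime_card (p := p) (by simpa using hm)
      intro a b
      exact (IsCyclic.commutative : IsMulCommutative P).is_comm.comm a b
    · exact fun a b => IsPGroup.commutative_of_card_eq_prime_sq hm a b
  -- if `m > 3`, there is an abelian subgroup of order `p^3`
  by_contra hne
  have hm4 : 3 < m := by
    rcases eq_or_lt_of_le hm3 with h | h
    · exact absurd (by rw [hm, ← h]) hne
    · exact h
  obtain ⟨A, hAmax⟩ := (Set.toFinite {A : Subgroup P | A.Normal ∧ IsMulCommutative A}).exists_maximal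
    ⟨⊥, inferInstance, inferInstance⟩
  obtain ⟨hAn, hAc⟩ := hAmax.1
  haveI := hAn
  obtain ⟨a, ha⟩ := IsPGroup.iff_card.1 (hP.to_subgroup A)
  have hle := card_le_of_maximal hP A hAc
    (fun B' hBn hBc hAB => le_antisymm (hAmax.2 ⟨hBn, hBc⟩ hAB) hAB) a ha
  have ha3 : 3 ≤ a := by
    by_contra hlt
    have ha2 : a ≤ 2 := by omega
    have h1 : a * (a + 1) / 2 ≤ 3 := by
      interval_cases a <;> norm_num
    have h2 : p ^ m ≤ p ^ 3 := by
      rw [← hm]
      exact hle.trans (Nat.pow_le_pow_right hpp.pos h1)
    have h3 := (Nat.pow_le_pow_iff_right hpp.one_lt).1 h2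
    omega
  obtain ⟨E', hE'⟩ := Sylow.exists_subgroup_card_pow_prime (G := A) p (n := 3) (by
    rw [ha]
    exact pow_dvd_pow p ha3)
  let E : Subgroup P := E'.map A.subtype
  have hEcard : Nat.card E = p ^ 3 := by
    rw [Subgroup.card_map_of_injective A.subtype_injective, hE']
  obtain ⟨K, hKcard, hBK⟩ := Sylow.exists_subgroup_card_pow_prime_le p (n := k) (m := 3)
    (by rw [hm]; exact pow_dvd_pow p hm3) B hk hk3
  obtain ⟨e⟩ := hiso K E (hKcard.trans hEcard.symm)
  have hEc : ∀ u v : E, u * v = v * u := by
    rintro ⟨_, u, hu, rfl⟩ ⟨_, v, hv, rfl⟩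
    apply Subtype.ext
    show (u : P) * (v : P) = (v : P) * (u : P)
    exact congrArg Subtype.val (hAc.is_comm.comm u v)
  apply hxy
  have h1 := hEc (e ⟨x, hBK hxB⟩) (e ⟨y, hBK hyB⟩)
  rw [← map_mul, ← map_mul] at h1
  have h2 := e.injective h1
  exact congrArg Subtype.val h2

/-- Involutions commuting: a Klein four-subgroup. -/
lemma exists_klein (hP : IsPGroup 2 P) [Fact (Nat.Prime 2)] (y z : P) (hy : y ^ 2 = 1) (hz : z ^ 2 = 1)
    (hc : Commute y z) (hy1 : y ≠ 1) (hz1 : z ≠ 1) (hyz : y ≠ z) :
    ∃ A : Subgroup P, (∀ a ∈ A, a ^ 2 = 1) ∧ Nat.card A = 2 ^ 2 := by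
  classical
  have hoy : orderOf y = 2 := orderOf_eq_prime hy hy1
  have hoz : orderOf z = 2 := orderOf_eq_prime hz hz1
  refine ⟨zpowers y ⊔ zpowers z, ?_, ?_⟩
  · intro w hw
    obtain ⟨a, ha, b, hb, rfl⟩ := exists_mul_of_mem_sup y z hc w hw
    obtain ⟨i, rfl⟩ := mem_zpowers_iff.1 ha
    obtain ⟨j, rfl⟩ := mem_zpowers_iff.1 hb
    rw [(hc.zpow_zpow i j).mul_pow, ← zpow_natCast, ← zpow_natCast, ← zpow_mul, ← zpow_mul, mul_comm i,
      mul_comm j, zpow_mul, zpow_mul, zpow_natCast, zpow_natCast, hy, hz, one_zpow, one_zpow, one_mul]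
  · obtain ⟨k, hk⟩ := IsPGroup.iff_card.1 (hP.to_subgroup (zpowers y ⊔ zpowers z))
    have hle := card_sup_zpowers_le y z hc
    rw [hoy, hoz, hk] at hle
    have hk2 : k ≤ 2 := by
      have : 2 ^ k ≤ 2 ^ 2 := by simpa using hle
      exact (Nat.pow_le_pow_iff_right (by norm_num)).1 this
    have hge : 2 < Nat.card (zpowers y ⊔ zpowers z : Subgroup P) := by
      let g : Fin 3 → (zpowers y ⊔ zpowers z : Subgroup P) :=
        ![1, ⟨y, Subgroup.mem_sup_left (mem_zpowers y)⟩, ⟨z, Subgroup.mem_sup_right (mem_zpowers z)⟩]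
      have hg : Function.Injective g := by
        intro i j hij
        have hv : ((g i : (zpowers y ⊔ zpowers z : Subgroup P)) : P) = (g j : (zpowers y ⊔ zpowers z : Subgroup P)) :=
          congrArg Subtype.val hij
        fin_cases i <;> fin_cases j <;> simp [g] at hv ⊢
        · exact absurd hv.symm hy1
        · exact absurd hv.symm hz1
        · exact absurd hv hy1
        · exact absurd hv hyz
        · exact absurd hv hz1
        · exact absurd hv.symm hyz
      have := Nat.card_le_card_of_injective g hg
      simp at this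
      omega
    rw [hk] at hge ⊢
    have hk2' : k = 2 := by
      interval_cases k <;> simp_all
    rw [hk2']

/-- The main classification for `p`-groups whose subgroups of the same order are isomorphic. -/
lemma main_abstract (hP : IsPGroup p P)
    (hiso : ∀ H K : Subgroup P, Nat.card H = Nat.card K → Nonempty (H ≃* K)) :
    IsCyclic P ∨ (IsMulCommutative P ∧ ∀ x : P, x ^ p = 1) ∨
      (p = 2 ∧ Nonempty (P ≃* QuaternionGroup 2)) ∨
      (p ≠ 2 ∧ ¬ IsMulCommutative P ∧ Nat.card P = p ^ 3 ∧ Monoid.exponent P = p) := by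
  classical
  have hpp : p.Prime := hp.out
  by_cases hexp : ∀ x : P, x ^ p = 1
  · by_cases hcomm : ∀ a b : P, a * b = b * a
    · right; left
      exact ⟨⟨⟨hcomm⟩⟩, hexp⟩
    · right; right; right
      have hp2 : p ≠ 2 := by
        rintro rfl
        apply hcomm
        intro a b
        have h1 := hexp (a * b)
        have h2 := hexp a
        have h3 := hexp b
        rw [pow_two] at h1 h2 h3
        calc a * b = a * (a * b * (a * b)) * b := by rw [h1]; simp
          _ = (a * a) * b * a * (b * b) := by simp only [mul_assoc]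
          _ = b * a := by rw [h2, h3]; simp
      have hcard := exp_p_case hP hiso hexp hcomm
      refine ⟨hp2, fun h => hcomm h.is_comm.comm, hcard, ?_⟩
      haveI : Nontrivial P := by
        by_contra hnt
        rw [not_nontrivial_iff_subsingleton] at hnt
        exact hcomm (fun a b => Subsingleton.elim _ _)
      haveI := hp
      rw [Monoid.exponent_eq_prime_iff hpp]
      intro g hg
      exact orderOf_eq_prime (hexp g) hg
  · push Not at hexp
    obtain ⟨x, hx⟩ := hexp
    have hx1 : x ≠ 1 := by
      rintro rfl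
      exact hx (one_pow p)
    -- an element of order `p^2`
    obtain ⟨k, hk⟩ := IsPGroup.iff_orderOf.1 hP x
    have hk2 : 2 ≤ k := by
      by_contra hlt
      apply hx
      have h1 : k ≤ 1 := by omega
      have h2 : orderOf x ∣ p := by
        rw [hk]
        simpa using pow_dvd_pow p h1
      exact orderOf_dvd_iff_pow_eq_one.1 h2
    let x' := x ^ (orderOf x / p ^ 2)
    have hx' : orderOf x' = p ^ 2 := by
      apply orderOf_pow_orderOf_div (orderOf_pos x).ne'
      rw [hk]
      exact pow_dvd_pow p hk2
    -- no exponent `p` subgroups of order `p ^ 2`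
    have hno : ∀ A : Subgroup P, (∀ a ∈ A, a ^ p = 1) → Nat.card A ≠ p ^ 2 := by
      intro A hA hc
      have hc' : Nat.card (zpowers x') = Nat.card A := by
        rw [Nat.card_zpowers, hx', hc]
      obtain ⟨e⟩ := hiso _ _ hc'
      have h1 : orderOf (e ⟨x', mem_zpowers x'⟩) = p ^ 2 := by
        rw [MulEquiv.orderOf_eq, Subgroup.orderOf_mk, hx']
      have h2 : (e ⟨x', mem_zpowers x'⟩) ^ p = 1 := by
        apply Subtype.ext
        exact hA _ (e ⟨x', mem_zpowers x'⟩).2
      have h3 := orderOf_dvd_of_pow_eq_one h2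
      rw [h1] at h3
      have h4 := (Nat.pow_dvd_pow_iff_le_right hpp.one_lt).1 (by simpa using h3 : p ^ 2 ∣ p ^ 1)
      omega
    by_cases hcyc : IsCyclic P
    · left; exact hcyc
    by_cases hp2 : p = 2
    · subst hp2
      right; right; left
      refine ⟨rfl, ?_⟩
      have hn : ∀ A : Subgroup P, A.Normal → IsMulCommutative A → IsCyclic A := by
        intro A hAn hAc
        by_contra hAnc
        obtain ⟨B, -, hBe, hBc⟩ := exists_card_sq_of_comm (hP.to_subgroup A)
          (fun a b => hAc.is_comm.comm a b) hAnc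
        apply hno (B.map A.subtype)
        · rintro _ ⟨b, hb, rfl⟩
          exact congrArg Subtype.val (hBe b hb)
        · rw [Subgroup.card_map_of_injective A.subtype_injective, hBc]
      obtain ⟨n, a, y, hn2, hao, hcard, hya, hidx, hcases⟩ := classify hP hn hcyc
      have hnoK : ∀ u v : P, u ^ 2 = 1 → v ^ 2 = 1 → Commute u v → u ≠ 1 → v ≠ 1 → u ≠ v → False := by
        intro u v h1 h2 h3 h4 h5 h6
        obtain ⟨A, hA, hAc⟩ := exists_klein hP u v h1 h2 h3 h4 h5 h6
        exact hno A hA hAc
      set z := a ^ (2 ^ (n - 1)) with hz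
      have hpn : 2 ^ (n - 1) * 2 = 2 ^ n := by
        rw [← pow_succ]
        congr 1
        omega
      have hz2 : z ^ 2 = 1 := by
        rw [hz, ← pow_mul, hpn, ← hao, pow_orderOf_eq_one]
      have hz1 : z ≠ 1 := by
        apply pow_ne_one_of_lt_orderOf
        · positivity
        · rw [hao]
          exact Nat.pow_lt_pow_right (by norm_num) (by omega)
      have hzm : z ∈ zpowers a := pow_mem (mem_zpowers a) _
      have hyz : y ≠ z := fun h => hya (h ▸ hzm)
      have hy1 : y ≠ 1 := fun h => hya (h ▸ one_mem _)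
      have hzinv : z⁻¹ = z := inv_eq_of_mul_eq_one_left (by rw [← pow_two]; exact hz2)
      rcases hcases with ⟨hy2, hconj⟩ | ⟨h3, hy2, hconj⟩ | ⟨h3, hy2, hconj⟩
      · by_cases hn3 : n = 2
        · subst hn3
          have := nonempty_quaternion_equiv (m := 2) (a := a) (y := y) (by rw [hao]; norm_num)
            (by rw [hy2, hz]; norm_num) hconj hya (by rw [hcard]; norm_num)
          obtain ⟨e⟩ := this
          exact ⟨e.symm⟩
        · exfalso
          have hn3' : 3 ≤ n := by omega
          have hconj' : y * a * y⁻¹ = a ^ (-1 : ℤ) := by rw [hconj]; simp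
          -- elements outside `⟨a⟩` have order dividing four
          have hout : ∀ g : P, g ∉ zpowers a → g ^ 4 = 1 := by
            intro g hg
            have h1 : y⁻¹ * g ∈ zpowers a := by
              rw [Subgroup.mul_mem_iff_of_index_two hidx]
              constructor
              · intro h
                exact absurd (by simpa using inv_mem h) hya
              · intro h
                exact absurd h hg
            obtain ⟨j, hj⟩ := mem_zpowers_iff.1 h1
            have hg' : g = y * a ^ j := by rw [hj]; group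
            have h2 : y * a ^ j * y⁻¹ = a ^ (-1 * j) := conj_zpow_of hconj' j
            have h3 : g * g = z := by
              rw [hg']
              calc y * a ^ j * (y * a ^ j) = (y * a ^ j * y⁻¹) * (y ^ 2) * a ^ j := by
                    rw [pow_two]; group
                _ = a ^ (-1 * j) * z * a ^ j := by rw [h2, hy2]
                _ = z := by
                    rw [hz, ← zpow_natCast a, ← zpow_add, ← zpow_add]
                    congr 1
                    ring
            calc g ^ 4 = (g * g) ^ 2 := by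
                  rw [pow_two, pow_succ, pow_succ, pow_succ, pow_succ, pow_zero, one_mul]
                  group
              _ = 1 := by rw [h3, hz2]
          have hy4 : orderOf y = 2 ^ (1 + 1) := by
            apply orderOf_eq_prime_pow
            · rw [pow_one, hy2]
              exact hz1
            · have := hout y hya
              simpa using this
          let c8 := a ^ (orderOf a / 8)
          have hc8 : orderOf c8 = 8 := by
            apply orderOf_pow_orderOf_div (orderOf_pos a).ne'
            rw [hao]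
            exact pow_dvd_pow 2 hn3'
          obtain ⟨K, hKc, hyK⟩ := Sylow.exists_subgroup_card_pow_prime_le 2 (n := 2) (m := 3)
            (H := zpowers y) (by rw [hcard]; exact pow_dvd_pow 2 (by omega))
            (by rw [Nat.card_zpowers, hy4]) (by norm_num)
          have hcc : Nat.card (zpowers c8) = Nat.card K := by
            rw [Nat.card_zpowers, hc8, hKc]
            norm_num
          obtain ⟨e⟩ := hiso _ _ hcc
          set g : P := (e ⟨c8, mem_zpowers c8⟩).1 with hg
          have hgo : orderOf g = 8 := by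
            have h1 : orderOf (e ⟨c8, mem_zpowers c8⟩) = 8 := by
              rw [MulEquiv.orderOf_eq, Subgroup.orderOf_mk, hc8]
            rw [hg, Subgroup.orderOf_coe, h1]
          have hgK : g ∈ K := (e ⟨c8, mem_zpowers c8⟩).2
          by_cases hga : g ∈ zpowers a
          · have hle : zpowers g ≤ K := zpowers_le.2 hgK
            have hee : zpowers g = K := by
              apply Subgroup.eq_of_le_of_card_ge hle
              rw [Nat.card_zpowers, hgo, hKc]
              norm_num
            have hyg : y ∈ zpowers g := by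
              rw [hee]
              exact hyK (mem_zpowers y)
            exact hya ((zpowers_le.2 hga) hyg)
          · have h4 := hout g hga
            have h5 := orderOf_dvd_of_pow_eq_one h4
            rw [hgo] at h5
            omega
      · exfalso
        apply hnoK y z hy2 hz2 _ hy1 hz1 hyz
        show y * z = z * y
        have h1 : y * z * y⁻¹ = z := by
          rw [hz, ← conj_pow, hconj, inv_pow, ← hz, hzinv]
        exact mul_inv_eq_iff_eq_mul.1 h1
      · exfalso
        apply hnoK y z hy2 hz2 _ hy1 hz1 hyz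
        show y * z = z * y
        have h1 : y * z * y⁻¹ = z := by
          have hodd : 2 ^ (n - 1) - 1 + 1 = 2 ^ (n - 1) := by
            have : 0 < 2 ^ (n - 1) := by positivity
            omega
          have h2 : z ^ (2 ^ (n - 1) - 1) * z = 1 := by
            rw [← pow_succ, hodd]
            obtain ⟨t, ht⟩ : ∃ t, n - 1 = t + 1 := ⟨n - 2, by omega⟩
            rw [ht, pow_succ, mul_comm, pow_mul, hz2, one_pow]
          have h3 : z ^ (2 ^ (n - 1) - 1) = z := by
            have := eq_inv_of_mul_eq_one_left h2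
            rw [hzinv] at this
            exact this
          rw [hz, ← conj_pow, hconj, ← pow_mul, mul_comm, pow_mul, ← hz]
          exact h3
        exact mul_inv_eq_iff_eq_mul.1 h1
    · exfalso
      obtain ⟨A, -, hAe, hAc⟩ := exists_normal_card_sq hp2 hP hcyc
      exact hno A hAe hAc

end abstract

/-- Let p be a prime and G a finite group in which any two p-subgroups of the same order are conjugate, with Sylow p-subgroup P. Then P is cyclic, or elementary abelian, or p = 2 and P is a quaternion group of order 8, or p is odd and P is non-abelian of order p³ and exponent p. -/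
theorem result {G : Type*} [Group G] [Finite G]
    {p : ℕ} [Fact p.Prime] (hC : ∀ H K : Subgroup G, IsPGroup p H → IsPGroup p K → Nat.card H = Nat.card K →
      ∃ g : G, K = H.map (MulAut.conj g).toMonoidHom) (P : Sylow p G) :
    IsCyclic P ∨ Cfsg.IsElementaryAbelian p (P : Subgroup G) ∨
      (p = 2 ∧ Nonempty ((P : Subgroup G) ≃* QuaternionGroup 2)) ∨
      (p ≠ 2 ∧ ¬ IsMulCommutative P ∧ Nat.card P = p ^ 3 ∧ Monoid.exponent P = p) := by
  have hiso : ∀ H K : Subgroup (P : Subgroup G), Nat.card H = Nat.card K → Nonempty (H ≃* K) := by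
    intro H K hHK
    have hsub := (P : Subgroup G).subtype_injective
    obtain ⟨g, hg⟩ := hC (H.map (P : Subgroup G).subtype) (K.map (P : Subgroup G).subtype)
      (P.isPGroup'.to_subgroup H |>.map _) (P.isPGroup'.to_subgroup K |>.map _)
      (by rw [Subgroup.card_map_of_injective hsub, Subgroup.card_map_of_injective hsub, hHK])
    have e1 := H.equivMapOfInjective _ hsub
    have e2 := K.equivMapOfInjective _ hsub
    have e3 := (H.map (P : Subgroup G).subtype).equivMapOfInjective (MulAut.conj g).toMonoidHom
      (MulAut.conj g).injective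
    exact ⟨e1.trans (e3.trans ((MulEquiv.subgroupCongr hg.symm).trans e2.symm))⟩
  rcases main_abstract P.isPGroup' hiso with h | ⟨h1, h2⟩ | ⟨h1, ⟨h2⟩⟩ | h
  · exact Or.inl h
  · refine Or.inr (Or.inl ⟨h1, fun a ha => ?_⟩)
    exact congrArg Subtype.val (h2 ⟨a, ha⟩)
  · exact Or.inr (Or.inr (Or.inl ⟨h1, ⟨h2⟩⟩))
  · exact Or.inr (Or.inr (Or.inr h))

end Cfsg.Agent.S4023
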