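import Mathlib
import Cfsg.Statements.S4024
import Cfsg.Agent.S4023
import Cfsg.Agent.Lib.Core.Series
import Cfsg.Agent.Lib.Core.PSolvable
import Cfsg.Agent.Lib.Coprime.SchurZassenhaus

set_option autoImplicit false
set_option linter.all false
open Cfsg

namespace Cfsg.Agent.S4024

open Subgroup Cfsg.Agent.Lib.PGroups.Basic Cfsg.Agent.Lib.Core.Basic Cfsg.Agent.Lib.Core.Series
  Cfsg.Agent.Lib.Core.PSolvable

/-- In a `p`-group of exponent `p`, a proper nontrivial subgroup is not the only one of its order. -/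
lemma other_subgroup {p : ℕ} [hp : Fact p.Prime] :
    ∀ (n : ℕ) (X : Type _) [Group X] [Finite X], Nat.card X = n → IsPGroup p X → (∀ x : X, x ^ p = 1) →
    ∀ D : Subgroup X, D ≠ ⊥ → D ≠ ⊤ → ∃ D' : Subgroup X, D' ≠ D ∧ Nat.card D' = Nat.card D := by
  intro n
  induction n using Nat.strong_induction_on with
  | _ n ih =>
    intro X _ _ hn hX hexp D hb ht
    obtain ⟨M, hM, hDM⟩ : ∃ M : Subgroup X, IsCoatom M ∧ D ≤ M := by
      rcases eq_top_or_exists_le_coatom D with h | h
      · exact absurd h ht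
      · exact h
    have hidx := index_eq_of_isCoatom hX hM
    by_cases hDeq : D = M
    · subst hDeq
      -- another maximal subgroup
      obtain ⟨e, he⟩ : ∃ e : X, e ∉ D := by
        by_contra hcon
        push Not at hcon
        exact ht (eq_top_iff.2 (fun x _ => hcon x))
      have hzt : zpowers e ≠ ⊤ := by
        intro htop
        have hcard : Nat.card X ≤ p := by
          have h1 : Nat.card (zpowers e) = Nat.card X := by
            rw [htop]
            exact Nat.card_congr Subgroup.topEquiv.toEquiv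
          rw [← h1, Nat.card_zpowers]
          exact Nat.le_of_dvd hp.out.pos (orderOf_dvd_of_pow_eq_one (hexp e))
        have h2 : D.index * Nat.card D = Nat.card X := by
          rw [mul_comm]
          exact D.card_mul_index
        rw [hidx] at h2
        have h3 : Nat.card D = 1 := by
          have hc : 0 < Nat.card D := Nat.card_pos
          have : p * Nat.card D ≤ p * 1 := by
            rw [h2]
            simpa using hcard
          have := Nat.le_of_mul_le_mul_left this hp.out.pos
          omega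
        exact hb ((Subgroup.card_eq_one).1 h3)
      obtain ⟨M', hM', heM'⟩ : ∃ M' : Subgroup X, IsCoatom M' ∧ zpowers e ≤ M' := by
        rcases eq_top_or_exists_le_coatom (zpowers e) with h | h
        · exact absurd h hzt
        · exact h
      refine ⟨M', ?_, ?_⟩
      · rintro rfl
        exact he (heM' (mem_zpowers e))
      · have h1 := M'.card_mul_index
        have h2 := D.card_mul_index
        rw [index_eq_of_isCoatom hX hM'] at h1
        rw [hidx] at h2
        exact Nat.eq_of_mul_eq_mul_right hp.out.pos (h1.trans h2.symm)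
    · -- inside `M`
      have hcardM : Nat.card M < n := by
        have h1 := M.card_mul_index
        rw [hidx, hn] at h1
        have hc : 0 < Nat.card M := Nat.card_pos
        have := hp.out.two_le
        nlinarith
      have hb1 : D.subgroupOf M ≠ ⊥ := by
        intro h
        apply hb
        rw [eq_bot_iff]
        intro x hx
        have : (⟨x, hDM hx⟩ : M) ∈ D.subgroupOf M := hx
        rw [h, Subgroup.mem_bot] at this
        simpa using congrArg Subtype.val this
      have ht1 : D.subgroupOf M ≠ ⊤ := by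
        intro h
        apply hDeq
        apply le_antisymm hDM
        intro x hx
        have : (⟨x, hx⟩ : M) ∈ D.subgroupOf M := by rw [h]; trivial
        exact this
      obtain ⟨D₁, hD₁, hD₁c⟩ := ih _ hcardM M rfl (hX.to_subgroup M)
        (fun x => Subtype.ext (hexp x)) (D.subgroupOf M) hb1 ht1
      have hcD : Nat.card (D.subgroupOf M) = Nat.card D :=
        Nat.card_congr (Subgroup.subgroupOfEquivOfLe hDM).toEquiv
      refine ⟨D₁.map M.subtype, ?_, ?_⟩
      · intro h
        apply hD₁
        rw [← h]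
        ext x
        simp [Subgroup.mem_subgroupOf]
      · rw [Subgroup.card_map_of_injective M.subtype_injective, hD₁c, hcD]

/-- The main step. -/
lemma core_step {G : Type*} [Group G] [Finite G] {p : ℕ} [hp : Fact p.Prime]
    (hC : ∀ H K : Subgroup G, IsPGroup p H → IsPGroup p K → Nat.card H = Nat.card K →
      ∃ g : G, K = H.map (MulAut.conj g).toMonoidHom) (P : Sylow p G)
    (N L : Subgroup G) [N.Normal] [hLn : L.Normal] (hNL : N ≤ L) (hNc : (Nat.card N).Coprime p)
    (d : ℕ) (hd : d ≠ 0) (hrel : N.relIndex L = p ^ d)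
    (hexp : ∀ x ∈ (P : Subgroup G), x ^ p = 1) :
    (P : Subgroup G) ≤ L ∧ IsMulCommutative (P : Subgroup G) := by
  classical
  have hpp : p.Prime := hp.out
  have hLcard : Nat.card L = Nat.card N * p ^ d := by
    have h := Cfsg.Agent.Lib.PGroups.MaxAbelian.relIndex_mul_card hNL
    rw [hrel] at h
    rw [← h, mul_comm]
  obtain ⟨Q₀, hQ₀⟩ := Sylow.exists_subgroup_card_pow_prime (G := L) p (n := d) (by
    rw [hLcard]
    exact dvd_mul_left _ _)
  let Q : Subgroup G := Q₀.map L.subtype
  have hQcard : Nat.card Q = p ^ d := by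
    rw [Subgroup.card_map_of_injective L.subtype_injective, hQ₀]
  have hQp : IsPGroup p Q := IsPGroup.of_card hQcard
  have hQL : Q ≤ L := by
    rintro _ ⟨x, -, rfl⟩
    exact x.2
  have hR : ∀ R : Subgroup G, IsPGroup p R → Nat.card R = p ^ d → R ≤ L := by
    intro R hRp hRc
    obtain ⟨g, rfl⟩ := hC Q R hQp hRp (hQcard.trans hRc.symm)
    rintro _ ⟨x, hx, rfl⟩
    exact hLn.conj_mem x (hQL hx) g
  -- `p`-subgroups of `L` have order dividing `p ^ d`
  have hPN : ∀ R : Subgroup G, IsPGroup p R → R ⊓ N = ⊥ := by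
    intro R hRp
    apply Cfsg.Agent.Lib.Coprime.SchurZassenhaus.disjoint_of_coprime_card
    obtain ⟨k, hk⟩ := IsPGroup.iff_card.1 hRp
    rw [hk]
    exact (Nat.Coprime.pow_left k hNc.symm)
  have hS : ∀ R : Subgroup G, IsPGroup p R → R ≤ L → Nat.card R ∣ p ^ d := by
    intro R hRp hRL
    have h1 : R.map (QuotientGroup.mk' N) ≤ L.map (QuotientGroup.mk' N) := Subgroup.map_mono hRL
    have h2 : Nat.card (R.map (QuotientGroup.mk' N)) = Nat.card R := by
      apply Cfsg.Agent.Lib.Coprime.SchurZassenhaus.card_map_of_disjoint_ker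
      rw [QuotientGroup.ker_mk']
      exact hPN R hRp
    have h3 : Nat.card (L.map (QuotientGroup.mk' N)) = p ^ d := by
      rw [← hrel, ← Subgroup.relIndex_ker, QuotientGroup.ker_mk']
    rw [← h2, ← h3]
    exact Subgroup.card_dvd_of_le h1
  -- the subgroup `D₀`
  have hpdP : p ^ d ∣ Nat.card P := by
    apply Sylow.pow_dvd_card_of_pow_dvd_card
    rw [← hQcard]
    exact Subgroup.card_subgroup_dvd_card Q
  obtain ⟨D₀, hD₀⟩ := Sylow.exists_subgroup_card_pow_prime (G := (P : Subgroup G)) p (n := d) hpdP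
  have hsub := (P : Subgroup G).subtype_injective
  have hmapL : ∀ D : Subgroup (P : Subgroup G), Nat.card D = p ^ d →
      D.map (P : Subgroup G).subtype = (P : Subgroup G) ⊓ L := by
    intro D hD
    have h1 : D.map (P : Subgroup G).subtype ≤ L := by
      apply hR
      · exact (P.isPGroup'.to_subgroup D).map _
      · rw [Subgroup.card_map_of_injective hsub, hD]
    have h2 : D.map (P : Subgroup G).subtype ≤ (P : Subgroup G) ⊓ L := by
      refine le_inf ?_ h1
      rintro _ ⟨x, -, rfl⟩
      exact x.2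
    apply Subgroup.eq_of_le_of_card_ge h2
    rw [Subgroup.card_map_of_injective hsub, hD]
    apply Nat.le_of_dvd (pow_pos hpp.pos d)
    apply hS
    · exact P.isPGroup'.to_le inf_le_left
    · exact inf_le_right
  have hD₀t : D₀ = ⊤ := by
    by_contra hne
    have hb : D₀ ≠ ⊥ := by
      rintro rfl
      rw [Subgroup.card_bot] at hD₀
      have := Nat.one_lt_pow hd hpp.one_lt
      omega
    obtain ⟨D', hD', hc⟩ := other_subgroup _ (P : Subgroup G) rfl P.isPGroup'
      (fun x => Subtype.ext (hexp x x.2)) D₀ hb hne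
    apply hD'
    have h1 := hmapL D' (hc.trans hD₀)
    have h2 := hmapL D₀ hD₀
    exact Subgroup.map_injective hsub (h1.trans h2.symm)
  have hPL : (P : Subgroup G) ≤ L := by
    have h2 := hmapL D₀ hD₀
    rw [hD₀t, ← MonoidHom.range_eq_map, Subgroup.range_subtype] at h2
    exact inf_eq_left.1 h2.symm
  refine ⟨hPL, ?_⟩
  -- commutativity
  by_contra hnc
  have hPcard : Nat.card P = p ^ d := by
    rw [← hD₀, hD₀t]
    exact (Nat.card_congr Subgroup.topEquiv.toEquiv).symm
  haveI hNn : N.Normal := inferInstance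
  have hsup : (P : Subgroup G) ⊔ N = L := by
    apply Subgroup.eq_of_le_of_card_ge (sup_le hPL hNL)
    rw [Cfsg.Agent.Lib.Coprime.SchurZassenhaus.card_sup_of_disjoint N (P : Subgroup G) (hPN _ P.isPGroup'),
      hLcard, hPcard]
  have hinf : (P : Subgroup G) ⊓ N = ⊥ := hPN _ P.isPGroup'
  -- a central element
  have hnontriv : (⊤ : Subgroup (P : Subgroup G)) ≠ ⊥ := by
    intro h
    apply hnc
    have : Subsingleton (P : Subgroup G) := by
      constructor
      intro a b
      have ha : a ∈ (⊤ : Subgroup (P : Subgroup G)) := trivial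
      have hb : b ∈ (⊤ : Subgroup (P : Subgroup G)) := trivial
      rw [h, Subgroup.mem_bot] at ha hb
      rw [ha, hb]
    exact ⟨⟨fun a b => Subsingleton.elim _ _⟩⟩
  obtain ⟨z, -, hzc, hzo⟩ := exists_central_orderOf_eq P.isPGroup' ⊤ hnontriv
  -- a noncentral element
  obtain ⟨y, hyc⟩ : ∃ y : (P : Subgroup G), ∃ u : (P : Subgroup G), y * u ≠ u * y := by
    by_contra hcon
    push Not at hcon
    exact hnc ⟨⟨hcon⟩⟩
  obtain ⟨u₀, hu₀⟩ := hyc
  have hy1 : (y : G) ≠ 1 := by
    intro h
    apply hu₀
    have : y = 1 := Subtype.ext h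
    rw [this]
    simp
  have hoy : orderOf (y : G) = p := orderOf_eq_prime (hexp y y.2) hy1
  have hoz : orderOf (z : G) = p := by rw [Subgroup.orderOf_coe, hzo]
  have hpz : IsPGroup p (zpowers (z : G)) := by
    apply IsPGroup.of_card (n := 1)
    rw [Nat.card_zpowers, hoz, pow_one]
  have hpy : IsPGroup p (zpowers (y : G)) := by
    apply IsPGroup.of_card (n := 1)
    rw [Nat.card_zpowers, hoy, pow_one]
  obtain ⟨g, hg⟩ := hC _ _ hpz hpy (by rw [Nat.card_zpowers, Nat.card_zpowers, hoz, hoy])
  have hymem : (y : G) ∈ (zpowers (z : G)).map (MulAut.conj g).toMonoidHom := by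
    rw [← hg]
    exact mem_zpowers _
  obtain ⟨w, hw, hwy⟩ := hymem
  have hwy' : (y : G) = g * w * g⁻¹ := hwy.symm
  have hwP : w ∈ (P : Subgroup G) := (zpowers_le.2 z.2) hw
  have hwc : ∀ a ∈ (P : Subgroup G), w * a = a * w := by
    intro a ha
    obtain ⟨i, rfl⟩ := mem_zpowers_iff.1 hw
    have h1 : Commute (z : G) a := by
      have := mem_center_iff.1 hzc ⟨a, ha⟩
      exact (congrArg Subtype.val this).symm
    exact (h1.zpow_left i).eq
  apply hu₀
  apply Subtype.ext
  show (y : G) * u₀ = u₀ * y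
  -- the commutator lies in `P ⊓ N`
  set u : G := u₀.1 with hu
  have huL : g⁻¹ * u * g ∈ L := by
    have := hLn.conj_mem u (hPL u₀.2) g⁻¹
    simpa using this
  rw [← hsup, Subgroup.mem_sup_of_normal_right] at huL
  obtain ⟨a, ha, n, hn, han⟩ := huL
  have hcomm1 : w * (g⁻¹ * u * g) * w⁻¹ * (g⁻¹ * u * g)⁻¹ ∈ N := by
    rw [← han]
    have h1 : w * (a * n) * w⁻¹ * (a * n)⁻¹ = a * (w * n * w⁻¹ * n⁻¹) * a⁻¹ := by
      calc w * (a * n) * w⁻¹ * (a * n)⁻¹ = (w * a) * n * w⁻¹ * (n⁻¹ * a⁻¹) := by group
        _ = (a * w) * n * w⁻¹ * (n⁻¹ * a⁻¹) := by rw [hwc a ha]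
        _ = _ := by group
    rw [h1]
    apply hNn.conj_mem
    exact N.mul_mem (hNn.conj_mem n hn w) (N.inv_mem hn)
  have hcomm2 : (y : G) * u * (y : G)⁻¹ * u⁻¹ ∈ N := by
    have h2 : (y : G) * u * (y : G)⁻¹ * u⁻¹
        = g * (w * (g⁻¹ * u * g) * w⁻¹ * (g⁻¹ * u * g)⁻¹) * g⁻¹ := by
      rw [hwy']
      group
    rw [h2]
    exact hNn.conj_mem _ hcomm1 g
  have hcomm3 : (y : G) * u * (y : G)⁻¹ * u⁻¹ ∈ (P : Subgroup G) := by
    have hu' : u ∈ (P : Subgroup G) := u₀.2
    exact mul_mem (mul_mem (mul_mem y.2 hu') (inv_mem y.2)) (inv_mem hu')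
  have hcomm4 : (y : G) * u * (y : G)⁻¹ * u⁻¹ = 1 := by
    have : (y : G) * u * (y : G)⁻¹ * u⁻¹ ∈ (P : Subgroup G) ⊓ N := Subgroup.mem_inf.2 ⟨hcomm3, hcomm2⟩
    rw [hinf, Subgroup.mem_bot] at this
    exact this
  have h5 := mul_inv_eq_one.1 hcomm4
  exact mul_inv_eq_iff_eq_mul.1 h5

/-- Let p be an odd prime and G a finite group in which any two p-subgroups of the same order are conjugate, with Sylow p-subgroup P. If H is a normal p-solvable subgroup of G whose order is divisible by p, then P is abelian, and either P ≤ H or P is cyclic. -/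
theorem result {G : Type*} [Group G] [Finite G]
    {p : ℕ} [Fact p.Prime] (hp : p ≠ 2) (hC : ∀ H K : Subgroup G, IsPGroup p H → IsPGroup p K → Nat.card H = Nat.card K →
      ∃ g : G, K = H.map (MulAut.conj g).toMonoidHom) (P : Sylow p G)
    (H : Subgroup G) [H.Normal] (hsolv : Cfsg.IsPSolvable p H) (hdiv : p ∣ Nat.card H) :
    IsMulCommutative P ∧ ((P : Subgroup G) ≤ H ∨ IsCyclic P) := by
  classical
  have hpp : p.Prime := Fact.out
  have hmain := Cfsg.Agent.S4023.result hC P
  by_cases hcyc : IsCyclic P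
  · exact ⟨IsCyclic.commutative, Or.inr hcyc⟩
  -- exponent `p`
  have hexp : ∀ x ∈ (P : Subgroup G), x ^ p = 1 := by
    rcases hmain with h | h | h | h
    · exact absurd h hcyc
    · exact h.2
    · exact absurd h.1 hp
    · obtain ⟨-, -, -, h4⟩ := h
      intro x hx
      have := Monoid.pow_exponent_eq_one (⟨x, hx⟩ : (P : Subgroup G))
      rw [h4] at this
      exact congrArg Subtype.val this
  -- the normal section
  let A₀ := pPrimeCore p H
  let B₀ := pPrimePCore p H
  let Y := H ⧸ A₀
  have hA₀c : (Nat.card A₀).Coprime p := pPrimeCore_coprime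
  have hYcard : Nat.card H = Nat.card A₀ * Nat.card Y := by
    rw [mul_comm]
    exact ((A₀.index_mul_card)).symm
  have hpY : p ∣ Nat.card Y := by
    rw [hYcard] at hdiv
    exact (Nat.Coprime.dvd_mul_left (hA₀c.symm)).1 hdiv
  haveI hYn : Nontrivial Y := by
    apply Finite.one_lt_card_iff_nontrivial.1
    have := Nat.le_of_dvd Nat.card_pos hpY
    have h2 := hpp.two_le
    omega
  have hYs : IsPSolvable p Y := isPSolvable_of_surjective (QuotientGroup.mk' A₀) (QuotientGroup.mk'_surjective _) hsolv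
  have hcoreY : pCore p Y ≠ ⊥ := by
    obtain ⟨N', hN'n, hN'b, hN'c⟩ := isPSolvable_exists_normal hYs
    rcases hN'c with ⟨m, hm⟩ | hc
    · intro h
      apply hN'b
      have := le_pCore hN'n (IsPGroup.of_card hm)
      rw [h] at this
      exact le_bot_iff.1 this
    · exfalso
      apply hN'b
      have := le_pPrimeCore hN'n hc
      rw [show pPrimeCore p Y = ⊥ from pPrimeCore_quotient_eq_bot] at this
      exact le_bot_iff.1 this
  obtain ⟨d, hd⟩ := exists_card_pCore (p := p) (G := Y)
  have hd0 : d ≠ 0 := by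
    rintro rfl
    apply hcoreY
    rw [pow_zero] at hd
    exact Subgroup.card_eq_one.1 hd
  have hA₀B₀ : A₀ ≤ B₀ := pPrimeCore_le_pPrimePCore
  have hrel₀ : A₀.relIndex B₀ = p ^ d := by
    rw [← hd, ← map_mk_pPrimePCore, ← Subgroup.relIndex_ker, QuotientGroup.ker_mk']
  let N : Subgroup G := A₀.map H.subtype
  let L : Subgroup G := B₀.map H.subtype
  haveI hNn : N.Normal := inferInstance
  haveI hLn : L.Normal := inferInstance
  have hNL : N ≤ L := Subgroup.map_mono hA₀B₀
  have hNc : (Nat.card N).Coprime p := by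
    have : Nat.card N = Nat.card A₀ := Subgroup.card_map_of_injective H.subtype_injective
    rw [this]
    exact hA₀c
  have hrel : N.relIndex L = p ^ d := by
    rw [← hrel₀]
    exact Subgroup.relIndex_map_map_of_injective _ _ H.subtype_injective
  have hLH : L ≤ H := by
    rintro _ ⟨x, -, rfl⟩
    exact x.2
  obtain ⟨h1, h2⟩ := core_step hC P N L hNL hNc d hd0 hrel hexp
  exact ⟨h2, Or.inl (h1.trans hLH)⟩

end Cfsg.Agent.S4024
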