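import Mathlib
import Cfsg.Statements.S4028

set_option autoImplicit false
set_option linter.all false
open Cfsg
open scoped Pointwise

namespace Cfsg.Agent.S4028

variable {G : Type*} [Group G]

lemma mem_cent {x z : G} : z ∈ Subgroup.centralizer ({x} : Set G) ↔ z * x = x * z := by
  rw [Subgroup.mem_centralizer_iff]
  constructor
  · intro h
    exact (h x (Set.mem_singleton x)).symm
  · rintro h _ rfl
    exact h.symm

lemma exists_pow_of_mem_normalizer [Finite G] {x g : G}
    (hg : g ∈ Subgroup.normalizer ((Subgroup.zpowers x : Subgroup G) : Set G)) :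
    ∃ k : ℕ, g * x * g⁻¹ = x ^ k := by
  have h1 := (Subgroup.mem_normalizer_iff.1 hg x).1 (Subgroup.mem_zpowers x)
  have h2 := (mem_powers_iff_mem_zpowers).2 h1
  obtain ⟨k, hk⟩ := h2
  exact ⟨k, hk.symm⟩

lemma pow_commute_of_conj {p n k : ℕ} {x g : G} (hk : g * x * g⁻¹ = x ^ k) (hp : (p : ℤ) ∣ (k : ℤ) - 1)
    (hn : x ^ p ^ n = 1) : g ^ p ^ n * x = x * g ^ p ^ n := by
  have hk2 := dvd_sub_pow_of_dvd_sub hp n
  rw [one_pow] at hk2
  have hyo : (orderOf x : ℤ) ∣ ((p : ℤ) ^ (n + 1)) := by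
    have h1 := orderOf_dvd_of_pow_eq_one hn
    have h2 : orderOf x ∣ p ^ (n + 1) := h1.trans (pow_dvd_pow p (Nat.le_succ n))
    exact_mod_cast h2
  have hgpow : ∀ i : ℕ, g ^ i * x * g⁻¹ ^ i = x ^ (k ^ i) := by
    intro i
    induction i with
    | zero => simp
    | succ i ih =>
      have h1 : g ^ (i + 1) * x * g⁻¹ ^ (i + 1) = g * (g ^ i * x * g⁻¹ ^ i) * g⁻¹ := by
        rw [pow_succ' g i, pow_succ g⁻¹ i]
        group
      rw [h1, ih, ← conj_pow, hk, ← pow_mul, pow_succ, mul_comm]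
  have h1 := hgpow (p ^ n)
  have h2 : x ^ (k ^ p ^ n) = x := by
    have h3 : x ^ ((k ^ p ^ n : ℕ) : ℤ) = x ^ (1 : ℤ) := by
      rw [zpow_eq_zpow_iff_modEq]
      have h4 : ((orderOf x : ℕ) : ℤ) ∣ ((k : ℤ) ^ p ^ n - 1) := hyo.trans hk2
      exact (Int.modEq_iff_dvd.2 (by
        have h5 : (1 : ℤ) - ((k ^ p ^ n : ℕ) : ℤ) = -((k : ℤ) ^ p ^ n - 1) := by
          push_cast; ring
        rw [h5]
        exact (dvd_neg).2 h4))
    rw [zpow_natCast, zpow_one] at h3
    exact h3
  rw [h2] at h1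
  calc g ^ p ^ n * x = (g ^ p ^ n * x * g⁻¹ ^ p ^ n) * g ^ p ^ n := by
        rw [inv_pow]; group
    _ = x * g ^ p ^ n := by rw [h1]

/-- Let G be a finite group with Sylow 2-subgroup P. Then N_G(⟨x⟩) = C_G(x) holds for every 2-element x of G if and only if N_P(⟨y⟩) = C_P(y) holds for every y ∈ P (computed inside P). -/
theorem result {G : Type*} [Group G] [Finite G] (P : Sylow 2 G) :
    (∀ x : G, (∀ r : ℕ, r.Prime → r ∣ orderOf x → r = 2) →
      Subgroup.normalizer ((Subgroup.zpowers x : Subgroup G) : Set G) ≤ Subgroup.centralizer {x}) ↔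
    (∀ y : ↥(P : Subgroup G), Subgroup.normalizer ((Subgroup.zpowers y : Subgroup ↥(P : Subgroup G)) : Set ↥(P : Subgroup G)) ≤
        Subgroup.centralizer {y}) := by
  haveI f2 : Fact (Nat.Prime 2) := ⟨Nat.prime_two⟩
  constructor
  · intro hG y u hu
    have hord : ∀ r : ℕ, r.Prime → r ∣ orderOf (y : G) → r = 2 := by
      intro r hr hry
      obtain ⟨m, hm⟩ := IsPGroup.iff_card.1 P.isPGroup'
      have h6 : orderOf (y : G) ∣ 2 ^ m := hm ▸ Subgroup.orderOf_dvd_natCard _ y.2
      have := hr.dvd_of_dvd_pow (hry.trans h6)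
      exact (Nat.prime_dvd_prime_iff_eq hr Nat.prime_two).1 this
    have hmap : ∀ v : ↥(P : Subgroup G),
        v ∈ Subgroup.normalizer ((Subgroup.zpowers y : Subgroup ↥(P : Subgroup G)) : Set ↥(P : Subgroup G)) →
        ∀ h ∈ Subgroup.zpowers (y : G), (v : G) * h * (v : G)⁻¹ ∈ Subgroup.zpowers (y : G) := by
      intro v hv h hh
      obtain ⟨i, rfl⟩ := hh
      have h1 := (Subgroup.mem_normalizer_iff.1 hv y).1 (Subgroup.mem_zpowers y)
      obtain ⟨j, hj⟩ := h1
      have h2 : (v : G) * (y : G) * (v : G)⁻¹ = (y : G) ^ j := by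
        have := congrArg Subtype.val hj
        push_cast at this
        exact this.symm
      have h3 : (v : G) * (y : G) ^ i * (v : G)⁻¹ = ((y : G) ^ j) ^ i := by
        rw [← h2, conj_zpow]
      rw [h3]
      exact Subgroup.zpow_mem _ (Subgroup.zpow_mem _ (Subgroup.mem_zpowers _) _) _
    have hu' : (u : G) ∈ Subgroup.normalizer ((Subgroup.zpowers (y : G) : Subgroup G) : Set G) := by
      rw [Subgroup.mem_normalizer_iff]
      intro h
      refine ⟨hmap u hu h, fun hh => ?_⟩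
      have h1 := hmap u⁻¹ (Subgroup.inv_mem _ hu) _ hh
      have h2 : ((u⁻¹ : ↥(P : Subgroup G)) : G) * ((u : G) * h * (u : G)⁻¹) * ((u⁻¹ : ↥(P : Subgroup G)) : G)⁻¹ = h := by
        push_cast
        group
      rwa [h2] at h1
    have h1 := mem_cent.1 (hG _ hord hu')
    exact mem_cent.2 (Subtype.ext h1)
  · intro hP x hx g hg
    by_cases hx1 : x = 1
    · rw [hx1, mem_cent]
      simp
    have hxord : orderOf x = 2 ^ (orderOf x).primeFactorsList.length :=
      Nat.eq_prime_pow_of_unique_prime_dvd (orderOf_pos x).ne' (fun {d} hd hdo => hx d hd hdo)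
    set n := (orderOf x).primeFactorsList.length with hn
    have hn0 : n ≠ 0 := by
      intro h
      rw [h, pow_zero] at hxord
      exact hx1 (orderOf_eq_one_iff.1 hxord)
    -- the case of `2`-elements
    have hstep : ∀ w : G, (∃ s, orderOf w ∣ 2 ^ s) →
        w ∈ Subgroup.normalizer ((Subgroup.zpowers x : Subgroup G) : Set G) → w * x = x * w := by
      rintro w ⟨s, hs⟩ hw
      obtain ⟨j, -, hj⟩ := (Nat.dvd_prime_pow Nat.prime_two).1 hs
      have hpw : IsPGroup 2 (Subgroup.zpowers w) :=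
        IsPGroup.of_card (n := j) (by rw [Nat.card_zpowers, hj])
      have hpx : IsPGroup 2 (Subgroup.zpowers x) :=
        IsPGroup.of_card (n := n) (by rw [Nat.card_zpowers]; exact hxord)
      have hT := IsPGroup.to_sup_of_normal_right' hpw hpx ((Subgroup.zpowers_le).2 hw)
      obtain ⟨V, hV⟩ := IsPGroup.exists_le_sylow hT
      obtain ⟨a, ha⟩ := MulAction.exists_smul_eq G V P
      have hPmem : ∀ z : G, z ∈ (V : Subgroup G) → a * z * a⁻¹ ∈ (P : Subgroup G) := by
        intro z hz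
        have h1 : ((a • V : Sylow 2 G) : Subgroup G) = MulAut.conj a • (V : Subgroup G) := by
          rw [Sylow.smul_def]; rfl
        have h2 : MulAut.conj a • z ∈ MulAut.conj a • (V : Subgroup G) :=
          Subgroup.smul_mem_pointwise_smul _ _ _ hz
        rw [← h1, ha, MulAut.smul_def, MulAut.conj_apply] at h2
        exact h2
      have hxV : x ∈ (V : Subgroup G) := hV (Subgroup.mem_sup_right (Subgroup.mem_zpowers x))
      have hwV : w ∈ (V : Subgroup G) := hV (Subgroup.mem_sup_left (Subgroup.mem_zpowers w))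
      let y : ↥(P : Subgroup G) := ⟨a * x * a⁻¹, hPmem x hxV⟩
      let u : ↥(P : Subgroup G) := ⟨a * w * a⁻¹, hPmem w hwV⟩
      have hv : ∀ v : G, v ∈ Subgroup.normalizer ((Subgroup.zpowers x : Subgroup G) : Set G) →
          ∀ hvP : a * v * a⁻¹ ∈ (P : Subgroup G), ∀ h : ↥(P : Subgroup G), h ∈ Subgroup.zpowers y →
          (⟨a * v * a⁻¹, hvP⟩ : ↥(P : Subgroup G)) * h * (⟨a * v * a⁻¹, hvP⟩ : ↥(P : Subgroup G))⁻¹ ∈ Subgroup.zpowers y := by
        intro v hv hvP h hh
        obtain ⟨k, hk⟩ := exists_pow_of_mem_normalizer hv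
        obtain ⟨i, rfl⟩ := hh
        rw [← conj_zpow]
        apply Subgroup.zpow_mem
        refine ⟨(k : ℤ), ?_⟩
        apply Subtype.ext
        push_cast
        rw [zpow_natCast]
        change (a * x * a⁻¹) ^ k = (a * v * a⁻¹) * (a * x * a⁻¹) * (a * v * a⁻¹)⁻¹
        rw [conj_pow, ← hk]
        group
      have huN : u ∈ Subgroup.normalizer ((Subgroup.zpowers y : Subgroup ↥(P : Subgroup G)) : Set ↥(P : Subgroup G)) := by
        rw [Subgroup.mem_normalizer_iff]
        intro h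
        refine ⟨hv w hw _ h, fun hh => ?_⟩
        have hw' : w⁻¹ ∈ Subgroup.normalizer ((Subgroup.zpowers x : Subgroup G) : Set G) := Subgroup.inv_mem _ hw
        have h3 : a * w⁻¹ * a⁻¹ ∈ (P : Subgroup G) := by
          have : a * w⁻¹ * a⁻¹ = (a * w * a⁻¹)⁻¹ := by group
          rw [this]
          exact Subgroup.inv_mem _ u.2
        have h1 := hv w⁻¹ hw' h3 _ hh
        have h2 : (⟨a * w⁻¹ * a⁻¹, h3⟩ : ↥(P : Subgroup G)) = u⁻¹ := by
          apply Subtype.ext
          change a * w⁻¹ * a⁻¹ = (a * w * a⁻¹)⁻¹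
          group
        rw [h2] at h1
        have h4 : u⁻¹ * (u * h * u⁻¹) * u⁻¹⁻¹ = h := by group
        rwa [h4] at h1
      have h5 := mem_cent.1 (hP y huN)
      have h6 : (a * w * a⁻¹) * (a * x * a⁻¹) = (a * x * a⁻¹) * (a * w * a⁻¹) :=
        congrArg Subtype.val h5
      have h7 : a * (w * x) * a⁻¹ = a * (x * w) * a⁻¹ := by
        calc a * (w * x) * a⁻¹ = (a * w * a⁻¹) * (a * x * a⁻¹) := by group
          _ = (a * x * a⁻¹) * (a * w * a⁻¹) := h6
          _ = _ := by group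
      exact mul_left_cancel (mul_right_cancel h7)
    -- general case
    obtain ⟨k, hk⟩ := exists_pow_of_mem_normalizer hg
    have hkodd : (2 : ℤ) ∣ (k : ℤ) - 1 := by
      have hk2 : ¬ 2 ∣ k := by
        rintro ⟨c, rfl⟩
        have h1 : orderOf (g * x * g⁻¹) = orderOf x := by
          have := (MulAut.conj g).orderOf_eq x
          rwa [MulAut.conj_apply] at this
        rw [hk] at h1
        obtain ⟨n', hn'⟩ : ∃ n', n = n' + 1 := ⟨n - 1, by omega⟩
        have h2 : (x ^ (2 * c)) ^ 2 ^ n' = 1 := by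
          rw [← pow_mul, mul_comm 2 c, mul_assoc, ← pow_succ', ← hn', ← hxord, mul_comm, pow_mul,
            pow_orderOf_eq_one, one_pow]
        have h3 := orderOf_dvd_of_pow_eq_one h2
        rw [h1, hxord, hn'] at h3
        have := (Nat.pow_dvd_pow_iff_le_right (by norm_num : 1 < 2)).1 h3
        omega
      have : Odd k := Nat.odd_iff.2 (by omega)
      obtain ⟨c, rfl⟩ := this
      exact ⟨c, by push_cast; ring⟩
    have h1 : g ^ 2 ^ n * x = x * g ^ 2 ^ n :=
      pow_commute_of_conj (p := 2) hk (by exact_mod_cast hkodd) (by rw [← hxord, pow_orderOf_eq_one])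
    obtain ⟨s, o', ho', ho⟩ := Nat.exists_eq_pow_mul_and_not_dvd (orderOf_pos g).ne' 2 (by norm_num)
    have h2 : g ^ o' * x = x * g ^ o' := by
      apply hstep
      · refine ⟨s, orderOf_dvd_of_pow_eq_one ?_⟩
        rw [← pow_mul, mul_comm, ← ho, pow_orderOf_eq_one]
      · exact Subgroup.pow_mem _ hg _
    have hcop : IsCoprime ((2 ^ n : ℕ) : ℤ) (o' : ℤ) := by
      rw [Nat.isCoprime_iff_coprime]
      exact Nat.Coprime.pow_left n ((Nat.Prime.coprime_iff_not_dvd Nat.prime_two).2 ho')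
    obtain ⟨a, b, hab'⟩ := hcop
    have hg' : g = (g ^ (2 ^ n)) ^ a * (g ^ o') ^ b := by
      rw [← zpow_natCast, ← zpow_natCast g o', ← zpow_mul, ← zpow_mul, ← zpow_add]
      have : ((2 ^ n : ℕ) : ℤ) * a + (o' : ℤ) * b = 1 := by linarith
      rw [this, zpow_one]
    rw [mem_cent, hg']
    have h3 : Commute (g ^ 2 ^ n) x := h1
    have h4 : Commute (g ^ o') x := h2
    exact ((h3.zpow_left a).mul_left (h4.zpow_left b)).eq

end Cfsg.Agent.S4028
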