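import Cfsg.Statements.S4029
import Cfsg.Agent.Lib.PGroups.RealClasses

set_option autoImplicit false
open Cfsg

namespace Cfsg.Agent.S4029



/-- Let P be a finite 2-group in which N_P(⟨y⟩) = C_P(y) for every y ∈ P. If s is the number of conjugacy classes of involutions of P, then #(P/Φ(P)) ≤ s + 1; in particular the subgroup generated by the involutions of P has order at least #(P/Φ(P)). -/
theorem result {P : Type*} [Group P] [Finite P] (hP : IsPGroup 2 P)
    (hirr : ∀ y : P, Subgroup.normalizer ((Subgroup.zpowers y : Subgroup P) : Set P) ≤ Subgroup.centralizer {y}) :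
    Nat.card (P ⧸ frattini P) ≤ Nat.card {c : ConjClasses P // ∃ y : P, ConjClasses.mk y = c ∧ orderOf y = 2} + 1 ∧
    Nat.card (P ⧸ frattini P) ≤ Nat.card (Subgroup.closure {y : P | orderOf y = 2}) := by
  exact Cfsg.Agent.Lib.PGroups.RealClasses.main hP hirr

end Cfsg.Agent.S4029
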