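import Mathlib
import Cfsg.Statements.S4035

set_option autoImplicit false
set_option linter.all false
open Cfsg
open scoped Pointwise

namespace Cfsg.Agent.S4035

variable {G : Type*} [Group G]

lemma ncard_conjClass (x : G) :
    (ConjClasses.mk x).carrier.ncard = (Subgroup.centralizer ({x} : Set G)).index := by
  rw [← ConjAct.orbit_eq_carrier_conjClasses, ← MulAction.index_stabilizer]
  have h : Subgroup.centralizer ({x} : Set G) =
      (MulAction.stabilizer (ConjAct G) x).comap (ConjAct.toConjAct : G ≃* ConjAct G).toMonoidHom := by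
    ext z
    rw [Subgroup.mem_comap, MulAction.mem_stabilizer_iff, Subgroup.mem_centralizer_iff]
    change _ ↔ (ConjAct.toConjAct z) • x = x
    rw [ConjAct.smul_def, ConjAct.ofConjAct_toConjAct]
    constructor
    · intro h
      have h1 := h x (Set.mem_singleton x)
      rw [← h1]
      group
    · intro h w hw
      have hw' : w = x := hw
      rw [hw']
      calc x * z = (z * x * z⁻¹) * z := by rw [h]
        _ = z * x := by group
  rw [h]
  exact (Subgroup.index_comap_of_surjective _ (ConjAct.toConjAct : G ≃* ConjAct G).surjective).symm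

/-- Jordan's lemma: the conjugates of a proper subgroup do not cover a finite group. -/
lemma eq_top_of_conj_cover [Finite G] (H : Subgroup G) (hcov : ∀ g : G, ∃ a : G, a⁻¹ * g * a ∈ H) :
    H = ⊤ := by
  classical
  letI : Fintype G := Fintype.ofFinite G
  letI : Fintype (G ⧸ H) := Fintype.ofFinite _
  letI : ∀ g : G, Fintype (MulAction.fixedBy (G ⧸ H) g) := fun g => Fintype.ofFinite _
  letI : Fintype (MulAction.orbitRel.Quotient G (G ⧸ H)) := Fintype.ofFinite _
  have hsum := MulAction.sum_card_fixedBy_eq_card_orbits_mul_card_group G (G ⧸ H)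
  have hone : Fintype.card (MulAction.orbitRel.Quotient G (G ⧸ H)) = 1 := by
    rw [Fintype.card_eq_one_iff]
    refine ⟨Quotient.mk _ ((1 : G) : G ⧸ H), ?_⟩
    intro q
    induction q using Quotient.inductionOn with
    | h y =>
      apply Quotient.sound
      change y ∈ MulAction.orbit G ((1 : G) : G ⧸ H)
      obtain ⟨g, rfl⟩ := QuotientGroup.mk_surjective y
      exact ⟨g, by simp [MulAction.Quotient.smul_mk]⟩
  rw [hone, one_mul] at hsum
  have hfix : ∀ g : G, 1 ≤ Fintype.card (MulAction.fixedBy (G ⧸ H) g) := by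
    intro g
    obtain ⟨a, ha⟩ := hcov g
    apply Fintype.card_pos_iff.2
    refine ⟨⟨((a : G) : G ⧸ H), ?_⟩⟩
    rw [MulAction.mem_fixedBy, MulAction.Quotient.smul_mk, smul_eq_mul, QuotientGroup.eq]
    have : (g * a)⁻¹ * a = (a⁻¹ * g * a)⁻¹ := by group
    rw [this]
    exact H.inv_mem ha
  have hfix1 : Fintype.card (MulAction.fixedBy (G ⧸ H) (1 : G)) = Fintype.card (G ⧸ H) := by
    apply Fintype.card_congr
    refine ⟨fun z => z.1, fun z => ⟨z, by simp [MulAction.mem_fixedBy]⟩, fun z => rfl, fun z => rfl⟩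
  have h2 := Finset.add_sum_erase Finset.univ
    (fun g : G => Fintype.card (MulAction.fixedBy (G ⧸ H) g)) (Finset.mem_univ (1 : G))
  have h3 : ∑ g ∈ Finset.univ.erase (1 : G), 1 ≤
      ∑ g ∈ Finset.univ.erase (1 : G), Fintype.card (MulAction.fixedBy (G ⧸ H) g) :=
    Finset.sum_le_sum (fun g _ => hfix g)
  simp only [Finset.sum_const, smul_eq_mul, mul_one, Finset.card_erase_of_mem (Finset.mem_univ (1 : G)),
    Finset.card_univ] at h3
  have hG : 0 < Fintype.card G := Fintype.card_pos
  have hX : Fintype.card (G ⧸ H) ≤ 1 := by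
    rw [hfix1] at h2
    omega
  rw [← Subgroup.index_eq_one]
  have h4 : H.index = Fintype.card (G ⧸ H) := by
    rw [Subgroup.index_eq_card, Nat.card_eq_fintype_card]
  have h5 : 0 < H.index := Nat.pos_of_ne_zero Subgroup.index_ne_zero_of_finite
  omega

/-- Let G be a finite group and p a prime such that p divides the size of no conjugacy class of p-regular elements (elements of order prime to p). Then G is the internal direct product of a Sylow p-subgroup P and a normal subgroup H of order prime to p: P is normal, P ⊓ H = 1 and PH = G. -/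
theorem result {G : Type*} [Group G] [Finite G] {p : ℕ} [Fact p.Prime]
    (h : ∀ x : G, (orderOf x).Coprime p → ¬ p ∣ (ConjClasses.mk x).carrier.ncard) (P : Sylow p G) :
    (P : Subgroup G).Normal ∧ ∃ H : Subgroup G, H.Normal ∧ ¬ p ∣ Nat.card H ∧
      (P : Subgroup G) ⊓ H = ⊥ ∧ (P : Subgroup G) ⊔ H = ⊤ := by
  classical
  have hpp : p.Prime := Fact.out
  -- Sylow subgroups of centralizers of `p`-regular elements
  have hF : ∀ x y : G, (orderOf x).Coprime p → y * x = x * y → (∃ k : ℕ, orderOf y = p ^ k) →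
      ∃ Q : Sylow p G, y ∈ (Q : Subgroup G) ∧
        ∀ w ∈ (Q : Subgroup G), w * x = x * w := by
    rintro x y hx hyx ⟨k, hk⟩
    set C : Subgroup G := Subgroup.centralizer ({x} : Set G) with hC
    have hidx : ¬ p ∣ C.index := by
      rw [hC, ← ncard_conjClass]
      exact h x hx
    have hyC : y ∈ C := by
      rw [hC, Subgroup.mem_centralizer_iff]
      rintro _ rfl
      exact hyx.symm
    have hzp : IsPGroup p (Subgroup.zpowers (⟨y, hyC⟩ : C)) :=
      IsPGroup.of_card (n := k) (by rw [Nat.card_zpowers, Subgroup.orderOf_mk]; exact hk)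
    obtain ⟨T, hT⟩ := IsPGroup.exists_le_sylow hzp
    have hcardT : Nat.card ((T : Subgroup C).map C.subtype) = p ^ (Nat.card G).factorization p := by
      rw [Subgroup.card_map_of_injective C.subtype_injective, Sylow.card_eq_multiplicity]
      congr 1
      rw [← C.card_mul_index, Nat.factorization_mul Nat.card_pos.ne' (Nat.pos_of_ne_zero Subgroup.index_ne_zero_of_finite).ne']
      simp [Nat.factorization_eq_zero_of_not_dvd hidx]
    refine ⟨Sylow.ofCard _ hcardT, ?_, ?_⟩
    · exact ⟨⟨y, hyC⟩, hT (Subgroup.mem_zpowers _), rfl⟩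
    · rintro w ⟨t, -, rfl⟩
      have := Subgroup.mem_centralizer_iff.1 t.2 x (Set.mem_singleton x)
      exact this.symm
  -- every element normalizes a Sylow subgroup
  have hN : ∀ g : G, ∃ Q : Sylow p G, g ∈ Subgroup.normalizer ((Q : Subgroup G) : Set G) := by
    intro g
    obtain ⟨s, o', ho', ho⟩ := Nat.exists_eq_pow_mul_and_not_dvd (orderOf_pos g).ne' p hpp.ne_one
    have hcop : IsCoprime ((p ^ s : ℕ) : ℤ) (o' : ℤ) := by
      rw [Nat.isCoprime_iff_coprime]
      exact Nat.Coprime.pow_left s ((Nat.Prime.coprime_iff_not_dvd hpp).2 ho')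
    obtain ⟨u, v, huv⟩ := hcop
    set x : G := g ^ (u * ((p ^ s : ℕ) : ℤ)) with hx
    set y : G := g ^ (v * (o' : ℤ)) with hy
    have hg : y * x = g := by
      rw [hx, hy, ← zpow_add]
      have : v * (o' : ℤ) + u * ((p ^ s : ℕ) : ℤ) = 1 := by linarith
      rw [this, zpow_one]
    have hcomm : y * x = x * y := by
      rw [hx, hy]
      exact ((Commute.refl g).zpow_zpow _ _).eq
    have hxo : x ^ o' = 1 := by
      rw [hx, ← zpow_natCast, ← zpow_mul]
      have : u * ((p ^ s : ℕ) : ℤ) * (o' : ℤ) = u * ((orderOf g : ℕ) : ℤ) := by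
        rw [ho]; push_cast; ring
      rw [this, zpow_mul', zpow_natCast, pow_orderOf_eq_one, one_zpow]
    have hyo : y ^ p ^ s = 1 := by
      rw [hy, ← zpow_natCast, ← zpow_mul]
      have : v * (o' : ℤ) * ((p ^ s : ℕ) : ℤ) = v * ((orderOf g : ℕ) : ℤ) := by
        rw [ho]; push_cast; ring
      rw [this, zpow_mul', zpow_natCast, pow_orderOf_eq_one, one_zpow]
    have hxc : (orderOf x).Coprime p := by
      have h1 := orderOf_dvd_of_pow_eq_one hxo
      apply Nat.Coprime.symm
      exact (Nat.Prime.coprime_iff_not_dvd hpp).2 (fun h2 => ho' (h2.trans h1))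
    obtain ⟨j, -, hj⟩ := (Nat.dvd_prime_pow hpp).1 (orderOf_dvd_of_pow_eq_one hyo)
    obtain ⟨Q, hyQ, hQx⟩ := hF x y hxc hcomm ⟨j, hj⟩
    refine ⟨Q, ?_⟩
    rw [Subgroup.mem_normalizer_iff]
    intro w
    have hxN : ∀ w ∈ (Q : Subgroup G), x * w * x⁻¹ = w := by
      intro w hw
      rw [← hQx w hw]
      group
    constructor
    · intro hw
      have h1 : g * w * g⁻¹ = y * (x * w * x⁻¹) * y⁻¹ := by
        rw [← hg]; group
      rw [h1, hxN w hw]
      exact Subgroup.mul_mem _ (Subgroup.mul_mem _ hyQ hw) (Subgroup.inv_mem _ hyQ)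
    · intro hw
      -- `y⁻¹ (g w g⁻¹) y = x w x⁻¹`, and conjugation by `x` fixes `Q` elementwise
      have h1 : x * w * x⁻¹ ∈ (Q : Subgroup G) := by
        have h2 : x * w * x⁻¹ = y⁻¹ * (g * w * g⁻¹) * y := by
          rw [← hg]; group
        rw [h2]
        exact Subgroup.mul_mem _ (Subgroup.mul_mem _ (Subgroup.inv_mem _ hyQ) hw) hyQ
      have h3 := hxN _ h1
      have h4 : x * w * x⁻¹ = x * (x * w * x⁻¹) * x⁻¹ := h3.symm
      have h5 : w = x * w * x⁻¹ := mul_left_cancel (mul_right_cancel h4)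
      rw [h5]
      exact h1
  have hnorm : (P : Subgroup G).Normal := by
    rw [← Subgroup.normalizer_eq_top_iff]
    apply eq_top_of_conj_cover
    intro g
    obtain ⟨Q, hQ⟩ := hN g
    obtain ⟨a, ha⟩ := MulAction.exists_smul_eq G P Q
    refine ⟨a, ?_⟩
    have hmem : ∀ y : G, y ∈ (Q : Subgroup G) ↔ a⁻¹ * y * a ∈ (P : Subgroup G) := by
      intro y
      have h2 : ((a • P : Sylow p G) : Subgroup G) = MulAut.conj a • (P : Subgroup G) := by
        rw [Sylow.smul_def]; rfl
      rw [← ha, h2, Subgroup.mem_pointwise_smul_iff_inv_smul_mem]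
      simp [MulAut.smul_def]
    rw [Subgroup.mem_normalizer_iff]
    intro w
    have h1 := Subgroup.mem_normalizer_iff.1 hQ (a * w * a⁻¹)
    rw [hmem, hmem] at h1
    have h2 : a⁻¹ * (a * w * a⁻¹) * a = w := by group
    have h3 : a⁻¹ * (g * (a * w * a⁻¹) * g⁻¹) * a = a⁻¹ * g * a * w * (a⁻¹ * g * a)⁻¹ := by group
    rw [h2, h3] at h1
    exact h1
  refine ⟨hnorm, ?_⟩
  have hcop : (Nat.card (P : Subgroup G)).Coprime (P : Subgroup G).index := by
    obtain ⟨m, hm⟩ := IsPGroup.iff_card.1 P.isPGroup'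
    rw [hm]
    exact Nat.Coprime.pow_left m ((Nat.Prime.coprime_iff_not_dvd hpp).2 P.not_dvd_index)
  obtain ⟨K, hK⟩ := Subgroup.exists_right_complement'_of_coprime hcop
  have hcardK : Nat.card K = (P : Subgroup G).index := hK.symm.index_eq_card.symm
  have hKp : ¬ p ∣ Nat.card K := by
    rw [hcardK]
    exact P.not_dvd_index
  have hKc : ∀ k ∈ K, ∀ a ∈ (P : Subgroup G), a * k = k * a := by
    intro k hk a ha
    have hkp : (orderOf k).Coprime p := by
      have h1 : orderOf k ∣ Nat.card K := Subgroup.orderOf_dvd_natCard _ hk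
      apply Nat.Coprime.symm
      exact (Nat.Prime.coprime_iff_not_dvd hpp).2 (fun h2 => hKp (h2.trans h1))
    obtain ⟨Q, -, hQ⟩ := hF k 1 hkp (by simp) ⟨0, by simp⟩
    have hQP : Q = P := by
      apply Sylow.ext
      have := Sylow.unique_of_normal P hnorm
      rw [Subsingleton.elim Q P]
    rw [hQP] at hQ
    exact hQ a ha
  refine ⟨K, ?_, hKp, disjoint_iff.1 hK.disjoint, hK.sup_eq_top⟩
  constructor
  intro k hk g
  have hg : g ∈ (((P : Subgroup G) ⊔ K : Subgroup G) : Set G) := by
    rw [hK.sup_eq_top]; exact Subgroup.mem_top g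
  rw [Subgroup.normal_mul] at hg
  obtain ⟨a, ha, b, hb, hab⟩ := Set.mem_mul.1 hg
  have hbk : b * k * b⁻¹ ∈ K := K.mul_mem (K.mul_mem hb hk) (K.inv_mem hb)
  have h1 := hKc _ hbk a ha
  rw [← hab]
  have h2 : a * b * k * (a * b)⁻¹ = a * (b * k * b⁻¹) * a⁻¹ := by group
  rw [h2, h1]
  simpa using hbk

end Cfsg.Agent.S4035
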