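import Cfsg.Statements.S4036
import Mathlib

set_option autoImplicit false
open Cfsg

namespace Cfsg.Agent.S4036

/-- Let P be a finite abelian p-group and K a group of automorphisms of P (a subgroup of Aut P) whose order is divisible by p. If all non-identity elements of K have the same fixed-point subgroup on P, then K has no non-trivial normal subgroup of order prime to p. -/
theorem result {P : Type*} [CommGroup P] [Finite P] {p : ℕ}
    [Fact p.Prime] (hP : IsPGroup p P) (K : Subgroup (MulAut P)) (hK : p ∣ Nat.card K)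
    (hfix : ∀ x y : MulAut P, x ∈ K → y ∈ K → x ≠ 1 → y ≠ 1 → ∀ v : P, x v = v ↔ y v = v) :
    ∀ N : Subgroup ↥K, N.Normal → ¬ p ∣ Nat.card N → N = ⊥ := by
  intro N hN hpN
  classical
  have := Fintype.ofFinite P
  have : Finite (MulAut P) := inferInstance
  have := Fintype.ofFinite N
  obtain ⟨y, hy⟩ := exists_prime_orderOf_dvd_card' p hK
  have hy1 : (y : MulAut P) ≠ 1 := by
    intro h
    have h1 : y = 1 := Subtype.ext h
    rw [h1, orderOf_one] at hy
    exact (Fact.out : p.Prime).one_lt.ne hy
  have hyp : (y : MulAut P) ^ p = 1 := by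
    have h1 : y ^ p = 1 := by rw [← hy]; exact pow_orderOf_eq_one y
    exact congrArg Subtype.val h1
  let n : P →* P := ∏ a : N, (((a : K) : MulAut P)).toMonoidHom
  have hn : ∀ v, n v = ∏ a : N, ((a : K) : MulAut P) v := by
    intro v
    exact MonoidHom.finsetProd_apply _ _ _
  have hnfix : ∀ (a₀ : N) (v : P), ((a₀ : K) : MulAut P) (n v) = n v := by
    intro a₀ v
    rw [hn, map_prod]
    apply Fintype.prod_equiv (Equiv.mulLeft a₀)
    intro a
    simp [MulAut.mul_apply]
  have hnk : ∀ (k : K) (v : P), n ((k : MulAut P) v) = (k : MulAut P) (n v) := by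
    intro k v
    rw [hn, hn, map_prod]
    apply Fintype.prod_equiv (MulAut.conjNormal k⁻¹).toEquiv
    intro a
    have h1 : (((MulAut.conjNormal k⁻¹ a : N) : K) : MulAut P) =
        (k : MulAut P)⁻¹ * ((a : K) : MulAut P) * (k : MulAut P) := by
      rw [MulAut.conjNormal_apply]
      simp
    simp only [MulEquiv.toEquiv_eq_coe, EquivLike.coe_coe] at *
    rw [h1]
    simp [MulAut.mul_apply]
  set W : Subgroup P := n.ker with hW
  have hWk : ∀ (k : K), ∀ w ∈ W, (k : MulAut P) w ∈ W := by
    intro k w hw
    rw [hW, MonoidHom.mem_ker] at hw ⊢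
    rw [hnk, hw, map_one]
  have hWbot : W = ⊥ := by
    by_contra hWne
    have hWp : IsPGroup p W := hP.to_subgroup W
    obtain ⟨m, hm⟩ := IsPGroup.iff_card.mp hWp
    have hm0 : m ≠ 0 := by
      rintro rfl
      apply hWne
      rw [pow_zero] at hm
      exact Subgroup.card_eq_one.mp hm
    have hpW : p ∣ Nat.card W := by
      rw [hm]
      exact dvd_pow_self p hm0
    let α := {w : W // w ≠ 1}
    have hcard : Fintype.card α + 1 = Nat.card W := by
      have h1 := Fintype.card_subtype_compl (fun w : W => w = 1)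
      have h2 : Fintype.card {w : W // w = 1} = 1 := Fintype.card_subtype_eq 1
      rw [h2] at h1
      have h3 : 1 ≤ Fintype.card W := Fintype.card_pos
      rw [Nat.card_eq_fintype_card]
      show Fintype.card {w : W // ¬ w = 1} + 1 = _
      omega
    have hpα : ¬ p ∣ Fintype.card α := by
      intro h
      have h1 : p ∣ 1 := by
        have := (Nat.dvd_add_right h).mp (hcard ▸ hpW)
        exact this
      exact (Fact.out : p.Prime).one_lt.ne' (Nat.dvd_one.mp h1)
    have hW1 : ∀ w : W, ((y : MulAut P) (w : P)) ∈ W := fun w => hWk y _ w.2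
    have hWi : ∀ w : W, (((y⁻¹ : K) : MulAut P) (w : P)) ∈ W := fun w => hWk y⁻¹ _ w.2
    have hyi : ∀ v : P, ((y⁻¹ : K) : MulAut P) ((y : MulAut P) v) = v := by
      intro v
      simp
    have hyi' : ∀ v : P, (y : MulAut P) (((y⁻¹ : K) : MulAut P) v) = v := by
      intro v
      simp
    let τ : Equiv.Perm W :=
      { toFun := fun w => ⟨(y : MulAut P) w, hW1 w⟩
        invFun := fun w => ⟨((y⁻¹ : K) : MulAut P) w, hWi w⟩
        left_inv := fun w => Subtype.ext (hyi _)
        right_inv := fun w => Subtype.ext (hyi' _) }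
    have hτ1 : ∀ w : W, w ≠ 1 ↔ τ w ≠ 1 := by
      intro w
      have h0 : τ 1 = 1 := Subtype.ext (map_one ((y : MulAut P)))
      constructor
      · intro h e
        apply h
        have h1 : τ w = τ 1 := by rw [e, h0]
        exact τ.injective h1
      · intro h e
        apply h
        rw [e]
        exact h0
    have hτpow : ∀ (m : ℕ) (w : W), (((τ ^ m) w : W) : P) = ((y : MulAut P) ^ m) (w : P) := by
      intro m w
      induction m with
      | zero => rfl
      | succ m ih =>
        rw [pow_succ', Equiv.Perm.mul_apply, pow_succ', MulAut.mul_apply, ← ih]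
        rfl
    have hτp : τ ^ p = 1 := by
      ext w
      rw [hτpow, hyp]
      rfl
    let σ : Equiv.Perm α := τ.subtypePerm (fun w => (hτ1 w).symm)
    have hσp : σ ^ p ^ 1 = 1 := by
      ext a
      rw [pow_one, Equiv.Perm.subtypePerm_pow, Equiv.Perm.subtypePerm_apply]
      show (((τ ^ p) (a : W) : W) : P) = ((a : W) : P)
      rw [hτp]
      rfl
    obtain ⟨a, ha⟩ := Equiv.Perm.exists_fixed_point_of_prime hpα hσp
    set w : P := ((a : W) : P) with hw
    have hwW : w ∈ W := (a : W).2
    have hw1 : w ≠ 1 := fun h => a.2 (Subtype.ext h)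
    have hyw : (y : MulAut P) w = w := by
      have := congrArg (fun x : α => ((x : W) : P)) ha
      exact this
    have hfixN : ∀ a₀ : N, ((a₀ : K) : MulAut P) w = w := by
      intro a₀
      by_cases h0 : ((a₀ : K) : MulAut P) = 1
      · rw [h0]; rfl
      · exact (hfix _ _ y.2 (a₀ : K).2 hy1 h0 w).mp hyw
    have hnw : n w = w ^ Nat.card N := by
      rw [hn]
      simp_rw [hfixN]
      rw [Finset.prod_const, Finset.card_univ, Nat.card_eq_fintype_card]
    have hw2 : w ^ Nat.card N = 1 := by
      rw [← hnw]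
      exact hwW
    have hw3 : w ^ Nat.card P = 1 := pow_card_eq_one'
    obtain ⟨k, hk⟩ := IsPGroup.iff_card.mp hP
    have hc : (Nat.card N).Coprime (Nat.card P) := by
      rw [hk]
      exact (Nat.Coprime.pow_left k (((Fact.out : p.Prime).coprime_iff_not_dvd).mpr hpN)).symm
    have hw4 := pow_gcd_eq_one.mpr ⟨hw2, hw3⟩
    rw [hc.gcd_eq_one, pow_one] at hw4
    exact hw1 hw4
  have hinj : Function.Injective n := by
    rw [injective_iff_map_eq_one]
    intro v hv
    have : v ∈ W := hv
    rwa [hWbot, Subgroup.mem_bot] at this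
  have hsurj : Function.Surjective n := Finite.injective_iff_surjective.mp hinj
  rw [Subgroup.eq_bot_iff_forall]
  intro a₀ ha₀
  have h1 : ((a₀ : K) : MulAut P) = 1 := by
    ext v
    obtain ⟨u, rfl⟩ := hsurj v
    exact hnfix ⟨a₀, ha₀⟩ u
  exact Subtype.ext h1
end Cfsg.Agent.S4036
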