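import Mathlib
import Cfsg.Statements.S4051

set_option autoImplicit false
set_option linter.all false
open Cfsg
open Pointwise

namespace Cfsg.Agent.S4051

variable {G : Type*} [Group G]

/-- `x` is a `π`-element. -/
def IsPi (π : Set ℕ) (x : G) : Prop := ∀ p : ℕ, p.Prime → p ∣ orderOf x → p ∈ π

lemma IsPi.map {π : Set ℕ} {H : Type*} [Group H] (f : G →* H) {x : G} (hx : IsPi π x) : IsPi π (f x) :=
  fun p hp hd => hx p hp (hd.trans (orderOf_map_dvd f x))

lemma isPi_one (π : Set ℕ) : IsPi π (1 : G) := by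
  intro p hp hd
  rw [orderOf_one] at hd
  exact absurd (Nat.dvd_one.1 hd) hp.ne_one

lemma isPi_of_pow {π : Set ℕ} {x : G} (n : ℕ) (hn : ∀ p : ℕ, p.Prime → p ∣ n → p ∈ π)
    (hx : IsPi π (x ^ n)) : IsPi π x := by
  intro p hp hd
  have h1 : x ^ (n * orderOf (x ^ n)) = 1 := by rw [pow_mul, pow_orderOf_eq_one]
  have h2 : orderOf x ∣ n * orderOf (x ^ n) := orderOf_dvd_of_pow_eq_one h1
  rcases (Nat.Prime.dvd_mul hp).1 (hd.trans h2) with h | h
  · exact hn p hp h
  · exact hx p hp h

lemma isPi_of_ker {π : Set ℕ} {H : Type*} [Group H] (f : G →* H) (hf : ∀ z ∈ f.ker, IsPi π z) {x : G}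
    (hx : IsPi π (f x)) : IsPi π x := by
  refine isPi_of_pow (orderOf (f x)) hx ?_
  apply hf
  rw [MonoidHom.mem_ker, map_pow, pow_orderOf_eq_one]

lemma isPi_pow {π : Set ℕ} {x : G} (hx : IsPi π x) (n : ℕ) : IsPi π (x ^ n) :=
  fun p hp hd => hx p hp (hd.trans (orderOf_pow_dvd n))

/-- A subgroup containing all elements of prime-power order with prime in `π` contains all
`π`-elements. -/
lemma mem_of_primary_pi [Finite G] (C : Subgroup G) (π : Set ℕ)
    (hC : ∀ (y : G) (q b : ℕ), q.Prime → q ∈ π → orderOf y = q ^ b → y ∈ C) :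
    ∀ (n : ℕ) (y : G), orderOf y = n → IsPi π y → y ∈ C := by
  intro n
  induction n using Nat.recOnPosPrimePosCoprime with
  | prime_pow q n hq hn =>
    intro y hy hpn
    have : q ∈ π := hpn q hq (by rw [hy]; exact dvd_pow_self q hn.ne')
    exact hC y q n hq this hy
  | zero =>
    intro y hy _
    exact absurd hy (orderOf_pos y).ne'
  | one =>
    intro y hy _
    rw [orderOf_eq_one_iff.1 hy]
    exact C.one_mem
  | coprime a b ha hb hab iha ihb =>
    intro y hy hpn
    have hoa : orderOf (y ^ b) = a := by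
      rw [orderOf_pow_of_dvd (by omega) (by rw [hy]; exact dvd_mul_left b a), hy]
      exact Nat.mul_div_cancel _ (by omega)
    have hob : orderOf (y ^ a) = b := by
      rw [orderOf_pow_of_dvd (by omega) (by rw [hy]; exact dvd_mul_right a b), hy]
      exact Nat.mul_div_cancel_left _ (by omega)
    have h1 := iha (y ^ b) hoa (isPi_pow hpn b)
    have h2 := ihb (y ^ a) hob (isPi_pow hpn a)
    obtain ⟨u, v, huv⟩ := Nat.isCoprime_iff_coprime.2 hab
    have : y = (y ^ a) ^ u * (y ^ b) ^ v := by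
      rw [← zpow_natCast y a, ← zpow_natCast y b, ← zpow_mul, ← zpow_mul, ← zpow_add]
      have : (a : ℤ) * u + (b : ℤ) * v = 1 := by linarith
      rw [this, zpow_one]
    rw [this]
    exact C.mul_mem (C.zpow_mem h2 _) (C.zpow_mem h1 _)

/-- Elementwise form of homogeneity. -/
def Homog (π : Set ℕ) (G : Type*) [Group G] : Prop :=
  ∀ H : Subgroup G, H ≠ ⊥ → (∀ p : ℕ, p.Prime → p ∣ Nat.card H → p ∉ π) →
    ∀ y : G, y ∈ Subgroup.normalizer (H : Set G) → IsPi π y → y ∈ Subgroup.centralizer (H : Set G)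

lemma homog_of_index [Finite G] {π : Set ℕ}
    (hhom : ∀ H : Subgroup G, H ≠ ⊥ → (∀ p : ℕ, p.Prime → p ∣ Nat.card ↥H → p ∉ π) →
        ∀ p : ℕ, p.Prime → p ∣ (Subgroup.centralizer (H : Set G)).relIndex (Subgroup.normalizer (H : Set G)) → p ∉ π) :
    Homog π G := by
  intro H hH hpi y hy hyp
  set N := Subgroup.normalizer (H : Set G) with hN
  set C := Subgroup.centralizer (H : Set G) with hC
  have hnorm : (C.subgroupOf N).Normal := by
    constructor
    intro c hc n
    rw [Subgroup.mem_subgroupOf] at hc ⊢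
    rw [Subgroup.mem_centralizer_iff] at hc ⊢
    intro h hh
    have hn : ∀ h : G, h ∈ (H : Set G) ↔ (n : G) * h * (n : G)⁻¹ ∈ (H : Set G) :=
      Subgroup.mem_normalizer_iff.1 n.2
    have h2 : (n : G)⁻¹ * h * n ∈ H := by
      have := (hn ((n : G)⁻¹ * h * n)).2 (by simpa [mul_assoc] using hh)
      exact this
    have h3 := hc _ h2
    simp only [Subgroup.coe_mul, Subgroup.coe_inv, InvMemClass.coe_inv, MulMemClass.coe_mul] at h3 ⊢
    calc h * (↑n * ↑c * (↑n)⁻¹) = ↑n * (((↑n)⁻¹ * h * ↑n) * ↑c) * (↑n)⁻¹ := by group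
      _ = ↑n * (↑c * ((↑n)⁻¹ * h * ↑n)) * (↑n)⁻¹ := by rw [h3]
      _ = _ := by group
  set m := C.relIndex N with hm
  have hpow : (⟨y, hy⟩ : N) ^ m ∈ C.subgroupOf N := Subgroup.pow_index_mem _ _
  rw [Subgroup.mem_subgroupOf] at hpow
  have hpow' : y ^ m ∈ C := by simpa using hpow
  have hcop : (orderOf y).Coprime m := by
    apply Nat.coprime_of_dvd
    intro p hp h1 h2
    exact hhom H hH hpi p hp h2 (hyp p hp h1)
  -- `y` is a power of `y ^ m`
  have hmem : y ∈ Subgroup.zpowers (y ^ m) := by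
    have := (powCoprime hcop.symm)
    obtain ⟨u, v, huv⟩ := Nat.isCoprime_iff_coprime.2 hcop
    refine Subgroup.mem_zpowers_iff.2 ⟨v, ?_⟩
    have : (y ^ m) ^ v = y ^ ((m : ℤ) * v) := by rw [← zpow_natCast y m, zpow_mul]
    rw [this]
    have h1 : (m : ℤ) * v = 1 - u * (orderOf y) := by linarith
    rw [h1, zpow_sub, zpow_one, zpow_mul', zpow_natCast, pow_orderOf_eq_one]
    simp
  have hle : Subgroup.zpowers (y ^ m) ≤ C := (Subgroup.zpowers_le).2 hpow'
  exact hle hmem

/-- An element of `r`-power order normalizes a Sylow `q`-subgroup of a normal subgroup of order prime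
to `r`. -/
lemma exists_invariant_sylow {A : Type*} [Group A] [Finite A] (N : Subgroup A) [N.Normal] (a : A)
    {r q b : ℕ} (hr : r.Prime) (hq : q.Prime) (ha : orderOf a = r ^ b) (hrN : ¬ r ∣ Nat.card N) :
    ∃ S : Subgroup A, S ≤ N ∧ IsPGroup q S ∧ ¬ q ∣ S.relIndex N ∧ MulAut.conj a • S = S := by
  haveI := Fact.mk hr
  haveI := Fact.mk hq
  let R : Subgroup (ConjAct A) := Subgroup.zpowers (ConjAct.toConjAct a)
  have hR : IsPGroup r R := by
    apply IsPGroup.of_card (n := b)
    have : Nat.card R = orderOf (ConjAct.toConjAct a) := Nat.card_zpowers _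
    rw [this]
    have h2 : orderOf (ConjAct.toConjAct a) = orderOf a :=
      orderOf_injective (ConjAct.toConjAct (G := A)).toMonoidHom (ConjAct.toConjAct (G := A)).injective a
    rw [h2, ha]
  have hnd : ¬ r ∣ Nat.card (Sylow q N) := by
    intro h
    apply hrN
    obtain P : Sylow q N := default
    rw [Sylow.card_eq_index_normalizer P] at h
    exact h.trans (Subgroup.index_dvd_card _)
  obtain ⟨P, hP⟩ := hR.nonempty_fixed_point_of_prime_not_dvd_card (Sylow q N) hnd
  have hP' : ConjAct.toConjAct a • P = P := by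
    have := hP ⟨ConjAct.toConjAct a, Subgroup.mem_zpowers _⟩
    exact this
  refine ⟨(P : Subgroup N).map N.subtype, ?_, ?_, ?_, ?_⟩
  · rintro _ ⟨x, -, rfl⟩
    exact x.2
  · exact P.isPGroup'.map _
  · have : ((P : Subgroup N).map N.subtype).relIndex N = (P : Subgroup N).index := by
      rw [Subgroup.relIndex]
      congr 1
      exact Subgroup.comap_map_eq_self_of_injective N.subtype_injective _
    rw [this]
    exact P.not_dvd_index
  · apply Subgroup.eq_of_le_of_card_ge
    · intro x hx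
      rw [Subgroup.mem_pointwise_smul_iff_inv_smul_mem] at hx
      obtain ⟨s, hs, hsx⟩ := hx
      have h1 : ConjAct.toConjAct a • s ∈ ((ConjAct.toConjAct a • P : Sylow q N) : Subgroup N) := by
        rw [Sylow.pointwise_smul_def]
        exact Subgroup.smul_mem_pointwise_smul _ _ _ hs
      rw [hP'] at h1
      refine ⟨_, h1, ?_⟩
      have h2 : ((ConjAct.toConjAct a • s : N) : A) = a * (s : A) * a⁻¹ := by
        rw [ConjAct.Subgroup.val_conj_smul, ConjAct.smul_def]
        simp
      rw [Subgroup.subtype_apply, h2]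
      have h3 : (s : A) = a⁻¹ * x * a := by
        have : N.subtype s = (MulAut.conj a)⁻¹ • x := hsx
        rw [Subgroup.subtype_apply] at this
        rw [this]
        simp [MulAut.smul_def]
      rw [h3]
      group
    · have : Nat.card (MulAut.conj a • ((P : Subgroup N).map N.subtype) : Subgroup A)
          = Nat.card ((P : Subgroup N).map N.subtype) :=
        Nat.card_congr (Subgroup.equivSMul (MulAut.conj a) _).toEquiv.symm
      rw [this]

/-- Two `q`-subgroups of the same order, one Sylow in `W`, are `W`-conjugate. -/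
lemma sylow_conj_in [Finite G] {W Q₁ Q₂ : Subgroup G} {q : ℕ} (hq : q.Prime) (h₁ : Q₁ ≤ W) (h₂ : Q₂ ≤ W)
    (hp₁ : IsPGroup q Q₁) (hp₂ : IsPGroup q Q₂) (hind : ¬ q ∣ Q₁.relIndex W)
    (hcard : Nat.card Q₁ = Nat.card Q₂) : ∃ u ∈ W, MulAut.conj u • Q₁ = Q₂ := by
  haveI := Fact.mk hq
  have hp₁' : IsPGroup q (Q₁.subgroupOf W) :=
    hp₁.of_injective (Subgroup.subgroupOfEquivOfLe h₁).toMonoidHom (Subgroup.subgroupOfEquivOfLe h₁).injective
  have hp₂' : IsPGroup q (Q₂.subgroupOf W) :=
    hp₂.of_injective (Subgroup.subgroupOfEquivOfLe h₂).toMonoidHom (Subgroup.subgroupOfEquivOfLe h₂).injective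
  have hc₁ : Nat.card (Q₁.subgroupOf W) = Nat.card Q₁ := Nat.card_congr (Subgroup.subgroupOfEquivOfLe h₁).toEquiv
  have hc₂ : Nat.card (Q₂.subgroupOf W) = Nat.card Q₂ := Nat.card_congr (Subgroup.subgroupOfEquivOfLe h₂).toEquiv
  have hi : (Q₂.subgroupOf W).index = (Q₁.subgroupOf W).index := by
    have e1 := (Q₁.subgroupOf W).card_mul_index
    have e2 := (Q₂.subgroupOf W).card_mul_index
    rw [hc₁] at e1
    rw [hc₂, ← hcard] at e2
    exact Nat.eq_of_mul_eq_mul_left Nat.card_pos (e2.trans e1.symm)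
  let P₁ : Sylow q W := hp₁'.toSylow hind
  let P₂ : Sylow q W := hp₂'.toSylow (by rw [hi]; exact hind)
  obtain ⟨u, hu⟩ := MulAction.exists_smul_eq W P₁ P₂
  refine ⟨u, u.2, ?_⟩
  apply Subgroup.eq_of_le_of_card_ge
  · intro x hx
    rw [Subgroup.mem_pointwise_smul_iff_inv_smul_mem] at hx
    have hxQ : (u : G)⁻¹ * x * u ∈ Q₁ := by
      simpa [MulAut.smul_def] using hx
    have hxW : (u : G)⁻¹ * x * u ∈ W := h₁ hxQ
    have hm : (⟨_, hxW⟩ : W) ∈ (P₁ : Subgroup W) := hxQ
    have hm2 : MulAut.conj u • (⟨_, hxW⟩ : W) ∈ ((u • P₁ : Sylow q W) : Subgroup W) := by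
      rw [Sylow.smul_def, Sylow.pointwise_smul_def]
      exact Subgroup.smul_mem_pointwise_smul _ _ _ hm
    rw [hu] at hm2
    have hm3 : ((MulAut.conj u • (⟨_, hxW⟩ : W) : W) : G) ∈ Q₂ := hm2
    have hm4 : ((MulAut.conj u • (⟨_, hxW⟩ : W) : W) : G) = x := by
      simp [MulAut.smul_def, mul_assoc]
    rwa [hm4] at hm3
  · have : Nat.card (MulAut.conj (u : G) • Q₁ : Subgroup G) = Nat.card Q₁ :=
      Nat.card_congr (Subgroup.equivSMul (MulAut.conj (u : G)) _).toEquiv.symm
    rw [this, hcard]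

lemma primes_quot [Finite G] {π : Set ℕ} (D K : Subgroup G) [D.Normal]
    (hD : ∀ x ∈ K, x ∈ D ↔ IsPi π x) :
    ∀ p : ℕ, p.Prime → p ∣ Nat.card (K.map (QuotientGroup.mk' D)) → p ∉ π := by
  intro p hp hd hpi
  haveI := Fact.mk hp
  obtain ⟨xb, hxb⟩ := exists_prime_orderOf_dvd_card' p hd
  obtain ⟨x, hx, hxe⟩ := xb.2
  have hox : orderOf (QuotientGroup.mk' D x) = p := by
    rw [hxe, Subgroup.orderOf_coe, hxb]
  obtain ⟨a, m, hm, hn⟩ := Nat.exists_eq_pow_mul_and_not_dvd (orderOf_pos x).ne' p hp.ne_one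
  have hz : IsPi π (x ^ m) := by
    intro t ht hdt
    have h1 : orderOf (x ^ m) ∣ p ^ a :=
      orderOf_dvd_of_pow_eq_one (by rw [← pow_mul, mul_comm, ← hn, pow_orderOf_eq_one])
    have h2 := (Nat.prime_dvd_prime_iff_eq ht hp).1 (ht.dvd_of_dvd_pow (hdt.trans h1))
    rw [h2]
    exact hpi
  have hzD : x ^ m ∈ D := (hD _ (K.pow_mem hx m)).2 hz
  have h3 : (QuotientGroup.mk' D x) ^ m = 1 := by
    rw [← map_pow, ← MonoidHom.mem_ker, QuotientGroup.ker_mk']
    exact hzD
  have h4 := orderOf_dvd_of_pow_eq_one h3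
  rw [hox] at h4
  exact hm h4

/-- The core: an element of prime-power order, prime in `π`, centralizes `K/D`. -/
lemma mem_centralizer_core [Finite G] {π : Set ℕ} (hom : Homog π G) (D K : Subgroup G) [D.Normal] [K.Normal]
    (hDK : D ≤ K) (hD : ∀ x ∈ K, x ∈ D ↔ IsPi π x)
    (y : G) {r b : ℕ} (hr : r.Prime) (hrπ : r ∈ π) (hy : orderOf y = r ^ b) :
    ∀ z ∈ K.map (QuotientGroup.mk' D), Commute (QuotientGroup.mk' D y) z := by
  set f := QuotientGroup.mk' D with hf
  have hfs : Function.Surjective f := QuotientGroup.mk'_surjective D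
  haveI hNn : (K.map f).Normal := Subgroup.Normal.map inferInstance f hfs
  set N := K.map f with hN
  have hprimes := primes_quot D K hD
  have hfy : ∃ c, orderOf (f y) = r ^ c := by
    have h1 : orderOf (f y) ∣ r ^ b := by rw [← hy]; exact orderOf_map_dvd f y
    obtain ⟨c, -, hc⟩ := (Nat.dvd_prime_pow hr).1 h1
    exact ⟨c, hc⟩
  obtain ⟨c, hc⟩ := hfy
  have hrN : ¬ r ∣ Nat.card N := fun h => hprimes r hr h hrπ
  have hyPi : IsPi π y := by
    intro p hp hd
    rw [hy] at hd
    have := (Nat.prime_dvd_prime_iff_eq hp hr).1 (hp.dvd_of_dvd_pow hd)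
    rw [this]
    exact hrπ
  have hker : ∀ z ∈ f.ker, IsPi π z := by
    intro z hz
    rw [hf, QuotientGroup.ker_mk'] at hz
    exact (hD z (hDK hz)).1 hz
  -- Step: for each prime `q ∉ π`, some Sylow of `N` commutes with `f y`
  have key : ∀ q : ℕ, q.Prime → q ∉ π → ∃ S : Subgroup (G ⧸ D), S ≤ N ∧ ¬ q ∣ S.relIndex N ∧
      ∀ s ∈ S, Commute (f y) s := by
    intro q hq hqπ
    obtain ⟨S, hSN, hSp, hSi, hSy⟩ := exists_invariant_sylow N (f y) hr hq hc hrN
    refine ⟨S, hSN, hSi, ?_⟩
    haveI := Fact.mk hq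
    set W := S.comap f with hW
    have hDW : D ≤ W := by
      intro d hd
      rw [hW, Subgroup.mem_comap]
      have : f d = 1 := by
        rw [← MonoidHom.mem_ker, hf, QuotientGroup.ker_mk']
        exact hd
      rw [this]
      exact S.one_mem
    obtain P₀ : Sylow q W := default
    set Q := (P₀ : Subgroup W).map W.subtype with hQ
    have hQW : Q ≤ W := by
      rintro _ ⟨x, -, rfl⟩
      exact x.2
    have hQp : IsPGroup q Q := P₀.isPGroup'.map _
    have hQi : ¬ q ∣ Q.relIndex W := by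
      have : Q.relIndex W = (P₀ : Subgroup W).index := by
        rw [Subgroup.relIndex]
        congr 1
        exact Subgroup.comap_map_eq_self_of_injective W.subtype_injective _
      rw [this]
      exact P₀.not_dvd_index
    -- `f` maps `Q` onto `S`
    have hQS : ∀ s ∈ S, ∃ w ∈ Q, f w = s := by
      let g : W →* S := (f.comp W.subtype).codRestrict S (fun x => x.2)
      have hg : Function.Surjective g := by
        rintro ⟨s, hs⟩
        obtain ⟨x, rfl⟩ := hfs s
        exact ⟨⟨x, hs⟩, rfl⟩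
      have h1 : (((P₀ : Subgroup W).map g).index) ∣ (P₀ : Subgroup W).index :=
        Subgroup.index_map_dvd _ hg
      have h2 : ((P₀ : Subgroup W).map g).index ∣ Nat.card S := Subgroup.index_dvd_card _
      obtain ⟨k, hk⟩ := IsPGroup.iff_card.1 hSp
      rw [hk] at h2
      obtain ⟨j, -, hj⟩ := (Nat.dvd_prime_pow hq).1 h2
      have h3 : j = 0 := by
        by_contra hj0
        apply P₀.not_dvd_index
        refine dvd_trans ?_ h1
        rw [hj]
        exact dvd_pow_self q hj0
      rw [h3, pow_zero, Subgroup.index_eq_one] at hj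
      intro s hs
      have : (⟨s, hs⟩ : S) ∈ (P₀ : Subgroup W).map g := by rw [hj]; trivial
      obtain ⟨w, hw, hws⟩ := this
      refine ⟨w, ⟨w, hw, rfl⟩, ?_⟩
      exact congrArg Subtype.val hws
    -- `y` normalizes `W`
    have hyW : MulAut.conj y • Q ≤ W := by
      intro x hx
      rw [Subgroup.mem_pointwise_smul_iff_inv_smul_mem] at hx
      have hx' : y⁻¹ * x * y ∈ W := hQW (by simpa [MulAut.smul_def] using hx)
      rw [hW, Subgroup.mem_comap] at hx' ⊢
      have e : f x = MulAut.conj (f y) • f (y⁻¹ * x * y) := by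
        simp [MulAut.smul_def, mul_assoc]
      rw [e, ← hSy]
      exact Subgroup.smul_mem_pointwise_smul _ _ _ hx'
    have hcardy : Nat.card (MulAut.conj y • Q : Subgroup G) = Nat.card Q :=
      Nat.card_congr (Subgroup.equivSMul (MulAut.conj y) _).toEquiv.symm
    have hpy : IsPGroup q (MulAut.conj y • Q : Subgroup G) := by
      have : IsPGroup q ((Q.map (MulAut.conj y).toMonoidHom : Subgroup G)) := hQp.map _
      exact this
    obtain ⟨u, huW, hu⟩ := sylow_conj_in hq hQW hyW hQp hpy hQi hcardy.symm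
    obtain ⟨w, hwQ, hwu⟩ := hQS (f u) huW
    set l := u * w⁻¹ with hl
    have hlker : f l = 1 := by rw [hl, map_mul, map_inv, hwu, mul_inv_cancel]
    have hwQ' : MulAut.conj w • Q = Q := by
      ext x
      rw [Subgroup.mem_pointwise_smul_iff_inv_smul_mem]
      have : (MulAut.conj w)⁻¹ • x = w⁻¹ * x * w := by simp [MulAut.smul_def]
      rw [this]
      constructor
      · intro h
        have := Q.mul_mem (Q.mul_mem hwQ h) (Q.inv_mem hwQ)
        convert this using 1
        group
      · intro h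
        exact Q.mul_mem (Q.mul_mem (Q.inv_mem hwQ) h) hwQ
    have hconj : MulAut.conj l • Q = MulAut.conj y • Q := by
      rw [← hu]
      have : u = l * w := by rw [hl]; group
      conv_rhs => rw [this, map_mul, mul_smul, hwQ']
    set y' := l⁻¹ * y with hy'
    have hy'Q : MulAut.conj y' • Q = Q := by
      rw [hy', map_mul, mul_smul, ← hconj, ← mul_smul, ← map_mul, inv_mul_cancel, map_one, one_smul]
    have hfy' : f y' = f y := by rw [hy', map_mul, map_inv, hlker, inv_one, one_mul]
    have hy'Pi : IsPi π y' := isPi_of_ker f hker (by rw [hfy']; exact hyPi.map f)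
    have hy'N : y' ∈ Subgroup.normalizer (Q : Set G) := by
      rw [Subgroup.mem_normalizer_iff]
      intro x
      change x ∈ Q ↔ y' * x * y'⁻¹ ∈ Q
      have e : y' * x * y'⁻¹ ∈ Q ↔ x ∈ Q := by
        conv_lhs => rw [← hy'Q]
        rw [Subgroup.mem_pointwise_smul_iff_inv_smul_mem]
        have : (MulAut.conj y')⁻¹ • (y' * x * y'⁻¹) = x := by simp [MulAut.smul_def, mul_assoc]
        rw [this]
      exact e.symm
    by_cases hQb : Q = ⊥
    · intro s hs
      obtain ⟨w', hw', rfl⟩ := hQS s hs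
      rw [hQb, Subgroup.mem_bot] at hw'
      rw [hw', map_one]
      exact Commute.one_right _
    · have hQpi : ∀ p : ℕ, p.Prime → p ∣ Nat.card Q → p ∉ π := by
        intro p hp hd
        obtain ⟨k, hk⟩ := IsPGroup.iff_card.1 hQp
        rw [hk] at hd
        have := (Nat.prime_dvd_prime_iff_eq hp hq).1 (hp.dvd_of_dvd_pow hd)
        rw [this]
        exact hqπ
      have hyC := hom Q hQb hQpi y' hy'N hy'Pi
      intro s hs
      obtain ⟨w', hw', rfl⟩ := hQS s hs
      have := Subgroup.mem_centralizer_iff.1 hyC w' hw'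
      show f y * f w' = f w' * f y
      rw [← hfy', ← map_mul, ← map_mul, this]
  -- Conclusion
  set V : Subgroup (G ⧸ D) := Subgroup.centralizer {f y} ⊓ N with hV
  have hVi : V.relIndex N = 1 := by
    by_contra hne
    obtain ⟨q, hq, hqd⟩ := Nat.exists_prime_and_dvd hne
    by_cases hqπ : q ∈ π
    · apply hprimes q hq _ hqπ
      refine hqd.trans ?_
      have := V.relIndex_dvd_card N
      exact this
    · obtain ⟨S, hSN, hSi, hSc⟩ := key q hq hqπ
      apply hSi
      refine hqd.trans ?_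
      apply Subgroup.relIndex_dvd_of_le_left
      intro s hs
      refine Subgroup.mem_inf.2 ⟨?_, hSN hs⟩
      rw [Subgroup.mem_centralizer_iff]
      intro t ht
      rw [Set.mem_singleton_iff] at ht
      subst ht
      exact (hSc s hs)
  rw [Subgroup.relIndex_eq_one] at hVi
  intro z hz
  have := (Subgroup.mem_inf.1 (hVi hz)).1
  rw [Subgroup.mem_centralizer_iff] at this
  exact this _ rfl

/-- A finite group with a central `π'`-subgroup and `π`-quotient has its `π`-elements forming a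
subgroup. -/
lemma complement_central {A : Type*} [Group A] [Finite A] {π : Set ℕ} (N : Subgroup A)
    (hc : ∀ n ∈ N, ∀ a : A, Commute a n)
    (hN : ∀ p : ℕ, p.Prime → p ∣ Nat.card N → p ∉ π)
    (hi : ∀ a : A, ∃ n : ℕ, (∀ p : ℕ, p.Prime → p ∣ n → p ∈ π) ∧ a ^ n ∈ N) :
    ∃ H : Subgroup A, ∀ x : A, x ∈ H ↔ IsPi π x := by
  haveI hNn : N.Normal := by
    constructor
    intro n hn g
    rw [(hc n hn g).eq]
    simpa using hn
  have hiπ : ∀ p : ℕ, p.Prime → p ∣ N.index → p ∈ π := by
    intro p hp hd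
    haveI := Fact.mk hp
    have hd' : p ∣ Nat.card (A ⧸ N) := hd
    obtain ⟨xb, hxb⟩ := exists_prime_orderOf_dvd_card' p hd'
    obtain ⟨a, rfl⟩ := QuotientGroup.mk'_surjective N xb
    obtain ⟨n, hn, han⟩ := hi a
    have h1 : (QuotientGroup.mk' N a) ^ n = 1 := by
      rw [← map_pow, ← MonoidHom.mem_ker, QuotientGroup.ker_mk']
      exact han
    have h2 := orderOf_dvd_of_pow_eq_one h1
    rw [hxb] at h2
    exact hn p hp h2
  have hcop : (Nat.card N).Coprime N.index := by
    apply Nat.coprime_of_dvd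
    intro p hp h1 h2
    exact hN p hp h1 (hiπ p hp h2)
  obtain ⟨H, hH⟩ := Subgroup.exists_right_complement'_of_coprime hcop
  refine ⟨H, fun x => ⟨?_, ?_⟩⟩
  · intro hx p hp hd
    apply hiπ p hp
    have h1 : orderOf (⟨x, hx⟩ : H) = orderOf x := Subgroup.orderOf_mk x hx
    have h2 : orderOf x ∣ Nat.card H := by
      rw [← h1]
      exact orderOf_dvd_natCard _
    have h3 : Nat.card N * Nat.card H = Nat.card A := hH.card_mul
    have h4 : Nat.card N * N.index = Nat.card A := N.card_mul_index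
    have h5 : Nat.card H = N.index :=
      Nat.eq_of_mul_eq_mul_left Nat.card_pos (h3.trans h4.symm)
    rw [← h5]
    exact hd.trans h2
  · intro hx
    obtain ⟨⟨⟨n, hn⟩, ⟨h, hh⟩⟩, heq, -⟩ := hH.existsUnique x
    change n * h = x at heq
    subst heq
    have hcomm : Commute h n := hc n hn h
    have hHpi : IsPi π h := by
      intro p hp hd
      apply hiπ p hp
      have h1 : orderOf (⟨h, hh⟩ : H) = orderOf h := Subgroup.orderOf_mk h hh
      have h2 : orderOf h ∣ Nat.card H := by
        rw [← h1]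
        exact orderOf_dvd_natCard _
      have h3 : Nat.card N * Nat.card H = Nat.card A := hH.card_mul
      have h4 : Nat.card N * N.index = Nat.card A := N.card_mul_index
      have h5 : Nat.card H = N.index :=
        Nat.eq_of_mul_eq_mul_left Nat.card_pos (h3.trans h4.symm)
      rw [← h5]
      exact hd.trans h2
    have hn1 : n = 1 := by
      set M := orderOf (n * h) * orderOf h with hM
      have h1 : n ^ M = 1 := by
        have h2 : (n * h) ^ M = n ^ M * h ^ M := hcomm.symm.mul_pow M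
        have h3 : (n * h) ^ M = 1 := by rw [hM, pow_mul, pow_orderOf_eq_one, one_pow]
        have h4 : h ^ M = 1 := by rw [hM, mul_comm, pow_mul, pow_orderOf_eq_one, one_pow]
        rw [h3, h4, mul_one] at h2
        exact h2.symm
      have h2 : orderOf n ∣ M := orderOf_dvd_of_pow_eq_one h1
      have h3 : orderOf n ∣ Nat.card N := by
        have : orderOf (⟨n, hn⟩ : N) = orderOf n := Subgroup.orderOf_mk n hn
        rw [← this]
        exact orderOf_dvd_natCard _
      by_contra hne
      have h4 : orderOf n ≠ 1 := by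
        rwa [Ne, orderOf_eq_one_iff]
      obtain ⟨p, hp, hpd⟩ := Nat.exists_prime_and_dvd h4
      apply hN p hp (hpd.trans h3)
      rcases (Nat.Prime.dvd_mul hp).1 (hpd.trans h2) with h5 | h5
      · exact hx p hp h5
      · exact hHpi p hp h5
    rw [hn1, one_mul]
    exact hh

/-- The main theorem, with homogeneity in elementwise form. -/
theorem main_elementwise {G : Type*} [Group G] [Finite G] {π : Set ℕ} (hom : Homog π G)
    (K : Subgroup G) [K.Normal]
    (hK : ∃ L : Subgroup ↥K, ∀ x : ↥K, x ∈ L ↔ ∀ p : ℕ, p.Prime → p ∣ orderOf x → p ∈ π)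
    (hQ : ∃ L : Subgroup (G ⧸ K), ∀ x : G ⧸ K, x ∈ L ↔ ∀ p : ℕ, p.Prime → p ∣ orderOf x → p ∈ π) :
    ∃ K : Subgroup G, ∀ x : G, x ∈ K ↔ IsPi π x := by
  obtain ⟨L, hL⟩ := hK
  obtain ⟨Q, hQ⟩ := hQ
  set D : Subgroup G := L.map K.subtype with hDdef
  have hDK : D ≤ K := by
    rintro _ ⟨x, -, rfl⟩
    exact x.2
  have hD : ∀ x ∈ K, x ∈ D ↔ IsPi π x := by
    intro x hx
    constructor
    · rintro ⟨w, hw, rfl⟩
      intro p hp hd
      exact (hL w).1 hw p hp (by simpa using hd)
    · intro h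
      refine ⟨⟨x, hx⟩, (hL _).2 ?_, rfl⟩
      intro p hp hd
      exact h p hp (by simpa using hd)
  haveI hDn : D.Normal := by
    constructor
    intro n hn g
    have hnK := hDK hn
    have h1 : g * n * g⁻¹ ∈ K := (inferInstance : K.Normal).conj_mem n hnK g
    rw [hD _ h1]
    have h2 := (hD n hnK).1 hn
    intro p hp hd
    apply h2 p hp
    have : orderOf (g * n * g⁻¹) = orderOf n := by
      have := orderOf_injective (MulAut.conj g).toMonoidHom (MulAut.conj g).injective n
      simpa [MulAut.conj_apply] using this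
    rwa [this] at hd
  set f := QuotientGroup.mk' D with hf
  have hfs : Function.Surjective f := QuotientGroup.mk'_surjective D
  set N := K.map f with hN
  haveI hNn : N.Normal := Subgroup.Normal.map inferInstance f hfs
  have hker : ∀ z ∈ f.ker, IsPi π z := by
    intro z hz
    rw [hf, QuotientGroup.ker_mk'] at hz
    exact (hD z (hDK hz)).1 hz
  have hcent : ∀ x : G, IsPi π x → f x ∈ Subgroup.centralizer (N : Set (G ⧸ D)) := by
    intro x hx
    have hsub : x ∈ Subgroup.comap f (Subgroup.centralizer (N : Set (G ⧸ D))) := by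
      refine mem_of_primary_pi _ π ?_ _ x rfl hx
      intro y q b hq hqπ hy
      rw [Subgroup.mem_comap, Subgroup.mem_centralizer_iff]
      intro z hz
      exact (mem_centralizer_core hom D K hDK hD y hq hqπ hy z hz).symm.eq
    exact hsub
  set T := (Q.comap (QuotientGroup.mk' K)).map f with hT
  set A := Subgroup.centralizer (N : Set (G ⧸ D)) ⊓ T with hA
  set N₁ : Subgroup A := N.subgroupOf A with hN₁
  have hN₁c : ∀ n ∈ N₁, ∀ a : A, Commute a n := by
    intro n hn a
    have h1 := (Subgroup.mem_inf.1 a.2).1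
    have h2 := Subgroup.mem_centralizer_iff.1 h1 n hn
    apply Subtype.ext
    exact h2.symm
  have hN₁p : ∀ p : ℕ, p.Prime → p ∣ Nat.card N₁ → p ∉ π := by
    intro p hp hd
    apply primes_quot D K hD p hp
    have h1 : Nat.card N₁ ∣ Nat.card N := by
      have h0 : N₁.map A.subtype ≤ N := by
        rintro _ ⟨x, hx, rfl⟩
        exact hx
      have := Subgroup.card_dvd_of_le h0
      rwa [Subgroup.card_map_of_injective A.subtype_injective] at this
    exact hd.trans h1
  have hN₁i : ∀ a : A, ∃ n : ℕ, (∀ p : ℕ, p.Prime → p ∣ n → p ∈ π) ∧ a ^ n ∈ N₁ := by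
    intro a
    obtain ⟨t, ht, hta⟩ := (Subgroup.mem_inf.1 a.2).2
    refine ⟨orderOf (QuotientGroup.mk' K t), ?_, ?_⟩
    · intro p hp hd
      exact (hQ _).1 ht p hp hd
    · rw [hN₁, Subgroup.mem_subgroupOf]
      have h1 : t ^ orderOf (QuotientGroup.mk' K t) ∈ K := by
        have h2 : QuotientGroup.mk' K (t ^ orderOf (QuotientGroup.mk' K t)) = 1 := by
          rw [map_pow, pow_orderOf_eq_one]
        exact (QuotientGroup.eq_one_iff _).1 h2
      refine ⟨_, h1, ?_⟩
      simp [← hta]
  obtain ⟨H₁, hH₁⟩ := complement_central N₁ hN₁c hN₁p hN₁i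
  refine ⟨(H₁.map A.subtype).comap f, fun x => ⟨?_, ?_⟩⟩
  · rintro ⟨a, ha, hax⟩
    have h1 := (hH₁ a).1 ha
    apply isPi_of_ker f hker
    intro p hp hd
    apply h1 p hp
    rw [Subgroup.subtype_apply] at hax
    rw [← hax] at hd
    simpa using hd
  · intro hx
    have hxT : f x ∈ T := by
      refine ⟨x, ?_, rfl⟩
      show QuotientGroup.mk' K x ∈ Q
      exact (hQ _).2 (hx.map (QuotientGroup.mk' K))
    have hxA : f x ∈ A := Subgroup.mem_inf.2 ⟨hcent x hx, hxT⟩
    refine ⟨⟨f x, hxA⟩, (hH₁ _).2 ?_, rfl⟩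
    intro p hp hd
    exact hx.map f p hp (by simpa using hd)

/-- Let π be a set of primes and G a finite group such that N_G(H)/C_G(H) is a π'-group for every nontrivial π'-subgroup H of G. If K is a normal subgroup of G such that the π-elements of K form a subgroup and the π-elements of G/K form a subgroup, then the π-elements of G form a subgroup. -/
theorem result {G : Type*} [Group G] [Finite G] (π : Set ℕ)
    (hπ : ∀ p ∈ π, p.Prime) (hhom : (∀ H : Subgroup G, H ≠ ⊥ → (∀ p : ℕ, p.Prime → p ∣ Nat.card ↥H → p ∉ π) →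
        ∀ p : ℕ, p.Prime → p ∣ (Subgroup.centralizer (H : Set G)).relIndex (Subgroup.normalizer (H : Set G)) → p ∉ π))
    (K : Subgroup G) [K.Normal]
    (hK : ∃ L : Subgroup ↥K, ∀ x : ↥K, x ∈ L ↔ ∀ p : ℕ, p.Prime → p ∣ orderOf x → p ∈ π)
    (hQ : ∃ L : Subgroup (G ⧸ K), ∀ x : G ⧸ K, x ∈ L ↔ ∀ p : ℕ, p.Prime → p ∣ orderOf x → p ∈ π) :
    (∃ K : Subgroup G, ∀ x : G, x ∈ K ↔ ∀ p : ℕ, p.Prime → p ∣ orderOf x → p ∈ π) := by
  exact main_elementwise (homog_of_index hhom) K hK hQ

end Cfsg.Agent.S4051
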