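import Mathlib
import Cfsg.Statements.S4050
import Cfsg.Agent.S4051

set_option autoImplicit false
set_option linter.all false
open Cfsg
open Pointwise

namespace Cfsg.Agent.S4050

open Cfsg.Agent.S4051

variable {G : Type*} [Group G]

lemma homog_subgroup {π : Set ℕ} (hom : Homog π G) (S : Subgroup G) : Homog π S := by
  intro H' hH' hp y hy hyp
  have hb : H'.map S.subtype ≠ ⊥ := by
    intro h
    apply hH'
    rw [eq_bot_iff]
    intro x hx
    have : (x : G) ∈ H'.map S.subtype := ⟨x, hx, rfl⟩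
    rw [h, Subgroup.mem_bot] at this
    rw [Subgroup.mem_bot]
    exact Subtype.ext this
  have hcard : Nat.card (H'.map S.subtype) = Nat.card H' :=
    Subgroup.card_map_of_injective S.subtype_injective
  have hN : (y : G) ∈ Subgroup.normalizer ((H'.map S.subtype : Subgroup G) : Set G) := by
    rw [Subgroup.mem_normalizer_iff]
    have hy' : ∀ h : S, h ∈ (H' : Set S) ↔ y * h * y⁻¹ ∈ (H' : Set S) := Subgroup.mem_normalizer_iff.1 hy
    intro h
    constructor
    · rintro ⟨h', hh', rfl⟩
      exact ⟨y * h' * y⁻¹, (hy' h').1 hh', rfl⟩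
    · rintro ⟨h'', hh'', he⟩
      have hS : h ∈ S := by
        have : h = (y : G)⁻¹ * h'' * y := by
          rw [Subgroup.subtype_apply] at he
          rw [he]
          group
        rw [this]
        exact S.mul_mem (S.mul_mem (S.inv_mem y.2) h''.2) y.2
      refine ⟨⟨h, hS⟩, (hy' ⟨h, hS⟩).2 ?_, rfl⟩
      have : y * ⟨h, hS⟩ * y⁻¹ = h'' := by
        apply Subtype.ext
        rw [Subgroup.subtype_apply] at he
        simpa using he.symm
      rw [this]
      exact hh''
  have hC := hom (H'.map S.subtype) hb (by rw [hcard]; exact hp) y hN (by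
    intro p hp hd
    exact hyp p hp (by simpa using hd))
  rw [Subgroup.mem_centralizer_iff] at hC ⊢
  intro h hh
  apply Subtype.ext
  exact hC h ⟨h, hh, rfl⟩

lemma cent_normal (H : Subgroup G) :
    ((Subgroup.centralizer (H : Set G)).subgroupOf (Subgroup.normalizer (H : Set G))).Normal := by
  constructor
  intro c hc n
  rw [Subgroup.mem_subgroupOf] at hc ⊢
  rw [Subgroup.mem_centralizer_iff] at hc ⊢
  intro h hh
  have hn : ∀ h : G, h ∈ (H : Set G) ↔ (n : G) * h * (n : G)⁻¹ ∈ (H : Set G) :=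
    Subgroup.mem_normalizer_iff.1 n.2
  have h2 : (n : G)⁻¹ * h * n ∈ H := by
    have := (hn ((n : G)⁻¹ * h * n)).2 (by simpa [mul_assoc] using hh)
    exact this
  have h3 := hc _ h2
  simp only [Subgroup.coe_mul, Subgroup.coe_inv, InvMemClass.coe_inv, MulMemClass.coe_mul] at h3 ⊢
  calc h * (↑n * ↑c * (↑n)⁻¹) = ↑n * (((↑n)⁻¹ * h * ↑n) * ↑c) * (↑n)⁻¹ := by group
    _ = ↑n * (↑c * ((↑n)⁻¹ * h * ↑n)) * (↑n)⁻¹ := by rw [h3]
    _ = _ := by group

lemma orderOf_conj' (g x : G) : orderOf (g * x * g⁻¹) = orderOf x := by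
  have := orderOf_injective (MulAut.conj g).toMonoidHom (MulAut.conj g).injective x
  simpa [MulAut.conj_apply] using this

/-- the forward direction -/
lemma forward [Finite G] {π : Set ℕ} (K : Subgroup G) (hK : ∀ x : G, x ∈ K ↔ IsPi π x) :
    ((∃ (n : ℕ) (H : Fin (n + 1) → Subgroup G), H 0 = ⊥ ∧ H (Fin.last n) = ⊤ ∧ Monotone H ∧ (∀ i, (H i).Normal) ∧
      ∀ i : Fin n, (∀ q : ℕ, q.Prime → q ∣ (H i.castSucc).relIndex (H i.succ) → q ∈ π) ∨
        (∀ q : ℕ, q.Prime → q ∣ (H i.castSucc).relIndex (H i.succ) → q ∉ π)) ∧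
     (∀ H : Subgroup G, H ≠ ⊥ → (∀ p : ℕ, p.Prime → p ∣ Nat.card ↥H → p ∉ π) →
        ∀ p : ℕ, p.Prime → p ∣ (Subgroup.centralizer (H : Set G)).relIndex (Subgroup.normalizer (H : Set G)) → p ∉ π)) := by
  haveI hKn : K.Normal := by
    constructor
    intro n hn g
    rw [hK] at hn ⊢
    intro p hp hd
    rw [orderOf_conj'] at hd
    exact hn p hp hd
  have hKcard : ∀ q : ℕ, q.Prime → q ∣ Nat.card K → q ∈ π := by
    intro q hq hd
    haveI := Fact.mk hq
    obtain ⟨x, hx⟩ := exists_prime_orderOf_dvd_card' q hd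
    have h1 : orderOf (x : G) = q := by rw [Subgroup.orderOf_coe, hx]
    exact (hK x).1 x.2 q hq (by rw [h1])
  refine ⟨⟨2, ![⊥, K, ⊤], rfl, rfl, ?_, ?_, ?_⟩, ?_⟩
  · rw [Fin.monotone_iff_le_succ]
    intro i
    fin_cases i
    · exact bot_le
    · exact le_top
  · intro i
    fin_cases i
    · exact (inferInstance : (⊥ : Subgroup G).Normal)
    · exact hKn
    · exact (inferInstance : (⊤ : Subgroup G).Normal)
  · intro i
    fin_cases i
    · left
      intro q hq hd
      apply hKcard q hq
      have : (⊥ : Subgroup G).relIndex K = Nat.card K := Subgroup.relIndex_bot_left K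
      have h2 : q ∣ (⊥ : Subgroup G).relIndex K := hd
      rwa [this] at h2
    · right
      intro q hq hd
      have h1 : K.relIndex ⊤ = K.index := Subgroup.relIndex_top_right K
      have h2 : q ∣ K.relIndex ⊤ := hd
      rw [h1] at h2
      apply primes_quot K ⊤ (fun x _ => hK x) q hq
      have h3 : ((⊤ : Subgroup G).map (QuotientGroup.mk' K)) = ⊤ := by
        rw [Subgroup.map_top_of_surjective _ (QuotientGroup.mk'_surjective K)]
      rw [h3, Nat.card_congr Subgroup.topEquiv.toEquiv]
      exact h2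
  · intro H hH hHp p hp hd hpπ
    haveI := Fact.mk hp
    haveI := cent_normal H
    set N := Subgroup.normalizer (H : Set G) with hN
    set C := Subgroup.centralizer (H : Set G) with hC
    have hd' : p ∣ Nat.card (N ⧸ C.subgroupOf N) := hd
    obtain ⟨xb, hxb⟩ := exists_prime_orderOf_dvd_card' p hd'
    obtain ⟨n, rfl⟩ := QuotientGroup.mk'_surjective _ xb
    obtain ⟨a, m, hm, hnm⟩ := Nat.exists_eq_pow_mul_and_not_dvd (orderOf_pos (n : G)).ne' p hp.ne_one
    have hz : IsPi π ((n : G) ^ m) := by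
      intro t ht hdt
      have h1 : orderOf ((n : G) ^ m) ∣ p ^ a :=
        orderOf_dvd_of_pow_eq_one (by rw [← pow_mul, mul_comm, ← hnm, pow_orderOf_eq_one])
      have h2 := (Nat.prime_dvd_prime_iff_eq ht hp).1 (ht.dvd_of_dvd_pow (hdt.trans h1))
      rw [h2]
      exact hpπ
    have hzK : (n : G) ^ m ∈ K := (hK _).2 hz
    have hzN : ((n : G) ^ m) ∈ N := N.pow_mem n.2 m
    have hzC : (n : G) ^ m ∈ C := by
      rw [Subgroup.mem_centralizer_iff]
      intro h hh
      set z := (n : G) ^ m with hzdef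
      -- the commutator lies in `K ⊓ H`
      have h1 : z * h⁻¹ * z⁻¹ ∈ H := by
        have := (Subgroup.mem_normalizer_iff.1 hzN h⁻¹).1 (H.inv_mem hh)
        exact this
      have h2 : h * (z * h⁻¹ * z⁻¹) ∈ H := H.mul_mem hh h1
      have h3 : h * z * h⁻¹ ∈ K := (inferInstance : K.Normal).conj_mem z hzK h
      have h4 : (h * z * h⁻¹) * z⁻¹ ∈ K := K.mul_mem h3 (K.inv_mem hzK)
      have h5 : h * (z * h⁻¹ * z⁻¹) = (h * z * h⁻¹) * z⁻¹ := by group
      have h6 : IsPi π (h * (z * h⁻¹ * z⁻¹)) := by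
        rw [h5]
        exact (hK _).1 h4
      have h7 : h * (z * h⁻¹ * z⁻¹) = 1 := by
        by_contra hne
        have h8 : orderOf (h * (z * h⁻¹ * z⁻¹)) ≠ 1 := by rwa [Ne, orderOf_eq_one_iff]
        obtain ⟨t, ht, htd⟩ := Nat.exists_prime_and_dvd h8
        have h9 : orderOf (h * (z * h⁻¹ * z⁻¹)) ∣ Nat.card H := by
          have : orderOf (⟨_, h2⟩ : H) = orderOf (h * (z * h⁻¹ * z⁻¹)) := Subgroup.orderOf_mk _ h2
          rw [← this]
          exact orderOf_dvd_natCard _
        exact hHp t ht (htd.trans h9) (h6 t ht htd)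
      -- conclude
      have h10 : h * z = z * h := by
        have : h * z * h⁻¹ * z⁻¹ = 1 := by rw [← h5]; exact h7
        calc h * z = (h * z * h⁻¹ * z⁻¹) * (z * h) := by group
          _ = z * h := by rw [this, one_mul]
      exact h10
    have h1 : (QuotientGroup.mk' (C.subgroupOf N) n) ^ m = 1 := by
      rw [← map_pow]
      apply (QuotientGroup.eq_one_iff _).2
      rw [Subgroup.mem_subgroupOf]
      simpa using hzC
    have h2 := orderOf_dvd_of_pow_eq_one h1
    rw [hxb] at h2
    exact hm h2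

/-- Let π be a set of primes and G a finite group. The π-elements of G (elements whose order is divisible only by primes of π) form a subgroup if and only if G is π-separable (it has a chain of normal subgroups from 1 to G with each successive index divisible only by primes in π or only by primes outside π) and N_G(H)/C_G(H) is a π'-group for every nontrivial π'-subgroup H of G. -/
theorem result {G : Type*} [Group G] [Finite G] (π : Set ℕ)
    (hπ : ∀ p ∈ π, p.Prime) :
    (∃ K : Subgroup G, ∀ x : G, x ∈ K ↔ ∀ p : ℕ, p.Prime → p ∣ orderOf x → p ∈ π) ↔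
    ((∃ (n : ℕ) (H : Fin (n + 1) → Subgroup G), H 0 = ⊥ ∧ H (Fin.last n) = ⊤ ∧ Monotone H ∧ (∀ i, (H i).Normal) ∧
      ∀ i : Fin n, (∀ q : ℕ, q.Prime → q ∣ (H i.castSucc).relIndex (H i.succ) → q ∈ π) ∨
        (∀ q : ℕ, q.Prime → q ∣ (H i.castSucc).relIndex (H i.succ) → q ∉ π)) ∧
     (∀ H : Subgroup G, H ≠ ⊥ → (∀ p : ℕ, p.Prime → p ∣ Nat.card ↥H → p ∉ π) →
        ∀ p : ℕ, p.Prime → p ∣ (Subgroup.centralizer (H : Set G)).relIndex (Subgroup.normalizer (H : Set G)) → p ∉ π)) := by
  constructor
  · rintro ⟨K, hK⟩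
    exact forward K hK
  · rintro ⟨⟨n, H, h0, hl, hm, hn, hf⟩, hhom⟩
    have hom := homog_of_index hhom
    have key : ∀ i : Fin (n + 1), ∃ L : Subgroup ↥(H i), ∀ x : ↥(H i), x ∈ L ↔ IsPi π x := by
      intro i
      induction i using Fin.induction with
      | zero =>
        refine ⟨⊤, fun x => ⟨fun _ => ?_, fun _ => trivial⟩⟩
        have : x = 1 := by
          apply Subtype.ext
          have h1 : (x : G) ∈ H 0 := x.2
          have h2 : (x : G) ∈ (⊥ : Subgroup G) := h0 ▸ h1
          exact Subgroup.mem_bot.1 h2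
        rw [this]
        exact isPi_one π
      | succ i ih =>
        obtain ⟨L₀, hL₀⟩ := ih
        have hle : H i.castSucc ≤ H i.succ := hm (Fin.castSucc_lt_succ).le
        haveI := hn i.castSucc
        haveI : ((H i.castSucc).subgroupOf (H i.succ)).Normal := by
          exact Subgroup.Normal.subgroupOf inferInstance _
        have hKK : ∃ L : Subgroup ↥((H i.castSucc).subgroupOf (H i.succ)),
            ∀ x : ↥((H i.castSucc).subgroupOf (H i.succ)), x ∈ L ↔ ∀ p : ℕ, p.Prime → p ∣ orderOf x → p ∈ π := by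
          refine ⟨L₀.comap (Subgroup.subgroupOfEquivOfLe hle).toMonoidHom, fun x => ?_⟩
          rw [Subgroup.mem_comap, hL₀]
          have : orderOf ((Subgroup.subgroupOfEquivOfLe hle).toMonoidHom x) = orderOf x :=
            orderOf_injective _ (Subgroup.subgroupOfEquivOfLe hle).injective x
          constructor
          · intro h p hp hd
            exact h p hp (by rw [this]; exact hd)
          · intro h p hp hd
            exact h p hp (by rw [← this]; exact hd)
        have hQQ : ∃ L : Subgroup (↥(H i.succ) ⧸ ((H i.castSucc).subgroupOf (H i.succ))),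
            ∀ x : ↥(H i.succ) ⧸ ((H i.castSucc).subgroupOf (H i.succ)),
              x ∈ L ↔ ∀ p : ℕ, p.Prime → p ∣ orderOf x → p ∈ π := by
          rcases hf i with hf1 | hf2
          · refine ⟨⊤, fun x => ⟨fun _ p hp hd => hf1 p hp ?_, fun _ => trivial⟩⟩
            exact hd.trans (orderOf_dvd_natCard x)
          · refine ⟨⊥, fun x => ⟨fun hx p hp hd => ?_, fun hx => ?_⟩⟩
            · rw [Subgroup.mem_bot] at hx
              rw [hx, orderOf_one] at hd
              exact absurd (Nat.dvd_one.1 hd) hp.ne_one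
            · rw [Subgroup.mem_bot]
              by_contra hne
              have h8 : orderOf x ≠ 1 := by rwa [Ne, orderOf_eq_one_iff]
              obtain ⟨t, ht, htd⟩ := Nat.exists_prime_and_dvd h8
              exact hf2 t ht (htd.trans (orderOf_dvd_natCard x)) (hx t ht htd)
        exact main_elementwise (homog_subgroup hom _) _ hKK hQQ
    obtain ⟨L, hL⟩ := key (Fin.last n)
    refine ⟨L.map (H (Fin.last n)).subtype, fun x => ⟨?_, ?_⟩⟩
    · rintro ⟨w, hw, rfl⟩ p hp hd
      exact (hL w).1 hw p hp (by simpa using hd)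
    · intro h
      have hx : x ∈ H (Fin.last n) := by rw [hl]; trivial
      refine ⟨⟨x, hx⟩, (hL _).2 ?_, rfl⟩
      intro p hp hd
      exact h p hp (by simpa using hd)

end Cfsg.Agent.S4050
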