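import Cfsg.Statements.S4052
import Cfsg.Agent.Lib.PiHom.Star

set_option autoImplicit false
open Cfsg

namespace Cfsg.Agent.S4052

/-- Let π be a set of primes and G a finite group whose maximal π-subgroups are pairwise conjugate (so Hall π-subgroups exist, any two are conjugate, and every π-subgroup lies in one of them), and suppose N_G(H)/C_G(H) is a π-group for every nontrivial π-subgroup H. If either 3 does not divide the order of G, or the π'-elements of every proper subgroup of G form a subgroup, then the π'-elements of G form a subgroup. -/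
theorem result {G : Type*} [Group G] [Finite G] (π : Set ℕ)
    (hπ : ∀ p ∈ π, p.Prime) (hD : Cfsg.IsDPiGroup π G) (hhom : (∀ H : Subgroup G, H ≠ ⊥ → (∀ p : ℕ, p.Prime → p ∣ Nat.card ↥H → p ∈ π) →
        ∀ p : ℕ, p.Prime → p ∣ (Subgroup.centralizer (H : Set G)).relIndex (Subgroup.normalizer (H : Set G)) → p ∈ π))
    (hcase : ¬ 3 ∣ Nat.card G ∨ ∀ M : Subgroup G, M ≠ ⊤ →
      ∃ L : Subgroup ↥M, ∀ x : ↥M, x ∈ L ↔ ∀ p : ℕ, p.Prime → p ∣ orderOf x → p ∉ π) :
    (∃ K : Subgroup G, ∀ x : G, x ∈ K ↔ ∀ p : ℕ, p.Prime → p ∣ orderOf x → p ∉ π) := by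
  classical
  -- a maximal π-subgroup
  have hbot : IsPiSubgroup π (⊥ : Subgroup G) := by
    intro p hp hd
    rw [Subgroup.card_bot] at hd
    exact absurd (Nat.dvd_one.mp hd) hp.one_lt.ne'
  obtain ⟨H, -, hHmax⟩ := Finite.exists_le_maximal hbot
  have hH : Cfsg.Agent.Lib.PiHom.HallData π H := by
    constructor
    · intro x hx
      exact Cfsg.Agent.Lib.PiHom.isPiSubgroup_iff.mp hHmax.prop x hx
    · intro X hX
      have hX' : IsPiSubgroup π X := Cfsg.Agent.Lib.PiHom.isPiSubgroup_iff.mpr hX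
      obtain ⟨M, hXM, hM⟩ := Finite.exists_le_maximal hX'
      obtain ⟨g, hg⟩ := hD H M hHmax hM
      refine ⟨g, ?_⟩
      intro x hx
      have hxM := hXM hx
      rw [hg] at hxM
      obtain ⟨y, hy, rfl⟩ := hxM
      have : g⁻¹ * (MulAut.conj g).toMonoidHom y * g = y := by
        simp [MulAut.conj_apply]
        group
      rw [this]
      exact hy
  have hE : Cfsg.Agent.Lib.PiHom.HomE π G := by
    intro X hX hXπ n hn hσ
    have hXpi : ∀ p : ℕ, p.Prime → p ∣ Nat.card X → p ∈ π :=
      Cfsg.Agent.Lib.PiHom.isPiSubgroup_iff.mpr hXπ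
    have hq := hhom X hX hXpi
    -- the image of `n` in `N / C` is trivial
    set N := Subgroup.normalizer (X : Set G) with hN
    set C := Subgroup.centralizer (X : Set G) with hC
    have hCn : (C.subgroupOf N).Normal := by
      constructor
      rintro ⟨c, hcN⟩ hc ⟨m, hm⟩
      rw [Subgroup.mem_subgroupOf] at hc ⊢
      simp only [MulMemClass.coe_mul, InvMemClass.coe_inv]
      rw [hC, Subgroup.mem_centralizer_iff] at hc ⊢
      intro x hx
      have hx' : m⁻¹ * x * m ∈ X := Cfsg.Agent.Lib.PiHom.inv_conj_mem_of_normalizer hm hx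
      have := hc _ hx'
      calc x * (m * c * m⁻¹) = m * ((m⁻¹ * x * m) * c) * m⁻¹ := by group
        _ = m * (c * (m⁻¹ * x * m)) * m⁻¹ := by rw [this]
        _ = m * c * m⁻¹ * x := by group
    have hpow : ((⟨n, hn⟩ : N) ^ (C.relIndex N)) ∈ C.subgroupOf N := by
      have := Subgroup.pow_index_mem (C.subgroupOf N) (⟨n, hn⟩ : N)
      exact this
    have hpow' : n ^ (C.relIndex N) ∈ C := by
      have := Subgroup.mem_subgroupOf.mp hpow
      simpa using this
    have hcop : (C.relIndex N).Coprime (orderOf n) := by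
      apply Nat.coprime_of_dvd
      intro q hqp hd hd'
      exact hσ q hqp hd' (hq q hqp hd)
    obtain ⟨k, hk⟩ := exists_pow_eq_self_of_coprime hcop
    rw [← hk]
    exact C.pow_mem hpow' k
  obtain ⟨K, hK⟩ := Cfsg.Agent.Lib.PiHom.main_closed π _ G H rfl hH hE
  exact ⟨K, hK⟩

end Cfsg.Agent.S4052
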