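import Cfsg.Statements.S4056
import Mathlib
import Cfsg.Agent.Lib.PGroups.ClassTwo
import Cfsg.Agent.Lib.PGroups.Basic
-- import your own Cfsg.Agent.* helpers here

set_option autoImplicit false
open Cfsg

namespace Cfsg.Agent.S4056

open scoped commutatorElement

theorem key_class2 {P : Type*} [Group P] (hc : ∀ x y : P, ⁅x, y⁆ ∈ Subgroup.center P)
    (h4 : ∀ x : P, x ^ 4 = 1) (x y : P) : ⁅x, y⁆ ^ 2 = 1 := by
  have h1 : ⁅x, y⁆ ^ 4 = 1 := by
    rw [← Cfsg.Agent.Lib.PGroups.ClassTwo.comm_pow_left hc, h4]; simp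
  have h2 := Cfsg.Agent.Lib.PGroups.ClassTwo.mul_pow hc y x 4
  rw [h4, h4, h4] at h2
  have h6 : ⁅x, y⁆ ^ 6 = 1 := by
    have : Nat.choose 4 2 = 6 := by decide
    rw [this] at h2
    simpa using h2.symm
  have e : ⁅x, y⁆ ^ 6 = ⁅x, y⁆ ^ 4 * ⁅x, y⁆ ^ 2 := by rw [← pow_add]
  rw [e, h1, one_mul] at h6
  exact h6


/-- In a finite 2-group of nilpotency class at most 2 and exponent dividing 4, the Frattini subgroup lies in the centre and is elementary abelian. -/
theorem result {P : Type*} [Group P] [Finite P] (hP : IsPGroup 2 P)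
    (hcl : Group.nilpotencyClass P ≤ 2) (hexp : Monoid.exponent P ∣ 4) :
    frattini P ≤ Subgroup.center P ∧ Cfsg.IsElementaryAbelian 2 (frattini P) := by
  classical
  haveI : Fact (Nat.Prime 2) := ⟨Nat.prime_two⟩
  have hn := hP.isNilpotent
  have hc : ∀ x y : P, ⁅x, y⁆ ∈ Subgroup.center P := by
    have h2 : upperCentralSeries P 2 = ⊤ :=
      (upperCentralSeries_eq_top_iff_nilpotencyClass_le).2 hcl
    intro x y
    have hx : x ∈ upperCentralSeries P 2 := by rw [h2]; trivial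
    have := (mem_upperCentralSeries_succ_iff (n := 1) (x := x)).1 hx y
    simpa [upperCentralSeries_one] using this
  have h4 : ∀ x : P, x ^ 4 = 1 := fun x =>
    Monoid.exponent_dvd_iff_forall_pow_eq_one.1 hexp x
  have hk := key_class2 hc h4
  have hsq : ∀ x : P, x ^ 2 ∈ Subgroup.center P := by
    intro x
    rw [Subgroup.mem_center_iff]
    intro g
    have h1 : ⁅x ^ 2, g⁆ = 1 := by
      rw [Cfsg.Agent.Lib.PGroups.ClassTwo.comm_pow_left hc, hk]
    have := commutatorElement_eq_one_iff_commute.1 h1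
    exact this.symm.eq
  let Ω : Subgroup P :=
    { carrier := {z | z ∈ Subgroup.center P ∧ z ^ 2 = 1}
      mul_mem' := by
        rintro a b ⟨ha, ha2⟩ ⟨hb, hb2⟩
        refine ⟨mul_mem ha hb, ?_⟩
        have hcomm : Commute a b := (Subgroup.mem_center_iff.1 ha b).symm
        rw [hcomm.mul_pow, ha2, hb2, one_mul]
      one_mem' := ⟨one_mem _, one_pow _⟩
      inv_mem' := by
        rintro a ⟨ha, ha2⟩
        exact ⟨inv_mem ha, by rw [inv_pow, ha2, inv_one]⟩ }
  haveI : Ω.Normal := by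
    constructor
    rintro a ⟨ha, ha2⟩ g
    have : g * a * g⁻¹ = a := by
      rw [(Subgroup.mem_center_iff.1 ha g)]; group
    rw [this]; exact ⟨ha, ha2⟩
  have hF : frattini P ≤ Ω := by
    refine Cfsg.Agent.Lib.PGroups.Basic.frattini_le_of_normal (p := 2) Ω ?_ ?_
    · rw [commutator_def, Subgroup.commutator_le]
      intro a _ b _
      exact ⟨hc a b, hk a b⟩
    · intro x
      refine ⟨hsq x, ?_⟩
      rw [← pow_mul]; exact h4 x
  refine ⟨fun z hz => (hF hz).1, ?_, fun a ha => (hF ha).2⟩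
  refine ⟨⟨?_⟩⟩
  rintro ⟨a, ha⟩ ⟨b, hb⟩
  apply Subtype.ext
  exact (Subgroup.mem_center_iff.1 (hF ha).1 b).symm

end Cfsg.Agent.S4056
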