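import Cfsg.Statements.S4058
import Cfsg.Agent.Lib.Char.FrobSchur
import Cfsg.Agent.Lib.Char.Degree
import Cfsg.Agent.Lib.Char.Linear
import Cfsg.Agent.Lib.PGroups.Basic
import Mathlib.GroupTheory.FiniteAbelian.Duality
import Mathlib.RingTheory.RootsOfUnity.AlgebraicallyClosed

set_option autoImplicit false
open Cfsg

namespace Cfsg.Agent.S4058

open Cfsg.Agent.Lib.Char.Basic Cfsg.Agent.Lib.Char.Ortho Cfsg.Agent.Lib.Char.Complete
open Cfsg.Agent.Lib.Char.Degree Cfsg.Agent.Lib.Char.Linear Cfsg.Agent.Lib.Char.FrobSchur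
open scoped ComplexConjugate

universe u v

/-- Divisibility of a sum of an invariant function via orbit sizes. -/
lemma dvd_sum_of_invariant {L : Type*} {X : Type*} [Group L] [MulAction L X] [Fintype X]
    (n : X → ℤ) (hn : ∀ (l : L) (x : X), n (l • x) = n x) (m : ℤ)
    (h : ∀ x : X, m ∣ (Nat.card (MulAction.orbit L x) : ℤ) * n x) : m ∣ ∑ x, n x := by
  classical
  let _ : Fintype (MulAction.orbitRel.Quotient L X) := Fintype.ofFinite _
  let q : X → MulAction.orbitRel.Quotient L X := fun x => Quotient.mk'' x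
  rw [← Fintype.sum_fiberwise q n]
  refine Finset.dvd_sum fun ω _ => ?_
  induction ω using Quotient.inductionOn' with
  | h x0 =>
    have hmem : ∀ x : X, q x = q x0 ↔ x ∈ MulAction.orbit L x0 := by
      intro x
      show (Quotient.mk'' x : MulAction.orbitRel.Quotient L X) = Quotient.mk'' x0 ↔ _
      rw [Quotient.eq'']
      exact MulAction.orbitRel_apply
    have hsum : ∑ i : {i // q i = q x0}, n i.1 =
        (Nat.card (MulAction.orbit L x0) : ℤ) * n x0 := by
      have hconst : ∀ i : {i // q i = q x0}, n i.1 = n x0 := by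
        rintro ⟨i, hi⟩
        obtain ⟨l, rfl⟩ := (hmem i).1 hi
        exact hn l x0
      rw [Finset.sum_congr rfl (fun i _ => hconst i), Finset.sum_const, nsmul_eq_mul]
      congr 2
      rw [Finset.card_univ, ← Nat.card_eq_fintype_card]
      exact Nat.card_congr (Equiv.subtypeEquivRight hmem)
    show _ ∣ ∑ i : {i // q i = q x0}, n i.1
    rw [hsum]
    exact h x0

section Main

variable {G : Type u} [Group G] [Finite G] {A : Type v} [CommGroup A] [Finite A]
  (π : G →* A) (hA : ∀ a : A, a * a = 1)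

include hA in
lemma val_sq (l : A →* ℂˣ) (g : G) : ((l (π g) : ℂˣ) : ℂ) = 1 ∨ ((l (π g) : ℂˣ) : ℂ) = -1 := by
  have h : (l (π g)) * (l (π g)) = 1 := by rw [← map_mul, hA, map_one]
  have h2 : ((l (π g) : ℂˣ) : ℂ) * ((l (π g) : ℂˣ) : ℂ) = 1 := by
    rw [← Units.val_mul, h, Units.val_one]
  exact mul_self_eq_one_iff.mp h2

include hA in
lemma val_mul_conj (l : A →* ℂˣ) (g : G) :
    ((l (π g) : ℂˣ) : ℂ) * conj ((l (π g) : ℂˣ) : ℂ) = 1 := by
  rcases val_sq π hA l g with h | h <;> rw [h] <;> simp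

lemma isCharacter_lin (l : A →* ℂˣ) : IsCharacter G (fun g => ((l (π g) : ℂˣ) : ℂ)) :=
  isCharacter_of_isIrrCharacter (isIrrCharacter_of_hom (l.comp π))

include hA in
lemma isIrr_twist (l : A →* ℂˣ) {χ : G → ℂ} (hχ : IsIrrCharacter G χ) :
    IsIrrCharacter G (fun g => ((l (π g) : ℂˣ) : ℂ) * χ g) := by
  classical
  letI := Fintype.ofFinite G
  refine isIrrCharacter_of_classInner_self_eq_one
    (isCharacter_mul (isCharacter_lin π l) (isCharacter_of_isIrrCharacter hχ)) ?_
  rw [← classInner_self_of_isIrr hχ]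
  unfold classInner
  congr 1
  refine Finset.sum_congr rfl fun g _ => ?_
  rw [map_mul]
  have := val_mul_conj π hA l g
  linear_combination (χ g * conj (χ g)) * this

/-- The twist action of `A →* ℂˣ` on irreducible characters. -/
noncomputable def twistAction : MulAction (A →* ℂˣ) (IrrCharacter G) where
  smul l χ := ⟨fun g => ((l (π g) : ℂˣ) : ℂ) * χ.1 g, isIrr_twist π hA l χ.2⟩
  one_smul χ := by
    apply Subtype.ext
    funext g
    show (((1 : A →* ℂˣ) (π g) : ℂˣ) : ℂ) * χ.1 g = χ.1 g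
    simp
  mul_smul l l' χ := by
    apply Subtype.ext
    funext g
    show (((l * l') (π g) : ℂˣ) : ℂ) * χ.1 g =
      ((l (π g) : ℂˣ) : ℂ) * (((l' (π g) : ℂˣ) : ℂ) * χ.1 g)
    simp [mul_assoc]


section Fin

variable [Fintype G]

/-- The Frobenius-Schur indicator. -/
noncomputable def nu (χ : G → ℂ) : ℂ := (Nat.card G : ℂ)⁻¹ * ∑ s : G, χ (s * s)

lemma exists_int_nu {χ : G → ℂ} (hχ : IsIrrCharacter G χ) : ∃ e : ℤ, conj (nu χ) = e := by
  obtain ⟨n, ρ, hρ, rfl⟩ := hχ
  rcases (frobeniusSchur ρ hρ).1 with h | h | h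
  · exact ⟨0, by unfold nu; rw [h]; simp⟩
  · exact ⟨1, by unfold nu; rw [h]; simp⟩
  · exact ⟨-1, by unfold nu; rw [h]; simp⟩

include hA in
lemma nu_twist (l : A →* ℂˣ) (χ : G → ℂ) :
    nu (fun g => ((l (π g) : ℂˣ) : ℂ) * χ g) = nu χ := by
  unfold nu
  congr 1
  refine Finset.sum_congr rfl fun s _ => ?_
  show ((l (π (s * s)) : ℂˣ) : ℂ) * χ (s * s) = χ (s * s)
  rw [map_mul, hA, map_one, Units.val_one, one_mul]

/-- The key bound: the stabilizer has at most `χ(1)²` elements. -/
theorem card_stab_le (hπ : Function.Surjective π) (χ : IrrCharacter G) :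
    Nat.card (@MulAction.stabilizer _ _ _ (twistAction π hA) χ) ≤ charDegree χ.1 ^ 2 := by
  classical
  letI := twistAction π hA
  have := finite_irrCharacter (G := G)
  letI := Fintype.ofFinite (IrrCharacter G)
  letI : Fintype (MulAction.stabilizer (A →* ℂˣ) χ) := Fintype.ofFinite _
  have hχc := isCharacter_of_isIrrCharacter χ.2
  have hfc : IsCharacter G (fun g => χ.1 g * χ.1 g⁻¹) := isCharacter_mul hχc (isCharacter_inv hχc)
  obtain ⟨m, hm⟩ := exists_nat_combination hfc
  let F : MulAction.stabilizer (A →* ℂˣ) χ → IrrCharacter G := fun l =>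
    ⟨fun g => ((l.1 (π g) : ℂˣ) : ℂ), isIrrCharacter_of_hom (l.1.comp π)⟩
  have hF : Function.Injective F := by
    intro l l' h
    apply Subtype.ext
    apply MonoidHom.ext
    intro a
    obtain ⟨g, rfl⟩ := hπ a
    have := congrFun (congrArg Subtype.val h) g
    exact Units.ext this
  have hmF : ∀ l, m (F l) = 1 := by
    intro l
    have h1 := classInner_of_nat_combination m (F l)
    rw [← hm] at h1
    have h2 : classInner (fun g => χ.1 g * χ.1 g⁻¹) (F l).1 = 1 := by
      rw [← classInner_self_of_isIrr χ.2]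
      have hl : l.1 • χ = χ := l.2
      have hl' : ∀ g, ((l.1 (π g) : ℂˣ) : ℂ) * χ.1 g = χ.1 g := fun g =>
        congrFun (congrArg Subtype.val hl) g
      unfold classInner
      congr 1
      refine Finset.sum_congr rfl fun g _ => ?_
      show χ.1 g * χ.1 g⁻¹ * conj ((l.1 (π g) : ℂˣ) : ℂ) = χ.1 g * conj (χ.1 g)
      rw [char_inv_eq_conj hχc g]
      have h3 := congrArg conj (hl' g)
      rw [map_mul] at h3
      linear_combination (χ.1 g) * h3
    rw [h2] at h1
    exact_mod_cast h1.symm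
  have hdeg : charDegree χ.1 ^ 2 = ∑ i, m i * charDegree (i : G → ℂ) := by
    have h1 := congrFun hm 1
    simp only [inv_one, Finset.sum_apply, Pi.smul_apply] at h1
    have h2 : ((charDegree χ.1 ^ 2 : ℕ) : ℂ) = ((∑ i, m i * charDegree (i : G → ℂ) : ℕ) : ℂ) := by
      push_cast
      rw [charDegree_natCast hχc, sq, h1]
      refine Finset.sum_congr rfl fun i _ => ?_
      rw [charDegree_natCast (isCharacter_of_isIrrCharacter i.2), nsmul_eq_mul]
    exact_mod_cast h2
  rw [hdeg, Nat.card_eq_fintype_card, ← Finset.card_univ, ← Finset.card_image_of_injective _ hF,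
    Finset.card_eq_sum_ones]
  calc ∑ _i ∈ Finset.univ.image F, 1 ≤ ∑ i ∈ Finset.univ.image F, m i * charDegree (i : G → ℂ) := by
        refine Finset.sum_le_sum fun i hi => ?_
        obtain ⟨l, -, rfl⟩ := Finset.mem_image.mp hi
        rw [hmF l, one_mul]
        exact charDegree_pos (F l).2
    _ ≤ ∑ i, m i * charDegree (i : G → ℂ) :=
        Finset.sum_le_sum_of_subset (Finset.subset_univ _)

end Fin

end Main

/-- The main theorem in a convenient form. -/
theorem main {G : Type u} [Group G] [Finite G] {A : Type v} [CommGroup A] [Finite A]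
    (π : G →* A) (hπ : Function.Surjective π) (hA : ∀ a : A, a * a = 1)
    (hG : IsPGroup 2 G) (k : ℕ) (h : 2 ^ (2 * k + 1) ≤ Nat.card A) :
    2 ^ (k + 1) ∣ Nat.card {x : G // x * x = 1} := by
  classical
  letI := Fintype.ofFinite G
  have := finite_irrCharacter (G := G)
  letI := Fintype.ofFinite (IrrCharacter G)
  letI := twistAction π hA
  have hirr : ∀ (l : A →* ℂˣ) (χ : IrrCharacter G) (g : G),
      (l • χ).1 g = ((l (π g) : ℂˣ) : ℂ) * χ.1 g := fun _ _ _ => rfl
  -- the sign and the degree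
  choose e he using fun χ : IrrCharacter G => exists_int_nu χ.2
  let n : IrrCharacter G → ℤ := fun χ => e χ * (charDegree χ.1 : ℤ)
  have hsum : ((Nat.card {x : G // x * x = 1} : ℕ) : ℂ) = ((∑ χ, n χ : ℤ) : ℂ) := by
    rw [card_sqrt_eq (G := G) 1]
    push_cast
    refine Finset.sum_congr rfl fun χ _ => ?_
    have h1 := he χ
    unfold nu at h1
    rw [h1]
    simp only [n]
    push_cast
    rw [charDegree_natCast (isCharacter_of_isIrrCharacter χ.2)]
  have hsum' : ((Nat.card {x : G // x * x = 1} : ℕ) : ℤ) = ∑ χ, n χ := by exact_mod_cast hsum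
  -- invariance
  have hdeg1 : ∀ (l : A →* ℂˣ) (χ : IrrCharacter G), charDegree (l • χ).1 = charDegree χ.1 := by
    intro l χ
    have h1 : (l • χ).1 1 = χ.1 1 := by rw [hirr]; simp
    have h2 := charDegree_natCast (isCharacter_of_isIrrCharacter (l • χ).2)
    have h3 := charDegree_natCast (isCharacter_of_isIrrCharacter χ.2)
    rw [h1, ← h3] at h2
    exact_mod_cast h2
  have he1 : ∀ (l : A →* ℂˣ) (χ : IrrCharacter G), e (l • χ) = e χ := by
    intro l χ
    have h1 := he (l • χ)
    have h2 := he χ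
    have h3 : nu (l • χ).1 = nu χ.1 := nu_twist π hA l χ.1
    rw [h3, h2] at h1
    exact_mod_cast h1.symm
  have hn : ∀ (l : A →* ℂˣ) (χ : IrrCharacter G), n (l • χ) = n χ := by
    intro l χ
    simp only [n]
    rw [hdeg1, he1]
  -- numerics
  have hA2 : IsPGroup 2 A := fun a => ⟨1, by rw [pow_one, pow_two]; exact hA a⟩
  have hcardL : Nat.card (A →* ℂˣ) = Nat.card A :=
    CommGroup.card_monoidHom_of_hasEnoughRootsOfUnity A ℂ
  obtain ⟨d, hd⟩ := IsPGroup.iff_card.mp hA2
  obtain ⟨N, hN⟩ := IsPGroup.iff_card.mp hG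
  have hdk : 2 * k + 1 ≤ d := by
    rw [hd] at h
    exact (Nat.pow_le_pow_iff_right (by norm_num)).mp h
  have hfinal : ((2 ^ (k + 1) : ℕ) : ℤ) ∣ ∑ χ, n χ := by
    refine dvd_sum_of_invariant (L := A →* ℂˣ) n hn _ fun χ => ?_
    -- the degree is a power of two
    obtain ⟨c, -, hc⟩ := (Nat.dvd_prime_pow Nat.prime_two).mp
      (hN ▸ charDegree_dvd_card χ.2)
    have hos : Nat.card (MulAction.orbit (A →* ℂˣ) χ) *
        Nat.card (MulAction.stabilizer (A →* ℂˣ) χ) = 2 ^ d := by
      letI : Fintype (A →* ℂˣ) := Fintype.ofFinite _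
      letI : Fintype (MulAction.orbit (A →* ℂˣ) χ) := Fintype.ofFinite _
      letI : Fintype (MulAction.stabilizer (A →* ℂˣ) χ) := Fintype.ofFinite _
      rw [← hd, ← hcardL, Nat.card_eq_fintype_card, Nat.card_eq_fintype_card,
        Nat.card_eq_fintype_card]
      exact MulAction.card_orbit_mul_card_stabilizer_eq_card_group _ χ
    obtain ⟨t, -, ht⟩ := (Nat.dvd_prime_pow Nat.prime_two).mp (Dvd.intro _ hos)
    obtain ⟨s, -, hs⟩ := (Nat.dvd_prime_pow Nat.prime_two).mp (Dvd.intro_left _ hos)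
    have hbound := card_stab_le π hA hπ χ
    rw [hc] at hbound
    have hle : s ≤ 2 * c := by
      have : 2 ^ s ≤ 2 ^ (2 * c) := by
        calc 2 ^ s = Nat.card (MulAction.stabilizer (A →* ℂˣ) χ) := hs.symm
          _ ≤ (2 ^ c) ^ 2 := hbound
          _ = 2 ^ (2 * c) := by rw [← pow_mul, mul_comm]
      exact (Nat.pow_le_pow_iff_right (by norm_num)).mp this
    have hts : t + s = d := by
      rw [ht, hs, ← pow_add] at hos
      exact Nat.pow_right_injective (le_refl 2) hos
    simp only [n]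
    rw [ht, hc]
    have hdiv : 2 ^ (k + 1) ∣ 2 ^ t * 2 ^ c := by
      rw [← pow_add]
      exact pow_dvd_pow 2 (by omega)
    obtain ⟨w, hw⟩ := hdiv
    refine ⟨w * e χ, ?_⟩
    have hw' : ((2 ^ t : ℕ) : ℤ) * ((2 ^ c : ℕ) : ℤ) = ((2 ^ (k + 1) : ℕ) : ℤ) * (w : ℤ) := by
      exact_mod_cast hw
    linear_combination (e χ) * hw'
  rw [← hsum'] at hfinal
  exact_mod_cast hfinal

/-- Let G be a finite 2-group with #(G/Φ(G)) ≥ 2^(2k+1). Then the number of elements x of G with x² = 1 is divisible by 2^(k+1). -/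
theorem result {G : Type*} [Group G] [Finite G] (hG : IsPGroup 2 G) (k : ℕ)
    (hgen : 2 ^ (2 * k + 1) ≤ Nat.card (G ⧸ frattini G)) :
    2 ^ (k + 1) ∣ Nat.card {x : G // x ^ 2 = 1} := by
  haveI : Fact (Nat.Prime 2) := ⟨Nat.prime_two⟩
  have hc : ∀ a b : G ⧸ frattini G, a * b = b * a := by
    intro a b
    induction a using QuotientGroup.induction_on with
    | H a =>
      induction b using QuotientGroup.induction_on with
      | H b =>
        have h := Cfsg.Agent.Lib.PGroups.Basic.commutator_le_frattini hG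
          (Subgroup.commutator_mem_commutator (Subgroup.mem_top a) (Subgroup.mem_top b))
        rw [← QuotientGroup.eq_one_iff, commutatorElement_def] at h
        simp only [QuotientGroup.mk_mul, QuotientGroup.mk_inv] at h
        rw [mul_inv_eq_one, mul_inv_eq_iff_eq_mul] at h
        exact h
  letI : CommGroup (G ⧸ frattini G) := { (inferInstance : Group (G ⧸ frattini G)) with mul_comm := hc }
  have hsq : ∀ a : G ⧸ frattini G, a * a = 1 := by
    intro a
    induction a using QuotientGroup.induction_on with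
    | H a =>
      have h := Cfsg.Agent.Lib.PGroups.Basic.pow_mem_frattini (p := 2) hG a
      rw [← QuotientGroup.eq_one_iff, QuotientGroup.mk_pow, pow_two] at h
      exact h
  have h := main (A := G ⧸ frattini G) (QuotientGroup.mk' (frattini G))
    (QuotientGroup.mk'_surjective _) hsq hG k hgen
  have e : {x : G // x ^ 2 = 1} ≃ {x : G // x * x = 1} :=
    Equiv.subtypeEquivRight fun x => by rw [pow_two]
  rw [Nat.card_congr e]
  exact h

end Cfsg.Agent.S4058
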