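import Cfsg.Statements.S4065
import Mathlib
-- import your own Cfsg.Agent.* helpers here

set_option autoImplicit false
open Cfsg

namespace Cfsg.Agent.S4065

theorem entries_comm {F : Type*} [Field F] (a b c d e f g h p q r s : F)
    (hB : p - s ≠ 0 ∨ q ≠ 0 ∨ r ≠ 0)
    (h1 : b * r = q * c) (h2 : q * (a - d) = b * (p - s)) (h3 : c * (p - s) = r * (a - d))
    (h4 : f * r = q * g) (h5 : q * (e - h) = f * (p - s)) (h6 : g * (p - s) = r * (e - h)) :
    b * g = f * c ∧ f * (a - d) = b * (e - h) ∧ c * (e - h) = g * (a - d) := by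
  rcases hB with hw | hq | hr
  · have g3 : c * (e - h) = g * (a - d) := by
      apply mul_left_cancel₀ hw
      linear_combination (e - h) * h3 - (a - d) * h6
    have g2 : f * (a - d) = b * (e - h) := by
      apply mul_left_cancel₀ hw
      linear_combination (-(a - d)) * h5 + (e - h) * h2
    have g1 : b * g = f * c := by
      apply mul_left_cancel₀ hw
      linear_combination (-g) * h2 + c * h5 + q * g3 * (-1)
    exact ⟨g1, g2, g3⟩
  · have g2 : f * (a - d) = b * (e - h) := by
      apply mul_left_cancel₀ hq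
      linear_combination f * h2 - b * h5
    have g1 : b * g = f * c := by
      apply mul_left_cancel₀ hq
      linear_combination (-b) * h4 + f * h1
    have g3 : c * (e - h) = g * (a - d) := by
      apply mul_left_cancel₀ hq
      linear_combination (-(e - h)) * h1 + (a - d) * h4 + r * g2 * (-1)
    exact ⟨g1, g2, g3⟩
  · have g1 : b * g = f * c := by
      apply mul_left_cancel₀ hr
      linear_combination g * h1 - c * h4
    have g3 : c * (e - h) = g * (a - d) := by
      apply mul_left_cancel₀ hr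
      linear_combination (-c) * h6 + g * h3
    have g2 : f * (a - d) = b * (e - h) := by
      apply mul_left_cancel₀ hr
      linear_combination (-f) * h3 + b * h6 + (p - s) * g1 * (-1)
    exact ⟨g1, g2, g3⟩

theorem sl_entries {F : Type*} [Field F] (A B : Matrix.SpecialLinearGroup (Fin 2) F) (hc : A * B = B * A) :
    A.1 0 1 * B.1 1 0 = B.1 0 1 * A.1 1 0 ∧
    B.1 0 1 * (A.1 0 0 - A.1 1 1) = A.1 0 1 * (B.1 0 0 - B.1 1 1) ∧
    A.1 1 0 * (B.1 0 0 - B.1 1 1) = B.1 1 0 * (A.1 0 0 - A.1 1 1) := by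
  have hc' : A.1 * B.1 = B.1 * A.1 := by
    have := congrArg Subtype.val hc
    simpa using this
  have e00 := congrFun (congrFun hc' 0) 0
  have e01 := congrFun (congrFun hc' 0) 1
  have e10 := congrFun (congrFun hc' 1) 0
  simp only [Matrix.mul_apply, Fin.sum_univ_two] at e00 e01 e10
  refine ⟨?_, ?_, ?_⟩
  · linear_combination e00
  · linear_combination e01
  · linear_combination e10

theorem sl_comm {F : Type*} [Field F] (A B : Matrix.SpecialLinearGroup (Fin 2) F)
    (h : A.1 0 1 * B.1 1 0 = B.1 0 1 * A.1 1 0 ∧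
    B.1 0 1 * (A.1 0 0 - A.1 1 1) = A.1 0 1 * (B.1 0 0 - B.1 1 1) ∧
    A.1 1 0 * (B.1 0 0 - B.1 1 1) = B.1 1 0 * (A.1 0 0 - A.1 1 1)) : A * B = B * A := by
  obtain ⟨h1, h2, h3⟩ := h
  apply Subtype.ext
  show A.1 * B.1 = B.1 * A.1
  ext i j
  simp only [Matrix.mul_apply, Fin.sum_univ_two]
  fin_cases i <;> fin_cases j <;> simp only [Fin.zero_eta, Fin.mk_one, Fin.isValue]
  · linear_combination h1
  · linear_combination h2
  · linear_combination h3
  · linear_combination (-1 : F) * h1

theorem center_trivial {F : Type*} [Field F] [CharP F 2] (A : Matrix.SpecialLinearGroup (Fin 2) F)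
    (hA : A ∈ Subgroup.center (Matrix.SpecialLinearGroup (Fin 2) F)) : A = 1 := by
  rw [Matrix.SpecialLinearGroup.mem_center_iff] at hA
  obtain ⟨r, hr, hAr⟩ := hA
  have hr1 : r = 1 := by
    have h2 : (r + 1) ^ 2 = 0 := by
      have h20 : (2 : F) = 0 := CharTwo.two_eq_zero
      simp only [Fintype.card_fin] at hr
      have : (r + 1) ^ 2 = r ^ 2 + 2 * r + 1 := by ring
      rw [this, hr, h20]
      simp only [zero_mul, add_zero]
      exact CharTwo.add_self_eq_zero 1
    have h3 : r + 1 = 0 := pow_eq_zero_iff (two_ne_zero) |>.1 h2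
    have h4 : r = -1 := eq_neg_of_add_eq_zero_left h3
    rw [h4, CharTwo.neg_eq]
  apply Subtype.ext
  rw [← hAr, hr1]
  simp

theorem sl_nonscalar {F : Type*} [Field F] [CharP F 2] (B : Matrix.SpecialLinearGroup (Fin 2) F)
    (hB : B ≠ 1) : B.1 0 0 - B.1 1 1 ≠ 0 ∨ B.1 0 1 ≠ 0 ∨ B.1 1 0 ≠ 0 := by
  by_contra hcon
  push_neg at hcon
  obtain ⟨h1, h2, h3⟩ := hcon
  apply hB
  have hdet := B.2
  rw [Matrix.det_fin_two, h2, h3] at hdet
  simp only [mul_zero, sub_zero] at hdet
  have h4 : B.1 0 0 = B.1 1 1 := sub_eq_zero.1 h1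
  rw [← h4] at hdet
  have h5 : B.1 0 0 = 1 := by
    have h6 : (B.1 0 0 + 1) ^ 2 = 0 := by
      have h20 : (2 : F) = 0 := CharTwo.two_eq_zero
      have : (B.1 0 0 + 1) ^ 2 = B.1 0 0 * B.1 0 0 + 2 * B.1 0 0 + 1 := by ring
      rw [this, hdet, h20]
      simp only [zero_mul, add_zero]
      exact CharTwo.add_self_eq_zero 1
    have h7 : B.1 0 0 + 1 = 0 := pow_eq_zero_iff (two_ne_zero) |>.1 h6
    have h8 : B.1 0 0 = -1 := eq_neg_of_add_eq_zero_left h7
    rw [h8, CharTwo.neg_eq]
  apply Subtype.ext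
  ext i j
  fin_cases i <;> fin_cases j <;> simp only [Fin.zero_eta, Fin.mk_one, Fin.isValue]
  · simpa using h5
  · simpa using h2
  · simpa using h3
  · rw [← h4, h5]; simp

theorem psl_trans {F : Type*} [Field F] [CharP F 2]
    (a b c : Matrix.ProjectiveSpecialLinearGroup (Fin 2) F) (hb : b ≠ 1)
    (hab : a * b = b * a) (hbc : c * b = b * c) : a * c = c * a := by
  obtain ⟨A, rfl⟩ := QuotientGroup.mk_surjective a
  obtain ⟨B, rfl⟩ := QuotientGroup.mk_surjective b
  obtain ⟨C, rfl⟩ := QuotientGroup.mk_surjective c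
  have key : ∀ X Y : Matrix.SpecialLinearGroup (Fin 2) F,
      (QuotientGroup.mk X * QuotientGroup.mk Y : Matrix.ProjectiveSpecialLinearGroup (Fin 2) F) =
        QuotientGroup.mk Y * QuotientGroup.mk X → X * Y = Y * X := by
    intro X Y h
    rw [← QuotientGroup.mk_mul, ← QuotientGroup.mk_mul, QuotientGroup.eq] at h
    have := center_trivial _ h
    rw [inv_mul_eq_one] at this
    exact this
  have hAB := key A B hab
  have hCB := key C B hbc
  have hB1 : B ≠ 1 := by
    rintro rfl
    exact hb rfl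
  have hAC := entries_comm _ _ _ _ _ _ _ _ _ _ _ _ (sl_nonscalar B hB1)
    (sl_entries A B hAB).1 (sl_entries A B hAB).2.1 (sl_entries A B hAB).2.2
    (sl_entries C B hCB).1 (sl_entries C B hCB).2.1 (sl_entries C B hCB).2.2
  have h := sl_comm A C ⟨hAC.1, ?_, ?_⟩
  · rw [← QuotientGroup.mk_mul, ← QuotientGroup.mk_mul, h]
  · exact hAC.2.1
  · exact hAC.2.2

theorem ca_ti {G : Type*} [Group G]
    (hT : ∀ a b c : G, b ≠ 1 → a * b = b * a → c * b = b * c → a * c = c * a) (x : G) :
    Cfsg.IsTISubset (Subgroup.centralizer ({x} : Set G) : Set G) := by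
  classical
  intro g hg y hy hgy
  by_contra hy1
  apply hg
  have hmem : ∀ u : G, u ∈ Subgroup.centralizer ({x} : Set G) ↔ u * x = x * u := by
    intro u
    rw [Subgroup.mem_centralizer_singleton_iff]
  have hmem' : ∀ u : G, u ∈ (Subgroup.centralizer ({x} : Set G) : Set G) ↔ u * x = x * u := by
    intro u
    exact hmem u
  by_cases hx : x = 1
  · subst hx
    rw [Subgroup.mem_normalizer_iff]
    intro u
    have h1 : ∀ v : G, v ∈ Subgroup.centralizer ({1} : Set G) := by
      intro v
      rw [hmem]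
      simp
    exact ⟨fun _ => h1 _, fun _ => h1 _⟩
  rw [hmem'] at hy hgy
  have hy' : g * y * g⁻¹ ≠ 1 := by
    intro h
    apply hy1
    have : y = g⁻¹ * (g * y * g⁻¹) * g := by group
    rw [this, h]
    group
  rw [Subgroup.mem_normalizer_iff]
  intro u
  rw [hmem, hmem]
  constructor
  · intro hu
    have h1 : u * y = y * u := hT u x y hx hu hy
    have h2 : (g * u * g⁻¹) * (g * y * g⁻¹) = (g * y * g⁻¹) * (g * u * g⁻¹) := by
      calc (g * u * g⁻¹) * (g * y * g⁻¹) = g * (u * y) * g⁻¹ := by group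
        _ = g * (y * u) * g⁻¹ := by rw [h1]
        _ = _ := by group
    have h3 : x * (g * y * g⁻¹) = (g * y * g⁻¹) * x := hgy.symm
    exact hT _ (g * y * g⁻¹) x hy' h2 h3
  · intro hu
    have h1 := hT _ x (g * y * g⁻¹) hx hu hgy
    have h2 : u * y = y * u := by
      have h3 : g * (u * y) * g⁻¹ = g * (y * u) * g⁻¹ := by
        calc g * (u * y) * g⁻¹ = (g * u * g⁻¹) * (g * y * g⁻¹) := by group
          _ = (g * y * g⁻¹) * (g * u * g⁻¹) := h1
          _ = _ := by group
      exact mul_left_cancel (mul_right_cancel h3)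
    exact hT u y x hy1 h2 hy.symm



/-- Let F be a finite field with 2ⁿ elements, n ≥ 2. In PSL₂(F) the centralizer of every element meets each of its conjugates by elements outside its normalizer trivially. -/
theorem result (n : ℕ) (hn : 2 ≤ n)
    (x : Matrix.ProjectiveSpecialLinearGroup (Fin 2) (GaloisField 2 n)) :
    Cfsg.IsTISubset (Subgroup.centralizer ({x} : Set (Matrix.ProjectiveSpecialLinearGroup (Fin 2) (GaloisField 2 n))) :
      Set (Matrix.ProjectiveSpecialLinearGroup (Fin 2) (GaloisField 2 n))) := by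
  exact ca_ti (fun a b c hb h1 h2 => psl_trans a b c hb h1 h2) x

end Cfsg.Agent.S4065
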