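import Cfsg.Statements.S4066
import Mathlib
import Cfsg.Agent.Lib.PGroups.Basic
-- import your own Cfsg.Agent.* helpers here

set_option autoImplicit false
open Cfsg

namespace Cfsg.Agent.S4066

open Subgroup

variable {G : Type*} [Group G]

/-- Maximal `p`-subgroups of `H`, in the ambient group. -/
def MaxP (p : ℕ) (H P : Subgroup G) : Prop :=
  P ≤ H ∧ IsPGroup p P ∧ ∀ S : Subgroup G, P ≤ S → S ≤ H → IsPGroup p S → S = P

theorem exists_maxP [Finite G] {p : ℕ} {H T : Subgroup G} (hT : T ≤ H) (hTp : IsPGroup p T) :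
    ∃ R, T ≤ R ∧ MaxP p H R := by
  have hne : ({S : Subgroup G | T ≤ S ∧ S ≤ H ∧ IsPGroup p S}).Nonempty := ⟨T, le_rfl, hT, hTp⟩
  obtain ⟨R, hR⟩ := (Set.toFinite _).exists_maximal hne
  refine ⟨R, hR.1.1, hR.1.2.1, hR.1.2.2, fun S hRS hSH hSp => ?_⟩
  exact le_antisymm (hR.2 ⟨hR.1.1.trans hRS, hSH, hSp⟩ hRS) hRS

theorem MaxP.mono {p : ℕ} {H A P : Subgroup G} (h : MaxP p H P) (hPA : P ≤ A) (hAH : A ≤ H) :
    MaxP p A P :=
  ⟨hPA, h.2.1, fun S hPS hSA hSp => h.2.2 S hPS (hSA.trans hAH) hSp⟩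

theorem MaxP.conj {p : ℕ} {H P : Subgroup G} (h : MaxP p H P) {g : G}
    (hg : g ∈ normalizer (H : Set G)) : MaxP p H (P.map (MulAut.conj g).toMonoidHom) := by
  refine ⟨?_, h.2.1.map _, ?_⟩
  · rintro _ ⟨w, hw, rfl⟩
    exact (mem_normalizer_iff.1 hg w).1 (h.1 hw)
  · intro S hPS hSH hSp
    have h1 : S.map (MulAut.conj g⁻¹).toMonoidHom = P := by
      refine h.2.2 _ ?_ ?_ (hSp.map _)
      · intro w hw
        refine ⟨g * w * g⁻¹, hPS ⟨w, hw, rfl⟩, ?_⟩
        simp [MulAut.conj_apply]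
        group
      · rintro _ ⟨w, hw, rfl⟩
        have := (mem_normalizer_iff.1 hg ((MulAut.conj g⁻¹).toMonoidHom w)).2
        apply this
        simp [MulAut.conj_apply]
        simpa [mul_assoc] using hSH hw
    rw [← h1]
    ext w
    simp only [Subgroup.mem_map]
    constructor
    · intro hw
      refine ⟨g⁻¹ * w * g, ⟨w, hw, ?_⟩, ?_⟩
      · simp [MulAut.conj_apply]
      · simp [MulAut.conj_apply]
        group
    · rintro ⟨_, ⟨v, hv, rfl⟩, rfl⟩
      simpa [MulAut.conj_apply, mul_assoc] using hv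

theorem lemmaA {p : ℕ} {L R : Subgroup G}
    (IH : ∀ P' Q', MaxP p L P' → MaxP p L Q' → ∀ x', x' ∈ P' → x' ∈ Q' → x' ≠ 1 → P' = Q')
    (hR : MaxP p L R) {g x : G} (hg : g ∈ normalizer (L : Set G)) (hx : x ∈ R) (hx1 : x ≠ 1)
    (hgx : g * x * g⁻¹ ∈ R) : g ∈ normalizer (R : Set G) := by
  have h1 : R.map (MulAut.conj g).toMonoidHom = R :=
    IH _ _ (hR.conj hg) hR (g * x * g⁻¹) ⟨x, hx, by simp [MulAut.conj_apply]⟩ hgx
      (by simpa using hx1)
  rw [mem_normalizer_iff]
  intro h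
  constructor
  · intro hh
    rw [← h1]
    exact ⟨h, hh, by simp [MulAut.conj_apply]⟩
  · intro hh
    rw [← h1] at hh
    obtain ⟨w, hw, hwe⟩ := hh
    have : w = h := by
      have h2 : g * w * g⁻¹ = g * h * g⁻¹ := by simpa [MulAut.conj_apply] using hwe
      simpa using h2
    rwa [← this]

theorem lemmaB {p : ℕ} {H T T₀ : Subgroup G} (hT₀ : MaxP p H T₀) (hT : T ≤ H) (hTp : IsPGroup p T)
    (hn : T₀ ≤ normalizer (T : Set G)) : T ≤ T₀ := by
  have h1 : IsPGroup p (T₀ ⊔ T : Subgroup G) := hT₀.2.1.to_sup_of_normal_right' hTp hn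
  have h2 := hT₀.2.2 _ le_sup_left (sup_le hT₀.1 hT) h1
  exact le_sup_right.trans h2.le

theorem exists_center' [Finite G] {p : ℕ} [Fact p.Prime] {P : Subgroup G} (hP : IsPGroup p P)
    {x : G} (hxP : x ∈ P) (hx1 : x ≠ 1) : ∃ z ∈ P, z ≠ 1 ∧ ∀ y ∈ P, y * z = z * y := by
  haveI : Nontrivial P := ⟨⟨⟨x, hxP⟩, 1, fun h => hx1 (congrArg Subtype.val h)⟩⟩
  haveI := hP.center_nontrivial
  obtain ⟨w, hw⟩ := exists_ne (1 : center P)
  refine ⟨((w : P) : G), (w : P).2, ?_, ?_⟩
  · intro h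
    apply hw
    exact Subtype.ext (Subtype.ext h)
  · intro y hy
    have := (mem_center_iff.1 w.2) ⟨y, hy⟩
    exact congrArg Subtype.val this

theorem claim1 (hTI : ∀ x : G, Cfsg.IsTISubset (Subgroup.centralizer ({x} : Set G) : Set G))
    {a b : G} (hcomm : a * b = b * a) (hb : b ≠ 1) :
    centralizer ({b} : Set G) ≤ normalizer ((centralizer ({a} : Set G) : Subgroup G) : Set G) := by
  intro g hg
  by_contra hn
  apply hb
  refine hTI a g hn b ?_ ?_
  · exact mem_centralizer_singleton_iff.2 hcomm.symm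
  · have : g * b * g⁻¹ = b := by
      rw [mem_centralizer_singleton_iff.1 hg]; group
    rw [this]
    exact mem_centralizer_singleton_iff.2 hcomm.symm

theorem inf_norm {H A : Subgroup G} (h : H ≤ normalizer (A : Set G)) :
    H ≤ normalizer ((H ⊓ A : Subgroup G) : Set G) := by
  intro g hg
  rw [mem_normalizer_iff]
  intro w
  have h1 := mem_normalizer_iff.1 (h hg) w
  have h2 : w ∈ H ↔ g * w * g⁻¹ ∈ H := by
    constructor
    · intro hw; exact mul_mem (mul_mem hg hw) (inv_mem hg)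
    · intro hw
      have := mul_mem (mul_mem (inv_mem hg) hw) hg
      simpa [mul_assoc] using this
  rw [mem_inf, mem_inf, h1, h2]

theorem central_case [Finite G] {p : ℕ} [Fact p.Prime]
    (hTI : ∀ x : G, Cfsg.IsTISubset (Subgroup.centralizer ({x} : Set G) : Set G))
    {H P Q : Subgroup G} (hP : MaxP p H P) (hQ : MaxP p H Q) {y : G} (hy : y ≠ 1)
    (hHy : H ≤ centralizer ({y} : Set G)) : P = Q := by
  have hPQ : P ≤ Q := by
    intro b hb
    by_cases hb1 : b = 1
    · subst hb1; exact one_mem _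
    have hbH : b ∈ H := hP.1 hb
    have hcomm : ∀ h ∈ H, (h * b * h⁻¹) * b = b * (h * b * h⁻¹) := by
      intro h hh
      have hby : b * y = y * b := mem_centralizer_singleton_iff.1 (hHy hbH)
      have hn := claim1 hTI hby hy (hHy hh)
      have := (mem_normalizer_iff.1 hn b).1 (mem_centralizer_singleton_iff.2 rfl)
      exact mem_centralizer_singleton_iff.1 this
    set S : Set G := {w | ∃ h ∈ H, w = h * b * h⁻¹} with hS
    have hScomm : ∀ u ∈ S, ∀ v ∈ S, u * v = v * u := by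
      rintro _ ⟨h, hh, rfl⟩ _ ⟨k, hk, rfl⟩
      have h1 := hcomm (k⁻¹ * h) (mul_mem (inv_mem hk) hh)
      have h2 := congrArg (fun w => k * w * k⁻¹) h1
      simp only [mul_assoc, mul_inv_rev, inv_inv] at h2
      simpa [mul_assoc] using h2
    letI : CommGroup (closure S) := closureCommGroupOfComm hScomm
    have hTcomm : ∀ u ∈ closure S, ∀ v ∈ closure S, u * v = v * u := by
      intro u hu v hv
      have := mul_comm (⟨u, hu⟩ : closure S) ⟨v, hv⟩
      exact congrArg Subtype.val this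
    obtain ⟨kb, hkb⟩ := hP.2.1 ⟨b, hb⟩
    have hkb' : b ^ (p ^ kb) = 1 := by
      have := congrArg Subtype.val hkb
      simpa using this
    have hTp : IsPGroup p (closure S) := by
      rintro ⟨w, hw⟩
      have : ∃ k : ℕ, w ^ (p ^ k) = 1 := by
        induction hw using closure_induction with
        | mem w hw =>
          obtain ⟨h, hh, rfl⟩ := hw
          exact ⟨kb, by rw [conj_pow, hkb']; group⟩
        | one => exact ⟨0, by simp⟩
        | mul u v hu hv ihu ihv =>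
          obtain ⟨k, hk⟩ := ihu
          obtain ⟨l, hl⟩ := ihv
          refine ⟨k + l, ?_⟩
          have hc : Commute u v := hTcomm u hu v hv
          rw [hc.mul_pow, pow_add p k l, pow_mul, hk, one_pow, one_mul, mul_comm, pow_mul, hl,
            one_pow]
        | inv u hu ih =>
          obtain ⟨k, hk⟩ := ih
          exact ⟨k, by rw [inv_pow, hk, inv_one]⟩
      obtain ⟨k, hk⟩ := this
      exact ⟨k, Subtype.ext (by simpa using hk)⟩
    have hTH : closure S ≤ H := by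
      rw [closure_le]
      rintro _ ⟨h, hh, rfl⟩
      exact mul_mem (mul_mem hh hbH) (inv_mem hh)
    have hconj : ∀ g ∈ H, ∀ w ∈ closure S, g * w * g⁻¹ ∈ closure S := by
      intro g hg w hw
      induction hw using closure_induction with
      | mem w hw =>
        obtain ⟨h, hh, rfl⟩ := hw
        apply Subgroup.subset_closure
        exact ⟨g * h, mul_mem hg hh, by group⟩
      | one => simp [one_mem]
      | mul u v _ _ ihu ihv =>
        have := mul_mem ihu ihv
        simpa [mul_assoc] using this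
      | inv u _ ih =>
        have := inv_mem ih
        simpa [mul_assoc] using this
    have hn : Q ≤ normalizer ((closure S : Subgroup G) : Set G) := by
      intro g hg
      rw [mem_normalizer_iff]
      intro w
      refine ⟨hconj g (hQ.1 hg) w, fun hw => ?_⟩
      have := hconj g⁻¹ (inv_mem (hQ.1 hg)) _ hw
      simpa [mul_assoc] using this
    have hle := lemmaB hQ hTH hTp hn
    exact hle (Subgroup.subset_closure ⟨1, one_mem _, by simp⟩)
  exact (hP.2.2 Q hPQ hQ.1 hQ.2.1).symm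

theorem main_ti [Finite G] {p : ℕ} [Fact p.Prime]
    (hTI : ∀ x : G, Cfsg.IsTISubset (Subgroup.centralizer ({x} : Set G) : Set G)) :
    ∀ n : ℕ, ∀ H : Subgroup G, Nat.card H = n → ∀ P Q : Subgroup G, MaxP p H P → MaxP p H Q →
      ∀ x, x ∈ P → x ∈ Q → x ≠ 1 → P = Q := by
  intro n
  induction n using Nat.strong_induction_on with
  | _ n ih =>
  intro H hn P Q hP hQ x hxP hxQ hx1
  have IH : ∀ L : Subgroup G, L < H → ∀ P' Q', MaxP p L P' → MaxP p L Q' →
      ∀ x', x' ∈ P' → x' ∈ Q' → x' ≠ 1 → P' = Q' :=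
    fun L hL => ih _ (hn ▸ Cfsg.Agent.Lib.PGroups.Basic.card_lt_of_lt hL) L rfl
  have reduce : ∀ A : Subgroup G, P ≤ A → Q ≤ A → ¬ H ≤ A → P = Q := by
    intro A hPA hQA hHA
    refine IH (H ⊓ A) (lt_of_le_of_ne inf_le_left (fun h => hHA (inf_eq_left.1 h))) P Q
      (hP.mono (le_inf hP.1 hPA) inf_le_left) (hQ.mono (le_inf hQ.1 hQA) inf_le_left) x hxP hxQ hx1
  obtain ⟨z, hzP, hz1, hzc⟩ := exists_center' hP.2.1 hxP hx1
  obtain ⟨u, huQ, hu1, huc⟩ := exists_center' hQ.2.1 hxQ hx1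
  by_contra hne
  have h1 : H ≤ normalizer ((centralizer ({x} : Set G) : Subgroup G) : Set G) := by
    by_contra h
    apply hne
    refine reduce _ ?_ ?_ h
    · refine le_trans ?_ (claim1 hTI (hzc x hxP) hz1)
      intro y hy
      exact mem_centralizer_singleton_iff.2 (hzc y hy)
    · refine le_trans ?_ (claim1 hTI (huc x hxQ) hu1)
      intro y hy
      exact mem_centralizer_singleton_iff.2 (huc y hy)
  by_cases hHx : H ≤ centralizer ({x} : Set G)
  · exact hne (central_case hTI hP hQ hx1 hHx)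
  set K := H ⊓ centralizer ({x} : Set G) with hK
  have hKlt : K < H := lt_of_le_of_ne inf_le_left (fun h => hHx (inf_eq_left.1 h))
  have hKn : H ≤ normalizer ((K : Subgroup G) : Set G) := inf_norm h1
  have hxK : x ∈ K := ⟨hP.1 hxP, mem_centralizer_singleton_iff.2 rfl⟩
  have hPK : ((P ⊓ K : Subgroup G) : Subgroup G) ≤ K := inf_le_right
  have hPKp : IsPGroup p ((P ⊓ K : Subgroup G) : Subgroup G) :=
    hP.2.1.to_le inf_le_left
  have hQK : ((Q ⊓ K : Subgroup G) : Subgroup G) ≤ K := inf_le_right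
  have hQKp : IsPGroup p ((Q ⊓ K : Subgroup G) : Subgroup G) :=
    hQ.2.1.to_le inf_le_left
  obtain ⟨R, hPR, hR⟩ := exists_maxP hPK hPKp
  obtain ⟨R', hQR', hR'⟩ := exists_maxP hQK hQKp
  have hRR' : R = R' := IH K hKlt R R' hR hR' x (hPR ⟨hxP, hxK⟩) (hQR' ⟨hxQ, hxK⟩) hx1
  subst hRR'
  have hIHK := IH K hKlt
  have hPn : P ≤ normalizer ((R : Subgroup G) : Set G) := by
    intro g hg
    refine lemmaA hIHK hR (hKn (hP.1 hg)) (hPR ⟨hxP, hxK⟩) hx1 (hPR (mem_inf.2 ⟨?_, ?_⟩))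
    · exact mul_mem (mul_mem hg hxP) (inv_mem hg)
    · exact (mem_normalizer_iff.1 (hKn (hP.1 hg)) x).1 hxK
  have hQn : Q ≤ normalizer ((R : Subgroup G) : Set G) := by
    intro g hg
    refine lemmaA hIHK hR (hKn (hQ.1 hg)) (hQR' ⟨hxQ, hxK⟩) hx1 (hQR' (mem_inf.2 ⟨?_, ?_⟩))
    · exact mul_mem (mul_mem hg hxQ) (inv_mem hg)
    · exact (mem_normalizer_iff.1 (hKn (hQ.1 hg)) x).1 hxK
  have hRH : R ≤ H := hR.1.trans inf_le_left
  have hRP : R ≤ P := lemmaB hP hRH hR.2.1 hPn
  have hRQ : R ≤ Q := lemmaB hQ hRH hR.2.1 hQn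
  have hHR : H ≤ normalizer ((R : Subgroup G) : Set G) := by
    by_contra h
    exact hne (reduce _ hPn hQn h)
  have hzK : z ∈ K := ⟨hP.1 hzP, mem_centralizer_singleton_iff.2 (hzc x hxP).symm⟩
  have hzR : z ∈ R := hPR ⟨hzP, hzK⟩
  have h2 : H ≤ normalizer ((centralizer ({z} : Set G) : Subgroup G) : Set G) := by
    intro g hg
    by_contra hn'
    apply hz1
    refine hTI z g hn' z (mem_centralizer_singleton_iff.2 rfl) ?_
    have h3 : g * z * g⁻¹ ∈ R := (mem_normalizer_iff.1 (hHR hg) z).1 hzR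
    exact mem_centralizer_singleton_iff.2 (hzc _ (hRP h3))
  by_cases hHz : H ≤ centralizer ({z} : Set G)
  · exact hne (central_case hTI hP hQ hz1 hHz)
  set L := H ⊓ centralizer ({z} : Set G) with hL
  have hLlt : L < H := lt_of_le_of_ne inf_le_left (fun h => hHz (inf_eq_left.1 h))
  have hLn : H ≤ normalizer ((L : Subgroup G) : Set G) := inf_norm h2
  have hPL : P ≤ L := by
    refine le_inf hP.1 ?_
    intro y hy
    exact mem_centralizer_singleton_iff.2 (hzc y hy)
  have hPmax : MaxP p L P := hP.mono hPL inf_le_left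
  have hQL : ((Q ⊓ L : Subgroup G) : Subgroup G) ≤ L := inf_le_right
  have hQLp : IsPGroup p ((Q ⊓ L : Subgroup G) : Subgroup G) :=
    hQ.2.1.to_le inf_le_left
  obtain ⟨R₂, hQR₂, hR₂⟩ := exists_maxP hQL hQLp
  have hPR₂ : P = R₂ := IH L hLlt P R₂ hPmax hR₂ x hxP (hQR₂ ⟨hxQ, hPL hxP⟩) hx1
  subst hPR₂
  have hQn2 : Q ≤ normalizer ((P : Subgroup G) : Set G) := by
    intro g hg
    refine lemmaA (IH L hLlt) hPmax (hLn (hQ.1 hg)) hxP hx1 (hQR₂ (mem_inf.2 ⟨?_, ?_⟩))
    · exact mul_mem (mul_mem hg hxQ) (inv_mem hg)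
    · exact (mem_normalizer_iff.1 (hLn (hQ.1 hg)) x).1 (hPL hxP)
  have hPQ : P ≤ Q := lemmaB hQ hP.1 hP.2.1 hQn2
  exact hne (hP.2.2 Q hPQ hQ.1 hQ.2.1).symm



/-- Let G be a finite group in which the centralizer of every element meets each of its conjugates by elements outside its normalizer trivially. Then any two distinct Sylow p-subgroups of G, for any prime p, intersect trivially. -/
theorem result {G : Type*} [Group G] [Finite G] (hTI : ∀ x : G, Cfsg.IsTISubset (Subgroup.centralizer ({x} : Set G) : Set G))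
    {p : ℕ} [Fact p.Prime] (P Q : Sylow p G) (hPQ : P ≠ Q) : (P : Subgroup G) ⊓ (Q : Subgroup G) = ⊥ := by
  rcases Subgroup.bot_or_exists_ne_one ((P : Subgroup G) ⊓ (Q : Subgroup G)) with h | ⟨x, hx, hx1⟩
  · exact h
  exfalso
  apply hPQ
  apply Sylow.ext
  have hmax : ∀ R : Sylow p G, MaxP p ⊤ (R : Subgroup G) := fun R =>
    ⟨le_top, R.isPGroup', fun S hRS _ hS => R.is_maximal' hS hRS⟩
  exact main_ti hTI _ ⊤ rfl _ _ (hmax P) (hmax Q) x hx.1 hx.2 hx1

end Cfsg.Agent.S4066
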