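import Cfsg.Statements.S4068
import Cfsg.Agent.Lib.AutOrbits.Main
import Cfsg.Agent.S0494

set_option autoImplicit false
open Cfsg

namespace Cfsg.Agent.S4068

/-- A finite non-solvable group on which its automorphism group has exactly four orbits is isomorphic to the alternating group of degree 5. -/
theorem result {G : Type*} [Group G] [Finite G] (hns : ¬ Group.IsSolvable G)
    (h4 : Nat.card (MulAction.orbitRel.Quotient (MulAut G) G) = 4) : Nonempty (G ≃* alternatingGroup (Fin 5)) := by
  have H := Cfsg.Agent.Lib.AutOrbits.Basic.hyp_of_four hns h4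
  haveI := Cfsg.Agent.Lib.AutOrbits.Basic.isSimple H
  rcases Cfsg.Agent.Lib.AutOrbits.Main.main H with h | h
  · exact Cfsg.Agent.S0494.result h
  · exact (Cfsg.Agent.Lib.AutOrbits.Prime.no_504 H h).elim

end Cfsg.Agent.S4068
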