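import Cfsg.Statements.S4071
import Mathlib
import Cfsg.Agent.Lib.Core.Basic
-- import your own Cfsg.Agent.* helpers here

set_option autoImplicit false
open Cfsg

namespace Cfsg.Agent.S4071

section backward

variable {G : Type*} [Group G] [Finite G]

/-- The converse direction. -/
theorem backward (x : G) (A : Subgroup G) (p : ℕ) (hp : p.Prime) (hAn : A.Normal) (hAc : IsMulCommutative A)
    (k : ℕ) (hk : orderOf x = p ^ k) (hcompl : (Subgroup.zpowers x).IsComplement' A)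
    (hz : x ^ p ∈ Subgroup.center G) (hfp : ∀ a : G, a ∈ A → a ≠ 1 → x * a * x⁻¹ ≠ a)
    (H : Subgroup G) (hH : ¬ IsMulCommutative H) :
    Subgroup.normalizer (H : Set G) = H := by
  classical
  have hAcomm : ∀ a ∈ A, ∀ b ∈ A, a * b = b * a := by
    intro a ha b hb
    exact congrArg Subtype.val (hAc.is_comm.comm ⟨a, ha⟩ ⟨b, hb⟩)
  -- decomposition of elements
  have hdec : ∀ g : G, ∃ (i : ℤ) (a : G), a ∈ A ∧ g = x ^ i * a := by
    intro g
    obtain ⟨⟨⟨z, hz'⟩, ⟨a, ha⟩⟩, hza⟩ := hcompl.surjective g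
    obtain ⟨i, rfl⟩ := Subgroup.mem_zpowers_iff.1 hz'
    exact ⟨i, a, ha, hza.symm⟩
  have hzc : ∀ j : ℤ, (x ^ p) ^ j ∈ Subgroup.center G := fun j => Subgroup.zpow_mem _ hz j
  -- H contains an element generating G modulo A
  have hex : ∃ (i : ℤ) (a : G), a ∈ A ∧ x ^ i * a ∈ H ∧ ¬ (p : ℤ) ∣ i := by
    by_contra hcon
    push_neg at hcon
    apply hH
    refine ⟨⟨?_⟩⟩
    rintro ⟨y, hy⟩ ⟨y', hy'⟩
    apply Subtype.ext
    show y * y' = y' * y
    obtain ⟨i, a, ha, rfl⟩ := hdec y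
    obtain ⟨i', a', ha', rfl⟩ := hdec y'
    obtain ⟨j, rfl⟩ := hcon i a ha hy
    obtain ⟨j', rfl⟩ := hcon i' a' ha' hy'
    have h1 : x ^ ((p : ℤ) * j) = (x ^ p) ^ j := by rw [zpow_mul, zpow_natCast]
    have h2 : x ^ ((p : ℤ) * j') = (x ^ p) ^ j' := by rw [zpow_mul, zpow_natCast]
    rw [h1, h2]
    have c1 := Subgroup.mem_center_iff.1 (hzc j)
    have c2 := Subgroup.mem_center_iff.1 (hzc j')
    calc (x ^ p) ^ j * a * ((x ^ p) ^ j' * a') = (x ^ p) ^ j * (a * (x ^ p) ^ j') * a' := by group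
      _ = (x ^ p) ^ j * ((x ^ p) ^ j' * a) * a' := by rw [c2 a]
      _ = ((x ^ p) ^ j' * (x ^ p) ^ j) * (a * a') := by
          rw [← mul_assoc ((x ^ p) ^ j), ← c2 ((x ^ p) ^ j)]; group
      _ = (x ^ p) ^ j' * ((x ^ p) ^ j * (a' * a)) := by rw [hAcomm a ha a' ha']; group
      _ = (x ^ p) ^ j' * (((x ^ p) ^ j * a') * a) := by group
      _ = (x ^ p) ^ j' * ((a' * (x ^ p) ^ j) * a) := by rw [c1 a']
      _ = _ := by group
  obtain ⟨i, a, ha, hyH, hpi⟩ := hex
  set t := x ^ i with ht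
  -- x is a power of t
  have hcop : IsCoprime i ((p ^ k : ℕ) : ℤ) := by
    have h1 : IsCoprime i (p : ℤ) := by
      rw [isCoprime_comm]
      exact (Nat.prime_iff_prime_int.1 hp).coprime_iff_not_dvd.2 hpi
    have h2 : ((p ^ k : ℕ) : ℤ) = (p : ℤ) ^ k := by push_cast; rfl
    rw [h2]
    exact h1.pow_right
  obtain ⟨u, v, huv⟩ := hcop
  have hxt : x = t ^ u := by
    have h1 : x ^ (u * i + v * ((p ^ k : ℕ) : ℤ)) = x := by rw [huv, zpow_one]
    rw [zpow_add, mul_comm v, zpow_mul x ((p ^ k : ℕ) : ℤ), zpow_natCast, ← hk, pow_orderOf_eq_one, one_zpow, mul_one,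
      mul_comm u, zpow_mul] at h1
    exact h1.symm
  -- fpf of t
  have htfp : ∀ c : G, c ∈ A → t * c * t⁻¹ = c → c = 1 := by
    intro c hc h
    by_contra hc1
    apply hfp c hc hc1
    have h1 : Commute t c := by
      show t * c = c * t
      rw [mul_inv_eq_iff_eq_mul] at h
      exact h
    have h2 : Commute x c := by
      rw [hxt]
      exact h1.zpow_left u
    rw [h2.eq, mul_inv_cancel_right]
  have hdelta : ∀ {s : G}, (∀ c : G, c ∈ A → s * c * s⁻¹ = c → c = 1) → ∀ c ∈ A, ∀ c' ∈ A,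
      c * s * c⁻¹ * s⁻¹ = c' * s * c'⁻¹ * s⁻¹ → c = c' := by
    intro s hs c hc c' hc' h
    have h1 : c * s * c⁻¹ = c' * s * c'⁻¹ := mul_right_cancel h
    have h2 : s * (c⁻¹ * c') * s⁻¹ = c⁻¹ * c' := by
      have h3 : s * c⁻¹ = c⁻¹ * (c' * s * c'⁻¹) := by
        rw [← h1]; group
      calc s * (c⁻¹ * c') * s⁻¹ = (s * c⁻¹) * c' * s⁻¹ := by group
        _ = c⁻¹ * (c' * s * c'⁻¹) * c' * s⁻¹ := by rw [h3]
        _ = _ := by group
    have h4 := hs _ (A.mul_mem (A.inv_mem hc) hc') h2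
    rw [inv_mul_eq_one] at h4
    exact h4
  have hdeltaA : ∀ (s c : G), c ∈ A → c * s * c⁻¹ * s⁻¹ ∈ A := by
    intro s c hc
    have h1 : c * s * c⁻¹ * s⁻¹ = c * (s * c⁻¹ * s⁻¹) := by group
    rw [h1]
    exact A.mul_mem hc (hAn.conj_mem _ (A.inv_mem hc) s)
  -- y = x^i a is conjugate to t by an element of A
  obtain ⟨c, hc, hcy⟩ : ∃ c ∈ A, c * t * c⁻¹ * t⁻¹ = t * a * t⁻¹ := by
    let δ : A → A := fun c => ⟨c * t * c⁻¹ * t⁻¹, hdeltaA t c c.2⟩
    have hinj : Function.Injective δ := by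
      intro c c' h
      apply Subtype.ext
      exact hdelta htfp _ c.2 _ c'.2 (congrArg Subtype.val h)
    have hsurj := Finite.injective_iff_surjective.1 hinj
    obtain ⟨c, hc⟩ := hsurj ⟨t * a * t⁻¹, hAn.conj_mem _ ha t⟩
    exact ⟨c, c.2, congrArg Subtype.val hc⟩
  have hy : c * t * c⁻¹ = t * a := by
    rw [mul_inv_eq_iff_eq_mul] at hcy
    rw [hcy]; group
  -- x' = c x c⁻¹ ∈ H
  set x' := c * x * c⁻¹ with hx'
  have hx'H : x' ∈ H := by
    have h1 : x' = (c * t * c⁻¹) ^ u := by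
      rw [hx']
      nth_rewrite 1 [hxt]
      exact (conj_zpow).symm
    rw [h1, hy]
    exact H.zpow_mem hyH u
  have hx'fp : ∀ e : G, e ∈ A → x' * e * x'⁻¹ = e → e = 1 := by
    intro e he h
    have h1 : c⁻¹ * e * c = e := by
      have := hAcomm e he c hc
      calc c⁻¹ * e * c = c⁻¹ * (e * c) := by group
        _ = c⁻¹ * (c * e) := by rw [this]
        _ = e := by group
    by_contra he1
    apply hfp e he he1
    have h2 : x' * e * x'⁻¹ = c * (x * (c⁻¹ * e * c) * x⁻¹) * c⁻¹ := by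
      rw [hx']; group
    rw [h2, h1] at h
    have h3 : x * e * x⁻¹ = c⁻¹ * e * c := by
      calc x * e * x⁻¹ = c⁻¹ * (c * (x * e * x⁻¹) * c⁻¹) * c := by group
        _ = c⁻¹ * e * c := by rw [h]
    rw [h3, h1]
  -- conclusion
  apply le_antisymm _ Subgroup.le_normalizer
  intro g hg
  obtain ⟨j, b, hb, rfl⟩ := hdec g
  -- x'^j ≡ x^j mod A
  let f := QuotientGroup.mk' A
  have hfx : f x' = f x := by
    rw [hx']
    simp only [map_mul, map_inv]
    have : f c = 1 := (QuotientGroup.eq_one_iff c).2 hc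
    rw [this]; simp
  set a' := (x' ^ j)⁻¹ * (x ^ j * b) with ha'
  have ha'A : a' ∈ A := by
    have h1 : f a' = 1 := by
      rw [ha']
      simp only [map_mul, map_inv, map_zpow, hfx]
      have : f b = 1 := (QuotientGroup.eq_one_iff b).2 hb
      rw [this]; simp
    exact (QuotientGroup.eq_one_iff a').1 h1
  have hxj : x' ^ j ∈ H := H.zpow_mem hx'H j
  have ha'N : a' ∈ Subgroup.normalizer (H : Set G) :=
    Subgroup.mul_mem _ (Subgroup.inv_mem _ (Subgroup.le_normalizer hxj)) hg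
  -- δ' on B
  have hB : a' * x' * a'⁻¹ * x'⁻¹ ∈ H ⊓ A := by
    refine ⟨?_, hdeltaA x' a' ha'A⟩
    exact H.mul_mem ((Subgroup.mem_normalizer_iff.1 ha'N x').1 hx'H) (H.inv_mem hx'H)
  obtain ⟨e, he, hee⟩ : ∃ e ∈ H ⊓ A, e * x' * e⁻¹ * x'⁻¹ = a' * x' * a'⁻¹ * x'⁻¹ := by
    let δ : ↥(H ⊓ A) → ↥(H ⊓ A) := fun e => ⟨e * x' * e⁻¹ * x'⁻¹, by
      refine ⟨H.mul_mem (H.mul_mem (H.mul_mem e.2.1 hx'H) (H.inv_mem e.2.1)) (H.inv_mem hx'H), hdeltaA x' e e.2.2⟩⟩
    have hinj : Function.Injective δ := by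
      intro c c' h
      apply Subtype.ext
      exact hdelta hx'fp _ c.2.2 _ c'.2.2 (congrArg Subtype.val h)
    have hsurj := Finite.injective_iff_surjective.1 hinj
    obtain ⟨c, hc⟩ := hsurj ⟨_, hB⟩
    exact ⟨c, c.2, congrArg Subtype.val hc⟩
  have hea : e = a' := hdelta hx'fp e he.2 a' ha'A hee
  have h3 : x ^ j * b = x' ^ j * a' := by
    rw [ha']; group
  show x ^ j * b ∈ H
  rw [h3, ← hea]
  exact H.mul_mem hxj he.1

end backward

section forward

/-- Decomposition of an element in its `p`-part and its `p'`-part. -/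
theorem exists_decomp {G : Type*} [Group G] [Finite G] (p : ℕ) (hp : p.Prime) (x : G) :
    ∃ y z : G, x = y * z ∧ (∃ k, orderOf y = p ^ k) ∧ ¬ p ∣ orderOf z ∧
      y ∈ Subgroup.zpowers x ∧ z ∈ Subgroup.zpowers x := by
  have hn : orderOf x ≠ 0 := (orderOf_pos x).ne'
  obtain ⟨a, b, hb, hab⟩ := Nat.exists_eq_pow_mul_and_not_dvd hn p hp.ne_one
  have hcop : IsCoprime ((p ^ a : ℕ) : ℤ) (b : ℤ) := by
    rw [Nat.isCoprime_iff_coprime]
    exact Nat.Coprime.pow_left a ((Nat.Prime.coprime_iff_not_dvd hp).2 hb)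
  obtain ⟨u, v, huv⟩ := hcop
  have hxn : x ^ ((p ^ a * b : ℕ) : ℤ) = 1 := by
    rw [← hab, zpow_natCast]
    exact pow_orderOf_eq_one x
  refine ⟨x ^ (v * b), x ^ (u * (p ^ a : ℕ)), ?_, ?_, ?_, ⟨_, rfl⟩, ⟨_, rfl⟩⟩
  · rw [← zpow_add, add_comm, huv, zpow_one]
  · have h1 : (x ^ (v * b)) ^ (p ^ a) = 1 := by
      rw [← zpow_natCast, ← zpow_mul]
      have : v * (b : ℤ) * ((p ^ a : ℕ) : ℤ) = v * ((p ^ a * b : ℕ) : ℤ) := by
        push_cast; ring
      rw [this, mul_comm, zpow_mul, hxn, one_zpow]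
    obtain ⟨k, -, hk⟩ := (Nat.dvd_prime_pow hp).1 (orderOf_dvd_of_pow_eq_one h1)
    exact ⟨k, hk⟩
  · intro hdvd
    have h1 : (x ^ (u * (p ^ a : ℕ))) ^ b = 1 := by
      rw [← zpow_natCast, ← zpow_mul]
      have : u * ((p ^ a : ℕ) : ℤ) * (b : ℤ) = u * ((p ^ a * b : ℕ) : ℤ) := by
        push_cast; ring
      rw [this, mul_comm, zpow_mul, hxn, one_zpow]
    exact hb (hdvd.trans (orderOf_dvd_of_pow_eq_one h1))

theorem exists_prime_index {G : Type*} [Group G] [Finite G] [Group.IsSolvable G] [Nontrivial G] :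
    ∃ (M : Subgroup G) (p : ℕ), M.Normal ∧ p.Prime ∧ M.index = p := by
  classical
  have h1 : commutator G ≠ ⊤ := (IsSolvable.commutator_lt_top_of_nontrivial G).ne
  obtain ⟨M, hM, hle⟩ := (eq_top_or_exists_le_coatom (commutator G)).resolve_left h1
  have hn : M.Normal := by
    refine ⟨fun m hm g => ?_⟩
    have h2 : g * m * g⁻¹ * m⁻¹ ∈ commutator G := by
      rw [← commutatorElement_def]
      exact Subgroup.commutator_mem_commutator (Subgroup.mem_top _) (Subgroup.mem_top _)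
    have h3 := M.mul_mem (hle h2) hm
    simpa using h3
  haveI := hn
  have hidx : M.index ≠ 1 := by
    intro h
    exact hM.1 (Subgroup.index_eq_one.1 h)
  obtain ⟨p, hp, hpd⟩ := Nat.exists_prime_and_dvd hidx
  haveI : Fact p.Prime := ⟨hp⟩
  refine ⟨M, p, hn, hp, ?_⟩
  have hpd' : p ∣ Nat.card (G ⧸ M) := hpd
  obtain ⟨y, hy⟩ := exists_prime_orderOf_dvd_card' p hpd'
  set K := (Subgroup.zpowers y).comap (QuotientGroup.mk' M) with hK
  have hMK : M ≤ K := by
    intro m hm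
    rw [hK, Subgroup.mem_comap]
    have : (QuotientGroup.mk' M) m = 1 := (QuotientGroup.eq_one_iff m).2 hm
    rw [this]
    exact Subgroup.one_mem _
  obtain ⟨g, hg⟩ := QuotientGroup.mk_surjective y
  have hy1 : y ≠ 1 := by
    intro h
    rw [h, orderOf_one] at hy
    exact hp.one_lt.ne hy
  have hgK : g ∈ K := by
    rw [hK, Subgroup.mem_comap]
    show (g : G ⧸ M) ∈ _
    rw [hg]
    exact Subgroup.mem_zpowers y
  have hgM : g ∉ M := by
    intro h
    apply hy1
    rw [← hg]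
    exact (QuotientGroup.eq_one_iff g).2 h
  have hKtop : K = ⊤ := hM.2 K (lt_of_le_of_ne hMK (fun h => hgM (h ▸ hgK)))
  have hztop : Subgroup.zpowers y = ⊤ := by
    rw [eq_top_iff]
    intro q _
    obtain ⟨z, rfl⟩ := QuotientGroup.mk_surjective q
    have : z ∈ K := hKtop ▸ Subgroup.mem_top z
    exact this
  show Nat.card (G ⧸ M) = p
  rw [← Subgroup.card_top, ← hztop, Nat.card_zpowers, hy]

theorem forward {G : Type*} [Group G] [Finite G] [Group.IsSolvable G] (hnn : ¬ Group.IsNilpotent G)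
    (hS : ∀ H : Subgroup G, ¬ IsMulCommutative H → Subgroup.normalizer (H : Set G) = H) :
    ∃ (x : G) (A : Subgroup G) (p : ℕ), p.Prime ∧ A.Normal ∧ IsMulCommutative A ∧ (∃ k : ℕ, orderOf x = p ^ k) ∧
      ¬ p ∣ Nat.card A ∧ (Subgroup.zpowers x).IsComplement' A ∧ x ^ p ∈ Subgroup.center G ∧
      ∀ a : G, a ∈ A → a ≠ 1 → x * a * x⁻¹ ≠ a := by
  classical
  haveI : Nontrivial G := by
    by_contra h
    rw [not_nontrivial_iff_subsingleton] at h
    exact hnn inferInstance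
  obtain ⟨M, p, hMn, hp, hMi⟩ := exists_prime_index (G := G)
  haveI := hMn
  haveI : Fact p.Prime := ⟨hp⟩
  have hMc : ∀ a ∈ M, ∀ b ∈ M, a * b = b * a := by
    by_contra hcon
    push_neg at hcon
    obtain ⟨a, ha, b, hb, hab⟩ := hcon
    have hnc : ¬ IsMulCommutative M := fun h => hab (congrArg Subtype.val (h.is_comm.comm ⟨a, ha⟩ ⟨b, hb⟩))
    have h1 := hS M hnc
    rw [Subgroup.normalizer_eq_top] at h1
    rw [← h1, Subgroup.index_top] at hMi
    exact hp.one_lt.ne hMi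
  have hconjM : ∀ (g m : G), m ∈ M → g * m * g⁻¹ ∈ M := fun g m hm => hMn.conj_mem m hm g
  have hordconj : ∀ g a : G, orderOf (g * a * g⁻¹) = orderOf a := fun g a => MulEquiv.orderOf_eq (MulAut.conj g) a
  -- the p'-part and the p-part of M
  let A : Subgroup G :=
    { carrier := {a | a ∈ M ∧ ¬ p ∣ orderOf a}
      mul_mem' := by
        rintro a b ⟨ha, ha'⟩ ⟨hb, hb'⟩
        refine ⟨M.mul_mem ha hb, fun h => ?_⟩
        have h1 : Commute a b := hMc a ha b hb
        have h2 := h.trans h1.orderOf_mul_dvd_mul_orderOf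
        rcases (Nat.Prime.dvd_mul hp).1 h2 with h3 | h3
        · exact ha' h3
        · exact hb' h3
      one_mem' := by
        refine ⟨M.one_mem, ?_⟩
        rw [orderOf_one]
        exact hp.one_lt.ne' ∘ Nat.dvd_one.1
      inv_mem' := by
        rintro a ⟨ha, ha'⟩
        refine ⟨M.inv_mem ha, ?_⟩
        rwa [orderOf_inv] }
  let S : Subgroup G :=
    { carrier := {s | s ∈ M ∧ ∃ k, orderOf s = p ^ k}
      mul_mem' := by
        rintro a b ⟨ha, k, hk⟩ ⟨hb, l, hl⟩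
        refine ⟨M.mul_mem ha hb, ?_⟩
        have h1 : Commute a b := hMc a ha b hb
        have h2 := h1.orderOf_mul_dvd_mul_orderOf
        rw [hk, hl, ← pow_add] at h2
        obtain ⟨j, -, hj⟩ := (Nat.dvd_prime_pow hp).1 h2
        exact ⟨j, hj⟩
      one_mem' := ⟨M.one_mem, 0, by simp⟩
      inv_mem' := by
        rintro a ⟨ha, k, hk⟩
        exact ⟨M.inv_mem ha, k, by rwa [orderOf_inv]⟩ }
  have hAmem : ∀ a, a ∈ A ↔ a ∈ M ∧ ¬ p ∣ orderOf a := fun a => Iff.rfl
  have hSmem : ∀ a, a ∈ S ↔ a ∈ M ∧ ∃ k, orderOf a = p ^ k := fun a => Iff.rfl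
  have hAn : A.Normal := by
    refine ⟨fun a ha g => ?_⟩
    exact ⟨hconjM g a ha.1, by rw [hordconj]; exact ha.2⟩
  have hSn : S.Normal := by
    refine ⟨fun a ha g => ?_⟩
    exact ⟨hconjM g a ha.1, by rw [hordconj]; exact ha.2⟩
  have hSp : IsPGroup p S := by
    rw [IsPGroup.iff_orderOf]
    rintro ⟨s, hs⟩
    obtain ⟨k, hk⟩ := hs.2
    exact ⟨k, by rw [Subgroup.orderOf_mk, hk]⟩
  have hdecM : ∀ m ∈ M, ∃ s ∈ S, ∃ a ∈ A, m = s * a := by
    intro m hm
    obtain ⟨y, z, hyz, hy, hz, hym, hzm⟩ := exists_decomp p hp m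
    have hzpM : Subgroup.zpowers m ≤ M := by
      rw [Subgroup.zpowers_le]; exact hm
    exact ⟨y, ⟨hzpM hym, hy⟩, z, ⟨hzpM hzm, hz⟩, hyz⟩
  -- a p-element x outside M
  obtain ⟨P⟩ : Nonempty (Sylow p G) := inferInstance
  have hPM : ¬ (P : Subgroup G) ≤ M := by
    intro h
    have h1 : M.index ∣ (P : Subgroup G).index := Subgroup.index_dvd_of_le h
    rw [hMi] at h1
    exact P.not_dvd_index h1
  obtain ⟨x, hxP, hxM⟩ := SetLike.not_le_iff_exists.1 hPM
  obtain ⟨k, hk⟩ := (IsPGroup.iff_orderOf.1 P.isPGroup') ⟨x, hxP⟩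
  have hk' : orderOf x = p ^ k := by rw [← hk]; simp
  have hPelt : ∀ y ∈ (P : Subgroup G), ∃ j, orderOf y = p ^ j := by
    intro y hy
    obtain ⟨j, hj⟩ := (IsPGroup.iff_orderOf.1 P.isPGroup') ⟨y, hy⟩
    exact ⟨j, by rw [← hj]; simp⟩
  have hAP : ∀ a ∈ A, (∃ j, orderOf a = p ^ j) → a = 1 := by
    rintro a ha ⟨j, hj⟩
    have h1 : j = 0 := by
      by_contra hne
      apply ha.2
      rw [hj]
      exact dvd_pow_self p hne
    rw [h1, pow_zero] at hj
    exact orderOf_eq_one_iff.1 hj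
  -- generation
  have hgen : ∀ g : G, ∃ (i : ℤ) (m : G), m ∈ M ∧ g = x ^ i * m := by
    intro g
    have hsup : Subgroup.zpowers x ⊔ M = ⊤ := by
      have h1 : (Subgroup.zpowers x ⊔ M).index ∣ p := by
        rw [← hMi]
        exact Subgroup.index_dvd_of_le le_sup_right
      rcases (Nat.dvd_prime hp).1 h1 with h | h
      · exact Subgroup.index_eq_one.1 h
      · exfalso
        have h2 : (Subgroup.zpowers x ⊔ M) = M := by
          symm
          apply Subgroup.eq_of_le_of_card_ge le_sup_right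
          have h3 := Subgroup.card_mul_index M
          have h4 := Subgroup.card_mul_index (Subgroup.zpowers x ⊔ M)
          rw [h, ← hMi] at h4
          rw [← h3] at h4
          have h5 : 0 < M.index := Nat.pos_of_ne_zero (by rw [hMi]; exact hp.ne_zero)
          exact (Nat.eq_of_mul_eq_mul_right h5 h4).le
        apply hxM
        rw [← h2]
        exact (le_sup_left : Subgroup.zpowers x ≤ _) (Subgroup.mem_zpowers x)
    have hg : g ∈ ((Subgroup.zpowers x ⊔ M : Subgroup G) : Set G) := by rw [hsup]; trivial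
    rw [Subgroup.mul_normal] at hg
    obtain ⟨z, hz, m, hm, rfl⟩ := Set.mem_mul.1 hg
    obtain ⟨i, rfl⟩ := Subgroup.mem_zpowers_iff.1 hz
    exact ⟨i, m, hm, rfl⟩
  have hpow : ∀ g : G, g ^ p ∈ M := by
    intro g
    have := Subgroup.pow_index_mem M g
    rwa [hMi] at this
  -- elements of M commute with A; x normalizes
  have hAcomm : ∀ a ∈ A, ∀ b ∈ A, a * b = b * a := fun a ha b hb => hMc a ha.1 b hb.1
  have hxconjA : ∀ a ∈ A, x * a * x⁻¹ ∈ A := fun a ha => hAn.conj_mem a ha x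
  -- not everything in A is fixed by x
  have hnilp : ¬ ∀ a ∈ A, x * a * x⁻¹ = a := by
    intro hfix
    apply hnn
    apply Group.of_quotient_center_nilpotent
    have hAc : ∀ a ∈ A, a ∈ Subgroup.center G := by
      intro a ha
      rw [Subgroup.mem_center_iff]
      intro g
      obtain ⟨i, m, hm, rfl⟩ := hgen g
      have h1 : Commute x a := by
        show x * a = a * x
        have := hfix a ha
        rwa [mul_inv_eq_iff_eq_mul] at this
      have h2 : Commute (x ^ i) a := h1.zpow_left i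
      have h3 : Commute m a := hMc m hm a ha.1
      exact (h2.mul_left h3).eq
    have hpg : IsPGroup p (G ⧸ Subgroup.center G) := by
      intro q
      obtain ⟨g, rfl⟩ := QuotientGroup.mk_surjective q
      obtain ⟨s, hs, a, ha, hsa⟩ := hdecM (g ^ p) (hpow g)
      obtain ⟨l, hl⟩ := hs.2
      refine ⟨1 + l, ?_⟩
      have hc : Commute s a := hMc s hs.1 a ha.1
      have h1 : g ^ p ^ (1 + l) = a ^ p ^ l := by
        rw [pow_add, pow_one, pow_mul, hsa, hc.mul_pow, ← hl, pow_orderOf_eq_one, one_mul]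
      rw [← QuotientGroup.mk_pow, h1]
      exact (QuotientGroup.eq_one_iff _).2 (Subgroup.pow_mem _ (hAc a ha) _)
    exact hpg.isNilpotent
  -- the subgroup B = [A, x]
  have hdelta_mul : ∀ a ∈ A, ∀ a' ∈ A, (a * (x * a⁻¹ * x⁻¹)) * (a' * (x * a'⁻¹ * x⁻¹)) =
      (a * a') * (x * (a * a')⁻¹ * x⁻¹) := by
    intro a ha a' ha'
    have hu := hxconjA a⁻¹ (A.inv_mem ha)
    have hv := hxconjA a'⁻¹ (A.inv_mem ha')
    have e1 : x * (a * a')⁻¹ * x⁻¹ = (x * a'⁻¹ * x⁻¹) * (x * a⁻¹ * x⁻¹) := by group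
    rw [e1]
    set u := x * a⁻¹ * x⁻¹
    set v := x * a'⁻¹ * x⁻¹
    calc a * u * (a' * v) = a * (u * a') * v := by group
      _ = a * (a' * u) * v := by rw [hAcomm u hu a' ha']
      _ = a * a' * (u * v) := by group
      _ = a * a' * (v * u) := by rw [hAcomm u hu v hv]
  let B : Subgroup G :=
    { carrier := {b | ∃ a ∈ A, b = a * (x * a⁻¹ * x⁻¹)}
      mul_mem' := by
        rintro _ _ ⟨a, ha, rfl⟩ ⟨a', ha', rfl⟩
        exact ⟨a * a', A.mul_mem ha ha', hdelta_mul a ha a' ha'⟩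
      one_mem' := ⟨1, A.one_mem, by simp⟩
      inv_mem' := by
        rintro _ ⟨a, ha, rfl⟩
        refine ⟨a⁻¹, A.inv_mem ha, ?_⟩
        have hu := hxconjA a⁻¹ (A.inv_mem ha)
        have e1 : x * a⁻¹⁻¹ * x⁻¹ = (x * a⁻¹ * x⁻¹)⁻¹ := by group
        rw [e1, mul_inv_rev]
        have := hAcomm _ (A.inv_mem hu) _ (A.inv_mem ha)
        exact this }
  have hBmem : ∀ b, b ∈ B ↔ ∃ a ∈ A, b = a * (x * a⁻¹ * x⁻¹) := fun b => Iff.rfl
  have hBA : B ≤ A := by
    rintro _ ⟨a, ha, rfl⟩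
    exact A.mul_mem ha (hxconjA a⁻¹ (A.inv_mem ha))
  have hxB : x ∈ Subgroup.normalizer (B : Set G) := by
    rw [Subgroup.mem_normalizer_iff]
    intro b
    have e1 : ∀ a : G, x * (a * (x * a⁻¹ * x⁻¹)) * x⁻¹ = (x * a * x⁻¹) * (x * (x * a * x⁻¹)⁻¹ * x⁻¹) := by
      intro a; group
    constructor
    · rintro ⟨a, ha, rfl⟩
      exact ⟨x * a * x⁻¹, hxconjA a ha, e1 a⟩
    · rintro ⟨a, ha, hb⟩
      refine ⟨x⁻¹ * a * x, ?_, ?_⟩
      · have := hAn.conj_mem a ha x⁻¹
        simpa using this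
      · have h1 : b = x⁻¹ * (x * b * x⁻¹) * x := by group
        rw [h1, hb]; group
  have hBn : B.Normal := by
    refine ⟨fun b hb g => ?_⟩
    obtain ⟨i, m, hm, rfl⟩ := hgen g
    have h1 : m * b = b * m := hMc m hm b (hBA hb).1
    have h2 : x ^ i * m * b * (x ^ i * m)⁻¹ = x ^ i * b * (x ^ i)⁻¹ := by
      calc x ^ i * m * b * (x ^ i * m)⁻¹ = x ^ i * (m * b) * m⁻¹ * (x ^ i)⁻¹ := by group
        _ = x ^ i * (b * m) * m⁻¹ * (x ^ i)⁻¹ := by rw [h1]
        _ = _ := by group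
    rw [h2]
    exact (Subgroup.mem_normalizer_iff.1 (Subgroup.zpow_mem _ hxB i) b).1 hb
  -- C ∩ B = 1
  have hCB : ∀ c ∈ B, x * c * x⁻¹ = c → c = 1 := by
    rintro c ⟨a, ha, hc⟩ hfix
    have hcx : x * c = c * x := by
      rwa [mul_inv_eq_iff_eq_mul] at hfix
    have hstep : x * a * x⁻¹ = c⁻¹ * a := by
      rw [hc]; group
    have hiter : ∀ i : ℕ, x ^ i * a * (x ^ i)⁻¹ = (c ^ i)⁻¹ * a := by
      intro i
      induction i with
      | zero => simp
      | succ i ih =>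
        have hci : Commute x (c ^ i) := Commute.pow_right hcx i
        calc x ^ (i + 1) * a * (x ^ (i + 1))⁻¹ = x * (x ^ i * a * (x ^ i)⁻¹) * x⁻¹ := by
              rw [pow_succ']; group
          _ = x * ((c ^ i)⁻¹ * a) * x⁻¹ := by rw [ih]
          _ = (x * (c ^ i)⁻¹ * x⁻¹) * (x * a * x⁻¹) := by group
          _ = (c ^ i)⁻¹ * (c⁻¹ * a) := by
              rw [hstep]
              congr 1
              have := hci.inv_right
              rw [this.eq, mul_inv_cancel_right]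
          _ = (c ^ (i + 1))⁻¹ * a := by
              rw [pow_succ]; group
    have h1 := hiter (p ^ k)
    rw [← hk', pow_orderOf_eq_one] at h1
    have h2 : c ^ (orderOf x) = 1 := by
      simpa using h1
    rw [hk'] at h2
    obtain ⟨j, -, hj⟩ := (Nat.dvd_prime_pow hp).1 (orderOf_dvd_of_pow_eq_one h2)
    exact hAP c (hBA ⟨a, ha, hc⟩) ⟨j, hj⟩
  -- x does not centralize B
  have hnc : ∃ b ∈ B, x * b * x⁻¹ ≠ b := by
    by_contra hcon
    push_neg at hcon
    apply hnilp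
    intro a ha
    have h1 : a * (x * a⁻¹ * x⁻¹) ∈ B := ⟨a, ha, rfl⟩
    have h2 := hCB _ h1 (hcon _ h1)
    have h3 : x * a⁻¹ * x⁻¹ = a⁻¹ := eq_inv_of_mul_eq_one_right h2
    have h4 : x * a * x⁻¹ = (x * a⁻¹ * x⁻¹)⁻¹ := by group
    rw [h4, h3, inv_inv]
  obtain ⟨b0, hb0, hb0x⟩ := hnc
  set H0 := Subgroup.zpowers x ⊔ B with hH0
  have hxH0 : x ∈ H0 := (le_sup_left : Subgroup.zpowers x ≤ H0) (Subgroup.mem_zpowers x)
  have hbH0 : b0 ∈ H0 := (le_sup_right : B ≤ H0) hb0
  have hH0nc : ¬ IsMulCommutative H0 := by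
    intro h
    have h1 := h.is_comm.comm ⟨x, hxH0⟩ ⟨b0, hbH0⟩
    have h2 : x * b0 = b0 * x := congrArg Subtype.val h1
    apply hb0x
    rw [h2, mul_inv_cancel_right]
  have hH0n := hS H0 hH0nc
  have hmemcen : ∀ (L : Subgroup G) (c : G), (∀ h ∈ L, h * c = c * h) → c ∈ Subgroup.normalizer (L : Set G) := by
    intro L c hc
    rw [Subgroup.mem_normalizer_iff]
    intro h
    constructor
    · intro hh
      have : c * h * c⁻¹ = h := by
        rw [← hc h hh, mul_inv_cancel_right]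
      rwa [this]
    · intro hh
      have h1 := hc _ hh
      have h2 : c * h * c⁻¹ * c = c * h := by group
      rw [h2] at h1
      have h3 : h = c * h * c⁻¹ := mul_left_cancel h1
      rw [h3]
      exact hh
  have hfpf : ∀ a : G, a ∈ A → a ≠ 1 → x * a * x⁻¹ ≠ a := by
    intro a ha ha1 hfix
    apply ha1
    have hax : x * a = a * x := by
      rwa [mul_inv_eq_iff_eq_mul] at hfix
    have hcent : H0 ≤ Subgroup.centralizer ({a} : Set G) := by
      apply sup_le
      · rw [Subgroup.zpowers_le, Subgroup.mem_centralizer_singleton_iff]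
        exact hax
      · intro b hb
        rw [Subgroup.mem_centralizer_singleton_iff]
        exact hMc b (hBA hb).1 a ha.1
    have h1 := hmemcen H0 a (fun h hh => Subgroup.mem_centralizer_singleton_iff.1 (hcent hh))
    rw [hH0n] at h1
    have h2 : a ∈ ((Subgroup.zpowers x ⊔ B : Subgroup G) : Set G) := h1
    rw [Subgroup.mul_normal] at h2
    obtain ⟨z, hz, b, hb, hzb⟩ := Set.mem_mul.1 h2
    have hzA : z ∈ A := by
      have h3 : z = a * b⁻¹ := by
        rw [← hzb]; group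
      rw [h3]
      exact A.mul_mem ha (A.inv_mem (hBA hb))
    have hzP : z ∈ (P : Subgroup G) := by
      have : Subgroup.zpowers x ≤ P := by rw [Subgroup.zpowers_le]; exact hxP
      exact this hz
    have hz1 : z = 1 := hAP z hzA (hPelt z hzP)
    have hab : a = b := by
      rw [← hzb, hz1, one_mul]
    apply hCB a (hab ▸ hb) hfix
  -- P = ⟨x⟩
  obtain ⟨a0, ha0, ha01⟩ : ∃ a ∈ A, x * a * x⁻¹ ≠ a := by
    by_contra hcon
    push_neg at hcon
    exact hnilp hcon
  have ha01' : a0 ≠ 1 := by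
    rintro rfl
    apply ha01
    simp
  set K1 := Subgroup.zpowers x ⊔ A with hK1
  have hxK1 : x ∈ K1 := (le_sup_left : Subgroup.zpowers x ≤ K1) (Subgroup.mem_zpowers x)
  have haK1 : a0 ∈ K1 := (le_sup_right : A ≤ K1) ha0
  have hK1nc : ¬ IsMulCommutative K1 := by
    intro h
    have h1 := h.is_comm.comm ⟨x, hxK1⟩ ⟨a0, haK1⟩
    have h2 : x * a0 = a0 * x := congrArg Subtype.val h1
    apply ha01
    rw [h2, mul_inv_cancel_right]
  have hK1n := hS K1 hK1nc
  have hxPle : Subgroup.zpowers x ≤ (P : Subgroup G) := by rw [Subgroup.zpowers_le]; exact hxP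
  have hK1mem : ∀ t : G, t ∈ M → (∀ z ∈ Subgroup.zpowers x, t * z * t⁻¹ ∈ Subgroup.zpowers x) →
      ∀ h ∈ K1, t * h * t⁻¹ ∈ K1 := by
    intro t ht htz h hh
    have hh' : h ∈ ((Subgroup.zpowers x ⊔ A : Subgroup G) : Set G) := hh
    rw [Subgroup.mul_normal] at hh'
    obtain ⟨z, hz, a, ha, rfl⟩ := Set.mem_mul.1 hh'
    have h1 : t * (z * a) * t⁻¹ = (t * z * t⁻¹) * (t * a * t⁻¹) := by group
    have h2 : t * a * t⁻¹ = a := by
      rw [hMc t ht a ha.1, mul_inv_cancel_right]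
    rw [h1, h2]
    exact K1.mul_mem ((le_sup_left : Subgroup.zpowers x ≤ K1) (htz z hz)) ((le_sup_right : A ≤ K1) ha)
  have hPx : (Subgroup.zpowers x : Subgroup G) = (P : Subgroup G) := by
    by_contra hne
    haveI : Group.IsNilpotent (P : Subgroup G) := P.isPGroup'.isNilpotent
    set X := (Subgroup.zpowers x).subgroupOf (P : Subgroup G) with hX
    have hXtop : X < ⊤ := by
      apply lt_top_iff_ne_top.2
      intro h
      apply hne
      apply le_antisymm hxPle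
      intro y hy
      have : (⟨y, hy⟩ : (P : Subgroup G)) ∈ X := h ▸ Subgroup.mem_top _
      exact this
    have hXlt := normalizerCondition_of_isNilpotent X hXtop
    obtain ⟨u, hu, huX⟩ := SetLike.exists_of_lt hXlt
    obtain ⟨i, m, hm, hum⟩ := hgen (u : G)
    have hxiX : (⟨x ^ i, P.1.zpow_mem hxP i⟩ : (P : Subgroup G)) ∈ X := by
      rw [hX, Subgroup.mem_subgroupOf]
      exact ⟨i, rfl⟩
    set s' : (P : Subgroup G) := (⟨x ^ i, P.1.zpow_mem hxP i⟩ : (P : Subgroup G))⁻¹ * u with hs'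
    have hs'N : s' ∈ Subgroup.normalizer (X : Set (P : Subgroup G)) :=
      Subgroup.mul_mem _ (Subgroup.inv_mem _ (Subgroup.le_normalizer hxiX)) hu
    have hs'm : (s' : G) = m := by
      rw [hs']
      simp only [Subgroup.coe_mul, Subgroup.coe_inv]
      rw [hum]; group
    have hs'X : s' ∉ X := by
      intro h
      apply huX
      have h1 : u = (⟨x ^ i, P.1.zpow_mem hxP i⟩ : (P : Subgroup G)) * s' := by
        rw [hs']; group
      rw [h1]
      exact X.mul_mem hxiX h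
    have hconjz : ∀ y ∈ Subgroup.normalizer (X : Set (P : Subgroup G)), ∀ z ∈ Subgroup.zpowers x, (y : G) * z * (y : G)⁻¹ ∈ Subgroup.zpowers x := by
      intro y hy z hz
      have h1 : (⟨z, hxPle hz⟩ : (P : Subgroup G)) ∈ X := by
        rw [hX, Subgroup.mem_subgroupOf]
        exact hz
      have h2 := (Subgroup.mem_normalizer_iff.1 hy _).1 h1
      rw [hX, Subgroup.mem_subgroupOf] at h2
      exact h2
    have hmN : m ∈ Subgroup.normalizer (K1 : Set G) := by
      rw [Subgroup.mem_normalizer_iff]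
      intro h
      constructor
      · intro hh
        apply hK1mem m hm _ h hh
        intro z hz
        rw [← hs'm]
        exact hconjz s' hs'N z hz
      · intro hh
        have h1 := hK1mem m⁻¹ (M.inv_mem hm) (by
          intro z hz
          have h2 := hconjz s'⁻¹ (Subgroup.inv_mem _ hs'N) z hz
          rw [← hs'm]
          simpa using h2) _ hh
        have h2 : m⁻¹ * (m * h * m⁻¹) * m⁻¹⁻¹ = h := by group
        rwa [h2] at h1
    rw [hK1n] at hmN
    have hm2 : m ∈ ((Subgroup.zpowers x ⊔ A : Subgroup G) : Set G) := hmN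
    rw [Subgroup.mul_normal] at hm2
    obtain ⟨z, hz, a, ha, hza⟩ := Set.mem_mul.1 hm2
    have haP : a ∈ (P : Subgroup G) := by
      have h1 : a = z⁻¹ * m := by rw [← hza]; group
      rw [h1, ← hs'm]
      exact P.1.mul_mem (P.1.inv_mem (hxPle hz)) s'.2
    have ha1 : a = 1 := hAP a ha (hPelt a haP)
    apply hs'X
    rw [hX, Subgroup.mem_subgroupOf, hs'm, ← hza, ha1, mul_one]
    exact hz
  have hSle : S ≤ Subgroup.zpowers x := by
    rw [hPx]
    exact (Cfsg.Agent.Lib.Core.Basic.le_pCore hSn hSp).trans (Cfsg.Agent.Lib.Core.Basic.pCore_le_sylow P)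
  have hgen2 : ∀ g : G, ∃ z ∈ Subgroup.zpowers x, ∃ a ∈ A, g = z * a := by
    intro g
    obtain ⟨i, m, hm, rfl⟩ := hgen g
    obtain ⟨s, hs, a, ha, rfl⟩ := hdecM m hm
    refine ⟨x ^ i * s, Subgroup.mul_mem _ ⟨i, rfl⟩ (hSle hs), a, ha, by group⟩
  have hdisj : Disjoint (Subgroup.zpowers x) A := by
    rw [Subgroup.disjoint_def]
    intro z hz hza
    exact hAP z hza (hPelt z (hxPle hz))
  refine ⟨x, A, p, hp, hAn, ⟨⟨fun a b => Subtype.ext (hAcomm a a.2 b b.2)⟩⟩, ⟨k, hk'⟩, ?_, ?_, ?_, hfpf⟩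
  · intro hd
    obtain ⟨a, ha⟩ := exists_prime_orderOf_dvd_card' p hd
    apply a.2.2
    have h1 : orderOf (a : G) = p := by rw [← ha]; simp
    rw [h1]
  · apply Subgroup.isComplement'_of_disjoint_and_mul_eq_univ hdisj
    rw [Set.eq_univ_iff_forall]
    intro g
    obtain ⟨z, hz, a, ha, rfl⟩ := hgen2 g
    exact Set.mem_mul.2 ⟨z, hz, a, ha, rfl⟩
  · rw [Subgroup.mem_center_iff]
    intro g
    obtain ⟨z, hz, a, ha, rfl⟩ := hgen2 g
    obtain ⟨i, rfl⟩ := Subgroup.mem_zpowers_iff.1 hz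
    have h1 : Commute (x ^ i) (x ^ p) := ((Commute.refl x).zpow_left i).pow_right p
    have h2 : Commute a (x ^ p) := hMc a ha.1 _ (hpow x)
    exact (h1.mul_left h2).eq

end forward



/-- Let G be a finite solvable non-nilpotent group. Every non-abelian subgroup of G is self-normalizing if and only if G is a semidirect product ⟨x⟩ ⋉ A in which ⟨x⟩ is a p-group for some prime p, A is a normal abelian subgroup of order prime to p, x^p is central in G, and x acts fixed-point-freely on A (no non-identity element of A commutes with x). -/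
theorem result {G : Type*} [Group G] [Finite G]
    [Group.IsSolvable G] (hnn : ¬ Group.IsNilpotent G) :
    (∀ H : Subgroup G, ¬ IsMulCommutative H → Subgroup.normalizer (H : Set G) = H) ↔
    ∃ (x : G) (A : Subgroup G) (p : ℕ), p.Prime ∧ A.Normal ∧ IsMulCommutative A ∧ (∃ k : ℕ, orderOf x = p ^ k) ∧
      ¬ p ∣ Nat.card A ∧ (Subgroup.zpowers x).IsComplement' A ∧ x ^ p ∈ Subgroup.center G ∧
      ∀ a : G, a ∈ A → a ≠ 1 → x * a * x⁻¹ ≠ a := by
  constructor
  · intro hS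
    exact forward hnn hS
  · rintro ⟨x, A, p, hp, hAn, hAc, ⟨k, hk⟩, -, hcompl, hz, hfp⟩ H hH
    exact backward x A p hp hAn hAc k hk hcompl hz hfp H hH

end Cfsg.Agent.S4071
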