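import Cfsg.Statements.S4072
import Mathlib
import Cfsg.Agent.Lib.Core.Basic
-- import your own Cfsg.Agent.* helpers here

set_option autoImplicit false
open Cfsg

namespace Cfsg.Agent.S4072

section

variable {p : ℕ} [hpf : Fact p.Prime]

theorem coatom_props {X : Type*} [Group X] [Finite X] (hX : IsPGroup p X) (M : Subgroup X) (hM : IsCoatom M) :
    M.Normal ∧ (∀ u : X, u ^ p ∈ M) ∧ ∀ u v : X, u * v * u⁻¹ * v⁻¹ ∈ M := by
  classical
  have hp : p.Prime := hpf.out
  haveI : Group.IsNilpotent X := hX.isNilpotent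
  have hn : M.Normal := by
    have h1 := normalizerCondition_of_isNilpotent M (lt_top_iff_ne_top.2 hM.1)
    have h2 := hM.2 _ h1
    exact Subgroup.normalizer_eq_top_iff.1 h2
  haveI := hn
  refine ⟨hn, ?_⟩
  have hQ : IsPGroup p (X ⧸ M) := hX.to_quotient M
  obtain ⟨n, hn'⟩ := IsPGroup.iff_card.1 hQ
  have hn0 : n ≠ 0 := by
    rintro rfl
    apply hM.1
    apply Subgroup.index_eq_one.1
    show Nat.card (X ⧸ M) = 1
    simpa using hn'
  have hpd : p ∣ Nat.card (X ⧸ M) := by
    rw [hn']; exact dvd_pow_self p hn0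
  obtain ⟨y, hy⟩ := exists_prime_orderOf_dvd_card' p hpd
  set K := (Subgroup.zpowers y).comap (QuotientGroup.mk' M) with hK
  have hMK : M ≤ K := by
    intro m hm
    rw [hK, Subgroup.mem_comap]
    have : (QuotientGroup.mk' M) m = 1 := (QuotientGroup.eq_one_iff m).2 hm
    rw [this]
    exact Subgroup.one_mem _
  obtain ⟨g, hg⟩ := QuotientGroup.mk_surjective y
  have hy1 : y ≠ 1 := by
    intro h
    rw [h, orderOf_one] at hy
    exact hp.one_lt.ne hy
  have hgK : g ∈ K := by
    rw [hK, Subgroup.mem_comap]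
    show (g : X ⧸ M) ∈ _
    rw [hg]
    exact Subgroup.mem_zpowers y
  have hgM : g ∉ M := by
    intro h
    apply hy1
    rw [← hg]
    exact (QuotientGroup.eq_one_iff g).2 h
  have hKtop : K = ⊤ := hM.2 K (lt_of_le_of_ne hMK (fun h => hgM (h ▸ hgK)))
  have hztop : Subgroup.zpowers y = ⊤ := by
    rw [eq_top_iff]
    intro q _
    obtain ⟨z, rfl⟩ := QuotientGroup.mk_surjective q
    have : z ∈ K := hKtop ▸ Subgroup.mem_top z
    exact this
  have hcomm : ∀ a b : X ⧸ M, a * b = b * a := by
    intro a b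
    have ha : a ∈ Subgroup.zpowers y := hztop ▸ Subgroup.mem_top a
    have hb : b ∈ Subgroup.zpowers y := hztop ▸ Subgroup.mem_top b
    obtain ⟨i, rfl⟩ := Subgroup.mem_zpowers_iff.1 ha
    obtain ⟨j, rfl⟩ := Subgroup.mem_zpowers_iff.1 hb
    exact (Commute.refl y).zpow_zpow i j
  constructor
  · intro u
    have h1 : (QuotientGroup.mk u : X ⧸ M) ∈ Subgroup.zpowers y := hztop ▸ Subgroup.mem_top _
    obtain ⟨i, hi⟩ := Subgroup.mem_zpowers_iff.1 h1
    have h2 : (QuotientGroup.mk u : X ⧸ M) ^ p = 1 := by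
      rw [← hi, ← zpow_natCast, ← zpow_mul, mul_comm, zpow_mul, zpow_natCast, ← hy, pow_orderOf_eq_one, one_zpow]
    rw [← QuotientGroup.mk_pow] at h2
    exact (QuotientGroup.eq_one_iff _).1 h2
  · intro u v
    have h1 := hcomm (QuotientGroup.mk u) (QuotientGroup.mk v)
    have h2 : (QuotientGroup.mk (u * v * u⁻¹ * v⁻¹) : X ⧸ M) = 1 := by
      simp only [QuotientGroup.mk_mul, QuotientGroup.mk_inv]
      rw [h1]; group
    exact (QuotientGroup.eq_one_iff _).1 h2

/-- Minimal non-abelian `p`-groups have derived subgroup of order `p`. -/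
theorem min_nonab {X : Type*} [Group X] [Finite X] (hX : IsPGroup p X) (x y : X) (hxy : x * y ≠ y * x)
    (hmin : ∀ Q : Subgroup X, Q ≠ ⊤ → ∀ a ∈ Q, ∀ b ∈ Q, a * b = b * a) :
    ∃ c : X, c ≠ 1 ∧ c ^ p = 1 ∧ ∀ u v : X, u * v * u⁻¹ * v⁻¹ ∈ Subgroup.zpowers c := by
  classical
  have hp : p.Prime := hpf.out
  set c := x * y * x⁻¹ * y⁻¹ with hc
  have hzx : Subgroup.zpowers x ≠ ⊤ := by
    intro h
    have hy : y ∈ Subgroup.zpowers x := h ▸ Subgroup.mem_top y
    obtain ⟨i, rfl⟩ := Subgroup.mem_zpowers_iff.1 hy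
    exact hxy ((Commute.refl x).zpow_right i)
  have hzy : Subgroup.zpowers y ≠ ⊤ := by
    intro h
    have hx : x ∈ Subgroup.zpowers y := h ▸ Subgroup.mem_top x
    obtain ⟨i, rfl⟩ := Subgroup.mem_zpowers_iff.1 hx
    exact hxy ((Commute.refl y).zpow_left i)
  obtain ⟨M, hM, hxM⟩ := (eq_top_or_exists_le_coatom (Subgroup.zpowers x)).resolve_left hzx
  obtain ⟨N, hN, hyN⟩ := (eq_top_or_exists_le_coatom (Subgroup.zpowers y)).resolve_left hzy
  have hxM' : x ∈ M := hxM (Subgroup.mem_zpowers x)
  have hyN' : y ∈ N := hyN (Subgroup.mem_zpowers y)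
  obtain ⟨-, -, hMc⟩ := coatom_props hX M hM
  obtain ⟨-, hNp, hNc⟩ := coatom_props hX N hN
  have hc1 : c ≠ 1 := by
    intro h
    apply hxy
    rw [hc, mul_inv_eq_one, mul_inv_eq_iff_eq_mul] at h
    exact h
  have hcx : c * x = x * c := hmin M hM.1 c (hMc x y) x hxM'
  have hcy : c * y = y * c := hmin N hN.1 c (hNc x y) y hyN'
  have hxpy : x ^ p * y = y * x ^ p := hmin N hN.1 _ (hNp x) y hyN'
  -- generation
  have hgen : Subgroup.closure ({x, y} : Set X) = ⊤ := by
    by_contra hne
    exact hxy (hmin _ hne x (Subgroup.subset_closure (by simp)) y (Subgroup.subset_closure (by simp)))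
  have hcen : c ∈ Subgroup.center X := by
    rw [Subgroup.mem_center_iff]
    intro g
    have h1 : Subgroup.closure ({x, y} : Set X) ≤ Subgroup.centralizer ({c} : Set X) := by
      rw [Subgroup.closure_le]
      rintro w (rfl | rfl)
      · exact Subgroup.mem_centralizer_singleton_iff.2 hcx.symm
      · exact Subgroup.mem_centralizer_singleton_iff.2 hcy.symm
    have h2 : g ∈ Subgroup.closure ({x, y} : Set X) := hgen ▸ Subgroup.mem_top g
    exact (Subgroup.mem_centralizer_singleton_iff.1 (h1 h2))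
  refine ⟨c, hc1, ?_, ?_⟩
  · -- c ^ p = 1
    have hxyc : x * y = c * (y * x) := by
      rw [hc]; group
    have hiter : ∀ k : ℕ, x ^ k * y = c ^ k * (y * x ^ k) := by
      intro k
      induction k with
      | zero => simp
      | succ k ih =>
        have hck : Commute x (c ^ k) := (Commute.pow_right (show Commute x c from hcx.symm) k)
        calc x ^ (k + 1) * y = x * (x ^ k * y) := by rw [pow_succ']; group
          _ = x * (c ^ k * (y * x ^ k)) := by rw [ih]
          _ = c ^ k * (x * y) * x ^ k := by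
              rw [← mul_assoc x, hck.eq]; group
          _ = c ^ k * (c * (y * x)) * x ^ k := by rw [hxyc]
          _ = c ^ (k + 1) * (y * x ^ (k + 1)) := by
              rw [pow_succ, pow_succ']; group
    have h1 := hiter p
    rw [hxpy] at h1
    have h2 : c ^ p * (y * x ^ p) = y * x ^ p := h1.symm
    exact mul_eq_right.1 h2
  · -- all commutators are powers of c
    have hYn : (Subgroup.zpowers c).Normal := by
      refine ⟨?_⟩
      rintro _ ⟨i, rfl⟩ g
      have h1 : c ^ i ∈ Subgroup.center X := Subgroup.zpow_mem _ hcen i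
      have h2 := Subgroup.mem_center_iff.1 h1 g
      show _ ∈ Subgroup.zpowers c
      rw [h2, mul_inv_cancel_right]
      exact ⟨i, rfl⟩
    let f := QuotientGroup.mk' (Subgroup.zpowers c)
    have hfc : f c = 1 := (QuotientGroup.eq_one_iff c).2 (Subgroup.mem_zpowers c)
    have hfxy : f x * f y = f y * f x := by
      have h1 : x * y = c * (y * x) := by
        rw [hc]; group
      rw [← map_mul, h1, map_mul, hfc, one_mul, map_mul]
    have hcent : ∀ w : X, f w ∈ Subgroup.center (X ⧸ Subgroup.zpowers c) := by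
      have hx' : ∀ w : X, f w * f x = f x * f w := by
        have h1 : Subgroup.closure ({x, y} : Set X) ≤ (Subgroup.centralizer ({f x} : Set _)).comap f := by
          rw [Subgroup.closure_le]
          rintro w (rfl | rfl)
          · exact Subgroup.mem_centralizer_singleton_iff.2 rfl
          · exact Subgroup.mem_centralizer_singleton_iff.2 hfxy.symm
        intro w
        have h2 : w ∈ Subgroup.closure ({x, y} : Set X) := hgen ▸ Subgroup.mem_top w
        exact Subgroup.mem_centralizer_singleton_iff.1 (h1 h2)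
      have hy' : ∀ w : X, f w * f y = f y * f w := by
        have h1 : Subgroup.closure ({x, y} : Set X) ≤ (Subgroup.centralizer ({f y} : Set _)).comap f := by
          rw [Subgroup.closure_le]
          rintro w (rfl | rfl)
          · exact Subgroup.mem_centralizer_singleton_iff.2 hfxy
          · exact Subgroup.mem_centralizer_singleton_iff.2 rfl
        intro w
        have h2 : w ∈ Subgroup.closure ({x, y} : Set X) := hgen ▸ Subgroup.mem_top w
        exact Subgroup.mem_centralizer_singleton_iff.1 (h1 h2)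
      have h1 : Subgroup.closure ({x, y} : Set X) ≤ (Subgroup.center (X ⧸ Subgroup.zpowers c)).comap f := by
        rw [Subgroup.closure_le]
        rintro w (rfl | rfl)
        · rw [SetLike.mem_coe, Subgroup.mem_comap, Subgroup.mem_center_iff]
          intro q
          obtain ⟨w, rfl⟩ := QuotientGroup.mk'_surjective _ q
          exact hx' w
        · rw [SetLike.mem_coe, Subgroup.mem_comap, Subgroup.mem_center_iff]
          intro q
          obtain ⟨w, rfl⟩ := QuotientGroup.mk'_surjective _ q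
          exact hy' w
      intro w
      have h2 : w ∈ Subgroup.closure ({x, y} : Set X) := hgen ▸ Subgroup.mem_top w
      exact h1 h2
    intro u v
    have h1 : f (u * v * u⁻¹ * v⁻¹) = 1 := by
      simp only [map_mul, map_inv]
      rw [(Subgroup.mem_center_iff.1 (hcent u) (f v)).symm]
      group
    exact (QuotientGroup.eq_one_iff _).1 h1

end

theorem commutator_le_ker' {G A : Type*} [Group G] [CommGroup A] (f : G →* A) : commutator G ≤ f.ker := by
  rw [commutator_def, Subgroup.commutator_le]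
  intro a _ b _
  rw [MonoidHom.mem_ker, commutatorElement_def]
  simp only [map_mul, map_inv]
  rw [mul_comm (f a)]
  group

theorem burnside_simple {Q : Type*} [Group Q] [Finite Q] [IsSimpleGroup Q] (hns : ¬ Group.IsSolvable Q)
    (r : ℕ) [Fact r.Prime] (R : Sylow r Q) (hR : (R : Subgroup Q) ≠ ⊥)
    (hN : Subgroup.normalizer ((R : Subgroup Q) : Set Q) ≤ Subgroup.centralizer ((R : Subgroup Q) : Set Q)) : False := by
  have hc := MonoidHom.ker_transferSylow_isComplement' R hN
  have hK : (MonoidHom.transferSylow R hN).ker.Normal := MonoidHom.normal_ker _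
  rcases hK.eq_bot_or_eq_top with h | h
  · rw [h] at hc
    have h2 : (R : Subgroup Q) = ⊤ := Subgroup.isComplement'_bot_left.1 hc
    apply hns
    have hp : IsPGroup r Q := by
      intro g
      obtain ⟨k, hk⟩ := R.isPGroup' ⟨g, by rw [h2]; trivial⟩
      exact ⟨k, by simpa [Subtype.ext_iff] using hk⟩
    haveI := hp.isNilpotent
    infer_instance
  · rw [h] at hc
    exact hR (Subgroup.isComplement'_top_left.1 hc)

theorem main {G : Type*} [Group G] [Finite G]
    (hS : ∀ H : Subgroup G, ¬ IsMulCommutative H → Subgroup.normalizer (H : Set G) = H) :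
    Group.IsSolvable G ∨ IsSimpleGroup G := by
  classical
  by_contra hcon
  push_neg at hcon
  obtain ⟨hns, hnsimple⟩ := hcon
  haveI : Nontrivial G := by
    by_contra h
    rw [not_nontrivial_iff_subsingleton] at h
    exact hns inferInstance
  have hab : ∀ N : Subgroup G, N.Normal → N ≠ ⊤ → ∀ a ∈ N, ∀ b ∈ N, a * b = b * a := by
    intro N hN hNt a ha b hb
    by_contra hne
    have hnc : ¬ IsMulCommutative N := fun h => hne (congrArg Subtype.val (h.is_comm.comm ⟨a, ha⟩ ⟨b, hb⟩))
    have h1 := hS N hnc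
    rw [Subgroup.normalizer_eq_top_iff.2 hN] at h1
    exact hNt h1.symm
  -- a proper non-trivial normal subgroup
  have hex : ∃ N0 : Subgroup G, N0.Normal ∧ N0 ≠ ⊥ ∧ N0 ≠ ⊤ := by
    by_contra h
    push_neg at h
    apply hnsimple
    refine ⟨fun H hH => ?_⟩
    by_cases hb : H = ⊥
    · exact Or.inl hb
    · exact Or.inr (h H hH hb)
  obtain ⟨N0, hN0n, hN0b, hN0t⟩ := hex
  obtain ⟨N, hN0N, hNmax⟩ := (Set.toFinite {M : Subgroup G | M.Normal ∧ M ≠ ⊤}).exists_le_maximal
    (a := N0) ⟨hN0n, hN0t⟩
  obtain ⟨⟨hNn, hNt⟩, hNmax'⟩ := hNmax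
  have hNb : N ≠ ⊥ := fun h => hN0b (by rw [eq_bot_iff, ← h]; exact hN0N)
  haveI := hNn
  have hmaxN : ∀ M : Subgroup G, M.Normal → M ≠ ⊤ → N ≤ M → M ≤ N := fun M hM hMt hNM => hNmax' ⟨hM, hMt⟩ hNM
  have hNab := hab N hNn hNt
  let f := QuotientGroup.mk' N
  have hf : Function.Surjective f := QuotientGroup.mk'_surjective N
  have hker : ∀ g : G, f g = 1 ↔ g ∈ N := fun g => QuotientGroup.eq_one_iff g
  have hgN : ∃ g : G, g ∉ N := by
    by_contra h0
    push_neg at h0
    exact hNt (eq_top_iff.2 (fun g _ => h0 g))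
  obtain ⟨g0, hg0⟩ := hgN
  haveI hQnt : Nontrivial (G ⧸ N) := ⟨⟨f g0, 1, fun h => hg0 ((hker g0).1 h)⟩⟩
  haveI hQs : IsSimpleGroup (G ⧸ N) := by
    refine ⟨fun T hT => ?_⟩
    by_cases hTt : T.comap f = ⊤
    · right
      rw [eq_top_iff]
      intro q _
      obtain ⟨g, rfl⟩ := hf q
      have : g ∈ T.comap f := hTt ▸ Subgroup.mem_top g
      exact this
    · left
      have hNT : N ≤ T.comap f := by
        intro n hn
        rw [Subgroup.mem_comap, (hker n).2 hn]
        exact T.one_mem
      have h1 := hmaxN (T.comap f) (hT.comap f) hTt hNT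
      rw [eq_bot_iff]
      intro q hq
      obtain ⟨g, rfl⟩ := hf q
      exact (hker g).2 (h1 hq)
  have hQns : ¬ Group.IsSolvable (G ⧸ N) := by
    intro hQ
    apply hns
    haveI : Group.IsSolvable N := Group.isSolvable_of_comm (fun a b => Subtype.ext (hNab a a.2 b b.2))
    apply Group.isSolvable_of_ker_le_range N.subtype f
    intro g hg
    exact ⟨⟨g, (hker g).1 hg⟩, rfl⟩
  -- Claim 1
  have hcl1 : ∀ x : G, (orderOf (f x)).Prime → ∀ n ∈ N, x * n = n * x := by
    intro x hx n hn
    by_contra hne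
    set r := orderOf (f x) with hr
    haveI : Fact r.Prime := ⟨hx⟩
    set K := N ⊔ Subgroup.zpowers x with hK
    have hKnc : ¬ IsMulCommutative K := by
      intro h
      have hxK : x ∈ K := (le_sup_right : Subgroup.zpowers x ≤ K) (Subgroup.mem_zpowers x)
      have hnK : n ∈ K := (le_sup_left : N ≤ K) hn
      exact hne (congrArg Subtype.val (h.is_comm.comm ⟨x, hxK⟩ ⟨n, hnK⟩))
    have hKn := hS K hKnc
    set Kb := Subgroup.zpowers (f x) with hKb
    have hcomap : ∀ g : G, g ∈ K ↔ f g ∈ Kb := by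
      intro g
      constructor
      · intro hg
        have h1 : K ≤ Kb.comap f := by
          apply sup_le
          · intro m hm
            rw [Subgroup.mem_comap, (hker m).2 hm]
            exact Kb.one_mem
          · rw [Subgroup.zpowers_le, Subgroup.mem_comap]
            exact Subgroup.mem_zpowers _
        exact h1 hg
      · intro hg
        obtain ⟨i, hi⟩ := Subgroup.mem_zpowers_iff.1 hg
        have h1 : f (x ^ i) = f g := by rw [map_zpow, hi]
        have h2 : (x ^ i)⁻¹ * g ∈ N := QuotientGroup.eq.1 h1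
        have h3 : g = x ^ i * ((x ^ i)⁻¹ * g) := by group
        rw [h3]
        exact K.mul_mem ((le_sup_right : Subgroup.zpowers x ≤ K) ⟨i, rfl⟩) ((le_sup_left : N ≤ K) h2)
    have hNKb : ∀ q ∈ Subgroup.normalizer (Kb : Set (G ⧸ N)), q ∈ Kb := by
      intro q hq
      obtain ⟨y, rfl⟩ := hf q
      have hy : y ∈ Subgroup.normalizer (K : Set G) := by
        rw [Subgroup.mem_normalizer_iff]
        intro h
        rw [hcomap h, hcomap (y * h * y⁻¹), map_mul, map_mul, map_inv]
        exact Subgroup.mem_normalizer_iff.1 hq (f h)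
      rw [hKn] at hy
      exact (hcomap y).1 hy
    have hKbp : IsPGroup r Kb := by
      rw [IsPGroup.iff_card, hKb, Nat.card_zpowers]
      exact ⟨1, (pow_one r).symm⟩
    obtain ⟨R, hR⟩ := hKbp.exists_le_sylow
    have hRK : (R : Subgroup (G ⧸ N)) = Kb := by
      by_contra hne2
      haveI : Group.IsNilpotent (R : Subgroup (G ⧸ N)) := R.isPGroup'.isNilpotent
      set X := Kb.subgroupOf (R : Subgroup (G ⧸ N)) with hX
      have hXtop : X < ⊤ := by
        apply lt_top_iff_ne_top.2
        intro h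
        apply hne2
        apply le_antisymm _ hR
        intro y hy
        have : (⟨y, hy⟩ : (R : Subgroup (G ⧸ N))) ∈ X := h ▸ Subgroup.mem_top _
        exact this
      obtain ⟨u, hu, huX⟩ := SetLike.exists_of_lt (normalizerCondition_of_isNilpotent X hXtop)
      have hu' : (u : G ⧸ N) ∈ Subgroup.normalizer (Kb : Set (G ⧸ N)) := by
        rw [Subgroup.mem_normalizer_iff]
        intro h
        constructor
        · intro hh
          have h1 : (⟨h, hR hh⟩ : (R : Subgroup (G ⧸ N))) ∈ X := hh
          have h2 := (Subgroup.mem_normalizer_iff.1 hu _).1 h1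
          exact h2
        · intro hh
          have hhR : h ∈ (R : Subgroup (G ⧸ N)) := by
            have h1 := hR hh
            have h2 := R.1.mul_mem (R.1.mul_mem (R.1.inv_mem u.2) h1) u.2
            simpa [mul_assoc] using h2
          have h1 : (⟨h, hhR⟩ : (R : Subgroup (G ⧸ N))) ∈ (X : Set (R : Subgroup (G ⧸ N))) :=
            (Subgroup.mem_normalizer_iff.1 hu _).2 hh
          exact h1
      exact huX (hNKb _ hu')
    have hxne : f x ≠ 1 := by
      intro h
      rw [h, orderOf_one] at hr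
      exact hx.one_lt.ne' hr
    refine burnside_simple hQns r R ?_ ?_
    · rw [hRK]
      intro h
      apply hxne
      have : f x ∈ Kb := Subgroup.mem_zpowers _
      rw [h] at this
      exact this
    · rw [hRK]
      intro q hq
      have h1 := hNKb q hq
      rw [Subgroup.mem_centralizer_iff]
      intro w hw
      obtain ⟨i, rfl⟩ := Subgroup.mem_zpowers_iff.1 h1
      obtain ⟨j, rfl⟩ := Subgroup.mem_zpowers_iff.1 hw
      exact (Commute.refl (f x)).zpow_zpow j i
  -- Claim 2
  have hcl2 : ∀ n ∈ N, n ∈ Subgroup.center G := by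
    set T := Subgroup.centralizer (N : Set G) with hT
    haveI hTn : T.Normal := inferInstance
    have hNT : N ≤ T := by
      intro n hn
      rw [hT, Subgroup.mem_centralizer_iff]
      intro m hm
      exact hNab m hm n hn
    have hTtop : T = ⊤ := by
      by_contra hne
      have hTN := hmaxN T hTn hne hNT
      have hfg0 : orderOf (f g0) ≠ 1 := by
        intro h
        exact hg0 ((hker g0).1 (orderOf_eq_one_iff.1 h))
      obtain ⟨r, hr, hrd⟩ := Nat.exists_prime_and_dvd hfg0
      have hord : orderOf ((f g0) ^ (orderOf (f g0) / r)) = r := orderOf_pow_orderOf_div (orderOf_pos _).ne' hrd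
      have hx : orderOf (f (g0 ^ (orderOf (f g0) / r))) = r := by rw [map_pow]; exact hord
      have h1 : g0 ^ (orderOf (f g0) / r) ∈ T := by
        rw [hT, Subgroup.mem_centralizer_iff]
        intro m hm
        exact (hcl1 _ (by rw [hx]; exact hr) m hm).symm
      have h2 := hTN h1
      have h3 : orderOf (f (g0 ^ (orderOf (f g0) / r))) = 1 := orderOf_eq_one_iff.2 ((hker _).2 h2)
      rw [hx] at h3
      exact hr.one_lt.ne' h3
    intro n hn
    rw [Subgroup.mem_center_iff]
    intro g
    have hg : g ∈ T := hTtop ▸ Subgroup.mem_top g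
    exact (Subgroup.mem_centralizer_iff.1 hg n hn).symm
  -- Claim 3
  have hperf : commutator G = ⊤ := by
    by_contra hne
    have hnorm : (commutator G).Normal := inferInstance
    have hcab := hab _ hnorm hne
    apply hns
    haveI : Group.IsSolvable (commutator G) := Group.isSolvable_of_comm (fun a b => Subtype.ext (hcab a a.2 b b.2))
    haveI : Group.IsSolvable (G ⧸ commutator G) := by
      apply Group.isSolvable_of_comm
      intro a b
      obtain ⟨u, rfl⟩ := QuotientGroup.mk_surjective a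
      obtain ⟨v, rfl⟩ := QuotientGroup.mk_surjective b
      rw [← QuotientGroup.mk_mul, ← QuotientGroup.mk_mul, QuotientGroup.eq]
      have h1 : (u * v)⁻¹ * (v * u) = v⁻¹ * u⁻¹ * (v⁻¹)⁻¹ * (u⁻¹)⁻¹ := by group
      rw [h1, ← commutatorElement_def]
      exact Subgroup.commutator_mem_commutator (Subgroup.mem_top _) (Subgroup.mem_top _)
    apply Group.isSolvable_of_ker_le_range (commutator G).subtype (QuotientGroup.mk' (commutator G))
    intro g hg
    exact ⟨⟨g, (QuotientGroup.eq_one_iff g).1 hg⟩, rfl⟩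
  -- Claim 4
  have hNcard : Nat.card N ≠ 1 := by
    intro h
    exact hNb (Subgroup.card_eq_one.1 h)
  obtain ⟨p, hp, hpN⟩ := Nat.exists_prime_and_dvd hNcard
  haveI : Fact p.Prime := ⟨hp⟩
  obtain ⟨z', hz'⟩ := exists_prime_orderOf_dvd_card' p hpN
  set z : G := (z' : G) with hzdef
  have hzN : z ∈ N := z'.2
  have hzord : orderOf z = p := by
    rw [hzdef, ← hz']; simp
  have hz1 : z ≠ 1 := by
    intro h
    rw [h, orderOf_one] at hzord
    exact hp.one_lt.ne hzord
  have hzc : z ∈ Subgroup.center G := hcl2 z hzN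
  obtain ⟨P⟩ : Nonempty (Sylow p G) := inferInstance
  have hzP : z ∈ (P : Subgroup G) := by
    have h2 : IsPGroup p (Subgroup.zpowers z) := by
      rw [IsPGroup.iff_card, Nat.card_zpowers, hzord]
      exact ⟨1, (pow_one p).symm⟩
    have h3 : (Subgroup.zpowers z).Normal := by
      refine ⟨?_⟩
      rintro _ ⟨m, rfl⟩ g
      have h4 : z ^ m ∈ Subgroup.center G := Subgroup.zpow_mem _ hzc m
      have h5 := Subgroup.mem_center_iff.1 h4 g
      show _ ∈ Subgroup.zpowers z
      rw [h5, mul_inv_cancel_right]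
      exact ⟨m, rfl⟩
    exact ((Cfsg.Agent.Lib.Core.Basic.le_pCore h3 h2).trans (Cfsg.Agent.Lib.Core.Basic.pCore_le_sylow P)) (Subgroup.mem_zpowers z)
  -- transfer
  have hzP' : (⟨z, hzP⟩ : (P : Subgroup G)) ∈ commutator (P : Subgroup G) := by
    let ϕ : (P : Subgroup G) →* Abelianization (P : Subgroup G) := Abelianization.of
    have h1 : MonoidHom.transfer ϕ z = 1 := by
      have h2 : z ∈ commutator G := hperf ▸ Subgroup.mem_top z
      exact commutator_le_ker' (MonoidHom.transfer ϕ) h2
    have h3 := MonoidHom.transfer_eq_pow ϕ z (fun k g₀ _ => by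
      have h4 : z ^ k ∈ Subgroup.center G := Subgroup.pow_mem _ hzc k
      have h5 := Subgroup.mem_center_iff.1 h4 g₀⁻¹
      rw [h5]
      group)
    rw [h1] at h3
    have h4 : (⟨z ^ (P : Subgroup G).index, Subgroup.pow_mem _ hzP _⟩ : (P : Subgroup G)) ∈ commutator (P : Subgroup G) := by
      have h5 := h3.symm
      exact (QuotientGroup.eq_one_iff _).1 h5
    have hcop : (Nat.Coprime p (P : Subgroup G).index) :=
      (Nat.Prime.coprime_iff_not_dvd hp).2 P.not_dvd_index
    have hb : IsCoprime ((P : Subgroup G).index : ℤ) (p : ℤ) :=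
      Nat.isCoprime_iff_coprime.2 hcop.symm
    obtain ⟨u, v, huv⟩ := hb
    have h5 : (⟨z, hzP⟩ : (P : Subgroup G)) = (⟨z ^ (P : Subgroup G).index, Subgroup.pow_mem _ hzP _⟩ : (P : Subgroup G)) ^ u := by
      apply Subtype.ext
      simp only [Subgroup.coe_zpow]
      rw [← zpow_natCast, ← zpow_mul]
      have h6 : z ^ (((P : Subgroup G).index : ℤ) * u) = z ^ (1 - v * (p : ℤ)) := by
        congr 1
        linarith
      rw [h6, sub_eq_add_neg, zpow_add, zpow_one, zpow_neg, mul_comm v, zpow_mul, zpow_natCast, ← hzord,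
        pow_orderOf_eq_one, one_zpow, inv_one, mul_one]
    rw [h5]
    exact Subgroup.zpow_mem _ h4 u
  -- P is not abelian
  have hPnc : ¬ IsMulCommutative (P : Subgroup G) := by
    intro h
    have h1 : commutator (P : Subgroup G) = ⊥ := by
      rw [eq_bot_iff, commutator_def, Subgroup.commutator_le]
      intro a _ b _
      rw [Subgroup.mem_bot, commutatorElement_def, mul_inv_eq_one, mul_inv_eq_iff_eq_mul]
      exact h.is_comm.comm a b
    rw [h1] at hzP'
    apply hz1
    have := Subgroup.mem_bot.1 hzP'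
    exact congrArg Subtype.val this
  have hPn := hS P hPnc
  have hNP : N ≤ (P : Subgroup G) := by
    intro n hn
    rw [← hPn]
    have hc := hcl2 n hn
    rw [Subgroup.mem_normalizer_iff]
    intro h
    rw [← Subgroup.mem_center_iff.1 hc h, mul_inv_cancel_right]
  -- minimality
  have hPmin : ∀ Q : Subgroup (P : Subgroup G), Q ≠ ⊤ → ∀ a ∈ Q, ∀ b ∈ Q, a * b = b * a := by
    intro Q hQ a ha b hb
    by_contra hne
    have hQ' : ¬ IsMulCommutative (Q.map (P : Subgroup G).subtype) := by
      intro h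
      apply hne
      have h1 := h.is_comm.comm ⟨a, a, ha, rfl⟩ ⟨b, b, hb, rfl⟩
      apply Subtype.ext
      exact congrArg (fun w : ↥(Q.map (P : Subgroup G).subtype) => (w : G)) h1
    have h1 := hS _ hQ'
    haveI : Group.IsNilpotent (P : Subgroup G) := P.isPGroup'.isNilpotent
    obtain ⟨u, hu, huQ⟩ := SetLike.exists_of_lt (normalizerCondition_of_isNilpotent Q (lt_top_iff_ne_top.2 hQ))
    have hu' : (u : G) ∈ Subgroup.normalizer ((Q.map (P : Subgroup G).subtype : Subgroup G) : Set G) := by
      rw [Subgroup.mem_normalizer_iff]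
      intro h
      constructor
      · rintro ⟨w, hw, rfl⟩
        exact ⟨u * w * u⁻¹, (Subgroup.mem_normalizer_iff.1 hu w).1 hw, rfl⟩
      · rintro ⟨w, hw, hwh⟩
        have hhP : h ∈ (P : Subgroup G) := by
          have h2 : h = (u : G)⁻¹ * (w : G) * u := by
            have h3 : (w : G) = u * h * (u : G)⁻¹ := hwh
            rw [h3]; group
          rw [h2]
          exact P.1.mul_mem (P.1.mul_mem (P.1.inv_mem u.2) w.2) u.2
        refine ⟨⟨h, hhP⟩, ?_, rfl⟩
        have h3 : w = u * ⟨h, hhP⟩ * u⁻¹ := Subtype.ext hwh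
        exact (Subgroup.mem_normalizer_iff.1 hu _).2 (h3 ▸ hw)
    rw [h1] at hu'
    obtain ⟨w, hw, hwu⟩ := hu'
    have : w = u := Subtype.ext hwu
    exact huQ (this ▸ hw)
  obtain ⟨a, b, hab'⟩ : ∃ a b : (P : Subgroup G), a * b ≠ b * a := by
    by_contra hcon
    push_neg at hcon
    exact hPnc ⟨⟨hcon⟩⟩
  obtain ⟨c, hc1, hcp, hcc⟩ := min_nonab P.isPGroup' a b hab' hPmin
  -- P' ≤ zpowers c, z generates it
  have hcomm_le : commutator (P : Subgroup G) ≤ Subgroup.zpowers c := by
    rw [commutator_def, Subgroup.commutator_le]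
    intro u _ v _
    rw [commutatorElement_def]
    exact hcc u v
  obtain ⟨i, hi⟩ := Subgroup.mem_zpowers_iff.1 (hcomm_le hzP')
  have hcz : c ∈ Subgroup.zpowers (⟨z, hzP⟩ : (P : Subgroup G)) := by
    have hordc : orderOf c = p := orderOf_eq_prime hcp hc1
    have hpi : ¬ (p : ℤ) ∣ i := by
      rintro ⟨t, rfl⟩
      apply hz1
      have h1 : c ^ ((p : ℤ) * t) = 1 := by
        rw [zpow_mul, zpow_natCast, hcp, one_zpow]
      rw [h1] at hi
      exact (congrArg Subtype.val hi).symm
    have hb : IsCoprime i (p : ℤ) := by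
      rw [isCoprime_comm]
      exact (Nat.prime_iff_prime_int.1 hp).coprime_iff_not_dvd.2 hpi
    obtain ⟨u, v, huv⟩ := hb
    refine Subgroup.mem_zpowers_iff.2 ⟨u, ?_⟩
    rw [← hi, ← zpow_mul]
    have h6 : c ^ (i * u) = c ^ (1 - v * (p : ℤ)) := by
      congr 1
      linarith
    rw [h6, sub_eq_add_neg, zpow_add, zpow_one, zpow_neg, mul_comm v, zpow_mul, zpow_natCast, hcp, one_zpow,
      inv_one, mul_one]
  have hcommN : ∀ u ∈ (P : Subgroup G), ∀ v ∈ (P : Subgroup G), u * v * u⁻¹ * v⁻¹ ∈ N := by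
    intro u hu v hv
    have h1 := hcc ⟨u, hu⟩ ⟨v, hv⟩
    obtain ⟨j, hj⟩ := Subgroup.mem_zpowers_iff.1 h1
    obtain ⟨l, hl⟩ := Subgroup.mem_zpowers_iff.1 hcz
    have h2 : u * v * u⁻¹ * v⁻¹ = ((⟨u, hu⟩ : (P : Subgroup G)) * ⟨v, hv⟩ * ⟨u, hu⟩⁻¹ * ⟨v, hv⟩⁻¹ : (P : Subgroup G)) := rfl
    rw [h2, ← hj, ← hl]
    simp only [Subgroup.coe_zpow]
    exact N.zpow_mem (N.zpow_mem hzN l) j
  -- The final contradiction
  let R : Sylow p (G ⧸ N) := P.mapSurjective hf
  have hRc : (R : Subgroup (G ⧸ N)) = (P : Subgroup G).map f := rfl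
  have hPmem : ∀ g : G, g ∈ (P : Subgroup G) ↔ f g ∈ (R : Subgroup (G ⧸ N)) := by
    intro g
    rw [hRc]
    constructor
    · intro hg
      exact ⟨g, hg, rfl⟩
    · rintro ⟨h, hh, hhg⟩
      have h1 : h⁻¹ * g ∈ N := QuotientGroup.eq.1 hhg
      have h2 : g = h * (h⁻¹ * g) := by group
      rw [h2]
      exact P.1.mul_mem hh (hNP h1)
  refine burnside_simple hQns p R ?_ ?_
  · intro hbot
    apply hPnc
    refine ⟨⟨fun u v => ?_⟩⟩
    have hu : (u : G) ∈ N := by
      rw [← hker]
      have h1 := (hPmem u).1 u.2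
      rw [hbot] at h1
      exact h1
    have hv : (v : G) ∈ N := by
      rw [← hker]
      have h1 := (hPmem v).1 v.2
      rw [hbot] at h1
      exact h1
    exact Subtype.ext (hNab u hu v hv)
  · intro q hq
    obtain ⟨y, rfl⟩ := hf q
    have hy : y ∈ Subgroup.normalizer ((P : Subgroup G) : Set G) := by
      rw [Subgroup.mem_normalizer_iff]
      intro h
      rw [hPmem h, hPmem (y * h * y⁻¹), map_mul, map_mul, map_inv]
      exact Subgroup.mem_normalizer_iff.1 hq (f h)
    rw [hPn] at hy
    rw [Subgroup.mem_centralizer_iff]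
    intro w hw
    obtain ⟨w', rfl⟩ := hf w
    have hw' : w' ∈ (P : Subgroup G) := (hPmem w').2 hw
    have h1 := hcommN w' hw' y hy
    have h2 : f (w' * y * w'⁻¹ * y⁻¹) = 1 := (hker _).2 h1
    simp only [map_mul, map_inv] at h2
    rw [mul_inv_eq_one, mul_inv_eq_iff_eq_mul] at h2
    exact h2



/-- A finite group in which every non-abelian subgroup is self-normalizing is solvable or simple. -/
theorem result {G : Type*} [Group G] [Finite G] (hS : ∀ H : Subgroup G, ¬ IsMulCommutative H → Subgroup.normalizer (H : Set G) = H) :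
    Group.IsSolvable G ∨ IsSimpleGroup G := by
  exact main hS

end Cfsg.Agent.S4072
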