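import Cfsg.Statements.S4074
import Mathlib
-- import your own Cfsg.Agent.* helpers here

set_option autoImplicit false
open Cfsg

namespace Cfsg.Agent.S4074


open DihedralGroup in
theorem comm_cover : ∀ x y z : DihedralGroup 4, x * y ≠ y * x →
    (z = 1 ∨ z = x ∨ z = y ∨ z = x * y ∨ z = y * x ∨ z = x * x ∨ z = y * y ∨ z = x * y * x ∨ z = y * x * y ∨ z = x * x * y ∨ z = y * y * x ∨ z = x * y * x * y) := by
  decide


/-- For n > 2, every non-abelian subgroup of the dihedral group of order 2n is self-normalizing if and only if n = 4 or n is odd. -/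
theorem result (n : ℕ) (hn : 2 < n) :
    (∀ H : Subgroup (DihedralGroup n), ¬ IsMulCommutative H → Subgroup.normalizer (H : Set (DihedralGroup n)) = H) ↔
    (n = 4 ∨ Odd n) := by
  classical
  constructor
  · intro h
    by_contra hcon
    push_neg at hcon
    obtain ⟨hn4, hnodd⟩ := hcon
    have heven : Even n := Nat.not_odd_iff_even.1 hnodd
    have h2n : 2 ∣ n := heven.two_dvd
    haveI : NeZero n := ⟨by omega⟩
    let c : ZMod n →+* ZMod 2 := ZMod.castHom h2n (ZMod 2)
    let f : DihedralGroup n → Multiplicative (ZMod 2) := fun g =>
      match g with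
      | DihedralGroup.r i => Multiplicative.ofAdd (c i)
      | DihedralGroup.sr i => Multiplicative.ofAdd (c i)
    have hf : ∀ a b, f (a * b) = f a * f b := by
      intro a b
      cases a with
      | r i =>
        cases b with
        | r j => simp only [f, DihedralGroup.r_mul_r, map_add, ofAdd_add]
        | sr j =>
          simp only [f, DihedralGroup.r_mul_sr, map_sub, ← ofAdd_add]
          congr 1
          rw [CharTwo.sub_eq_add, add_comm]
      | sr i =>
        cases b with
        | r j => simp only [f, DihedralGroup.sr_mul_r, map_add, ofAdd_add]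
        | sr j =>
          simp only [f, DihedralGroup.sr_mul_sr, map_sub, ← ofAdd_add]
          congr 1
          rw [CharTwo.sub_eq_add, add_comm]
    let φ : DihedralGroup n →* Multiplicative (ZMod 2) := MonoidHom.mk' f hf
    have hnorm : φ.ker.Normal := MonoidHom.normal_ker φ
    have hr2 : (DihedralGroup.r (2 : ZMod n)) ∈ φ.ker := by
      rw [MonoidHom.mem_ker]
      have h0 : f (DihedralGroup.r (2 : ZMod n)) = 1 := by
        simp only [f, map_ofNat]
        rfl
      exact h0
    have hs0 : (DihedralGroup.sr (0 : ZMod n)) ∈ φ.ker := by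
      rw [MonoidHom.mem_ker]
      have h0 : f (DihedralGroup.sr (0 : ZMod n)) = 1 := by
        simp only [f, map_zero]
        rfl
      exact h0
    have hnc : ¬ IsMulCommutative φ.ker := by
      intro hcomm
      have h1 := hcomm.is_comm.comm ⟨_, hr2⟩ ⟨_, hs0⟩
      have h2 := congrArg Subtype.val h1
      simp only [Subgroup.coe_mul, DihedralGroup.r_mul_sr, DihedralGroup.sr_mul_r] at h2
      have h3 : (0 : ZMod n) - 2 = 0 + 2 := DihedralGroup.sr.inj h2
      have h4 : (4 : ZMod n) = 0 := by
        linear_combination -h3
      have h5 : n ∣ 4 := by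
        have := (ZMod.natCast_eq_zero_iff 4 n).1 (by exact_mod_cast h4)
        exact this
      have h6 : n ≤ 4 := Nat.le_of_dvd (by norm_num) h5
      obtain ⟨m, hm⟩ := heven
      interval_cases n <;> omega
    have h1 := h φ.ker hnc
    have h2 : Subgroup.normalizer (φ.ker : Set (DihedralGroup n)) = ⊤ := Subgroup.normalizer_eq_top _
    have h3 : φ.ker = ⊤ := by rw [← h1, h2]
    have h4 : (DihedralGroup.r (1 : ZMod n)) ∈ φ.ker := by rw [h3]; trivial
    rw [MonoidHom.mem_ker] at h4
    have h5 : f (DihedralGroup.r (1 : ZMod n)) = 1 := h4
    simp only [f, map_one] at h5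
    exact absurd h5 (by decide)
  · rintro (rfl | hodd) H hH
    · have hT : H = ⊤ := by
        have : ∃ x ∈ H, ∃ y ∈ H, x * y ≠ y * x := by
          by_contra hne
          push_neg at hne
          exact hH ⟨⟨fun a b => Subtype.ext (hne a a.2 b b.2)⟩⟩
        obtain ⟨x, hx, y, hy, hxy⟩ := this
        rw [eq_top_iff]
        intro z _
        rcases comm_cover x y z hxy with h | h | h | h | h | h | h | h | h | h | h | h <;> subst h
        · exact H.one_mem
        · exact hx
        · exact hy
        · exact H.mul_mem hx hy
        · exact H.mul_mem hy hx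
        · exact H.mul_mem hx hx
        · exact H.mul_mem hy hy
        · exact H.mul_mem (H.mul_mem hx hy) hx
        · exact H.mul_mem (H.mul_mem hy hx) hy
        · exact H.mul_mem (H.mul_mem hx hx) hy
        · exact H.mul_mem (H.mul_mem hy hy) hx
        · exact H.mul_mem (H.mul_mem (H.mul_mem hx hy) hx) hy
      subst hT
      exact Subgroup.normalizer_eq_top (⊤ : Subgroup (DihedralGroup 4))
    · -- n odd
      apply le_antisymm _ Subgroup.le_normalizer
      obtain ⟨m, hm⟩ := hodd
      have hs : ∃ j, DihedralGroup.sr j ∈ H := by
        by_contra hne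
        push_neg at hne
        apply hH
        refine ⟨⟨fun a b => Subtype.ext ?_⟩⟩
        obtain ⟨a, ha⟩ := a
        obtain ⟨b, hb⟩ := b
        cases a with
        | sr i => exact absurd ha (hne i)
        | r i =>
          cases b with
          | sr i => exact absurd hb (hne i)
          | r j =>
            simp only [Subgroup.coe_mul, DihedralGroup.r_mul_r, add_comm]
      obtain ⟨j, hj⟩ := hs
      have hdouble : ∀ t : ZMod n, DihedralGroup.r (2 * t) ∈ H → DihedralGroup.r t ∈ H := by
        intro t ht
        have h1 := H.pow_mem ht (m + 1)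
        rw [DihedralGroup.r_pow] at h1
        have h2 : (2 * t) * ((m + 1 : ℕ) : ZMod n) = t := by
          have h3 : ((2 * m + 1 : ℕ) : ZMod n) = 0 := by
            rw [← hm]; exact ZMod.natCast_self n
          push_cast at h3 ⊢
          linear_combination t * h3
        rwa [show ((2 * t) * ((m + 1 : ℕ) : ZMod n)) = t from h2] at h1
      intro g hg
      have hg' : ∀ x, x ∈ H ↔ g * x * g⁻¹ ∈ H := by
        intro x
        have := Subgroup.mem_normalizer_iff.1 hg x
        simpa using this
      have hconj := (hg' (DihedralGroup.sr j)).1 hj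
      show g ∈ H
      cases g with
      | r t =>
        rw [DihedralGroup.inv_r] at hconj
        simp only [DihedralGroup.r_mul_sr, DihedralGroup.sr_mul_r] at hconj
        have h2 := H.mul_mem hconj hj
        simp only [DihedralGroup.sr_mul_sr] at h2
        apply hdouble
        convert h2 using 2
        ring
      | sr t =>
        rw [DihedralGroup.inv_sr] at hconj
        simp only [DihedralGroup.r_mul_sr, DihedralGroup.sr_mul_sr] at hconj
        have h2 := H.mul_mem hconj hj
        simp only [DihedralGroup.sr_mul_sr] at h2
        have h3 : DihedralGroup.r (j - t) ∈ H := by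
          apply hdouble
          convert h2 using 2
          ring
        have h4 := H.mul_mem h3 hj
        simp only [DihedralGroup.r_mul_sr] at h4
        convert h4 using 2
        ring

end Cfsg.Agent.S4074
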