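import Cfsg.Statements.S4075
import Mathlib
-- import your own Cfsg.Agent.* helpers here

set_option autoImplicit false
open Cfsg

namespace Cfsg.Agent.S4075




/-- Let G be a finite nilpotent group. Every non-abelian subgroup of G is self-normalizing if and only if G is abelian or G is a minimal non-abelian p-group for some prime p (non-abelian of prime-power order with every proper subgroup abelian). -/
theorem result {G : Type*} [Group G] [Finite G]
    [Group.IsNilpotent G] :
    (∀ H : Subgroup G, ¬ IsMulCommutative H → Subgroup.normalizer (H : Set G) = H) ↔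
    (IsMulCommutative G ∨ (IsPrimePow (Nat.card G) ∧ ¬ IsMulCommutative G ∧ ∀ H : Subgroup G, H ≠ ⊤ → IsMulCommutative H)) := by
  classical
  constructor
  · intro h
    by_cases hab : IsMulCommutative G
    · exact Or.inl hab
    · right
      have hmin : ∀ H : Subgroup G, H ≠ ⊤ → IsMulCommutative H := by
        intro H hH
        by_contra hc
        have h1 := h H hc
        have h2 := normalizerCondition_of_isNilpotent (G := G) H (lt_top_iff_ne_top.2 hH)
        rw [h1] at h2
        exact lt_irrefl _ h2
      refine ⟨?_, hab, hmin⟩
      by_cases hex : ∃ (p : ℕ) (_ : Fact p.Prime) (P : Sylow p G), (P : Subgroup G) = ⊤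
      · obtain ⟨p, hp, P, hP⟩ := hex
        have hPG : IsPGroup p G := by
          intro g
          obtain ⟨k, hk⟩ := P.isPGroup' ⟨g, by rw [hP]; trivial⟩
          exact ⟨k, by simpa [Subtype.ext_iff] using hk⟩
        obtain ⟨n, hn⟩ := IsPGroup.iff_card.1 hPG
        have hn0 : n ≠ 0 := by
          rintro rfl
          apply hab
          have h1 : Nat.card G = 1 := by simpa using hn
          have hs := (Nat.card_eq_one_iff_unique.1 h1).1
          exact ⟨⟨fun a b => Subsingleton.elim _ _⟩⟩
        rw [hn]
        exact (isPrimePow_nat_iff _).2 ⟨p, n, hp.out, Nat.pos_of_ne_zero hn0, rfl⟩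
      · exfalso
        push_neg at hex
        apply hab
        -- all Sylows proper so abelian; G is their direct product
        obtain ⟨e⟩ := (Group.isNilpotent_of_finite_tfae (G := G)).out 0 4 |>.1 ‹_›
        refine ⟨⟨fun x y => ?_⟩⟩
        have hc : e.symm x * e.symm y = e.symm y * e.symm x := by
          funext p P
          have hP : (P : Subgroup G) ≠ ⊤ := hex p ⟨(Nat.mem_primeFactors.1 p.2).1⟩ P
          have := hmin _ hP
          exact this.is_comm.comm _ _
        have := congrArg e hc
        simpa using this
  · rintro (hab | ⟨_, _, hmin⟩) H hH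
    · exfalso
      exact hH inferInstance
    · have hT : H = ⊤ := by
        by_contra hne
        exact hH (hmin H hne)
      subst hT
      exact Subgroup.normalizer_eq_top (H := (⊤ : Subgroup G))

end Cfsg.Agent.S4075
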