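import Cfsg.Statements.S4080
import Mathlib
import Cfsg.Agent.Lib.GL2.Unipotent
-- import your own Cfsg.Agent.* helpers here

set_option autoImplicit false
open Cfsg

namespace Cfsg.Agent.S4080

open Matrix

theorem ring_key {R : Type*} [Ring R] {p : ℕ} (hp : p.Prime) (hp5 : 5 ≤ p) (M Q : R)
    (hp2 : (p : R) ^ 2 = 0) (hM2 : M ^ 2 = (p : R) * Q) (hpow : (M + 1) ^ p = 1) :
    M * (p : R) = 0 := by
  have hcomm : Commute M 1 := Commute.one_right M
  have hexp := hcomm.add_pow p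
  have hcast : ∀ y : R, (p : R) * y = y * p := fun y => (Nat.cast_commute p y)
  have hpp : ∀ y : R, (p : R) * (y * (p : R)) = 0 := by
    intro y
    rw [← hcast y, ← mul_assoc, ← pow_two, hp2, zero_mul]
  have hM4 : M ^ 4 = 0 := by
    have : M ^ 4 = (M ^ 2) * (M ^ 2) := by rw [← pow_add]
    rw [this, hM2, mul_assoc, ← mul_assoc Q, ← hcast Q, mul_assoc (p : R) Q Q, ← mul_assoc,
      ← pow_two, hp2, zero_mul]
  have hterm : ∀ m ∈ Finset.range (p + 1), m ≠ 0 ∧ m ≠ 1 →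
      M ^ m * 1 ^ (p - m) * (p.choose m : R) = 0 := by
    intro m hm h01
    have hmle : m ≤ p := Nat.lt_succ_iff.1 (Finset.mem_range.1 hm)
    rcases eq_or_lt_of_le hmle with rfl | hlt
    · have : M ^ m = M ^ 4 * M ^ (m - 4) := by
        rw [← pow_add]; congr; omega
      rw [this, hM4]; simp
    · obtain ⟨c, hc⟩ := hp.dvd_choose_self h01.1 hlt
      have : M ^ m = M ^ 2 * M ^ (m - 2) := by
        rw [← pow_add]; congr; omega
      rw [one_pow, mul_one, hc, this, hM2]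
      push_cast
      calc (p : R) * Q * M ^ (m - 2) * ((p : R) * (c : R))
          = (p : R) * ((Q * M ^ (m - 2)) * (p : R)) * (c : R) := by
              simp only [mul_assoc]
        _ = 0 := by rw [hpp, zero_mul]
  rw [Finset.sum_eq_add 0 1 (by norm_num) hterm (by simp) (by
    intro h
    exfalso; apply h; simp; omega)] at hexp
  simp only [pow_zero, one_pow, mul_one, Nat.choose_zero_right, Nat.cast_one, pow_one,
    Nat.choose_one_right, Nat.sub_zero] at hexp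
  rw [hpow] at hexp
  exact (left_eq_add.1 hexp)

theorem zmod_sq_dvd {p : ℕ} [hp : Fact p.Prime] (x : ZMod (p ^ 2))
    (h : ((ZMod.castHom (dvd_pow_self p two_ne_zero) (ZMod p)) x) = 0) :
    ∃ c : ZMod (p ^ 2), x = (p : ZMod (p ^ 2)) * c := by
  haveI : NeZero (p ^ 2) := ⟨pow_ne_zero _ hp.out.ne_zero⟩
  have h1 : x = ((x.val : ℕ) : ZMod (p ^ 2)) := (ZMod.natCast_zmod_val x).symm
  rw [h1, map_natCast, ZMod.natCast_eq_zero_iff] at h
  obtain ⟨c, hc⟩ := h
  refine ⟨(c : ZMod (p ^ 2)), ?_⟩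
  rw [h1, hc]
  push_cast
  rfl

theorem zmod_sq_dvd' {p : ℕ} [hp : Fact p.Prime] (x : ZMod (p ^ 2))
    (h : (p : ZMod (p ^ 2)) * x = 0) :
    ∃ c : ZMod (p ^ 2), x = (p : ZMod (p ^ 2)) * c := by
  haveI : NeZero (p ^ 2) := ⟨pow_ne_zero _ hp.out.ne_zero⟩
  have h1 : x = ((x.val : ℕ) : ZMod (p ^ 2)) := (ZMod.natCast_zmod_val x).symm
  rw [h1, ← Nat.cast_mul, ZMod.natCast_eq_zero_iff] at h
  have h' : p * p ∣ p * x.val := by
    have e : p * p = p ^ 2 := (pow_two p).symm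
    rw [e]; exact h
  have hd : p ∣ x.val := Nat.dvd_of_mul_dvd_mul_left hp.out.pos h'
  obtain ⟨c, hc⟩ := hd
  refine ⟨(c : ZMod (p ^ 2)), ?_⟩
  rw [h1, hc]
  push_cast
  rfl

theorem matrix_key {p : ℕ} [hp : Fact p.Prime] (hp5 : 5 ≤ p)
    (A : Matrix (Fin 2) (Fin 2) (ZMod (p ^ 2))) (hA : A ^ p = 1) :
    (A - 1) * (p : Matrix (Fin 2) (Fin 2) (ZMod (p ^ 2))) = 0 := by
  classical
  set ρ := ZMod.castHom (dvd_pow_self p two_ne_zero) (ZMod p) with hρ
  have h1 : ((ρ.mapMatrix A)) ^ p = 1 := by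
    rw [← map_pow, hA, map_one]
  have h2 := Cfsg.Agent.Lib.GL2.Unipotent.sq_sub_one_eq_zero_of_pow (p := p) h1
  have h3 : ρ.mapMatrix ((A - 1) ^ 2) = 0 := by
    rw [map_pow, map_sub, map_one, h2]
  have h4 : ∀ i j, ∃ c : ZMod (p ^ 2), ((A - 1) ^ 2 : Matrix (Fin 2) (Fin 2) (ZMod (p ^ 2))) i j = (p : ZMod (p ^ 2)) * c := by
    intro i j
    apply zmod_sq_dvd
    have := congrFun (congrFun h3 i) j
    exact this
  choose Q hQ using h4
  refine ring_key hp.out hp5 (A - 1) (Matrix.of Q) ?_ ?_ ?_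
  · have : CharP (Matrix (Fin 2) (Fin 2) (ZMod (p ^ 2))) (p ^ 2) := Matrix.charP (p ^ 2)
    rw [← Nat.cast_pow]
    exact CharP.cast_eq_zero _ _
  · ext i j
    rw [hQ i j]
    have e : ((p : Matrix (Fin 2) (Fin 2) (ZMod (p ^ 2))) * Matrix.of Q) = p • Matrix.of Q :=
      (nsmul_eq_mul p _).symm
    rw [e, Matrix.smul_apply, Matrix.of_apply, nsmul_eq_mul]
  · rw [sub_add_cancel, hA]

theorem coord_eq {p : ℕ} [hp : Fact p.Prime] (f : ZMod (p ^ 2) × ZMod (p ^ 2) →+ ZMod (p ^ 2) × ZMod (p ^ 2))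
    (y : ZMod (p ^ 2) × ZMod (p ^ 2)) :
    f y = ((f (1, 0)).1 * y.1 + (f (0, 1)).1 * y.2, (f (1, 0)).2 * y.1 + (f (0, 1)).2 * y.2) := by
  haveI : NeZero (p ^ 2) := ⟨pow_ne_zero _ hp.out.ne_zero⟩
  have h0 : y = y.1.val • ((1 : ZMod (p ^ 2)), (0 : ZMod (p ^ 2))) + y.2.val • ((0 : ZMod (p ^ 2)), (1 : ZMod (p ^ 2))) := by
    ext <;> simp
  conv_lhs => rw [h0]
  rw [map_add, map_nsmul, map_nsmul]
  ext <;> simp [mul_comm]



/-- Let p > 3 be a prime and L the direct product of two cyclic groups of order p². Every automorphism of L of order p fixes every element of order p of L. -/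
theorem result {p : ℕ} [Fact p.Prime] (hp : 3 < p)
    (a : MulAut (Multiplicative (ZMod (p ^ 2) × ZMod (p ^ 2)))) (ha : orderOf a = p)
    (x : Multiplicative (ZMod (p ^ 2) × ZMod (p ^ 2))) (hx : orderOf x = p) : a x = x := by
  classical
  have hp5 : 5 ≤ p := by
    have hpp := (Fact.out : p.Prime)
    by_contra h
    have : p = 4 := by omega
    subst this
    exact absurd hpp (by norm_num)
  -- additive version of `a`
  let F : ℕ → (ZMod (p ^ 2) × ZMod (p ^ 2) →+ ZMod (p ^ 2) × ZMod (p ^ 2)) := fun k =>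
    AddMonoidHom.toMultiplicative.symm ((a ^ k).toMonoidHom)
  have hF : ∀ k (y : ZMod (p ^ 2) × ZMod (p ^ 2)),
      F k y = Multiplicative.toAdd ((a ^ k) (Multiplicative.ofAdd y)) :=
    fun _ _ => rfl
  set A : Matrix (Fin 2) (Fin 2) (ZMod (p ^ 2)) :=
    !![(F 1 (1, 0)).1, (F 1 (0, 1)).1; (F 1 (1, 0)).2, (F 1 (0, 1)).2] with hA
  have hAv : ∀ y : ZMod (p ^ 2) × ZMod (p ^ 2), A *ᵥ ![y.1, y.2] = ![(F 1 y).1, (F 1 y).2] := by
    intro y
    rw [coord_eq (F 1) y, hA]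
    ext i
    fin_cases i <;> simp [Matrix.mulVec, dotProduct, Fin.sum_univ_two]
  have hFsucc : ∀ k y, F (k + 1) y = F 1 (F k y) := by
    intro k y
    rw [hF, hF, hF, pow_succ' a k, pow_one]
    rfl
  have hAk : ∀ k (y : ZMod (p ^ 2) × ZMod (p ^ 2)),
      (A ^ k) *ᵥ ![y.1, y.2] = ![(F k y).1, (F k y).2] := by
    intro k
    induction k with
    | zero =>
      intro y
      simp [F]
    | succ k ih =>
      intro y
      rw [pow_succ' A k, ← Matrix.mulVec_mulVec, ih, hAv, hFsucc k y]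
  have hap : a ^ p = 1 := by
    have := pow_orderOf_eq_one a
    rwa [ha] at this
  have hAp : A ^ p = 1 := by
    rw [Matrix.ext_iff_mulVec]
    intro v
    have h1 := hAk p (v 0, v 1)
    have h2 : F p (v 0, v 1) = (v 0, v 1) := by
      rw [hF, hap]; rfl
    have hv : ![v 0, v 1] = v := by
      ext i; fin_cases i <;> simp
    simp only [h2] at h1
    rw [hv] at h1
    rw [h1, Matrix.one_mulVec]
  have hkey := matrix_key hp5 A hAp
  -- p-multiples are fixed
  have hfix : ∀ y : ZMod (p ^ 2) × ZMod (p ^ 2), F 1 (p • y) = p • y := by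
    intro y
    have h1 : (A - 1) *ᵥ ((p : Matrix (Fin 2) (Fin 2) (ZMod (p ^ 2))) *ᵥ ![y.1, y.2]) = 0 := by
      rw [Matrix.mulVec_mulVec, hkey, Matrix.zero_mulVec]
    have hpm : (p : Matrix (Fin 2) (Fin 2) (ZMod (p ^ 2))) = p • (1 : Matrix (Fin 2) (Fin 2) (ZMod (p ^ 2))) := by
      rw [nsmul_eq_mul, mul_one]
    have h2 : ((p : Matrix (Fin 2) (Fin 2) (ZMod (p ^ 2))) *ᵥ ![y.1, y.2]) = ![(p • y).1, (p • y).2] := by
      rw [hpm, Matrix.smul_mulVec, Matrix.one_mulVec]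
      ext i; fin_cases i <;> simp
    rw [h2, Matrix.sub_mulVec, Matrix.one_mulVec, hAv, sub_eq_zero] at h1
    have h3 := congrFun h1 0
    have h4 := congrFun h1 1
    simp only [Matrix.cons_val_zero, Matrix.cons_val_one] at h3 h4
    exact Prod.ext h3 h4
  have hxp : x ^ p = 1 := by
    have := pow_orderOf_eq_one x
    rwa [hx] at this
  have hx' : p • (Multiplicative.toAdd x) = 0 := by
    have := congrArg Multiplicative.toAdd hxp
    simpa using this
  have hc1 : (p : ZMod (p ^ 2)) * (Multiplicative.toAdd x).1 = 0 := by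
    have := congrArg Prod.fst hx'
    simpa [nsmul_eq_mul] using this
  have hc2 : (p : ZMod (p ^ 2)) * (Multiplicative.toAdd x).2 = 0 := by
    have := congrArg Prod.snd hx'
    simpa [nsmul_eq_mul] using this
  obtain ⟨c1, h1⟩ := zmod_sq_dvd' _ hc1
  obtain ⟨c2, h2⟩ := zmod_sq_dvd' _ hc2
  have hxe : Multiplicative.toAdd x = p • (c1, c2) := by
    apply Prod.ext
    · simpa [nsmul_eq_mul] using h1
    · simpa [nsmul_eq_mul] using h2
  have := hfix (c1, c2)
  rw [← hxe, hF, pow_one] at this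
  exact this

end Cfsg.Agent.S4080
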