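import Cfsg.Statements.S4082
import Mathlib
import Cfsg.Agent.Lib.TwoGroups.Present
import Cfsg.Agent.Lib.Coprime.Action
import Cfsg.Agent.Lib.Frobenius.Basic
import Cfsg.Agent.Lib.PGroups.NormalRankTwo
-- import your own Cfsg.Agent.* helpers here

set_option autoImplicit false
open Cfsg

namespace Cfsg.Agent.S4082

open Cfsg.Agent.Lib.TwoGroups.Present
open scoped Pointwise

section Aux

variable {G : Type*} [Group G]

/-- A normal `p`-subgroup with cyclic quotient gives the hypothesis for all Sylow subgroups. -/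
theorem sylow_conditions {H : Type*} [Group H] [Finite H] {p : ℕ} [Fact p.Prime]
    (Q : Subgroup H) [Q.Normal] (hQ : IsPGroup p Q) [IsCyclic (H ⧸ Q)] :
    (∀ S : Sylow p H, (S : Subgroup H).Normal) ∧
    (∀ (S : Sylow p H) [(S : Subgroup H).Normal], IsCyclic (H ⧸ (S : Subgroup H))) := by
  have hle : ∀ S : Sylow p H, Q ≤ S := fun S => hQ.le_sylow_of_normal S
  constructor
  · intro S
    refine ⟨fun s hs g => ?_⟩
    have hcomm : g * s * g⁻¹ * s⁻¹ ∈ Q := by
      have h1 : ((g * s * g⁻¹ * s⁻¹ : H) : H ⧸ Q) = 1 := by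
        have hc := (IsCyclic.commutative (α := H ⧸ Q)).is_comm.comm (g : H ⧸ Q) (s : H ⧸ Q)
        rw [QuotientGroup.mk_mul, QuotientGroup.mk_mul, QuotientGroup.mk_mul, QuotientGroup.mk_inv,
          QuotientGroup.mk_inv]
        rw [hc]
        group
      exact (QuotientGroup.eq_one_iff _).1 h1
    have h2 : g * s * g⁻¹ * s⁻¹ ∈ (S : Subgroup H) := hle S hcomm
    have h3 := (S : Subgroup H).mul_mem h2 hs
    simpa using h3
  · intro S _
    let f : H ⧸ Q →* H ⧸ (S : Subgroup H) := QuotientGroup.map Q (S : Subgroup H) (MonoidHom.id H) (by rw [Subgroup.comap_id]; exact hle S)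
    have hf : Function.Surjective f := by
      intro x
      induction x using QuotientGroup.induction_on with
      | H x => exact ⟨(x : H ⧸ Q), rfl⟩
    exact isCyclic_of_surjective f hf

/-- Abelian group with a cyclic subgroup, cyclic quotient and coprime orders. -/
theorem isCyclic_of_comm {H : Type*} [Group H] [Finite H] (hc : ∀ a b : H, a * b = b * a)
    (S : Subgroup H) [S.Normal] [IsCyclic S] [IsCyclic (H ⧸ S)]
    (hcop : (Nat.card S).Coprime (Nat.card (H ⧸ S))) : IsCyclic H := by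
  classical
  obtain ⟨s, hs⟩ := IsCyclic.exists_ofOrder_eq_natCard (α := S)
  obtain ⟨xq, hx⟩ := IsCyclic.exists_ofOrder_eq_natCard (α := H ⧸ S)
  obtain ⟨x, rfl⟩ := QuotientGroup.mk_surjective xq
  have hs' : orderOf (s : H) = Nat.card S := by
    rw [Subgroup.orderOf_coe, hs]
  have hcard : Nat.card H = Nat.card S * Nat.card (H ⧸ S) := by
    rw [mul_comm]
    exact S.card_eq_card_quotient_mul_card_subgroup
  set y : H := x ^ Nat.card S with hy
  have h1 : orderOf y ∣ Nat.card (H ⧸ S) := by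
    apply orderOf_dvd_of_pow_eq_one
    rw [hy, ← pow_mul, ← hcard]
    exact pow_card_eq_one'
  have h2 : orderOf ((y : H) : H ⧸ S) = Nat.card (H ⧸ S) := by
    rw [hy, QuotientGroup.mk_pow, orderOf_pow, hx, Nat.gcd_comm]
    have : (Nat.card S).gcd (Nat.card (H ⧸ S)) = 1 := hcop
    rw [Nat.gcd_comm] at this
    rw [Nat.gcd_comm, this, Nat.div_one]
  have h3 : Nat.card (H ⧸ S) ∣ orderOf y := by
    rw [← h2]
    exact orderOf_map_dvd (QuotientGroup.mk' S) y
  have h4 : orderOf y = Nat.card (H ⧸ S) := Nat.dvd_antisymm h1 h3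
  have h5 : orderOf ((s : H) * y) = Nat.card H := by
    rw [hcard, Commute.orderOf_mul_eq_mul_orderOf_of_coprime (hc _ _) (by rwa [hs', h4]), hs', h4]
  exact isCyclic_of_orderOf_eq_card _ h5

/-- Facts on the dihedral group of odd degree. -/
theorem dih_key {H : Type*} [Group H] {m : ℕ} (e : H ≃* DihedralGroup m) {q x : H}
    (hq : Odd (orderOf q)) (hx : ¬ Commute x q) :
    x * x = 1 ∧ ∀ y : H, Odd (orderOf y) → x * y * x⁻¹ = y⁻¹ := by
  have hrot : ∀ y : H, Odd (orderOf y) → ∃ i, e y = DihedralGroup.r i := by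
    intro y hy
    rcases hey : e y with i | i
    · exact ⟨i, rfl⟩
    · exfalso
      have h1 : orderOf (e y) = 2 := by rw [hey]; exact DihedralGroup.orderOf_sr i
      rw [MulEquiv.orderOf_eq] at h1
      rw [h1] at hy
      exact absurd hy (by decide)
  obtain ⟨i, hi⟩ := hrot q hq
  have hsr : ∃ j, e x = DihedralGroup.sr j := by
    rcases hex : e x with j | j
    · exfalso
      apply hx
      apply e.injective
      show e (x * q) = e (q * x)
      rw [map_mul, map_mul, hex, hi, DihedralGroup.r_mul_r, DihedralGroup.r_mul_r, add_comm]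
    · exact ⟨j, rfl⟩
  obtain ⟨j, hj⟩ := hsr
  constructor
  · apply e.injective
    rw [map_mul, map_one, hj, DihedralGroup.sr_mul_self]
  · intro y hy
    obtain ⟨k, hk⟩ := hrot y hy
    apply e.injective
    rw [map_mul, map_mul, map_inv, map_inv, hj, hk, DihedralGroup.inv_sr, DihedralGroup.inv_r,
      DihedralGroup.sr_mul_r, DihedralGroup.sr_mul_sr]
    congr 1
    ring

end Aux

section Main

variable {G : Type*} [Group G] [Finite G] {p : ℕ} [hpp : Fact p.Prime]

/-- The hypothesis of the statement. -/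
def Restricted (p : ℕ) (G : Type*) [Group G] : Prop :=
  ∀ H : Subgroup G, (∀ S : Sylow p ↥H, (S : Subgroup ↥H).Normal) →
    (∀ (S : Sylow p ↥H) [(S : Subgroup ↥H).Normal], IsCyclic (↥H ⧸ (S : Subgroup ↥H))) →
    IsCyclic H ∨ (∃ n : ℕ, Nonempty (H ≃* DihedralGroup (p ^ n)))

theorem odd_orderOf_of_isPGroup (hp : p ≠ 2) {Q : Subgroup G} (hQ : IsPGroup p Q) {y : G}
    (hy : y ∈ Q) : Odd (orderOf y) := by
  obtain ⟨k, hk⟩ := hQ ⟨y, hy⟩
  have h1 : y ^ p ^ k = 1 := by
    have := congrArg Subtype.val hk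
    simpa using this
  have h2 := orderOf_dvd_of_pow_eq_one h1
  have hodd : Odd (p ^ k) := ((Fact.out : p.Prime).odd_of_ne_two hp).pow
  exact hodd.of_dvd_nat h2

/-- The key consequence of the restriction. -/
theorem key_of_restricted (hp : p ≠ 2) (hA : Restricted p G) {Q : Subgroup G} (hQ : IsPGroup p Q)
    {x : G} (hxN : x ∈ Subgroup.normalizer (Q : Set G))
    (hxC : x ∉ Subgroup.centralizer (Q : Set G)) :
    x * x = 1 ∧ ∀ y ∈ Q, x * y * x⁻¹ = y⁻¹ := by
  classical
  have hzle : Subgroup.zpowers x ≤ Subgroup.normalizer (Q : Set G) :=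
    (Subgroup.zpowers_le).2 hxN
  set H : Subgroup G := Q ⊔ Subgroup.zpowers x with hH
  have hQH : Q ≤ H := le_sup_left
  have hxH : x ∈ H := (le_sup_right : Subgroup.zpowers x ≤ H) (Subgroup.mem_zpowers x)
  have hHN : H ≤ Subgroup.normalizer (Q : Set G) :=
    sup_le Subgroup.le_normalizer hzle
  let Q' : Subgroup H := Q.subgroupOf H
  haveI hQ'n : Q'.Normal := Subgroup.normal_subgroupOf_of_le_normalizer hHN
  have hQ' : IsPGroup p Q' := hQ.comap_subtype
  haveI hcyc : IsCyclic (H ⧸ Q') := by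
    refine ⟨⟨((⟨x, hxH⟩ : H) : H ⧸ Q'), ?_⟩⟩
    intro g
    induction g using QuotientGroup.induction_on with
    | H g =>
      obtain ⟨q, hq, a, ha, hg⟩ := Cfsg.Agent.Lib.Coprime.Action.exists_mul_of_mem_sup hzle g.2
      obtain ⟨k, rfl⟩ := Subgroup.mem_zpowers_iff.1 ha
      refine Subgroup.mem_zpowers_iff.2 ⟨k, ?_⟩
      rw [← QuotientGroup.mk_zpow, eq_comm, QuotientGroup.eq]
      show ((g⁻¹ * ⟨x, hxH⟩ ^ k : H) : G) ∈ Q
      have h1 : ((g⁻¹ * ⟨x, hxH⟩ ^ k : H) : G) = (g : G)⁻¹ * x ^ k := by simp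
      rw [h1, hg]
      have h2 : (x ^ k)⁻¹ ∈ Subgroup.normalizer (Q : Set G) := Subgroup.inv_mem _ (hzle ha)
      have h3 := (Subgroup.mem_normalizer_iff.1 h2 q⁻¹).1 (Q.inv_mem hq)
      have h4 : (q * x ^ k)⁻¹ * x ^ k = (x ^ k)⁻¹ * q⁻¹ * ((x ^ k)⁻¹)⁻¹ := by group
      rw [h4]
      exact h3
  obtain ⟨hn, hq⟩ := sylow_conditions (p := p) Q' hQ'
  -- `x` does not centralize some `q ∈ Q`
  have hex : ∃ q ∈ Q, x * q ≠ q * x := by
    by_contra hall
    push Not at hall
    apply hxC
    rw [Subgroup.mem_centralizer_iff]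
    intro q hq
    exact (hall q hq).symm
  obtain ⟨q, hqQ, hqx⟩ := hex
  rcases hA H hn hq with hc | ⟨n, ⟨e⟩⟩
  · exfalso
    apply hqx
    have := (IsCyclic.commutative (α := H)).is_comm.comm ⟨x, hxH⟩ ⟨q, hQH hqQ⟩
    exact congrArg Subtype.val this
  · have hq' : ¬ Commute (⟨x, hxH⟩ : H) (⟨q, hQH hqQ⟩ : H) := by
      intro hc
      exact hqx (congrArg Subtype.val hc.eq)
    have hodd : Odd (orderOf (⟨q, hQH hqQ⟩ : H)) := by
      rw [Subgroup.orderOf_mk]
      exact odd_orderOf_of_isPGroup hp hQ hqQ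
    obtain ⟨h1, h2⟩ := dih_key e hodd hq'
    refine ⟨congrArg Subtype.val h1, fun y hy => ?_⟩
    have hodd' : Odd (orderOf (⟨y, hQH hy⟩ : H)) := by
      rw [Subgroup.orderOf_mk]
      exact odd_orderOf_of_isPGroup hp hQ hy
    exact congrArg Subtype.val (h2 _ hodd')


/-- Membership in the normalizer from a one-sided condition. -/
theorem mem_normalizer_of_conj_mem {Q : Subgroup G} {x : G} (h : ∀ y ∈ Q, x * y * x⁻¹ ∈ Q) :
    x ∈ Subgroup.normalizer (Q : Set G) := by
  classical
  rw [Subgroup.mem_normalizer_iff]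
  intro y
  refine ⟨h y, fun hy => ?_⟩
  -- conjugation by `x` is injective on the finite `Q`, so it is onto
  let f : Q → Q := fun q => ⟨x * q * x⁻¹, h q q.2⟩
  have hf : Function.Injective f := by
    intro a b hab
    have := congrArg Subtype.val hab
    simp only [f] at this
    exact Subtype.ext (by simpa using this)
  obtain ⟨a, ha⟩ := (Finite.injective_iff_surjective.1 hf) ⟨_, hy⟩
  have h1 : x * a * x⁻¹ = x * y * x⁻¹ := congrArg Subtype.val ha
  have h2 : (a : G) = y := by simpa using h1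
  rw [← h2]
  exact a.2

/-- The forward direction. -/
theorem forward (hp : p ≠ 2) (hA : Restricted p G) (P : Sylow p G) :
    (IsCyclic P ∧
      (Subgroup.normalizer ((P : Subgroup G) : Set G) = Subgroup.centralizer ((P : Subgroup G) : Set G) ∨
       ((Subgroup.centralizer ((P : Subgroup G) : Set G)).relIndex (Subgroup.normalizer ((P : Subgroup G) : Set G)) = 2 ∧
        ∀ Q : Subgroup G, Q ≤ P → Nat.card Q = p →
          IsMulCommutative ↥(Subgroup.centralizer (Q : Set G)) ∧
          ∀ x : G, x ∈ Subgroup.normalizer (Q : Set G) → x ∉ Subgroup.centralizer (Q : Set G) →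
            orderOf x = 2 ∧ ∀ c : G, c ∈ Subgroup.centralizer (Q : Set G) → x * c * x⁻¹ = c⁻¹))) := by
  classical
  have hPp : IsPGroup p (P : Subgroup G) := P.isPGroup'
  have hcyc : IsCyclic P := by
    have hQ : IsPGroup p (⊤ : Subgroup (P : Subgroup G)) := by
      intro x
      obtain ⟨k, hk⟩ := hPp x.1
      exact ⟨k, Subtype.ext hk⟩
    haveI : Subsingleton ((P : Subgroup G) ⧸ (⊤ : Subgroup (P : Subgroup G))) :=
      QuotientGroup.subsingleton_quotient_top
    haveI : IsCyclic ((P : Subgroup G) ⧸ (⊤ : Subgroup (P : Subgroup G))) := isCyclic_of_subsingleton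
    obtain ⟨hn, hq⟩ := sylow_conditions (p := p) (⊤ : Subgroup (P : Subgroup G)) hQ
    rcases hA _ hn hq with hc | ⟨n, ⟨e⟩⟩
    · exact hc
    · exfalso
      obtain ⟨k, hk⟩ := hPp.exists_card_eq
      have h1 := Nat.card_congr e.toEquiv
      rw [DihedralGroup.nat_card, hk] at h1
      have h2 : 2 ∣ p ^ k := ⟨_, h1⟩
      have h3 := (Nat.prime_two).dvd_of_dvd_pow h2
      exact hp ((Nat.prime_dvd_prime_iff_eq Nat.prime_two (Fact.out)).1 h3).symm
  refine ⟨hcyc, ?_⟩
  by_cases hNC : Subgroup.normalizer ((P : Subgroup G) : Set G) = Subgroup.centralizer ((P : Subgroup G) : Set G)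
  · exact Or.inl hNC
  right
  have hCN : Subgroup.centralizer ((P : Subgroup G) : Set G) ≤ Subgroup.normalizer ((P : Subgroup G) : Set G) :=
    Subgroup.centralizer_le_normalizer _
  obtain ⟨t, htN, htC⟩ : ∃ t ∈ Subgroup.normalizer ((P : Subgroup G) : Set G),
      t ∉ Subgroup.centralizer ((P : Subgroup G) : Set G) := by
    by_contra hall
    push Not at hall
    exact hNC (le_antisymm hall hCN)
  obtain ⟨ht2, htinv⟩ := key_of_restricted hp hA hPp htN htC
  have htinv' : t⁻¹ = t := inv_eq_of_mul_eq_one_left ht2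
  have hcentr : ∀ (Q : Subgroup G) (a b : G), (∀ y ∈ Q, a * y * a⁻¹ = y⁻¹) → (∀ y ∈ Q, b * y * b⁻¹ = y⁻¹) →
      a * b ∈ Subgroup.centralizer (Q : Set G) := by
    intro Q a b ha hb
    rw [Subgroup.mem_centralizer_iff]
    intro y hy
    have hy' : y ∈ Q := hy
    have h1 := hb y hy'
    have h2 := ha y⁻¹ (Q.inv_mem hy')
    have h3 : a * b * y * (a * b)⁻¹ = y := by
      calc a * b * y * (a * b)⁻¹ = a * (b * y * b⁻¹) * a⁻¹ := by group
        _ = y := by rw [h1, h2, inv_inv]
    calc y * (a * b) = (a * b * y * (a * b)⁻¹) * (a * b) := by rw [h3]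
      _ = a * b * y := by group
  refine ⟨?_, ?_⟩
  · show ((Subgroup.centralizer ((P : Subgroup G) : Set G)).subgroupOf _).index = 2
    rw [Subgroup.index_eq_two_iff]
    refine ⟨⟨t, htN⟩, ?_⟩
    rintro ⟨b, hb⟩
    simp only [Subgroup.mem_subgroupOf, Subgroup.coe_mul]
    by_cases hbC : b ∈ Subgroup.centralizer ((P : Subgroup G) : Set G)
    · refine Or.inr ⟨hbC, ?_⟩
      intro hmem
      apply htC
      have := Subgroup.mul_mem _ (Subgroup.inv_mem _ hbC) hmem
      simpa using this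
    · refine Or.inl ⟨?_, hbC⟩
      obtain ⟨_, h2⟩ := key_of_restricted hp hA hPp hb hbC
      exact hcentr _ b t h2 htinv
  · intro Q hQP hQcard
    have hQp : IsPGroup p Q := hPp.to_le hQP
    have htQ : ∀ y ∈ Q, t * y * t⁻¹ = y⁻¹ := fun y hy => htinv y (hQP hy)
    have htNQ : t ∈ Subgroup.normalizer (Q : Set G) :=
      mem_normalizer_of_conj_mem (fun y hy => by rw [htQ y hy]; exact Q.inv_mem hy)
    have hQne : ∃ q ∈ Q, q ≠ 1 := by
      by_contra hall
      push Not at hall
      have : Q = ⊥ := (Subgroup.eq_bot_iff_forall _).2 hall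
      rw [this, Subgroup.card_bot] at hQcard
      exact (Fact.out : p.Prime).one_lt.ne hQcard
    obtain ⟨q, hqQ, hq1⟩ := hQne
    have hqinv : q⁻¹ ≠ q := by
      intro h
      have h1 : q * q = 1 := by
        calc q * q = q⁻¹ * q := by rw [h]
          _ = 1 := by group
      have h2 : orderOf q ∣ 2 := orderOf_dvd_of_pow_eq_one (by rw [pow_two]; exact h1)
      have h3 := odd_orderOf_of_isPGroup hp hQp hqQ
      have h4 : orderOf q = 1 := by
        rcases (Nat.dvd_prime Nat.prime_two).1 h2 with h | h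
        · exact h
        · rw [h] at h3
          exact absurd h3 (by decide)
      exact hq1 (orderOf_eq_one_iff.1 h4)
    have htCQ : t ∉ Subgroup.centralizer (Q : Set G) := by
      intro hmem
      have h1 := (Subgroup.mem_centralizer_iff.1 hmem) q hqQ
      apply hqinv
      rw [← htQ q hqQ, ← h1]
      group
    have hkey : ∀ x, x ∈ Subgroup.normalizer (Q : Set G) → x ∉ Subgroup.centralizer (Q : Set G) →
        x * x = 1 ∧ ∀ y ∈ Q, x * y * x⁻¹ = y⁻¹ := fun x h1 h2 => key_of_restricted hp hA hQp h1 h2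
    -- `t` inverts the centralizer
    have htinvC : ∀ c ∈ Subgroup.centralizer (Q : Set G), t * c * t⁻¹ = c⁻¹ := by
      intro c hc
      have h1 : t * c ∈ Subgroup.normalizer (Q : Set G) :=
        Subgroup.mul_mem _ htNQ (Subgroup.centralizer_le_normalizer _ hc)
      have h2 : t * c ∉ Subgroup.centralizer (Q : Set G) := by
        intro hmem
        apply htCQ
        have := Subgroup.mul_mem _ hmem (Subgroup.inv_mem _ hc)
        simpa using this
      have h3 := (hkey _ h1 h2).1
      rw [htinv']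
      have h4 : t * c * t = c⁻¹ := by
        have : t * c * t * c = 1 := by rw [← h3]; group
        exact eq_inv_of_mul_eq_one_left this
      exact h4
    have hcomm : ∀ c ∈ Subgroup.centralizer (Q : Set G), ∀ d ∈ Subgroup.centralizer (Q : Set G),
        c * d = d * c := by
      intro c hc d hd
      have h1 := htinvC _ (Subgroup.mul_mem _ hc hd)
      have h2 : t * (c * d) * t⁻¹ = (t * c * t⁻¹) * (t * d * t⁻¹) := by group
      rw [h2, htinvC c hc, htinvC d hd] at h1
      have h3 : c⁻¹ * d⁻¹ = (d * c)⁻¹ := by group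
      rw [h3] at h1
      exact inv_injective h1.symm
    refine ⟨⟨⟨fun a b => Subtype.ext (hcomm _ a.2 _ b.2)⟩⟩, ?_⟩
    intro x hxN hxC
    obtain ⟨h1, h2⟩ := hkey x hxN hxC
    constructor
    · apply orderOf_eq_prime (by rw [pow_two]; exact h1)
      rintro rfl
      exact hxC (Subgroup.one_mem _)
    · intro c hc
      have hd : x * t ∈ Subgroup.centralizer (Q : Set G) := hcentr Q x t h2 htQ
      have h3 : (x * t) * (t * c * t⁻¹) * (x * t)⁻¹ = x * c * x⁻¹ := by
        calc (x * t) * (t * c * t⁻¹) * (x * t)⁻¹ = x * (t * t) * c * (t * t)⁻¹ * x⁻¹ := by group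
          _ = x * c * x⁻¹ := by rw [ht2]; group
      rw [← h3, htinvC c hc, hcomm _ hd _ (Subgroup.inv_mem _ hc)]
      group


/-- The centralizer of a conjugate. -/
theorem mem_centralizer_conj_iff {g c : G} {Q : Subgroup G} :
    c ∈ Subgroup.centralizer ((MulAut.conj g • Q : Subgroup G) : Set G) ↔
      g⁻¹ * c * g ∈ Subgroup.centralizer (Q : Set G) := by
  simp only [Subgroup.mem_centralizer_iff]
  constructor
  · intro h y hy
    have h1 : g * y * g⁻¹ ∈ (MulAut.conj g • Q : Subgroup G) :=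
      Cfsg.Agent.Lib.Frobenius.Basic.mem_conj_iff.2 (by simpa [mul_assoc] using hy)
    have h2 := h _ h1
    calc y * (g⁻¹ * c * g) = g⁻¹ * ((g * y * g⁻¹) * c) * g := by group
      _ = g⁻¹ * (c * (g * y * g⁻¹)) * g := by rw [h2]
      _ = g⁻¹ * c * g * y := by group
  · intro h y hy
    have hy' : y ∈ (MulAut.conj g • Q : Subgroup G) := hy
    have h1 : g⁻¹ * y * g ∈ Q := Cfsg.Agent.Lib.Frobenius.Basic.mem_conj_iff.1 hy'
    have h2 := h _ h1
    calc y * c = g * ((g⁻¹ * y * g) * (g⁻¹ * c * g)) * g⁻¹ := by group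
      _ = g * ((g⁻¹ * c * g) * (g⁻¹ * y * g)) * g⁻¹ := by rw [h2]
      _ = c * y := by group

/-- The property of the subgroups of order `p` in case (2). -/
def InvProp (Q : Subgroup G) : Prop :=
  IsMulCommutative ↥(Subgroup.centralizer (Q : Set G)) ∧
    ∀ x : G, x ∈ Subgroup.normalizer (Q : Set G) → x ∉ Subgroup.centralizer (Q : Set G) →
      orderOf x = 2 ∧ ∀ c : G, c ∈ Subgroup.centralizer (Q : Set G) → x * c * x⁻¹ = c⁻¹

theorem invProp_conj {Q : Subgroup G} (hQ : InvProp Q) (g : G) : InvProp (MulAut.conj g • Q) := by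
  obtain ⟨h1, h2⟩ := hQ
  refine ⟨⟨⟨?_⟩⟩, ?_⟩
  · rintro ⟨a, ha⟩ ⟨b, hb⟩
    apply Subtype.ext
    have ha' := mem_centralizer_conj_iff.1 ha
    have hb' := mem_centralizer_conj_iff.1 hb
    have h3 := h1.is_comm.comm ⟨_, ha'⟩ ⟨_, hb'⟩
    have h4 : (g⁻¹ * a * g) * (g⁻¹ * b * g) = (g⁻¹ * b * g) * (g⁻¹ * a * g) :=
      congrArg Subtype.val h3
    have h5 : a * b = g * ((g⁻¹ * a * g) * (g⁻¹ * b * g)) * g⁻¹ := by group
    rw [h4] at h5
    show a * b = b * a
    rw [h5]
    group
  · intro x hxN hxC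
    have hxN' := Cfsg.Agent.Lib.Coprime.Action.mem_normalizer_conj_iff.1 hxN
    have hxC' : g⁻¹ * x * g ∉ Subgroup.centralizer (Q : Set G) := fun h =>
      hxC (mem_centralizer_conj_iff.2 h)
    obtain ⟨h3, h4⟩ := h2 _ hxN' hxC'
    constructor
    · have e : g⁻¹ * x * g = MulAut.conj g⁻¹ x := by simp [MulAut.conj_apply]
      rw [e, MulEquiv.orderOf_eq] at h3
      exact h3
    · intro c hc
      have h5 := h4 _ (mem_centralizer_conj_iff.1 hc)
      have h6 : g⁻¹ * x * g * (g⁻¹ * c * g) * (g⁻¹ * x * g)⁻¹ = g⁻¹ * (x * c * x⁻¹) * g := by group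
      rw [h6] at h5
      have h7 : x * c * x⁻¹ = g * (g⁻¹ * (x * c * x⁻¹) * g) * g⁻¹ := by group
      rw [h7, h5]
      group

/-- The backward direction. -/
theorem backward (hp : p ≠ 2) (P : Sylow p G) (hcyc : IsCyclic P)
    (hcase : Subgroup.normalizer ((P : Subgroup G) : Set G) = Subgroup.centralizer ((P : Subgroup G) : Set G) ∨
       ((Subgroup.centralizer ((P : Subgroup G) : Set G)).relIndex (Subgroup.normalizer ((P : Subgroup G) : Set G)) = 2 ∧
        ∀ Q : Subgroup G, Q ≤ P → Nat.card Q = p → InvProp Q)) :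
    Restricted p G := by
  classical
  intro H hn hq
  obtain ⟨S⟩ : Nonempty (Sylow p H) := inferInstance
  haveI hSn := hn S
  haveI hqS := hq S
  set T : Subgroup G := (S : Subgroup H).map H.subtype with hT
  have hTp : IsPGroup p T := S.isPGroup'.map _
  have hTH : T ≤ H := Subgroup.map_subtype_le _
  obtain ⟨P', hP'⟩ := hTp.exists_le_sylow
  obtain ⟨g, hg⟩ := MulAction.exists_smul_eq G P P'
  have hP'c : IsCyclic P' := isCyclic_of_surjective _ (Sylow.equiv P P').surjective
  haveI hScyc : IsCyclic (S : Subgroup H) := by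
    let f : (S : Subgroup H) →* P' :=
      { toFun := fun s => ⟨(s : H), hP' ⟨_, s.2, rfl⟩⟩
        map_one' := rfl
        map_mul' := fun _ _ => rfl }
    apply isCyclic_of_injective f
    intro a b hab
    have := congrArg Subtype.val hab
    exact Subtype.ext (Subtype.ext this)
  have hScop : (Nat.card (S : Subgroup H)).Coprime (Nat.card (H ⧸ (S : Subgroup H))) :=
    S.card_coprime_index
  have hScomm : ∀ a b : (S : Subgroup H), a * b = b * a :=
    (IsCyclic.commutative (α := (S : Subgroup H))).is_comm.comm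
  -- the central case
  have hcentral : (∀ a b : H, a * b = b * a) → IsCyclic H := fun h =>
    isCyclic_of_comm h (S : Subgroup H) hScop
  have hcentral' : ((S : Subgroup H) ≤ Subgroup.center H) → (∀ a b : H, a * b = b * a) := by
    intro h a b
    apply commutative_of_cyclic_center_quotient (QuotientGroup.mk' (S : Subgroup H))
    rw [QuotientGroup.ker_mk']
    exact h
  rcases hcase with hNC | ⟨-, hQ⟩
  · left
    apply hcentral
    apply hcentral'
    have hPcomm := (IsCyclic.commutative (α := (P : Subgroup G))).is_comm.comm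
    have hP0 : Subgroup.normalizer ((P : Subgroup G) : Set G) ≤ Subgroup.centralizer ((P : Subgroup G) : Set G) :=
      hNC.le
    let φ := MonoidHom.transferSylow P hP0
    intro s hs
    rw [Subgroup.mem_center_iff]
    intro h
    have h1 : h * s * h⁻¹ * s⁻¹ ∈ (S : Subgroup H) :=
      (S : Subgroup H).mul_mem (hSn.conj_mem s hs h) ((S : Subgroup H).inv_mem hs)
    have h2 : ((h * s * h⁻¹ * s⁻¹ : H) : G) ∈ T := ⟨_, h1, rfl⟩
    have h3 : ((h * s * h⁻¹ * s⁻¹ : H) : G) ∈ φ.ker := by
      rw [MonoidHom.mem_ker]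
      have h4 := hPcomm (φ h) (φ s)
      simp only [Subgroup.coe_mul, Subgroup.coe_inv, map_mul, map_inv]
      rw [h4]
      group
    have h5 := Subgroup.disjoint_def.1 (MonoidHom.ker_transferSylow_disjoint P hP0 T hTp) h3 h2
    have h6 : h * s * h⁻¹ * s⁻¹ = 1 := Subtype.ext h5
    have h7 : h * s * h⁻¹ = s := by rwa [mul_inv_eq_one] at h6
    calc h * s = (h * s * h⁻¹) * h := by group
      _ = s * h := by rw [h7]
  -- case (2)
  by_cases hS1 : (S : Subgroup H) = ⊥
  · left
    apply hcentral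
    apply hcentral'
    rw [hS1]
    exact bot_le
  obtain ⟨y₀, hy₀, hy₀1⟩ := (Subgroup.bot_or_exists_ne_one (S : Subgroup H)).resolve_left hS1
  -- an element of order `p`
  have hpdvd : p ∣ Nat.card (S : Subgroup H) := by
    obtain ⟨k, hk⟩ := S.isPGroup'.exists_card_eq
    rw [hk]
    apply dvd_pow_self
    rintro rfl
    apply hS1
    rw [pow_zero] at hk
    exact Subgroup.card_eq_one.1 hk
  obtain ⟨y', hy'⟩ := exists_prime_orderOf_dvd_card' p hpdvd
  set y : G := ((y' : H) : G) with hy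
  have hyT : y ∈ T := ⟨_, y'.2, rfl⟩
  have hyo : orderOf y = p := by
    rw [hy, Subgroup.orderOf_coe, Subgroup.orderOf_coe, hy']
  set Q : Subgroup G := Subgroup.zpowers y with hQdef
  have hQcard : Nat.card Q = p := by
    rw [hQdef, Nat.card_zpowers, hyo]
  have hQprop : InvProp Q := by
    have hle : Q ≤ MulAut.conj g • (P : Subgroup G) := by
      rw [hQdef, Subgroup.zpowers_le]
      have : y ∈ (P' : Subgroup G) := hP' hyT
      rw [← hg] at this
      exact this
    have hle' : MulAut.conj g⁻¹ • Q ≤ (P : Subgroup G) := by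
      intro x hx
      have h1 : (g⁻¹)⁻¹ * x * g⁻¹ ∈ Q := Cfsg.Agent.Lib.Frobenius.Basic.mem_conj_iff.1 hx
      have h2 := hle h1
      have h3 := Cfsg.Agent.Lib.Frobenius.Basic.mem_conj_iff.1 h2
      have h4 : g⁻¹ * ((g⁻¹)⁻¹ * x * g⁻¹) * g = x := by group
      rwa [h4] at h3
    have hcard' : Nat.card (MulAut.conj g⁻¹ • Q : Subgroup G) = p := by
      rw [Cfsg.Agent.Lib.Coprime.SchurZassenhaus.card_conj_smul]
      exact hQcard
    have h1 := invProp_conj (hQ _ hle' hcard') g
    rwa [smul_smul, ← map_mul, mul_inv_cancel, map_one, one_smul] at h1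
  obtain ⟨hQcomm, hQx⟩ := hQprop
  have hTC : T ≤ Subgroup.centralizer (Q : Set G) := by
    rintro _ ⟨a, ha, rfl⟩
    rw [Subgroup.mem_centralizer_iff]
    intro w hw
    have hw' : w ∈ Q := hw
    obtain ⟨k, rfl⟩ := Subgroup.mem_zpowers_iff.1 hw'
    have h1 := hScomm (y' ^ k) ⟨a, ha⟩
    have h2 := congrArg (fun z : (S : Subgroup H) => ((z : H) : G)) h1
    simpa using h2
  have hHN : H ≤ Subgroup.normalizer (Q : Set G) := by
    intro h hh
    apply mem_normalizer_of_conj_mem
    intro w hw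
    obtain ⟨k, rfl⟩ := Subgroup.mem_zpowers_iff.1 hw
    have h1 : h * y ^ k * h⁻¹ = (h * y * h⁻¹) ^ k := (conj_zpow).symm
    rw [h1]
    apply Q.zpow_mem
    let z : (S : Subgroup H) := ⟨⟨h, hh⟩ * (y' : H) * ⟨h, hh⟩⁻¹, hSn.conj_mem _ y'.2 _⟩
    have hz : z ^ p = 1 := by
      apply Subtype.ext
      apply Subtype.ext
      have hy2 : y ^ p = 1 := by rw [← hyo]; exact pow_orderOf_eq_one y
      show (h * y * h⁻¹) ^ p = 1
      rw [conj_pow, hy2]
      group
    have hz2 := Cfsg.Agent.Lib.PGroups.NormalRankTwo.mem_zpowers_of_pow_eq_one hy' hz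
    obtain ⟨j, hj⟩ := Subgroup.mem_zpowers_iff.1 hz2
    refine Subgroup.mem_zpowers_iff.2 ⟨j, ?_⟩
    have h2 := congrArg (fun z : (S : Subgroup H) => ((z : H) : G)) hj
    have h3 : ((z : H) : G) = h * y * h⁻¹ := rfl
    rw [← h3]
    simpa using h2
  by_cases hHC : H ≤ Subgroup.centralizer (Q : Set G)
  · left
    apply hcentral
    intro a b
    have h1 := congrArg Subtype.val (hQcomm.is_comm.comm ⟨a, hHC a.2⟩ ⟨b, hHC b.2⟩)
    exact Subtype.ext h1
  right
  obtain ⟨xq, hgen⟩ := IsCyclic.exists_generator (α := H ⧸ (S : Subgroup H))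
  obtain ⟨x, rfl⟩ := QuotientGroup.mk_surjective xq
  have hxC : (x : G) ∉ Subgroup.centralizer (Q : Set G) := by
    intro hx
    apply hHC
    intro h hh
    obtain ⟨k, hk⟩ := Subgroup.mem_zpowers_iff.1 (hgen ((⟨h, hh⟩ : H) : H ⧸ (S : Subgroup H)))
    rw [← QuotientGroup.mk_zpow, QuotientGroup.eq] at hk
    have h1 : (((x ^ k)⁻¹ * ⟨h, hh⟩ : H) : G) ∈ Subgroup.centralizer (Q : Set G) :=
      hTC ⟨_, hk, rfl⟩
    have h2 : h = (x : G) ^ k * (((x ^ k)⁻¹ * ⟨h, hh⟩ : H) : G) := by simp
    rw [h2]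
    exact Subgroup.mul_mem _ (Subgroup.zpow_mem _ hx k) h1
  obtain ⟨hxo, hxinv⟩ := hQx x (hHN x.2) hxC
  have hxx : x * x = 1 := by
    apply Subtype.ext
    have := pow_orderOf_eq_one (x : G)
    rw [hxo, pow_two] at this
    exact this
  have hxS : x ∉ (S : Subgroup H) := fun h => hxC (hTC ⟨_, h, rfl⟩)
  have hcardq : Nat.card (H ⧸ (S : Subgroup H)) = 2 := by
    rw [← orderOf_eq_card_of_forall_mem_zpowers hgen]
    apply orderOf_eq_prime
    · rw [← QuotientGroup.mk_pow, pow_two, hxx]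
      rfl
    · intro h
      exact hxS ((QuotientGroup.eq_one_iff _).1 h)
  obtain ⟨n, hn'⟩ := S.isPGroup'.exists_card_eq
  obtain ⟨a, ha⟩ := IsCyclic.exists_ofOrder_eq_natCard (α := (S : Subgroup H))
  have ha' : orderOf (a : H) = p ^ n := by
    rw [Subgroup.orderOf_coe, ha, hn']
  haveI : NeZero p := ⟨hpp.out.ne_zero⟩
  refine ⟨n, Cfsg.Agent.Lib.TwoGroups.Present.nonempty_dihedral (a := (a : H)) (b := x) ha' hxx ?_ ?_ ?_⟩
  · apply Subtype.ext
    exact hxinv _ (hTC ⟨_, a.2, rfl⟩)
  · intro hmem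
    apply hxS
    have : Subgroup.zpowers (a : H) ≤ (S : Subgroup H) := by
      rw [Subgroup.zpowers_le]
      exact a.2
    exact this hmem
  · have := (S : Subgroup H).card_eq_card_quotient_mul_card_subgroup
    rw [this, hcardq, hn']


end Main


/-- Let p be an odd prime and G a finite group with Sylow p-subgroup P. Say that G has restricted p-by-cyclic subgroups when every subgroup H of G whose Sylow p-subgroup is normal in H with cyclic quotient is itself cyclic or dihedral of order 2pⁿ for some n. Then G has restricted p-by-cyclic subgroups if and only if P is cyclic and one of the following holds: (1) N_G(P) = C_G(P); or (2) N_G(P)/C_G(P) has order 2 and, for the subgroup Q of order p of P, the centralizer C_G(Q) is abelian and every element of N_G(Q) outside C_G(Q) is an involution inverting every element of C_G(Q). -/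
theorem result {G : Type*} [Group G] [Finite G] {p : ℕ}
    [Fact p.Prime] (hp : p ≠ 2) (P : Sylow p G) :
    (∀ H : Subgroup G, (∀ S : Sylow p ↥H, (S : Subgroup ↥H).Normal) →
        (∀ (S : Sylow p ↥H) [(S : Subgroup ↥H).Normal], IsCyclic (↥H ⧸ (S : Subgroup ↥H))) →
        IsCyclic H ∨ (∃ n : ℕ, Nonempty (H ≃* DihedralGroup (p ^ n)))) ↔
    (IsCyclic P ∧
      (Subgroup.normalizer ((P : Subgroup G) : Set G) = Subgroup.centralizer ((P : Subgroup G) : Set G) ∨
       ((Subgroup.centralizer ((P : Subgroup G) : Set G)).relIndex (Subgroup.normalizer ((P : Subgroup G) : Set G)) = 2 ∧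
        ∀ Q : Subgroup G, Q ≤ P → Nat.card Q = p →
          IsMulCommutative ↥(Subgroup.centralizer (Q : Set G)) ∧
          ∀ x : G, x ∈ Subgroup.normalizer (Q : Set G) → x ∉ Subgroup.centralizer (Q : Set G) →
            orderOf x = 2 ∧ ∀ c : G, c ∈ Subgroup.centralizer (Q : Set G) → x * c * x⁻¹ = c⁻¹))) := by
  constructor
  · intro hA
    obtain ⟨h1, h2⟩ := forward hp hA P
    refine ⟨h1, ?_⟩
    exact h2
  · rintro ⟨h1, h2⟩
    exact backward hp P h1 h2

end Cfsg.Agent.S4082
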