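import Cfsg.Statements.S4083
import Mathlib
import Cfsg.Agent.S4082
import Cfsg.Agent.Lib.TwoFusion.Dih
import Cfsg.Agent.Lib.TwoFusion.DihSylow
import Cfsg.Agent.Lib.FusionExt.AutDih
import Cfsg.Agent.Lib.Coprime.Action
-- import your own Cfsg.Agent.* helpers here

set_option autoImplicit false
open Cfsg

namespace Cfsg.Agent.S4083

open Cfsg.Agent.Lib.TwoGroups.Present Cfsg.Agent.S4082 Cfsg.Agent.Lib.TwoFusion.Dih
open Cfsg.Agent.Lib.TwoFusion.DihSylow
open scoped Pointwise

section Aux

/-- Recognition of the alternating group of degree four. -/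
theorem iso_A4_of_card12 {H : Type*} [Group H] [Finite H] (h12 : Nat.card H = 12) (A : Subgroup H)
    (hA : Nat.card A = 3) (hAn : ¬ A.Normal) : Nonempty (H ≃* alternatingGroup (Fin 4)) := by
  classical
  have hq : Nat.card (H ⧸ A) = 4 := by
    have h1 := A.card_eq_card_quotient_mul_card_subgroup
    rw [hA, h12] at h1
    omega
  let e : H ⧸ A ≃ Fin 4 := Finite.equivFinOfCardEq hq
  let φ : H →* Equiv.Perm (Fin 4) :=
    (Equiv.permCongrHom e).toMonoidHom.comp (MulAction.toPermHom H (H ⧸ A))
  have hker : φ.ker ≤ A := by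
    intro x hx
    have h1 : φ x = 1 := hx
    have h2 := congrArg (fun σ : Equiv.Perm (Fin 4) => σ (e ((1 : H) : H ⧸ A))) h1
    have h3 : x • ((1 : H) : H ⧸ A) = ((1 : H) : H ⧸ A) := by
      simpa [φ, Equiv.permCongrHom, Equiv.permCongr_apply] using h2
    rw [MulAction.Quotient.smul_coe, QuotientGroup.eq] at h3
    simpa using h3
  have hinj : Function.Injective φ := by
    rw [injective_iff_map_eq_one]
    intro x hx
    have hx' : x ∈ φ.ker := hx
    by_contra hne
    have h3p : (Nat.card A).Prime := by rw [hA]; exact Nat.prime_three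
    have h1 : (Nat.card φ.ker) ∣ Nat.card A := Subgroup.card_dvd_of_le hker
    rcases (Nat.dvd_prime h3p).1 h1 with h | h
    · have := Subgroup.card_eq_one.1 h
      rw [this] at hx'
      exact hne hx'
    · have h4 : φ.ker = A := Subgroup.eq_of_le_of_card_ge hker (by rw [h])
      apply hAn
      rw [← h4]
      exact MonoidHom.normal_ker φ
  have hrange : Nat.card φ.range = 12 := by
    rw [← h12]
    exact Nat.card_congr (MonoidHom.ofInjective hinj).toEquiv.symm
  have hindex : φ.range.index = 2 := by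
    have h5 := Subgroup.index_mul_card φ.range
    rw [hrange] at h5
    have h6 : Nat.card (Equiv.Perm (Fin 4)) = 24 := by
      rw [Nat.card_eq_fintype_card, Fintype.card_perm]
      rfl
    rw [h6] at h5
    omega
  have hle : alternatingGroup (Fin 4) ≤ φ.range := by
    rw [← Equiv.Perm.closure_three_cycles_eq_alternating, Subgroup.closure_le]
    intro c hc
    have h7 := hc.orderOf
    have h8 : c ^ 3 = 1 := by
      rw [← h7]
      exact pow_orderOf_eq_one c
    have h9 : c = (c ^ 2) ^ 2 := by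
      rw [← pow_mul]
      show c = c ^ (3 + 1)
      rw [pow_succ, h8, one_mul]
    rw [h9]
    exact Subgroup.sq_mem_of_index_two hindex _
  have heq : φ.range = alternatingGroup (Fin 4) := by
    symm
    refine Subgroup.eq_of_le_of_card_ge hle ?_
    rw [hrange, nat_card_alternatingGroup]
    simp [Nat.factorial]
  exact ⟨(MonoidHom.ofInjective hinj).trans (MulEquiv.subgroupCongr heq)⟩

/-- Embedded in a dihedral `2`-group: cyclic or dihedral. -/
theorem cyclic_or_dihedral {S : Type*} [Group S] [Finite S] (n : ℕ)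
    (f : S →* DihedralGroup (2 ^ n)) (hf : Function.Injective f) :
    IsCyclic S ∨ ∃ m : ℕ, 1 ≤ m ∧ Nonempty (S ≃* DihedralGroup (2 ^ m)) := by
  classical
  haveI : NeZero (2 ^ n) := ⟨by positivity⟩
  let R : Subgroup S := (Subgroup.zpowers (DihedralGroup.r (1 : ZMod (2 ^ n)))).comap f
  haveI hRc : IsCyclic R := by
    let g : R →* Subgroup.zpowers (DihedralGroup.r (1 : ZMod (2 ^ n))) :=
      { toFun := fun x => ⟨f x, x.2⟩
        map_one' := Subtype.ext (map_one f)
        map_mul' := fun a b => Subtype.ext (map_mul f _ _) }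
    apply isCyclic_of_injective g
    intro a b hab
    exact Subtype.ext (hf (congrArg Subtype.val hab))
  have hmemR : ∀ x : S, x ∈ R ↔ ∃ i, f x = DihedralGroup.r i := by
    intro x
    constructor
    · intro hx
      obtain ⟨k, hk⟩ := Subgroup.mem_zpowers_iff.1 hx
      exact ⟨_, (hk.symm.trans (DihedralGroup.r_one_zpow k))⟩
    · rintro ⟨i, hi⟩
      show f x ∈ Subgroup.zpowers (DihedralGroup.r (1 : ZMod (2 ^ n)))
      rw [hi]
      refine Subgroup.mem_zpowers_iff.2 ⟨(i.val : ℤ), ?_⟩
      rw [DihedralGroup.r_one_zpow]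
      simp
  by_cases hR : ∀ x, x ∈ R
  · left
    have : R = ⊤ := (Subgroup.eq_top_iff' _).2 hR
    rw [this] at hRc
    exact isCyclic_of_surjective _ (Subgroup.topEquiv (G := S)).surjective
  push Not at hR
  obtain ⟨b, hb⟩ := hR
  have hb' : ∃ i, f b = DihedralGroup.sr i := by
    rcases h : f b with i | i
    · exact absurd ((hmemR b).2 ⟨i, h⟩) hb
    · exact ⟨i, rfl⟩
  obtain ⟨i, hi⟩ := hb'
  have hbb : b * b = 1 := hf (by rw [map_mul, hi, DihedralGroup.sr_mul_self, map_one])
  have hindex : R.index = 2 := by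
    rw [Subgroup.index_eq_two_iff]
    refine ⟨b, fun x => ?_⟩
    by_cases hx : x ∈ R
    · refine Or.inr ⟨hx, fun h => hb ?_⟩
      have := R.mul_mem (R.inv_mem hx) h
      simpa using this
    · refine Or.inl ⟨?_, hx⟩
      have hx' : ∃ j, f x = DihedralGroup.sr j := by
        rcases h : f x with j | j
        · exact absurd ((hmemR x).2 ⟨j, h⟩) hx
        · exact ⟨j, rfl⟩
      obtain ⟨j, hj⟩ := hx'
      refine (hmemR _).2 ?_
      rw [map_mul, hj, hi, DihedralGroup.sr_mul_sr]
      exact ⟨_, rfl⟩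
  obtain ⟨a, ha⟩ := IsCyclic.exists_ofOrder_eq_natCard (α := R)
  have hcardR : Nat.card R ∣ 2 ^ n := by
    let g : R →* Subgroup.zpowers (DihedralGroup.r (1 : ZMod (2 ^ n))) :=
      { toFun := fun x => ⟨f x, x.2⟩
        map_one' := Subtype.ext (map_one f)
        map_mul' := fun a b => Subtype.ext (map_mul f _ _) }
    have hg : Function.Injective g := by
      intro a b hab
      exact Subtype.ext (hf (congrArg Subtype.val hab))
    have h1 := Subgroup.card_dvd_of_injective g hg
    rwa [Nat.card_zpowers, DihedralGroup.orderOf_r_one] at h1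
  obtain ⟨k, _, hk⟩ := (Nat.dvd_prime_pow Nat.prime_two).1 hcardR
  have ha' : orderOf (a : S) = 2 ^ k := by
    rw [Subgroup.orderOf_coe, ha, hk]
  have hcardS : Nat.card S = 2 * 2 ^ k := by
    rw [← R.index_mul_card, hindex, hk]
  have hdih : Nonempty (S ≃* DihedralGroup (2 ^ k)) := by
    refine nonempty_dihedral (a := (a : S)) (b := b) ha' hbb ?_ ?_ hcardS
    · obtain ⟨j, hj⟩ := (hmemR a).1 a.2
      apply hf
      rw [map_mul, map_mul, map_inv, map_inv, hi, hj, DihedralGroup.inv_sr, DihedralGroup.inv_r,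
        DihedralGroup.sr_mul_r, DihedralGroup.sr_mul_sr]
      congr 1
      ring
    · intro hmem
      apply hb
      have hle : Subgroup.zpowers (a : S) ≤ R := by
        rw [Subgroup.zpowers_le]
        exact a.2
      exact hle hmem
  by_cases hk0 : k = 0
  · left
    subst hk0
    have h2 : (Nat.card S).Prime := by
      rw [hcardS]
      exact Nat.prime_two
    exact isCyclic_of_prime_card (p := Nat.card S) (hp := ⟨h2⟩) rfl
  · exact Or.inr ⟨k, Nat.one_le_iff_ne_zero.2 hk0, hdih⟩

/-- A cyclic normal Sylow `2`-subgroup is central. -/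
theorem le_center_of_isCyclic {H : Type*} [Group H] [Finite H] (S : Sylow 2 H)
    (hSn : (S : Subgroup H).Normal) (hc : IsCyclic S) : (S : Subgroup H) ≤ Subgroup.center H := by
  classical
  by_cases hS1 : (S : Subgroup H) = ⊥
  · rw [hS1]
    exact bot_le
  have h2 : 2 ∣ Nat.card H := by
    obtain ⟨k, hk⟩ := S.isPGroup'.exists_card_eq
    have h3 : 2 ∣ Nat.card S := by
      rw [hk]
      apply dvd_pow_self
      rintro rfl
      apply hS1
      rw [pow_zero] at hk
      exact Subgroup.card_eq_one.1 hk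
    exact h3.trans (Subgroup.card_subgroup_dvd_card _)
  have hmin : (Nat.card H).minFac = 2 := (Nat.minFac_eq_two_iff _).2 h2
  have h1 := IsCyclic.normalizer_le_centralizer (G := H) hmin (P := S) hc
  intro s hs
  rw [Subgroup.mem_center_iff]
  intro h
  have hN : h ∈ Subgroup.normalizer ((S : Subgroup H) : Set H) := by
    rw [Subgroup.normalizer_eq_top_iff.2 hSn]
    trivial
  exact ((Subgroup.mem_centralizer_iff.1 (h1 hN)) s hs).symm

end Aux

section Main

variable {G : Type*} [Group G] [Finite G]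

/-- The hypothesis of the statement. -/
def Restricted2 (G : Type*) [Group G] : Prop :=
  ∀ H : Subgroup G, (∀ S : Sylow 2 ↥H, (S : Subgroup ↥H).Normal) →
    (∀ (S : Sylow 2 ↥H) [(S : Subgroup ↥H).Normal], IsCyclic (↥H ⧸ (S : Subgroup ↥H))) →
    IsCyclic H ∨ (∃ n : ℕ, Nonempty (H ≃* DihedralGroup (2 ^ n))) ∨ Nonempty (H ≃* alternatingGroup (Fin 4))

/-- The Klein condition, conjugation free. -/
def KleinCond (G : Type*) [Group G] : Prop :=
  ∀ K : Subgroup G, Nat.card K = 4 → (∀ k ∈ K, k ^ 2 = 1) → Subgroup.centralizer (K : Set G) = K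

theorem isCyclic_quot (Q : Subgroup G) (x : G)
    (hzle : Subgroup.zpowers x ≤ Subgroup.normalizer (Q : Set G))
    [(Q.subgroupOf (Q ⊔ Subgroup.zpowers x)).Normal] :
    IsCyclic (↥(Q ⊔ Subgroup.zpowers x) ⧸ Q.subgroupOf (Q ⊔ Subgroup.zpowers x)) := by
  have hxH : x ∈ Q ⊔ Subgroup.zpowers x :=
    (le_sup_right : Subgroup.zpowers x ≤ Q ⊔ Subgroup.zpowers x) (Subgroup.mem_zpowers x)
  refine ⟨⟨((⟨x, hxH⟩ : ↥(Q ⊔ Subgroup.zpowers x)) : _ ⧸ Q.subgroupOf (Q ⊔ Subgroup.zpowers x)), ?_⟩⟩
  intro g
  induction g using QuotientGroup.induction_on with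
  | H g =>
    obtain ⟨q, hq, a, ha, hg⟩ := Cfsg.Agent.Lib.Coprime.Action.exists_mul_of_mem_sup hzle g.2
    obtain ⟨k, rfl⟩ := Subgroup.mem_zpowers_iff.1 ha
    refine Subgroup.mem_zpowers_iff.2 ⟨k, ?_⟩
    rw [← QuotientGroup.mk_zpow, eq_comm, QuotientGroup.eq]
    show ((g⁻¹ * ⟨x, hxH⟩ ^ k : ↥(Q ⊔ Subgroup.zpowers x)) : G) ∈ Q
    have h1 : ((g⁻¹ * ⟨x, hxH⟩ ^ k : ↥(Q ⊔ Subgroup.zpowers x)) : G) = (g : G)⁻¹ * x ^ k := by simp
    rw [h1, hg]
    have h2 : (x ^ k)⁻¹ ∈ Subgroup.normalizer (Q : Set G) := Subgroup.inv_mem _ (hzle ha)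
    have h3 := (Subgroup.mem_normalizer_iff.1 h2 q⁻¹).1 (Q.inv_mem hq)
    have h4 : (q * x ^ k)⁻¹ * x ^ k = (x ^ k)⁻¹ * q⁻¹ * ((x ^ k)⁻¹)⁻¹ := by group
    rw [h4]
    exact h3

theorem not_comm_A4 : ¬ ∀ a b : alternatingGroup (Fin 4), a * b = b * a := by
  decide

/-- Klein subgroups are self-centralizing under the restriction. -/
theorem klein_cond (hA : Restricted2 G) (P : Sylow 2 G) {n : ℕ}
    (e : (P : Subgroup G) ≃* DihedralGroup (2 ^ n)) (K : Subgroup G) (hK4 : Nat.card K = 4)
    (hK2 : ∀ k ∈ K, k ^ 2 = 1) : Subgroup.centralizer (K : Set G) = K := by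
  classical
  have hKcomm : ∀ a ∈ K, ∀ b ∈ K, a * b = b * a := by
    intro a ha b hb
    have h1 := hK2 _ (K.mul_mem ha hb)
    have h2 := hK2 _ ha
    have h3 := hK2 _ hb
    rw [pow_two] at h1 h2 h3
    calc a * b = a * (a * b * (a * b)) * b := by rw [h1]; group
      _ = (a * a) * b * a * (b * b) := by group
      _ = b * a := by rw [h2, h3]; group
  apply le_antisymm
  swap
  · intro k hk
    rw [Subgroup.mem_centralizer_iff]
    intro y hy
    exact hKcomm y hy k hk
  intro x hx
  have hzle : Subgroup.zpowers x ≤ Subgroup.normalizer (K : Set G) :=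
    (Subgroup.zpowers_le).2 (Subgroup.centralizer_le_normalizer _ hx)
  set H : Subgroup G := K ⊔ Subgroup.zpowers x with hH
  have hKH : K ≤ H := le_sup_left
  have hxH : x ∈ H := (le_sup_right : Subgroup.zpowers x ≤ H) (Subgroup.mem_zpowers x)
  have hHN : H ≤ Subgroup.normalizer (K : Set G) := sup_le Subgroup.le_normalizer hzle
  haveI hK'n : (K.subgroupOf H).Normal := Subgroup.normal_subgroupOf_of_le_normalizer hHN
  have hKp : IsPGroup 2 K := IsPGroup.of_card (n := 2) (by rw [hK4]; norm_num)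
  have hK' : IsPGroup 2 (K.subgroupOf H) := hKp.comap_subtype
  haveI hcyc : IsCyclic (H ⧸ K.subgroupOf H) := isCyclic_quot K x hzle
  obtain ⟨hn, hq⟩ := sylow_conditions (p := 2) (K.subgroupOf H) hK'
  have hxK : ∀ k ∈ K, x * k = k * x := by
    intro k hk
    exact ((Subgroup.mem_centralizer_iff.1 hx) k hk).symm
  rcases hA H hn hq with hc | ⟨m, ⟨e'⟩⟩ | ⟨⟨e'⟩⟩
  · exfalso
    haveI := Fintype.ofFinite H
    have h1 : (Finset.univ.filter (fun a : H => a ^ 2 = 1)).card ≤ 2 :=
      IsCyclic.card_pow_eq_one_le (by norm_num)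
    let f : K → (Finset.univ.filter (fun a : H => a ^ 2 = 1)) := fun k =>
      ⟨⟨k, hKH k.2⟩, by
        simp only [Finset.mem_filter, Finset.mem_univ, true_and]
        exact Subtype.ext (hK2 k k.2)⟩
    have hf : Function.Injective f := by
      intro a b hab
      have := congrArg Subtype.val (congrArg Subtype.val hab)
      exact Subtype.ext this
    have h2 := Nat.card_le_card_of_injective f hf
    rw [hK4, Nat.card_eq_fintype_card, Fintype.card_coe] at h2
    omega
  · have hHp : IsPGroup 2 H := by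
      apply IsPGroup.of_card (n := m + 1)
      rw [Nat.card_congr e'.toEquiv, DihedralGroup.nat_card, pow_succ]
      ring
    obtain ⟨P'', hP''⟩ := hHp.exists_le_sylow
    let e₂ : (P'' : Subgroup G) ≃* DihedralGroup (2 ^ n) := (Sylow.equiv P'' P).trans e
    haveI : NeZero (2 ^ n) := ⟨by positivity⟩
    have hle : K ≤ P'' := hKH.trans hP''
    have hU : IsKleinFour (K.subgroupOf (P'' : Subgroup G)) := by
      apply isKleinFour_of_card_of_sq
      · rw [Nat.card_congr (Subgroup.subgroupOfEquivOfLe hle).toEquiv, hK4]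
      · intro y
        apply Subtype.ext
        apply Subtype.ext
        exact hK2 _ y.2
    have h1 := klein_centralizer_of_equiv e₂ (fun U hU => klein_centralizer U hU) _ hU
    have h2 : (⟨x, hP'' hxH⟩ : (P'' : Subgroup G)) ∈
        Subgroup.centralizer ((K.subgroupOf (P'' : Subgroup G) : Subgroup (P'' : Subgroup G)) : Set (P'' : Subgroup G)) := by
      rw [Subgroup.mem_centralizer_iff]
      intro u hu
      apply Subtype.ext
      exact (hxK u hu).symm
    rw [h1] at h2
    exact h2
  · exfalso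
    apply not_comm_A4
    intro a b
    apply e'.symm.injective
    rw [map_mul, map_mul]
    have hcomm : ∀ u v : H, u * v = v * u := by
      rintro ⟨u, hu⟩ ⟨v, hv⟩
      apply Subtype.ext
      show u * v = v * u
      obtain ⟨k₁, hk₁, a₁, ha₁, rfl⟩ := Cfsg.Agent.Lib.Coprime.Action.exists_mul_of_mem_sup hzle hu
      obtain ⟨k₂, hk₂, a₂, ha₂, rfl⟩ := Cfsg.Agent.Lib.Coprime.Action.exists_mul_of_mem_sup hzle hv
      obtain ⟨i, rfl⟩ := Subgroup.mem_zpowers_iff.1 ha₁
      obtain ⟨j, rfl⟩ := Subgroup.mem_zpowers_iff.1 ha₂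
      have h1 : Commute k₁ k₂ := hKcomm _ hk₁ _ hk₂
      have h2 : Commute (x ^ i) k₂ := (show Commute x k₂ from hxK _ hk₂).zpow_left i
      have h3 : Commute k₁ (x ^ j) := ((show Commute x k₁ from hxK _ hk₁).zpow_left j).symm
      have h4 : Commute (x ^ i) (x ^ j) := (Commute.refl x).zpow_zpow i j
      exact ((h1.mul_right h3).mul_left (h2.mul_right h4)).eq
    exact hcomm _ _

/-- The forward direction. -/
theorem forward (hA : Restricted2 G) (P : Sylow 2 G) :
    (IsCyclic P ∨
      ((∃ n : ℕ, 1 ≤ n ∧ Nonempty ((P : Subgroup G) ≃* DihedralGroup (2 ^ n))) ∧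
        ∀ K : Subgroup G, K ≤ P → Nat.card K = 4 → (∀ k ∈ K, k ^ 2 = 1) → Subgroup.centralizer (K : Set G) = K)) := by
  classical
  have hPp : IsPGroup 2 (P : Subgroup G) := P.isPGroup'
  have hQ : IsPGroup 2 (⊤ : Subgroup (P : Subgroup G)) := by
    intro x
    obtain ⟨k, hk⟩ := hPp x.1
    exact ⟨k, Subtype.ext hk⟩
  haveI : Subsingleton ((P : Subgroup G) ⧸ (⊤ : Subgroup (P : Subgroup G))) :=
    QuotientGroup.subsingleton_quotient_top
  haveI : IsCyclic ((P : Subgroup G) ⧸ (⊤ : Subgroup (P : Subgroup G))) := isCyclic_of_subsingleton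
  obtain ⟨hn, hq⟩ := sylow_conditions (p := 2) (⊤ : Subgroup (P : Subgroup G)) hQ
  rcases hA _ hn hq with hc | ⟨n, ⟨e⟩⟩ | ⟨⟨e⟩⟩
  · exact Or.inl hc
  · by_cases hn0 : n = 0
    · left
      subst hn0
      have h1 := Nat.card_congr e.toEquiv
      rw [DihedralGroup.nat_card] at h1
      have h2 : (Nat.card (P : Subgroup G)).Prime := by
        rw [h1]
        exact Nat.prime_two
      exact isCyclic_of_prime_card (p := Nat.card (P : Subgroup G)) (hp := ⟨h2⟩) rfl
    · right
      refine ⟨⟨n, Nat.one_le_iff_ne_zero.2 hn0, ⟨e⟩⟩, ?_⟩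
      intro K _ hK4 hK2
      exact klein_cond hA P e K hK4 hK2
  · exfalso
    obtain ⟨k, hk⟩ := hPp.exists_card_eq
    have h1 := Nat.card_congr e.toEquiv
    rw [nat_card_alternatingGroup, hk] at h1
    have h2 : (3 : ℕ) ∣ 2 ^ k := by
      rw [h1]
      simp [Nat.factorial]
    have h3 := Nat.Prime.dvd_of_dvd_pow Nat.prime_three h2
    omega

theorem kleinCond_of_le (P : Sylow 2 G)
    (hK : ∀ K : Subgroup G, K ≤ P → Nat.card K = 4 → (∀ k ∈ K, k ^ 2 = 1) → Subgroup.centralizer (K : Set G) = K) :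
    KleinCond G := by
  classical
  intro K' hK4 hK2
  have hKp : IsPGroup 2 K' := IsPGroup.of_card (n := 2) (by rw [hK4]; norm_num)
  obtain ⟨P'', hP''⟩ := hKp.exists_le_sylow
  obtain ⟨g, hg⟩ := MulAction.exists_smul_eq G P P''
  set K : Subgroup G := MulAut.conj g⁻¹ • K' with hKdef
  have hmem : ∀ x, x ∈ K ↔ g * x * g⁻¹ ∈ K' := by
    intro x
    rw [hKdef, Cfsg.Agent.Lib.Frobenius.Basic.mem_conj_iff]
    simp
  have hle : K ≤ P := by
    intro x hx
    have h1 := hP'' ((hmem x).1 hx)
    rw [← hg] at h1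
    have h2 := Cfsg.Agent.Lib.Frobenius.Basic.mem_conj_iff.1 h1
    have h3 : g⁻¹ * (g * x * g⁻¹) * g = x := by group
    rwa [h3] at h2
  have hcard : Nat.card K = 4 := by
    rw [hKdef, Cfsg.Agent.Lib.Coprime.SchurZassenhaus.card_conj_smul, hK4]
  have hexp : ∀ k ∈ K, k ^ 2 = 1 := by
    intro k hk
    have h1 := hK2 _ ((hmem k).1 hk)
    rw [conj_pow] at h1
    have h2 : k ^ 2 = g⁻¹ * (g * k ^ 2 * g⁻¹) * g := by group
    rw [h2, h1]
    group
  have h1 := hK K hle hcard hexp
  have hK'eq : K' = MulAut.conj g • K := by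
    rw [hKdef, smul_smul, ← map_mul, mul_inv_cancel, map_one, one_smul]
  apply le_antisymm
  · intro x hx
    rw [hK'eq] at hx
    have h2 := mem_centralizer_conj_iff.1 hx
    rw [h1] at h2
    have h3 := (hmem _).1 h2
    have h4 : g * (g⁻¹ * x * g) * g⁻¹ = x := by group
    rwa [h4] at h3
  · intro x hx
    rw [hK'eq]
    apply mem_centralizer_conj_iff.2
    rw [h1]
    apply (hmem _).2
    have h4 : g * (g⁻¹ * x * g) * g⁻¹ = x := by group
    rwa [h4]

/-- Case of a large dihedral Sylow subgroup. -/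
theorem case_b (hK4 : KleinCond G) (H : Subgroup G) (S : Sylow 2 H) (hSn : (S : Subgroup H).Normal)
    {m : ℕ} (hm : 2 ≤ m) (e₂ : (S : Subgroup H) ≃* DihedralGroup (2 ^ m)) :
    Nonempty (H ≃* DihedralGroup (2 ^ m)) := by
  classical
  haveI := hSn
  haveI : NeZero (2 ^ m) := ⟨by positivity⟩
  have hev : Even (2 ^ m) := (Nat.even_pow' (by omega)).2 (by decide)
  have h2m : 2 ≤ 2 ^ m := by
    calc 2 = 2 ^ 1 := rfl
      _ ≤ 2 ^ m := Nat.pow_le_pow_right (by norm_num) (by omega)
  let K₀ : Subgroup (DihedralGroup (2 ^ m)) := kl hev 0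
  have hK₀ : IsKleinFour K₀ := isKleinFour_kl hev h2m 0
  let ι : DihedralGroup (2 ^ m) →* G :=
    (H.subtype.comp (S : Subgroup H).subtype).comp e₂.symm.toMonoidHom
  have hι : Function.Injective ι := by
    intro a b hab
    apply e₂.symm.injective
    exact Subtype.ext (Subtype.ext hab)
  have hK'' := isKleinFour_map hK₀ ι hι
  set K'' : Subgroup G := K₀.map ι with hK''def
  have hc : Subgroup.centralizer (K'' : Set G) = K'' := by
    apply hK4 K'' hK''.card_four
    intro k hk
    have h1 : (⟨k, hk⟩ : K'') ^ 2 = 1 := by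
      rw [sq]
      exact IsKleinFour.mul_self _
    exact congrArg Subtype.val h1
  have hodd : ∀ h : H, Odd (orderOf h) → h = 1 := by
    intro h hh
    let c : MulAut (S : Subgroup H) := MulAut.conjNormal h
    have hα : (MulAut.congr e₂ c) ^ orderOf h = 1 := by
      rw [← map_pow, ← map_pow, pow_orderOf_eq_one, map_one, map_one]
    have hα1 := Cfsg.Agent.Lib.FusionExt.AutDih.dih_odd hm _ _ hh hα
    have hc1 : c = 1 := by
      apply (MulAut.congr e₂).injective
      rw [hα1, map_one]
    have hcomm : ∀ s : (S : Subgroup H), (h : H) * s * h⁻¹ = s := by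
      intro s
      have := congrArg (fun φ : MulAut (S : Subgroup H) => ((φ s : (S : Subgroup H)) : H)) hc1
      simpa [c, MulAut.conjNormal_apply] using this
    have hmem : (h : G) ∈ Subgroup.centralizer (K'' : Set G) := by
      rw [Subgroup.mem_centralizer_iff]
      rintro _ ⟨d, hd, rfl⟩
      have h1 := hcomm (e₂.symm d)
      have h2 : (h : H) * (e₂.symm d : (S : Subgroup H)) = (e₂.symm d : (S : Subgroup H)) * h := by
        calc (h : H) * (e₂.symm d : (S : Subgroup H)) =
            ((h : H) * (e₂.symm d : (S : Subgroup H)) * h⁻¹) * h := by group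
          _ = _ := by rw [h1]
      exact (congrArg Subtype.val h2).symm
    rw [hc] at hmem
    have h1 : (⟨h, hmem⟩ : K'') ^ 2 = 1 := by
      rw [sq]
      exact IsKleinFour.mul_self _
    have h2 : (h : G) ^ 2 = 1 := congrArg Subtype.val h1
    have h3 : h ^ 2 = 1 := Subtype.ext h2
    have h4 := orderOf_dvd_of_pow_eq_one h3
    have h5 : orderOf h = 1 := by
      rcases (Nat.dvd_prime Nat.prime_two).1 h4 with h6 | h6
      · exact h6
      · rw [h6] at hh
        exact absurd hh (by decide)
    exact orderOf_eq_one_iff.1 h5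
  have hindex : (S : Subgroup H).index = 1 := by
    by_contra hne
    obtain ⟨r, hr, hrd⟩ := Nat.exists_prime_and_dvd hne
    haveI := Fact.mk hr
    have hr2 : r ≠ 2 := by
      rintro rfl
      exact S.not_dvd_index hrd
    have hr3 : r ∣ Nat.card H := hrd.trans (Subgroup.index_dvd_card _)
    obtain ⟨h, hh⟩ := exists_prime_orderOf_dvd_card' r hr3
    have h1 := hodd h (by rw [hh]; exact hr.odd_of_ne_two hr2)
    rw [h1, orderOf_one] at hh
    exact hr.one_lt.ne hh
  have hStop : (S : Subgroup H) = ⊤ := Subgroup.index_eq_one.1 hindex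
  exact ⟨(Subgroup.topEquiv.symm.trans (MulEquiv.subgroupCongr hStop.symm)).trans e₂⟩

/-- Case of a Klein four Sylow subgroup. -/
theorem case_c (hK4 : KleinCond G) (H : Subgroup G) (S : Sylow 2 H) (hSn : (S : Subgroup H).Normal)
    (e₂ : (S : Subgroup H) ≃* DihedralGroup (2 ^ 1)) :
    Nonempty (H ≃* DihedralGroup (2 ^ 1)) ∨ Nonempty (H ≃* alternatingGroup (Fin 4)) := by
  classical
  haveI := hSn
  have hD2 : ∀ d : DihedralGroup (2 ^ 1), d ^ 2 = 1 := by decide
  have hScard : Nat.card (S : Subgroup H) = 4 := by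
    rw [Nat.card_congr e₂.toEquiv, DihedralGroup.nat_card]
    norm_num
  have hS2 : ∀ s : (S : Subgroup H), s ^ 2 = 1 := by
    intro s
    apply e₂.injective
    rw [map_pow, hD2, map_one]
  have hScomm : ∀ a b : (S : Subgroup H), a * b = b * a := by
    intro a b
    have h1 := hS2 (a * b)
    have h2 := hS2 a
    have h3 := hS2 b
    rw [pow_two] at h1 h2 h3
    calc a * b = a * (a * b * (a * b)) * b := by rw [h1]; group
      _ = (a * a) * b * a * (b * b) := by group
      _ = b * a := by rw [h2, h3]; group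
  set T : Subgroup G := (S : Subgroup H).map H.subtype with hT
  have hTcard : Nat.card T = 4 := by
    rw [hT, Subgroup.card_map_of_injective H.subtype_injective, hScard]
  have hTexp : ∀ k ∈ T, k ^ 2 = 1 := by
    rintro _ ⟨s, hs, rfl⟩
    have h1 := hS2 ⟨s, hs⟩
    exact congrArg (fun z : (S : Subgroup H) => ((z : H) : G)) h1
  have hC := hK4 T hTcard hTexp
  -- the permutation action on the non-identity elements
  let W := {y : (S : Subgroup H) // y ≠ 1}
  have hWcard : Nat.card W = 3 := by
    haveI := Fintype.ofFinite (S : Subgroup H)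
    rw [Nat.card_eq_fintype_card, Fintype.card_subtype_compl, Fintype.card_subtype_eq,
      ← Nat.card_eq_fintype_card, hScard]
  let Ψ : H →* Equiv.Perm W := MonoidHom.mk'
    (fun h => Equiv.Perm.subtypePerm (MulAut.conjNormal h : MulAut (S : Subgroup H)).toEquiv (by
      intro y
      simp))
    (by
      intro a b
      ext y
      simp [Equiv.Perm.subtypePerm_apply])
  have hΨ : ∀ (h : H) (y : W), (((Ψ h) y : W) : (S : Subgroup H)) =
      (MulAut.conjNormal h : MulAut (S : Subgroup H)) y.1 := fun _ _ => rfl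
  have hker : Ψ.ker = (S : Subgroup H) := by
    apply le_antisymm
    · intro h hh
      have hh' : Ψ h = 1 := hh
      have h1 : ∀ s : (S : Subgroup H), (h : H) * s * h⁻¹ = s := by
        intro s
        by_cases hs : s = 1
        · subst hs
          simp
        · have h2 := congrArg (fun σ : Equiv.Perm W => ((σ ⟨s, hs⟩ : W) : (S : Subgroup H))) hh'
          simp only [hΨ] at h2
          have h3 := congrArg Subtype.val h2
          simpa [MulAut.conjNormal_apply] using h3
      have h2 : (h : G) ∈ Subgroup.centralizer (T : Set G) := by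
        rw [Subgroup.mem_centralizer_iff]
        rintro _ ⟨s, hs, rfl⟩
        have h3 := h1 ⟨s, hs⟩
        have h4 : (h : H) * s = s * h := by
          calc (h : H) * s = ((h : H) * s * h⁻¹) * h := by group
            _ = _ := by rw [h3]
        exact (congrArg Subtype.val h4).symm
      rw [hC] at h2
      obtain ⟨s, hs, hs2⟩ := h2
      have : s = h := Subtype.ext hs2
      rwa [← this]
    · intro s hs
      show Ψ s = 1
      ext y
      rw [hΨ]
      simp only [Equiv.Perm.coe_one, id_eq]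
      have h1 := hScomm ⟨s, hs⟩ y.1
      have h2 : (s : H) * (y.1 : H) * s⁻¹ = y.1 := by
        have h3 := congrArg Subtype.val h1
        simp only [Subgroup.coe_mul] at h3
        rw [h3]
        group
      have h4 := congrArg Subtype.val h2
      simpa [MulAut.conjNormal_apply] using h4
  have hidx : (S : Subgroup H).index ∣ 6 := by
    rw [← hker, Subgroup.index_ker]
    have h1 := Subgroup.card_subgroup_dvd_card Ψ.range
    have h2 : Nat.card (Equiv.Perm W) = 6 := by
      haveI := Fintype.ofFinite W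
      rw [Nat.card_eq_fintype_card, Fintype.card_perm, ← Nat.card_eq_fintype_card, hWcard]
      rfl
    rwa [h2] at h1
  have hodd : ¬ 2 ∣ (S : Subgroup H).index := S.not_dvd_index
  have hcases : (S : Subgroup H).index = 1 ∨ (S : Subgroup H).index = 3 := by
    have h1 := Nat.le_of_dvd (by norm_num) hidx
    have h0 : (S : Subgroup H).index ≠ 0 := Subgroup.index_ne_zero_of_finite
    generalize (S : Subgroup H).index = i at *
    interval_cases i <;> simp_all <;> omega
  rcases hcases with h1 | h3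
  · left
    have hStop : (S : Subgroup H) = ⊤ := Subgroup.index_eq_one.1 h1
    exact ⟨(Subgroup.topEquiv.symm.trans (MulEquiv.subgroupCongr hStop.symm)).trans e₂⟩
  · right
    have hcard : Nat.card H = 12 := by
      rw [← (S : Subgroup H).index_mul_card, h3, hScard]
    haveI : Fact (Nat.Prime 3) := ⟨Nat.prime_three⟩
    obtain ⟨a, ha⟩ := exists_prime_orderOf_dvd_card' (G := H) 3 (by rw [hcard]; norm_num)
    apply iso_A4_of_card12 hcard (Subgroup.zpowers a) (by rw [Nat.card_zpowers, ha])
    intro hAn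
    -- `a` centralizes `S`
    have hcomm : ∀ s ∈ (S : Subgroup H), a * s * a⁻¹ * s⁻¹ = 1 := by
      intro s hs
      have h1 : a * s * a⁻¹ * s⁻¹ ∈ (S : Subgroup H) :=
        (S : Subgroup H).mul_mem (hSn.conj_mem s hs a) ((S : Subgroup H).inv_mem hs)
      have h2 : a * s * a⁻¹ * s⁻¹ ∈ Subgroup.zpowers a := by
        have h3 : s * a⁻¹ * s⁻¹ ∈ Subgroup.zpowers a :=
          hAn.conj_mem _ (Subgroup.inv_mem _ (Subgroup.mem_zpowers a)) s
        have h4 := Subgroup.mul_mem _ (Subgroup.mem_zpowers a) h3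
        simpa [mul_assoc] using h4
      have h5 : (a * s * a⁻¹ * s⁻¹) ^ 2 = 1 := by
        have := hS2 ⟨_, h1⟩
        exact congrArg Subtype.val this
      obtain ⟨k, hk⟩ := Subgroup.mem_zpowers_iff.1 h2
      have h6 : (a * s * a⁻¹ * s⁻¹) ^ 3 = 1 := by
        rw [← hk, ← zpow_natCast, ← zpow_mul, mul_comm, zpow_mul, zpow_natCast, ← ha,
          pow_orderOf_eq_one, one_zpow]
      have h7 : a * s * a⁻¹ * s⁻¹ = 1 := by
        have h8 : (a * s * a⁻¹ * s⁻¹) ^ 3 = (a * s * a⁻¹ * s⁻¹) ^ 2 * (a * s * a⁻¹ * s⁻¹) := pow_succ _ 2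
        rw [h5, one_mul, h6] at h8
        exact h8.symm
      exact h7
    have h1 : (a : G) ∈ Subgroup.centralizer (T : Set G) := by
      rw [Subgroup.mem_centralizer_iff]
      rintro _ ⟨s, hs, rfl⟩
      have h3 := hcomm s hs
      have h4 : a * s = s * a := by
        rw [mul_inv_eq_one, mul_inv_eq_iff_eq_mul] at h3
        exact h3
      exact (congrArg Subtype.val h4).symm
    rw [hC] at h1
    obtain ⟨s, hs, hs2⟩ := h1
    have h2 : s = a := Subtype.ext hs2
    rw [h2] at hs
    have h5 := hS2 ⟨a, hs⟩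
    have h6 : a ^ 2 = 1 := congrArg Subtype.val h5
    have h7 := orderOf_dvd_of_pow_eq_one h6
    rw [ha] at h7
    omega

/-- The backward direction. -/
theorem backward (P : Sylow 2 G) (hB : IsCyclic P ∨
      ((∃ n : ℕ, 1 ≤ n ∧ Nonempty ((P : Subgroup G) ≃* DihedralGroup (2 ^ n))) ∧
        ∀ K : Subgroup G, K ≤ P → Nat.card K = 4 → (∀ k ∈ K, k ^ 2 = 1) → Subgroup.centralizer (K : Set G) = K)) :
    Restricted2 G := by
  classical
  intro H hn hq
  obtain ⟨S⟩ : Nonempty (Sylow 2 H) := inferInstance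
  haveI hSn := hn S
  haveI hqS := hq S
  set T : Subgroup G := (S : Subgroup H).map H.subtype with hT
  have hTp : IsPGroup 2 T := S.isPGroup'.map _
  obtain ⟨P', hP'⟩ := hTp.exists_le_sylow
  let ι : (S : Subgroup H) →* P' :=
    { toFun := fun s => ⟨(s : H), hP' ⟨_, s.2, rfl⟩⟩
      map_one' := rfl
      map_mul' := fun _ _ => rfl }
  have hι : Function.Injective ι := by
    intro a b hab
    have := congrArg Subtype.val hab
    exact Subtype.ext (Subtype.ext this)
  have hScop : (Nat.card (S : Subgroup H)).Coprime (Nat.card (H ⧸ (S : Subgroup H))) :=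
    S.card_coprime_index
  have hfinish : IsCyclic (S : Subgroup H) → IsCyclic H := by
    intro hc
    haveI := hc
    have hcen := le_center_of_isCyclic S hSn hc
    apply isCyclic_of_comm (S := (S : Subgroup H)) _ hScop
    intro a b
    apply commutative_of_cyclic_center_quotient (QuotientGroup.mk' (S : Subgroup H))
    rw [QuotientGroup.ker_mk']
    exact hcen
  rcases hB with hc | ⟨⟨n, hn1, ⟨e⟩⟩, hK⟩
  · left
    apply hfinish
    have hP'c : IsCyclic P' := isCyclic_of_surjective _ (Sylow.equiv P P').surjective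
    exact isCyclic_of_injective ι hι
  · have hK4 := kleinCond_of_le P hK
    let f : (S : Subgroup H) →* DihedralGroup (2 ^ n) :=
      (((Sylow.equiv P' P).trans e).toMonoidHom).comp ι
    have hf : Function.Injective f := by
      intro a b hab
      exact hι (((Sylow.equiv P' P).trans e).injective hab)
    rcases cyclic_or_dihedral n f hf with hc | ⟨m, hm, ⟨e₂⟩⟩
    · exact Or.inl (hfinish hc)
    · right
      by_cases hm1 : m = 1
      · subst hm1
        rcases case_c hK4 H S hSn e₂ with h | h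
        · exact Or.inl ⟨1, h⟩
        · exact Or.inr h
      · exact Or.inl ⟨m, case_b hK4 H S hSn (by omega) e₂⟩

end Main


/-- Let G be a finite group with Sylow 2-subgroup P. Every subgroup H of G whose Sylow 2-subgroup is normal in H with cyclic quotient is cyclic, dihedral of 2-power order, or isomorphic to the alternating group of degree 4, if and only if either P is cyclic, or P is dihedral (of order at least 4) and every elementary abelian subgroup K of order 4 of P satisfies C_G(K) = K. -/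
theorem result {G : Type*} [Group G] [Finite G] (P : Sylow 2 G) :
    (∀ H : Subgroup G, (∀ S : Sylow 2 ↥H, (S : Subgroup ↥H).Normal) →
        (∀ (S : Sylow 2 ↥H) [(S : Subgroup ↥H).Normal], IsCyclic (↥H ⧸ (S : Subgroup ↥H))) →
        IsCyclic H ∨ (∃ n : ℕ, Nonempty (H ≃* DihedralGroup (2 ^ n))) ∨ Nonempty (H ≃* alternatingGroup (Fin 4))) ↔
    (IsCyclic P ∨
      ((∃ n : ℕ, 1 ≤ n ∧ Nonempty ((P : Subgroup G) ≃* DihedralGroup (2 ^ n))) ∧
        ∀ K : Subgroup G, K ≤ P → Nat.card K = 4 → (∀ k ∈ K, k ^ 2 = 1) → Subgroup.centralizer (K : Set G) = K)) := by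
  constructor
  · intro hA
    exact forward hA P
  · intro hB
    exact backward P hB

end Cfsg.Agent.S4083
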