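import Cfsg.Statements.S4084
import Mathlib
-- import your own Cfsg.Agent.* helpers here

set_option autoImplicit false
open Cfsg

namespace Cfsg.Agent.S4084


theorem fwd {G H : Type*} [Group G] [Finite G] [Group H] [Finite H] (e : G ≃ H)
    (he : ∀ x y : G, Commute x y ↔ Commute (e x) (e y))
    {p q : ℕ} (hp : p.Prime) (hq : q.Prime) (hpq : p ≠ q)
    (h : ∃ g : G, orderOf g = p * q) : ∃ h : H, orderOf h = p * q := by
  classical
  obtain ⟨g, hg⟩ := h
  let D : Subgroup G := Subgroup.centralizer (Subgroup.centralizer ({g} : Set G) : Set G)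
  let D' : Subgroup H := Subgroup.centralizer (Subgroup.centralizer ({e g} : Set H) : Set H)
  have hD : ∀ a : G, a ∈ D ↔ ∀ c : G, Commute c g → Commute c a := by
    intro a
    constructor
    · intro h c hc
      exact (Subgroup.mem_centralizer_iff.1 h c (Subgroup.mem_centralizer_singleton_iff.2 hc.eq))
    · intro h
      refine Subgroup.mem_centralizer_iff.2 fun c hc => ?_
      exact h c (Subgroup.mem_centralizer_singleton_iff.1 hc)
  have hD' : ∀ a : H, a ∈ D' ↔ ∀ c : H, Commute c (e g) → Commute c a := by
    intro a
    constructor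
    · intro h c hc
      exact (Subgroup.mem_centralizer_iff.1 h c (Subgroup.mem_centralizer_singleton_iff.2 hc.eq))
    · intro h
      refine Subgroup.mem_centralizer_iff.2 fun c hc => ?_
      exact h c (Subgroup.mem_centralizer_singleton_iff.1 hc)
  have hDD' : ∀ a : G, a ∈ D ↔ e a ∈ D' := by
    intro a
    rw [hD, hD']
    constructor
    · intro h c hc
      obtain ⟨c', rfl⟩ := e.surjective c
      exact (he _ _).1 (h c' ((he _ _).2 hc))
    · intro h c hc
      exact (he _ _).2 (h (e c) ((he _ _).1 hc))
  have hcard : Nat.card D = Nat.card D' := Nat.card_congr (e.subtypeEquiv hDD')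
  have hgD : g ∈ D := (hD g).2 (fun c hc => hc)
  have hdvd : p * q ∣ Nat.card D' := by
    rw [← hcard, ← hg]
    have : orderOf (⟨g, hgD⟩ : D) = orderOf g := Subgroup.orderOf_mk g hgD
    rw [← this]
    exact orderOf_dvd_natCard _
  haveI := Fintype.ofFinite D'
  haveI : Fact p.Prime := ⟨hp⟩
  haveI : Fact q.Prime := ⟨hq⟩
  obtain ⟨u, hu⟩ := exists_prime_orderOf_dvd_card p ((Dvd.intro _ rfl).trans (by simpa [Nat.card_eq_fintype_card] using hdvd))
  obtain ⟨v, hv⟩ := exists_prime_orderOf_dvd_card q ((Dvd.intro_left _ rfl).trans (by simpa [Nat.card_eq_fintype_card] using hdvd))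
  have hcomm : ∀ a b : D', a * b = b * a := by
    intro a b
    have ha := a.2
    have hb := b.2
    have hea : Commute (e g) (a : H) := (hD' a).1 ha (e g) (Commute.refl _)
    have h1 := (hD' (b : H)).1 hb (a : H) hea.symm
    exact Subtype.ext h1.eq
  have hco : Nat.Coprime (orderOf u) (orderOf v) := by
    rw [hu, hv]; exact (Nat.coprime_primes hp hq).2 hpq
  have h2 := (Commute.orderOf_mul_eq_mul_orderOf_of_coprime (x := u) (y := v) (hcomm u v) hco)
  refine ⟨(u * v : D'), ?_⟩
  rw [← hu, ← hv, ← h2]
  exact Subgroup.orderOf_coe _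


/-- Let G and H be finite groups whose commuting graphs are isomorphic: there is a bijection e : G → H with x, y commuting exactly when e(x), e(y) commute. Then G and H have the same prime graph: for distinct primes p, q, G has an element of order pq if and only if H does (and #G = #H, so the prime divisors agree). -/
theorem result {G H : Type*} [Group G] [Finite G] [Group H] [Finite H] (e : G ≃ H)
    (he : ∀ x y : G, Commute x y ↔ Commute (e x) (e y))
    {p q : ℕ} (hp : p.Prime) (hq : q.Prime) (hpq : p ≠ q) :
    (∃ g : G, orderOf g = p * q) ↔ (∃ h : H, orderOf h = p * q) := by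
  constructor
  · exact fwd e he hp hq hpq
  · refine fwd e.symm ?_ hp hq hpq
    intro x y
    have := he (e.symm x) (e.symm y)
    simp only [Equiv.apply_symm_apply] at this
    exact this.symm

end Cfsg.Agent.S4084
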