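import Cfsg.Statements.S4085
import Mathlib
-- import your own Cfsg.Agent.* helpers here

set_option autoImplicit false
open Cfsg

namespace Cfsg.Agent.S4085

section Basic

variable {G : Type*} [Group G]

/-- Adjacency in the power graph. -/
def Adj (x y : G) : Prop := x ∈ Subgroup.zpowers y ∨ y ∈ Subgroup.zpowers x

/-- Closed twins in the power graph. -/
def Twin (u v : G) : Prop := ∀ z, Adj u z ↔ Adj v z

theorem adj_comm {x y : G} : Adj x y ↔ Adj y x := or_comm

theorem adj_self (x : G) : Adj x x := Or.inl (Subgroup.mem_zpowers x)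

theorem adj_one (z : G) : Adj (1 : G) z := Or.inl (Subgroup.one_mem _)

theorem adj_of_mem {x y : G} (h : x ∈ Subgroup.zpowers y) : Adj x y := Or.inl h

theorem Twin.adj {u v : G} (h : Twin u v) : Adj u v := (h v).2 (adj_self v)

theorem Twin.symm {u v : G} (h : Twin u v) : Twin v u := fun z => (h z).symm

theorem Twin.trans {u v w : G} (h : Twin u v) (h' : Twin v w) : Twin u w :=
  fun z => (h z).trans (h' z)

theorem mem_trans {x y z : G} (h : x ∈ Subgroup.zpowers y) (h' : y ∈ Subgroup.zpowers z) :
    x ∈ Subgroup.zpowers z := (Subgroup.zpowers_le.2 h') h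

theorem twin_of_zpowers_eq {u v : G} (h : Subgroup.zpowers u = Subgroup.zpowers v) : Twin u v := by
  have h1 : u ∈ Subgroup.zpowers v := by rw [← h]; exact Subgroup.mem_zpowers u
  have h2 : v ∈ Subgroup.zpowers u := by rw [h]; exact Subgroup.mem_zpowers v
  intro z
  constructor
  · rintro (h3 | h3)
    · exact Or.inl (mem_trans h2 h3)
    · exact Or.inr (mem_trans h3 h1)
  · rintro (h3 | h3)
    · exact Or.inl (mem_trans h1 h3)
    · exact Or.inr (mem_trans h3 h2)

/-- The closed twins of an element. -/
def twins (x : G) : Set G := {u | Twin u x}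

end Basic

section Finite

variable {G : Type*} [Group G] [Finite G]

theorem zpowers_eq_of_mem_of_card {x y : G} (h : x ∈ Subgroup.zpowers y)
    (hc : orderOf y ∣ orderOf x) : Subgroup.zpowers x = Subgroup.zpowers y := by
  apply Subgroup.eq_of_le_of_card_ge (Subgroup.zpowers_le.2 h)
  rw [Nat.card_zpowers, Nat.card_zpowers]
  exact Nat.le_of_dvd (orderOf_pos x) hc

theorem mem_zpowers_of_dvd_cyclic {C : Type*} [Group C] [Finite C] [IsCyclic C] {y z : C}
    (h : orderOf y ∣ orderOf z) : y ∈ Subgroup.zpowers z := by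
  classical
  haveI := Fintype.ofFinite C
  have hn : 0 < orderOf z := orderOf_pos z
  have h1 : (Finset.univ.filter (fun a : C => a ^ orderOf z = 1)).card ≤ orderOf z :=
    IsCyclic.card_pow_eq_one_le hn
  have hT : ((Subgroup.zpowers z : Set C).toFinset).card = orderOf z := by
    rw [← Nat.card_eq_card_toFinset]
    exact Nat.card_zpowers z
  have hsub : (Subgroup.zpowers z : Set C).toFinset ⊆
      Finset.univ.filter (fun a : C => a ^ orderOf z = 1) := by
    intro a ha
    simp only [Set.mem_toFinset, SetLike.mem_coe, Subgroup.mem_zpowers_iff] at ha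
    obtain ⟨i, rfl⟩ := ha
    simp only [Finset.mem_filter, Finset.mem_univ, true_and]
    rw [← zpow_natCast, zpow_comm, zpow_natCast, pow_orderOf_eq_one, one_zpow]
  have heq := Finset.eq_of_subset_of_card_le hsub (by rw [hT]; exact h1)
  have hy : y ∈ Finset.univ.filter (fun a : C => a ^ orderOf z = 1) := by
    simp only [Finset.mem_filter, Finset.mem_univ, true_and]
    exact orderOf_dvd_iff_pow_eq_one.1 h
  rw [← heq] at hy
  simpa using hy

theorem mem_zpowers_of_dvd {w y z : G} (hy : y ∈ Subgroup.zpowers w) (hz : z ∈ Subgroup.zpowers w)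
    (h : orderOf y ∣ orderOf z) : y ∈ Subgroup.zpowers z := by
  have h1 : (⟨y, hy⟩ : Subgroup.zpowers w) ∈ Subgroup.zpowers (⟨z, hz⟩ : Subgroup.zpowers w) := by
    apply mem_zpowers_of_dvd_cyclic
    rwa [Subgroup.orderOf_mk, Subgroup.orderOf_mk]
  obtain ⟨k, hk⟩ := Subgroup.mem_zpowers_iff.1 h1
  refine Subgroup.mem_zpowers_iff.2 ⟨k, ?_⟩
  exact congrArg Subtype.val hk

theorem ncard_gen (y : G) :
    Set.ncard {u : G | Subgroup.zpowers u = Subgroup.zpowers y} = Nat.totient (orderOf y) := by
  classical
  haveI : Fintype (Subgroup.zpowers y) := Fintype.ofFinite _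
  have hcard : orderOf y ∣ Fintype.card (Subgroup.zpowers y) := by
    rw [← Nat.card_eq_fintype_card, Nat.card_zpowers]
  have h1 := IsCyclic.card_orderOf_eq_totient (α := Subgroup.zpowers y) hcard
  rw [← h1]
  have h2 : {u : G | Subgroup.zpowers u = Subgroup.zpowers y} =
      Subtype.val '' (↑(Finset.univ.filter (fun a : Subgroup.zpowers y => orderOf a = orderOf y)) :
        Set (Subgroup.zpowers y)) := by
    ext u
    simp only [Set.mem_setOf_eq, Set.mem_image, Finset.coe_filter, Finset.mem_univ, true_and]
    constructor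
    · intro hu
      have hu1 : u ∈ Subgroup.zpowers y := by rw [← hu]; exact Subgroup.mem_zpowers u
      refine ⟨⟨u, hu1⟩, ?_, rfl⟩
      rw [Subgroup.orderOf_mk]
      rw [← Nat.card_zpowers, ← Nat.card_zpowers y, hu]
    · rintro ⟨a, ha, rfl⟩
      rw [Subgroup.orderOf_coe a |>.symm] at ha
      apply zpowers_eq_of_mem_of_card a.2
      rw [ha]
  rw [h2, Set.ncard_image_of_injective _ Subtype.val_injective, Set.ncard_coe_finset]

theorem totient_le_ncard_twins (x : G) : Nat.totient (orderOf x) ≤ Set.ncard (twins x) := by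
  rw [← ncard_gen]
  apply Set.ncard_le_ncard _ (Set.toFinite _)
  intro u hu
  exact twin_of_zpowers_eq hu

theorem ncard_twins_of_forall {x : G} (h : ∀ u, Twin u x → Subgroup.zpowers u = Subgroup.zpowers x) :
    Set.ncard (twins x) = Nat.totient (orderOf x) := by
  rw [← ncard_gen]
  congr 1
  ext u
  exact ⟨fun hu => h u hu, fun hu => twin_of_zpowers_eq hu⟩

/-- Arithmetic: a proper divisor of a non prime power is incomparable with some divisor. -/
theorem exists_incomparable {M n : ℕ} (hM : M ≠ 0) (hn : n ∣ M) (hn1 : n ≠ 1) (hnM : n ≠ M)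
    {r s : ℕ} (hr : r.Prime) (hs : s.Prime) (hrs : r ≠ s) (hrM : r ∣ M) (hsM : s ∣ M) :
    ∃ d, d ∣ M ∧ ¬ d ∣ n ∧ ¬ n ∣ d := by
  have hn0 : n ≠ 0 := fun h => hM (by rw [h] at hn; exact Nat.eq_zero_of_zero_dvd hn)
  have hex : ∃ l, l.Prime ∧ n.factorization l < M.factorization l := by
    by_contra hall
    push Not at hall
    apply hnM
    apply Nat.dvd_antisymm hn
    rw [← Nat.factorization_prime_le_iff_dvd hM hn0]
    exact hall
  obtain ⟨l, hl, hlt⟩ := hex
  have hd1 : l ^ M.factorization l ∣ M := Nat.ordProj_dvd M l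
  have hnd : ¬ l ^ M.factorization l ∣ n := by
    intro h
    have := (hl.pow_dvd_iff_le_factorization hn0).1 h
    omega
  by_cases hdn : n ∣ l ^ M.factorization l
  · obtain ⟨i, _, hi⟩ := (Nat.dvd_prime_pow hl).1 hdn
    have hi0 : i ≠ 0 := by
      rintro rfl
      exact hn1 (by simpa using hi)
    have hlt : ∃ t, t.Prime ∧ t ≠ l ∧ t ∣ M := by
      by_cases h : r = l
      · exact ⟨s, hs, fun h' => hrs (h.trans h'.symm), hsM⟩
      · exact ⟨r, hr, h, hrM⟩
    obtain ⟨t, ht, htl, htM⟩ := hlt
    refine ⟨t, htM, ?_, ?_⟩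
    · intro h
      rw [hi] at h
      exact htl ((Nat.prime_dvd_prime_iff_eq ht hl).1 (ht.dvd_of_dvd_pow h))
    · intro h
      rcases (Nat.dvd_prime ht).1 h with h1 | h1
      · exact hn1 h1
      · rw [hi] at h1
        have h2 : l ∣ t := by
          rw [← h1]
          exact dvd_pow_self l hi0
        exact htl ((Nat.prime_dvd_prime_iff_eq hl ht).1 h2).symm
  · exact ⟨_, hd1, hnd, hdn⟩

/-- L4. -/
theorem zpowers_eq_of_forall_adj {x y : G} (hx : x ∈ Subgroup.zpowers y) (hx1 : x ≠ 1)
    (hadj : ∀ v ∈ Subgroup.zpowers y, Adj v x) {r s : ℕ} (hr : r.Prime) (hs : s.Prime) (hrs : r ≠ s)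
    (hrM : r ∣ orderOf y) (hsM : s ∣ orderOf y) : Subgroup.zpowers x = Subgroup.zpowers y := by
  by_contra hne
  have hn := orderOf_dvd_of_mem_zpowers hx
  have hn1 : orderOf x ≠ 1 := fun h => hx1 (orderOf_eq_one_iff.1 h)
  have hnM : orderOf x ≠ orderOf y := fun h => hne (zpowers_eq_of_mem_of_card hx (by rw [h]))
  obtain ⟨d, hd, hd1, hd2⟩ := exists_incomparable (orderOf_pos y).ne' hn hn1 hnM hr hs hrs hrM hsM
  have hv : y ^ (orderOf y / d) ∈ Subgroup.zpowers y := Subgroup.pow_mem _ (Subgroup.mem_zpowers y) _
  have hvo : orderOf (y ^ (orderOf y / d)) = d := orderOf_pow_orderOf_div (orderOf_pos y).ne' hd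
  rcases hadj _ hv with h | h
  · apply hd1
    have := orderOf_dvd_of_mem_zpowers h
    rwa [hvo] at this
  · apply hd2
    have := orderOf_dvd_of_mem_zpowers h
    rwa [hvo] at this

/-- Two incomparable elements in a cyclic subgroup give two primes. -/
theorem exists_two_primes {w a b : G} (ha : a ∈ Subgroup.zpowers w) (hb : b ∈ Subgroup.zpowers w)
    (hab : ¬ Adj a b) : ∃ r s, r.Prime ∧ s.Prime ∧ r ≠ s ∧ r ∣ orderOf w ∧ s ∣ orderOf w := by
  by_contra hall
  push Not at hall
  have hw1 : orderOf w ≠ 1 := by
    intro h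
    have h1 := orderOf_eq_one_iff.1 h
    rw [h1, Subgroup.zpowers_one_eq_bot, Subgroup.mem_bot] at ha
    rw [ha] at hab
    exact hab (adj_one _)
  set r := (orderOf w).minFac with hr
  have hrp : r.Prime := Nat.minFac_prime hw1
  have huniq : ∀ {d : ℕ}, d.Prime → d ∣ orderOf w → d = r := by
    intro d hd hdw
    by_contra hne
    exact hall d r hd hrp hne hdw (Nat.minFac_dvd _)
  have h1 := Nat.eq_prime_pow_of_unique_prime_dvd (orderOf_pos w).ne' huniq
  set k := (orderOf w).primeFactorsList.length
  have hao := orderOf_dvd_of_mem_zpowers ha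
  have hbo := orderOf_dvd_of_mem_zpowers hb
  rw [h1] at hao hbo
  obtain ⟨i, _, hi⟩ := (Nat.dvd_prime_pow hrp).1 hao
  obtain ⟨j, _, hj⟩ := (Nat.dvd_prime_pow hrp).1 hbo
  apply hab
  by_cases hij : i ≤ j
  · left
    apply mem_zpowers_of_dvd ha hb
    rw [hi, hj]
    exact pow_dvd_pow r hij
  · right
    apply mem_zpowers_of_dvd hb ha
    rw [hi, hj]
    exact pow_dvd_pow r (by omega)

/-- L5: the twins of an element of prime order. -/
theorem twin_of_commuting {c d u : G} (hcd : Commute c d) {r s : ℕ} (hr : r.Prime) (hs : s.Prime)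
    (hrs : r ≠ s) (hc : orderOf c = r) (hd : orderOf d = s) (hu : Twin u c) :
    Subgroup.zpowers u = Subgroup.zpowers c := by
  have hcop : r.Coprime s := (Nat.coprime_primes hr hs).2 hrs
  set f := c * d with hf
  have hfo : orderOf f = r * s := by
    rw [hf, hcd.orderOf_mul_eq_mul_orderOf_of_coprime (by rwa [hc, hd]), hc, hd]
  have hcf : c ∈ Subgroup.zpowers f := by
    obtain ⟨m, hm⟩ := exists_pow_eq_self_of_coprime (x := c) (n := s) (by rw [hc]; exact hcop.symm)
    have h1 : f ^ s = c ^ s := by
      rw [hf, hcd.mul_pow, ← hd, pow_orderOf_eq_one, mul_one]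
    rw [← hm, ← h1]
    exact Subgroup.pow_mem _ (Subgroup.pow_mem _ (Subgroup.mem_zpowers f) _) _
  have hdf : d ∈ Subgroup.zpowers f := by
    obtain ⟨m, hm⟩ := exists_pow_eq_self_of_coprime (x := d) (n := r) (by rw [hd]; exact hcop)
    have h1 : f ^ r = d ^ r := by
      rw [hf, hcd.mul_pow, ← hc, pow_orderOf_eq_one, one_mul]
    rw [← hm, ← h1]
    exact Subgroup.pow_mem _ (Subgroup.pow_mem _ (Subgroup.mem_zpowers f) _) _
  have hncd : ¬ Adj c d := by
    rintro (h | h)
    · have := orderOf_dvd_of_mem_zpowers h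
      rw [hc, hd] at this
      exact hrs ((Nat.prime_dvd_prime_iff_eq hr hs).1 this)
    · have := orderOf_dvd_of_mem_zpowers h
      rw [hc, hd] at this
      exact hrs ((Nat.prime_dvd_prime_iff_eq hs hr).1 this).symm
  have hnud : ¬ Adj u d := fun h => hncd ((hu d).1 h)
  have huf : Adj u f := (hu f).2 (Or.inl hcf)
  have hu1 : u ≠ 1 := by
    rintro rfl
    exact hnud (adj_one d)
  rcases huf with h | h
  · have hdv : ¬ s ∣ orderOf u := by
      intro hsu
      apply hnud
      right
      apply mem_zpowers_of_dvd hdf h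
      rwa [hd]
    have h2 : orderOf u ∣ r * s := by
      rw [← hfo]
      exact orderOf_dvd_of_mem_zpowers h
    have h3 : orderOf u ∣ r := by
      have hcop' : (orderOf u).Coprime s := by
        have := (Nat.Prime.coprime_iff_not_dvd hs).2 hdv
        exact this.symm
      exact hcop'.dvd_of_dvd_mul_right h2
    have h4 : orderOf u = r := by
      rcases (Nat.dvd_prime hr).1 h3 with h5 | h5
      · exact absurd (orderOf_eq_one_iff.1 h5) hu1
      · exact h5
    have h5 : u ∈ Subgroup.zpowers c := mem_zpowers_of_dvd h hcf (by rw [h4, hc])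
    exact zpowers_eq_of_mem_of_card h5 (by rw [h4, hc])
  · exfalso
    exact hnud (Or.inr (mem_trans hdf h))

end Finite

section Main

variable {G H : Type*} [Group G] [Finite G] [Group H] [Finite H]

/-- An isomorphism of power graphs. -/
def IsIso (e : G ≃ H) : Prop := ∀ x y : G, Adj x y ↔ Adj (e x) (e y)

theorem IsIso.twin {e : G ≃ H} (he : IsIso e) {u v : G} (h : Twin u v) : Twin (e u) (e v) := by
  intro z
  obtain ⟨w, rfl⟩ := e.surjective z
  rw [← he, ← he]
  exact h w

theorem IsIso.symm {e : G ≃ H} (he : IsIso e) : IsIso e.symm := by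
  intro x y
  rw [he (e.symm x) (e.symm y)]
  simp

theorem IsIso.ncard_twins {e : G ≃ H} (he : IsIso e) (x : G) :
    Set.ncard (twins (e x)) = Set.ncard (twins x) := by
  have h : twins (e x) = e '' twins x := by
    ext u
    constructor
    · intro hu
      refine ⟨e.symm u, ?_, by simp⟩
      have := he.symm.twin hu
      show Twin _ x
      simpa using this
    · rintro ⟨v, hv, rfl⟩
      exact he.twin hv
  rw [h, Set.ncard_image_of_injective _ e.injective]

/-- A non-identity universal vertex. -/
theorem exists_of_universal {p q : ℕ} (hp : p.Prime) (hq : q.Prime) (hpq : p ≠ q)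
    (hcard : p * q ∣ Nat.card H) {w : H} (hw1 : w ≠ 1) (hw : ∀ z, Adj w z) :
    ∃ h : H, orderOf h = p * q := by
  have hcop : p.Coprime q := (Nat.coprime_primes hp hq).2 hpq
  have key : ∀ r : ℕ, r.Prime → r ∣ Nat.card H → r ∣ orderOf w := by
    intro r hr hrd
    haveI := Fact.mk hr
    obtain ⟨c, hc⟩ := exists_prime_orderOf_dvd_card' r hrd
    rcases hw c with h | h
    · have h1 := orderOf_dvd_of_mem_zpowers h
      rw [hc] at h1
      rcases (Nat.dvd_prime hr).1 h1 with h2 | h2
      · exact absurd (orderOf_eq_one_iff.1 h2) hw1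
      · rw [h2]
    · have h1 := orderOf_dvd_of_mem_zpowers h
      rwa [hc] at h1
  have h1 := key p hp ((Nat.dvd_mul_right p q).trans hcard)
  have h2 := key q hq ((Nat.dvd_mul_left q p).trans hcard)
  have h3 : p * q ∣ orderOf w := hcop.mul_dvd_of_dvd_of_dvd h1 h2
  exact ⟨w ^ (orderOf w / (p * q)), orderOf_pow_orderOf_div (orderOf_pos w).ne' h3⟩

/-- The core of the argument. -/
theorem exists_of_core {e : G ≃ H} (he : IsIso e) (h1 : e 1 = 1) {p q : ℕ} (hp : p.Prime)
    (hq : q.Prime) (hpq : p ≠ q) {x : G} (hx : orderOf x = p * q) (hnu : ¬ ∀ z, Adj x z) :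
    ∃ h : H, orderOf h = p * q := by
  classical
  have hcop : p.Coprime q := (Nat.coprime_primes hp hq).2 hpq
  have hp0 : 0 < p := hp.pos
  have hq0 : 0 < q := hq.pos
  have hx0 : orderOf x ≠ 0 := (orderOf_pos x).ne'
  set a : G := x ^ q with ha
  set b : G := x ^ p with hb
  have hao : orderOf a = p := by
    have := orderOf_pow_orderOf_div hx0 (show p ∣ orderOf x by rw [hx]; exact Nat.dvd_mul_right p q)
    rwa [hx, Nat.mul_div_cancel_left q hp0] at this
  have hbo : orderOf b = q := by
    have := orderOf_pow_orderOf_div hx0 (show q ∣ orderOf x by rw [hx]; exact Nat.dvd_mul_left q p)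
    rwa [hx, Nat.mul_div_cancel p hq0] at this
  have hamem : a ∈ Subgroup.zpowers x := Subgroup.pow_mem _ (Subgroup.mem_zpowers x) _
  have hbmem : b ∈ Subgroup.zpowers x := Subgroup.pow_mem _ (Subgroup.mem_zpowers x) _
  have hcab : Commute a b := by
    rw [ha, hb]
    exact (Commute.refl x).pow_pow q p
  have hnab : ¬ Adj a b := by
    rintro (h | h)
    · have := orderOf_dvd_of_mem_zpowers h
      rw [hao, hbo] at this
      exact hpq ((Nat.prime_dvd_prime_iff_eq hp hq).1 this)
    · have := orderOf_dvd_of_mem_zpowers h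
      rw [hao, hbo] at this
      exact hpq ((Nat.prime_dvd_prime_iff_eq hq hp).1 this).symm
  -- twins in `G`
  have hTa : Set.ncard (twins a) = p - 1 := by
    rw [ncard_twins_of_forall (fun u hu => twin_of_commuting hcab hp hq hpq hao hbo hu), hao,
      Nat.totient_prime hp]
  have hTb : Set.ncard (twins b) = q - 1 := by
    rw [ncard_twins_of_forall (fun u hu => twin_of_commuting hcab.symm hq hp hpq.symm hbo hao hu), hbo,
      Nat.totient_prime hq]
  have hx1 : x ≠ 1 := by
    rintro rfl
    exact hnu (adj_one)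
  have hTx : Set.ncard (twins x) = (p - 1) * (q - 1) := by
    have : ∀ u, Twin u x → Subgroup.zpowers u = Subgroup.zpowers x := by
      intro u hu
      have hu1 : u ≠ 1 := by
        rintro rfl
        apply hnu
        intro z
        exact (hu z).1 (adj_one z)
      have hau : a ∈ Subgroup.zpowers u := by
        rcases (hu a).2 (Or.inr hamem) with h | h
        · have h2 := orderOf_dvd_of_mem_zpowers h
          rw [hao] at h2
          have h3 : orderOf u = p := by
            rcases (Nat.dvd_prime hp).1 h2 with h5 | h5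
            · exact absurd (orderOf_eq_one_iff.1 h5) hu1
            · exact h5
          rw [zpowers_eq_of_mem_of_card h (by rw [h3, hao])]
          exact Subgroup.mem_zpowers a
        · exact h
      have hbu : b ∈ Subgroup.zpowers u := by
        rcases (hu b).2 (Or.inr hbmem) with h | h
        · have h2 := orderOf_dvd_of_mem_zpowers h
          rw [hbo] at h2
          have h3 : orderOf u = q := by
            rcases (Nat.dvd_prime hq).1 h2 with h5 | h5
            · exact absurd (orderOf_eq_one_iff.1 h5) hu1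
            · exact h5
          rw [zpowers_eq_of_mem_of_card h (by rw [h3, hbo])]
          exact Subgroup.mem_zpowers b
        · exact h
      have hxu : x ∈ Subgroup.zpowers u := by
        obtain ⟨i, j, hij⟩ : IsCoprime (q : ℤ) (p : ℤ) := Nat.isCoprime_iff_coprime.2 hcop.symm
        have h2 : x = a ^ i * b ^ j := by
          rw [ha, hb, ← zpow_natCast, ← zpow_natCast, ← zpow_mul, ← zpow_mul, ← zpow_add]
          have : (q : ℤ) * i + p * j = 1 := by linarith
          rw [this, zpow_one]
        rw [h2]
        exact Subgroup.mul_mem _ (Subgroup.zpow_mem _ hau _) (Subgroup.zpow_mem _ hbu _)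
      have hpqu : p * q ∣ orderOf u := by
        rw [← hx]
        exact orderOf_dvd_of_mem_zpowers hxu
      have := zpowers_eq_of_forall_adj hxu hx1
        (fun v hv => adj_comm.1 ((hu v).1 (adj_comm.1 (adj_of_mem hv)))) hp hq hpq
        ((Nat.dvd_mul_right p q).trans hpqu) ((Nat.dvd_mul_left q p).trans hpqu)
      exact this.symm
    rw [ncard_twins_of_forall this, hx, Nat.totient_mul hcop, Nat.totient_prime hp, Nat.totient_prime hq]
  -- the other group
  set x' : H := e x with hx'
  set a' : H := e a with ha'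
  set b' : H := e b with hb'
  have hinj1 : ∀ y : G, e y = 1 → y = 1 := fun y hy => e.injective (by rw [hy, h1])
  have hx'1 : x' ≠ 1 := fun h => hx1 (hinj1 _ h)
  have hTa' : Set.ncard (twins a') = p - 1 := (he.ncard_twins a).trans hTa
  have hTb' : Set.ncard (twins b') = q - 1 := (he.ncard_twins b).trans hTb
  have hTx' : Set.ncard (twins x') = (p - 1) * (q - 1) := (he.ncard_twins x).trans hTx
  have hnab' : ¬ Adj a' b' := fun h => hnab ((he a b).2 h)
  have hxa' : Adj x' a' := (he x a).1 (Or.inr hamem)
  have hxb' : Adj x' b' := (he x b).1 (Or.inr hbmem)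
  have hnu' : ¬ ∀ z, Adj x' z := fun h => hnu (fun z => (he x z).2 (h (e z)))
  have hP : 1 ≤ p - 1 := by have := hp.two_le; omega
  have hQ : 1 ≤ q - 1 := by have := hq.two_le; omega
  have hPQ : p - 1 ≠ q - 1 := by
    have := hp.two_le
    have := hq.two_le
    omega
  have twin_twins : ∀ {K : Type _} [Group K] {u v : K}, Twin u v → twins u = twins v := by
    intro K _ u v huv
    ext w
    exact ⟨fun hw => Twin.trans hw huv, fun hw => Twin.trans hw huv.symm⟩
  by_cases hi : a' ∈ Subgroup.zpowers x' ∧ b' ∈ Subgroup.zpowers x'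
  · obtain ⟨ham, hbm⟩ := hi
    obtain ⟨r₁, r₂, hr₁, hr₂, hne, hr₁d, hr₂d⟩ := exists_two_primes ham hbm hnab'
    set n' := orderOf x' with hn'
    have hn'0 : n' ≠ 0 := (orderOf_pos x').ne'
    have hco : ∀ r, r ∣ n' → orderOf (x' ^ (n' / r)) = r := fun r hr =>
      orderOf_pow_orderOf_div hn'0 hr
    have hcmem : ∀ r, x' ^ (n' / r) ∈ Subgroup.zpowers x' := fun r =>
      Subgroup.pow_mem _ (Subgroup.mem_zpowers x') _
    have hccomm : ∀ r s, Commute (x' ^ (n' / r)) (x' ^ (n' / s)) := fun r s =>
      (Commute.refl x').pow_pow _ _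
    have hnadj : ∀ r s, r.Prime → s.Prime → r ≠ s → r ∣ n' → s ∣ n' →
        ¬ Adj (x' ^ (n' / r)) (x' ^ (n' / s)) := by
      intro r s hr hs hrs hrd hsd
      rintro (h | h)
      · have := orderOf_dvd_of_mem_zpowers h
        rw [hco r hrd, hco s hsd] at this
        exact hrs ((Nat.prime_dvd_prime_iff_eq hr hs).1 this)
      · have := orderOf_dvd_of_mem_zpowers h
        rw [hco r hrd, hco s hsd] at this
        exact hrs ((Nat.prime_dvd_prime_iff_eq hs hr).1 this).symm
    have hTc : ∀ r s, r.Prime → s.Prime → r ≠ s → r ∣ n' → s ∣ n' →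
        Set.ncard (twins (x' ^ (n' / r))) = r - 1 := by
      intro r s hr hs hrs hrd hsd
      rw [ncard_twins_of_forall (fun u hu => twin_of_commuting (hccomm r s) hr hs hrs (hco r hrd)
        (hco s hsd) hu), hco r hrd, Nat.totient_prime hr]
    have hbound : ∀ r s, r.Prime → s.Prime → r ≠ s → r ∣ n' → s ∣ n' →
        x ∈ Subgroup.zpowers (e.symm (x' ^ (n' / r))) → (r - 1) * (s - 1) ≤ r - 1 := by
      intro r s hr hs hrs hrd hsd hmem
      set c := e.symm (x' ^ (n' / r)) with hc
      have hec : e c = x' ^ (n' / r) := by simp [hc]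
      have h2 : (p - 1) * (q - 1) ≤ r - 1 := by
        have h3 := totient_le_ncard_twins c
        rw [← he.ncard_twins c, hec, hTc r s hr hs hrs hrd hsd] at h3
        have h4 : p * q ∣ orderOf c := by
          rw [← hx]
          exact orderOf_dvd_of_mem_zpowers hmem
        have h5 := Nat.totient_dvd_of_dvd h4
        rw [Nat.totient_mul hcop, Nat.totient_prime hp, Nat.totient_prime hq] at h5
        exact (Nat.le_of_dvd (Nat.totient_pos.2 (orderOf_pos c)) h5).trans h3
      have h3 : (r - 1) * (s - 1) ≤ (p - 1) * (q - 1) := by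
        have h4 := totient_le_ncard_twins x'
        rw [hTx'] at h4
        have hcoprs : r.Coprime s := (Nat.coprime_primes hr hs).2 hrs
        have h5 : r * s ∣ n' := hcoprs.mul_dvd_of_dvd_of_dvd hrd hsd
        have h6 := Nat.totient_dvd_of_dvd h5
        rw [Nat.totient_mul hcoprs, Nat.totient_prime hr, Nat.totient_prime hs] at h6
        exact (Nat.le_of_dvd (Nat.totient_pos.2 (orderOf_pos x')) h6).trans h4
      exact h3.trans h2
    have key : ∀ r, r.Prime → r ∣ n' → r = p ∨ r = q := by
      intro r hr hrd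
      obtain ⟨s, hs, hrs, hsd⟩ : ∃ s, s.Prime ∧ r ≠ s ∧ s ∣ n' := by
        by_cases h : r = r₁
        · exact ⟨r₂, hr₂, fun h' => hne (h.symm.trans h'), hr₂d⟩
        · exact ⟨r₁, hr₁, h, hr₁d⟩
      set c := e.symm (x' ^ (n' / r)) with hc
      have hec : e c = x' ^ (n' / r) := by simp [hc]
      have hco1 := hco r hrd
      have hc1 : c ≠ 1 := by
        intro h
        have h3 : x' ^ (n' / r) = 1 := by rw [← hec, h, h1]
        rw [h3, orderOf_one] at hco1
        exact hr.one_lt.ne hco1
      have hTc' := hTc r s hr hs hrs hrd hsd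
      rw [← hec, he.ncard_twins] at hTc'
      have hadj : Adj c x := (he c x).2 (by rw [hec]; exact Or.inl (hcmem r))
      rcases hadj with h | h
      · have hd : orderOf c ∣ p * q := by
          rw [← hx]
          exact orderOf_dvd_of_mem_zpowers h
        by_cases hpd : p ∣ orderOf c
        · by_cases hqd : q ∣ orderOf c
          · exfalso
            have h3 : p * q ∣ orderOf c := hcop.mul_dvd_of_dvd_of_dvd hpd hqd
            have h4 : Subgroup.zpowers c = Subgroup.zpowers x :=
              zpowers_eq_of_mem_of_card h (by rwa [hx])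
            have h5 : Twin (x' ^ (n' / r)) x' := by
              rw [← hec]
              exact he.twin (twin_of_zpowers_eq h4)
            exact hnadj r s hr hs hrs hrd hsd ((h5 _).2 (Or.inr (hcmem s)))
          · left
            have h3 : orderOf c ∣ p := by
              have hcop' : (orderOf c).Coprime q :=
                ((Nat.Prime.coprime_iff_not_dvd hq).2 hqd).symm
              exact hcop'.dvd_of_dvd_mul_right hd
            have h4 : orderOf c = p := Nat.dvd_antisymm h3 hpd
            have h5 : c ∈ Subgroup.zpowers a := mem_zpowers_of_dvd h hamem (by rw [h4, hao])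
            have h6 := zpowers_eq_of_mem_of_card h5 (by rw [h4, hao])
            rw [twin_twins (twin_of_zpowers_eq h6), hTa] at hTc'
            have := hr.two_le
            have := hp.two_le
            omega
        · by_cases hqd : q ∣ orderOf c
          · right
            have h3 : orderOf c ∣ q := by
              have hcop' : (orderOf c).Coprime p :=
                ((Nat.Prime.coprime_iff_not_dvd hp).2 hpd).symm
              exact hcop'.dvd_of_dvd_mul_left hd
            have h4 : orderOf c = q := Nat.dvd_antisymm h3 hqd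
            have h5 : c ∈ Subgroup.zpowers b := mem_zpowers_of_dvd h hbmem (by rw [h4, hbo])
            have h6 := zpowers_eq_of_mem_of_card h5 (by rw [h4, hbo])
            rw [twin_twins (twin_of_zpowers_eq h6), hTb] at hTc'
            have := hr.two_le
            have := hq.two_le
            omega
          · exfalso
            have h3 : orderOf c = 1 := by
              have hcop1 : (orderOf c).Coprime q :=
                ((Nat.Prime.coprime_iff_not_dvd hq).2 hqd).symm
              have h4 := hcop1.dvd_of_dvd_mul_right hd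
              rcases (Nat.dvd_prime hp).1 h4 with h5 | h5
              · exact h5
              · exact absurd (h5 ▸ dvd_rfl) hpd
            exact hc1 (orderOf_eq_one_iff.1 h3)
      · exfalso
        have hb1 := hbound r s hr hs hrs hrd hsd h
        have hr1 : 1 ≤ r - 1 := by have := hr.two_le; omega
        have hs2 : s - 1 ≤ 1 := by
          by_contra hcon
          push Not at hcon
          nlinarith
        set c₂ := e.symm (x' ^ (n' / s)) with hc₂
        have hec₂ : e c₂ = x' ^ (n' / s) := by simp [hc₂]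
        have hadj₂ : Adj c₂ x := (he c₂ x).2 (by rw [hec₂]; exact Or.inl (hcmem s))
        rcases hadj₂ with h₂ | h₂
        · have h3 : Adj c₂ c := Or.inl (mem_trans h₂ h)
          have h4 := (he c₂ c).1 h3
          rw [hec₂, hec] at h4
          exact hnadj s r hs hr hrs.symm hsd hrd h4
        · have hb2 := hbound s r hs hr hrs.symm hsd hrd h₂
          have hs1 : 1 ≤ s - 1 := by have := hs.two_le; omega
          have hr2 : r - 1 ≤ 1 := by
            by_contra hcon
            push Not at hcon
            nlinarith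
          have := hr.two_le
          have := hs.two_le
          omega
    have hpqd : p * q ∣ n' := by
      have h3 : p ∣ n' ∧ q ∣ n' := by
        rcases key r₁ hr₁ hr₁d with h4 | h4 <;> rcases key r₂ hr₂ hr₂d with h5 | h5
        · exact absurd (h4.trans h5.symm) hne
        · exact ⟨h4 ▸ hr₁d, h5 ▸ hr₂d⟩
        · exact ⟨h5 ▸ hr₂d, h4 ▸ hr₁d⟩
        · exact absurd (h4.trans h5.symm) hne
      exact hcop.mul_dvd_of_dvd_of_dvd h3.1 h3.2
    exact ⟨x' ^ (n' / (p * q)), orderOf_pow_orderOf_div hn'0 hpqd⟩
  · exfalso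
    have hab₂ : x' ∈ Subgroup.zpowers a' ∧ x' ∈ Subgroup.zpowers b' := by
      rcases hxa' with h3 | h3 <;> rcases hxb' with h4 | h4
      · exact ⟨h3, h4⟩
      · exact absurd (Or.inr (mem_trans h4 h3)) hnab'
      · exact absurd (Or.inl (mem_trans h3 h4)) hnab'
      · exact absurd ⟨h3, h4⟩ hi
    obtain ⟨hxam, hxbm⟩ := hab₂
    have hy1 : ∀ y ∈ twins x', y ≠ 1 := by
      rintro y hy rfl
      apply hnu'
      intro z
      exact (hy z).1 (adj_one z)
    have hy2 : ∀ y ∈ twins x', y ∈ Subgroup.zpowers a' ∧ y ∈ Subgroup.zpowers b' := by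
      intro y hy
      have hya : Adj y a' := (hy a').2 hxa'
      have hyb : Adj y b' := (hy b').2 hxb'
      rcases hya with h3 | h3 <;> rcases hyb with h4 | h4
      · exact ⟨h3, h4⟩
      · exact absurd (Or.inr (mem_trans h4 h3)) hnab'
      · exact absurd (Or.inl (mem_trans h3 h4)) hnab'
      · exfalso
        have hxy : x' ∈ Subgroup.zpowers y := mem_trans hxam h3
        obtain ⟨r, s, hr, hs, hrs, hrd, hsd⟩ := exists_two_primes h3 h4 hnab'
        have h5 := zpowers_eq_of_forall_adj hxy hx'1
          (fun v hv => adj_comm.1 ((hy v).1 (adj_comm.1 (adj_of_mem hv)))) hr hs hrs hrd hsd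
        apply hi
        rw [h5]
        exact ⟨h3, h4⟩
    have hxT : x' ∈ twins x' := fun z => Iff.rfl
    obtain ⟨w, hwT, hwmax⟩ := Set.exists_max_image (twins x') (fun y => orderOf y)
      (Set.toFinite _) ⟨x', hxT⟩
    have hTw : ∀ y ∈ twins x', y ∈ Subgroup.zpowers w := by
      intro y hy
      rcases Twin.adj (Twin.trans hy (Twin.symm hwT)) with h3 | h3
      · exact h3
      · have h4 := orderOf_dvd_of_mem_zpowers h3
        have h5 : orderOf w = orderOf y :=
          le_antisymm (Nat.le_of_dvd (orderOf_pos y) h4) (hwmax y hy)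
        rw [zpowers_eq_of_mem_of_card h3 (by rw [h5])]
        exact Subgroup.mem_zpowers y
    have hwa := (hy2 w hwT).1
    have hwb := (hy2 w hwT).2
    have hφa : Nat.totient (orderOf w) ≤ p - 1 := by
      have h3 := Nat.le_of_dvd (Nat.totient_pos.2 (orderOf_pos a'))
        (Nat.totient_dvd_of_dvd (orderOf_dvd_of_mem_zpowers hwa))
      have h4 := totient_le_ncard_twins a'
      rw [hTa'] at h4
      exact h3.trans h4
    have hφb : Nat.totient (orderOf w) ≤ q - 1 := by
      have h3 := Nat.le_of_dvd (Nat.totient_pos.2 (orderOf_pos b'))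
        (Nat.totient_dvd_of_dvd (orderOf_dvd_of_mem_zpowers hwb))
      have h4 := totient_le_ncard_twins b'
      rw [hTb'] at h4
      exact h3.trans h4
    by_cases hall : ∀ y ∈ twins x', Subgroup.zpowers y = Subgroup.zpowers w
    · have h3 : (p - 1) * (q - 1) ≤ Nat.totient (orderOf w) := by
        rw [← hTx', ← ncard_gen]
        exact Set.ncard_le_ncard hall (Set.toFinite _)
      rcases Nat.lt_or_gt_of_ne hPQ with h4 | h4
      · nlinarith
      · nlinarith
    · push Not at hall
      obtain ⟨y, hyT, hyne⟩ := hall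
      have hw1 : orderOf w ≠ 1 := fun h => hy1 w hwT (orderOf_eq_one_iff.1 h)
      have hTyw : Twin y w := Twin.trans hyT (Twin.symm hwT)
      have hnotwo : ¬ ∃ r s, r.Prime ∧ s.Prime ∧ r ≠ s ∧ r ∣ orderOf w ∧ s ∣ orderOf w := by
        rintro ⟨r, s, hr, hs, hrs, hrd, hsd⟩
        exact hyne (zpowers_eq_of_forall_adj (hTw y hyT) (hy1 y hyT)
          (fun v hv => adj_comm.1 ((hTyw v).2 (adj_comm.1 (adj_of_mem hv)))) hr hs hrs hrd hsd)
      push Not at hnotwo
      set r := (orderOf w).minFac with hr
      have hrp : r.Prime := Nat.minFac_prime hw1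
      have huniq : ∀ {d : ℕ}, d.Prime → d ∣ orderOf w → d = r := by
        intro d hd hdw
        by_contra hne
        exact hnotwo d r hd hrp hne hdw (Nat.minFac_dvd _)
      have hpow := Nat.eq_prime_pow_of_unique_prime_dvd (orderOf_pos w).ne' huniq
      set t := (orderOf w).primeFactorsList.length with ht
      have ht0 : t ≠ 0 := by
        intro h
        rw [h, pow_zero] at hpow
        exact hw1 hpow
      have ht1 : t ≠ 1 := by
        intro h
        rw [h, pow_one] at hpow
        apply hyne
        have h3 : orderOf y ∣ r := by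
          rw [← hpow]
          exact orderOf_dvd_of_mem_zpowers (hTw y hyT)
        have h4 : orderOf y = r := by
          rcases (Nat.dvd_prime hrp).1 h3 with h5 | h5
          · exact absurd (orderOf_eq_one_iff.1 h5) (hy1 y hyT)
          · exact h5
        exact zpowers_eq_of_mem_of_card (hTw y hyT) (by rw [h4, hpow])
      -- counting
      have hcount : (p - 1) * (q - 1) + 1 ≤ orderOf w := by
        have h3 : insert (1 : H) (twins x') ⊆ (Subgroup.zpowers w : Set H) := by
          intro u hu
          rcases hu with rfl | hu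
          · exact Subgroup.one_mem _
          · exact hTw u hu
        have h4 := Set.ncard_le_ncard h3 (Set.toFinite _)
        rw [Set.ncard_insert_of_notMem (fun h => hy1 1 h rfl) (Set.toFinite _), hTx'] at h4
        have h5 : Set.ncard (Subgroup.zpowers w : Set H) = orderOf w := by
          rw [← Nat.card_coe_set_eq]
          exact Nat.card_zpowers w
        rwa [h5] at h4
      have hφ : Nat.totient (orderOf w) = r ^ (t - 1) * (r - 1) := by
        rw [hpow, Nat.totient_prime_pow hrp (Nat.pos_of_ne_zero ht0)]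
      have h6 : Nat.totient (orderOf w) * Nat.totient (orderOf w) ≤ (p - 1) * (q - 1) :=
        Nat.mul_le_mul hφa hφb
      have h7 : r ^ t ≤ Nat.totient (orderOf w) * Nat.totient (orderOf w) := by
        have h8 : r ^ (t - 1) ≤ Nat.totient (orderOf w) := by
          rw [hφ]
          have : 1 ≤ r - 1 := by have := hrp.two_le; omega
          exact Nat.le_mul_of_pos_right _ this
        have h9 : r ^ t ≤ r ^ (t - 1) * r ^ (t - 1) := by
          rw [← pow_add]
          exact Nat.pow_le_pow_right hrp.pos (by omega)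
        exact h9.trans (Nat.mul_le_mul h8 h8)
      rw [hpow] at hcount
      rw [hpow] at h6
      rw [hpow] at h7
      set T := Nat.totient (r ^ t) * Nat.totient (r ^ t)
      omega

theorem transfer {e : G ≃ H} (he : IsIso e) {p q : ℕ} (hp : p.Prime) (hq : q.Prime) (hpq : p ≠ q) :
    (∃ g : G, orderOf g = p * q) → ∃ h : H, orderOf h = p * q := by
  rintro ⟨g, hg⟩
  have hcard : p * q ∣ Nat.card H := by
    rw [← Nat.card_congr e, ← hg]
    exact orderOf_dvd_natCard g
  by_cases h1 : e 1 = 1
  · by_cases hnu : ∀ z, Adj g z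
    · have hg1 : e g ≠ 1 := by
        intro h
        have h2 : g = 1 := e.injective (by rw [h, h1])
        rw [h2, orderOf_one] at hg
        have := Nat.mul_le_mul hp.two_le hq.two_le
        omega
      refine exists_of_universal hp hq hpq hcard hg1 (fun z => ?_)
      obtain ⟨w, rfl⟩ := e.surjective z
      exact (he g w).1 (hnu w)
    · exact exists_of_core he h1 hp hq hpq hg hnu
  · refine exists_of_universal hp hq hpq hcard h1 (fun z => ?_)
    obtain ⟨w, rfl⟩ := e.surjective z
    exact (he 1 w).1 (adj_one w)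

end Main


/-- Let G and H be finite groups whose power graphs are isomorphic: there is a bijection e : G → H such that, for all x, y, one of x, y is a power of the other exactly when one of e(x), e(y) is a power of the other. Then G and H have the same prime graph: for distinct primes p, q, G has an element of order pq if and only if H does. -/
theorem result {G H : Type*} [Group G] [Finite G] [Group H] [Finite H] (e : G ≃ H)
    (he : ∀ x y : G, (x ∈ Subgroup.zpowers y ∨ y ∈ Subgroup.zpowers x) ↔
      (e x ∈ Subgroup.zpowers (e y) ∨ e y ∈ Subgroup.zpowers (e x)))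
    {p q : ℕ} (hp : p.Prime) (hq : q.Prime) (hpq : p ≠ q) :
    (∃ g : G, orderOf g = p * q) ↔ (∃ h : H, orderOf h = p * q) := by
  have hiso : IsIso e := he
  exact ⟨transfer hiso hp hq hpq, transfer hiso.symm hp hq hpq⟩

end Cfsg.Agent.S4085
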