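import Cfsg.Statements.S4086
import Mathlib
-- import your own Cfsg.Agent.* helpers here

set_option autoImplicit false
open Cfsg

namespace Cfsg.Agent.S4086


theorem mem_zpowers_of_dvd {G : Type*} [Group G] [Finite G] (x y : G)
    (hc : IsCyclic ↥(Subgroup.closure ({x, y} : Set G))) (hd : orderOf x ∣ orderOf y) :
    x ∈ Subgroup.zpowers y := by
  classical
  haveI := Fintype.ofFinite ↥(Subgroup.closure ({x, y} : Set G))
  let C := Subgroup.closure ({x, y} : Set G)
  have hxC : x ∈ C := Subgroup.subset_closure (by simp)
  have hyC : y ∈ C := Subgroup.subset_closure (by simp)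
  let x' : C := ⟨x, hxC⟩
  let y' : C := ⟨y, hyC⟩
  have hox : orderOf x' = orderOf x := Subgroup.orderOf_mk x hxC
  have hoy : orderOf y' = orderOf y := Subgroup.orderOf_mk y hyC
  have hn : 0 < orderOf y' := orderOf_pos y'
  have hle := IsCyclic.card_pow_eq_one_le (α := C) hn
  -- the powers of y' lie in the solution set and fill it
  let S : Finset C := (Subgroup.zpowers y' : Set C).toFinset
  have hSsub : S ⊆ Finset.univ.filter (fun a : C => a ^ orderOf y' = 1) := by
    intro a ha
    have ha' : a ∈ Subgroup.zpowers y' := by simpa [S] using ha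
    simp only [Finset.mem_filter, Finset.mem_univ, true_and]
    obtain ⟨k, rfl⟩ := ha'
    simp only []
    rw [← zpow_natCast, ← zpow_mul, mul_comm, zpow_mul, zpow_natCast, pow_orderOf_eq_one, one_zpow]
  have hScard : S.card = orderOf y' := by
    have : S.card = Nat.card (Subgroup.zpowers y') := by
      simp only [S, Set.toFinset_card]
      exact (Nat.card_eq_fintype_card).symm
    rw [this, Nat.card_zpowers]
  have hEq : S = Finset.univ.filter (fun a : C => a ^ orderOf y' = 1) :=
    Finset.eq_of_subset_of_card_le hSsub (by rw [hScard]; exact hle)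
  have hx'mem : x' ∈ Finset.univ.filter (fun a : C => a ^ orderOf y' = 1) := by
    simp only [Finset.mem_filter, Finset.mem_univ, true_and]
    rw [hoy]
    exact (orderOf_dvd_iff_pow_eq_one).1 (by rw [hox]; exact hd)
  rw [← hEq] at hx'mem
  have hx'2 : x' ∈ Subgroup.zpowers y' := by simpa [S] using hx'mem
  obtain ⟨k, hk⟩ := hx'2
  refine ⟨k, ?_⟩
  have := congrArg (Subtype.val) hk
  simpa [x', y'] using this


/-- For a finite group G the following are equivalent: every non-identity element has prime-power order; whenever two elements generate a cyclic subgroup, one of them is a power of the other (the enhanced power graph of G coincides with its power graph). -/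
theorem result {G : Type*} [Group G] [Finite G] :
    (∀ g : G, g ≠ 1 → IsPrimePow (orderOf g)) ↔
    (∀ x y : G, IsCyclic ↥(Subgroup.closure ({x, y} : Set G)) → (x ∈ Subgroup.zpowers y ∨ y ∈ Subgroup.zpowers x)) := by
  classical
  constructor
  · intro h x y hc
    haveI := hc
    obtain ⟨⟨c, hcC⟩, hgen⟩ := IsCyclic.exists_generator (α := ↥(Subgroup.closure ({x, y} : Set G)))
    by_cases hc1 : c = 1
    · left
      have hx1 : x = 1 := by
        have hxC : x ∈ Subgroup.closure ({x, y} : Set G) := Subgroup.subset_closure (by simp)
        have := hgen ⟨x, hxC⟩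
        obtain ⟨k, hk⟩ := this
        have h2 := congrArg Subtype.val hk
        simp [hc1] at h2
        exact h2.symm
      rw [hx1]; exact Subgroup.one_mem _
    · have hpp := h c hc1
      obtain ⟨r, k, hr, hk, hrk⟩ := hpp
      have hr' : r.Prime := hr.nat_prime
      have hxC : x ∈ Subgroup.closure ({x, y} : Set G) := Subgroup.subset_closure (by simp)
      have hyC : y ∈ Subgroup.closure ({x, y} : Set G) := Subgroup.subset_closure (by simp)
      have hdx : orderOf x ∣ orderOf c := by
        have := orderOf_dvd_of_mem_zpowers (hgen ⟨x, hxC⟩)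
        simpa using this
      have hdy : orderOf y ∣ orderOf c := by
        have := orderOf_dvd_of_mem_zpowers (hgen ⟨y, hyC⟩)
        simpa using this
      rw [← hrk] at hdx hdy
      obtain ⟨i, _, hi⟩ := (Nat.dvd_prime_pow hr').1 hdx
      obtain ⟨j, _, hj⟩ := (Nat.dvd_prime_pow hr').1 hdy
      rcases le_total i j with hij | hij
      · left
        apply mem_zpowers_of_dvd x y hc
        rw [hi, hj]; exact pow_dvd_pow r hij
      · right
        have hc' : IsCyclic ↥(Subgroup.closure ({y, x} : Set G)) := by
          rw [Set.pair_comm]; exact hc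
        apply mem_zpowers_of_dvd y x hc'
        rw [hi, hj]; exact pow_dvd_pow r hij
  · intro h g hg
    by_contra hnp
    have hn1 : orderOf g ≠ 1 := by simpa [orderOf_eq_one_iff] using hg
    have hn0 : orderOf g ≠ 0 := (orderOf_pos g).ne'
    let p := (orderOf g).minFac
    have hp : p.Prime := Nat.minFac_prime hn1
    obtain ⟨e, m, hpm, hem⟩ := Nat.exists_eq_pow_mul_and_not_dvd hn0 p hp.ne_one
    have he : e ≠ 0 := by
      rintro rfl
      apply hpm
      have h1 : p ∣ orderOf g := Nat.minFac_dvd (orderOf g)
      rw [hem, pow_zero, one_mul] at h1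
      exact h1
    have hm1 : m ≠ 1 := by
      rintro rfl
      apply hnp
      rw [hem, mul_one]
      exact (isPrimePow_nat_iff _).2 ⟨p, e, hp, Nat.pos_of_ne_zero he, rfl⟩
    let x := g ^ m
    let y := g ^ (p ^ e)
    have hm0 : 0 < m := by
      rcases Nat.eq_zero_or_pos m with h0 | h0
      · subst h0
        rw [mul_zero] at hem
        exact absurd hem hn0
      · exact h0
    have hox : orderOf x = p ^ e := by
      have := orderOf_pow_of_dvd (x := g) (n := m) hm0.ne' (Dvd.intro_left _ hem.symm)
      rw [this, hem]
      exact Nat.mul_div_cancel _ hm0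
    have hoy : orderOf y = m := by
      have := orderOf_pow_of_dvd (x := g) (n := p ^ e) (pow_ne_zero _ hp.ne_zero) (Dvd.intro _ hem.symm)
      rw [this, hem]
      exact Nat.mul_div_cancel_left _ (pow_pos hp.pos _)
    have hcyc : IsCyclic ↥(Subgroup.closure ({x, y} : Set G)) := by
      have hle : Subgroup.closure ({x, y} : Set G) ≤ Subgroup.zpowers g := by
        rw [Subgroup.closure_le]
        intro z hz
        rcases hz with rfl | hz
        · exact Subgroup.npow_mem_zpowers _ _
        · rw [Set.mem_singleton_iff] at hz
          subst hz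
          exact Subgroup.npow_mem_zpowers _ _
      have : IsCyclic ↥((Subgroup.closure ({x, y} : Set G)).subgroupOf (Subgroup.zpowers g)) := inferInstance
      exact isCyclic_of_injective (Subgroup.inclusion hle) (Subgroup.inclusion_injective hle)
    rcases h x y hcyc with hm | hm
    · have := orderOf_dvd_of_mem_zpowers hm
      rw [hox, hoy] at this
      exact hpm ((dvd_pow_self p he).trans this)
    · have := orderOf_dvd_of_mem_zpowers hm
      rw [hox, hoy] at this
      obtain ⟨i, _, hi⟩ := (Nat.dvd_prime_pow hp).1 this
      rcases Nat.eq_zero_or_pos i with h0 | h0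
      · subst h0; simp at hi; exact hm1 hi
      · rw [hi] at hpm
        exact hpm (dvd_pow_self p h0.ne')

end Cfsg.Agent.S4086
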