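import Cfsg.Statements.S4089
import Mathlib
import Cfsg.Agent.Lib.FGStruct.Subnorm
-- import your own Cfsg.Agent.* helpers here

set_option autoImplicit false
open Cfsg

namespace Cfsg.Agent.S4089

open Subgroup Cfsg.Agent.Lib.FGStruct.Subnorm

/-- `p`-closed overgroups. -/
theorem exists_closed {G : Type*} [Group G] [Finite G] {p : ℕ} [Fact p.Prime] :
    ∀ (n : ℕ) (T : Subgroup G), Nat.card G - Nat.card T = n → IsPGroup p T → ∀ g : G,
      g ∈ normalizer (T : Set G) →
      ∃ R : Subgroup G, T ≤ R ∧ (Cfsg.pCore p (normalizer (R : Set G))).map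
        (normalizer (R : Set G)).subtype = R ∧ g ∈ normalizer (R : Set G) := by
  intro n
  induction n using Nat.strong_induction_on with
  | _ n IH =>
  intro T hn hT g hg
  set N := normalizer (T : Set G) with hN
  set T₁ := (Cfsg.pCore p N).map N.subtype with hT₁
  have hle : T ≤ T₁ := by
    intro t ht
    have hn' : (T.subgroupOf N).Normal := by
      rw [normal_subgroupOf_iff_le_normalizer le_normalizer]
    have hp' : IsPGroup p (T.subgroupOf N) :=
      hT.of_equiv (subgroupOfEquivOfLe (le_normalizer : T ≤ N)).symm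
    have := Cfsg.Agent.Lib.Core.Basic.le_pCore hn' hp'
    exact ⟨⟨t, le_normalizer ht⟩, this (mem_subgroupOf.2 ht), rfl⟩
  have hT₁p : IsPGroup p T₁ := (Cfsg.Agent.Lib.Core.Basic.pCore_isPGroup (p := p) (G := N)).map _
  have hgT₁ : g ∈ normalizer (T₁ : Set G) := by
    have hnorm : (Cfsg.pCore p N).Normal := inferInstance
    rw [mem_normalizer_iff]
    intro w
    constructor
    · rintro ⟨y, hy, rfl⟩
      exact ⟨⟨g, hg⟩ * y * ⟨g, hg⟩⁻¹, hnorm.conj_mem y hy _, rfl⟩
    · rintro ⟨y, hy, hyw⟩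
      have hw : w = ((⟨g, hg⟩⁻¹ * y * ⟨g, hg⟩ : N) : G) := by
        have : g * w * g⁻¹ = y := hyw.symm
        rw [coe_mul, coe_mul]
        change w = g⁻¹ * (y : G) * g
        rw [← this]
        group
      refine ⟨⟨g, hg⟩⁻¹ * y * ⟨g, hg⟩, ?_, hw.symm⟩
      have := hnorm.conj_mem y hy (⟨g, hg⟩⁻¹)
      simpa using this
  rcases eq_or_lt_of_le hle with heq | hlt
  · exact ⟨T, le_rfl, heq.symm, hg⟩
  · have h1 := Cfsg.Agent.Lib.PGroups.Basic.card_lt_of_lt hlt
    have h2 : Nat.card T₁ ≤ Nat.card G := Subgroup.card_le_card_group T₁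
    obtain ⟨R, hR, hR2, hgR⟩ := IH _ (by omega) T₁ rfl hT₁p g hgT₁
    exact ⟨R, hle.trans hR, hR2, hgR⟩



/-- Let G be a finite group, p a prime and H a p-subgroup of G. Then the set of elements g of G such that H is subnormal in the subgroup generated by H and g is the union of the normalizers N_G(R) over the subgroups R of G containing H with R = O_p(N_G(R)); and this set does not change when H is replaced by the intersection of all Sylow p-subgroups of G containing H. -/
theorem result {G : Type*} [Group G] [Finite G] (p : ℕ) [Fact p.Prime]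
    (H : Subgroup G) (hH : IsPGroup p H) :
    {g : G | ((H).subgroupOf (H ⊔ Subgroup.zpowers g)).IsSubnormal} =
      {g : G | ∃ R : Subgroup G, H ≤ R ∧ (Cfsg.pCore p (Subgroup.normalizer (R : Set G))).map (Subgroup.normalizer (R : Set G)).subtype = R ∧ g ∈ Subgroup.normalizer (R : Set G)} ∧
    ∀ g : G, (((H).subgroupOf (H ⊔ Subgroup.zpowers g)).IsSubnormal ↔
      (((sInf {K : Subgroup G | ∃ Q : Sylow p G, H ≤ (Q : Subgroup G) ∧ K = (Q : Subgroup G)})).subgroupOf ((sInf {K : Subgroup G | ∃ Q : Sylow p G, H ≤ (Q : Subgroup G) ∧ K = (Q : Subgroup G)}) ⊔ Subgroup.zpowers g)).IsSubnormal) := by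
  classical
  constructor
  · ext g
    simp only [Set.mem_setOf_eq]
    rw [← mem_SNS_iff hH g]
    constructor
    · rintro ⟨T, hT, hHT, hgT⟩
      obtain ⟨R, hTR, hR, hgR⟩ := exists_closed _ T rfl hT g hgT
      exact ⟨R, hHT.trans hTR, hR, hgR⟩
    · rintro ⟨R, hHR, hR, hgR⟩
      refine ⟨R, ?_, hHR, hgR⟩
      rw [← hR]
      exact (Cfsg.Agent.Lib.Core.Basic.pCore_isPGroup).map _
  · set I := sInf {K : Subgroup G | ∃ Q : Sylow p G, H ≤ (Q : Subgroup G) ∧ K = (Q : Subgroup G)} with hI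
    obtain ⟨Q₀, hQ₀⟩ := hH.exists_le_sylow
    have hHI : H ≤ I := by
      refine le_sInf ?_
      rintro K ⟨Q, hQ, rfl⟩
      exact hQ
    have hIQ : ∀ Q : Sylow p G, H ≤ (Q : Subgroup G) → I ≤ (Q : Subgroup G) := fun Q hQ =>
      sInf_le ⟨Q, hQ, rfl⟩
    have hIp : IsPGroup p I := Q₀.isPGroup'.to_le (hIQ Q₀ hQ₀)
    have h1 := card_subnormalizer hH Q₀
    have h2 := card_subnormalizer hIp Q₀
    have h3 : Nat.card {Q : Sylow p G // I ≤ (Q : Subgroup G)} =
        Nat.card {Q : Sylow p G // H ≤ (Q : Subgroup G)} :=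
      Nat.card_congr ⟨fun Q => ⟨Q.1, hHI.trans Q.2⟩, fun Q => ⟨Q.1, hIQ Q.1 Q.2⟩,
        fun _ => rfl, fun _ => rfl⟩
    rw [h3, ← h1] at h2
    have hsub : {g : G | (I.subgroupOf (I ⊔ zpowers g)).IsSubnormal} ⊆
        {g : G | (H.subgroupOf (H ⊔ zpowers g)).IsSubnormal} := by
      intro g hg
      have h4 := (mem_SNS_iff hIp g).2 hg
      exact (mem_SNS_iff hH g).1 (SNS_anti hHI h4)
    have hcard : ({g : G | (H.subgroupOf (H ⊔ zpowers g)).IsSubnormal}).ncard ≤
        ({g : G | (I.subgroupOf (I ⊔ zpowers g)).IsSubnormal}).ncard := by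
      rw [← Nat.card_coe_set_eq, ← Nat.card_coe_set_eq]
      exact h2.ge
    have heq := Set.eq_of_subset_of_ncard_le hsub hcard (Set.toFinite _)
    intro g
    have := Set.ext_iff.1 heq g
    exact this.symm

end Cfsg.Agent.S4089
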