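import Cfsg.Statements.S4092
import Mathlib
-- import your own Cfsg.Agent.* helpers here

set_option autoImplicit false
open Cfsg

namespace Cfsg.Agent.S4092

theorem bonf {α ι : Type*} [DecidableEq α] [DecidableEq ι] (A : ι → Finset α) (a ε : ℕ) (s : Finset ι)
    (h1 : ∀ i ∈ s, a ≤ (A i).card) (h2 : ∀ i ∈ s, ∀ j ∈ s, i ≠ j → (A i ∩ A j).card ≤ ε) :
    2 * s.card * a ≤ 2 * (s.biUnion A).card + s.card * (s.card - 1) * ε := by
  induction s using Finset.induction_on with
  | empty => simp
  | insert i s hi ih =>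
    have ih' := ih (fun j hj => h1 j (Finset.mem_insert_of_mem hj))
      (fun j hj k hk => h2 j (Finset.mem_insert_of_mem hj) k (Finset.mem_insert_of_mem hk))
    rw [Finset.biUnion_insert, Finset.card_insert_of_notMem hi]
    have h3 : (A i ∩ s.biUnion A).card ≤ s.card * ε := by
      rw [Finset.inter_biUnion]
      refine Finset.card_biUnion_le.trans ?_
      rw [← smul_eq_mul, ← Finset.sum_const]
      apply Finset.sum_le_sum
      intro j hj
      exact h2 i (Finset.mem_insert_self _ _) j (Finset.mem_insert_of_mem hj) (fun h => hi (h ▸ hj))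
    have h4 := Finset.card_union_add_card_inter (A i) (s.biUnion A)
    have h5 := h1 i (Finset.mem_insert_self _ _)
    simp only [Nat.add_sub_cancel]
    rcases Nat.eq_zero_or_pos s.card with h0 | h0
    · rw [h0] at h3 ih' ⊢
      rw [Nat.zero_mul] at h3
      simp only [zero_add, mul_one, mul_zero, zero_mul, add_zero]
      omega
    · obtain ⟨c, hc⟩ : ∃ c, s.card = c + 1 := ⟨s.card - 1, by omega⟩
      rw [hc] at h3 ih' ⊢
      simp only [Nat.add_sub_cancel] at ih'
      nlinarith



/-- Let G be a finite group, p a prime and P a Sylow p-subgroup of G that is not normal in G. Then G has at least p·#P elements of p-power order (the identity included). -/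
theorem result {G : Type*} [Group G] [Finite G] (p : ℕ) [Fact p.Prime]
    (P : Sylow p G) (hP : ¬ (P : Subgroup G).Normal) :
    p * Nat.card (P : Subgroup G) ≤ Nat.card {g : G // ∃ k : ℕ, orderOf g = p ^ k} := by
  classical
  haveI : Fintype G := Fintype.ofFinite G
  let F : Subgroup G → Finset G := fun H => Finset.univ.filter (· ∈ H)
  have hF : ∀ H : Subgroup G, (F H).card = Nat.card H := by
    intro H
    rw [Nat.card_eq_fintype_card, Fintype.card_subtype]
  have hFi : ∀ H K : Subgroup G, F H ∩ F K = F (H ⊓ K) := by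
    intro H K
    ext x
    simp [F]
  obtain ⟨n, hn⟩ : ∃ n, Nat.card (P : Subgroup G) = p ^ n := ⟨_, P.card_eq_multiplicity⟩
  set m := Nat.card (P : Subgroup G) with hm
  have hpp : p.Prime := Fact.out
  have hcardS : ∀ R : Sylow p G, Nat.card (R : Subgroup G) = m := by
    intro R
    rw [Sylow.card_eq_multiplicity, hm, Sylow.card_eq_multiplicity]
  -- a Sylow subgroup different from `P`
  have hne : ∃ Q : Sylow p G, Q ≠ P := by
    by_contra hcon
    push_neg at hcon
    apply hP
    rw [← Subgroup.normalizer_eq_top_iff, eq_top_iff]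
    intro g _
    exact (Sylow.smul_eq_iff_mem_normalizer (g := g) (P := P)).1 (hcon _)
  haveI : Nonempty {Q : Sylow p G // Q ≠ P} := by
    obtain ⟨Q, hQ⟩ := hne
    exact ⟨⟨Q, hQ⟩⟩
  obtain ⟨⟨Q, hQP⟩, hQmax⟩ := Finite.exists_max
    (fun Q : {Q : Sylow p G // Q ≠ P} => Nat.card ↥((P : Subgroup G) ⊓ (Q.1 : Subgroup G)))
  set d := Nat.card ↥((P : Subgroup G) ⊓ (Q : Subgroup G)) with hd
  -- conjugation invariance
  have hmax : ∀ R S : Sylow p G, R ≠ S → Nat.card ↥((R : Subgroup G) ⊓ (S : Subgroup G)) ≤ d := by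
    intro R S hRS
    obtain ⟨g, hg⟩ := MulAction.exists_smul_eq G R P
    have h1 : g • S ≠ P := by
      intro h
      apply hRS
      rw [← hg] at h
      exact (MulAction.injective g h).symm
    have h2 := hQmax ⟨g • S, h1⟩
    refine le_trans (le_of_eq ?_) h2
    simp only
    rw [← hg, Sylow.coe_subgroup_smul, Sylow.coe_subgroup_smul, ← Subgroup.smul_inf]
    exact Nat.card_congr (Subgroup.equivSMul (MulAut.conj g) _).toEquiv
  -- the action of P on the Sylow subgroups
  have hstab : ∀ x : (P : Subgroup G), x ∈ MulAction.stabilizer (P : Subgroup G) Q ↔ (x : G) ∈ (Q : Subgroup G) := by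
    intro x
    rw [MulAction.mem_stabilizer_iff]
    have h1 : (x • Q = Q) ↔ (x : G) • Q = Q := Iff.rfl
    rw [h1, Sylow.smul_eq_iff_mem_normalizer]
    constructor
    · intro h
      have h2 := IsPGroup.inf_normalizer_sylow P.isPGroup' Q
      have h3 : (x : G) ∈ (P : Subgroup G) ⊓ Subgroup.normalizer (Q : Set G) := ⟨x.2, h⟩
      rw [h2] at h3
      exact h3.2
    · intro h
      exact Subgroup.le_normalizer h
  set O : Set (Sylow p G) := MulAction.orbit (P : Subgroup G) Q with hO
  have hOm : d * Nat.card O = m := by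
    have h1 : _ = m := Subgroup.card_mul_index (MulAction.stabilizer (P : Subgroup G) Q)
    rw [MulAction.index_stabilizer, ← Nat.card_coe_set_eq] at h1
    rw [← h1]
    congr 1
    symm
    apply Nat.card_congr
    exact
      { toFun := fun x => ⟨x.1.1, x.1.2, (hstab x.1).1 x.2⟩
        invFun := fun x => ⟨⟨x.1, x.2.1⟩, (hstab ⟨x.1, x.2.1⟩).2 x.2.2⟩
        left_inv := fun x => by ext; rfl
        right_inv := fun x => by ext; rfl }
  have hOne : ∀ R ∈ O, R ≠ P := by
    rintro R ⟨x, rfl⟩ h
    apply hQP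
    have h1 : (x : G) • Q = P := h
    have h2 : (x : G)⁻¹ • P = P := by
      rw [Sylow.smul_eq_iff_mem_normalizer]
      exact Subgroup.le_normalizer (P.1.inv_mem x.2)
    have h3 : Q = (x : G)⁻¹ • ((x : G) • Q) := (inv_smul_smul _ _).symm
    rw [h1, h2] at h3
    exact h3
  have hQO : Q ∈ O := MulAction.mem_orbit_self Q
  haveI : Nonempty O := ⟨⟨Q, hQO⟩⟩
  have hd0 : 0 < d := Nat.card_pos
  have hm0 : 0 < m := Nat.card_pos
  have hO1 : Nat.card O ≠ 1 := by
    intro h1
    rw [h1, mul_one] at hOm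
    apply hQP
    have h2 : (P : Subgroup G) ⊓ (Q : Subgroup G) = P :=
      Subgroup.eq_of_le_of_card_ge inf_le_left (by rw [← hm, ← hOm])
    have h3 : (P : Subgroup G) ≤ Q := inf_eq_left.1 h2
    exact Sylow.ext (P.3 Q.isPGroup' h3)
  have hOdvd : Nat.card O ∣ p ^ n := by
    rw [← hn, ← hOm]
    exact Dvd.intro_left _ rfl
  obtain ⟨e, he, hOe⟩ := (Nat.dvd_prime_pow hpp).1 hOdvd
  have he0 : e ≠ 0 := by
    rintro rfl
    exact hO1 (by simpa using hOe)
  have hOfin : O.Finite := Set.toFinite O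
  -- pick p members of the orbit
  have hOcard : p ≤ hOfin.toFinset.card := by
    rw [Set.Finite.card_toFinset, ← Nat.card_eq_fintype_card, hOe]
    calc p = p ^ 1 := (pow_one p).symm
      _ ≤ p ^ e := Nat.pow_le_pow_right hpp.pos (Nat.one_le_iff_ne_zero.2 he0)
  obtain ⟨s, hsO, hscard⟩ := Finset.exists_subset_card_eq hOcard
  have hsO' : ∀ R ∈ s, R ∈ O := fun R hR => (Set.Finite.mem_toFinset hOfin).1 (hsO hR)
  let A : Sylow p G → Finset G := fun R => F (R : Subgroup G) \ F (P : Subgroup G)
  have hAcard : ∀ R ∈ s, m - d ≤ (A R).card := by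
    intro R hR
    have h1 : (A R).card + (F (R : Subgroup G) ∩ F (P : Subgroup G)).card = (F (R : Subgroup G)).card :=
      Finset.card_sdiff_add_card_inter _ _
    rw [hFi, hF, hF, hcardS] at h1
    have h2 := hmax R P (hOne R (hsO' R hR))
    omega
  -- everything lies among the p-elements
  let U : Finset G := Finset.univ.filter (fun g => ∃ k : ℕ, orderOf g = p ^ k)
  have hUcard : Nat.card {g : G // ∃ k : ℕ, orderOf g = p ^ k} = U.card := by
    rw [Nat.card_eq_fintype_card, Fintype.card_subtype]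
  rw [hUcard]
  have hSylU : ∀ R : Sylow p G, F (R : Subgroup G) ⊆ U := by
    intro R x hx
    have hx' : x ∈ (R : Subgroup G) := (Finset.mem_filter.1 hx).2
    obtain ⟨k, hk⟩ := (IsPGroup.iff_orderOf.1 R.isPGroup') ⟨x, hx'⟩
    refine Finset.mem_filter.2 ⟨Finset.mem_univ _, k, ?_⟩
    rw [← hk]
    simp
  have hUlow : m + (s.biUnion A).card ≤ U.card := by
    have h1 : F (P : Subgroup G) ∪ s.biUnion A ⊆ U := by
      apply Finset.union_subset (hSylU P)
      intro x hx
      obtain ⟨R, -, hxR⟩ := Finset.mem_biUnion.1 hx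
      exact hSylU R (Finset.mem_sdiff.1 hxR).1
    have h2 : Disjoint (F (P : Subgroup G)) (s.biUnion A) := by
      rw [Finset.disjoint_left]
      intro x hx hx2
      obtain ⟨R, -, hxR⟩ := Finset.mem_biUnion.1 hx2
      exact (Finset.mem_sdiff.1 hxR).2 hx
    have h3 := Finset.card_le_card h1
    rw [Finset.card_union_of_disjoint h2, hF] at h3
    exact h3
  have hinter : ∀ R S : Sylow p G, (A R ∩ A S).card ≤ Nat.card ↥((R : Subgroup G) ⊓ (S : Subgroup G)) := by
    intro R S
    rw [← hF, ← hFi]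
    apply Finset.card_le_card
    intro x hx
    rw [Finset.mem_inter] at hx ⊢
    exact ⟨(Finset.mem_sdiff.1 hx.1).1, (Finset.mem_sdiff.1 hx.2).1⟩
  by_cases he1 : e = 1
  · -- index p
    subst he1
    have hOp : Nat.card O = p := by rw [hOe, pow_one]
    have hmd : m = d * p := by rw [← hOm, hOp]
    have hn0 : n ≠ 0 := by
      rintro rfl
      rw [pow_zero] at hn
      have : d * p = 1 := by rw [← hmd, hn]
      have h2 := hpp.two_le
      have : p ∣ 1 := Dvd.intro_left _ this
      exact hpp.one_lt.ne' (Nat.dvd_one.1 this)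
    have hind : (MulAction.stabilizer (P : Subgroup G) Q).index = (Nat.card (P : Subgroup G)).minFac := by
      rw [MulAction.index_stabilizer, ← Nat.card_coe_set_eq, hOp, ← hm, hn, hpp.pow_minFac hn0]
    have hnorm := Subgroup.normal_of_index_eq_minFac_card hind
    have hDle : ∀ R ∈ O, (P : Subgroup G) ⊓ (Q : Subgroup G) ≤ R := by
      rintro R ⟨x, rfl⟩ y ⟨hyP, hyQ⟩
      have h1 : (⟨y, hyP⟩ : (P : Subgroup G)) ∈ MulAction.stabilizer (P : Subgroup G) Q := (hstab _).2 hyQ
      have h2 := hnorm.conj_mem _ h1 x⁻¹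
      have h3 : (x : G)⁻¹ * y * x ∈ (Q : Subgroup G) := by
        have := (hstab _).1 h2
        simpa using this
      show y ∈ (((x : G) • Q : Sylow p G) : Subgroup G)
      rw [Sylow.coe_subgroup_smul, Subgroup.mem_pointwise_smul_iff_inv_smul_mem, MulAut.smul_def,
        MulAut.conj_inv_apply]
      exact h3
    have hdis : ∀ R ∈ s, ∀ S ∈ s, R ≠ S → (A R ∩ A S).card ≤ 0 := by
      intro R hR S hS hRS
      have h1 := hmax R S hRS
      have h2 : (P : Subgroup G) ⊓ (Q : Subgroup G) ≤ (R : Subgroup G) ⊓ (S : Subgroup G) :=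
        le_inf (hDle R (hsO' R hR)) (hDle S (hsO' S hS))
      have h3 : (P : Subgroup G) ⊓ (Q : Subgroup G) = (R : Subgroup G) ⊓ (S : Subgroup G) :=
        Subgroup.eq_of_le_of_card_ge h2 h1
      rw [Nat.le_zero, Finset.card_eq_zero, Finset.eq_empty_iff_forall_notMem]
      intro x hx
      rw [Finset.mem_inter] at hx
      have h4 : x ∈ (R : Subgroup G) ⊓ (S : Subgroup G) :=
        ⟨(Finset.mem_filter.1 (Finset.mem_sdiff.1 hx.1).1).2, (Finset.mem_filter.1 (Finset.mem_sdiff.1 hx.2).1).2⟩
      rw [← h3] at h4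
      exact (Finset.mem_sdiff.1 hx.1).2 (Finset.mem_filter.2 ⟨Finset.mem_univ _, h4.1⟩)
    have hb := bonf A (m - d) 0 s hAcard hdis
    rw [hscard] at hb
    simp only [mul_zero, add_zero] at hb
    have h5 : p * (m - d) ≤ (s.biUnion A).card := by nlinarith
    have h6 : p * m - p * d = p * (m - d) := (Nat.mul_sub p m d).symm
    have h7 : p * d = m := by rw [hmd]; ring
    have h8 : m ≤ p * m := Nat.le_mul_of_pos_left m hpp.pos
    omega
  · -- index at least p²
    have he2 : 2 ≤ e := by omega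
    have hb := bonf A (m - d) d s hAcard (fun R _ S _ hRS => (hinter R S).trans (hmax R S hRS))
    rw [hscard] at hb
    have h1 : p ^ 2 ∣ Nat.card O := by
      rw [hOe]; exact pow_dvd_pow p he2
    obtain ⟨c, hc⟩ := h1
    have hc0 : 0 < c := by
      rcases Nat.eq_zero_or_pos c with h | h
      · subst h
        simp only [mul_zero] at hc
        exact absurd hc (Nat.card_pos (α := O)).ne'
      · exact h
    have hm2 : p ^ 2 * d ≤ m := by
      rw [← hOm, hc]
      nlinarith [Nat.zero_le (d * p ^ 2)]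
    obtain ⟨r, hr⟩ : ∃ r, m = d + r := ⟨m - d, by
      have : d ≤ p ^ 2 * d := Nat.le_mul_of_pos_left d (pow_pos hpp.pos 2)
      omega⟩
    have hmr : m - d = r := by omega
    rw [hmr] at hb
    have hp1 : 1 ≤ p := hpp.pos
    obtain ⟨q, rfl⟩ : ∃ q, p = q + 1 := ⟨p - 1, by omega⟩
    simp only [Nat.add_sub_cancel] at hb
    have h9 : (q + 1) * m ≤ m + (s.biUnion A).card := by
      have h10 : 2 * ((q + 1) * m) ≤ 2 * (m + (s.biUnion A).card) := by
        rw [hr] at hm2 ⊢
        nlinarith
      omega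
    omega

end Cfsg.Agent.S4092
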