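import Cfsg.Statements.S4093
import Mathlib
-- import your own Cfsg.Agent.* helpers here

set_option autoImplicit false
open scoped BigOperators
open Cfsg

namespace Cfsg.Agent.S4093

theorem card_sum_fibers {A B : Type*} [Fintype A] [Fintype B] [DecidableEq B] (g : A → B) :
    Nat.card A = ∑ b : B, Nat.card {a : A // g a = b} := by
  classical
  rw [Nat.card_eq_fintype_card, ← Fintype.card_congr (Equiv.sigmaFiberEquiv g), Fintype.card_sigma]
  apply Finset.sum_congr rfl
  intro b _
  rw [Nat.card_eq_fintype_card]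

theorem isPElt_of_mem_sylow {G : Type*} [Group G] {p : ℕ} [Fact p.Prime] (Q : Sylow p G) {a : G}
    (ha : a ∈ (Q : Subgroup G)) : ∃ k : ℕ, orderOf a = p ^ k := by
  obtain ⟨k, hk⟩ := (IsPGroup.iff_orderOf.1 Q.isPGroup') ⟨a, ha⟩
  refine ⟨k, ?_⟩
  rw [← hk]
  simp



/-- Let G be a finite group with a normal subgroup N complementing a Sylow p-subgroup P (a normal p-complement). Then the number of elements of G of p-power order equals the sum over x ∈ P of the index of C_N(x) in N. -/
theorem result {G : Type*} [Group G] [Finite G] (p : ℕ) [Fact p.Prime]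
    (P : Sylow p G) (N : Subgroup G) [N.Normal] (hNP : N.IsComplement' (P : Subgroup G)) :
    Nat.card {g : G // ∃ k : ℕ, orderOf g = p ^ k} =
      ∑ᶠ x : (P : Subgroup G), Nat.card N / Nat.card ↥(N ⊓ Subgroup.centralizer ({(x : G)} : Set G)) := by
  classical
  haveI : Fintype G := Fintype.ofFinite G
  let PP := (P : Subgroup G)
  haveI : Fintype PP := Fintype.ofFinite _
  haveI : Fintype N := Fintype.ofFinite _
  let e : N × PP ≃ G := Equiv.ofBijective (fun x : N × PP => (x.1 : G) * (x.2 : G)) hNP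
  have he : ∀ (n : N) (z : PP), e.symm ((n : G) * (z : G)) = (n, z) := by
    intro n z
    rw [Equiv.symm_apply_eq]
    rfl
  let A := {g : G // ∃ k : ℕ, orderOf g = p ^ k}
  haveI : Fintype A := Fintype.ofFinite _
  let ψ : A → PP := fun a => (e.symm a.1).2
  have hsum : Nat.card A = ∑ b : PP, Nat.card {a : A // ψ a = b} := card_sum_fibers ψ
  show Nat.card A = _
  rw [hsum, finsum_eq_sum_of_fintype]
  apply Finset.sum_congr rfl
  intro x _
  -- fibers
  have hψ : ∀ (a : A) (n : N) (z : PP), a.1 = (n : G) * z * (n : G)⁻¹ → ψ a = z := by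
    intro a n z ha
    have h1 : a.1 = ((n * ⟨(z : G) * (n : G)⁻¹ * (z : G)⁻¹, by
        exact Subgroup.Normal.conj_mem inferInstance _ (N.inv_mem n.2) _⟩ : N) : G) * (z : G) := by
      rw [ha]
      simp only [Subgroup.coe_mul]
      group
    show (e.symm a.1).2 = z
    rw [h1, he]
  have hpelt : ∀ n : N, ∃ k : ℕ, orderOf ((n : G) * (x : G) * (n : G)⁻¹) = p ^ k := by
    intro n
    obtain ⟨k, hk⟩ := isPElt_of_mem_sylow P x.2
    refine ⟨k, ?_⟩
    rw [← hk]
    exact MulEquiv.orderOf_eq (MulAut.conj (n : G)) (x : G)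
  let θ : N → {a : A // ψ a = x} := fun n =>
    ⟨⟨(n : G) * x * (n : G)⁻¹, hpelt n⟩, hψ _ n x rfl⟩
  have hsurj : Function.Surjective θ := by
    rintro ⟨⟨y, k, hk⟩, hy⟩
    have h1 : IsPGroup p (Subgroup.zpowers y) := by
      rw [IsPGroup.iff_card]
      exact ⟨k, by rw [Nat.card_zpowers, hk]⟩
    obtain ⟨R, hR⟩ := h1.exists_le_sylow
    obtain ⟨g, hg⟩ := MulAction.exists_smul_eq G P R
    obtain ⟨⟨n, q⟩, hnq⟩ := e.surjective g
    have hnq' : (n : G) * (q : G) = g := hnq
    have hyR : y ∈ (R : Subgroup G) := hR (Subgroup.mem_zpowers y)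
    rw [← hg, Sylow.coe_subgroup_smul, Subgroup.mem_pointwise_smul_iff_inv_smul_mem] at hyR
    have hw : g⁻¹ * y * g ∈ PP := by
      have h2 : (MulAut.conj g)⁻¹ • y = g⁻¹ * y * g := by
        rw [MulAut.smul_def, MulAut.conj_inv_apply]
      rwa [h2] at hyR
    let z : PP := q * ⟨g⁻¹ * y * g, hw⟩ * q⁻¹
    have hyz : y = (n : G) * z * (n : G)⁻¹ := by
      simp only [z, Subgroup.coe_mul, Subgroup.coe_inv]
      rw [← hnq']
      group
    have h2 : ψ ⟨y, k, hk⟩ = z := hψ _ n z hyz
    have h3 : z = x := h2.symm.trans hy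
    refine ⟨n, ?_⟩
    apply Subtype.ext
    apply Subtype.ext
    show (n : G) * x * (n : G)⁻¹ = y
    rw [hyz, h3]
  haveI : Fintype {a : A // ψ a = x} := Fintype.ofFinite _
  have hfib : ∀ w : {a : A // ψ a = x}, Nat.card {n : N // θ n = w} =
      Nat.card ↥(N ⊓ Subgroup.centralizer ({(x : G)} : Set G)) := by
    intro w
    obtain ⟨n0, rfl⟩ := hsurj w
    have hval : ∀ n : N, (θ n).1.1 = (n : G) * x * (n : G)⁻¹ := fun _ => rfl
    apply Nat.card_congr
    refine
      { toFun := fun n => ⟨(n0 : G)⁻¹ * n.1, N.mul_mem (N.inv_mem n0.2) n.1.2, ?_⟩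
        invFun := fun c => ⟨⟨(n0 : G) * c.1, N.mul_mem n0.2 c.2.1⟩, ?_⟩
        left_inv := fun n => by
          apply Subtype.ext
          apply Subtype.ext
          simp
        right_inv := fun c => by
          apply Subtype.ext
          simp }
    · refine Subgroup.mem_centralizer_singleton_iff.2 ?_
      have h1 := congrArg (fun z : {a : A // ψ a = x} => z.1.1) n.2
      simp only [hval] at h1
      have h2 : (n.1 : G) * x = (n0 : G) * x * (n0 : G)⁻¹ * n.1 := by
        rw [← h1]; group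
      calc (n0 : G)⁻¹ * n.1 * x = (n0 : G)⁻¹ * ((n.1 : G) * x) := by group
        _ = (n0 : G)⁻¹ * ((n0 : G) * x * (n0 : G)⁻¹ * n.1) := by rw [h2]
        _ = _ := by group
    · apply Subtype.ext
      apply Subtype.ext
      have hc := Subgroup.mem_centralizer_singleton_iff.1 c.2.2
      show ((n0 : G) * c.1) * x * ((n0 : G) * c.1)⁻¹ = (n0 : G) * x * (n0 : G)⁻¹
      calc ((n0 : G) * c.1) * x * ((n0 : G) * c.1)⁻¹ = (n0 : G) * ((c.1 : G) * x) * (c.1 : G)⁻¹ * (n0 : G)⁻¹ := by group
        _ = _ := by rw [hc]; group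
  have hN : Nat.card N = ∑ w : {a : A // ψ a = x}, Nat.card {n : N // θ n = w} := card_sum_fibers θ
  rw [Finset.sum_congr rfl (fun w _ => hfib w), Finset.sum_const, Finset.card_univ, smul_eq_mul] at hN
  symm
  apply Nat.div_eq_of_eq_mul_left Nat.card_pos
  rw [hN, Nat.card_eq_fintype_card (α := {a : A // ψ a = x})]

end Cfsg.Agent.S4093
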