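import Cfsg.Statements.S4106
import Mathlib
-- import your own Cfsg.Agent.* helpers here

set_option autoImplicit false
open Cfsg

namespace Cfsg.Agent.S4106

universe u

/-- the class `C` consists of `π`-elements. -/
def Good {G : Type*} [Group G] (π : Set ℕ) (C : ConjClasses G) : Prop :=
  ∀ q : ℕ, q.Prime → (∃ g : G, ConjClasses.mk g = C ∧ q ∣ orderOf g) → q ∈ π

theorem orderOf_of_isConj {G : Type*} [Group G] {a b : G} (h : IsConj a b) : orderOf a = orderOf b := by
  obtain ⟨g, rfl⟩ := isConj_iff.1 h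
  exact (MulEquiv.orderOf_eq (MulAut.conj g) a).symm

theorem good_mk_iff {G : Type*} [Group G] (π : Set ℕ) (x : G) :
    Good π (ConjClasses.mk x) ↔ ∀ q : ℕ, q.Prime → q ∣ orderOf x → q ∈ π := by
  constructor
  · intro h q hq hqx
    exact h q hq ⟨x, rfl, hqx⟩
  · rintro h q hq ⟨g, hg, hqg⟩
    have h1 : IsConj g x := ConjClasses.mk_eq_mk_iff_isConj.1 hg
    rw [orderOf_of_isConj h1] at hqg
    exact h q hq hqg

/-- Decomposition of an element in its `p`-part and its `p'`-part. -/
theorem exists_decomp {G : Type*} [Group G] [Finite G] (p : ℕ) (hp : p.Prime) (x : G) :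
    ∃ y z : G, x = y * z ∧ Commute y z ∧ (∃ k, orderOf y = p ^ k) ∧ ¬ p ∣ orderOf z ∧
      orderOf z ∣ orderOf x := by
  have hn : orderOf x ≠ 0 := (orderOf_pos x).ne'
  obtain ⟨a, b, hb, hab⟩ := Nat.exists_eq_pow_mul_and_not_dvd hn p hp.ne_one
  have hcop : IsCoprime ((p ^ a : ℕ) : ℤ) (b : ℤ) := by
    rw [Nat.isCoprime_iff_coprime]
    exact Nat.Coprime.pow_left a ((Nat.Prime.coprime_iff_not_dvd hp).2 hb)
  obtain ⟨u, v, huv⟩ := hcop
  have hxn : x ^ ((p ^ a * b : ℕ) : ℤ) = 1 := by
    rw [← hab, zpow_natCast]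
    exact pow_orderOf_eq_one x
  refine ⟨x ^ (v * b), x ^ (u * (p ^ a : ℕ)), ?_, ?_, ?_, ?_, ?_⟩
  · rw [← zpow_add, add_comm, huv, zpow_one]
  · exact (Commute.refl x).zpow_zpow _ _
  · have h1 : (x ^ (v * b)) ^ (p ^ a) = 1 := by
      rw [← zpow_natCast, ← zpow_mul]
      have : v * (b : ℤ) * ((p ^ a : ℕ) : ℤ) = v * ((p ^ a * b : ℕ) : ℤ) := by
        push_cast; ring
      rw [this, mul_comm, zpow_mul, hxn, one_zpow]
    obtain ⟨k, -, hk⟩ := (Nat.dvd_prime_pow hp).1 (orderOf_dvd_of_pow_eq_one h1)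
    exact ⟨k, hk⟩
  · intro hdvd
    have h1 : (x ^ (u * (p ^ a : ℕ))) ^ b = 1 := by
      rw [← zpow_natCast, ← zpow_mul]
      have : u * ((p ^ a : ℕ) : ℤ) * (b : ℤ) = u * ((p ^ a * b : ℕ) : ℤ) := by
        push_cast; ring
      rw [this, mul_comm, zpow_mul, hxn, one_zpow]
    exact hb (hdvd.trans (orderOf_dvd_of_pow_eq_one h1))
  · apply orderOf_dvd_of_pow_eq_one
    rw [← zpow_natCast, ← zpow_mul, mul_comm, zpow_mul, zpow_natCast, pow_orderOf_eq_one, one_zpow]

/-- primes dividing the order of a product of commuting elements -/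
theorem prime_dvd_orderOf_mul {G : Type*} [Group G] [Finite G] {y z : G} (h : Commute y z) {q : ℕ}
    (hq : q.Prime) (hd : q ∣ orderOf (y * z)) : q ∣ orderOf y ∨ q ∣ orderOf z := by
  have h1 : orderOf (y * z) ∣ orderOf y * orderOf z := by
    apply orderOf_dvd_of_pow_eq_one
    rw [h.mul_pow]
    rw [pow_mul, pow_orderOf_eq_one, one_pow, mul_comm, pow_mul, pow_orderOf_eq_one, one_pow, one_mul]
  exact (Nat.Prime.dvd_mul hq).1 (hd.trans h1)

def piPart (S : Finset ℕ) (n : ℕ) : ℕ := ∏ q ∈ S, q ^ n.factorization q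

theorem piPart_mono (S : Finset ℕ) (hS : ∀ q ∈ S, q.Prime) {a b : ℕ} (hab : a ∣ b) (hb : b ≠ 0) :
    piPart S a ≤ piPart S b := by
  apply Finset.prod_le_prod'
  intro q hq
  have ha : a ≠ 0 := fun h => hb (by rw [h] at hab; exact zero_dvd_iff.1 hab)
  have h1 := (Nat.factorization_le_iff_dvd ha hb).2 hab
  exact Nat.pow_le_pow_right (hS q hq).pos (h1 q)

theorem card_pclasses_le {G : Type*} [Group G] [Finite G] (p : ℕ) (hp : p.Prime) :
    Nat.card {C : ConjClasses G // Good ({p} : Set ℕ) C} ≤ p ^ (Nat.card G).factorization p := by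
  classical
  haveI : Fact p.Prime := ⟨hp⟩
  obtain ⟨P⟩ : Nonempty (Sylow p G) := inferInstance
  rw [← P.card_eq_multiplicity]
  have hgood : ∀ x : (P : Subgroup G), Good ({p} : Set ℕ) (ConjClasses.mk (x : G)) := by
    intro x
    rw [good_mk_iff]
    intro q hq hqx
    obtain ⟨k, hk⟩ := (IsPGroup.iff_orderOf.1 P.isPGroup') x
    have h1 : orderOf (x : G) = p ^ k := by rw [← hk]; simp
    rw [h1] at hqx
    exact (Nat.prime_dvd_prime_iff_eq hq hp).1 (hq.dvd_of_dvd_pow hqx)
  refine Nat.card_le_card_of_surjective (fun x : (P : Subgroup G) => ⟨ConjClasses.mk (x : G), hgood x⟩) ?_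
  rintro ⟨C, hC⟩
  obtain ⟨x, rfl⟩ := ConjClasses.mk_surjective C
  rw [good_mk_iff] at hC
  have h1 : ∃ k, orderOf x = p ^ k := by
    refine ⟨_, Nat.eq_prime_pow_of_unique_prime_dvd (orderOf_pos x).ne' (fun {d} hd hdx => hC d hd hdx)⟩
  obtain ⟨k, hk⟩ := h1
  have h2 : IsPGroup p (Subgroup.zpowers x) := by
    rw [IsPGroup.iff_card]
    exact ⟨k, by rw [Nat.card_zpowers, hk]⟩
  obtain ⟨R, hR⟩ := h2.exists_le_sylow
  obtain ⟨g, hg⟩ := MulAction.exists_smul_eq G R P
  have hxR : x ∈ (R : Subgroup G) := hR (Subgroup.mem_zpowers x)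
  have h3 : g * x * g⁻¹ ∈ (P : Subgroup G) := by
    rw [← hg, Sylow.coe_subgroup_smul]
    exact ⟨x, hxR, rfl⟩
  refine ⟨⟨_, h3⟩, ?_⟩
  apply Subtype.ext
  simp only
  rw [ConjClasses.mk_eq_mk_iff_isConj]
  exact (isConj_iff.2 ⟨g, rfl⟩).symm

theorem key (S : Finset ℕ) (hS : ∀ q ∈ S, q.Prime) :
    ∀ (G : Type u) [Group G] [Finite G],
      Nat.card {C : ConjClasses G // Good (S : Set ℕ) C} ≤ piPart S (Nat.card G) := by
  classical
  induction S using Finset.induction_on with
  | empty =>
    intro G _ _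
    simp only [piPart, Finset.prod_empty]
    apply Finite.card_le_one_iff_subsingleton.2
    refine ⟨?_⟩
    rintro ⟨C, hC⟩ ⟨D, hD⟩
    apply Subtype.ext
    show C = D
    have h1 : ∀ E : ConjClasses G, Good ((∅ : Finset ℕ) : Set ℕ) E → E = ConjClasses.mk 1 := by
      intro E hE
      obtain ⟨x, rfl⟩ := ConjClasses.mk_surjective E
      rw [good_mk_iff] at hE
      have h2 : orderOf x = 1 := by
        by_contra h3
        obtain ⟨q, hq, hqx⟩ := Nat.exists_prime_and_dvd h3
        have := hE q hq hqx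
        simp at this
      rw [orderOf_eq_one_iff.1 h2]
    rw [h1 C hC, h1 D hD]
  | insert p S hpS ih =>
    intro G _ _
    have hp : p.Prime := hS p (Finset.mem_insert_self _ _)
    have hS' : ∀ q ∈ S, q.Prime := fun q hq => hS q (Finset.mem_insert_of_mem hq)
    have ih' := ih hS'
    let P1 := {C : ConjClasses G // Good ({p} : Set ℕ) C}
    haveI : Finite (ConjClasses G) := Finite.of_surjective ConjClasses.mk ConjClasses.mk_surjective
    haveI : Fintype P1 := Fintype.ofFinite _
    let y : P1 → G := fun c => c.1.exists_rep.choose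
    have hy : ∀ c : P1, ConjClasses.mk (y c) = c.1 := fun c => c.1.exists_rep.choose_spec
    let T : P1 → Type u := fun c =>
      {d : ConjClasses (Subgroup.centralizer ({y c} : Set G)) // Good (S : Set ℕ) d}
    let rp : (c : P1) → T c → Subgroup.centralizer ({y c} : Set G) := fun c d =>
      d.1.exists_rep.choose
    have hrp : ∀ (c : P1) (d : T c), ConjClasses.mk (rp c d) = d.1 := fun c d => d.1.exists_rep.choose_spec
    have hyp : ∀ c : P1, ∀ q : ℕ, q.Prime → q ∣ orderOf (y c) → q = p := by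
      intro c q hq hd
      have h1 := c.2
      rw [← hy c, good_mk_iff] at h1
      exact h1 q hq hd
    have hgoodT : ∀ (c : P1) (d : T c) (q : ℕ), q.Prime → q ∣ orderOf ((rp c d : G)) → q ∈ S := by
      intro c d q hq hd
      have h1 := d.2
      rw [← hrp c d, good_mk_iff] at h1
      refine h1 q hq ?_
      rwa [Subgroup.orderOf_mk]
    let φ : (Σ c : P1, T c) → {C : ConjClasses G // Good ((insert p S : Finset ℕ) : Set ℕ) C} := fun a =>
      ⟨ConjClasses.mk (y a.1 * (rp a.1 a.2 : G)), by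
        rw [good_mk_iff]
        intro q hq hd
        have hcomm : Commute (y a.1) (rp a.1 a.2 : G) :=
          (Subgroup.mem_centralizer_singleton_iff.1 (rp a.1 a.2).2).symm
        rcases prime_dvd_orderOf_mul hcomm hq hd with h | h
        · rw [hyp a.1 q hq h]
          simp
        · have := hgoodT a.1 a.2 q hq h
          simp [this]⟩
    have hφ : Function.Surjective φ := by
      rintro ⟨D, hD⟩
      obtain ⟨x, rfl⟩ := ConjClasses.mk_surjective D
      rw [good_mk_iff] at hD
      obtain ⟨u, z, hx, hcomm, ⟨k, hk⟩, hz, hzx⟩ := exists_decomp p hp x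
      have hu : Good ({p} : Set ℕ) (ConjClasses.mk u) := by
        rw [good_mk_iff, hk]
        intro q hq hd
        exact (Nat.prime_dvd_prime_iff_eq hq hp).1 (hq.dvd_of_dvd_pow hd)
      let c : P1 := ⟨ConjClasses.mk u, hu⟩
      have h1 : IsConj u (y c) := ConjClasses.mk_eq_mk_iff_isConj.1 (hy c).symm
      obtain ⟨g, hg⟩ := isConj_iff.1 h1
      have hz1 : g * z * g⁻¹ ∈ Subgroup.centralizer ({y c} : Set G) := by
        rw [Subgroup.mem_centralizer_singleton_iff, ← hg]
        have hc2 : u * z = z * u := hcomm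
        calc g * z * g⁻¹ * (g * u * g⁻¹) = g * (z * u) * g⁻¹ := by group
          _ = g * (u * z) * g⁻¹ := by rw [hc2]
          _ = _ := by group
      let z' : Subgroup.centralizer ({y c} : Set G) := ⟨_, hz1⟩
      have hz'ord : orderOf z' = orderOf z := by
        rw [Subgroup.orderOf_mk]
        exact MulEquiv.orderOf_eq (MulAut.conj g) z
      have hz'good : Good (S : Set ℕ) (ConjClasses.mk z') := by
        rw [good_mk_iff, hz'ord]
        intro q hq hd
        have h2 := hD q hq (hd.trans hzx)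
        simp only [Finset.coe_insert, Set.mem_insert_iff, Finset.mem_coe] at h2
        rcases h2 with h2 | h2
        · exact absurd (h2 ▸ hd) hz
        · exact h2
      let d : T c := ⟨ConjClasses.mk z', hz'good⟩
      refine ⟨⟨c, d⟩, ?_⟩
      apply Subtype.ext
      show ConjClasses.mk (y c * (rp c d : G)) = ConjClasses.mk x
      rw [ConjClasses.mk_eq_mk_iff_isConj]
      have h3 : IsConj (rp c d) z' := ConjClasses.mk_eq_mk_iff_isConj.1 (hrp c d)
      obtain ⟨h, hh⟩ := isConj_iff.1 h3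
      have hh' : (h : G) * (rp c d : G) * (h : G)⁻¹ = (z' : G) := congrArg Subtype.val hh
      have hhy : (h : G) * y c = y c * (h : G) := Subgroup.mem_centralizer_singleton_iff.1 h.2
      rw [isConj_comm, isConj_iff]
      refine ⟨(h : G)⁻¹ * g, ?_⟩
      have h4 : g * x * g⁻¹ = y c * (z' : G) := by
        calc g * x * g⁻¹ = (g * u * g⁻¹) * (g * z * g⁻¹) := by rw [hx]; group
          _ = y c * (z' : G) := congrArg (· * (z' : G)) hg
      calc (h : G)⁻¹ * g * x * ((h : G)⁻¹ * g)⁻¹ = (h : G)⁻¹ * (g * x * g⁻¹) * (h : G) := by group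
        _ = (h : G)⁻¹ * (y c * (z' : G)) * (h : G) := by rw [h4]
        _ = (h : G)⁻¹ * (y c * ((h : G) * (rp c d : G) * (h : G)⁻¹)) * (h : G) := by rw [hh']
        _ = ((h : G)⁻¹ * (y c * (h : G))) * (rp c d : G) := by group
        _ = y c * (rp c d : G) := by rw [← hhy]; group
    haveI : ∀ c : P1, Finite (T c) := fun c => by
      haveI : Finite (ConjClasses (Subgroup.centralizer ({y c} : Set G))) :=
        Finite.of_surjective ConjClasses.mk ConjClasses.mk_surjective
      exact inferInstance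
    have hcard : Nat.card {C : ConjClasses G // Good ((insert p S : Finset ℕ) : Set ℕ) C} ≤ Nat.card (Σ c : P1, T c) :=
      Nat.card_le_card_of_surjective φ hφ
    rw [Nat.card_sigma] at hcard
    have hG0 : Nat.card G ≠ 0 := Nat.card_pos.ne'
    have hT : ∀ c : P1, Nat.card (T c) ≤ piPart S (Nat.card G) := by
      intro c
      exact (ih' _).trans (piPart_mono S hS' (Subgroup.card_subgroup_dvd_card _) hG0)
    have hsum : ∑ c : P1, Nat.card (T c) ≤ Nat.card P1 * piPart S (Nat.card G) := by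
      rw [Nat.card_eq_fintype_card, ← smul_eq_mul, ← Finset.card_univ, ← Finset.sum_const]
      exact Finset.sum_le_sum (fun c _ => hT c)
    have hP1 : Nat.card P1 ≤ p ^ (Nat.card G).factorization p := card_pclasses_le p hp
    have hprod : piPart (insert p S) (Nat.card G) = p ^ (Nat.card G).factorization p * piPart S (Nat.card G) := by
      simp only [piPart]
      rw [Finset.prod_insert hpS]
    rw [hprod]
    exact hcard.trans (hsum.trans (Nat.mul_le_mul_right _ hP1))



/-- Let G be a finite group, π a set of primes and m the π-part of the order of G. Then the number of conjugacy classes of G consisting of π-elements (elements whose order is divisible only by primes in π) is at most m. -/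
theorem result {G : Type*} [Group G] [Finite G]
    (π : Set ℕ) (hπ : ∀ q ∈ π, q.Prime)
    (m : ℕ) (hm : m ∣ Nat.card G) (hmπ : ∀ q : ℕ, q.Prime → q ∣ m → q ∈ π)
    (hm' : ∀ q ∈ π, ¬ q ∣ Nat.card G / m) :
    Nat.card {C : ConjClasses G // ∀ q : ℕ, q.Prime → (∃ g : G, ConjClasses.mk g = C ∧ q ∣ orderOf g) → q ∈ π} ≤ m := by
  classical
  set n := Nat.card G with hn
  have hn0 : n ≠ 0 := Nat.card_pos.ne'
  let S : Finset ℕ := n.primeFactors.filter (· ∈ π)
  have hSp : ∀ q ∈ S, q.Prime := fun q hq => Nat.prime_of_mem_primeFactors (Finset.mem_filter.1 hq).1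
  have h1 := key S hSp G
  obtain ⟨c, hc⟩ := hm
  have hm0 : m ≠ 0 := by
    rintro rfl
    simp at hc
    exact hn0 hc
  have hc0 : c ≠ 0 := by
    rintro rfl
    simp at hc
    exact hn0 hc
  have hdiv : n / m = c := by rw [hc]; exact Nat.mul_div_cancel_left _ (Nat.pos_of_ne_zero hm0)
  have hfac : ∀ q ∈ π, n.factorization q = m.factorization q := by
    intro q hq
    have hqp := hπ q hq
    have h2 : ¬ q ∣ c := by
      rw [← hdiv]; exact hm' q hq
    rw [hc, Nat.factorization_mul hm0 hc0]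
    simp only [Finsupp.coe_add, Pi.add_apply]
    rw [Nat.factorization_eq_zero_of_not_dvd h2, add_zero]
  have hmS : m.primeFactors = S := by
    ext q
    simp only [Nat.mem_primeFactors, S, Finset.mem_filter]
    constructor
    · rintro ⟨hq, hqm, -⟩
      exact ⟨⟨hq, hc ▸ Dvd.dvd.mul_right hqm c, hn0⟩, hmπ q hq hqm⟩
    · rintro ⟨⟨hq, hqn, -⟩, hqπ⟩
      refine ⟨hq, ?_, hm0⟩
      rw [hc] at hqn
      rcases (Nat.Prime.dvd_mul hq).1 hqn with h | h
      · exact h
      · exact absurd (by rw [← hdiv] at h; exact h) (hm' q hqπ)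
  have hmeq : m = piPart S n := by
    conv_lhs => rw [← Nat.factorization_prod_pow_eq_self hm0]
    rw [Finsupp.prod, Nat.support_factorization, hmS]
    apply Finset.prod_congr rfl
    intro q hq
    rw [hfac q (Finset.mem_filter.1 hq).2]
  rw [hmeq]
  refine le_trans ?_ h1
  have hsub : ∀ C : ConjClasses G, (∀ q : ℕ, q.Prime → (∃ g : G, ConjClasses.mk g = C ∧ q ∣ orderOf g) → q ∈ π) →
      Good (S : Set ℕ) C := by
    rintro C hC q hq ⟨g, hg, hqg⟩
    have h2 := hC q hq ⟨g, hg, hqg⟩
    simp only [S, Finset.coe_filter, Set.mem_setOf_eq]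
    exact ⟨Nat.mem_primeFactors.2 ⟨hq, hqg.trans (orderOf_dvd_natCard g), hn0⟩, h2⟩
  refine Nat.card_le_card_of_injective (fun C => (⟨C.1, hsub C.1 C.2⟩ : {C : ConjClasses G // Good (S : Set ℕ) C})) ?_
  intro C D h
  apply Subtype.ext
  exact congrArg (fun z : {C : ConjClasses G // Good (S : Set ℕ) C} => z.1) h

end Cfsg.Agent.S4106
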