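import Cfsg.Statements.S4107
import Mathlib
import Cfsg.Agent.Lib.Core.Basic
-- import your own Cfsg.Agent.* helpers here

set_option autoImplicit false
open Cfsg

namespace Cfsg.Agent.S4107

open Cfsg.Agent.Lib.Core.Basic in
theorem isPGroup_of_core {G : Type*} [Group G] [Finite G] (N : Subgroup G) [N.Normal]
    (heq : ∀ x : G, x ∉ N → ∀ n ∈ N, orderOf (x * n) = orderOf x)
    (q : ℕ) [Fact q.Prime] (y : G) (hy : y ∈ pCore q G) (hyN : y ∉ N) : IsPGroup q N := by
  have hcore : IsPGroup q (pCore q G) := pCore_isPGroup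
  have hcn : (pCore q G).Normal := pCore_normal q G
  obtain ⟨a, ha⟩ := hcore ⟨y, hy⟩
  have ha' : y ^ q ^ a = 1 := by simpa [Subtype.ext_iff] using ha
  rintro ⟨n, hn⟩
  have h1 : orderOf (y * n) = orderOf y := heq y hyN n hn
  have h2 : (y * n) ^ q ^ a = 1 := by
    rw [← orderOf_dvd_iff_pow_eq_one, h1, orderOf_dvd_iff_pow_eq_one]; exact ha'
  have h3 : n ^ q ^ a ∈ pCore q G := by
    have h4 : ((QuotientGroup.mk' (pCore q G)) (y * n)) = (QuotientGroup.mk' (pCore q G)) n := by
      rw [map_mul]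
      have : (QuotientGroup.mk' (pCore q G)) y = 1 := by
        rw [QuotientGroup.mk'_apply, QuotientGroup.eq_one_iff]; exact hy
      rw [this, one_mul]
    have h5 : (QuotientGroup.mk' (pCore q G)) (n ^ q ^ a) = 1 := by
      rw [map_pow, ← h4, ← map_pow, h2, map_one]
    have h6 := h5
    rw [QuotientGroup.mk'_apply, QuotientGroup.eq_one_iff] at h6
    exact h6
  obtain ⟨b, hb⟩ := hcore ⟨_, h3⟩
  refine ⟨a + b, ?_⟩
  have hb' : (n ^ q ^ a) ^ q ^ b = 1 := by simpa [Subtype.ext_iff] using hb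
  apply Subtype.ext
  simp only [Subgroup.coe_pow, Subgroup.coe_one]
  rw [pow_add, pow_mul, hb']



/-- Let G be a finite group and N a proper non-trivial normal subgroup such that for every x outside N all elements of the coset xN have the same order as x. Then N ≤ F(G) or F(G) ≤ N, where F(G) is the Fitting subgroup; and if N is properly contained in F(G) then F(G) has prime-power order. -/
theorem result {G : Type*} [Group G] [Finite G] (N : Subgroup G) [N.Normal] (hN1 : N ≠ ⊥) (hN2 : N ≠ ⊤)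
    (heq : ∀ x : G, x ∉ N → ∀ n ∈ N, orderOf (x * n) = orderOf x) :
    (N ≤ Cfsg.fittingSubgroup G ∨ Cfsg.fittingSubgroup G ≤ N) ∧
    (N < Cfsg.fittingSubgroup G → IsPrimePow (Nat.card (Cfsg.fittingSubgroup G))) := by
  classical
  open Cfsg.Agent.Lib.Core.Basic in
  have key : ¬ Cfsg.fittingSubgroup G ≤ N → ∃ (q : ℕ) (_ : Fact q.Prime) (y : G), y ∈ pCore q G ∧ y ∉ N := by
    intro h
    by_contra hne
    push_neg at hne
    apply h
    rw [fittingSubgroup_eq_iSup_pCore]
    refine iSup_le fun p => ?_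
    haveI : Fact (p : ℕ).Prime := ⟨p.2⟩
    intro y hy
    exact hne p inferInstance y hy
  have hFN : ¬ Cfsg.fittingSubgroup G ≤ N → N ≤ Cfsg.fittingSubgroup G := by
    intro h
    obtain ⟨q, hq, y, hy, hyN⟩ := key h
    have h1 := isPGroup_of_core N heq q y hy hyN
    exact (Cfsg.Agent.Lib.Core.Basic.le_pCore inferInstance h1).trans
      (Cfsg.Agent.Lib.Core.Basic.pCore_le_fittingSubgroup q)
  refine ⟨?_, ?_⟩
  · by_cases h : Cfsg.fittingSubgroup G ≤ N
    · exact Or.inr h
    · exact Or.inl (hFN h)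
  · intro hlt
    have h : ¬ Cfsg.fittingSubgroup G ≤ N := fun h' => absurd h' (not_le_of_gt hlt)
    obtain ⟨q, hq, y, hy, hyN⟩ := key h
    have h1 := isPGroup_of_core N heq q y hy hyN
    have hall : ∀ p : Nat.Primes, pCore (p : ℕ) G ≤ pCore q G := by
      intro p
      by_cases hpq : (p : ℕ) = q
      · rw [hpq]
      · haveI : Fact (p : ℕ).Prime := ⟨p.2⟩
        intro z hz
        by_cases hzN : z ∈ N
        · -- z in p-core and in N so trivial
          have hp : IsPGroup (p : ℕ) (pCore (p : ℕ) G) := Cfsg.Agent.Lib.Core.Basic.pCore_isPGroup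
          have hd : Disjoint N (pCore (p : ℕ) G) := IsPGroup.disjoint_of_ne q (p : ℕ) (Ne.symm hpq) _ _ h1 hp
          have hz1 : z ∈ N ⊓ pCore (p : ℕ) G := ⟨hzN, hz⟩
          rw [hd.eq_bot] at hz1
          rw [(Subgroup.mem_bot.1 hz1)]
          exact Subgroup.one_mem _
        · exfalso
          have h2 := isPGroup_of_core N heq (p : ℕ) z hz hzN
          have hd : Disjoint N N := IsPGroup.disjoint_of_ne q (p : ℕ) (Ne.symm hpq) _ _ h1 h2
          exact hN1 (disjoint_self.1 hd)
    have hF : Cfsg.fittingSubgroup G = pCore q G := by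
      apply le_antisymm
      · rw [Cfsg.Agent.Lib.Core.Basic.fittingSubgroup_eq_iSup_pCore]
        exact iSup_le hall
      · exact Cfsg.Agent.Lib.Core.Basic.pCore_le_fittingSubgroup q
    rw [hF]
    obtain ⟨n, hn⟩ := Cfsg.Agent.Lib.Core.Basic.exists_card_pCore (p := q) (G := G)
    rw [hn]
    have hn0 : n ≠ 0 := by
      rintro rfl
      have h3 : Nat.card (pCore q G) = 1 := by simpa using hn
      have h4 := Subgroup.card_eq_one.1 h3
      rw [h4] at hF
      apply hN1
      rw [eq_bot_iff, ← hF]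
      exact hlt.le
    exact (isPrimePow_nat_iff _).2 ⟨q, n, hq.out, Nat.pos_of_ne_zero hn0, rfl⟩

end Cfsg.Agent.S4107
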