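import Cfsg.Statements.S4108
import Cfsg.Agent.Lib.Frobenius.Normal

set_option autoImplicit false
open Cfsg

namespace Cfsg.Agent.S4108

/-- Let G be a finite group, p a prime and N a proper non-trivial normal p-subgroup such that for every x outside N all elements of the coset xN have the same order as x. Then every non-trivial subgroup H of G of order prime to p acts fixed-point-freely on N: NH is a Frobenius group with complement H and kernel N. -/
theorem result {G : Type*} [Group G] [Finite G] (N : Subgroup G) [N.Normal] (hN1 : N ≠ ⊥) (hN2 : N ≠ ⊤)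
    (heq : ∀ x : G, x ∉ N → ∀ n ∈ N, orderOf (x * n) = orderOf x)
    (p : ℕ) [Fact p.Prime] (hNp : IsPGroup p N) :
    ∀ H : Subgroup G, H ≠ ⊥ → (Nat.card H).Coprime p →
      Cfsg.IsFrobeniusComplement (H.subgroupOf (N ⊔ H)) ∧ Cfsg.frobeniusKernel (H.subgroupOf (N ⊔ H)) = (N.subgroupOf (N ⊔ H) : Set ↥(N ⊔ H)) := by
  intro H hH1 hcop
  have hdisj : N ⊓ H = ⊥ := by
    rw [eq_bot_iff]
    rintro x ⟨h1, h2⟩
    have h3 : orderOf x ∣ Nat.card H := by
      have := Subgroup.orderOf_dvd_natCard H h2
      exact this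
    obtain ⟨k, hk⟩ := (IsPGroup.iff_orderOf.1 hNp) ⟨x, h1⟩
    have hk' : orderOf x = p ^ k := by simpa using hk
    have h4 : orderOf x = 1 := by
      have h5 : (orderOf x).Coprime p := Nat.Coprime.coprime_dvd_left h3 hcop
      rw [hk'] at h5 ⊢
      rcases k with _ | k
      · simp
      · have := Nat.Coprime.coprime_dvd_left (dvd_pow_self p (Nat.succ_ne_zero k)) h5
        have h6 : p = 1 := by simpa using this
        exact absurd h6 (Fact.out : p.Prime).one_lt.ne'
    exact orderOf_eq_one_iff.1 h4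
  apply Cfsg.Agent.Lib.Frobenius.Normal.isFrobeniusComplement_subgroupOf_sup N H hN1 hH1 hdisj
  intro h hh hne n hn hcomm
  have hhN : h ∉ N := fun h0 => hne (by
    have : h ∈ N ⊓ H := ⟨h0, hh⟩
    rw [hdisj] at this
    exact this)
  have h1 := heq h hhN n hn
  have h3 : orderOf h ∣ Nat.card H := Subgroup.orderOf_dvd_natCard H hh
  obtain ⟨k, hk⟩ := (IsPGroup.iff_orderOf.1 hNp) ⟨n, hn⟩
  have hk' : orderOf n = p ^ k := by simpa using hk
  have hcopn : (orderOf h).Coprime (orderOf n) := by
    rw [hk']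
    exact Nat.Coprime.pow_right _ (Nat.Coprime.coprime_dvd_left h3 hcop)
  have h4 : Commute h n := hcomm
  have h5 := h4.orderOf_mul_eq_mul_orderOf_of_coprime hcopn
  rw [h1] at h5
  have h6 : 0 < orderOf h := orderOf_pos h
  have h7 : orderOf n = 1 := by
    have : orderOf h * 1 = orderOf h * orderOf n := by rw [mul_one]; exact h5
    exact (Nat.eq_of_mul_eq_mul_left h6 this).symm
  exact orderOf_eq_one_iff.1 h7

end Cfsg.Agent.S4108
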