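import Cfsg.Statements.S4112
import Mathlib
import Cfsg.Agent.Lib.PGroups.Basic
-- import your own Cfsg.Agent.* helpers here

set_option autoImplicit false
open Cfsg

namespace Cfsg.Agent.S4112

open Subgroup

/-- Frattini argument + Schur-Zassenhaus. -/
theorem key_min {H : Type*} [Group H] [Finite H] (D : Subgroup H) [D.Normal]
    (hmin : ∀ K : Subgroup H, K ⊔ D = ⊤ → K = ⊤) (r : ℕ) [hr : Fact r.Prime]
    (hrD : r ∣ Nat.card D) (hrI : ¬ r ∣ D.index) : False := by
  classical
  obtain P : Sylow r D := default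
  have hF := Sylow.normalizer_sup_eq_top P
  have hnorm := hmin _ hF
  set R : Subgroup H := (P : Subgroup D).map D.subtype with hR
  haveI hRn : R.Normal := Subgroup.normalizer_eq_top_iff.1 hnorm
  have hRD : R ≤ D := by
    rintro _ ⟨x, _, rfl⟩
    exact x.2
  have hcardR : Nat.card R = Nat.card (P : Subgroup D) := by
    rw [hR]
    exact Nat.card_congr (Subgroup.equivMapOfInjective _ _ D.subtype_injective).symm.toEquiv
  have hP1 : (P : Subgroup D) ≠ ⊥ := P.ne_bot_of_dvd_card hrD
  -- index coprime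
  have hidx : R.index = D.index * (P : Subgroup D).index := by
    have h1 : R.relIndex D = (P : Subgroup D).index := by
      rw [hR, Subgroup.relIndex]
      congr 1
      exact Subgroup.comap_map_eq_self_of_injective D.subtype_injective _
    rw [← h1, mul_comm]
    exact (Subgroup.relIndex_mul_index hRD).symm
  obtain ⟨n, hn⟩ := IsPGroup.iff_card.1 P.isPGroup'
  have hnotdvd : ¬ r ∣ (P : Subgroup D).index := P.not_dvd_index
  have hcop : (Nat.card R).Coprime R.index := by
    rw [hcardR, hn, hidx]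
    apply Nat.Coprime.pow_left
    rw [Nat.Prime.coprime_iff_not_dvd hr.out]
    intro h
    rcases (Nat.Prime.dvd_mul hr.out).1 h with h | h
    · exact hrI h
    · exact hnotdvd h
  obtain ⟨K, hK⟩ := Subgroup.exists_right_complement'_of_coprime hcop
  have hKtop : K = ⊤ := by
    apply hmin
    rw [eq_top_iff]
    have := hK.sup_eq_top
    rw [← this, sup_comm]
    exact sup_le_sup_left hRD K
  have hRbot : R = ⊥ := by
    have hdis := hK.disjoint
    rw [hKtop] at hdis
    exact disjoint_top.1 hdis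
  apply hP1
  rw [hR] at hRbot
  exact (Subgroup.map_eq_bot_iff_of_injective _ D.subtype_injective).1 hRbot

theorem exists_min {G : Type*} [Group G] [Finite G] (N : Subgroup G) :
    ∃ H : Subgroup G, H ⊔ N = ⊤ ∧ ∀ K : Subgroup G, K ≤ H → K ⊔ N = ⊤ → K = H := by
  have hne : ({H : Subgroup G | H ⊔ N = ⊤}).Nonempty := ⟨⊤, top_sup_eq _⟩
  obtain ⟨H, hH⟩ := (Set.toFinite _).exists_minimal hne
  refine ⟨H, hH.1, fun K hKH hK => ?_⟩
  exact le_antisymm hKH (hH.2 hK hKH)

theorem exists_cpl {G : Type*} [Group G] [Finite G] (N M : Subgroup G) [N.Normal]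
    (hMN : M ≤ N) (hcop : N.index.Coprime (Nat.card M)) :
    ∃ H : Subgroup G, H ⊔ N = ⊤ ∧ H ⊓ M = ⊥ := by
  classical
  obtain ⟨H, hHN, hmin⟩ := exists_min N
  refine ⟨H, hHN, ?_⟩
  rcases Subgroup.bot_or_exists_ne_one (H ⊓ M) with h | ⟨y, hy, hy1⟩
  · exact h
  exfalso
  obtain ⟨hyH, hyM⟩ := Subgroup.mem_inf.1 hy
  obtain ⟨r, hr, hrd⟩ := Nat.exists_prime_and_dvd (orderOf_eq_one_iff.not.2 hy1)
  haveI : Fact r.Prime := ⟨hr⟩
  have hrM : r ∣ Nat.card M := hrd.trans (Subgroup.orderOf_dvd_natCard M hyM)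
  have hrI : ¬ r ∣ N.index := fun h => hr.one_lt.ne' (Nat.eq_one_of_dvd_coprimes hcop h hrM)
  refine key_min (H := H) (N.subgroupOf H) ?_ r ?_ ?_
  · intro K hK
    have hle : K.map H.subtype ≤ H := by
      rintro _ ⟨x, _, rfl⟩
      exact x.2
    have hsup : K.map H.subtype ⊔ N = ⊤ := by
      rw [eq_top_iff, ← hHN]
      refine sup_le ?_ le_sup_right
      intro z hz
      have hz' : (⟨z, hz⟩ : H) ∈ K ⊔ N.subgroupOf H := by rw [hK]; trivial
      have := Subgroup.mem_map_of_mem H.subtype hz'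
      rw [Subgroup.map_sup] at this
      have hle2 : (N.subgroupOf H).map H.subtype ≤ N := by
        rintro _ ⟨x, hx, rfl⟩
        exact hx
      exact (sup_le_sup_left hle2 _) this
    have := hmin _ hle hsup
    rw [eq_top_iff]
    intro z _
    have hz : (z : G) ∈ K.map H.subtype := by rw [this]; exact z.2
    obtain ⟨w, hw, hwz⟩ := hz
    have : w = z := Subtype.ext hwz
    rwa [← this]
  · have h1 : orderOf (⟨⟨y, hyH⟩, Subgroup.mem_subgroupOf.2 (hMN hyM)⟩ : N.subgroupOf H) = orderOf y := by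
      rw [Subgroup.orderOf_mk, Subgroup.orderOf_mk]
    exact (h1 ▸ hrd).trans (orderOf_dvd_natCard _)
  · have h1 : (N.subgroupOf H).index = N.index := by
      have h2 := Subgroup.relIndex_sup_right (H := H) (K := N)
      rw [hHN] at h2
      rw [← Subgroup.relIndex, ← h2, Subgroup.relIndex_top_right]
    rwa [h1]

theorem coprime_of_fpf {G : Type*} [Group G] [Finite G] (N M : Subgroup G) [N.Normal] [M.Normal]
    (hfpf : ∀ x ∈ M, x ≠ 1 → Subgroup.centralizer ({x} : Set G) ≤ N) :
    N.index.Coprime (Nat.card M) := by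
  classical
  by_contra hne
  obtain ⟨r, hr, hrI, hrM⟩ := Nat.Prime.not_coprime_iff_dvd.1 hne
  haveI : Fact r.Prime := ⟨hr⟩
  obtain ⟨⟨y, hyo⟩⟩ : Nonempty {y : M // orderOf y = r} := by
    obtain ⟨y, hy⟩ := exists_prime_orderOf_dvd_card' (G := M) r hrM
    exact ⟨⟨y, hy⟩⟩
  have hyo' : orderOf (y : G) = r := by rw [Subgroup.orderOf_coe, hyo]
  have hzp : IsPGroup r (Subgroup.zpowers (y : G)) := by
    rw [IsPGroup.iff_card, Nat.card_zpowers, hyo']
    exact ⟨1, (pow_one r).symm⟩
  obtain ⟨R, hR⟩ := hzp.exists_le_sylow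
  have hyR : (y : G) ∈ R := hR (Subgroup.mem_zpowers _)
  haveI hRfin : Finite R := inferInstance
  have hnb : M.subgroupOf (R : Subgroup G) ≠ ⊥ := by
    intro hb
    have hm : (⟨y, hyR⟩ : R) ∈ M.subgroupOf (R : Subgroup G) := Subgroup.mem_subgroupOf.2 y.2
    rw [hb, Subgroup.mem_bot] at hm
    have hy1 : (y : G) = 1 := congrArg Subtype.val hm
    rw [hy1, orderOf_one] at hyo'
    exact hr.one_lt.ne hyo'
  obtain ⟨z, hzM, hzc, hzo⟩ :=
    Cfsg.Agent.Lib.PGroups.Basic.exists_central_orderOf_eq R.isPGroup' (M.subgroupOf (R : Subgroup G)) hnb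
  have hz1 : (z : G) ≠ 1 := by
    intro h
    have : z = 1 := Subtype.ext h
    rw [this, orderOf_one] at hzo
    exact hr.one_lt.ne hzo
  have hRN : (R : Subgroup G) ≤ N := by
    refine le_trans ?_ (hfpf z (Subgroup.mem_subgroupOf.1 hzM) hz1)
    intro w hw
    rw [Subgroup.mem_centralizer_singleton_iff]
    have := (Subgroup.mem_center_iff.1 hzc) ⟨w, hw⟩
    exact congrArg Subtype.val this
  exact R.not_dvd_index (hrI.trans (Subgroup.index_dvd_of_le hRN))

theorem fpf_of_coprime {G : Type*} [Group G] [Finite G] (N M : Subgroup G) [N.Normal]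
    (hcam : ∀ g : G, g ∉ N → ∀ m ∈ M, ∃ x : G, x * g * x⁻¹ = g * m)
    (hcop : N.index.Coprime (Nat.card M)) :
    ∀ x ∈ M, x ≠ 1 → Subgroup.centralizer ({x} : Set G) ≤ N := by
  classical
  intro x hxM hx1 g hg
  by_contra hgN
  obtain ⟨r, hr, hrd⟩ := Nat.exists_prime_and_dvd (orderOf_eq_one_iff.not.2 hx1)
  haveI : Fact r.Prime := ⟨hr⟩
  set x' := x ^ (orderOf x / r) with hx'
  have hx'o : orderOf x' = r := orderOf_pow_orderOf_div (orderOf_pos x).ne' hrd
  have hx'M : x' ∈ M := pow_mem hxM _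
  have hrM : r ∣ Nat.card M := hx'o ▸ Subgroup.orderOf_dvd_natCard M hx'M
  have hrI : ¬ r ∣ N.index := fun h => hr.one_lt.ne' (Nat.eq_one_of_dvd_coprimes hcop h hrM)
  have hgx : Commute g x' := by
    have : Commute g x := (Subgroup.mem_centralizer_singleton_iff.1 hg)
    exact this.pow_right _
  -- g' = g ^ (r ^ a) has order prime to r and is outside N
  obtain ⟨a, b, hb, hab⟩ := Nat.exists_eq_pow_mul_and_not_dvd (n := orderOf g) (orderOf_pos g).ne' r hr.ne_one
  set h := g ^ (r ^ a) with hh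
  have hho : orderOf h = b := by
    rw [hh, orderOf_pow_of_dvd (pow_ne_zero _ hr.ne_zero) ⟨b, hab⟩, hab]
    exact Nat.mul_div_cancel_left _ (pow_pos hr.pos _)
  have hhN : h ∉ N := by
    intro hhN
    apply hgN
    have hc : (r ^ a).Coprime N.index :=
      Nat.Coprime.pow_left _ ((Nat.Prime.coprime_iff_not_dvd hr).2 hrI)
    have hq1 : orderOf (g : G ⧸ N) ∣ r ^ a := orderOf_dvd_of_pow_eq_one (by
      rw [← QuotientGroup.mk_pow, QuotientGroup.eq_one_iff]; exact hhN)
    have hq2 : orderOf (g : G ⧸ N) ∣ N.index := orderOf_dvd_of_pow_eq_one (by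
      rw [← QuotientGroup.mk_pow, QuotientGroup.eq_one_iff]; exact Subgroup.pow_index_mem N g)
    have := Nat.eq_one_of_dvd_coprimes hc hq1 hq2
    rw [orderOf_eq_one_iff, QuotientGroup.eq_one_iff] at this
    exact this
  obtain ⟨y, hy⟩ := hcam h hhN x' hx'M
  have hho2 : orderOf (h * x') = b * r := by
    have hcomm : Commute h x' := hgx.pow_left _
    rw [hcomm.orderOf_mul_eq_mul_orderOf_of_coprime, hho, hx'o]
    rw [hho, hx'o]
    exact ((Nat.Prime.coprime_iff_not_dvd hr).2 hb).symm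
  have hconj : orderOf (y * h * y⁻¹) = orderOf h := by
    exact orderOf_injective (MulAut.conj y).toMonoidHom (MulAut.conj y).injective h
  rw [hy, hho2, hho] at hconj
  have hbpos : 0 < b := by
    rcases Nat.eq_zero_or_pos b with h0 | h0
    · rw [h0] at hb; exact absurd (dvd_zero r) hb
    · exact h0
  have := hr.one_lt
  nlinarith


/-- Let G be a finite group and M ≤ N non-trivial proper normal subgroups such that for every g outside N the conjugacy class of g is a union of cosets of M (equivalently gm is conjugate to g for every m ∈ M). Then (1) and (2) below are equivalent, and they imply (3): (1) every g outside N acts fixed-point-freely on M, that is C_G(x) ≤ N for every x ∈ M, x ≠ 1; (2) the index of N in G is coprime to the order of M; (3) there is a subgroup H of G with HN = G and H ∩ M = 1. -/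
theorem result {G : Type*} [Group G] [Finite G] (N M : Subgroup G) [N.Normal] [M.Normal] (hMN : M ≤ N) (hM1 : M ≠ ⊥) (hN2 : N ≠ ⊤)
    (hcam : ∀ g : G, g ∉ N → ∀ m ∈ M, ∃ x : G, x * g * x⁻¹ = g * m) :
    ((∀ x ∈ M, x ≠ 1 → Subgroup.centralizer ({x} : Set G) ≤ N) ↔ N.index.Coprime (Nat.card M)) ∧
    ((∀ x ∈ M, x ≠ 1 → Subgroup.centralizer ({x} : Set G) ≤ N) → ∃ H : Subgroup G, H ⊔ N = ⊤ ∧ H ⊓ M = ⊥) := by
  have h12 : (∀ x ∈ M, x ≠ 1 → Subgroup.centralizer ({x} : Set G) ≤ N) → N.index.Coprime (Nat.card M) :=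
    fun h => coprime_of_fpf N M h
  refine ⟨⟨h12, fpf_of_coprime N M hcam⟩, fun h => exists_cpl N M hMN (h12 h)⟩

end Cfsg.Agent.S4112
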