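import Cfsg.Statements.S4115
import Mathlib
import Cfsg.Agent.Lib.Char.TI
import Cfsg.Agent.Lib.Char.Linear
import Cfsg.Agent.Lib.Frobenius.Theorem
import Cfsg.Agent.Lib.Frobenius.Construct
import Cfsg.Agent.Lib.Coprime.Action
import Cfsg.Agent.Lib.CharDeep.TIFN
-- import your own Cfsg.Agent.* helpers here

set_option autoImplicit false
universe u
open Cfsg

namespace Cfsg.Agent.S4115

open Cfsg Cfsg.Agent.Lib.Char.Basic Cfsg.Agent.Lib.Char.Ortho Cfsg.Agent.Lib.Char.Complete
open Cfsg.Agent.Lib.Char.Induced Cfsg.Agent.Lib.Char.IndRep Cfsg.Agent.Lib.Frobenius.Theorem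
open Cfsg.Agent.Lib.Char.TI Cfsg.Agent.Lib.Char.Linear
open scoped ComplexConjugate Pointwise

section Part1

variable {G : Type u} [Group G] [Fintype G]

/-- The TI induction: a nontrivial irreducible character of `L` constant off `T` extends. -/
theorem exists_ti_extension (L : Subgroup G) [Fintype L] {ψ : L → ℂ} (hψ : IsIrrCharacter L ψ)
    (hψ1 : ψ ≠ fun _ => 1) (T : Set G) (hT0 : ∀ x : L, (x : G) ∉ T → ψ x = ψ 1)
    (hTI : ∀ t ∈ T, ∀ u : G, u⁻¹ * t * u ∈ T → u ∈ L) :
    ∃ φ : G → ℂ, IsCharacter G φ ∧ (∀ x : L, (x : G) ∈ T → φ x = ψ x) ∧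
      (∀ x : G, (∀ u : G, u⁻¹ * x * u ∉ T) → φ x = φ 1) ∧ φ 1 = ψ 1 := by
  classical
  obtain ⟨n, hn0, hn⟩ := exists_pos_deg_of_isIrr hψ
  set oneL : L → ℂ := fun _ => 1 with honeL
  set oneG : G → ℂ := fun _ => 1 with honeG
  have hψclass := isClassFunction_of_isIrrCharacter hψ
  have honeclass : IsClassFunction L oneL := fun _ _ => rfl
  have honeGclass : IsClassFunction G oneG := fun _ _ => rfl
  set α : L → ℂ := ψ - (n : ℂ) • oneL with hα
  have hαclass : IsClassFunction L α :=
    isClassFunction_sub hψclass (isClassFunction_smul _ honeclass)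
  have hα1 : α 1 = 0 := by simp [hα, honeL, hn]
  have hα0 : ∀ x : L, (x : G) ∉ T → α x = 0 := by
    intro x hx
    simp [hα, honeL, hT0 x hx, hn]
  set β : G → ℂ := indFun L α with hβ
  have hβclass : IsClassFunction G β := isClassFunction_indFun L α
  have hβT : ∀ x : L, (x : G) ∈ T → β x = α x := by
    intro x hx
    apply indFun_eq_of_conj_mem _ _ hαclass
    intro u hu hne
    refine hTI _ hx u ?_
    by_contra hnot
    exact hne (hα0 ⟨_, hu⟩ hnot)
  have hβS : ∀ x : G, (∀ u : G, u⁻¹ * x * u ∉ T) → β x = 0 := by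
    intro x hx
    rw [hβ, indFun_apply]
    apply mul_eq_zero_of_right
    apply Finset.sum_eq_zero
    intro u _
    by_cases hu : u⁻¹ * x * u ∈ L
    · rw [extendByZero_of_mem _ _ hu]
      exact hα0 ⟨_, hu⟩ (hx u)
    · exact extendByZero_of_not_mem _ _ hu
  -- inner products on `L`
  have h11 : classInner oneL oneL = 1 := classInner_one_one
  have hθ1' : classInner ψ oneL = 0 :=
    classInner_eq_zero_of_isIrr_of_ne hψ isIrrCharacter_one hψ1
  have h1θ' : classInner oneL ψ = 0 :=
    classInner_eq_zero_of_isIrr_of_ne isIrrCharacter_one hψ (Ne.symm hψ1)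
  have hθθ : classInner ψ ψ = 1 := classInner_self_of_isIrr hψ
  have hconj : conj (n : ℂ) = n := map_natCast _ _
  have hαα : classInner α α = 1 + (n : ℂ) ^ 2 := by
    rw [hα, classInner_sub_left, classInner_sub_right, classInner_sub_right, classInner_smul_left,
      classInner_smul_right, classInner_smul_right, classInner_smul_left, hθθ, hθ1', h1θ', h11, hconj]
    ring
  have hα1' : classInner α oneL = -(n : ℂ) := by
    rw [hα, classInner_sub_left, classInner_smul_left, hθ1', h11]
    ring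
  have h1α' : classInner oneL α = -(n : ℂ) := by
    rw [hα, classInner_sub_right, classInner_smul_right, h1θ', h11, hconj]
    ring
  -- inner products on `G`
  have hββ : classInner β β = 1 + (n : ℂ) ^ 2 := by
    rw [hβ, classInner_indFun_left L α _ (isClassFunction_indFun L α), ← hαα]
    simp only [classInner]
    congr 1
    refine Finset.sum_congr rfl fun x _ => ?_
    by_cases hx : (x : G) ∈ T
    · rw [show indFun L α (x : G) = α x from hβT x hx]
    · rw [hα0 x hx, zero_mul, zero_mul]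
  have hβ1 : classInner β oneG = -(n : ℂ) := by
    rw [hβ, classInner_indFun_left L α _ honeGclass]
    exact hα1'
  have h1β : classInner oneG β = -(n : ℂ) := by
    rw [hβ, classInner_indFun_right L α _ honeGclass]
    exact h1α'
  have h11G : classInner oneG oneG = 1 := classInner_one_one
  set φ : G → ℂ := β + (n : ℂ) • oneG with hφ
  have hφφ : classInner φ φ = 1 := by
    rw [hφ, classInner_add_left, classInner_add_right, classInner_add_right, classInner_smul_left,
      classInner_smul_right, classInner_smul_right, classInner_smul_left, hββ, hβ1, h1β, h11G, hconj]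
    ring
  have hβ10 : β 1 = 0 := by
    rw [hβ, indFun_one, hα1, mul_zero]
  have hφ1 : φ 1 = n := by
    simp [hφ, hβ10, honeG]
  have hnre : (0 : ℝ) < (n : ℝ) := by exact_mod_cast hn0
  have hgen : IsGeneralizedCharacter G φ := by
    refine ⟨indFun L ψ + n • oneG, n • indFun L oneL,
      isCharacter_add (isCharacter_indFun L (isCharacter_of_isIrrCharacter hψ))
        (isCharacter_nsmul isCharacter_one n),
      isCharacter_nsmul (isCharacter_indFun L isCharacter_one) n, ?_⟩
    rw [hφ, hβ, hα, indFun_sub, indFun_smul]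
    funext g
    simp
    ring
  have hirr : IsIrrCharacter G φ := isIrrCharacter_of_generalized hgen hφφ (by
    rw [hφ1]; simpa using hnre)
  refine ⟨φ, isCharacter_of_isIrrCharacter hirr, ?_, ?_, by rw [hφ1, hn]⟩
  · intro x hx
    simp only [hφ, Pi.add_apply, Pi.smul_apply, smul_eq_mul, honeG, mul_one]
    rw [hβT x hx]
    simp [hα, honeL]
  · intro x hx
    rw [hφ1]
    simp [hφ, hβS x hx, honeG]


/-- A retraction of `L` onto a complement of a normal subgroup. -/
theorem exists_retraction {L : Type u} [Group L] (K A : Subgroup L) [K.Normal]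
    (hc : K.IsComplement' A) :
    ∃ π : L →* A, (∀ x, π x = 1 ↔ x ∈ K) ∧ ∀ a : A, π a = a := by
  classical
  let e := hc.symm.QuotientMulEquiv
  refine ⟨e.toMonoidHom.comp (QuotientGroup.mk' K), ?_, ?_⟩
  · intro x
    simp only [MonoidHom.comp_apply, QuotientGroup.mk'_apply]
    constructor
    · intro h
      have : (x : L ⧸ K) = 1 := e.injective (by simpa using h)
      simpa using this
    · intro h
      have : (x : L ⧸ K) = 1 := by simpa using h
      rw [this]
      simp
  · intro a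
    have : e.symm a = ((a : L) : L ⧸ K) := rfl
    simp only [MonoidHom.comp_apply, QuotientGroup.mk'_apply]
    rw [← this]
    simp

/-- The first part: a normal complement in the normalizer gives a normal complement. -/
theorem exists_normal_complement (H : Subgroup G)
    (hTI : Cfsg.IsTISubset (H : Set G))
    (L : Subgroup G) (hL : L = Subgroup.normalizer (H : Set G))
    (hHall : (Nat.card H).Coprime (H.subgroupOf L).index)
    (K : Subgroup L) [K.Normal]
    (hc : K.IsComplement' (H.subgroupOf L)) :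
    ∃ N : Subgroup G, N.Normal ∧ N.IsComplement' H := by
  classical
  have hHL : H ≤ L := hL ▸ Subgroup.le_normalizer
  set A : Subgroup L := H.subgroupOf L with hA
  haveI hAn : A.Normal := by
    subst hL
    exact Subgroup.normal_in_normalizer
  obtain ⟨π₀, hπ₁, hπ₂⟩ := exists_retraction K A hc
  let eA : A ≃* H := Subgroup.subgroupOfEquivOfLe hHL
  let π : L →* H := eA.toMonoidHom.comp π₀
  have hπ₁' : ∀ x : L, π x = 1 ↔ x ∈ K := by
    intro x
    rw [← hπ₁ x]
    simp [π]
  have hπ₂' : ∀ h : H, π ⟨h, hHL h.2⟩ = h := by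
    intro h
    have hm : (⟨h, hHL h.2⟩ : L) ∈ A := by
      simp [hA, Subgroup.mem_subgroupOf]
    have h2 := hπ₂ ⟨_, hm⟩
    simp only at h2
    simp only [π, MonoidHom.comp_apply, h2]
    rfl
  have hπsurj : Function.Surjective π := fun h => ⟨_, hπ₂' h⟩
  set m : ℕ := A.index with hm
  have hcopm : (Nat.card H).Coprime m := hHall
  -- the key property of `T`
  set T : Set G := {x | ∃ hx : x ∈ L, (⟨x, hx⟩ : L) ∉ K} with hT
  have hTpow : ∀ t ∈ T, t ^ m ∈ H ∧ t ^ m ≠ 1 := by
    rintro t ⟨htL, htK⟩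
    have h1 : (⟨t, htL⟩ : L) ^ m ∈ A := Subgroup.pow_index_mem A _
    have h2 : t ^ m ∈ H := by simpa [hA, Subgroup.mem_subgroupOf] using h1
    refine ⟨h2, ?_⟩
    intro h3
    apply htK
    rw [← hπ₁']
    have h4 : (⟨t, htL⟩ : L) ^ m = 1 := Subtype.ext (by simpa using h3)
    have h5 : (π ⟨t, htL⟩) ^ m = 1 := by rw [← map_pow, h4, map_one]
    have h6 : (π ⟨t, htL⟩) ^ (Nat.card H) = 1 := pow_card_eq_one'
    have h7 := orderOf_dvd_of_pow_eq_one h5
    have h8 := orderOf_dvd_of_pow_eq_one h6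
    have h9 : orderOf (π ⟨t, htL⟩) = 1 :=
      Nat.eq_one_of_dvd_coprimes hcopm h8 h7
    exact orderOf_eq_one_iff.1 h9
  have hTTI : ∀ t ∈ T, ∀ u : G, u⁻¹ * t * u ∈ T → u ∈ L := by
    intro t ht u hu
    obtain ⟨h1, h2⟩ := hTpow t ht
    obtain ⟨h3, _⟩ := hTpow _ hu
    by_contra huL
    have huL' : u⁻¹ ∉ L := fun h => huL (by simpa using L.inv_mem h)
    have h4 : (u⁻¹ * t * u) ^ m = u⁻¹ * t ^ m * (u⁻¹)⁻¹ := by
      have : u⁻¹ * t * u = u⁻¹ * t * (u⁻¹)⁻¹ := by simp
      rw [this, conj_pow]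
    rw [h4] at h3
    exact h2 (hTI u⁻¹ (hL ▸ huL') (t ^ m) h1 h3)
  -- the extended characters
  have hext : ∀ θ : H → ℂ, IsIrrCharacter H θ → ∃ φ : G → ℂ, IsCharacter G φ ∧
      (∀ x : L, (x : G) ∈ T → φ x = θ (π x)) ∧
      (∀ x : G, (∀ u : G, u⁻¹ * x * u ∉ T) → φ x = θ 1) := by
    intro θ hθ
    by_cases hθ1 : θ = fun _ => 1
    · subst hθ1
      exact ⟨fun _ => 1, isCharacter_one, fun _ _ => rfl, fun _ _ => rfl⟩
    have hψ : IsIrrCharacter L (θ ∘ π) := isIrrCharacter_comp π hπsurj hθ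
    have hψ1 : (θ ∘ π) ≠ fun _ => 1 := by
      intro h
      apply hθ1
      funext a
      obtain ⟨x, rfl⟩ := hπsurj a
      exact congrFun h x
    obtain ⟨φ, hφ, h1, h2, h3⟩ := exists_ti_extension L hψ hψ1 T (by
      intro x hx
      have hxK : x ∈ K := by
        by_contra hne
        exact hx ⟨x.2, hne⟩
      have := (hπ₁' x).2 hxK
      simp [this]) hTTI
    refine ⟨φ, hφ, h1, fun x hx => ?_⟩
    rw [h2 x hx, h3]
    simp
  set S : Set G := {x | ∀ u : G, u⁻¹ * x * u ∉ T} with hS
  set N : Subgroup G := Subgroup.normalClosure S with hN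
  have h1S : (1 : G) ∈ S := by
    intro u hu
    simp only [mul_one, inv_mul_cancel] at hu
    obtain ⟨h4, h5⟩ := hu
    exact h5 K.one_mem
  have hNH : ∀ y, y ∈ N → y ∈ H → y = 1 := by
    intro y hyN hyH
    have key : ∀ θ : IrrCharacter H, (θ : H → ℂ) ⟨y, hyH⟩ = (θ : H → ℂ) 1 := by
      intro θ
      obtain ⟨φ, hφ, h1, h2⟩ := hext θ.1 θ.2
      by_cases hy1 : y = 1
      · subst hy1; rfl
      have hyT : y ∈ T := by
        refine ⟨hHL hyH, ?_⟩
        rw [← hπ₁', hπ₂' ⟨y, hyH⟩]
        intro h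
        exact hy1 (congrArg Subtype.val h)
      have h3 : φ y = φ 1 := character_eq_one_of_mem_normalClosure hφ (S := S) (by
        intro x hx
        rw [h2 x hx, h2 1 h1S]) hyN
      have h4 := h1 ⟨y, hHL hyH⟩ hyT
      rw [hπ₂' ⟨y, hyH⟩] at h4
      rw [← h4]
      show φ y = _
      rw [h3, h2 1 h1S]
    have h2 := (isConj_iff_forall_irr (⟨y, hyH⟩ : H) 1).2 key
    have h3 := isConj_one_right.1 h2.symm
    simpa using congrArg Subtype.val h3
  refine ⟨N, Subgroup.normalClosure_normal, ?_⟩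
  have hdisj : Disjoint N H := by
    rw [Subgroup.disjoint_def]
    intro x hx hy
    exact hNH x hx hy
  -- counting
  let Φ : (G ⧸ L) × {x : L // x ∉ K} → G := fun p => p.1.out * p.2.1 * p.1.out⁻¹
  have hrange : Sᶜ ⊆ Set.range Φ := by
    intro x hx
    simp only [hS, Set.mem_compl_iff, Set.mem_setOf_eq, not_forall, not_not] at hx
    obtain ⟨u, htL, htK⟩ := hx
    obtain ⟨l, hl⟩ := QuotientGroup.mk_out_eq_mul L u
    set t : L := ⟨u⁻¹ * x * u, htL⟩ with ht
    have ht' : l⁻¹ * t * l ∉ K := by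
      intro hmem
      apply htK
      have := (inferInstance : K.Normal).conj_mem _ hmem l
      simpa [mul_assoc] using this
    refine ⟨((u : G ⧸ L), ⟨l⁻¹ * t * l, ht'⟩), ?_⟩
    simp only [Φ, hl]
    simp only [Subgroup.coe_mul, Subgroup.coe_inv, ht]
    group
  have hcard1 : Set.ncard Sᶜ ≤ Nat.card (G ⧸ L) * Nat.card {x : L // x ∉ K} := by
    rw [← Nat.card_prod, ← Set.ncard_univ, ]
    calc Set.ncard Sᶜ ≤ Set.ncard (Set.range Φ) := Set.ncard_le_ncard hrange (Set.toFinite _)
      _ = Set.ncard (Φ '' Set.univ) := by rw [Set.image_univ]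
      _ ≤ _ := Set.ncard_image_le (Set.toFinite _)
  have hcard2 : Nat.card K + Nat.card {x : L // x ∉ K} = Nat.card L := by
    have h1 := Set.ncard_add_ncard_compl (K : Set L)
    rw [← Nat.card_coe_set_eq, ← Nat.card_coe_set_eq] at h1
    exact h1
  have hcard3 : Nat.card K * Nat.card H = Nat.card L := by
    have h1 := hc.card_mul_card
    rwa [show Nat.card A = Nat.card H from Nat.card_congr eA.toEquiv] at h1
  have hcard4 : Nat.card (G ⧸ L) * Nat.card L = Nat.card G := L.index_mul_card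
  have hcard5 : Set.ncard S + Set.ncard Sᶜ = Nat.card G := Set.ncard_add_ncard_compl S
  have hcard6 : Set.ncard S ≤ Nat.card N := by
    rw [show Nat.card N = Set.ncard (N : Set G) from Nat.card_coe_set_eq _]
    exact Set.ncard_le_ncard Subgroup.subset_normalClosure (Set.toFinite _)
  have hcard7 : Nat.card N * Nat.card H ≤ Nat.card G := by
    rw [← Nat.card_prod]
    apply Nat.card_le_card_of_injective (fun p : N × H => (p.1 : G) * p.2)
    rintro ⟨⟨a, ha⟩, ⟨b, hb⟩⟩ ⟨⟨c, hc'⟩, ⟨d, hd⟩⟩ h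
    simp only at h
    have h1 : c⁻¹ * a = d * b⁻¹ := by
      rw [eq_mul_inv_iff_mul_eq, mul_assoc, h]
      group
    have h2 : c⁻¹ * a = 1 := hNH _ (N.mul_mem (N.inv_mem hc') ha) (h1 ▸ H.mul_mem hd (H.inv_mem hb))
    have h3 : a = c := by
      rw [inv_mul_eq_one] at h2
      exact h2.symm
    subst h3
    have h4 : b = d := mul_left_cancel h
    subst h4
    rfl
  have hfinal : Nat.card N * Nat.card H = Nat.card G := by
    apply le_antisymm hcard7
    have hH0 : 0 < Nat.card H := Nat.card_pos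
    have hK0 : 0 < Nat.card K := Nat.card_pos
    have hlow : Nat.card (G ⧸ L) * Nat.card K ≤ Nat.card N := by
      have h1 : Nat.card (G ⧸ L) * Nat.card L = Nat.card (G ⧸ L) * Nat.card K +
          Nat.card (G ⧸ L) * Nat.card {x : L // x ∉ K} := by
        rw [← hcard2, mul_add]
      omega
    calc Nat.card G = Nat.card (G ⧸ L) * (Nat.card K * Nat.card H) := by rw [hcard3, hcard4]
      _ = (Nat.card (G ⧸ L) * Nat.card K) * Nat.card H := by ring
      _ ≤ Nat.card N * Nat.card H := Nat.mul_le_mul_right _ hlow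
  exact Subgroup.isComplement'_of_card_mul_and_disjoint hfinal hdisj

end Part1


section Part2

open Cfsg.Agent.Lib.Coprime.Action

variable {G : Type u} [Group G]

/-- A section with a fixed-point-free action gives a Frobenius complement. -/
theorem exists_frobenius_of_section [Finite G] (H U M : Subgroup G)
    (hHU : H ≤ Subgroup.normalizer (U : Set G)) (hHM : H ≤ Subgroup.normalizer (M : Set G))
    (hUM : U ≤ Subgroup.normalizer (M : Set G)) (hne : ¬ U ≤ M) (hH : H ≠ ⊥)
    (hfpf : ∀ a ∈ H, a ≠ 1 → ∀ x ∈ U, x⁻¹ * (a * x * a⁻¹) ∈ M → x ∈ M) :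
    ∃ (F : Type u) (_ : Group F) (_ : Finite F) (C : Subgroup F),
      Cfsg.IsFrobeniusComplement C ∧ Nonempty (H ≃* C) := by
  classical
  let M' : Subgroup U := M.subgroupOf U
  haveI hM' : M'.Normal := Subgroup.normal_subgroupOf_of_le_normalizer hUM
  have hU1 : ∀ (a : H) (x : U), (a : G) * x * (a : G)⁻¹ ∈ U := fun a x =>
    (Subgroup.mem_normalizer_iff.mp (hHU a.2) x).1 x.2
  have hU2 : ∀ (a : H) (x : U), (a : G)⁻¹ * x * (a : G) ∈ U := fun a x => by
    have := hU1 a⁻¹ x
    simpa using this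
  let e : H → (U ≃* U) := fun a =>
    { toFun := fun x => ⟨(a : G) * x * (a : G)⁻¹, hU1 a x⟩
      invFun := fun x => ⟨(a : G)⁻¹ * x * (a : G), hU2 a x⟩
      left_inv := fun x => Subtype.ext (by simp [mul_assoc])
      right_inv := fun x => Subtype.ext (by simp [mul_assoc])
      map_mul' := fun x y => Subtype.ext (by simp [mul_assoc]) }
  have hM1 : ∀ (a : H) (x : G), x ∈ M ↔ (a : G) * x * (a : G)⁻¹ ∈ M := fun a x =>
    Subgroup.mem_normalizer_iff.mp (hHM a.2) x
  have he : ∀ a : H, M'.map (e a).toMonoidHom = M' := by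
    intro a
    ext x
    simp only [Subgroup.mem_map, M', Subgroup.mem_subgroupOf]
    constructor
    · rintro ⟨y, hy, rfl⟩
      exact (hM1 a _).1 hy
    · intro hx
      refine ⟨(e a).symm x, ?_, (e a).apply_symm_apply x⟩
      have h1 : ((a : G)⁻¹ * x * (a : G)) ∈ M := by
        have := (hM1 a⁻¹ (x : G)).1 hx
        simpa using this
      exact h1
  let φ : H →* MulAut (U ⧸ M') := MonoidHom.mk' (fun a => QuotientGroup.congr M' M' (e a) (he a)) (by
    intro a b
    ext x
    induction x using QuotientGroup.induction_on with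
    | H x =>
      change ((e (a * b) x : U) : U ⧸ M') = ((e a (e b x) : U) : U ⧸ M')
      congr 1
      apply Subtype.ext
      simp [e, mul_assoc])
  have hφ : ∀ (a : H) (x : U), φ a (x : U ⧸ M') = ((e a x : U) : U ⧸ M') := fun a x => rfl
  obtain ⟨x₀, hx₀, hx₀M⟩ := SetLike.not_le_iff_exists.mp hne
  haveI : Nontrivial (U ⧸ M') := by
    refine ⟨⟨((⟨x₀, hx₀⟩ : U) : U ⧸ M'), 1, ?_⟩⟩
    intro h
    have : (⟨x₀, hx₀⟩ : U) ∈ M' := (QuotientGroup.eq_one_iff _).1 h
    exact hx₀M this
  haveI : Nontrivial H := (Subgroup.nontrivial_iff_ne_bot H).2 hH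
  have hfpf' : ∀ a : H, a ≠ 1 → ∀ v : U ⧸ M', φ a v = v → v = 1 := by
    intro a ha v hv
    induction v using QuotientGroup.induction_on with
    | H x =>
      rw [hφ, eq_comm, QuotientGroup.eq] at hv
      have h1 : x⁻¹ * (e a x) ∈ M' := hv
      have h2 : (x : G)⁻¹ * ((a : G) * x * (a : G)⁻¹) ∈ M := h1
      have h3 := hfpf a a.2 (by simpa using ha) x x.2 h2
      exact (QuotientGroup.eq_one_iff _).2 h3
  refine ⟨(U ⧸ M') ⋊[φ] H, inferInstance, ?_, _,
    Cfsg.Agent.Lib.Frobenius.Construct.inr_range_isFrobeniusComplement φ hfpf', ⟨?_⟩⟩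
  · exact Finite.of_equiv _ (SemidirectProduct.equivProd (N := U ⧸ M') (G := H) (φ := φ)).symm
  · exact MonoidHom.ofInjective SemidirectProduct.inr_injective

/-- Fixed mod a centralized subgroup. -/
theorem eq_one_of_commute_of_coprime [Finite G] {a x m : G} (hm : x⁻¹ * (a * x * a⁻¹) = m)
    (hcomm : a * m = m * a) (hcop : (orderOf a).Coprime (orderOf m)) : m = 1 := by
  have h1 : a * x * a⁻¹ = x * m := by rw [← hm]; group
  have h2 : ∀ k : ℕ, a ^ k * x * (a ^ k)⁻¹ = x * m ^ k := by
    intro k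
    induction k with
    | zero => simp
    | succ k ih =>
      have hc : Commute a (m ^ k) := (Commute.pow_right (show Commute a m from hcomm) k)
      calc a ^ (k + 1) * x * (a ^ (k + 1))⁻¹ = a * (a ^ k * x * (a ^ k)⁻¹) * a⁻¹ := by
            rw [pow_succ']; group
        _ = a * (x * m ^ k) * a⁻¹ := by rw [ih]
        _ = (a * x * a⁻¹) * (a * m ^ k * a⁻¹) := by group
        _ = x * m * (m ^ k * a * a⁻¹) := by rw [h1, hc.eq]
        _ = x * m ^ (k + 1) := by rw [pow_succ']; group
  have h3 := h2 (orderOf a)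
  rw [pow_orderOf_eq_one] at h3
  simp only [one_mul, inv_one, mul_one] at h3
  have h4 : m ^ orderOf a = 1 := by
    have : x * m ^ orderOf a = x * 1 := by rw [← h3, mul_one]
    exact mul_left_cancel this
  have h5 := orderOf_dvd_of_pow_eq_one h4
  have h6 : orderOf m = 1 := hcop.symm.eq_one_of_dvd h5
  exact orderOf_eq_one_iff.1 h6


/-- A partition into malnormal subgroups is trivial. -/
theorem exists_eq_top_of_partition {Γ : Type u} [Group Γ] [Finite Γ] [Nontrivial Γ]
    (f : Γ → Subgroup Γ) (h1 : ∀ h, h ≠ 1 → h ∈ f h)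
    (h2 : ∀ h a, h ≠ 1 → a ≠ 1 → a ∈ f h → f a = f h)
    (h3 : ∀ a h b, h ≠ 1 → (b ∈ f (a * h * a⁻¹) ↔ a⁻¹ * b * a ∈ f h))
    (h4 : ∀ a h, h ≠ 1 → a⁻¹ * h * a ∈ f h → a ∈ f h) :
    ∃ h, h ≠ 1 ∧ f h = ⊤ := by
  classical
  by_contra hcon
  push Not at hcon
  have hne : ∀ a h : Γ, h ≠ 1 → a * h * a⁻¹ ≠ 1 := by
    intro a h hh hc
    apply hh
    have : h = a⁻¹ * (a * h * a⁻¹) * a := by group
    rw [this, hc]
    group
  have hF : ∀ h, h ≠ 1 → IsFrobeniusComplement (f h) := by
    intro h hh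
    refine ⟨?_, hcon h hh, ?_⟩
    · intro hb
      have := h1 h hh
      rw [hb, Subgroup.mem_bot] at this
      exact hh this
    · intro g hg
      rw [eq_bot_iff]
      intro x hx
      by_contra hx1
      have hx1' : x ≠ 1 := by simpa using hx1
      obtain ⟨hx2, hx3⟩ := hx
      have hx2 : x ∈ f h := hx2
      have hx3 : x ∈ MulAut.conj g • f h := hx3
      have hx4 : g⁻¹ * x * g ∈ f h := by
        rw [Cfsg.Agent.Lib.Frobenius.Basic.mem_conj_iff] at hx3
        exact hx3
      have hx5 : x ∈ f (g * h * g⁻¹) := (h3 g h x hh).2 hx4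
      have h5 : f x = f h := h2 h x hh hx1' hx2
      have h6 : f x = f (g * h * g⁻¹) := h2 _ x (hne g h hh) hx1' hx5
      have h7 : g * h * g⁻¹ ∈ f h := by
        rw [← h5, h6]
        exact h1 _ (hne g h hh)
      have h8 : g⁻¹ ∈ f h := h4 g⁻¹ h hh (by simpa using h7)
      exact hg (by simpa using (f h).inv_mem h8)
  obtain ⟨h₀, hh₀⟩ := exists_ne (1 : Γ)
  have hA := hF h₀ hh₀
  set A := f h₀ with hAdef
  have hcardA : Nat.card (frobeniusKernel A) = A.index :=
    Cfsg.Agent.Lib.Frobenius.Basic.card_frobeniusKernel hA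
  have hidx : 1 < A.index := by
    have h5 : A.index ≠ 1 := by
      intro h
      exact hA.2.1 (Subgroup.index_eq_one.1 h)
    have h6 : A.index ≠ 0 := Subgroup.index_ne_zero_of_finite
    omega
  have hex : ∃ x ∈ frobeniusKernel A, x ≠ 1 := by
    by_contra hall
    push Not at hall
    have : frobeniusKernel A = {1} := by
      ext x
      constructor
      · exact hall x
      · rintro rfl
        exact Or.inl rfl
    rw [Nat.card_coe_set_eq, this, Set.ncard_singleton] at hcardA
    omega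
  obtain ⟨x, hxA, hx1⟩ := hex
  have hB := hF x hx1
  have hcardB : Nat.card (frobeniusKernel (f x)) = (f x).index :=
    Cfsg.Agent.Lib.Frobenius.Basic.card_frobeniusKernel hB
  have hcover : frobeniusKernel A ∪ frobeniusKernel (f x) = Set.univ := by
    rw [Set.eq_univ_iff_forall]
    intro y
    by_contra hy
    rw [Set.mem_union, not_or] at hy
    obtain ⟨hy1, hy2⟩ := hy
    simp only [frobeniusKernel, Set.mem_setOf_eq, not_or, not_forall, not_not] at hy1 hy2
    obtain ⟨hy0, v, hv⟩ := hy1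
    obtain ⟨_, u, hu⟩ := hy2
    rw [Cfsg.Agent.Lib.Frobenius.Basic.mem_conj_iff] at hv hu
    have hv' : y ∈ f (v * h₀ * v⁻¹) := (h3 v h₀ y hh₀).2 hv
    have hu' : y ∈ f (u * x * u⁻¹) := (h3 u x y hx1).2 hu
    have h5 := h2 _ y (hne v h₀ hh₀) hy0 hv'
    have h6 := h2 _ y (hne u x hx1) hy0 hu'
    have h7 : u * x * u⁻¹ ∈ f (v * h₀ * v⁻¹) := by
      rw [← h5, h6]
      exact h1 _ (hne u x hx1)
    have h8 := (h3 v h₀ _ hh₀).1 h7
    rcases hxA with hxA | hxA
    · exact hx1 hxA
    · apply hxA (u⁻¹ * v)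
      rw [Cfsg.Agent.Lib.Frobenius.Basic.mem_conj_iff]
      have : (u⁻¹ * v)⁻¹ * x * (u⁻¹ * v) = v⁻¹ * (u * x * u⁻¹) * v := by group
      rw [this]
      exact h8
  have h1mem : (1 : Γ) ∈ frobeniusKernel A ∩ frobeniusKernel (f x) := ⟨Or.inl rfl, Or.inl rfl⟩
  have hcount : Nat.card Γ + 1 ≤ A.index + (f x).index := by
    have h5 := Set.ncard_union_add_ncard_inter (frobeniusKernel A) (frobeniusKernel (f x))
      (Set.toFinite _) (Set.toFinite _)
    rw [hcover, Set.ncard_univ] at h5
    have h6 : 1 ≤ (frobeniusKernel A ∩ frobeniusKernel (f x)).ncard :=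
      (Set.ncard_pos (Set.toFinite _)).2 ⟨1, h1mem⟩
    rw [← hcardA, ← hcardB, Nat.card_coe_set_eq, Nat.card_coe_set_eq]
    omega
  have hbd : ∀ S : Subgroup Γ, S ≠ ⊥ → 2 * S.index ≤ Nat.card Γ := by
    intro S hS
    have h5 := S.index_mul_card
    have h6 : 2 ≤ Nat.card S := by
      haveI : Nontrivial S := (Subgroup.nontrivial_iff_ne_bot S).2 hS
      exact Finite.one_lt_card
    nlinarith
  have h5 := hbd A hA.1
  have h6 := hbd (f x) hB.1
  omega


/-- Invariant Sylow subgroups, without solvability. -/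
theorem exists_invariant_sylow_of_partition [Finite G] (H N : Subgroup G)
    (hHN : H ≤ Subgroup.normalizer (N : Set G))
    (hcop : (Nat.card H).Coprime (Nat.card N))
    (hC : ∀ h ∈ H, h ≠ 1 → ∀ c ∈ N, h * c * h⁻¹ = c → c ∈ Subgroup.centralizer (H : Set G))
    (hH : H ≠ ⊥) (q : ℕ) [Fact q.Prime] :
    ∃ Q, IsSylowIn q Q N ∧ H ≤ Subgroup.normalizer (Q : Set G) := by
  classical
  have hordH : ∀ h : H, orderOf (h : G) ∣ Nat.card H := by
    intro h
    rw [Subgroup.orderOf_coe]
    exact orderOf_dvd_natCard h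
  have hcopz : ∀ h : H, (Nat.card (Subgroup.zpowers (h : G))).Coprime (Nat.card N) := by
    intro h
    rw [Nat.card_zpowers]
    exact Nat.Coprime.coprime_dvd_left (hordH h) hcop
  have hzle : ∀ h : H, Subgroup.zpowers (h : G) ≤ Subgroup.normalizer (N : Set G) := by
    intro h
    rw [Subgroup.zpowers_le]
    exact hHN h.2
  have hsolv : ∀ h : H, Group.IsSolvable (Subgroup.zpowers (h : G)) ∨ Group.IsSolvable N :=
    fun h => Or.inl inferInstance
  choose Q hQ hQn using fun h : H => exists_invariant_sylowIn (p := q) (hzle h) (hcopz h) (hsolv h)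
  have hQh : ∀ h : H, (h : G) ∈ Subgroup.normalizer (Q h : Set G) := fun h =>
    hQn h (Subgroup.mem_zpowers _)
  have huniq : ∀ (h : H), h ≠ 1 → ∀ Q₁ Q₂, IsSylowIn q Q₁ N → (h : G) ∈ Subgroup.normalizer (Q₁ : Set G) →
      IsSylowIn q Q₂ N → (h : G) ∈ Subgroup.normalizer (Q₂ : Set G) →
      ∃ c ∈ N, c ∈ Subgroup.centralizer (H : Set G) ∧ MulAut.conj c • Q₁ = Q₂ := by
    intro h hh Q₁ Q₂ h₁ hn₁ h₂ hn₂
    obtain ⟨c, ⟨hc₁, hc₂⟩, hc₃⟩ := invariant_sylowIn_conj (hzle h) (hcopz h) (hsolv h) h₁ h₂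
      ((Subgroup.zpowers_le).2 hn₁) ((Subgroup.zpowers_le).2 hn₂)
    refine ⟨c, hc₁, ?_, hc₃⟩
    apply hC h h.2 (by simpa using hh) c hc₁
    have h1 := (Subgroup.mem_centralizer_iff.1 hc₂) h (Subgroup.mem_zpowers _)
    rw [h1]
    group
  have hcompare : ∀ c ∈ Subgroup.centralizer (H : Set G), ∀ b ∈ H, ∀ Q' : Subgroup G,
      (b ∈ Subgroup.normalizer ((MulAut.conj c • Q' : Subgroup G) : Set G) ↔
        b ∈ Subgroup.normalizer (Q' : Set G)) := by
    intro c hc b hb Q'
    rw [mem_normalizer_conj_iff]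
    have h1 := (Subgroup.mem_centralizer_iff.1 hc) b hb
    have h2 : c⁻¹ * b * c = b := by
      rw [mul_assoc, h1]
      group
    rw [h2]
  let f : H → Subgroup H := fun h => (Subgroup.normalizer (Q h : Set G)).subgroupOf H
  have hf : ∀ h b : H, b ∈ f h ↔ (b : G) ∈ Subgroup.normalizer (Q h : Set G) := fun h b =>
    Subgroup.mem_subgroupOf
  haveI : Nontrivial H := (Subgroup.nontrivial_iff_ne_bot H).2 hH
  obtain ⟨h, hh, htop⟩ := exists_eq_top_of_partition f
    (fun h _ => (hf h h).2 (hQh h))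
    (by
      intro h a hh ha hmem
      ext b
      rw [hf, hf]
      obtain ⟨c, _, hc, hc₂⟩ := huniq a ha (Q h) (Q a) (hQ h) ((hf h a).1 hmem) (hQ a) (hQh a)
      rw [← hc₂]
      exact hcompare c hc b b.2 _)
    (by
      intro a h b hh
      rw [hf, hf]
      have hne : a * h * a⁻¹ ≠ 1 := by
        intro hc
        apply hh
        have : h = a⁻¹ * (a * h * a⁻¹) * a := by group
        rw [this, hc]
        group
      have hS' := IsSylowIn.conj_of_mem_normalizer (hQ h) (hHN a.2)
      have hn' : ((a * h * a⁻¹ : H) : G) ∈ Subgroup.normalizer ((MulAut.conj (a : G) • Q h : Subgroup G) : Set G) := by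
        rw [mem_normalizer_conj_iff]
        have : (a : G)⁻¹ * ((a * h * a⁻¹ : H) : G) * (a : G) = h := by
          simp [mul_assoc]
        rw [this]
        exact hQh h
      obtain ⟨c, _, hc, hc₂⟩ := huniq _ hne _ _ (hQ (a * h * a⁻¹)) (hQh _) hS' hn'
      have h1 := hcompare c hc b b.2 (Q (a * h * a⁻¹))
      rw [hc₂] at h1
      rw [← h1, mem_normalizer_conj_iff]
      simp)
    (by
      intro a h hh hmem
      rw [hf] at hmem ⊢
      have hS' := IsSylowIn.conj_of_mem_normalizer (hQ h) (hHN a.2)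
      have hn' : (h : G) ∈ Subgroup.normalizer ((MulAut.conj (a : G) • Q h : Subgroup G) : Set G) := by
        rw [mem_normalizer_conj_iff]
        simpa using hmem
      obtain ⟨c, hcN, hc, hc₂⟩ := huniq h hh _ _ (hQ h) (hQh h) hS' hn'
      have hcomm : (a : G) * c = c * a := ((Subgroup.mem_centralizer_iff.1 hc) a a.2)
      have hy : c⁻¹ * (a : G) ∈ Subgroup.normalizer (Q h : Set G) := by
        apply mem_normalizer_of_conj_smul_eq
        rw [map_mul, mul_smul, ← hc₂, smul_smul, ← map_mul, inv_mul_cancel, map_one, one_smul]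
      have hc' : Commute c⁻¹ (a : G) := (show Commute (a : G) c from hcomm).inv_right.symm
      have hpow : (c⁻¹ * (a : G)) ^ orderOf c = (a : G) ^ orderOf c := by
        rw [hc'.mul_pow, inv_pow, pow_orderOf_eq_one, inv_one, one_mul]
      have hcop' : (orderOf c).Coprime (orderOf (a : G)) := by
        have h1 : orderOf c ∣ Nat.card N := by
          have := orderOf_dvd_natCard (⟨c, hcN⟩ : N)
          rwa [Subgroup.orderOf_mk] at this
        exact (Nat.Coprime.coprime_dvd_right (hordH a) (Nat.Coprime.coprime_dvd_left h1 hcop.symm))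
      obtain ⟨m, hm⟩ := exists_pow_eq_self_of_coprime hcop'
      rw [← hm, ← hpow]
      exact Subgroup.pow_mem _ (Subgroup.pow_mem _ hy _) _)
  refine ⟨Q h, hQ h, ?_⟩
  intro a ha
  have : (⟨a, ha⟩ : H) ∈ f h := by rw [htop]; trivial
  exact (hf h _).1 this


/-- The group-theoretic core of the second part. -/
theorem exists_frobenius_of_action [Finite G] (H : Subgroup G) (n : ℕ) (N : Subgroup G)
    (hn : Nat.card N = n) (hHN : H ≤ Subgroup.normalizer (N : Set G))
    (hcop : (Nat.card H).Coprime (Nat.card N))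
    (hC : ∀ h ∈ H, h ≠ 1 → ∀ c ∈ N, h * c * h⁻¹ = c → c ∈ Subgroup.centralizer (H : Set G))
    (hne : ¬ N ≤ Subgroup.centralizer (H : Set G)) :
    ∃ (F : Type u) (_ : Group F) (_ : Finite F) (C : Subgroup F),
      Cfsg.IsFrobeniusComplement C ∧ Nonempty (H ≃* C) := by
  classical
  induction n using Nat.strong_induction_on generalizing N with
  | _ n ih =>
  have hH : H ≠ ⊥ := by
    rintro rfl
    apply hne
    intro x _
    rw [Subgroup.mem_centralizer_iff]
    intro h hh
    have : h = 1 := by simpa using hh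
    simp [this]
  by_cases hmin : ∃ U, U < N ∧ H ≤ Subgroup.normalizer (U : Set G) ∧
      ¬ U ≤ Subgroup.centralizer (H : Set G)
  · obtain ⟨U, hUN, hHU, hUne⟩ := hmin
    have hcard : Nat.card U < n := by
      rw [← hn]
      exact Set.ncard_lt_ncard hUN (Set.toFinite _)
    refine ih _ hcard U rfl hHU ?_ ?_ hUne
    · exact Nat.Coprime.coprime_dvd_right (Subgroup.card_dvd_of_le hUN.le) hcop
    · intro h hh hh1 c hc
      exact hC h hh hh1 c (hUN.le hc)
  push Not at hmin
  set C₀ : Subgroup G := N ⊓ Subgroup.centralizer (H : Set G) with hC₀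
  have hidx : C₀.relIndex N ≠ 1 := by
    intro h
    apply hne
    have h1 : N ≤ C₀ := Subgroup.relIndex_eq_one.1 h
    exact h1.trans inf_le_right
  obtain ⟨q, hq, hqd⟩ := Nat.exists_prime_and_dvd hidx
  haveI := Fact.mk hq
  obtain ⟨Q, hQ, hHQ⟩ := exists_invariant_sylow_of_partition H N hHN hcop hC hH q
  have hQN : Q = N := by
    by_contra hne'
    have hlt : Q < N := lt_of_le_of_ne hQ.1 hne'
    have h1 := hmin Q hlt hHQ
    have h2 : Q ≤ C₀ := le_inf hQ.1 h1
    exact hQ.2.2 (hqd.trans (Dvd.intro_left _ (Subgroup.relIndex_mul_relIndex Q C₀ N h2 inf_le_left)))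
  have hp : IsPGroup q N := hQN ▸ hQ.2.1
  have hN1 : N ≠ ⊥ := by
    rintro rfl
    exact hne bot_le
  haveI : Nontrivial N := (Subgroup.nontrivial_iff_ne_bot N).2 hN1
  haveI : Group.IsNilpotent N := hp.isNilpotent
  have hcomm : ⁅N, N⁆ < N := by
    have h1 : commutator N < ⊤ := IsSolvable.commutator_lt_top_of_nontrivial N
    refine lt_of_le_of_ne (N.map_subtype_commutator.symm.trans_le (Subgroup.map_subtype_le _)) ?_
    intro h
    apply h1.ne
    apply Subgroup.map_injective N.subtype_injective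
    rw [Subgroup.map_subtype_commutator, h, ← MonoidHom.range_eq_map, Subgroup.range_subtype]
  have hcommC : ⁅N, N⁆ ≤ Subgroup.centralizer (H : Set G) :=
    hmin _ hcomm (Cfsg.Agent.Lib.Coprime.Action.le_normalizer_commutator_of_le hHN hHN)
  have hC₀a : ∀ a ∈ H, ∀ c ∈ C₀, a * c * a⁻¹ = c := by
    intro a ha c hc
    have := (Subgroup.mem_centralizer_iff.1 hc.2) a ha
    rw [this]
    group
  have hconj : ∀ x ∈ N, ∀ c ∈ C₀, x * c * x⁻¹ ∈ C₀ := by
    intro x hx c hc
    have h1 : x * c * x⁻¹ * c⁻¹ ∈ ⁅N, N⁆ := by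
      rw [← commutatorElement_def]
      exact Subgroup.commutator_mem_commutator hx hc.1
    have h2 : x * c * x⁻¹ * c⁻¹ ∈ C₀ := ⟨hcomm.le h1, hcommC h1⟩
    have h3 := C₀.mul_mem h2 hc
    simpa using h3
  apply exists_frobenius_of_section H N C₀ hHN ?_ ?_ ?_ hH ?_
  · intro a ha
    rw [Subgroup.mem_normalizer_iff]
    intro x
    constructor
    · intro hx
      rw [hC₀a a ha x hx]
      exact hx
    · intro hx
      have h1 := hC₀a a⁻¹ (H.inv_mem ha) _ hx
      simp only [inv_inv] at h1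
      have h2 : x = a * x * a⁻¹ := by
        rw [← h1]
        group
      rw [h2]
      exact hx
  · intro x hx
    rw [Subgroup.mem_normalizer_iff]
    intro c
    constructor
    · exact hconj x hx c
    · intro hc
      have := hconj x⁻¹ (N.inv_mem hx) _ hc
      simpa [mul_assoc] using this
  · intro h
    exact hne (h.trans inf_le_right)
  · intro a ha ha1 x hx hm
    have hordH : orderOf a ∣ Nat.card H := by
      have := orderOf_dvd_natCard (⟨a, ha⟩ : H)
      rwa [Subgroup.orderOf_mk] at this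
    have hordN : orderOf (x⁻¹ * (a * x * a⁻¹)) ∣ Nat.card N := by
      have hmN : x⁻¹ * (a * x * a⁻¹) ∈ N := hm.1
      have := orderOf_dvd_natCard (⟨_, hmN⟩ : N)
      rwa [Subgroup.orderOf_mk] at this
    have h1 := eq_one_of_commute_of_coprime (a := a) (x := x) rfl
      ((Subgroup.mem_centralizer_iff.1 hm.2) a ha)
      (Nat.Coprime.coprime_dvd_left hordH (Nat.Coprime.coprime_dvd_right hordN hcop))
    have h2 : a * x * a⁻¹ = x := by
      have := congrArg (fun y => x * y) h1
      simpa using this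
    exact ⟨hx, hC a ha ha1 x hx h2⟩

/-- A common prime gives a centralized element of that order. -/
theorem exists_fixed_of_prime_dvd [Finite G] (H N : Subgroup G)
    (hHN : H ≤ Subgroup.normalizer (N : Set G)) {p : ℕ} [Fact p.Prime] (hpH : p ∣ Nat.card H)
    (hpN : p ∣ Nat.card N) :
    ∃ h ∈ H, h ≠ 1 ∧ ∃ x ∈ N, x ≠ 1 ∧ h * x * h⁻¹ = x ∧ orderOf x = p := by
  classical
  obtain ⟨h₀, hh₀⟩ := exists_prime_orderOf_dvd_card' p hpH
  set h : G := h₀.1 with hh
  have hord : orderOf h = p := by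
    rw [hh, Subgroup.orderOf_coe, hh₀]
  have hh1 : h ≠ 1 := by
    intro h1
    rw [h1, orderOf_one] at hord
    exact (Fact.out : p.Prime).one_lt.ne hord
  have hY : Subgroup.zpowers h ≤ Subgroup.normalizer (N : Set G) := by
    rw [Subgroup.zpowers_le]
    exact hHN h₀.2
  let _ := Cfsg.Agent.Lib.CharDeep.TIFN.conjAction N (Subgroup.zpowers h) hY
  have hP : IsPGroup p (Subgroup.zpowers h) := by
    apply IsPGroup.of_card (n := 1)
    rw [Nat.card_zpowers, hord, pow_one]
  have hmod := hP.card_modEq_card_fixedPoints N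
  let X : Subgroup G := N ⊓ Subgroup.centralizer ({h} : Set G)
  have hc1 : ∀ y : G, y ∈ Subgroup.centralizer ({h} : Set G) ↔ y * h = h * y := fun y =>
    Subgroup.mem_centralizer_singleton_iff
  let eqv : MulAction.fixedPoints (Subgroup.zpowers h) N ≃ X :=
    { toFun := fun y => ⟨y.1.1, y.1.2, by
        refine (hc1 _).2 ?_
        have h1 := y.2 ⟨h, Subgroup.mem_zpowers h⟩
        have h2 : h * (y.1 : G) * h⁻¹ = y.1 := congrArg Subtype.val h1
        calc (y.1 : G) * h = (h * (y.1 : G) * h⁻¹) * h := by rw [h2]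
          _ = h * y.1 := by group⟩
      invFun := fun x => ⟨⟨x.1, x.2.1⟩, by
        rintro ⟨a, ha⟩
        apply Subtype.ext
        show a * (x.1 : G) * a⁻¹ = x.1
        obtain ⟨k, rfl⟩ := Subgroup.mem_zpowers_iff.1 ha
        have h1 : Commute h (x.1 : G) := ((hc1 _).1 x.2.2).symm
        have h2 := (h1.zpow_left k).eq
        rw [h2]
        group⟩
      left_inv := fun y => rfl
      right_inv := fun x => rfl }
  have hcardX : p ∣ Nat.card X := by
    rw [← Nat.card_congr eqv]
    have h1 : (Nat.card (MulAction.fixedPoints (Subgroup.zpowers h) N)) % p = 0 := by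
      have h0 : Nat.card N % p = (Nat.card (MulAction.fixedPoints (Subgroup.zpowers h) N)) % p := hmod
      rw [← h0]
      exact Nat.mod_eq_zero_of_dvd hpN
    exact Nat.dvd_of_mod_eq_zero h1
  obtain ⟨x, hx⟩ := exists_prime_orderOf_dvd_card' p hcardX
  have hxo : orderOf (x : G) = p := by
    rw [Subgroup.orderOf_coe, hx]
  refine ⟨h, h₀.2, hh1, x, x.2.1, ?_, ?_, hxo⟩
  · intro h1
    rw [h1, orderOf_one] at hxo
    exact (Fact.out : p.Prime).one_lt.ne hxo
  · have := (hc1 _).1 x.2.2
    rw [← this]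
    group

end Part2


/-- Let G be a finite group and H a subgroup that meets each of its conjugates by elements outside N_G(H) trivially and whose order is coprime to its index in N_G(H). Then H has a normal complement in N_G(H) if and only if H has a normal complement in G. Moreover, if H is not normal in G and has a normal complement in N_G(H), then H is isomorphic to a Frobenius complement of some finite Frobenius group. -/
theorem result {G : Type u} [Group G] [Finite G] (H : Subgroup G)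
    (hTI : Cfsg.IsTISubset (H : Set G)) (hHall : (Nat.card H).Coprime (H.subgroupOf (Subgroup.normalizer (H : Set G))).index) :
    ((∃ K : Subgroup (Subgroup.normalizer (H : Set G)), K.Normal ∧ K.IsComplement' (H.subgroupOf (Subgroup.normalizer (H : Set G)))) ↔
      (∃ N : Subgroup G, N.Normal ∧ N.IsComplement' H)) ∧
    (¬ H.Normal → (∃ K : Subgroup (Subgroup.normalizer (H : Set G)), K.Normal ∧ K.IsComplement' (H.subgroupOf (Subgroup.normalizer (H : Set G)))) →
      ∃ (F : Type u) (_ : Group F) (_ : Finite F) (C : Subgroup F), Cfsg.IsFrobeniusComplement C ∧ Nonempty (H ≃* C)) := by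
  classical
  haveI := Fintype.ofFinite G
  refine ⟨⟨?_, ?_⟩, ?_⟩
  · rintro ⟨K, hKn, hc⟩
    haveI := hKn
    exact exists_normal_complement H hTI _ rfl hHall K hc
  · rintro ⟨N, hNn, hc⟩
    refine ⟨N.subgroupOf _, inferInstance, ?_⟩
    apply Subgroup.isComplement'_of_disjoint_and_mul_eq_univ
    · rw [Subgroup.disjoint_def]
      rintro ⟨x, hx⟩ h1 h2
      have h3 : x = 1 := Subgroup.disjoint_def.1 hc.disjoint (Subgroup.mem_subgroupOf.1 h1)
        (Subgroup.mem_subgroupOf.1 h2)
      exact Subtype.ext h3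
    · rw [Set.eq_univ_iff_forall]
      rintro ⟨x, hx⟩
      obtain ⟨⟨n, h⟩, hnh⟩ := hc.2 x
      have hnh' : (n : G) * h = x := hnh
      have hHL : (h : G) ∈ Subgroup.normalizer (H : Set G) := Subgroup.le_normalizer h.2
      have hnL : (n : G) ∈ Subgroup.normalizer (H : Set G) := by
        have : (n : G) = x * (h : G)⁻¹ := by rw [← hnh']; group
        rw [this]
        exact Subgroup.mul_mem _ hx (Subgroup.inv_mem _ hHL)
      refine Set.mem_mul.2 ⟨⟨n, hnL⟩, ?_, ⟨h, hHL⟩, ?_, ?_⟩
      · exact Subgroup.mem_subgroupOf.2 n.2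
      · exact Subgroup.mem_subgroupOf.2 h.2
      · exact Subtype.ext hnh'
  · rintro hnn ⟨K, hKn, hc⟩
    haveI := hKn
    obtain ⟨N, hNn, hc'⟩ := exists_normal_complement H hTI _ rfl hHall K hc
    have hNH : ∀ y, y ∈ N → y ∈ H → y = 1 := fun y h1 h2 =>
      Subgroup.disjoint_def.1 hc'.disjoint h1 h2
    have hHN : H ≤ Subgroup.normalizer (N : Set G) := by
      rw [Subgroup.normalizer_eq_top_iff.2 hNn]
      exact le_top
    have hL : ∀ a ∈ H, a ≠ 1 → ∀ c : G, a * c * a⁻¹ = c → c ∈ Subgroup.normalizer (H : Set G) := by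
      intro a ha ha1 c hac
      by_contra hcL
      apply ha1
      apply hTI c hcL a ha
      have : c * a * c⁻¹ = a := by
        have h1 : a * c = c * a := by
          calc a * c = (a * c * a⁻¹) * a := by group
            _ = c * a := by rw [hac]
        rw [← h1]
        group
      rw [this]
      exact ha
    have hC : ∀ h ∈ H, h ≠ 1 → ∀ c ∈ N, h * c * h⁻¹ = c → c ∈ Subgroup.centralizer (H : Set G) := by
      intro a ha ha1 c hc hac
      have hcL := hL a ha ha1 c hac
      rw [Subgroup.mem_centralizer_iff]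
      intro b hb
      have h1 : c * b * c⁻¹ ∈ H := (Subgroup.mem_normalizer_iff.1 hcL b).1 hb
      have h2 : c * b * c⁻¹ * b⁻¹ ∈ H := H.mul_mem h1 (H.inv_mem hb)
      have h3 : c * b * c⁻¹ * b⁻¹ ∈ N := by
        have h4 := hNn.conj_mem c⁻¹ (N.inv_mem hc) b
        have h5 := N.mul_mem hc h4
        simpa [mul_assoc] using h5
      have h6 := hNH _ h3 h2
      have h7 : c * b = b * c := by
        have : c * b * c⁻¹ = b := by
          rwa [mul_inv_eq_one] at h6
        calc c * b = (c * b * c⁻¹) * c := by group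
          _ = b * c := by rw [this]
      exact h7.symm
    have hG : ∀ g : G, ∃ n ∈ N, ∃ h ∈ H, g = n * h := by
      intro g
      obtain ⟨⟨n, h⟩, hnh⟩ := hc'.2 g
      exact ⟨n, n.2, h, h.2, hnh.symm⟩
    have hne : ¬ N ≤ Subgroup.centralizer (H : Set G) := by
      intro hle
      apply hnn
      refine ⟨fun x hx g => ?_⟩
      obtain ⟨n, hn, h, hh, rfl⟩ := hG g
      have h1 : h * x * h⁻¹ ∈ H := H.mul_mem (H.mul_mem hh hx) (H.inv_mem hh)
      have h2 := (Subgroup.mem_centralizer_iff.1 (hle hn)) _ h1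
      have h3 : n * h * x * (n * h)⁻¹ = n * (h * x * h⁻¹) * n⁻¹ := by group
      rw [h3, ← h2]
      simpa [mul_assoc] using h1
    have hcop : (Nat.card H).Coprime (Nat.card N) := by
      by_contra hnot
      obtain ⟨p, hp, hpH, hpN⟩ := Nat.Prime.not_coprime_iff_dvd.1 hnot
      haveI := Fact.mk hp
      obtain ⟨h, hh, hh1, x, hx, hx1, hcomm, hxo⟩ := exists_fixed_of_prime_dvd H N hHN hpH hpN
      have hxL := hL h hh hh1 x hcomm
      set A := H.subgroupOf (Subgroup.normalizer (H : Set G)) with hA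
      haveI hAn : A.Normal := Subgroup.normal_in_normalizer
      have h1 : (⟨x, hxL⟩ : Subgroup.normalizer (H : Set G)) ^ A.index ∈ A := Subgroup.pow_index_mem A _
      have h2 : x ^ A.index ∈ H := by simpa [hA, Subgroup.mem_subgroupOf] using h1
      have h3 : A.index.Coprime (orderOf x) := by
        rw [hxo]
        exact Nat.Coprime.coprime_dvd_left hpH hHall |>.symm
      obtain ⟨m, hm⟩ := exists_pow_eq_self_of_coprime h3
      have h4 : x ∈ H := by
        rw [← hm]
        exact H.pow_mem h2 m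
      exact hx1 (hNH x hx h4)
    exact exists_frobenius_of_action H _ N rfl hHN hcop hC hne

end Cfsg.Agent.S4115
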