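import Cfsg.Statements.S4116
import Mathlib
-- import your own Cfsg.Agent.* helpers here

set_option autoImplicit false
open Cfsg

namespace Cfsg.Agent.S4116

section

variable {G : Type*} [Group G] [Finite G] (H : Subgroup G)

theorem mem_conj (g x : G) : x ∈ H.map (MulAut.conj g).toMonoidHom ↔ g⁻¹ * x * g ∈ H := by
  constructor
  · rintro ⟨y, hy, rfl⟩
    have : g⁻¹ * ((MulAut.conj g).toMonoidHom y) * g = y := by
      simp [MulAut.conj_apply]
      group
    rw [this]
    exact hy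
  · intro h
    refine ⟨_, h, ?_⟩
    simp [MulAut.conj_apply]
    group

/-- A `π`-element normalizing the Hall subgroup `H` lies in `H`. -/
theorem mem_of_mem_normalizer (hHall : (Nat.card H).Coprime H.index) (y : G)
    (hy : y ∈ Subgroup.normalizer (H : Set G))
    (hπ : ∀ q : ℕ, q.Prime → q ∣ orderOf y → q ∣ Nat.card H) : y ∈ H := by
  classical
  set N := Subgroup.normalizer (H : Set G) with hN
  have hHN : H ≤ N := Subgroup.le_normalizer
  set H' := H.subgroupOf N with hH'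
  haveI : H'.Normal := Subgroup.normal_in_normalizer
  have h1 : (⟨y, hy⟩ : N) ^ H'.index ∈ H' := Subgroup.pow_index_mem H' _
  have h2 : y ^ H'.index ∈ H := by
    have := Subgroup.mem_subgroupOf.1 h1
    simpa using this
  have h3 : H'.index ∣ H.index := by
    have h4 := Subgroup.relIndex_mul_index hHN
    rw [hH', ← Subgroup.relIndex]
    exact Dvd.intro _ h4
  have hcop : (orderOf y).Coprime H'.index := by
    apply Nat.Coprime.coprime_dvd_right h3
    apply Nat.coprime_of_dvd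
    intro k hk hk1 hk2
    have h5 := hπ k hk hk1
    have h6 := Nat.dvd_gcd h5 hk2
    rw [hHall.gcd_eq_one] at h6
    exact hk.one_lt.ne' (Nat.dvd_one.1 h6)
  -- y is a power of y ^ index
  have hb : IsCoprime ((orderOf y : ℕ) : ℤ) ((H'.index : ℕ) : ℤ) := Nat.isCoprime_iff_coprime.2 hcop
  obtain ⟨u, v, huv⟩ := hb
  have h7 : y = (y ^ H'.index) ^ v := by
    rw [← zpow_natCast, ← zpow_mul]
    have h8 : y ^ ((H'.index : ℤ) * v) = y ^ (1 - u * (orderOf y : ℤ)) := by
      congr 1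
      linarith
    rw [h8, sub_eq_add_neg, zpow_add, zpow_one, zpow_neg, mul_comm u, zpow_mul, zpow_natCast,
      pow_orderOf_eq_one, one_zpow, inv_one, mul_one]
  rw [h7]
  exact H.zpow_mem h2 v

/-- An element of prime order dividing `|H|` lies in a conjugate of the Hall subgroup `H`. -/
theorem exists_conj_of_prime (hHall : (Nat.card H).Coprime H.index) (y : G) (r : ℕ) (hr : r.Prime)
    (hy : orderOf y = r) (hrH : r ∣ Nat.card H) : ∃ g : G, g⁻¹ * y * g ∈ H := by
  classical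
  haveI : Fact r.Prime := ⟨hr⟩
  have hp : IsPGroup r (Subgroup.zpowers y) := by
    rw [IsPGroup.iff_card]
    exact ⟨1, by rw [Nat.card_zpowers, hy, pow_one]⟩
  have hnd : ¬ r ∣ Nat.card (G ⧸ H) := by
    intro hd
    have h1 : r ∣ H.index := hd
    have h2 := Nat.dvd_gcd hrH h1
    rw [hHall.gcd_eq_one] at h2
    exact hr.one_lt.ne' (Nat.dvd_one.1 h2)
  obtain ⟨x, hx⟩ := hp.nonempty_fixed_point_of_prime_not_dvd_card (G ⧸ H) hnd
  obtain ⟨g, rfl⟩ := QuotientGroup.mk_surjective x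
  refine ⟨g, ?_⟩
  have h1 := hx ⟨y, Subgroup.mem_zpowers y⟩
  have h2 : ((y • g : G) : G ⧸ H) = (g : G ⧸ H) := h1
  rw [eq_comm, QuotientGroup.eq] at h2
  simpa [mul_assoc] using h2

/-- Every non-trivial `π`-element lies in a conjugate of `H`. -/
theorem exists_conj (hHall : (Nat.card H).Coprime H.index) (hTI : Cfsg.IsTISubset (H : Set G)) (x : G)
    (hx : x ≠ 1) (hπ : ∀ q : ℕ, q.Prime → q ∣ orderOf x → q ∣ Nat.card H) : ∃ g : G, g⁻¹ * x * g ∈ H := by
  classical
  have h1 : orderOf x ≠ 1 := fun h => hx (orderOf_eq_one_iff.1 h)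
  obtain ⟨r, hr, hrx⟩ := Nat.exists_prime_and_dvd h1
  have hord : orderOf (x ^ (orderOf x / r)) = r := orderOf_pow_orderOf_div (orderOf_pos x).ne' hrx
  obtain ⟨g, hg⟩ := exists_conj_of_prime H hHall _ r hr hord (hπ r hr hrx)
  refine ⟨g, ?_⟩
  set y := x ^ (orderOf x / r) with hy
  have hy1 : y ≠ 1 := by
    intro h
    rw [h, orderOf_one] at hord
    exact hr.one_lt.ne hord
  have hcomm : x * y = y * x := (Commute.refl x).pow_right _
  apply mem_of_mem_normalizer H hHall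
  · by_contra hn
    apply hy1
    have h2 := hTI _ hn (g⁻¹ * y * g) hg (by
      show (g⁻¹ * x * g) * (g⁻¹ * y * g) * (g⁻¹ * x * g)⁻¹ ∈ H
      have h3 : (g⁻¹ * x * g) * (g⁻¹ * y * g) * (g⁻¹ * x * g)⁻¹ = g⁻¹ * (x * y * x⁻¹) * g := by group
      rw [h3, hcomm, mul_inv_cancel_right]
      exact hg)
    have h3 : y = g * (g⁻¹ * y * g) * g⁻¹ := by group
    rw [h3, h2]
    group
  · intro q hq hd
    apply hπ q hq
    have : g⁻¹ * x * g = (MulAut.conj g⁻¹) x := by simp [MulAut.conj_apply]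
    rw [this, MulEquiv.orderOf_eq] at hd
    exact hd

/-- If `c` is a `π`-element conjugating a non-trivial element of `H^g` into `H^g`, then `c ∈ H^g`. -/
theorem stab (hHall : (Nat.card H).Coprime H.index) (hTI : Cfsg.IsTISubset (H : Set G)) (g c d : G)
    (hπ : ∀ q : ℕ, q.Prime → q ∣ orderOf c → q ∣ Nat.card H) (hd : g⁻¹ * d * g ∈ H) (hd1 : d ≠ 1)
    (hcd : g⁻¹ * (c * d * c⁻¹) * g ∈ H) : g⁻¹ * c * g ∈ H := by
  classical
  apply mem_of_mem_normalizer H hHall
  · by_contra hn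
    apply hd1
    have h2 := hTI _ hn (g⁻¹ * d * g) hd (by
      show (g⁻¹ * c * g) * (g⁻¹ * d * g) * (g⁻¹ * c * g)⁻¹ ∈ H
      have h3 : (g⁻¹ * c * g) * (g⁻¹ * d * g) * (g⁻¹ * c * g)⁻¹ = g⁻¹ * (c * d * c⁻¹) * g := by group
      rw [h3]
      exact hcd)
    have h3 : d = g * (g⁻¹ * d * g) * g⁻¹ := by group
    rw [h3, h2]
    group
  · intro q hq hd'
    apply hπ q hq
    have : g⁻¹ * c * g = (MulAut.conj g⁻¹) c := by simp [MulAut.conj_apply]
    rw [this, MulEquiv.orderOf_eq] at hd'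
    exact hd'

theorem card_sum_fibers {A B : Type*} [Fintype A] [Fintype B] [DecidableEq B] (g : A → B) :
    Nat.card A = ∑ b : B, Nat.card {a : A // g a = b} := by
  classical
  rw [Nat.card_eq_fintype_card, ← Fintype.card_congr (Equiv.sigmaFiberEquiv g), Fintype.card_sigma]
  apply Finset.sum_congr rfl
  intro b _
  rw [Nat.card_eq_fintype_card]

/-- The count of elements of `K` lying in `K`-conjugates of `H^g`. -/
theorem count (hHall : (Nat.card H).Coprime H.index) (hTI : Cfsg.IsTISubset (H : Set G))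
    (K : Subgroup G) (hK : ∀ q : ℕ, q.Prime → q ∣ Nat.card K → q ∣ Nat.card H) (g : G) :
    Nat.card {a : G // a ∈ K ∧ a ≠ 1 ∧ ∃ k ∈ K, g⁻¹ * (k⁻¹ * a * k) * g ∈ H} *
      Nat.card ↥(K ⊓ H.map (MulAut.conj g).toMonoidHom) =
    Nat.card K * (Nat.card ↥(K ⊓ H.map (MulAut.conj g).toMonoidHom) - 1) := by
  classical
  haveI : Fintype G := Fintype.ofFinite G
  set D := K ⊓ H.map (MulAut.conj g).toMonoidHom with hD
  have hDmem : ∀ x : G, x ∈ D ↔ x ∈ K ∧ g⁻¹ * x * g ∈ H := by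
    intro x
    rw [hD, Subgroup.mem_inf, mem_conj]
  have hKπ : ∀ c ∈ K, ∀ q : ℕ, q.Prime → q ∣ orderOf c → q ∣ Nat.card H := by
    intro c hc q hq hd
    apply hK q hq
    have h1 : orderOf (⟨c, hc⟩ : K) = orderOf c := Subgroup.orderOf_mk c hc
    rw [← h1] at hd
    exact hd.trans (orderOf_dvd_natCard _)
  let W := {a : G // a ∈ K ∧ a ≠ 1 ∧ ∃ k ∈ K, g⁻¹ * (k⁻¹ * a * k) * g ∈ H}
  let T := K × {d : D // d ≠ 1}
  haveI : Fintype W := Fintype.ofFinite _
  haveI : Fintype T := Fintype.ofFinite _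
  let φ : T → W := fun t => ⟨(t.1 : G) * (t.2.1 : G) * (t.1 : G)⁻¹, by
    have hd := t.2.1.2
    have hd' := (hDmem _).1 hd
    refine ⟨K.mul_mem (K.mul_mem t.1.2 hd'.1) (K.inv_mem t.1.2), ?_, t.1, t.1.2, ?_⟩
    · intro h
      apply t.2.2
      apply Subtype.ext
      have h1 : (t.2.1 : G) = (t.1 : G)⁻¹ * ((t.1 : G) * (t.2.1 : G) * (t.1 : G)⁻¹) * (t.1 : G) := by group
      rw [h1, h]
      simp
    · have h1 : (t.1 : G)⁻¹ * ((t.1 : G) * (t.2.1 : G) * (t.1 : G)⁻¹) * (t.1 : G) = t.2.1 := by group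
      rw [h1]
      exact hd'.2⟩
  have hsum : Nat.card T = ∑ a : W, Nat.card {t : T // φ t = a} := card_sum_fibers φ
  have hfib : ∀ a : W, Nat.card {t : T // φ t = a} = Nat.card D := by
    rintro ⟨a, haK, ha1, k0, hk0, hk0a⟩
    have hd0 : k0⁻¹ * a * k0 ∈ D := (hDmem _).2 ⟨K.mul_mem (K.mul_mem (K.inv_mem hk0) haK) hk0, hk0a⟩
    set d0 := k0⁻¹ * a * k0 with hd0def
    have had0 : a = k0 * d0 * k0⁻¹ := by rw [hd0def]; group
    have hd01 : d0 ≠ 1 := by
      intro h
      apply ha1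
      rw [had0, h]
      group
    apply Nat.card_congr
    refine
      { toFun := fun t => ⟨k0⁻¹ * t.1.1, ?_⟩
        invFun := fun c => ⟨(⟨k0 * c, K.mul_mem hk0 ((hDmem _).1 c.2).1⟩, ⟨⟨(c : G)⁻¹ * d0 * c, D.mul_mem (D.mul_mem (D.inv_mem c.2) hd0) c.2⟩, ?_⟩), ?_⟩
        left_inv := ?_
        right_inv := ?_ }
    · -- k0⁻¹ k ∈ D
      have hk := t.1.1.2
      have hd := t.1.2.1.2
      have hd' := (hDmem _).1 hd
      have ht : (t.1.1 : G) * (t.1.2.1 : G) * (t.1.1 : G)⁻¹ = a := congrArg Subtype.val t.2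
      refine (hDmem _).2 ⟨K.mul_mem (K.inv_mem hk0) hk, ?_⟩
      apply stab H hHall hTI g _ (t.1.2.1 : G) (hKπ _ (K.mul_mem (K.inv_mem hk0) hk)) hd'.2
      · intro h
        apply t.1.2.2
        exact Subtype.ext h
      · have hd0t : d0 = k0⁻¹ * ((t.1.1 : G) * (t.1.2.1 : G) * (t.1.1 : G)⁻¹) * k0 := by rw [ht]
        have h1 : k0⁻¹ * (t.1.1 : G) * (t.1.2.1 : G) * (k0⁻¹ * (t.1.1 : G))⁻¹ = d0 := by
          rw [hd0t]; group
        rw [h1]
        exact ((hDmem _).1 hd0).2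
    · intro h
      apply hd01
      have h1 : ((c : G)⁻¹ * d0 * c) = 1 := congrArg Subtype.val h
      have h2 : d0 = (c : G) * ((c : G)⁻¹ * d0 * c) * (c : G)⁻¹ := by group
      rw [h2, h1]
      group
    · apply Subtype.ext
      show k0 * (c : G) * ((c : G)⁻¹ * d0 * c) * (k0 * (c : G))⁻¹ = a
      rw [had0]; group
    · intro t
      apply Subtype.ext
      apply Prod.ext
      · apply Subtype.ext
        show k0 * (k0⁻¹ * (t.1.1 : G)) = t.1.1
        group
      · apply Subtype.ext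
        apply Subtype.ext
        show (k0⁻¹ * (t.1.1 : G))⁻¹ * d0 * (k0⁻¹ * (t.1.1 : G)) = t.1.2.1
        have ht : (t.1.1 : G) * (t.1.2.1 : G) * (t.1.1 : G)⁻¹ = a := congrArg Subtype.val t.2
        have hd0t : d0 = k0⁻¹ * ((t.1.1 : G) * (t.1.2.1 : G) * (t.1.1 : G)⁻¹) * k0 := by rw [ht]
        rw [hd0t]
        group
    · intro c
      apply Subtype.ext
      show k0⁻¹ * (k0 * (c : G)) = c
      group
  rw [Finset.sum_congr rfl (fun a _ => hfib a), Finset.sum_const, Finset.card_univ, smul_eq_mul] at hsum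
  have hT : Nat.card T = Nat.card K * (Nat.card D - 1) := by
    show Nat.card (K × {d : D // d ≠ 1}) = _
    rw [Nat.card_prod]
    congr 1
    haveI : Fintype D := Fintype.ofFinite _
    rw [Nat.card_eq_fintype_card, Nat.card_eq_fintype_card, ← Set.card_ne_eq (1 : D)]
    rfl
  rw [← hT, hsum, Nat.card_eq_fintype_card (α := W)]

end



/-- Let G be a finite group with a subgroup H whose order is coprime to its index (a Hall subgroup) and which meets each of its conjugates by elements outside N_G(H) trivially. Then every subgroup of G whose order is divisible only by primes dividing the order of H lies in a conjugate of H. -/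
theorem result {G : Type*} [Group G] [Finite G] (H : Subgroup G)
    (hHall : (Nat.card H).Coprime H.index) (hTI : Cfsg.IsTISubset (H : Set G))
    (K : Subgroup G) (hK : ∀ q : ℕ, q.Prime → q ∣ Nat.card K → q ∣ Nat.card H) :
    ∃ g : G, K ≤ H.map (MulAut.conj g).toMonoidHom := by
  classical
  haveI : Fintype G := Fintype.ofFinite G
  by_cases hKb : K = ⊥
  · refine ⟨1, ?_⟩
    rw [hKb]
    exact bot_le
  obtain ⟨x0, hx0K, hx01⟩ := (Subgroup.ne_bot_iff_exists_ne_one.1 hKb |> fun ⟨x, hx⟩ => (⟨x.1, x.2, fun h => hx (Subtype.ext h)⟩ : ∃ x ∈ K, x ≠ 1))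
  have hKπ : ∀ c ∈ K, ∀ q : ℕ, q.Prime → q ∣ orderOf c → q ∣ Nat.card H := by
    intro c hc q hq hd
    apply hK q hq
    have h1 : orderOf (⟨c, hc⟩ : K) = orderOf c := Subgroup.orderOf_mk c hc
    rw [← h1] at hd
    exact hd.trans (orderOf_dvd_natCard _)
  -- definitions
  let E : Finset G := (Finset.univ.filter (· ∈ K)).erase 1
  have hE : E.card = Nat.card K - 1 := by
    rw [Finset.card_erase_of_mem (Finset.mem_filter.2 ⟨Finset.mem_univ _, K.one_mem⟩),
      Nat.card_eq_fintype_card, Fintype.card_subtype]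
  let A : G → Finset G := fun g => Finset.univ.filter (fun a => a ∈ K ∧ a ≠ 1 ∧ ∃ k ∈ K, g⁻¹ * (k⁻¹ * a * k) * g ∈ H)
  let d : G → ℕ := fun g => Nat.card ↥(K ⊓ H.map (MulAut.conj g).toMonoidHom)
  have hA : ∀ g, (A g).card * d g = Nat.card K * (d g - 1) := by
    intro g
    have h1 := count H hHall hTI K hK g
    rw [Nat.card_eq_fintype_card, Fintype.card_subtype] at h1
    exact h1
  have hK0 : 0 < Nat.card K := Nat.card_pos
  have hd0 : ∀ g, 0 < d g := fun g => Nat.card_pos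
  have hhalf : ∀ g, 1 ∈ (K ⊓ H.map (MulAut.conj g).toMonoidHom) → ∀ x : G, x ∈ K → x ≠ 1 → g⁻¹ * x * g ∈ H →
      Nat.card K ≤ 2 * (A g).card := by
    intro g _ x hxK hx1 hxH
    have hd2 : 2 ≤ d g := by
      have h1 : 1 < d g := by
        show 1 < Nat.card ↥(K ⊓ H.map (MulAut.conj g).toMonoidHom)
        rw [Subgroup.one_lt_card_iff_ne_bot]
        intro hb
        have h2 : x ∈ K ⊓ H.map (MulAut.conj g).toMonoidHom := ⟨hxK, (mem_conj H g x).2 hxH⟩
        rw [hb] at h2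
        exact hx1 h2
      exact h1
    have h1 := hA g
    obtain ⟨e, he⟩ : ∃ e, d g = e + 2 := ⟨d g - 2, by omega⟩
    rw [he] at h1
    simp only [show e + 2 - 1 = e + 1 by omega] at h1
    have h3 : Nat.card K * (e + 2) ≤ 2 * (A g).card * (e + 2) := by nlinarith
    exact Nat.le_of_mul_le_mul_right h3 (by omega)
  obtain ⟨g0, hg0⟩ := exists_conj H hHall hTI x0 hx01 (hKπ x0 hx0K)
  have hx0A : Nat.card K ≤ 2 * (A g0).card := hhalf g0 (Subgroup.one_mem _) x0 hx0K hx01 hg0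
  -- every nontrivial element of K is in A g0
  have hall : ∀ x ∈ K, x ≠ 1 → x ∈ A g0 := by
    intro x hxK hx1
    by_contra hxA
    obtain ⟨h, hh⟩ := exists_conj H hHall hTI x hx1 (hKπ x hxK)
    have hxh : Nat.card K ≤ 2 * (A h).card := hhalf h (Subgroup.one_mem _) x hxK hx1 hh
    have hdisj : Disjoint (A g0) (A h) := by
      rw [Finset.disjoint_left]
      intro z hz1 hz2
      obtain ⟨-, hzK, hz1', k, hk, hzk⟩ := Finset.mem_filter.1 hz1
      obtain ⟨-, -, -, k', hk', hzk'⟩ := Finset.mem_filter.1 hz2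
      apply hxA
      refine Finset.mem_filter.2 ⟨Finset.mem_univ _, hxK, hx1, k'⁻¹ * k, K.mul_mem (K.inv_mem hk') hk, ?_⟩
      -- set u = (k' h)⁻¹ (k g0)
      have hu : (k' * h)⁻¹ * (k * g0) ∈ Subgroup.normalizer (H : Set G) := by
        by_contra hn
        have hw : (k * g0)⁻¹ * z * (k * g0) = 1 := by
          have h1 := hTI _ hn ((k * g0)⁻¹ * z * (k * g0)) (by
            have : (k * g0)⁻¹ * z * (k * g0) = g0⁻¹ * (k⁻¹ * z * k) * g0 := by group
            rw [this]; exact hzk) (by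
            have : (k' * h)⁻¹ * (k * g0) * ((k * g0)⁻¹ * z * (k * g0)) * ((k' * h)⁻¹ * (k * g0))⁻¹ = h⁻¹ * (k'⁻¹ * z * k') * h := by group
            rw [this]; exact hzk')
          exact h1
        apply hz1'
        have h2 : z = (k * g0) * ((k * g0)⁻¹ * z * (k * g0)) * (k * g0)⁻¹ := by group
        rw [h2, hw]
        group
      have hu' := (Subgroup.mem_normalizer_iff.1 (Subgroup.inv_mem _ hu) (h⁻¹ * x * h)).1 hh
      have h3 : ((k' * h)⁻¹ * (k * g0))⁻¹ * (h⁻¹ * x * h) * (((k' * h)⁻¹ * (k * g0))⁻¹)⁻¹ =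
          g0⁻¹ * ((k'⁻¹ * k)⁻¹ * x * (k'⁻¹ * k)) * g0 := by group
      rw [← h3]
      exact hu'
    have hsub : A g0 ∪ A h ⊆ E := by
      intro z hz
      rw [Finset.mem_union] at hz
      rcases hz with hz | hz
      · obtain ⟨-, hzK, hz1', -⟩ := Finset.mem_filter.1 hz
        exact Finset.mem_erase.2 ⟨hz1', Finset.mem_filter.2 ⟨Finset.mem_univ _, hzK⟩⟩
      · obtain ⟨-, hzK, hz1', -⟩ := Finset.mem_filter.1 hz
        exact Finset.mem_erase.2 ⟨hz1', Finset.mem_filter.2 ⟨Finset.mem_univ _, hzK⟩⟩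
    have h1 := Finset.card_le_card hsub
    rw [Finset.card_union_of_disjoint hdisj, hE] at h1
    omega
  have hAE : (A g0).card = Nat.card K - 1 := by
    rw [← hE]
    congr 1
    ext z
    constructor
    · intro hz
      obtain ⟨-, hzK, hz1', -⟩ := Finset.mem_filter.1 hz
      exact Finset.mem_erase.2 ⟨hz1', Finset.mem_filter.2 ⟨Finset.mem_univ _, hzK⟩⟩
    · intro hz
      obtain ⟨hz1, hzF⟩ := Finset.mem_erase.1 hz
      exact hall z (Finset.mem_filter.1 hzF).2 hz1
  have h1 := hA g0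
  rw [hAE] at h1
  obtain ⟨a, ha⟩ : ∃ a, Nat.card K = a + 1 := ⟨Nat.card K - 1, by omega⟩
  obtain ⟨e, he⟩ : ∃ e, d g0 = e + 1 := ⟨d g0 - 1, by have := hd0 g0; omega⟩
  rw [ha, he] at h1
  simp only [Nat.add_sub_cancel] at h1
  have hae : a = e := by nlinarith
  have hdK : K ⊓ H.map (MulAut.conj g0).toMonoidHom = K := by
    apply Subgroup.eq_of_le_of_card_ge inf_le_left
    show Nat.card K ≤ d g0
    rw [ha, he, hae]
  exact ⟨g0, inf_eq_left.1 hdK⟩

end Cfsg.Agent.S4116
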