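import Cfsg.Statements.S4117
import Cfsg.Agent.Lib.Coprime.BridgeComm
import Cfsg.Agent.Lib.Coprime.ZGroup

set_option autoImplicit false
open Cfsg
open Cfsg.Agent.Lib.Coprime.SchurZassenhaus Cfsg.Agent.Lib.Coprime.Action Cfsg.Agent.Lib.Coprime.Bridge Cfsg.Agent.Lib.Coprime.BridgeComm

namespace Cfsg.Agent.S4117

/-- Let A be a finite group acting on the finite group G by automorphisms with the orders of A and G coprime, and suppose every Sylow subgroup of G is cyclic. Then the fixed-point subgroup C_G(A) is a Hall subgroup of G (its order is coprime to its index), the subgroup [G, A] generated by the elements g⁻¹·a(g) is cyclic and normal with [G, A] ∩ C_G(A) = 1 and [G, A]·C_G(A) = G. -/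
theorem result {G A : Type*} [Group G] [Finite G] [Group A] [Finite A]
    [MulDistribMulAction A G] (hcop : (Nat.card A).Coprime (Nat.card G))
    (hcyc : ∀ (p : ℕ) [Fact p.Prime] (P : Sylow p G), IsCyclic (P : Subgroup G)) :
    (Nat.card (MulAction.fixedPoints A G : Set G)).Coprime (Nat.card G / Nat.card (MulAction.fixedPoints A G : Set G)) ∧
    IsCyclic (Subgroup.closure {y : G | ∃ (a : A) (g : G), y = g⁻¹ * a • g}) ∧
    (Subgroup.closure {y : G | ∃ (a : A) (g : G), y = g⁻¹ * a • g}).Normal ∧
    (Subgroup.closure {y : G | ∃ (a : A) (g : G), y = g⁻¹ * a • g} : Set G) ∩ MulAction.fixedPoints A G = {1} ∧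
    Subgroup.closure {y : G | ∃ (a : A) (g : G), y = g⁻¹ * a • g} ⊔ Subgroup.closure (MulAction.fixedPoints A G) = ⊤ := by
  classical
  have hZG : IsZGroup G := ⟨fun p hp P => by
    have := Fact.mk hp
    exact hcyc p P⟩
  have hZK : IsZGroup (rangeG A G) :=
    IsZGroup.of_surjective (f := (inG : G →* Gam A G).rangeRestrict)
      (inG : G →* Gam A G).rangeRestrict_surjective
  have hAK := rangeA_le_normalizer_rangeG (A := A) (G := G)
  have hcop' := coprime_rangeA_rangeG (A := A) (G := G) hcop
  obtain ⟨h1, h2, h3⟩ := Cfsg.Agent.Lib.Coprime.ZGroup.main hAK hcop'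
  set K := rangeG A G with hK
  set Ā := rangeA A G with hĀ
  set Q : Subgroup (Gam A G) := ⁅K, Ā⁆ with hQ
  set F' : Subgroup (Gam A G) := K ⊓ Subgroup.centralizer (Ā : Set (Gam A G)) with hF'
  set F : Subgroup G := FixedPoints.subgroup A G with hF
  have hFset : (F : Set G) = MulAction.fixedPoints A G := rfl
  set R : Subgroup G := Subgroup.closure (commSet A G) with hR
  have hRset : Subgroup.closure {y : G | ∃ (a : A) (g : G), y = g⁻¹ * a • g} = R := rfl
  rw [hRset]
  have hRmap : R.map (inG : G →* Gam A G) = Q := map_closure_commSet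
  have hFmap : F.map (inG : G →* Gam A G) = F' := map_fixedPoints_subgroup
  have hinj : Function.Injective (inG : G →* Gam A G) := inG_injective
  have hcardR : Nat.card R = Nat.card Q := by
    rw [← hRmap, Subgroup.card_map_of_injective hinj]
  have hcardF : Nat.card F = Nat.card F' := by
    rw [← hFmap, Subgroup.card_map_of_injective hinj]
  have hsolvK : Group.IsSolvable K := inferInstance
  have hsup : Q ⊔ F' = K := commutator_sup_fixed hAK hcop' (Or.inr hsolvK)
  have hnF : F' ≤ Subgroup.normalizer (Q : Set (Gam A G)) :=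
    inf_le_left.trans (le_normalizer_commutator_left K Ā)
  have hcards : Nat.card Q * Nat.card F' = Nat.card K := by
    rw [card_sup_of_le_normalizer hnF h2, hsup]
  refine ⟨?_, ?_, ?_, ?_, ?_⟩
  · have e1 : Nat.card (MulAction.fixedPoints A G : Set G) = Nat.card F := rfl
    rw [e1, hcardF]
    have e2 : Nat.card G / Nat.card F' = Nat.card Q := by
      rw [← card_rangeG (A := A) (G := G), ← hcards]
      exact Nat.mul_div_cancel _ Nat.card_pos
    rw [e2]
    exact h3
  · let f := Subgroup.equivMapOfInjective R _ hinj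
    rw [hRmap] at f
    exact isCyclic_of_surjective f.symm f.symm.surjective
  · constructor
    intro x hx g
    have h4 : (inG x : Gam A G) ∈ Q := by
      rw [← hRmap]
      exact Subgroup.mem_map_of_mem _ hx
    have h5 : (inG (g * x * g⁻¹) : Gam A G) ∈ Q := by
      rw [map_mul, map_mul, map_inv]
      exact conj_mem_of_le_normalizer (le_normalizer_commutator_left K Ā) ⟨g, rfl⟩ h4
    rw [← hRmap] at h5
    obtain ⟨y, hy, e⟩ := h5
    rwa [← hinj e]
  · ext x
    simp only [Set.mem_inter_iff, Set.mem_singleton_iff, SetLike.mem_coe]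
    constructor
    · rintro ⟨hx1, hx2⟩
      have h4 : (inG x : Gam A G) ∈ Q := by
        rw [← hRmap]
        exact Subgroup.mem_map_of_mem _ hx1
      have h5 : (inG x : Gam A G) ∈ F' := by
        rw [← hFmap]
        exact Subgroup.mem_map_of_mem _ hx2
      have h6 : (inG x : Gam A G) ∈ Q ⊓ F' := Subgroup.mem_inf.mpr ⟨h4, h5⟩
      rw [h2, Subgroup.mem_bot] at h6
      exact hinj (h6.trans (map_one _).symm)
    · rintro rfl
      exact ⟨R.one_mem, F.one_mem⟩
  · have e1 : Subgroup.closure (MulAction.fixedPoints A G) = F := by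
      rw [← hFset]
      exact Subgroup.closure_eq F
    rw [e1]
    apply Subgroup.map_injective hinj
    rw [Subgroup.map_sup, hRmap, hFmap, hsup, Cfsg.Agent.Lib.Coprime.BridgeComm.map_top]
end Cfsg.Agent.S4117
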