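import Cfsg.Statements.S4125
import Cfsg.Agent.Lib.QBaer.Class3

set_option autoImplicit false
open Cfsg

namespace Cfsg.Agent.S4125

open Cfsg.Agent.Lib.Kazarin.Main Cfsg.Agent.Lib.Core.Basic Cfsg.Agent.Lib.QBaer.Class
  Cfsg.Agent.Lib.QBaer.Class2 Cfsg.Agent.Lib.QBaer.Class3

section Aux

universe u

variable {G : Type u} [Group G] [Finite G] {q p : ℕ} [hq : Fact q.Prime] [hp : Fact p.Prime]

theorem inf_core_eq_bot (hpq : p ≠ q) (Q : Sylow q G) : pCore p G ⊓ (Q : Subgroup G) = ⊥ := by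
  rw [eq_bot_iff]
  rintro w ⟨h1, h2⟩
  obtain ⟨k, hk⟩ := (pCore_isPGroup (p := p) (G := G)) ⟨w, h1⟩
  have hk' : w ^ p ^ k = 1 := congrArg Subtype.val hk
  have h3 := eq_one_of_QE_of_coprime (QE_of_mem_sylow Q h2) hk'
    (Nat.Coprime.pow_left k ((Nat.coprime_primes hp.out hq.out).mpr hpq))
  rw [h3]
  exact Subgroup.one_mem _

theorem case_B_normal (hall : ∀ x : G, QE q x → ∃ a : ℕ, (cz x).index = p ^ a) (Q : Sylow q G) :
    (pCore p G ⊔ (Q : Subgroup G)).Normal := by
  classical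
  let O := pCore p G
  let π : G →* G ⧸ O := QuotientGroup.mk' O
  have hπs : Function.Surjective π := QuotientGroup.mk'_surjective O
  have hqelt : ∀ x, QE q x → π x ∈ pCore q (G ⧸ O) := by
    intro x hx
    obtain ⟨t, ht⟩ := QE_iff.mp hx
    have hc : ∀ g h : G ⧸ O, Commute (g * π x * g⁻¹) (h * π x * h⁻¹) := by
      intro g h
      obtain ⟨g, rfl⟩ := hπs g
      obtain ⟨h, rfl⟩ := hπs h
      have h1 := commutator_mem_pCore (p := p) x (hall x hx) g h
      have h2 : π ((g * x * g⁻¹) * (h * x * h⁻¹) * (g * x * g⁻¹)⁻¹ * (h * x * h⁻¹)⁻¹) = 1 :=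
        (QuotientGroup.eq_one_iff _).mpr h1
      simp only [map_mul, map_inv] at h2
      have h3 := mul_inv_eq_one.mp h2
      rw [mul_inv_eq_iff_eq_mul] at h3
      exact h3
    have hx' : QE q (π x) := QE_iff.mpr ⟨t, by rw [← map_pow, ht, map_one]⟩
    obtain ⟨k, hk⟩ := hx'
    exact mem_pCore_of_commute hc hk
  have h1 : (Q : Subgroup G).map π = pCore q (G ⧸ O) := by
    apply le_antisymm
    · rintro _ ⟨u, hu, rfl⟩
      exact hqelt u (QE_of_mem_sylow Q hu)
    · exact pCore_le_sylow (Q.mapSurjective hπs)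
  have h2 : ((Q : Subgroup G).map π).Normal := by
    rw [h1]
    infer_instance
  have h3 := h2.comap π
  rw [Subgroup.comap_map_eq] at h3
  have h4 : π.ker = O := QuotientGroup.ker_mk' O
  rw [h4, sup_comm] at h3
  exact h3

theorem case_B_comm (hpq : p ≠ q) (hall : ∀ x : G, QE q x → ∃ a : ℕ, (cz x).index = p ^ a)
    (Q : Sylow q G) (hL : (pCore p G ⊔ (Q : Subgroup G)).Normal) : IsMulCommutative (Q : Subgroup G) := by
  classical
  have key : ∀ x ∈ (Q : Subgroup G), ∀ y ∈ (Q : Subgroup G), x * y = y * x := by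
    intro x hx y hy
    have hxQ := QE_of_mem_sylow Q hx
    obtain ⟨a, ha⟩ := hall x hxQ
    obtain ⟨Q', hQ'⟩ := exists_sylow_le_cz hp.out hpq ha
    obtain ⟨g, hg⟩ := MulAction.exists_smul_eq G Q Q'
    have hconjQ : ∀ u ∈ (Q : Subgroup G), g * u * g⁻¹ ∈ (Q' : Subgroup G) := by
      intro u hu
      rw [← hg, Sylow.coe_subgroup_smul]
      exact Subgroup.smul_mem_pointwise_smul u (MulAut.conj g) _ hu
    have h1 : g⁻¹ * y * g ∈ pCore p G ⊔ (Q : Subgroup G) := by
      have := hL.conj_mem y (Subgroup.mem_sup_right hy) g⁻¹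
      rwa [inv_inv] at this
    rw [Subgroup.mem_sup_of_normal_left] at h1
    obtain ⟨o1, ho1, u1, hu1, h2⟩ := h1
    let o := g * o1 * g⁻¹
    have ho : o ∈ pCore p G := (pCore_normal p G).conj_mem o1 ho1 g
    let y' := g * u1 * g⁻¹
    have hy' : y' ∈ (Q' : Subgroup G) := hconjQ u1 hu1
    have hyeq : y = o * y' := by
      change y = (g * o1 * g⁻¹) * (g * u1 * g⁻¹)
      have h3 : (g * o1 * g⁻¹) * (g * u1 * g⁻¹) = g * (o1 * u1) * g⁻¹ := by group
      rw [h3, h2]
      group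
    have hcomm : y' * x = x * y' := mem_cz.mp (hQ' hy')
    have hc : x * y * x⁻¹ * y⁻¹ = (x * o * x⁻¹) * o⁻¹ := by
      have h3 : y' * x⁻¹ = x⁻¹ * y' := by
        have h4 : Commute y' x := hcomm
        exact h4.inv_right.eq
      rw [hyeq]
      calc x * (o * y') * x⁻¹ * (o * y')⁻¹ = x * o * (y' * x⁻¹) * y'⁻¹ * o⁻¹ := by group
        _ = x * o * (x⁻¹ * y') * y'⁻¹ * o⁻¹ := by rw [h3]
        _ = (x * o * x⁻¹) * o⁻¹ := by group
    have hcO : x * y * x⁻¹ * y⁻¹ ∈ pCore p G := by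
      rw [hc]
      exact (pCore p G).mul_mem ((pCore_normal p G).conj_mem o ho x) ((pCore p G).inv_mem ho)
    have hcQ : x * y * x⁻¹ * y⁻¹ ∈ (Q : Subgroup G) :=
      (Q : Subgroup G).mul_mem ((Q : Subgroup G).mul_mem ((Q : Subgroup G).mul_mem hx hy)
        ((Q : Subgroup G).inv_mem hx)) ((Q : Subgroup G).inv_mem hy)
    have h3 : x * y * x⁻¹ * y⁻¹ ∈ pCore p G ⊓ (Q : Subgroup G) := ⟨hcO, hcQ⟩
    rw [inf_core_eq_bot hpq Q, Subgroup.mem_bot] at h3
    have h4 := mul_inv_eq_one.mp h3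
    rwa [mul_inv_eq_iff_eq_mul] at h4
  exact ⟨⟨fun a b => Subtype.ext (key a a.2 b b.2)⟩⟩

theorem case_B_solv (hpq : p ≠ q) (hall : ∀ x : G, QE q x → ∃ a : ℕ, (cz x).index = p ^ a)
    (Q : Sylow q G) (hL : (pCore p G ⊔ (Q : Subgroup G)).Normal)
    (hab : IsMulCommutative (Q : Subgroup G)) : Group.IsSolvable (G ⧸ pPrimeCore q G) := by
  classical
  let π : G →* G ⧸ pPrimeCore q G := QuotientGroup.mk' _
  have hπs : Function.Surjective π := QuotientGroup.mk'_surjective _
  have hOle : pCore p G ≤ π.ker := by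
    rw [QuotientGroup.ker_mk']
    refine le_pPrimeCore (pCore_normal p G) ?_
    obtain ⟨k, hk⟩ := IsPGroup.iff_card.mp (pCore_isPGroup (p := p) (G := G))
    rw [hk]
    exact Nat.Coprime.pow_left k ((Nat.coprime_primes hp.out hq.out).mpr hpq)
  have hmap : (pCore p G ⊔ (Q : Subgroup G)).map π = (Q : Subgroup G).map π := by
    rw [Subgroup.map_sup, (Subgroup.map_eq_bot_iff _).mpr hOle, bot_sup_eq]
  haveI hRn : ((Q : Subgroup G).map π).Normal := by
    rw [← hmap]
    exact hL.map π hπs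
  refine solv_of_normal_abelian_sylow (q := q) (p := p) ((Q : Subgroup G).map π) ?_ ?_ ?_ ?_ ?_
  · rintro _ ⟨a, ha, rfl⟩ _ ⟨b, hb, rfl⟩
    rw [← map_mul, ← map_mul]
    congr 1
    have := hab.is_comm.comm ⟨a, ha⟩ ⟨b, hb⟩
    exact congrArg Subtype.val this
  · exact Q.isPGroup'.map π
  · have h1 := Subgroup.index_map_dvd (Q : Subgroup G) hπs
    refine Nat.Coprime.coprime_dvd_left h1 ?_
    exact ((Nat.Prime.coprime_iff_not_dvd hq.out).mpr Q.not_dvd_index).symm
  · exact pPrimeCore_quotient_eq_bot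
  · rintro _ ⟨x, hx, rfl⟩
    obtain ⟨a, ha⟩ := hall x (QE_of_mem_sylow Q hx)
    have hle : (cz x).map π ≤ cz (π x) := by
      rintro _ ⟨y, hy, rfl⟩
      have hy' : y * x = x * y := mem_cz.mp hy
      rw [mem_cz, ← map_mul, ← map_mul, hy']
    have h1 := Subgroup.index_dvd_of_le hle
    have h2 := Subgroup.index_map_dvd (cz x) hπs
    rw [ha] at h2
    obtain ⟨b, -, hb⟩ := (Nat.dvd_prime_pow hp.out).mp (h1.trans h2)
    exact ⟨b, hb⟩

end Aux

/-- Let G be a finite group and q a prime dividing its order such that every element of q-power order has a conjugacy class of prime-power size. Then G is q-solvable of q-length 1: there are normal subgroups K ≤ L of G with K of order prime to q, L/K a q-group and L of index prime to q. Moreover there is a prime p such that every element of q-power order has a class of p-power size (one prime serving for all of them), and for a Sylow q-subgroup Q: if p = q then Q is normal with a normal complement (a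 direct factor), while if p ≠ q then Q is abelian, the product of Q with the largest normal p-subgroup O_p(G) is normal in G, and G/O_{q'}(G) is solvable, where O_{q'}(G) is the largest normal subgroup of order prime to q. -/
theorem result {G : Type*} [Group G] [Finite G] (q : ℕ) [Fact q.Prime] (hq : q ∣ Nat.card G)
    (hBaer : ∀ x : G, (∃ k : ℕ, orderOf x = q ^ k) → ∃ (r : ℕ) (a : ℕ), r.Prime ∧ (Subgroup.centralizer ({x} : Set G)).index = r ^ a) (Q : Sylow q G) :
    (∃ K L : Subgroup G, K.Normal ∧ L.Normal ∧ K ≤ L ∧ (Nat.card K).Coprime q ∧ (∃ m : ℕ, K.relIndex L = q ^ m) ∧ L.index.Coprime q) ∧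
    ∃ p : ℕ, p.Prime ∧ (∀ x : G, (∃ k : ℕ, orderOf x = q ^ k) → ∃ a : ℕ, (Subgroup.centralizer ({x} : Set G)).index = p ^ a) ∧
      (p = q → (Q : Subgroup G).Normal ∧ ∃ N : Subgroup G, N.Normal ∧ N.IsComplement' (Q : Subgroup G)) ∧
      (p ≠ q → IsMulCommutative (Q : Subgroup G) ∧ (Cfsg.pCore p G ⊔ (Q : Subgroup G)).Normal ∧
        ∀ _h : (Cfsg.pPrimeCore q G).Normal, Group.IsSolvable (G ⧸ Cfsg.pPrimeCore q G)) := by
  have hQq : (Q : Subgroup G).index.Coprime q :=
    ((Nat.Prime.coprime_iff_not_dvd (Fact.out : q.Prime)).mpr Q.not_dvd_index).symm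
  obtain ⟨f, hf⟩ := IsPGroup.iff_card.mp Q.isPGroup'
  rcases dichotomy (q := q) hBaer with hA | ⟨p, hp, hpq, hall⟩
  · obtain ⟨hQn, N, hNn, hNc⟩ := case_A hA Q
    refine ⟨⟨⊥, Q, inferInstance, hQn, bot_le, ?_, ⟨f, ?_⟩, hQq⟩, q, Fact.out, hA,
      fun _ => ⟨hQn, N, hNn, hNc⟩, fun h => absurd rfl h⟩
    · simp
    · rw [Subgroup.relIndex_bot_left, hf]
  · haveI : Fact p.Prime := ⟨hp⟩
    have hL := case_B_normal hall Q
    have hab := case_B_comm hpq hall Q hL
    refine ⟨⟨pCore p G, pCore p G ⊔ Q, inferInstance, hL, le_sup_left, ?_, ⟨f, ?_⟩, ?_⟩, p, hp, hall,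
      fun h => absurd h hpq, fun _ => ⟨hab, hL, fun _h => case_B_solv hpq hall Q hL hab⟩⟩
    · obtain ⟨k, hk⟩ := IsPGroup.iff_card.mp (pCore_isPGroup (p := p) (G := G))
      rw [hk]
      exact Nat.Coprime.pow_left k ((Nat.coprime_primes hp Fact.out).mpr hpq)
    · rw [Subgroup.relIndex_sup_left, ← Subgroup.inf_relIndex_right, inf_core_eq_bot hpq Q,
        Subgroup.relIndex_bot_left, hf]
    · exact Nat.Coprime.coprime_dvd_left (Subgroup.index_dvd_of_le le_sup_right) hQq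

end Cfsg.Agent.S4125
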