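import Cfsg.Statements.S4126
import Cfsg.Agent.Lib.Transfer.Omega

set_option autoImplicit false
open Cfsg

namespace Cfsg.Agent.S4126

/-- Let G be a finite group and p a prime. Suppose every element of order p, and when p = 2 also every element of order 4, has a conjugacy class of p-power size. Then G has a normal p-complement. -/
theorem result {G : Type*} [Group G] [Finite G] (p : ℕ) [Fact p.Prime]
    (h : ∀ x : G, (orderOf x = p ∨ (p = 2 ∧ orderOf x = 4)) → ∃ a : ℕ, (Subgroup.centralizer ({x} : Set G)).index = p ^ a) :
    Cfsg.HasNormalPComplement p G := by
  exact Cfsg.Agent.Lib.Transfer.Omega.hasNormalPComplement_of_small_classes h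

end Cfsg.Agent.S4126
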