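import Cfsg.Statements.S4130
import Cfsg.Agent.Lib.SqfClass.Main
-- import your own Cfsg.Agent.* helpers here

set_option autoImplicit false
open Cfsg

namespace Cfsg.Agent.S4130

/-- Let G be a finite group all of whose conjugacy class sizes are square-free. Then G is supersolvable, G/F(G) and the derived subgroup G′ are cyclic of square-free order (F(G) the Fitting subgroup, which is normal), F(G) has nilpotency class at most 2, and G is metabelian. -/
theorem result {G : Type*} [Group G] [Finite G]
    (h : ∀ x : G, Squarefree (Subgroup.centralizer ({x} : Set G)).index) :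
    Cfsg.IsSupersolvable G ∧ (Cfsg.fittingSubgroup G).Normal ∧
    (∀ _h : (Cfsg.fittingSubgroup G).Normal, IsCyclic (G ⧸ Cfsg.fittingSubgroup G) ∧ Squarefree (Cfsg.fittingSubgroup G).index) ∧
    IsCyclic (commutator G) ∧ Squarefree (Nat.card (commutator G)) ∧
    Subgroup.upperCentralSeries ↥(Cfsg.fittingSubgroup G) 2 = ⊤ ∧ commutator ↥(commutator G) = ⊥ := by
  exact Cfsg.Agent.Lib.SqfClass.Main.main h

end Cfsg.Agent.S4130
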