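import Cfsg.Statements.S4139
import Cfsg.Agent.Lib.OddLocal.CN
-- import your own Cfsg.Agent.* helpers here

set_option autoImplicit false
open Cfsg

namespace Cfsg.Agent.S4139

open Cfsg.Agent.Lib.OddLocal.CN

universe u

section Basic

variable {G : Type*} [Group G]

/-- The size of the conjugacy class, as an index. -/
noncomputable abbrev s (x : G) : ℕ := (Subgroup.centralizer ({x} : Set G)).index

theorem mem_C {x g : G} : g ∈ Subgroup.centralizer ({x} : Set G) ↔ g * x = x * g :=
  Subgroup.mem_centralizer_singleton_iff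

theorem card_carrier [Finite G] (x : G) : Nat.card (ConjClasses.mk x).carrier = s x := by
  rw [← ConjAct.orbit_eq_carrier_conjClasses]
  have h1 := MulAction.index_stabilizer (ConjAct G) x
  rw [← Nat.card_coe_set_eq] at h1
  rw [← h1, ConjAct.stabilizer_eq_centralizer]
  rfl

theorem s_eq_one_iff [Finite G] (x : G) : s x = 1 ↔ x ∈ Subgroup.center G := by
  rw [Subgroup.index_eq_one, Subgroup.mem_center_iff, eq_top_iff]
  constructor
  · intro h g
    exact mem_C.1 (h (Subgroup.mem_top g))
  · intro h g _
    exact mem_C.2 (h g)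

theorem s_eq_of_mk_eq [Finite G] {x y : G} (h : ConjClasses.mk x = ConjClasses.mk y) : s x = s y := by
  rw [← card_carrier, ← card_carrier, h]

/-- Elements whose class has prime power size. -/
def BSet (q : ℕ) (G : Type*) [Group G] : Set G := {x | ∃ k : ℕ, s x = q ^ k}

end Basic

section Bijection

variable {G H : Type*} [Group G] [Finite G] [Group H] [Finite H]

/-- Types of equal finite cardinality are equivalent. -/
noncomputable def equivOfCard {α β : Type*} [Finite α] [Finite β] (h : Nat.card α = Nat.card β) : α ≃ β :=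
  (Finite.equivFin α).trans ((finCongr h).trans (Finite.equivFin β).symm)

theorem card_fiber (C : ConjClasses G) :
    Nat.card {x : G // ConjClasses.mk x = C} = Nat.card C.carrier := by
  apply Nat.card_congr
  exact Equiv.subtypeEquivRight (fun x => (ConjClasses.mem_carrier_iff_mk_eq (a := x) (b := C)).symm)

/-- Equal class size multisets give a size preserving bijection of the groups. -/
theorem exists_equiv
    (h : ∀ k : ℕ, Nat.card {C : ConjClasses G // Nat.card C.carrier = k} = Nat.card {C : ConjClasses H // Nat.card C.carrier = k}) :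
    ∃ E : G ≃ H, ∀ x, s (E x) = s x := by
  classical
  let e1 : ∀ k : ℕ, {C : ConjClasses G // Nat.card C.carrier = k} ≃ {C : ConjClasses H // Nat.card C.carrier = k} :=
    fun k => equivOfCard (h k)
  let fG : ConjClasses G → ℕ := fun C => Nat.card C.carrier
  let fH : ConjClasses H → ℕ := fun C => Nat.card C.carrier
  let eC : ConjClasses G ≃ ConjClasses H :=
    (Equiv.sigmaFiberEquiv fG).symm.trans ((Equiv.sigmaCongrRight e1).trans (Equiv.sigmaFiberEquiv fH))
  have heC : ∀ C, fH (eC C) = fG C := by
    intro C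
    exact (e1 (fG C) ⟨C, rfl⟩).2
  let mG : G → ConjClasses G := ConjClasses.mk
  let mH : H → ConjClasses H := ConjClasses.mk
  let F : ∀ C : ConjClasses G, {x : G // mG x = C} ≃ {y : H // mH y = eC C} := fun C =>
    equivOfCard (by
      rw [card_fiber C, card_fiber (eC C)]
      exact (heC C).symm)
  let E : G ≃ H := (Equiv.sigmaFiberEquiv mG).symm.trans
    ((Equiv.sigmaCongr eC F).trans (Equiv.sigmaFiberEquiv mH))
  refine ⟨E, fun x => ?_⟩
  have hm : mH (E x) = eC (mG x) := (F (mG x) ⟨x, rfl⟩).2
  have h1 : s (E x) = fH (mH (E x)) := (card_carrier (E x)).symm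
  have h2 : s x = fG (mG x) := (card_carrier x).symm
  rw [h1, h2, hm, heC]

end Bijection

section Counting

variable {G : Type u} [Group G] [Finite G] {q : ℕ} [hq : Fact q.Prime]

theorem mem_iff_of_mk_eq {x y : G} (h : ConjClasses.mk x = ConjClasses.mk y) :
    (x ∈ BSet q G ∧ x ∉ Subgroup.center G) ↔ (y ∈ BSet q G ∧ y ∉ Subgroup.center G) := by
  have h1 := s_eq_of_mk_eq h
  have h2 : x ∈ BSet q G ↔ y ∈ BSet q G := by
    show (∃ k, s x = q ^ k) ↔ (∃ k, s y = q ^ k)
    rw [h1]
  rw [h2, ← s_eq_one_iff, ← s_eq_one_iff, h1]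

/-- The class equation modulo `q` for the elements of `q`-power class size. -/
theorem dvd_card_BSet_sub :
    q ∣ Nat.card {x : G // x ∈ BSet q G ∧ x ∉ Subgroup.center G} := by
  classical
  have := Fintype.ofFinite G
  rw [Nat.card_eq_fintype_card, Fintype.card_subtype]
  rw [Finset.card_eq_sum_card_fiberwise (f := ConjClasses.mk) (t := Finset.univ) (fun _ _ => Finset.mem_coe.2 (Finset.mem_univ _))]
  apply Finset.dvd_sum
  intro C _
  obtain ⟨y, rfl⟩ := ConjClasses.mk_surjective C
  by_cases hy : y ∈ BSet q G ∧ y ∉ Subgroup.center G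
  · have hfib : (Finset.univ.filter (fun x : G => x ∈ BSet q G ∧ x ∉ Subgroup.center G)).filter
        (fun x => ConjClasses.mk x = ConjClasses.mk y) = Finset.univ.filter (fun x : G => ConjClasses.mk x = ConjClasses.mk y) := by
      ext x
      simp only [Finset.mem_filter, Finset.mem_univ, true_and, and_iff_right_iff_imp]
      intro hx
      exact (mem_iff_of_mk_eq hx).2 hy
    rw [hfib, ← Fintype.card_subtype, ← Nat.card_eq_fintype_card, card_fiber, card_carrier]
    obtain ⟨⟨k, hk⟩, hc⟩ := hy
    rw [hk]
    cases k with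
    | zero =>
      exfalso
      apply hc
      rw [← s_eq_one_iff]
      simpa using hk
    | succ n => exact dvd_pow_self _ (Nat.succ_ne_zero n)
  · have hfib : (Finset.univ.filter (fun x : G => x ∈ BSet q G ∧ x ∉ Subgroup.center G)).filter
        (fun x => ConjClasses.mk x = ConjClasses.mk y) = ∅ := by
      ext x
      simp only [Finset.mem_filter, Finset.mem_univ, true_and, Finset.notMem_empty, iff_false]
      rintro ⟨hx, hxy⟩
      exact hy ((mem_iff_of_mk_eq hxy).1 hx)
    rw [hfib]
    simp

/-- The congruence: `#B ≡ #Z (mod q)`. -/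
theorem card_BSet_eq :
    Nat.card (BSet q G) = Nat.card {x : G // x ∈ BSet q G ∧ x ∉ Subgroup.center G} +
      Nat.card (Subgroup.center G) := by
  classical
  have := Fintype.ofFinite G
  have hZ : ∀ x : G, x ∈ Subgroup.center G → x ∈ BSet q G := by
    intro x hx
    exact ⟨0, by rw [pow_zero, s_eq_one_iff]; exact hx⟩
  have e : BSet q G ≃ {x : G // x ∈ BSet q G ∧ x ∉ Subgroup.center G} ⊕ Subgroup.center G :=
    { toFun := fun x => if hx : x.1 ∈ Subgroup.center G then Sum.inr ⟨x.1, hx⟩ else Sum.inl ⟨x.1, x.2, hx⟩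
      invFun := fun y => match y with
        | Sum.inl a => ⟨a.1, a.2.1⟩
        | Sum.inr a => ⟨a.1, hZ _ a.2⟩
      left_inv := by
        intro x
        by_cases hx : x.1 ∈ Subgroup.center G <;> simp [hx]
      right_inv := by
        intro y
        rcases y with a | a
        · simp [a.2.2]
        · simp [a.2] }
  rw [Nat.card_congr e, Nat.card_sum]

/-- Quotient by a central subgroup. -/
theorem s_eq_mul {A : Subgroup G} [A.Normal] (hA : A ≤ Subgroup.center G) (x : G) :
    ∃ d : ℕ, d ∣ Nat.card A ∧ s x = d * s (QuotientGroup.mk x : G ⧸ A) := by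
  classical
  let m : G →* G ⧸ A := QuotientGroup.mk' A
  have hm : Function.Surjective m := QuotientGroup.mk'_surjective A
  let C₁ : Subgroup G := (Subgroup.centralizer ({m x} : Set (G ⧸ A))).comap m
  have hC₁ : s (m x) = C₁.index := (Subgroup.index_comap_of_surjective _ hm).symm
  have hle : Subgroup.centralizer ({x} : Set G) ≤ C₁ := by
    intro g hg
    rw [Subgroup.mem_comap, mem_C, ← map_mul, ← map_mul, mem_C.1 hg]
  have hf : ∀ g ∈ C₁, g * x * g⁻¹ * x⁻¹ ∈ A := by
    intro g hg
    have h1 : m g * m x = m x * m g := mem_C.1 hg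
    rw [← QuotientGroup.eq_one_iff]
    show m (g * x * g⁻¹ * x⁻¹) = 1
    rw [map_mul, map_mul, map_mul, map_inv, map_inv, h1]
    group
  have hcentral : ∀ a ∈ A, ∀ g : G, a * g = g * a := fun a ha g =>
    ((Subgroup.mem_center_iff.1 (hA ha)) g).symm
  let φ : C₁ →* G := MonoidHom.mk' (fun g => (g : G) * x * (g : G)⁻¹ * x⁻¹) (by
    intro a b
    have h1 : (b : G) * x = ((b : G) * x * (b : G)⁻¹ * x⁻¹) * (x * b) := by group
    have h2 := hcentral _ (hf b b.2)
    set c := (b : G) * x * (b : G)⁻¹ * x⁻¹ with hc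
    have h3 : (b : G) * x * (b : G)⁻¹ = c * x := by rw [hc]; group
    calc ((a * b : C₁) : G) * x * ((a * b : C₁) : G)⁻¹ * x⁻¹
        = (a : G) * ((b : G) * x * (b : G)⁻¹) * (a : G)⁻¹ * x⁻¹ := by
          push_cast
          group
      _ = (a : G) * (c * x) * (a : G)⁻¹ * x⁻¹ := by rw [h3]
      _ = ((a : G) * c) * x * (a : G)⁻¹ * x⁻¹ := by group
      _ = (c * a) * x * (a : G)⁻¹ * x⁻¹ := by rw [h2]
      _ = c * ((a : G) * x * (a : G)⁻¹ * x⁻¹) := by group
      _ = ((a : G) * x * (a : G)⁻¹ * x⁻¹) * c := (hcentral _ (hf a a.2) c).symm)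
  have hker : φ.ker = (Subgroup.centralizer ({x} : Set G)).subgroupOf C₁ := by
    ext g
    rw [MonoidHom.mem_ker, Subgroup.mem_subgroupOf, mem_C]
    show (g : G) * x * (g : G)⁻¹ * x⁻¹ = 1 ↔ _
    constructor
    · intro h
      have : (g : G) * x * (g : G)⁻¹ = x := by
        rwa [mul_inv_eq_one] at h
      rw [mul_inv_eq_iff_eq_mul] at this
      exact this
    · intro h
      rw [h]
      group
  have hrange : φ.range ≤ A := by
    rintro _ ⟨g, rfl⟩
    exact hf g g.2
  refine ⟨Nat.card φ.range, Subgroup.card_dvd_of_le hrange, ?_⟩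
  have h5 : (Subgroup.centralizer ({x} : Set G)).relIndex C₁ = Nat.card φ.range := by
    rw [← Subgroup.index_ker, hker]
    rfl
  have h6 := Subgroup.relIndex_mul_index hle
  show (Subgroup.centralizer ({x} : Set G)).index = _ * s (m x)
  rw [hC₁, ← h5, h6]

theorem mem_BSet_iff {A : Subgroup G} [A.Normal] (hA : A ≤ Subgroup.center G)
    (hq' : ∃ n, Nat.card A = q ^ n) (x : G) :
    x ∈ BSet q G ↔ (QuotientGroup.mk x : G ⧸ A) ∈ BSet q (G ⧸ A) := by
  obtain ⟨d, hd, hs⟩ := s_eq_mul hA x
  obtain ⟨n, hn⟩ := hq'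
  rw [hn] at hd
  obtain ⟨b, -, rfl⟩ := (Nat.dvd_prime_pow hq.out).1 hd
  constructor
  · rintro ⟨k, hk⟩
    have h1 : s (QuotientGroup.mk x : G ⧸ A) ∣ q ^ k := by
      rw [← hk, hs]
      exact dvd_mul_left _ _
    obtain ⟨c, -, hc⟩ := (Nat.dvd_prime_pow hq.out).1 h1
    exact ⟨c, hc⟩
  · rintro ⟨k, hk⟩
    exact ⟨b + k, by rw [hs, hk, pow_add]⟩

theorem card_BSet_quot {A : Subgroup G} [A.Normal] (hA : A ≤ Subgroup.center G)
    (hq' : ∃ n, Nat.card A = q ^ n) :
    Nat.card (BSet q G) = Nat.card A * Nat.card (BSet q (G ⧸ A)) := by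
  have e := QuotientGroup.preimageMkEquivSubgroupProdSet A (BSet q (G ⧸ A))
  have h : (QuotientGroup.mk ⁻¹' (BSet q (G ⧸ A)) : Set G) = BSet q G := by
    ext x
    exact (mem_BSet_iff hA hq' x).symm
  rw [h] at e
  rw [Nat.card_congr e, Nat.card_prod]

theorem ordCompl_pow_self (n : ℕ) : ordCompl[q] (q ^ n) = 1 := by
  rw [Nat.Prime.factorization_pow hq.out]
  simp only [Finsupp.single_eq_same]
  exact Nat.div_self (pow_pos hq.out.pos n)

theorem ordProj_pow_mul (n m : ℕ) (hm : m ≠ 0) : ordProj[q] (q ^ n * m) = q ^ n * ordProj[q] m := by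
  rw [Nat.ordProj_mul q (pow_ne_zero _ hq.out.ne_zero) hm, Nat.Prime.factorization_pow hq.out]
  simp

theorem ordCompl_center_quot {A : Subgroup G} [A.Normal] (hA : A ≤ Subgroup.center G)
    (hcard : Nat.card A = q) :
    ordCompl[q] (Nat.card (Subgroup.center (G ⧸ A))) = ordCompl[q] (Nat.card (Subgroup.center G)) := by
  classical
  let Z₁ : Subgroup G := (Subgroup.center (G ⧸ A)).comap (QuotientGroup.mk' A)
  have hZ₁ : Nat.card Z₁ = q * Nat.card (Subgroup.center (G ⧸ A)) := by
    have e := QuotientGroup.preimageMkEquivSubgroupProdSet A (Subgroup.center (G ⧸ A) : Set (G ⧸ A))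
    have : Nat.card Z₁ = Nat.card (QuotientGroup.mk ⁻¹' ((Subgroup.center (G ⧸ A) : Set (G ⧸ A))) : Set G) := rfl
    rw [this, Nat.card_congr e, Nat.card_prod, hcard]
    rfl
  have hle : Subgroup.center G ≤ Z₁ := by
    intro g hg
    rw [Subgroup.mem_comap, Subgroup.mem_center_iff]
    intro h
    obtain ⟨h', rfl⟩ := QuotientGroup.mk'_surjective A h
    rw [← map_mul, ← map_mul, (Subgroup.mem_center_iff.1 hg) h']
  -- the quotient `Z₁ / Z` is a `q`-group
  have hpow : ∀ x ∈ Z₁, x ^ q ∈ Subgroup.center G := by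
    intro x hx
    rw [Subgroup.mem_center_iff]
    intro g
    have h1 : QuotientGroup.mk' A g * QuotientGroup.mk' A x = QuotientGroup.mk' A x * QuotientGroup.mk' A g :=
      (Subgroup.mem_center_iff.1 hx) _
    have hc : g * x * g⁻¹ * x⁻¹ ∈ A := by
      rw [← QuotientGroup.eq_one_iff]
      show QuotientGroup.mk' A (g * x * g⁻¹ * x⁻¹) = 1
      rw [map_mul, map_mul, map_mul, map_inv, map_inv, h1]
      group
    set c := g * x * g⁻¹ * x⁻¹ with hcdef
    have hcq : c ^ q = 1 := by
      have := pow_card_eq_one' (x := (⟨c, hc⟩ : A))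
      rw [hcard] at this
      exact congrArg Subtype.val this
    have hcc : Commute c x := ((Subgroup.mem_center_iff.1 (hA hc)) x).symm
    have h2 : g * x * g⁻¹ = c * x := by rw [hcdef]; group
    have h3 : g * x ^ q * g⁻¹ = x ^ q := by
      rw [← conj_pow, h2, hcc.mul_pow, hcq, one_mul]
    calc g * x ^ q = g * x ^ q * g⁻¹ * g := by group
      _ = x ^ q * g := by rw [h3]
  let H₁ : Subgroup Z₁ := (Subgroup.center G).subgroupOf Z₁
  have hH₁n : H₁.Normal := by infer_instance
  have hp : IsPGroup q (Z₁ ⧸ H₁) := by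
    intro y
    obtain ⟨x, rfl⟩ := QuotientGroup.mk_surjective y
    refine ⟨1, ?_⟩
    rw [pow_one, ← QuotientGroup.mk_pow, QuotientGroup.eq_one_iff, Subgroup.mem_subgroupOf]
    simpa using hpow x x.2
  obtain ⟨n, hn⟩ := IsPGroup.iff_card.1 hp
  have h1 : Nat.card H₁ = Nat.card (Subgroup.center G) :=
    Nat.card_congr (Subgroup.subgroupOfEquivOfLe hle).toEquiv
  have h2 : Nat.card Z₁ = Nat.card (Subgroup.center G) * q ^ n := by
    rw [← h1, ← hn, ← Subgroup.index_eq_card, Subgroup.card_mul_index]
  have h3 : q * Nat.card (Subgroup.center (G ⧸ A)) = Nat.card (Subgroup.center G) * q ^ n := by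
    rw [← hZ₁, h2]
  have h4 := congrArg (fun k => ordCompl[q] k) h3
  simp only [Nat.ordCompl_mul] at h4
  have h5 : ordCompl[q] q = 1 := by
    have := ordCompl_pow_self (q := q) 1
    rwa [pow_one] at this
  rw [h5, ordCompl_pow_self, one_mul, mul_one] at h4
  exact h4

/-- **Key theorem.** -/
theorem exists_normal_sylow (n : ℕ) : ∀ (G : Type u) [Group G] [Finite G], Nat.card G = n →
    Nat.card (BSet q G) = ordProj[q] (Nat.card G) * ordCompl[q] (Nat.card (Subgroup.center G)) →
    ∃ T : Subgroup G, T.Normal ∧ IsPGroup q T ∧ ¬ q ∣ T.index := by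
  induction n using Nat.strong_induction_on with
  | _ n ih =>
    intro G _ _ hn hB
    have hqp := hq.out
    by_cases hZ : q ∣ Nat.card (Subgroup.center G)
    · -- central subgroup of order `q`
      obtain ⟨z, hz⟩ := exists_prime_orderOf_dvd_card' q hZ
      set A : Subgroup G := Subgroup.zpowers (z : G) with hAdef
      have hA : A ≤ Subgroup.center G := by
        rw [hAdef, Subgroup.zpowers_le]
        exact z.2
      have hAn : A.Normal := by
        constructor
        intro a ha g
        have : g * a * g⁻¹ = a := by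
          have h1 := (Subgroup.mem_center_iff.1 (hA ha)) g
          rw [h1]
          group
        rw [this]
        exact ha
      have hcard : Nat.card A = q := by
        rw [hAdef, Nat.card_zpowers, Subgroup.orderOf_coe, hz]
      have hq' : ∃ n, Nat.card A = q ^ n := ⟨1, by rw [hcard, pow_one]⟩
      have hGcard : Nat.card G = q * Nat.card (G ⧸ A) := by
        rw [← hcard, mul_comm]
        exact Subgroup.card_eq_card_quotient_mul_card_subgroup A
      have hpos : Nat.card (G ⧸ A) ≠ 0 := Nat.card_pos.ne'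
      have hlt : Nat.card (G ⧸ A) < n := by
        rw [← hn, hGcard]
        have := hqp.two_le
        have := Nat.pos_of_ne_zero hpos
        nlinarith
      have hB' : Nat.card (BSet q (G ⧸ A)) =
          ordProj[q] (Nat.card (G ⧸ A)) * ordCompl[q] (Nat.card (Subgroup.center (G ⧸ A))) := by
        rw [card_BSet_quot hA hq', hGcard, hcard, ← ordCompl_center_quot hA hcard] at hB
        have h2 := ordProj_pow_mul (q := q) 1 _ hpos
        rw [pow_one] at h2
        rw [h2, mul_assoc] at hB
        exact Nat.eq_of_mul_eq_mul_left hqp.pos hB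
      obtain ⟨Tb, hTbn, hTbp, hTbi⟩ := ih _ hlt (G ⧸ A) rfl hB'
      refine ⟨Tb.comap (QuotientGroup.mk' A), hTbn.comap _, ?_, ?_⟩
      · intro t
        obtain ⟨k, hk⟩ := hTbp ⟨QuotientGroup.mk' A t, t.2⟩
        refine ⟨k + 1, ?_⟩
        apply Subtype.ext
        have h1 : (QuotientGroup.mk' A (t : G)) ^ q ^ k = 1 := congrArg Subtype.val hk
        rw [← map_pow, QuotientGroup.mk'_apply, QuotientGroup.eq_one_iff] at h1
        have h2 := pow_card_eq_one' (x := (⟨_, h1⟩ : A))
        rw [hcard] at h2
        have h3 : ((t : G) ^ q ^ k) ^ q = 1 := congrArg Subtype.val h2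
        simpa [pow_succ, pow_mul] using h3
      · rw [Subgroup.index_comap_of_surjective _ (QuotientGroup.mk'_surjective A)]
        exact hTbi
    · -- no central `q`-elements
      have hW : ordCompl[q] (Nat.card (Subgroup.center G)) = Nat.card (Subgroup.center G) := by
        rw [Nat.factorization_eq_zero_of_not_dvd hZ]
        simp
      refine ⟨⊥, inferInstance, IsPGroup.of_bot, ?_⟩
      rw [Subgroup.index_bot]
      intro hd
      have h1 : q ∣ ordProj[q] (Nat.card G) := by
        have := (Nat.Prime.dvd_iff_one_le_factorization hqp Nat.card_pos.ne').1 hd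
        exact dvd_pow_self _ (by omega)
      have h2 : q ∣ Nat.card (BSet q G) := by
        rw [hB]
        exact h1.mul_right _
      have h3 := (dvd_card_BSet_sub (G := G) (q := q))
      rw [card_BSet_eq] at h2
      exact hZ ((Nat.dvd_add_right h3).1 h2)

end Counting

section Nilpotent

variable {H : Type*} [Group H] [Finite H] {q : ℕ} [hq : Fact q.Prime]

/-- In a nilpotent group the elements of `q`-power class size are `Q · Z(H)`. -/
theorem nilp_count (hH : Group.IsNilpotent H) :
    Nat.card (BSet q H) = ordProj[q] (Nat.card H) * ordCompl[q] (Nat.card (Subgroup.center H)) := by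
  classical
  have hqp := hq.out
  obtain ⟨Q⟩ : Nonempty (Sylow q H) := inferInstance
  have hQn : (Q : Subgroup H).Normal := by
    have := hH
    infer_instance
  let Z := Subgroup.center H
  let T : Subgroup H := (Q : Subgroup H) ⊔ Z
  -- `q`-elements lie in `Q`
  have hQmem : ∀ u : H, (∃ k, u ^ q ^ k = 1) → u ∈ (Q : Subgroup H) := by
    intro u hu
    have hp : IsPGroup q (Subgroup.zpowers u) := by
      obtain ⟨k, hk⟩ := hu
      rw [IsPGroup.iff_card, Nat.card_zpowers]
      have := orderOf_dvd_of_pow_eq_one hk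
      obtain ⟨b, -, hb⟩ := (Nat.dvd_prime_pow hqp).1 this
      exact ⟨b, hb⟩
    obtain ⟨R, hR⟩ := hp.exists_le_sylow
    have h1 : (R : Subgroup H) = Q := by
      obtain ⟨g, hg⟩ := MulAction.exists_smul_eq H Q R
      rw [← hg]
      have := Sylow.smul_eq_of_normal (P := Q) (g := g)
      rw [this]
    rw [← h1]
    exact hR (Subgroup.mem_zpowers u)
  have hQord : ∀ u ∈ (Q : Subgroup H), ∃ k, orderOf u = q ^ k := by
    intro u hu
    obtain ⟨k, hk⟩ := Q.isPGroup' ⟨u, hu⟩
    have h1 : u ^ q ^ k = 1 := congrArg Subtype.val hk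
    obtain ⟨b, -, hb⟩ := (Nat.dvd_prime_pow hqp).1 (orderOf_dvd_of_pow_eq_one h1)
    exact ⟨b, hb⟩
  -- elements of `Q` have `q`-power class size
  have hQB : ∀ a ∈ (Q : Subgroup H), ∃ k, s a = q ^ k := by
    intro a ha
    refine ⟨_, Nat.eq_prime_pow_of_unique_prime_dvd Subgroup.index_ne_zero_of_finite ?_⟩
    intro r hr hrd
    by_contra hne
    have : Fact r.Prime := ⟨hr⟩
    obtain ⟨R⟩ : Nonempty (Sylow r H) := inferInstance
    have hle : (R : Subgroup H) ≤ Subgroup.centralizer ({a} : Set H) := by
      intro v hv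
      obtain ⟨k, hk⟩ := R.isPGroup' ⟨v, hv⟩
      have h1 : v ^ r ^ k = 1 := congrArg Subtype.val hk
      obtain ⟨b, -, hb⟩ := (Nat.dvd_prime_pow hr).1 (orderOf_dvd_of_pow_eq_one h1)
      obtain ⟨c, hc⟩ := hQord a ha
      have hcop : (orderOf v).Coprime (orderOf a) := by
        rw [hb, hc]
        exact Nat.Coprime.pow _ _ ((Nat.coprime_primes hr hqp).2 hne)
      exact mem_C.2 (commute_of_coprime hcop)
    have h2 := Subgroup.index_dvd_of_le hle
    exact R.not_dvd_index (hrd.trans h2)
  have hset : BSet q H = (T : Set H) := by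
    ext x
    constructor
    · rintro ⟨k, hk⟩
      obtain ⟨u, v, hu, hv, rfl, hu2, hv2⟩ := exists_split q x
      have hvc : v ∈ Subgroup.center H := by
        rw [← s_eq_one_iff]
        have hle : Subgroup.centralizer ({u * v} : Set H) ≤ Subgroup.centralizer ({v} : Set H) := by
          intro g hg
          have h1 : Commute g (u * v) := mem_C.1 hg
          obtain ⟨i, hi⟩ := hv
          have hi' : v = (u * v) ^ i := hi.symm
          rw [hi']
          exact mem_C.2 (h1.zpow_right i)
        have h1 : s v ∣ q ^ k := by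
          rw [← hk]
          exact Subgroup.index_dvd_of_le hle
        obtain ⟨j, -, hj⟩ := (Nat.dvd_prime_pow hqp).1 h1
        have hleQ : (Q : Subgroup H) ≤ Subgroup.centralizer ({v} : Set H) := by
          intro w hw
          obtain ⟨c, hc⟩ := hQord w hw
          have hcop : (orderOf w).Coprime (orderOf v) := by
            rw [hc]
            exact Nat.Coprime.pow_left _ hv2.symm
          exact mem_C.2 (commute_of_coprime hcop)
        have h2 := Subgroup.index_dvd_of_le hleQ
        cases j with
        | zero => simpa using hj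
        | succ j =>
          exfalso
          apply Q.not_dvd_index
          apply dvd_trans _ h2
          show q ∣ s v
          rw [hj]
          exact dvd_pow_self _ (Nat.succ_ne_zero j)
      exact Subgroup.mul_mem_sup (hQmem u hu2) hvc
    · intro hx
      have hx' : x ∈ ((Q : Subgroup H) ⊔ Z : Subgroup H) := hx
      rw [← SetLike.mem_coe, Subgroup.normal_mul] at hx'
      obtain ⟨a, ha, z, hz, rfl⟩ := Set.mem_mul.1 hx'
      have hz' : ∀ g : H, g * z = z * g := Subgroup.mem_center_iff.1 hz
      have heq : Subgroup.centralizer ({a * z} : Set H) = Subgroup.centralizer ({a} : Set H) := by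
        ext g
        rw [mem_C, mem_C]
        constructor
        · intro h
          have h3 : g * a * z = a * g * z := by
            calc g * a * z = g * (a * z) := by group
              _ = a * z * g := h
              _ = a * (z * g) := by group
              _ = a * (g * z) := by rw [hz']
              _ = a * g * z := by group
          exact mul_right_cancel h3
        · intro h
          calc g * (a * z) = (g * a) * z := by group
            _ = (a * g) * z := by rw [h]
            _ = a * (g * z) := by group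
            _ = a * (z * g) := by rw [hz']
            _ = a * z * g := by group
      obtain ⟨k, hk⟩ := hQB a ha
      exact ⟨k, by show (Subgroup.centralizer ({a * z} : Set H)).index = _; rw [heq]; exact hk⟩
  have hcardB : Nat.card (BSet q H) = Nat.card T := by
    rw [hset]
    rfl
  set r := (Q : Subgroup H).relIndex Z with hr
  have hrT : (Q : Subgroup H).relIndex T = r := Subgroup.relIndex_sup_left _ _
  have hT : Nat.card T = Nat.card (Q : Subgroup H) * r := by
    have hle : (Q : Subgroup H) ≤ T := le_sup_left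
    have h1 := Subgroup.card_mul_index ((Q : Subgroup H).subgroupOf T)
    rw [Nat.card_congr (Subgroup.subgroupOfEquivOfLe hle).toEquiv] at h1
    rw [← h1, ← hrT]
    rfl
  have hZc : Nat.card Z = Nat.card ((Q : Subgroup H).subgroupOf Z) * r :=
    (Subgroup.card_mul_index ((Q : Subgroup H).subgroupOf Z)).symm
  have hpg : IsPGroup q ((Q : Subgroup H).subgroupOf Z) := by
    intro g
    obtain ⟨k, hk⟩ := Q.isPGroup' ⟨((g : Z) : H), Subgroup.mem_subgroupOf.1 g.2⟩
    refine ⟨k, ?_⟩
    apply Subtype.ext
    apply Subtype.ext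
    have h1 : ((g : Z) : H) ^ q ^ k = 1 := congrArg Subtype.val hk
    simpa using h1
  obtain ⟨a, ha⟩ := IsPGroup.iff_card.1 hpg
  have hrq : ¬ q ∣ r := fun hd =>
    Q.not_dvd_index (hd.trans (Subgroup.relIndex_dvd_index_of_normal _ _))
  have hW : ordCompl[q] (Nat.card Z) = r := by
    rw [hZc, ha, Nat.ordCompl_mul, ordCompl_pow_self, one_mul, Nat.factorization_eq_zero_of_not_dvd hrq]
    simp
  rw [hcardB, hT, Sylow.card_eq_multiplicity]
  congr 1
  exact hW.symm

end Nilpotent

/-- Let G and H be finite groups such that for every natural number k, G and H have the same number of conjugacy classes of size k. If H is nilpotent then G is nilpotent. -/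
theorem result {G H : Type*} [Group G] [Finite G] [Group H] [Finite H]
    (hH : Group.IsNilpotent H)
    (h : ∀ k : ℕ, Nat.card {C : ConjClasses G // Nat.card C.carrier = k} = Nat.card {C : ConjClasses H // Nat.card C.carrier = k}) :
    Group.IsNilpotent G := by
  obtain ⟨E, hE⟩ := exists_equiv h
  have hcard : Nat.card G = Nat.card H := Nat.card_congr E
  have hZ : Nat.card (Subgroup.center G) = Nat.card (Subgroup.center H) := by
    apply Nat.card_congr
    refine E.subtypeEquiv (fun x => ?_)
    show x ∈ Subgroup.center G ↔ E x ∈ Subgroup.center H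
    rw [← s_eq_one_iff, ← s_eq_one_iff, hE]
  have hnorm : ∀ (q : ℕ) (_ : Fact q.Prime) (P : Sylow q G), (P : Subgroup G).Normal := by
    intro q hq P
    have hB : Nat.card (BSet q G) = Nat.card (BSet q H) := by
      apply Nat.card_congr
      refine E.subtypeEquiv (fun x => ?_)
      show (∃ k, s x = q ^ k) ↔ (∃ k, s (E x) = q ^ k)
      rw [hE]
    have hI : Nat.card (BSet q G) = ordProj[q] (Nat.card G) * ordCompl[q] (Nat.card (Subgroup.center G)) := by
      rw [hB, hcard, hZ]
      exact nilp_count hH
    obtain ⟨T, hTn, hTp, hTi⟩ := exists_normal_sylow (q := q) _ G rfl hI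
    have hS : (hTp.toSylow hTi : Subgroup G) = T := rfl
    have hnS : ((hTp.toSylow hTi : Sylow q G) : Subgroup G).Normal := by
      rw [hS]
      exact hTn
    obtain ⟨g, hg⟩ := MulAction.exists_smul_eq G (hTp.toSylow hTi) P
    rw [← hg, Sylow.smul_eq_of_normal]
    exact hnS
  exact ((Group.isNilpotent_of_finite_tfae (G := G)).out 3 0).1 (fun {p} hp P => hnorm p hp P)

end Cfsg.Agent.S4139
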