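import Cfsg.Statements.S4142
import Mathlib
-- import your own Cfsg.Agent.* helpers here

set_option autoImplicit false
open Cfsg

namespace Cfsg.Agent.S4142

theorem aux {G : Type*} [Group G] [Finite G] (N : Subgroup G) [hNn : N.Normal] (g : G) :
    (∀ n ∈ N, ∃ x : G, x * g * x⁻¹ = g * n) ↔
      Nat.card (Subgroup.centralizer ({g} : Set G)) =
        Nat.card (Subgroup.centralizer ({(QuotientGroup.mk g : G ⧸ N)} : Set (G ⧸ N))) := by
  classical
  let q : G →* G ⧸ N := QuotientGroup.mk' N
  let Cb : Subgroup (G ⧸ N) := Subgroup.centralizer ({(QuotientGroup.mk g : G ⧸ N)} : Set (G ⧸ N))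
  let A : Subgroup G := Subgroup.centralizer ({g} : Set G)
  let T : Subgroup G := Cb.comap q
  have hmemT : ∀ t : G, t ∈ T ↔ g⁻¹ * (t * g * t⁻¹) ∈ N := by
    intro t
    change q t ∈ Cb ↔ _
    rw [Subgroup.mem_centralizer_singleton_iff]
    change (t : G ⧸ N) * (g : G ⧸ N) = (g : G ⧸ N) * (t : G ⧸ N) ↔ _
    rw [← QuotientGroup.mk_mul, ← QuotientGroup.mk_mul, eq_comm, QuotientGroup.eq]
    constructor
    · intro h
      have := hNn.conj_mem _ h t
      simpa [mul_assoc] using this
    · intro h
      have := hNn.conj_mem _ h t⁻¹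
      simpa [mul_assoc] using this
  have hAT : A ≤ T := by
    intro a ha
    rw [hmemT]
    rw [Subgroup.mem_centralizer_singleton_iff] at ha
    have : a * g * a⁻¹ = g := by rw [ha]; simp
    rw [this]; simp
  have hNT : N ≤ T := by
    intro n hn
    rw [hmemT]
    have h1 := hNn.conj_mem _ (N.inv_mem hn) g⁻¹
    have : g⁻¹ * (n * g * n⁻¹) = (g⁻¹ * n * g) * n⁻¹ := by group
    rw [this]
    refine N.mul_mem ?_ (N.inv_mem hn)
    have h2 := hNn.conj_mem _ hn g⁻¹
    simpa using h2
  have hcardT : Nat.card T = Nat.card Cb * Nat.card N := by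
    have hsurj : Function.Surjective (q.subgroupMap T) := MonoidHom.subgroupMap_surjective q T
    have h := Subgroup.card_eq_card_quotient_mul_card_subgroup (q.subgroupMap T).ker
    have hmap : T.map q = Cb := Subgroup.map_comap_eq_self_of_surjective (QuotientGroup.mk'_surjective N) Cb
    have h3 : Nat.card (T ⧸ (q.subgroupMap T).ker) = Nat.card Cb := by
      rw [← hmap]
      exact Nat.card_congr (QuotientGroup.quotientKerEquivOfSurjective _ hsurj).toEquiv
    have h4 : Nat.card (q.subgroupMap T).ker = Nat.card N := by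
      have : (q.subgroupMap T).ker = N.subgroupOf T := by
        ext d
        simp only [MonoidHom.mem_ker, Subgroup.mem_subgroupOf]
        constructor
        · intro hd
          have h5 : q (d : G) = 1 := congrArg Subtype.val hd
          exact (QuotientGroup.eq_one_iff _).1 h5
        · intro hd
          apply Subtype.ext
          exact (QuotientGroup.eq_one_iff _).2 hd
      rw [this]
      exact Nat.card_congr (Subgroup.subgroupOfEquivOfLe hNT).toEquiv
    rw [h, h3, h4]
  -- the map φ
  let φ0 : T → N := fun t => ⟨g⁻¹ * ((t : G) * g * (t : G)⁻¹), (hmemT t).1 t.2⟩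
  have hφ0 : ∀ s t : T, φ0 s = φ0 t ↔ (s : G)⁻¹ * (t : G) ∈ A := by
    intro s t
    simp only [φ0, Subtype.mk.injEq, mul_right_inj]
    rw [Subgroup.mem_centralizer_singleton_iff]
    constructor
    · intro h
      have : (t : G)⁻¹ * ((s : G) * g * (s : G)⁻¹) * (t : G) = g := by rw [h]; group
      have h2 : ((s : G)⁻¹ * t) * g = g * ((s : G)⁻¹ * t) := by
        calc ((s : G)⁻¹ * t) * g = (s : G)⁻¹ * ((t : G) * g * (t : G)⁻¹) * t := by group
          _ = (s : G)⁻¹ * ((s : G) * g * (s : G)⁻¹) * t := by rw [h]
          _ = _ := by group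
      exact h2
    · intro h
      have h2 : (s : G) * g * (s : G)⁻¹ = (s : G) * (((s : G)⁻¹ * t) * g * ((s : G)⁻¹ * t)⁻¹) * (s : G)⁻¹ := by
        rw [h]; group
      rw [h2]; group
  let f : T ⧸ A.subgroupOf T → N := fun w => φ0 (Quotient.out w)
  have hf_mk : ∀ t : T, f (t : T ⧸ A.subgroupOf T) = φ0 t := by
    intro t
    change φ0 (Quotient.out (t : T ⧸ A.subgroupOf T)) = φ0 t
    rw [hφ0]
    have h := QuotientGroup.eq.1 (QuotientGroup.out_eq' (t : T ⧸ A.subgroupOf T))
    exact h
  have hf_inj : Function.Injective f := by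
    intro x y hxy
    induction x using QuotientGroup.induction_on with
    | H s =>
    induction y using QuotientGroup.induction_on with
    | H t =>
    rw [hf_mk, hf_mk, hφ0] at hxy
    exact QuotientGroup.eq.2 hxy
  have hcardA' : Nat.card (A.subgroupOf T) = Nat.card A :=
    Nat.card_congr (Subgroup.subgroupOfEquivOfLe hAT).toEquiv
  have hquot : Nat.card (T ⧸ A.subgroupOf T) * Nat.card A = Nat.card T := by
    rw [← hcardA']
    exact (Subgroup.card_eq_card_quotient_mul_card_subgroup _).symm
  have hNpos : 0 < Nat.card N := Nat.card_pos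
  have hApos : 0 < Nat.card A := Nat.card_pos
  constructor
  · intro h
    have hsurj : Function.Surjective f := by
      intro n
      obtain ⟨x, hx⟩ := h n n.2
      have hxT : x ∈ T := by
        rw [hmemT, hx]; simpa using n.2
      refine ⟨((⟨x, hxT⟩ : T) : T ⧸ A.subgroupOf T), ?_⟩
      rw [hf_mk]
      apply Subtype.ext
      simp only [φ0]
      rw [hx]; group
    have hc : Nat.card (T ⧸ A.subgroupOf T) = Nat.card N := Nat.card_congr (Equiv.ofBijective f ⟨hf_inj, hsurj⟩)
    rw [hc, hcardT] at hquot
    have : Nat.card N * Nat.card A = Nat.card N * Nat.card Cb := by rw [hquot]; ring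
    exact Nat.eq_of_mul_eq_mul_left hNpos this
  · intro h n hn
    have hc : Nat.card (T ⧸ A.subgroupOf T) = Nat.card N := by
      have : Nat.card (T ⧸ A.subgroupOf T) * Nat.card A = Nat.card N * Nat.card A := by
        rw [hquot, hcardT]
        change _ = Nat.card N * Nat.card (Subgroup.centralizer ({g} : Set G))
        rw [h]; ring
      exact Nat.eq_of_mul_eq_mul_right hApos this
    have hsurj : Function.Surjective f := by
      have hb := (Nat.bijective_iff_injective_and_card f).2 ⟨hf_inj, hc⟩
      exact hb.2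
    obtain ⟨w, hw⟩ := hsurj ⟨n, hn⟩
    induction w using QuotientGroup.induction_on with
    | H t =>
    rw [hf_mk] at hw
    have hw2 : g⁻¹ * ((t : G) * g * (t : G)⁻¹) = n := congrArg Subtype.val hw
    refine ⟨t, ?_⟩
    rw [← hw2]; group

/-- Let G be a finite group and N a normal subgroup. Then the conjugacy class of every element g outside N is a union of cosets of N (gn is conjugate to g for all n ∈ N) if and only if for every g outside N the centralizer of g in G has the same order as the centralizer of gN in G/N. -/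
theorem result {G : Type*} [Group G] [Finite G] (N : Subgroup G) [N.Normal] :
    (∀ g : G, g ∉ N → ∀ n ∈ N, ∃ x : G, x * g * x⁻¹ = g * n) ↔
      ∀ g : G, g ∉ N → Nat.card (Subgroup.centralizer ({g} : Set G)) =
        Nat.card (Subgroup.centralizer ({(QuotientGroup.mk g : G ⧸ N)} : Set (G ⧸ N))) := by
  constructor
  · intro h g hg
    exact (aux N g).1 (h g hg)
  · intro h g hg
    exact (aux N g).2 (h g hg)

end Cfsg.Agent.S4142
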