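import Cfsg.Statements.S4144
import Cfsg.Agent.Lib.FGStruct.MCEngel
-- import your own Cfsg.Agent.* helpers here

set_option autoImplicit false
set_option linter.unusedSectionVars false
open Cfsg

namespace Cfsg.Agent.S4144


open Subgroup Cfsg.Agent.Lib.FG7.HallPetrescu Cfsg.Agent.Lib.PGroups.UniformShift
open Cfsg.Agent.Lib.PGroups.MaxAbelian Cfsg.Agent.Lib.FGStruct.UnifZ
open Cfsg.Agent.Lib.FGStruct.MCBlack
open scoped commutatorElement

section Count

variable {G : Type*} [Group G] [Finite G] {p : ℕ} [hp : Fact p.Prime] {n : ℕ}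

local notation "Φ" => lcsF G

theorem card_inf_step (h : MC p n G) (K : Subgroup G) {l : ℕ} (hl : 2 ≤ l) :
    Nat.card (K ⊓ Φ l : Subgroup G) ≤ p * Nat.card (K ⊓ Φ (l + 1) : Subgroup G) := by
  have hpp := hp.out
  rcases Nat.lt_or_ge l n with hln | hln
  · set A : Subgroup G := K ⊓ Φ l with hA
    have hAle : A ≤ Φ l := inf_le_right
    have e1 : Φ (l + 1) ⊓ A = K ⊓ Φ (l + 1) := by
      ext x
      simp only [mem_inf, hA]
      constructor
      · rintro ⟨h1, h2, -⟩
        exact ⟨h2, h1⟩
      · rintro ⟨h1, h2⟩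
        exact ⟨h2, h1, lcsF_anti l h2⟩
    have h1 := relIndex_mul_card (inf_le_right : Φ (l + 1) ⊓ A ≤ A)
    rw [Subgroup.inf_relIndex_right, e1] at h1
    have h2 : (Φ (l + 1)).relIndex A ≤ p := by
      rw [← h.relIndex hl hln, ← card_map_mk_eq_relIndex, ← card_map_mk_eq_relIndex]
      exact Subgroup.card_le_of_le (Subgroup.map_mono hAle)
    rw [← h1]
    exact Nat.mul_le_mul_right _ h2
  · have e1 : Φ l = ⊥ := by
      have : Φ l ≤ Φ n := Phi_anti hln
      rw [h.bot] at this
      exact le_bot_iff.1 this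
    rw [e1, inf_bot_eq]
    simp only [Subgroup.card_bot, mul_one]
    have : 0 < Nat.card (K ⊓ Φ (l + 1) : Subgroup G) := Nat.card_pos
    nlinarith [hpp.two_le]

theorem card_Phi_le (h : MC p n G) {l : ℕ} (hl : 2 ≤ l) (hln : n ≤ l + p - 1) : Nat.card (Φ l) ≤ p ^ (p - 1) := by
  have hpp := hp.out
  rcases Nat.le_or_ge l n with hle | hge
  · rw [h.card_Phi hl hle]
    exact Nat.pow_le_pow_right hpp.pos (by omega)
  · have e1 : Φ l = ⊥ := by
      have : Φ l ≤ Φ n := Phi_anti hge
      rw [h.bot] at this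
      exact le_bot_iff.1 this
    rw [e1, Subgroup.card_bot]
    exact Nat.one_le_pow _ _ hpp.pos

theorem card_inf_le (h : MC p n G) {s : G} (u : Unif p s) (K U : Subgroup G) (hKU : ∀ x ∈ K, x ^ p ∈ U) :
    ∀ m l, 2 ≤ l → n ≤ l + p - 1 + m →
      Nat.card (K ⊓ Φ l : Subgroup G) ≤ p ^ (p - 1) * Nat.card (U ⊓ Φ (l + p - 1) : Subgroup G) := by
  have hpp := hp.out
  have hp2 := hpp.two_le
  have base : ∀ l, 2 ≤ l → n ≤ l + p - 1 →
      Nat.card (K ⊓ Φ l : Subgroup G) ≤ p ^ (p - 1) * Nat.card (U ⊓ Φ (l + p - 1) : Subgroup G) := by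
    intro l hl hn
    have h1 : Nat.card (K ⊓ Φ l : Subgroup G) ≤ Nat.card (Φ l) := Subgroup.card_le_of_le inf_le_right
    have h2 := card_Phi_le h hl hn
    have h3 : 0 < Nat.card (U ⊓ Φ (l + p - 1) : Subgroup G) := Nat.card_pos
    calc _ ≤ p ^ (p - 1) := h1.trans h2
      _ = p ^ (p - 1) * 1 := (mul_one _).symm
      _ ≤ _ := Nat.mul_le_mul_left _ h3
  intro m
  induction m with
  | zero =>
    intro l hl hn
    exact base l hl (by omega)
  | succ m ih =>
    intro l hl hn
    by_cases hn2 : n ≤ l + p - 1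
    · exact base l hl hn2
    have ih1 := ih (l + 1) (by omega) (by omega)
    rw [show l + 1 + p - 1 = l + p by omega] at ih1
    have hmono : U ⊓ Φ (l + p) ≤ U ⊓ Φ (l + p - 1) :=
      inf_le_inf_left _ (Phi_anti (by omega))
    by_cases hx : ∃ x ∈ K ⊓ Φ l, x ∉ Φ (l + 1)
    · obtain ⟨x, hxK, hxn⟩ := hx
      have hW : W l x := ⟨hxK.2, hxn⟩
      have hne : Φ (l + (p - 1)) ≠ ⊥ := h.ne_bot (by omega)
      have hWp := W.pow u h.bot hW hl hne
      rw [show l + (p - 1) = l + p - 1 by omega] at hWp
      have hlt : U ⊓ Φ (l + p) < U ⊓ Φ (l + p - 1) := by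
        refine lt_of_le_of_ne hmono ?_
        intro e
        have h1 : x ^ p ∈ U ⊓ Φ (l + p - 1) := ⟨hKU x hxK.1, hWp.1⟩
        rw [← e] at h1
        apply hWp.2
        rw [show l + p - 1 + 1 = l + p by omega]
        exact h1.2
      have c1 := mul_card_le_of_lt (h.hG) hlt
      have c2 := card_inf_step h K hl
      calc _ ≤ _ := c2
        _ ≤ p * (p ^ (p - 1) * Nat.card (U ⊓ Φ (l + p) : Subgroup G)) := Nat.mul_le_mul_left _ ih1
        _ = p ^ (p - 1) * (p * Nat.card (U ⊓ Φ (l + p) : Subgroup G)) := by ring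
        _ ≤ _ := Nat.mul_le_mul_left _ c1
    · push Not at hx
      have c1 : Nat.card (K ⊓ Φ l : Subgroup G) ≤ Nat.card (K ⊓ Φ (l + 1) : Subgroup G) :=
        Subgroup.card_le_of_le (fun x hx' => ⟨hx'.1, hx x hx'⟩)
      calc _ ≤ _ := c1
        _ ≤ _ := ih1
        _ ≤ _ := Nat.mul_le_mul_left _ (Subgroup.card_le_of_le hmono)

/-- A normal subgroup containing an element of weight `e` contains `Φ e`. -/
theorem normal_contains (h : MC p n G) (U : Subgroup G) [hU : U.Normal] :
    ∀ m e, n ≤ e + m → 2 ≤ e → ∀ u ∈ U, W e u → Φ e ≤ U := by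
  intro m
  induction m with
  | zero =>
    intro e he _ u _ hW
    exfalso
    apply hW.ne_bot
    have : Φ e ≤ Φ n := Phi_anti (by omega)
    rw [h.bot] at this
    exact le_bot_iff.1 this
  | succ m ih =>
    intro e he he2 u hu hW
    rcases Nat.lt_or_ge e n with hen | hen
    · have hnext : Φ (e + 1) ≤ U := by
        by_cases h2 : e + 2 ≤ n
        · have hne := h.Mj_ne_top he2 h2
          obtain ⟨t, ht⟩ : ∃ t : G, t ∉ Mj (G := G) e := by
            by_contra hcon
            push Not at hcon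
            exact hne (eq_top_iff.2 fun x _ => hcon x)
          rw [h.mem_Mj_iff he2 hen hW] at ht
          have hv : D t u ∈ U := U.mul_mem (U.inv_mem hu) (hU.conj_mem u hu t)
          exact ih (e + 1) (by omega) (by omega) _ hv ⟨Phi_D t e u hW.1, ht⟩
        · have : e + 1 = n := by omega
          rw [this, h.bot]
          exact bot_le
      intro x hx
      obtain ⟨c, hc⟩ := h.exists_pow he2 hen hW hx
      have h1 := U.mul_mem (hnext hc) (U.pow_mem hu c)
      simpa using h1
    · exfalso
      apply hW.ne_bot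
      have : Φ e ≤ Φ n := Phi_anti hen
      rw [h.bot] at this
      exact le_bot_iff.1 this

theorem of_class (hX : Nat.card G = p ^ n) (hmax : Group.nilpotencyClass G = n - 1) (h3 : 3 ≤ n) : MC p n G := by
  have hPG : IsPGroup p G := IsPGroup.of_card hX
  have hnil : Group.IsNilpotent G := hPG.isNilpotent
  have hbot : ∀ k, (⊤ : Subgroup G).lowerCentralSeries k = ⊥ ↔ n - 1 ≤ k := by
    intro k
    rw [Subgroup.lowerCentralSeries_eq_bot_iff_nilpotencyClass_le, hmax]
  refine ⟨hX, h3, ?_, ?_⟩
  · obtain ⟨k, rfl⟩ : ∃ k, n = k + 1 := ⟨n - 1, by omega⟩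
    exact (hbot k).2 (by omega)
  · obtain ⟨k, rfl⟩ : ∃ k, n = k + 2 := ⟨n - 2, by omega⟩
    have : ¬ (⊤ : Subgroup G).lowerCentralSeries k = ⊥ := by
      rw [hbot]
      omega
    exact this

end Count



/-- Let X be a finite p-group of order p^n, n ≥ 2, of nilpotency class n − 1 (maximal class), and H any subgroup of X. Then the index in H of the subgroup generated by the p-th powers of elements of H is at most p^p. -/
theorem result {X : Type*} [Group X] [Finite X] {p : ℕ} [Fact p.Prime] (n : ℕ) (hn : 2 ≤ n) (hX : Nat.card X = p ^ n)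
    (hmax : Group.nilpotencyClass X = n - 1) (H : Subgroup X) :
    (Subgroup.closure {y : X | ∃ h ∈ H, y = h ^ p}).relIndex H ≤ p ^ p := by
  classical
  have hpp : p.Prime := Fact.out
  have hp2 := hpp.two_le
  set U : Subgroup X := Subgroup.closure {y : X | ∃ h ∈ H, y = h ^ p} with hU
  have hUH : U ≤ H := by
    rw [hU, Subgroup.closure_le]
    rintro _ ⟨h, hh, rfl⟩
    exact H.pow_mem hh p
  have hrel := relIndex_mul_card hUH
  have hUpos : 0 < Nat.card U := Nat.card_pos
  have hpow : ∀ x ∈ H, x ^ p ∈ U := fun x hx => Subgroup.subset_closure ⟨x, hx, rfl⟩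
  rcases Nat.lt_or_ge p n with hpn | hnp
  · -- the main case
    have h3 : 3 ≤ n := by omega
    have h := of_class hX hmax h3
    obtain ⟨s, u⟩ := MC.exists_unif (p := p) n h3 X h
    by_cases htop : H = ⊤
    · -- the whole group
      subst htop
      rw [Subgroup.relIndex_top_right]
      obtain ⟨g, hg⟩ := h.exists_pow_not_mem (by omega)
      have hgU : g ^ p ∈ U := hpow g (mem_top g)
      have hUn : U.Normal := by
        constructor
        intro x hx t
        induction hx using Subgroup.closure_induction with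
        | mem y hy =>
          obtain ⟨a, -, rfl⟩ := hy
          rw [← conj_pow]
          exact hpow _ (mem_top _)
        | one =>
          simp
        | mul a b _ _ ha hb =>
          have e : t * (a * b) * t⁻¹ = (t * a * t⁻¹) * (t * b * t⁻¹) := by group
          rw [e]
          exact U.mul_mem ha hb
        | inv a _ ha =>
          have e : t * a⁻¹ * t⁻¹ = (t * a * t⁻¹)⁻¹ := by group
          rw [e]
          exact U.inv_mem ha
      have hne1 : g ^ p ≠ 1 := by
        intro he
        apply hg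
        rw [he]
        exact one_mem _
      obtain ⟨e, he, hW⟩ := exists_W_of_bot h.bot (h.pow_mem g) hne1
      have hep : e ≤ p := by
        by_contra hcon
        exact hg (Phi_anti (by omega) hW.1)
      have hle := normal_contains h U n e (by omega) he _ hgU hW
      have hen : e ≤ n := by omega
      have hidx : (lcsF X e).index = p ^ e := by
        have h1 := (lcsF X e).card_mul_index
        rw [h.card_Phi he hen, hX] at h1
        have e1 : n = (n - e) + e := by omega
        nth_rewrite 2 [e1] at h1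
        rw [pow_add] at h1
        exact Nat.eq_of_mul_eq_mul_left (pow_pos hpp.pos _) h1
      have hdvd : U.index ∣ p ^ e := hidx ▸ Subgroup.index_dvd_of_le hle
      calc U.index ≤ p ^ e := Nat.le_of_dvd (pow_pos hpp.pos _) hdvd
        _ ≤ p ^ p := Nat.pow_le_pow_right hpp.pos hep
    · -- proper subgroups
      have hPG := h.hG
      have hsup : H ⊔ lcsF X 2 ≠ ⊤ := fun hT => htop (eq_top_of_sup hPG hT)
      have hr : (lcsF X 2).relIndex H ≤ p := by
        rw [← Subgroup.relIndex_sup_right]
        have c1 := mul_card_le_of_lt hPG (lt_top_iff_ne_top.2 hsup)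
        rw [Subgroup.card_top, h.card_eq] at c1
        have c2 := relIndex_mul_card (le_sup_right : lcsF X 2 ≤ H ⊔ lcsF X 2)
        have c3 : p * ((lcsF X 2).relIndex (H ⊔ lcsF X 2) * Nat.card (lcsF X 2)) ≤ p * (p * Nat.card (lcsF X 2)) := by
          rw [c2]
          calc _ ≤ _ := c1
            _ = _ := by ring
        have c4 := Nat.le_of_mul_le_mul_left c3 hpp.pos
        exact Nat.le_of_mul_le_mul_right c4 Nat.card_pos
      have c1 := relIndex_mul_card (inf_le_left : H ⊓ lcsF X 2 ≤ H)
      have c2 : (H ⊓ lcsF X 2).relIndex H = (lcsF X 2).relIndex H := by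
        rw [inf_comm, Subgroup.inf_relIndex_right]
      rw [c2] at c1
      have c3 := card_inf_le h u H U hpow n 2 le_rfl (by omega)
      have c4 : Nat.card (U ⊓ lcsF X (2 + p - 1) : Subgroup X) ≤ Nat.card U := Subgroup.card_le_of_le inf_le_left
      have c5 : U.relIndex H * Nat.card U ≤ p ^ p * Nat.card U := by
        rw [hrel, ← c1]
        calc _ ≤ p * Nat.card (H ⊓ lcsF X 2 : Subgroup X) := Nat.mul_le_mul_right _ hr
          _ ≤ p * (p ^ (p - 1) * Nat.card U) := Nat.mul_le_mul_left _ (c3.trans (Nat.mul_le_mul_left _ c4))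
          _ = p ^ p * Nat.card U := by
            rw [← mul_assoc, ← pow_succ', show p - 1 + 1 = p by omega]
      exact Nat.le_of_mul_le_mul_right c5 hUpos
  · -- small groups
    have h1 : U.relIndex H ≤ Nat.card H := by
      rw [← hrel]
      exact Nat.le_mul_of_pos_right _ hUpos
    calc _ ≤ _ := h1
      _ ≤ Nat.card X := Subgroup.card_le_card_group H
      _ = p ^ n := hX
      _ ≤ p ^ p := Nat.pow_le_pow_right hpp.pos hnp

end Cfsg.Agent.S4144
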