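import Cfsg.Statements.S4146
import Mathlib
import Cfsg.Agent.Lib.FGStruct.NMBasic
import Cfsg.Agent.Lib.FGStruct.NMPart1
import Cfsg.Agent.Lib.FGStruct.NMCaseN
import Cfsg.Agent.Lib.FGStruct.NMCaseP
-- import your own Cfsg.Agent.* helpers here

set_option autoImplicit false
open Cfsg

namespace Cfsg.Agent.S4146

open Subgroup
open Cfsg.Agent.Lib.ClassGraph.Basic (cs)
open Cfsg.Agent.Lib.FGStruct.NMBasic
open Cfsg.Agent.Lib.FGStruct.NMPart1 (part1)
open Cfsg.Agent.Lib.FGStruct.NMCaseN (NoGood caseN)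
open Cfsg.Agent.Lib.FGStruct.NMCaseP (caseP)


/-- Let G be a finite group whose conjugacy class sizes are exactly 1, n, m and nm for coprime integers n, m > 1. Then G is nilpotent and n and m are prime powers. -/
theorem result {G : Type*} [Group G] [Finite G] (n m : ℕ) (hn : 1 < n) (hm : 1 < m) (hcop : n.Coprime m)
    (h : Set.range (fun x : G => (Subgroup.centralizer ({x} : Set G)).index) = ({1, n, m, n * m} : Set ℕ)) :
    Group.IsNilpotent G ∧ IsPrimePow n ∧ IsPrimePow m := by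
  have H : Hyp G n m := ⟨hn, hm, hcop, fun g => by
    have h1 : (centralizer ({g} : Set G)).index ∈ ({1, n, m, n * m} : Set ℕ) := h ▸ ⟨g, rfl⟩
    simpa using h1⟩
  have hex : ∀ k ∈ ({1, n, m, n * m} : Set ℕ), ∃ x : G, cs x = k := by
    intro k hk
    rw [← h] at hk
    exact hk
  obtain ⟨x₀, hx₀⟩ := hex n (by simp)
  obtain ⟨y₀, hy₀⟩ := hex m (by simp)
  obtain ⟨w, hw⟩ := hex (n * m) (by simp)
  by_cases hg1 : ∃ (r : ℕ) (y : G), r.Prime ∧ PE r y ∧ cs y = m ∧ ¬ r ∣ n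
  · obtain ⟨r, y, hr, hy, hcy, hrn⟩ := hg1
    exact part1 H hr hy hcy hrn hx₀
  by_cases hg2 : ∃ (r : ℕ) (x : G), r.Prime ∧ PE r x ∧ cs x = n ∧ ¬ r ∣ m
  · obtain ⟨r, x, hr, hx, hcx, hrm⟩ := hg2
    have := part1 H.symm hr hx hcx hrm hy₀
    exact ⟨this.1, this.2.2, this.2.1⟩
  exfalso
  have NG : NoGood G n m :=
    ⟨fun p y hp hy hcy => by
      by_contra hd
      exact hg1 ⟨p, y, hp, hy, hcy, hd⟩,
     fun p x hp hx hcx => by
      by_contra hd
      exact hg2 ⟨p, x, hp, hx, hcx, hd⟩⟩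
  by_cases hall : ∀ x y : G, cs x = n → cs y = m → Commute x y
  · exact caseP H NG hall hx₀ hy₀
  push Not at hall
  obtain ⟨x, y, hx, hy, hnc⟩ := hall
  have hne : n ≠ m := by
    rintro rfl
    rw [Nat.coprime_self] at hcop
    omega
  rcases lt_or_gt_of_ne hne with hlt | hlt
  · exact caseN H NG hlt hx hy hnc hw
  · exact caseN H.symm NG.symm hlt hy hx (fun hc => hnc hc.symm) (by rw [hw, mul_comm])

end Cfsg.Agent.S4146
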