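import Cfsg.Statements.S4149
import Cfsg.Agent.Lib.ClassGraph.Density

set_option autoImplicit false
open Cfsg

namespace Cfsg.Agent.S4149

/-- Let G be a finite group that has a normal p-complement for at most one prime p dividing its order, and let σ be a natural number such that every conjugacy class size of G has at most σ distinct prime divisors. Then the number of primes dividing at least one conjugacy class size of G is at most 2σ. -/
theorem result {G : Type*} [Group G] [Finite G] (σ : ℕ)
    (hσ : ∀ x : G, ((Subgroup.centralizer ({x} : Set G)).index).primeFactors.card ≤ σ)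
    (hnil : ∀ p q : ℕ, p.Prime → q.Prime → p ∣ Nat.card G → q ∣ Nat.card G →
      Cfsg.HasNormalPComplement p G → Cfsg.HasNormalPComplement q G → p = q) :
    Nat.card {p : ℕ | p.Prime ∧ ∃ x : G, p ∣ (Subgroup.centralizer ({x} : Set G)).index} ≤ 2 * σ := by
  rw [Cfsg.Agent.Lib.ClassGraph.Density.card_vertices_set]
  exact Cfsg.Agent.Lib.ClassGraph.Density.card_vertices_le σ hσ hnil

end Cfsg.Agent.S4149
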