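import Cfsg.Statements.S4150
import Cfsg.Agent.Lib.AltTwoPrimes.SixCase

set_option autoImplicit false
open Cfsg

namespace Cfsg.Agent.S4150

/-- Let m ≥ 5. Then there are primes p < q with m/2 ≤ p and q ≤ m such that any two elements x, y of the alternating group of degree m with x of order p and y of order q generate a subgroup isomorphic to an alternating group of some degree d ≥ 5. -/
theorem result (m : ℕ) (hm : 5 ≤ m) :
    ∃ p q : ℕ, p.Prime ∧ q.Prime ∧ m ≤ 2 * p ∧ p < q ∧ q ≤ m ∧
      ∀ x y : alternatingGroup (Fin m), orderOf x = p → orderOf y = q →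
        ∃ d : ℕ, 5 ≤ d ∧ Nonempty (Subgroup.closure ({x, y} : Set (alternatingGroup (Fin m))) ≃* alternatingGroup (Fin d)) := by
  classical
  have hreduce : ∀ (p q : ℕ), (∀ x y : Equiv.Perm (Fin m), orderOf x = p → orderOf y = q →
      ∃ d : ℕ, 5 ≤ d ∧ Nonempty (Subgroup.closure ({x, y} : Set (Equiv.Perm (Fin m))) ≃* alternatingGroup (Fin d))) →
      ∀ x y : alternatingGroup (Fin m), orderOf x = p → orderOf y = q →
        ∃ d : ℕ, 5 ≤ d ∧ Nonempty (Subgroup.closure ({x, y} : Set (alternatingGroup (Fin m))) ≃* alternatingGroup (Fin d)) := by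
    intro p q h x y hx hy
    obtain ⟨d, hd, ⟨e⟩⟩ := h x y (by rw [Subgroup.orderOf_coe]; exact hx) (by rw [Subgroup.orderOf_coe]; exact hy)
    obtain ⟨e'⟩ := Lib.AltTwoPrimes.Core.closure_alt_iso x y
    exact ⟨d, hd, ⟨e'.trans e⟩⟩
  have hcardm : Fintype.card (Fin m) = m := Fintype.card_fin m
  have hsx : ∀ x y : Equiv.Perm (Fin m), x.support.card ≤ (Lib.AltTwoPrimes.Core.Dl x y).card :=
    Lib.AltTwoPrimes.Main.card_Dl_ge'
  have hdm : ∀ x y : Equiv.Perm (Fin m), (Lib.AltTwoPrimes.Core.Dl x y).card ≤ m := fun x y => by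
    have := Lib.AltTwoPrimes.Main.card_Dl_le x y
    rwa [hcardm] at this
  have mkH : ∀ (x y : Equiv.Perm (Fin m)) (p q : ℕ), p.Prime → q.Prime → 3 ≤ p → p < q → m ≤ 2 * p →
      orderOf x = p → orderOf y = q → Lib.AltTwoPrimes.Main.Hyp x y p q := by
    intro x y p q hp hq hp3 hpq hm2 hx hy
    exact ⟨hp, hq, hp3, hpq, hx, hy, by rw [hcardm]; exact hm2⟩
  by_cases h5 : m = 5
  · subst h5
    refine ⟨3, 5, by norm_num, by norm_num, by norm_num, by norm_num, by norm_num, hreduce 3 5 ?_⟩
    intro x y hx hy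
    have H := mkH x y 3 5 (by norm_num) (by norm_num) (by norm_num) (by norm_num) (by norm_num) hx hy
    refine H.concl (H.alt_three rfl ?_) (by norm_num)
    have := hsx x y; have := hdm x y; omega
  by_cases h6 : m = 6
  · subst h6
    refine ⟨3, 5, by norm_num, by norm_num, by norm_num, by norm_num, by norm_num, hreduce 3 5 ?_⟩
    intro x y hx hy
    have H := mkH x y 3 5 (by norm_num) (by norm_num) (by norm_num) (by norm_num) (by norm_num) hx hy
    by_cases hs : x.support.card < 6
    · exact H.concl (H.alt_three rfl hs) (by norm_num)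
    · have hs6 : x.support.card = 6 := by
        have := hsx x y; have := hdm x y; omega
      obtain ⟨β, hβ⟩ := Lib.AltTwoPrimes.SixCase.exists_aut_three x hx hs6
      have hx₁ : orderOf (β x) = 3 := by rw [β.orderOf_eq]; exact hx
      have hy₁ : orderOf (β y) = 5 := by rw [β.orderOf_eq]; exact hy
      have H₁ := mkH (β x) (β y) 3 5 (by norm_num) (by norm_num) (by norm_num) (by norm_num) (by norm_num) hx₁ hy₁
      have hs₁ : (β x).support.card < 6 := by
        rw [← card_support_eq_three_iff] at hβ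
        omega
      obtain ⟨d, hd, ⟨e⟩⟩ := H₁.concl (H₁.alt_three rfl hs₁) (by norm_num)
      refine ⟨d, hd, ⟨MulEquiv.trans ?_ e⟩⟩
      have hmap : (Subgroup.closure ({x, y} : Set (Equiv.Perm (Fin 6)))).map β.toMonoidHom
          = Subgroup.closure ({β x, β y} : Set (Equiv.Perm (Fin 6))) := by
        rw [MonoidHom.map_closure, Set.image_pair]
        rfl
      exact (β.subgroupMap _).trans (MulEquiv.subgroupCongr hmap)
  by_cases h10 : m ≤ 10
  · refine ⟨5, 7, by norm_num, by norm_num, by omega, by norm_num, by omega, hreduce 5 7 ?_⟩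
    intro x y hx hy
    have H := mkH x y 5 7 (by norm_num) (by norm_num) (by norm_num) (by norm_num) (by omega) hx hy
    have hd1 := H.d_ge
    have hd2 := hdm x y
    have hd3 := hsx x y
    refine H.concl ?_ (by norm_num)
    by_cases h1 : (Lib.AltTwoPrimes.Core.Dl x y).card = 10
    · exact H.alt_y (by omega)
    by_cases h2 : (Lib.AltTwoPrimes.Core.Dl x y).card = 7
    · exact H.alt_five rfl rfl h2
    · exact H.alt_x (by omega) (by omega)
  by_cases h14 : m ≤ 14
  · refine ⟨7, 11, by norm_num, by norm_num, by omega, by norm_num, by omega, hreduce 7 11 ?_⟩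
    intro x y hx hy
    have H := mkH x y 7 11 (by norm_num) (by norm_num) (by norm_num) (by norm_num) (by omega) hx hy
    have hd1 := H.d_ge
    have hd2 := hdm x y
    have hd3 := hsx x y
    refine H.concl ?_ (by norm_num)
    by_cases h1 : (Lib.AltTwoPrimes.Core.Dl x y).card = 14
    · exact H.alt_y (by omega)
    · exact H.alt_x (by omega) (by omega)
  by_cases h16 : m ≤ 16
  · refine ⟨11, 13, by norm_num, by norm_num, by omega, by norm_num, by omega, hreduce 11 13 ?_⟩
    intro x y hx hy
    have H := mkH x y 11 13 (by norm_num) (by norm_num) (by norm_num) (by norm_num) (by omega) hx hy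
    have hd1 := H.d_ge
    have hd2 := hdm x y
    have hd3 := hsx x y
    refine H.concl ?_ (by norm_num)
    by_cases h2 : (Lib.AltTwoPrimes.Core.Dl x y).card = 13
    · exact H.alt_eleven rfl rfl h2
    · exact H.alt_x (by omega) (by omega)
  · obtain ⟨p, q, hp, hq, hm2, hpq, hqm⟩ := Lib.AltTwoPrimes.Primes.exists_pair m (by omega)
    have hp3 : 3 ≤ p := by omega
    refine ⟨p, q, hp, hq, hm2.le, by omega, hqm, hreduce p q ?_⟩
    intro x y hx hy
    have H := mkH x y p q hp hq hp3 (by omega) hm2.le hx hy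
    have hd1 := H.d_ge
    have hd2 := hdm x y
    have hd3 := hsx x y
    exact H.concl (H.alt_x (by omega) (by omega)) (by omega)

end Cfsg.Agent.S4150
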