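import Mathlib
import Cfsg.Statements.S4151
import Cfsg.Agent.S4118

set_option autoImplicit false
set_option linter.all false
open Cfsg

namespace Cfsg.Agent.S4151

open Subgroup Cfsg.Agent.Lib.Coprime.SchurZassenhaus Cfsg.Agent.Lib.Coprime.Action
open Cfsg.Agent.S4118
open scoped Pointwise commutatorElement

section Abstract

variable {T Q : Type*} [Group T] [Group Q] [Finite T] [Finite Q] (α : Q →* MulAut T)

/-- The norm map: when `T` is generated by the elements `t⁻¹ α_q(t)`, fixed points lie in `T'`. -/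
theorem mem_commutator_of_fixed
    (hgen : ∀ C : Subgroup T, (∀ (t : T) (q : Q), t⁻¹ * α q t ∈ C) → C = ⊤)
    (hc : (Nat.card Q).Coprime (Nat.card T)) (y : T) (hy : ∀ q, α q y = y) :
    y ∈ commutator T := by
  classical
  haveI := Fintype.ofFinite Q
  let ν : T →* Abelianization T :=
    { toFun := fun x => ∏ q : Q, Abelianization.of (α q x)
      map_one' := by simp
      map_mul' := fun a b => by simp [Finset.prod_mul_distrib] }
  have hν : ∀ (t : T) (q₀ : Q), ν (α q₀ t) = ν t := by
    intro t q₀
    show ∏ q : Q, Abelianization.of (α q (α q₀ t)) = ∏ q : Q, Abelianization.of (α q t)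
    apply Fintype.prod_equiv (Equiv.mulRight q₀)
    intro q
    simp [map_mul]
  have hker : ν.ker = ⊤ := by
    apply hgen
    intro t q
    rw [MonoidHom.mem_ker, map_mul, map_inv, hν, inv_mul_cancel]
  have h1 : ν y = 1 := by
    rw [← MonoidHom.mem_ker, hker]; trivial
  have h2 : ν y = Abelianization.of y ^ Nat.card Q := by
    show ∏ q : Q, Abelianization.of (α q y) = _
    simp [hy, Finset.prod_const, Finset.card_univ, Nat.card_eq_fintype_card]
  have h3 : (Abelianization.of y) ^ Nat.card T = 1 := by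
    rw [← map_pow, pow_card_eq_one', map_one]
  have h4 : (Abelianization.of y) = 1 := by
    have h5 : (Abelianization.of y) ^ Nat.gcd (Nat.card Q) (Nat.card T) = 1 :=
      pow_gcd_eq_one.2 ⟨h2 ▸ h1, h3⟩
    rw [hc.gcd_eq_one, pow_one] at h5
    exact h5
  rw [← Abelianization.ker_of]
  exact h4

theorem eq_bot_of_fixed_sylow [IsCyclic (commutator T)] {p : ℕ} [Fact p.Prime] (P : Subgroup T)
    (hP : IsPGroup p P) (hPn : ¬ p ∣ P.index)
    (hgen : ∀ C : Subgroup T, (∀ (t : T) (q : Q), t⁻¹ * α q t ∈ C) → C = ⊤)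
    (hc : (Nat.card Q).Coprime (Nat.card T)) (hfix : ∀ y ∈ P, ∀ q, α q y = y) : P = ⊥ := by
  classical
  have hPc : P ≤ commutator T := fun y hy => mem_commutator_of_fixed α hgen hc y (hfix y hy)
  -- `P` is normal
  have hconj : ∀ t : T, ∀ y ∈ P, t * y * t⁻¹ ∈ P := by
    intro t y hy
    haveI hcn : (commutator T).Normal := inferInstance
    have hle : MulAut.conj t • P ≤ commutator T := by
      intro w hw
      rw [mem_conj_smul_iff] at hw
      have := hcn.conj_mem _ (hPc hw) t
      have e : t * (t⁻¹ * w * t) * t⁻¹ = w := by group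
      rwa [e] at this
    have hcard : Nat.card ((MulAut.conj t • P).subgroupOf (commutator T)) = Nat.card (P.subgroupOf (commutator T)) := by
      rw [card_subgroupOf_of_le hle, card_subgroupOf_of_le hPc, card_conj_smul]
    have h2 := Cfsg.Agent.Lib.FPF.UniqueOrderP.subgroup_eq_of_card_eq hcard
    rw [Subgroup.subgroupOf_inj, inf_eq_left.2 hle, inf_eq_left.2 hPc] at h2
    rw [← h2]
    exact ⟨y, hy, rfl⟩
  -- `T` centralizes `P`
  have hcen : centralizer (P : Set T) = ⊤ := by
    apply hgen
    intro t q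
    rw [mem_centralizer_iff]
    intro y hy
    have h1 : α q (t * y * t⁻¹) = t * y * t⁻¹ := hfix _ (hconj t y hy) q
    have h2 : α q (t * y * t⁻¹) = α q t * y * (α q t)⁻¹ := by
      rw [map_mul, map_mul, map_inv, hfix y hy q]
    have h3 : α q t * y * (α q t)⁻¹ = t * y * t⁻¹ := h2.symm.trans h1
    have h4 : t⁻¹ * α q t * y = y * (t⁻¹ * α q t) := by
      have h5 : α q t * y = t * y * t⁻¹ * α q t := by
        rw [← h3]; group
      calc t⁻¹ * α q t * y = t⁻¹ * (α q t * y) := by group
        _ = t⁻¹ * (t * y * t⁻¹ * α q t) := by rw [h5]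
        _ = y * (t⁻¹ * α q t) := by group
    exact h4.symm
  have hPZ : P ≤ center T := by
    intro y hy
    rw [mem_center_iff]
    intro t
    have : t ∈ centralizer (P : Set T) := by rw [hcen]; trivial
    exact ((mem_centralizer_iff.mp this) y hy).symm
  -- the transfer
  rw [eq_bot_iff]
  intro y hy
  haveI : FiniteIndex (center T) := inferInstance
  have h1 : MonoidHom.transferCenterPow T y = 1 := by
    have hle : commutator T ≤ (MonoidHom.transferCenterPow T).ker := by
      rw [commutator_eq_closure, Subgroup.closure_le]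
      rintro _ ⟨a, b, rfl⟩
      show _ ∈ (MonoidHom.transferCenterPow T).ker
      rw [MonoidHom.mem_ker, map_commutatorElement]
      rw [commutatorElement_eq_one_iff_mul_comm]
      apply Subtype.ext
      exact (mem_center_iff.mp (MonoidHom.transferCenterPow T a).2 (MonoidHom.transferCenterPow T b : T)).symm
    exact hle (hPc hy)
  have h2 : y ^ (center T).index = 1 := by
    have := congrArg Subtype.val h1
    rwa [MonoidHom.transferCenterPow_apply] at this
  have h3 : ¬ p ∣ (center T).index := fun h => hPn (h.trans (Subgroup.index_dvd_of_le hPZ))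
  obtain ⟨k, hk⟩ := hP ⟨y, hy⟩
  have hk' : y ^ p ^ k = 1 := by
    have := congrArg Subtype.val hk
    simpa using this
  have hcop : (p ^ k).Coprime (center T).index :=
    Nat.Coprime.pow_left _ ((Nat.Prime.coprime_iff_not_dvd Fact.out).2 h3)
  rw [Subgroup.mem_bot]
  exact eq_one_of_coprime_pow hcop hk' h2

end Abstract

section Concrete

variable {G : Type*} [Group G] [Finite G]

/-- The action by conjugation of a subgroup `Q` normalizing `T`. -/
noncomputable def conjAct {T Q : Subgroup G} (hQ : Q ≤ normalizer (T : Set G)) : Q →* MulAut T :=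
  (T.normalizerMonoidHom).comp (Subgroup.inclusion hQ)

theorem conjAct_apply {T Q : Subgroup G} (hQ : Q ≤ normalizer (T : Set G)) (q : Q) (t : T) :
    ((conjAct hQ q t : T) : G) = q * t * (q : G)⁻¹ := rfl

theorem gen_of_commutator {T Q : Subgroup G} (hQ : Q ≤ normalizer (T : Set G)) (hT : ⁅T, Q⁆ = T)
    (C : Subgroup T) (hC : ∀ (t : T) (q : Q), t⁻¹ * conjAct hQ q t ∈ C) : C = ⊤ := by
  have hle : ⁅T, Q⁆ ≤ C.map T.subtype := by
    rw [Subgroup.commutator_le]
    intro t ht q hq
    refine ⟨_, hC (⟨t, ht⟩)⁻¹ ⟨q, hq⟩, ?_⟩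
    simp only [Subgroup.subtype_apply, Subgroup.coe_mul, Subgroup.coe_inv, inv_inv, conjAct_apply,
      commutatorElement_def]
    group
  rw [eq_top_iff]
  intro x _
  have hx : (x : G) ∈ ⁅T, Q⁆ := by rw [hT]; exact x.2
  obtain ⟨c, hc, hcx⟩ := hle hx
  have : c = x := Subtype.ext hcx
  exact this ▸ hc

/-- A cyclic `p`-group under coprime action is centralized or has no fixed points. -/
theorem dichotomy {P Q : Subgroup G} {p : ℕ} [Fact p.Prime] (hP : IsPGroup p P) [IsCyclic P]
    (hQ : Q ≤ normalizer (P : Set G)) (hc : (Nat.card Q).Coprime (Nat.card P))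
    {x : G} (hx : x ∈ P) (hxQ : x ∈ centralizer (Q : Set G)) (hx1 : x ≠ 1) :
    Q ≤ centralizer (P : Set G) := by
  rcases IsPGroup.commutator_eq_bot_or_commutator_eq_self hP hQ hc.symm with h | h
  · exact Subgroup.commutator_eq_bot_iff_le_centralizer.mp h
  · exfalso
    apply hx1
    have hT : ⁅P, Q⁆ = P := by rw [Subgroup.commutator_comm]; exact h
    have h1 := mem_commutator_of_fixed (conjAct hQ) (gen_of_commutator hQ hT) hc ⟨x, hx⟩ (by
      intro q
      apply Subtype.ext
      rw [conjAct_apply]
      have := (mem_centralizer_iff.mp hxQ) q q.2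
      show (q : G) * x * (q : G)⁻¹ = x
      rw [this]
      simp)
    letI := IsCyclic.commGroup (α := P)
    have h2 : commutator P = ⊥ := by
      rw [commutator_eq_bot_iff_center_eq_top]
      ext a
      simp only [Subgroup.mem_top, iff_true]
      rw [mem_center_iff]
      intro b
      exact mul_comm b a
    rw [h2, Subgroup.mem_bot] at h1
    exact congrArg Subtype.val h1

/-- A prime dividing `|C_H(Q)|` has a `Q`-invariant Sylow subgroup centralized by `Q`. -/
theorem exists_fixed_sylow {H Q : Subgroup G} (hZ : IsZGroup H)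
    (hQ : Q ≤ normalizer (H : Set G)) (hc : (Nat.card Q).Coprime (Nat.card H))
    {p : ℕ} [Fact p.Prime] (hp : p ∣ Nat.card (H ⊓ centralizer (Q : Set G) : Subgroup G)) :
    ∃ P : Subgroup G, IsSylowIn p P H ∧ Q ≤ normalizer (P : Set G) ∧ Q ≤ centralizer (P : Set G) := by
  classical
  have hs : Group.IsSolvable Q ∨ Group.IsSolvable H := Or.inr inferInstance
  obtain ⟨x, hx⟩ := exists_prime_orderOf_dvd_card' p hp
  have hxH : (x : G) ∈ H := x.2.1
  have hxC : (x : G) ∈ centralizer (Q : Set G) := x.2.2
  have hxo : orderOf (x : G) = p := by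
    rw [← hx]; exact Subgroup.orderOf_coe x
  set U := zpowers (x : G) with hU
  have hUH : U ≤ H := by rw [hU, zpowers_le]; exact hxH
  have hUp : IsPGroup p U := by
    apply IsPGroup.of_card (n := 1)
    rw [hU, Nat.card_zpowers, hxo, pow_one]
  have hUC : Q ≤ centralizer (U : Set G) := by
    rw [← Subgroup.le_centralizer_iff, hU, zpowers_le]
    exact hxC
  obtain ⟨P, hPS, hPQ, hUP⟩ := exists_invariant_sylowIn_ge hQ hc hs hUH hUp
    (hUC.trans (Subgroup.centralizer_le_normalizer _))
  refine ⟨P, hPS, hPQ, ?_⟩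
  have hPH : P ≤ H := hPS.1
  have hcy : IsCyclic P := by
    have h1 : IsPGroup p (P.subgroupOf H) :=
      hPS.2.1.of_injective (Subgroup.subgroupOfEquivOfLe hPH).toMonoidHom
        (Subgroup.subgroupOfEquivOfLe hPH).injective
    haveI h2 : IsCyclic (P.subgroupOf H) := h1.isCyclic_of_isZGroup
    exact isCyclic_of_surjective (Subgroup.subgroupOfEquivOfLe hPH).toMonoidHom
      (Subgroup.subgroupOfEquivOfLe hPH).surjective
  refine dichotomy hPS.2.1 hPQ (hc.coprime_dvd_right (Subgroup.card_dvd_of_le hPH))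
    (hUP (mem_zpowers _)) hxC ?_
  intro h1
  rw [h1, orderOf_one] at hxo
  exact (Fact.out : p.Prime).one_lt.ne hxo

/-- In a group `H` with cyclic Sylow subgroups, under coprime action of `Q`, the subgroup `[H, Q]`
has order coprime to `C_H(Q)`. -/
theorem coprime_commutator_fixed {H Q : Subgroup G} (hZ : IsZGroup H)
    (hQ : Q ≤ normalizer (H : Set G)) (hc : (Nat.card Q).Coprime (Nat.card H)) :
    (Nat.card (⁅H, Q⁆ : Subgroup G)).Coprime (Nat.card (H ⊓ centralizer (Q : Set G) : Subgroup G)) := by
  classical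
  by_contra hnc
  obtain ⟨p, hp, hpT, hpC⟩ := Nat.Prime.not_coprime_iff_dvd.mp hnc
  haveI : Fact p.Prime := ⟨hp⟩
  have hs : Group.IsSolvable Q ∨ Group.IsSolvable H := Or.inr inferInstance
  have hTH : ⁅H, Q⁆ ≤ H := commutator_le_of_le_normalizer hQ
  have hQT : Q ≤ normalizer ((⁅H, Q⁆ : Subgroup G) : Set G) := le_normalizer_commutator_right H Q
  have hcT : (Nat.card Q).Coprime (Nat.card (⁅H, Q⁆ : Subgroup G)) :=
    hc.coprime_dvd_right (Subgroup.card_dvd_of_le hTH)
  have hTT : ⁅⁅H, Q⁆, Q⁆ = ⁅H, Q⁆ := commutator_commutator_eq hQ hc hs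
  haveI hZT : IsZGroup (⁅H, Q⁆ : Subgroup G) := IsZGroup.of_injective (Subgroup.inclusion_injective hTH)
  obtain ⟨P', hP'S, hP'Q, hP'c⟩ := exists_fixed_sylow hZ hQ hc hpC
  obtain ⟨P₁, hP₁, hP₁Q⟩ := exists_invariant_sylowIn (p := p) hQT hcT (Or.inr inferInstance)
  obtain ⟨P, hPS, hPQ, hP₁P⟩ := exists_invariant_sylowIn_ge hQ hc hs (hP₁.1.trans hTH) hP₁.2.1 hP₁Q
  obtain ⟨c, hc1, hc2⟩ := invariant_sylowIn_conj hQ hc hs hP'S hPS hP'Q hPQ
  have hPc : ∀ y ∈ P, ∀ q ∈ Q, q * y * q⁻¹ = y := by
    intro y hy q hq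
    rw [← hc2, mem_conj_smul_iff] at hy
    have h1 := mem_centralizer_iff.mp (hP'c hq) _ hy
    have h2 := mem_centralizer_iff.mp hc1.2 q hq
    -- `q` commutes with `c⁻¹ y c` and with `c`
    have h3 : q * y = y * q := by
      calc q * y = q * c * (c⁻¹ * y * c) * c⁻¹ := by group
        _ = c * q * (c⁻¹ * y * c) * c⁻¹ := by rw [h2]
        _ = c * (q * (c⁻¹ * y * c)) * c⁻¹ := by group
        _ = c * ((c⁻¹ * y * c) * q) * c⁻¹ := by rw [← h1]
        _ = y * (c * q) * c⁻¹ := by group
        _ = y * (q * c) * c⁻¹ := by rw [h2]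
        _ = y * q := by group
    rw [h3]
    group
  haveI hcc : IsCyclic (commutator (⁅H, Q⁆ : Subgroup G)) := IsZGroup.isCyclic_commutator _
  have hP₁' : IsPGroup p (P₁.subgroupOf (⁅H, Q⁆ : Subgroup G)) :=
    hP₁.2.1.of_injective (Subgroup.subgroupOfEquivOfLe hP₁.1).toMonoidHom
      (Subgroup.subgroupOfEquivOfLe hP₁.1).injective
  have hbot := eq_bot_of_fixed_sylow (conjAct hQT) (P₁.subgroupOf (⁅H, Q⁆ : Subgroup G)) hP₁' hP₁.2.2
    (gen_of_commutator hQT hTT) hcT (by
      intro y hy q
      apply Subtype.ext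
      rw [conjAct_apply]
      exact hPc _ (hP₁P hy) _ q.2)
  apply hP₁.2.2
  show p ∣ (P₁.subgroupOf (⁅H, Q⁆ : Subgroup G)).index
  rw [hbot, Subgroup.index_bot]
  exact hpT

end Concrete

/-- Let G be a finite group and H a non-normal subgroup meeting each of its conjugates by elements outside N_G(H) trivially, with the order of H coprime to its index in N_G(H), such that G is π-separable for π the set of primes dividing the order of H (G has a chain of normal subgroups from 1 to G each of whose factors has order divisible only by primes dividing the order of H or coprime to it). Suppose a Sylow 2-subgroup of H is abelian and Q is a complement of H in N_G(H). Then C_H(Q), the subgroup of elements of H commuting with Q, has order coprime to its index in G and has a normal complement in G. -/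
theorem result {G : Type*} [Group G] [Finite G] (H : Subgroup G)
    (hTI : Cfsg.IsTISubset (H : Set G)) (hnn : ¬ H.Normal)
    (hHall : (Nat.card H).Coprime (H.subgroupOf (Subgroup.normalizer (H : Set G))).index)
    (hsep : ∃ (n : ℕ) (M : Fin (n + 1) → Subgroup G), M 0 = ⊥ ∧ M (Fin.last n) = ⊤ ∧ Monotone M ∧ (∀ i, (M i).Normal) ∧
      ∀ i : Fin n, (∀ q : ℕ, q.Prime → q ∣ (M i.castSucc).relIndex (M i.succ) → q ∣ Nat.card H) ∨
        ((M i.castSucc).relIndex (M i.succ)).Coprime (Nat.card H))
    (h2 : ∀ P : Sylow 2 H, IsMulCommutative (P : Subgroup H))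
    (Q : Subgroup G) (hQ : Q ≤ Subgroup.normalizer (H : Set G)) (hQH : Q ⊓ H = ⊥) (hQH' : Q ⊔ H = Subgroup.normalizer (H : Set G)) :
    (Nat.card ↥(H ⊓ Subgroup.centralizer (Q : Set G))).Coprime (H ⊓ Subgroup.centralizer (Q : Set G)).index ∧
    ∃ N : Subgroup G, N.Normal ∧ N.IsComplement' (H ⊓ Subgroup.centralizer (Q : Set G)) := by
  classical
  set O := sSup {K : Subgroup G | K.Normal ∧ (Nat.card K).Coprime (Nat.card H)} with hO
  obtain ⟨hOn, hOcop, hOmax⟩ := sSup_facts H O hO
  haveI := hOn
  have hsup := core H O hTI hnn hHall hsep hOcop hOmax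
  have hOC : ¬ O ≤ centralizer (H : Set G) := by
    intro h
    apply hnn
    have h1 : O ≤ normalizer (H : Set G) := h.trans (Subgroup.centralizer_le_normalizer _)
    rw [sup_eq_right.mpr h1] at hsup
    exact Subgroup.normalizer_eq_top_iff.mp hsup
  have hZ : IsZGroup H := by
    constructor
    intro p hp P
    haveI : Fact p.Prime := ⟨hp⟩
    have hP'H : (P : Subgroup H).map H.subtype ≤ H := Subgroup.map_subtype_le _
    have hP'p : IsPGroup p ((P : Subgroup H).map H.subtype) := P.2.map H.subtype
    have e : (P : Subgroup H) ≃* ((P : Subgroup H).map H.subtype) :=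
      Subgroup.equivMapOfInjective _ _ H.subtype_injective
    have hcy : IsCyclic ((P : Subgroup H).map H.subtype) := by
      by_cases h : p = 2
      · subst h
        apply isCyclic_of_comm hTI hOcop hOC hP'H
        haveI := h2 P
        refine ⟨⟨?_⟩⟩
        rintro ⟨_, a, ha, rfl⟩ ⟨_, b, hb, rfl⟩
        apply Subtype.ext
        have := (h2 P).is_comm.comm (⟨a, ha⟩ : (P : Subgroup H)) ⟨b, hb⟩
        exact congrArg (fun x : (P : Subgroup H) => ((x : H) : G)) this
      · rcases p_struct hTI hOcop hOC hP'H hP'p with h1 | ⟨h1, -⟩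
        · exact h1
        · exact absurd h1 h
    exact isCyclic_of_surjective e.symm.toMonoidHom e.symm.surjective
  have hHs : Group.IsSolvable H := inferInstance
  have hdisjQ : H ⊓ Q = ⊥ := by rw [inf_comm]; exact hQH
  have hHN : H ≤ normalizer (H : Set G) := Subgroup.le_normalizer
  have hQcard : Nat.card Q = H.relIndex (normalizer (H : Set G)) := by
    have h1 := card_sup_of_le_normalizer hQ hdisjQ
    rw [sup_comm, hQH'] at h1
    have h3 := card_eq_card_mul_relIndex hHN
    rw [h3] at h1
    exact Nat.eq_of_mul_eq_mul_left Nat.card_pos h1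
  have hQc : (Nat.card Q).Coprime (Nat.card H) := by
    rw [hQcard]
    exact hHall.symm
  have hs : Group.IsSolvable Q ∨ Group.IsSolvable H := Or.inr hHs
  constructor
  · -- Hall
    by_contra hnc
    obtain ⟨p, hp, hp1, hp2⟩ := Nat.Prime.not_coprime_iff_dvd.mp hnc
    haveI : Fact p.Prime := ⟨hp⟩
    obtain ⟨P, hPS, -, hPc⟩ := exists_fixed_sylow hZ hQ hQc hp1
    have hpH : p ∣ Nat.card H := hp1.trans (Subgroup.card_dvd_of_le inf_le_left)
    have hPH₀ : P ≤ H ⊓ centralizer (Q : Set G) :=
      le_inf hPS.1 (Subgroup.le_centralizer_iff.mpr hPc)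
    have h3 : ¬ p ∣ (H ⊓ centralizer (Q : Set G)).relIndex H := by
      intro h
      apply hPS.2.2
      rw [← Subgroup.relIndex_mul_relIndex P (H ⊓ centralizer (Q : Set G)) H hPH₀ inf_le_left]
      exact h.trans (dvd_mul_left _ _)
    have h4 : ¬ p ∣ H.relIndex (normalizer (H : Set G)) := by
      intro h
      exact hp.one_lt.ne' (Nat.eq_one_of_dvd_coprimes hHall hpH h)
    have h5 : ¬ p ∣ (normalizer (H : Set G)).index := by
      intro h
      have h6 : (normalizer (H : Set G)).index ∣ Nat.card O := by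
        have e1 := (normalizer (H : Set G)).card_mul_index
        have e2 := O.card_mul_index
        have e3 : O.index = (O ⊓ normalizer (H : Set G)).relIndex (normalizer (H : Set G)) := by
          rw [Subgroup.inf_relIndex_right, ← Subgroup.relIndex_sup_left, hsup, Subgroup.relIndex_top_right]
        have e4 := card_eq_card_mul_relIndex (inf_le_right : O ⊓ normalizer (H : Set G) ≤ normalizer (H : Set G))
        rw [e3] at e2
        rw [e4] at e1
        rw [← e1] at e2
        refine ⟨Nat.card (O ⊓ normalizer (H : Set G) : Subgroup G), ?_⟩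
        have hr : 0 < (O ⊓ normalizer (H : Set G)).relIndex (normalizer (H : Set G)) := by
          rcases Nat.eq_zero_or_pos ((O ⊓ normalizer (H : Set G)).relIndex (normalizer (H : Set G))) with h0 | h0
          · have e5 := card_eq_card_mul_relIndex (inf_le_right : O ⊓ normalizer (H : Set G) ≤ normalizer (H : Set G))
            rw [h0, mul_zero] at e5
            exact absurd e5 Nat.card_pos.ne'
          · exact h0
        apply Nat.eq_of_mul_eq_mul_right hr
        rw [e2]
        ring
      exact hp.one_lt.ne' (Nat.eq_one_of_dvd_coprimes hOcop (h.trans h6) hpH)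
    have e1 : (H ⊓ centralizer (Q : Set G)).index = (H ⊓ centralizer (Q : Set G)).relIndex H * H.index :=
      (Subgroup.relIndex_mul_index inf_le_left).symm
    have e2 : H.index = H.relIndex (normalizer (H : Set G)) * (normalizer (H : Set G)).index :=
      (Subgroup.relIndex_mul_index hHN).symm
    rw [e1, e2] at hp2
    rcases (Nat.Prime.dvd_mul hp).mp hp2 with h | h
    · exact h3 h
    · rcases (Nat.Prime.dvd_mul hp).mp h with h | h
      · exact h4 h
      · exact h5 h
  · -- normal complement
    have hTH : ⁅H, Q⁆ ≤ H := commutator_le_of_le_normalizer hQ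
    have hQT : Q ≤ normalizer ((⁅H, Q⁆ : Subgroup G) : Set G) := le_normalizer_commutator_right H Q
    have hHT : H ≤ normalizer ((⁅H, Q⁆ : Subgroup G) : Set G) := le_normalizer_commutator_left H Q
    have hTC := coprime_commutator_fixed hZ hQ hQc
    set H₀ := H ⊓ centralizer (Q : Set G) with hH₀
    have hH₀H : H₀ ≤ H := inf_le_left
    have hTH₀ : ⁅H, Q⁆ ⊔ H₀ = H := commutator_sup_fixed hQ hQc hs
    set L := ⁅H, Q⁆ ⊔ Q with hL
    set Nn := O ⊔ L with hNn
    have hnormal : Nn.Normal := by
      rw [← Subgroup.normalizer_eq_top_iff, eq_top_iff, ← hsup, ← hQH']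
      refine sup_le ?_ (sup_le ?_ ?_)
      · exact (le_sup_left : O ≤ Nn).trans Subgroup.le_normalizer
      · exact ((le_sup_right : Q ≤ L).trans le_sup_right).trans Subgroup.le_normalizer
      · rw [Subgroup.le_normalizer_iff]
        intro h hh y hy
        have hle : Nn ≤ Nn.comap (MulAut.conj h).toMonoidHom := by
          refine sup_le ?_ (sup_le ?_ ?_)
          · intro o ho
            exact (le_sup_left : O ≤ Nn) (hOn.conj_mem o ho h)
          · intro t ht
            have h1 : h * t * h⁻¹ ∈ ⁅H, Q⁆ := conj_mem_of_le_normalizer hHT hh ht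
            exact ((le_sup_left : ⁅H, Q⁆ ≤ L).trans le_sup_right) h1
          · intro q hq
            have h1 : ⁅h, q⁆ ∈ ⁅H, Q⁆ := Subgroup.commutator_mem_commutator hh hq
            have h2 : h * q * h⁻¹ = ⁅h, q⁆ * q := by
              rw [commutatorElement_def]; group
            show h * q * h⁻¹ ∈ Nn
            rw [h2]
            exact (le_sup_right : L ≤ Nn) (Subgroup.mul_mem_sup h1 hq)
        exact hle hy
    have hLcard : (Nat.card L).Coprime (Nat.card H₀) := by
      have hdQ : ⁅H, Q⁆ ⊓ Q = ⊥ := by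
        rw [inf_comm]
        exact disjoint_of_coprime_card (hQc.coprime_dvd_right (Subgroup.card_dvd_of_le hTH))
      rw [hL, ← card_sup_of_le_normalizer hQT hdQ]
      apply Nat.Coprime.mul_left hTC
      exact hQc.coprime_dvd_right (Subgroup.card_dvd_of_le hH₀H)
    have hNcard : (Nat.card Nn).Coprime (Nat.card H₀) := by
      rw [card_eq_card_mul_relIndex (le_sup_left : O ≤ Nn), Subgroup.relIndex_sup_left]
      apply Nat.Coprime.mul_left
      · exact hOcop.coprime_dvd_right (Subgroup.card_dvd_of_le hH₀H)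
      · exact hLcard.coprime_dvd_left (Subgroup.relIndex_dvd_card _ _)
    refine ⟨Nn, hnormal, ?_⟩
    apply Subgroup.isComplement'_of_disjoint_and_mul_eq_univ
    · exact disjoint_iff.mpr (disjoint_of_coprime_card hNcard)
    · rw [← Subgroup.normal_mul Nn H₀]
      have : Nn ⊔ H₀ = ⊤ := by
        rw [eq_top_iff, ← hsup, ← hQH']
        refine sup_le ?_ (sup_le ?_ ?_)
        · exact (le_sup_left : O ≤ Nn).trans le_sup_left
        · exact ((le_sup_right : Q ≤ L).trans (le_sup_right : L ≤ Nn)).trans le_sup_left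
        · rw [← hTH₀]
          refine sup_le ?_ le_sup_right
          exact ((le_sup_left : ⁅H, Q⁆ ≤ L).trans (le_sup_right : L ≤ Nn)).trans le_sup_left
      rw [this]
      rfl

end Cfsg.Agent.S4151
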