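import Cfsg.Statements.S4152
import Mathlib
import Cfsg.Agent.Lib.FGStruct.Class
-- import your own Cfsg.Agent.* helpers here

set_option autoImplicit false
open Cfsg

namespace Cfsg.Agent.S4152

universe u

/-- the class `C` consists of `π`-elements. -/
def Good {G : Type*} [Group G] (π : Set ℕ) (C : ConjClasses G) : Prop :=
  ∀ q : ℕ, q.Prime → (∃ g : G, ConjClasses.mk g = C ∧ q ∣ orderOf g) → q ∈ π

def E {G : Type*} [Group G] (π : Set ℕ) (x : G) : Prop := ∀ q : ℕ, q.Prime → q ∣ orderOf x → q ∈ π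

theorem orderOf_of_isConj {G : Type*} [Group G] {a b : G} (h : IsConj a b) : orderOf a = orderOf b := by
  obtain ⟨g, rfl⟩ := isConj_iff.1 h
  exact (MulEquiv.orderOf_eq (MulAut.conj g) a).symm

theorem good_mk_iff {G : Type*} [Group G] (π : Set ℕ) (x : G) :
    Good π (ConjClasses.mk x) ↔ E π x := by
  constructor
  · intro h q hq hqx
    exact h q hq ⟨x, rfl, hqx⟩
  · rintro h q hq ⟨g, hg, hqg⟩
    have h1 : IsConj g x := ConjClasses.mk_eq_mk_iff_isConj.1 hg
    rw [orderOf_of_isConj h1] at hqg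
    exact h q hq hqg

open Cfsg.Agent.Lib.FGStruct.Class in
theorem card_centralizer_eq {X : Type*} [Group X] [Finite X] {x y : X} (h : IsConj x y) :
    Nat.card (Subgroup.centralizer ({x} : Set X)) = Nat.card (Subgroup.centralizer ({y} : Set X)) := by
  have h1 := card_class_mul_card_centralizer x
  have h2 := card_class_mul_card_centralizer y
  have h3 : Nat.card {z : X // IsConj x z} = Nat.card {z : X // IsConj y z} := by
    apply Nat.card_congr
    apply Equiv.subtypeEquivRight
    intro z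
    exact ⟨fun hz => h.symm.trans hz, fun hz => h.trans hz⟩
  have h4 : 0 < Nat.card {z : X // IsConj y z} := by
    haveI : Nonempty {z : X // IsConj y z} := ⟨⟨y, IsConj.refl y⟩⟩
    exact Nat.card_pos
  rw [h3] at h1
  exact Nat.eq_of_mul_eq_mul_left h4 (h1.trans h2.symm)

open Cfsg.Agent.Lib.FGStruct.Class in
theorem burnside (π : Set ℕ) (X : Type*) [Group X] [Finite X] [Fintype {x : X // E π x}]
    [Fintype {C : ConjClasses X // Good π C}] :
    Nat.card {C : ConjClasses X // Good π C} * Nat.card X =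
      ∑ x : {x : X // E π x}, Nat.card (Subgroup.centralizer ({x.1} : Set X)) := by
  classical
  let ψ : {x : X // E π x} → {C : ConjClasses X // Good π C} := fun x =>
    ⟨ConjClasses.mk x.1, (good_mk_iff π x.1).2 x.2⟩
  rw [← Fintype.sum_fiberwise ψ]
  have hfib : ∀ C : {C : ConjClasses X // Good π C},
      ∑ x : {x : {x : X // E π x} // ψ x = C}, Nat.card (Subgroup.centralizer ({x.1.1} : Set X)) = Nat.card X := by
    rintro ⟨C, hC⟩
    obtain ⟨x0, rfl⟩ := ConjClasses.mk_surjective C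
    have hx0 : E π x0 := (good_mk_iff π x0).1 hC
    have h1 : ∀ x : {x : {x : X // E π x} // ψ x = ⟨ConjClasses.mk x0, hC⟩},
        Nat.card (Subgroup.centralizer ({x.1.1} : Set X)) = Nat.card (Subgroup.centralizer ({x0} : Set X)) := by
      intro x
      have h2 : ConjClasses.mk x.1.1 = ConjClasses.mk x0 := congrArg Subtype.val x.2
      exact card_centralizer_eq (ConjClasses.mk_eq_mk_iff_isConj.1 h2)
    rw [Finset.sum_congr rfl (fun x _ => h1 x), Finset.sum_const, Finset.card_univ, smul_eq_mul,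
      ← card_class_mul_card_centralizer x0]
    congr 1
    rw [← Nat.card_eq_fintype_card]
    apply Nat.card_congr
    exact
      { toFun := fun x => ⟨x.1.1, ConjClasses.mk_eq_mk_iff_isConj.1 (congrArg Subtype.val x.2).symm⟩
        invFun := fun y => ⟨⟨y.1, by
            intro q hq hd
            exact hx0 q hq (by rwa [orderOf_of_isConj y.2])⟩,
          Subtype.ext (ConjClasses.mk_eq_mk_iff_isConj.2 y.2.symm)⟩
        left_inv := fun x => by ext; rfl
        right_inv := fun y => by ext; rfl }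
  rw [Finset.sum_congr rfl (fun C _ => hfib C), Finset.sum_const, Finset.card_univ, smul_eq_mul,
    Nat.card_eq_fintype_card (α := {C : ConjClasses X // Good π C})]

/-- Split a number into π-part and π'-part -/
theorem exists_split (π : Set ℕ) (m : ℕ) (hm : m ≠ 0) :
    ∃ m1 m2 : ℕ, m = m1 * m2 ∧ (∀ q : ℕ, q.Prime → q ∣ m1 → q ∈ π) ∧ (∀ q : ℕ, q.Prime → q ∣ m2 → q ∉ π) := by
  classical
  refine ⟨∏ q ∈ m.primeFactors.filter (· ∈ π), q ^ m.factorization q,
    ∏ q ∈ m.primeFactors.filter (· ∉ π), q ^ m.factorization q, ?_, ?_, ?_⟩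
  · rw [Finset.prod_filter_mul_prod_filter_not]
    conv_lhs => rw [← Nat.factorization_prod_pow_eq_self hm]
    rfl
  · intro q hq hd
    obtain ⟨r, hr, hd'⟩ := (Prime.dvd_finset_prod_iff hq.prime _).1 hd
    have hr' := Finset.mem_filter.1 hr
    have hrp : r.Prime := Nat.prime_of_mem_primeFactors hr'.1
    have := (Nat.prime_dvd_prime_iff_eq hq hrp).1 (hq.dvd_of_dvd_pow hd')
    rw [this]
    exact hr'.2
  · intro q hq hd
    obtain ⟨r, hr, hd'⟩ := (Prime.dvd_finset_prod_iff hq.prime _).1 hd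
    have hr' := Finset.mem_filter.1 hr
    have hrp : r.Prime := Nat.prime_of_mem_primeFactors hr'.1
    have := (Nat.prime_dvd_prime_iff_eq hq hrp).1 (hq.dvd_of_dvd_pow hd')
    rw [this]
    exact hr'.2

theorem coprime_of_split {π : Set ℕ} {a b : ℕ} (ha : ∀ q : ℕ, q.Prime → q ∣ a → q ∈ π)
    (hb : ∀ q : ℕ, q.Prime → q ∣ b → q ∉ π) : a.Coprime b := by
  apply Nat.Coprime.symm
  apply Nat.coprime_of_dvd
  intro k hk hkb hka
  exact hb k hk hkb (ha k hk hka)

/-- the `π`-decomposition of an element -/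
theorem exists_decomp (π : Set ℕ) {X : Type*} [Group X] [Finite X] (n : X) :
    ∃ a b : X, n = a * b ∧ E π a ∧ (∀ q : ℕ, q.Prime → q ∣ orderOf b → q ∉ π) ∧
      a ∈ Subgroup.zpowers n ∧ b ∈ Subgroup.zpowers n := by
  obtain ⟨m1, m2, hm, h1, h2⟩ := exists_split π (orderOf n) (orderOf_pos n).ne'
  have hc : m1.Coprime m2 := coprime_of_split h1 h2
  have hcop : IsCoprime (m1 : ℤ) (m2 : ℤ) := Nat.isCoprime_iff_coprime.2 hc
  obtain ⟨u, v, huv⟩ := hcop
  have hxn : n ^ ((m1 * m2 : ℕ) : ℤ) = 1 := by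
    rw [← hm, zpow_natCast]
    exact pow_orderOf_eq_one n
  refine ⟨n ^ (v * m2), n ^ (u * m1), ?_, ?_, ?_, ⟨_, rfl⟩, ⟨_, rfl⟩⟩
  · rw [← zpow_add, add_comm, huv, zpow_one]
  · intro q hq hd
    apply h1 q hq
    refine hd.trans (orderOf_dvd_of_pow_eq_one ?_)
    rw [← zpow_natCast, ← zpow_mul]
    have : v * (m2 : ℤ) * (m1 : ℤ) = v * ((m1 * m2 : ℕ) : ℤ) := by
      push_cast; ring
    rw [this, mul_comm, zpow_mul, hxn, one_zpow]
  · intro q hq hd
    apply h2 q hq
    refine hd.trans (orderOf_dvd_of_pow_eq_one ?_)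
    rw [← zpow_natCast, ← zpow_mul]
    have : u * (m1 : ℤ) * (m2 : ℤ) = u * ((m1 * m2 : ℕ) : ℤ) := by
      push_cast; ring
    rw [this, mul_comm, zpow_mul, hxn, one_zpow]

/-- uniqueness of the decomposition -/
theorem unique_parts {X : Type*} [Group X] {y b y' b' : X} (h : Commute y b) (h' : Commute y' b')
    (he : y * b = y' * b') (hc : (orderOf y * orderOf y').Coprime (orderOf b * orderOf b')) :
    y = y' := by
  have hcop : IsCoprime ((orderOf y * orderOf y' : ℕ) : ℤ) ((orderOf b * orderOf b' : ℕ) : ℤ) :=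
    Nat.isCoprime_iff_coprime.2 hc
  obtain ⟨u, v, huv⟩ := hcop
  set s : ℕ := orderOf b * orderOf b' with hs
  set r : ℕ := orderOf y * orderOf y' with hr
  have key : ∀ {c d : X}, Commute c d → orderOf c ∣ r → orderOf d ∣ s → (c * d) ^ (v * (s : ℤ)) = c := by
    intro c d hcd hcr hds
    have h1 : (c * d) ^ (v * (s : ℤ)) = c ^ (v * (s : ℤ)) * d ^ (v * (s : ℤ)) := hcd.mul_zpow _
    have h2 : d ^ (v * (s : ℤ)) = 1 := by
      rw [mul_comm, zpow_mul, zpow_natCast, orderOf_dvd_iff_pow_eq_one.1 hds, one_zpow]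
    have h3 : c ^ (v * (s : ℤ)) = c := by
      have h4 : v * (s : ℤ) = 1 - u * (r : ℤ) := by linarith
      rw [h4, sub_eq_add_neg, zpow_add, zpow_one, zpow_neg, mul_comm u, zpow_mul, zpow_natCast,
        orderOf_dvd_iff_pow_eq_one.1 hcr, one_zpow, inv_one, mul_one]
    rw [h1, h2, h3, mul_one]
  have h1 := key h (Dvd.intro _ rfl) (Dvd.intro _ rfl)
  have h2 := key h' (Dvd.intro_left _ rfl) (Dvd.intro_left _ rfl)
  rw [← h1, ← h2, he]


theorem card_inf_mul {G : Type*} [Group G] [Finite G] (N : Subgroup G) [N.Normal]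
    (Q : Subgroup G) :
    Nat.card (Q.map (QuotientGroup.mk' N)) * Nat.card ↥(Q ⊓ N) = Nat.card Q := by
  classical
  let φ := (QuotientGroup.mk' N).subgroupMap Q
  have hφ : Function.Surjective φ := (QuotientGroup.mk' N).subgroupMap_surjective Q
  have h1 := Subgroup.card_eq_card_quotient_mul_card_subgroup φ.ker
  have h2 : Nat.card (Q ⧸ φ.ker) = Nat.card (Q.map (QuotientGroup.mk' N)) :=
    Nat.card_congr (QuotientGroup.quotientKerEquivOfSurjective φ hφ).toEquiv
  have h3 : Nat.card φ.ker = Nat.card ↥(Q ⊓ N) := by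
    apply Nat.card_congr
    refine
      { toFun := fun x => ⟨x.1.1, x.1.2, ?_⟩
        invFun := fun x => ⟨⟨x.1, x.2.1⟩, ?_⟩
        left_inv := fun x => by ext; rfl
        right_inv := fun x => by ext; rfl }
    · have h4 : φ x.1 = 1 := x.2
      have h5 : (QuotientGroup.mk' N) x.1.1 = 1 := congrArg Subtype.val h4
      exact (QuotientGroup.eq_one_iff _).1 h5
    · rw [MonoidHom.mem_ker]
      apply Subtype.ext
      exact (QuotientGroup.eq_one_iff _).2 x.2.2
  rw [h1, h2, h3]

/-- Centralizer in `G` versus centralizers in `N` and `G/N`. -/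
theorem card_centralizer_le {G : Type*} [Group G] [Finite G] (N : Subgroup G) [N.Normal] (x : G) :
    Nat.card (Subgroup.centralizer ({x} : Set G)) ≤
      Nat.card (Subgroup.centralizer ({(QuotientGroup.mk' N) x} : Set (G ⧸ N))) *
        Nat.card ↥(Subgroup.centralizer ({x} : Set G) ⊓ N) := by
  rw [← card_inf_mul N (Subgroup.centralizer ({x} : Set G))]
  apply Nat.mul_le_mul_right
  apply Nat.card_mono (Set.toFinite _)
  rintro _ ⟨g, hg, rfl⟩
  rw [SetLike.mem_coe, Subgroup.mem_centralizer_singleton_iff] at *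
  rw [← map_mul, ← map_mul, hg]

theorem card_N_centralizer {G : Type*} [Group G] (N : Subgroup G) (a : N) :
    Nat.card (Subgroup.centralizer ({a} : Set N)) = Nat.card ↥(Subgroup.centralizer ({(a : G)} : Set G) ⊓ N) := by
  apply Nat.card_congr
  refine
    { toFun := fun c => ⟨c.1.1, ?_, c.1.2⟩
      invFun := fun c => ⟨⟨c.1, c.2.2⟩, ?_⟩
      left_inv := fun x => by ext; rfl
      right_inv := fun x => by ext; rfl }
  · refine Subgroup.mem_centralizer_singleton_iff.2 ?_
    exact congrArg Subtype.val (Subgroup.mem_centralizer_singleton_iff.1 c.2)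
  · rw [Subgroup.mem_centralizer_singleton_iff]
    exact Subtype.ext (Subgroup.mem_centralizer_singleton_iff.1 c.2.1)



/-- Let G be a finite group, N a normal subgroup and π a set of primes. Then the number of conjugacy classes of π-elements of G (elements whose order is divisible only by primes in π) is at most the number of conjugacy classes of π-elements of N (under conjugation by N) times the number of conjugacy classes of π-elements of G/N. -/
theorem result {G : Type*} [Group G] [Finite G] (N : Subgroup G) [N.Normal] (π : Set ℕ) :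
    Nat.card {C : ConjClasses G // ∀ q : ℕ, q.Prime → (∃ g : G, ConjClasses.mk g = C ∧ q ∣ orderOf g) → q ∈ π} ≤ Nat.card {C : ConjClasses N // ∀ q : ℕ, q.Prime → (∃ g : N, ConjClasses.mk g = C ∧ q ∣ orderOf g) → q ∈ π} * Nat.card {C : ConjClasses (G ⧸ N) // ∀ q : ℕ, q.Prime → (∃ g : (G ⧸ N), ConjClasses.mk g = C ∧ q ∣ orderOf g) → q ∈ π} := by
  classical
  haveI : Finite (ConjClasses G) := Finite.of_surjective ConjClasses.mk ConjClasses.mk_surjective
  haveI : Finite (ConjClasses N) := Finite.of_surjective ConjClasses.mk ConjClasses.mk_surjective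
  haveI : Finite (ConjClasses (G ⧸ N)) := Finite.of_surjective ConjClasses.mk ConjClasses.mk_surjective
  let AG := {x : G // E π x}
  let AN := {x : N // E π x}
  let AQ := {x : G ⧸ N // E π x}
  haveI : Fintype AG := Fintype.ofFinite _
  haveI : Fintype AN := Fintype.ofFinite _
  haveI : Fintype AQ := Fintype.ofFinite _
  haveI : Fintype {C : ConjClasses G // Good π C} := Fintype.ofFinite _
  haveI : Fintype {C : ConjClasses N // Good π C} := Fintype.ofFinite _
  haveI : Fintype {C : ConjClasses (G ⧸ N) // Good π C} := Fintype.ofFinite _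
  have bG := burnside π G
  have bN := burnside π N
  have bQ := burnside π (G ⧸ N)
  let f := QuotientGroup.mk' N
  let ψ : AG → AQ := fun x => ⟨f x.1, fun q hq hd => x.2 q hq (hd.trans (orderOf_map_dvd f x.1))⟩
  let c : AG → ℕ := fun x => Nat.card ↥(Subgroup.centralizer ({x.1} : Set G) ⊓ N)
  -- the bound on T(b)
  have hT : ∀ b : AQ, ∑ x : {x : AG // ψ x = b}, c x.1 ≤
      Nat.card {C : ConjClasses N // Good π C} * Nat.card N := by
    intro b
    rw [bN]
    choose dA dB hdec hdA hdB hdAz hdBz using (fun n : N => exists_decomp π n)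
    let W : AN → Type _ := fun a => {w : G // f w = b.1 ∧ w * (a.1 : G) = (a.1 : G) * w}
    haveI : ∀ a : AN, Finite (W a) := fun a => inferInstance
    haveI : ∀ x : {x : AG // ψ x = b}, Finite ↥(Subgroup.centralizer ({x.1.1} : Set G) ⊓ N) := fun x => inferInstance
    have h1 : ∑ x : {x : AG // ψ x = b}, c x.1 = Nat.card (Σ x : {x : AG // ψ x = b}, ↥(Subgroup.centralizer ({x.1.1} : Set G) ⊓ N)) := by
      rw [Nat.card_sigma]
    have h2 : Nat.card (Σ a : AN, W a) = ∑ a : AN, Nat.card (W a) := Nat.card_sigma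
    have hcomm : ∀ (x : G) (n : N), (n : G) * x = x * (n : G) → ∀ z : N, z ∈ Subgroup.zpowers n → (z : G) * x = x * (z : G) := by
      rintro x n hn _ ⟨k, rfl⟩
      have h3 : Commute (n : G) x := hn
      have h4 := h3.zpow_left k
      have h5 : (((n ^ k : N)) : G) = (n : G) ^ k := by simp
      show ((n ^ k : N) : G) * x = x * ((n ^ k : N) : G)
      rw [h5]
      exact h4
    have hinj : Function.Injective (fun p : (Σ x : {x : AG // ψ x = b}, ↥(Subgroup.centralizer ({x.1.1} : Set G) ⊓ N)) =>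
        (⟨⟨dA ⟨p.2.1, p.2.2.2⟩, hdA _⟩, ⟨p.1.1.1 * (dB ⟨p.2.1, p.2.2.2⟩ : G), by
            have h3 : f (dB ⟨p.2.1, p.2.2.2⟩ : G) = 1 := (QuotientGroup.eq_one_iff _).2 (dB ⟨p.2.1, p.2.2.2⟩).2
            have h4 : f p.1.1.1 = b.1 := congrArg Subtype.val p.1.2
            rw [map_mul, h3, mul_one, h4], by
            have hn : ((⟨p.2.1, p.2.2.2⟩ : N) : G) * p.1.1.1 = p.1.1.1 * ((⟨p.2.1, p.2.2.2⟩ : N) : G) :=
              Subgroup.mem_centralizer_singleton_iff.1 p.2.2.1
            have h5 := hcomm p.1.1.1 _ hn _ (hdAz ⟨p.2.1, p.2.2.2⟩)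
            have h6 : (dB ⟨p.2.1, p.2.2.2⟩ : N) * (dA ⟨p.2.1, p.2.2.2⟩ : N) = (dA ⟨p.2.1, p.2.2.2⟩ : N) * (dB ⟨p.2.1, p.2.2.2⟩ : N) := by
              obtain ⟨k, hk⟩ := hdAz ⟨p.2.1, p.2.2.2⟩
              obtain ⟨l, hl⟩ := hdBz ⟨p.2.1, p.2.2.2⟩
              simp only at hk hl
              rw [← hk, ← hl]
              exact (Commute.refl _).zpow_zpow _ _
            have h7 : ((dB ⟨p.2.1, p.2.2.2⟩ : N) : G) * ((dA ⟨p.2.1, p.2.2.2⟩ : N) : G) = ((dA ⟨p.2.1, p.2.2.2⟩ : N) : G) * ((dB ⟨p.2.1, p.2.2.2⟩ : N) : G) :=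
              congrArg Subtype.val h6
            rw [mul_assoc, h7, ← mul_assoc, ← h5, mul_assoc]⟩⟩ : Σ a : AN, W a)) := by
      rintro ⟨x, n⟩ ⟨x', n'⟩ he
      have he1 : dA ⟨n.1, n.2.2⟩ = dA ⟨n'.1, n'.2.2⟩ := congrArg (fun s : (Σ a : AN, W a) => (s.1.1 : N)) he
      have he2 : x.1.1 * (dB ⟨n.1, n.2.2⟩ : G) = x'.1.1 * (dB ⟨n'.1, n'.2.2⟩ : G) :=
        congrArg (fun s : (Σ a : AN, W a) => (s.2.1 : G)) he
      have hc1 : Commute x.1.1 (dB ⟨n.1, n.2.2⟩ : G) := by
        have hn : ((⟨n.1, n.2.2⟩ : N) : G) * x.1.1 = x.1.1 * ((⟨n.1, n.2.2⟩ : N) : G) :=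
          Subgroup.mem_centralizer_singleton_iff.1 n.2.1
        exact (hcomm x.1.1 _ hn _ (hdBz ⟨n.1, n.2.2⟩)).symm
      have hc2 : Commute x'.1.1 (dB ⟨n'.1, n'.2.2⟩ : G) := by
        have hn : ((⟨n'.1, n'.2.2⟩ : N) : G) * x'.1.1 = x'.1.1 * ((⟨n'.1, n'.2.2⟩ : N) : G) :=
          Subgroup.mem_centralizer_singleton_iff.1 n'.2.1
        exact (hcomm x'.1.1 _ hn _ (hdBz ⟨n'.1, n'.2.2⟩)).symm
      have hcop : (orderOf x.1.1 * orderOf x'.1.1).Coprime (orderOf (dB ⟨n.1, n.2.2⟩ : G) * orderOf (dB ⟨n'.1, n'.2.2⟩ : G)) := by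
        apply coprime_of_split (π := π)
        · intro q hq hd
          rcases (Nat.Prime.dvd_mul hq).1 hd with h | h
          · exact x.1.2 q hq h
          · exact x'.1.2 q hq h
        · intro q hq hd
          rw [Subgroup.orderOf_coe, Subgroup.orderOf_coe] at hd
          rcases (Nat.Prime.dvd_mul hq).1 hd with h | h
          · exact hdB _ q hq h
          · exact hdB _ q hq h
      have hx : x.1.1 = x'.1.1 := unique_parts hc1 hc2 he2 hcop
      have hxx : x = x' := Subtype.ext (Subtype.ext hx)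
      subst hxx
      have hb : dB ⟨n.1, n.2.2⟩ = dB ⟨n'.1, n'.2.2⟩ := by
        apply Subtype.ext
        exact mul_left_cancel he2
      have hnn : (⟨n.1, n.2.2⟩ : N) = ⟨n'.1, n'.2.2⟩ := by
        rw [hdec ⟨n.1, n.2.2⟩, hdec ⟨n'.1, n'.2.2⟩, he1, hb]
      have hnn' : n = n' := Subtype.ext (congrArg (fun z : N => (z : G)) hnn)
      subst hnn'
      rfl
    have h3 : ∑ x : {x : AG // ψ x = b}, c x.1 ≤ ∑ a : AN, Nat.card (W a) := by
      rw [h1, ← h2]
      exact Nat.card_le_card_of_injective _ hinj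
    refine h3.trans (Finset.sum_le_sum ?_)
    intro a _
    rw [card_N_centralizer]
    -- each W a is a coset
    by_cases hne : Nonempty (W a)
    · obtain ⟨w0⟩ := hne
      refine Nat.card_le_card_of_injective (fun w : W a => ⟨w0.1⁻¹ * w.1, ?_, ?_⟩) ?_
      · refine Subgroup.mem_centralizer_singleton_iff.2 ?_
        have h4 := w0.2.2
        have h5 := w.2.2
        calc w0.1⁻¹ * w.1 * (a.1 : G) = w0.1⁻¹ * (w.1 * (a.1 : G)) := by group
          _ = w0.1⁻¹ * ((a.1 : G) * w.1) := by rw [h5]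
          _ = (w0.1⁻¹ * (a.1 : G)) * w.1 := by group
          _ = ((a.1 : G) * w0.1⁻¹) * w.1 := by
            congr 1
            rw [inv_mul_eq_iff_eq_mul, ← mul_assoc, h4, mul_assoc, mul_inv_cancel, mul_one]
          _ = _ := by group
      · have h4 : f w0.1 = f w.1 := by rw [w0.2.1, w.2.1]
        exact QuotientGroup.eq.1 h4
      · intro w w' h
        have h4 : w0.1⁻¹ * w.1 = w0.1⁻¹ * w'.1 := congrArg Subtype.val h
        exact Subtype.ext (mul_left_cancel h4)
    · have : IsEmpty (W a) := not_nonempty_iff.1 hne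
      rw [Nat.card_of_isEmpty]
      exact Nat.zero_le _
  -- the chain
  have hchain : Nat.card {C : ConjClasses G // Good π C} * Nat.card G ≤
      Nat.card {C : ConjClasses (G ⧸ N) // Good π C} * Nat.card (G ⧸ N) *
        (Nat.card {C : ConjClasses N // Good π C} * Nat.card N) := by
    rw [bG, bQ, ← Fintype.sum_fiberwise ψ, Finset.sum_mul]
    apply Finset.sum_le_sum
    intro b _
    calc ∑ x : {x : AG // ψ x = b}, Nat.card (Subgroup.centralizer ({x.1.1} : Set G))
        ≤ ∑ x : {x : AG // ψ x = b}, Nat.card (Subgroup.centralizer ({b.1} : Set (G ⧸ N))) * c x.1 := by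
          apply Finset.sum_le_sum
          intro x _
          have h1 := card_centralizer_le N x.1.1
          have h2 : (QuotientGroup.mk' N) x.1.1 = b.1 := congrArg Subtype.val x.2
          rwa [h2] at h1
      _ = Nat.card (Subgroup.centralizer ({b.1} : Set (G ⧸ N))) * ∑ x : {x : AG // ψ x = b}, c x.1 := by
          rw [Finset.mul_sum]
      _ ≤ _ := Nat.mul_le_mul_left _ (hT b)
  have hG : Nat.card G = Nat.card (G ⧸ N) * Nat.card N := Subgroup.card_eq_card_quotient_mul_card_subgroup N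
  have hG0 : 0 < Nat.card G := Nat.card_pos
  have hfinal : Nat.card {C : ConjClasses G // Good π C} * Nat.card G ≤
      Nat.card {C : ConjClasses N // Good π C} * Nat.card {C : ConjClasses (G ⧸ N) // Good π C} * Nat.card G := by
    calc _ ≤ _ := hchain
      _ = _ := by rw [hG]; ring
  exact Nat.le_of_mul_le_mul_right hfinal hG0

end Cfsg.Agent.S4152
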