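import Cfsg.Statements.S4153
import Mathlib
import Cfsg.Agent.Lib.Core.Basic
-- import your own Cfsg.Agent.* helpers here

set_option autoImplicit false
open Cfsg

namespace Cfsg.Agent.S4153

theorem card_sum_fibers {A B : Type*} [Fintype A] [Fintype B] [DecidableEq B] (g : A → B) :
    Nat.card A = ∑ b : B, Nat.card {a : A // g a = b} := by
  classical
  rw [Nat.card_eq_fintype_card, ← Fintype.card_congr (Equiv.sigmaFiberEquiv g), Fintype.card_sigma]
  apply Finset.sum_congr rfl
  intro b _
  rw [Nat.card_eq_fintype_card]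

theorem isPElt_of_mem_sylow {G : Type*} [Group G] {p : ℕ} [Fact p.Prime] (Q : Sylow p G) {a : G}
    (ha : a ∈ (Q : Subgroup G)) : ∃ k : ℕ, orderOf a = p ^ k := by
  obtain ⟨k, hk⟩ := (IsPGroup.iff_orderOf.1 Q.isPGroup') ⟨a, ha⟩
  refine ⟨k, ?_⟩
  rw [← hk]
  simp

theorem card_inf_mul {G : Type*} [Group G] [Finite G] (N : Subgroup G) [N.Normal]
    (Q : Subgroup G) :
    Nat.card (Q.map (QuotientGroup.mk' N)) * Nat.card ↥(Q ⊓ N) = Nat.card Q := by
  classical
  let φ := (QuotientGroup.mk' N).subgroupMap Q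
  have hφ : Function.Surjective φ := (QuotientGroup.mk' N).subgroupMap_surjective Q
  have h1 := Subgroup.card_eq_card_quotient_mul_card_subgroup φ.ker
  have h2 : Nat.card (Q ⧸ φ.ker) = Nat.card (Q.map (QuotientGroup.mk' N)) :=
    Nat.card_congr (QuotientGroup.quotientKerEquivOfSurjective φ hφ).toEquiv
  have h3 : Nat.card φ.ker = Nat.card ↥(Q ⊓ N) := by
    apply Nat.card_congr
    refine
      { toFun := fun x => ⟨x.1.1, x.1.2, ?_⟩
        invFun := fun x => ⟨⟨x.1, x.2.1⟩, ?_⟩
        left_inv := fun x => by ext; rfl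
        right_inv := fun x => by ext; rfl }
    · have h4 : φ x.1 = 1 := x.2
      have h5 : (QuotientGroup.mk' N) x.1.1 = 1 := congrArg Subtype.val h4
      exact (QuotientGroup.eq_one_iff _).1 h5
    · rw [MonoidHom.mem_ker]
      apply Subtype.ext
      exact (QuotientGroup.eq_one_iff _).2 x.2.2
  rw [h1, h2, h3]



/-- Let G be a finite group, p a prime, N a normal subgroup, P a Sylow p-subgroup of G and P̄ a Sylow p-subgroup of G/N. Count the elements of p-power order, the identity included. Then (number of such elements of G/N)/#P̄ ≤ (number of such elements of G)/#P, stated as a cross-multiplied inequality, with equality when N is central. -/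
theorem result {G : Type*} [Group G] [Finite G] (p : ℕ) [Fact p.Prime] (N : Subgroup G) [N.Normal]
    (P : Sylow p G) (Pbar : Sylow p (G ⧸ N)) :
    Nat.card {g : (G ⧸ N) // ∃ k : ℕ, orderOf g = p ^ k} * Nat.card (P : Subgroup G) ≤ Nat.card {g : G // ∃ k : ℕ, orderOf g = p ^ k} * Nat.card (Pbar : Subgroup (G ⧸ N)) ∧
    (N ≤ Subgroup.center G → Nat.card {g : (G ⧸ N) // ∃ k : ℕ, orderOf g = p ^ k} * Nat.card (P : Subgroup G) = Nat.card {g : G // ∃ k : ℕ, orderOf g = p ^ k} * Nat.card (Pbar : Subgroup (G ⧸ N))) := by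
  classical
  haveI : Fintype G := Fintype.ofFinite G
  haveI : Fintype (G ⧸ N) := Fintype.ofFinite _
  let f := QuotientGroup.mk' N
  have hf : Function.Surjective f := QuotientGroup.mk'_surjective N
  let A := {g : G // ∃ k : ℕ, orderOf g = p ^ k}
  let B := {g : (G ⧸ N) // ∃ k : ℕ, orderOf g = p ^ k}
  haveI : Fintype A := Fintype.ofFinite _
  haveI : Fintype B := Fintype.ofFinite _
  let ψ : A → B := fun a => ⟨f a.1, by
    obtain ⟨k, hk⟩ := a.2
    have h1 : orderOf (f a.1) ∣ p ^ k := hk ▸ orderOf_map_dvd f a.1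
    obtain ⟨j, -, hj⟩ := (Nat.dvd_prime_pow Fact.out).1 h1
    exact ⟨j, hj⟩⟩
  have hsum : Nat.card A = ∑ b : B, Nat.card {a : A // ψ a = b} := card_sum_fibers ψ
  set s := Nat.card ↥((P : Subgroup G) ⊓ N) with hs
  have hmap : ∀ Q : Sylow p G, Nat.card ((Q : Subgroup G).map f) = Nat.card (Pbar : Subgroup (G ⧸ N)) := by
    intro Q
    have h1 : Nat.card ((Q : Subgroup G).map f) = Nat.card ((Q.mapSurjective hf : Sylow p (G ⧸ N)) : Subgroup (G ⧸ N)) := rfl
    rw [h1, Sylow.card_eq_multiplicity, Sylow.card_eq_multiplicity]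
  have hPs : Nat.card (Pbar : Subgroup (G ⧸ N)) * s = Nat.card (P : Subgroup G) := by
    rw [← card_inf_mul N (P : Subgroup G), ← hmap P]
  have hQs : ∀ Q : Sylow p G, Nat.card ↥((Q : Subgroup G) ⊓ N) = s := by
    intro Q
    have h1 := card_inf_mul N (Q : Subgroup G)
    have h2 : Nat.card (Q : Subgroup G) = Nat.card (P : Subgroup G) := by
      rw [Sylow.card_eq_multiplicity, Sylow.card_eq_multiplicity]
    rw [h2, ← hPs, show Nat.card ((Q : Subgroup G).map (QuotientGroup.mk' N)) = Nat.card (Pbar : Subgroup (G ⧸ N)) from hmap Q] at h1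
    exact Nat.eq_of_mul_eq_mul_left Nat.card_pos h1
  have hlift : ∀ b : B, ∃ (Q : Sylow p G) (a : G), a ∈ (Q : Subgroup G) ∧ f a = b.1 := by
    rintro ⟨b, k, hk⟩
    have h1 : IsPGroup p (Subgroup.zpowers b) := by
      rw [IsPGroup.iff_card]
      exact ⟨k, by rw [Nat.card_zpowers, hk]⟩
    obtain ⟨R, hR⟩ := h1.exists_le_sylow
    obtain ⟨Q, hQ⟩ := Sylow.mapSurjective_surjective hf p R
    have h2 : b ∈ (R : Subgroup (G ⧸ N)) := hR (Subgroup.mem_zpowers b)
    rw [← hQ] at h2
    obtain ⟨a, ha, hab⟩ := h2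
    exact ⟨Q, a, ha, hab⟩
  have hlow : ∀ b : B, s ≤ Nat.card {a : A // ψ a = b} := by
    intro b
    obtain ⟨Q, a, ha, hab⟩ := hlift b
    rw [← hQs Q]
    refine Nat.card_le_card_of_injective (fun n : ↥((Q : Subgroup G) ⊓ N) =>
      (⟨⟨a * n.1, isPElt_of_mem_sylow Q (Subgroup.mul_mem _ ha n.2.1)⟩, ?_⟩ : {a : A // ψ a = b})) ?_
    · apply Subtype.ext
      show f (a * n.1) = b.1
      rw [map_mul, hab]
      have : f n.1 = 1 := (QuotientGroup.eq_one_iff _).2 n.2.2
      rw [this, mul_one]
    · intro n n' h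
      have h1 : a * n.1 = a * n'.1 := congrArg (fun z : {a : A // ψ a = b} => z.1.1) h
      exact Subtype.ext (mul_left_cancel h1)
  have hmain : Nat.card B * s ≤ Nat.card A := by
    rw [hsum, Nat.card_eq_fintype_card, ← smul_eq_mul, ← Finset.card_univ, ← Finset.sum_const]
    exact Finset.sum_le_sum (fun b _ => hlow b)
  constructor
  · show Nat.card B * _ ≤ Nat.card A * _
    rw [← hPs, mul_comm (Nat.card (Pbar : Subgroup (G ⧸ N))) s, ← mul_assoc]
    exact Nat.mul_le_mul_right _ hmain
  · intro hcen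
    have hup : ∀ b : B, Nat.card {a : A // ψ a = b} ≤ s := by
      intro b
      obtain ⟨Q, a, ha, hab⟩ := hlift b
      rw [← hQs Q]
      obtain ⟨k, hk⟩ := isPElt_of_mem_sylow Q ha
      have hk' : a ^ p ^ k = 1 := by rw [← hk]; exact pow_orderOf_eq_one a
      have hmem : ∀ y : {a : A // ψ a = b}, a⁻¹ * y.1.1 ∈ (Q : Subgroup G) ⊓ N := by
        intro y
        have hyb : f y.1.1 = b.1 := congrArg Subtype.val y.2
        have hn : a⁻¹ * y.1.1 ∈ N := by
          have h1 : f a = f y.1.1 := by rw [hab, hyb]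
          exact QuotientGroup.eq.1 h1
        have hc : a⁻¹ * y.1.1 ∈ Subgroup.center G := hcen hn
        refine ⟨?_, hn⟩
        -- p-element and central
        obtain ⟨l, hl⟩ := y.1.2
        have hl' : y.1.1 ^ p ^ l = 1 := by rw [← hl]; exact pow_orderOf_eq_one _
        set n := a⁻¹ * y.1.1 with hndef
        have hcomm : Commute a n := (Subgroup.mem_center_iff.1 hc a)
        have hy : y.1.1 = a * n := by rw [hndef]; group
        have h1 : n ^ p ^ (k + l) = 1 := by
          have h2 : (a * n) ^ p ^ (k + l) = a ^ p ^ (k + l) * n ^ p ^ (k + l) := hcomm.mul_pow _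
          have h3 : (a * n) ^ p ^ (k + l) = 1 := by
            rw [← hy, add_comm, pow_add, pow_mul, hl']; simp
          have h4 : a ^ p ^ (k + l) = 1 := by
            rw [pow_add, pow_mul, hk']; simp
          rw [h3, h4, one_mul] at h2
          exact h2.symm
        have h2 : IsPGroup p (Subgroup.zpowers n) := by
          rw [IsPGroup.iff_orderOf]
          rintro ⟨z, m, rfl⟩
          have h3 : orderOf (⟨n ^ m, ⟨m, rfl⟩⟩ : Subgroup.zpowers n) ∣ p ^ (k + l) := by
            apply orderOf_dvd_of_pow_eq_one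
            apply Subtype.ext
            simp only [Subgroup.coe_pow, Subgroup.coe_one]
            rw [← zpow_natCast, ← zpow_mul, mul_comm, zpow_mul, zpow_natCast, h1, one_zpow]
          obtain ⟨j, -, hj⟩ := (Nat.dvd_prime_pow Fact.out).1 h3
          exact ⟨j, hj⟩
        have h3 : (Subgroup.zpowers n).Normal := by
          refine ⟨?_⟩
          rintro _ ⟨m, rfl⟩ g
          have h4 : n ^ m ∈ Subgroup.center G := Subgroup.zpow_mem _ hc m
          have h5 := Subgroup.mem_center_iff.1 h4 g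
          show _ ∈ Subgroup.zpowers n
          rw [h5, mul_inv_cancel_right]
          exact ⟨m, rfl⟩
        have h4 := (Cfsg.Agent.Lib.Core.Basic.le_pCore h3 h2).trans (Cfsg.Agent.Lib.Core.Basic.pCore_le_sylow Q)
        exact h4 (Subgroup.mem_zpowers n)
      refine Nat.card_le_card_of_injective (fun y : {a : A // ψ a = b} => ⟨a⁻¹ * y.1.1, hmem y⟩) ?_
      intro y y' h
      have h1 : a⁻¹ * y.1.1 = a⁻¹ * y'.1.1 := congrArg Subtype.val h
      exact Subtype.ext (Subtype.ext (mul_left_cancel h1))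
    have hmain2 : Nat.card A = Nat.card B * s := by
      apply le_antisymm _ hmain
      rw [hsum, Nat.card_eq_fintype_card (α := B), ← smul_eq_mul, ← Finset.card_univ, ← Finset.sum_const]
      exact Finset.sum_le_sum (fun b _ => hup b)
    show Nat.card B * _ = Nat.card A * _
    rw [hmain2, ← hPs]
    ring

end Cfsg.Agent.S4153
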