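import Cfsg.Statements.S4154
import Mathlib
-- import your own Cfsg.Agent.* helpers here

set_option autoImplicit false
open Cfsg

namespace Cfsg.Agent.S4154

/-- Let G be a finite group and α an automorphism of G such that every element of G is the product of an element fixed by α and an element of the form g⁻¹α(g). If N is a normal α-invariant subgroup, then the automorphism ᾱ induced on G/N has the same property, and every coset fixed by ᾱ contains an element fixed by α (so the fixed points of ᾱ are the images of the fixed points of α). -/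
theorem result {G : Type*} [Group G] [Finite G] (α : MulAut G)
    (hccp : ∀ x : G, ∃ c g : G, α c = c ∧ x = c * (g⁻¹ * α g))
    (N : Subgroup G) [N.Normal] (hN : ∀ n ∈ N, α n ∈ N) :
    (∀ x : G, ∃ c g : G, c⁻¹ * α c ∈ N ∧ x⁻¹ * (c * (g⁻¹ * α g)) ∈ N) ∧
    (∀ x : G, x⁻¹ * α x ∈ N → ∃ c : G, α c = c ∧ c⁻¹ * x ∈ N) := by
  classical
  refine ⟨fun x => ?_, fun x hx => ?_⟩
  · obtain ⟨c, g, hc, hx⟩ := hccp x
    refine ⟨c, g, ?_, ?_⟩
    · rw [hc]; simp
    · rw [← hx]; simp
  · have hNn : N.Normal := ‹_›
    let C : Subgroup G :=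
      { carrier := {c | α c = c}
        mul_mem' := by
          intro a b ha hb
          change α a = a at ha
          change α b = b at hb
          change α (a * b) = a * b
          simp [ha, hb]
        one_mem' := by change α 1 = 1; simp
        inv_mem' := by
          intro a ha
          change α a = a at ha
          change α a⁻¹ = a⁻¹
          simp [ha] }
    have hCmem : ∀ c, c ∈ C ↔ α c = c := fun c => Iff.rfl
    let D : Subgroup G :=
      { carrier := {x | x⁻¹ * α x ∈ N}
        mul_mem' := by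
          intro a b ha hb
          change a⁻¹ * α a ∈ N at ha
          change b⁻¹ * α b ∈ N at hb
          change (a * b)⁻¹ * α (a * b) ∈ N
          have : (a * b)⁻¹ * α (a * b) = b⁻¹ * (a⁻¹ * α a) * b⁻¹⁻¹ * (b⁻¹ * α b) := by
            simp [mul_assoc]
          rw [this]
          exact N.mul_mem (hNn.conj_mem _ ha b⁻¹) hb
        one_mem' := by change (1 : G)⁻¹ * α 1 ∈ N; simp
        inv_mem' := by
          intro a ha
          change a⁻¹ * α a ∈ N at ha
          change (a⁻¹)⁻¹ * α a⁻¹ ∈ N
          have : (a⁻¹)⁻¹ * α a⁻¹ = a * (a⁻¹ * α a)⁻¹ * a⁻¹ := by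
            simp [mul_assoc]
          rw [this]
          exact hNn.conj_mem _ (N.inv_mem ha) a }
    have hDmem : ∀ c, c ∈ D ↔ c⁻¹ * α c ∈ N := fun c => Iff.rfl
    have hCD : C ≤ D := by
      intro c hc
      rw [hDmem, (hCmem c).1 hc]; simp
    have hND : N ≤ D := by
      intro n hn
      rw [hDmem]
      exact N.mul_mem (N.inv_mem hn) (hN n hn)
    let q : G →* G ⧸ N := QuotientGroup.mk' N
    let τ : G → G ⧸ N := fun g => q (g⁻¹ * α g)
    have hτ : ∀ a d : G, d ∈ D → τ (d * a) = τ a := by
      intro a d hd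
      simp only [τ, q, QuotientGroup.mk'_apply]
      rw [QuotientGroup.eq]
      have e : ((d * a)⁻¹ * α (d * a))⁻¹ * (a⁻¹ * α a) = (α a)⁻¹ * (d⁻¹ * α d)⁻¹ * ((α a)⁻¹)⁻¹ := by
        simp only [map_mul, mul_inv_rev, inv_inv, mul_assoc, mul_inv_cancel_left]
      rw [e]
      exact hNn.conj_mem _ (N.inv_mem ((hDmem d).1 hd)) (α a)⁻¹
    let Cbar : Subgroup (G ⧸ N) := C.map q
    let Dbar : Subgroup (G ⧸ N) := D.map q
    have hCDbar : Cbar ≤ Dbar := Subgroup.map_mono hCD
    -- surjection
    let Ψ : Cbar × (G ⧸ D) → G ⧸ N := fun w => (w.1 : G ⧸ N) * τ ((Quotient.out w.2)⁻¹)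
    have hΨ : Function.Surjective Ψ := by
      intro y
      obtain ⟨x', rfl⟩ := QuotientGroup.mk_surjective y
      obtain ⟨c, g, hc, rfl⟩ := hccp x'
      refine ⟨(⟨q c, Subgroup.mem_map_of_mem q ((hCmem c).2 hc)⟩, ((g⁻¹ : G) : G ⧸ D)), ?_⟩
      simp only [Ψ]
      have h1 : (Quotient.out (((g⁻¹ : G) : G ⧸ D)))⁻¹ = ((Quotient.out (((g⁻¹ : G) : G ⧸ D)))⁻¹ * g⁻¹) * g := by
        group
      have h2 : (Quotient.out (((g⁻¹ : G) : G ⧸ D)))⁻¹ * g⁻¹ ∈ D := by
        have := QuotientGroup.eq.1 (QuotientGroup.out_eq' (((g⁻¹ : G) : G ⧸ D)))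
        exact this
      rw [h1, hτ g _ h2]
      simp only [τ, map_mul]
      rfl
    have hcard1 : Nat.card (G ⧸ N) ≤ Nat.card Cbar * Nat.card (G ⧸ D) := by
      rw [← Nat.card_prod]
      exact Nat.card_le_card_of_surjective Ψ hΨ
    have hcardG : Nat.card (G ⧸ N) * Nat.card N = Nat.card G := (Subgroup.card_mul_index N ▸ by
      rw [mul_comm]; rfl)
    have hcardD : Nat.card D * Nat.card (G ⧸ D) = Nat.card G := Subgroup.card_mul_index D
    have hcardDbar : Nat.card Dbar * Nat.card N = Nat.card D := by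
      -- D → Dbar is surjective with kernel N
      have hsurj : Function.Surjective (q.subgroupMap D) := MonoidHom.subgroupMap_surjective q D
      have h := Subgroup.card_eq_card_quotient_mul_card_subgroup (q.subgroupMap D).ker
      have h3 : Nat.card (D ⧸ (q.subgroupMap D).ker) = Nat.card Dbar :=
        Nat.card_congr (QuotientGroup.quotientKerEquivOfSurjective _ hsurj).toEquiv
      have h4 : Nat.card (q.subgroupMap D).ker = Nat.card N := by
        have : (q.subgroupMap D).ker = N.subgroupOf D := by
          ext d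
          simp only [MonoidHom.mem_ker, Subgroup.mem_subgroupOf]
          constructor
          · intro hd
            have h5 : q (d : G) = 1 := congrArg Subtype.val hd
            exact (QuotientGroup.eq_one_iff _).1 h5
          · intro hd
            apply Subtype.ext
            exact (QuotientGroup.eq_one_iff _).2 hd
        rw [this]
        exact Nat.card_congr (Subgroup.subgroupOfEquivOfLe hND).toEquiv
      rw [h, h3, h4]
    have hpos : 0 < Nat.card N := Nat.card_pos
    have hposD : 0 < Nat.card (G ⧸ D) := Nat.card_pos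
    have hle : Nat.card Dbar ≤ Nat.card Cbar := by
      have e1 : Nat.card Dbar * Nat.card (G ⧸ D) * Nat.card N = Nat.card (G ⧸ N) * Nat.card N := by
        rw [hcardG, ← hcardD, ← hcardDbar]; ring
      have e2 : Nat.card Dbar * Nat.card (G ⧸ D) = Nat.card (G ⧸ N) := Nat.eq_of_mul_eq_mul_right hpos e1
      rw [← e2] at hcard1
      exact Nat.le_of_mul_le_mul_right hcard1 hposD
    have heq : Cbar = Dbar := by
      refine Subgroup.eq_of_le_of_card_ge hCDbar hle
    have hxD : q x ∈ Dbar := Subgroup.mem_map_of_mem q ((hDmem x).2 hx)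
    rw [← heq] at hxD
    obtain ⟨c, hc, hcx⟩ := hxD
    refine ⟨c, (hCmem c).1 hc, ?_⟩
    exact QuotientGroup.eq.1 hcx

end Cfsg.Agent.S4154
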