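import Cfsg.Statements.S4156
import Mathlib

set_option autoImplicit false
open Cfsg

namespace Cfsg.Agent.S4156

open Equiv

variable {F : Type*} [Field F] {n : ℕ}

/-- The matrix of a permutation on the quotient of the permutation module by the constants. -/
def M (F : Type*) [Field F] {n : ℕ} (σ : Perm (Fin (n + 1))) : Matrix (Fin n) (Fin n) F :=
  fun i j => (if σ j.castSucc = i.castSucc then 1 else 0) - (if σ j.castSucc = Fin.last n then 1 else 0)

theorem sum_delta (σ : Perm (Fin (n + 1))) (x : Fin (n + 1)) :
    (∑ j : Fin n, (if σ j.castSucc = x then (1 : F) else 0)) =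
      1 - (if σ (Fin.last n) = x then 1 else 0) := by
  have h1 : (∑ j : Fin (n + 1), (if σ j = x then (1 : F) else 0)) = 1 := by
    have : (∑ j : Fin (n + 1), (if σ j = x then (1 : F) else 0)) =
        ∑ j : Fin (n + 1), (if j = σ.symm x then (1 : F) else 0) := by
      refine Finset.sum_congr rfl (fun j _ => ?_)
      simp only [Equiv.eq_symm_apply]
    rw [this]
    simp
  rw [Fin.sum_univ_castSucc] at h1
  exact eq_sub_of_add_eq h1

theorem key (σ : Perm (Fin (n + 1))) (i : Fin n) (t : Fin (n + 1)) :
    ((if σ t = i.castSucc then (1 : F) else 0) - if σ t = Fin.last n then 1 else 0) =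
      ∑ j : Fin n, ((if σ j.castSucc = i.castSucc then (1 : F) else 0) - if σ j.castSucc = Fin.last n then 1 else 0) *
        ((if t = j.castSucc then 1 else 0) - if t = Fin.last n then 1 else 0) := by
  induction t using Fin.lastCases with
  | last =>
    have hne : ∀ j : Fin n, (Fin.last n) ≠ j.castSucc := fun j => (Fin.castSucc_lt_last j).ne'
    simp only [hne, if_false, if_true, zero_sub, mul_neg, mul_one]
    simp only [neg_sub]
    rw [Finset.sum_sub_distrib, sum_delta, sum_delta]
    ring
  | cast j₀ =>
    have hne : j₀.castSucc ≠ Fin.last n := (Fin.castSucc_lt_last j₀).ne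
    simp only [hne, if_false, sub_zero, Fin.castSucc_inj, mul_ite, mul_one, mul_zero]
    simp

theorem M_mul (σ τ : Perm (Fin (n + 1))) : M F (σ * τ) = M F σ * M F τ := by
  ext i k
  rw [Matrix.mul_apply]
  simp only [M, Perm.mul_apply]
  exact key σ i (τ k.castSucc)

theorem M_one : M F (1 : Perm (Fin (n + 1))) = 1 := by
  ext i j
  have hne : j.castSucc ≠ Fin.last n := (Fin.castSucc_lt_last j).ne
  simp only [M, Perm.one_apply, hne, if_false, sub_zero, Fin.castSucc_inj, Matrix.one_apply]
  by_cases h : i = j
  · simp [h]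
  · simp [h, Ne.symm h]

/-- The monoid hom to matrices. -/
def MHom (F : Type*) [Field F] (n : ℕ) : Perm (Fin (n + 1)) →* Matrix (Fin n) (Fin n) F where
  toFun := M F
  map_one' := M_one
  map_mul' := M_mul

theorem det_M_of_mem (σ : Perm (Fin (n + 1))) (hσ : σ ∈ alternatingGroup (Fin (n + 1))) :
    (M F σ).det = 1 := by
  let d : Perm (Fin (n + 1)) →* F := (Matrix.detMonoidHom).comp (MHom F n)
  have hd : ∀ x, d x = (M F x).det := fun x => rfl
  have hinv : ∀ x, d x * d x⁻¹ = 1 := by
    intro x
    rw [← map_mul, mul_inv_cancel, map_one]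
  have hconj : ∀ x g, d (g * x * g⁻¹) = d x := by
    intro x g
    rw [map_mul, map_mul, mul_comm (d g), mul_assoc, hinv, mul_one]
  have h3 : ∀ c : Perm (Fin (n + 1)), c.IsThreeCycle → d c = 1 := by
    intro c hc
    have hc3 : c ^ 3 = 1 := hc.orderOf ▸ pow_orderOf_eq_one c
    have h1 : d c ^ 3 = 1 := by rw [← map_pow, hc3, map_one]
    have hcc : IsConj c c⁻¹ := by
      rw [Perm.isConj_iff_cycleType_eq, Perm.cycleType_inv]
    obtain ⟨g, hg⟩ := isConj_iff.mp hcc
    have h2 : d c⁻¹ = d c := by rw [← hg, hconj]
    have h4 : d c * d c = 1 := by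
      have := hinv c
      rwa [h2] at this
    calc d c = d c * (d c * d c) := by rw [h4, mul_one]
      _ = d c ^ 3 := by ring
      _ = 1 := h1
  rw [← hd]
  have hcl := Equiv.Perm.closure_three_cycles_eq_alternating (α := Fin (n + 1))
  rw [← hcl] at hσ
  induction hσ using Subgroup.closure_induction with
  | mem x hx => exact h3 x hx
  | one => exact map_one d
  | mul x y _ _ hx hy => rw [map_mul, hx, hy, mul_one]
  | inv x _ hx =>
    have := hinv x
    rwa [hx, one_mul] at this

/-- The hom to `SL`. -/
noncomputable def SLHom (F : Type*) [Field F] (n : ℕ) :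
    alternatingGroup (Fin (n + 1)) →* Matrix.SpecialLinearGroup (Fin n) F where
  toFun σ := ⟨M F (σ : Perm (Fin (n + 1))), det_M_of_mem _ σ.2⟩
  map_one' := Subtype.ext (M_one (F := F))
  map_mul' := fun x y => Subtype.ext (M_mul (F := F) (x : Perm (Fin (n + 1))) (y : Perm (Fin (n + 1))))

theorem last_or_cast (t : Fin (n + 1)) : t = Fin.last n ∨ ∃ i : Fin n, t = i.castSucc := by
  induction t using Fin.lastCases with
  | last => exact Or.inl rfl
  | cast i => exact Or.inr ⟨i, rfl⟩

theorem eq_one_of_scalar (hn : 2 ≤ n) (σ : Perm (Fin (n + 1))) (r : F)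
    (h : Matrix.scalar (Fin n) r = M F σ) : σ = 1 := by
  have hoff : ∀ i j : Fin n, i ≠ j → M F σ i j = 0 := by
    intro i j hij
    rw [← h]
    simp [hij, Matrix.scalar_apply]
  -- no point of `Fin n` goes to the last point
  have h1 : ∀ j : Fin n, σ j.castSucc ≠ Fin.last n := by
    intro j hj
    obtain ⟨i, hij⟩ : ∃ i : Fin n, i ≠ j := by
      haveI : Nontrivial (Fin n) := Fin.nontrivial_iff_two_le.mpr hn
      exact exists_ne j
    have := hoff i j hij
    simp only [M, hj, if_true] at this
    have hne : Fin.last n ≠ i.castSucc := (Fin.castSucc_lt_last i).ne'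
    simp [hne] at this
  have h2 : ∀ j : Fin n, σ j.castSucc = j.castSucc := by
    intro j
    rcases last_or_cast (σ j.castSucc) with hx | ⟨i, hx⟩
    · exact absurd hx (h1 j)
    · by_cases hij : i = j
      · rw [hx, hij]
      · have := hoff i j hij
        simp [M, hx] at this
  have h3 : σ (Fin.last n) = Fin.last n := by
    by_contra hne
    rcases last_or_cast (σ (Fin.last n)) with hx | ⟨i, hx⟩
    · exact hne hx
    · have h4 := h2 i
      have : σ i.castSucc = σ (Fin.last n) := by rw [h4, hx]
      have := σ.injective this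
      exact (Fin.castSucc_lt_last i).ne this
  ext x
  induction x using Fin.lastCases with
  | last => simp [h3]
  | cast j => simp [h2 j]

/-- Let n ≥ 5 and F a finite field. Then the projective special linear group PSL_n(F) contains a subgroup isomorphic to the alternating group of degree n + 1. -/
theorem result (n : ℕ) (hn : 5 ≤ n) (F : Type*) [Field F] [Finite F] :
    ∃ f : alternatingGroup (Fin (n + 1)) →* Matrix.ProjectiveSpecialLinearGroup (Fin n) F, Function.Injective f := by
  refine ⟨(QuotientGroup.mk' _).comp (SLHom F n), ?_⟩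
  rw [injective_iff_map_eq_one]
  intro σ hσ
  have h1 : SLHom F n σ ∈ Subgroup.center (Matrix.SpecialLinearGroup (Fin n) F) := by
    have := (QuotientGroup.eq_one_iff (N := Subgroup.center (Matrix.SpecialLinearGroup (Fin n) F))
      (SLHom F n σ)).mp hσ
    exact this
  rw [Matrix.SpecialLinearGroup.mem_center_iff] at h1
  obtain ⟨r, _, hr⟩ := h1
  have h2 := eq_one_of_scalar (by omega : 2 ≤ n) (σ : Perm (Fin (n + 1))) r hr
  exact Subtype.ext h2

end Cfsg.Agent.S4156
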