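import Cfsg.Statements.S4157
import Mathlib
import Cfsg.Agent.Lib.FG7.KulakoffB

set_option autoImplicit false
open Cfsg

namespace Cfsg.Agent.S4157

/-- Let G be a finite p-group of order p^m that is not cyclic and, when p = 2, not of maximal class (nilpotency class m − 1). Then for every 1 ≤ k < m the number of subgroups of G of order p^k is congruent to 1 + p modulo p². -/
theorem result {G : Type*} [Group G] [Finite G] {p : ℕ} [Fact p.Prime] (m : ℕ)
    (hG : Nat.card G = p ^ m) (hnc : ¬ IsCyclic G) (h2 : p = 2 → Group.nilpotencyClass G ≠ m - 1)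
    (k : ℕ) (hk1 : 1 ≤ k) (hk2 : k < m) :
    Nat.card {H : Subgroup G // Nat.card H = p ^ k} ≡ 1 + p [MOD p ^ 2] := by
  have hpf : p.Prime := Fact.out
  refine Cfsg.Agent.Lib.FG7.KulakoffB.kulakoff m G hG hnc ?_ k hk1 hk2
  intro hp2 h4
  subst hp2
  have hGp : IsPGroup 2 G := IsPGroup.of_card hG
  haveI := hGp.isNilpotent
  by_cases hm : 3 ≤ m
  · exact h2 rfl (Cfsg.Agent.Lib.PGroups.MaximalClass.class_of_index_commutator_eq_four hm hG h4)
  · have h1 := Subgroup.card_mul_index (commutator G)
    rw [h4, hG] at h1
    have hm2 : m = 2 := by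
      interval_cases m <;> omega
    subst hm2
    have hc : Nat.card (commutator G) = 1 := by omega
    have hbot : commutator G = ⊥ := Subgroup.card_eq_one.mp hc
    have hle : Group.nilpotencyClass G ≤ 1 := by
      rw [← lowerCentralSeries_eq_bot_iff_nilpotencyClass_le, Subgroup.top_lowerCentralSeries_one]
      exact hbot
    have hne : Group.nilpotencyClass G ≠ 0 := by
      intro h0
      rw [Group.nilpotencyClass_zero_iff_subsingleton] at h0
      have := Nat.card_of_subsingleton (1 : G)
      omega
    apply h2 rfl
    omega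

end Cfsg.Agent.S4157
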