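import Cfsg.Statements.S4168

set_option autoImplicit false
open Cfsg

namespace Cfsg.Agent.S4168

/-- Let L be a finite quasisimple group (perfect with L/Z(L) simple). Then every prime dividing the order of the centre Z(L) also divides the order of L/Z(L). -/
theorem result {L : Type*} [Group L] [Finite L] (hL : Cfsg.IsQuasisimple L)
    (p : ℕ) (hp : p.Prime) (hdiv : p ∣ Nat.card (Subgroup.center L)) : p ∣ (Subgroup.center L).index := by
  classical
  by_contra hnd
  haveI : Fact p.Prime := ⟨hp⟩
  obtain ⟨z', hz'⟩ := exists_prime_orderOf_dvd_card' p hdiv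
  set z : L := (z' : L) with hz
  have hzc : z ∈ Subgroup.center L := z'.2
  have hord : orderOf z = p := by
    rw [hz, Subgroup.orderOf_coe]; exact hz'
  have hpg : IsPGroup p (Subgroup.zpowers z) := by
    rw [IsPGroup.iff_card, Nat.card_zpowers, hord]
    exact ⟨1, (pow_one p).symm⟩
  obtain ⟨P, hP⟩ := hpg.exists_le_sylow
  have hzP : z ∈ (P : Subgroup L) := hP (Subgroup.mem_zpowers z)
  -- P lies in the centre
  have hPZ : (P : Subgroup L) ≤ Subgroup.center L := by
    intro x hx
    obtain ⟨n, hn⟩ := P.isPGroup' ⟨x, hx⟩
    have h1 : x ^ p ^ n = 1 := by simpa using congrArg Subtype.val hn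
    have h2 : orderOf x ∣ p ^ n := orderOf_dvd_of_pow_eq_one h1
    have hcop : ((Subgroup.center L).index).Coprime (orderOf x) := by
      apply Nat.Coprime.coprime_dvd_right h2
      apply Nat.Coprime.pow_right
      exact (Nat.Coprime.symm ((Nat.Prime.coprime_iff_not_dvd hp).mpr hnd))
    obtain ⟨m, hm⟩ := exists_pow_eq_self_of_coprime hcop
    rw [← hm]
    exact pow_mem (Subgroup.pow_index_mem _ x) m
  have hcent : Subgroup.normalizer ((P : Subgroup L) : Set L) ≤ Subgroup.centralizer ((P : Subgroup L) : Set L) := by
    intro g _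
    rw [Subgroup.mem_centralizer_iff]
    intro y hy
    exact (Subgroup.mem_center_iff.mp (hPZ hy)) g |>.symm ▸ rfl
  have hfin : (P : Subgroup L).FiniteIndex := inferInstance
  set f := MonoidHom.transferSylow P hcent with hf
  have hker : commutator L ≤ f.ker := by
    rw [commutator_def, Subgroup.commutator_le]
    intro a _ b _
    rw [MonoidHom.mem_ker, map_commutatorElement]
    apply Subtype.ext
    have hc := (Subgroup.mem_center_iff.mp (hPZ (f a).2)) (f b)
    simp only [commutatorElement_def, Subgroup.coe_mul, Subgroup.coe_inv, Subgroup.coe_one]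
    rw [← hc]
    group
  have htop : f.ker = ⊤ := by
    apply top_le_iff.mp
    rw [← hL.1.commutator_eq_top]
    exact hker
  have hfz : f z = 1 := by
    have : z ∈ f.ker := by rw [htop]; trivial
    exact this
  have hpow := MonoidHom.transferSylow_eq_pow P hcent z hzP
  rw [← hf, hfz] at hpow
  have hz1 : z ^ (P : Subgroup L).index = 1 := (congrArg Subtype.val hpow).symm
  have hdvd : p ∣ (P : Subgroup L).index := by
    have := orderOf_dvd_of_pow_eq_one hz1
    rwa [hord] at this
  exact P.not_dvd_index hdvd

end Cfsg.Agent.S4168
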