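import Cfsg.Statements.S4169
import Mathlib
import Cfsg.Agent.Lib.FG7.SmallClasses

set_option autoImplicit false
open Cfsg

namespace Cfsg.Agent.S4169

/-- Let P be a finite p-group whose conjugacy classes have exactly two sizes (1 and one other value). Then P has nilpotency class at most 3. -/
theorem result {P : Type*} [Group P] [Finite P] {p : ℕ} [Fact p.Prime] (hP : IsPGroup p P)
    (m : ℕ) (hm : 1 < m) (h : ∀ x : P, (Subgroup.centralizer ({x} : Set P)).index = 1 ∨ (Subgroup.centralizer ({x} : Set P)).index = m) :
    upperCentralSeries P 3 = ⊤ := by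
  exact Cfsg.Agent.Lib.FG7.SmallClasses.ishikawa hP m h

end Cfsg.Agent.S4169
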