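import Cfsg.Statements.S4170
import Mathlib


set_option autoImplicit false
open scoped Pointwise
open Cfsg

namespace Cfsg.Agent.S4170

/-- Let p be an odd prime and G a nontrivial group of permutations of a finite set Ω that is generated by its elements of p-power order. Then Ω has two disjoint nonempty subsets Δ₁ and Δ₂ such that the index in G of the subgroup of elements mapping Δ₁ onto Δ₁ and Δ₂ onto Δ₂ (and hence also the complement of their union onto itself) is divisible by p. -/
theorem result {Ω : Type*} [Fintype Ω] (p : ℕ) [Fact p.Prime] (hp : p ≠ 2) (G : Subgroup (Equiv.Perm Ω)) (hG : G ≠ ⊥) (hgen : Subgroup.closure {g : G | ∃ k : ℕ, orderOf g = p ^ k} = ⊤) :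
    ∃ Δ₁ Δ₂ : Set Ω, Δ₁.Nonempty ∧ Δ₂.Nonempty ∧ Disjoint Δ₁ Δ₂ ∧ p ∣ (MulAction.stabilizer G Δ₁ ⊓ MulAction.stabilizer G Δ₂).index := by
  classical
  -- a nontrivial p-element gives `p ∣ |G|`
  have hp1 : ∃ g : G, g ≠ 1 ∧ ∃ k : ℕ, orderOf g = p ^ k := by
    by_contra hcon
    push Not at hcon
    have hsub : {g : G | ∃ k : ℕ, orderOf g = p ^ k} ⊆ {1} := by
      intro g hg
      by_contra hne
      exact hcon g hne _ hg.choose_spec
    have : (⊤ : Subgroup G) ≤ ⊥ := by
      rw [← hgen, Subgroup.closure_le]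
      simpa using hsub
    have h2 : ∀ g : G, g = 1 := fun g => by
      have := this (Subgroup.mem_top g)
      simpa using this
    apply hG
    rw [eq_bot_iff]
    intro x hx
    have := h2 ⟨x, hx⟩
    simpa [Subtype.ext_iff] using this
  obtain ⟨g0, hg0, k0, hk0⟩ := hp1
  have hp0 : (p).Prime := Fact.out
  obtain ⟨P⟩ : Nonempty (Sylow p G) := inferInstance
  have hPne : ∃ x ∈ (P : Subgroup G), x ≠ 1 := by
    by_contra hcon
    push Not at hcon
    have hbot : (P : Subgroup G) = ⊥ := by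
      rw [eq_bot_iff]; intro x hx; simpa using hcon x hx
    have hk0' : k0 ≠ 0 := by
      rintro rfl
      apply hg0
      simpa using hk0
    have hdvd : p ∣ Nat.card G := by
      have h1 : p ∣ orderOf g0 := by rw [hk0]; exact dvd_pow_self p hk0'
      exact h1.trans (orderOf_dvd_natCard g0)
    have hidx : (P : Subgroup G).index = Nat.card G := by
      rw [hbot]; exact Subgroup.index_bot
    apply P.not_dvd_index
    rw [hidx]; exact hdvd
  -- key fact: subgroups of index prime to `p` contain a Sylow subgroup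
  have hsyl : ∀ H : Subgroup G, ¬ p ∣ H.index → ∃ Q : Sylow p G, (Q : Subgroup G) ≤ H := by
    intro H hH
    have hcard : Nat.card (Sylow p H) ≠ 0 := Nat.card_pos.ne'
    obtain ⟨Q0⟩ : Nonempty (Sylow p H) := inferInstance
    have hQ0 : IsPGroup p ((Q0 : Subgroup H).map H.subtype) :=
      Q0.isPGroup'.map H.subtype
    have hidx : ¬ p ∣ ((Q0 : Subgroup H).map H.subtype).index := by
      rw [Subgroup.index_map_subtype, mul_comm]
      intro hd
      rcases (hp0.dvd_mul).1 hd with hd | hd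
      · exact hH hd
      · exact Q0.not_dvd_index hd
    refine ⟨hQ0.toSylow hidx, ?_⟩
    rw [IsPGroup.toSylow_coe]
    exact Subgroup.map_subtype_le _
  -- fixed point set of `P`
  set Γ : Set Ω := {ω | ∀ x ∈ (P : Subgroup G), (x : Equiv.Perm Ω) ω = ω} with hΓ
  -- P moves a point
  obtain ⟨x0, hx0P, hx0⟩ := hPne
  have hβ : ∃ β : Ω, β ∉ Γ := by
    have hne : (x0 : Equiv.Perm Ω) ≠ 1 := by
      intro h; exact hx0 (Subtype.ext h)
    obtain ⟨β, hβ⟩ : ∃ β, (x0 : Equiv.Perm Ω) β ≠ β := by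
      by_contra hcon
      push Not at hcon
      exact hne (Equiv.ext hcon)
    exact ⟨β, fun hmem => hβ (hmem x0 hx0P)⟩
  obtain ⟨β, hβΓ⟩ := hβ
  by_cases hΓne : Γ.Nonempty
  · -- main case: Δ₁ = Γ, Δ₂ = {β}
    refine ⟨Γ, {β}, hΓne, Set.singleton_nonempty β, ?_, ?_⟩
    · rw [Set.disjoint_singleton_right]; exact hβΓ
    · by_contra hnd
      obtain ⟨Q, hQ⟩ := hsyl _ hnd
      set K : Subgroup G := MulAction.stabilizer G Γ with hK
      have hQK : (Q : Subgroup G) ≤ K := hQ.trans inf_le_left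
      have hPK : (P : Subgroup G) ≤ K := by
        intro x hx
        rw [hK, MulAction.mem_stabilizer_iff]
        ext ω
        constructor
        · rintro ⟨w, hw, rfl⟩
          have : (x : Equiv.Perm Ω) w = w := hw x hx
          show (x : Equiv.Perm Ω) w ∈ Γ
          rw [this]; exact hw
        · intro hω
          refine ⟨ω, hω, hω x hx⟩
      obtain ⟨h, hh⟩ := MulAction.exists_smul_eq K (P.subtype hPK) (Q.subtype hQK)
      -- h fixes Γ, conjugates P to Q
      have hhΓ : ∀ ω ∈ Γ, ((h : G) : Equiv.Perm Ω) ω ∈ Γ := by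
        intro ω hω
        have hs : (h : G) • Γ = Γ := h.2
        have : ((h : G) : Equiv.Perm Ω) ω ∈ (h : G) • Γ := ⟨ω, hω, rfl⟩
        rwa [hs] at this
      have hhΓ' : ∀ ω, ((h : G) : Equiv.Perm Ω) ω ∈ Γ → ω ∈ Γ := by
        intro ω hω
        have hs : (h : G) • Γ = Γ := h.2
        rw [← hs] at hω
        obtain ⟨w, hw, hwe⟩ := hω
        have : w = ω := ((h : G) : Equiv.Perm Ω).injective hwe
        rwa [← this]
      -- conjugates
      have hconj : ∀ x ∈ (P : Subgroup G), (h : G) * x * (h : G)⁻¹ ∈ (Q : Subgroup G) := by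
        intro x hx
        have h1 : (⟨x, hPK hx⟩ : K) ∈ ((P.subtype hPK : Sylow p K) : Subgroup K) := by
          rw [Sylow.coe_subtype, Subgroup.mem_subgroupOf]; exact hx
        have h2 : h * (⟨x, hPK hx⟩ : K) * h⁻¹ ∈ ((h • (P.subtype hPK) : Sylow p K) : Subgroup K) := by
          rw [Sylow.coe_subgroup_smul]
          exact Subgroup.mem_pointwise_smul_iff_inv_smul_mem.mpr (by simpa [MulAut.conj_apply, mul_assoc] using h1)
        rw [hh, Sylow.coe_subtype, Subgroup.mem_subgroupOf] at h2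
        simpa using h2
      apply hβΓ
      have hfix : ∀ y ∈ (Q : Subgroup G), (y : Equiv.Perm Ω) β = β := by
        intro y hy
        have h1 : y • ({β} : Set Ω) = {β} := (hQ hy).2
        have h2 : (y : Equiv.Perm Ω) β ∈ y • ({β} : Set Ω) := ⟨β, rfl, rfl⟩
        rw [h1] at h2
        exact h2
      have hmem : ((h : G) : Equiv.Perm Ω)⁻¹ β ∈ Γ := by
        intro x hx
        have h3 := hfix _ (hconj x hx)
        have h4 : ((h : G) : Equiv.Perm Ω) ((x : Equiv.Perm Ω) (((h : G) : Equiv.Perm Ω)⁻¹ β)) = β := by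
          simpa [Subgroup.coe_mul, Equiv.Perm.mul_apply] using h3
        have h5 := congrArg (fun z => (((h : G) : Equiv.Perm Ω)⁻¹) z) h4
        simpa using h5
      have := hhΓ _ hmem
      simpa using this
  · -- no fixed points
    have hg0' : (g0 : Equiv.Perm Ω) ≠ 1 := by
      intro h; exact hg0 (Subtype.ext h)
    obtain ⟨ω, hω⟩ : ∃ ω, (g0 : Equiv.Perm Ω) ω ≠ ω := by
      by_contra hcon
      push Not at hcon
      exact hg0' (Equiv.ext hcon)
    refine ⟨{ω}, {(g0 : Equiv.Perm Ω) ω}, Set.singleton_nonempty _, Set.singleton_nonempty _, ?_, ?_⟩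
    · rw [Set.disjoint_singleton]; exact fun h => hω h.symm
    · by_contra hnd
      obtain ⟨Q, hQ⟩ := hsyl _ hnd
      apply hΓne
      obtain ⟨h, hh⟩ := MulAction.exists_smul_eq G P Q
      refine ⟨((h : G) : Equiv.Perm Ω)⁻¹ ω, ?_⟩
      intro x hx
      have hxQ : h * x * h⁻¹ ∈ (Q : Subgroup G) := by
        rw [← hh, Sylow.coe_subgroup_smul]
        exact Subgroup.mem_pointwise_smul_iff_inv_smul_mem.mpr (by simpa [MulAut.conj_apply, mul_assoc] using hx)
      have h1 : (h * x * h⁻¹) • ({ω} : Set Ω) = {ω} := (hQ hxQ).1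
      have h2 : ((h * x * h⁻¹ : G) : Equiv.Perm Ω) ω ∈ (h * x * h⁻¹) • ({ω} : Set Ω) := ⟨ω, rfl, rfl⟩
      rw [h1] at h2
      have h3 : ((h * x * h⁻¹ : G) : Equiv.Perm Ω) ω = ω := h2
      have h4 : ((h : G) : Equiv.Perm Ω) ((x : Equiv.Perm Ω) (((h : G) : Equiv.Perm Ω)⁻¹ ω)) = ω := by
        simpa [Subgroup.coe_mul, Equiv.Perm.mul_apply] using h3
      have h5 := congrArg (fun z => (((h : G) : Equiv.Perm Ω)⁻¹) z) h4
      simpa using h5

end Cfsg.Agent.S4170
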