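import Cfsg.Statements.S4172
import Mathlib
import Cfsg.Agent.Lib.FG7.Tate2Gen

set_option autoImplicit false
open Cfsg
open scoped commutatorElement

namespace Cfsg.Agent.S4172

/-- Let p be a prime and G a finite group with a non-commutative Sylow p-subgroup P whose Frattini subgroup has index p² in P (P is generated by two elements). Suppose G has no nontrivial normal subgroup of order prime to p and the Frattini subgroup of P contains no nontrivial normal subgroup of G. Then the generalized Fitting subgroup F*(G) is the unique minimal normal subgroup of G, the image of P in G/F*(G) is cyclic, and if F*(G) is not commutative then P permutes the components of G transitively by conjugation. -/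
theorem result {G : Type*} [Group G] [Finite G] (p : ℕ) [Fact p.Prime] (P : Sylow p G) (hna : ¬ IsMulCommutative (P : Subgroup G)) (hgen : (frattini ↥(P : Subgroup G)).index = p ^ 2) (hcore : Cfsg.pPrimeCore p G = ⊥) (hfrat : ((frattini ↥(P : Subgroup G)).map (P : Subgroup G).subtype).normalCore = ⊥) [hFn : (Cfsg.generalizedFittingSubgroup G).Normal] :
    (Cfsg.generalizedFittingSubgroup G ≠ ⊥ ∧ ∀ K : Subgroup G, K.Normal → K ≠ ⊥ → Cfsg.generalizedFittingSubgroup G ≤ K) ∧
      IsCyclic ↥((P : Subgroup G).map (QuotientGroup.mk' (Cfsg.generalizedFittingSubgroup G))) ∧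
      (¬ IsMulCommutative (Cfsg.generalizedFittingSubgroup G) → ∀ K L : Subgroup G, Cfsg.IsComponent K → Cfsg.IsComponent L → ∃ x ∈ (P : Subgroup G), L = K.map (MulAut.conj x).toMonoidHom) := by
  classical
  have hfr : (Cfsg.Agent.Lib.FG7.Tate2Gen.frat P).normalCore = ⊥ := hfrat
  let M : Subgroup G := Cfsg.Agent.Lib.FG7.Tate2Gen.minNormal G
  have hMn : M.Normal := Cfsg.Agent.Lib.FG7.Tate2Gen.minNormal_normal
  have hDM := Cfsg.Agent.Lib.FG7.Tate2Gen.der_le_minNormal P hgen hcore hfr
  have hMne : M ≠ ⊥ := by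
    intro h
    apply Cfsg.Agent.Lib.FG7.Tate2Gen.der_ne_bot P hna
    rw [eq_bot_iff]
    exact hDM.trans (le_of_eq h)
  have hMmin : ∀ N : Subgroup G, N.Normal → N ≠ ⊥ → M ≤ N :=
    fun N hN hne => Cfsg.Agent.Lib.FG7.Tate2Gen.minNormal_le hN hne
  have hdich : ⁅M, M⁆ = ⊥ ∨ ⁅M, M⁆ = M := by
    by_cases h : ⁅M, M⁆ = ⊥
    · exact Or.inl h
    · exact Or.inr (le_antisymm (Subgroup.commutator_le_left M M) (hMmin _ inferInstance h))
  have hF : Cfsg.generalizedFittingSubgroup G = M := by
    rcases hdich with h | h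
    · exact Cfsg.Agent.Lib.FG7.Tate2Gen.genFit_eq_of_abelian P hna hgen hcore hfr M hMne hMmin h
    · exact (Cfsg.Agent.Lib.FG7.Tate2Gen.genFit_eq_of_perfect hcore M hMne hMmin h).2
  have hFne : Cfsg.generalizedFittingSubgroup G ≠ ⊥ := by
    rw [hF]
    exact hMne
  refine ⟨⟨hFne, fun K hK hKne => ?_⟩,
    Cfsg.Agent.Lib.FG7.Tate2Gen.isCyclic_map P hgen _
      (Cfsg.Agent.Lib.FG7.Tate2Gen.not_inf_le_frat P hcore hfr _ hFne), fun hnc K L hK hL => ?_⟩
  · rw [hF]
    exact hMmin K hK hKne
  · rcases hdich with h | h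
    · exfalso
      apply hnc
      refine ⟨⟨fun a b => Subtype.ext ?_⟩⟩
      have ha : (a : G) ∈ M := hF ▸ a.2
      have hb : (b : G) ∈ M := hF ▸ b.2
      have h2 : ⁅(a : G), (b : G)⁆ ∈ ⁅M, M⁆ := Subgroup.commutator_mem_commutator ha hb
      rw [h, Subgroup.mem_bot, commutatorElement_eq_one_iff_mul_comm] at h2
      simpa using h2
    · exact Cfsg.Agent.Lib.FG7.Tate2Gen.components_transitive P hna hgen hcore
        (Cfsg.Agent.Lib.FG7.Tate2Gen.genFit_eq_of_perfect hcore M hMne hMmin h).1 K L hK hL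

end Cfsg.Agent.S4172
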