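import Cfsg.Statements.S4176
import Mathlib
import Cfsg.Agent.Lib.FG7.Orbit
import Cfsg.Agent.Lib.FG7.PComplement

set_option autoImplicit false
open Cfsg

namespace Cfsg.Agent.S4176

open Cfsg.Agent.Lib.FG7.Orbit Cfsg.Agent.Lib.FG7.PComplement Cfsg.Agent.Lib.Solvable.HallRel

/-- Let k be a field of prime characteristic p, H a finite p-soluble group and ρ a k-linear representation of H on V. Let a be a vector that is fixed by some Sylow p-subgroup of H and whose H-orbit spans V. Then the space of H-fixed vectors has dimension at most 1, and every vector b whose H-orbit has size coprime to the size of the orbit of a is fixed by H. -/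
theorem result {k V H : Type*} [Field k] (p : ℕ) [Fact p.Prime] [CharP k p] [AddCommGroup V] [Module k V]
    [Group H] [Finite H] (hsol : Cfsg.IsPSolvable p H) (ρ : Representation k H V) (a : V)
    (hfix : ∃ P : Sylow p H, ∀ x : H, x ∈ (P : Subgroup H) → ρ x a = a)
    (hspan : Submodule.span k {u : V | ∃ h : H, ρ h a = u} = ⊤) :
    Module.finrank k ρ.invariants ≤ 1 ∧
    ∀ b : V, (Nat.card {u : V | ∃ h : H, ρ h a = u}).Coprime (Nat.card {u : V | ∃ h : H, ρ h b = u}) → ∀ h : H, ρ h b = b := by
  obtain ⟨P, hP⟩ := hfix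
  have hpp : p.Prime := Fact.out
  have hPa : (P : Subgroup H) ≤ stab ρ a := fun x hx => hP x hx
  have hidx : (stab ρ a).index.Coprime p := by
    refine Nat.Coprime.coprime_dvd_left (Subgroup.index_dvd_of_le hPa) ?_
    exact ((Nat.Prime.coprime_iff_not_dvd hpp).mpr P.not_dvd_index).symm
  have hcast : ∀ n : ℕ, n.Coprime p → (n : k) ≠ 0 := by
    intro n hn h0
    rw [CharP.cast_eq_zero_iff k p] at h0
    have := Nat.Coprime.eq_one_of_dvd hn.symm h0
    exact hpp.one_lt.ne' this
  refine ⟨?_, ?_⟩
  · obtain ⟨C, hC, m, hm⟩ := exists_pComplement hsol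
    refine finrank_invariants_le_one ρ a hspan C (hcast _ hC) ?_
    intro h
    have hcop : C.index.Coprime (stab ρ a).index := by
      rw [hm]
      exact (Nat.Coprime.pow_right m hidx).symm
    obtain ⟨x, hx, y, hy, rfl⟩ := exists_mul_of_coprime_index C (stab ρ a) hcop h
    refine ⟨x, hx, ?_⟩
    rw [map_mul, Module.End.mul_apply, hy]
  · intro b hb h
    set L : Subgroup H := stab ρ b with hL
    obtain ⟨C₁, hC₁, m, hm⟩ := exists_pComplement (Cfsg.Agent.Lib.Core.PSolvable.isPSolvable_subgroup L hsol)
    have hcardC : Nat.card (C₁.map L.subtype) = Nat.card C₁ :=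
      (Nat.card_congr (Subgroup.equivMapOfInjective C₁ L.subtype L.subtype_injective).toEquiv).symm
    have hb' := hb
    rw [card_orbit_eq_index, card_orbit_eq_index] at hb'
    have hrel : (stab ρ a).relIndex L = (stab ρ a).index := by
      have h1 := index_inf_of_coprime L (stab ρ a) hb'.symm
      have h2 : ((stab ρ a) ⊓ L).relIndex L * L.index = ((stab ρ a) ⊓ L).index :=
        Subgroup.relIndex_mul_index inf_le_right
      rw [Subgroup.inf_relIndex_right, inf_comm, h1, mul_comm] at h2
      have hne : L.index ≠ 0 := Subgroup.index_ne_zero_of_finite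
      exact Nat.eq_of_mul_eq_mul_left (Nat.pos_of_ne_zero hne) h2
    refine fixed_of_fixed ρ a hspan (C₁.map L.subtype) (hcast _ (by rw [hcardC]; exact hC₁)) ?_ b ?_ h
    · intro g
      obtain ⟨x, hx, y, hy, rfl⟩ := exists_mul_of_coprime_orbits ρ a b hb g
      have hcop : C₁.index.Coprime ((stab ρ a).subgroupOf L).index := by
        rw [hm]
        show (p ^ m).Coprime ((stab ρ a).relIndex L)
        rw [hrel]
        exact (Nat.Coprime.pow_right m hidx).symm
      obtain ⟨c, hc, s, hs, hcs⟩ := exists_mul_of_coprime_index C₁ ((stab ρ a).subgroupOf L) hcop ⟨x, hx⟩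
      refine ⟨c, ⟨c, hc, rfl⟩, ?_⟩
      have hx' : x = (c : H) * (s : H) := by
        have := congrArg (Subtype.val) hcs
        simpa using this
      have hs' : ρ (s : H) a = a := hs
      have hy' : ρ y a = a := hy
      rw [hx', map_mul, map_mul, Module.End.mul_apply, Module.End.mul_apply, hy', hs']
    · rintro c ⟨c₁, _, rfl⟩
      exact c₁.2

end Cfsg.Agent.S4176
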