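import Cfsg.Statements.S4177
import Mathlib
import Cfsg.Agent.Lib.FG7.Orbit

set_option autoImplicit false
open Cfsg

namespace Cfsg.Agent.S4177

open Cfsg.Agent.Lib.FG7.Orbit

/-- Let k be a field whose characteristic does not divide the order of the finite group H (for instance a field of characteristic zero), and ρ a k-linear representation of H on V. Let a be a vector whose H-orbit spans V. Then the space of H-fixed vectors has dimension at most 1, and every vector b whose H-orbit has size coprime to the size of the orbit of a is fixed by H. -/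
theorem result {k V H : Type*} [Field k] [AddCommGroup V] [Module k V] [Group H] [Finite H]
    (hchar : ¬ ringChar k ∣ Nat.card H) (ρ : Representation k H V) (a : V)
    (hspan : Submodule.span k {u : V | ∃ h : H, ρ h a = u} = ⊤) :
    Module.finrank k ρ.invariants ≤ 1 ∧
    ∀ b : V, (Nat.card {u : V | ∃ h : H, ρ h a = u}).Coprime (Nat.card {u : V | ∃ h : H, ρ h b = u}) → ∀ h : H, ρ h b = b := by
  refine ⟨?_, ?_⟩
  · refine finrank_invariants_le_one ρ a hspan ⊤ (cast_card_subgroup_ne_zero _ hchar) ?_
    intro h
    exact ⟨h, Subgroup.mem_top h, rfl⟩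
  · intro b hb h
    refine fixed_of_fixed ρ a hspan (stab ρ b) (cast_card_subgroup_ne_zero _ hchar) ?_ b ?_ h
    · intro g
      obtain ⟨x, hx, y, hy, rfl⟩ := exists_mul_of_coprime_orbits ρ a b hb g
      refine ⟨x, hx, ?_⟩
      rw [map_mul, Module.End.mul_apply, hy]
    · intro c hc
      exact hc

end Cfsg.Agent.S4177
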