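import Cfsg.Statements.S4178
import Mathlib

set_option autoImplicit false
open Cfsg

namespace Cfsg.Agent.S4178

theorem card_le_of_fibers {G T : Type*} [Group G] [Finite G] [Finite T] (R : Subgroup G) (g : G → T)
    (hg : ∀ h h' : G, g h = g h' → h⁻¹ * h' ∈ R) : R.index ≤ Nat.card T := by
  refine Nat.card_le_card_of_injective (fun q : G ⧸ R => g q.out) ?_
  intro q₁ q₂ h12
  have := hg _ _ h12
  rw [← QuotientGroup.out_eq' q₁, ← QuotientGroup.out_eq' q₂]
  exact QuotientGroup.eq.mpr this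

theorem card_ne_add_one {α : Type*} [Finite α] (a : α) : Nat.card {b : α // b ≠ a} + 1 = Nat.card α := by
  classical
  rw [← Nat.card_congr (Equiv.optionSubtypeNe a), Finite.card_option]

/-- A fixed vector on a quotient gives a fixed vector. -/
theorem exists_fixed {F V : Type*} [Field F] [AddCommGroup V] [Module F V] [Finite V]
    (k : V ≃ₗ[F] V) (W : Submodule F V) (hW : ∀ w ∈ W, k w ∈ W) (u : V) (hu : u ∉ W)
    (h : k u - u ∈ W) : ∃ x : V, x ≠ 0 ∧ k x = x := by
  by_contra hcon
  push Not at hcon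
  have hinj : ∀ x y : V, k x - x = k y - y → x = y := by
    intro x y hxy
    have h1 : k (x - y) = x - y := by
      rw [map_sub]
      have : k x - k y = (k x - x) - (k y - y) + (x - y) := by abel
      rw [this, hxy]
      abel
    by_contra hne
    exact hcon (x - y) (sub_ne_zero.mpr hne) h1
  let f : W → W := fun w => ⟨k w - w, W.sub_mem (hW _ w.2) w.2⟩
  have hf : Function.Injective f := by
    intro a b hab
    exact Subtype.ext (hinj _ _ (congrArg Subtype.val hab))
  have hs : Function.Surjective f := Finite.surjective_of_injective hf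
  obtain ⟨w, hw⟩ := hs ⟨k u - u, h⟩
  have h1 : k (w : V) - w = k u - u := congrArg Subtype.val hw
  have := hinj _ _ h1
  exact hu (this ▸ w.2)

/-- Let F be a finite field with q elements, V a non-zero finite-dimensional F-space of dimension d, H a group of invertible linear maps of V, and R the subgroup of H generated by the elements of H that fix some non-zero vector (have eigenvalue 1). Then the index of R in H is at most q^d − 1; and if H leaves invariant some proper non-zero subspace, the index is at most q^(d/2) − 1. -/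
theorem result {F V : Type*} [Field F] [Fintype F] [AddCommGroup V] [Module F V] [FiniteDimensional F V] [Nontrivial V]
    (H : Subgroup (V ≃ₗ[F] V)) :
    (Subgroup.closure {h : ↥H | ∃ v : V, v ≠ 0 ∧ (h : V ≃ₗ[F] V) v = v}).index ≤ Fintype.card F ^ Module.finrank F V - 1 ∧
    ((∃ W : Submodule F V, W ≠ ⊥ ∧ W ≠ ⊤ ∧ ∀ h ∈ H, ∀ w ∈ W, h w ∈ W) →
      ((Subgroup.closure {h : ↥H | ∃ v : V, v ≠ 0 ∧ (h : V ≃ₗ[F] V) v = v}).index : ℝ) ≤ Real.sqrt ((Fintype.card F : ℝ) ^ Module.finrank F V) - 1) := by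
  classical
  set R := Subgroup.closure {h : ↥H | ∃ v : V, v ≠ 0 ∧ (h : V ≃ₗ[F] V) v = v} with hR
  haveI : Finite V := Module.finite_of_finite F
  haveI : Finite (V ≃ₗ[F] V) := Finite.of_injective (fun e : V ≃ₗ[F] V => (e : V → V)) DFunLike.coe_injective
  have hcard : Nat.card V = Fintype.card F ^ Module.finrank F V := by
    letI := Fintype.ofFinite V
    rw [Nat.card_eq_fintype_card]
    exact Module.card_eq_pow_finrank
  have hfix : ∀ (k : ↥H) (x : V), x ≠ 0 → (k : V ≃ₗ[F] V) x = x → k ∈ R := fun k x hx hk =>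
    Subgroup.subset_closure ⟨x, hx, hk⟩
  have hmulapply : ∀ (h h' : ↥H) (x : V), ((h⁻¹ * h' : ↥H) : V ≃ₗ[F] V) x =
      (h : V ≃ₗ[F] V).symm ((h' : V ≃ₗ[F] V) x) := by
    intro h h' x
    rfl
  constructor
  · obtain ⟨v₀, hv₀⟩ := exists_ne (0 : V)
    have h1 : R.index ≤ Nat.card {v : V // v ≠ 0} := by
      refine card_le_of_fibers R
        (fun h : ↥H => (⟨(h : V ≃ₗ[F] V) v₀, by simpa using hv₀⟩ : {v : V // v ≠ 0})) ?_
      intro h h' heq
      apply hfix _ v₀ hv₀
      have h2 : (h : V ≃ₗ[F] V) v₀ = (h' : V ≃ₗ[F] V) v₀ := congrArg Subtype.val heq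
      rw [hmulapply, ← h2]
      simp
    have h2 := card_ne_add_one (0 : V)
    rw [← hcard]
    omega
  · rintro ⟨W, hW0, hWt, hinv⟩
    obtain ⟨v₀, hv₀W, hv₀⟩ := Submodule.exists_mem_ne_zero_of_ne_bot hW0
    obtain ⟨u, hu⟩ := SetLike.exists_not_mem_of_ne_top W hWt rfl
    have hHW : ∀ (h : ↥H) (w : V), w ∈ W → (h : V ≃ₗ[F] V) w ∈ W := fun h w hw => hinv h h.2 w hw
    have hHW' : ∀ (h : ↥H) (w : V), w ∈ W → (h : V ≃ₗ[F] V).symm w ∈ W := fun h w hw =>
      hinv (h⁻¹ : ↥H) (h⁻¹ : ↥H).2 w hw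
    -- the subspace
    have h1 : R.index ≤ Nat.card {w : W // w ≠ 0} := by
      refine card_le_of_fibers R
        (fun h : ↥H => (⟨⟨(h : V ≃ₗ[F] V) v₀, hHW h v₀ hv₀W⟩, by
          intro h0
          have := congrArg Subtype.val h0
          simp only [ZeroMemClass.coe_zero] at this
          exact hv₀ (by simpa using this)⟩ : {w : W // w ≠ 0})) ?_
      intro h h' heq
      apply hfix _ v₀ hv₀
      have h2 : (h : V ≃ₗ[F] V) v₀ = (h' : V ≃ₗ[F] V) v₀ :=
        congrArg (fun z : {w : W // w ≠ 0} => ((z : W) : V)) heq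
      rw [hmulapply, ← h2]
      simp
    -- the quotient
    haveI : Finite (V ⧸ W) := Quotient.finite _
    have h2 : R.index ≤ Nat.card {x : V ⧸ W // x ≠ 0} := by
      refine card_le_of_fibers R
        (fun h : ↥H => (⟨Submodule.Quotient.mk ((h : V ≃ₗ[F] V) u), by
          intro h0
          rw [Submodule.Quotient.mk_eq_zero] at h0
          apply hu
          have := hHW' h _ h0
          simpa using this⟩ : {x : V ⧸ W // x ≠ 0})) ?_
      intro h h' heq
      have h3 : Submodule.Quotient.mk ((h : V ≃ₗ[F] V) u) = (Submodule.Quotient.mk ((h' : V ≃ₗ[F] V) u) : V ⧸ W) :=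
        congrArg Subtype.val heq
      rw [Submodule.Quotient.eq] at h3
      -- the element `h⁻¹ h'` moves `u` inside `W`
      have h4 : ((h⁻¹ * h' : ↥H) : V ≃ₗ[F] V) u - u ∈ W := by
        rw [hmulapply]
        have h5 := hHW' h _ (W.neg_mem h3)
        have h6 : (h : V ≃ₗ[F] V).symm (-((h : V ≃ₗ[F] V) u - (h' : V ≃ₗ[F] V) u)) =
            (h : V ≃ₗ[F] V).symm ((h' : V ≃ₗ[F] V) u) - u := by
          rw [neg_sub, map_sub]
          simp
        rwa [h6] at h5
      obtain ⟨x, hx, hkx⟩ := exists_fixed ((h⁻¹ * h' : ↥H) : V ≃ₗ[F] V) W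
        (fun w hw => hHW _ w hw) u hu h4
      exact hfix _ x hx hkx
    have h3 := card_ne_add_one (0 : W)
    have h4 := card_ne_add_one (0 : V ⧸ W)
    have h5 : Nat.card V = Nat.card (V ⧸ W) * Nat.card W := by
      have := AddSubgroup.card_eq_card_quotient_mul_card_addSubgroup W.toAddSubgroup
      exact this
    have h6 : (R.index + 1) * (R.index + 1) ≤ Nat.card V := by
      rw [h5, ← h3, ← h4]
      exact Nat.mul_le_mul (by omega) (by omega)
    rw [le_sub_iff_add_le]
    apply Real.le_sqrt_of_sq_le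
    have h7 : ((R.index + 1 : ℕ) : ℝ) * ((R.index + 1 : ℕ) : ℝ) ≤ ((Nat.card V : ℕ) : ℝ) := by
      exact_mod_cast h6
    rw [hcard] at h7
    push_cast at h7
    nlinarith [h7]

end Cfsg.Agent.S4178
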