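import Cfsg.Statements.S4182
import Mathlib

set_option autoImplicit false
open Cfsg

namespace Cfsg.Agent.S4182

universe u v

/-- `M` is generated by the `p`-elements it contains. -/
def IsPGen (p : ℕ) {G : Type u} [Group G] (M : Subgroup G) : Prop :=
  Subgroup.closure {g : G | (∃ k : ℕ, orderOf g = p ^ k) ∧ g ∈ M} = M

/-- Maximal among the proper `p`-generated subgroups. -/
def IsMaxPGen (p : ℕ) {G : Type u} [Group G] (M : Subgroup G) : Prop :=
  IsPGen p M ∧ M ≠ ⊤ ∧ ∀ M' : Subgroup G, IsPGen p M' → M' ≠ ⊤ → M ≤ M' → M' = M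

theorem isPGen_closure (p : ℕ) {G : Type u} [Group G] (S : Set G)
    (hS : ∀ g ∈ S, ∃ k : ℕ, orderOf g = p ^ k) : IsPGen p (Subgroup.closure S) := by
  unfold IsPGen
  apply le_antisymm
  · exact (Subgroup.closure_le _).mpr (fun g hg => hg.2)
  · exact Subgroup.closure_mono (fun g hg => ⟨hS g hg, Subgroup.subset_closure hg⟩)

theorem IsPGen.map_equiv {p : ℕ} {G : Type u} [Group G] {M : Subgroup G} (h : IsPGen p M)
    (φ : G ≃* G) : IsPGen p (M.map φ.toMonoidHom) := by
  unfold IsPGen at *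
  conv_rhs => rw [← h]
  rw [MonoidHom.map_closure]
  congr 1
  ext y
  constructor
  · rintro ⟨⟨k, hk⟩, x, hx, rfl⟩
    refine ⟨x, ⟨⟨k, ?_⟩, hx⟩, rfl⟩
    have : orderOf (φ x) = orderOf x := MulEquiv.orderOf_eq φ x
    rw [← this]
    exact hk
  · rintro ⟨x, ⟨⟨k, hk⟩, hx⟩, rfl⟩
    refine ⟨⟨k, ?_⟩, x, hx, rfl⟩
    have : orderOf (φ x) = orderOf x := MulEquiv.orderOf_eq φ x
    show orderOf (φ x) = _
    rw [this]
    exact hk

theorem map_symm_map {G : Type u} [Group G] (M : Subgroup G) (φ : G ≃* G) :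
    (M.map φ.toMonoidHom).map φ.symm.toMonoidHom = M := by
  ext x
  simp

theorem map_map_symm {G : Type u} [Group G] (M : Subgroup G) (φ : G ≃* G) :
    (M.map φ.symm.toMonoidHom).map φ.toMonoidHom = M := by
  ext x
  simp

theorem map_ne_top {G : Type u} [Group G] {M : Subgroup G} (h : M ≠ ⊤) (φ : G ≃* G) :
    M.map φ.toMonoidHom ≠ ⊤ := by
  intro h1
  apply h
  rw [← map_symm_map M φ, h1]
  ext x
  simp only [Subgroup.mem_map, Subgroup.mem_top, iff_true]
  exact ⟨φ x, trivial, by simp⟩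

theorem IsMaxPGen.map_equiv {p : ℕ} {G : Type u} [Group G] {M : Subgroup G} (h : IsMaxPGen p M)
    (φ : G ≃* G) : IsMaxPGen p (M.map φ.toMonoidHom) := by
  refine ⟨h.1.map_equiv φ, map_ne_top h.2.1 φ, ?_⟩
  intro M' h1 h2 h3
  have h4 : M'.map φ.symm.toMonoidHom = M := by
    apply h.2.2 _ (h1.map_equiv φ.symm) (map_ne_top h2 φ.symm)
    rw [← map_symm_map M φ]
    exact Subgroup.map_mono h3
  rw [← h4, map_map_symm]

theorem exists_isMaxPGen {p : ℕ} {G : Type u} [Group G] [Finite G] {M : Subgroup G}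
    (h : IsPGen p M) (h1 : M ≠ ⊤) : ∃ M' : Subgroup G, IsMaxPGen p M' ∧ M ≤ M' := by
  have hfin : ({M' : Subgroup G | IsPGen p M' ∧ M' ≠ ⊤}).Finite := Set.toFinite _
  obtain ⟨M', hle, hmax⟩ := hfin.exists_le_maximal (a := M) ⟨h, h1⟩
  refine ⟨M', ⟨hmax.prop.1, hmax.prop.2, ?_⟩, hle⟩
  intro N hN hN1 hN2
  exact le_antisymm (hmax.le_of_ge ⟨hN, hN1⟩ hN2) hN2

theorem card_lt_of_ne_top {G : Type u} [Group G] [Finite G] {L : Subgroup G} (h : L ≠ ⊤) :
    Nat.card L < Nat.card G := by
  have h1 : 1 < L.index := Subgroup.one_lt_index_of_ne_top h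
  have h2 := Subgroup.card_mul_index L
  have h3 : 0 < Nat.card L := Nat.card_pos
  nlinarith

theorem closure_subtype_eq_top {p : ℕ} {G : Type u} [Group G] {L : Subgroup G} (h : IsPGen p L) :
    Subgroup.closure {g : L | ∃ k : ℕ, orderOf g = p ^ k} = ⊤ := by
  apply Subgroup.map_injective L.subtype_injective
  rw [MonoidHom.map_closure]
  have h1 : L.subtype '' {g : L | ∃ k : ℕ, orderOf g = p ^ k} =
      {g : G | (∃ k : ℕ, orderOf g = p ^ k) ∧ g ∈ L} := by
    ext x
    constructor
    · rintro ⟨y, ⟨k, hk⟩, rfl⟩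
      refine ⟨⟨k, ?_⟩, y.2⟩
      rw [Subgroup.coe_subtype, Subgroup.orderOf_coe]
      exact hk
    · rintro ⟨⟨k, hk⟩, hx⟩
      refine ⟨⟨x, hx⟩, ⟨k, ?_⟩, rfl⟩
      rw [← Subgroup.orderOf_coe]
      exact hk
  rw [h1, h, ← MonoidHom.range_eq_map, Subgroup.range_subtype]

/-- The `p`-group case of the covering bound. -/
theorem pgroup_case {p : ℕ} [Fact p.Prime] {G : Type u} [Group G] [Finite G]
    (hG : IsPGroup p G) {ι : Type v} [Fintype ι] (hι : Fintype.card ι ≤ p) (K : ι → Subgroup G)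
    (hK : ∀ i, K i ≠ ⊤) (hcov : ∀ g : G, ∃ i, g ∈ K i) : False := by
  classical
  letI := Fintype.ofFinite G
  have hp : p.Prime := Fact.out
  obtain ⟨i₀, -⟩ := hcov 1
  have h1 : ∀ i, p * Nat.card (K i) ≤ Nat.card G := by
    intro i
    have hi := Subgroup.card_mul_index (K i)
    have h2 : 1 < (K i).index := Subgroup.one_lt_index_of_ne_top (hK i)
    obtain ⟨m, hm⟩ := hG.index (K i)
    have h3 : p ≤ (K i).index := by
      rw [hm] at h2 ⊢
      have hm0 : m ≠ 0 := by
        rintro rfl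
        simp at h2
      exact Nat.le_self_pow hm0 p
    rw [← hi]
    nlinarith [Nat.card_pos (α := K i)]
  have hp2 := hp.two_le
  set N := Nat.card G with hN
  set c := N / p with hc
  have h4 : ∀ i, Nat.card (K i) ≤ c := by
    intro i
    rw [hc, Nat.le_div_iff_mul_le hp.pos, mul_comm]
    exact h1 i
  have h5 : p * c ≤ N := Nat.mul_div_le N p
  have hcard : ∀ i, (Finset.univ.filter (· ∈ K i)).card = Nat.card (K i) := by
    intro i
    rw [Nat.card_eq_fintype_card, Fintype.card_subtype]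
  have hsub : (Finset.univ.erase (1 : G)) ⊆
      Finset.univ.biUnion (fun i => (Finset.univ.filter (· ∈ K i)).erase (1 : G)) := by
    intro g hg
    obtain ⟨i, hi⟩ := hcov g
    simp only [Finset.mem_erase, Finset.mem_univ, and_true, Finset.mem_biUnion, true_and,
      Finset.mem_filter] at hg ⊢
    exact ⟨i, hg, hi⟩
  have h6 : N - 1 ≤ ∑ i, (Nat.card (K i) - 1) := by
    calc N - 1 = (Finset.univ.erase (1 : G)).card := by
          rw [Finset.card_erase_of_mem (Finset.mem_univ _), Finset.card_univ, hN, Nat.card_eq_fintype_card]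
      _ ≤ _ := Finset.card_le_card hsub
      _ ≤ ∑ i, ((Finset.univ.filter (· ∈ K i)).erase (1 : G)).card := Finset.card_biUnion_le
      _ = ∑ i, (Nat.card (K i) - 1) := by
          refine Finset.sum_congr rfl (fun i _ => ?_)
          rw [Finset.card_erase_of_mem (by simp [(K i).one_mem]), hcard]
  have h7 : ∑ i, (Nat.card (K i) - 1) ≤ Fintype.card ι * (c - 1) := by
    calc ∑ i, (Nat.card (K i) - 1) ≤ ∑ _i : ι, (c - 1) :=
          Finset.sum_le_sum (fun i _ => Nat.sub_le_sub_right (h4 i) 1)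
      _ = _ := by simp
  have hc1 : 1 ≤ c := le_trans Nat.card_pos (h4 i₀)
  obtain ⟨d, hd⟩ : ∃ d, c = d + 1 := ⟨c - 1, by omega⟩
  rw [hd] at h5 h7
  simp only [Nat.add_sub_cancel] at h7
  have h8 : Fintype.card ι * d ≤ p * d := Nat.mul_le_mul_right d hι
  have h9 : 0 < N := Nat.card_pos
  have h10 : p * (d + 1) = p * d + p := by ring
  omega

theorem map_conj_self {G : Type u} [Group G] {M : Subgroup G} {g : G} (hg : g ∈ M) :
    M.map (MulAut.conj g).toMonoidHom = M := by
  ext y
  simp only [Subgroup.mem_map]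
  constructor
  · rintro ⟨z, hz, rfl⟩
    exact M.mul_mem (M.mul_mem hg hz) (M.inv_mem hg)
  · intro hy
    exact ⟨g⁻¹ * y * g, M.mul_mem (M.mul_mem (M.inv_mem hg) hy) hg, by
      simp [MulAut.conj_apply]; group⟩

theorem aux {p : ℕ} [Fact p.Prime] {ι : Type v} [Fintype ι] (hι : Fintype.card ι ≤ p) (n : ℕ) :
    ∀ (G : Type u) [Group G] [Finite G], Nat.card G = n →
      Subgroup.closure {g : G | ∃ k : ℕ, orderOf g = p ^ k} = ⊤ →
      ∀ K : ι → Subgroup G, (∀ i, K i ≠ ⊤) →
        (∀ g : G, (∃ k : ℕ, orderOf g = p ^ k) → ∃ i, g ∈ K i) → False := by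
  induction n using Nat.strong_induction_on with
  | _ n ih =>
  intro G _ _ hn hgen K hK hcov
  classical
  have hp : p.Prime := Fact.out
  let α := {M : Subgroup G // IsMaxPGen p M}
  let Mi : ι → Subgroup G := fun i =>
    Subgroup.closure {g : G | (∃ k : ℕ, orderOf g = p ^ k) ∧ g ∈ K i}
  have hMiK : ∀ i, Mi i ≤ K i := fun i => (Subgroup.closure_le _).mpr (fun g hg => hg.2)
  have hMiP : ∀ i, IsPGen p (Mi i) := fun i => isPGen_closure p _ (fun g hg => hg.1)
  have hMine : ∀ i, Mi i ≠ ⊤ := fun i h => hK i (top_le_iff.mp (h ▸ hMiK i))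
  -- every proper `p`-generated subgroup is in some `K i`
  have hL : ∀ L : Subgroup G, IsPGen p L → L ≠ ⊤ → ∃ i, L ≤ K i := by
    intro L hL hL1
    by_contra hcon
    push Not at hcon
    refine ih _ (hn ▸ card_lt_of_ne_top hL1) L rfl (closure_subtype_eq_top hL)
      (fun i => (K i).subgroupOf L) ?_ ?_
    · intro i h
      rw [Subgroup.subgroupOf_eq_top] at h
      exact hcon i h
    · rintro g ⟨k, hk⟩
      obtain ⟨i, hi⟩ := hcov g ⟨k, by rw [Subgroup.orderOf_coe]; exact hk⟩
      exact ⟨i, hi⟩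
  -- the maximal ones are among the `Mi i`
  have hmaxMi : ∀ M : α, ∃ i, M.1 = Mi i := by
    rintro ⟨M, hM⟩
    obtain ⟨i, hi⟩ := hL M hM.1 hM.2.1
    refine ⟨i, (hM.2.2 (Mi i) (hMiP i) (hMine i) ?_).symm⟩
    show M ≤ Mi i
    rw [← hM.1]
    exact Subgroup.closure_mono (fun g hg => ⟨hg.1, hi hg.2⟩)
  have hcard : Nat.card α ≤ p := by
    choose f hf using hmaxMi
    have finj : Function.Injective f := by
      intro a b h
      apply Subtype.ext
      rw [hf a, hf b, h]
    calc Nat.card α ≤ Nat.card ι := Nat.card_le_card_of_injective f finj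
      _ = Fintype.card ι := Nat.card_eq_fintype_card
      _ ≤ p := hι
  -- every `p`-element normalizes every maximal one
  have hnorm : ∀ x : G, (∃ k : ℕ, orderOf x = p ^ k) → ∀ M : Subgroup G, IsMaxPGen p M →
      M.map (MulAut.conj x).toMonoidHom = M := by
    rintro x ⟨k, hk⟩ M hM
    letI act : MulAction (Subgroup.zpowers x) α :=
      { smul := fun g M => ⟨M.1.map (MulAut.conj (g : G)).toMonoidHom, M.2.map_equiv _⟩
        one_smul := by
          intro M
          apply Subtype.ext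
          show M.1.map (MulAut.conj ((1 : Subgroup.zpowers x) : G)).toMonoidHom = M.1
          exact map_conj_self (by simp)
        mul_smul := by
          intro g h M
          apply Subtype.ext
          show M.1.map (MulAut.conj ((g * h : Subgroup.zpowers x) : G)).toMonoidHom =
            (M.1.map (MulAut.conj (h : G)).toMonoidHom).map (MulAut.conj (g : G)).toMonoidHom
          rw [Subgroup.map_map]
          congr 1
          ext y
          simp [MulAut.conj_apply, mul_assoc] }
    have hΓ : IsPGroup p (Subgroup.zpowers x) := IsPGroup.of_card (n := k) (by rw [Nat.card_zpowers, hk])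
    have hmod := hΓ.card_modEq_card_fixedPoints α
    -- a fixed point
    obtain ⟨i, hi⟩ := hcov x ⟨k, hk⟩
    obtain ⟨M₀, hM₀, hle⟩ := exists_isMaxPGen (hMiP i) (hMine i)
    have hxM₀ : x ∈ M₀ := hle (Subgroup.subset_closure ⟨⟨k, hk⟩, hi⟩)
    have hfix : (⟨M₀, hM₀⟩ : α) ∈ MulAction.fixedPoints (Subgroup.zpowers x) α := by
      intro g
      apply Subtype.ext
      show M₀.map (MulAut.conj (g : G)).toMonoidHom = M₀
      apply map_conj_self
      obtain ⟨m, hm⟩ := Subgroup.mem_zpowers_iff.mp g.2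
      rw [← hm]
      exact M₀.zpow_mem hxM₀ m
    set F := MulAction.fixedPoints (Subgroup.zpowers x) α with hF
    have hFpos : 0 < Nat.card F := by
      haveI : Nonempty F := ⟨⟨_, hfix⟩⟩
      exact Nat.card_pos
    have hFle : Nat.card F ≤ Nat.card α := Nat.card_le_card_of_injective _ Subtype.val_injective
    have hdvd : p ∣ Nat.card α - Nat.card F := (Nat.modEq_iff_dvd' hFle).mp hmod.symm
    have hzero : Nat.card α - Nat.card F = 0 := by
      apply Nat.eq_zero_of_dvd_of_lt hdvd
      omega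
    have hFeq : Nat.card α = Nat.card F := by omega
    have huniv : F = Set.univ := by
      apply Set.eq_of_subset_of_ncard_le (Set.subset_univ _)
      rw [Set.ncard_univ, hFeq, Nat.card_coe_set_eq]
    have hmem : (⟨M, hM⟩ : α) ∈ F := by rw [huniv]; trivial
    have := hmem (⟨x, Subgroup.mem_zpowers x⟩ : Subgroup.zpowers x)
    exact congrArg Subtype.val this
  -- hence they are normal
  have hnormal : ∀ M : Subgroup G, IsMaxPGen p M → M.Normal := by
    intro M hM
    have h1 : (⊤ : Subgroup G) ≤ Subgroup.normalizer (M : Set G) := by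
      rw [← hgen, Subgroup.closure_le]
      intro x hx
      exact (Subgroup.mem_normalizer_iff_map_conj_eq).mpr (hnorm x hx M hM)
    exact Subgroup.normalizer_eq_top_iff.mp (top_le_iff.mp h1)
  obtain ⟨P⟩ : Nonempty (Sylow p G) := inferInstance
  have horder : ∀ y ∈ (P : Subgroup G), ∃ k : ℕ, orderOf y = p ^ k := by
    intro y hy
    obtain ⟨k, hk⟩ := (IsPGroup.iff_orderOf.mp P.isPGroup') ⟨y, hy⟩
    exact ⟨k, by rw [← Subgroup.orderOf_mk]; exact hk⟩
  by_cases hP : (P : Subgroup G) = ⊤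
  · refine pgroup_case ?_ hι K hK (fun g => hcov g (horder g (hP ▸ Subgroup.mem_top g)))
    rw [IsPGroup.iff_orderOf]
    intro g
    exact horder g (hP ▸ Subgroup.mem_top g)
  · have hPgen : IsPGen p (P : Subgroup G) := by
      unfold IsPGen
      apply le_antisymm
      · exact (Subgroup.closure_le _).mpr (fun g hg => hg.2)
      · exact fun y hy => Subgroup.subset_closure ⟨horder y hy, hy⟩
    obtain ⟨M, hM, hle⟩ := exists_isMaxPGen hPgen hP
    haveI := hnormal M hM
    have hidx : M.index.Coprime p := by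
      refine Nat.Coprime.coprime_dvd_left (Subgroup.index_dvd_of_le hle) ?_
      exact ((Nat.Prime.coprime_iff_not_dvd hp).mpr P.not_dvd_index).symm
    have hXM : ∀ y : G, (∃ k : ℕ, orderOf y = p ^ k) → y ∈ M := by
      rintro y ⟨k, hk⟩
      rw [← QuotientGroup.eq_one_iff]
      rw [← orderOf_eq_one_iff]
      have h1 : orderOf (y : G ⧸ M) ∣ p ^ k := by
        rw [← hk]
        exact orderOf_map_dvd (QuotientGroup.mk' M) y
      have h2 : orderOf (y : G ⧸ M) ∣ M.index := by
        show _ ∣ Nat.card (G ⧸ M)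
        exact orderOf_dvd_natCard _
      exact Nat.Coprime.eq_one_of_dvd (Nat.Coprime.coprime_dvd_left h2 (hidx.pow_right k)) h1
    have : (⊤ : Subgroup G) ≤ M := by
      rw [← hgen, Subgroup.closure_le]
      exact fun y hy => hXM y hy
    exact hM.2.1 (top_le_iff.mp this)

/-- Let p be a prime and G a finite group generated by its p-elements. If a finite family of proper subgroups of G covers the set of p-elements of G (every element of p-power order lies in one of them), then the family has at least p + 1 members. -/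
theorem result {G : Type*} [Group G] [Finite G] (p : ℕ) [Fact p.Prime] (hgen : Subgroup.closure {g : G | ∃ k : ℕ, orderOf g = p ^ k} = ⊤)
    {ι : Type*} [Fintype ι] (K : ι → Subgroup G) (hK : ∀ i, K i ≠ ⊤)
    (hcov : ∀ g : G, (∃ k : ℕ, orderOf g = p ^ k) → ∃ i, g ∈ K i) :
    p + 1 ≤ Fintype.card ι := by
  by_contra hcon
  push Not at hcon
  exact aux (by omega) _ G rfl hgen K hK hcov

end Cfsg.Agent.S4182
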