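import Cfsg.Statements.S4184
import Mathlib

set_option autoImplicit false
open Cfsg

namespace Cfsg.Agent.S4184

section basics
variable {X : Type*} [Group X]

/-- The size of the conjugacy class (as an index). -/
noncomputable abbrev cs (x : X) : ℕ := (Subgroup.centralizer ({x} : Set X)).index

lemma mem_cent {x g : X} : g ∈ Subgroup.centralizer ({x} : Set X) ↔ g * x = x * g := by
  rw [Subgroup.mem_centralizer_iff]
  constructor
  · intro h; exact (h x rfl).symm
  · rintro h y rfl; exact h.symm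

lemma card_cent_mul_cs [Finite X] (x : X) :
    Nat.card (Subgroup.centralizer ({x} : Set X)) * cs x = Nat.card X :=
  Subgroup.card_mul_index _

lemma cs_pos [Finite X] (x : X) : 0 < cs x := Nat.pos_of_ne_zero Subgroup.index_ne_zero_of_finite

lemma cs_one_iff [Finite X] (hZ : Subgroup.center X = ⊥) {x : X} (hx : x ≠ 1) : cs x ≠ 1 := by
  intro h
  have h1 : Subgroup.centralizer ({x} : Set X) = ⊤ := Subgroup.index_eq_one.mp h
  apply hx
  have : x ∈ Subgroup.center X := by
    rw [Subgroup.mem_center_iff]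
    intro g
    have : g ∈ Subgroup.centralizer ({x} : Set X) := by rw [h1]; trivial
    exact mem_cent.mp this
  rw [hZ] at this
  simpa using this

lemma cs_conj [Finite X] (g x : X) : cs (g * x * g⁻¹) = cs x := by
  have hmap : Subgroup.centralizer ({g * x * g⁻¹} : Set X)
      = (Subgroup.centralizer ({x} : Set X)).map (MulAut.conj g).toMonoidHom := by
    ext u
    rw [mem_cent, Subgroup.mem_map]
    constructor
    · intro hu
      refine ⟨g⁻¹ * u * g, ?_, by simp [MulAut.conj_apply, mul_assoc]⟩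
      rw [mem_cent]
      have : g⁻¹ * (u * (g * x * g⁻¹)) * g = g⁻¹ * ((g * x * g⁻¹) * u) * g := by rw [hu]
      simpa [mul_assoc] using this
    · rintro ⟨w, hw, rfl⟩
      have hw' := mem_cent.mp hw
      simp only [MulAut.conj_apply, MulEquiv.coe_toMonoidHom]
      calc g * w * g⁻¹ * (g * x * g⁻¹) = g * (w * x) * g⁻¹ := by group
        _ = g * (x * w) * g⁻¹ := by rw [hw']
        _ = g * x * g⁻¹ * (g * w * g⁻¹) := by group
  have hcard : Nat.card (Subgroup.centralizer ({g * x * g⁻¹} : Set X))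
      = Nat.card (Subgroup.centralizer ({x} : Set X)) := by
    rw [hmap]
    exact Nat.card_congr ((Subgroup.centralizer ({x} : Set X)).equivMapOfInjective _
      (MulAut.conj g).injective).symm.toEquiv
  have h1 := card_cent_mul_cs (g * x * g⁻¹)
  have h2 := card_cent_mul_cs x
  rw [hcard] at h1
  have hpos : 0 < Nat.card (Subgroup.centralizer ({x} : Set X)) := Nat.card_pos
  exact Nat.eq_of_mul_eq_mul_left hpos (h1.trans h2.symm)

/-- If `x, y` commute and have coprime orders, `x` is a power of `x * y`, so `C(xy) ≤ C(x)`. -/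
lemma cent_mul_le {x y : X} (hc : Commute x y) (hcop : (orderOf x).Coprime (orderOf y)) :
    Subgroup.centralizer ({x * y} : Set X) ≤ Subgroup.centralizer ({x} : Set X) := by
  intro g hg
  obtain ⟨e, he1, he2⟩ := Nat.chineseRemainder hcop 1 0
  have hx : x ^ e = x := by
    have := pow_eq_pow_iff_modEq.mpr he1
    simpa using this
  have hy : y ^ e = 1 := by
    have := pow_eq_pow_iff_modEq.mpr he2
    simpa using this
  have hxy : (x * y) ^ e = x := by
    rw [hc.mul_pow, hx, hy, mul_one]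
  rw [mem_cent] at hg ⊢
  have : Commute g (x * y) := hg
  have h2 : Commute g ((x * y) ^ e) := this.pow_right e
  rw [hxy] at h2
  exact h2

lemma cs_dvd_cs_mul [Finite X] {x y : X} (hc : Commute x y)
    (hcop : (orderOf x).Coprime (orderOf y)) : cs x ∣ cs (x * y) :=
  Subgroup.index_dvd_of_le (cent_mul_le hc hcop)

lemma cs_dvd_cs_mul' [Finite X] {x y : X} (hc : Commute x y)
    (hcop : (orderOf x).Coprime (orderOf y)) : cs y ∣ cs (x * y) := by
  have h := cs_dvd_cs_mul hc.symm hcop.symm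
  rwa [hc.symm.eq] at h

lemma mul_ne_one_of_coprime {x y : X} (hx : x ≠ 1) (hcop : (orderOf x).Coprime (orderOf y)) :
    x * y ≠ 1 := by
  intro h
  have hy : y = x⁻¹ := eq_inv_of_mul_eq_one_right h
  rw [hy, orderOf_inv, Nat.coprime_self] at hcop
  exact hx (orderOf_eq_one_iff.mp hcop)

lemma order_of_mem {P : Subgroup X} {p : ℕ} [Fact p.Prime] (hP : IsPGroup p P) {u : X}
    (hu : u ∈ P) : ∃ n, orderOf u = p ^ n := by
  obtain ⟨n, hn⟩ := IsPGroup.iff_orderOf.mp hP ⟨u, hu⟩
  exact ⟨n, by rw [← hn, Subgroup.orderOf_mk]⟩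

lemma exists_central [Finite X] (P : Subgroup X) (p : ℕ) [Fact p.Prime] (hP : IsPGroup p P)
    (hne : P ≠ ⊥) : ∃ z ∈ P, z ≠ 1 ∧ ∀ u ∈ P, u * z = z * u := by
  haveI : Nontrivial P := (Subgroup.nontrivial_iff_ne_bot P).mpr hne
  haveI := hP.center_nontrivial
  obtain ⟨z, hz⟩ := exists_ne (1 : Subgroup.center P)
  refine ⟨((z : P) : X), (z : P).2, ?_, ?_⟩
  · intro h
    apply hz
    ext
    simpa using h
  · intro u hu
    have := (Subgroup.mem_center_iff.mp z.2) ⟨u, hu⟩
    exact congrArg Subtype.val this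

end basics

/-- arithmetic -/
lemma dvd_of_coprime_parts {a b c d m L : ℕ} (h1 : a * c = m) (h2 : b * d = m)
    (hcop : Nat.Coprime c d) (ha : a ∣ L) (hb : b ∣ L) : m ∣ L := by
  obtain ⟨s, rfl⟩ := ha
  obtain ⟨t, ht⟩ := hb
  have hd1 : m ∣ a * s * c := by rw [← h1]; exact ⟨s, by ring⟩
  have hd2 : m ∣ a * s * d := by
    rw [ht, ← h2]; exact ⟨t, by ring⟩
  have := Nat.dvd_gcd hd1 hd2
  rwa [Nat.gcd_mul_left, hcop.gcd_eq_one, mul_one] at this

section M
variable {M : Type*} [Group M] [Finite M]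

lemma prime_side (A : Set ℕ)
    (hd : ∀ a ∈ A, ∀ b ∉ A, a.Prime → b.Prime → a ∣ Nat.card M → b ∣ Nat.card M →
      ¬ ∃ x : M, orderOf x = a * b) (x : M) (hx : x ≠ 1) :
    (∀ p, p.Prime → p ∣ Nat.card (Subgroup.centralizer ({x} : Set M)) → p ∈ A) ∨
    (∀ p, p.Prime → p ∣ Nat.card (Subgroup.centralizer ({x} : Set M)) → p ∉ A) := by
  have hox : orderOf x ≠ 1 := fun h => hx (orderOf_eq_one_iff.mp h)
  obtain ⟨p, hp, hpd⟩ := Nat.exists_prime_and_dvd hox
  have hou : orderOf (x ^ (orderOf x / p)) = p := orderOf_pow_orderOf_div (orderOf_pos x).ne' hpd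
  set u := x ^ (orderOf x / p) with hu
  have hpM : p ∣ Nat.card M := hpd.trans (orderOf_dvd_natCard x)
  have key : ∀ q, q.Prime → q ∣ Nat.card (Subgroup.centralizer ({x} : Set M)) → q ≠ p →
      ∃ y : M, orderOf y = p * q := by
    intro q hq hqd hne
    haveI : Fact q.Prime := ⟨hq⟩
    obtain ⟨w, hw⟩ := exists_prime_orderOf_dvd_card' q hqd
    have hw' : orderOf ((w : M)) = q := by rw [Subgroup.orderOf_coe]; exact hw
    have hcomm : Commute x (w : M) := (mem_cent.mp w.2).symm
    have hcu : Commute u (w : M) := hcomm.pow_left _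
    refine ⟨u * w, ?_⟩
    have hcop : (orderOf u).Coprime (orderOf (w : M)) := by
      rw [hou, hw']; exact (Nat.coprime_primes hp hq).mpr hne.symm
    rw [hcu.orderOf_mul_eq_mul_orderOf_of_coprime hcop, hou, hw']
  by_cases hpA : p ∈ A
  · left
    intro q hq hqd
    by_contra hqA
    have hne : q ≠ p := fun h => hqA (h ▸ hpA)
    have hqM : q ∣ Nat.card M := hqd.trans (Subgroup.card_subgroup_dvd_card _)
    exact hd p hpA q hqA hp hq hpM hqM (key q hq hqd hne)
  · right
    intro q hq hqd hqA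
    have hne : q ≠ p := fun h => hpA (h ▸ hqA)
    have hqM : q ∣ Nat.card M := hqd.trans (Subgroup.card_subgroup_dvd_card _)
    obtain ⟨y, hy⟩ := key q hq hqd hne
    exact hd q hqA p hpA hq hp hqM hpM ⟨y, by rw [hy, mul_comm]⟩

end M

section main
variable {G : Type*} [Group G] [Finite G]

/-- the "type" of an element: it depends on the class size only. -/
def Ty (m : ℕ) (S : Set ℕ) (g : G) : Prop :=
  ∀ c, cs g * c = m → ∀ p, p.Prime → p ∣ c → p ∈ S

lemma Ty_conj {m : ℕ} {S : Set ℕ} {g : G} (u : G) (h : Ty m S g) : Ty m S (u * g * u⁻¹) := by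
  intro c hc p hp hpc
  rw [cs_conj] at hc
  exact h c hc p hp hpc

/-- elements of opposite type never commute with coprime orders -/
lemma no_comm {m : ℕ} (hm : 0 < m) {S : Set ℕ}
    (hc1 : ∀ g : G, g ≠ 1 → ∃ c, cs g * c = m ∧ 1 < c)
    {x y : G} (hx : x ≠ 1) (hy : y ≠ 1) (hcomm : Commute x y)
    (hcop : (orderOf x).Coprime (orderOf y)) (hxS : Ty m S x) (hyS : Ty m Sᶜ y) : False := by
  obtain ⟨c, hc, -⟩ := hc1 x hx
  obtain ⟨d, hd, -⟩ := hc1 y hy
  have hxy : x * y ≠ 1 := mul_ne_one_of_coprime hx hcop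
  obtain ⟨e, he, he1⟩ := hc1 _ hxy
  have hcd : Nat.Coprime c d := by
    apply Nat.coprime_of_dvd
    intro p hp hpc hpd
    exact hyS d hd p hp hpd (hxS c hc p hp hpc)
  have h := dvd_of_coprime_parts hc hd hcd (cs_dvd_cs_mul hcomm hcop) (cs_dvd_cs_mul' hcomm hcop)
  have hle : m ≤ cs (x * y) := Nat.le_of_dvd (cs_pos _) h
  have : cs (x * y) * 2 ≤ cs (x * y) * e := Nat.mul_le_mul_left _ he1
  have h3 := cs_pos (x * y)
  omega

lemma r_not_dvd_cs {r : ℕ} [Fact r.Prime] (R : Sylow r G) {x : G}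
    (hx : ∀ u ∈ (R : Subgroup G), u * x = x * u) : ¬ r ∣ cs x := by
  have hle : (R : Subgroup G) ≤ Subgroup.centralizer ({x} : Set G) := fun u hu => mem_cent.mpr (hx u hu)
  intro h
  exact R.not_dvd_index (h.trans (Subgroup.index_dvd_of_le hle))

theorem main_aux {m k : ℕ} (hm : 0 < m) (hk : Nat.card G = m * k)
    (S₀ : Set ℕ)
    (hc1 : ∀ g : G, g ≠ 1 → ∃ c, cs g * c = m ∧ 1 < c)
    (hcases : ∀ g : G, g ≠ 1 → Ty m S₀ g ∨ Ty m S₀ᶜ g)
    (ht1 : ∃ t, t.Prime ∧ t ∣ m ∧ t ∈ S₀) (ht2 : ∃ t, t.Prime ∧ t ∣ m ∧ t ∉ S₀)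
    (hk1 : k ≠ 1) : False := by
  classical
  have hk0 : k ≠ 0 := by
    rintro rfl
    have : 0 < Nat.card G := Nat.card_pos
    simp [hk] at this
  set r := k.minFac with hr
  have hrp : r.Prime := Nat.minFac_prime hk1
  haveI : Fact r.Prime := ⟨hrp⟩
  have hrk : r ∣ k := Nat.minFac_dvd k
  have hrG : r ∣ Nat.card G := hk ▸ (hrk.mul_left m)
  -- cardinalities of centralisers
  have hcard : ∀ g : G, ∀ c, cs g * c = m →
      Nat.card (Subgroup.centralizer ({g} : Set G)) = c * k := by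
    intro g c hc
    have h1 := card_cent_mul_cs g
    rw [hk, ← hc] at h1
    have hp := cs_pos g
    apply Nat.eq_of_mul_eq_mul_left hp
    rw [mul_comm, h1]; ring
  -- Step 1: central element of a Sylow `r`-subgroup.
  obtain ⟨R₀⟩ : Nonempty (Sylow r G) := inferInstance
  obtain ⟨x₀, hx₀R, hx₀1, hx₀c⟩ := exists_central (R₀ : Subgroup G) r R₀.isPGroup'
    (R₀.ne_bot_of_dvd_card hrG)
  have hx₀r : ¬ r ∣ cs x₀ := r_not_dvd_cs R₀ hx₀c
  -- WLOG formulation: there is `S` (either `S₀` or its complement)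
  obtain ⟨S, hSx₀, hScases, htS⟩ : ∃ S : Set ℕ, Ty m S x₀ ∧
      (∀ g : G, g ≠ 1 → Ty m S g ∨ Ty m Sᶜ g) ∧ ∃ t, t.Prime ∧ t ∣ m ∧ t ∉ S := by
    rcases hcases x₀ hx₀1 with h | h
    · exact ⟨S₀, h, hcases, ht2⟩
    · refine ⟨S₀ᶜ, h, ?_, ?_⟩
      · intro g hg
        rcases hcases g hg with h' | h'
        · right; simpa using h'
        · left; exact h'
      · obtain ⟨t, h1, h2, h3⟩ := ht1
        exact ⟨t, h1, h2, by simpa using h3⟩
  obtain ⟨c₀, hc₀, hc₀1⟩ := hc1 x₀ hx₀1
  -- Step 2: `r` does not divide `c` for an element of type `Sᶜ`.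
  have hr_not : ∀ g : G, g ≠ 1 → Ty m Sᶜ g → ∀ c, cs g * c = m → ¬ r ∣ c := by
    intro g _ hgS c hc hrc
    have hrS' : r ∉ S := hgS c hc r hrp hrc
    have hrm : r ∣ m := by rw [← hc]; exact hrc.mul_left _
    rw [← hc₀] at hrm
    rcases (Nat.Prime.dvd_mul hrp).mp hrm with h | h
    · exact hx₀r h
    · exact hrS' (hSx₀ c₀ hc₀ r hrp h)
  -- Step 3: an element `y` of type `Sᶜ` of `t`-power order
  obtain ⟨t, htp, htm, htS'⟩ := htS
  have htr : t ≠ r := by
    intro e
    have : r ∣ cs x₀ * c₀ := by rw [hc₀, ← e]; exact htm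
    rcases (Nat.Prime.dvd_mul hrp).mp this with h | h
    · exact hx₀r h
    · exact htS' (e ▸ hSx₀ c₀ hc₀ r hrp h)
  haveI : Fact t.Prime := ⟨htp⟩
  have htG : t ∣ Nat.card G := hk ▸ (htm.mul_right k)
  obtain ⟨T⟩ : Nonempty (Sylow t G) := inferInstance
  obtain ⟨y, hyT, hy1, hyc⟩ := exists_central (T : Subgroup G) t T.isPGroup'
    (T.ne_bot_of_dvd_card htG)
  have hyt : ¬ t ∣ cs y := r_not_dvd_cs T hyc
  obtain ⟨d, hd, hd1⟩ := hc1 y hy1
  have hyS : Ty m Sᶜ y := by
    rcases hScases y hy1 with h | h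
    · exfalso
      have : t ∣ cs y * d := by rw [hd]; exact htm
      rcases (Nat.Prime.dvd_mul htp).mp this with h' | h'
      · exact hyt h'
      · exact htS' (h d hd t htp h')
    · exact h
  obtain ⟨ny, hny⟩ : ∃ n, orderOf y = t ^ n := order_of_mem T.isPGroup' hyT
  -- Step 4: a Sylow `r`-subgroup of `C(y)`.
  set H := Subgroup.centralizer ({y} : Set G) with hH
  have hHcard : Nat.card H = d * k := hcard y d hd
  have hrd : ¬ r ∣ d := hr_not y hy1 hyS d hd
  obtain ⟨V₀⟩ : Nonempty (Sylow r H) := inferInstance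
  set V : Subgroup G := (V₀ : Subgroup H).map H.subtype with hV
  have hVp : IsPGroup r V := V₀.isPGroup'.map H.subtype
  have hVcard : Nat.card V = r ^ (k.factorization r) := by
    have h1 : Nat.card V = Nat.card (V₀ : Subgroup H) :=
      (Nat.card_congr ((V₀ : Subgroup H).equivMapOfInjective H.subtype H.subtype_injective).toEquiv).symm
    rw [h1, V₀.card_eq_multiplicity, hHcard]
    have hd0 : d ≠ 0 := by omega
    rw [Nat.factorization_mul hd0 hk0]
    simp [Nat.factorization_eq_zero_of_not_dvd hrd]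
  have hVle : V ≤ H := by
    rintro _ ⟨u, -, rfl⟩
    exact u.2
  have hVne : V ≠ ⊥ := by
    intro h
    have : Nat.card V = 1 := by rw [h]; simp
    rw [hVcard] at this
    have h2 : k.factorization r ≠ 0 := by
      have := (hrp.dvd_iff_one_le_factorization hk0).mp hrk
      omega
    have h3 := Nat.one_lt_pow h2 hrp.one_lt
    omega
  -- Step 5: all non-trivial elements of `V` have type `Sᶜ`.
  have hVty : ∀ u ∈ V, u ≠ 1 → Ty m Sᶜ u := by
    intro u hu hu1
    rcases hScases u hu1 with h | h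
    · exfalso
      have hcomm : Commute u y := mem_cent.mp (hVle hu)
      obtain ⟨nu, hnu⟩ : ∃ n, orderOf u = r ^ n := order_of_mem hVp hu
      have hcop : (orderOf u).Coprime (orderOf y) := by
        rw [hnu, hny]
        exact Nat.Coprime.pow _ _ ((Nat.coprime_primes hrp htp).mpr htr.symm)
      exact no_comm hm hc1 hu1 hy1 hcomm hcop h hyS
    · exact h
  -- Step 6: a conjugate of `x₀` central in a Sylow subgroup containing `V`.
  obtain ⟨R, hVR⟩ := hVp.exists_le_sylow
  obtain ⟨g, hg⟩ := MulAction.exists_smul_eq G R₀ R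
  have hgmem : ∀ {u : G}, u ∈ (R₀ : Subgroup G) → g * u * g⁻¹ ∈ (R : Subgroup G) := by
    intro u hu
    rw [← hg, Sylow.coe_subgroup_smul]
    have : g * u * g⁻¹ = (MulAut.conj g) • u := by simp [MulAut.smul_def]
    rw [this]
    exact Subgroup.smul_mem_pointwise_smul _ _ _ hu
  have hgmem' : ∀ {u : G}, u ∈ (R : Subgroup G) → g⁻¹ * u * g ∈ (R₀ : Subgroup G) := by
    intro u hu
    rw [← hg, Sylow.coe_subgroup_smul] at hu
    obtain ⟨w, hw, rfl⟩ := (Subgroup.mem_smul_pointwise_iff_exists _ _ _).mp hu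
    simpa [MulAut.smul_def, MulAut.conj_apply, mul_assoc] using hw
  set x := g * x₀ * g⁻¹ with hxdef
  have hxR : x ∈ (R : Subgroup G) := hgmem hx₀R
  have hx1 : x ≠ 1 := by
    intro h
    apply hx₀1
    have : g⁻¹ * x * g = x₀ := by simp [hxdef, mul_assoc]
    rw [← this, h]; simp
  have hxc : ∀ u ∈ (R : Subgroup G), u * x = x * u := by
    intro u hu
    have h1 := hx₀c _ (hgmem' hu)
    have : g * (g⁻¹ * u * g * x₀) * g⁻¹ = g * (x₀ * (g⁻¹ * u * g)) * g⁻¹ := by rw [h1]
    simpa [hxdef, mul_assoc] using this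
  have hxS : Ty m S x := Ty_conj g hSx₀
  have hxV : x ∉ V := by
    intro hxV
    have h1 := hVty x hxV hx1
    obtain ⟨c, hc, hc11⟩ := hc1 x hx1
    have hc2 : c ≠ 1 := by omega
    obtain ⟨p, hp, hpc⟩ := Nat.exists_prime_and_dvd hc2
    exact h1 c hc p hp hpc (hxS c hc p hp hpc)
  -- Step 7: the contradiction.
  obtain ⟨v, hvV, hv1, hvc⟩ := exists_central V r hVp hVne
  have hvS := hVty v hvV hv1
  obtain ⟨c, hc, hc11⟩ := hc1 v hv1
  have hrc : ¬ r ∣ c := hr_not v hv1 hvS c hc
  set W : Subgroup G := (R : Subgroup G) ⊓ Subgroup.centralizer ({v} : Set G) with hW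
  have hWp : IsPGroup r W := R.isPGroup'.to_le inf_le_left
  have hVW : V ≤ W := fun u hu => ⟨hVR hu, mem_cent.mpr (hvc u hu)⟩
  have hxW : x ∈ W := ⟨hxR, mem_cent.mpr (hxc v (hVR hvV)).symm⟩
  have hlt : V < W := lt_of_le_of_ne hVW (fun h => hxV (h ▸ hxW))
  obtain ⟨f, hf⟩ := IsPGroup.iff_card.mp hWp
  have hWdvd : Nat.card W ∣ c * k := by
    rw [← hcard v c hc]
    exact Subgroup.card_dvd_of_le inf_le_right
  rw [hf] at hWdvd
  have hWk : r ^ f ∣ k := (Nat.Coprime.pow_left f ((Nat.Prime.coprime_iff_not_dvd hrp).mpr hrc)).dvd_of_dvd_mul_left hWdvd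
  have hfle : f ≤ k.factorization r := (hrp.pow_dvd_iff_le_factorization hk0).mp hWk
  have hcardlt : Nat.card V < Nat.card W := by
    have h5 := Set.ncard_lt_ncard (show (V : Set G) ⊂ (W : Set G) from SetLike.coe_ssubset_coe.mpr hlt)
      (Set.toFinite _)
    rw [← Nat.card_coe_set_eq, ← Nat.card_coe_set_eq] at h5
    exact h5
  rw [hf, hVcard] at hcardlt
  have := Nat.pow_le_pow_right hrp.pos hfle
  omega

end main

/-- Let G and M be finite groups with trivial centres and the same set of conjugacy class sizes, and suppose the prime graph of M is disconnected: the prime divisors of #M split into two non-empty parts such that M has no element of order pq with p in one part and q in the other. Then #G = #M. -/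
theorem result {G M : Type*}
    [Group G] [Finite G] [Group M] [Finite M] (hZG : Subgroup.center G = ⊥) (hZM : Subgroup.center M = ⊥)
    (h : Set.range (fun g : G => (Subgroup.centralizer ({g} : Set G)).index) = Set.range (fun g : M => (Subgroup.centralizer ({g} : Set M)).index))
    (hdisc : ∃ A : Set ℕ, (∃ a ∈ A, a.Prime ∧ a ∣ Nat.card M) ∧ (∃ b ∉ A, b.Prime ∧ b ∣ Nat.card M) ∧
      ∀ a ∈ A, ∀ b ∉ A, a.Prime → b.Prime → a ∣ Nat.card M → b ∣ Nat.card M → ¬ ∃ x : M, orderOf x = a * b) :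
    Nat.card G = Nat.card M := by
  classical
  obtain ⟨A, ⟨a, haA, hap, hadvd⟩, ⟨b, hbA, hbp, hbdvd⟩, hd⟩ := hdisc
  set m := Nat.card M with hmdef
  have hm : 0 < m := Nat.card_pos
  have hside := prime_side A hd
  -- every class size of `M` is a class size of `G` and conversely
  have hGM : ∀ x : M, ∃ g : G, cs g = cs x := by
    intro x
    have : cs x ∈ Set.range (fun g : G => (Subgroup.centralizer ({g} : Set G)).index) := by
      rw [h]; exact ⟨x, rfl⟩
    exact this
  have hMG : ∀ g : G, ∃ x : M, cs x = cs g := by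
    intro g
    have : cs g ∈ Set.range (fun g : M => (Subgroup.centralizer ({g} : Set M)).index) := by
      rw [← h]; exact ⟨g, rfl⟩
    exact this
  have hcm : ∀ x : M, cs x * Nat.card (Subgroup.centralizer ({x} : Set M)) = m := by
    intro x; rw [mul_comm]; exact card_cent_mul_cs x
  have hc1M : ∀ x : M, x ≠ 1 → 1 < Nat.card (Subgroup.centralizer ({x} : Set M)) := by
    intro x hx
    rw [Subgroup.one_lt_card_iff_ne_bot]
    intro hb
    have : x ∈ Subgroup.centralizer ({x} : Set M) := mem_cent.mpr rfl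
    rw [hb] at this
    exact hx (by simpa using this)
  -- a representative in `M`
  have hrep : ∀ g : G, g ≠ 1 → ∃ x : M, x ≠ 1 ∧ cs x = cs g := by
    intro g hg
    obtain ⟨x, hx⟩ := hMG g
    refine ⟨x, ?_, hx⟩
    rintro rfl
    apply cs_one_iff hZG hg
    rw [← hx]
    have : Subgroup.centralizer ({(1 : M)} : Set M) = ⊤ := by
      ext u; simp [mem_cent]
    simp [cs, this]
  have hc1 : ∀ g : G, g ≠ 1 → ∃ c, cs g * c = m ∧ 1 < c := by
    intro g hg
    obtain ⟨x, hx, hxg⟩ := hrep g hg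
    exact ⟨_, by rw [← hxg]; exact hcm x, hc1M x hx⟩
  have hcases : ∀ g : G, g ≠ 1 → Ty m A g ∨ Ty m Aᶜ g := by
    intro g hg
    obtain ⟨x, hx, hxg⟩ := hrep g hg
    have huniq : ∀ c, cs g * c = m → c = Nat.card (Subgroup.centralizer ({x} : Set M)) := by
      intro c hc
      apply Nat.eq_of_mul_eq_mul_left (cs_pos g)
      rw [hc, ← hxg]; exact (hcm x).symm
    rcases hside x hx with h1 | h1
    · left
      intro c hc p hp hpc
      rw [huniq c hc] at hpc
      exact h1 p hp hpc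
    · right
      intro c hc p hp hpc
      rw [huniq c hc] at hpc
      exact h1 p hp hpc
  -- `m` divides the order of `G`.
  have hdvd : m ∣ Nat.card G := by
    haveI : Fact a.Prime := ⟨hap⟩
    haveI : Fact b.Prime := ⟨hbp⟩
    obtain ⟨x₁, hx₁⟩ := exists_prime_orderOf_dvd_card' a hadvd
    obtain ⟨x₂, hx₂⟩ := exists_prime_orderOf_dvd_card' b hbdvd
    have hx₁1 : x₁ ≠ 1 := by
      rintro rfl
      rw [orderOf_one] at hx₁
      exact hap.one_lt.ne hx₁
    have hx₂1 : x₂ ≠ 1 := by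
      rintro rfl
      rw [orderOf_one] at hx₂
      exact hbp.one_lt.ne hx₂
    have ha' : a ∣ Nat.card (Subgroup.centralizer ({x₁} : Set M)) := by
      have hmem : x₁ ∈ Subgroup.centralizer ({x₁} : Set M) := mem_cent.mpr rfl
      have : orderOf (⟨x₁, hmem⟩ : Subgroup.centralizer ({x₁} : Set M)) = a := by
        rw [← Subgroup.orderOf_coe]; exact hx₁
      rw [← this]; exact orderOf_dvd_natCard _
    have hb' : b ∣ Nat.card (Subgroup.centralizer ({x₂} : Set M)) := by
      have hmem : x₂ ∈ Subgroup.centralizer ({x₂} : Set M) := mem_cent.mpr rfl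
      have : orderOf (⟨x₂, hmem⟩ : Subgroup.centralizer ({x₂} : Set M)) = b := by
        rw [← Subgroup.orderOf_coe]; exact hx₂
      rw [← this]; exact orderOf_dvd_natCard _
    have hs1 : ∀ p, p.Prime → p ∣ Nat.card (Subgroup.centralizer ({x₁} : Set M)) → p ∈ A := by
      rcases hside x₁ hx₁1 with h1 | h1
      · exact h1
      · exact absurd haA (h1 a hap ha')
    have hs2 : ∀ p, p.Prime → p ∣ Nat.card (Subgroup.centralizer ({x₂} : Set M)) → p ∉ A := by
      rcases hside x₂ hx₂1 with h1 | h1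
      · exact absurd (h1 b hbp hb') hbA
      · exact h1
    have hcop : Nat.Coprime (Nat.card (Subgroup.centralizer ({x₁} : Set M)))
        (Nat.card (Subgroup.centralizer ({x₂} : Set M))) := by
      apply Nat.coprime_of_dvd
      intro p hp h1 h2
      exact hs2 p hp h2 (hs1 p hp h1)
    obtain ⟨g₁, hg₁⟩ := hGM x₁
    obtain ⟨g₂, hg₂⟩ := hGM x₂
    refine dvd_of_coprime_parts (hcm x₁) (hcm x₂) hcop ?_ ?_
    · rw [← hg₁]; exact Subgroup.index_dvd_card _
    · rw [← hg₂]; exact Subgroup.index_dvd_card _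
  obtain ⟨k, hk⟩ := hdvd
  by_cases hk1 : k = 1
  · rw [hk, hk1, mul_one]
  · exact (main_aux hm hk A hc1 hcases ⟨a, hap, hadvd, haA⟩ ⟨b, hbp, hbdvd, hbA⟩ hk1).elim

end Cfsg.Agent.S4184
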