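import Cfsg.Statements.S4186

set_option autoImplicit false
open Cfsg

namespace Cfsg.Agent.S4186

/-- Let T and X be subgroups of a group with T a finite 2-group normalizing X but not centralizing it. Then some element of T inverts some non-identity element of X under conjugation. -/
theorem result {G : Type*} [Group G] (T X : Subgroup G) [Finite ↥T] (hT : IsPGroup 2 ↥T) (hTN : T ≤ Subgroup.normalizer (X : Set G)) (hTC : ¬ T ≤ Subgroup.centralizer (X : Set G)) : ∃ t ∈ T, ∃ x ∈ X, x ≠ 1 ∧ t * x * t⁻¹ = x⁻¹ := by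
  -- find t ∈ T that does not centralize X
  obtain ⟨t0, ht0, hnc⟩ := Set.not_subset.mp hTC
  -- t0 has order a power of 2
  obtain ⟨n, hn⟩ := hT ⟨t0, ht0⟩
  have hn' : t0 ^ 2 ^ n = 1 := by
    have := congrArg Subtype.val hn
    simpa using this
  -- minimal m such that t0^(2^m) centralizes X
  have hex : ∃ m : ℕ, t0 ^ 2 ^ m ∈ Subgroup.centralizer (X : Set G) := ⟨n, by rw [hn']; exact one_mem _⟩
  classical
  let m := Nat.find hex
  have hm : t0 ^ 2 ^ m ∈ Subgroup.centralizer (X : Set G) := Nat.find_spec hex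
  have hm0 : m ≠ 0 := by
    intro h0
    apply hnc
    have : t0 ^ 2 ^ m ∈ Subgroup.centralizer (X : Set G) := hm
    rw [h0] at this
    simpa using this
  obtain ⟨k, hk⟩ := Nat.exists_eq_succ_of_ne_zero hm0
  have hkn : t0 ^ 2 ^ k ∉ Subgroup.centralizer (X : Set G) := Nat.find_min hex (by omega)
  set s := t0 ^ 2 ^ k with hs
  have hsT : s ∈ T := pow_mem ht0 _
  have hs2 : s * s ∈ Subgroup.centralizer (X : Set G) := by
    have : s * s = t0 ^ 2 ^ m := by
      rw [hk, hs, ← pow_add]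
      congr 1
      simp [pow_succ]
      ring
    rw [this]; exact hm
  -- find x ∈ X not commuting with s
  rw [Subgroup.mem_centralizer_iff] at hkn
  push_neg at hkn
  obtain ⟨x, hx, hxs⟩ := hkn
  have hxX : x ∈ X := hx
  have hnorm : s * x * s⁻¹ ∈ X := (Subgroup.mem_normalizer_iff.mp (hTN hsT) x).mp hxX
  refine ⟨s, hsT, x⁻¹ * (s * x * s⁻¹), mul_mem (inv_mem hxX) hnorm, ?_, ?_⟩
  · intro h
    apply hxs
    have : s * x * s⁻¹ = x := by
      have := mul_left_cancel (a := x⁻¹) (b := s * x * s⁻¹) (c := x) (by rw [h]; simp)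
      exact this
    calc x * s = (s * x * s⁻¹) * s := by rw [this]
      _ = s * x := by group
  · have hc : (s * s) * x * (s * s)⁻¹ = x := by
      have := (Subgroup.mem_centralizer_iff.mp hs2) x hx
      rw [← this]; group
    -- s * (x⁻¹ * (s x s⁻¹)) * s⁻¹ = (s x s⁻¹)⁻¹ * (s s x s⁻¹ s⁻¹) = (s x s⁻¹)⁻¹ * x
    have e1 : s * (x⁻¹ * (s * x * s⁻¹)) * s⁻¹ = (s * x * s⁻¹)⁻¹ * ((s * s) * x * (s * s)⁻¹) := by group
    rw [e1, hc]
    group

end Cfsg.Agent.S4186
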