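import Cfsg.Statements.S4188
import Mathlib
import Cfsg.Agent.Lib.FG7.FrattiniBound

set_option autoImplicit false
open Cfsg

namespace Cfsg.Agent.S4188

/-- Let G be a finite group that is the semidirect product of a normal abelian subgroup N of odd order by a 2-subgroup P, and suppose N is the unique minimal normal subgroup of G. Then the index of the Frattini subgroup of P in P is at most #N − 1. -/
theorem result {G : Type*} [Group G] [Finite G] (N P : Subgroup G) (hN : N.Normal) (hNab : IsMulCommutative ↥N) (hNodd : Odd (Nat.card ↥N)) (hP : IsPGroup 2 ↥P) (hdisj : N ⊓ P = ⊥) (hprod : N ⊔ P = ⊤) (hmin : N ≠ ⊥ ∧ ∀ M : Subgroup G, M.Normal → M ≠ ⊥ → N ≤ M) : (frattini ↥P).index ≤ Nat.card ↥N - 1 := by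
  classical
  obtain ⟨hne, hminN⟩ := hmin
  let _ : CommGroup N := { (inferInstance : Group N) with mul_comm := hNab.is_comm.comm }
  let φ : P →* MulAut N := (MulAut.conjNormal (H := N)).comp P.subtype
  have hCn : (P ⊓ Subgroup.centralizer (N : Set G)).Normal := by
    constructor
    rintro x ⟨hxP, hxC⟩ g
    have hg : g ∈ N ⊔ P := hprod ▸ Subgroup.mem_top g
    obtain ⟨n, hn, q, hq, rfl⟩ := Subgroup.mem_sup_of_normal_left.mp hg
    have h1 : q * x * q⁻¹ ∈ P := P.mul_mem (P.mul_mem hq hxP) (P.inv_mem hq)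
    have h2 : q * x * q⁻¹ ∈ Subgroup.centralizer (N : Set G) :=
      (inferInstance : (Subgroup.centralizer (N : Set G)).Normal).conj_mem x hxC q
    have h3 : n * (q * x * q⁻¹) = (q * x * q⁻¹) * n := (Subgroup.mem_centralizer_iff.mp h2 n hn)
    have e : n * q * x * (n * q)⁻¹ = q * x * q⁻¹ := by
      calc n * q * x * (n * q)⁻¹ = (n * (q * x * q⁻¹)) * n⁻¹ := by group
        _ = (q * x * q⁻¹) * n * n⁻¹ := by rw [h3]
        _ = q * x * q⁻¹ := by group
    rw [e]
    exact ⟨h1, h2⟩
  have hC : P ⊓ Subgroup.centralizer (N : Set G) = ⊥ := by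
    by_contra hCne
    have h1 := hminN _ hCn hCne
    apply hne
    rw [eq_bot_iff, ← hdisj]
    exact le_inf le_rfl (h1.trans inf_le_left)
  have hφ : Function.Injective φ := by
    rw [← MonoidHom.ker_eq_bot_iff, eq_bot_iff]
    intro x hx
    have hxC : (x : G) ∈ P ⊓ Subgroup.centralizer (N : Set G) := by
      refine ⟨x.2, Subgroup.mem_centralizer_iff.mpr ?_⟩
      intro n hn
      have h := congrArg (fun f : MulAut N => ((f ⟨n, hn⟩ : N) : G)) (MonoidHom.mem_ker.mp hx)
      have h2 : (x : G) * n * (x : G)⁻¹ = n := by simpa [φ] using h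
      rw [mul_inv_eq_iff_eq_mul] at h2
      exact h2.symm
    rw [hC, Subgroup.mem_bot] at hxC
    exact Subgroup.mem_bot.mpr (Subtype.ext hxC)
  have hB := Cfsg.Agent.Lib.FG7.FrattiniBound.bound (Nat.card N) N P rfl hNodd hP φ hφ
  have hpos : 0 < (frattini ↥P).index := Nat.pos_of_ne_zero Subgroup.index_ne_zero_of_finite
  rcases hB with ⟨h1, -⟩ | ⟨h3, h2⟩ | h
  · exact absurd (Subgroup.card_eq_one.mp h1) hne
  · omega
  · omega

end Cfsg.Agent.S4188
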