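import Cfsg.Statements.S4189
import Mathlib
import Cfsg.Agent.Lib.PGroups.MaximalClass
import Cfsg.Agent.Lib.PGroups.Presentations

set_option autoImplicit false
open Cfsg
open scoped commutatorElement

namespace Cfsg.Agent.S4189

theorem aux_sq {P : Type*} [Group P] (a b z : P) (h1 : a * b * a⁻¹ = z * b) (hza : z * a = a * z)
    (ha2b : a ^ 2 * b = b * a ^ 2) : z ^ 2 = 1 := by
  have h2 : z ^ 2 * b = b := by
    calc z ^ 2 * b = z * (z * b) := by rw [sq, mul_assoc]
      _ = z * (a * b * a⁻¹) := by rw [h1]
      _ = z * a * b * a⁻¹ := by group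
      _ = a * z * b * a⁻¹ := by rw [hza]
      _ = a * (z * b) * a⁻¹ := by group
      _ = a * (a * b * a⁻¹) * a⁻¹ := by rw [h1]
      _ = a ^ 2 * b * (a⁻¹) ^ 2 := by simp only [sq, mul_assoc]
      _ = b * a ^ 2 * (a⁻¹) ^ 2 := by rw [ha2b]
      _ = b := by group
  exact mul_right_cancel (b := b) (by rw [h2, one_mul])

/-- Let P be a finite non-abelian 2-group whose commutator subgroup has index 4 and whose automorphism group is not a 2-group (some automorphism has order that is not a power of 2). Then P is isomorphic to the quaternion group of order 8. -/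
theorem result {P : Type*} [Group P] [Finite P] (hP : IsPGroup 2 P) (hna : ¬ IsMulCommutative P) (h4 : (commutator P).index = 4) (haut : ¬ IsPGroup 2 (MulAut P)) : Nonempty (P ≃* QuaternionGroup 2) := by
  classical
  obtain ⟨n, hn⟩ := IsPGroup.iff_card.mp hP
  obtain ⟨a, ha⟩ := Cfsg.Agent.Lib.PGroups.MaximalClass.exists_zpowers_index_two n hn h4
  -- an automorphism of odd prime order
  obtain ⟨r, α, hr, hr2, hα⟩ : ∃ (r : ℕ) (α : MulAut P), r.Prime ∧ r ≠ 2 ∧ orderOf α = r := by
    by_contra hcon
    push Not at hcon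
    apply haut
    apply IsPGroup.of_card (n := (Nat.card (MulAut P)).primeFactorsList.length)
    apply Nat.eq_prime_pow_of_unique_prime_dvd Nat.card_pos.ne'
    intro d hd hdvd
    by_contra hd2
    haveI : Fact d.Prime := ⟨hd⟩
    obtain ⟨x, hx⟩ := exists_prime_orderOf_dvd_card' d hdvd
    exact hcon d x hd hd2 hx
  haveI : Fact r.Prime := ⟨hr⟩
  have hαr : α ^ r = 1 := by rw [← hα]; exact pow_orderOf_eq_one α
  have hrodd : (2 : ℕ).Coprime r := (Nat.coprime_primes Nat.prime_two hr).mpr (Ne.symm hr2)
  set C := Subgroup.zpowers a with hC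
  haveI hCn : C.Normal := Subgroup.normal_of_index_eq_two ha
  have hCcard : 2 * Nat.card C = 2 ^ n := by
    have := Subgroup.card_mul_index C
    rw [ha, hn] at this
    rw [← this]; ring
  obtain ⟨m, hm⟩ : ∃ m, Nat.card C = 2 ^ m := by
    have : Nat.card C ∣ 2 ^ n := ⟨2, by rw [← hCcard]; ring⟩
    obtain ⟨m, -, hm⟩ := (Nat.dvd_prime_pow Nat.prime_two).mp this
    exact ⟨m, hm⟩
  -- if `α` preserves `C` then `α = 1`
  have hnot : α a ∉ C := by
    intro hαa
    have hαC : ∀ x ∈ C, α x ∈ C := by
      intro x hx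
      obtain ⟨k, rfl⟩ := Subgroup.mem_zpowers_iff.mp hx
      rw [map_zpow]
      exact C.zpow_mem hαa k
    let f : C →* C := (α.toMonoidHom.comp C.subtype).codRestrict C (fun x => hαC x x.2)
    have hfinj : Function.Injective f := by
      intro x y hxy
      apply Subtype.ext
      apply α.injective
      exact congrArg Subtype.val hxy
    let β : MulAut C := MulEquiv.ofBijective f (Finite.injective_iff_bijective.mp hfinj)
    have hβpow : ∀ (j : ℕ) (x : C), (((β ^ j) x : C) : P) = (α ^ j) x := by
      intro j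
      induction j with
      | zero => intro x; rfl
      | succ j ih =>
        intro x
        rw [pow_succ', pow_succ', MulAut.mul_apply, MulAut.mul_apply, ← ih]
        rfl
    have hβr : β ^ r = 1 := by
      ext x
      rw [hβpow, hαr]
      rfl
    have h1 : orderOf β ∣ r := orderOf_dvd_of_pow_eq_one hβr
    have h2 : orderOf β ∣ Nat.card (MulAut C) := orderOf_dvd_natCard β
    rw [IsCyclic.card_mulAut, hm] at h2
    have h3 : orderOf β = 1 := by
      have h4 : (Nat.totient (2 ^ m)).Coprime r := by
        rcases Nat.eq_zero_or_pos m with rfl | hm0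
        · simp
        · rw [Nat.totient_prime_pow Nat.prime_two hm0]
          simp only [Nat.add_one_sub_one, one_mul, Nat.sub_one_add_one, Nat.totient_two, mul_one]
          exact Nat.Coprime.pow_left _ hrodd
      exact Nat.Coprime.eq_one_of_dvd (Nat.Coprime.coprime_dvd_left h2 h4) h1
    have hβ1 : β = 1 := orderOf_eq_one_iff.mp h3
    have hfixC : ∀ x ∈ C, α x = x := by
      intro x hx
      have : β ⟨x, hx⟩ = ⟨x, hx⟩ := by rw [hβ1]; rfl
      exact congrArg Subtype.val this
    have hcpow2 : ∀ c ∈ C, c ^ (2 ^ m) = 1 := by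
      intro c hc
      have := pow_card_eq_one' (x := (⟨c, hc⟩ : C))
      rw [hm] at this
      simpa using congrArg Subtype.val this
    have hfix : ∀ y : P, α y = y := by
      intro y
      by_cases hy : y ∈ C
      · exact hfixC y hy
      have hc : y⁻¹ * α y ∈ C := by
        rw [Subgroup.mul_mem_iff_of_index_two ha]
        have h5 : y⁻¹ ∉ C := fun h => hy (by simpa using C.inv_mem h)
        have h6 : α y ∉ C := by
          intro h
          apply hy
          have hαinv : (α ^ (r - 1)) (α y) = y := by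
            rw [← MulAut.mul_apply, ← pow_succ, show r - 1 + 1 = r from Nat.sub_add_cancel hr.one_le, hαr]
            rfl
          rw [← hαinv]
          have hpowC : ∀ (j : ℕ) (x : P), x ∈ C → (α ^ j) x ∈ C := by
            intro j
            induction j with
            | zero => intro x hx; exact hx
            | succ j ih =>
              intro x hx
              rw [pow_succ', MulAut.mul_apply]
              exact hαC _ (ih x hx)
          exact hpowC _ _ h
        exact iff_of_false h5 h6
      set c := y⁻¹ * α y with hcdef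
      have hαy : α y = y * c := by rw [hcdef]; group
      have hpow : ∀ j : ℕ, (α ^ j) y = y * c ^ j := by
        intro j
        induction j with
        | zero => simp
        | succ j ih =>
          rw [pow_succ', MulAut.mul_apply, ih, map_mul, hαy, map_pow, hfixC c hc, pow_succ', mul_assoc]
      have h7 := hpow r
      rw [hαr] at h7
      have h8 : c ^ r = 1 := by
        have : y = y * c ^ r := h7
        exact mul_left_cancel (a := y) (by rw [mul_one]; exact this.symm)
      have h9 : orderOf c ∣ r := orderOf_dvd_of_pow_eq_one h8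
      have h10 : orderOf c ∣ 2 ^ m := orderOf_dvd_of_pow_eq_one (hcpow2 c hc)
      have h11 : orderOf c = 1 :=
        Nat.Coprime.eq_one_of_dvd (Nat.Coprime.coprime_dvd_left h10 (Nat.Coprime.pow_left m hrodd)) h9
      have h12 : c = 1 := orderOf_eq_one_iff.mp h11
      rw [hαy, h12, mul_one]
    have hα1 : α = 1 := by
      ext y
      exact hfix y
    rw [hα1, orderOf_one] at hα
    exact hr.one_lt.ne hα
  set b := α a with hb
  have hord : orderOf b = orderOf a := MulEquiv.orderOf_eq α a
  set C' := Subgroup.zpowers b with hC'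
  have hb2 : C'.index = 2 := by
    have h1 := Subgroup.card_mul_index C
    have h2 := Subgroup.card_mul_index C'
    rw [hC, Nat.card_zpowers, ← hord, ← hC, ha] at h1
    rw [hC', Nat.card_zpowers, ← hC'] at h2
    have hpos : 0 < orderOf b := orderOf_pos b
    apply Nat.eq_of_mul_eq_mul_left hpos
    rw [h1, h2]
  haveI hC'n : C'.Normal := Subgroup.normal_of_index_eq_two hb2
  have hcentral : ∀ w : P, w * a = a * w → w * b = b * w → ∀ x : P, w * x = x * w := by
    intro w h1 h2 x
    have hcommC : ∀ c ∈ C, w * c = c * w := by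
      intro c hc
      obtain ⟨k, rfl⟩ := Subgroup.mem_zpowers_iff.mp hc
      exact (Commute.zpow_right (show Commute w a from h1) k).eq
    by_cases hx : x ∈ C
    · exact hcommC x hx
    · have h3 : b⁻¹ * x ∈ C := by
        rw [Subgroup.mul_mem_iff_of_index_two ha]
        exact iff_of_false (fun h => hnot (by simpa using C.inv_mem h)) hx
      have h4 := hcommC _ h3
      calc w * x = w * (b * (b⁻¹ * x)) := by group
        _ = b * w * (b⁻¹ * x) := by rw [← mul_assoc, h2]
        _ = b * (w * (b⁻¹ * x)) := by group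
        _ = b * (b⁻¹ * x * w) := by rw [h4]
        _ = x * w := by group
  -- the commutator
  set z := a * b * a⁻¹ * b⁻¹ with hz
  have hzC : z ∈ C := by
    have h1 : a ∈ C := Subgroup.mem_zpowers a
    have h2 : b * a⁻¹ * b⁻¹ ∈ C := hCn.conj_mem _ (C.inv_mem h1) b
    have h3 : z = a * (b * a⁻¹ * b⁻¹) := by rw [hz]; group
    rw [h3]
    exact C.mul_mem h1 h2
  have hzC' : z ∈ C' := by
    have h1 : b ∈ C' := Subgroup.mem_zpowers b
    have h2 : a * b * a⁻¹ ∈ C' := hC'n.conj_mem _ h1 a
    exact C'.mul_mem h2 (C'.inv_mem h1)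
  have hza : z * a = a * z := by
    obtain ⟨k, hk⟩ := Subgroup.mem_zpowers_iff.mp hzC
    rw [← hk]
    exact ((Commute.refl a).zpow_left k).eq
  have hzb : z * b = b * z := by
    obtain ⟨k, hk⟩ := Subgroup.mem_zpowers_iff.mp hzC'
    rw [← hk]
    exact ((Commute.refl b).zpow_left k).eq
  have hzcen := hcentral z hza hzb
  have hNn : (Subgroup.zpowers z).Normal := by
    refine ⟨fun x hx g => ?_⟩
    obtain ⟨k, rfl⟩ := Subgroup.mem_zpowers_iff.mp hx
    have h1 : Commute z g := hzcen g
    have h2 : g * z ^ k * g⁻¹ = z ^ k := by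
      rw [((h1.zpow_left k).eq).symm]
      group
    rw [h2]
    exact Subgroup.zpow_mem_zpowers z k
  haveI := hNn
  have hcomm : commutator P ≤ Subgroup.zpowers z := by
    refine Cfsg.Agent.Lib.PGroups.MaximalClass.commutator_le_of_index_two ha hnot ?_ ?_
    · intro c hc d hd
      obtain ⟨k, rfl⟩ := Subgroup.mem_zpowers_iff.mp hc
      obtain ⟨l, rfl⟩ := Subgroup.mem_zpowers_iff.mp hd
      have : Commute (a ^ k) (a ^ l) := (Commute.refl a).zpow_zpow k l
      rw [commutatorElement_eq_one_iff_mul_comm.mpr this.eq]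
      exact Subgroup.one_mem _
    · intro c hc
      obtain ⟨k, rfl⟩ := Subgroup.mem_zpowers_iff.mp hc
      apply (QuotientGroup.eq_one_iff _).mp
      let q := QuotientGroup.mk' (Subgroup.zpowers z)
      have h1 : q z = 1 := (QuotientGroup.eq_one_iff z).mpr (Subgroup.mem_zpowers z)
      have h2 : q a * q b = q b * q a := by
        rw [← commutatorElement_eq_one_iff_mul_comm, commutatorElement_def, ← map_inv, ← map_inv, ← map_mul,
          ← map_mul, ← map_mul]
        exact h1
      show q _ = 1
      rw [map_commutatorElement, map_zpow, commutatorElement_eq_one_iff_mul_comm]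
      exact (Commute.zpow_left (show Commute (q a) (q b) from h2) k).eq
  have hsq : ∀ (H : Subgroup P), H.index = 2 → ∀ x : P, x ^ 2 ∈ H := by
    intro H hH x
    by_cases hx : x ∈ H
    · exact H.pow_mem hx 2
    · rw [sq, Subgroup.mul_mem_iff_of_index_two hH]
  have ha2C' : a ^ 2 ∈ C' := hsq C' hb2 a
  have ha2b : a ^ 2 * b = b * a ^ 2 := by
    obtain ⟨k, hk⟩ := Subgroup.mem_zpowers_iff.mp ha2C'
    rw [← hk]
    exact ((Commute.refl b).zpow_left k).eq
  have hz2 : z ^ 2 = 1 := by
    have h1 : a * b * a⁻¹ = z * b := by rw [hz]; group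
    exact aux_sq a b z h1 hza ha2b
  have hcommne : commutator P ≠ ⊥ := by
    intro h
    apply hna
    refine ⟨⟨fun x y => ?_⟩⟩
    have h1 : ⁅x, y⁆ ∈ commutator P := Subgroup.commutator_mem_commutator (Subgroup.mem_top x) (Subgroup.mem_top y)
    rw [h, Subgroup.mem_bot] at h1
    exact commutatorElement_eq_one_iff_mul_comm.mp h1
  have hz1 : z ≠ 1 := by
    intro h
    apply hcommne
    rw [eq_bot_iff]
    rw [h, Subgroup.zpowers_one_eq_bot] at hcomm
    exact hcomm
  haveI : Fact (Nat.Prime 2) := ⟨Nat.prime_two⟩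
  have hzord : orderOf z = 2 := orderOf_eq_prime hz2 hz1
  have hcard2 : Nat.card (commutator P) = 2 := by
    have h1 : Nat.card (commutator P) ∣ Nat.card (Subgroup.zpowers z) := Subgroup.card_dvd_of_le hcomm
    rw [Nat.card_zpowers, hzord] at h1
    rcases (Nat.dvd_prime Nat.prime_two).mp h1 with h2 | h2
    · exact absurd (Subgroup.eq_bot_of_card_eq _ h2) hcommne
    · exact h2
  have hP8 : Nat.card P = 8 := by
    have := Subgroup.card_mul_index (commutator P)
    rw [hcard2, h4] at this
    exact this.symm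
  have hord4 : orderOf a = 4 := by
    have := Subgroup.card_mul_index C
    rw [hC, Nat.card_zpowers, ← hC, ha, hP8] at this
    omega
  have hordb4 : orderOf b = 4 := by rw [hord, hord4]
  have hcyc4 : ∀ g w : P, orderOf g = 4 → w ∈ Subgroup.zpowers g → w = 1 ∨ w = g ∨ w = g ^ 2 ∨ w = g ^ 3 := by
    intro g w hg hw
    obtain ⟨j, hj⟩ := mem_powers_iff_mem_zpowers.mpr hw
    have hj' : g ^ j = w := hj
    subst hj'
    rw [← pow_mod_orderOf g j, hg]
    have : j % 4 < 4 := Nat.mod_lt _ (by norm_num)
    generalize j % 4 = t at this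
    interval_cases t <;> simp
  have ha2ne : a ^ 2 ≠ 1 := by
    intro h
    have := orderOf_dvd_of_pow_eq_one h
    rw [hord4] at this
    omega
  have ha4 : a ^ 4 = 1 := by rw [← hord4]; exact pow_orderOf_eq_one a
  have hb4 : b ^ 4 = 1 := by rw [← hordb4]; exact pow_orderOf_eq_one b
  have hy2 : b ^ 2 = a ^ 2 := by
    rcases hcyc4 b _ hordb4 ha2C' with h | h | h | h
    · exact absurd h ha2ne
    · exfalso
      apply hnot
      show b ∈ C
      rw [← h]
      exact C.pow_mem (Subgroup.mem_zpowers a) 2
    · exact h.symm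
    · exfalso
      apply hnot
      show b ∈ C
      have h1 : b = (a ^ 2)⁻¹ := by
        rw [h, eq_inv_iff_mul_eq_one, ← pow_succ']
        exact hb4
      rw [h1]
      exact C.inv_mem (C.pow_mem (Subgroup.mem_zpowers a) 2)
  have hzeq : z = a ^ 2 := by
    rcases hcyc4 a _ hord4 hzC with h | h | h | h
    · exact absurd h hz1
    · exfalso
      rw [h] at hz2
      exact ha2ne hz2
    · exact h
    · exfalso
      rw [h, ← pow_mul] at hz2
      apply ha2ne
      have h1 : a ^ (3 * 2) = a ^ 4 * a ^ 2 := by rw [← pow_add]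
      rw [h1, ha4, one_mul] at hz2
      exact hz2
  have hconj : b * a * b⁻¹ = a⁻¹ := by
    have h1 : a * b * a⁻¹ * b⁻¹ = a ^ 2 := hzeq
    have h2 : b * a⁻¹ * b⁻¹ = a := by
      calc b * a⁻¹ * b⁻¹ = a⁻¹ * (a * b * a⁻¹ * b⁻¹) := by group
        _ = a⁻¹ * a ^ 2 := by rw [h1]
        _ = a := by group
    have h3 : b * a * b⁻¹ * a = 1 := by
      calc b * a * b⁻¹ * a = b * a * b⁻¹ * (b * a⁻¹ * b⁻¹) := by rw [h2]
        _ = 1 := by group
    exact eq_inv_of_mul_eq_one_left h3
  exact (Cfsg.Agent.Lib.PGroups.Presentations.nonempty_quaternion_equiv (m := 2) (a := a) (y := b)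
    hord4 hy2 hconj hnot hP8).map MulEquiv.symm

end Cfsg.Agent.S4189
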