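import Cfsg.Statements.S4195
import Mathlib

set_option autoImplicit false
open Cfsg

namespace Cfsg.Agent.S4195

/-- The class of `g` has size the index of the centralizer. -/
theorem card_filter_isConj {G : Type*} [Group G] [Fintype G] [DecidableRel (IsConj : G → G → Prop)] (g : G) :
    (Finset.univ.filter (fun y => IsConj g y)).card = (Subgroup.centralizer ({g} : Set G)).index := by
  classical
  have h1 := Subgroup.card_mul_index (Subgroup.centralizer ({g} : Set G))
  have h2 := Subgroup.card_mul_index (MulAction.stabilizer (ConjAct G) g)
  have h3 : MulAction.orbit (ConjAct G) g = (ConjClasses.mk g).carrier :=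
    ConjAct.orbit_eq_carrier_conjClasses g
  have h4 := Subgroup.nat_card_centralizer_nat_card_stabilizer g
  have h5 := MulAction.index_stabilizer (ConjAct G) g
  have h6 : Nat.card (ConjAct G) = Nat.card G := Nat.card_congr ConjAct.toConjAct.symm.toEquiv
  have h7 : (MulAction.orbit (ConjAct G) g).ncard =
      (Finset.univ.filter (fun y => IsConj g y)).card := by
    rw [h3, ← Fintype.card_subtype, ← Nat.card_eq_fintype_card]
    apply Nat.card_congr
    refine Equiv.subtypeEquivRight fun y => ?_
    rw [ConjClasses.mem_carrier_iff_mk_eq, ConjClasses.mk_eq_mk_iff_isConj]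
    exact isConj_comm
  rw [← h7, ← h5]
  rw [h6, ← h1, h4] at h2
  have hpos : 0 < Nat.card (MulAction.stabilizer (ConjAct G) g) := Nat.card_pos
  exact Nat.eq_of_mul_eq_mul_left hpos h2

/-- Let x be a non-identity element of a finite group G whose centralizer contains a Sylow 2-subgroup of G. If x is conjugate to its inverse, then x has order 2. -/
theorem result {G : Type*} [Group G] [Finite G] (x : G) (hx : x ≠ 1) (P : Sylow 2 G) (hP : (P : Subgroup G) ≤ Subgroup.centralizer ({x} : Set G)) (hreal : IsConj x x⁻¹) : orderOf x = 2 := by
  classical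
  cases nonempty_fintype G
  haveI : Fact (Nat.Prime 2) := ⟨Nat.prime_two⟩
  have hodd : ¬ 2 ∣ (Subgroup.centralizer ({x} : Set G)).index := by
    intro h
    have h1 : (Subgroup.centralizer ({x} : Set G)).index ∣ (P : Subgroup G).index :=
      Subgroup.index_dvd_of_le hP
    exact P.not_dvd_index (h.trans h1)
  have hsq : x ^ 2 = 1 := by
    by_contra hne
    apply hodd
    rw [← card_filter_isConj x]
    have hsum : ∑ y ∈ Finset.univ.filter (fun y => IsConj x y), (1 : ZMod 2) = 0 := by
      refine Finset.sum_involution (fun a _ => a⁻¹) ?_ ?_ ?_ ?_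
      · intro a _
        exact CharTwo.add_self_eq_zero _
      · intro a ha _ h
        simp only [Finset.mem_filter, Finset.mem_univ, true_and] at ha
        apply hne
        obtain ⟨c, hc⟩ := isConj_iff.mp ha
        have h2 : a ^ 2 = 1 := by
          rw [pow_two]
          nth_rewrite 1 [← h]
          simp
        have h3 : (c * x * c⁻¹) ^ 2 = 1 := by rw [hc]; exact h2
        rw [conj_pow] at h3
        have h4 : c * x ^ 2 = c := by
          have := congrArg (fun z => z * c) h3
          simpa using this
        simpa using h4
      · intro a ha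
        simp only [Finset.mem_filter, Finset.mem_univ, true_and] at ha ⊢
        exact hreal.trans (by
          obtain ⟨c, hc⟩ := isConj_iff.mp ha
          refine isConj_iff.mpr ⟨c, ?_⟩
          rw [← hc]; group)
      · intro a _
        simp
    rw [Finset.sum_const, nsmul_eq_mul, mul_one] at hsum
    exact (ZMod.natCast_eq_zero_iff _ 2).mp hsum
  exact orderOf_eq_prime hsq hx

end Cfsg.Agent.S4195
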