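import Cfsg.Statements.S4196
import Cfsg.Agent.S4195

set_option autoImplicit false
open Cfsg

namespace Cfsg.Agent.S4196

/-- A finite group G has elementary abelian Sylow 2-subgroups (commutative with every element squaring to the identity) if and only if every 2-element of G has a Sylow 2-subgroup in its centralizer and is conjugate to its inverse. -/
theorem result {G : Type*} [Group G] [Finite G] (P : Sylow 2 G) :
    (IsMulCommutative (P : Subgroup G) ∧ ∀ x ∈ (P : Subgroup G), x ^ 2 = 1) ↔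
      ∀ x : G, (∃ k : ℕ, orderOf x = 2 ^ k) → (∃ Q : Sylow 2 G, (Q : Subgroup G) ≤ Subgroup.centralizer ({x} : Set G)) ∧ IsConj x x⁻¹ := by
  haveI : Fact (Nat.Prime 2) := ⟨Nat.prime_two⟩
  constructor
  · rintro ⟨hcomm, hsq⟩ x ⟨k, hk⟩
    -- x lies in some Sylow 2-subgroup, a conjugate of P
    have hp : IsPGroup 2 (Subgroup.zpowers x) := by
      rw [IsPGroup.iff_card, Nat.card_zpowers]
      exact ⟨k, hk⟩
    obtain ⟨Q, hQ⟩ := hp.exists_le_sylow
    have hxQ : x ∈ (Q : Subgroup G) := hQ (Subgroup.mem_zpowers x)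
    obtain ⟨g, hg⟩ : ∃ g : G, g • P = Q := MulAction.exists_smul_eq G P Q
    have hQeq : (Q : Subgroup G) = (P : Subgroup G).map (MulAut.conj g).toMonoidHom := by
      rw [← hg]; rfl
    have hmem : g⁻¹ * x * g ∈ (P : Subgroup G) := by
      rw [hQeq] at hxQ
      obtain ⟨y, hy, rfl⟩ := hxQ
      have e : g⁻¹ * (MulAut.conj g).toMonoidHom y * g = y := by
        simp [mul_assoc]
      rw [e]; exact hy
    refine ⟨⟨Q, ?_⟩, ?_⟩
    · intro y hy
      rw [Subgroup.mem_centralizer_iff]
      intro z hz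
      rw [Set.mem_singleton_iff] at hz
      subst hz
      rw [hQeq] at hy hxQ
      obtain ⟨y', hy', rfl⟩ := hy
      obtain ⟨x', hx', rfl⟩ := hxQ
      have hc : x' * y' = y' * x' := by
        have := hcomm.is_comm.comm ⟨x', hx'⟩ ⟨y', hy'⟩
        exact congrArg Subtype.val this
      simp only [MulEquiv.coe_toMonoidHom, MulAut.conj_apply]
      calc g * x' * g⁻¹ * (g * y' * g⁻¹) = g * (x' * y') * g⁻¹ := by group
        _ = g * (y' * x') * g⁻¹ := by rw [hc]
        _ = g * y' * g⁻¹ * (g * x' * g⁻¹) := by group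
    · have h2 : (g⁻¹ * x * g) ^ 2 = 1 := hsq _ hmem
      have h3 : x ^ 2 = 1 := by
        have : (g⁻¹ * x * g) ^ 2 = g⁻¹ * x ^ 2 * g := by
          have := conj_pow (a := g⁻¹) (b := x) (i := 2)
          simpa using this
        rw [this] at h2
        have h4 : x ^ 2 = g * (g⁻¹ * x ^ 2 * g) * g⁻¹ := by group
        rw [h4, h2]; group
      have h5 : x⁻¹ = x := by
        rw [inv_eq_iff_mul_eq_one, ← pow_two, h3]
      rw [h5]
  · intro h
    have hsq : ∀ x ∈ (P : Subgroup G), x ^ 2 = 1 := by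
      intro x hx
      have hpow : ∃ k : ℕ, orderOf x = 2 ^ k := by
        have hp : IsPGroup 2 (P : Subgroup G) := P.isPGroup'
        obtain ⟨n, hn⟩ := hp ⟨x, hx⟩
        have h1 : x ^ 2 ^ n = 1 := by simpa using congrArg Subtype.val hn
        have h2 : orderOf x ∣ 2 ^ n := orderOf_dvd_of_pow_eq_one h1
        obtain ⟨k, _, hk⟩ := (Nat.dvd_prime_pow Nat.prime_two).mp h2
        exact ⟨k, hk⟩
      obtain ⟨⟨Q, hQ⟩, hreal⟩ := h x hpow
      by_cases hx1 : x = 1
      · simp [hx1]
      · have := Cfsg.Agent.S4195.result x hx1 Q hQ hreal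
        rw [← this]
        exact pow_orderOf_eq_one x
    refine ⟨?_, hsq⟩
    refine ⟨⟨fun a b => ?_⟩⟩
    apply Subtype.ext
    have ha := hsq a a.2
    have hb := hsq b b.2
    have hab := hsq _ (mul_mem a.2 b.2)
    have hinv : ∀ z : G, z ^ 2 = 1 → z⁻¹ = z := fun z hz => by
      rw [inv_eq_iff_mul_eq_one, ← pow_two, hz]
    have := hinv _ hab
    rw [mul_inv_rev, hinv _ ha, hinv _ hb] at this
    exact this.symm

end Cfsg.Agent.S4196
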