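import Cfsg.Statements.S4230

set_option autoImplicit false
open Cfsg

namespace Cfsg.Agent.S4230

/-- Let p be an odd prime, q a natural number not divisible by p, and e the multiplicative order of q modulo p. For a natural number f, p divides the value at q of the f-th cyclotomic polynomial if and only if f = e·p^j for some j ≥ 0. -/
theorem result (p q f : ℕ) (hp : p.Prime) (hp2 : p ≠ 2) (hpq : ¬ p ∣ q) :
    ((p : ℤ) ∣ (Polynomial.cyclotomic f ℤ).eval (q : ℤ)) ↔ ∃ j : ℕ, f = orderOf (q : ZMod p) * p ^ j := by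
  haveI : Fact p.Prime := ⟨hp⟩
  have hq0 : (q : ZMod p) ≠ 0 := fun h => hpq ((ZMod.natCast_eq_zero_iff q p).mp h)
  -- the order of q is positive and prime to p
  have hfin : IsOfFinOrder (q : ZMod p) :=
    isOfFinOrder_iff_pow_eq_one.mpr ⟨p - 1, by have := hp.two_le; omega, ZMod.pow_card_sub_one_eq_one hq0⟩
  have hepos : 0 < orderOf (q : ZMod p) := hfin.orderOf_pos
  have hecop : ¬ p ∣ orderOf (q : ZMod p) := by
    intro h
    have h1 : (q : ZMod p) ^ (p - 1) = 1 := ZMod.pow_card_sub_one_eq_one hq0
    have h2 := orderOf_dvd_of_pow_eq_one h1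
    have h3 := h.trans h2
    have h4 : p ≤ p - 1 := Nat.le_of_dvd (by have := hp.two_le; omega) h3
    have := hp.two_le
    omega
  have hkey : ∀ f : ℕ, ((p : ℤ) ∣ (Polynomial.cyclotomic f ℤ).eval (q : ℤ)) ↔
      (Polynomial.cyclotomic f (ZMod p)).IsRoot (q : ZMod p) := by
    intro f
    rw [Polynomial.IsRoot.def, ← Polynomial.map_cyclotomic_int f (ZMod p)]
    have : ((q : ZMod p)) = (((q : ℤ) : ZMod p)) := by simp
    rw [this, Polynomial.eval_intCast_map]
    simp only [eq_intCast]
    rw [ZMod.intCast_zmod_eq_zero_iff_dvd]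
    simp
  rw [hkey]
  by_cases hf : f = 0
  · subst hf
    simp only [Polynomial.cyclotomic_zero, Polynomial.IsRoot.def, Polynomial.eval_one, one_ne_zero, false_iff]
    rintro ⟨j, hj⟩
    have := Nat.mul_pos hepos (pow_pos hp.pos j)
    omega
  · obtain ⟨k, m, hm, hfm⟩ := Nat.exists_eq_pow_mul_and_not_dvd hf p hp.ne_one
    haveI : NeZero ((m : ℕ) : ZMod p) := ⟨fun h => hm ((ZMod.natCast_eq_zero_iff m p).mp h)⟩
    rw [hfm, Polynomial.isRoot_cyclotomic_prime_pow_mul_iff_of_charP]
    constructor
    · intro hprim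
      refine ⟨k, ?_⟩
      rw [← hprim.eq_orderOf, mul_comm]
    · rintro ⟨j, hj⟩
      -- comparing p-adic valuations
      have hjk : k = j := by
        have e : p ^ k * m = p ^ j * orderOf (q : ZMod p) := by rw [hj, mul_comm]
        by_contra hne
        rcases lt_or_gt_of_ne hne with h | h
        · obtain ⟨c, rfl⟩ := Nat.exists_eq_add_of_lt h
          rw [pow_add, pow_add, mul_assoc, mul_assoc] at e
          have e2 := Nat.eq_of_mul_eq_mul_left (pow_pos hp.pos k) e
          apply hm
          rw [e2]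
          exact Dvd.intro (p ^ c * orderOf (q : ZMod p)) (by ring)
        · obtain ⟨c, rfl⟩ := Nat.exists_eq_add_of_lt h
          rw [pow_add, pow_add, mul_assoc, mul_assoc] at e
          have e2 := Nat.eq_of_mul_eq_mul_left (pow_pos hp.pos j) e
          apply hecop
          rw [← e2]
          exact Dvd.intro (p ^ c * m) (by ring)
      subst hjk
      have hme : m = orderOf (q : ZMod p) := by
        have e : p ^ k * m = p ^ k * orderOf (q : ZMod p) := by rw [hj, mul_comm]
        exact Nat.eq_of_mul_eq_mul_left (pow_pos hp.pos k) e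
      rw [hme]
      exact IsPrimitiveRoot.orderOf _

end Cfsg.Agent.S4230
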