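import Cfsg.Statements.S4237
import Mathlib
import Cfsg.Agent.Lib.FG7.KulakoffC

set_option autoImplicit false
open Cfsg

namespace Cfsg.Agent.S4237

/-- Let G be a finite group, p a prime and a a natural number such that p^(a+1) divides the order of G. Then the number of subgroups of G of order p^a is congruent to 1 or to 1 + p modulo p². -/
theorem result {G : Type*} [Group G] [Finite G] (p a : ℕ) (hp : p.Prime) (hdvd : p ^ (a + 1) ∣ Nat.card G) :
    Nat.card {H : Subgroup G // Nat.card H = p ^ a} ≡ 1 [MOD p ^ 2] ∨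
      Nat.card {H : Subgroup G // Nat.card H = p ^ a} ≡ 1 + p [MOD p ^ 2] := by
  classical
  haveI : Fact p.Prime := ⟨hp⟩
  by_cases hp2 : p = 2
  · subst hp2
    have h := Cfsg.Agent.S3975.result (G := G) 2 a Nat.prime_two
      ((pow_dvd_pow 2 (Nat.le_succ a)).trans hdvd)
    unfold Nat.ModEq at h ⊢
    norm_num at h ⊢
    omega
  · obtain ⟨P⟩ : Nonempty (Sylow p G) := inferInstance
    have hG0 : Nat.card G ≠ 0 := Nat.card_pos.ne'
    have hle : a + 1 ≤ (Nat.card G).factorization p :=
      (hp.pow_dvd_iff_le_factorization hG0).mp hdvd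
    obtain ⟨f, hf⟩ : ∃ f, (Nat.card G).factorization p = f + 1 := ⟨(Nat.card G).factorization p - 1, by omega⟩
    have hPc : Nat.card (P : Subgroup G) = p ^ (f + 1) := by
      rw [← hf]
      exact Sylow.card_eq_multiplicity P
    have h1 := Cfsg.Agent.Lib.FG7.KulakoffC.cnt_modEq_sylow P f hPc a (by omega)
    have h1' : Nat.card {H : Subgroup G // Nat.card H = p ^ a} ≡
        Cfsg.Agent.Lib.FG7.Kulakoff.cnt (P : Subgroup G) (p ^ a) [MOD p ^ 2] := h1
    by_cases hcyc : IsCyclic (P : Subgroup G)
    · left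
      have h2 : Cfsg.Agent.Lib.FG7.Kulakoff.cnt (P : Subgroup G) (p ^ a) = 1 := by
        apply Cfsg.Agent.S3975.card_subgroups_cyclic hp
        rw [hPc]
        exact pow_dvd_pow _ (by omega)
      rwa [h2] at h1'
    · rcases Nat.eq_zero_or_pos a with rfl | ha
      · left
        have h2 : Cfsg.Agent.Lib.FG7.Kulakoff.cnt (P : Subgroup G) (p ^ 0) = 1 := by
          unfold Cfsg.Agent.Lib.FG7.Kulakoff.cnt
          rw [Nat.card_eq_one_iff_unique]
          refine ⟨⟨?_⟩, ⟨⟨⊥, by simp⟩⟩⟩
          rintro ⟨H, hH⟩ ⟨K, hK⟩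
          apply Subtype.ext
          rw [pow_zero, Subgroup.card_eq_one] at hH hK
          show H = K
          rw [hH, hK]
        rwa [h2] at h1'
      · right
        have h2 := Cfsg.Agent.Lib.FG7.KulakoffB.kulakoff (p := p) (f + 1) (P : Subgroup G) hPc hcyc
          (fun h => absurd h hp2) a ha (by omega)
        exact h1'.trans h2

end Cfsg.Agent.S4237
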