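import Cfsg.Statements.S4238
import Mathlib
import Cfsg.Agent.Lib.Transfer.Frobenius
import Cfsg.Prelude.Def_Solvable
import Cfsg.Agent.Lib.Coprime.Action
-- import your own Cfsg.Agent.* helpers here

set_option autoImplicit false
open Cfsg

namespace Cfsg.Agent.S4238


universe u

open Cfsg

/-- The structure of a bad section: `V ⋊ ⟨x⟩`, with `V` an abelian normal `p`-subgroup, `x^q = 1`, and
`C_V(x) = 1`. -/
theorem bad_section {K : Type*} [Group K] [Finite K] {p q : ℕ} (hp : p.Prime) (hq : q.Prime)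
    (hpq : p ≠ q) (V : Subgroup K) (hVn : V.Normal) (hVp : IsPGroup p V)
    (hVa : ∀ a ∈ V, ∀ b ∈ V, a * b = b * a) (hV1 : V ≠ ⊥) (x : K) (hxq : x ^ q = 1)
    (hgen : ∀ k : K, ∃ v ∈ V, ∃ j : ℕ, k = v * x ^ j)
    (hfix : ∀ u ∈ V, x * u = u * x → u = 1) :
    pPrimeCore p K = ⊥ ∧ ¬ ∃ k : K, orderOf k = Monoid.exponent K := by
  haveI : Fact p.Prime := ⟨hp⟩
  haveI : Fact q.Prime := ⟨hq⟩
  obtain ⟨⟨v₀, hv₀⟩, hv₀1⟩ := Subgroup.ne_bot_iff_exists_ne_one.1 hV1
  have hv₀1' : v₀ ≠ 1 := fun h => hv₀1 (Subtype.ext h)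
  -- `x ≠ 1`
  have hx1 : x ≠ 1 := by
    rintro rfl
    exact hv₀1' (hfix v₀ hv₀ (by simp))
  have hordx : orderOf x = q := orderOf_eq_prime hxq hx1
  -- orders in `V`
  have hVord : ∀ u ∈ V, ∃ k : ℕ, orderOf u = p ^ k := by
    intro u hu
    obtain ⟨k, hk⟩ := (IsPGroup.iff_orderOf.1 hVp) ⟨u, hu⟩
    exact ⟨k, by rw [← hk, Subgroup.orderOf_mk]⟩
  have hxV : x ∉ V := by
    intro h
    obtain ⟨k, hk⟩ := hVord x h
    rw [hordx] at hk
    have h1 : q ∣ p ^ k := hk ▸ dvd_rfl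
    exact hpq ((Nat.prime_dvd_prime_iff_eq hq hp).1 (hq.dvd_of_dvd_pow h1)).symm
  -- powers of `x` in `V`
  have hpowV : ∀ j : ℕ, x ^ j ∈ V → q ∣ j := by
    intro j hj
    by_contra hnd
    have hcop : Nat.Coprime j q := ((Nat.Prime.coprime_iff_not_dvd hq).2 hnd).symm
    obtain ⟨i, -, hi⟩ := Nat.exists_mul_mod_eq_one_of_coprime hcop hq.one_lt
    have : x = (x ^ j) ^ i := by
      rw [← pow_mul, ← pow_mod_orderOf, hordx, hi, pow_one]
    apply hxV
    rw [this]
    exact V.pow_mem hj i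
  -- property F
  have hF : ∀ g : K, g ∉ V → ∀ u ∈ V, g * u = u * g → u = 1 := by
    intro g hg u hu hcomm
    obtain ⟨v, hv, j, rfl⟩ := hgen g
    have hxj : ¬ q ∣ j := by
      rintro ⟨l, rfl⟩
      apply hg
      rw [pow_mul, hxq, one_pow, mul_one]
      exact hv
    have hcop : Nat.Coprime j q := ((Nat.Prime.coprime_iff_not_dvd hq).2 hxj).symm
    obtain ⟨i, -, hi⟩ := Nat.exists_mul_mod_eq_one_of_coprime hcop hq.one_lt
    have hxe : x = (x ^ j) ^ i := by
      rw [← pow_mul, ← pow_mod_orderOf, hordx, hi, pow_one]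
    -- `x^j` commutes with `u`
    have h1 : x ^ j * u * (x ^ j)⁻¹ ∈ V := hVn.conj_mem u hu _
    have h2 : x ^ j * u = u * x ^ j := by
      have h3 : v * (x ^ j * u * (x ^ j)⁻¹) * v⁻¹ = u := by
        have h4 : v * x ^ j * u * (v * x ^ j)⁻¹ = u := by
          rw [hcomm, mul_inv_cancel_right]
        calc v * (x ^ j * u * (x ^ j)⁻¹) * v⁻¹ = v * x ^ j * u * (v * x ^ j)⁻¹ := by group
          _ = u := h4
      have h5 : v * (x ^ j * u * (x ^ j)⁻¹) = (x ^ j * u * (x ^ j)⁻¹) * v := hVa _ hv _ h1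
      rw [h5, mul_inv_cancel_right] at h3
      rw [mul_inv_eq_iff_eq_mul] at h3
      exact h3
    have hcomm2 : Commute x u := by
      rw [hxe]
      exact Commute.pow_left h2 i
    exact hfix u hu hcomm2
  constructor
  · -- the `p'`-core
    rw [pPrimeCore, sSup_eq_bot]
    rintro N ⟨hNn, hNc⟩
    rw [eq_bot_iff]
    intro n hn
    rw [Subgroup.mem_bot]
    have hdisj : ∀ y, y ∈ N → y ∈ V → y = 1 := by
      intro y hyN hyV
      obtain ⟨k, hk⟩ := hVord y hyV
      have h1 : orderOf y ∣ Nat.card N := by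
        have := Subgroup.orderOf_dvd_natCard N hyN
        exact this
      rw [hk] at h1
      have h2 : k = 0 := by
        by_contra hk0
        have h3 : p ∣ Nat.card N := (dvd_pow_self p hk0).trans h1
        exact hp.one_lt.ne' (Nat.dvd_one.1 (hNc ▸ Nat.dvd_gcd h3 dvd_rfl))
      rw [h2, pow_zero] at hk
      exact orderOf_eq_one_iff.1 hk
    -- `n` commutes with `v₀`
    have hcomm : n * v₀ = v₀ * n := by
      have h1 : n * v₀ * n⁻¹ * v₀⁻¹ ∈ N := by
        have : n * v₀ * n⁻¹ * v₀⁻¹ = n * (v₀ * n⁻¹ * v₀⁻¹) := by group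
        rw [this]
        exact N.mul_mem hn (hNn.conj_mem _ (N.inv_mem hn) _)
      have h2 : n * v₀ * n⁻¹ * v₀⁻¹ ∈ V :=
        V.mul_mem (hVn.conj_mem v₀ hv₀ n) (V.inv_mem hv₀)
      have h3 := hdisj _ h1 h2
      rw [mul_inv_eq_one, mul_inv_eq_iff_eq_mul] at h3
      exact h3
    by_cases hnV : n ∈ V
    · exact hdisj n hn hnV
    · exact absurd (hF n hnV v₀ hv₀ hcomm) hv₀1'
  · rintro ⟨k, hk⟩
    have hpos : 0 < orderOf k := orderOf_pos k
    -- `p` divides the exponent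
    have hp_dvd : p ∣ orderOf k := by
      rw [hk]
      obtain ⟨e, he⟩ := hVord v₀ hv₀
      have h0 : e ≠ 0 := by
        rintro rfl
        rw [pow_zero] at he
        exact hv₀1' (orderOf_eq_one_iff.1 he)
      exact (dvd_pow_self p h0).trans (he ▸ Monoid.order_dvd_exponent v₀)
    have hq_dvd : q ∣ orderOf k := by
      rw [hk, ← hordx]
      exact Monoid.order_dvd_exponent x
    set u := k ^ (orderOf k / p) with hu
    set z := k ^ (orderOf k / q) with hz
    have hou : orderOf u = p := orderOf_pow_orderOf_div hpos.ne' hp_dvd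
    have hoz : orderOf z = q := orderOf_pow_orderOf_div hpos.ne' hq_dvd
    have hzV : z ∉ V := by
      intro h
      obtain ⟨e, he⟩ := hVord z h
      rw [hoz] at he
      have h1 : q ∣ p ^ e := he ▸ dvd_rfl
      exact hpq ((Nat.prime_dvd_prime_iff_eq hq hp).1 (hq.dvd_of_dvd_pow h1)).symm
    have huV : u ∈ V := by
      -- all `p`-elements are in `V`
      obtain ⟨v, hv, j, huj⟩ := hgen u
      have hup : u ^ p = 1 := by rw [← hou]; exact pow_orderOf_eq_one u
      have h1 : x ^ (j * p) ∈ V := by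
        -- in the quotient
        have h2 : ((QuotientGroup.mk' V) u) ^ p = 1 := by rw [← map_pow, hup, map_one]
        have h3 : (QuotientGroup.mk' V) u = (QuotientGroup.mk' V) (x ^ j) := by
          rw [huj, map_mul]
          have : (QuotientGroup.mk' V) v = 1 := (QuotientGroup.eq_one_iff v).2 hv
          rw [this, one_mul]
        rw [h3, ← map_pow] at h2
        have h4 := (QuotientGroup.eq_one_iff _).1 h2
        rwa [← pow_mul] at h4
      have h2 : q ∣ j * p := hpowV _ h1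
      have h3 : q ∣ j := by
        rcases (Nat.Prime.dvd_mul hq).1 h2 with h | h
        · exact h
        · exact absurd ((Nat.prime_dvd_prime_iff_eq hq hp).1 h).symm hpq
      obtain ⟨l, rfl⟩ := h3
      rw [huj, pow_mul, hxq, one_pow, mul_one]
      exact hv
    have hcomm : z * u = u * z := (Commute.refl k).pow_pow _ _
    have := hF z hzV u huV hcomm
    rw [this, orderOf_one] at hou
    exact hp.one_lt.ne hou

/-- In a finite `p`-group some element has order equal to the exponent. -/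
theorem exists_orderOf_eq_exponent_of_isPGroup {K : Type*} [Group K] [Finite K] {p : ℕ}
    (hp : p.Prime) (h : IsPGroup p K) : ∃ k : K, orderOf k = Monoid.exponent K := by
  haveI : Fact p.Prime := ⟨hp⟩
  obtain ⟨k, hk⟩ := Finite.exists_max (fun g : K => orderOf g)
  refine ⟨k, ?_⟩
  apply Nat.dvd_antisymm (Monoid.order_dvd_exponent k)
  apply Monoid.exponent_dvd_of_forall_pow_eq_one
  intro g
  obtain ⟨a, ha⟩ := IsPGroup.iff_orderOf.1 h g
  obtain ⟨b, hb⟩ := IsPGroup.iff_orderOf.1 h k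
  have h1 := hk g
  rw [ha, hb] at h1
  have h2 : a ≤ b := (Nat.pow_le_pow_iff_right hp.one_lt).1 h1
  have h3 : orderOf g ∣ orderOf k := by
    rw [ha, hb]
    exact pow_dvd_pow p h2
  exact orderOf_dvd_iff_pow_eq_one.1 h3


open Cfsg.Agent.Lib.Coprime.Action in
theorem exists_bad {G : Type*} [Group G] [Finite G] (p : ℕ) [hp : Fact p.Prime] (Q : Subgroup G)
    (hQ : IsPGroup p Q) (x : G) (hxN : x ∈ Subgroup.normalizer (Q : Set G))
    (hxo : Nat.Coprime (orderOf x) p) (q : ℕ) (hq : q.Prime) (hpq : p ≠ q)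
    (hxq : x ^ q ∈ Subgroup.centralizer (Q : Set G)) (hxC : x ∉ Subgroup.centralizer (Q : Set G))
    (hmin : ∀ R : Subgroup G, R < Q → x ∈ Subgroup.normalizer (R : Set G) →
      x ∈ Subgroup.centralizer (R : Set G)) :
    ∃ (H : Subgroup G) (N : Subgroup H) (_ : N.Normal), pPrimeCore p (H ⧸ N) = ⊥ ∧
      ¬ ∃ k : H ⧸ N, orderOf k = Monoid.exponent (H ⧸ N) := by
  classical
  have hx1 : ∀ g ∈ Q, x * g * x⁻¹ ∈ Q := fun g hg => (Subgroup.mem_normalizer_iff.1 hxN g).1 hg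
  -- `Q` is not trivial
  have hQbot : Q ≠ ⊥ := by
    rintro rfl
    apply hxC
    rw [Subgroup.mem_centralizer_iff]
    intro h hh
    have : h = 1 := hh
    rw [this, one_mul, mul_one]
  -- the commutator subgroup
  have hCQ : ⁅Q, Q⁆ ≤ Q := Subgroup.commutator_le.2 fun a ha b hb => by
    rw [commutatorElement_def]
    exact Q.mul_mem (Q.mul_mem (Q.mul_mem ha hb) (Q.inv_mem ha)) (Q.inv_mem hb)
  have hcomm_lt : ⁅Q, Q⁆ < Q := by
    refine lt_of_le_of_ne hCQ ?_
    intro h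
    haveI : Nontrivial Q := (Subgroup.nontrivial_iff_ne_bot Q).2 hQbot
    haveI hnil : Group.IsNilpotent Q := hQ.isNilpotent
    have h1 : commutator Q ≠ ⊤ := Cfsg.Agent.Lib.Transfer.Frobenius.commutator_ne_top_of_isNilpotent
    apply h1
    have h2 := Subgroup.map_subtype_commutator Q
    rw [h] at h2
    rw [eq_top_iff]
    rintro ⟨y, hy⟩ -
    have h3 : y ∈ (commutator Q).map Q.subtype := by rw [h2]; exact hy
    obtain ⟨w, hw, rfl⟩ := h3
    exact hw
  have hxcomm : x ∈ Subgroup.normalizer ((⁅Q, Q⁆ : Subgroup G) : Set G) := by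
    have h0 : Subgroup.zpowers x ≤ Subgroup.normalizer (Q : Set G) :=
      (Subgroup.zpowers_le).2 hxN
    exact le_normalizer_commutator_of_le h0 h0 (Subgroup.mem_zpowers x)
  have hxc : x ∈ Subgroup.centralizer ((⁅Q, Q⁆ : Subgroup G) : Set G) := hmin _ hcomm_lt hxcomm
  -- `Z = C_Q(x)`
  let Z : Subgroup G := Q ⊓ Subgroup.centralizer ({x} : Set G)
  have hZmem : ∀ g, g ∈ Z ↔ g ∈ Q ∧ x * g = g * x := by
    intro g
    constructor
    · rintro ⟨h1, h2⟩
      exact ⟨h1, (Subgroup.mem_centralizer_iff.1 h2 x rfl)⟩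
    · rintro ⟨h1, h2⟩
      refine ⟨h1, Subgroup.mem_centralizer_iff.2 ?_⟩
      rintro _ rfl
      exact h2
  have hcommZ : ⁅Q, Q⁆ ≤ Z := by
    intro c hc
    rw [hZmem]
    exact ⟨hCQ hc, (Subgroup.mem_centralizer_iff.1 hxc c hc).symm⟩
  have hZQ : Z ≤ Q := inf_le_left
  have hZconj : ∀ v ∈ Q, ∀ z ∈ Z, v * z * v⁻¹ ∈ Z := by
    intro v hv z hz
    have h1 : v * z * v⁻¹ * z⁻¹ ∈ ⁅Q, Q⁆ := Subgroup.commutator_mem_commutator hv (hZQ hz)
    have h2 := Z.mul_mem (hcommZ h1) hz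
    simpa using h2
  -- the key computation
  have hkey : ∀ g ∈ Q, x * g * x⁻¹ * g⁻¹ ∈ Z → x * g = g * x := by
    intro g hg hc
    set c := x * g * x⁻¹ * g⁻¹ with hcdef
    have hcx : x * c = c * x := ((hZmem c).1 hc).2
    have hstep : x * g * x⁻¹ = c * g := by rw [hcdef]; group
    have hpow : ∀ n : ℕ, x ^ n * g * (x ^ n)⁻¹ = c ^ n * g := by
      intro n
      induction n with
      | zero => simp
      | succ n ih =>
        have hcomm : Commute x c := hcx
        calc x ^ (n + 1) * g * (x ^ (n + 1))⁻¹ = x * (x ^ n * g * (x ^ n)⁻¹) * x⁻¹ := by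
              rw [pow_succ']; group
          _ = x * (c ^ n * g) * x⁻¹ := by rw [ih]
          _ = c ^ n * (x * g * x⁻¹) := by
              have h9 : x * c ^ n = c ^ n * x := (hcomm.pow_right n).eq
              rw [← mul_assoc x (c ^ n) g, h9]; group
          _ = c ^ (n + 1) * g := by rw [hstep, pow_succ]; group
    have h1 := hpow q
    have h2 : x ^ q * g * (x ^ q)⁻¹ = g := by
      have := (Subgroup.mem_centralizer_iff.1 hxq g hg).symm
      rw [this, mul_inv_cancel_right]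
    rw [h2] at h1
    have hcq : c ^ q = 1 := by
      have h3 : c ^ q * g = 1 * g := by rw [← h1, one_mul]
      exact mul_right_cancel h3
    have hcQ : c ∈ Q := hZQ hc
    obtain ⟨e, he⟩ := IsPGroup.iff_orderOf.1 hQ ⟨c, hcQ⟩
    have he' : orderOf c = p ^ e := by rw [← he, Subgroup.orderOf_mk]
    have h4 : p ^ e ∣ q := he' ▸ orderOf_dvd_of_pow_eq_one hcq
    have h5 : e = 0 := by
      by_contra h0
      have h6 : p ∣ q := (dvd_pow_self p h0).trans h4
      exact hpq ((Nat.prime_dvd_prime_iff_eq hp.out hq).1 h6)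
    rw [h5, pow_zero] at he'
    have hc1 : c = 1 := orderOf_eq_one_iff.1 he'
    have h7 : x * g * x⁻¹ = g := by rw [hstep, hc1, one_mul]
    rw [mul_inv_eq_iff_eq_mul] at h7
    exact h7
  -- the power of `x`
  set y := x ^ q with hy
  have hyx : Commute y x := (Commute.refl x).pow_left q
  have hyQ : ∀ v ∈ Q, v * y = y * v := fun v hv => Subgroup.mem_centralizer_iff.1 hxq v hv
  have hyZ : ∀ z ∈ Z, ∀ i : ℤ, z * y ^ i = y ^ i * z := by
    intro z hz i
    have hc : Commute z y := hyQ z (hZQ hz)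
    exact (hc.zpow_right i).eq
  -- powers of `x` in `Q`
  have hpowQ : ∀ j : ℤ, x ^ j ∈ Q → x ^ j = 1 := by
    intro j hj
    obtain ⟨e, he⟩ := IsPGroup.iff_orderOf.1 hQ ⟨x ^ j, hj⟩
    have he' : orderOf (x ^ j) = p ^ e := by rw [← he, Subgroup.orderOf_mk]
    have h1 : orderOf (x ^ j) ∣ orderOf x := orderOf_dvd_of_pow_eq_one (by
      rw [← zpow_natCast, ← zpow_mul, mul_comm, zpow_mul, zpow_natCast, pow_orderOf_eq_one, one_zpow])
    have h2 : e = 0 := by
      by_contra h0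
      have h3 : p ∣ orderOf x := (dvd_pow_self p h0).trans (he' ▸ h1)
      exact hp.out.one_lt.ne' (Nat.dvd_one.1 (hxo ▸ Nat.dvd_gcd h3 dvd_rfl))
    rw [h2, pow_zero] at he'
    exact orderOf_eq_one_iff.1 he'
  -- the subgroup `N₁`
  let N₁ : Subgroup G :=
    { carrier := {g | ∃ z ∈ Z, ∃ i : ℤ, g = z * y ^ i}
      one_mem' := ⟨1, Z.one_mem, 0, by simp⟩
      mul_mem' := by
        rintro _ _ ⟨z₁, hz₁, i₁, rfl⟩ ⟨z₂, hz₂, i₂, rfl⟩
        refine ⟨z₁ * z₂, Z.mul_mem hz₁ hz₂, i₁ + i₂, ?_⟩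
        rw [zpow_add, mul_assoc, mul_assoc, ← mul_assoc (y ^ i₁), ← hyZ z₂ hz₂ i₁]
        group
      inv_mem' := by
        rintro _ ⟨z, hz, i, rfl⟩
        refine ⟨z⁻¹, Z.inv_mem hz, -i, ?_⟩
        rw [mul_inv_rev, zpow_neg]
        have := hyZ z⁻¹ (Z.inv_mem hz) (-i)
        rw [zpow_neg] at this
        exact this.symm }
  have hN₁mem : ∀ g, g ∈ N₁ ↔ ∃ z ∈ Z, ∃ i : ℤ, g = z * y ^ i := fun g => Iff.rfl
  have hZN₁ : Z ≤ N₁ := fun z hz => ⟨z, hz, 0, by simp⟩
  have hyN₁ : y ∈ N₁ := ⟨1, Z.one_mem, 1, by simp⟩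
  have hN₁Q : ∀ g ∈ N₁, g ∈ Q → g ∈ Z := by
    rintro g ⟨z, hz, i, rfl⟩ hg
    have h1 : y ^ i ∈ Q := by
      have := Q.mul_mem (Q.inv_mem (hZQ hz)) hg
      simpa using this
    have h2 : x ^ (q * i) ∈ Q := by
      rw [zpow_mul, zpow_natCast]
      exact h1
    have h3 := hpowQ _ h2
    rw [zpow_mul, zpow_natCast] at h3
    rw [h3, mul_one]
    exact hz
  -- the group `H`
  let H : Subgroup G := Q ⊔ Subgroup.zpowers x
  have hQH : Q ≤ H := le_sup_left
  have hxH : x ∈ H := (le_sup_right : Subgroup.zpowers x ≤ H) (Subgroup.mem_zpowers x)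
  have hHN : Subgroup.zpowers x ≤ Subgroup.normalizer (Q : Set G) := (Subgroup.zpowers_le).2 hxN
  have hHmem : ∀ h ∈ H, ∃ v ∈ Q, ∃ j : ℕ, h = v * x ^ j := by
    intro h hh
    obtain ⟨v, hv, a, ha, rfl⟩ := exists_mul_of_mem_sup hHN hh
    have h1 : a ∈ Submonoid.powers x := (mem_powers_iff_mem_zpowers).2 ha
    obtain ⟨j, rfl⟩ := h1
    exact ⟨v, hv, j, rfl⟩
  -- normality of `N₁` in `H`
  have hxpowZ : ∀ (j : ℕ), ∀ z ∈ Z, x ^ j * z * (x ^ j)⁻¹ = z := by
    intro j z hz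
    have h1 : Commute x z := ((hZmem z).1 hz).2
    rw [(h1.pow_left j).eq, mul_inv_cancel_right]
  have hxpowy : ∀ (j : ℕ) (i : ℤ), x ^ j * y ^ i * (x ^ j)⁻¹ = y ^ i := by
    intro j i
    have h1 : Commute y x := hyx
    have h2 : Commute (x ^ j) (y ^ i) := ((h1.pow_right j).zpow_left i).symm
    rw [h2.eq, mul_inv_cancel_right]
  have hconj : ∀ h ∈ H, ∀ g ∈ N₁, h * g * h⁻¹ ∈ N₁ := by
    rintro h hh _ ⟨z, hz, i, rfl⟩
    obtain ⟨v, hv, j, rfl⟩ := hHmem h hh
    refine ⟨v * z * v⁻¹, hZconj v hv z hz, i, ?_⟩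
    have hvy : v * y ^ i * v⁻¹ = y ^ i := by
      have hc : Commute v y := hyQ v hv
      rw [(hc.zpow_right i).eq, mul_inv_cancel_right]
    calc v * x ^ j * (z * y ^ i) * (v * x ^ j)⁻¹
        = v * (x ^ j * z * (x ^ j)⁻¹ * (x ^ j * y ^ i * (x ^ j)⁻¹)) * v⁻¹ := by group
      _ = v * (z * y ^ i) * v⁻¹ := by rw [hxpowZ j z hz, hxpowy j i]
      _ = v * z * v⁻¹ * (v * y ^ i * v⁻¹) := by group
      _ = v * z * v⁻¹ * y ^ i := by rw [hvy]
  let N : Subgroup H := N₁.subgroupOf H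
  haveI hNn : N.Normal := by
    constructor
    intro n hn h
    show ((h * n * h⁻¹ : H) : G) ∈ N₁
    exact hconj h h.2 n hn
  have hNmem : ∀ h : H, h ∈ N ↔ (h : G) ∈ N₁ := fun h => Iff.rfl
  let mk : H →* H ⧸ N := QuotientGroup.mk' N
  have hmk : ∀ a b : H, mk a = mk b ↔ ((a : G)⁻¹ * b) ∈ N₁ := by
    intro a b
    show (QuotientGroup.mk a : H ⧸ N) = QuotientGroup.mk b ↔ _
    rw [QuotientGroup.eq]
    exact Iff.rfl
  have hmk1 : ∀ a : H, mk a = 1 ↔ (a : G) ∈ N₁ := by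
    intro a
    show (QuotientGroup.mk a : H ⧸ N) = 1 ↔ _
    rw [QuotientGroup.eq_one_iff]
    exact Iff.rfl
  have hmksurj : Function.Surjective mk := QuotientGroup.mk'_surjective N
  -- the normal subgroup `V`
  let V : Subgroup (H ⧸ N) := (Q.subgroupOf H).map mk
  have hVmem : ∀ u, u ∈ V ↔ ∃ g : H, (g : G) ∈ Q ∧ mk g = u := by
    intro u
    constructor
    · rintro ⟨g, hg, rfl⟩
      exact ⟨g, hg, rfl⟩
    · rintro ⟨g, hg, rfl⟩
      exact ⟨g, hg, rfl⟩
  have hQHn : (Q.subgroupOf H).Normal := by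
    constructor
    intro n hn h
    show ((h : G) * n * (h : G)⁻¹) ∈ Q
    have hn' : (n : G) ∈ Q := hn
    obtain ⟨v, hv, j, hj⟩ := hHmem h h.2
    rw [hj]
    have h1 : x ^ j ∈ Subgroup.normalizer (Q : Set G) := pow_mem hxN j
    have h2 : x ^ j * n * (x ^ j)⁻¹ ∈ Q := (Subgroup.mem_normalizer_iff.1 h1 n).1 hn'
    have h3 : v * x ^ j * n * (v * x ^ j)⁻¹ = v * (x ^ j * n * (x ^ j)⁻¹) * v⁻¹ := by group
    rw [h3]
    exact Q.mul_mem (Q.mul_mem hv h2) (Q.inv_mem hv)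
  have hVn : V.Normal := hQHn.map mk hmksurj
  have hVp : IsPGroup p V := (hQ.comap_subtype (K := H)).map mk
  have hVa : ∀ a ∈ V, ∀ b ∈ V, a * b = b * a := by
    intro a ha b hb
    obtain ⟨g₁, hg₁, rfl⟩ := (hVmem a).1 ha
    obtain ⟨g₂, hg₂, rfl⟩ := (hVmem b).1 hb
    rw [← map_mul, ← map_mul, hmk]
    apply hZN₁
    apply hcommZ
    have h1 : (g₂ : G)⁻¹ * (g₁ : G)⁻¹ * (g₂ : G) * (g₁ : G) ∈ ⁅Q, Q⁆ := by
      have := Subgroup.commutator_mem_commutator (Q.inv_mem hg₂) (Q.inv_mem hg₁)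
      simpa [commutatorElement_def] using this
    have h2 : (((g₁ * g₂ : H) : G))⁻¹ * ((g₂ * g₁ : H) : G) =
        (g₂ : G)⁻¹ * (g₁ : G)⁻¹ * (g₂ : G) * (g₁ : G) := by
      simp [mul_assoc]
    rw [h2]
    exact h1
  have hV1 : V ≠ ⊥ := by
    intro hb
    apply hxC
    rw [Subgroup.mem_centralizer_iff]
    intro g hg
    have hgH : g ∈ H := hQH hg
    have h1 : mk ⟨g, hgH⟩ ∈ V := (hVmem _).2 ⟨⟨g, hgH⟩, hg, rfl⟩
    rw [hb, Subgroup.mem_bot, hmk1] at h1
    have h2 := hN₁Q g h1 hg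
    exact ((hZmem g).1 h2).2.symm
  set xbar : H ⧸ N := mk ⟨x, hxH⟩ with hxbar
  have hxq' : xbar ^ q = 1 := by
    rw [hxbar, ← map_pow, hmk1]
    exact hyN₁
  have hgen : ∀ k : H ⧸ N, ∃ v ∈ V, ∃ j : ℕ, k = v * xbar ^ j := by
    intro k
    obtain ⟨h, rfl⟩ := hmksurj k
    obtain ⟨v, hv, j, hj⟩ := hHmem h h.2
    refine ⟨mk ⟨v, hQH hv⟩, (hVmem _).2 ⟨⟨v, hQH hv⟩, hv, rfl⟩, j, ?_⟩
    rw [hxbar, ← map_pow, ← map_mul]
    congr 1
    apply Subtype.ext
    simpa using hj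
  have hfix : ∀ u ∈ V, xbar * u = u * xbar → u = 1 := by
    intro u hu hc
    obtain ⟨g, hg, rfl⟩ := (hVmem u).1 hu
    rw [hxbar, ← map_mul, ← map_mul, hmk] at hc
    -- the commutator is in `Q`
    have h1 : x * g * x⁻¹ * (g : G)⁻¹ ∈ Q := Q.mul_mem (hx1 g hg) (Q.inv_mem hg)
    have h2 : x * g * x⁻¹ * (g : G)⁻¹ ∈ N₁ := by
      have h3 := hconj (x * g) (H.mul_mem hxH g.2) _ hc
      have h4 : x * g * (((⟨x, hxH⟩ * g : H) : G)⁻¹ * ((g * ⟨x, hxH⟩ : H) : G)) * (x * g)⁻¹ =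
          (x * g * x⁻¹ * (g : G)⁻¹)⁻¹ := by
        simp [mul_assoc]
      rw [h4] at h3
      simpa using N₁.inv_mem h3
    have h5 := hkey g hg (hN₁Q _ h2 h1)
    rw [hmk1]
    exact hZN₁ ((hZmem _).2 ⟨hg, h5⟩)
  obtain ⟨h3, h4⟩ := bad_section hp.out hq hpq V hVn hVp hVa hV1 xbar hxq' hgen hfix
  exact ⟨H, N, hNn, h3, h4⟩



/-- Let G be a finite group and p a prime. Then G has a normal p-complement if and only if every section K = H/N of G (N a normal subgroup of a subgroup H) whose largest normal subgroup of order prime to p is trivial contains an element whose order equals the exponent of K. -/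
theorem result {G : Type*} [Group G] [Finite G] (p : ℕ) [Fact p.Prime] :
    Cfsg.HasNormalPComplement p G ↔
      ∀ (H : Subgroup G) (N : Subgroup H) [N.Normal], Cfsg.pPrimeCore p (H ⧸ N) = ⊥ →
        ∃ k : H ⧸ N, orderOf k = Monoid.exponent (H ⧸ N) := by
  have hp : p.Prime := Fact.out
  constructor
  · rintro ⟨P, N₀, hN₀, hc⟩ H N _ hcore
    have hq : IsPGroup p (G ⧸ N₀) :=
      Cfsg.Agent.Lib.Transfer.Basic.isPGroup_quotient_of_isComplement' hc
    have hcop : (Nat.card N₀).Coprime p := by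
      exact Cfsg.Agent.Lib.Transfer.Basic.coprime_card_of_isComplement' hc
    -- the image of `N₀ ∩ H` in the section is trivial
    let mk : H →* H ⧸ N := QuotientGroup.mk' N
    let D : Subgroup (H ⧸ N) := (N₀.subgroupOf H).map mk
    have hDn : D.Normal := (Subgroup.Normal.subgroupOf hN₀ H).map mk (QuotientGroup.mk'_surjective N)
    have hDc : (Nat.card D).Coprime p := by
      have h1 : Nat.card D ∣ Nat.card (N₀.subgroupOf H) := Subgroup.card_map_dvd _ _
      have h2 : Nat.card (N₀.subgroupOf H) ∣ Nat.card N₀ := by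
        rw [← Subgroup.card_map_of_injective H.subtype_injective, Subgroup.subgroupOf_map_subtype]
        exact Subgroup.card_dvd_of_le inf_le_left
      exact Nat.Coprime.coprime_dvd_left (h1.trans h2) hcop
    have hDbot : D = ⊥ := by
      rw [eq_bot_iff, ← hcore]
      exact le_sSup ⟨hDn, hDc⟩
    have hK : IsPGroup p (H ⧸ N) := by
      intro k
      obtain ⟨h, rfl⟩ := QuotientGroup.mk'_surjective N k
      obtain ⟨a, ha⟩ := hq (QuotientGroup.mk (h : G))
      refine ⟨a, ?_⟩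
      have h1 : (h : G) ^ p ^ a ∈ N₀ := by
        rw [← QuotientGroup.mk_pow] at ha
        exact (QuotientGroup.eq_one_iff _).1 ha
      have h2 : mk (h ^ p ^ a) ∈ D := ⟨h ^ p ^ a, h1, rfl⟩
      rw [hDbot, Subgroup.mem_bot, map_pow] at h2
      exact h2
    exact exists_orderOf_eq_exponent_of_isPGroup hp hK
  · intro hsec
    by_contra hno
    rw [← Cfsg.Agent.Lib.Transfer.Frobenius.frobeniusCond_iff] at hno
    unfold Cfsg.Agent.Lib.Transfer.Frobenius.FrobeniusCond at hno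
    push Not at hno
    obtain ⟨D, hD, g, hgN, hgo, hgC⟩ := hno
    -- an element of minimal order
    haveI : Nonempty {h : G // h ∈ Subgroup.zpowers g ∧ h ∉ Subgroup.centralizer (D : Set G)} :=
      ⟨⟨g, Subgroup.mem_zpowers g, hgC⟩⟩
    obtain ⟨⟨x, hxg, hxC⟩, hxmin⟩ := Finite.exists_min
      (fun h : {h : G // h ∈ Subgroup.zpowers g ∧ h ∉ Subgroup.centralizer (D : Set G)} => orderOf (h : G))
    have hx1 : x ≠ 1 := by
      rintro rfl
      exact hxC (one_mem _)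
    have hordne : orderOf x ≠ 1 := fun h => hx1 (orderOf_eq_one_iff.1 h)
    set q := (orderOf x).minFac with hq
    have hqp : q.Prime := Nat.minFac_prime hordne
    have hqd : q ∣ orderOf x := Nat.minFac_dvd _
    have hxo : Nat.Coprime (orderOf x) p := by
      obtain ⟨i, rfl⟩ := Subgroup.mem_zpowers_iff.1 hxg
      have h1 : orderOf (g ^ i) ∣ orderOf g := orderOf_dvd_of_pow_eq_one (by
        rw [← zpow_natCast, ← zpow_mul, mul_comm, zpow_mul, zpow_natCast, pow_orderOf_eq_one, one_zpow])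
      exact Nat.Coprime.coprime_dvd_left h1 hgo
    have hpq : p ≠ q := by
      rintro rfl
      exact hp.one_lt.ne' (Nat.dvd_one.1 (hxo ▸ Nat.dvd_gcd hqd dvd_rfl))
    have hxN : x ∈ Subgroup.normalizer (D : Set G) := by
      have : Subgroup.zpowers g ≤ Subgroup.normalizer (D : Set G) := (Subgroup.zpowers_le).2 hgN
      exact this hxg
    have hxq : x ^ q ∈ Subgroup.centralizer (D : Set G) := by
      by_contra hnot
      have h1 := hxmin ⟨x ^ q, pow_mem hxg q, hnot⟩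
      simp only at h1
      have h2 : orderOf (x ^ q) = orderOf x / q := by
        rw [orderOf_pow' x hqp.ne_zero, Nat.gcd_eq_right hqd]
      rw [h2] at h1
      have h3 : orderOf x / q < orderOf x := Nat.div_lt_self (orderOf_pos x) hqp.one_lt
      omega
    -- a minimal subgroup
    let Pr : Subgroup G → Prop := fun R => R ≤ D ∧ x ∈ Subgroup.normalizer (R : Set G) ∧
      x ∉ Subgroup.centralizer (R : Set G)
    obtain ⟨Q, hQmin⟩ := exists_minimal_of_wellFoundedLT Pr ⟨D, le_rfl, hxN, hxC⟩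
    obtain ⟨hQD, hQN, hQC⟩ := hQmin.prop
    have hQp : IsPGroup p Q := hD.to_le hQD
    have hxqQ : x ^ q ∈ Subgroup.centralizer (Q : Set G) :=
      Subgroup.centralizer_le (fun y hy => hQD hy) hxq
    have hmin : ∀ R : Subgroup G, R < Q → x ∈ Subgroup.normalizer (R : Set G) →
        x ∈ Subgroup.centralizer (R : Set G) := by
      intro R hRQ hRN
      by_contra hRC
      have h1 : Pr R := ⟨hRQ.le.trans hQD, hRN, hRC⟩
      exact absurd (hQmin.le_of_le h1 hRQ.le) hRQ.not_ge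
    obtain ⟨H, N, hNn, h1, h2⟩ := exists_bad p Q hQp x hQN hxo q hqp hpq hxqQ hQC hmin
    exact h2 (hsec H N h1)

end Cfsg.Agent.S4238
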