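import Cfsg.Statements.S4242
import Mathlib
import Cfsg.Agent.Lib.OddLocal.CN
import Cfsg.Agent.Lib.Transfer.Frobenius
import Cfsg.Prelude.Def_SolvableStructure
-- import your own Cfsg.Agent.* helpers here

set_option autoImplicit false
open Cfsg

namespace Cfsg.Agent.S4242


universe u

open Cfsg.Agent.Lib.OddLocal.CN (commute_of_coprime')
open Cfsg.Agent.Lib.Coprime.Action
open Cfsg.Agent.Lib.Coprime.SchurZassenhaus (disjoint_of_coprime_card)

theorem isNilpotent_of_le {G : Type*} [Group G] {A B : Subgroup G} (hAB : A ≤ B)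
    (hB : Group.IsNilpotent B) : Group.IsNilpotent A := by
  have h1 : Group.IsNilpotent (A.subgroupOf B) := inferInstance
  exact Group.nilpotent_of_mulEquiv (Subgroup.subgroupOfEquivOfLe hAB)

theorem isNilpotent_sup_of_commute {G : Type*} [Group G] (A B : Subgroup G)
    (hA : Group.IsNilpotent A) (hB : Group.IsNilpotent B)
    (hAB : A ≤ Subgroup.centralizer (B : Set G)) : Group.IsNilpotent (A ⊔ B : Subgroup G) := by
  have comm : ∀ (a : A) (b : B), Commute (A.subtype a) (B.subtype b) := by
    intro a b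
    exact (Subgroup.mem_centralizer_iff.1 (hAB a.2) b b.2).symm
  have hrange : (MonoidHom.noncommCoprod A.subtype B.subtype comm).range = A ⊔ B := by
    rw [MonoidHom.noncommCoprod_range, Subgroup.range_subtype, Subgroup.range_subtype]
  rw [← hrange]
  exact Group.nilpotent_of_surjective (MonoidHom.noncommCoprod A.subtype B.subtype comm).rangeRestrict
    (MonoidHom.rangeRestrict_surjective _)

/-- Easy direction for the direct product. -/
theorem coatom_nilpotent_of_prod {G : Type*} [Group G] [Finite G] (p : ℕ) (hp : p.Prime)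
    (Z K : Subgroup G) (hZ : Z.Normal) (hK : K.Normal) (hZK : Z ⊓ K = ⊥) (hsup : Z ⊔ K = ⊤)
    (hcard : Nat.card Z = p) (hKmin : ∀ H : Subgroup K, H ≠ ⊤ → Group.IsNilpotent H)
    (hnd : ¬ p ∣ Nat.card K) (M : Subgroup G) (hM : IsCoatom M) (hpM : p ∣ Nat.card M) :
    Group.IsNilpotent M := by
  haveI : Fact p.Prime := ⟨hp⟩
  -- `Z ≤ M`
  have hcomm : ∀ z ∈ Z, ∀ k ∈ K, z * k = k * z := by
    intro z hz k hk
    have h1 : z * k * z⁻¹ * k⁻¹ ∈ Z ⊓ K := by
      constructor
      · have := Z.mul_mem hz (hZ.conj_mem _ (Z.inv_mem hz) k)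
        have e : z * k * z⁻¹ * k⁻¹ = z * (k * z⁻¹ * k⁻¹) := by group
        rw [e]
        exact this
      · exact K.mul_mem (hK.conj_mem k hk z) (K.inv_mem hk)
    rw [hZK, Subgroup.mem_bot] at h1
    rw [mul_inv_eq_one, mul_inv_eq_iff_eq_mul] at h1
    exact h1
  have hcopK : (Nat.card K).Coprime p := ((Nat.Prime.coprime_iff_not_dvd hp).2 hnd).symm
  have hZM : Z ≤ M := by
    obtain ⟨a', ha'⟩ := exists_prime_orderOf_dvd_card' (G := M) p hpM
    set a : G := (a' : G) with ha
    have hoa : orderOf a = p := by rw [ha, ← ha', Subgroup.orderOf_coe]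
    have haM : a ∈ M := a'.2
    -- `a ∈ Z`: its image in `G / Z` has order dividing `p` and `|K|`.
    have haZ : a ∈ Z := by
      have h1 : a ∈ Z ⊔ K := by rw [hsup]; trivial
      have h2 : a ∈ ((Z ⊔ K : Subgroup G) : Set G) := h1
      rw [Subgroup.mul_normal] at h2
      obtain ⟨z, hz, k, hk, hzk⟩ := Set.mem_mul.1 h2
      have hzk' : z * k = a := hzk
      have hc : Commute z k := hcomm z hz k hk
      have h3 : a ^ p = 1 := by rw [← hoa]; exact pow_orderOf_eq_one a
      have h4 : z ^ p = 1 := by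
        have := pow_card_eq_one' (x := (⟨z, hz⟩ : Z))
        rw [hcard] at this
        exact congrArg Subtype.val this
      have h5 : k ^ p = 1 := by
        rw [← hzk', hc.mul_pow, h4, one_mul] at h3
        exact h3
      have h6 : orderOf k ∣ p := orderOf_dvd_of_pow_eq_one h5
      have h7 : orderOf k ∣ Nat.card K := Subgroup.orderOf_dvd_natCard K hk
      have h8 : orderOf k = 1 := Nat.eq_one_of_dvd_coprimes hcopK h7 h6
      have h9 : k = 1 := orderOf_eq_one_iff.1 h8
      rw [← hzk', h9, mul_one]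
      exact hz
    have hZe : Z = Subgroup.zpowers a := by
      symm
      apply Subgroup.eq_of_le_of_card_ge (Subgroup.zpowers_le.2 haZ)
      rw [hcard, Nat.card_zpowers, hoa]
    rw [hZe]
    exact Subgroup.zpowers_le.2 haM
  -- Dedekind
  set X : Subgroup G := M ⊓ K with hX
  have hMeq : M = Z ⊔ X := by
    apply le_antisymm
    · intro m hm
      have h1 : m ∈ Z ⊔ K := by rw [hsup]; trivial
      have h2 : m ∈ ((Z ⊔ K : Subgroup G) : Set G) := h1
      rw [Subgroup.mul_normal] at h2
      obtain ⟨z, hz, k, hk, hzk⟩ := Set.mem_mul.1 h2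
      have hzk' : z * k = m := hzk
      have hkM : k ∈ M := by
        have : k = z⁻¹ * m := by rw [← hzk']; group
        rw [this]
        exact M.mul_mem (M.inv_mem (hZM hz)) hm
      rw [← hzk']
      exact Subgroup.mul_mem_sup hz ⟨hkM, hk⟩
    · exact sup_le hZM inf_le_left
  have hXK : X ≠ K := by
    intro h
    apply hM.1
    rw [eq_top_iff, ← hsup]
    apply sup_le hZM
    rw [← h]
    exact inf_le_left
  have hXnil : Group.IsNilpotent X := by
    have hne : X.subgroupOf K ≠ ⊤ := by
      intro h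
      apply hXK
      rw [Subgroup.subgroupOf_eq_top] at h
      exact le_antisymm inf_le_right h
    have h1 := hKmin _ hne
    exact Group.nilpotent_of_mulEquiv (Subgroup.subgroupOfEquivOfLe (inf_le_right : X ≤ K))
  have hZnil : Group.IsNilpotent Z := by
    haveI := isCyclic_of_prime_card hcard
    have : IsMulCommutative Z := IsCyclic.isMulCommutative
    let _ : CommGroup Z := { (inferInstance : Group Z) with mul_comm := fun a b => this.is_comm.comm a b }
    exact CommGroup.isNilpotent
  have hcent : Z ≤ Subgroup.centralizer (X : Set G) := by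
    intro z hz
    rw [Subgroup.mem_centralizer_iff]
    intro x hx
    exact (hcomm z hz x hx.2).symm
  rw [hMeq]
  exact isNilpotent_sup_of_commute Z X hZnil hXnil hcent



/-- Let G be a finite group and p a prime dividing its order. Every maximal subgroup of G of order divisible by p is nilpotent if and only if G is nilpotent, or G is a minimal non-nilpotent group, or G is the internal direct product of a normal subgroup of order p and a normal minimal non-nilpotent subgroup of order prime to p. -/
theorem result {G : Type*} [Group G] [Finite G] (p : ℕ) (hp : p.Prime) (hpG : p ∣ Nat.card G) :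
    (∀ M : Subgroup G, IsCoatom M → p ∣ Nat.card M → Group.IsNilpotent M) ↔
      (Group.IsNilpotent G ∨ Cfsg.IsMinimalNonNilpotent G ∨
        ∃ Z K : Subgroup G, Z.Normal ∧ K.Normal ∧ Z ⊓ K = ⊥ ∧ Z ⊔ K = ⊤ ∧ Nat.card Z = p ∧
          Cfsg.IsMinimalNonNilpotent K ∧ ¬ p ∣ Nat.card K) := by
  haveI hfp : Fact p.Prime := ⟨hp⟩
  constructor
  swap
  · rintro (h | h | ⟨Z, K, hZ, hK, hZK, hsup, hcard, hmin, hnd⟩) M hM hpM
    · infer_instance
    · exact h.2 M hM.1
    · exact coatom_nilpotent_of_prod p hp Z K hZ hK hZK hsup hcard hmin.2 hnd M hM hpM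
  intro hmax
  by_cases hnil : Group.IsNilpotent G
  · exact Or.inl hnil
  by_cases hmin : ∀ H : Subgroup G, H ≠ ⊤ → Group.IsNilpotent H
  · exact Or.inr (Or.inl ⟨hnil, hmin⟩)
  refine Or.inr (Or.inr ?_)
  -- a proper subgroup contained in a coatom of order divisible by `p` is nilpotent
  have hsub : ∀ X : Subgroup G, X ≠ ⊤ → p ∣ Nat.card X → Group.IsNilpotent X := by
    intro X hX hpX
    obtain ⟨M, hM, hXM⟩ := (eq_top_or_exists_le_coatom X).resolve_left hX
    exact isNilpotent_of_le hXM (hmax M hM (hpX.trans (Subgroup.card_dvd_of_le hXM)))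
  -- a non-nilpotent coatom
  push Not at hmin
  obtain ⟨H₀, hH₀, hH₀n⟩ := hmin
  obtain ⟨M₀, hM₀, hH₀M₀⟩ := (eq_top_or_exists_le_coatom H₀).resolve_left hH₀
  have hM₀n : ¬ Group.IsNilpotent M₀ := fun h => hH₀n (isNilpotent_of_le hH₀M₀ h)
  have hM₀p : ¬ p ∣ Nat.card M₀ := fun h => hM₀n (hmax M₀ hM₀ h)
  have hM₀c : (Nat.card M₀).Coprime p := ((Nat.Prime.coprime_iff_not_dvd hp).2 hM₀p).symm
  -- elements of `p`-subgroups vs `M₀`
  have hcomm' : ∀ (X D : Subgroup G), D ≠ ⊥ → IsPGroup p D → (Nat.card X).Coprime p →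
      X ⊔ D ≠ ⊤ → X ≤ Subgroup.centralizer (D : Set G) := by
    intro X D hD hDp hXc hne
    have hpD : p ∣ Nat.card D := by
      obtain ⟨k, hk⟩ := IsPGroup.iff_card.1 hDp
      have hk0 : k ≠ 0 := by
        rintro rfl
        rw [pow_zero] at hk
        exact hD (Subgroup.eq_bot_of_card_eq _ hk)
      rw [hk]
      exact dvd_pow_self p hk0
    have hpS : p ∣ Nat.card (X ⊔ D : Subgroup G) :=
      hpD.trans (Subgroup.card_dvd_of_le le_sup_right)
    have hn := hsub _ hne hpS
    intro a ha
    rw [Subgroup.mem_centralizer_iff]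
    intro d hd
    have h1 : (orderOf d).Coprime (orderOf a) := by
      obtain ⟨k, hk⟩ := IsPGroup.iff_orderOf.1 hDp ⟨d, hd⟩
      have hk' : orderOf d = p ^ k := by rw [← hk, Subgroup.orderOf_mk]
      rw [hk']
      apply Nat.Coprime.pow_left
      exact (Nat.Coprime.coprime_dvd_left (Subgroup.orderOf_dvd_natCard X ha) hXc).symm
    exact (commute_of_coprime' hn (Subgroup.mem_sup_right hd) (Subgroup.mem_sup_left ha) h1).eq
  -- Frobenius condition
  have hF : Cfsg.Agent.Lib.Transfer.Frobenius.FrobeniusCond p G := by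
    intro D hDp g hgN hgo
    by_contra hgC
    have hDbot : D ≠ ⊥ := by
      rintro rfl
      apply hgC
      rw [Subgroup.mem_centralizer_iff]
      intro h hh
      have : h = 1 := hh
      rw [this, one_mul, mul_one]
    have hgz : Subgroup.zpowers g ≤ Subgroup.normalizer (D : Set G) := Subgroup.zpowers_le.2 hgN
    have hgzc : (Nat.card (Subgroup.zpowers g)).Coprime p := by rwa [Nat.card_zpowers]
    have hgzC : ¬ Subgroup.zpowers g ≤ Subgroup.centralizer (D : Set G) := fun h =>
      hgC (h (Subgroup.mem_zpowers g))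
    -- so `⟨g⟩ D = G`
    have h1 : Subgroup.zpowers g ⊔ D = ⊤ := by
      by_contra h
      exact hgzC (hcomm' _ D hDbot hDp hgzc h)
    -- `D` is normal
    have hDn : D.Normal := by
      rw [← Subgroup.normalizer_eq_top_iff, eq_top_iff, ← h1]
      exact sup_le hgz Subgroup.le_normalizer
    -- `M₀ ⊔ D = ⊤`
    have hDM : ¬ D ≤ M₀ := by
      intro h
      obtain ⟨k, hk⟩ := IsPGroup.iff_card.1 hDp
      have hk0 : k ≠ 0 := by
        rintro rfl
        rw [pow_zero] at hk
        exact hDbot (Subgroup.eq_bot_of_card_eq _ hk)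
      apply hM₀p
      refine (dvd_pow_self p hk0).trans ?_
      rw [← hk]
      exact Subgroup.card_dvd_of_le h
    have hM₀D : M₀ ⊔ D = ⊤ := hM₀.2 _ (lt_of_le_of_ne le_sup_left (fun h => hDM (h ▸ le_sup_right)))
    have hdisj : M₀ ⊓ D = ⊥ := by
      exact disjoint_of_coprime_card (by
        obtain ⟨k, hk⟩ := IsPGroup.iff_card.1 hDp
        rw [hk]
        exact Nat.Coprime.pow_right k hM₀c)
    -- `M₀` centralizes `D`
    have hM₀C : M₀ ≤ Subgroup.centralizer (D : Set G) := by
      intro a ha
      have hz : Subgroup.zpowers a ≤ Subgroup.normalizer (D : Set G) := by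
        rw [Subgroup.normalizer_eq_top_iff.2 hDn]
        exact le_top
      have hzc : (Nat.card (Subgroup.zpowers a)).Coprime p := by
        rw [Nat.card_zpowers]
        exact Nat.Coprime.coprime_dvd_left (Subgroup.orderOf_dvd_natCard M₀ ha) hM₀c
      -- `zpowers a` is proper in `M₀`
      have hzM : Subgroup.zpowers a ≤ M₀ := Subgroup.zpowers_le.2 ha
      have hzne : Subgroup.zpowers a ≠ M₀ := by
        intro h
        apply hM₀n
        rw [← h]
        haveI : IsCyclic (Subgroup.zpowers a) := inferInstance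
        have hcm : IsMulCommutative (Subgroup.zpowers a) := IsCyclic.isMulCommutative
        let _ : CommGroup (Subgroup.zpowers a) :=
          { (inferInstance : Group (Subgroup.zpowers a)) with mul_comm := fun a b => hcm.is_comm.comm a b }
        exact CommGroup.isNilpotent
      have hne : Subgroup.zpowers a ⊔ D ≠ ⊤ := by
        intro h
        have hcard1 := card_sup_of_le_normalizer (K := D) (A := Subgroup.zpowers a) hz (by
          exact disjoint_of_coprime_card (by
            obtain ⟨k, hk⟩ := IsPGroup.iff_card.1 hDp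
            rw [hk]
            exact (Nat.Coprime.pow_right k hzc).symm))
        have hcard2 := card_sup_of_le_normalizer (K := D) (A := M₀) (by
          rw [Subgroup.normalizer_eq_top_iff.2 hDn]
          exact le_top) (by rw [inf_comm]; exact hdisj)
        rw [sup_comm, h] at hcard1
        rw [sup_comm, hM₀D] at hcard2
        have h3 : Nat.card (Subgroup.zpowers a) = Nat.card M₀ := by
          have h4 : Nat.card D * Nat.card (Subgroup.zpowers a) = Nat.card D * Nat.card M₀ := by
            rw [hcard1, hcard2]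
          exact Nat.eq_of_mul_eq_mul_left Nat.card_pos h4
        exact hzne (Subgroup.eq_of_le_of_card_ge hzM h3.ge)
      exact hcomm' _ D hDbot hDp hzc hne (Subgroup.mem_zpowers a)
    -- therefore `G / C(D)` is a `p`-group, and `g` is in `C(D)`
    have hgdec : g ∈ ((M₀ ⊔ D : Subgroup G) : Set G) := by rw [hM₀D]; trivial
    rw [Subgroup.mul_normal] at hgdec
    obtain ⟨m, hm, d, hd, hmd⟩ := Set.mem_mul.1 hgdec
    have hmd' : m * d = g := hmd
    -- `g ^ n` acts on `D` as `d ^ n` up to `C(D)`; use the quotient by the centralizer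
    apply hgC
    have hCn : (Subgroup.centralizer (D : Set G)).Normal := by
      haveI := hDn
      infer_instance
    set C := Subgroup.centralizer (D : Set G) with hC
    have hgm : QuotientGroup.mk' C g = QuotientGroup.mk' C d := by
      rw [← hmd', map_mul]
      have : QuotientGroup.mk' C m = 1 := (QuotientGroup.eq_one_iff m).2 (hM₀C hm)
      rw [this, one_mul]
    obtain ⟨k, hk⟩ := IsPGroup.iff_orderOf.1 hDp ⟨d, hd⟩
    have hk' : orderOf d = p ^ k := by rw [← hk, Subgroup.orderOf_mk]
    have h5 : orderOf (QuotientGroup.mk' C g) ∣ p ^ k := by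
      rw [hgm, ← hk']
      exact orderOf_map_dvd _ _
    have h6 : orderOf (QuotientGroup.mk' C g) ∣ orderOf g := orderOf_map_dvd _ _
    have h7 : orderOf (QuotientGroup.mk' C g) = 1 :=
      Nat.eq_one_of_dvd_coprimes (Nat.Coprime.pow_right k hgo) h6 h5
    exact (QuotientGroup.eq_one_iff g).1 (orderOf_eq_one_iff.1 h7)
  obtain ⟨P, N, hNn, hc⟩ := Cfsg.Agent.Lib.Transfer.Frobenius.frobeniusCond_iff.1 hF
  haveI := hNn
  have hNc : (Nat.card N).Coprime p := Cfsg.Agent.Lib.Transfer.Basic.coprime_card_of_isComplement' hc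
  have hq : IsPGroup p (G ⧸ N) := Cfsg.Agent.Lib.Transfer.Basic.isPGroup_quotient_of_isComplement' hc
  have hM₀N : M₀ ≤ N := by
    intro m hm
    obtain ⟨k, hk⟩ := hq (QuotientGroup.mk m)
    have h1 : orderOf (QuotientGroup.mk' N m) ∣ p ^ k := orderOf_dvd_of_pow_eq_one hk
    have h2 : orderOf (QuotientGroup.mk' N m) ∣ orderOf m := orderOf_map_dvd _ _
    have h3 : orderOf m ∣ Nat.card M₀ := Subgroup.orderOf_dvd_natCard M₀ hm
    have h4 : (orderOf (QuotientGroup.mk' N m)).Coprime (p ^ k) :=
      Nat.Coprime.pow_right k (Nat.Coprime.coprime_dvd_left (h2.trans h3) hM₀c)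
    have h5 : orderOf (QuotientGroup.mk' N m) = 1 := Nat.eq_one_of_dvd_coprimes h4 dvd_rfl h1
    exact (QuotientGroup.eq_one_iff m).1 (orderOf_eq_one_iff.1 h5)
  have hNtop : N ≠ ⊤ := by
    rintro rfl
    rw [Subgroup.card_top] at hNc
    exact hp.one_lt.ne' (Nat.dvd_one.1 (hNc ▸ Nat.dvd_gcd hpG dvd_rfl))
  obtain rfl : M₀ = N := by
    by_contra hne
    exact hNtop (hM₀.2 N (lt_of_le_of_ne hM₀N hne))
  have hcardN := hc.card_mul_card
  have hpP : p ∣ Nat.card (P : Subgroup G) := by
    have h1 : p ∣ Nat.card M₀ * Nat.card (P : Subgroup G) := by rw [hcardN]; exact hpG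
    exact (Nat.Prime.dvd_mul hp).1 h1 |>.resolve_left hM₀p
  have hPcard : Nat.card (P : Subgroup G) = p := by
    obtain ⟨a', ha'⟩ := exists_prime_orderOf_dvd_card' (G := (P : Subgroup G)) p hpP
    set a : G := (a' : G) with ha
    have hoa : orderOf a = p := (Subgroup.orderOf_coe a').trans ha'
    have haN : a ∉ M₀ := by
      intro h
      exact hM₀p (hoa ▸ Subgroup.orderOf_dvd_natCard M₀ h)
    have h1 : M₀ ⊔ Subgroup.zpowers a = ⊤ := hM₀.2 _ (lt_of_le_of_ne le_sup_left (fun h => haN (by
      rw [h]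
      exact Subgroup.mem_sup_right (Subgroup.mem_zpowers a))))
    have hN' : Subgroup.zpowers a ≤ Subgroup.normalizer (M₀ : Set G) := by
      rw [Subgroup.normalizer_eq_top_iff.2 hNn]
      exact le_top
    have h2 := card_sup_of_le_normalizer (K := M₀) hN' (disjoint_of_coprime_card (by
      rw [Nat.card_zpowers, hoa]
      exact hM₀c))
    rw [h1, Subgroup.card_top, Nat.card_zpowers, hoa] at h2
    have h3 : Nat.card M₀ * Nat.card (P : Subgroup G) = Nat.card M₀ * p := by rw [hcardN, h2]
    exact Nat.eq_of_mul_eq_mul_left Nat.card_pos h3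
  have hPbot : (P : Subgroup G) ≠ ⊥ := by
    intro h
    rw [h, Subgroup.card_bot] at hPcard
    exact hp.one_lt.ne hPcard
  have hcopPN : (Nat.card (P : Subgroup G)).Coprime (Nat.card M₀) := by
    rw [hPcard]
    exact hM₀c.symm
  have hcyc : IsCyclic (P : Subgroup G) := isCyclic_of_prime_card hPcard
  have hcomm : IsMulCommutative (P : Subgroup G) := IsCyclic.isMulCommutative
  have hsolv : Group.IsSolvable (P : Subgroup G) := isSolvable_of_comm (fun a b => hcomm.is_comm.comm a b)
  have hPN : (P : Subgroup G) ≤ Subgroup.normalizer (M₀ : Set G) := by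
    rw [Subgroup.normalizer_eq_top_iff.2 hNn]
    exact le_top
  -- the order of a proper subgroup of `M₀` joined with `P`
  have hsuplt : ∀ X : Subgroup G, X < M₀ → P ≤ Subgroup.normalizer (X : Set G) →
      X ⊔ (P : Subgroup G) ≠ ⊤ := by
    intro X hX hPX h
    have hd : X ⊓ (P : Subgroup G) = ⊥ := disjoint_of_coprime_card (by
      rw [hPcard]
      exact Nat.Coprime.coprime_dvd_left (Subgroup.card_dvd_of_le hX.le) hM₀c)
    have h1 := card_sup_of_le_normalizer hPX hd
    rw [h, Subgroup.card_top, ← hcardN] at h1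
    have h2 : Nat.card X = Nat.card M₀ :=
      Nat.eq_of_mul_eq_mul_right (Nat.card_pos (α := (P : Subgroup G))) h1
    exact hX.ne (Subgroup.eq_of_le_of_card_ge hX.le h2.ge)
  have hcent : M₀ ≤ Subgroup.centralizer ((P : Subgroup G) : Set G) := by
    set C : Subgroup G := M₀ ⊓ Subgroup.centralizer ((P : Subgroup G) : Set G) with hC
    have hCM : C ≤ M₀ := inf_le_left
    have hrel : C.relIndex M₀ = 1 := by
      by_contra hne
      obtain ⟨r, hr, hrd⟩ := Nat.exists_prime_and_dvd hne
      haveI : Fact r.Prime := ⟨hr⟩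
      obtain ⟨Q, hQ, hQn⟩ := exists_invariant_sylowIn (p := r) (A := (P : Subgroup G)) (K := M₀)
        hPN hcopPN (Or.inl hsolv)
      obtain ⟨hQM, hQp, hQi⟩ := hQ
      have hQne : Q ≠ M₀ := by
        intro h
        apply hM₀n
        rw [← h]
        exact hQp.isNilpotent
      have hQlt : Q < M₀ := lt_of_le_of_ne hQM hQne
      have hQc : (Nat.card Q).Coprime p :=
        Nat.Coprime.coprime_dvd_left (Subgroup.card_dvd_of_le hQM) hM₀c
      have hQC := hcomm' Q P hPbot P.isPGroup' hQc (hsuplt Q hQlt hQn)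
      have hQCC : Q ≤ C := le_inf hQM hQC
      have h2 := Subgroup.relIndex_mul_relIndex Q C M₀ hQCC hCM
      apply hQi
      rw [← h2]
      exact Dvd.dvd.mul_left hrd _
    exact (Subgroup.relIndex_eq_one.1 hrel).trans inf_le_right
  have hPn : (P : Subgroup G).Normal := by
    rw [← Subgroup.normalizer_eq_top_iff, eq_top_iff, ← hc.sup_eq_top]
    exact sup_le (hcent.trans (Subgroup.centralizer_le_normalizer _)) Subgroup.le_normalizer
  refine ⟨P, M₀, hPn, hNn, ?_, ?_, hPcard, ⟨hM₀n, ?_⟩, hM₀p⟩
  · rw [inf_comm]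
    exact disjoint_of_coprime_card hcopPN.symm
  · rw [sup_comm]
    exact hc.sup_eq_top
  · intro H hH
    set X : Subgroup G := H.map M₀.subtype with hX
    have hXM : X ≤ M₀ := Subgroup.map_subtype_le H
    have hXne : X ≠ M₀ := by
      intro h
      apply hH
      rw [eq_top_iff]
      intro y _
      have : (y : G) ∈ X := by rw [h]; exact y.2
      obtain ⟨w, hw, hwy⟩ := this
      have : w = y := Subtype.ext hwy
      rwa [← this]
    have hPX : (P : Subgroup G) ≤ Subgroup.normalizer (X : Set G) := by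
      intro u hu
      rw [Subgroup.mem_normalizer_iff]
      intro v
      by_cases hv : v ∈ M₀
      · have h3 : u * v = v * u := (Subgroup.mem_centralizer_iff.1 (hcent hv) u hu)
        have h4 : u * v * u⁻¹ = v := by rw [h3, mul_inv_cancel_right]
        rw [h4]
      · have h5 : v ∉ X := fun h => hv (hXM h)
        have h6 : u * v * u⁻¹ ∉ X := by
          intro h
          apply hv
          have h7 := hXM h
          have h8 := hNn.conj_mem _ h7 u⁻¹
          have e : u⁻¹ * (u * v * u⁻¹) * u⁻¹⁻¹ = v := by group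
          rwa [e] at h8
        exact ⟨fun h => absurd h h5, fun h => absurd h h6⟩
    have hne := hsuplt X (lt_of_le_of_ne hXM hXne) hPX
    have hpS : p ∣ Nat.card (X ⊔ (P : Subgroup G) : Subgroup G) :=
      hpP.trans (Subgroup.card_dvd_of_le le_sup_right)
    have hn := hsub _ hne hpS
    have hn2 : Group.IsNilpotent X := isNilpotent_of_le le_sup_left hn
    exact Group.nilpotent_of_mulEquiv
      (Subgroup.equivMapOfInjective H M₀.subtype M₀.subtype_injective).symm

end Cfsg.Agent.S4242
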