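import Cfsg.Statements.S4244
-- import your own Cfsg.Agent.* helpers here

set_option autoImplicit false
open Cfsg

namespace Cfsg.Agent.S4244

theorem card_sup {G : Type*} [Group G] [Finite G] (H N : Subgroup G) [N.Normal] :
    Nat.card (H ⊔ N : Subgroup G) * Nat.card (H ⊓ N : Subgroup G) = Nat.card H * Nat.card N := by
  have h1 : Nat.card N * N.relIndex (H ⊔ N) = Nat.card (H ⊔ N : Subgroup G) := by
    have := Subgroup.relIndex_mul_relIndex (⊥ : Subgroup G) N (H ⊔ N) bot_le le_sup_right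
    rwa [Subgroup.relIndex_bot_left, Subgroup.relIndex_bot_left] at this
  have h2 : N.relIndex (H ⊔ N) = N.relIndex H := Subgroup.relIndex_sup_right H N
  have h3 : Nat.card (H ⊓ N : Subgroup G) * (H ⊓ N).relIndex H = Nat.card H := by
    have := Subgroup.relIndex_mul_relIndex (⊥ : Subgroup G) (H ⊓ N) H bot_le inf_le_left
    rwa [Subgroup.relIndex_bot_left, Subgroup.relIndex_bot_left] at this
  have h4 : (H ⊓ N).relIndex H = N.relIndex H := Subgroup.inf_relIndex_left H N
  rw [← h1, ← h3, h2, h4]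
  ring

theorem normal_step {G : Type*} [Group G] [Finite G] (H L : Subgroup G) (hHL : H ≤ L)
    (hN : (H.subgroupOf L).Normal) (K : Subgroup G) :
    (H ⊓ K).relIndex H ∣ (L ⊓ K).relIndex L := by
  classical
  -- work inside `L`
  set H₁ : Subgroup L := H.subgroupOf L with hH₁
  set K₁ : Subgroup L := K.subgroupOf L with hK₁
  have hrel1 : (H ⊓ K).relIndex H = K.relIndex H := Subgroup.inf_relIndex_left H K
  have hrel2 : (L ⊓ K).relIndex L = K.relIndex L := Subgroup.inf_relIndex_left L K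
  rw [hrel1, hrel2]
  have e1 : K.relIndex L = K₁.index := rfl
  have e2 : K.relIndex H = K₁.relIndex H₁ := by
    rw [hK₁, hH₁]
    exact (Subgroup.relIndex_subgroupOf hHL).symm
  rw [e1, e2]
  haveI := hN
  -- second isomorphism theorem, by cardinalities
  have hc := Cfsg.Agent.S4244.card_sup K₁ H₁
  have h3 : K₁.relIndex (K₁ ⊔ H₁) = K₁.relIndex H₁ := by
    have h4 := Subgroup.relIndex_mul_relIndex (⊥ : Subgroup L) K₁ (K₁ ⊔ H₁) bot_le le_sup_left
    rw [Subgroup.relIndex_bot_left, Subgroup.relIndex_bot_left] at h4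
    have h5 := Subgroup.relIndex_mul_relIndex (⊥ : Subgroup L) (K₁ ⊓ H₁) H₁ bot_le inf_le_right
    rw [Subgroup.relIndex_bot_left, Subgroup.relIndex_bot_left, Subgroup.inf_relIndex_right] at h5
    have h6 := Subgroup.relIndex_mul_relIndex (⊥ : Subgroup L) (K₁ ⊓ H₁) K₁ bot_le inf_le_left
    rw [Subgroup.relIndex_bot_left, Subgroup.relIndex_bot_left] at h6
    have hpos : 0 < Nat.card K₁ := Nat.card_pos
    have hpos2 : 0 < Nat.card (K₁ ⊓ H₁ : Subgroup L) := Nat.card_pos
    apply Nat.eq_of_mul_eq_mul_left (Nat.mul_pos hpos hpos2)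
    calc Nat.card K₁ * Nat.card (K₁ ⊓ H₁ : Subgroup L) * K₁.relIndex (K₁ ⊔ H₁)
        = (Nat.card K₁ * K₁.relIndex (K₁ ⊔ H₁)) * Nat.card (K₁ ⊓ H₁ : Subgroup L) := by ring
      _ = Nat.card (K₁ ⊔ H₁ : Subgroup L) * Nat.card (K₁ ⊓ H₁ : Subgroup L) := by rw [h4]
      _ = Nat.card K₁ * Nat.card H₁ := hc
      _ = Nat.card K₁ * (Nat.card (K₁ ⊓ H₁ : Subgroup L) * K₁.relIndex H₁) := by rw [h5]
      _ = Nat.card K₁ * Nat.card (K₁ ⊓ H₁ : Subgroup L) * K₁.relIndex H₁ := by ring
  rw [← h3]
  exact Subgroup.relIndex_dvd_index_of_le le_sup_left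

/-- Let H be a subnormal subgroup of a finite group G. Then for every subgroup K of G the index of H ∩ K in H divides the index of K in G. -/
theorem result {G : Type*} [Group G] [Finite G] (H : Subgroup G) (hH : H.IsSubnormal) (K : Subgroup G) :
    (H ⊓ K).relIndex H ∣ K.index := by
  induction hH generalizing K with
  | top => simp
  | step H L hHL hL hN ih =>
    refine dvd_trans ?_ (ih K)
    exact normal_step H L hHL hN K

end Cfsg.Agent.S4244
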