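import Mathlib
import Cfsg.Statements.S4245
import Cfsg.Agent.Lib.Char.Burnside
import Cfsg.Agent.Lib.Hup.Index2
import Cfsg.Agent.Lib.PronormAlt.Basic
import Cfsg.Agent.Lib.Kazarin.Main
import Cfsg.Agent.Lib.FPF.UniqueOrderP

set_option autoImplicit false
set_option linter.all false
open Cfsg

namespace Cfsg.Agent.S4245

universe u

/-- The working hypothesis. -/
def Hyp {G : Type u} [Group G] (A B : Subgroup G) (p : ℕ) : Prop :=
  B ≤ A ∧ A ≤ Subgroup.normalizer (B : Set G) ∧ IsCyclic B ∧ (∃ s, A.index = p ^ s) ∧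
  ∃ (Z : Type u) (_ : CommGroup Z) (_ : Finite Z) (_ : IsCyclic Z) (r : ℕ) (_ : Nat.card Z = 2 ^ r)
    (f : A →* Z), ∀ a : A, f a = 1 ↔ (a : G) ∈ B

/-- Restriction to a normal subgroup. -/
theorem Hyp.sub {G : Type u} [Group G] [Finite G] {A B : Subgroup G} {p : ℕ} (hp : p.Prime)
    (h : Hyp A B p) (N : Subgroup G) [N.Normal] :
    Hyp (A.subgroupOf N) (B.subgroupOf N) p := by
  obtain ⟨hBA, hAN, hBc, ⟨s, hs⟩, Z, iZ1, iZ2, iZ3, r, hr, f, hf⟩ := h
  refine ⟨?_, ?_, ?_, ?_, Z, iZ1, iZ2, iZ3, r, hr, ?_⟩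
  · intro x hx
    exact hBA hx
  · intro a ha
    rw [Subgroup.mem_normalizer_iff]
    intro b
    have h1 := (Subgroup.mem_normalizer_iff.1 (hAN ha)) (b : G)
    simp only [Subgroup.mem_subgroupOf, SetLike.mem_coe] at h1 ⊢
    simpa using h1
  · let φ : (B.subgroupOf N) →* B :=
      { toFun := fun x => ⟨(x : N), x.2⟩
        map_one' := rfl
        map_mul' := fun _ _ => rfl }
    exact isCyclic_of_injective φ (by
      intro x y hxy
      have := congrArg Subtype.val hxy
      exact Subtype.ext (Subtype.ext this))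
  · have h1 : (A.subgroupOf N).index ∣ p ^ s := by
      rw [← hs]
      exact Cfsg.Agent.Lib.Kazarin.Main.relIndex_dvd_index_of_normal_right A N
    obtain ⟨k, -, hk⟩ := (Nat.dvd_prime_pow hp).1 h1
    exact ⟨k, hk⟩
  · let φ : (A.subgroupOf N) →* A :=
      { toFun := fun x => ⟨(x : N), x.2⟩
        map_one' := rfl
        map_mul' := fun _ _ => rfl }
    refine ⟨f.comp φ, ?_⟩
    intro a
    exact hf (φ a)

/-- Passing to a quotient. -/
theorem Hyp.quot {G : Type u} [Group G] [Finite G] {A B : Subgroup G} {p : ℕ} (hp : p.Prime)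
    (h : Hyp A B p) (N : Subgroup G) [N.Normal] :
    Hyp (A.map (QuotientGroup.mk' N)) (B.map (QuotientGroup.mk' N)) p := by
  obtain ⟨hBA, hAN, hBc, ⟨s, hs⟩, Z, _, _, _, r, hr, f, hf⟩ := h
  let π := QuotientGroup.mk' N
  have hπ : Function.Surjective π := QuotientGroup.mk'_surjective N
  refine ⟨Subgroup.map_mono hBA, ?_, ?_, ?_, ?_⟩
  · exact (Subgroup.map_mono hAN).trans (Subgroup.le_normalizer_map π)
  · exact isCyclic_of_surjective (π.subgroupMap B) (π.subgroupMap_surjective B)
  · have h1 : (A.map π).index ∣ p ^ s := by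
      rw [← hs]
      exact Subgroup.index_map_dvd A hπ
    obtain ⟨k, -, hk⟩ := (Nat.dvd_prime_pow hp).1 h1
    exact ⟨k, hk⟩
  · let W : Subgroup Z := (N.subgroupOf A).map f
    have hcard : Nat.card (Z ⧸ W) ∣ 2 ^ r := by
      rw [← hr]
      exact Subgroup.card_quotient_dvd_card W
    obtain ⟨k, -, hk⟩ := (Nat.dvd_prime_pow Nat.prime_two).1 hcard
    let πA := π.subgroupMap A
    have hπA : Function.Surjective πA := π.subgroupMap_surjective A
    let g : A →* Z ⧸ W := (QuotientGroup.mk' W).comp f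
    have hker : πA.ker ≤ g.ker := by
      intro a ha
      have ha' : (a : G) ∈ N := by
        have h1 : π (a : G) = 1 := congrArg Subtype.val ha
        rwa [← MonoidHom.mem_ker, QuotientGroup.ker_mk'] at h1
      rw [MonoidHom.mem_ker]
      show (QuotientGroup.mk' W) (f a) = 1
      rw [QuotientGroup.mk'_apply, QuotientGroup.eq_one_iff]
      exact ⟨a, ha', rfl⟩
    let f' := πA.liftOfSurjective hπA ⟨g, hker⟩
    have hf' : ∀ a : A, f' (πA a) = g a := fun a =>
      MonoidHom.liftOfRightInverse_comp_apply _ _ _ _ a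
    refine ⟨Z ⧸ W, inferInstance, inferInstance,
      isCyclic_of_surjective (QuotientGroup.mk' W) (QuotientGroup.mk'_surjective W), k, hk, f', ?_⟩
    intro a'
    obtain ⟨a, rfl⟩ := hπA a'
    rw [hf']
    show (QuotientGroup.mk' W) (f a) = 1 ↔ π (a : G) ∈ B.map π
    rw [QuotientGroup.mk'_apply, QuotientGroup.eq_one_iff]
    constructor
    · rintro ⟨a₁, ha₁, hfa⟩
      have hmem : (a * a₁⁻¹ : A) ∈ f.ker := by
        rw [MonoidHom.mem_ker, map_mul, map_inv, ← hfa, mul_inv_cancel]
      have hB : ((a * a₁⁻¹ : A) : G) ∈ B := (hf _).1 hmem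
      refine ⟨_, hB, ?_⟩
      have h1 : π ((a₁ : A) : G) = 1 := by
        have : ((a₁ : A) : G) ∈ N := ha₁
        rwa [← QuotientGroup.ker_mk' N, MonoidHom.mem_ker] at this
      simp only [Subgroup.coe_mul, Subgroup.coe_inv, map_mul, map_inv, h1, inv_one, mul_one]
    · rintro ⟨b, hb, hπb⟩
      let b' : A := ⟨b, hBA hb⟩
      refine ⟨b'⁻¹ * a, ?_, ?_⟩
      · show ((b'⁻¹ * a : A) : G) ∈ N
        have h1 : π (((b'⁻¹ * a : A)) : G) = 1 := by
          simp only [Subgroup.coe_mul, Subgroup.coe_inv, map_mul, map_inv]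
          show (π b)⁻¹ * π (a : G) = 1
          rw [hπb, inv_mul_cancel]
        rwa [← MonoidHom.mem_ker, QuotientGroup.ker_mk'] at h1
      · rw [map_mul, map_inv, (hf b').2 hb, inv_one, one_mul]

/-- The simple case. -/
theorem simple_false {G : Type u} [Group G] [Finite G] [hsim : IsSimpleGroup G]
    (hnp : ¬ (Nat.card G).Prime) {A B : Subgroup G} {p : ℕ} (hp : p.Prime) (h : Hyp A B p) : False := by
  classical
  obtain ⟨hBA, hAN, hBc, ⟨s, hs⟩, Z, _, _, hZc, r, hr, f, hf⟩ := h
  -- no nontrivial element has a class of prime power size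
  have hclass : ∀ z : G, z ≠ 1 → ∀ q k, q.Prime → (Subgroup.centralizer ({z} : Set G)).index = q ^ k → False :=
    fun z hz q k hq hk => hnp (Cfsg.Agent.Lib.Char.Burnside.prime_card_of_simple_of_prime_power_class q k hq z hz hk)
  have hcent : ∀ z : G, z ≠ 1 → A ≤ Subgroup.centralizer ({z} : Set G) → False := by
    intro z hz hle
    have h1 : (Subgroup.centralizer ({z} : Set G)).index ∣ p ^ s := by
      rw [← hs]; exact Subgroup.index_dvd_of_le hle
    obtain ⟨k, -, hk⟩ := (Nat.dvd_prime_pow hp).1 h1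
    exact hclass z hz p k hp hk
  have hnt : Nontrivial G := hsim.toNontrivial
  -- the image of `f`
  have hBrel : B.relIndex A ∣ 2 ^ r := by
    have h1 : f.ker = B.subgroupOf A := by
      ext a
      rw [MonoidHom.mem_ker, hf, Subgroup.mem_subgroupOf]
    have h2 : (B.subgroupOf A).index = Nat.card f.range := by
      rw [← h1, Subgroup.index_ker]
    show (B.subgroupOf A).index ∣ 2 ^ r
    rw [h2, ← hr]
    exact Subgroup.card_subgroup_dvd_card _
  have hBcomm : ∀ x ∈ B, ∀ y ∈ B, x * y = y * x := by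
    intro x hx y hy
    letI := IsCyclic.commGroup (α := B)
    have := mul_comm (⟨x, hx⟩ : B) ⟨y, hy⟩
    exact congrArg Subtype.val this
  by_cases hp2 : p = 2
  · subst hp2
    -- an element centralizing `B`
    obtain ⟨x, hx1, hxB⟩ : ∃ x : G, x ≠ 1 ∧ B ≤ Subgroup.centralizer ({x} : Set G) := by
      by_cases hB : B = ⊥
      · obtain ⟨x, hx⟩ := exists_ne (1 : G)
        exact ⟨x, hx, by rw [hB]; exact bot_le⟩
      · obtain ⟨x, hxB, hx⟩ := B.ne_bot_iff_exists_ne_one.1 hB |> fun ⟨y, hy⟩ => (⟨(y : G), y.2, fun h => hy (Subtype.ext h)⟩ : ∃ x, x ∈ B ∧ x ≠ 1)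
        refine ⟨x, hx, ?_⟩
        intro y hy
        rw [Subgroup.mem_centralizer_singleton_iff]
        exact hBcomm y hy x hxB
    have h1 : (Subgroup.centralizer ({x} : Set G)).index ∣ B.index := Subgroup.index_dvd_of_le hxB
    have h2 : B.index = B.relIndex A * A.index := (Subgroup.relIndex_mul_index hBA).symm
    have h3 : B.index ∣ 2 ^ r * 2 ^ s := by
      rw [h2, hs]
      exact Nat.mul_dvd_mul_right hBrel _
    rw [← pow_add] at h3
    obtain ⟨k, -, hk⟩ := (Nat.dvd_prime_pow Nat.prime_two).1 (h1.trans h3)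
    exact hclass x hx1 2 k Nat.prime_two hk
  -- `p` odd
  have hoddidx : Nat.Coprime 2 A.index := by
    rw [hs]
    apply Nat.Coprime.pow_right
    exact (Nat.coprime_primes Nat.prime_two hp).2 (Ne.symm hp2)
  -- `B` has odd order
  have hBodd : ¬ 2 ∣ Nat.card B := by
    intro h2
    haveI : Fact (Nat.Prime 2) := ⟨Nat.prime_two⟩
    obtain ⟨z, hz⟩ := exists_prime_orderOf_dvd_card' (G := B) 2 h2
    have hzG : orderOf (z : G) = 2 := by rw [Subgroup.orderOf_coe, hz]
    have hz1 : (z : G) ≠ 1 := by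
      intro h
      rw [h, orderOf_one] at hzG
      omega
    apply hcent z hz1
    intro a ha
    rw [Subgroup.mem_centralizer_singleton_iff]
    have hmem : a * (z : G) * a⁻¹ ∈ B := (Subgroup.mem_normalizer_iff.1 (hAN ha) _).1 z.2
    let z' : B := ⟨a * (z : G) * a⁻¹, hmem⟩
    have hz'o : orderOf z' = 2 := by
      rw [← Subgroup.orderOf_coe]
      have h1 := (MulAut.conj a).orderOf_eq (z : G)
      rw [MulAut.conj_apply] at h1
      rw [h1, hzG]
    have h2 : Subgroup.zpowers z = Subgroup.zpowers z' :=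
      Cfsg.Agent.Lib.FPF.UniqueOrderP.subgroup_eq_of_card_eq (by
        rw [Nat.card_zpowers, Nat.card_zpowers, hz, hz'o])
    have h3 : z' ∈ Subgroup.zpowers z := by
      rw [h2]; exact Subgroup.mem_zpowers z'
    have h4 : z' = z := by
      rw [mem_zpowers_iff_mem_range_orderOf, hz] at h3
      simp only [Finset.mem_image, Finset.mem_range] at h3
      obtain ⟨i, hi, hiz⟩ := h3
      interval_cases i
      · exfalso
        rw [pow_zero] at hiz
        rw [← hiz, orderOf_one] at hz'o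
        omega
      · rw [← hiz, pow_one]
    have h5 : a * (z : G) * a⁻¹ = z := congrArg Subtype.val h4
    calc a * (z : G) = (a * (z : G) * a⁻¹) * a := by group
      _ = (z : G) * a := by rw [h5]
  -- the Sylow 2-subgroup
  haveI : Fact (Nat.Prime 2) := ⟨Nat.prime_two⟩
  obtain ⟨S, hSA⟩ := Cfsg.Agent.Lib.PronormAlt.Basic.exists_sylow_le_of_coprime_index (p := 2) A hoddidx
  have hfS : Function.Injective (f.comp (Subgroup.inclusion hSA)) := by
    rw [injective_iff_map_eq_one]
    intro x hx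
    have h1 : ((x : G)) ∈ B := (hf (Subgroup.inclusion hSA x)).1 hx
    have h2 : ((x : G)) ∈ B ⊓ (S : Subgroup G) := ⟨h1, x.2⟩
    have h3 : B ⊓ (S : Subgroup G) = ⊥ := by
      apply Cfsg.Agent.Lib.Coprime.SchurZassenhaus.disjoint_of_coprime_card
      obtain ⟨m, hm⟩ := IsPGroup.iff_card.1 S.isPGroup'
      rw [hm]
      apply Nat.Coprime.pow_right
      exact ((Nat.Prime.coprime_iff_not_dvd Nat.prime_two).2 hBodd).symm
    rw [h3] at h2
    exact Subtype.ext h2
  haveI hSc : IsCyclic S := isCyclic_of_injective _ hfS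
  by_cases h2G : 2 ∣ Nat.card G
  · obtain ⟨N, hNn, hNi⟩ := Cfsg.Agent.Lib.Hup.Index2.index2_of_cyclic_sylow h2G S hSc
    rcases hNn.eq_bot_or_eq_top with h | h
    · rw [h, Subgroup.index_bot] at hNi
      rw [hNi] at hnp
      exact hnp Nat.prime_two
    · rw [h, Subgroup.index_top] at hNi
      omega
  -- odd order: `A = B` abelian
  have hAB : ∀ a ∈ A, a ∈ B := by
    intro a ha
    have h1 : orderOf (f ⟨a, ha⟩) ∣ 2 ^ r := by
      rw [← hr]; exact orderOf_dvd_natCard _
    have h2 : orderOf (f ⟨a, ha⟩) ∣ orderOf (⟨a, ha⟩ : A) := orderOf_map_dvd f _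
    have h3 : orderOf (⟨a, ha⟩ : A) ∣ Nat.card G := by
      rw [Subgroup.orderOf_mk]; exact orderOf_dvd_natCard a
    have h4 : orderOf (f ⟨a, ha⟩) = 1 := by
      obtain ⟨k, -, hk⟩ := (Nat.dvd_prime_pow Nat.prime_two).1 h1
      rcases k with _ | k
      · simpa using hk
      · exfalso
        apply h2G
        rw [hk] at h2
        exact (dvd_pow_self 2 (Nat.succ_ne_zero k)).trans (h2.trans h3)
    exact (hf ⟨a, ha⟩).1 (orderOf_eq_one_iff.1 h4)
  -- pick a central element
  obtain ⟨z, hz⟩ : ∃ z : G, z ≠ 1 ∧ A ≤ Subgroup.centralizer ({z} : Set G) := by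
    by_cases hA : A = ⊥
    · obtain ⟨x, hx⟩ := exists_ne (1 : G)
      exact ⟨x, hx, by rw [hA]; exact bot_le⟩
    · obtain ⟨y, hy⟩ := A.ne_bot_iff_exists_ne_one.1 hA
      refine ⟨y, fun h => hy (Subtype.ext h), ?_⟩
      intro a ha
      rw [Subgroup.mem_centralizer_singleton_iff]
      exact hBcomm a (hAB a ha) y (hAB y y.2)
  exact hcent z hz.1 hz.2

theorem main : ∀ (n : ℕ) (G : Type u) [Group G] [Finite G], Nat.card G = n →
    ∀ (A B : Subgroup G) (p : ℕ), p.Prime → Hyp A B p → Group.IsSolvable G := by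
  intro n
  induction n using Nat.strong_induction_on with
  | _ n ih =>
  intro G _ _ hn A B p hp h
  by_cases hnt : Nontrivial G
  swap
  · rw [not_nontrivial_iff_subsingleton] at hnt
    infer_instance
  by_cases hsimple : ∀ N : Subgroup G, N.Normal → N = ⊥ ∨ N = ⊤
  · haveI hs : IsSimpleGroup G := ⟨fun N hN => hsimple N hN⟩
    by_cases hpr : (Nat.card G).Prime
    · haveI : Fact (Nat.card G).Prime := ⟨hpr⟩
      haveI : IsCyclic G := isCyclic_of_prime_card rfl
      letI := IsCyclic.commGroup (α := G)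
      infer_instance
    · exact (simple_false hpr hp h).elim
  · push_neg at hsimple
    obtain ⟨N, hNn, hN1, hNt⟩ := hsimple
    haveI := hNn
    have hcard := Subgroup.card_mul_index N
    have hi1 : N.index ≠ 1 := fun h => hNt (Subgroup.index_eq_one.1 h)
    have hi0 : N.index ≠ 0 := Subgroup.index_ne_zero_of_finite
    have hc1 : Nat.card N ≠ 1 := fun h => hN1 (Subgroup.card_eq_one.1 h)
    have hc0 : Nat.card N ≠ 0 := Nat.card_pos.ne'
    have hltN : Nat.card N < n := by
      rw [← hn, ← hcard]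
      have : 2 ≤ N.index := by omega
      have : 0 < Nat.card N := Nat.card_pos
      nlinarith
    have hltQ : Nat.card (G ⧸ N) < n := by
      show N.index < n
      rw [← hn, ← hcard]
      have : 2 ≤ Nat.card N := by omega
      have : 0 < N.index := by omega
      nlinarith
    haveI h1 : Group.IsSolvable N := ih _ hltN N rfl _ _ p hp (h.sub hp N)
    haveI h2 : Group.IsSolvable (G ⧸ N) := ih _ hltQ (G ⧸ N) rfl _ _ p hp (h.quot hp N)
    exact solvable_of_ker_le_range N.subtype (QuotientGroup.mk' N) (by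
      intro x hx
      rw [QuotientGroup.ker_mk'] at hx
      exact ⟨⟨x, hx⟩, rfl⟩)

/-- Let G be a finite group with a subgroup A of prime-power index. Suppose A has a normal cyclic subgroup B such that A/B is cyclic of order a power of 2. Then G is solvable. -/
theorem result {G : Type*} [Group G] [Finite G] (A : Subgroup G) (p s : ℕ) (hp : p.Prime) (hA : A.index = p ^ s)
    (B : Subgroup A) [B.Normal] (hB : IsCyclic B) (hAB : IsCyclic (A ⧸ B)) (r : ℕ) (hr : Nat.card (A ⧸ B) = 2 ^ r) :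
    Group.IsSolvable G := by
  classical
  refine main _ G rfl A (B.map A.subtype) p hp ⟨Subgroup.map_subtype_le B, ?_, ?_, ⟨s, hA⟩, ?_⟩
  · intro a ha
    rw [Subgroup.mem_normalizer_iff]
    intro b
    constructor
    · rintro ⟨b', hb', rfl⟩
      refine ⟨⟨a, ha⟩ * b' * ⟨a, ha⟩⁻¹, ‹B.Normal›.conj_mem _ hb' _, rfl⟩
    · rintro ⟨b', hb', hb'e⟩
      have hbe : b = (⟨a, ha⟩⁻¹ * b' * ⟨a, ha⟩ : A) := by
        have h1 : (b' : G) = a * b * a⁻¹ := hb'e
        simp only [Subgroup.coe_mul, Subgroup.coe_inv]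
        rw [h1]; group
      rw [hbe]
      refine ⟨_, ‹B.Normal›.conj_mem _ hb' ⟨a, ha⟩⁻¹, ?_⟩
      simp
  · exact isCyclic_of_surjective (A.subtype.subgroupMap B) (A.subtype.subgroupMap_surjective B)
  · letI cg : CommGroup (A ⧸ B) := IsCyclic.commGroup
    refine ⟨A ⧸ B, cg, inferInstance, hAB, r, hr, QuotientGroup.mk' B, ?_⟩
    intro a
    show (QuotientGroup.mk' B) a = 1 ↔ _
    rw [QuotientGroup.mk'_apply, QuotientGroup.eq_one_iff]
    constructor
    · intro h
      exact ⟨a, h, rfl⟩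
    · rintro ⟨b, hb, hba⟩
      have : b = a := Subtype.ext hba
      rwa [← this]

end Cfsg.Agent.S4245
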