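import Cfsg.Statements.S4252
import Cfsg.Agent.Lib.Frobenius.Basic

set_option autoImplicit false
open Cfsg

namespace Cfsg.Agent.S4252

/-- Let a finite group G act on a finite set Ω with more than one point, transitively but not regularly, so that no non-identity element of G fixes two distinct points. Then the stabilizer H of any point is a Frobenius complement in G (nontrivial, proper, meeting its other conjugates trivially), and the Frobenius kernel of G with respect to H (the identity together with the elements lying in no conjugate of H) is exactly the set consisting of the identity and the elements fixing no point. -/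
theorem result {G Ω : Type*} [Group G] [Finite G] [Fintype Ω] [MulAction G Ω] (hΩ : 1 < Fintype.card Ω)
    (htrans : ∀ α β : Ω, ∃ g : G, g • α = β) (hnreg : ∃ g : G, g ≠ 1 ∧ ∃ α : Ω, g • α = α)
    (hfix : ∀ g : G, g ≠ 1 → ∀ α β : Ω, g • α = α → g • β = β → α = β) (α : Ω) :
    Cfsg.IsFrobeniusComplement (MulAction.stabilizer G α) ∧
      Cfsg.frobeniusKernel (MulAction.stabilizer G α) = {g : G | g = 1 ∨ ∀ ω : Ω, g • ω ≠ ω} := by
  have hcompl : Cfsg.IsFrobeniusComplement (MulAction.stabilizer G α) := by
    apply Cfsg.Agent.Lib.Frobenius.Basic.isFrobeniusComplement_of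
    · intro h0
      obtain ⟨g, hg1, β, hβ⟩ := hnreg
      obtain ⟨x, hx⟩ := htrans α β
      have : x⁻¹ * g * x ∈ MulAction.stabilizer G α := by
        rw [MulAction.mem_stabilizer_iff, mul_smul, mul_smul, hx, hβ, ← hx, inv_smul_smul]
      rw [h0, Subgroup.mem_bot] at this
      apply hg1
      have h2 : g = x * (x⁻¹ * g * x) * x⁻¹ := by group
      rw [h2, this]; group
    · intro h0
      obtain ⟨β, hβ⟩ := Fintype.exists_ne_of_one_lt_card hΩ α
      obtain ⟨x, hx⟩ := htrans α β
      have : x ∈ MulAction.stabilizer G α := by rw [h0]; trivial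
      exact hβ (hx.symm.trans this)
    · intro g hg x hx hgx
      by_contra hx1
      apply hg
      have h1 : x • (g • α) = g • α := by
        have := hgx
        rw [MulAction.mem_stabilizer_iff, mul_smul, mul_smul] at this
        exact inv_smul_eq_iff.1 this
      exact hfix x hx1 _ _ h1 hx
  refine ⟨hcompl, ?_⟩
  ext g
  refine or_congr Iff.rfl ?_
  constructor
  · intro h ω hω
    obtain ⟨u, hu⟩ := htrans α ω
    apply h u
    rw [Cfsg.Agent.Lib.Frobenius.Basic.mem_conj_iff, MulAction.mem_stabilizer_iff, mul_smul, mul_smul, hu, hω, ← hu, inv_smul_smul]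
  · intro h u hu
    apply h (u • α)
    rw [Cfsg.Agent.Lib.Frobenius.Basic.mem_conj_iff, MulAction.mem_stabilizer_iff, mul_smul, mul_smul] at hu
    exact inv_smul_eq_iff.1 hu

end Cfsg.Agent.S4252
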