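import Cfsg.Statements.S4261
import Cfsg.Agent.Lib.Solvable.Misc1
import Cfsg.Agent.Lib.Transfer.Basic

set_option autoImplicit false
open Cfsg

namespace Cfsg.Agent.S4261


/-- Let M be a maximal subgroup of a finite solvable group G such that x^[G : M] lies in M for every x in G. Then M is normal in G. -/
theorem result {G : Type*} [Group G] [Finite G] (hG : Group.IsSolvable G) (M : Subgroup G) (hM : IsCoatom M)
    (hexp : ∀ x : G, x ^ M.index ∈ M) : M.Normal := by
  have := hG
  obtain ⟨q, a, hq, ha, hqa⟩ := Cfsg.Agent.Lib.Solvable.Misc1.isPrimePow_index_of_isCoatom M hM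
  have hq' : q.Prime := hq.nat_prime
  have : Fact q.Prime := ⟨hq'⟩
  -- `q'`-elements lie in `M`
  have h1 : ∀ y : G, Nat.Coprime (orderOf y) q → y ∈ M := by
    intro y hy
    have hcop : Nat.Coprime M.index (orderOf y) := by
      rw [← hqa]
      exact (hy.symm.pow_left a)
    obtain ⟨t, ht⟩ := exists_pow_eq_self_of_coprime hcop
    rw [← ht]
    exact pow_mem (hexp y) t
  set R := Cfsg.pResidual q G with hR
  have hRM : R ≤ M := by
    rw [hR, Cfsg.pResidual, Subgroup.closure_le]
    intro y hy
    exact h1 y hy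
  have : R.Normal := Cfsg.Agent.Lib.Transfer.Basic.pResidual_normal q
  have hPG : IsPGroup q (G ⧸ R) := Cfsg.Agent.Lib.Transfer.Basic.isPGroup_quotient_pResidual (p := q)
  have hnil : Group.IsNilpotent (G ⧸ R) := by
    exact hPG.isNilpotent
  set f := QuotientGroup.mk' R with hf
  have hfs : Function.Surjective f := QuotientGroup.mk'_surjective R
  have hkerf : f.ker = R := QuotientGroup.ker_mk' R
  have hcomap : (M.map f).comap f = M := by
    rw [Subgroup.comap_map_eq, hkerf, sup_eq_left.mpr hRM]
  have hne : M.map f ≠ ⊤ := by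
    intro h
    apply hM.1
    rw [← hcomap, h, Subgroup.comap_top]
  have hlt : M.map f < Subgroup.normalizer ((M.map f : Subgroup (G ⧸ R)) : Set (G ⧸ R)) :=
    Group.normalizerCondition_of_isNilpotent (G := G ⧸ R) (M.map f) (lt_top_iff_ne_top.mpr hne)
  obtain ⟨z, hz1, hz2⟩ := SetLike.exists_of_lt hlt
  obtain ⟨x, rfl⟩ := hfs z
  have hxM : x ∉ M := by
    intro hx
    exact hz2 (Subgroup.mem_map_of_mem f hx)
  have hxN : x ∈ Subgroup.normalizer (M : Set G) := by
    rw [Subgroup.mem_normalizer_iff]
    intro m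
    rw [Subgroup.mem_normalizer_iff] at hz1
    have key : ∀ m : G, m ∈ M ↔ f m ∈ M.map f := by
      intro m
      conv_lhs => rw [← hcomap]
      exact Subgroup.mem_comap
    rw [key m, key (x * m * x⁻¹), map_mul, map_mul, map_inv]
    exact hz1 (f m)
  have hNtop : Subgroup.normalizer (M : Set G) = ⊤ := by
    apply hM.2
    refine lt_of_le_of_ne Subgroup.le_normalizer ?_
    intro h
    rw [← h] at hxN
    exact hxM hxN
  exact Subgroup.normalizer_eq_top_iff.mp hNtop


end Cfsg.Agent.S4261
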