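import Cfsg.Statements.S4262
import Cfsg.Agent.Lib.Frobenius.Theorem
import Cfsg.Agent.Lib.Coprime.Action
import Mathlib

set_option autoImplicit false
set_option linter.style.haveILetI false
set_option linter.unusedSectionVars false
open Cfsg
open scoped Pointwise

namespace Cfsg.Agent.S4262

open Cfsg.Agent.Lib.Frobenius.Basic Cfsg.Agent.Lib.Frobenius.Theorem

section helpers

variable {G : Type*} [Group G]

local notation "CC" x => Subgroup.centralizer ({x} : Set _)
local notation "ZZ" => Subgroup.center _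

theorem mem_CC {x y : G} : y ∈ (CC x) ↔ y * x = x * y := Subgroup.mem_centralizer_singleton_iff

theorem self_mem_CC (x : G) : x ∈ (CC x) := mem_CC.2 rfl

theorem CC_ne_top {x : G} (hx : x ∉ Subgroup.center G) : (CC x) ≠ ⊤ := by
  intro e
  apply hx
  rw [Subgroup.mem_center_iff]
  intro y
  have : y ∈ (CC x) := by rw [e]; trivial
  exact mem_CC.1 this

theorem CC_eq_of_le (h : ∀ g : G, g ∉ Subgroup.center G → IsCoatom (CC g)) {u v : G}
    (hu : u ∉ Subgroup.center G) (hv : v ∉ Subgroup.center G) (hle : (CC u) ≤ (CC v)) :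
    (CC u) = (CC v) :=
  (((h u hu).le_iff.1 hle).resolve_left (CC_ne_top hv)).symm

theorem commute_of_coprime_pow {y a : G} {r s : ℕ} (hrs : r.Coprime s)
    (h1 : y * a ^ r = a ^ r * y) (h2 : y * a ^ s = a ^ s * y) : y * a = a * y := by
  have hm : ∀ n : ℕ, y * a ^ n = a ^ n * y → a ^ n ∈ (CC y) := fun n hn => mem_CC.2 hn.symm
  have h3 : a ∈ (CC y) := by
    have e : a = (a ^ r) ^ (Nat.gcdA r s) * (a ^ s) ^ (Nat.gcdB r s) := by
      have e1 := Nat.gcd_eq_gcd_ab r s
      rw [hrs, Nat.cast_one] at e1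
      rw [← zpow_natCast, ← zpow_natCast, ← zpow_mul, ← zpow_mul, ← zpow_add, ← e1, zpow_one]
    rw [e]
    exact Subgroup.mul_mem _ (Subgroup.zpow_mem _ (hm r h1) _) (Subgroup.zpow_mem _ (hm s h2) _)
  exact (mem_CC.1 h3).symm

theorem comm_of_mem_center {z y : G} (hz : z ∈ Subgroup.center G) : y * z = z * y :=
  Subgroup.mem_center_iff.1 hz y

/-- Fact 2. -/
theorem CC_eq_of_commute (h : ∀ g : G, g ∉ Subgroup.center G → IsCoatom (CC g)) {a b : G}
    (hab : a * b = b * a) (ha : a ∉ Subgroup.center G) (hb : b ∉ Subgroup.center G) {r s : ℕ}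
    (hrs : r.Coprime s) (har : a ^ r ∈ Subgroup.center G) (hbs : b ^ s ∈ Subgroup.center G) :
    (CC a) = (CC b) := by
  have hc : Commute a b := hab
  have key : ∀ y : G, y * (a * b) = (a * b) * y → y * a = a * y ∧ y * b = b * y := by
    intro y hy
    have hyc : Commute y (a * b) := hy
    have h1 : y * a ^ s = a ^ s * y := by
      have h2 : Commute y ((a * b) ^ s) := hyc.pow_right s
      rw [hc.mul_pow] at h2
      have h3 : Commute y (b ^ s) := comm_of_mem_center hbs
      have h4 : y * (a ^ s * b ^ s) = (a ^ s * b ^ s) * y := h2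
      have h5 : y * b ^ s = b ^ s * y := h3
      have : (y * a ^ s) * b ^ s = (a ^ s * y) * b ^ s := by
        calc (y * a ^ s) * b ^ s = y * (a ^ s * b ^ s) := by rw [mul_assoc]
          _ = (a ^ s * b ^ s) * y := h4
          _ = a ^ s * (b ^ s * y) := by rw [mul_assoc]
          _ = a ^ s * (y * b ^ s) := by rw [h5]
          _ = (a ^ s * y) * b ^ s := by rw [mul_assoc]
      exact mul_right_cancel this
    have h1' : y * b ^ r = b ^ r * y := by
      have h2 : Commute y ((a * b) ^ r) := hyc.pow_right r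
      rw [hc.mul_pow] at h2
      have h3 : Commute y (a ^ r) := comm_of_mem_center har
      have h4 : y * (a ^ r * b ^ r) = (a ^ r * b ^ r) * y := h2
      have h5 : y * a ^ r = a ^ r * y := h3
      have : a ^ r * (y * b ^ r) = a ^ r * (b ^ r * y) := by
        calc a ^ r * (y * b ^ r) = (a ^ r * y) * b ^ r := by rw [mul_assoc]
          _ = (y * a ^ r) * b ^ r := by rw [h5]
          _ = y * (a ^ r * b ^ r) := by rw [mul_assoc]
          _ = (a ^ r * b ^ r) * y := h4
          _ = a ^ r * (b ^ r * y) := by rw [mul_assoc]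
      exact mul_left_cancel this
    exact ⟨commute_of_coprime_pow hrs (comm_of_mem_center har) h1,
      commute_of_coprime_pow hrs h1' (comm_of_mem_center hbs)⟩
  have hu : a * b ∉ Subgroup.center G := by
    intro hm
    apply ha
    rw [Subgroup.mem_center_iff]
    intro y
    exact (key y (comm_of_mem_center hm)).1
  have h1 : (CC (a * b)) = (CC a) := CC_eq_of_le h hu ha (fun y hy => mem_CC.2 (key y (mem_CC.1 hy)).1)
  have h2 : (CC (a * b)) = (CC b) := CC_eq_of_le h hu hb (fun y hy => mem_CC.2 (key y (mem_CC.1 hy)).2)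
  rw [← h1, h2]

variable [Finite G]

/-- Fact 1. -/
theorem exists_prime_power (h : ∀ g : G, g ∉ Subgroup.center G → IsCoatom (CC g)) {g : G}
    (hg : g ∉ Subgroup.center G) :
    ∃ (n r : ℕ), r.Prime ∧ g ^ n ∉ Subgroup.center G ∧ (g ^ n) ^ r ∈ Subgroup.center G ∧
      (CC (g ^ n)) = (CC g) := by
  set q : G ⧸ Subgroup.center G := (g : G ⧸ Subgroup.center G) with hq
  have hq1 : q ≠ 1 := fun e => hg ((QuotientGroup.eq_one_iff g).1 e)
  have ho1 : orderOf q ≠ 1 := fun e => hq1 (orderOf_eq_one_iff.1 e)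
  obtain ⟨r, hr, m, hm⟩ := Nat.exists_prime_and_dvd ho1
  have hopos : 0 < orderOf q := orderOf_pos q
  have hmpos : m ≠ 0 := by
    rintro rfl
    rw [mul_zero] at hm
    exact hopos.ne' hm
  have hmlt : m < orderOf q := by
    rw [hm]
    have := hr.two_le
    nlinarith [Nat.pos_of_ne_zero hmpos]
  have hgm : g ^ m ∉ Subgroup.center G := by
    intro hmem
    have : (q ^ m) = 1 := by
      rw [hq, ← QuotientGroup.mk_pow]
      exact (QuotientGroup.eq_one_iff _).2 hmem
    exact pow_ne_one_of_lt_orderOf hmpos hmlt this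
  refine ⟨m, r, hr, hgm, ?_, ?_⟩
  · rw [← pow_mul, mul_comm, ← hm]
    apply (QuotientGroup.eq_one_iff _).1
    rw [QuotientGroup.mk_pow]
    exact pow_orderOf_eq_one q
  · symm
    apply CC_eq_of_le h hg hgm
    intro y hy
    have : Commute y g := mem_CC.1 hy
    exact mem_CC.2 (this.pow_right m)

/-- Key structure lemma. -/
theorem exists_prime_of_nonabelian (h : ∀ g : G, g ∉ Subgroup.center G → IsCoatom (CC g)) {x : G}
    (hx : x ∉ Subgroup.center G)
    (hna : ¬ ∀ a ∈ (CC x), ∀ b ∈ (CC x), a * b = b * a) :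
    ∃ r : ℕ, r.Prime ∧ ∀ k ∈ (CC x), k ∉ Subgroup.center G → ∀ t : ℕ, t.Prime →
      k ^ t ∈ Subgroup.center G → t = r := by
  push Not at hna
  obtain ⟨a, ha, b, hb, hab⟩ := hna
  obtain ⟨n, r, hr, hx1, hx2, hx3⟩ := exists_prime_power h hx
  have haZ : a ∉ Subgroup.center G := fun hm => hab (comm_of_mem_center hm).symm
  have hCa : (CC a) ≠ (CC x) := by
    intro e
    apply hab
    have : b ∈ (CC a) := by rw [e]; exact hb
    exact (mem_CC.1 this).symm
  obtain ⟨n', s, hs, ha1, ha2, ha3⟩ := exists_prime_power h haZ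
  have hxn : ∀ y ∈ (CC x), y ∈ (CC (x ^ n)) := fun y hy => by rw [hx3]; exact hy
  have hcop : ∀ {u v : ℕ}, u.Prime → v.Prime → u ≠ v → u.Coprime v :=
    fun hu hv huv => (Nat.coprime_primes hu hv).2 huv
  have hrs : r = s := by
    by_contra hne
    have hc : (a ^ n') * x ^ n = x ^ n * (a ^ n') :=
      mem_CC.1 (hxn _ (Subgroup.pow_mem _ ha n'))
    have e := CC_eq_of_commute h hc ha1 hx1 (hcop hs hr (Ne.symm hne)) ha2 hx2
    apply hCa
    rw [← ha3, e, hx3]
  subst hrs
  refine ⟨r, hr, fun k hk hkZ t ht hkt => ?_⟩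
  by_contra hne
  have h1 : k * x ^ n = x ^ n * k := mem_CC.1 (hxn _ hk)
  have e1 : (CC k) = (CC x) := by
    rw [← hx3]
    exact CC_eq_of_commute h h1 hkZ hx1 (hcop ht hr hne) hkt hx2
  have ham : a ^ n' ∈ (CC k) := by
    rw [e1]
    exact Subgroup.pow_mem _ ha n'
  have h2 : k * a ^ n' = a ^ n' * k := (mem_CC.1 ham).symm
  have e2 : (CC k) = (CC a) := by
    rw [← ha3]
    exact CC_eq_of_commute h h2 hkZ ha1 (hcop ht hr hne) hkt ha2
  exact hCa (e2.symm.trans e1)

theorem isSolvable_of_isPGroup {H : Type*} [Group H] [Finite H] {p : ℕ} [Fact p.Prime]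
    (h : IsPGroup p H) : Group.IsSolvable H := by
  haveI := h.isNilpotent
  exact IsNilpotent.to_isSolvable

theorem solvable_of_central_ker {H K : Type*} [Group H] [Group K] (φ : H →* K)
    (hker : φ.ker ≤ Subgroup.center H) [Group.IsSolvable K] : Group.IsSolvable H := by
  haveI : Group.IsSolvable φ.ker := Group.isSolvable_of_comm (by
    rintro ⟨a, ha⟩ ⟨b, hb⟩
    apply Subtype.ext
    exact Subgroup.mem_center_iff.1 (hker hb) a)
  exact Group.isSolvable_of_ker_le_range φ.ker.subtype φ (by rw [Subgroup.range_subtype])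

theorem isPGroup_map_of_prime {M : Subgroup G} {r : ℕ}
    (hM : ∀ k ∈ M, k ∉ Subgroup.center G → ∀ t : ℕ, t.Prime →
      k ^ t ∈ Subgroup.center G → t = r) :
    IsPGroup r (M.map (QuotientGroup.mk' (Subgroup.center G))) := by
  classical
  set H := M.map (QuotientGroup.mk' (Subgroup.center G)) with hH
  haveI : Finite (G ⧸ Subgroup.center G) := inferInstance
  haveI : Finite H := inferInstance
  haveI := Fintype.ofFinite H
  refine IsPGroup.of_card (Nat.eq_prime_pow_of_unique_prime_dvd (Nat.card_pos.ne') ?_)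
  intro t ht htd
  haveI : Fact t.Prime := ⟨ht⟩
  rw [Nat.card_eq_fintype_card] at htd
  obtain ⟨y, hy⟩ := exists_prime_orderOf_dvd_card t htd
  obtain ⟨_, k, hk, rfl⟩ := y
  have hy' : orderOf ((QuotientGroup.mk' (Subgroup.center G)) k) = t := by
    rw [← hy]
    exact Subgroup.orderOf_coe (⟨_, ⟨k, hk, rfl⟩⟩ : H)
  apply hM k hk _ t ht
  · apply (QuotientGroup.eq_one_iff _).1
    rw [QuotientGroup.mk_pow]
    have := pow_orderOf_eq_one ((QuotientGroup.mk' (Subgroup.center G)) k)
    rw [hy'] at this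
    exact this
  · intro hm
    have : (QuotientGroup.mk' (Subgroup.center G)) k = 1 := (QuotientGroup.eq_one_iff k).2 hm
    rw [this, orderOf_one] at hy'
    exact ht.one_lt.ne hy'

theorem isSolvable_CC (h : ∀ g : G, g ∉ Subgroup.center G → IsCoatom (CC g)) {x : G}
    (hx : x ∉ Subgroup.center G) : Group.IsSolvable (CC x) := by
  by_cases hab : ∀ a ∈ (CC x), ∀ b ∈ (CC x), a * b = b * a
  · exact Group.isSolvable_of_comm (by
      rintro ⟨a, ha⟩ ⟨b, hb⟩
      exact Subtype.ext (hab a ha b hb))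
  obtain ⟨r, hr, hk⟩ := exists_prime_of_nonabelian h hx hab
  haveI : Fact r.Prime := ⟨hr⟩
  have hp := isPGroup_map_of_prime hk
  haveI := isSolvable_of_isPGroup hp
  refine solvable_of_central_ker ((QuotientGroup.mk' (Subgroup.center G)).subgroupMap (CC x)) ?_
  intro m hm
  rw [MonoidHom.mem_ker] at hm
  have h1 : (QuotientGroup.mk' (Subgroup.center G)) (m : G) = 1 := congrArg Subtype.val hm
  have h2 : (m : G) ∈ Subgroup.center G := (QuotientGroup.eq_one_iff _).1 h1
  rw [Subgroup.mem_center_iff]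
  intro n
  exact Subtype.ext (Subgroup.mem_center_iff.1 h2 (n : G))

theorem solvable_of_coatom_normal {M : Subgroup G} (hM : IsCoatom M) [M.Normal]
    [Group.IsSolvable M] : Group.IsSolvable G := by
  obtain ⟨g, hg⟩ := SetLike.exists_not_mem_of_ne_top M hM.1 rfl
  have hsup : M ⊔ Subgroup.zpowers g = ⊤ := by
    apply hM.2
    refine lt_of_le_of_ne le_sup_left fun heq => hg ?_
    rw [heq]
    exact (le_sup_right : Subgroup.zpowers g ≤ M ⊔ Subgroup.zpowers g)
      (Subgroup.mem_zpowers g)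
  haveI : IsCyclic (G ⧸ M) := by
    refine ⟨⟨(g : G ⧸ M), ?_⟩⟩
    intro y
    obtain ⟨a, rfl⟩ := QuotientGroup.mk_surjective y
    have ha : a ∈ M ⊔ Subgroup.zpowers g := by rw [hsup]; trivial
    obtain ⟨m, hm, z, hz, rfl⟩ := Subgroup.mem_sup_of_normal_left.1 ha
    obtain ⟨n, rfl⟩ := Subgroup.mem_zpowers_iff.1 hz
    refine Subgroup.mem_zpowers_iff.2 ⟨n, ?_⟩
    rw [← QuotientGroup.mk_zpow, eq_comm, QuotientGroup.eq]
    have hk : (g ^ n)⁻¹ * m⁻¹ * g ^ n ∈ M := by
      simpa using (‹M.Normal›.conj_mem m⁻¹ (M.inv_mem hm) (g ^ n)⁻¹)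
    simpa [mul_assoc] using hk
  haveI : Group.IsSolvable (G ⧸ M) := Group.isSolvable_of_comm (fun a b => mul_comm' a b)
  exact Group.isSolvable_of_ker_le_range M.subtype (QuotientGroup.mk' M) (by simp)

theorem solvable_of_sup_abelian {L M : Subgroup G} [L.Normal] (hsup : L ⊔ M = ⊤)
    (hL : ∀ a ∈ L, ∀ b ∈ L, a * b = b * a) (hM : ∀ a ∈ M, ∀ b ∈ M, a * b = b * a) :
    Group.IsSolvable G := by
  haveI : Group.IsSolvable L := Group.isSolvable_of_comm (by
    rintro ⟨a, ha⟩ ⟨b, hb⟩
    exact Subtype.ext (hL a ha b hb))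
  haveI : Group.IsSolvable M := Group.isSolvable_of_comm (by
    rintro ⟨a, ha⟩ ⟨b, hb⟩
    exact Subtype.ext (hM a ha b hb))
  have hsurj : Function.Surjective ((QuotientGroup.mk' L).comp M.subtype) := by
    intro y
    obtain ⟨a, rfl⟩ := QuotientGroup.mk_surjective y
    have ha : a ∈ L ⊔ M := by rw [hsup]; trivial
    obtain ⟨l, hl, m, hm, rfl⟩ := Subgroup.mem_sup_of_normal_left.1 ha
    refine ⟨⟨m, hm⟩, ?_⟩
    show ((m : G) : G ⧸ L) = ((l * m : G) : G ⧸ L)
    rw [QuotientGroup.eq]
    have hk : m⁻¹ * l * m ∈ L := by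
      simpa using (‹L.Normal›.conj_mem l hl m⁻¹)
    simpa [mul_assoc] using hk
  haveI : Group.IsSolvable (G ⧸ L) := Group.isSolvable_of_surjective hsurj
  exact Group.isSolvable_of_ker_le_range L.subtype (QuotientGroup.mk' L) (by simp)


/-- The case of an abelian non-normal centralizer: Frobenius' theorem. -/
theorem caseB1 (h : ∀ g : G, g ∉ Subgroup.center G → IsCoatom (CC g)) {x : G}
    (hx : x ∉ Subgroup.center G) (hab : ∀ a ∈ (CC x), ∀ b ∈ (CC x), a * b = b * a)
    (hnn : ¬ (CC x).Normal) : Group.IsSolvable G := by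
  classical
  set M : Subgroup G := (CC x) with hM
  set Z : Subgroup G := Subgroup.center G with hZ
  have hMco : IsCoatom M := h x hx
  let π : G →* G ⧸ Z := QuotientGroup.mk' Z
  have hπ : ∀ y, π y = 1 ↔ y ∈ Z := fun y => QuotientGroup.eq_one_iff y
  have hπs : Function.Surjective π := QuotientGroup.mk'_surjective Z
  have hZM : Z ≤ M := fun z hz => mem_CC.2 (comm_of_mem_center hz).symm
  have hCy : ∀ y ∈ M, y ∉ Z → (CC y) = M := by
    intro y hy hyZ
    have hle : M ≤ (CC y) := fun m hm => mem_CC.2 (hab m hm y hy)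
    exact (hMco.le_iff.1 hle).resolve_left (CC_ne_top hyZ)
  have hnorm : Subgroup.normalizer (M : Set G) = M := by
    rcases hMco.le_iff.1 (Subgroup.le_normalizer (H := M)) with hn | hn
    · exact absurd (Subgroup.normalizer_eq_top_iff.1 hn) hnn
    · exact hn
  have hconjZ : ∀ (g y : G), g⁻¹ * y * g ∈ Z → y ∈ Z := by
    intro g y hy
    have := (inferInstance : (Subgroup.center G).Normal).conj_mem _ hy g
    simpa [mul_assoc] using this
  have hmemconj : ∀ (g y m : G), m ∈ (CC (g⁻¹ * y * g)) ↔ g * m * g⁻¹ ∈ (CC y) := by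
    intro g y m
    rw [mem_CC, mem_CC]
    constructor
    · intro hc
      have e := congrArg (fun t => g * t * g⁻¹) hc
      simp only [mul_assoc, mul_inv_cancel_left, mul_inv_cancel, mul_one] at e
      simpa [mul_assoc] using e
    · intro hc
      have e := congrArg (fun t => g⁻¹ * t * g) hc
      simp only [mul_assoc, inv_mul_cancel_left, inv_mul_cancel, mul_one] at e
      simpa [mul_assoc] using e
  have hlift : ∀ (g y : G), π g⁻¹ * π y * π g ∈ M.map π → g⁻¹ * y * g ∈ M := by
    intro g y hm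
    obtain ⟨m, hm, hme⟩ := hm
    have e : π (m⁻¹ * (g⁻¹ * y * g)) = 1 := by
      rw [map_mul, map_inv, hme, map_mul, map_mul]
      simp
    have := hZM ((hπ _).1 e)
    have h2 := M.mul_mem hm this
    simpa using h2
  set H : Subgroup (G ⧸ Z) := M.map π with hH
  have hHne : H ≠ ⊥ := by
    intro e
    have : π x ∈ H := ⟨x, self_mem_CC x, rfl⟩
    rw [e, Subgroup.mem_bot, hπ] at this
    exact hx this
  have hHtop : H ≠ ⊤ := by
    intro e
    apply hMco.1
    rw [eq_top_iff]
    intro g _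
    have : π g ∈ H := by rw [e]; trivial
    obtain ⟨m, hm, hme⟩ := this
    have e2 : π (m⁻¹ * g) = 1 := by rw [map_mul, map_inv, hme]; simp
    have := M.mul_mem hm (hZM ((hπ _).1 e2))
    simpa using this
  have hFrob : IsFrobeniusComplement H := by
    apply isFrobeniusComplement_of hHne hHtop
    intro q hq t ht hconj
    obtain ⟨g, rfl⟩ := hπs q
    obtain ⟨y, hy, rfl⟩ := ht
    have hgM : g ∉ M := fun hg => hq ⟨g, hg, rfl⟩
    rw [← map_inv] at hconj
    have hy' := hlift g y hconj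
    by_contra hne
    have hyZ : y ∉ Z := fun hm => hne ((hπ y).2 hm)
    have hyZ' : g⁻¹ * y * g ∉ Z := fun hm => hyZ (hconjZ g y hm)
    have e1 := hCy y hy hyZ
    have e2 := hCy _ hy' hyZ'
    apply hgM
    rw [← hnorm, Subgroup.mem_normalizer_iff]
    intro m
    have := hmemconj g y m
    rw [e1, e2] at this
    exact this
  set K : Subgroup (G ⧸ Z) := kernel H with hK
  have hcompl : Subgroup.IsComplement' K H := kernel_isComplement' hFrob
  have hKinf : K ⊓ H = ⊥ := kernel_inf_eq_bot hFrob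
  set L : Subgroup G := K.comap π with hL
  haveI : L.Normal := Subgroup.Normal.comap (kernel_normal H) π
  have hZL : Z ≤ L := fun z hz => by
    show π z ∈ K
    rw [(hπ z).2 hz]
    exact K.one_mem
  have hLtop : L ≠ ⊤ := by
    intro e
    have hKt : K = ⊤ := by
      rw [eq_top_iff]
      intro q _
      obtain ⟨g, rfl⟩ := hπs q
      have : g ∈ L := by rw [e]; trivial
      exact this
    rw [hKt, top_inf_eq] at hKinf
    exact hHne hKinf
  have hLC : ∀ u ∈ L, u ∉ Z → (CC u) = L := by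
    intro u hu huZ
    have hle : (CC u) ≤ L := by
      intro w hw
      by_contra hwL
      have hwZ : w ∉ Z := fun hm => hwL (hZL hm)
      have hwK : π w ∉ K := hwL
      rw [mem_kernel_iff hFrob] at hwK
      simp only [frobeniusKernel, Set.mem_ofPred_eq, not_or, not_forall, not_not] at hwK
      obtain ⟨_, q, hq⟩ := hwK
      obtain ⟨g, rfl⟩ := hπs q
      rw [mem_conj_iff, ← map_inv] at hq
      have hw' := hlift g w hq
      have hw'Z : g⁻¹ * w * g ∉ Z := fun hm => hwZ (hconjZ g w hm)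
      have e := hCy _ hw' hw'Z
      have hu' : g⁻¹ * u * g ∈ (CC (g⁻¹ * w * g)) := by
        rw [hmemconj]
        have : g * (g⁻¹ * u * g) * g⁻¹ = u := by group
        rw [this]
        exact mem_CC.2 (mem_CC.1 hw).symm
      rw [e] at hu'
      have h3 : π (g⁻¹ * u * g) ∈ H := ⟨_, hu', rfl⟩
      have h4 : g⁻¹ * u * g ∈ L := by
        have := ‹L.Normal›.conj_mem u hu g⁻¹
        simpa using this
      have h5 : π (g⁻¹ * u * g) ∈ K ⊓ H := ⟨h4, h3⟩
      rw [hKinf, Subgroup.mem_bot, hπ] at h5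
      exact huZ (hconjZ g u h5)
    exact (((h u huZ).le_iff.1 hle).resolve_left hLtop).symm
  have hLab : ∀ a ∈ L, ∀ b ∈ L, a * b = b * a := by
    intro a ha b hb
    by_cases hbZ : b ∈ Z
    · exact comm_of_mem_center hbZ
    · have : a ∈ (CC b) := by rw [hLC b hb hbZ]; exact ha
      exact mem_CC.1 this
  have hLM : ¬ L ≤ M := by
    intro hle
    have hKH : K ≤ H := by
      intro q hq
      obtain ⟨g, rfl⟩ := hπs q
      exact ⟨g, hle hq, rfl⟩
    have hKb : K = ⊥ := by
      rw [eq_bot_iff]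
      intro q hq
      rw [← hKinf]
      exact ⟨hq, hKH hq⟩
    have := hcompl.sup_eq_top
    rw [hKb, bot_sup_eq] at this
    exact hHtop this
  have hsup : L ⊔ M = ⊤ := by
    apply hMco.2
    refine lt_of_le_of_ne le_sup_right fun heq => hLM ?_
    rw [heq]
    exact le_sup_left
  exact solvable_of_sup_abelian hsup hLab hab


theorem sq_le_index_center {H : Type*} [Group H] [Finite H] {r : ℕ} [Fact r.Prime]
    (hna : ¬ ∀ a b : H, a * b = b * a) (hp : IsPGroup r (H ⧸ Subgroup.center H)) :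
    r ^ 2 ≤ (Subgroup.center H).index := by
  obtain ⟨n, hn⟩ := hp.exists_card_eq
  have hidx : (Subgroup.center H).index = r ^ n := hn
  rw [hidx]
  have hcyc : ¬ IsCyclic (H ⧸ Subgroup.center H) := fun hc => by
    apply hna
    exact commutative_of_cyclic_center_quotient (QuotientGroup.mk' (Subgroup.center H))
      (by rw [QuotientGroup.ker_mk'])
  have hn2 : 2 ≤ n := by
    by_contra hlt
    have : n = 0 ∨ n = 1 := by omega
    rcases this with rfl | rfl
    · apply hcyc
      rw [pow_zero] at hn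
      haveI := (Nat.card_eq_one_iff_unique.1 hn).1
      exact isCyclic_of_subsingleton
    · apply hcyc
      rw [pow_one] at hn
      exact isCyclic_of_prime_card hn
  exact Nat.pow_le_pow_right (Fact.out : r.Prime).pos hn2

theorem exists_sylow_comap (h : ∀ g : G, g ∉ Subgroup.center G → IsCoatom (CC g)) {x : G}
    (hx : x ∉ Subgroup.center G) {r : ℕ} [Fact r.Prime]
    (hp : IsPGroup r ((CC x).map (QuotientGroup.mk' (Subgroup.center G))))
    (hnp : ¬ IsPGroup r (G ⧸ Subgroup.center G)) :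
    ∃ R : Sylow r (G ⧸ Subgroup.center G),
      (R : Subgroup (G ⧸ Subgroup.center G)).comap (QuotientGroup.mk' (Subgroup.center G)) = (CC x) := by
  obtain ⟨R, hR⟩ := hp.exists_le_sylow
  refine ⟨R, ?_⟩
  have hle : (CC x) ≤ (R : Subgroup (G ⧸ Subgroup.center G)).comap (QuotientGroup.mk' (Subgroup.center G)) :=
    fun y hy => hR ⟨y, hy, rfl⟩
  rcases (h x hx).le_iff.1 hle with e | e
  · exfalso
    apply hnp
    have hmem : ∀ q : G ⧸ Subgroup.center G, q ∈ (R : Subgroup (G ⧸ Subgroup.center G)) := by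
      intro q
      obtain ⟨g, rfl⟩ := QuotientGroup.mk'_surjective _ q
      have : g ∈ (R : Subgroup (G ⧸ Subgroup.center G)).comap (QuotientGroup.mk' (Subgroup.center G)) := by
        rw [e]; trivial
      exact this
    intro q
    obtain ⟨k, hk⟩ := R.isPGroup' ⟨q, hmem q⟩
    exact ⟨k, congrArg Subtype.val hk⟩
  · exact e

theorem count_T [Fintype G] [DecidableEq G] (h : ∀ g : G, g ∉ Subgroup.center G → IsCoatom (CC g))
    {r : ℕ} [Fact r.Prime] (hnp : ¬ IsPGroup r (G ⧸ Subgroup.center G))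
    (hna : ∀ x : G, x ∉ Subgroup.center G → ¬ ∀ a ∈ (CC x), ∀ b ∈ (CC x), a * b = b * a)
    (T : Finset G)
    (hT : ∀ x ∈ T, x ∉ Subgroup.center G ∧
      IsPGroup r ((CC x).map (QuotientGroup.mk' (Subgroup.center G)))) :
    T.card * r ^ 2 ≤ Nat.card G := by
  classical
  rcases T.eq_empty_or_nonempty with rfl | ⟨x₀, hx₀⟩
  · simp
  obtain ⟨hx₀Z, hx₀p⟩ := hT x₀ hx₀
  set Z : Subgroup G := Subgroup.center G with hZ
  let π : G →* G ⧸ Z := QuotientGroup.mk' Z
  have hπs : Function.Surjective π := QuotientGroup.mk'_surjective Z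
  obtain ⟨R₀, hR₀⟩ := exists_sylow_comap h hx₀Z hx₀p hnp
  set M : Subgroup G := (CC x₀) with hM
  set A : Subgroup G := M ⊓ Subgroup.centralizer (M : Set G) with hA
  -- every `x ∈ T` is conjugate into `A`
  have hconj : ∀ x ∈ T, ∃ g : G, g⁻¹ * x * g ∈ A := by
    intro x hx
    obtain ⟨hxZ, hxp⟩ := hT x hx
    obtain ⟨R, hR⟩ := exists_sylow_comap h hxZ hxp hnp
    obtain ⟨q, hq⟩ := MulAction.exists_smul_eq (G ⧸ Z) R₀ R
    obtain ⟨g, rfl⟩ := hπs q
    have hmem : ∀ y : G, y ∈ (CC x) ↔ g⁻¹ * y * g ∈ M := by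
      intro y
      rw [← hR, ← hR₀, Subgroup.mem_comap, Subgroup.mem_comap, ← hq, Sylow.coe_subgroup_smul,
        Subgroup.mem_pointwise_smul_iff_inv_smul_mem]
      simp [MulAut.smul_def, map_mul, map_inv, π]
      rfl
    refine ⟨g, (hmem x).1 (self_mem_CC x), ?_⟩
    show g⁻¹ * x * g ∈ Subgroup.centralizer (M : Set G)
    rw [Subgroup.mem_centralizer_iff]
    intro m hm
    have h1 : g * m * g⁻¹ ∈ (CC x) := by
      rw [hmem]
      have : g⁻¹ * (g * m * g⁻¹) * g = m := by group
      rw [this]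
      exact hm
    have h2 := mem_CC.1 h1
    have e := congrArg (fun t => g⁻¹ * t * g) h2
    simp only [mul_assoc, inv_mul_cancel_left, inv_mul_cancel, mul_one] at e
    simpa [mul_assoc] using e
  -- covering
  set Af : Finset G := Finset.univ.filter (fun a => a ∈ A) with hAf
  haveI : Fintype (G ⧸ M) := Fintype.ofFinite _
  have hsub : T ⊆ (Finset.univ : Finset (G ⧸ M)).biUnion
      (fun c => Af.image (fun a => c.out * a * c.out⁻¹)) := by
    intro x hx
    obtain ⟨g, hg⟩ := hconj x hx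
    rw [Finset.mem_biUnion]
    refine ⟨(g : G ⧸ M), Finset.mem_univ _, ?_⟩
    set c : G ⧸ M := (g : G ⧸ M) with hc
    have hout : g⁻¹ * c.out ∈ M := by
      rw [← QuotientGroup.eq, hc]
      exact (QuotientGroup.out_eq' _).symm
    rw [Finset.mem_image]
    refine ⟨g⁻¹ * x * g, ?_, ?_⟩
    · rw [hAf, Finset.mem_filter]
      exact ⟨Finset.mem_univ _, hg⟩
    · have hcomm := Subgroup.mem_centralizer_iff.1 hg.2 _ hout
      set m := g⁻¹ * c.out with hm
      have e : c.out = g * m := by rw [hm]; group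
      rw [e]
      calc g * m * (g⁻¹ * x * g) * (g * m)⁻¹ = g * (m * (g⁻¹ * x * g)) * (g * m)⁻¹ := by group
        _ = g * ((g⁻¹ * x * g) * m) * (g * m)⁻¹ := by rw [hcomm]
        _ = x := by group
  have hcard1 : T.card ≤ M.index * Af.card := by
    have h1 := Finset.card_le_card hsub
    have h2 := Finset.card_biUnion_le_card_mul (Finset.univ : Finset (G ⧸ M))
      (fun c => Af.image (fun a => c.out * a * c.out⁻¹)) Af.card
      (fun c _ => Finset.card_image_le)
    have h3 : (Finset.univ : Finset (G ⧸ M)).card = M.index := by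
      rw [Finset.card_univ, ← Nat.card_eq_fintype_card]
      rfl
    rw [h3] at h2
    exact h1.trans h2
  have hAfcard : Af.card = Nat.card A := by
    rw [Nat.card_eq_fintype_card, Fintype.card_subtype]
  -- the index of the centre
  have hsubgp : A.subgroupOf M = Subgroup.center M := by
    ext m
    rw [Subgroup.mem_subgroupOf, Subgroup.mem_center_iff]
    constructor
    · rintro ⟨-, h2⟩ n
      exact Subtype.ext (Subgroup.mem_centralizer_iff.1 h2 n n.2)
    · intro h2
      refine ⟨m.2, Subgroup.mem_centralizer_iff.2 fun n hn => ?_⟩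
      exact congrArg Subtype.val (h2 ⟨n, hn⟩)
  have hna' : ¬ ∀ a b : M, a * b = b * a := by
    intro hall
    apply hna x₀ hx₀Z
    intro a ha b hb
    exact congrArg Subtype.val (hall ⟨a, ha⟩ ⟨b, hb⟩)
  have hp' : IsPGroup r (M ⧸ Subgroup.center M) := by
    intro q
    obtain ⟨m, rfl⟩ := QuotientGroup.mk_surjective q
    obtain ⟨k, hk⟩ := hx₀p ⟨π m, ⟨m, m.2, rfl⟩⟩
    refine ⟨k, ?_⟩
    have h1 : π ((m : G) ^ r ^ k) = 1 := by
      rw [map_pow]
      exact congrArg Subtype.val hk
    have h2 : (m : G) ^ r ^ k ∈ Z := (QuotientGroup.eq_one_iff _).1 h1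
    rw [← QuotientGroup.mk_pow, QuotientGroup.eq_one_iff, Subgroup.mem_center_iff]
    intro n
    apply Subtype.ext
    exact Subgroup.mem_center_iff.1 h2 (n : G)
  have hidx : r ^ 2 ≤ A.relIndex M := by
    have := sq_le_index_center hna' hp'
    rw [← hsubgp] at this
    exact this
  have hAM : Nat.card M = Nat.card A * A.relIndex M :=
    Cfsg.Agent.Lib.Coprime.Action.card_eq_card_mul_relIndex inf_le_left
  have hGM : Nat.card M * M.index = Nat.card G := Subgroup.card_mul_index M
  calc T.card * r ^ 2 ≤ (M.index * Af.card) * A.relIndex M := Nat.mul_le_mul hcard1 hidx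
    _ = Nat.card G := by rw [hAfcard, ← hGM, hAM]; ring

end helpers

theorem sum_Icc_le (N : ℕ) (hN : 2 ≤ N) :
    ∑ n ∈ Finset.Icc 2 N, (1 : ℚ) / (n : ℚ) ^ 2 ≤ 3 / 4 - 1 / (N : ℚ) := by
  induction N, hN using Nat.le_induction with
  | base => norm_num
  | succ N hN ih =>
    rw [Finset.sum_Icc_succ_top (by omega)]
    have hpos : (0 : ℚ) < N := by exact_mod_cast (by omega : 0 < N)
    have key : (1 : ℚ) / ((N + 1 : ℕ) : ℚ) ^ 2 + 1 / ((N + 1 : ℕ) : ℚ) ≤ 1 / (N : ℚ) := by
      push_cast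
      rw [div_add_div _ _ (by positivity) (by positivity), div_le_div_iff₀ (by positivity) (by positivity)]
      nlinarith
    linarith

theorem sum_inv_sq_lt (A : Finset ℕ) (hA : ∀ r ∈ A, 2 ≤ r) :
    ∑ r ∈ A, (1 : ℚ) / (r : ℚ) ^ 2 < 3 / 4 := by
  set N := A.sup id + 2 with hN
  have hsub : A ⊆ Finset.Icc 2 N := by
    intro r hr
    rw [Finset.mem_Icc]
    refine ⟨hA r hr, ?_⟩
    have : r ≤ A.sup id := Finset.le_sup (f := id) hr
    omega
  have h1 : ∑ r ∈ A, (1 : ℚ) / (r : ℚ) ^ 2 ≤ ∑ n ∈ Finset.Icc 2 N, (1 : ℚ) / (n : ℚ) ^ 2 :=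
    Finset.sum_le_sum_of_subset_of_nonneg hsub (fun _ _ _ => by positivity)
  have h2 := sum_Icc_le N (by omega)
  have h3 : (0 : ℚ) < 1 / (N : ℚ) := by
    have : (0 : ℚ) < N := by exact_mod_cast (by omega : 0 < N)
    positivity
  linarith

section main

variable {G : Type*} [Group G] [Finite G]

local notation "CC" x => Subgroup.centralizer ({x} : Set _)

theorem caseB2 (h : ∀ g : G, g ∉ Subgroup.center G → IsCoatom (CC g))
    (hna : ∀ x : G, x ∉ Subgroup.center G → ¬ ∀ a ∈ (CC x), ∀ b ∈ (CC x), a * b = b * a) :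
    Group.IsSolvable G := by
  classical
  by_cases hp : ∃ r : ℕ, r.Prime ∧ IsPGroup r (G ⧸ Subgroup.center G)
  · obtain ⟨r, hr, hp⟩ := hp
    haveI : Fact r.Prime := ⟨hr⟩
    haveI := isSolvable_of_isPGroup hp
    exact solvable_of_central_ker (QuotientGroup.mk' (Subgroup.center G))
      (by rw [QuotientGroup.ker_mk'])
  push Not at hp
  haveI := Fintype.ofFinite G
  have hτ : ∀ x : G, x ∉ Subgroup.center G → ∃ r : ℕ, r.Prime ∧
      IsPGroup r ((CC x).map (QuotientGroup.mk' (Subgroup.center G))) := by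
    intro x hx
    obtain ⟨r, hr, hk⟩ := exists_prime_of_nonabelian h hx (hna x hx)
    exact ⟨r, hr, isPGroup_map_of_prime hk⟩
  choose! τ hτ1 hτ2 using hτ
  set S : Finset G := Finset.univ.filter (fun x => x ∉ Subgroup.center G) with hS
  set B : Finset ℕ := S.image τ with hB
  set T : ℕ → Finset G := fun r => S.filter
    (fun x => IsPGroup r ((CC x).map (QuotientGroup.mk' (Subgroup.center G)))) with hT
  have hmemS : ∀ x, x ∈ S ↔ x ∉ Subgroup.center G := fun x => by simp [hS]
  have hcov : S ⊆ B.biUnion T := by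
    intro x hx
    rw [Finset.mem_biUnion]
    refine ⟨τ x, Finset.mem_image_of_mem _ hx, ?_⟩
    rw [hT, Finset.mem_filter]
    exact ⟨hx, hτ2 x ((hmemS x).1 hx)⟩
  have hcard : S.card ≤ ∑ r ∈ B, (T r).card :=
    (Finset.card_le_card hcov).trans Finset.card_biUnion_le
  have hBp : ∀ r ∈ B, r.Prime := by
    intro r hr
    obtain ⟨x, hx, rfl⟩ := Finset.mem_image.1 hr
    exact hτ1 x ((hmemS x).1 hx)
  have hTc : ∀ r ∈ B, (T r).card * r ^ 2 ≤ Nat.card G := by
    intro r hr
    haveI : Fact r.Prime := ⟨hBp r hr⟩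
    apply count_T h (hp r (hBp r hr)) hna
    intro x hx
    rw [hT, Finset.mem_filter] at hx
    exact ⟨(hmemS x).1 hx.1, hx.2⟩
  have hQ : (S.card : ℚ) ≤ ∑ r ∈ B, (Nat.card G : ℚ) * (1 / (r : ℚ) ^ 2) := by
    have h1 : (S.card : ℚ) ≤ ∑ r ∈ B, ((T r).card : ℚ) := by exact_mod_cast hcard
    refine h1.trans (Finset.sum_le_sum fun r hr => ?_)
    have hrpos : (0 : ℚ) < (r : ℚ) ^ 2 := by
      have : (0 : ℚ) < r := by exact_mod_cast (hBp r hr).pos
      positivity
    rw [mul_one_div, le_div_iff₀ hrpos]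
    exact_mod_cast hTc r hr
  rw [← Finset.mul_sum] at hQ
  have hsum := sum_inv_sq_lt B (fun r hr => (hBp r hr).two_le)
  have hGpos : (0 : ℚ) < Nat.card G := by exact_mod_cast Nat.card_pos
  have hS4 : (S.card : ℚ) < (Nat.card G : ℚ) * (3 / 4) :=
    lt_of_le_of_lt hQ (mul_lt_mul_of_pos_left hsum hGpos)
  have hSZ : S.card + Nat.card (Subgroup.center G) = Nat.card G := by
    have h1 := Finset.card_filter_add_card_filter_not (s := (Finset.univ : Finset G))
      (fun u => u ∈ Subgroup.center G)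
    rw [Finset.card_univ, ← Nat.card_eq_fintype_card] at h1
    rw [← h1, add_comm]
    congr 1
    rw [Nat.card_eq_fintype_card, Fintype.card_subtype]
  have hZ4 : Nat.card G < 4 * Nat.card (Subgroup.center G) := by
    have h1 : (S.card : ℚ) + (Nat.card (Subgroup.center G) : ℚ) = Nat.card G := by exact_mod_cast hSZ
    have h2 : (Nat.card G : ℚ) < 4 * (Nat.card (Subgroup.center G) : ℚ) := by linarith
    exact_mod_cast h2
  have hidx : (Subgroup.center G).index < 4 := by
    have h1 := Subgroup.card_mul_index (Subgroup.center G)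
    rw [← h1, mul_comm 4] at hZ4
    exact Nat.lt_of_mul_lt_mul_left hZ4
  have hidx0 : (Subgroup.center G).index ≠ 0 := Subgroup.index_ne_zero_of_finite
  have hcyc : IsCyclic (G ⧸ Subgroup.center G) := by
    have hc : Nat.card (G ⧸ Subgroup.center G) = (Subgroup.center G).index := rfl
    have : (Subgroup.center G).index = 1 ∨ (Subgroup.center G).index = 2 ∨
        (Subgroup.center G).index = 3 := by omega
    rcases this with h1 | h1 | h1
    · rw [h1] at hc
      haveI := (Nat.card_eq_one_iff_unique.1 hc).1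
      exact isCyclic_of_subsingleton
    · rw [h1] at hc
      haveI : Fact (Nat.Prime 2) := ⟨Nat.prime_two⟩
      exact isCyclic_of_prime_card hc
    · rw [h1] at hc
      haveI : Fact (Nat.Prime 3) := ⟨Nat.prime_three⟩
      exact isCyclic_of_prime_card hc
  exact Group.isSolvable_of_comm
    (commutative_of_cyclic_center_quotient (QuotientGroup.mk' (Subgroup.center G))
      (by rw [QuotientGroup.ker_mk']))

theorem main (h : ∀ g : G, g ∉ Subgroup.center G → IsCoatom (CC g)) : Group.IsSolvable G := by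
  by_cases hA : ∃ x : G, x ∉ Subgroup.center G ∧ (CC x).Normal
  · obtain ⟨x, hx, hn⟩ := hA
    haveI := hn
    haveI := isSolvable_CC h hx
    exact solvable_of_coatom_normal (h x hx)
  push Not at hA
  by_cases hB : ∃ x : G, x ∉ Subgroup.center G ∧ ∀ a ∈ (CC x), ∀ b ∈ (CC x), a * b = b * a
  · obtain ⟨x, hx, hab⟩ := hB
    exact caseB1 h hx hab (hA x hx)
  · push Not at hB
    exact caseB2 h (fun x hx hall => by
      obtain ⟨a, ha, b, hb, hne⟩ := hB x hx
      exact hne (hall a ha b hb))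

end main

/-- Let G be a finite group in which the centralizer of every non-central element is a maximal subgroup of G. Then G is solvable. -/
theorem result {G : Type*} [Group G] [Finite G]
    (h : ∀ g : G, g ∉ Subgroup.center G → IsCoatom (Subgroup.centralizer ({g} : Set G))) :
    Group.IsSolvable G := by
  exact main h

end Cfsg.Agent.S4262
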