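import Cfsg.Statements.S4263
import Cfsg.Agent.Lib.Core.Basic
import Cfsg.Agent.Lib.FG85.Index
import Cfsg.Agent.Lib.Transfer.Basic

set_option autoImplicit false
open Cfsg

namespace Cfsg.Agent.S4263

open Cfsg.Agent.Lib.Core.Basic

theorem pow_index_mem_of_normal {G : Type*} [Group G] [Finite G] (H : Subgroup G) [H.Normal] (x : G) :
    x ^ H.index ∈ H := by
  have h : ((x : G ⧸ H)) ^ H.index = 1 := by
    have := pow_card_eq_one' (x := (x : G ⧸ H))
    rwa [← Subgroup.index_eq_card] at this
  rw [← QuotientGroup.mk_pow, QuotientGroup.eq_one_iff] at h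
  exact h

/-- In a subnormal subgroup: `x ^ [G : H] ∈ H`. -/
theorem pow_index_mem_of_isSubnormal {G : Type*} [Group G] [Finite G] (H : Subgroup G)
    (hH : H.IsSubnormal) (x : G) : x ^ H.index ∈ H := by
  induction hH with
  | top => simp
  | step H K hHK hK hN ih =>
    have h1 : x ^ K.index ∈ K := ih
    have h2 := pow_index_mem_of_normal (H.subgroupOf K) (⟨x ^ K.index, h1⟩ : K)
    have h3 : (H.subgroupOf K).index = H.relIndex K := rfl
    rw [h3] at h2
    have h4 : H.index = H.relIndex K * K.index := (Subgroup.relIndex_mul_index hHK).symm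
    rw [h4, mul_comm, pow_mul]
    have h5 := Subgroup.mem_subgroupOf.mp h2
    simpa using h5

theorem isSubnormal_of_nilpotent {G : Type*} [Group G] [Finite G] (hG : Group.IsNilpotent G)
    (H : Subgroup G) : H.IsSubnormal := by
  classical
  induction hn : H.index using Nat.strong_induction_on generalizing H with
  | _ n ih =>
    by_cases hT : H = ⊤
    · rw [hT]; exact Subgroup.IsSubnormal.top
    · have hlt : H < Subgroup.normalizer (H : Set G) := by
        have := Group.normalizerCondition_of_isNilpotent (G := G) H (lt_top_iff_ne_top.mpr hT)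
        exact this
      have hle : H ≤ Subgroup.normalizer (H : Set G) := hlt.le
      refine Subgroup.IsSubnormal.step H _ hle ?_ (Subgroup.normal_subgroupOf_of_le_normalizer le_rfl)
      refine ih _ ?_ _ rfl
      rw [← hn]
      have h1 : H.index = H.relIndex (Subgroup.normalizer (H : Set G)) *
          (Subgroup.normalizer (H : Set G)).index := (Subgroup.relIndex_mul_index hle).symm
      have h2 : 1 < H.relIndex (Subgroup.normalizer (H : Set G)) := by
        have hne : H.relIndex (Subgroup.normalizer (H : Set G)) ≠ 1 := by
          intro h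
          rw [Subgroup.relIndex_eq_one] at h
          exact absurd (le_antisymm hle h) hlt.ne
        have hpos : H.relIndex (Subgroup.normalizer (H : Set G)) ≠ 0 := by
          intro h0
          have := Subgroup.relIndex_mul_index hle
          rw [h0, zero_mul] at this
          exact Subgroup.index_ne_zero_of_finite this.symm
        omega
      have h3 : 0 < (Subgroup.normalizer (H : Set G)).index :=
        Nat.pos_of_ne_zero Subgroup.index_ne_zero_of_finite
      rw [h1]
      nlinarith

theorem forward {G : Type*} [Group G] [Finite G] (x : G) (hx : x ∈ Cfsg.fittingSubgroup G)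
    (H : Subgroup G) : x ^ H.index ∈ H := by
  -- `F` nilpotent
  set F := Cfsg.fittingSubgroup G with hF
  have hFn : Group.IsNilpotent F := fittingSubgroup_isNilpotent
  -- in F: x ^ [F : F ∩ H] ∈ F ∩ H
  have h1 : (H.subgroupOf F).IsSubnormal := isSubnormal_of_nilpotent hFn _
  have h2 := pow_index_mem_of_isSubnormal _ h1 (⟨x, hx⟩ : F)
  have h3 : x ^ (H.subgroupOf F).index ∈ H := by
    have := Subgroup.mem_subgroupOf.mp h2
    simpa using this
  -- index divides
  have h4 : (H.subgroupOf F).index ∣ H.index := by
    have : F.Normal := fittingSubgroup_normal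
    exact Cfsg.Agent.Lib.FG85.Index.relIndex_normal_dvd_index H F
  obtain ⟨k, hk⟩ := h4
  rw [hk, pow_mul]
  exact pow_mem h3 k

theorem backward {G : Type*} [Group G] [Finite G] (x : G)
    (h : ∀ H : Subgroup G, x ^ H.index ∈ H) : x ∈ Cfsg.fittingSubgroup G := by
  classical
  -- the set of elements in `F(G)` contains every prime-power part of `x`
  -- It suffices: every power `y` of `x` of prime power order lies in `F(G)`
  have key : ∀ (p : ℕ) [Fact p.Prime] (y : G) (hy : y ∈ Subgroup.zpowers x)
      (hp : ∃ k, orderOf y = p ^ k), y ∈ Cfsg.fittingSubgroup G := by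
    intro p _ y hy ⟨k, hk⟩
    have hmem : y ∈ Cfsg.pCore p G := by
      rw [pCore_eq_iInf_sylow]
      rw [Subgroup.mem_iInf]
      intro P
      -- `x ^ [G:P] ∈ P`, so `y ^ [G:P] ∈ P`, and `y` is a power of `y ^ [G:P]`
      have hx := h (P : Subgroup G)
      obtain ⟨m, rfl⟩ := Subgroup.mem_zpowers_iff.mp hy
      have hy2 : (x ^ m) ^ (P : Subgroup G).index ∈ (P : Subgroup G) := by
        rw [← zpow_natCast, ← zpow_mul, mul_comm, zpow_mul, zpow_natCast]
        exact zpow_mem hx m
      have hcop : Nat.Coprime (P : Subgroup G).index (orderOf (x ^ m)) := by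
        rw [hk]
        exact Nat.Coprime.pow_right k ((Nat.Prime.coprime_iff_not_dvd (Fact.out)).mpr P.not_dvd_index).symm
      obtain ⟨t, ht⟩ := exists_pow_eq_self_of_coprime hcop
      rw [← ht]
      exact pow_mem hy2 t
    exact pCore_le_fittingSubgroup p hmem
  -- decompose
  have main : ∀ (n : ℕ) (y : G), orderOf y = n → y ∈ Subgroup.zpowers x →
      y ∈ Cfsg.fittingSubgroup G := by
    intro n
    induction n using Nat.strong_induction_on with
    | _ n ih =>
      intro y hn hy
      by_cases h1 : n = 1
      · have : y = 1 := by rw [← orderOf_eq_one_iff, hn, h1]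
        rw [this]; exact one_mem _
      · obtain ⟨p, hp, hpn⟩ := Nat.exists_prime_and_dvd h1
        haveI : Fact p.Prime := ⟨hp⟩
        obtain ⟨a, b, hab, -, ha, hb, ⟨k, hk⟩, hcop⟩ :=
          Cfsg.Agent.Lib.Transfer.Basic.exists_pPart_decomp (p := p) y
        have hzy : Subgroup.zpowers y ≤ Subgroup.zpowers x := by
          rw [Subgroup.zpowers_le]; exact hy
        have hao : ∃ j, orderOf a = p ^ j := by
          obtain ⟨j, -, hj⟩ := (Nat.dvd_prime_pow hp).mp (orderOf_dvd_of_pow_eq_one hk)
          exact ⟨j, hj⟩
        have haF := key p a (hzy ha) hao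
        have hbo : orderOf b < n := by
          have h2 : orderOf b ∣ n := by
            rw [← hn]; exact orderOf_dvd_of_mem_zpowers hb
          have hnpos : 0 < n := by rw [← hn]; exact orderOf_pos y
          have h3 : orderOf b ≠ n := by
            intro h3
            rw [← h3] at hpn
            exact hp.one_lt.ne' (Nat.Coprime.eq_one_of_dvd hcop.symm hpn)
          exact lt_of_le_of_ne (Nat.le_of_dvd hnpos h2) h3
        have hbF := ih _ hbo b rfl (hzy hb)
        rw [hab]
        exact mul_mem haF hbF
  exact main _ x rfl (Subgroup.mem_zpowers x)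

/-- Let G be a finite group. An element x lies in the Fitting subgroup F(G) if and only if, for every subgroup H of G, the power x^[G : H] lies in H. -/
theorem result {G : Type*} [Group G] [Finite G] (x : G) :
    x ∈ Cfsg.fittingSubgroup G ↔ ∀ H : Subgroup G, x ^ H.index ∈ H := by
  exact ⟨fun hx H => forward x hx H, backward x⟩


end Cfsg.Agent.S4263
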