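import Cfsg.Statements.S4269
import Mathlib
import Cfsg.Prelude.Def_HallClasses
-- import your own Cfsg.Agent.* helpers here

set_option autoImplicit false
open Cfsg

namespace Cfsg.Agent.S4269

open scoped commutatorElement
open Subgroup

theorem map_conj_mul {G : Type*} [Group G] (H : Subgroup G) (x y : G) :
    H.map (MulAut.conj (x * y)).toMonoidHom =
      (H.map (MulAut.conj y).toMonoidHom).map (MulAut.conj x).toMonoidHom := by
  rw [Subgroup.map_map]
  congr 1
  ext z
  simp [mul_assoc]

theorem map_conj_of_mem {G : Type*} [Group G] (H : Subgroup G) (h : G) (hh : h ∈ H) :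
    H.map (MulAut.conj h).toMonoidHom = H :=
  Subgroup.mem_normalizer_iff_map_conj_eq.1 (Subgroup.le_normalizer hh)

theorem mem_norm_iff {G : Type*} [Group G] (H : Subgroup G) (g : G) :
    g ∈ normalizer (H : Set G) ↔ H.map (MulAut.conj g).toMonoidHom = H :=
  Subgroup.mem_normalizer_iff_map_conj_eq



/-- Let G be a finite group, V an abelian normal subgroup and H a subgroup with HV = G. Then H is pronormal in G (H and gHg⁻¹ are conjugate inside the subgroup they generate, for every g) if and only if every H-invariant subgroup U of V satisfies U = N_U(H)·[H, U], that is, U is the join of U ∩ N_G(H) and the commutator subgroup [H, U]. -/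
theorem result {G : Type*} [Group G] [Finite G]
    (V : Subgroup G) [V.Normal] (hV : IsMulCommutative ↥V) (H : Subgroup G) (hHV : H ⊔ V = ⊤) :
    Cfsg.IsPronormal H ↔
      ∀ U : Subgroup G, U ≤ V → (∀ h ∈ H, U.map (MulAut.conj h).toMonoidHom = U) →
        U = (U ⊓ Subgroup.normalizer (H : Set G)) ⊔ ⁅H, U⁆ := by
  have hVc : ∀ a ∈ V, ∀ b ∈ V, a * b = b * a := by
    intro a ha b hb
    have := hV.is_comm.comm ⟨a, ha⟩ ⟨b, hb⟩
    exact congrArg Subtype.val this
  constructor
  · intro hP U hUV hUH
    have hKU : ⁅H, U⁆ ≤ U := by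
      rw [Subgroup.commutator_le]
      intro h hh u hu
      rw [commutatorElement_def]
      refine mul_mem ?_ (inv_mem hu)
      rw [← hUH h hh]
      exact ⟨u, hu, rfl⟩
    apply le_antisymm
    · intro u hu
      obtain ⟨x, hx, hxe⟩ := hP u
      set K : Subgroup G := ⁅H, U⁆ with hK
      have hHK : H ≤ normalizer (K : Set G) := by
        rw [le_normalizer_iff]
        intro h hh k hk
        have e : K.map (MulAut.conj h).toMonoidHom = K := by
          rw [hK, Subgroup.map_commutator, map_conj_of_mem H h hh, hUH h hh]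
        rw [← e]
        exact ⟨k, hk, rfl⟩
      have hsup : H ⊔ H.map (MulAut.conj u).toMonoidHom ≤ H ⊔ K := by
        apply sup_le le_sup_left
        rw [Subgroup.map_le_iff_le_comap]
        intro h hh
        show u * h * u⁻¹ ∈ H ⊔ K
        have e : u * h * u⁻¹ = (⁅h, u⁆)⁻¹ * h := by
          rw [commutatorElement_def]; group
        rw [e]
        refine mul_mem (inv_mem ?_) (Subgroup.mem_sup_left hh)
        exact Subgroup.mem_sup_right (Subgroup.commutator_mem_commutator hh hu)
      have hx1 : x⁻¹ ∈ ((H ⊔ K : Subgroup G) : Set G) := inv_mem (hsup hx)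
      rw [coe_mul_of_left_le_normalizer_right H K hHK] at hx1
      obtain ⟨h', hh', k', hk', hxk⟩ := Set.mem_mul.1 hx1
      have hxe2 : x = k'⁻¹ * h'⁻¹ := by
        have : x = (h' * k')⁻¹ := by rw [hxk, inv_inv]
        rw [this, _root_.mul_inv_rev]
      have hxe3 : H.map (MulAut.conj x).toMonoidHom = H.map (MulAut.conj k'⁻¹).toMonoidHom := by
        rw [hxe2, map_conj_mul, map_conj_of_mem H _ (inv_mem hh')]
      have hnN : k' * u ∈ normalizer (H : Set G) := by
        rw [mem_norm_iff, map_conj_mul, hxe, hxe3, ← map_conj_mul, mul_inv_cancel]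
        ext z
        simp
      have hnU : k' * u ∈ U := mul_mem (hKU hk') hu
      have e : u = k'⁻¹ * (k' * u) := by group
      rw [e]
      exact mul_mem (Subgroup.mem_sup_right (inv_mem hk')) (Subgroup.mem_sup_left ⟨hnU, hnN⟩)
    · exact sup_le inf_le_left hKU
  · intro hU g
    have hg : g⁻¹ ∈ ((H ⊔ V : Subgroup G) : Set G) := by rw [hHV]; trivial
    rw [Subgroup.mul_normal] at hg
    obtain ⟨h, hh, v, hv, hgv⟩ := Set.mem_mul.1 hg
    have hgw : g = v⁻¹ * h⁻¹ := by
      have : g = (h * v)⁻¹ := by rw [hgv, inv_inv]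
      rw [this, _root_.mul_inv_rev]
    set w := v⁻¹ with hw
    have hwV : w ∈ V := inv_mem hv
    have hgH : H.map (MulAut.conj g).toMonoidHom = H.map (MulAut.conj w).toMonoidHom := by
      rw [hgw, map_conj_mul, map_conj_of_mem H _ (inv_mem hh)]
    set U : Subgroup G := Subgroup.closure {y | ∃ h ∈ H, y = h * w * h⁻¹} with hUdef
    have hwU : w ∈ U := Subgroup.subset_closure ⟨1, one_mem _, by simp⟩
    have hUV : U ≤ V := by
      rw [hUdef, Subgroup.closure_le]
      rintro y ⟨h1, _, rfl⟩
      exact (inferInstance : V.Normal).conj_mem w hwV h1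
    have hUH : ∀ h ∈ H, U.map (MulAut.conj h).toMonoidHom = U := by
      intro h hh
      rw [hUdef, MonoidHom.map_closure]
      congr 1
      ext y
      constructor
      · rintro ⟨z, ⟨h1, hh1, rfl⟩, rfl⟩
        exact ⟨h * h1, mul_mem hh hh1, by simp [mul_assoc]⟩
      · rintro ⟨h1, hh1, rfl⟩
        exact ⟨h⁻¹ * h1 * w * (h⁻¹ * h1)⁻¹, ⟨h⁻¹ * h1, mul_mem (inv_mem hh) hh1, by group⟩, by
          simp [mul_assoc]⟩
    have hdec := hU U hUV hUH
    set K : Subgroup G := ⁅H, U⁆ with hK
    have hKU : K ≤ U := by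
      rw [hK, Subgroup.commutator_le]
      intro h hh u hu
      rw [commutatorElement_def]
      refine mul_mem ?_ (inv_mem hu)
      rw [← hUH h hh]
      exact ⟨u, hu, rfl⟩
    set J : Subgroup G := H ⊔ H.map (MulAut.conj w).toMonoidHom with hJ
    have hHJ : H ≤ J := le_sup_left
    have hwJ : ∀ h ∈ H, w * h * w⁻¹ ∈ J := fun h hh =>
      Subgroup.mem_sup_right ⟨h, hh, rfl⟩
    have hKJ : K ≤ J := by
      rw [hK, Subgroup.commutator_le]
      intro h hh u hu
      have hu' : u ∈ U := hu
      induction hu using Subgroup.closure_induction with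
      | mem y hy =>
        obtain ⟨h1, hh1, rfl⟩ := hy
        set h2 := h1⁻¹ * h * h1 with hh2
        have hh2H : h2 ∈ H := mul_mem (mul_mem (inv_mem hh1) hh) hh1
        have e : ⁅h, h1 * w * h1⁻¹⁆ = h1 * (h2 * (w * h2⁻¹ * w⁻¹)) * h1⁻¹ := by
          rw [commutatorElement_def, hh2]; group
        rw [e]
        exact mul_mem (mul_mem (hHJ hh1) (mul_mem (hHJ hh2H) (hwJ _ (inv_mem hh2H))))
          (inv_mem (hHJ hh1))
      | one => simp
      | mul a b ha hb iha ihb =>
        have hca : ⁅h, b⁆ * a⁻¹ = a⁻¹ * ⁅h, b⁆ := by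
          apply hVc
          · rw [commutatorElement_def]
            exact mul_mem ((inferInstance : V.Normal).conj_mem b (hUV hb) h) (inv_mem (hUV hb))
          · exact inv_mem (hUV ha)
        have e : ⁅h, a * b⁆ = ⁅h, a⁆ * ⁅h, b⁆ := by
          have e1 : ⁅h, a * b⁆ = (h * a * h⁻¹) * (⁅h, b⁆ * a⁻¹) := by
            rw [commutatorElement_def, commutatorElement_def]; group
          have e2 : ⁅h, a⁆ * ⁅h, b⁆ = (h * a * h⁻¹) * (a⁻¹ * ⁅h, b⁆) := by
            rw [commutatorElement_def]; group
          rw [e1, e2, hca]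
        rw [e]
        exact mul_mem (iha ha) (ihb hb)
      | inv a ha iha =>
        have hca : (h * a * h⁻¹)⁻¹ * a = a * (h * a * h⁻¹)⁻¹ := by
          apply hVc
          · exact inv_mem ((inferInstance : V.Normal).conj_mem a (hUV ha) h)
          · exact hUV ha
        have e : ⁅h, a⁻¹⁆ = (⁅h, a⁆)⁻¹ := by
          have e1 : ⁅h, a⁻¹⁆ = (h * a * h⁻¹)⁻¹ * a := by
            rw [commutatorElement_def]; group
          have e2 : (⁅h, a⁆)⁻¹ = a * (h * a * h⁻¹)⁻¹ := by
            rw [commutatorElement_def]; group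
          rw [e1, e2, hca]
        rw [e]
        exact inv_mem (iha ha)
    have hAK : U ⊓ normalizer (H : Set G) ≤ normalizer (K : Set G) := by
      rw [le_normalizer_iff]
      rintro n ⟨hnU, -⟩ k hk
      have : n * k * n⁻¹ = k := by
        rw [hVc n (hUV hnU) k (hUV (hKU hk))]; group
      rw [this]; exact hk
    have hwd : w ∈ ((K ⊔ (U ⊓ normalizer (H : Set G)) : Subgroup G) : Set G) := by
      rw [sup_comm, ← hdec]
      exact hwU
    rw [coe_mul_of_right_le_normalizer_left K _ hAK] at hwd
    obtain ⟨k, hk, n, hn, hkn⟩ := Set.mem_mul.1 hwd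
    refine ⟨k, ?_, ?_⟩
    · rw [hgH]; exact hKJ hk
    · rw [hgH, ← hkn, map_conj_mul, (mem_norm_iff H n).1 hn.2]

end Cfsg.Agent.S4269
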