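import Cfsg.Statements.S4270
import Mathlib
import Cfsg.Prelude.Def_HallClasses
import Cfsg.Agent.Lib.FGS.SylowMax
-- import your own Cfsg.Agent.* helpers here

set_option autoImplicit false
open Cfsg

namespace Cfsg.Agent.S4270


section helpers
variable {G : Type*} [Group G] {Q : Type*} [Group Q]

/-- conjugate of a subgroup -/
abbrev cj (g : G) (K : Subgroup G) : Subgroup G := K.map (MulAut.conj g).toMonoidHom

lemma mem_cj {g x : G} {K : Subgroup G} : x ∈ cj g K ↔ g⁻¹ * x * g ∈ K := by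
  constructor
  · rintro ⟨k, hk, rfl⟩
    simpa [mul_assoc] using hk
  · intro h
    exact ⟨_, h, by simp [mul_assoc]⟩

lemma cj_cj (g h : G) (K : Subgroup G) : cj g (cj h K) = cj (g * h) K := by
  ext x
  simp only [mem_cj, mul_inv_rev]
  simp [mul_assoc]

lemma cj_one' (K : Subgroup G) : cj 1 K = K := by
  ext x; simp [mem_cj]

lemma cj_of_mem {g : G} {K : Subgroup G} (h : g ∈ K) : cj g K = K := by
  ext x
  simp only [mem_cj]
  constructor
  · intro hx
    have := K.mul_mem (K.mul_mem h hx) (K.inv_mem h)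
    simpa [mul_assoc] using this
  · intro hx
    exact K.mul_mem (K.mul_mem (K.inv_mem h) hx) h

lemma cj_mono {g : G} {K L : Subgroup G} (h : K ≤ L) : cj g K ≤ cj g L :=
  Subgroup.map_mono h

lemma cj_sup (g : G) (K L : Subgroup G) : cj g (K ⊔ L) = cj g K ⊔ cj g L :=
  Subgroup.map_sup _ _ _

lemma cj_map (f : G →* Q) (g : G) (K : Subgroup G) :
    (cj g K).map f = cj (f g) (K.map f) := by
  ext x
  simp only [Subgroup.mem_map, MulEquiv.coe_toMonoidHom, MulAut.conj_apply, exists_exists_and_eq_and]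
  constructor
  · rintro ⟨k, hk, rfl⟩
    exact ⟨k, hk, by simp⟩
  · rintro ⟨k, hk, rfl⟩
    exact ⟨k, hk, by simp⟩

lemma cj_inj {g : G} {K L : Subgroup G} (h : cj g K = cj g L) : K = L :=
  Subgroup.map_injective (MulAut.conj g).injective h

lemma mem_normalizer_iff_cj {g : G} {K : Subgroup G} [Finite G] :
    g ∈ Subgroup.normalizer (K : Set G) ↔ cj g K = K := by
  rw [Subgroup.mem_normalizer_iff]
  constructor
  · intro h
    ext x
    rw [mem_cj]
    have := h (g⁻¹ * x * g)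
    rw [this]
    simp [mul_assoc]
  · intro h x
    conv_rhs => rw [← h]
    rw [mem_cj]
    simp [mul_assoc]

lemma card_cj (g : G) (K : Subgroup G) : Nat.card (cj g K) = Nat.card K :=
  Subgroup.card_map_of_injective (MulAut.conj g).injective

/-- the pronormality predicate at a single element -/
def RR (K : Subgroup G) (g : G) : Prop := ∃ x ∈ K ⊔ cj g K, cj g K = cj x K

lemma isPronormal_iff_RR {K : Subgroup G} : Cfsg.IsPronormal K ↔ ∀ g, RR K g := Iff.rfl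

lemma RR_of_cj_eq {K : Subgroup G} {g h : G} (e : cj g K = cj h K) (H : RR K g) : RR K h := by
  obtain ⟨x, hx, hxe⟩ := H
  refine ⟨x, ?_, ?_⟩
  · rw [← e]; exact hx
  · rw [← e]; exact hxe

lemma RR_red {K : Subgroup G} {g u : G} (hu : u ∈ K ⊔ cj g K) (H : RR K (u⁻¹ * g)) : RR K g := by
  obtain ⟨x, hx, hxe⟩ := H
  have hle : cj (u⁻¹ * g) K ≤ K ⊔ cj g K := by
    rw [← cj_cj]
    intro y hy
    rw [mem_cj] at hy
    have : y = u⁻¹ * (u⁻¹⁻¹ * y * u⁻¹) * u := by group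
    have hu' : u⁻¹ ∈ K ⊔ cj g K := Subgroup.inv_mem _ hu
    rw [this]
    exact Subgroup.mul_mem _ (Subgroup.mul_mem _ hu' (Subgroup.mem_sup_right hy)) hu
  have hxL : x ∈ K ⊔ cj g K := sup_le le_sup_left hle hx
  refine ⟨u * x, Subgroup.mul_mem _ hu hxL, ?_⟩
  rw [← cj_cj u x, ← hxe, cj_cj]
  simp

lemma RR_self {K : Subgroup G} {g : G} (h : cj g K = K) : RR K g :=
  ⟨1, Subgroup.one_mem _, by rw [h, cj_one']⟩

lemma pron_map (f : G →* Q) (hf : Function.Surjective f) {K : Subgroup G}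
    (hK : Cfsg.IsPronormal K) : Cfsg.IsPronormal (K.map f) := by
  intro g'
  obtain ⟨g, rfl⟩ := hf g'
  obtain ⟨x, hx, hxe⟩ := hK g
  refine ⟨f x, ?_, ?_⟩
  · change f x ∈ (K.map f) ⊔ cj (f g) (K.map f)
    rw [← cj_map, ← Subgroup.map_sup]
    exact Subgroup.mem_map_of_mem _ hx
  · change cj (f g) (K.map f) = cj (f x) (K.map f)
    rw [← cj_map, ← cj_map, show cj g K = cj x K from hxe]

lemma pron_sub (N : Subgroup G) {K : Subgroup N}
    (hK : Cfsg.IsPronormal (K.map N.subtype)) : Cfsg.IsPronormal K := by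
  intro g
  obtain ⟨x, hx, hxe⟩ := hK g.1
  change x ∈ (K.map N.subtype) ⊔ cj g.1 (K.map N.subtype) at hx
  change cj g.1 (K.map N.subtype) = cj x (K.map N.subtype) at hxe
  have e1 : cj g.1 (K.map N.subtype) = (cj g K).map N.subtype := (cj_map N.subtype g K).symm
  rw [e1, ← Subgroup.map_sup] at hx
  obtain ⟨y, hy, rfl⟩ := hx
  refine ⟨y, hy, ?_⟩
  apply Subgroup.map_injective N.subtype_injective
  change (cj g K).map N.subtype = (cj y K).map N.subtype
  rw [cj_map N.subtype y K, ← e1]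
  exact hxe

lemma pron_cj {K : Subgroup G} (c : G) (hK : Cfsg.IsPronormal (cj c K)) : Cfsg.IsPronormal K := by
  intro g
  obtain ⟨x', hx', hxe⟩ := hK (c * g * c⁻¹)
  change x' ∈ cj c K ⊔ cj (c * g * c⁻¹) (cj c K) at hx'
  change cj (c * g * c⁻¹) (cj c K) = cj x' (cj c K) at hxe
  have e : cj (c * g * c⁻¹) (cj c K) = cj c (cj g K) := by
    rw [cj_cj, cj_cj]; simp
  rw [e, ← cj_sup, mem_cj] at hx'
  refine ⟨_, hx', ?_⟩
  apply cj_inj (g := c)
  rw [← e, hxe, cj_cj, cj_cj]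
  congr 1
  group

lemma norm_map_eq (f : G →* Q) (hf : Function.Surjective f) {K : Subgroup G} [Finite G] [Finite Q]
    (hK : Cfsg.IsPronormal K) :
    (Subgroup.normalizer (K : Set G)).map f = Subgroup.normalizer ((K.map f : Subgroup Q) : Set Q) := by
  apply le_antisymm
  · rintro _ ⟨n, hn, rfl⟩
    have hn' : n ∈ Subgroup.normalizer (K : Set G) := hn
    rw [mem_normalizer_iff_cj] at hn' ⊢
    rw [← cj_map, hn']
  · intro g' hg'
    obtain ⟨g, rfl⟩ := hf g'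
    rw [mem_normalizer_iff_cj, ← cj_map] at hg'
    obtain ⟨x, hx, hxe⟩ := hK g
    change cj g K = cj x K at hxe
    have hxb : f x ∈ K.map f := by
      have : f x ∈ (K ⊔ cj g K).map f := Subgroup.mem_map_of_mem _ hx
      rw [Subgroup.map_sup, hg', sup_idem] at this
      exact this
    obtain ⟨k, hk, hkx⟩ := hxb
    have hn : x⁻¹ * g ∈ Subgroup.normalizer (K : Set G) := by
      rw [mem_normalizer_iff_cj, ← cj_cj, hxe, cj_cj]
      simp [cj_one']
    refine ⟨k * (x⁻¹ * g), ?_, ?_⟩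
    · apply Subgroup.mul_mem _ _ hn
      exact Subgroup.le_normalizer hk
    · simp [hkx]

lemma cj_eq_of_le [Finite G] {g : G} {K : Subgroup G} (h : cj g K ≤ K) : cj g K = K :=
  Subgroup.eq_of_le_of_card_ge h (le_of_eq (card_cj g K).symm)

lemma exists_conj_of_sylow {G : Type*} [Group G] [Finite G] {p : ℕ} [Fact p.Prime]
    {J T T' : Subgroup G} (hT : T ≤ J) (hT' : T' ≤ J)
    (hpT : IsPGroup p T) (hcard : Nat.card T' = Nat.card T) (hi : ¬ p ∣ T.relIndex J) :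
    ∃ d ∈ J, cj d T' = T := by
  have hpT' : IsPGroup p T' := by
    obtain ⟨n, hn⟩ := IsPGroup.iff_card.1 hpT
    exact IsPGroup.iff_card.2 ⟨n, hcard.trans hn⟩
  have hS : IsPGroup p (T.subgroupOf J) := hpT.comap_subtype
  have hS' : IsPGroup p (T'.subgroupOf J) := hpT'.comap_subtype
  have cardT : Nat.card (T.subgroupOf J) = Nat.card T :=
    Nat.card_congr (Subgroup.subgroupOfEquivOfLe hT).toEquiv
  have cardT' : Nat.card (T'.subgroupOf J) = Nat.card T' :=
    Nat.card_congr (Subgroup.subgroupOfEquivOfLe hT').toEquiv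
  have hi2 : (T'.subgroupOf J).index = (T.subgroupOf J).index := by
    have h1 := Subgroup.index_mul_card (T.subgroupOf J)
    have h2 := Subgroup.index_mul_card (T'.subgroupOf J)
    rw [cardT] at h1
    rw [cardT', hcard] at h2
    exact Nat.eq_of_mul_eq_mul_right Nat.card_pos (h2.trans h1.symm)
  have hi' : ¬ p ∣ (T'.subgroupOf J).index := by
    rw [hi2]; exact hi
  let S₁ : Sylow p J := hS.toSylow hi
  let S₂ : Sylow p J := hS'.toSylow hi'
  obtain ⟨d, hd⟩ := MulAction.exists_smul_eq J S₂ S₁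
  have key : ∀ x : J, x ∈ T.subgroupOf J ↔ d⁻¹ * x * d ∈ T'.subgroupOf J := by
    intro x
    have e1 : x ∈ T.subgroupOf J ↔ x ∈ (S₁ : Subgroup J) := Iff.rfl
    rw [e1, ← hd, Sylow.coe_subgroup_smul, Subgroup.mem_pointwise_smul_iff_inv_smul_mem]
    change _ ↔ d⁻¹ * x * d ∈ (S₂ : Subgroup J)
    have : (MulAut.conj d)⁻¹ • x = d⁻¹ * x * d := by
      simp [MulAut.smul_def, MulAut.conj_symm_apply]
    rw [this]
  refine ⟨d, d.2, ?_⟩
  ext x
  rw [mem_cj]
  constructor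
  · intro hx
    have hxJ : x ∈ J := by
      have h1 := hT' hx
      have := J.mul_mem (J.mul_mem d.2 h1) (J.inv_mem d.2)
      simpa [mul_assoc] using this
    have := (key ⟨x, hxJ⟩).2 (by simpa [Subgroup.mem_subgroupOf] using hx)
    simpa [Subgroup.mem_subgroupOf] using this
  · intro hx
    have hxJ : x ∈ J := hT hx
    have := (key ⟨x, hxJ⟩).1 (by simpa [Subgroup.mem_subgroupOf] using hx)
    simpa [Subgroup.mem_subgroupOf] using this

section main

variable {G : Type*} [Group G] [Finite G] {p : ℕ} [Fact p.Prime]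
  {A : Subgroup G} [A.Normal] {T : Subgroup G}

abbrev NN (T : Subgroup G) : Subgroup G := Subgroup.normalizer (T : Set G)

lemma T_pgroup (hT : ∃ P : Sylow p ↥A, (P : Subgroup ↥A).map A.subtype = T) : IsPGroup p T := by
  obtain ⟨P, rfl⟩ := hT
  exact P.2.map _

lemma T_le_A (hT : ∃ P : Sylow p ↥A, (P : Subgroup ↥A).map A.subtype = T) : T ≤ A := by
  obtain ⟨P, rfl⟩ := hT
  rintro _ ⟨x, _, rfl⟩
  exact x.2

lemma T_relIndex (hT : ∃ P : Sylow p ↥A, (P : Subgroup ↥A).map A.subtype = T) :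
    ¬ p ∣ T.relIndex A := by
  obtain ⟨P, rfl⟩ := hT
  have : ((P : Subgroup ↥A).map A.subtype).subgroupOf A = P := by
    ext x
    simp [Subgroup.mem_subgroupOf]
  rw [Subgroup.relIndex, this]
  exact P.not_dvd_index

lemma T_eq_inf (hT : ∃ P : Sylow p ↥A, (P : Subgroup ↥A).map A.subtype = T)
    (P₀ : Sylow p G) (h : T ≤ P₀) : T = (P₀ : Subgroup G) ⊓ A := by
  apply le_antisymm (le_inf h (T_le_A hT))
  obtain ⟨P, rfl⟩ := hT
  intro y hy
  have hq : IsPGroup p ((P₀ : Subgroup G).subgroupOf A) := P₀.2.comap_subtype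
  have hle : (P : Subgroup ↥A) ≤ (P₀ : Subgroup G).subgroupOf A := by
    intro z hz
    exact h ⟨z, hz, rfl⟩
  have e := P.is_maximal' hq hle
  have hy' : (⟨y, hy.2⟩ : A) ∈ (P₀ : Subgroup G).subgroupOf A := hy.1
  rw [e] at hy'
  exact ⟨_, hy', rfl⟩

lemma sylow_le_normalizer (hT : ∃ P : Sylow p ↥A, (P : Subgroup ↥A).map A.subtype = T)
    (P₀ : Sylow p G) (h : T ≤ P₀) : (P₀ : Subgroup G) ≤ NN T := by
  intro x hx
  rw [mem_normalizer_iff_cj]
  apply cj_eq_of_le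
  rw [T_eq_inf hT P₀ h]
  intro y hy
  rw [mem_cj] at hy
  have hy' : y = x * (x⁻¹ * y * x) * x⁻¹ := by group
  rw [hy']
  refine ⟨?_, ?_⟩
  · exact Subgroup.mul_mem _ (Subgroup.mul_mem _ hx hy.1) (Subgroup.inv_mem _ hx)
  · have := ‹A.Normal›.conj_mem _ hy.2 x
    exact this

lemma dir_i (hT : ∃ P : Sylow p ↥A, (P : Subgroup ↥A).map A.subtype = T)
    [(T.subgroupOf (NN T)).Normal]
    (hall : ∀ K : Subgroup G, (∃ P : Sylow p G, (P : Subgroup G) ≤ K) → Cfsg.IsPronormal K)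
    (K' : Subgroup (↥(NN T) ⧸ T.subgroupOf (NN T)))
    (hK' : ∃ P : Sylow p (↥(NN T) ⧸ T.subgroupOf (NN T)), (P : Subgroup _) ≤ K') :
    Cfsg.IsPronormal K' := by
  obtain ⟨P', hP'⟩ := hK'
  have hf : Function.Surjective (QuotientGroup.mk' (T.subgroupOf (NN T))) :=
    QuotientGroup.mk'_surjective _
  let K₂ : Subgroup (NN T) := K'.comap (QuotientGroup.mk' (T.subgroupOf (NN T)))
  have h1 : ¬ p ∣ K₂.index := by
    rw [Subgroup.index_comap_of_surjective _ hf]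
    intro hd
    exact P'.not_dvd_index (hd.trans (Subgroup.index_dvd_of_le hP'))
  obtain ⟨P₀, hP₀⟩ := (T_pgroup hT).exists_le_sylow
  have h2 : ¬ p ∣ (NN T).index := by
    intro hd
    exact P₀.not_dvd_index (hd.trans (Subgroup.index_dvd_of_le (sylow_le_normalizer hT P₀ hP₀)))
  have h3 : ¬ p ∣ (K₂.map (NN T).subtype).index := by
    rw [Subgroup.index_map_subtype]
    intro hd
    rcases (Nat.Prime.dvd_mul (Fact.out)).1 hd with h | h
    · exact h1 h
    · exact h2 h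
  obtain ⟨S, hS⟩ := Cfsg.Agent.Lib.FGS.SylowMax.exists_sylow_le_of_not_dvd_index (p := p) h3
  have h4 := hall _ ⟨S, hS⟩
  have h5 : Cfsg.IsPronormal K₂ := pron_sub _ h4
  have h6 := pron_map _ hf h5
  have h7 : K₂.map (QuotientGroup.mk' (T.subgroupOf (NN T))) = K' :=
    Subgroup.map_comap_eq_self_of_surjective hf _
  rwa [h7] at h6

lemma step4 (hT : ∃ P : Sylow p ↥A, (P : Subgroup ↥A).map A.subtype = T)
    [(T.subgroupOf (NN T)).Normal]
    (h1 : ∀ K' : Subgroup (↥(NN T) ⧸ T.subgroupOf (NN T)),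
      (∃ P : Sylow p (↥(NN T) ⧸ T.subgroupOf (NN T)), (P : Subgroup _) ≤ K') → Cfsg.IsPronormal K')
    {K : Subgroup G} {P₀ : Sylow p G} (hTP₀ : T ≤ P₀) (hP₀K : (P₀ : Subgroup G) ≤ K)
    {g₃ : G} (hg₃T : cj g₃ T = T) (hg₃J : cj g₃ (K ⊓ A) = K ⊓ A) : RR K g₃ := by
  have hPN : (P₀ : Subgroup G) ≤ NN T := sylow_le_normalizer hT P₀ hTP₀
  have hg₃N : g₃ ∈ NN T := mem_normalizer_iff_cj.2 hg₃T
  have hTK : T ≤ K := hTP₀.trans hP₀K
  have hf : Function.Surjective (QuotientGroup.mk' (T.subgroupOf (NN T))) :=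
    QuotientGroup.mk'_surjective _
  let KN : Subgroup (NN T) := K.subgroupOf (NN T)
  have hK' : ∃ P : Sylow p (↥(NN T) ⧸ T.subgroupOf (NN T)), (P : Subgroup _) ≤
      KN.map (QuotientGroup.mk' (T.subgroupOf (NN T))) := by
    apply Cfsg.Agent.Lib.FGS.SylowMax.exists_sylow_le_of_not_dvd_index
    intro hd
    have d1 := Subgroup.index_map_dvd KN hf
    have d2 : KN.index ∣ ((P₀ : Subgroup G).subgroupOf (NN T)).index :=
      Subgroup.index_dvd_of_le (Subgroup.comap_mono hP₀K)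
    have d3 : ((P₀ : Subgroup G).subgroupOf (NN T)).index ∣ (P₀ : Subgroup G).index :=
      ⟨_, (Subgroup.relIndex_mul_index hPN).symm⟩
    exact P₀.not_dvd_index (hd.trans (d1.trans (d2.trans d3)))
  have hpr := h1 _ hK'
  let g' : NN T := ⟨g₃, hg₃N⟩
  obtain ⟨x', hx', hx'e⟩ := hpr (QuotientGroup.mk' (T.subgroupOf (NN T)) g')
  change x' ∈ KN.map (QuotientGroup.mk' (T.subgroupOf (NN T))) ⊔
    cj (QuotientGroup.mk' (T.subgroupOf (NN T)) g') (KN.map (QuotientGroup.mk' (T.subgroupOf (NN T)))) at hx'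
  change cj (QuotientGroup.mk' (T.subgroupOf (NN T)) g') (KN.map (QuotientGroup.mk' (T.subgroupOf (NN T)))) =
    cj x' (KN.map (QuotientGroup.mk' (T.subgroupOf (NN T)))) at hx'e
  rw [← cj_map, ← Subgroup.map_sup] at hx'
  obtain ⟨u', hu', rfl⟩ := hx'
  rw [← cj_map, ← cj_map] at hx'e
  have hT'KN : T.subgroupOf (NN T) ≤ KN := Subgroup.comap_mono hTK
  have hT'le : ∀ v : NN T, T.subgroupOf (NN T) ≤ cj v KN := by
    intro v y hy
    rw [mem_cj]
    apply hT'KN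
    have := ‹(T.subgroupOf (NN T)).Normal›.conj_mem y hy v⁻¹
    simpa using this
  have hker : (QuotientGroup.mk' (T.subgroupOf (NN T))).ker = T.subgroupOf (NN T) :=
    QuotientGroup.ker_mk' _
  have e : cj g' KN = cj u' KN := by
    have := congrArg (Subgroup.comap (QuotientGroup.mk' (T.subgroupOf (NN T)))) hx'e
    rwa [Subgroup.comap_map_eq_self (by rw [hker]; exact hT'le g'),
      Subgroup.comap_map_eq_self (by rw [hker]; exact hT'le u')] at this
  have hM : KN.map (NN T).subtype = K ⊓ NN T := Subgroup.subgroupOf_map_subtype _ _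
  have hu_mem : u'.1 ∈ K ⊔ cj g₃ K := by
    have : u'.1 ∈ (KN ⊔ cj g' KN).map (NN T).subtype := Subgroup.mem_map_of_mem _ hu'
    rw [Subgroup.map_sup, cj_map, hM] at this
    exact (sup_le_sup inf_le_left (cj_mono inf_le_left)) this
  have hM4 : cj (u'.1⁻¹ * g₃) (K ⊓ NN T) = K ⊓ NN T := by
    have h3 : cj g₃ (K ⊓ NN T) = cj u'.1 (K ⊓ NN T) := by
      have := congrArg (Subgroup.map (NN T).subtype) e
      rwa [cj_map, cj_map, hM] at this
    rw [← cj_cj, h3, cj_cj]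
    simp [cj_one']
  have hKnorm : ∀ k ∈ K, cj k (K ⊓ A) = K ⊓ A := by
    intro k hk
    apply cj_eq_of_le
    intro y hy
    rw [mem_cj] at hy
    have hy' : y = k * (k⁻¹ * y * k) * k⁻¹ := by group
    rw [hy']
    refine ⟨K.mul_mem (K.mul_mem hk hy.1) (K.inv_mem hk), ?_⟩
    exact ‹A.Normal›.conj_mem _ hy.2 k
  have hnormJ : K ⊔ cj g₃ K ≤ Subgroup.normalizer ((K ⊓ A : Subgroup G) : Set G) := by
    apply sup_le
    · intro k hk
      rw [mem_normalizer_iff_cj]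
      exact hKnorm k hk
    · intro y hy
      rw [mem_normalizer_iff_cj]
      rw [mem_cj] at hy
      have h5 := hKnorm _ hy
      have : cj y (K ⊓ A) = cj g₃ (cj (g₃⁻¹ * y * g₃) (cj g₃⁻¹ (K ⊓ A))) := by
        rw [cj_cj, cj_cj]
        congr 1
        group
      rw [this]
      have h6 : cj g₃⁻¹ (K ⊓ A) = K ⊓ A := by
        conv_lhs => rw [← hg₃J]
        rw [cj_cj]; simp [cj_one']
      rw [h6, h5, hg₃J]
  have huJ : cj u'.1 (K ⊓ A) = K ⊓ A := mem_normalizer_iff_cj.1 (hnormJ hu_mem)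
  have hJ4 : cj (u'.1⁻¹ * g₃) (K ⊓ A) = K ⊓ A := by
    rw [← cj_cj, hg₃J]
    exact mem_normalizer_iff_cj.1 (Subgroup.inv_mem _ (hnormJ hu_mem))
  have hTJ : T ≤ K ⊓ A := le_inf hTK (T_le_A hT)
  have hidx : ¬ p ∣ T.relIndex (K ⊓ A) := by
    intro hd
    apply T_relIndex hT
    rw [← Subgroup.relIndex_mul_relIndex T (K ⊓ A) A hTJ inf_le_right]
    exact Dvd.dvd.mul_right hd _
  have hfr : ∀ k ∈ K, ∃ j ∈ K ⊓ A, ∃ m ∈ K ⊓ NN T, k = j * m := by
    intro k hk
    have hle : cj k T ≤ K ⊓ A := by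
      rw [← hKnorm k hk]
      exact cj_mono hTJ
    obtain ⟨d, hd, hde⟩ := exists_conj_of_sylow hTJ hle (T_pgroup hT) (card_cj k T) hidx
    refine ⟨d⁻¹, Subgroup.inv_mem _ hd, d * k, ⟨K.mul_mem hd.1 hk, ?_⟩, by group⟩
    change d * k ∈ NN T
    rw [mem_normalizer_iff_cj, ← cj_cj, hde]
  have hK4 : cj (u'.1⁻¹ * g₃) K = K := by
    apply cj_eq_of_le
    intro y hy
    rw [mem_cj] at hy
    obtain ⟨j, hj, m, hm, hjm⟩ := hfr _ hy
    set g₄ := u'.1⁻¹ * g₃ with hg₄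
    have hy' : y = (g₄ * j * g₄⁻¹) * (g₄ * m * g₄⁻¹) := by
      have : y = g₄ * (g₄⁻¹ * y * g₄) * g₄⁻¹ := by group
      rw [this, hjm]; group
    rw [hy']
    have hj' : g₄ * j * g₄⁻¹ ∈ K ⊓ A := by
      rw [← hJ4]
      rw [mem_cj]
      simpa [mul_assoc] using hj
    have hm' : g₄ * m * g₄⁻¹ ∈ K ⊓ NN T := by
      rw [← hM4]
      rw [mem_cj]
      simpa [mul_assoc] using hm
    exact K.mul_mem hj'.1 hm'.1
  exact RR_red hu_mem (RR_self hK4)

lemma step3 (hT : ∃ P : Sylow p ↥A, (P : Subgroup ↥A).map A.subtype = T)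
    [(T.subgroupOf (NN T)).Normal]
    (h1 : ∀ K' : Subgroup (↥(NN T) ⧸ T.subgroupOf (NN T)),
      (∃ P : Sylow p (↥(NN T) ⧸ T.subgroupOf (NN T)), (P : Subgroup _) ≤ K') → Cfsg.IsPronormal K')
    {K : Subgroup G} {P₀ : Sylow p G} (hTP₀ : T ≤ P₀) (hP₀K : (P₀ : Subgroup G) ≤ K)
    {c : G} (hcJ : cj c (K ⊓ A) = K ⊓ A) : RR K c := by
  have hTK : T ≤ K := hTP₀.trans hP₀K
  have hTJ : T ≤ K ⊓ A := le_inf hTK (T_le_A hT)
  have hidx : ¬ p ∣ T.relIndex (K ⊓ A) := by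
    intro hd
    apply T_relIndex hT
    rw [← Subgroup.relIndex_mul_relIndex T (K ⊓ A) A hTJ inf_le_right]
    exact Dvd.dvd.mul_right hd _
  have hle : cj c T ≤ K ⊓ A := by
    rw [← hcJ]
    exact cj_mono hTJ
  obtain ⟨d, hd, hde⟩ := exists_conj_of_sylow hTJ hle (T_pgroup hT) (card_cj c T) hidx
  have hg₃T : cj (d * c) T = T := by rw [← cj_cj, hde]
  have hg₃J : cj (d * c) (K ⊓ A) = K ⊓ A := by rw [← cj_cj, hcJ, cj_of_mem hd]
  have H := step4 hT h1 hTP₀ hP₀K hg₃T hg₃J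
  have hd' : d ∈ cj c K := by
    have : d ∈ cj c (K ⊓ A) := by rw [hcJ]; exact hd
    exact cj_mono inf_le_left this
  refine RR_of_cj_eq ?_ H
  rw [← cj_cj, cj_of_mem hd']

lemma step2 (hT : ∃ P : Sylow p ↥A, (P : Subgroup ↥A).map A.subtype = T)
    [(T.subgroupOf (NN T)).Normal]
    (hA : ∀ K : Subgroup ↥A, (∃ P : Sylow p ↥A, (P : Subgroup ↥A) ≤ K) → Cfsg.IsPronormal K)
    (h1 : ∀ K' : Subgroup (↥(NN T) ⧸ T.subgroupOf (NN T)),
      (∃ P : Sylow p (↥(NN T) ⧸ T.subgroupOf (NN T)), (P : Subgroup _) ≤ K') → Cfsg.IsPronormal K')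
    {K : Subgroup G} {P₀ : Sylow p G} (hTP₀ : T ≤ P₀) (hP₀K : (P₀ : Subgroup G) ≤ K)
    {a : G} (ha : a ∈ A) : RR K a := by
  have hTK : T ≤ K := hTP₀.trans hP₀K
  have hJ' : ∃ P : Sylow p ↥A, (P : Subgroup ↥A) ≤ K.subgroupOf A := by
    obtain ⟨P, hP⟩ := hT
    refine ⟨P, ?_⟩
    intro z hz
    exact hTK (by rw [← hP]; exact ⟨z, hz, rfl⟩)
  obtain ⟨x, hx, hxe⟩ := hA _ hJ' ⟨a, ha⟩
  change x ∈ K.subgroupOf A ⊔ cj (⟨a, ha⟩ : A) (K.subgroupOf A) at hx
  change cj (⟨a, ha⟩ : A) (K.subgroupOf A) = cj x (K.subgroupOf A) at hxe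
  have hM : (K.subgroupOf A).map A.subtype = K ⊓ A := Subgroup.subgroupOf_map_subtype _ _
  have hb : x.1 ∈ K ⊔ cj a K := by
    have : x.1 ∈ (K.subgroupOf A ⊔ cj (⟨a, ha⟩ : A) (K.subgroupOf A)).map A.subtype :=
      Subgroup.mem_map_of_mem _ hx
    rw [Subgroup.map_sup, cj_map, hM] at this
    exact (sup_le_sup inf_le_left (cj_mono inf_le_left)) this
  have he : cj a (K ⊓ A) = cj x.1 (K ⊓ A) := by
    have := congrArg (Subgroup.map A.subtype) hxe
    rwa [cj_map, cj_map, hM] at this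
  have hcJ : cj (x.1⁻¹ * a) (K ⊓ A) = K ⊓ A := by
    rw [← cj_cj, he, cj_cj]
    simp [cj_one']
  exact RR_red hb (step3 hT h1 hTP₀ hP₀K hcJ)

lemma step1 (hT : ∃ P : Sylow p ↥A, (P : Subgroup ↥A).map A.subtype = T)
    [(T.subgroupOf (NN T)).Normal]
    (hA : ∀ K : Subgroup ↥A, (∃ P : Sylow p ↥A, (P : Subgroup ↥A) ≤ K) → Cfsg.IsPronormal K)
    (hQ : ∀ K : Subgroup (G ⧸ A), (∃ P : Sylow p (G ⧸ A), (P : Subgroup (G ⧸ A)) ≤ K) → Cfsg.IsPronormal K)
    (h1 : ∀ K' : Subgroup (↥(NN T) ⧸ T.subgroupOf (NN T)),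
      (∃ P : Sylow p (↥(NN T) ⧸ T.subgroupOf (NN T)), (P : Subgroup _) ≤ K') → Cfsg.IsPronormal K')
    (h2 : ∀ K : Subgroup G, (∃ P : Sylow p G, (P : Subgroup G) ≤ K) →
      (Subgroup.normalizer (K : Set G)).map (QuotientGroup.mk' A) =
        Subgroup.normalizer ((K.map (QuotientGroup.mk' A) : Subgroup (G ⧸ A)) : Set (G ⧸ A)))
    {K : Subgroup G} {P₀ : Sylow p G} (hTP₀ : T ≤ P₀) (hP₀K : (P₀ : Subgroup G) ≤ K)
    (g : G) : RR K g := by
  have hf : Function.Surjective (QuotientGroup.mk' A) := QuotientGroup.mk'_surjective _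
  have hK' : ∃ P : Sylow p (G ⧸ A), (P : Subgroup (G ⧸ A)) ≤ K.map (QuotientGroup.mk' A) := by
    apply Cfsg.Agent.Lib.FGS.SylowMax.exists_sylow_le_of_not_dvd_index
    intro hd
    have d1 := Subgroup.index_map_dvd K hf
    have d2 := Subgroup.index_dvd_of_le hP₀K
    exact P₀.not_dvd_index (hd.trans (d1.trans d2))
  obtain ⟨x', hx', hx'e⟩ := hQ _ hK' (QuotientGroup.mk' A g)
  change x' ∈ K.map (QuotientGroup.mk' A) ⊔ cj (QuotientGroup.mk' A g) (K.map (QuotientGroup.mk' A)) at hx'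
  change cj (QuotientGroup.mk' A g) (K.map (QuotientGroup.mk' A)) = cj x' (K.map (QuotientGroup.mk' A)) at hx'e
  rw [← cj_map, ← Subgroup.map_sup] at hx'
  obtain ⟨u, hu, rfl⟩ := hx'
  have hnorm : QuotientGroup.mk' A (u⁻¹ * g) ∈
      Subgroup.normalizer ((K.map (QuotientGroup.mk' A) : Subgroup (G ⧸ A)) : Set (G ⧸ A)) := by
    rw [mem_normalizer_iff_cj, map_mul, map_inv, ← cj_cj, hx'e, cj_cj]
    simp [cj_one']
  rw [← h2 K ⟨P₀, hP₀K⟩] at hnorm
  obtain ⟨n, hn, hne⟩ := hnorm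
  have ha : u⁻¹ * g * n⁻¹ ∈ A := by
    rw [← QuotientGroup.ker_mk' A, MonoidHom.mem_ker, map_mul, map_inv, ← hne]
    simp
  have H := step2 hT hA h1 hTP₀ hP₀K ha
  refine RR_red hu (RR_of_cj_eq ?_ H)
  have hn' : cj n K = K := mem_normalizer_iff_cj.1 hn
  conv_rhs => rw [show u⁻¹ * g = u⁻¹ * g * n⁻¹ * n by group, ← cj_cj, hn']

end main

end helpers



/-- Let p be a prime and G a finite group with a normal subgroup A such that, both in A and in G/A, every subgroup containing a Sylow p-subgroup of that group is pronormal in that group. Let T be a Sylow p-subgroup of A. Then every subgroup of G containing a Sylow p-subgroup of G is pronormal in G if and only if (i) every subgroup of N_G(T)/T containing a Sylow p-subgroup of N_G(T)/T is pronormal there, and (ii) for every subgroup H of G containing a Sylow p-subgroup of G, the image of N_G(H) in G/A is the full normalizer of the image of H. (Pronormal: H and gHg⁻¹ are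 conjugate inside the subgroup they generate, for every g.) -/
theorem result {G : Type*} [Group G] [Finite G] {p : ℕ} [Fact p.Prime]
    (A : Subgroup G) [A.Normal] (hA : (∀ K : Subgroup ↥A, (∃ P : Sylow p ↥A, (P : Subgroup ↥A) ≤ K) → Cfsg.IsPronormal K)) (hQ : (∀ K : Subgroup (G ⧸ A), (∃ P : Sylow p (G ⧸ A), (P : Subgroup (G ⧸ A)) ≤ K) → Cfsg.IsPronormal K))
    (T : Subgroup G) (hT : ∃ P : Sylow p ↥A, (P : Subgroup ↥A).map A.subtype = T) [(T.subgroupOf (Subgroup.normalizer (T : Set G))).Normal] :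
    (∀ K : Subgroup G, (∃ P : Sylow p G, (P : Subgroup G) ≤ K) → Cfsg.IsPronormal K) ↔
      ((∀ K : Subgroup (↥(Subgroup.normalizer (T : Set G)) ⧸ T.subgroupOf (Subgroup.normalizer (T : Set G))), (∃ P : Sylow p (↥(Subgroup.normalizer (T : Set G)) ⧸ T.subgroupOf (Subgroup.normalizer (T : Set G))), (P : Subgroup (↥(Subgroup.normalizer (T : Set G)) ⧸ T.subgroupOf (Subgroup.normalizer (T : Set G)))) ≤ K) → Cfsg.IsPronormal K) ∧
        ∀ K : Subgroup G, (∃ P : Sylow p G, (P : Subgroup G) ≤ K) →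
          (Subgroup.normalizer (K : Set G)).map (QuotientGroup.mk' A) = Subgroup.normalizer ((K.map (QuotientGroup.mk' A) : Subgroup (G ⧸ A)) : Set (G ⧸ A))) := by
  constructor
  · intro hall
    refine ⟨fun K' hK' => dir_i hT hall K' hK', fun K hK => ?_⟩
    exact norm_map_eq _ (QuotientGroup.mk'_surjective _) (hall K hK)
  · rintro ⟨h1, h2⟩ K ⟨P, hPK⟩
    obtain ⟨P₀, hTP₀⟩ := (T_pgroup hT).exists_le_sylow
    obtain ⟨c, hc⟩ := MulAction.exists_smul_eq G P P₀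
    have hP₀K : (P₀ : Subgroup G) ≤ cj c K := by
      rw [← hc, Sylow.coe_subgroup_smul]
      exact cj_mono hPK
    apply pron_cj c
    intro g
    exact step1 hT hA hQ h1 h2 hTP₀ hP₀K g

end Cfsg.Agent.S4270
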