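import Cfsg.Statements.S4271
import Cfsg.Agent.S4270
-- import your own Cfsg.Agent.* helpers here

set_option autoImplicit false
open Cfsg

namespace Cfsg.Agent.S4271


open Cfsg.Agent.S4270 in
lemma selfnorm_pron {Q : Type*} [Group Q] [Finite Q] {p : ℕ} [Fact p.Prime]
    (hQ : ∀ P : Sylow p Q, Subgroup.normalizer ((P : Subgroup Q) : Set Q) = P)
    {K : Subgroup Q} (P : Sylow p Q) (hP : (P : Subgroup Q) ≤ K) : Cfsg.IsPronormal K := by
  intro g
  change ∃ x ∈ K ⊔ cj g K, cj g K = cj x K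
  have hPL : (P : Subgroup Q) ≤ K ⊔ cj g K := hP.trans le_sup_left
  have hPL' : cj g (P : Subgroup Q) ≤ K ⊔ cj g K := (cj_mono hP).trans le_sup_right
  have hi : ¬ p ∣ (P : Subgroup Q).relIndex (K ⊔ cj g K) := by
    intro hd
    apply P.not_dvd_index
    rw [← Subgroup.relIndex_mul_index hPL]
    exact Dvd.dvd.mul_right hd _
  obtain ⟨d, hd, hde⟩ := exists_conj_of_sylow hPL hPL' P.2 (card_cj g _) hi
  have hn : d * g ∈ Subgroup.normalizer ((P : Subgroup Q) : Set Q) := by
    rw [mem_normalizer_iff_cj, ← cj_cj, hde]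
  rw [hQ] at hn
  refine ⟨d⁻¹, Subgroup.inv_mem _ hd, ?_⟩
  have e : cj (d * g) K = K := cj_of_mem (hP hn)
  have e2 : cj g K = cj d⁻¹ (cj (d * g) K) := by
    rw [cj_cj]; simp
  rw [e2, e]

open Cfsg.Agent.S4270 in
lemma selfnorm_norm {Q : Type*} [Group Q] [Finite Q] {p : ℕ} [Fact p.Prime]
    (hQ : ∀ P : Sylow p Q, Subgroup.normalizer ((P : Subgroup Q) : Set Q) = P)
    {K : Subgroup Q} (P : Sylow p Q) (hP : (P : Subgroup Q) ≤ K) :
    Subgroup.normalizer (K : Set Q) ≤ K := by
  intro g hg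
  rw [mem_normalizer_iff_cj] at hg
  have hPL' : cj g (P : Subgroup Q) ≤ K := by
    rw [← hg]; exact cj_mono hP
  have hi : ¬ p ∣ (P : Subgroup Q).relIndex K := by
    intro hd
    apply P.not_dvd_index
    rw [← Subgroup.relIndex_mul_index hP]
    exact Dvd.dvd.mul_right hd _
  obtain ⟨d, hd, hde⟩ := exists_conj_of_sylow hP hPL' P.2 (card_cj g _) hi
  have hn : d * g ∈ Subgroup.normalizer ((P : Subgroup Q) : Set Q) := by
    rw [mem_normalizer_iff_cj, ← cj_cj, hde]
  rw [hQ] at hn
  have := K.mul_mem (K.inv_mem hd) (hP hn)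
  simpa using this



/-- Let p be a prime and G a finite group with a normal subgroup A such that every subgroup of A containing a Sylow p-subgroup of A is pronormal in A, and the Sylow p-subgroups of G/A are self-normalizing. Let T be a Sylow p-subgroup of A. Then every subgroup of G containing a Sylow p-subgroup of G is pronormal in G if and only if every subgroup of N_G(T)/T containing a Sylow p-subgroup of N_G(T)/T is pronormal in N_G(T)/T. (Pronormal: H and gHg⁻¹ are conjugate inside the subgroup they generate, for every g.) -/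
theorem result {G : Type*} [Group G] [Finite G] {p : ℕ} [Fact p.Prime]
    (A : Subgroup G) [A.Normal] (hA : (∀ K : Subgroup ↥A, (∃ P : Sylow p ↥A, (P : Subgroup ↥A) ≤ K) → Cfsg.IsPronormal K))
    (hQ : ∀ P : Sylow p (G ⧸ A), Subgroup.normalizer ((P : Subgroup (G ⧸ A)) : Set (G ⧸ A)) = P)
    (T : Subgroup G) (hT : ∃ P : Sylow p ↥A, (P : Subgroup ↥A).map A.subtype = T) [(T.subgroupOf (Subgroup.normalizer (T : Set G))).Normal] :
    (∀ K : Subgroup G, (∃ P : Sylow p G, (P : Subgroup G) ≤ K) → Cfsg.IsPronormal K) ↔ (∀ K : Subgroup (↥(Subgroup.normalizer (T : Set G)) ⧸ T.subgroupOf (Subgroup.normalizer (T : Set G))), (∃ P : Sylow p (↥(Subgroup.normalizer (T : Set G)) ⧸ T.subgroupOf (Subgroup.normalizer (T : Set G))), (P : Subgroup (↥(Subgroup.normalizer (T : Set G)) ⧸ T.subgroupOf (Subgroup.normalizer (T : Set G)))) ≤ K) → Cfsg.IsPronormal K) := by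
  have hQ' : ∀ K : Subgroup (G ⧸ A), (∃ P : Sylow p (G ⧸ A), (P : Subgroup (G ⧸ A)) ≤ K) →
      Cfsg.IsPronormal K := by
    rintro K ⟨P, hP⟩
    exact selfnorm_pron hQ P hP
  rw [Cfsg.Agent.S4270.result A hA hQ' T hT]
  constructor
  · intro h
    exact h.1
  · intro h
    refine ⟨h, ?_⟩
    rintro K ⟨P₀, hP₀K⟩
    have hf : Function.Surjective (QuotientGroup.mk' A) := QuotientGroup.mk'_surjective _
    have hK' : ∃ P : Sylow p (G ⧸ A), (P : Subgroup (G ⧸ A)) ≤ K.map (QuotientGroup.mk' A) := by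
      apply Cfsg.Agent.Lib.FGS.SylowMax.exists_sylow_le_of_not_dvd_index
      intro hd
      have d1 := Subgroup.index_map_dvd K hf
      have d2 := Subgroup.index_dvd_of_le hP₀K
      exact P₀.not_dvd_index (hd.trans (d1.trans d2))
    obtain ⟨P, hP⟩ := hK'
    apply le_antisymm
    · rintro _ ⟨n, hn, rfl⟩
      have hn' : n ∈ Subgroup.normalizer (K : Set G) := hn
      rw [Cfsg.Agent.S4270.mem_normalizer_iff_cj] at hn' ⊢
      rw [← Cfsg.Agent.S4270.cj_map, hn']
    · refine (selfnorm_norm hQ P hP).trans ?_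
      exact Subgroup.map_mono Subgroup.le_normalizer

end Cfsg.Agent.S4271
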