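import Cfsg.Statements.S4278
import Cfsg.Agent.Lib.G2Oct.Invol

set_option autoImplicit false
open Cfsg

namespace Cfsg.Agent.S4278

/-- In the Chevalley group of type G₂ over a finite field of odd order, any two involutions are conjugate. -/
theorem result {F : Type*} [Field F] [Fintype F] (hF : Odd (Fintype.card F)) (s t : ↥(Cfsg.Lie.chevG2.group F)) (hs : orderOf s = 2) (ht : orderOf t = 2) : IsConj s t := by
  have h2 : (2 : F) ≠ 0 := by
    apply Ring.two_ne_zero
    intro h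
    have := FiniteField.even_card_of_char_two h
    rw [Nat.odd_iff] at hF
    omega
  have key : ∀ x : ↥(Cfsg.Lie.chevG2.group F), orderOf x = 2 → ∃ g : Cfsg.Agent.Lib.G2Oct.Aut8.Aut8 F,
      g * Cfsg.Agent.Lib.G2Oct.Stab.sl3Hom Cfsg.Agent.Lib.G2Oct.Invol.D0 * g⁻¹ = Cfsg.Agent.Lib.G2Oct.Count.rhoE x := by
    intro x hx
    apply Cfsg.Agent.Lib.G2Oct.Invol.invol_conj_std hF h2
    · rw [← map_mul, ← sq, ← hx, pow_orderOf_eq_one, map_one]
    · intro h
      have : x = 1 := by
        apply Cfsg.Agent.Lib.G2Oct.Count.rhoE.injective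
        rw [h, map_one]
      rw [this, orderOf_one] at hx
      omega
  obtain ⟨a, ha⟩ := key s hs
  obtain ⟨b, hb⟩ := key t ht
  rw [isConj_iff]
  refine ⟨Cfsg.Agent.Lib.G2Oct.Count.rhoE.symm (b * a⁻¹), ?_⟩
  apply Cfsg.Agent.Lib.G2Oct.Count.rhoE.injective
  rw [map_mul, map_mul, map_inv, MulEquiv.apply_symm_apply, ← ha, ← hb]
  group

end Cfsg.Agent.S4278
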