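import Cfsg.Statements.S4330
import Cfsg.Agent.Lib.FG85.OrbitKey
import Cfsg.Agent.Lib.Core.Basic
import Cfsg.Agent.Lib.Solvable.Basic
-- import your own Cfsg.Agent.* helpers here

set_option autoImplicit false
open Pointwise
open Cfsg

namespace Cfsg.Agent.S4330


section helpers

open Cfsg.Agent.Lib.FG85.Blocks Cfsg.Agent.Lib.FG85.OrbitKey Cfsg.Agent.Lib.Solvable.Basic Cfsg.Agent.Lib.Core.Basic Subgroup
open Pointwise
open Cfsg

universe u

/-- The hypothesis, in a form stable under quotients. -/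
def HypAt (p : ℕ) {G : Type*} [Group G] (A : Subgroup G) (g : G) : Prop :=
  ∃ N : Subgroup G, A ≤ N ∧ IsPGroup p N ∧ N ≤ A ⊔ cj g A ∧ ∀ h ∈ A ⊔ cj g A, ∀ x ∈ N, h * x * h⁻¹ ∈ N

theorem cj_map {G H : Type*} [Group G] [Group H] (f : G →* H) (g : G) (A : Subgroup G) :
    (cj g A).map f = cj (f g) (A.map f) := by
  ext x
  constructor
  · rintro ⟨y, hy, rfl⟩
    have hy' := mem_cj.mp hy
    rw [mem_cj]
    refine ⟨_, hy', ?_⟩
    simp [mul_assoc]
  · intro hx
    rw [mem_cj] at hx
    obtain ⟨y, hy, hyx⟩ := hx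
    refine ⟨g * y * g⁻¹, conj_mem_cj hy, ?_⟩
    rw [map_mul, map_mul, hyx, map_inv]
    group

theorem HypAt.map {p : ℕ} {G H : Type*} [Group G] [Group H] {A : Subgroup G} {g : G} (f : G →* H)
    (h : HypAt p A g) : HypAt p (A.map f) (f g) := by
  obtain ⟨N, hAN, hNp, hNH, hnorm⟩ := h
  refine ⟨N.map f, map_mono hAN, hNp.map f, ?_, ?_⟩
  · rw [← cj_map, ← Subgroup.map_sup]
    exact map_mono hNH
  · intro h hh x hx
    rw [← cj_map, ← Subgroup.map_sup] at hh
    obtain ⟨h', hh', rfl⟩ := hh
    obtain ⟨x', hx', rfl⟩ := hx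
    refine ⟨h' * x' * h'⁻¹, hnorm h' hh' x' hx', ?_⟩
    simp

/-- Elements of coprime prime-power orders. -/
theorem eq_one_of_pow_pow {G : Type*} [Group G] {p r : ℕ} (hp : p.Prime) (hr : r.Prime) (hne : r ≠ p)
    {t : G} {k : ℕ} (h1 : t ^ (p ^ k) = 1) (h2 : t ^ r = 1) : t = 1 := by
  have h3 : orderOf t ∣ p ^ k := orderOf_dvd_of_pow_eq_one h1
  have h4 : orderOf t ∣ r := orderOf_dvd_of_pow_eq_one h2
  have h5 : Nat.Coprime (p ^ k) r := Nat.Coprime.pow_left _ ((Nat.coprime_primes hp hr).mpr hne.symm)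
  have h6 : orderOf t = 1 := Nat.eq_one_of_dvd_coprimes h5 h3 h4
  exact orderOf_eq_one_iff.mp h6

/-- The main reduction. -/
theorem main_aux {p : ℕ} [Fact p.Prime] (hp2 : p ≠ 2) : ∀ (n : ℕ) (G : Type u) [Group G] [Finite G],
    Nat.card G = n → Group.IsSolvable G → ∀ A : Subgroup G, IsPGroup p A →
      (∀ c : G, ∃ g : G, IsConj c g ∧ HypAt p A g) → A ≤ pCore p G := by
  intro n
  induction n using Nat.strong_induction_on with
  | _ n ih =>
  intro G _ _ hn hG A hA h
  classical
  have hp : p.Prime := Fact.out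
  rcases subsingleton_or_nontrivial G with hsub | hnt
  · intro x _
    rw [Subsingleton.elim x 1]
    exact one_mem _
  obtain ⟨M, hM⟩ := exists_isMinNormal (G := G)
  have hMcomm := isMinNormal_comm hM
  obtain ⟨r, hr, hMr⟩ := isMinNormal_exponent hM
  obtain ⟨hMn, hM1, hmin⟩ := hM
  haveI := hMn
  let π : G →* G ⧸ M := QuotientGroup.mk' M
  have hπker : ∀ x, π x = 1 ↔ x ∈ M := fun x => QuotientGroup.eq_one_iff x
  have hπs : Function.Surjective π := QuotientGroup.mk'_surjective M
  have hlt : Nat.card (G ⧸ M) < n := by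
    have h1 := M.card_mul_index
    have h2 : 1 < Nat.card M := Finite.one_lt_card_iff_nontrivial.mpr ((Subgroup.nontrivial_iff_ne_bot M).mpr hM1)
    have h3 : 0 < M.index := Nat.pos_of_ne_zero Subgroup.index_ne_zero_of_finite
    rw [hn] at h1
    change M.index < n
    nlinarith
  have hAbar : A.map π ≤ pCore p (G ⧸ M) := by
    apply ih _ hlt (G ⧸ M) rfl (solvable_of_surjective hπs) (A.map π) (hA.map π)
    intro c
    obtain ⟨c', rfl⟩ := hπs c
    obtain ⟨g, hg, hHyp⟩ := h c'
    refine ⟨π g, ?_, hHyp.map π⟩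
    obtain ⟨h₀, hh₀⟩ := isConj_iff.mp hg
    exact isConj_iff.mpr ⟨π h₀, by rw [← map_inv, ← map_mul, ← map_mul, hh₀]⟩
  -- `L`
  let L : Subgroup G := (pCore p (G ⧸ M)).comap π
  have hLn : L.Normal := (pCore_normal p (G ⧸ M)).comap π
  have hAL : A ≤ L := by
    intro x hx
    exact hAbar ⟨x, hx, rfl⟩
  have hLpow : ∀ y ∈ L, ∃ k : ℕ, y ^ (p ^ k) ∈ M := by
    intro y hy
    have h1 : IsPGroup p (pCore p (G ⧸ M)) := pCore_isPGroup
    obtain ⟨k, hk⟩ := h1 ⟨π y, hy⟩
    refine ⟨k, ?_⟩
    rw [← hπker, map_pow]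
    exact congrArg Subtype.val hk
  by_cases hrp : r = p
  · -- `L` is a `p`-group
    subst hrp
    have hLp : IsPGroup r L := by
      rintro ⟨y, hy⟩
      obtain ⟨k, hk⟩ := hLpow y hy
      refine ⟨k + 1, ?_⟩
      apply Subtype.ext
      have := hMr _ hk
      rw [← pow_mul, ← pow_succ] at this
      simpa using this
    exact hAL.trans (le_pCore hLn hLp)
  -- coprime
  have hMcop : (Nat.card M).Coprime p := by
    by_contra hcon
    have hd : p ∣ Nat.card M := by
      by_contra hnd
      exact hcon (((Nat.Prime.coprime_iff_not_dvd hp).mpr hnd).symm)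
    obtain ⟨y, hy⟩ := exists_prime_orderOf_dvd_card' p hd
    have h1 : (y : G) ^ r = 1 := hMr y y.2
    have h2 : orderOf (y : G) = p := by
      rw [Subgroup.orderOf_coe]
      exact hy
    have h3 := orderOf_dvd_of_pow_eq_one h1
    rw [h2] at h3
    exact hrp ((Nat.prime_dvd_prime_iff_eq hp hr).mp h3).symm
  have hMNtriv : ∀ N : Subgroup G, IsPGroup p N → ∀ t ∈ N, t ∈ M → t = 1 := by
    intro N hN t htN htM
    obtain ⟨k, hk⟩ := hN ⟨t, htN⟩
    exact eq_one_of_pow_pow hp hr hrp (by simpa using congrArg Subtype.val hk) (hMr t htM)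
  by_cases hAC : ∀ x ∈ A, ∀ m ∈ M, x * m = m * x
  · -- `A` centralizes `M`
    let C : Subgroup G := centralizer (M : Set G)
    have hCn : C.Normal := Subgroup.normal_centralizer
    let D : Subgroup G := L ⊓ C
    have hDn : D.Normal := Subgroup.normal_inf_normal L C
    have hAD : A ≤ D := by
      intro x hx
      refine mem_inf.mpr ⟨hAL hx, ?_⟩
      rw [mem_centralizer_iff]
      intro m hm
      exact (hAC x hx m hm).symm
    let f : D →* pCore p (G ⧸ M) := (π.comp D.subtype).codRestrict _ (fun x => (mem_inf.mp x.2).1)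
    have hker : f.ker ≤ center D := by
      intro x hx
      have h1 : π x = 1 := congrArg Subtype.val (MonoidHom.mem_ker.mp hx)
      have h2 : (x : G) ∈ M := (hπker x).mp h1
      rw [mem_center_iff]
      intro y
      apply Subtype.ext
      have h3 := (mem_inf.mp y.2).2
      exact (mem_centralizer_iff.mp h3 _ h2).symm
    have hPnil : Group.IsNilpotent (pCore p (G ⧸ M)) := (pCore_isPGroup (p := p)).isNilpotent
    have hDnil : Group.IsNilpotent D := _root_.isNilpotent_of_ker_le_center f hker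
    have hA' : IsPGroup p (A.subgroupOf D) := hA.comap_subtype
    obtain ⟨Q, hQ⟩ := hA'.exists_le_sylow
    have htf := (Group.isNilpotent_of_finite_tfae (G := D)).out 0 3
    have hQn : (Q : Subgroup D).Normal := htf.mp hDnil p inferInstance Q
    have hQle : (Q : Subgroup D) ≤ pCore p D := le_pCore hQn Q.isPGroup'
    have hmap := map_pCore_le_of_isSubnormal (p := p) (K := D) hDn.isSubnormal
    intro x hx
    exact hmap ⟨⟨x, hAD hx⟩, hQle (hQ (by rw [Subgroup.mem_subgroupOf]; exact hx)), rfl⟩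
  · -- the critical case
    push Not at hAC
    obtain ⟨x, hxA, m, hm, hxm⟩ := hAC
    letI commM : CommGroup M :=
      { (inferInstance : Group M) with mul_comm := fun a b => Subtype.ext (hMcomm a a.2 b b.2) }
    letI act : DistribMulAction G (Additive M) :=
      { smul := fun g v => Additive.ofMul ⟨g * (v.toMul : G) * g⁻¹, hMn.conj_mem _ v.toMul.2 g⟩
        one_smul := by
          intro v
          apply Additive.toMul.injective
          apply Subtype.ext
          change 1 * ((v.toMul : M) : G) * 1⁻¹ = _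
          simp
        mul_smul := by
          intro a b v
          apply Additive.toMul.injective
          apply Subtype.ext
          change a * b * ((v.toMul : M) : G) * (a * b)⁻¹ = a * (b * ((v.toMul : M) : G) * b⁻¹) * a⁻¹
          group
        smul_zero := by
          intro g
          apply Additive.toMul.injective
          apply Subtype.ext
          change g * 1 * g⁻¹ = 1
          group
        smul_add := by
          intro g a b
          apply Additive.toMul.injective
          apply Subtype.ext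
          change g * (((a.toMul : M) : G) * ((b.toMul : M) : G)) * g⁻¹ =
            (g * ((a.toMul : M) : G) * g⁻¹) * (g * ((b.toMul : M) : G) * g⁻¹)
          group }
    have hact : ∀ (g : G) (v : Additive M), (((g • v : Additive M).toMul : M) : G) = g * (v.toMul : G) * g⁻¹ :=
      fun _ _ => rfl
    have hcard : Nat.card (Additive M) = Nat.card M := Nat.card_congr Additive.toMul
    have hcop : (Nat.card (Additive M)).Coprime p := by rw [hcard]; exact hMcop
    have hIrr : Irr G (Additive M) := by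
      intro W hW
      let W' : Subgroup G :=
        { carrier := {y | ∃ hy : y ∈ M, Additive.ofMul (⟨y, hy⟩ : M) ∈ W}
          mul_mem' := by
            rintro a b ⟨ha, ha'⟩ ⟨hb, hb'⟩
            exact ⟨M.mul_mem ha hb, W.add_mem ha' hb'⟩
          one_mem' := ⟨M.one_mem, W.zero_mem⟩
          inv_mem' := by
            rintro a ⟨ha, ha'⟩
            exact ⟨M.inv_mem ha, W.neg_mem ha'⟩ }
      have hW'n : W'.Normal := by
        constructor
        rintro y ⟨hy, hy'⟩ g
        exact ⟨hMn.conj_mem y hy g, hW g _ hy'⟩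
      rcases hmin W' hW'n (fun y hy => hy.1) with h0 | h0
      · left
        rw [eq_bot_iff]
        intro v hv
        have h1 : ((v.toMul : M) : G) ∈ W' := ⟨v.toMul.2, hv⟩
        rw [h0, mem_bot] at h1
        rw [AddSubgroup.mem_bot]
        apply Additive.toMul.injective
        exact Subtype.ext h1
      · right
        rw [eq_top_iff]
        intro v _
        have h1 : ((v.toMul : M) : G) ∈ W' := by rw [h0]; exact v.toMul.2
        obtain ⟨_, h2⟩ := h1
        exact h2
    have hxne : x • (Additive.ofMul (⟨m, hm⟩ : M)) ≠ Additive.ofMul (⟨m, hm⟩ : M) := by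
      intro h0
      have h1 := congrArg (fun v : Additive M => ((v.toMul : M) : G)) h0
      have h2 : x * m * x⁻¹ = m := h1
      apply hxm
      calc x * m = (x * m * x⁻¹) * x := by group
        _ = m * x := by rw [h2]
    obtain ⟨v, hv⟩ := key hp2 _ (Additive M) G rfl hcop hIrr L hLn
      (by
        intro y hy
        obtain ⟨k, hk⟩ := hLpow y hy
        refine ⟨k, fun v => ?_⟩
        apply Additive.toMul.injective
        apply Subtype.ext
        rw [hact]
        have := hMcomm _ hk _ v.toMul.2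
        rw [this]
        group)
      x (hAL hxA) ⟨_, hxne⟩
    obtain ⟨g, hg, N, hAN, hNp, hNH, hnorm⟩ := h ((v.toMul : M) : G)
    obtain ⟨h₀, hh₀⟩ := isConj_iff.mp hg
    have hgM : g ∈ M := by
      rw [← hh₀]
      exact hMn.conj_mem _ v.toMul.2 h₀
    obtain ⟨kx, hkx⟩ := hA ⟨x, hxA⟩
    have hxk : x ^ (p ^ kx) = 1 := by simpa using congrArg Subtype.val hkx
    -- the commutator
    set y := x * g * x⁻¹ * g⁻¹ with hy
    have hyM : y ∈ M := M.mul_mem (hMn.conj_mem g hgM x) (M.inv_mem hgM)
    have hyH : y ∈ A ⊔ cj g A := by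
      have h1 : x ∈ A ⊔ cj g A := (le_sup_left : A ≤ A ⊔ cj g A) hxA
      have h2 : g * x⁻¹ * g⁻¹ ∈ A ⊔ cj g A :=
        (le_sup_right : cj g A ≤ A ⊔ cj g A) (conj_mem_cj (A.inv_mem hxA))
      have : y = x * (g * x⁻¹ * g⁻¹) := by rw [hy]; group
      rw [this]
      exact mul_mem h1 h2
    have hyx : y * x = x * y := by
      have h1 : y * x * y⁻¹ * x⁻¹ ∈ N :=
        N.mul_mem (hnorm y hyH x (hAN hxA)) (N.inv_mem (hAN hxA))
      have h2 : y * x * y⁻¹ * x⁻¹ ∈ M := by
        have : y * x * y⁻¹ * x⁻¹ = y * (x * y⁻¹ * x⁻¹) := by group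
        rw [this]
        exact M.mul_mem hyM (hMn.conj_mem _ (M.inv_mem hyM) x)
      have h3 := hMNtriv N hNp _ h1 h2
      have h4 : y * x * y⁻¹ = x := by
        calc y * x * y⁻¹ = (y * x * y⁻¹ * x⁻¹) * x := by group
          _ = x := by rw [h3, one_mul]
      calc y * x = (y * x * y⁻¹) * y := by group
        _ = x * y := by rw [h4]
    have hxg : x * g * x⁻¹ = y * g := by rw [hy]; group
    have hiter : ∀ i : ℕ, x ^ i * g * (x ^ i)⁻¹ = y ^ i * g := by
      intro i
      induction i with
      | zero => simp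
      | succ i ih =>
        have hcomm : x * y ^ i = y ^ i * x := (((show Commute y x from hyx).pow_left i).eq).symm
        calc x ^ (i + 1) * g * (x ^ (i + 1))⁻¹ = x * (x ^ i * g * (x ^ i)⁻¹) * x⁻¹ := by
              rw [pow_succ' x i]; group
          _ = x * (y ^ i * g) * x⁻¹ := by rw [ih]
          _ = (x * y ^ i) * g * x⁻¹ := by group
          _ = y ^ i * (x * g * x⁻¹) := by rw [hcomm]; group
          _ = y ^ i * (y * g) := by rw [hxg]
          _ = y ^ (i + 1) * g := by rw [pow_succ]; group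
    have hy1 : y = 1 := by
      have h1 := hiter (p ^ kx)
      rw [hxk] at h1
      have h2 : y ^ (p ^ kx) = 1 := by
        have : (1 : G) * g * 1⁻¹ = g := by group
        rw [this] at h1
        exact (mul_eq_right.mp h1.symm)
      exact eq_one_of_pow_pow hp hr hrp h2 (hMr y hyM)
    have hcomm : x * g * x⁻¹ = g := by
      rw [hxg, hy1, one_mul]
    exfalso
    apply hv h₀⁻¹
    apply Additive.toMul.injective
    apply Subtype.ext
    rw [hact]
    have h1 : ((v.toMul : M) : G) = h₀⁻¹ * g * h₀ := by rw [← hh₀]; group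
    rw [h1]
    calc h₀⁻¹ * x * h₀⁻¹⁻¹ * (h₀⁻¹ * g * h₀) * (h₀⁻¹ * x * h₀⁻¹⁻¹)⁻¹
        = h₀⁻¹ * (x * g * x⁻¹) * h₀ := by group
      _ = _ := by rw [hcomm]

end helpers

open Pointwise in


/-- Let G be a finite solvable group, p an odd prime and A a p-subgroup of G such that every conjugacy class of G contains an element g for which A is subnormal in the subgroup generated by A and its conjugate by g. Then A is contained in O_p(G). (The hypothesis that p is odd is needed.) -/
theorem result {G : Type*} [Group G] [Finite G]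
    (hG : Group.IsSolvable G) (p : ℕ) [Fact p.Prime] (hp : p ≠ 2) (A : Subgroup G) (hA : IsPGroup p A)
    (h : ∀ c : G, ∃ g : G, IsConj c g ∧ (A.subgroupOf (A ⊔ MulAut.conj g • A)).IsSubnormal) :
    A ≤ Cfsg.pCore p G := by
  refine main_aux hp _ G rfl hG A hA ?_
  intro c
  obtain ⟨g, hg, hsub⟩ := h c
  refine ⟨g, hg, ?_⟩
  have hH : A ⊔ MulAut.conj g • A = A ⊔ Cfsg.Agent.Lib.FG85.Blocks.cj g A := rfl
  rw [hH] at hsub
  set H := A ⊔ Cfsg.Agent.Lib.FG85.Blocks.cj g A with hHdef
  have hA' : IsPGroup p (A.subgroupOf H) := hA.comap_subtype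
  have h1 := Cfsg.Agent.Lib.Core.Basic.le_pCore_of_isSubnormal hsub hA'
  refine ⟨(Cfsg.pCore p H).map H.subtype, ?_, ?_, ?_, ?_⟩
  · intro x hx
    have hxH : x ∈ H := (le_sup_left : A ≤ H) hx
    exact ⟨⟨x, hxH⟩, h1 (by simpa [Subgroup.mem_subgroupOf] using hx), rfl⟩
  · exact (Cfsg.Agent.Lib.Core.Basic.pCore_isPGroup).map _
  · rintro _ ⟨y, _, rfl⟩
    exact y.2
  · rintro k hk _ ⟨y, hy, rfl⟩
    refine ⟨⟨k, hk⟩ * y * ⟨k, hk⟩⁻¹, (Cfsg.pCore_normal p H).conj_mem y hy _, ?_⟩
    simp

end Cfsg.Agent.S4330
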