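import Cfsg.Statements.S4331
import Mathlib
import Cfsg.Agent.Lib.Core.Basic
import Cfsg.Agent.Lib.PReduced.SubnormalClosure
-- import your own Cfsg.Agent.* helpers here

set_option autoImplicit false
open Cfsg

namespace Cfsg.Agent.S4331


/-- the vector space -/
abbrev VV := ZMod 3 × ZMod 3

/-- SD16 as a type -/
def SD : Type := ZMod 8 × ZMod 2

instance : DecidableEq SD := inferInstanceAs (DecidableEq (ZMod 8 × ZMod 2))
instance : Fintype SD := inferInstanceAs (Fintype (ZMod 8 × ZMod 2))

def twist (j : ZMod 2) (i : ZMod 8) : ZMod 8 := if j = 0 then i else 3 * i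

instance : Group SD where
  mul a b := (a.1 + twist a.2 b.1, a.2 + b.2)
  one := ((0 : ZMod 8), (0 : ZMod 2))
  inv a := (-(twist a.2 a.1), a.2)
  mul_assoc := by decide +kernel
  one_mul := by decide +kernel
  mul_one := by decide +kernel
  inv_mul_cancel := by decide +kernel

def om (v : VV) : VV := (v.1 - v.2, v.1 + v.2)
def sg (v : VV) : VV := (v.1, -v.2)
def act (h : SD) (v : VV) : VV := om^[h.1.val] (if h.2 = 0 then v else sg v)

theorem act_inv_left : ∀ (h : SD) (v : VV), act h⁻¹ (act h v) = v := by decide +kernel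
theorem act_inv_right : ∀ (h : SD) (v : VV), act h (act h⁻¹ v) = v := by decide +kernel
theorem act_add : ∀ (h : SD) (v w : VV), act h (v + w) = act h v + act h w := by decide +kernel
theorem act_one : ∀ (v : VV), act 1 v = v := by decide +kernel
theorem act_mul : ∀ (h k : SD) (v : VV), act (h * k) v = act h (act k v) := by decide +kernel

def actE (h : SD) : MulAut (Multiplicative VV) where
  toFun v := Multiplicative.ofAdd (act h v.toAdd)
  invFun v := Multiplicative.ofAdd (act h⁻¹ v.toAdd)
  left_inv v := act_inv_left h v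
  right_inv v := act_inv_right h v
  map_mul' v w := act_add h v w

def phi : SD →* MulAut (Multiplicative VV) where
  toFun := actE
  map_one' := by
    apply MulEquiv.ext
    intro v
    exact act_one v
  map_mul' h k := by
    apply MulEquiv.ext
    intro v
    exact act_mul h k v

abbrev GG := SemidirectProduct (Multiplicative VV) SD phi

/-- the involution -/
def tt : GG := SemidirectProduct.inr ((0 : ZMod 8), (1 : ZMod 2))

def mkG (v : Multiplicative VV) (h : SD) : GG := ⟨v, h⟩

theorem key_decide : ∀ (v : Multiplicative VV) (h : SD), ∃ (w : Multiplicative VV) (k : SD),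
    (mkG w k * mkG v h * (mkG w k)⁻¹).left = 1 ∨
      (mkG w k * mkG v h * (mkG w k)⁻¹) * tt = tt * (mkG w k * mkG v h * (mkG w k)⁻¹) := by
  decide +kernel

theorem tt_sq : tt * tt = 1 := by decide +kernel
theorem tt_ne : tt ≠ 1 := by decide +kernel
def uu : GG := SemidirectProduct.inl (Multiplicative.ofAdd ((0 : ZMod 3), (1 : ZMod 3)))
theorem comm_ne : tt * uu * tt⁻¹ * uu⁻¹ ≠ 1 := by decide +kernel
theorem comm_cube : (tt * uu * tt⁻¹ * uu⁻¹) ^ 3 = 1 := by decide +kernel

theorem card_SD : Nat.card SD = 16 := by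
  rw [Nat.card_eq_fintype_card]
  decide +kernel

theorem isPGroup_SD : IsPGroup 2 SD :=
  IsPGroup.of_card (n := 4) (by rw [card_SD]; norm_num)

instance : Finite GG := Finite.of_equiv _ SemidirectProduct.equivProd.symm



/-- There is a finite solvable group G with a subgroup A of order 2 such that every conjugacy class of G contains an element g for which A is subnormal in the subgroup generated by A and g, and yet A is not contained in O_2(G). (So the corresponding criteria for odd primes fail at the prime 2, even for solvable groups.) -/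
theorem result :
    ∃ (G : Type) (_ : Group G) (_ : Finite G) (A : Subgroup G), Group.IsSolvable G ∧ Nat.card A = 2 ∧
      (∀ c : G, ∃ g : G, IsConj c g ∧ (A.subgroupOf (A ⊔ Subgroup.zpowers g)).IsSubnormal) ∧
      ¬ A ≤ Cfsg.pCore 2 G := by
  haveI hSDnil : Group.IsNilpotent SD := isPGroup_SD.isNilpotent
  refine ⟨GG, inferInstance, inferInstance, Subgroup.zpowers tt, ?_, ?_, ?_, ?_⟩
  · refine solvable_of_ker_le_range (SemidirectProduct.inl : Multiplicative VV →* GG)
      (SemidirectProduct.rightHom : GG →* SD) ?_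
    rw [SemidirectProduct.range_inl_eq_ker_rightHom]
  · rw [Nat.card_zpowers]
    exact orderOf_eq_prime (by rw [sq]; exact tt_sq) tt_ne
  · rintro ⟨v, h⟩
    obtain ⟨w, k, hwk⟩ := key_decide v h
    set x := mkG w k with hx
    set g := x * mkG v h * x⁻¹ with hg
    refine ⟨g, isConj_iff.2 ⟨x, rfl⟩, ?_⟩
    rcases hwk with h1 | h1
    · -- inside the complement, a 2-group
      let R : Subgroup GG := (SemidirectProduct.inr : SD →* GG).range
      have hR : IsPGroup 2 R := by
        have := isPGroup_SD.of_surjective ((SemidirectProduct.inr : SD →* GG).rangeRestrict)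
          (MonoidHom.rangeRestrict_surjective _)
        exact this
      have htR : tt ∈ R := ⟨_, rfl⟩
      have hgR : g ∈ R := by
        refine ⟨g.right, ?_⟩
        apply SemidirectProduct.ext
        · simpa using h1.symm
        · simp
      have hT : Subgroup.zpowers tt ⊔ Subgroup.zpowers g ≤ R :=
        sup_le ((Subgroup.zpowers_le).2 htR) ((Subgroup.zpowers_le).2 hgR)
      have hTp : IsPGroup 2 ↥(Subgroup.zpowers tt ⊔ Subgroup.zpowers g) := hR.to_le hT
      haveI : Group.IsNilpotent ↥(Subgroup.zpowers tt ⊔ Subgroup.zpowers g) := hTp.isNilpotent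
      exact Cfsg.Agent.Lib.PReduced.SubnormalClosure.isSubnormal_of_isNilpotent _
    · -- commuting
      have e3 : Commute g tt := h1
      apply Subgroup.Normal.isSubnormal
      rw [Subgroup.normal_subgroupOf_iff_le_normalizer le_sup_left]
      apply sup_le Subgroup.le_normalizer
      rw [Subgroup.le_normalizer_iff]
      rintro a ⟨m, rfl⟩ b ⟨l, rfl⟩
      have e4 : Commute ((fun x => g ^ x) m) ((fun x => tt ^ x) l) := (e3.zpow_zpow m l)
      rw [e4.eq]
      simp
  · intro hle
    have htt : tt ∈ Cfsg.pCore 2 GG := hle (Subgroup.mem_zpowers tt)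
    have ha : tt * uu * tt⁻¹ * uu⁻¹ ∈ Cfsg.pCore 2 GG := by
      have e : tt * uu * tt⁻¹ * uu⁻¹ = tt * (uu * tt⁻¹ * uu⁻¹) := by group
      rw [e]
      exact mul_mem htt ((inferInstance : (Cfsg.pCore 2 GG).Normal).conj_mem _ (inv_mem htt) uu)
    obtain ⟨k, hk⟩ := Cfsg.Agent.Lib.Core.Basic.pCore_isPGroup (G := GG) (p := 2)
      ⟨_, ha⟩
    have hk' : (tt * uu * tt⁻¹ * uu⁻¹) ^ (2 ^ k) = 1 := congrArg Subtype.val hk
    have h1 : orderOf (tt * uu * tt⁻¹ * uu⁻¹) ∣ 2 ^ k := orderOf_dvd_of_pow_eq_one hk'
    have h2 : orderOf (tt * uu * tt⁻¹ * uu⁻¹) ∣ 3 := orderOf_dvd_of_pow_eq_one comm_cube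
    have h3 : Nat.Coprime (2 ^ k) 3 := Nat.Coprime.pow_left k (by norm_num)
    have h4 : orderOf (tt * uu * tt⁻¹ * uu⁻¹) = 1 := Nat.eq_one_of_dvd_coprimes h3 h1 h2
    exact comm_ne (orderOf_eq_one_iff.1 h4)

end Cfsg.Agent.S4331
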