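import Cfsg.Statements.S4332
import Mathlib
import Cfsg.Agent.Lib.FG85.SwapOrb
import Cfsg.Agent.Lib.Core.Basic
import Cfsg.Agent.Lib.Subnormal.Basic
-- import your own Cfsg.Agent.* helpers here

set_option autoImplicit false
open Pointwise
open Cfsg

namespace Cfsg.Agent.S4332

open Equiv
open scoped Pointwise

theorem indep_of {α : Type*} [DecidableEq α] (c : Perm α) (x y z : α)
    (hx : c x ≠ x) (hy : c y ≠ y) (hz : c z ≠ z)
    (h1 : y ∉ ({x, c x, c⁻¹ x} : Finset α)) (h2 : z ∉ ({x, c x, c⁻¹ x} : Finset α))
    (h3 : z ∉ ({y, c y, c⁻¹ y} : Finset α)) :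
    ∃ U : Finset α, U.card = 3 ∧ (U.image c = U ∨ Disjoint (U.image c) U) := by
  simp only [Finset.mem_insert, Finset.mem_singleton, not_or] at h1 h2 h3
  obtain ⟨h1a, h1b, h1c⟩ := h1
  obtain ⟨h2a, h2b, h2c⟩ := h2
  obtain ⟨h3a, h3b, h3c⟩ := h3
  have key : ∀ a b : α, a ≠ c⁻¹ b → c a ≠ b := fun a b h e => h (by rw [← e]; simp)
  refine ⟨{x, y, z}, ?_, Or.inr ?_⟩
  · rw [Finset.card_eq_three]
    exact ⟨x, y, z, fun e => h1a e.symm, fun e => h2a e.symm, fun e => h3a e.symm, rfl⟩
  · rw [Finset.disjoint_left]
    intro w hw hw'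
    rw [Finset.mem_image] at hw
    obtain ⟨u, hu, rfl⟩ := hw
    simp only [Finset.mem_insert, Finset.mem_singleton] at hu hw'
    rcases hu with rfl | rfl | rfl
    · rcases hw' with e | e | e
      · exact hx e
      · exact h1b e.symm
      · exact h2b e.symm
    · rcases hw' with e | e | e
      · exact key _ _ h1c e
      · exact hy e
      · exact h3b e.symm
    · rcases hw' with e | e | e
      · exact key _ _ h2c e
      · exact key _ _ h3c e
      · exact hz e

theorem exists_triple (c : Perm (Fin 8)) :
    ∃ U : Finset (Fin 8), U.card = 3 ∧ (U.image c = U ∨ Disjoint (U.image c) U) := by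
  classical
  set F : Finset (Fin 8) := Finset.univ.filter (fun x => c x = x) with hF
  set N : Finset (Fin 8) := Finset.univ.filter (fun x => c x ≠ x) with hN
  have hFN : F.card + N.card = 8 := by
    have := Finset.card_filter_add_card_filter_not (s := (Finset.univ : Finset (Fin 8)))
      (fun x => c x = x)
    simpa using this
  have hNmem : ∀ x, x ∈ N ↔ c x ≠ x := fun x => by simp [hN]
  have hFmem : ∀ x, x ∈ F ↔ c x = x := fun x => by simp [hF]
  by_cases h3 : 3 ≤ F.card
  · obtain ⟨U, hUF, hU⟩ := Finset.exists_subset_card_eq h3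
    refine ⟨U, hU, Or.inl ?_⟩
    ext x
    rw [Finset.mem_image]
    constructor
    · rintro ⟨u, hu, rfl⟩
      rw [(hFmem u).1 (hUF hu)]
      exact hu
    · intro hx
      exact ⟨x, hx, (hFmem x).1 (hUF hx)⟩
  · -- the neighbourhood of a point
    let D : Fin 8 → Finset (Fin 8) := fun x => {x, c x, c⁻¹ x}
    have hD : ∀ x, (D x).card ≤ 3 := fun x => Finset.card_le_three
    by_cases h1 : F.card ≤ 1
    · -- greedy
      have hN7 : 7 ≤ N.card := by omega
      obtain ⟨x, hx⟩ : N.Nonempty := Finset.card_pos.1 (by omega)
      have hN1 : 4 ≤ (N \ D x).card := by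
        have := Finset.le_card_sdiff (D x) N
        have := hD x
        omega
      obtain ⟨y, hy⟩ : (N \ D x).Nonempty := Finset.card_pos.1 (by omega)
      have hN2 : 1 ≤ ((N \ D x) \ D y).card := by
        have := Finset.le_card_sdiff (D y) (N \ D x)
        have := hD y
        omega
      obtain ⟨z, hz⟩ : ((N \ D x) \ D y).Nonempty := Finset.card_pos.1 (by omega)
      rw [Finset.mem_sdiff] at hy hz
      rw [Finset.mem_sdiff] at hz
      exact indep_of c x y z ((hNmem x).1 hx) ((hNmem y).1 hy.1)
        ((hNmem z).1 hz.1.1) hy.2 hz.1.2 hz.2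
    · have hF2 : F.card = 2 := by omega
      have hN6 : N.card = 6 := by omega
      obtain ⟨x, hx⟩ : N.Nonempty := Finset.card_pos.1 (by omega)
      have hxN : c x ≠ x := (hNmem x).1 hx
      by_cases h2c : c (c x) = x
      · -- a 2-cycle and a fixed point
        obtain ⟨f, hf⟩ : F.Nonempty := Finset.card_pos.1 (by omega)
        have hff : c f = f := (hFmem f).1 hf
        refine ⟨{x, c x, f}, ?_, Or.inl ?_⟩
        · rw [Finset.card_eq_three]
          refine ⟨x, c x, f, hxN.symm, ?_, ?_, rfl⟩
          · rintro rfl; exact hxN hff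
          · intro e
            apply hxN
            rw [← e] at hff
            exact c.injective hff
        · ext w
          simp only [Finset.mem_image, Finset.mem_insert, Finset.mem_singleton]
          constructor
          · rintro ⟨u, (rfl | rfl | rfl), rfl⟩
            · exact Or.inr (Or.inl rfl)
            · exact Or.inl h2c
            · exact Or.inr (Or.inr hff)
          · rintro (rfl | rfl | rfl)
            · exact ⟨c w, Or.inr (Or.inl rfl), h2c⟩
            · exact ⟨x, Or.inl rfl, rfl⟩
            · exact ⟨w, Or.inr (Or.inr rfl), hff⟩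
      · have hDcard : (D x).card = 3 := by
          rw [Finset.card_eq_three]
          refine ⟨x, c x, c⁻¹ x, hxN.symm, ?_, ?_, rfl⟩
          · intro e
            apply hxN
            have : c x = c (c⁻¹ x) := by rw [← e]
            simpa using this
          · intro e
            apply h2c
            have : c (c x) = c (c⁻¹ x) := by rw [e]
            simpa using this
        have hDsub : D x ⊆ N := by
          intro w hw
          simp only [D, Finset.mem_insert, Finset.mem_singleton] at hw
          rw [hNmem]
          rcases hw with rfl | rfl | rfl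
          · exact hxN
          · intro e; exact hxN (c.injective e)
          · intro e
            apply hxN
            have e2 : c (c⁻¹ x) = x := by simp
            rw [e] at e2
            exact ((Perm.inv_eq_iff_eq).1 e2).symm
        have hN1 : (N \ D x).card = 3 := by
          rw [Finset.card_sdiff_of_subset hDsub, hDcard, hN6]
        by_cases hinv : ∀ y ∈ N \ D x, c y ∈ N \ D x
        · refine ⟨N \ D x, hN1, Or.inl ?_⟩
          apply Finset.eq_of_subset_of_card_le
          · intro w hw
            rw [Finset.mem_image] at hw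
            obtain ⟨u, hu, rfl⟩ := hw
            exact hinv u hu
          · rw [Finset.card_image_of_injective _ c.injective]
        · push Not at hinv
          obtain ⟨y, hy, hcy⟩ := hinv
          have hN2 : 1 ≤ ((N \ D x) \ {y, c⁻¹ y}).card := by
            have h5 := Finset.le_card_sdiff ({y, c⁻¹ y} : Finset (Fin 8)) (N \ D x)
            have h6 : ({y, c⁻¹ y} : Finset (Fin 8)).card ≤ 2 := Finset.card_le_two
            omega
          obtain ⟨z, hz⟩ : ((N \ D x) \ {y, c⁻¹ y}).Nonempty := Finset.card_pos.1 (by omega)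
          rw [Finset.mem_sdiff] at hz
          have hz1 := hz.1
          rw [Finset.mem_sdiff] at hz1 hy
          have hz2 := hz.2
          simp only [Finset.mem_insert, Finset.mem_singleton, not_or] at hz2
          refine indep_of c x y z hxN ((hNmem y).1 hy.1) ((hNmem z).1 hz1.1) hy.2 hz1.2 ?_
          simp only [Finset.mem_insert, Finset.mem_singleton, not_or]
          refine ⟨hz2.1, ?_, hz2.2⟩
          rintro rfl
          exact hcy hz.1

theorem three_cycle_aux {α : Type*} [DecidableEq α] [Fintype α] (σ τ : Perm α)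
    (hσ : σ.IsThreeCycle) (hτ : τ.IsThreeCycle) (h : τ.support = σ.support) (x : α)
    (hx : x ∈ σ.support) (hxe : τ x = σ x) : τ = σ := by
  have hσ3 : ∀ y, σ (σ (σ y)) = y := fun y => by
    have : σ ^ 3 = 1 := by rw [← hσ.orderOf]; exact pow_orderOf_eq_one σ
    simpa [pow_succ, Perm.mul_apply] using congrArg (fun f : Perm α => f y) this
  have hτ3 : ∀ y, τ (τ (τ y)) = y := fun y => by
    have : τ ^ 3 = 1 := by rw [← hτ.orderOf]; exact pow_orderOf_eq_one τ
    simpa [pow_succ, Perm.mul_apply] using congrArg (fun f : Perm α => f y) this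
  have hx1 : σ x ≠ x := Perm.mem_support.1 hx
  have hx1' : τ x ≠ x := by rw [hxe]; exact hx1
  have hx2 : σ (σ x) ≠ x := by
    intro e
    apply hx1
    have := hσ3 x
    rw [e] at this
    exact this
  have hx3 : σ (σ x) ≠ σ x := fun e => hx1 (σ.injective e)
  have hS : σ.support = {x, σ x, σ (σ x)} := by
    symm
    apply Finset.eq_of_subset_of_card_le
    · intro w hw
      simp only [Finset.mem_insert, Finset.mem_singleton] at hw
      rcases hw with rfl | rfl | rfl
      · exact hx
      · exact Perm.apply_mem_support.2 hx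
      · exact Perm.apply_mem_support.2 (Perm.apply_mem_support.2 hx)
    · rw [hσ.card_support]
      have : ({x, σ x, σ (σ x)} : Finset α).card = 3 := by
        rw [Finset.card_eq_three]
        exact ⟨x, σ x, σ (σ x), hx1.symm, hx2.symm, hx3.symm, rfl⟩
      omega
  have hτ2 : τ (τ x) ∈ σ.support := by
    rw [← h]
    apply Perm.apply_mem_support.2
    apply Perm.apply_mem_support.2
    rw [h]; exact hx
  have hτ2e : τ (τ x) = σ (σ x) := by
    rw [hS] at hτ2
    simp only [Finset.mem_insert, Finset.mem_singleton] at hτ2
    rcases hτ2 with e | e | e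
    · exfalso
      apply hx1'
      have := hτ3 x
      rw [e] at this
      exact this
    · exfalso
      rw [← hxe] at e
      exact hx1' (τ.injective e)
    · exact e
  ext y
  by_cases hy : y ∈ σ.support
  · rw [hS] at hy
    simp only [Finset.mem_insert, Finset.mem_singleton] at hy
    rcases hy with rfl | rfl | rfl
    · rw [hxe]
    · rw [← hxe, hτ2e, hxe]
    · rw [← hτ2e, hτ3, hτ2e, hσ3]
  · have h1 : σ y = y := Perm.notMem_support.1 hy
    have h2 : τ y = y := Perm.notMem_support.1 (by rw [h]; exact hy)
    rw [h1, h2]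

theorem three_cycle_eq {α : Type*} [DecidableEq α] [Fintype α] (σ τ : Perm α)
    (hσ : σ.IsThreeCycle) (hτ : τ.IsThreeCycle) (h : τ.support = σ.support) :
    τ = σ ∨ τ = σ⁻¹ := by
  have hne : σ.support.Nonempty := by
    rw [← Finset.card_pos, hσ.card_support]; omega
  obtain ⟨x, hx⟩ := hne
  have hx1 : σ x ≠ x := Perm.mem_support.1 hx
  have hσ3 : σ (σ (σ x)) = x := by
    have : σ ^ 3 = 1 := by rw [← hσ.orderOf]; exact pow_orderOf_eq_one σ
    simpa [pow_succ, Perm.mul_apply] using congrArg (fun f : Perm α => f x) this
  have hx2 : σ (σ x) ≠ x := by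
    intro e
    apply hx1
    rw [e] at hσ3
    exact hσ3
  have hx3 : σ (σ x) ≠ σ x := fun e => hx1 (σ.injective e)
  have hS : σ.support = {x, σ x, σ (σ x)} := by
    symm
    apply Finset.eq_of_subset_of_card_le
    · intro w hw
      simp only [Finset.mem_insert, Finset.mem_singleton] at hw
      rcases hw with rfl | rfl | rfl
      · exact hx
      · exact Perm.apply_mem_support.2 hx
      · exact Perm.apply_mem_support.2 (Perm.apply_mem_support.2 hx)
    · rw [hσ.card_support]
      have : ({x, σ x, σ (σ x)} : Finset α).card = 3 := by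
        rw [Finset.card_eq_three]
        exact ⟨x, σ x, σ (σ x), hx1.symm, hx2.symm, hx3.symm, rfl⟩
      omega
  have hτx : τ x ∈ σ.support := by
    rw [← h]
    apply Perm.apply_mem_support.2
    rw [h]; exact hx
  have hτne : τ x ≠ x := Perm.mem_support.1 (by rw [h]; exact hx)
  rw [hS] at hτx
  simp only [Finset.mem_insert, Finset.mem_singleton] at hτx
  rcases hτx with e | e | e
  · exact absurd e hτne
  · exact Or.inl (three_cycle_aux σ τ hσ hτ h x hx e)
  · right
    refine three_cycle_aux σ⁻¹ τ hσ.inv hτ (by rw [h, Perm.support_inv]) x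
      (by rw [Perm.support_inv]; exact hx) ?_
    rw [e, eq_comm, Perm.inv_eq_iff_eq]
    exact hσ3.symm



/-- In the symmetric group of degree 8, let A be the subgroup generated by a 3-cycle. Then every conjugacy class contains an element g for which A is subnormal in the subgroup generated by A and its conjugate by g, although O_3 of the symmetric group of degree 8 is trivial. -/
theorem result
    (σ : Equiv.Perm (Fin 8)) (hσ : σ.IsThreeCycle) :
    (∀ c : Equiv.Perm (Fin 8), ∃ g : Equiv.Perm (Fin 8), IsConj c g ∧
      ((Subgroup.zpowers σ).subgroupOf (Subgroup.zpowers σ ⊔ MulAut.conj g • Subgroup.zpowers σ)).IsSubnormal) ∧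
    Cfsg.pCore 3 (Equiv.Perm (Fin 8)) = ⊥ := by
  classical
  constructor
  · intro c
    obtain ⟨U, hU, hcU⟩ := exists_triple c
    have hS : σ.support.card = U.card := by rw [hσ.card_support, hU]
    -- a permutation moving `σ.support` to `U`
    obtain ⟨h, hh⟩ : ∃ h : Perm (Fin 8), σ.support.image h = U := by
      let e0 : {x // x ∈ σ.support} ≃ {x // x ∈ U} := Finset.equivOfCardEq hS
      refine ⟨e0.extendSubtype, ?_⟩
      apply Finset.eq_of_subset_of_card_le
      · intro w hw
        rw [Finset.mem_image] at hw
        obtain ⟨u, hu, rfl⟩ := hw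
        exact Equiv.extendSubtype_mem e0 u hu
      · rw [Finset.card_image_of_injective _ (Equiv.injective _), hS]
    set g := h⁻¹ * c * h with hg
    have hconj : IsConj c g := by
      rw [isConj_iff]
      exact ⟨h⁻¹, by rw [hg]; group⟩
    refine ⟨g, hconj, ?_⟩
    set τ := g * σ * g⁻¹ with hτdef
    have hτ : τ.IsThreeCycle := by
      rw [Perm.IsThreeCycle, hτdef, Perm.cycleType_conj]
      exact hσ
    have hconjA : MulAut.conj g • Subgroup.zpowers σ = Subgroup.zpowers τ := by
      ext x
      rw [Cfsg.Agent.Lib.Subnormal.Basic.mem_conj, Subgroup.mem_zpowers_iff, Subgroup.mem_zpowers_iff]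
      constructor
      · rintro ⟨k, hk⟩
        refine ⟨k, ?_⟩
        rw [hτdef, conj_zpow, hk]
        group
      · rintro ⟨k, rfl⟩
        refine ⟨k, ?_⟩
        rw [hτdef, conj_zpow]
        group
    rw [hconjA]
    have hsupp : τ.support = σ.support.map g.toEmbedding := by
      rw [hτdef, Perm.support_conj]
    have hsupp' : τ.support = σ.support.image g := by
      rw [hsupp, Finset.map_eq_image]
      rfl
    have him : σ.support.image g = (U.image c).image (⇑h⁻¹) := by
      rw [← hh, Finset.image_image, Finset.image_image]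
      congr 1
    have hUS : U.image (⇑h⁻¹) = σ.support := by
      rw [← hh, Finset.image_image]
      have e5 : (⇑h⁻¹ ∘ ⇑h) = id := by
        funext x
        simp
      rw [e5, Finset.image_id]
    rcases hcU with hinv | hdis
    · have e1 : τ.support = σ.support := by
        rw [hsupp', him, hinv, hUS]
      have e2 : Subgroup.zpowers τ = Subgroup.zpowers σ := by
        rcases three_cycle_eq σ τ hσ hτ e1 with e3 | e3
        · rw [e3]
        · rw [e3, Subgroup.zpowers_inv]
      rw [e2, sup_idem, Subgroup.subgroupOf_self]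
      exact Subgroup.IsSubnormal.top
    · have e1 : Disjoint τ.support σ.support := by
        rw [hsupp', him, ← hUS]
        exact (Finset.disjoint_image (Equiv.injective _)).2 hdis
      have e2 : Perm.Disjoint τ σ := Perm.disjoint_iff_disjoint_support.2 e1
      have e3 : Commute τ σ := e2.commute
      apply Subgroup.Normal.isSubnormal
      rw [Subgroup.normal_subgroupOf_iff_le_normalizer le_sup_left]
      apply sup_le Subgroup.le_normalizer
      rw [Subgroup.le_normalizer_iff]
      rintro a ⟨k, rfl⟩ b ⟨l, rfl⟩
      have e4 : Commute ((fun x => τ ^ x) k) ((fun x => σ ^ x) l) := (e3.zpow_zpow k l)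
      rw [e4.eq]
      simp
  · by_contra hne
    have hd := Cfsg.Agent.Lib.FG85.SwapOrb.card_dvd_of_normal (Cfsg.pCore 3 (Perm (Fin 8))) hne
    rw [Nat.card_eq_fintype_card, Fintype.card_fin] at hd
    haveI : Fact (Nat.Prime 3) := ⟨by norm_num⟩
    obtain ⟨k, hk⟩ := IsPGroup.iff_card.1 (Cfsg.Agent.Lib.Core.Basic.pCore_isPGroup (G := Perm (Fin 8)) (p := 3))
    rw [hk] at hd
    have h2 : 2 ∣ 3 ^ k := (by norm_num : 2 ∣ 8).trans hd
    have := Nat.Prime.dvd_of_dvd_pow Nat.prime_two h2
    omega

end Cfsg.Agent.S4332
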