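import Cfsg.Statements.S4333
import Mathlib
import Cfsg.Agent.Lib.Subnormal.Basic
-- import your own Cfsg.Agent.* helpers here

set_option autoImplicit false
open Pointwise
open Cfsg

namespace Cfsg.Agent.S4333

open Cfsg.Agent.Lib.Subnormal.Basic
open scoped Pointwise

theorem main_aux {G : Type*} [Group G] [Finite G] (A : Subgroup G)
    (h : ∀ a ∈ A, ∀ g : G, SN A (A ⊔ MulAut.conj (g⁻¹ * a * g) • A)) :
    ∀ T, A ≤ T → SN A T := by
  intro T
  induction T using WellFoundedLT.induction with
  | _ T ih =>
    intro hAT
    by_contra hn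
    have hpr : ∀ U, A ≤ U → U < T → SN A U := fun U h1 h2 => ih U h2 h1
    have hAne : A < T := lt_of_le_of_ne hAT (fun h1 => hn (h1 ▸ SN.refl _))
    obtain ⟨M, hM, hAM⟩ := exists_isMaxIn hAne
    have hall : ∀ t ∈ T, ∀ a ∈ A, MulAut.conj (t⁻¹ * a * t) • A ≤ M := by
      intro t ht a ha
      have hcT : t⁻¹ * a * t ∈ T := mul_mem (mul_mem (inv_mem ht) (hAT ha)) ht
      have hle : A ⊔ MulAut.conj (t⁻¹ * a * t) • A ≤ T := sup_le hAT (conj_le_of_mem hcT hAT)
      rcases hle.eq_or_lt with heq | hlt
      · exact absurd (heq ▸ h a ha t) hn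
      · obtain ⟨M', hM', hle'⟩ := exists_isMaxIn hlt
        have : M' = M := zipper hAT hn hpr M' M hM' hM (le_sup_left.trans hle') hAM
        rw [← this]
        exact le_sup_right.trans hle'
    have hconjT : ∀ y ∈ T, MulAut.conj y • T = T := fun y hy =>
      conj_eq_of_mem_normalizer (Subgroup.le_normalizer hy)
    -- these conjugates normalize `M`
    have hnorm : ∀ t ∈ T, ∀ a ∈ A, t⁻¹ * a * t ∈ Subgroup.normalizer (M : Set G) := by
      intro t ht a ha
      set c := t⁻¹ * a * t with hc
      have hcT : c ∈ T := mul_mem (mul_mem (inv_mem ht) (hAT ha)) ht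
      have hM2 : IsMaxIn T (MulAut.conj c⁻¹ • M) := by
        constructor
        · refine lt_of_le_of_ne (conj_le_of_mem (inv_mem hcT) hM.1.le) ?_
          intro e
          have h1 : M = T := by
            have h2 := conj_conj_inv c M
            have h3 : MulAut.conj c • T = T := hconjT c hcT
            rw [e, h3] at h2
            exact h2.symm
          exact hM.1.ne h1
        · intro V hV hVT
          have h1 : M < MulAut.conj c • V := by
            have h2 := conj_conj_inv c M
            have h3 : MulAut.conj c • (MulAut.conj c⁻¹ • M) ≤ MulAut.conj c • V := conj_mono hV.le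
            rw [h2] at h3
            refine lt_of_le_of_ne h3 ?_
            intro e
            have h4 := conj_inv_conj c V
            rw [← e] at h4
            exact hV.ne h4
          have h5 : MulAut.conj c • V < T := by
            refine lt_of_le_of_ne (conj_le_of_mem hcT hVT.le) ?_
            intro e
            have h4 := conj_inv_conj c V
            rw [e] at h4
            have h8 : MulAut.conj c⁻¹ • T = T := hconjT c⁻¹ (inv_mem hcT)
            rw [h8] at h4
            exact hVT.ne h4.symm
          exact hM.2 _ h1 h5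
      have hAM2 : A ≤ MulAut.conj c⁻¹ • M := by
        have := conj_mono (g := c⁻¹) (hall t ht a ha)
        rwa [conj_inv_conj] at this
      have he := zipper hAT hn hpr _ M hM2 hM hAM2 hAM
      apply mem_normalizer_of_conj_eq
      have h9 := conj_conj_inv c M
      rwa [he] at h9
    let J : Subgroup G := Subgroup.closure {c | ∃ t ∈ T, ∃ a ∈ A, c = t⁻¹ * a * t}
    have hAJ : A ≤ J := by
      intro a ha
      exact Subgroup.subset_closure ⟨1, one_mem _, a, ha, by simp⟩
    have hJT : J ≤ T := by
      rw [Subgroup.closure_le]
      rintro c ⟨t, ht, a, ha, rfl⟩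
      exact mul_mem (mul_mem (inv_mem ht) (hAT ha)) ht
    have hTJ : T ≤ Subgroup.normalizer (J : Set G) := by
      apply Subgroup.le_normalizer_closure_iff.2
      intro y hy c hc
      obtain ⟨t, ht, a, ha, rfl⟩ := hc
      apply Subgroup.subset_closure
      refine ⟨t * y⁻¹, mul_mem ht (inv_mem hy), a, ha, by group⟩
    have hJM : J ≤ Subgroup.normalizer (M : Set G) := by
      rw [Subgroup.closure_le]
      rintro c ⟨t, ht, a, ha, rfl⟩
      exact hnorm t ht a ha
    rcases hJT.eq_or_lt with heq | hlt
    · apply hn
      refine (hpr M hAM hM.1).trans (SN.of_le_normalizer hM.1.le ?_)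
      rw [← heq]
      exact hJM
    · apply hn
      exact (hpr J hAJ hlt).trans (SN.of_le_normalizer hJT hTJ)



/-- Let A be a subgroup of a finite group G. If A is subnormal in the subgroup generated by A and its conjugate by g⁻¹ a g, for every a ∈ A and every g ∈ G, then A is subnormal in G. (A sharpening of Wielandt's subnormality criterion: only conjugates of A by conjugates of elements of A are needed.) -/
theorem result {G : Type*} [Group G] [Finite G]
    (A : Subgroup G)
    (h : ∀ a ∈ A, ∀ g : G, (A.subgroupOf (A ⊔ MulAut.conj (g⁻¹ * a * g) • A)).IsSubnormal) :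
    A.IsSubnormal := by
  rw [isSubnormal_iff_SN_top]
  exact main_aux A (fun a ha g => SN_of_isSubnormal_subgroupOf le_sup_left (h a ha g)) ⊤ le_top

end Cfsg.Agent.S4333
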