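import Cfsg.Statements.S4334
import Cfsg.Agent.Lib.Solvable.WielandtHall

set_option autoImplicit false
open Cfsg

namespace Cfsg.Agent.S4334

/-- Let σ and τ be disjoint sets of primes with union π. Suppose a finite group G has a Hall π-subgroup H which is the direct product of a nilpotent σ-subgroup and a τ-subgroup (two elementwise-commuting subgroups generating H), and that the maximal τ-subgroups of G are pairwise conjugate. Then the maximal π-subgroups of G are pairwise conjugate. -/
theorem result {G : Type*} [Group G] [Finite G]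
    (σ τ π : Set ℕ) (hπ : π = σ ∪ τ) (hd : Disjoint σ τ) (H Hs Ht : Subgroup G) (hH : Cfsg.IsPiHall π H)
    (hs : Cfsg.IsPiSubgroup σ Hs) (ht : Cfsg.IsPiSubgroup τ Ht) (hsn : Group.IsNilpotent Hs)
    (hjoin : Hs ⊔ Ht = H) (hcomm : ∀ a ∈ Hs, ∀ b ∈ Ht, a * b = b * a) (hD : Cfsg.IsDPiGroup τ G) :
    Cfsg.IsDPiGroup π G := by
  classical
  have hall := fun K hK => Cfsg.Agent.Lib.Solvable.WielandtHall.exists_le_conj_hall σ τ π hπ hd H Hs Ht hH hs ht hsn hjoin hcomm hD K hK
  have hconj : ∀ g : G, IsPiSubgroup π (H.map (MulAut.conj g).toMonoidHom) := by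
    intro g p hp hd
    apply hH.1 p hp
    rwa [Nat.card_congr ((MulAut.conj g).subgroupMap H).toEquiv]
  have hmax : ∀ K : Subgroup G, Maximal (IsPiSubgroup π) K → ∃ g : G, K = H.map (MulAut.conj g).toMonoidHom := by
    intro K hK
    obtain ⟨g, hg⟩ := hall K hK.1
    exact ⟨g, le_antisymm hg (hK.2 (hconj g) hg)⟩
  intro A B hA hB
  obtain ⟨a, rfl⟩ := hmax A hA
  obtain ⟨b, rfl⟩ := hmax B hB
  refine ⟨b * a⁻¹, ?_⟩
  rw [Subgroup.map_map]
  congr 1
  ext x
  simp [MulAut.conj_apply]
  group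

end Cfsg.Agent.S4334
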