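import Cfsg.Statements.S4337
import Mathlib
import Cfsg.Agent.Lib.FG85.SwapOrb
-- import your own Cfsg.Agent.* helpers here

set_option autoImplicit false
open Cfsg

namespace Cfsg.Agent.S4337

open Cfsg.Agent.Lib.FG85.SwapOrb



/-- In a finite symmetric group, any three transpositions generate a solvable subgroup. -/
theorem result (n : ℕ) (a b c : Equiv.Perm (Fin n))
    (ha : a.IsSwap) (hb : b.IsSwap) (hc : c.IsSwap) :
    Group.IsSolvable (Subgroup.closure ({a, b, c} : Set (Equiv.Perm (Fin n)))) := by
  have e : ({a, b, c} : Set (Equiv.Perm (Fin n))) = Set.range ![a, b, c] := by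
    ext x
    constructor
    · rintro (rfl | rfl | rfl)
      · exact ⟨0, rfl⟩
      · exact ⟨1, rfl⟩
      · exact ⟨2, rfl⟩
    · rintro ⟨i, rfl⟩
      fin_cases i
      · exact Or.inl rfl
      · exact Or.inr (Or.inl rfl)
      · exact Or.inr (Or.inr rfl)
  rw [e]
  apply isSolvable_of_orbit_card_le
  intro z
  refine ⟨inferInstance, ?_⟩
  have := card_orbit_le_of_swaps ![a, b, c] (by
    intro i; fin_cases i
    · exact ha
    · exact hb
    · exact hc) z
  simpa using this

end Cfsg.Agent.S4337
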