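import Cfsg.Statements.S4342
import Cfsg.Agent.Lib.Core.Basic

set_option autoImplicit false
open Cfsg

namespace Cfsg.Agent.S4342

/-- Sylow numbers of `N` normal with `p ∤ [G:N]`: same as for `G`. -/
theorem card_sylow_of_normal {G : Type*} [Group G] [Finite G] (p : ℕ) [Fact p.Prime]
    (H : Subgroup G) [H.Normal] (hp : ¬ p ∣ H.index) :
    Nat.card (Sylow p H) = Nat.card (Sylow p G) := by
  classical
  have hp' : p.Prime := Fact.out
  -- every Sylow of G lies in H
  have hle : ∀ P : Sylow p G, (P : Subgroup G) ≤ H := by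
    intro P
    -- image in G/H trivial
    have h1 : IsPGroup p ((P : Subgroup G).map (QuotientGroup.mk' H)) :=
      P.isPGroup'.map _
    have h2 : Nat.Coprime (Nat.card (G ⧸ H)) p := by
      rw [← Subgroup.index_eq_card]
      exact ((Nat.Prime.coprime_iff_not_dvd hp').mpr hp).symm
    have h3 : (P : Subgroup G).map (QuotientGroup.mk' H) = ⊥ := by
      have h4 : Nat.card ((P : Subgroup G).map (QuotientGroup.mk' H)) ∣ Nat.card (G ⧸ H) :=
        Subgroup.card_subgroup_dvd_card _
      obtain ⟨n, hn⟩ := h1.exists_card_eq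
      rw [hn] at h4
      have h5 : Nat.card ((P : Subgroup G).map (QuotientGroup.mk' H)) = 1 := by
        rw [hn]
        exact Nat.Coprime.eq_one_of_dvd (h2.symm.pow_left n) h4
      exact Subgroup.eq_bot_of_card_eq _ h5
    intro x hx
    have : (QuotientGroup.mk' H) x ∈ (P : Subgroup G).map (QuotientGroup.mk' H) :=
      Subgroup.mem_map_of_mem _ hx
    rw [h3, Subgroup.mem_bot] at this
    exact (QuotientGroup.eq_one_iff x).mp this
  -- bijection
  let F : Sylow p G → Sylow p H := fun P => P.subtype (hle P)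
  have hinj : Function.Injective F := by
    intro P Q hPQ
    have h : (F P : Subgroup H) = (F Q : Subgroup H) := congrArg _ hPQ
    rw [Sylow.ext_iff]
    have h2 := congrArg (Subgroup.map H.subtype) h
    simpa [F, Sylow.coe_subtype, Subgroup.subgroupOf_map_subtype, inf_of_le_left (hle P),
      inf_of_le_left (hle Q)] using h2
  have hsurj : Function.Surjective F := by
    intro S
    have hQ : IsPGroup p ((S : Subgroup H).map H.subtype) := S.isPGroup'.map _
    have hQi : ¬ p ∣ ((S : Subgroup H).map H.subtype).index := by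
      rw [Subgroup.index_map_subtype]
      exact Nat.Prime.not_dvd_mul hp' S.not_dvd_index hp
    refine ⟨hQ.toSylow hQi, ?_⟩
    rw [Sylow.ext_iff]
    simp only [F, Sylow.coe_subtype]
    show (((S : Subgroup H).map H.subtype)).subgroupOf H = _
    exact Subgroup.comap_map_eq_self_of_injective H.subtype_injective _
  exact (Nat.card_congr (Equiv.ofBijective F ⟨hinj, hsurj⟩)).symm

theorem card_sylow_quotient_central {H : Type*} [Group H] [Finite H] (p : ℕ) [Fact p.Prime]
    (Z : Subgroup H) [Z.Normal] (hZ : Z ≤ Subgroup.center H) :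
    Nat.card (Sylow p (H ⧸ Z)) = Nat.card (Sylow p H) := by
  classical
  have hp' : p.Prime := Fact.out
  have hf : Function.Surjective (QuotientGroup.mk' Z) := QuotientGroup.mk'_surjective Z
  have hsurj := Sylow.mapSurjective_surjective hf p
  refine (Nat.card_congr (Equiv.ofBijective (Sylow.mapSurjective hf) ⟨?_, hsurj⟩)).symm
  -- key: central p-elements lie in every Sylow
  have hcentral : ∀ (P : Sylow p H) (z : H), z ∈ Subgroup.center H → (∃ k, z ^ p ^ k = 1) →
      z ∈ (P : Subgroup H) := by
    intro P z hz hk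
    have hn : (Subgroup.zpowers z).Normal := by
      refine ⟨fun x hx g => ?_⟩
      obtain ⟨m, rfl⟩ := Subgroup.mem_zpowers_iff.mp hx
      have hc : g * z ^ m * g⁻¹ = z ^ m := by
        have : Commute g (z ^ m) := Commute.zpow_right ((Subgroup.mem_center_iff.mp hz g)) m
        rw [this.eq, mul_inv_cancel_right]
      rw [hc]
      exact Subgroup.zpow_mem _ (Subgroup.mem_zpowers z) m
    have hpz : IsPGroup p (Subgroup.zpowers z) := by
      obtain ⟨k, hk⟩ := hk
      apply IsPGroup.iff_orderOf.mpr
      rintro ⟨y, hy⟩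
      obtain ⟨m, rfl⟩ := Subgroup.mem_zpowers_iff.mp hy
      have hdvd : orderOf (z ^ m) ∣ p ^ k := by
        apply orderOf_dvd_of_pow_eq_one
        rw [← zpow_natCast, ← zpow_mul, mul_comm, zpow_mul, zpow_natCast, hk, one_zpow]
      obtain ⟨j, -, hj⟩ := (Nat.dvd_prime_pow hp').mp hdvd
      refine ⟨j, ?_⟩
      rw [Subgroup.orderOf_mk]
      exact hj
    have h1 := Cfsg.Agent.Lib.Core.Basic.le_pCore hn hpz
    have h2 := Cfsg.Agent.Lib.Core.Basic.pCore_le_sylow (p := p) P
    exact h2 (h1 (Subgroup.mem_zpowers z))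
  have hle : ∀ P Q : Sylow p H, (P : Subgroup H).map (QuotientGroup.mk' Z) =
      (Q : Subgroup H).map (QuotientGroup.mk' Z) → (Q : Subgroup H) ≤ P := by
    intro P Q hPQ y hy
    have h1 : (QuotientGroup.mk' Z) y ∈ (P : Subgroup H).map (QuotientGroup.mk' Z) := by
      rw [hPQ]; exact Subgroup.mem_map_of_mem _ hy
    obtain ⟨x, hx, hxy⟩ := h1
    have h2 : x⁻¹ * y ∈ Z := by
      rw [← QuotientGroup.eq]
      exact hxy
    have h3 : x⁻¹ * y ∈ Subgroup.center H := hZ h2
    -- x⁻¹ y is a p-element
    have hz : ∃ k, (x⁻¹ * y) ^ p ^ k = 1 := by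
      obtain ⟨a, ha⟩ := (IsPGroup.iff_orderOf.mp P.isPGroup') ⟨x, hx⟩
      obtain ⟨b, hb⟩ := (IsPGroup.iff_orderOf.mp Q.isPGroup') ⟨y, hy⟩
      rw [Subgroup.orderOf_mk] at ha hb
      have hcomm : Commute x y := by
        have : y = x * (x⁻¹ * y) := by group
        rw [this]
        exact (Commute.refl x).mul_right ((Subgroup.mem_center_iff.mp h3 x).symm.symm)
      refine ⟨a + b, ?_⟩
      rw [(hcomm.inv_left).mul_pow]
      have h4 : y ^ p ^ (a + b) = 1 := by
        rw [pow_add, mul_comm, pow_mul, ← hb, pow_orderOf_eq_one, one_pow]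
      have h5 : x⁻¹ ^ p ^ (a + b) = 1 := by
        rw [pow_add, pow_mul, inv_pow, ← ha, pow_orderOf_eq_one, inv_one, one_pow]
      rw [h4, h5, one_mul]
    have h6 := hcentral P _ h3 hz
    have : y = x * (x⁻¹ * y) := by group
    rw [this]
    exact (P : Subgroup H).mul_mem hx h6
  intro P Q hPQ
  have h := congrArg (fun R : Sylow p (H ⧸ Z) => (R : Subgroup (H ⧸ Z))) hPQ
  simp only [Sylow.coe_mapSurjective] at h
  rw [Sylow.ext_iff]
  exact le_antisymm (hle Q P h.symm) (hle P Q h)

/-- Let H be a normal subgroup of a finite group G and p a prime not dividing the index of H. Then the number of Sylow p-subgroups of H/Z(H) equals the number of Sylow p-subgroups of G. -/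
theorem result {G : Type*} [Group G] [Finite G]
    (p : ℕ) [Fact p.Prime] (H : Subgroup G) [H.Normal] (hp : ¬ p ∣ H.index) :
    Nat.card (Sylow p (H ⧸ Subgroup.center H)) = Nat.card (Sylow p G) := by
  rw [card_sylow_quotient_central p (Subgroup.center H) le_rfl]
  exact card_sylow_of_normal p H hp


end Cfsg.Agent.S4342
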