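import Cfsg.Statements.S4344
import Mathlib.GroupTheory.Sylow
import Mathlib.GroupTheory.SpecificGroups.Cyclic

set_option autoImplicit false
open Cfsg
open scoped Pointwise

namespace Cfsg.Agent.S4344

/-- Let S be a finite non-abelian simple group, M a maximal subgroup of S and C a cyclic normal subgroup of M. If a Sylow p-subgroup P of S (for a prime p dividing the order of S) is contained in C, then the number of Sylow p-subgroups of S equals the index of M. -/
theorem result {S : Type*} [Group S] [Finite S]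
    [IsSimpleGroup S] (hS : ¬ IsMulCommutative S) (p : ℕ) [Fact p.Prime] (hp : p ∣ Nat.card S)
    (M : Subgroup S) (hM : IsCoatom M) (C : Subgroup S) (hCM : C ≤ M) (hCn : (C.subgroupOf M).Normal)
    (hC : IsCyclic C) (P : Sylow p S) (hP : (P : Subgroup S) ≤ C) :
    Nat.card (Sylow p S) = M.index := by
  classical
  have hcomm : ∀ a ∈ C, ∀ b ∈ C, a * b = b * a := by
    intro a ha b hb
    have := mul_comm' (⟨a, ha⟩ : C) ⟨b, hb⟩
    simpa using congrArg Subtype.val this
  -- `M` normalizes `P`
  have hMN : M ≤ Subgroup.normalizer ((P : Subgroup S) : Set S) := by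
    intro m hm
    have hQC : ((m • P : Sylow p S) : Subgroup S) ≤ C := by
      intro y hy
      have hy' : y ∈ MulAut.conj m • (P : Subgroup S) := hy
      rw [Subgroup.mem_pointwise_smul_iff_inv_smul_mem] at hy'
      have h1 : m⁻¹ * y * m ∈ C := by
        simpa [MulAut.smul_def, MulAut.conj_apply] using hP hy'
      have h2 : (⟨m⁻¹, M.inv_mem hm⟩ : M)⁻¹ * ⟨m⁻¹ * y * m, hCM h1⟩ *
          (⟨m⁻¹, M.inv_mem hm⟩ : M) ∈ C.subgroupOf M := by
        have := hCn.conj_mem ⟨m⁻¹ * y * m, hCM h1⟩ (Subgroup.mem_subgroupOf.mpr h1)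
          (⟨m⁻¹, M.inv_mem hm⟩ : M)⁻¹
        simpa using this
      have h3 := Subgroup.mem_subgroupOf.mp h2
      simpa [mul_assoc] using h3
    set Q : Sylow p S := m • P with hQ
    have hQN : (Q : Subgroup S) ≤ Subgroup.normalizer ((P : Subgroup S) : Set S) := by
      rw [Subgroup.le_normalizer_iff]
      intro q hq y hy
      have : q * y * q⁻¹ = y := by
        rw [hcomm q (hQC hq) y (hP hy)]
        simp
      rwa [this]
    have hsup : IsPGroup p ((Q : Subgroup S) ⊔ (P : Subgroup S) : Subgroup S) :=
      IsPGroup.to_sup_of_normal_right' Q.isPGroup' P.isPGroup' hQN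
    have h4 := P.is_maximal' hsup le_sup_right
    have h5 : (Q : Subgroup S) ≤ P := by
      rw [← h4]; exact le_sup_left
    have h6 : (Q : Subgroup S) = P := Q.is_maximal' P.isPGroup' h5 |>.symm
    have h7 : m • P = P := Sylow.ext h6
    exact (Sylow.smul_eq_iff_mem_normalizer).mp h7
  have hNne : Subgroup.normalizer ((P : Subgroup S) : Set S) ≠ ⊤ := by
    intro hN
    have hPn : (P : Subgroup S).Normal := Subgroup.normalizer_eq_top_iff.mp hN
    rcases hPn.eq_bot_or_eq_top with h | h
    · exact (Sylow.ne_bot_of_dvd_card P hp) h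
    · apply hS
      refine ⟨⟨fun a b => ?_⟩⟩
      have hha : a ∈ C := hP (h ▸ Subgroup.mem_top a)
      have hhb : b ∈ C := hP (h ▸ Subgroup.mem_top b)
      exact hcomm a hha b hhb
  have hNM : Subgroup.normalizer ((P : Subgroup S) : Set S) = M := by
    by_contra hne
    have : M < Subgroup.normalizer ((P : Subgroup S) : Set S) := lt_of_le_of_ne hMN (Ne.symm hne)
    exact hNne (hM.2 _ this)
  rw [← hNM]
  exact Sylow.card_eq_index_normalizer P

end Cfsg.Agent.S4344
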