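import Cfsg.Statements.S4345
import Cfsg.Agent.Lib.Solvable.Basic
import Cfsg.Agent.Lib.Solvable.Misc1
import Mathlib.GroupTheory.Sylow

set_option autoImplicit false
open Cfsg

namespace Cfsg.Agent.S4345

open Subgroup
open scoped Pointwise

lemma key {G : Type*} [Group G] [Finite G] (p : ℕ) [Fact p.Prime] (N : Subgroup G) [hN : N.Normal] :
    ∃ t, Nat.card (Sylow p G) = Nat.card (Sylow p (G ⧸ N)) * t ∧ t ∣ Nat.card N := by
  obtain ⟨P⟩ : Nonempty (Sylow p G) := Sylow.nonempty
  let φ := QuotientGroup.mk' N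
  have hφ : Function.Surjective φ := QuotientGroup.mk'_surjective N
  let Pb : Sylow p (G ⧸ N) := P.mapSurjective hφ
  let K : Subgroup G := normalizer ((P : Subgroup G) : Set G)
  let L : Subgroup G := (normalizer ((Pb : Subgroup (G ⧸ N)) : Set (G ⧸ N))).comap φ
  have h1 : Nat.card (Sylow p G) = K.index := Sylow.card_eq_index_normalizer P
  have h2 : Nat.card (Sylow p (G ⧸ N)) = L.index := by
    rw [Sylow.card_eq_index_normalizer Pb]
    exact (Subgroup.index_comap_of_surjective _ hφ).symm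
  have hKL : K ≤ L := by
    intro k hk
    show φ k ∈ normalizer ((Pb : Subgroup (G ⧸ N)) : Set (G ⧸ N))
    rw [Subgroup.mem_normalizer_iff]
    intro hb
    obtain ⟨h, rfl⟩ := hφ hb
    constructor
    · rintro ⟨x, hx, hxe⟩
      refine ⟨k * x * k⁻¹, (Subgroup.mem_normalizer_iff.mp hk x).mp hx, ?_⟩
      have hxe' : φ x = φ h := hxe
      simp only [map_mul, map_inv, hxe']
    · rintro ⟨x, hx, hxe⟩
      refine ⟨k⁻¹ * x * k, ?_, ?_⟩
      · apply (Subgroup.mem_normalizer_iff.mp hk _).mpr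
        have : k * (k⁻¹ * x * k) * k⁻¹ = x := by group
        rw [this]; exact hx
      · have hxe' : φ x = φ k * φ h * (φ k)⁻¹ := hxe
        show φ (k⁻¹ * x * k) = φ h
        simp only [map_mul, map_inv, hxe']
        group
  have hLsup : L ≤ K ⊔ N := by
    intro w₀ hw₀
    have hnb : φ w₀ ∈ normalizer ((Pb : Subgroup (G ⧸ N)) : Set (G ⧸ N)) := hw₀
    have hTsub : ∀ t, t ∈ ((w₀ • P : Sylow p G) : Subgroup G) → t ∈ (P : Subgroup G) ⊔ N := by
      intro t ht
      have ht' : t ∈ (MulAut.conj w₀ • (P : Subgroup G)) := by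
        have : ((w₀ • P : Sylow p G) : Subgroup G) = MulAut.conj w₀ • (P : Subgroup G) :=
          Sylow.coe_subgroup_smul
        rwa [this] at ht
      have h1 := Subgroup.mem_pointwise_smul_iff_inv_smul_mem.mp ht'
      have h2 : w₀⁻¹ * t * w₀ ∈ (P : Subgroup G) := by
        simpa [MulAut.smul_def, mul_assoc] using h1
      have h3 : φ (w₀⁻¹ * t * w₀) ∈ (Pb : Subgroup (G ⧸ N)) := ⟨_, h2, rfl⟩
      have h4 : φ t ∈ (Pb : Subgroup (G ⧸ N)) := by
        have h5 := (Subgroup.mem_normalizer_iff.mp hnb (φ (w₀⁻¹ * t * w₀))).mp h3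
        have h6 : φ w₀ * φ (w₀⁻¹ * t * w₀) * (φ w₀)⁻¹ = φ t := by
          simp only [map_mul, map_inv]; group
        rw [h6] at h5
        exact h5
      obtain ⟨u, hu, hue⟩ := h4
      have h7 : u⁻¹ * t ∈ N := by
        have : φ (u⁻¹ * t) = 1 := by
          rw [map_mul, map_inv]
          have hue' : φ u = φ t := hue
          rw [hue', inv_mul_cancel]
        exact (QuotientGroup.eq_one_iff _).mp this
      have h8 : t = u * (u⁻¹ * t) := by group
      rw [h8]
      exact Subgroup.mul_mem _ (Subgroup.mem_sup_left hu) (Subgroup.mem_sup_right h7)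
    let H : Subgroup G := (P : Subgroup G) ⊔ N
    have hPH : (P : Subgroup G) ≤ H := le_sup_left
    have hTH : ((w₀ • P : Sylow p G) : Subgroup G) ≤ H := fun t ht => hTsub t ht
    obtain ⟨h, hh⟩ := MulAction.exists_smul_eq H ((w₀ • P : Sylow p G).subtype hTH) (P.subtype hPH)
    simp_rw [Sylow.smul_subtype, Subgroup.smul_def, smul_smul] at hh
    have hw1 : (h : G) * w₀ ∈ normalizer ((P : Subgroup G) : Set G) :=
      Sylow.smul_eq_iff_mem_normalizer.mp (Sylow.subtype_injective hh)
    have hhmem : (h : G) ∈ ((P : Subgroup G) ⊔ N : Subgroup G) := h.2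
    rw [← SetLike.mem_coe, Subgroup.mul_normal, Set.mem_mul] at hhmem
    obtain ⟨u', hu', n', hn', hun⟩ := hhmem
    have hu'' : u' ∈ (P : Subgroup G) := hu'
    -- w₀ = n'⁻¹ * u'⁻¹ * (h w₀), and n'⁻¹ ∈ N, u'⁻¹ (h w₀) ∈ K
    have h1 : w₀ = (u'⁻¹ * ((h : G) * w₀)) * (w₀⁻¹ * n'⁻¹ * w₀) := by
      rw [← hun]; group
    rw [h1]
    refine Subgroup.mul_mem _ (Subgroup.mem_sup_left ?_) (Subgroup.mem_sup_right ?_)
    · exact Subgroup.mul_mem _ (Subgroup.inv_mem _ (Subgroup.le_normalizer hu'')) hw1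
    · have := hN.conj_mem _ (N.inv_mem hn') w₀⁻¹
      simpa using this
  have hNL : N ≤ L := by
    intro n hn
    show φ n ∈ normalizer ((Pb : Subgroup (G ⧸ N)) : Set (G ⧸ N))
    have : φ n = 1 := (QuotientGroup.eq_one_iff _).mpr hn
    rw [this]
    exact Subgroup.one_mem _
  have hLeq : L = K ⊔ N := le_antisymm hLsup (sup_le hKL hNL)
  refine ⟨K.relIndex L, ?_, ?_⟩
  · rw [h1, h2, mul_comm]
    exact (Subgroup.relIndex_mul_index hKL).symm
  · rw [hLeq, Cfsg.Agent.Lib.Solvable.Misc1.relIndex_sup_eq]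
    exact Subgroup.relIndex_dvd_card _ _

/-- Let G be a finite solvable group and p, ℓ primes. Then the largest power of ℓ dividing the number of Sylow p-subgroups of G is congruent to 1 modulo p. -/
theorem result {G : Type*} [Group G] [Finite G]
    (hG : Group.IsSolvable G) (p ℓ : ℕ) [Fact p.Prime] (hℓ : ℓ.Prime) :
    ℓ ^ (Nat.card (Sylow p G)).factorization ℓ ≡ 1 [MOD p] := by
  classical
  induction' hc : Nat.card G using Nat.strong_induction_on with c ih generalizing G
  by_cases hnt : Nontrivial G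
  · obtain ⟨N, q, hq, hmin, -, hexp⟩ :=
      Cfsg.Agent.Lib.Solvable.Basic.exists_normal_elemAbelian (G := G)
    haveI : N.Normal := hmin.1
    haveI : Fact q.Prime := ⟨hq⟩
    have hNq : IsPGroup q N := Cfsg.Agent.Lib.Solvable.Basic.isPGroup_of_pow_eq_one hexp
    obtain ⟨t, ht, htd⟩ := key p N
    have hne : N ≠ ⊥ := hmin.2.1
    have hlt : Nat.card (G ⧸ N) < c := by
      rw [← hc]
      have h1 := Subgroup.card_eq_card_quotient_mul_card_subgroup N
      have h2 : 1 < Nat.card N := by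
        haveI : Nontrivial N := (Subgroup.nontrivial_iff_ne_bot N).mpr hne
        exact Finite.one_lt_card
      have h3 : 0 < Nat.card (G ⧸ N) := Nat.card_pos
      rw [h1]
      exact lt_mul_of_one_lt_right h3 h2
    have hsq : Group.IsSolvable (G ⧸ N) := inferInstance
    have hI := ih _ hlt hsq rfl
    set n' := Nat.card (Sylow p (G ⧸ N)) with hn'
    obtain ⟨m, hm⟩ := IsPGroup.iff_card.mp hNq
    rw [hm] at htd
    obtain ⟨s, -, hs⟩ := (Nat.dvd_prime_pow hq).mp htd
    have hn1 : Nat.card (Sylow p G) ≡ 1 [MOD p] := card_sylow_modEq_one p G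
    have hn2 : n' ≡ 1 [MOD p] := card_sylow_modEq_one p (G ⧸ N)
    have ht1 : t ≡ 1 [MOD p] := by
      have h1 : n' * t ≡ 1 * t [MOD p] := hn2.mul_right t
      rw [← ht, one_mul] at h1
      exact h1.symm.trans hn1
    have hn'0 : n' ≠ 0 := by rw [hn']; exact Nat.card_pos.ne'
    have ht0 : t ≠ 0 := by rw [hs]; exact (pow_pos hq.pos s).ne'
    rw [ht, Nat.factorization_mul hn'0 ht0, Finsupp.add_apply, pow_add]
    by_cases hlq : ℓ = q
    · subst hlq
      have h3 : ℓ ^ t.factorization ℓ = t := by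
        rw [hs, hℓ.factorization_pow]
        simp
      rw [h3]
      simpa using hI.mul ht1
    · have h3 : t.factorization ℓ = 0 := by
        rw [hs, hq.factorization_pow]
        simp [Ne.symm hlq]
      rw [h3, pow_zero, mul_one]
      exact hI
  · rw [not_nontrivial_iff_subsingleton] at hnt
    have h1 : Nat.card (Sylow p G) = 1 := by
      obtain ⟨P⟩ : Nonempty (Sylow p G) := Sylow.nonempty
      rw [Sylow.card_eq_index_normalizer P, Subgroup.index_eq_one]
      exact Subsingleton.elim _ _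
    rw [h1]
    simp [Nat.ModEq]

end Cfsg.Agent.S4345
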