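import Cfsg.Statements.S4346
import Cfsg.Agent.S0720
import Mathlib

set_option autoImplicit false
open Cfsg

namespace Cfsg.Agent.S4346

open MulAction Equiv Equiv.Perm
open scoped Pointwise

/-- fibres of constant size -/
lemma dvd_card_of_fibers {A B : Type*} [DecidableEq B] (s : Finset A) (f : A → B)
    (m : ℕ) (h : ∀ a ∈ s, (s.filter (fun b => f b = f a)).card = m) : m ∣ s.card := by
  rw [Finset.card_eq_sum_card_image f s]
  apply Finset.dvd_sum
  intro b hb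
  obtain ⟨a, ha, rfl⟩ := Finset.mem_image.mp hb
  rw [h a ha]

variable {Ω : Type*} [Fintype Ω] [DecidableEq Ω]

/-- The fixed points of a `p`-group on an invariant set. -/
lemma card_modEq_fix {p : ℕ} [Fact p.Prime] (R : Subgroup (Perm Ω)) (hR : IsPGroup p R)
    (S : Finset Ω) (hS : ∀ g ∈ R, ∀ a ∈ S, g a ∈ S) [DecidablePred (fun a => ∀ g ∈ R, g a = a)] :
    S.card ≡ (S.filter (fun a => ∀ g ∈ R, g a = a)).card [MOD p] := by
  let S' : SubMulAction R Ω :=
    { carrier := (S : Set Ω)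
      smul_mem' := fun g a ha => hS g g.2 a ha }
  have h1 := hR.card_modEq_card_fixedPoints S'
  have h2 : Nat.card S' = S.card := by
    show Nat.card (S : Set Ω) = S.card
    simp
  have h3 : Nat.card (fixedPoints R S') = (S.filter (fun a => ∀ g ∈ R, g a = a)).card := by
    rw [← Nat.card_eq_fintype_card.trans (Fintype.card_coe _)]
    refine Nat.card_congr
      { toFun := fun a => ⟨a.1.1, Finset.mem_filter.mpr ⟨a.1.2, fun g hg => ?_⟩⟩
        invFun := fun a => ⟨⟨a.1, (Finset.mem_filter.mp a.2).1⟩, fun g => ?_⟩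
        left_inv := fun a => rfl
        right_inv := fun a => rfl }
    · exact congrArg Subtype.val (a.2 ⟨g, hg⟩)
    · exact Subtype.ext ((Finset.mem_filter.mp a.2).2 g g.2)
  rw [h2, h3] at h1
  exact h1

/-- The abstract setting. -/
structure Data (Ω : Type*) [Fintype Ω] where
  /-- the group -/
  X : Subgroup (Perm Ω)
  /-- the Sylow subgroups -/
  P : Ω → Subgroup (Perm Ω)
  P_le : ∀ ω, P ω ≤ X
  P3 : ∀ ω, IsPGroup 3 (P ω)
  fix : ∀ ω, ∀ g ∈ P ω, g ω = ω
  uniq : ∀ ω α, (∀ g ∈ P ω, g α = α) → α = ω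
  conj : ∀ g ∈ X, ∀ ω, ∀ h ∈ P ω, g * h * g⁻¹ ∈ P (g ω)
  mem : ∀ ω, ∀ g ∈ X, g ω = ω → (∃ k : ℕ, g ^ 3 ^ k = 1) → g ∈ P ω
  card : Fintype.card Ω = 22
  trans : ∀ a b : Ω, ∃ g ∈ X, g a = b

namespace Data

variable (D : Data Ω)

instance fact3 : Fact (Nat.Prime 3) := ⟨Nat.prime_three⟩
instance fact11 : Fact (Nat.Prime 11) := ⟨by norm_num⟩

lemma card_inv (ω : Ω) (S : Finset Ω) (hω : ω ∈ S) (h : ∀ g ∈ D.P ω, ∀ a ∈ S, g a ∈ S) :
    S.card % 3 = 1 := by
  classical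
  have h1 := card_modEq_fix (D.P ω) (D.P3 ω) S h
  have h2 : S.filter (fun a => ∀ g ∈ D.P ω, g a = a) = {ω} := by
    ext a
    simp only [Finset.mem_filter, Finset.mem_singleton]
    constructor
    · rintro ⟨_, h3⟩
      exact D.uniq ω a h3
    · rintro rfl
      exact ⟨hω, D.fix a⟩
  rw [h2, Finset.card_singleton] at h1
  exact h1

lemma pretrans : IsPretransitive D.X Ω :=
  ⟨fun a b => by
    obtain ⟨g, hg, h⟩ := D.trans a b
    exact ⟨⟨g, hg⟩, h⟩⟩

omit [DecidableEq Ω] in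
lemma exists_point (D : Data Ω) : ∃ ω : Ω, True := by
  have h : 0 < Fintype.card Ω := by rw [D.card]; norm_num
  obtain ⟨ω⟩ := Fintype.card_pos_iff.mp h
  exact ⟨ω, trivial⟩

omit [DecidableEq Ω] in
lemma exists_ne (D : Data Ω) (ω : Ω) : ∃ α : Ω, α ≠ ω := by
  have h : 1 < Fintype.card Ω := by rw [D.card]; norm_num
  exact (Fintype.exists_ne_of_one_lt_card h ω)

lemma prim : IsPreprimitive D.X Ω := by
  haveI := D.pretrans
  obtain ⟨ω, -⟩ := D.exists_point
  refine IsPreprimitive.of_isTrivialBlock_base ω ?_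
  intro B hω hB
  classical
  have hdvd := hB.ncard_dvd_card ⟨ω, hω⟩
  rw [Nat.card_eq_fintype_card, D.card] at hdvd
  have hinv : ∀ g ∈ D.P ω, ∀ a ∈ B.toFinset, g a ∈ B.toFinset := by
    intro g hg a ha
    have h1 : (⟨g, D.P_le ω hg⟩ : D.X) • B = B := by
      apply hB.smul_eq_of_mem hω
      show g ω ∈ B
      rw [D.fix ω g hg]
      exact hω
    rw [Set.mem_toFinset] at ha ⊢
    have h2 : (⟨g, D.P_le ω hg⟩ : D.X) • a ∈ (⟨g, D.P_le ω hg⟩ : D.X) • B :=
      Set.smul_mem_smul_set ha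
    rw [h1] at h2
    exact h2
  have hmod := D.card_inv ω B.toFinset (Set.mem_toFinset.mpr hω) hinv
  have hc : B.ncard = B.toFinset.card := Set.ncard_eq_toFinset_card' B
  rw [hc] at hdvd
  have h22 := Nat.le_of_dvd (by norm_num) hdvd
  have hcases : B.toFinset.card = 1 ∨ B.toFinset.card = 22 := by
    generalize B.toFinset.card = n at *
    interval_cases n <;> omega
  rcases hcases with h | h
  · left
    rw [Finset.card_eq_one] at h
    obtain ⟨a, ha⟩ := h
    intro u hu v hv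
    have hu' : u ∈ B.toFinset := Set.mem_toFinset.mpr hu
    have hv' : v ∈ B.toFinset := Set.mem_toFinset.mpr hv
    rw [ha, Finset.mem_singleton] at hu' hv'
    rw [hu', hv']
  · right
    have h1 : B.toFinset = Finset.univ := by
      apply Finset.eq_univ_of_card
      rw [h, D.card]
    ext a
    simp only [Set.mem_univ, iff_true]
    have := Finset.mem_univ a
    rw [← h1] at this
    exact Set.mem_toFinset.mp this

lemma mult : IsMultiplyPretransitive D.X Ω 2 := by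
  classical
  obtain ⟨ω, -⟩ := D.exists_point
  have h := Cfsg.Agent.S0720.result (p := 11) (by norm_num) (by rw [D.card]) D.X D.prim ω
  rcases h with h | ⟨_, a, ha, h11, _⟩
  · exact h
  · exfalso
    have h2 : a ≤ 2 := by nlinarith
    interval_cases a <;> omega

lemma two_trans {a b c d : Ω} (hab : a ≠ b) (hcd : c ≠ d) :
    ∃ g ∈ D.X, g a = c ∧ g b = d := by
  have h := D.mult
  rw [is_two_pretransitive_iff] at h
  obtain ⟨g, h1, h2⟩ := h hab hcd
  exact ⟨g, g.2, h1, h2⟩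

/-- Closed subsets. -/
def Closed (S : Set Ω) : Prop := ∀ β ∈ S, ∀ g ∈ D.P β, ∀ δ ∈ S, g δ ∈ S

lemma Closed.image {D : Data Ω} {S : Set Ω} (hS : D.Closed S) {g : Perm Ω} (hg : g ∈ D.X) :
    D.Closed (g '' S) := by
  rintro _ ⟨β, hβ, rfl⟩ h hh _ ⟨δ, hδ, rfl⟩
  have h1 : g⁻¹ * h * g⁻¹⁻¹ ∈ D.P (g⁻¹ (g β)) := D.conj g⁻¹ (D.X.inv_mem hg) (g β) h hh
  rw [inv_inv] at h1
  have h2 : g⁻¹ (g β) = β := by simp
  rw [h2] at h1
  refine ⟨(g⁻¹ * h * g) δ, hS β hβ _ h1 δ hδ, ?_⟩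
  simp [Perm.mul_apply]

/-- The closure of two points. -/
noncomputable def Cl (β γ : Ω) : Finset Ω := by
  classical
  exact Finset.univ.filter (fun δ => ∀ S : Set Ω, D.Closed S → β ∈ S → γ ∈ S → δ ∈ S)

lemma mem_Cl {β γ δ : Ω} : δ ∈ D.Cl β γ ↔ ∀ S : Set Ω, D.Closed S → β ∈ S → γ ∈ S → δ ∈ S := by
  classical
  simp [Cl]

lemma closed_Cl (β γ : Ω) : D.Closed (D.Cl β γ : Set Ω) := by
  intro δ hδ g hg ε hε
  rw [Finset.mem_coe, mem_Cl] at hδ hε ⊢
  intro S hS h1 h2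
  exact hS δ (hδ S hS h1 h2) g hg ε (hε S hS h1 h2)

lemma left_mem_Cl (β γ : Ω) : β ∈ D.Cl β γ := by
  rw [mem_Cl]
  intro S _ h1 _
  exact h1

lemma right_mem_Cl (β γ : Ω) : γ ∈ D.Cl β γ := by
  rw [mem_Cl]
  intro S _ _ h2
  exact h2

lemma Cl_subset {S : Set Ω} (hS : D.Closed S) {β γ : Ω} (h1 : β ∈ S) (h2 : γ ∈ S) :
    (D.Cl β γ : Set Ω) ⊆ S := by
  intro δ hδ
  rw [Finset.mem_coe, mem_Cl] at hδ
  exact hδ S hS h1 h2

lemma card_Cl_le {β γ β' γ' : Ω} (h : β ≠ γ) (h' : β' ≠ γ') :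
    (D.Cl β' γ').card ≤ (D.Cl β γ).card := by
  classical
  obtain ⟨g, hg, h1, h2⟩ := D.two_trans h h'
  have h3 : D.Closed (g '' (D.Cl β γ : Set Ω)) := (D.closed_Cl β γ).image hg
  have h4 := D.Cl_subset h3 (β := β') (γ := γ')
    ⟨β, D.left_mem_Cl β γ, h1⟩ ⟨γ, D.right_mem_Cl β γ, h2⟩
  have h5 : D.Cl β' γ' ⊆ (D.Cl β γ).image g := by
    intro δ hδ
    obtain ⟨a, ha, rfl⟩ := h4 hδ
    exact Finset.mem_image_of_mem _ ha
  exact (Finset.card_le_card h5).trans Finset.card_image_le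

lemma card_Cl_eq {β γ β' γ' : Ω} (h : β ≠ γ) (h' : β' ≠ γ') :
    (D.Cl β' γ').card = (D.Cl β γ).card :=
  le_antisymm (D.card_Cl_le h h') (D.card_Cl_le h' h)

lemma Cl_eq {β γ δ ε : Ω} (h : β ≠ γ) (h' : δ ≠ ε) (h1 : δ ∈ D.Cl β γ) (h2 : ε ∈ D.Cl β γ) :
    D.Cl δ ε = D.Cl β γ := by
  apply Finset.eq_of_subset_of_card_le
  · exact D.Cl_subset (D.closed_Cl β γ) h1 h2
  · rw [D.card_Cl_eq h' h]

lemma Cl_univ {β γ : Ω} (h : β ≠ γ) : D.Cl β γ = Finset.univ := by
  classical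
  have hmod : (D.Cl β γ).card % 3 = 1 :=
    D.card_inv β _ (D.left_mem_Cl β γ) (fun g hg a ha => D.closed_Cl β γ β (D.left_mem_Cl β γ) g hg a ha)
  have h2 : (D.Cl β γ).card - 1 ∣ (Finset.univ.erase β).card := by
    apply dvd_card_of_fibers _ (fun α => D.Cl β α)
    intro a ha
    have ha' : a ≠ β := (Finset.mem_erase.mp ha).1
    have h3 : (Finset.univ.erase β).filter (fun b => D.Cl β b = D.Cl β a) = (D.Cl β a).erase β := by
      ext b
      simp only [Finset.mem_filter, Finset.mem_erase, Finset.mem_univ, and_true]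
      constructor
      · rintro ⟨hb, hb2⟩
        exact ⟨hb, hb2 ▸ D.right_mem_Cl β b⟩
      · rintro ⟨hb, hb2⟩
        exact ⟨hb, D.Cl_eq ha'.symm hb.symm (D.left_mem_Cl β a) hb2⟩
    rw [h3, Finset.card_erase_of_mem (D.left_mem_Cl β a), D.card_Cl_eq h ha'.symm]
  have h3 : (D.Cl β γ).card * (D.Cl β γ).card - (D.Cl β γ).card ∣
      (Finset.univ : Finset Ω).offDiag.card := by
    apply dvd_card_of_fibers _ (fun p : Ω × Ω => D.Cl p.1 p.2)
    rintro ⟨a, b⟩ hab
    have hab' : a ≠ b := (Finset.mem_offDiag.mp hab).2.2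
    have h3 : (Finset.univ : Finset Ω).offDiag.filter
        (fun p : Ω × Ω => D.Cl p.1 p.2 = D.Cl a b) = (D.Cl a b).offDiag := by
      ext ⟨u, v⟩
      simp only [Finset.mem_filter, Finset.mem_offDiag, Finset.mem_univ, true_and]
      constructor
      · rintro ⟨huv, h4⟩
        exact ⟨h4 ▸ D.left_mem_Cl u v, h4 ▸ D.right_mem_Cl u v, huv⟩
      · rintro ⟨h4, h5, huv⟩
        exact ⟨huv, D.Cl_eq hab' huv h4 h5⟩
    rw [h3, Finset.offDiag_card, D.card_Cl_eq h hab']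
  rw [Finset.card_erase_of_mem (Finset.mem_univ β), Finset.card_univ, D.card] at h2
  rw [Finset.offDiag_card, Finset.card_univ, D.card] at h3
  have h4 : 1 < (D.Cl β γ).card :=
    Finset.one_lt_card.mpr ⟨β, D.left_mem_Cl β γ, γ, D.right_mem_Cl β γ, h⟩
  have h5 : (D.Cl β γ).card ≤ 22 := by
    rw [← D.card]
    exact Finset.card_le_univ _
  have h6 : (D.Cl β γ).card = 22 := by
    generalize (D.Cl β γ).card = n at *
    interval_cases n <;> first | rfl | omega
  apply Finset.eq_univ_of_card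
  rw [h6, D.card]

lemma closed_all {S : Set Ω} (hS : D.Closed S) {β γ : Ω} (h : β ≠ γ) (h1 : β ∈ S) (h2 : γ ∈ S)
    (δ : Ω) : δ ∈ S := by
  apply D.Cl_subset hS h1 h2
  rw [D.Cl_univ h]
  simp

/-- Orbits of the Sylow subgroups. -/
noncomputable def Orb (ω α : Ω) : Finset Ω := by
  classical
  exact Finset.univ.filter (fun δ => ∃ g ∈ D.P ω, g α = δ)

lemma mem_Orb {ω α δ : Ω} : δ ∈ D.Orb ω α ↔ ∃ g ∈ D.P ω, g α = δ := by
  classical
  simp [Orb]

lemma self_mem_Orb (ω α : Ω) : α ∈ D.Orb ω α := by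
  rw [mem_Orb]
  exact ⟨1, Subgroup.one_mem _, rfl⟩

lemma smul_mem_Orb {ω α δ : Ω} (hδ : δ ∈ D.Orb ω α) {g : Perm Ω} (hg : g ∈ D.P ω) :
    g δ ∈ D.Orb ω α := by
  rw [mem_Orb] at hδ ⊢
  obtain ⟨h, hh, rfl⟩ := hδ
  exact ⟨g * h, Subgroup.mul_mem _ hg hh, rfl⟩

lemma Orb_eq_of_mem {ω α δ : Ω} (hδ : δ ∈ D.Orb ω α) : D.Orb ω δ = D.Orb ω α := by
  rw [mem_Orb] at hδ
  obtain ⟨h, hh, rfl⟩ := hδ
  ext ε
  rw [mem_Orb, mem_Orb]
  constructor
  · rintro ⟨g, hg, rfl⟩
    exact ⟨g * h, Subgroup.mul_mem _ hg hh, rfl⟩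
  · rintro ⟨g, hg, rfl⟩
    refine ⟨g * h⁻¹, Subgroup.mul_mem _ hg (Subgroup.inv_mem _ hh), ?_⟩
    simp [Perm.mul_apply]

lemma card_Orb_le {ω α α' : Ω} (h : α ≠ ω) (h' : α' ≠ ω) :
    (D.Orb ω α).card ≤ (D.Orb ω α').card := by
  classical
  obtain ⟨g, hg, h1, h2⟩ := D.two_trans h.symm h'.symm (a := ω) (b := α) (c := ω) (d := α')
  have h3 : (D.Orb ω α).image g ⊆ D.Orb ω α' := by
    intro δ hδ
    obtain ⟨a, ha, rfl⟩ := Finset.mem_image.mp hδ
    rw [mem_Orb] at ha ⊢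
    obtain ⟨k, hk, rfl⟩ := ha
    have h4 := D.conj g hg ω k hk
    rw [h1] at h4
    refine ⟨_, h4, ?_⟩
    rw [← h2]
    simp [Perm.mul_apply]
  calc (D.Orb ω α).card = ((D.Orb ω α).image g).card :=
        (Finset.card_image_of_injective _ g.injective).symm
    _ ≤ _ := Finset.card_le_card h3

lemma card_Orb_eq {ω α α' : Ω} (h : α ≠ ω) (h' : α' ≠ ω) :
    (D.Orb ω α).card = (D.Orb ω α').card :=
  le_antisymm (D.card_Orb_le h h') (D.card_Orb_le h' h)

lemma card_Orb_mul (ω α : Ω) :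
    (D.Orb ω α).card * Nat.card (stabilizer (D.P ω) α) = Nat.card (D.P ω) := by
  classical
  haveI : Fintype (D.P ω) := Fintype.ofFinite _
  have h1 := MulAction.card_orbit_mul_card_stabilizer_eq_card_group (D.P ω) α
  have h2 : (D.Orb ω α) = (orbit (D.P ω) α).toFinset := by
    ext δ
    rw [mem_Orb, Set.mem_toFinset, MulAction.mem_orbit_iff]
    constructor
    · rintro ⟨g, hg, rfl⟩
      exact ⟨⟨g, hg⟩, rfl⟩
    · rintro ⟨g, rfl⟩
      exact ⟨g.1, g.2, rfl⟩
  rw [h2, Set.toFinset_card, Nat.card_eq_fintype_card, Nat.card_eq_fintype_card]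
  convert h1

lemma card_Orb_three {ω α : Ω} (h : α ≠ ω) : (D.Orb ω α).card = 3 := by
  classical
  have h1 : (D.Orb ω α).card ∣ (Finset.univ.erase ω).card := by
    apply dvd_card_of_fibers _ (fun α => D.Orb ω α)
    intro a ha
    have ha' : a ≠ ω := (Finset.mem_erase.mp ha).1
    have h3 : (Finset.univ.erase ω).filter (fun b => D.Orb ω b = D.Orb ω a) = D.Orb ω a := by
      ext b
      simp only [Finset.mem_filter, Finset.mem_erase, Finset.mem_univ, and_true]
      constructor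
      · rintro ⟨_, hb2⟩
        exact hb2 ▸ D.self_mem_Orb ω b
      · intro hb
        refine ⟨?_, D.Orb_eq_of_mem hb⟩
        rintro rfl
        rw [mem_Orb] at hb
        obtain ⟨g, hg, hga⟩ := hb
        apply ha'
        have h4 : g (g⁻¹ b) = g a := by rw [hga]; simp
        have h5 : g⁻¹ b = b := D.fix b g⁻¹ (Subgroup.inv_mem _ hg)
        rw [h5] at h4
        have := D.fix b g hg
        exact g.injective (by rw [this] at h4; exact (this.trans hga.symm).symm ▸ rfl)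
    rw [h3, D.card_Orb_eq ha' h]
  rw [Finset.card_erase_of_mem (Finset.mem_univ ω), Finset.card_univ, D.card] at h1
  obtain ⟨k, hk⟩ := IsPGroup.iff_card.mp (D.P3 ω)
  have h2 : (D.Orb ω α).card ∣ 3 ^ k := by
    rw [← hk, ← D.card_Orb_mul ω α]
    exact dvd_mul_right _ _
  obtain ⟨j, _, hj⟩ := (Nat.dvd_prime_pow Nat.prime_three).mp h2
  have hj1 : j < 2 := by
    by_contra hc
    have h3 : 3 ^ 2 ∣ 3 ^ j := Nat.pow_dvd_pow 3 (not_lt.mp hc)
    rw [hj] at h1
    have h4 := h3.trans h1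
    revert h4
    decide
  have hne : (D.Orb ω α).card ≠ 1 := by
    intro h3
    obtain ⟨a, ha⟩ := Finset.card_eq_one.mp h3
    apply h
    apply D.uniq
    intro g hg
    have h4 : g α ∈ D.Orb ω α := D.smul_mem_Orb (D.self_mem_Orb ω α) hg
    have h5 := D.self_mem_Orb ω α
    rw [ha, Finset.mem_singleton] at h4 h5
    rw [h4, h5]
  interval_cases j
  · simp at hj
    exact absurd hj hne
  · simpa using hj

lemma fix_Orb {β γ δ : Ω} (hγ : γ ≠ β) {d : Perm Ω} (hd : d ∈ D.P β) (hdγ : d γ = γ)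
    (hδ : δ ∈ D.Orb β γ) : d δ = δ := by
  classical
  have hR : IsPGroup 3 (Subgroup.zpowers d) :=
    (D.P3 β).to_le ((Subgroup.zpowers_le).mpr hd)
  have h1 := card_modEq_fix (Subgroup.zpowers d) hR (D.Orb β γ) (fun g hg a ha =>
    D.smul_mem_Orb ha ((Subgroup.zpowers_le).mpr hd hg))
  rw [D.card_Orb_three hγ] at h1
  have h2 : γ ∈ (D.Orb β γ).filter (fun a => ∀ g ∈ Subgroup.zpowers d, g a = a) := by
    rw [Finset.mem_filter]
    refine ⟨D.self_mem_Orb β γ, ?_⟩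
    rintro g ⟨i, rfl⟩
    exact Function.IsFixedPt.perm_zpow hdγ i
  have h3 := Finset.card_le_card (Finset.filter_subset (fun a => ∀ g ∈ Subgroup.zpowers d, g a = a) (D.Orb β γ))
  rw [D.card_Orb_three hγ] at h3
  have h4 : 0 < ((D.Orb β γ).filter (fun a => ∀ g ∈ Subgroup.zpowers d, g a = a)).card :=
    Finset.card_pos.mpr ⟨γ, h2⟩
  have h5 : ((D.Orb β γ).filter (fun a => ∀ g ∈ Subgroup.zpowers d, g a = a)).card = 3 := by
    have h6 : ((D.Orb β γ).filter (fun a => ∀ g ∈ Subgroup.zpowers d, g a = a)).card % 3 = 3 % 3 := h1.symm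
    omega
  have h6 := Finset.eq_of_subset_of_card_le (Finset.filter_subset (fun a => ∀ g ∈ Subgroup.zpowers d, g a = a) (D.Orb β γ)) (by rw [h5, D.card_Orb_three hγ])
  rw [← h6, Finset.mem_filter] at hδ
  exact hδ.2 d (Subgroup.mem_zpowers d)

lemma stab_eq {β γ δ : Ω} (hγ : γ ≠ β) (hδ : δ ≠ β) (h : ∀ d ∈ D.P β, d γ = γ → d δ = δ) :
    ∀ d ∈ D.P β, d δ = δ → d γ = γ := by
  have h1 := D.card_Orb_mul β γ
  have h2 := D.card_Orb_mul β δ
  rw [D.card_Orb_three hγ] at h1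
  rw [D.card_Orb_three hδ] at h2
  have hle : stabilizer (D.P β) γ ≤ stabilizer (D.P β) δ := by
    intro d hd
    exact h d.1 d.2 hd
  have heq := Subgroup.eq_of_le_of_card_ge hle (by omega)
  intro d hd hdδ
  have h3 : (⟨d, hd⟩ : D.P β) ∈ stabilizer (D.P β) δ := hdδ
  rw [← heq] at h3
  exact h3

lemma three_el {ω : Ω} {d : Perm Ω} (hd : d ∈ D.P ω) : ∃ k : ℕ, d ^ 3 ^ k = 1 := by
  obtain ⟨k, hk⟩ := D.P3 ω ⟨d, hd⟩
  refine ⟨k, ?_⟩
  have := congrArg Subtype.val hk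
  simpa using this

lemma D_trivial {ω α : Ω} (h : α ≠ ω) {d : Perm Ω} (hd : d ∈ D.P ω) (hdα : d α = α) : d = 1 := by
  let S : Set Ω := {b | ∀ d ∈ D.P ω, d α = α → d b = b}
  have hωS : ω ∈ S := fun d hd _ => D.fix ω d hd
  have hαS : α ∈ S := fun d _ hdα => hdα
  have hrep : ∀ β ∈ S, ∃ γ, γ ≠ β ∧ ∀ d, (d ∈ D.P ω ∧ d α = α) ↔ (d ∈ D.P β ∧ d γ = γ) := by
    intro β hβ
    by_cases hβω : β = ω
    · subst hβω
      exact ⟨α, h, fun d => Iff.rfl⟩
    · refine ⟨ω, Ne.symm hβω, fun d => ⟨?_, ?_⟩⟩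
      · rintro ⟨h1, h2⟩
        exact ⟨D.mem β d (D.P_le ω h1) (hβ d h1 h2) (D.three_el h1), D.fix ω d h1⟩
      · rintro ⟨h1, h2⟩
        have h3 : d ∈ D.P ω := D.mem ω d (D.P_le β h1) h2 (D.three_el h1)
        exact ⟨h3, D.stab_eq h hβω (fun d h4 h5 => hβ d h4 h5) d h3 (D.fix β d h1)⟩
  have hclosed : D.Closed S := by
    intro β hβ g hg δ hδ d hd' hdα'
    obtain ⟨γ, hγ, hiff⟩ := hrep β hβ
    obtain ⟨h1, h2⟩ := (hiff d).mp ⟨hd', hdα'⟩
    have h3 : d (g γ) = g γ := D.fix_Orb hγ h1 h2 (D.mem_Orb.mpr ⟨g, hg, rfl⟩)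
    have h4 : g⁻¹ * d * g ∈ D.P β :=
      Subgroup.mul_mem _ (Subgroup.mul_mem _ (Subgroup.inv_mem _ hg) h1) hg
    have h5 : (g⁻¹ * d * g) γ = γ := by
      simp [Perm.mul_apply, h3]
    obtain ⟨h6, h7⟩ := (hiff _).mpr ⟨h4, h5⟩
    have h8 := hδ _ h6 h7
    have h9 : g⁻¹ (d (g δ)) = δ := h8
    calc d (g δ) = g (g⁻¹ (d (g δ))) := by simp
      _ = g δ := by rw [h9]
  ext b
  have h1 := D.closed_all hclosed h.symm hωS hαS b
  simpa using h1 d hd hdα

lemma card_P (ω : Ω) : Nat.card (D.P ω) = 3 := by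
  obtain ⟨α, hα⟩ := D.exists_ne ω
  have h1 := D.card_Orb_mul ω α
  rw [D.card_Orb_three hα] at h1
  have h2 : stabilizer (D.P ω) α = ⊥ := by
    rw [eq_bot_iff]
    intro d hd
    rw [Subgroup.mem_bot]
    exact Subtype.ext (D.D_trivial hα d.2 hd)
  rw [h2, Subgroup.card_bot] at h1
  omega

end Data

/-- Groups of order three -/
lemma three_key : ∀ a b : Multiplicative (ZMod 3), a ≠ 1 → b ≠ 1 → b = a ∨ b = a⁻¹ := by decide

/-- Groups of order three -/
lemma three_el_aux {H : Type*} [Group H] (hc : Nat.card H = 3) {x y : H} (hx : x ≠ 1) (hy : y ≠ 1) :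
    y = x ∨ y = x⁻¹ := by
  have hc' : Nat.card (Multiplicative (ZMod 3)) = 3 := by
    simp
  haveI : Fact (Nat.Prime 3) := ⟨Nat.prime_three⟩
  let e : H ≃* Multiplicative (ZMod 3) := mulEquivOfPrimeCardEq hc hc'
  have key := three_key
  have h1 := key (e x) (e y) (by simpa using hx) (by simpa using hy)
  rcases h1 with h1 | h1
  · left
    exact e.injective h1
  · right
    apply e.injective
    rw [h1, map_inv]

namespace Data

variable (D : Data Ω)

lemma P_el {ω : Ω} {x y : Perm Ω} (hx : x ∈ D.P ω) (hy : y ∈ D.P ω) (hx1 : x ≠ 1) (hy1 : y ≠ 1) :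
    y = x ∨ y = x⁻¹ := by
  have h := three_el_aux (D.card_P ω) (x := ⟨x, hx⟩) (y := ⟨y, hy⟩)
    (by simpa [Subtype.ext_iff] using hx1) (by simpa [Subtype.ext_iff] using hy1)
  rcases h with h | h
  · left
    exact congrArg Subtype.val h
  · right
    exact congrArg Subtype.val h

lemma exists_gen (ω : Ω) : ∃ x ∈ D.P ω, x ≠ 1 := by
  by_contra hcon
  push Not at hcon
  have h1 : D.P ω = ⊥ := by
    rw [eq_bot_iff]
    intro x hx
    exact hcon x hx
  have h2 := D.card_P ω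
  rw [h1, Subgroup.card_bot] at h2
  omega

lemma Z_trivial {ω α : Ω} (h : α ≠ ω) {x x' : Perm Ω} (hx : x ∈ D.P ω) (hx1 : x ≠ 1)
    (hx' : x' ∈ D.P α) (hx'1 : x' ≠ 1) {z : Perm Ω} (hz : z ∈ D.X)
    (h1 : z * x = x * z) (h2 : z * x' = x' * z) : z = 1 := by
  let S : Set Ω := {β | ∀ h ∈ D.P β, z * h = h * z}
  have hgen : ∀ {β : Ω} {x : Perm Ω}, x ∈ D.P β → x ≠ 1 → z * x = x * z → β ∈ S := by
    intro β x hx hx1 h1 h hh
    by_cases hh1 : h = 1
    · rw [hh1, mul_one, one_mul]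
    · rcases D.P_el hx hh hx1 hh1 with h3 | h3
      · rw [h3, h1]
      · rw [h3]
        have h4 : Commute z x := h1
        exact h4.inv_right
  have hωS : ω ∈ S := hgen hx hx1 h1
  have hαS : α ∈ S := hgen hx' hx'1 h2
  have hclosed : D.Closed S := by
    intro β hβ g hg δ hδ h hh
    have h3 : g⁻¹ * h * g⁻¹⁻¹ ∈ D.P (g⁻¹ (g δ)) :=
      D.conj g⁻¹ (D.X.inv_mem (D.P_le β hg)) (g δ) h hh
    rw [inv_inv] at h3
    have h4 : g⁻¹ (g δ) = δ := by simp
    rw [h4] at h3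
    have h5 : Commute z (g⁻¹ * h * g) := hδ _ h3
    have h6 : Commute z g := hβ g hg
    have h7 : h = g * (g⁻¹ * h * g) * g⁻¹ := by group
    rw [h7]
    exact ((h6.mul_right h5).mul_right h6.inv_right)
  have hall : ∀ β, z β = β := by
    intro β
    have hβ : β ∈ S := D.closed_all hclosed h.symm hωS hαS β
    apply D.uniq β
    intro g hg
    have h3 : (z * g) β = (g * z) β := by rw [hβ g hg]
    simp only [Perm.mul_apply] at h3
    rw [← h3, D.fix β g hg]
  ext b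
  simpa using hall b

lemma conj_eq {ω : Ω} {x m n : Perm Ω} (hx : x ∈ D.P ω) (hx1 : x ≠ 1)
    (hm : m ∈ D.X) (hmω : m ω = ω) (hn : n ∈ D.X) (hnω : n ω = ω)
    (hmn : m * x * m⁻¹ = x ↔ n * x * n⁻¹ = x) : (m⁻¹ * n) * x = x * (m⁻¹ * n) := by
  have h1 : m * x * m⁻¹ ∈ D.P ω := by
    have := D.conj m hm ω x hx
    rwa [hmω] at this
  have h2 : n * x * n⁻¹ ∈ D.P ω := by
    have := D.conj n hn ω x hx
    rwa [hnω] at this
  have h3 : m * x * m⁻¹ ≠ 1 := by
    intro h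
    apply hx1
    have : x = m⁻¹ * (m * x * m⁻¹) * m := by group
    rw [this, h]
    group
  have h4 : n * x * n⁻¹ ≠ 1 := by
    intro h
    apply hx1
    have : x = n⁻¹ * (n * x * n⁻¹) * n := by group
    rw [this, h]
    group
  have h5 : m * x * m⁻¹ = n * x * n⁻¹ := by
    rcases D.P_el hx h1 hx1 h3 with h6 | h6 <;> rcases D.P_el hx h2 hx1 h4 with h7 | h7
    · rw [h6, h7]
    · rw [h6] at hmn
      have h8 := hmn.mp rfl
      rw [h6, h8]
    · rw [h7] at hmn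
      have h8 := hmn.mpr rfl
      rw [h7, h8]
    · rw [h6, h7]
  have h6 : m⁻¹ * (m * x * m⁻¹) * n = m⁻¹ * (n * x * n⁻¹) * n := by rw [h5]
  have h7 : m⁻¹ * (m * x * m⁻¹) * n = x * (m⁻¹ * n) := by group
  have h8 : m⁻¹ * (n * x * n⁻¹) * n = (m⁻¹ * n) * x := by group
  rw [← h8, ← h7, h6]

lemma M_bound {ω α : Ω} (hne : α ≠ ω) : Nat.card (stabilizer (stabilizer D.X ω) α) ≤ 4 := by
  classical
  obtain ⟨x, hx, hx1⟩ := D.exists_gen ω
  obtain ⟨x', hx', hx'1⟩ := D.exists_gen α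
  let f : stabilizer (stabilizer D.X ω) α → Bool × Bool := fun m =>
    (decide ((m.1.1 : Perm Ω) * x * (m.1.1 : Perm Ω)⁻¹ = x),
      decide ((m.1.1 : Perm Ω) * x' * (m.1.1 : Perm Ω)⁻¹ = x'))
  have hfix0 : ∀ m : stabilizer (stabilizer D.X ω) α, (m.1.1 : Perm Ω) ω = ω := fun m => m.1.2
  have hfix1 : ∀ m : stabilizer (stabilizer D.X ω) α, (m.1.1 : Perm Ω) α = α := fun m => m.2
  have hf : Function.Injective f := by
    intro m n hmn
    have h1 := congrArg Prod.fst hmn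
    have h2 := congrArg Prod.snd hmn
    simp only [f, decide_eq_decide] at h1 h2
    have h3 := D.conj_eq hx hx1 m.1.1.2 (hfix0 m) n.1.1.2 (hfix0 n) h1
    have h4 := D.conj_eq hx' hx'1 m.1.1.2 (hfix1 m) n.1.1.2 (hfix1 n) h2
    have h5 := D.Z_trivial hne hx hx1 hx' hx'1
      (D.X.mul_mem (D.X.inv_mem m.1.1.2) n.1.1.2) h3 h4
    have h6 : (m.1.1 : Perm Ω) = n.1.1 := by
      have := mul_eq_one_iff_eq_inv.mp h5
      simpa using this
    exact Subtype.ext (Subtype.ext (Subtype.ext h6))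
  have := Nat.card_le_card_of_injective f hf
  simpa using this

lemma card_X : ∃ m : ℕ, m ≤ 4 ∧ 0 < m ∧ Nat.card D.X = 462 * m := by
  classical
  obtain ⟨ω, -⟩ := D.exists_point
  obtain ⟨α, hα⟩ := D.exists_ne ω
  haveI := D.pretrans
  refine ⟨Nat.card (stabilizer (stabilizer D.X ω) α), D.M_bound hα, Nat.card_pos, ?_⟩
  have h1 : (orbit D.X ω).ncard * Nat.card (stabilizer D.X ω) = Nat.card D.X := by
    rw [← index_stabilizer, Subgroup.index_mul_card]
  have h2 : orbit D.X ω = Set.univ := orbit_eq_univ D.X ω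
  rw [h2, Set.ncard_univ, Nat.card_eq_fintype_card, D.card] at h1
  have h3 : (orbit (stabilizer D.X ω) α).ncard * Nat.card (stabilizer (stabilizer D.X ω) α) =
      Nat.card (stabilizer D.X ω) := by
    rw [← index_stabilizer, Subgroup.index_mul_card]
  have h4 : orbit (stabilizer D.X ω) α = ((Finset.univ.erase ω : Finset Ω) : Set Ω) := by
    ext b
    simp only [MulAction.mem_orbit_iff, Finset.coe_erase, Finset.coe_univ, Set.mem_sdiff,
      Set.mem_univ, Set.mem_singleton_iff, true_and]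
    constructor
    · rintro ⟨m, rfl⟩ h5
      apply hα
      have h6 : (m.1.1 : Perm Ω) ω = ω := m.2
      have h7 : (m.1.1 : Perm Ω) α = ω := h5
      exact (m.1.1 : Perm Ω).injective (h7.trans h6.symm)
    · intro hb
      obtain ⟨g, hg, h5, h6⟩ := D.two_trans hα.symm (Ne.symm hb) (a := ω) (b := α) (c := ω) (d := b)
      exact ⟨⟨⟨g, hg⟩, h5⟩, h6⟩
  rw [h4, Set.ncard_coe_finset, Finset.card_erase_of_mem (Finset.mem_univ ω), Finset.card_univ,
    D.card] at h3
  rw [← h1, ← h3]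
  ring

lemma no_fix {y : Perm Ω} (hy : y ∈ D.X) (hord : orderOf y = 11) (a : Ω) : y a ≠ a := by
  classical
  intro hya
  have hR : IsPGroup 11 (Subgroup.zpowers y) :=
    IsPGroup.of_card (n := 1) (by rw [Nat.card_zpowers, hord]; norm_num)
  have h1 := card_modEq_fix (Subgroup.zpowers y) hR Finset.univ (fun g _ b _ => Finset.mem_univ _)
  rw [Finset.card_univ, D.card] at h1
  have h2 : a ∈ Finset.univ.filter (fun b => ∀ g ∈ Subgroup.zpowers y, g b = b) := by
    rw [Finset.mem_filter]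
    refine ⟨Finset.mem_univ _, ?_⟩
    rintro g ⟨i, rfl⟩
    exact Function.IsFixedPt.perm_zpow hya i
  have h3 : 0 < (Finset.univ.filter (fun b => ∀ g ∈ Subgroup.zpowers y, g b = b)).card :=
    Finset.card_pos.mpr ⟨a, h2⟩
  have h4 : 1 < (Finset.univ.filter (fun b => ∀ g ∈ Subgroup.zpowers y, g b = b)).card := by
    have h5 : (Finset.univ.filter (fun b => ∀ g ∈ Subgroup.zpowers y, g b = b)).card % 11 = 22 % 11 :=
      h1.symm
    omega
  obtain ⟨b, hb, hba⟩ := Finset.exists_mem_ne h4 a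
  have hbfix : y b = b := (Finset.mem_filter.mp hb).2 y (Subgroup.mem_zpowers y)
  have h6 := D.M_bound hba
  let y₀ : D.X := ⟨y, hy⟩
  have h₀ : y₀ ∈ stabilizer D.X a := hya
  let y₁ : stabilizer D.X a := ⟨y₀, h₀⟩
  have h₁ : y₁ ∈ stabilizer (stabilizer D.X a) b := hbfix
  let y₂ : stabilizer (stabilizer D.X a) b := ⟨y₁, h₁⟩
  have h8 := orderOf_dvd_natCard y₂
  have h9 : orderOf y₂ = orderOf y₁ := Subgroup.orderOf_mk _ _
  have h10 : orderOf y₁ = orderOf y₀ := Subgroup.orderOf_mk _ _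
  have h11 : orderOf y₀ = orderOf y := Subgroup.orderOf_mk _ _
  rw [h9, h10, h11, hord] at h8
  have h12 := Nat.le_of_dvd Nat.card_pos h8
  omega

lemma no_comm {y z : Perm Ω} (hy : y ∈ D.X) (hord : orderOf y = 11) (hc : Commute y z) {r : ℕ}
    (hr : r = 3 ∨ r = 7) (hzr : z ^ r = 1) : z = 1 := by
  classical
  have hrp : r.Prime := by
    rcases hr with rfl | rfl <;> norm_num
  haveI : Fact r.Prime := ⟨hrp⟩
  have hR : IsPGroup r (Subgroup.zpowers z) :=
    IsPGroup.of_card_dvd_pow (n := 1) (by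
      rw [Nat.card_zpowers, pow_one]
      exact orderOf_dvd_of_pow_eq_one hzr)
  have hRy : IsPGroup 11 (Subgroup.zpowers y) :=
    IsPGroup.of_card (n := 1) (by rw [Nat.card_zpowers, hord]; norm_num)
  have h1 := card_modEq_fix (Subgroup.zpowers z) hR Finset.univ (fun g _ b _ => Finset.mem_univ _)
  rw [Finset.card_univ, D.card] at h1
  have h2 := card_modEq_fix (Subgroup.zpowers y) hRy
    (Finset.univ.filter (fun b => ∀ g ∈ Subgroup.zpowers z, g b = b)) (by
      rintro g ⟨i, rfl⟩ a ha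
      rw [Finset.mem_filter] at ha ⊢
      refine ⟨Finset.mem_univ _, ?_⟩
      rintro h ⟨j, rfl⟩
      have h3 : Commute (y ^ i) (z ^ j) := hc.zpow_zpow i j
      have h4 := congrArg (fun f : Perm Ω => f a) h3.eq
      simp only [Perm.mul_apply] at h4
      rw [show (fun x : ℤ => y ^ x) i = y ^ i from rfl, show (fun x : ℤ => z ^ x) j = z ^ j from rfl]
      rw [← h4, ha.2 (z ^ j) ⟨j, rfl⟩])
  have h3 : (Finset.univ.filter (fun b => ∀ g ∈ Subgroup.zpowers z, g b = b)).filter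
      (fun a => ∀ g ∈ Subgroup.zpowers y, g a = a) = ∅ := by
    rw [Finset.filter_eq_empty_iff]
    intro a _ ha
    exact D.no_fix hy hord a (ha y (Subgroup.mem_zpowers y))
  rw [h3, Finset.card_empty] at h2
  have h4 : (Finset.univ.filter (fun b => ∀ g ∈ Subgroup.zpowers z, g b = b)).card ≤ 22 := by
    rw [← D.card]
    exact Finset.card_le_univ _
  have h5 : (Finset.univ.filter (fun b => ∀ g ∈ Subgroup.zpowers z, g b = b)).card = 22 := by
    have h6 : (Finset.univ.filter (fun b => ∀ g ∈ Subgroup.zpowers z, g b = b)).card % 11 = 0 % 11 := h2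
    have h7 : 22 % r = (Finset.univ.filter (fun b => ∀ g ∈ Subgroup.zpowers z, g b = b)).card % r := h1
    generalize (Finset.univ.filter (fun b => ∀ g ∈ Subgroup.zpowers z, g b = b)).card = n at *
    rcases hr with rfl | rfl <;> omega
  have h6 : Finset.univ.filter (fun b => ∀ g ∈ Subgroup.zpowers z, g b = b) = Finset.univ := by
    apply Finset.eq_univ_of_card
    rw [h5, D.card]
  ext b
  have h7 : b ∈ Finset.univ.filter (fun b => ∀ g ∈ Subgroup.zpowers z, g b = b) := by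
    rw [h6]
    exact Finset.mem_univ b
  simpa using (Finset.mem_filter.mp h7).2 z (Subgroup.mem_zpowers z)

end Data

lemma zmod_key3 : ∀ u : ZMod 11, u ^ 3 = 1 → u = 1 := by decide

lemma zmod_key7 : ∀ u : ZMod 11, u ^ 7 = 1 → u = 1 := by decide

lemma comm_of_norm {H : Type*} [Group H] {y z : H} (hord : orderOf y = 11) {r : ℕ}
    (hr : r = 3 ∨ r = 7) (hzr : z ^ r = 1) (h : z * y * z⁻¹ ∈ Subgroup.zpowers y) : Commute y z := by
  obtain ⟨i, hi⟩ := Subgroup.mem_zpowers_iff.mp h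
  have h1 : ∀ k : ℕ, z ^ k * y * (z ^ k)⁻¹ = y ^ (i ^ k) := by
    intro k
    induction k with
    | zero => simp
    | succ k ih =>
      calc z ^ (k + 1) * y * (z ^ (k + 1))⁻¹ = z ^ k * (z * y * z⁻¹) * (z ^ k)⁻¹ := by
            rw [pow_succ]
            group
        _ = z ^ k * y ^ i * (z ^ k)⁻¹ := by rw [hi]
        _ = (z ^ k * y * (z ^ k)⁻¹) ^ i := (conj_zpow).symm
        _ = y ^ (i ^ (k + 1)) := by rw [ih, ← zpow_mul, pow_succ]
  have h2 := h1 r
  rw [hzr] at h2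
  simp only [one_mul, inv_one, mul_one] at h2
  have h3 : y ^ (1 : ℤ) = y ^ (i ^ r) := by rw [zpow_one]; exact h2
  rw [zpow_eq_zpow_iff_modEq, hord] at h3
  have h4 : ((i ^ r : ℤ) : ZMod 11) = ((1 : ℤ) : ZMod 11) :=
    ((ZMod.intCast_eq_intCast_iff _ _ _).mpr (by exact_mod_cast h3)).symm
  push_cast at h4
  have h5 : (i : ZMod 11) = 1 := by
    rcases hr with rfl | rfl
    · exact zmod_key3 _ h4
    · exact zmod_key7 _ h4
  have h6 : y ^ i = y := by
    have h7 : (i : ZMod 11) = ((1 : ℤ) : ZMod 11) := by simpa using h5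
    have h8 := (ZMod.intCast_eq_intCast_iff _ _ _).mp h7
    have h9 : y ^ i = y ^ (1 : ℤ) := by
      rw [zpow_eq_zpow_iff_modEq, hord]
      exact_mod_cast h8
    rw [h9, zpow_one]
  rw [h6] at hi
  have h7 : y * z = z * y := by
    calc y * z = z * y * z⁻¹ * z := by rw [← hi]
      _ = z * y := by group
  exact h7

namespace Data

lemma final (D : Data Ω) : False := by
  classical
  obtain ⟨m, hm4, hm0, hcard⟩ := D.card_X
  obtain ⟨Q⟩ : Nonempty (Sylow 11 D.X) := inferInstance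
  have h11 : 11 ∣ Nat.card D.X := ⟨42 * m, by rw [hcard]; ring⟩
  have hQ1 : 11 ∣ Nat.card Q := by
    simpa using Q.pow_dvd_card_of_pow_dvd_card (n := 1) (by simpa using h11)
  obtain ⟨k, hk⟩ := IsPGroup.iff_card.mp Q.isPGroup'
  have hQdvd : Nat.card Q ∣ Nat.card D.X := Subgroup.card_subgroup_dvd_card _
  have hk1 : k = 1 := by
    have hk0 : k ≠ 0 := by
      rintro rfl
      rw [hk] at hQ1
      revert hQ1
      decide
    have hk2 : k < 2 := by
      by_contra hc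
      have h3 : 11 ^ 2 ∣ 11 ^ k := Nat.pow_dvd_pow 11 (not_lt.mp hc)
      rw [hk, hcard] at hQdvd
      have h4 := h3.trans hQdvd
      interval_cases m <;> omega
    omega
  subst hk1
  have hQ11 : Nat.card Q = 11 := by simpa using hk
  obtain ⟨y, hy⟩ := exists_prime_orderOf_dvd_card' (G := Q) 11 (by rw [hQ11])
  have hy1 : orderOf (y : D.X) = 11 := by
    rw [Subgroup.orderOf_coe, hy]
  have hy2 : orderOf ((y : D.X) : Perm Ω) = 11 := by
    rw [Subgroup.orderOf_coe, hy1]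
  have hQz : ∀ g ∈ (Q : Subgroup D.X), g ∈ Subgroup.zpowers (y : D.X) := by
    have h1 : Subgroup.zpowers (y : D.X) ≤ (Q : Subgroup D.X) :=
      (Subgroup.zpowers_le).mpr y.2
    have h2 := Subgroup.eq_of_le_of_card_ge h1 (by rw [Nat.card_zpowers, hy1, hQ11])
    intro g hg
    rw [h2]
    exact hg
  have hz : ∀ r : ℕ, (r = 3 ∨ r = 7) → ¬ r ∣ Nat.card (Subgroup.normalizer ((Q : Subgroup D.X) : Set D.X)) := by
    intro r hr hdvd
    have hrp : r.Prime := by
      rcases hr with rfl | rfl <;> norm_num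
    haveI : Fact r.Prime := ⟨hrp⟩
    obtain ⟨z, hz⟩ := exists_prime_orderOf_dvd_card' (G := Subgroup.normalizer ((Q : Subgroup D.X) : Set D.X)) r hdvd
    have hz1 : orderOf (z : D.X) = r := by
      rw [Subgroup.orderOf_coe, hz]
    have hz2 : (z : D.X) ^ r = 1 := by
      rw [← hz1]
      exact pow_orderOf_eq_one _
    have h1 : (z : D.X) * (y : D.X) * (z : D.X)⁻¹ ∈ (Q : Subgroup D.X) :=
      (Subgroup.mem_normalizer_iff.mp z.2 y).mp y.2
    have h2 := comm_of_norm hy1 hr hz2 (hQz _ h1)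
    have h3 : Commute ((y : D.X) : Perm Ω) ((z : D.X) : Perm Ω) := by
      have := congrArg (fun u : D.X => (u : Perm Ω)) h2.eq
      exact this
    have h4 : ((z : D.X) : Perm Ω) ^ r = 1 := by
      have := congrArg (fun u : D.X => (u : Perm Ω)) hz2
      simpa using this
    have h5 := D.no_comm (y : D.X).2 hy2 h3 hr h4
    have h6 : orderOf ((z : D.X) : Perm Ω) = r := by
      rw [Subgroup.orderOf_coe, hz1]
    rw [h5, orderOf_one] at h6
    rcases hr with rfl | rfl <;> omega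
  have hn : Nat.card (Sylow 11 D.X) = (Subgroup.normalizer ((Q : Subgroup D.X) : Set D.X)).index := Q.card_eq_index_normalizer
  have hnN : Nat.card (Sylow 11 D.X) * Nat.card (Subgroup.normalizer ((Q : Subgroup D.X) : Set D.X)) = Nat.card D.X := by
    rw [hn, Subgroup.index_mul_card]
  have h3n : 3 ∣ Nat.card (Sylow 11 D.X) := by
    have h4 : 3 ∣ Nat.card (Sylow 11 D.X) * Nat.card (Subgroup.normalizer ((Q : Subgroup D.X) : Set D.X)) := by
      rw [hnN, hcard]
      exact ⟨154 * m, by ring⟩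
    exact (Nat.Prime.dvd_mul Nat.prime_three).mp h4 |>.resolve_right (hz 3 (Or.inl rfl))
  have h7n : 7 ∣ Nat.card (Sylow 11 D.X) := by
    have h4 : 7 ∣ Nat.card (Sylow 11 D.X) * Nat.card (Subgroup.normalizer ((Q : Subgroup D.X) : Set D.X)) := by
      rw [hnN, hcard]
      exact ⟨66 * m, by ring⟩
    exact (Nat.Prime.dvd_mul (by norm_num)).mp h4 |>.resolve_right (hz 7 (Or.inr rfl))
  have h11N : 11 ∣ Nat.card (Subgroup.normalizer ((Q : Subgroup D.X) : Set D.X)) := by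
    have h4 := Subgroup.card_dvd_of_le (Subgroup.le_normalizer (H := (Q : Subgroup D.X)))
    rw [hQ11] at h4
    exact h4
  obtain ⟨c, hc⟩ := h11N
  have hc0 : 0 < c := by
    rcases Nat.eq_zero_or_pos c with rfl | h
    · have : 0 < Nat.card (Subgroup.normalizer ((Q : Subgroup D.X) : Set D.X)) := Nat.card_pos
      omega
    · exact h
  rw [hc, hcard] at hnN
  have hmod : Nat.card (Sylow 11 D.X) ≡ 1 [MOD 11] := card_sylow_modEq_one 11 D.X
  have hmod' : Nat.card (Sylow 11 D.X) % 11 = 1 := hmod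
  generalize Nat.card (Sylow 11 D.X) = n at *
  have hn168 : n * c = 42 * m := by nlinarith
  have hnle : n ≤ 168 := by nlinarith
  omega

end Data

/-- No finite group has exactly 22 Sylow 3-subgroups. -/
theorem result {G : Type*} [Group G] [Finite G] : Nat.card (Sylow 3 G) ≠ 22 := by
  classical
  intro h
  haveI : Fintype (Sylow 3 G) := Fintype.ofFinite _
  let ρ : G →* Perm (Sylow 3 G) := MulAction.toPermHom G (Sylow 3 G)
  have hρ : ∀ (a : G) (Q : Sylow 3 G), ρ a Q = a • Q := fun a Q => rfl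
  refine Data.final (Ω := Sylow 3 G)
    { X := ρ.range
      P := fun Q => (Q : Subgroup G).map ρ
      P_le := fun Q => by
        rintro _ ⟨a, _, rfl⟩
        exact ⟨a, rfl⟩
      P3 := fun Q => (Q.isPGroup').map ρ
      fix := ?_
      uniq := ?_
      conj := ?_
      mem := ?_
      card := ?_
      trans := ?_ }
  · rintro Q _ ⟨a, ha, rfl⟩
    rw [hρ]
    exact Sylow.smul_eq_iff_mem_normalizer.mpr (Subgroup.le_normalizer ha)
  · intro Q Q' h1
    have h2 : (Q : Subgroup G) ≤ Subgroup.normalizer (Q' : Set G) := by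
      intro a ha
      exact Sylow.smul_eq_iff_mem_normalizer.mp (h1 (ρ a) ⟨a, ha, rfl⟩)
    have h3 := IsPGroup.inf_normalizer_sylow Q.isPGroup' Q'
    have h4 : (Q : Subgroup G) ≤ (Q' : Subgroup G) := by
      intro a ha
      have h5 : a ∈ (Q : Subgroup G) ⊓ Subgroup.normalizer (Q' : Set G) := ⟨ha, h2 ha⟩
      rw [h3] at h5
      exact h5.2
    exact Sylow.ext (Q.is_maximal' Q'.isPGroup' h4)
  · rintro _ ⟨b, rfl⟩ Q _ ⟨a, ha, rfl⟩
    refine ⟨b * a * b⁻¹, ?_, by simp⟩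
    rw [hρ, Sylow.coe_subgroup_smul]
    exact ⟨a, ha, rfl⟩
  · rintro Q _ ⟨b, rfl⟩ hfix ⟨k, hk⟩
    have hbN : b ∈ Subgroup.normalizer (Q : Set G) :=
      Sylow.smul_eq_iff_mem_normalizer.mp hfix
    have hn0 : orderOf b ≠ 0 := (orderOf_pos b).ne'
    obtain ⟨e, n', hn', hn⟩ := Nat.exists_eq_pow_mul_and_not_dvd hn0 3 (by norm_num)
    have hcop : Nat.Coprime n' (3 ^ (k + 1)) :=
      Nat.Coprime.pow_right _ ((Nat.Prime.coprime_iff_not_dvd Nat.prime_three).mpr hn').symm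
    obtain ⟨u, hu⟩ := Nat.exists_mul_mod_eq_one_of_coprime hcop (by
      have : 0 < 3 ^ k := by positivity
      rw [pow_succ]
      omega)
    refine ⟨b ^ (n' * u), ?_, ?_⟩
    · have h1 : (b ^ (n' * u)) ^ 3 ^ e = 1 := by
        rw [← pow_mul, show n' * u * 3 ^ e = orderOf b * u by rw [hn]; ring, pow_mul,
          pow_orderOf_eq_one, one_pow]
      have hP : IsPGroup 3 (Subgroup.zpowers (b ^ (n' * u))) :=
        IsPGroup.of_card_dvd_pow (n := e) (by
          rw [Nat.card_zpowers]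
          exact orderOf_dvd_of_pow_eq_one h1)
      have h3 := IsPGroup.inf_normalizer_sylow hP Q
      have h5 : b ^ (n' * u) ∈ Subgroup.zpowers (b ^ (n' * u)) ⊓
          Subgroup.normalizer (Q : Set G) :=
        ⟨Subgroup.mem_zpowers _, Subgroup.pow_mem _ hbN _⟩
      rw [h3] at h5
      exact h5.2
    · rw [map_pow]
      have h1 : (ρ b) ^ 3 ^ (k + 1) = 1 := by
        rw [pow_succ, pow_mul, hk, one_pow]
      rw [pow_eq_pow_mod _ h1, hu.2, pow_one]
  · rw [← Nat.card_eq_fintype_card, h]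
  · intro a b
    obtain ⟨g, hg⟩ := MulAction.exists_smul_eq G a b
    exact ⟨ρ g, ⟨g, rfl⟩, hg⟩

end Cfsg.Agent.S4346
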