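import Cfsg.Statements.S4354
import Mathlib.GroupTheory.Sylow

set_option autoImplicit false
open Cfsg

namespace Cfsg.Agent.S4354

open Subgroup
open scoped Pointwise

variable {G : Type*} [Group G] [Finite G] {p : ℕ} [Fact p.Prime]

lemma isP_zpowers {x : G} {k : ℕ} (hx : x ^ p ^ k = 1) : IsPGroup p (Subgroup.zpowers x) := by
  have h1 : orderOf x ∣ p ^ k := orderOf_dvd_of_pow_eq_one hx
  obtain ⟨j, _, hj⟩ := (Nat.dvd_prime_pow Fact.out).mp h1
  exact IsPGroup.of_card (n := j) (by rw [Nat.card_zpowers, hj])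

lemma mem_of_mem_normalizer (R : Sylow p G) {x : G} {k : ℕ} (hx : x ^ p ^ k = 1)
    (hn : x ∈ normalizer ((R : Subgroup G) : Set G)) : x ∈ (R : Subgroup G) := by
  have h := (isP_zpowers hx).inf_normalizer_sylow R
  have h2 : x ∈ zpowers x ⊓ normalizer (R : Set G) := ⟨mem_zpowers x, hn⟩
  rw [h] at h2
  exact h2.2

lemma exists_sylow_le (C : Subgroup G) (hi : ¬ p ∣ C.index) : ∃ R : Sylow p G, (R : Subgroup G) ≤ C := by
  obtain ⟨Q⟩ : Nonempty (Sylow p C) := Sylow.nonempty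
  have h1 : IsPGroup p (Q.1.map C.subtype) := Q.2.map C.subtype
  have h2 : ¬ p ∣ (Q.1.map C.subtype).index := by
    rw [Subgroup.index_map_subtype Q.1]
    exact Nat.Prime.not_dvd_mul Fact.out Q.not_dvd_index hi
  refine ⟨h1.toSylow h2, ?_⟩
  rintro _ ⟨x, -, rfl⟩
  exact x.2

lemma pow_of_mem_sylow (P : Sylow p G) {y : G} (hy : y ∈ (P : Subgroup G)) :
    ∃ k : ℕ, orderOf y = p ^ k := by
  obtain ⟨k, hk⟩ := P.isPGroup' ⟨y, hy⟩
  have h1 : y ^ p ^ k = 1 := by simpa using congrArg Subtype.val hk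
  obtain ⟨j, _, hj⟩ := (Nat.dvd_prime_pow Fact.out).mp (orderOf_dvd_of_pow_eq_one h1)
  exact ⟨j, hj⟩

lemma exists_sylow_central (hq : ∀ x : G, (∃ k : ℕ, orderOf x = p ^ k) →
    ¬ p ∣ (Subgroup.centralizer ({x} : Set G)).index) (x : G) (hx : ∃ k : ℕ, orderOf x = p ^ k) :
    ∃ R : Sylow p G, x ∈ (R : Subgroup G) ∧ ∀ r ∈ (R : Subgroup G), r * x = x * r := by
  obtain ⟨R, hR⟩ := exists_sylow_le _ (hq x hx)
  have hc : ∀ r ∈ (R : Subgroup G), r * x = x * r := by
    intro r hr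
    have := hR hr
    rw [Subgroup.mem_centralizer_iff] at this
    exact (this x rfl).symm
  refine ⟨R, ?_, hc⟩
  obtain ⟨k, hk⟩ := hx
  have h1 : x ^ p ^ k = 1 := by rw [← hk]; exact pow_orderOf_eq_one x
  apply mem_of_mem_normalizer R h1
  rw [Subgroup.mem_normalizer_iff]
  intro h
  have hcc : ∀ r ∈ (R : Subgroup G), x * r * x⁻¹ = r := fun r hr => by
    rw [← hc r hr]; group
  constructor
  · intro hh
    rw [hcc h hh]; exact hh
  · intro hh
    have h2 := hcc _ hh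
    have h3 : x * (x * h * x⁻¹) * x⁻¹ = x * h * x⁻¹ := h2
    have h4 : x * h * x⁻¹ = h := by
      have : x * (x * h * x⁻¹) = x * h := mul_right_cancel (b := x⁻¹) h3
      exact mul_left_cancel this
    rwa [h4] at hh

/-- The intersection of a Sylow subgroup and a normal subgroup, as a Sylow subgroup of the latter. -/
lemma exists_sylow_inf (P : Sylow p G) (N : Subgroup G) [N.Normal] :
    ∃ A : Sylow p N, (A : Subgroup N) = (P : Subgroup G).subgroupOf N := by
  have hp : IsPGroup p ((P : Subgroup G).subgroupOf N) := P.isPGroup'.comap_subtype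
  refine ⟨⟨(P : Subgroup G).subgroupOf N, hp, ?_⟩, rfl⟩
  intro Q hQ hle
  have hQ' : IsPGroup p (Q.map N.subtype) := hQ.map _
  obtain ⟨T, hT⟩ := hQ'.exists_le_sylow
  obtain ⟨g, hg⟩ := MulAction.exists_smul_eq G T P
  -- conjugate Q into P ⊓ N
  have hcard : Nat.card Q ≤ Nat.card ((P : Subgroup G).subgroupOf N) := by
    refine Nat.card_le_card_of_injective
      (fun c : Q => (⟨⟨g * ((c : N) : G) * g⁻¹, ?_⟩, ?_⟩ : ((P : Subgroup G).subgroupOf N))) ?_
    · exact (inferInstance : N.Normal).conj_mem _ (c : N).2 g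
    · show g * ((c : N) : G) * g⁻¹ ∈ (P : Subgroup G)
      have h1 : ((c : N) : G) ∈ (T : Subgroup G) := hT ⟨c, c.2, rfl⟩
      have h2 : g • T = P := hg
      rw [← h2, Sylow.coe_subgroup_smul]
      exact Subgroup.mem_pointwise_smul_iff_inv_smul_mem.mpr (by simpa [MulAut.smul_def, mul_assoc] using h1)
    · intro a b hab
      have := congrArg (fun z : ((P : Subgroup G).subgroupOf N) => ((z : N) : G)) hab
      simp only at this
      exact Subtype.ext (Subtype.ext (mul_left_cancel (mul_right_cancel this)))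
  exact (Subgroup.eq_of_le_of_card_ge hle hcard).symm

lemma conj_in_normal (N : Subgroup G) [N.Normal] (R₁ R₂ : Sylow p G) :
    ∃ n ∈ N, ∀ a ∈ (R₁ : Subgroup G), a ∈ N → n * a * n⁻¹ ∈ (R₂ : Subgroup G) := by
  obtain ⟨A₁, hA₁⟩ := exists_sylow_inf R₁ N
  obtain ⟨A₂, hA₂⟩ := exists_sylow_inf R₂ N
  obtain ⟨n, hn⟩ := MulAction.exists_smul_eq N A₁ A₂
  refine ⟨n, n.2, fun a ha haN => ?_⟩
  have h1 : (⟨a, haN⟩ : N) ∈ (A₁ : Subgroup N) := by rw [hA₁]; exact ha
  have h2 : (n * ⟨a, haN⟩ * n⁻¹ : N) ∈ (A₂ : Subgroup N) := by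
    rw [← hn, Sylow.coe_subgroup_smul]
    exact Subgroup.mem_pointwise_smul_iff_inv_smul_mem.mpr (by simpa [MulAut.smul_def, mul_assoc] using h1)
  rw [hA₂] at h2
  exact h2

lemma mem_of_pow_mem_of_pow_mem (S : Subgroup G) (x : G) {a b : ℕ} (hab : Nat.Coprime a b)
    (ha : x ^ a ∈ S) (hb : x ^ b ∈ S) : x ∈ S := by
  obtain ⟨u, v, huv⟩ : IsCoprime (a : ℤ) (b : ℤ) := Nat.isCoprime_iff_coprime.mpr hab
  have : x = (x ^ a) ^ u * (x ^ b) ^ v := by
    rw [← zpow_natCast, ← zpow_natCast, ← zpow_mul, ← zpow_mul, ← zpow_add]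
    have h1 : (a : ℤ) * u + (b : ℤ) * v = 1 := by linarith
    rw [h1, zpow_one]
  rw [this]
  exact S.mul_mem (S.zpow_mem ha _) (S.zpow_mem hb _)

/-- `P ∩ N` is central in `P`. -/
lemma central_A (hq : ∀ x : G, (∃ k : ℕ, orderOf x = p ^ k) →
    ¬ p ∣ (Subgroup.centralizer ({x} : Set G)).index) (N : Subgroup G) [hN : N.Normal] (P : Sylow p G)
    (hNab : ∀ A : Sylow p N, IsMulCommutative A) {y a : G} (hy : y ∈ (P : Subgroup G))
    (ha : a ∈ (P : Subgroup G)) (haN : a ∈ N) : y * a = a * y := by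
  obtain ⟨k, hk⟩ := pow_of_mem_sylow P hy
  obtain ⟨R, hyR, hR⟩ := exists_sylow_central hq y ⟨k, hk⟩
  obtain ⟨n, hn, hnR⟩ := conj_in_normal N P R
  let m : G := y⁻¹ * n⁻¹ * y * n
  have hmN : m ∈ N := by
    have h1 : y⁻¹ * n⁻¹ * y⁻¹⁻¹ ∈ N := hN.conj_mem _ (N.inv_mem hn) y⁻¹
    have h2 : m = (y⁻¹ * n⁻¹ * y⁻¹⁻¹) * n := by simp [m]
    rw [h2]
    exact N.mul_mem h1 hn
  -- conjugation by `m` on `P ∩ N` agrees with conjugation by `y⁻¹`
  have hm : ∀ b, b ∈ (P : Subgroup G) → b ∈ N → m * b * m⁻¹ = y⁻¹ * b * y := by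
    intro b hb hbN
    have h1 := hR _ (hnR b hb hbN)
    have h2 : y * (n * b * n⁻¹) * y⁻¹ = n * b * n⁻¹ := by rw [← h1]; group
    calc m * b * m⁻¹ = y⁻¹ * n⁻¹ * (y * (n * b * n⁻¹) * y⁻¹) * n * y := by simp only [m]; group
      _ = y⁻¹ * n⁻¹ * (n * b * n⁻¹) * n * y := by rw [h2]
      _ = y⁻¹ * b * y := by group
  have hconj : ∀ c ∈ (P : Subgroup G), ∀ b, b ∈ (P : Subgroup G) → b ∈ N →
      c * b * c⁻¹ ∈ (P : Subgroup G) ∧ c * b * c⁻¹ ∈ N := fun c hc b hb hbN =>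
    ⟨(P : Subgroup G).mul_mem ((P : Subgroup G).mul_mem hc hb) ((P : Subgroup G).inv_mem hc),
      hN.conj_mem b hbN c⟩
  have hyi : y⁻¹ ∈ (P : Subgroup G) := (P : Subgroup G).inv_mem hy
  have hm_pow : ∀ j : ℕ, ∀ b, b ∈ (P : Subgroup G) → b ∈ N →
      m ^ j * b * (m ^ j)⁻¹ = (y⁻¹) ^ j * b * ((y⁻¹) ^ j)⁻¹ := by
    intro j
    induction j with
    | zero => intro b _ _; simp
    | succ j ih =>
      intro b hb hbN
      have h1 := hconj y⁻¹ hyi b hb hbN
      have h2 := ih _ h1.1 h1.2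
      have h3 : y⁻¹ * b * y⁻¹⁻¹ = y⁻¹ * b * y := by simp
      rw [h3] at h2
      calc m ^ (j + 1) * b * (m ^ (j + 1))⁻¹ = m ^ j * (m * b * m⁻¹) * (m ^ j)⁻¹ := by
            rw [pow_succ]; group
        _ = m ^ j * (y⁻¹ * b * y) * (m ^ j)⁻¹ := by rw [hm b hb hbN]
        _ = (y⁻¹) ^ j * (y⁻¹ * b * y) * ((y⁻¹) ^ j)⁻¹ := h2
        _ = (y⁻¹) ^ (j + 1) * b * ((y⁻¹) ^ (j + 1))⁻¹ := by rw [pow_succ]; group
  have hyk : y ^ p ^ k = 1 := by rw [← hk]; exact pow_orderOf_eq_one y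
  have hC1 : m ^ p ^ k ∈ Subgroup.centralizer ({a} : Set G) := by
    rw [Subgroup.mem_centralizer_iff]
    intro b hb
    have hb' : b = a := hb
    rw [hb']
    have h1 := hm_pow (p ^ k) a ha haN
    rw [inv_pow, hyk] at h1
    simp only [inv_one, one_mul, mul_one] at h1
    exact (mul_inv_eq_iff_eq_mul.mp h1).symm
  obtain ⟨s, q, hq', hs⟩ := Nat.exists_eq_pow_mul_and_not_dvd (orderOf_pos m).ne' p
    (Fact.out : p.Prime).ne_one
  let w : N := ⟨m ^ q, N.pow_mem hmN q⟩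
  have hws : w ^ p ^ s = 1 := by
    apply Subtype.ext
    show (m ^ q) ^ p ^ s = 1
    rw [← pow_mul, mul_comm, ← hs]
    exact pow_orderOf_eq_one m
  obtain ⟨A, hA⟩ := exists_sylow_inf P N
  have hwA : w ∈ (A : Subgroup N) := by
    apply mem_of_mem_normalizer A hws
    rw [Subgroup.mem_normalizer_iff]
    intro h
    have hconjw := hm_pow q
    have hcP : (y⁻¹) ^ q ∈ (P : Subgroup G) := (P : Subgroup G).pow_mem hyi q
    rw [hA]
    show (h : G) ∈ (P : Subgroup G) ↔ (m ^ q) * (h : G) * (m ^ q)⁻¹ ∈ (P : Subgroup G)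
    constructor
    · intro hh
      rw [hconjw _ hh h.2]
      exact (hconj _ hcP _ hh h.2).1
    · intro hh
      have hbN : m ^ q * (h : G) * (m ^ q)⁻¹ ∈ N := hN.conj_mem _ h.2 _
      have hci := (P : Subgroup G).inv_mem hcP
      have h2 := hconj _ hci _ hh hbN
      have h3 := hconjw _ h2.1 h2.2
      have h4 : (y⁻¹) ^ q * (((y⁻¹) ^ q)⁻¹ * (m ^ q * (h : G) * (m ^ q)⁻¹) * ((y⁻¹) ^ q)⁻¹⁻¹) *
          ((y⁻¹) ^ q)⁻¹ = m ^ q * (h : G) * (m ^ q)⁻¹ := by group
      rw [h4] at h3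
      have h5 : ((y⁻¹) ^ q)⁻¹ * (m ^ q * (h : G) * (m ^ q)⁻¹) * ((y⁻¹) ^ q)⁻¹⁻¹ = (h : G) := by
        have := mul_right_cancel h3
        exact mul_left_cancel this
      rw [← h5]
      exact h2.1
  have hC2 : m ^ q ∈ Subgroup.centralizer ({a} : Set G) := by
    rw [Subgroup.mem_centralizer_iff]
    intro b hb
    have hb' : b = a := hb
    rw [hb']
    have hab := hNab A
    have ha1 : (⟨a, haN⟩ : N) ∈ (A : Subgroup N) := by rw [hA]; exact ha
    have h1 := hab.is_comm.comm ⟨⟨a, haN⟩, ha1⟩ ⟨w, hwA⟩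
    have h2 := congrArg (fun z : (A : Subgroup N) => ((z : N) : G)) h1
    exact h2
  have hcop : Nat.Coprime (p ^ k) q :=
    Nat.Coprime.pow_left k ((Nat.Prime.coprime_iff_not_dvd Fact.out).mpr hq')
  have hC3 := mem_of_pow_mem_of_pow_mem _ m hcop hC1 hC2
  rw [Subgroup.mem_centralizer_iff] at hC3
  have h5 := hC3 a rfl
  have h6 := hm a ha haN
  have h7 : m * a * m⁻¹ = a := by rw [← h5]; group
  rw [h7] at h6
  -- a = y⁻¹ a y
  calc y * a = y * (y⁻¹ * a * y) := by rw [← h6]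
    _ = a * y := by group

/-- Every element of `P` is central in `P`. -/
lemma central_P (hq : ∀ x : G, (∃ k : ℕ, orderOf x = p ^ k) →
    ¬ p ∣ (Subgroup.centralizer ({x} : Set G)).index) (N : Subgroup G) [hN : N.Normal] (P : Sylow p G)
    (hNab : ∀ A : Sylow p N, IsMulCommutative A)
    (hQab : ∀ Q : Sylow p (G ⧸ N), IsMulCommutative Q) {y x : G} (hy : y ∈ (P : Subgroup G))
    (hx : x ∈ (P : Subgroup G)) : y * x = x * y := by
  obtain ⟨k, hk⟩ := pow_of_mem_sylow P hy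
  obtain ⟨R, hyR, hR⟩ := exists_sylow_central hq y ⟨k, hk⟩
  obtain ⟨g, hg⟩ := MulAction.exists_smul_eq G P R
  -- the conjugate `z` lies in the centre of `P`
  let z : G := g⁻¹ * y * g
  have hgR : ∀ u, u ∈ (P : Subgroup G) → g * u * g⁻¹ ∈ (R : Subgroup G) := by
    intro u hu
    rw [← hg, Sylow.coe_subgroup_smul]
    exact Subgroup.mem_pointwise_smul_iff_inv_smul_mem.mpr
      (by simpa [MulAut.smul_def, mul_assoc] using hu)
  have hzP : z ∈ (P : Subgroup G) := by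
    rw [← hg, Sylow.coe_subgroup_smul] at hyR
    have := Subgroup.mem_pointwise_smul_iff_inv_smul_mem.mp hyR
    simpa [MulAut.smul_def, mul_assoc, z] using this
  have hzc : ∀ u ∈ (P : Subgroup G), u * z = z * u := by
    intro u hu
    have h1 := hR _ (hgR u hu)
    calc u * z = g⁻¹ * ((g * u * g⁻¹) * y) * g := by simp only [z]; group
      _ = g⁻¹ * (y * (g * u * g⁻¹)) * g := by rw [h1]
      _ = z * u := by simp only [z]; group
  let φ := QuotientGroup.mk' N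
  have hφ : Function.Surjective φ := QuotientGroup.mk'_surjective N
  let Pb : Sylow p (G ⧸ N) := P.mapSurjective hφ
  have hPb : (Pb : Subgroup (G ⧸ N)) = (P : Subgroup G).map φ := rfl
  haveI : IsMulCommutative Pb := hQab Pb
  have hyb : φ y ∈ Pb := ⟨y, hy, rfl⟩
  have hzb : (φ g)⁻¹ * φ y * φ g ∈ Pb := by
    refine ⟨z, hzP, ?_⟩
    simp [z]
  obtain ⟨nb, hnb, hnbe⟩ := Pb.conj_eq_normalizer_conj_of_mem (φ y) (φ g) hyb hzb
  obtain ⟨w₀, rfl⟩ := hφ nb
  -- correct `w₀` to an element of `N_G(P)`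
  have hTsub : ∀ t, t ∈ ((w₀ • P : Sylow p G) : Subgroup G) → t ∈ (P : Subgroup G) ⊔ N := by
    intro t ht
    have ht' : t ∈ (MulAut.conj w₀ • (P : Subgroup G)) := by
      have : ((w₀ • P : Sylow p G) : Subgroup G) = MulAut.conj w₀ • (P : Subgroup G) :=
        Sylow.coe_subgroup_smul
      rwa [this] at ht
    have h1 := Subgroup.mem_pointwise_smul_iff_inv_smul_mem.mp ht'
    have h2 : w₀⁻¹ * t * w₀ ∈ (P : Subgroup G) := by
      simpa [MulAut.smul_def, mul_assoc] using h1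
    -- image of t is in the image of P
    have h3 : φ (w₀⁻¹ * t * w₀) ∈ Pb := ⟨_, h2, rfl⟩
    have h4 : φ t ∈ Pb := by
      have h5 := (Subgroup.mem_normalizer_iff.mp hnb (φ (w₀⁻¹ * t * w₀))).mp h3
      have h6 : φ w₀ * φ (w₀⁻¹ * t * w₀) * (φ w₀)⁻¹ = φ t := by
        simp only [map_mul, map_inv]; group
      rw [h6] at h5
      exact h5
    obtain ⟨u, hu, hue⟩ := h4
    have h7 : u⁻¹ * t ∈ N := by
      have : φ (u⁻¹ * t) = 1 := by
        rw [map_mul, map_inv]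
        have hue' : φ u = φ t := hue
        rw [hue', inv_mul_cancel]
      exact (QuotientGroup.eq_one_iff _).mp this
    have h8 : t = u * (u⁻¹ * t) := by group
    rw [h8]
    exact Subgroup.mul_mem _ (Subgroup.mem_sup_left hu) (Subgroup.mem_sup_right h7)
  let H : Subgroup G := (P : Subgroup G) ⊔ N
  have hPH : (P : Subgroup G) ≤ H := le_sup_left
  have hTH : ((w₀ • P : Sylow p G) : Subgroup G) ≤ H := fun t ht => hTsub t ht
  obtain ⟨h, hh⟩ := MulAction.exists_smul_eq H ((w₀ • P : Sylow p G).subtype hTH) (P.subtype hPH)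
  simp_rw [Sylow.smul_subtype, Subgroup.smul_def, smul_smul] at hh
  have hw1 : (h : G) * w₀ ∈ normalizer ((P : Subgroup G) : Set G) :=
    Sylow.smul_eq_iff_mem_normalizer.mp (Sylow.subtype_injective hh)
  have hhmem : (h : G) ∈ ((P : Subgroup G) ⊔ N : Subgroup G) := h.2
  rw [← SetLike.mem_coe, Subgroup.mul_normal, Set.mem_mul] at hhmem
  obtain ⟨u', hu', n', hn', hun⟩ := hhmem
  have hu'' : u' ∈ (P : Subgroup G) := hu'
  let w : G := n' * w₀
  have hw : w ∈ normalizer ((P : Subgroup G) : Set G) := by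
    have h1 : w = u'⁻¹ * ((h : G) * w₀) := by
      simp only [w]
      rw [← hun]; group
    rw [h1]
    exact Subgroup.mul_mem _ (Subgroup.inv_mem _ (Subgroup.le_normalizer hu'')) hw1
  have hφw : φ w = φ w₀ := by
    have : φ n' = 1 := (QuotientGroup.eq_one_iff _).mpr hn'
    simp only [w, map_mul, this, one_mul]
  let z' : G := w * z * w⁻¹
  have hz'P : z' ∈ (P : Subgroup G) := (Subgroup.mem_normalizer_iff.mp hw z).mp hzP
  have hz'c : x * z' = z' * x := by
    have h1 : w⁻¹ * x * w ∈ (P : Subgroup G) := by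
      apply (Subgroup.mem_normalizer_iff.mp hw _).mpr
      have : w * (w⁻¹ * x * w) * w⁻¹ = x := by group
      rw [this]; exact hx
    have h2 := hzc _ h1
    calc x * z' = w * ((w⁻¹ * x * w) * z) * w⁻¹ := by
          show x * (w * z * w⁻¹) = _
          group
      _ = w * (z * (w⁻¹ * x * w)) * w⁻¹ := by rw [h2]
      _ = z' * x := by
          show _ = (w * z * w⁻¹) * x
          group
  have hφz' : φ z' = φ y := by
    have h1 : φ z = (φ g)⁻¹ * φ y * φ g := by simp [z]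
    rw [hnbe] at h1
    simp only [z', map_mul, map_inv, hφw, h1]
    group
  have haN : y * z'⁻¹ ∈ N := by
    have : φ (y * z'⁻¹) = 1 := by
      rw [map_mul, map_inv, hφz', mul_inv_cancel]
    exact (QuotientGroup.eq_one_iff _).mp this
  have haP : y * z'⁻¹ ∈ (P : Subgroup G) :=
    (P : Subgroup G).mul_mem hy ((P : Subgroup G).inv_mem hz'P)
  have h1 := central_A hq N P hNab hx haP haN
  calc y * x = (y * z'⁻¹) * (z' * x) := by group
    _ = (y * z'⁻¹) * (x * z') := by rw [hz'c]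
    _ = (x * (y * z'⁻¹)) * z' := by rw [← mul_assoc, ← h1]
    _ = x * y := by group

lemma Q_normal (hq : ∀ x : G, (∃ k : ℕ, orderOf x = p ^ k) →
    ¬ p ∣ (Subgroup.centralizer ({x} : Set G)).index) (N : Subgroup G) [N.Normal] :
    ∀ x : N, (∃ k : ℕ, orderOf x = p ^ k) → ¬ p ∣ (Subgroup.centralizer ({x} : Set N)).index := by
  rintro x ⟨k, hk⟩
  have hkG : orderOf (x : G) = p ^ k := by rw [Subgroup.orderOf_coe]; exact hk
  obtain ⟨R, -, hR⟩ := exists_sylow_central hq x ⟨k, hkG⟩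
  obtain ⟨A, hA⟩ := exists_sylow_inf R N
  have hle : (A : Subgroup N) ≤ Subgroup.centralizer ({x} : Set N) := by
    intro a ha
    rw [hA] at ha
    rw [Subgroup.mem_centralizer_iff]
    intro b hb
    have hb' : b = x := hb
    rw [hb']
    exact Subtype.ext (hR a ha).symm
  intro hd
  exact A.not_dvd_index (hd.trans (Subgroup.index_dvd_of_le hle))

lemma Q_quot (hq : ∀ x : G, (∃ k : ℕ, orderOf x = p ^ k) →
    ¬ p ∣ (Subgroup.centralizer ({x} : Set G)).index) (N : Subgroup G) [N.Normal] :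
    ∀ x : G ⧸ N, (∃ k : ℕ, orderOf x = p ^ k) →
      ¬ p ∣ (Subgroup.centralizer ({x} : Set (G ⧸ N))).index := by
  rintro xb ⟨k, hk⟩
  let φ := QuotientGroup.mk' N
  have hφ : Function.Surjective φ := QuotientGroup.mk'_surjective N
  have hp : IsPGroup p (Subgroup.zpowers xb) := IsPGroup.of_card (n := k) (by rw [Nat.card_zpowers, hk])
  obtain ⟨Qb, hQb⟩ := hp.exists_le_sylow
  obtain ⟨R, hR⟩ := Sylow.mapSurjective_surjective hφ p Qb
  have hxb : xb ∈ (Qb : Subgroup (G ⧸ N)) := hQb (Subgroup.mem_zpowers xb)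
  rw [← hR] at hxb
  obtain ⟨x, hx, rfl⟩ := hxb
  obtain ⟨j, hj⟩ := pow_of_mem_sylow R hx
  have h1 := hq x ⟨j, hj⟩
  have hle : Subgroup.centralizer ({x} : Set G) ≤
      (Subgroup.centralizer ({φ x} : Set (G ⧸ N))).comap φ := by
    intro c hc
    rw [Subgroup.mem_centralizer_iff] at hc
    rw [Subgroup.mem_comap, Subgroup.mem_centralizer_iff]
    intro b hb
    have hb' : b = φ x := hb
    rw [hb', ← map_mul, ← map_mul, hc x rfl]
  intro hd
  apply h1
  rw [← Subgroup.index_comap_of_surjective _ hφ] at hd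
  exact hd.trans (Subgroup.index_dvd_of_le hle)

/-- Let G be a finite group and p a prime such that the Sylow p-subgroups of G are non-abelian while every element of p-power order has conjugacy class size prime to p, and suppose no nontrivial proper normal subgroup N of G has this property and no quotient G/N by such an N has it. Then G is simple. -/
theorem result {G : Type*} [Group G] [Finite G]
    (p : ℕ) [Fact p.Prime] (h : ((∃ P : Sylow p G, ¬ IsMulCommutative P) ∧ ∀ x : G, (∃ k : ℕ, orderOf x = p ^ k) → ¬ p ∣ (Subgroup.centralizer ({x} : Set G)).index))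
    (hmin : ∀ (N : Subgroup G) [N.Normal], N ≠ ⊥ → N ≠ ⊤ →
      ¬ ((∃ P : Sylow p N, ¬ IsMulCommutative P) ∧ ∀ x : N, (∃ k : ℕ, orderOf x = p ^ k) → ¬ p ∣ (Subgroup.centralizer ({x} : Set N)).index) ∧
      ¬ ((∃ P : Sylow p (G ⧸ N), ¬ IsMulCommutative P) ∧ ∀ x : (G ⧸ N), (∃ k : ℕ, orderOf x = p ^ k) → ¬ p ∣ (Subgroup.centralizer ({x} : Set (G ⧸ N))).index)) :
    IsSimpleGroup G := by
  obtain ⟨⟨P, hP⟩, hq⟩ := h
  have hnt : Nontrivial G := by
    by_contra hcon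
    rw [not_nontrivial_iff_subsingleton] at hcon
    exact hP ⟨⟨fun a b => Subtype.ext (Subsingleton.elim _ _)⟩⟩
  refine ⟨fun N hN => ?_⟩
  by_contra hcon
  rw [not_or] at hcon
  obtain ⟨h1, h2⟩ := hmin N hcon.1 hcon.2
  have hNab : ∀ A : Sylow p N, IsMulCommutative A := by
    intro A
    by_contra hA
    exact h1 ⟨⟨A, hA⟩, Q_normal hq N⟩
  have hQab : ∀ Q : Sylow p (G ⧸ N), IsMulCommutative Q := by
    intro Q
    by_contra hA
    exact h2 ⟨⟨Q, hA⟩, Q_quot hq N⟩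
  exact hP ⟨⟨fun a b => Subtype.ext (central_P hq N P hNab hQab a.2 b.2)⟩⟩

end Cfsg.Agent.S4354
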