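import Cfsg.Statements.S4365
import Mathlib.GroupTheory.PGroup
import Mathlib.GroupTheory.Sylow
import Mathlib.GroupTheory.Index
import Mathlib.GroupTheory.QuotientGroup.Basic

set_option autoImplicit false
open Cfsg

namespace Cfsg.Agent.S4365

open Subgroup

variable {P : Type*} [Group P]

lemma comm_of_mem {z : P} (hz : z ∈ center P) (g : P) : Commute g z :=
  (Subgroup.mem_center_iff.mp hz g)

lemma cent_eq [Finite P] {m : ℕ}
    (hI : ∀ x : P, x ∉ center P → (centralizer ({x} : Set P)).index = m)
    {u v : P} (hu : u ∉ center P) (hv : v ∉ center P) (hle : ∀ c, Commute c u → Commute c v)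
    (c : P) (hc : Commute c v) : Commute c u := by
  have hsub : centralizer ({u} : Set P) ≤ centralizer ({v} : Set P) := by
    intro d hd
    rw [Subgroup.mem_centralizer_singleton_iff] at hd ⊢
    exact hle d hd
  have hcard : Nat.card (centralizer ({v} : Set P)) ≤ Nat.card (centralizer ({u} : Set P)) := by
    have h1 := Subgroup.card_mul_index (centralizer ({u} : Set P))
    have h2 := Subgroup.card_mul_index (centralizer ({v} : Set P))
    rw [hI u hu] at h1
    rw [hI v hv] at h2
    have hm : 0 < m := by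
      rw [← hI u hu]
      exact Nat.pos_of_ne_zero Subgroup.index_ne_zero_of_finite
    exact le_of_eq (Nat.eq_of_mul_eq_mul_right hm (h2.trans h1.symm))
  have heq := Subgroup.eq_of_le_of_card_ge hsub hcard
  have h3 : c ∈ centralizer ({v} : Set P) := Subgroup.mem_centralizer_singleton_iff.mpr hc
  rw [← heq] at h3
  exact Subgroup.mem_centralizer_singleton_iff.mp h3

lemma stepA1 [Finite P] {m : ℕ}
    (hI : ∀ x : P, x ∉ center P → (centralizer ({x} : Set P)).index = m)
    {u g : P} (hu : u ∉ center P) (hg : ¬ Commute g u)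
    (hN' : ∀ c, Commute c u → Commute (g⁻¹ * c * g) u) (k : ℕ) (hk : Commute (g ^ k) u) :
    (u * g) ^ k * (g ^ k)⁻¹ ∈ center P := by
  have claim1 : ∀ j c, Commute c u → Commute ((u * g) ^ j * (g ^ j)⁻¹) c := by
    intro j
    induction j with
    | zero => intro c _; simp
    | succ j ih =>
      intro c hc
      have e : (u * g) ^ (j + 1) * (g ^ (j + 1))⁻¹ = u * (g * ((u * g) ^ j * (g ^ j)⁻¹) * g⁻¹) := by
        rw [pow_succ' (u * g) j, pow_succ' g j, mul_inv_rev]
        simp only [mul_assoc]
      rw [e]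
      have h1 := ih (g⁻¹ * c * g) (hN' c hc)
      generalize (u * g) ^ j * (g ^ j)⁻¹ = a at h1
      have h2 : Commute (g * a * g⁻¹) c := by
        show g * a * g⁻¹ * c = c * (g * a * g⁻¹)
        calc g * a * g⁻¹ * c = g * (a * (g⁻¹ * c * g)) * g⁻¹ := by group
          _ = g * ((g⁻¹ * c * g) * a) * g⁻¹ := by rw [h1.eq]
          _ = c * (g * a * g⁻¹) := by group
      exact Commute.mul_left hc.symm h2
  by_contra hn
  have hnu := claim1 k u (Commute.refl u)
  have hcomm : Commute g ((u * g) ^ k * (g ^ k)⁻¹) := by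
    have hp : (u * g) * (u * g) ^ k = (u * g) ^ k * (u * g) :=
      (pow_succ' (u * g) k).symm.trans (pow_succ (u * g) k)
    have hgg : g ^ k * g = g * g ^ k := (Commute.pow_left (Commute.refl g) k).eq
    have hw : (u * g) ^ k = ((u * g) ^ k * (g ^ k)⁻¹) * g ^ k := by group
    generalize hnn : (u * g) ^ k * (g ^ k)⁻¹ = n at hw hnu
    show g * n = n * g
    rw [hw] at hp
    have h3 : u * (g * n) * g ^ k = u * (n * g) * g ^ k := by
      calc u * (g * n) * g ^ k = u * g * (n * g ^ k) := by group
        _ = n * g ^ k * (u * g) := hp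
        _ = n * (g ^ k * u) * g := by group
        _ = n * (u * g ^ k) * g := by rw [hk.eq]
        _ = (n * u) * (g ^ k * g) := by group
        _ = (u * n) * (g * g ^ k) := by rw [hnu.eq, hgg]
        _ = u * (n * g) * g ^ k := by group
    exact mul_left_cancel (mul_right_cancel h3)
  exact hg (cent_eq hI hu hn (fun c hc => (claim1 k c hc).symm) g hcomm)

lemma stepA2 [Finite P] {m : ℕ}
    (hI : ∀ x : P, x ∉ center P → (centralizer ({x} : Set P)).index = m)
    {u g : P} (hu : u ∉ center P) (hg : ¬ Commute g u)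
    (hN' : ∀ c, Commute c u → Commute (g⁻¹ * c * g) u) (k : ℕ) (hk : Commute (g ^ k) u) :
    g ^ k ∈ center P := by
  by_contra hgk
  have hn := stepA1 hI hu hg hN' k hk
  have hw : (u * g) ^ k = ((u * g) ^ k * (g ^ k)⁻¹) * g ^ k := by group
  generalize hnn : (u * g) ^ k * (g ^ k)⁻¹ = n at hw hn
  have hwk : (u * g) ^ k ∉ center P := by
    rw [hw]
    intro h
    apply hgk
    have : g ^ k = n⁻¹ * (n * g ^ k) := by group
    rw [this]
    exact Subgroup.mul_mem _ (Subgroup.inv_mem _ hn) h
  have hle : ∀ c, Commute c (u * g) → Commute c (g ^ k) := by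
    intro c hc
    have h1 : Commute c ((u * g) ^ k) := hc.pow_right k
    rw [hw] at h1
    have h2 : c * (n * g ^ k) = (n * g ^ k) * c := h1.eq
    have h3 : c * n = n * c := (comm_of_mem hn c).eq
    show c * g ^ k = g ^ k * c
    have h4 : n * (c * g ^ k) = n * (g ^ k * c) := by
      calc n * (c * g ^ k) = (n * c) * g ^ k := by group
        _ = (c * n) * g ^ k := by rw [h3]
        _ = c * (n * g ^ k) := by group
        _ = (n * g ^ k) * c := h2
        _ = n * (g ^ k * c) := by group
    exact mul_left_cancel h4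
  have hw' : u * g ∉ center P := fun h => hwk (Subgroup.pow_mem _ h k)
  have h5 := cent_eq hI hw' hgk hle g (Commute.pow_right (Commute.refl g) k)
  apply hg
  have h6 : g * (u * g) = (u * g) * g := h5.eq
  have h7 : g * u * g = u * g * g := by rw [mul_assoc, h6]
  exact mul_right_cancel h7

/-- Being in the second centre. -/
def IsZ2 (y : P) : Prop := ∀ g : P, g * y * g⁻¹ * y⁻¹ ∈ center P

lemma z2_eq {y : P} (hy : IsZ2 y) (g : P) : ∃ ζ ∈ center P, g * y * g⁻¹ = ζ * y :=
  ⟨_, hy g, by group⟩

lemma z2_norm {y : P} (hy : IsZ2 y) {c : P} (g : P) (hc : Commute c y) :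
    Commute (g * c * g⁻¹) y := by
  obtain ⟨ζ, hζ, he⟩ := z2_eq hy g
  have h1 : (g * c * g⁻¹) * (g * y * g⁻¹) = (g * y * g⁻¹) * (g * c * g⁻¹) := by
    calc (g * c * g⁻¹) * (g * y * g⁻¹) = g * (c * y) * g⁻¹ := by group
      _ = g * (y * c) * g⁻¹ := by rw [hc.eq]
      _ = _ := by group
  rw [he] at h1
  have h2 : (g * c * g⁻¹) * ζ = ζ * (g * c * g⁻¹) := (comm_of_mem hζ _).eq
  show (g * c * g⁻¹) * y = y * (g * c * g⁻¹)
  have h3 : ζ * ((g * c * g⁻¹) * y) = ζ * (y * (g * c * g⁻¹)) := by
    calc ζ * ((g * c * g⁻¹) * y) = (ζ * (g * c * g⁻¹)) * y := by group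
      _ = ((g * c * g⁻¹) * ζ) * y := by rw [h2]
      _ = (g * c * g⁻¹) * (ζ * y) := by group
      _ = (ζ * y) * (g * c * g⁻¹) := h1
      _ = _ := by group
  exact mul_left_cancel h3

lemma z2_pow {y : P} (hy : IsZ2 y) (j : ℕ) : IsZ2 (y ^ j) := by
  intro g
  obtain ⟨ζ, hζ, he⟩ := z2_eq hy g
  have h1 : g * y ^ j * g⁻¹ = (g * y * g⁻¹) ^ j := (conj_pow).symm
  rw [h1, he, (comm_of_mem hζ y).symm.mul_pow]
  simp only [mul_inv_cancel_right]
  exact Subgroup.pow_mem _ hζ j

lemma conj_pow_central {g x t : P} (ht : t ∈ center P) (h : g * x * g⁻¹ = t * x) (j : ℕ) :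
    g ^ j * x * (g ^ j)⁻¹ = t ^ j * x := by
  induction j with
  | zero => simp
  | succ j ih =>
    have h1 : t ^ j ∈ center P := Subgroup.pow_mem _ ht j
    calc g ^ (j + 1) * x * (g ^ (j + 1))⁻¹ = g * (g ^ j * x * (g ^ j)⁻¹) * g⁻¹ := by
          rw [pow_succ' g j]; group
      _ = g * (t ^ j * x) * g⁻¹ := by rw [ih]
      _ = (g * t ^ j) * (x * g⁻¹) := by group
      _ = (t ^ j * g) * (x * g⁻¹) := by rw [(comm_of_mem h1 g).eq]
      _ = t ^ j * (g * x * g⁻¹) := by group
      _ = t ^ j * (t * x) := by rw [h]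
      _ = t ^ (j + 1) * x := by rw [pow_succ]; group

lemma stepB [Finite P] {m p : ℕ} [Fact p.Prime] (hP : IsPGroup p P)
    (hI : ∀ x : P, x ∉ center P → (centralizer ({x} : Set P)).index = m)
    {x y : P} (hy : IsZ2 y) (hxy : ¬ Commute x y) : x ^ p ∈ center P := by
  classical
  obtain ⟨r, hr⟩ := hP y
  have hex : ∃ i, Commute x (y ^ p ^ i) := ⟨r, by rw [hr]; exact Commute.one_right x⟩
  have h0 : Nat.find hex ≠ 0 := by
    intro h
    have := Nat.find_spec hex
    rw [h] at this
    simp only [pow_zero, pow_one] at this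
    exact hxy this
  obtain ⟨i, hi⟩ := Nat.exists_eq_succ_of_ne_zero h0
  have hmin : ¬ Commute x (y ^ p ^ i) := Nat.find_min hex (by omega)
  have hsp : Commute x (y ^ p ^ (i + 1)) := by
    have := Nat.find_spec hex
    rw [hi] at this
    exact this
  set y' := y ^ p ^ i with hy'def
  have hy' : IsZ2 y' := z2_pow hy _
  have hsp' : Commute x (y' ^ p) := by
    rw [hy'def, ← pow_mul, ← pow_succ]
    exact hsp
  obtain ⟨ζ, hζ, he⟩ := z2_eq hy' x
  have h1 : x * y' ^ p * x⁻¹ = ζ ^ p * y' ^ p := by
    rw [← conj_pow, he, (comm_of_mem hζ y').symm.mul_pow]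
  have h2 : x * y' ^ p * x⁻¹ = y' ^ p := by
    rw [hsp'.eq]; group
  have h3 : ζ ^ p = 1 := by
    rw [h2] at h1
    exact (mul_eq_right.mp h1.symm)
  have h4 := conj_pow_central hζ he p
  rw [h3, one_mul] at h4
  have h5 : Commute (x ^ p) y' := by
    show x ^ p * y' = y' * x ^ p
    exact mul_inv_eq_iff_eq_mul.mp h4
  have hy'Z : y' ∉ center P := fun h => hmin (comm_of_mem h x)
  refine stepA2 hI hy'Z hmin ?_ p h5
  intro c hc
  have := z2_norm hy' x⁻¹ hc
  simpa using this

lemma exists_z2 {p : ℕ} [Finite P] [Fact p.Prime] (hP : IsPGroup p P) {x : P} (hx : x ∉ center P) :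
    ∃ y : P, IsZ2 y ∧ y ∉ center P := by
  have hne : Nontrivial (P ⧸ center P) := by
    refine ⟨⟨(x : P ⧸ center P), 1, ?_⟩⟩
    intro h
    exact hx ((QuotientGroup.eq_one_iff x).mp h)
  have hpq : IsPGroup p (P ⧸ center P) := hP.to_quotient (center P)
  have hc := hpq.center_nontrivial
  obtain ⟨⟨a, ha⟩, hne1⟩ := exists_ne (1 : center (P ⧸ center P))
  obtain ⟨y, rfl⟩ := QuotientGroup.mk_surjective a
  refine ⟨y, ?_, ?_⟩
  · intro g
    rw [← QuotientGroup.eq_one_iff]
    have h1 := Subgroup.mem_center_iff.mp ha (g : P ⧸ center P)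
    simp only [QuotientGroup.mk_mul, QuotientGroup.mk_inv]
    rw [h1]
    group
  · intro hy
    apply hne1
    apply Subtype.ext
    exact (QuotientGroup.eq_one_iff y).mpr hy

/-- Let P be a finite p-group whose conjugacy class sizes are exactly 1 and pᵃ for some a ≥ 1. Then every element of P has its p-th power in the center of P (P/Z(P) has exponent p). -/
theorem result {P : Type*} [Group P] [Finite P] (p : ℕ) [Fact p.Prime]
    (hP : IsPGroup p P) (a : ℕ) (ha : 1 ≤ a)
    (hcs : {k : ℕ | ∃ x : P, (Subgroup.centralizer ({x} : Set P)).index = k} = {1, p ^ a}) (x : P) :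
    x ^ p ∈ Subgroup.center P := by
  classical
  by_contra hx
  have hI : ∀ x : P, x ∉ center P → (centralizer ({x} : Set P)).index = p ^ a := by
    intro u hu
    have h1 : (centralizer ({u} : Set P)).index ∈
        {k : ℕ | ∃ x : P, (Subgroup.centralizer ({x} : Set P)).index = k} := ⟨u, rfl⟩
    rw [hcs] at h1
    rcases h1 with h1 | h1
    · exfalso
      apply hu
      rw [Subgroup.index_eq_one] at h1
      rw [Subgroup.mem_center_iff]
      intro g
      have : g ∈ centralizer ({u} : Set P) := by rw [h1]; exact Subgroup.mem_top g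
      exact Subgroup.mem_centralizer_singleton_iff.mp this
    · exact h1
  have hx0 : x ∉ center P := fun h => hx (Subgroup.pow_mem _ h p)
  obtain ⟨y₀, hy₀, hy₀Z⟩ := exists_z2 hP hx0
  -- characterization of centralizers of elements with non-central p-th power
  have hEf : ∀ b, b ^ p ∉ center P → ∀ c, Commute c b → ∀ y, IsZ2 y → Commute c y := by
    intro b hb c hc y hy
    by_contra hcy
    have h1 := stepB hP hI hy hcy
    have hby : Commute b y := by
      by_contra hby
      exact hb (stepB hP hI hy hby)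
    have hcb : ¬ Commute (c * b) y := by
      intro h
      apply hcy
      show c * y = y * c
      have h2 : (c * b) * y = y * (c * b) := h.eq
      have h3 : b * y = y * b := hby.eq
      have h4 : (c * y) * b = (y * c) * b := by
        calc (c * y) * b = c * (y * b) := by group
          _ = c * (b * y) := by rw [h3]
          _ = (c * b) * y := by group
          _ = y * (c * b) := h2
          _ = (y * c) * b := by group
      exact mul_right_cancel h4
    have h2 := stepB hP hI hy hcb
    rw [hc.mul_pow] at h2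
    apply hb
    have : b ^ p = (c ^ p)⁻¹ * (c ^ p * b ^ p) := by group
    rw [this]
    exact Subgroup.mul_mem _ (Subgroup.inv_mem _ h1) h2
  have hEb : ∀ b, b ^ p ∉ center P → ∀ c, (∀ y, IsZ2 y → Commute c y) → Commute c b := by
    intro b hb c hc
    have hb0 : b ∉ center P := fun h => hb (Subgroup.pow_mem _ h p)
    exact cent_eq hI hb0 hy₀Z (fun d hd => hEf b hb d hd y₀ hy₀) c (hc y₀ hy₀)
  -- abelian
  have hab : ∀ b c, Commute b x → Commute c x → Commute c b := by
    intro b c hb hc
    by_cases hbp : b ^ p ∈ center P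
    · have h1 : (x * b) ^ p ∉ center P := by
        rw [hb.symm.mul_pow]
        intro h
        apply hx
        have : x ^ p = (x ^ p * b ^ p) * (b ^ p)⁻¹ := by group
        rw [this]
        exact Subgroup.mul_mem _ h (Subgroup.inv_mem _ hbp)
      have h2 := hEb _ h1 c (hEf x hx c hc)
      show c * b = b * c
      have h3 : c * (x * b) = (x * b) * c := h2.eq
      have h4 : c * x = x * c := hc.eq
      have h5 : x * (c * b) = x * (b * c) := by
        calc x * (c * b) = (x * c) * b := by group
          _ = (c * x) * b := by rw [h4]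
          _ = c * (x * b) := by group
          _ = (x * b) * c := h3
          _ = x * (b * c) := by group
      exact mul_left_cancel h5
    · exact hEb b hbp c (hEf x hx c hc)
  have hE2 : ∀ e, Commute e x → e ∉ center P → ∀ c, Commute c e → Commute c x := by
    intro e he heZ c hc
    exact cent_eq hI hx0 heZ (fun d hd => hab e d he hd) c hc
  have hEnorm : ∀ g c, Commute c x → Commute (g * c * g⁻¹) x := by
    intro g c hc
    apply hEb x hx
    intro y hy
    exact z2_norm hy g (hEf x hx c hc y hy)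
  -- a non-commuting element
  obtain ⟨g₀, hg₀⟩ : ∃ g₀, ¬ Commute g₀ x := by
    by_contra hcon
    apply hx0
    rw [Subgroup.mem_center_iff]
    intro g
    by_contra hg
    exact hcon ⟨g, hg⟩
  have hg₀Z : g₀ ∉ center P := fun h => hg₀ (comm_of_mem h x).symm
  -- the pigeonhole
  obtain ⟨h, d, hdZ, hh, hnc⟩ : ∃ h d : P, d ∈ center P ∧ h * x * h⁻¹ = d * x ∧ ¬ Commute h x := by
    let Φ : (P ⧸ centralizer ({x} : Set P)) → (P ⧸ centralizer ({g₀} : Set P)) :=
      fun c => ((c.out * x * c.out⁻¹ : P) : P ⧸ centralizer ({g₀} : Set P))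
    have hmemx : ∀ g : P, g * x * g⁻¹ ∉ center P := by
      intro g hgz
      apply hx0
      have : x = g⁻¹ * (g * x * g⁻¹) * g := by group
      rw [this]
      have h1 : g⁻¹ * (g * x * g⁻¹) * g = g * x * g⁻¹ * (g⁻¹ * g) := by
        rw [(comm_of_mem hgz g⁻¹).eq]; group
      rw [h1, inv_mul_cancel, mul_one]
      exact hgz
    by_cases hinj : Function.Injective Φ
    · exfalso
      have hcard : Nat.card (P ⧸ centralizer ({g₀} : Set P)) =
          Nat.card (P ⧸ centralizer ({x} : Set P)) := by
        have h1 := hI g₀ hg₀Z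
        have h2 := hI x hx0
        rw [Subgroup.index] at h1 h2
        rw [h1, h2]
      haveI : Fintype (P ⧸ centralizer ({x} : Set P)) := Fintype.ofFinite _
      haveI : Fintype (P ⧸ centralizer ({g₀} : Set P)) := Fintype.ofFinite _
      rw [Nat.card_eq_fintype_card, Nat.card_eq_fintype_card] at hcard
      have hsurj := ((Fintype.bijective_iff_injective_and_card Φ).mpr ⟨hinj, hcard.symm⟩).2
      obtain ⟨c, hc⟩ := hsurj ((1 : P) : P ⧸ centralizer ({g₀} : Set P))
      have h1 := QuotientGroup.eq.mp hc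
      rw [mul_one] at h1
      have h2 := Subgroup.mem_centralizer_singleton_iff.mp (Subgroup.inv_mem _ h1)
      rw [inv_inv] at h2
      have h3 : Commute (c.out * x * c.out⁻¹) x := hEnorm c.out x (Commute.refl x)
      exact hg₀ (hE2 _ h3 (hmemx _) g₀ (Commute.symm h2))
    · rw [Function.Injective] at hinj
      simp only [not_forall] at hinj
      obtain ⟨c, c', hΦ, hne⟩ := hinj
      have h1 := QuotientGroup.eq.mp hΦ
      have h1' := Subgroup.mem_centralizer_singleton_iff.mp h1
      set g := c.out with hgdef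
      set g' := c'.out with hg'def
      have he : Commute (g * x * g⁻¹) x := hEnorm g x (Commute.refl x)
      have he' : Commute (g' * x * g'⁻¹) x := hEnorm g' x (Commute.refl x)
      have hdc : Commute ((g * x * g⁻¹)⁻¹ * (g' * x * g'⁻¹)) x :=
        Commute.mul_left he.inv_left he'
      have hdZ' : (g * x * g⁻¹)⁻¹ * (g' * x * g'⁻¹) ∈ center P := by
        by_contra hdn
        exact hg₀ (hE2 _ hdc hdn g₀ (Commute.symm h1'))
      refine ⟨g⁻¹ * g', _, hdZ', ?_, ?_⟩
      · -- h x h⁻¹ = d x
        set D := (g * x * g⁻¹)⁻¹ * (g' * x * g'⁻¹) with hD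
        have h2 : g' * x * g'⁻¹ = (g * x * g⁻¹) * D := by rw [hD]; group
        calc g⁻¹ * g' * x * (g⁻¹ * g')⁻¹ = g⁻¹ * (g' * x * g'⁻¹) * g := by group
          _ = g⁻¹ * ((g * x * g⁻¹) * D) * g := by rw [h2]
          _ = x * g⁻¹ * (D * g) := by group
          _ = x * g⁻¹ * (g * D) := by rw [(comm_of_mem hdZ' g).eq]
          _ = x * D := by group
          _ = D * x := (comm_of_mem hdZ' x).eq
      · intro hcomm
        apply hne
        have h3 : g⁻¹ * g' ∈ centralizer ({x} : Set P) :=
          Subgroup.mem_centralizer_singleton_iff.mpr hcomm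
        have h4 : (g : P ⧸ centralizer ({x} : Set P)) = g' := QuotientGroup.eq.mpr h3
        rw [hgdef, hg'def, QuotientGroup.out_eq', QuotientGroup.out_eq'] at h4
        exact h4
  -- Step H
  obtain ⟨r, hr⟩ := hP h
  have hex : ∃ i, Commute (h ^ p ^ i) x := ⟨r, by rw [hr]; exact Commute.one_left x⟩
  have h0 : Nat.find hex ≠ 0 := by
    intro h'
    have := Nat.find_spec hex
    rw [h'] at this
    simp only [pow_zero, pow_one] at this
    exact hnc this
  obtain ⟨i, hi⟩ := Nat.exists_eq_succ_of_ne_zero h0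
  have hmin : ¬ Commute (h ^ p ^ i) x := Nat.find_min hex (by omega)
  have hsp : Commute (h ^ p ^ (i + 1)) x := by
    have := Nat.find_spec hex
    rw [hi] at this
    exact this
  set g := h ^ p ^ i with hgdef
  have hsp' : Commute (g ^ p) x := by
    rw [hgdef, ← pow_mul, ← pow_succ]
    exact hsp
  have htZ : d ^ p ^ i ∈ center P := Subgroup.pow_mem _ hdZ _
  set t := d ^ p ^ i with htdef
  have hgx : g * x * g⁻¹ = t * x := conj_pow_central hdZ hh _
  have hA := stepA1 hI hx0 hmin (fun c hc => by simpa using hEnorm g⁻¹ c hc) p hsp'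
  have hform : ∀ k : ℕ, ∃ τ ∈ center P, (x * g) ^ k = τ * x ^ k * g ^ k := by
    intro k
    induction k with
    | zero => exact ⟨1, Subgroup.one_mem _, by simp⟩
    | succ k ih =>
      obtain ⟨τ, hτ, he⟩ := ih
      have h1 := conj_pow_central htZ hgx k
      have htk : t ^ k ∈ center P := Subgroup.pow_mem _ htZ k
      refine ⟨τ * t ^ k, Subgroup.mul_mem _ hτ htk, ?_⟩
      have h2 : g ^ k * x = t ^ k * x * g ^ k := by
        rw [← h1]; group
      calc (x * g) ^ (k + 1) = (x * g) ^ k * (x * g) := pow_succ _ _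
        _ = τ * x ^ k * (g ^ k * x) * g := by rw [he]; group
        _ = τ * x ^ k * (t ^ k * x * g ^ k) * g := by rw [h2]
        _ = τ * (x ^ k * t ^ k) * x * (g ^ k * g) := by group
        _ = τ * (t ^ k * x ^ k) * x * (g ^ k * g) := by rw [(comm_of_mem htk (x ^ k)).eq]
        _ = τ * t ^ k * x ^ (k + 1) * g ^ (k + 1) := by
            rw [pow_succ x k, pow_succ g k]; group
  obtain ⟨τ, hτ, he⟩ := hform p
  rw [he] at hA
  apply hx
  have : x ^ p = τ⁻¹ * (τ * x ^ p * g ^ p * (g ^ p)⁻¹) := by group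
  rw [this]
  exact Subgroup.mul_mem _ (Subgroup.inv_mem _ hτ) hA

end Cfsg.Agent.S4365
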