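import Cfsg.Statements.S4370
import Cfsg.Agent.Lib.PGroups.CyclicNormal
import Cfsg.Agent.Lib.PGroups.Presentations
import Cfsg.Agent.Lib.CharDeep.QuatGroup
import Cfsg.Agent.Lib.Solvable.Carter
import Cfsg.Agent.Lib.PermMod.QuatClass
import Cfsg.Agent.Lib.PReduced.OmegaUnique
import Cfsg.Agent.Lib.Transfer.Frobenius
import Mathlib

set_option autoImplicit false
open Cfsg

namespace Cfsg.Agent.S4370

open Cfsg.Agent.Lib.CharDeep.QuatGroup

/-- Centralizers of noncentral elements of a quaternion group are cyclic. -/
theorem quat_centralizer {m : ℕ} [NeZero m] (q : QuaternionGroup m)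
    (hq : q ∉ Subgroup.center (QuaternionGroup m)) :
    IsCyclic (Subgroup.centralizer ({q} : Set (QuaternionGroup m))) := by
  classical
  have hcent : ∀ g ∈ Subgroup.centralizer ({q} : Set (QuaternionGroup m)), g * q = q * g := by
    intro g hg
    exact (Subgroup.mem_centralizer_iff.mp hg q (Set.mem_singleton q)).symm
  cases q with
  | xa i =>
    have hle : Subgroup.centralizer ({QuaternionGroup.xa i} : Set (QuaternionGroup m)) ≤
        Subgroup.zpowers (QuaternionGroup.xa i : QuaternionGroup m) := fun g hg =>
      mem_zpowers_xa_of_commute (hcent g hg)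
    exact Subgroup.isCyclic_of_le hle
  | a i =>
    have h2 : (2 : ZMod (2 * m)) * i ≠ 0 := by
      intro h2
      apply hq
      rw [Subgroup.mem_center_iff]
      intro g
      cases g with
      | a j => simp [add_comm]
      | xa j =>
        simp only [QuaternionGroup.xa_mul_a, QuaternionGroup.a_mul_xa, QuaternionGroup.xa.injEq]
        linear_combination h2
    have hle : Subgroup.centralizer ({QuaternionGroup.a i} : Set (QuaternionGroup m)) ≤
        Subgroup.zpowers (QuaternionGroup.a 1 : QuaternionGroup m) := by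
      intro g hg
      have h3 := hcent g hg
      cases g with
      | a j =>
        obtain ⟨k, hk⟩ := exists_nat_eq j
        rw [← hk, ← QuaternionGroup.a_one_pow]
        exact Subgroup.npow_mem_zpowers _ _
      | xa j =>
        exfalso
        simp only [QuaternionGroup.xa_mul_a, QuaternionGroup.a_mul_xa, QuaternionGroup.xa.injEq] at h3
        apply h2
        linear_combination h3
    exact Subgroup.isCyclic_of_le hle

theorem backward {G : Type*} [Group G] [Finite G] (k m : ℕ) (hm : Odd m)
    (e : G ≃* QuaternionGroup (2 ^ k) × Multiplicative (ZMod m)) (x : G)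
    (hx : x ∉ Subgroup.center G) : IsCyclic (Subgroup.centralizer ({x} : Set G)) := by
  classical
  have hm0 : m ≠ 0 := by
    rintro rfl
    simp at hm
  haveI : NeZero m := ⟨hm0⟩
  haveI : NeZero (2 ^ k) := ⟨by positivity⟩
  set q := (e x).1 with hq
  have hqc : q ∉ Subgroup.center (QuaternionGroup (2 ^ k)) := by
    intro h
    apply hx
    rw [Subgroup.mem_center_iff]
    intro g
    apply e.injective
    rw [map_mul, map_mul]
    apply Prod.ext
    · exact (Subgroup.mem_center_iff.mp h (e g).1)
    · exact mul_comm _ _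
  haveI hC := quat_centralizer q hqc
  let C := Subgroup.centralizer ({q} : Set (QuaternionGroup (2 ^ k)))
  have hcop : (Nat.card C).Coprime (Nat.card (Multiplicative (ZMod m))) := by
    have h1 : Nat.card C ∣ Nat.card (QuaternionGroup (2 ^ k)) := Subgroup.card_subgroup_dvd_card C
    have hcq : Nat.card (QuaternionGroup (2 ^ k)) = 4 * 2 ^ k := by
      rw [Nat.card_eq_fintype_card, QuaternionGroup.card]
    rw [hcq] at h1
    have h2 : Nat.card (Multiplicative (ZMod m)) = m := by simp
    rw [h2]
    apply Nat.Coprime.coprime_dvd_left h1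
    have : 4 * 2 ^ k = 2 ^ (k + 2) := by ring
    rw [this]
    exact Nat.Coprime.pow_left _ (Nat.coprime_two_left.mpr hm)
  have hcyc : IsCyclic (C × Multiplicative (ZMod m)) :=
    Group.isCyclic_prod_iff.mpr ⟨hC, inferInstance, hcop⟩
  let φ : Subgroup.centralizer ({x} : Set G) →* C × Multiplicative (ZMod m) :=
    { toFun := fun g => (⟨(e g.1).1, by
          refine Subgroup.mem_centralizer_iff.mpr ?_
          intro h hh
          rw [Set.mem_singleton_iff] at hh
          rw [hh]
          have h1 := Subgroup.mem_centralizer_iff.mp g.2 x (Set.mem_singleton x)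
          have h2 := congrArg (fun z => (e z).1) h1
          simpa using h2⟩, (e g.1).2)
      map_one' := by
        apply Prod.ext
        · apply Subtype.ext
          simp
        · simp
      map_mul' := by
        intro g h
        apply Prod.ext
        · apply Subtype.ext
          simp
        · simp }
  have hφ : Function.Injective φ := by
    intro g h hgh
    apply Subtype.ext
    apply e.injective
    apply Prod.ext
    · exact congrArg (fun z => ((z.1 : C) : QuaternionGroup (2 ^ k))) hgh
    · have := congrArg Prod.snd hgh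
      exact this
  exact isCyclic_of_injective φ hφ

/-- All abelian subgroups are cyclic. -/
theorem abelian_cyclic {G : Type*} [Group G] (hna : ¬ IsMulCommutative G)
    (h : ∀ x : G, x ∉ Subgroup.center G → IsCyclic (Subgroup.centralizer ({x} : Set G)))
    (A : Subgroup G) (hA : IsMulCommutative A) : IsCyclic A := by
  by_cases h1 : ∃ a ∈ A, a ∉ Subgroup.center G
  · obtain ⟨a, ha, hac⟩ := h1
    haveI := h a hac
    apply Subgroup.isCyclic_of_le (H' := Subgroup.centralizer ({a} : Set G))
    intro b hb
    refine Subgroup.mem_centralizer_iff.mpr ?_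
    intro c hc
    rw [Set.mem_singleton_iff] at hc
    rw [hc]
    exact congrArg Subtype.val (hA.is_comm.comm (⟨a, ha⟩ : A) ⟨b, hb⟩)
  · push Not at h1
    obtain ⟨x, hx⟩ : ∃ x : G, x ∉ Subgroup.center G := by
      by_contra hc
      push Not at hc
      exact hna ⟨⟨fun a b => (Subgroup.mem_center_iff.mp (hc a) b).symm⟩⟩
    haveI := h x hx
    apply Subgroup.isCyclic_of_le (H' := Subgroup.centralizer ({x} : Set G))
    intro b hb
    refine Subgroup.mem_centralizer_iff.mpr ?_
    intro c hc
    rw [Set.mem_singleton_iff] at hc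
    rw [hc]
    exact (Subgroup.mem_center_iff.mp (h1 b hb) x)

/-- Structure of the noncommutative part. -/
theorem quat_of {S : Type*} [Group S] [Finite S] {p : ℕ} [Fact p.Prime] (hS : IsPGroup p S)
    (hna : ¬ IsMulCommutative S) (hab : ∀ A : Subgroup S, IsMulCommutative A → IsCyclic A) :
    p = 2 ∧ ∃ k : ℕ, 1 ≤ k ∧ Nonempty (QuaternionGroup (2 ^ k) ≃* S) := by
  classical
  have hnc : ¬ IsCyclic S := by
    intro hc
    exact hna ⟨⟨hc.commGroup.mul_comm⟩⟩
  have hn : ∀ A : Subgroup S, A.Normal → IsMulCommutative A → IsCyclic A := fun A _ h => hab A h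
  have hp2 := Cfsg.Agent.Lib.PGroups.CyclicNormal.eq_two_of_not_isCyclic hS hn hnc
  subst hp2
  refine ⟨rfl, ?_⟩
  obtain ⟨n, a, y, hn2, hao, hcard, hy, -, hcases⟩ := Cfsg.Agent.Lib.PGroups.CyclicNormal.classify hS hn hnc
  obtain ⟨k, rfl⟩ : ∃ k, n = k + 1 := ⟨n - 1, by omega⟩
  have hk1 : 1 ≤ k := by omega
  set z := a ^ (2 ^ k) with hz
  have hzo : z ≠ 1 := by
    intro h
    have h1 := orderOf_dvd_of_pow_eq_one h
    rw [hao] at h1
    have := Nat.pow_dvd_pow_iff_le_right (x := 2) (by norm_num) |>.mp h1
    omega
  have hz2 : z ^ 2 = 1 := by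
    rw [hz, ← pow_mul, ← pow_succ, ← hao, pow_orderOf_eq_one]
  have hnonquat : ∀ (hy2 : y ^ 2 = 1) (hyz : y * z * y⁻¹ = z), False := by
    intro hy2 hyz
    -- two commuting involutions
    have hcomm : y * z = z * y := by
      calc y * z = (y * z * y⁻¹) * y := by group
        _ = z * y := by rw [hyz]
    let A : Subgroup S := Subgroup.closure {y, z}
    have hAc : IsMulCommutative A := Subgroup.isMulCommutative_closure (by
        intro u hu v hv
        simp only [Set.mem_insert_iff, Set.mem_singleton_iff] at hu hv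
        rcases hu with rfl | rfl <;> rcases hv with rfl | rfl
        · rfl
        · exact hcomm
        · exact hcomm.symm
        · rfl)
    have hAcyc := hab A hAc
    have hU := Cfsg.Agent.Lib.PReduced.OmegaUnique.uniqueP_of_isCyclic (p := 2) hAcyc
    have hzA : z ∈ A := Subgroup.subset_closure (by simp)
    have hyA : y ∈ A := Subgroup.subset_closure (by simp)
    have h1 := hU z hzA y hyA hz2 hy2 hzo
    apply hy
    have h2 : Subgroup.zpowers z ≤ Subgroup.zpowers a := by
      rw [Subgroup.zpowers_le, hz]
      exact Subgroup.npow_mem_zpowers _ _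
    exact h2 h1
  have hconjpow : ∀ (c : S) (r : ℕ), y * a * y⁻¹ = c → y * a ^ r * y⁻¹ = c ^ r := by
    intro c r hc
    rw [← hc, conj_pow]
  rcases hcases with ⟨hy2, hconj⟩ | ⟨-, hy2, hconj⟩ | ⟨h3, hy2, hconj⟩
  · haveI : NeZero (2 ^ k) := ⟨by positivity⟩
    refine ⟨k, hk1, ?_⟩
    apply Cfsg.Agent.Lib.PGroups.Presentations.nonempty_quaternion_equiv (a := a) (y := y)
    · rw [hao, pow_succ']
    · simpa using hy2
    · exact hconj
    · exact hy
    · rw [hcard, pow_succ, pow_succ]
      ring
  · exfalso
    apply hnonquat hy2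
    rw [hz, hconjpow _ _ hconj, inv_pow, ← hz]
    exact inv_eq_of_mul_eq_one_left (by rw [← pow_two]; exact hz2)
  · exfalso
    apply hnonquat hy2
    rw [hz, hconjpow _ _ hconj, ← pow_mul, mul_comm, pow_mul, ← hz]
    have hodd : Odd (2 ^ (k + 1 - 1) - 1) := by
      have : 1 ≤ k := hk1
      simp only [Nat.add_sub_cancel]
      apply Nat.Even.sub_odd (Nat.one_le_two_pow) (Nat.even_pow.mpr ⟨even_two, by omega⟩) odd_one
    obtain ⟨t, ht⟩ := hodd
    rw [ht, pow_succ, pow_mul, hz2, one_pow, one_mul]

/-- Let G be a finite non-abelian nilpotent group. Then the centralizer of every non-central element of G is cyclic if and only if G is isomorphic to the direct product of a generalized quaternion group and a cyclic group of odd order. -/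
theorem result {G : Type*} [Group G] [Finite G] (hG : Group.IsNilpotent G)
    (hna : ¬ IsMulCommutative G) :
    (∀ x : G, x ∉ Subgroup.center G → IsCyclic (Subgroup.centralizer ({x} : Set G))) ↔
      ∃ (k m : ℕ), 1 ≤ k ∧ Odd m ∧ Nonempty (G ≃* QuaternionGroup (2 ^ k) × Multiplicative (ZMod m)) := by
  classical
  constructor
  · intro h
    obtain ⟨p, hp, P, hP⟩ := Cfsg.Agent.Lib.PermMod.QuatClass.exists_sylow_not_comm hG hna
    obtain ⟨S, Q, hSn, hQn, hSp, hQc, hsup, hcomm, hS, -⟩ :=
      Cfsg.Agent.Lib.Solvable.Carter.exists_decomp_of_isNilpotent (X := G) p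
    have hPS : (P : Subgroup G) ≤ S := hS _ P.2
    have hSna : ¬ IsMulCommutative S := by
      intro hc
      apply hP
      refine ⟨⟨fun a b => Subtype.ext ?_⟩⟩
      have h1 := hc.is_comm.comm (⟨a, hPS a.2⟩ : S) ⟨b, hPS b.2⟩
      exact congrArg (fun z : S => (z : G)) h1
    have hab : ∀ A : Subgroup S, IsMulCommutative A → IsCyclic A := by
      intro A hA
      have h1 := abelian_cyclic hna h (A.map S.subtype) (by
        refine ⟨⟨?_⟩⟩
        rintro ⟨_, a, ha, rfl⟩ ⟨_, b, hb, rfl⟩
        apply Subtype.ext
        exact congrArg (fun z : A => ((z : S) : G)) (hA.is_comm.comm ⟨a, ha⟩ ⟨b, hb⟩))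
      exact isCyclic_of_injective (A.equivMapOfInjective _ S.subtype_injective).toMonoidHom
        (A.equivMapOfInjective _ S.subtype_injective).injective
    obtain ⟨hp2, k, hk, ⟨e⟩⟩ := quat_of hSp hSna hab
    subst hp2
    -- the odd part is cyclic
    obtain ⟨u, hu⟩ : ∃ u : S, u ∉ Subgroup.center S := by
      by_contra hc
      push Not at hc
      exact hSna ⟨⟨fun a b => (Subgroup.mem_center_iff.mp (hc a) b).symm⟩⟩
    have huG : (u : G) ∉ Subgroup.center G := by
      intro hc
      apply hu
      rw [Subgroup.mem_center_iff]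
      intro g
      apply Subtype.ext
      exact Subgroup.mem_center_iff.mp hc g
    haveI := h u huG
    have hQcyc : IsCyclic Q := by
      apply Subgroup.isCyclic_of_le (H' := Subgroup.centralizer ({(u : G)} : Set G))
      intro b hb
      refine Subgroup.mem_centralizer_iff.mpr ?_
      intro c hc
      rw [Set.mem_singleton_iff] at hc
      rw [hc]
      exact hcomm _ u.2 _ hb
    have hmodd : Odd (Nat.card Q) := by
      apply Nat.Coprime.odd_of_left
      exact hQc.symm
    refine ⟨k, Nat.card Q, hk, hmodd, ?_⟩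
    let f : S × Q →* G := MonoidHom.noncommCoprod S.subtype Q.subtype
      (fun s q => hcomm _ s.2 _ q.2)
    have hdis : Disjoint S Q := by
      rw [Subgroup.disjoint_def]
      intro x hxS hxQ
      exact Cfsg.Agent.Lib.Transfer.Frobenius.eq_one_of_coprime_of_mem_isPGroup hSp hxS (by
        apply Nat.Coprime.coprime_dvd_left _ hQc
        have := orderOf_dvd_natCard (⟨x, hxQ⟩ : Q)
        simpa using this)
    have hinj : Function.Injective f := by
      refine (MonoidHom.noncommCoprod_injective _ _ _).mpr ⟨S.subtype_injective, Q.subtype_injective, ?_⟩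
      simpa using hdis
    have hsurj : Function.Surjective f := by
      rw [← MonoidHom.range_eq_top]
      refine (MonoidHom.noncommCoprod_range _ _ _).trans ?_
      simpa using hsup
    let E : S × Q ≃* G := MulEquiv.ofBijective f ⟨hinj, hsurj⟩
    exact ⟨E.symm.trans (MulEquiv.prodCongr e.symm (zmodCyclicMulEquiv hQcyc).symm)⟩
  · rintro ⟨k, m, -, hm, ⟨e⟩⟩ x hx
    exact backward k m hm e x hx

end Cfsg.Agent.S4370
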