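import Cfsg.Statements.S4377
import Mathlib.GroupTheory.OrderOfElement
import Mathlib.NumberTheory.Divisors

set_option autoImplicit false
open Cfsg

namespace Cfsg.Agent.S4377

lemma card_pow_eq {G : Type*} [Group G] [Finite G] (n : ℕ) (hn : 0 < n) :
    Nat.card {g : G // g ^ n = 1} =
      ∑ d ∈ n.divisors, Nat.card {g : G // orderOf g = d} := by
  classical
  have := Fintype.ofFinite G
  have h1 : Nat.card {g : G // g ^ n = 1} = (Finset.univ.filter (fun g : G => g ^ n = 1)).card := by
    rw [Nat.card_eq_fintype_card, Fintype.card_subtype]
  rw [h1, Finset.card_eq_sum_card_fiberwise (f := fun g : G => orderOf g) (t := n.divisors)]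
  · apply Finset.sum_congr rfl
    intro d hd
    rw [Nat.card_eq_fintype_card, Fintype.card_subtype]
    congr 1
    ext g
    simp only [Finset.mem_filter, Finset.mem_univ, true_and]
    constructor
    · rintro ⟨_, h⟩; exact h
    · intro h
      refine ⟨?_, h⟩
      rw [← orderOf_dvd_iff_pow_eq_one, h]
      exact (Nat.mem_divisors.mp hd).1
  · intro g hg
    simp only [Finset.coe_filter, Finset.mem_univ, true_and, Set.mem_ofPred_eq] at hg
    simp only [Finset.mem_coe, Nat.mem_divisors]
    exact ⟨orderOf_dvd_of_pow_eq_one hg, hn.ne'⟩

/-- Two finite groups have the same number of elements of each order if and only if, for every n, they have the same number of elements g with gⁿ = 1. -/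
theorem result {G H : Type*} [Group G] [Finite G] [Group H] [Finite H] :
    (∀ n : ℕ, Nat.card {g : G // orderOf g = n} = Nat.card {h : H // orderOf h = n}) ↔
      ∀ n : ℕ, Nat.card {g : G // g ^ n = 1} = Nat.card {h : H // h ^ n = 1} := by
  classical
  constructor
  · intro h n
    -- an order preserving bijection
    have e : ∀ d : ℕ, {g : G // orderOf g = d} ≃ {h : H // orderOf h = d} := fun d =>
      (Finite.card_eq.mp (h d)).some
    let φ : G ≃ H :=
      (Equiv.sigmaFiberEquiv (fun g : G => orderOf g)).symm.trans
        ((Equiv.sigmaCongrRight e).trans (Equiv.sigmaFiberEquiv (fun h : H => orderOf h)))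
    have hφ : ∀ g : G, orderOf (φ g) = orderOf g := by
      intro g
      have := (e (orderOf g) ⟨g, rfl⟩).2
      exact this
    refine Nat.card_congr (φ.subtypeEquiv ?_)
    intro g
    rw [← orderOf_dvd_iff_pow_eq_one, ← orderOf_dvd_iff_pow_eq_one, hφ]
  · intro h n
    induction n using Nat.strong_induction_on with
    | _ n ih =>
      rcases Nat.eq_zero_or_pos n with rfl | hn
      · have h1 : IsEmpty {g : G // orderOf g = 0} :=
          ⟨fun g => (orderOf_pos g.1).ne' g.2⟩
        have h2 : IsEmpty {g : H // orderOf g = 0} :=
          ⟨fun g => (orderOf_pos g.1).ne' g.2⟩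
        rw [Nat.card_of_isEmpty, Nat.card_of_isEmpty]
      · have h1 := card_pow_eq (G := G) n hn
        have h2 := card_pow_eq (G := H) n hn
        have hnot : n ∉ n.properDivisors := by simp
        rw [← Nat.insert_self_properDivisors hn.ne', Finset.sum_insert hnot] at h1 h2
        have h3 : ∑ d ∈ n.properDivisors, Nat.card {g : G // orderOf g = d} =
            ∑ d ∈ n.properDivisors, Nat.card {g : H // orderOf g = d} := by
          apply Finset.sum_congr rfl
          intro d hd
          exact ih d (Nat.mem_properDivisors.mp hd).2
        have h4 := h n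
        omega

end Cfsg.Agent.S4377
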