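import Cfsg.Statements.S4379
import Cfsg.Agent.Lib.Core.PSolvable
import Cfsg.Agent.Lib.Solvable.Basic
import Cfsg.Agent.Lib.Solvable.Misc1
import Cfsg.Agent.Lib.Coprime.SchurZassenhaus
import Cfsg.Agent.Lib.PGroups.Basic

set_option autoImplicit false
open Cfsg

namespace Cfsg.Agent.S4379

open Subgroup
open scoped Pointwise
open Cfsg.Agent.Lib.Solvable.Basic

universe u

/-- The chain of normal subgroups. -/
def Chain (p : ℕ) (G : Type u) [Group G] : Prop :=
  ∃ A B C : Subgroup G, A.Normal ∧ B.Normal ∧ C.Normal ∧ A ≤ B ∧ B ≤ C ∧ ¬ p ∣ Nat.card A ∧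
    (∃ k : ℕ, A.relIndex B = p ^ k) ∧ ¬ p ∣ B.relIndex C ∧ ∃ k : ℕ, C.index = p ^ k

/-- The hypothesis on maximal subgroups. -/
def Hyp (p : ℕ) (G : Type u) [Group G] : Prop :=
  ∀ M : Subgroup G, IsCoatom M →
    (∃ K : Subgroup ↥M, K.Normal ∧ ¬ p ∣ Nat.card K ∧ ∃ k : ℕ, K.index = p ^ k) ∨ (M.index).Prime

lemma isCoatom_comap {G H : Type u} [Group G] [Group H] (f : G →* H)
    (hf : Function.Surjective f) {Mb : Subgroup H} (hMb : IsCoatom Mb) : IsCoatom (Mb.comap f) := by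
  constructor
  · intro h
    apply hMb.1
    have := Subgroup.map_comap_eq_self_of_surjective hf Mb
    rw [← this, h, ← MonoidHom.range_eq_map]
    exact MonoidHom.range_eq_top.mpr hf
  · intro H hH
    have hker : f.ker ≤ H := by
      refine le_trans ?_ hH.le
      exact Subgroup.ker_le_comap f Mb
    have h1 : Mb < H.map f := by
      refine lt_of_le_of_ne ?_ ?_
      · have := Subgroup.map_mono (f := f) hH.le
        rwa [Subgroup.map_comap_eq_self_of_surjective hf] at this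
      · intro heq
        apply hH.ne
        rw [heq, Subgroup.comap_map_eq_self hker]
    have h2 := hMb.2 _ h1
    have h3 := Subgroup.comap_map_eq_self hker
    rw [← h3, h2, Subgroup.comap_top]

lemma hyp_quot {G : Type u} [Group G] [Finite G] {p : ℕ} [Fact p.Prime] (N : Subgroup G) [N.Normal]
    (h : Hyp p G) : Hyp p (G ⧸ N) := by
  intro Mb hMb
  let φ := QuotientGroup.mk' N
  have hφ : Function.Surjective φ := QuotientGroup.mk'_surjective N
  rcases h (Mb.comap φ) (isCoatom_comap φ hφ hMb) with ⟨K, hKn, hKp, k, hk⟩ | hpr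
  · left
    let ψ : ↥(Mb.comap φ) →* ↥Mb := (φ.comp (Mb.comap φ).subtype).codRestrict Mb (fun x => x.2)
    have hψ : Function.Surjective ψ := by
      rintro ⟨y, hy⟩
      obtain ⟨x, rfl⟩ := hφ y
      exact ⟨⟨x, hy⟩, rfl⟩
    refine ⟨K.map ψ, hKn.map ψ hψ, ?_, ?_⟩
    · intro hd
      exact hKp (hd.trans (Subgroup.card_map_dvd K ψ))
    · have h1 : (K.map ψ).index ∣ p ^ k := by
        rw [← hk]
        exact K.index_map_dvd hψ
      obtain ⟨j, -, hj⟩ := (Nat.dvd_prime_pow Fact.out).mp h1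
      exact ⟨j, hj⟩
  · right
    rwa [Subgroup.index_comap_of_surjective _ hφ] at hpr

/-- Pulling a chain back from a quotient. -/
lemma chain_lift {G : Type u} [Group G] {p : ℕ} (N : Subgroup G) [N.Normal]
    (h : Chain p (G ⧸ N)) : ∃ A B C : Subgroup G, A.Normal ∧ B.Normal ∧ C.Normal ∧ N ≤ A ∧ A ≤ B ∧
      B ≤ C ∧ ¬ p ∣ N.relIndex A ∧ (∃ k : ℕ, A.relIndex B = p ^ k) ∧ ¬ p ∣ B.relIndex C ∧
      ∃ k : ℕ, C.index = p ^ k := by
  obtain ⟨Ab, Bb, Cb, hA, hB, hC, hAB, hBC, h1, ⟨k, h2⟩, h3, ⟨l, h4⟩⟩ := h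
  let φ := QuotientGroup.mk' N
  have hφ : Function.Surjective φ := QuotientGroup.mk'_surjective N
  have hker : (⊥ : Subgroup (G ⧸ N)).comap φ = N := by
    rw [MonoidHom.comap_bot, QuotientGroup.ker_mk']
  refine ⟨Ab.comap φ, Bb.comap φ, Cb.comap φ, hA.comap φ, hB.comap φ, hC.comap φ, ?_,
    Subgroup.comap_mono hAB, Subgroup.comap_mono hBC, ?_, ⟨k, ?_⟩, ?_, ⟨l, ?_⟩⟩
  · intro x hx
    show φ x ∈ Ab
    have : φ x = 1 := (QuotientGroup.eq_one_iff x).mpr hx
    rw [this]
    exact Ab.one_mem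
  · have h5 : N.relIndex (Ab.comap φ) = ((⊥ : Subgroup (G ⧸ N)).comap φ).relIndex (Ab.comap φ) := by
      rw [hker]
    rw [h5, Subgroup.relIndex_comap, Subgroup.map_comap_eq_self_of_surjective hφ,
      Subgroup.relIndex_bot_left]
    exact h1
  · rw [Subgroup.relIndex_comap, Subgroup.map_comap_eq_self_of_surjective hφ]
    exact h2
  · rw [Subgroup.relIndex_comap, Subgroup.map_comap_eq_self_of_surjective hφ]
    exact h3
  · rw [Subgroup.index_comap_of_surjective _ hφ]
    exact h4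

lemma min_normal_abelian {G : Type u} [Group G] [Finite G] {p : ℕ} [Fact p.Prime] {N : Subgroup G}
    (hmin : IsMinNormal N) (hp : IsPGroup p N) : ∀ x ∈ N, ∀ y ∈ N, x * y = y * x := by
  haveI := hmin.1
  have hnt : Nontrivial N := (Subgroup.nontrivial_iff_ne_bot N).mpr hmin.2.1
  have hc := hp.center_nontrivial
  let Z : Subgroup G := (Subgroup.center N).map N.subtype
  have hZN : Z ≤ N := by
    rintro _ ⟨z, -, rfl⟩
    exact z.2
  have hZn : Z.Normal := by
    constructor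
    rintro _ ⟨z, hz, rfl⟩ g
    refine ⟨⟨g * z * g⁻¹, hmin.1.conj_mem _ z.2 g⟩, ?_, rfl⟩
    rw [SetLike.mem_coe, Subgroup.mem_center_iff] at hz ⊢
    rintro ⟨n, hn⟩
    apply Subtype.ext
    have h1 := hz ⟨g⁻¹ * n * g, by simpa using hmin.1.conj_mem _ hn g⁻¹⟩
    have h2 : (g⁻¹ * n * g) * (z : G) = (z : G) * (g⁻¹ * n * g) := congrArg Subtype.val h1
    show n * (g * (z : G) * g⁻¹) = (g * (z : G) * g⁻¹) * n
    calc n * (g * (z : G) * g⁻¹) = g * ((g⁻¹ * n * g) * (z : G)) * g⁻¹ := by group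
      _ = g * ((z : G) * (g⁻¹ * n * g)) * g⁻¹ := by rw [h2]
      _ = (g * (z : G) * g⁻¹) * n := by group
  have hZne : Z ≠ ⊥ := by
    intro h
    obtain ⟨z, hz⟩ := exists_ne (1 : Subgroup.center N)
    apply hz
    apply Subtype.ext
    have h1 : ((z : N) : G) ∈ Z := ⟨z, z.2, rfl⟩
    rw [h, Subgroup.mem_bot] at h1
    exact Subtype.ext h1
  have hZeq : Z = N := (hmin.2.2 Z hZn hZN).resolve_left hZne
  intro x hx y hy
  rw [← hZeq] at hx
  obtain ⟨z, hz, rfl⟩ := hx
  have h1 := Subgroup.mem_center_iff.mp hz ⟨y, hy⟩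
  exact (congrArg Subtype.val h1).symm

lemma case_Ia {G : Type u} [Group G] [Finite G] {p : ℕ} [Fact p.Prime] (N : Subgroup G) [N.Normal]
    {m : ℕ} (hm : Nat.card N = p ^ m) (M : Subgroup G) (hsup : M ⊔ N = ⊤) (K : Subgroup ↥M)
    (hKn : K.Normal) (hKp : ¬ p ∣ Nat.card K) {k : ℕ} (hk : K.index = p ^ k) : Chain p G := by
  let φ := QuotientGroup.mk' N
  have hφ : Function.Surjective φ := QuotientGroup.mk'_surjective N
  let ψ : ↥M →* G ⧸ N := φ.comp M.subtype
  have hψ : Function.Surjective ψ := by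
    intro y
    obtain ⟨x, rfl⟩ := hφ y
    have hx : x ∈ M ⊔ N := by rw [hsup]; exact Subgroup.mem_top x
    rw [← SetLike.mem_coe, Subgroup.mul_normal, Set.mem_mul] at hx
    obtain ⟨a, ha, b, hb, rfl⟩ := hx
    refine ⟨⟨a, ha⟩, ?_⟩
    have hb1 : φ b = 1 := (QuotientGroup.eq_one_iff b).mpr hb
    show φ a = φ (a * b)
    rw [map_mul, hb1, mul_one]
  let Kb : Subgroup (G ⧸ N) := K.map ψ
  have hKb : Kb.Normal := hKn.map ψ hψ
  have hker : (⊥ : Subgroup (G ⧸ N)).comap φ = N := by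
    rw [MonoidHom.comap_bot, QuotientGroup.ker_mk']
  have hNC : N ≤ Kb.comap φ := by
    intro x hx
    show φ x ∈ Kb
    have : φ x = 1 := (QuotientGroup.eq_one_iff x).mpr hx
    rw [this]
    exact Kb.one_mem
  refine ⟨⊥, N, Kb.comap φ, inferInstance, inferInstance, hKb.comap φ, bot_le, hNC, ?_,
    ⟨m, ?_⟩, ?_, ?_⟩
  · rw [Subgroup.card_bot]
    exact (Fact.out : p.Prime).one_lt.ne' ∘ Nat.dvd_one.mp
  · rw [Subgroup.relIndex_bot_left, hm]
  · have h5 : N.relIndex (Kb.comap φ) = ((⊥ : Subgroup (G ⧸ N)).comap φ).relIndex (Kb.comap φ) := by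
      rw [hker]
    rw [h5, Subgroup.relIndex_comap, Subgroup.map_comap_eq_self_of_surjective hφ,
      Subgroup.relIndex_bot_left]
    intro hd
    exact hKp (hd.trans (Subgroup.card_map_dvd K ψ))
  · rw [Subgroup.index_comap_of_surjective _ hφ]
    have h1 : Kb.index ∣ p ^ k := by
      rw [← hk]
      exact K.index_map_dvd hψ
    obtain ⟨j, -, hj⟩ := (Nat.dvd_prime_pow Fact.out).mp h1
    exact ⟨j, hj⟩

lemma case_II {G : Type u} [Group G] [Finite G] {p : ℕ} [Fact p.Prime] (N : Subgroup G) [N.Normal]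
    (hab : ∀ x ∈ N, ∀ y ∈ N, x * y = y * x) {m : ℕ} (hm : Nat.card N = p ^ m)
    (hall : ∀ M : Subgroup G, IsCoatom M → N ≤ M)
    {A B C : Subgroup G} (hA : A.Normal) (hB : B.Normal) (hC : C.Normal) (hNA : N ≤ A) (hAB : A ≤ B)
    (hBC : B ≤ C) (h1 : ¬ p ∣ N.relIndex A) (h2 : ∃ k : ℕ, A.relIndex B = p ^ k)
    (h3 : ¬ p ∣ B.relIndex C) (h4 : ∃ k : ℕ, C.index = p ^ k) : Chain p G := by
  classical
  let N₁ : Subgroup ↥A := N.subgroupOf A
  haveI hN₁n : N₁.Normal := Subgroup.normal_subgroupOf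
  have hN₁card : Nat.card N₁ = Nat.card N :=
    Nat.card_congr (Subgroup.subgroupOfEquivOfLe hNA).toEquiv
  have hN₁idx : N₁.index = N.relIndex A := rfl
  haveI hN₁c : IsMulCommutative ↥N₁ := ⟨⟨fun a b => by
    apply Subtype.ext
    apply Subtype.ext
    exact hab _ a.2 _ b.2⟩⟩
  have hcop : (Nat.card N₁).Coprime N₁.index := by
    rw [hN₁card, hN₁idx, hm]
    exact Nat.Coprime.pow_left m ((Nat.Prime.coprime_iff_not_dvd Fact.out).mpr h1)
  obtain ⟨K₁, hK₁⟩ := Subgroup.exists_right_complement'_of_coprime hcop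
  have hcardK₁ : Nat.card N₁ * Nat.card K₁ = Nat.card A := hK₁.card_mul_card
  have hidxN : N₁.index * Nat.card N₁ = Nat.card A := Subgroup.index_mul_card N₁
  have hK₁c : Nat.card K₁ = N₁.index := by
    have hpos : 0 < Nat.card N₁ := Nat.card_pos
    apply Nat.eq_of_mul_eq_mul_left hpos
    rw [hcardK₁, mul_comm, hidxN]
  have hK₁i : K₁.index = Nat.card N₁ := by
    have hpos : 0 < Nat.card K₁ := Nat.card_pos
    apply Nat.eq_of_mul_eq_mul_right hpos
    rw [hcardK₁, Subgroup.index_mul_card]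
  let K : Subgroup G := K₁.map A.subtype
  have hKA : K ≤ A := by
    rintro _ ⟨x, -, rfl⟩
    exact x.2
  have hKsub : K.subgroupOf A = K₁ := Subgroup.comap_map_eq_self_of_injective A.subtype_injective K₁
  have hKcard : Nat.card K = Nat.card K₁ := Subgroup.card_map_of_injective A.subtype_injective
  have hcopK : (Nat.card N₁).Coprime (Nat.card K₁) := by rwa [hK₁c]
  -- the Frattini argument
  have hfr : ∀ g : G, ∃ n ∈ N, n⁻¹ * g ∈ Subgroup.normalizer (K : Set G) := by
    intro g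
    have hgK : MulAut.conj g • K ≤ A := by
      intro x hx
      rw [Cfsg.Agent.Lib.Coprime.SchurZassenhaus.mem_conj_smul_iff] at hx
      have := hA.conj_mem _ (hKA hx) g
      simpa [mul_assoc] using this
    have hc2 : Nat.card ((MulAut.conj g • K).subgroupOf A) = Nat.card K₁ := by
      rw [Cfsg.Agent.Lib.Coprime.SchurZassenhaus.card_subgroupOf_of_le hgK,
        Cfsg.Agent.Lib.Coprime.SchurZassenhaus.card_conj_smul, hKcard]
    obtain ⟨a, ha, hae⟩ := Cfsg.Agent.Lib.Coprime.SchurZassenhaus.conj_of_card_abelian N₁ K₁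
      ((MulAut.conj g • K).subgroupOf A) hcardK₁ hc2 hcopK
    have h5 : MulAut.conj (a : G) • K = MulAut.conj g • K := by
      apply Cfsg.Agent.Lib.Coprime.SchurZassenhaus.conj_of_subgroupOf hKA hgK a
      rw [hKsub, hae]
    refine ⟨a, ha, ?_⟩
    rw [Cfsg.Agent.Lib.Solvable.HallRel.mem_normalizer_iff_conj, map_mul, mul_smul, ← h5, map_inv,
      inv_smul_smul]
  have hnorm : Subgroup.normalizer (K : Set G) = ⊤ := by
    rcases eq_top_or_exists_le_coatom (Subgroup.normalizer (K : Set G)) with h0 | ⟨M, hM, hle⟩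
    · exact h0
    · exfalso
      apply hM.1
      rw [eq_top_iff]
      intro g _
      obtain ⟨n, hn, hng⟩ := hfr g
      have : g = n * (n⁻¹ * g) := by group
      rw [this]
      exact M.mul_mem (hall M hM hn) (hle hng)
  have hKn : K.Normal := Subgroup.normalizer_eq_top_iff.mp hnorm
  obtain ⟨k, hk⟩ := h2
  refine ⟨K, B, C, hKn, hB, hC, hKA.trans hAB, hBC, ?_, ⟨m + k, ?_⟩, h3, h4⟩
  · rw [hKcard, hK₁c, hN₁idx]
    exact h1
  · have h6 := Subgroup.relIndex_mul_relIndex K A B hKA hAB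
    have h7 : K.relIndex A = p ^ m := by
      show (K.subgroupOf A).index = p ^ m
      rw [hKsub, hK₁i, hN₁card, hm]
    rw [← h6, h7, hk, pow_add]

lemma case_Ib {G : Type u} [Group G] [Finite G] {p : ℕ} [Fact p.Prime] (N : Subgroup G) [hNn : N.Normal]
    (hmin : IsMinNormal N) (hab : ∀ x ∈ N, ∀ y ∈ N, x * y = y * x) {m : ℕ} (hm : Nat.card N = p ^ m)
    (M : Subgroup G) (hM : IsCoatom M) (hNM : ¬ N ≤ M) (hpr : (M.index).Prime)
    {A B C : Subgroup G} (hA : A.Normal) (hB : B.Normal) (hC : C.Normal) (hNA : N ≤ A) (hAB : A ≤ B)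
    (hBC : B ≤ C) (h1 : ¬ p ∣ N.relIndex A) (h2 : ∃ k : ℕ, A.relIndex B = p ^ k)
    (h3 : ¬ p ∣ B.relIndex C) (h4 : ∃ k : ℕ, C.index = p ^ k) : Chain p G := by
  classical
  have hsup : M ⊔ N = ⊤ := by
    apply hM.2
    refine lt_of_le_of_ne le_sup_left ?_
    intro h
    apply hNM
    rw [h]
    exact le_sup_right
  have hprod : ∀ g : G, ∃ a ∈ M, ∃ b ∈ N, g = a * b := by
    intro g
    have hg : g ∈ M ⊔ N := by rw [hsup]; exact Subgroup.mem_top g
    rw [← SetLike.mem_coe, Subgroup.mul_normal, Set.mem_mul] at hg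
    obtain ⟨a, ha, b, hb, rfl⟩ := hg
    exact ⟨a, ha, b, hb, rfl⟩
  -- M ⊓ N = ⊥
  have hinf : M ⊓ N = ⊥ := by
    have hnormal : (M ⊓ N).Normal := by
      constructor
      intro x hx g
      obtain ⟨a, ha, b, hb, rfl⟩ := hprod g
      have h5 : b * x * b⁻¹ = x := by
        rw [hab b hb x hx.2]; group
      have h6 : a * b * x * (a * b)⁻¹ = a * (b * x * b⁻¹) * a⁻¹ := by group
      rw [h6, h5]
      exact ⟨M.mul_mem (M.mul_mem ha hx.1) (M.inv_mem ha), hNn.conj_mem _ hx.2 a⟩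
    rcases hmin.2.2 _ hnormal inf_le_right with h | h
    · exact h
    · exfalso
      apply hNM
      rw [← h]
      exact inf_le_left
  -- |N| = p
  have hMi : M.index = Nat.card N := by
    have h5 := Cfsg.Agent.Lib.Solvable.Misc1.relIndex_sup_eq M N
    rw [hsup, Subgroup.relIndex_top_right] at h5
    rw [h5, ← Subgroup.inf_relIndex_right, hinf, Subgroup.relIndex_bot_left]
  have hm0 : m ≠ 0 := by
    rintro rfl
    rw [pow_zero] at hm
    exact hmin.2.1 (Subgroup.eq_bot_of_card_eq N hm)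
  have hNp : Nat.card N = p := by
    rw [hMi] at hpr
    have h5 : p ∣ Nat.card N := by
      rw [hm]
      exact dvd_pow_self p hm0
    exact ((Nat.prime_dvd_prime_iff_eq Fact.out hpr).mp h5).symm
  -- the centralizer
  let Ce : Subgroup G := Subgroup.centralizer (N : Set G)
  have hCe : Ce.Normal := inferInstance
  have hNCe : N ≤ Ce := by
    intro x hx
    rw [Subgroup.mem_centralizer_iff]
    intro y hy
    exact hab y hy x hx
  have hCep : ¬ p ∣ Ce.index := by
    obtain ⟨P⟩ : Nonempty (Sylow p G) := Sylow.nonempty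
    have hNp' : IsPGroup p N := IsPGroup.of_card (n := 1) (by rw [hNp, pow_one])
    have hNP : N ≤ P := hNp'.le_sylow_of_normal P
    have hPCe : (P : Subgroup G) ≤ Ce := by
      have hN₁ne : N.subgroupOf P ≠ ⊥ := by
        intro h
        apply hmin.2.1
        rw [eq_bot_iff]
        intro x hx
        have : (⟨x, hNP hx⟩ : (P : Subgroup G)) ∈ N.subgroupOf P := hx
        rw [h, Subgroup.mem_bot] at this
        exact Subgroup.mem_bot.mpr (congrArg Subtype.val this)
      obtain ⟨z, hzN, hzc, hzo⟩ :=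
        Cfsg.Agent.Lib.PGroups.Basic.exists_central_orderOf_eq P.isPGroup' (N.subgroupOf P) hN₁ne
      have hzN' : (z : G) ∈ N := hzN
      have hzp : Subgroup.zpowers (z : G) = N := by
        apply Subgroup.eq_of_le_of_card_ge
        · rw [Subgroup.zpowers_le]; exact hzN'
        · rw [Nat.card_zpowers, Subgroup.orderOf_coe, hzo, hNp]
      intro x hx
      rw [Subgroup.mem_centralizer_iff]
      intro y hy
      have hy' : y ∈ Subgroup.zpowers (z : G) := by rw [hzp]; exact hy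
      obtain ⟨i, rfl⟩ := hy'
      have h5 : Commute (x : G) (z : G) := by
        have := Subgroup.mem_center_iff.mp hzc ⟨x, hx⟩
        exact congrArg Subtype.val this
      exact (h5.zpow_right i).eq.symm
    intro hd
    exact P.not_dvd_index (hd.trans (Subgroup.index_dvd_of_le hPCe))
  haveI := hA
  haveI := hB
  haveI := hCe
  let A₂ : Subgroup G := A ⊓ Ce
  let A₁ : Subgroup G := A₂ ⊓ M
  let B₁ : Subgroup G := B ⊓ Ce
  have hA₂n : A₂.Normal := Subgroup.normal_inf_normal _ _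
  have hB₁n : B₁.Normal := Subgroup.normal_inf_normal _ _
  have hNA₂ : N ≤ A₂ := le_inf hNA hNCe
  have hA₁A₂ : A₁ ≤ A₂ := inf_le_left
  have hA₂B₁ : A₂ ≤ B₁ := inf_le_inf_right _ hAB
  have hA₁N : A₁ ⊓ N = ⊥ := by
    rw [eq_bot_iff, ← hinf]
    exact inf_le_inf_right _ inf_le_right
  have hA₂sup : A₁ ⊔ N = A₂ := by
    apply le_antisymm (sup_le hA₁A₂ hNA₂)
    intro x hx
    obtain ⟨a, ha, b, hb, rfl⟩ := hprod x
    refine Subgroup.mul_mem _ (Subgroup.mem_sup_left ?_) (Subgroup.mem_sup_right hb)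
    refine ⟨?_, ha⟩
    have : a = (a * b) * b⁻¹ := by group
    rw [this]
    exact A₂.mul_mem hx (A₂.inv_mem (hNA₂ hb))
  have hA₁n : A₁.Normal := by
    constructor
    intro x hx g
    obtain ⟨a, ha, b, hb, rfl⟩ := hprod g
    have hxCe : x ∈ Ce := hx.1.2
    have h5 : b * x * b⁻¹ = x := by
      have := Subgroup.mem_centralizer_iff.mp hxCe b hb
      rw [this]; group
    have h6 : a * b * x * (a * b)⁻¹ = a * (b * x * b⁻¹) * a⁻¹ := by group
    rw [h6, h5]
    exact ⟨hA₂n.conj_mem _ hx.1 a, M.mul_mem (M.mul_mem ha hx.2) (M.inv_mem ha)⟩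
  obtain ⟨k, hk⟩ := h2
  refine ⟨A₁, B₁, C, hA₁n, hB₁n, hC, hA₁A₂.trans hA₂B₁, inf_le_left.trans hBC, ?_, ?_, ?_, h4⟩
  · -- |A₁| divides [A : N]
    have h5 : N.relIndex A₂ = Nat.card A₁ := by
      rw [← hA₂sup, Subgroup.relIndex_sup_right, ← Subgroup.inf_relIndex_right, inf_comm, hA₁N,
        Subgroup.relIndex_bot_left]
    have h6 : N.relIndex A₂ ∣ N.relIndex A :=
      Dvd.intro _ (Subgroup.relIndex_mul_relIndex N A₂ A hNA₂ inf_le_left)
    rw [← h5]
    exact fun hd => h1 (hd.trans h6)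
  · have h5 : A₁.relIndex A₂ = p := by
      rw [← hA₂sup, Cfsg.Agent.Lib.Solvable.Misc1.relIndex_sup_eq, ← Subgroup.inf_relIndex_right, hA₁N,
        Subgroup.relIndex_bot_left, hNp]
    have h6 : A₂.relIndex B₁ ∣ p ^ k := by
      rw [← hk]
      exact Cfsg.Agent.Lib.Core.PSolvable.relIndex_inf_dvd Ce hA hAB
    obtain ⟨j, -, hj⟩ := (Nat.dvd_prime_pow Fact.out).mp h6
    refine ⟨1 + j, ?_⟩
    rw [← Subgroup.relIndex_mul_relIndex A₁ A₂ B₁ hA₁A₂ hA₂B₁, h5, hj, pow_add, pow_one]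
  · have h5 : B₁.relIndex B ∣ Ce.index := by
      have h6 : B₁.relIndex B = Ce.relIndex B := by
        show (B ⊓ Ce).relIndex B = Ce.relIndex B
        rw [inf_comm, Subgroup.inf_relIndex_right]
      rw [h6]
      exact Subgroup.relIndex_dvd_index_of_normal _ _
    rw [← Subgroup.relIndex_mul_relIndex B₁ B C inf_le_left hBC]
    exact Nat.Prime.not_dvd_mul Fact.out (fun hd => hCep (hd.trans h5)) h3

/-- The main induction. -/
theorem chain_thm (p : ℕ) [Fact p.Prime] : ∀ (n : ℕ) (G : Type u) [Group G] [Finite G],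
    Nat.card G = n → IsPSolvable p G → Hyp p G → Chain p G := by
  intro n
  induction n using Nat.strong_induction_on with
  | _ n ih =>
  intro G _ _ hc hG hH
  by_cases hnt : Nontrivial G
  · obtain ⟨N₀, hN₀, hne, hpc⟩ := Cfsg.Agent.Lib.Core.PSolvable.isPSolvable_exists_normal hG
    obtain ⟨N, hmin, hle⟩ := exists_isMinNormal_le N₀ hN₀ hne
    haveI hNn : N.Normal := hmin.1
    have hpc' := hpc.of_dvd (Subgroup.card_dvd_of_le hle)
    have hlt : Nat.card (G ⧸ N) < n := by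
      rw [← hc]
      have h1 := Subgroup.card_eq_card_quotient_mul_card_subgroup N
      have h2 : 1 < Nat.card N := by
        haveI : Nontrivial N := (Subgroup.nontrivial_iff_ne_bot N).mpr hmin.2.1
        exact Finite.one_lt_card
      have h3 : 0 < Nat.card (G ⧸ N) := Nat.card_pos
      rw [h1]
      exact lt_mul_of_one_lt_right h3 h2
    have hq := ih _ hlt (G ⧸ N) rfl
      (Cfsg.Agent.Lib.Core.PSolvable.isPSolvable_of_surjective (QuotientGroup.mk' N)
        (QuotientGroup.mk'_surjective N) hG) (hyp_quot N hH)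
    obtain ⟨A, B, C, hA, hB, hC, hNA, hAB, hBC, h1, h2, h3, h4⟩ := chain_lift N hq
    rcases hpc' with ⟨m, hm⟩ | hcop
    · have hNp : IsPGroup p N := IsPGroup.of_card hm
      have hab := min_normal_abelian hmin hNp
      by_cases hall : ∀ M : Subgroup G, IsCoatom M → N ≤ M
      · exact case_II N hab hm hall hA hB hC hNA hAB hBC h1 h2 h3 h4
      · simp only [not_forall] at hall
        obtain ⟨M, hM, hNM⟩ := hall
        rcases hH M hM with ⟨K, hKn, hKp, k, hk⟩ | hpr
        · have hsup : M ⊔ N = ⊤ := by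
            apply hM.2
            refine lt_of_le_of_ne le_sup_left ?_
            intro h
            apply hNM
            rw [h]
            exact le_sup_right
          exact case_Ia N hm M hsup K hKn hKp hk
        · exact case_Ib N hmin hab hm M hM hNM hpr hA hB hC hNA hAB hBC h1 h2 h3 h4
    · refine ⟨A, B, C, hA, hB, hC, hAB, hBC, ?_, h2, h3, h4⟩
      have h5 := Subgroup.relIndex_mul_relIndex (⊥ : Subgroup G) N A bot_le hNA
      rw [Subgroup.relIndex_bot_left, Subgroup.relIndex_bot_left] at h5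
      rw [← h5]
      refine Nat.Prime.not_dvd_mul Fact.out ?_ h1
      intro hd
      have h6 := Nat.dvd_gcd hd (dvd_refl p)
      rw [hcop.gcd_eq_one] at h6
      exact (Fact.out : p.Prime).one_lt.ne' (Nat.dvd_one.mp h6)
  · rw [not_nontrivial_iff_subsingleton] at hnt
    refine ⟨⊥, ⊥, ⊥, inferInstance, inferInstance, inferInstance, le_rfl, le_rfl, ?_, ⟨0, ?_⟩, ?_, ⟨0, ?_⟩⟩
    · rw [Subgroup.card_bot]
      exact (Fact.out : p.Prime).one_lt.ne' ∘ Nat.dvd_one.mp
    · simp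
    · simp only [Subgroup.relIndex_self]
      exact (Fact.out : p.Prime).one_lt.ne' ∘ Nat.dvd_one.mp
    · rw [pow_zero, Subgroup.index_eq_one]
      exact Subsingleton.elim _ _

/-- Let p be an odd prime and G a finite p-solvable group in which every maximal subgroup either has a normal p-complement or has prime index. Then G has a chain of normal subgroups 1 ≤ A ≤ B ≤ C ≤ D ≤ G in which A, C/B and G/D have order prime to p and B/A and D/C are p-groups (so the p-length of G is at most 2). -/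
theorem result {G : Type*} [Group G] [Finite G]
    (p : ℕ) [Fact p.Prime] (hp : p ≠ 2) (hG : Cfsg.IsPSolvable p G)
    (hmax : ∀ M : Subgroup G, IsCoatom M → (∃ K : Subgroup ↥M, K.Normal ∧ ¬ p ∣ Nat.card K ∧ ∃ k : ℕ, K.index = p ^ k) ∨ (M.index).Prime) :
    ∃ A B C D : Subgroup G, A.Normal ∧ B.Normal ∧ C.Normal ∧ D.Normal ∧ A ≤ B ∧ B ≤ C ∧ C ≤ D ∧ ¬ p ∣ Nat.card A ∧
      (∃ k : ℕ, A.relIndex B = p ^ k) ∧ ¬ p ∣ B.relIndex C ∧ (∃ k : ℕ, C.relIndex D = p ^ k) ∧ ¬ p ∣ D.index := by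
  obtain ⟨A, B, C, hA, hB, hC, hAB, hBC, h1, h2, h3, k, h4⟩ := chain_thm p _ G rfl hG hmax
  refine ⟨A, B, C, ⊤, hA, hB, hC, inferInstance, hAB, hBC, le_top, h1, h2, h3, ⟨k, ?_⟩, ?_⟩
  · rw [Subgroup.relIndex_top_right]; exact h4
  · rw [Subgroup.index_top]
    exact (Fact.out : p.Prime).one_lt.ne' ∘ Nat.dvd_one.mp

end Cfsg.Agent.S4379
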