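import Cfsg.Statements.S4381
import Cfsg.Agent.Lib.Coprime.Bridge
import Cfsg.Agent.Lib.PGroups.Basic
import Cfsg.Agent.Lib.Solvable.Hall

set_option autoImplicit false
open Pointwise
open Cfsg
open scoped commutatorElement

namespace Cfsg.Agent.S4381

/-- Let the finite group A act by automorphisms on the finite group G with the orders of A and G coprime, and assume that A or G is solvable. Call a proper A-invariant subgroup of G maximal A-invariant when no A-invariant subgroup lies strictly between it and G. Then all maximal A-invariant subgroups of G are conjugate under elements of the fixed-point subgroup C_G(A) if and only if G is a p-group for some prime p and A leaves invariant no subgroup strictly between the Frattini subgroup of G and G. In that case, if G is nontrivial, the Frattini subgroup is the only maximal A-invariant subgroup (a trivial G has none). -/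
theorem result {A G : Type*} [Group A] [Finite A]
    [Group G] [Finite G] [MulDistribMulAction A G] (hcop : (Nat.card A).Coprime (Nat.card G)) (hsol : Group.IsSolvable A ∨ Group.IsSolvable G) :
    ((∀ M N : Subgroup G, (M ≠ ⊤ ∧ (∀ a : A, ∀ x ∈ M, a • x ∈ M) ∧ ∀ L : Subgroup G, M < L → (∀ a : A, ∀ x ∈ L, a • x ∈ L) → L = ⊤) → (N ≠ ⊤ ∧ (∀ a : A, ∀ x ∈ N, a • x ∈ N) ∧ ∀ L : Subgroup G, N < L → (∀ a : A, ∀ x ∈ L, a • x ∈ L) → L = ⊤) →
        ∃ c : G, (∀ a : A, a • c = c) ∧ N = MulAut.conj c • M) ↔
      ((∃ p : ℕ, p.Prime ∧ IsPGroup p G) ∧ ∀ L : Subgroup G, frattini G < L → (∀ a : A, ∀ x ∈ L, a • x ∈ L) → L = ⊤)) ∧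
    (((∃ p : ℕ, p.Prime ∧ IsPGroup p G) ∧ ∀ L : Subgroup G, frattini G < L → (∀ a : A, ∀ x ∈ L, a • x ∈ L) → L = ⊤) →
      ∀ M : Subgroup G, (M ≠ ⊤ ∧ (∀ a : A, ∀ x ∈ M, a • x ∈ M) ∧ ∀ L : Subgroup G, M < L → (∀ a : A, ∀ x ∈ L, a • x ∈ L) → L = ⊤) ↔ (M = frattini G ∧ M ≠ ⊤)) := by
  classical
  -- notation
  let inv : Subgroup G → Prop := fun L => ∀ a : A, ∀ x ∈ L, a • x ∈ L
  let MaxInv : Subgroup G → Prop := fun M => M ≠ ⊤ ∧ inv M ∧ ∀ L : Subgroup G, M < L → inv L → L = ⊤
  have hFinv : inv (frattini G) := by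
    intro a x hx
    exact Subgroup.characteristic_iff_le_comap.mp (frattini_characteristic (G := G))
      (MulDistribMulAction.toMulAut A G a) hx
  -- every proper invariant subgroup lies in a maximal invariant one
  have hex : ∀ L : Subgroup G, L ≠ ⊤ → inv L → ∃ M, L ≤ M ∧ MaxInv M := by
    intro L hL hLi
    obtain ⟨M, hLM, hM⟩ := Finite.exists_le_maximal (p := fun M : Subgroup G => M ≠ ⊤ ∧ inv M) ⟨hL, hLi⟩
    refine ⟨M, hLM, hM.prop.1, hM.prop.2, ?_⟩
    intro K hMK hK
    by_contra hne
    exact absurd (hM.le_of_ge ⟨hne, hK⟩ hMK.le) (not_le_of_gt hMK)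
  -- maximal invariant subgroups contain the Frattini subgroup
  have hFM : ∀ M, MaxInv M → frattini G ≤ M := by
    intro M hM
    obtain ⟨hMne, hMi, hMm⟩ := hM
    by_contra hnot
    have hlt : M < M ⊔ frattini G := by
      refine lt_of_le_of_ne le_sup_left ?_
      intro e
      exact hnot (e ▸ le_sup_right)
    have hinv : inv (M ⊔ frattini G) := by
      intro a x hx
      obtain ⟨f, hf, m, hm, rfl⟩ := Cfsg.Agent.Lib.Coprime.Action.exists_mul_of_mem_sup
        (A := M) (K := frattini G)
        (by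
          rw [Subgroup.le_normalizer_iff]
          intro m _ f hf
          exact (inferInstance : (frattini G).Normal).conj_mem f hf m) (by rwa [sup_comm])
      rw [smul_mul']
      exact Subgroup.mul_mem _ (Subgroup.mem_sup_right (hFinv a f hf)) (Subgroup.mem_sup_left (hMi a m hm))
    exact hMne (frattini_nongenerating (hMm _ hlt hinv))
  -- the implication from the right-hand side
  have hR : (∀ L : Subgroup G, frattini G < L → inv L → L = ⊤) →
      ∀ M : Subgroup G, MaxInv M ↔ (M = frattini G ∧ M ≠ ⊤) := by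
    intro hirr M
    constructor
    · intro hM
      refine ⟨?_, hM.1⟩
      by_contra hne
      exact hM.1 (hirr M (lt_of_le_of_ne (hFM M hM) (Ne.symm hne)) hM.2.1)
    · rintro ⟨rfl, hne⟩
      exact ⟨hne, hFinv, fun L hL hLi => hirr L hL hLi⟩
  refine ⟨⟨?_, ?_⟩, ?_⟩
  · -- conjugacy implies the structure
    intro hconj
    by_cases htriv : Subsingleton G
    · refine ⟨⟨2, Nat.prime_two, ?_⟩, ?_⟩
      · intro x
        exact ⟨0, by rw [Subsingleton.elim x 1]; simp⟩
      · intro L _ _
        rw [eq_top_iff]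
        intro x _
        rw [Subsingleton.elim x 1]
        exact L.one_mem
    · have hnt : Nontrivial G := not_subsingleton_iff_nontrivial.mp htriv
      obtain ⟨M₀, -, hM₀⟩ := hex ⊥ bot_ne_top (fun a x hx => by
        rw [Subgroup.mem_bot] at hx ⊢
        rw [hx, smul_one])
      -- `G` is a `p`-group
      have hpg : ∃ p : ℕ, p.Prime ∧ IsPGroup p G := by
        by_contra hno
        have hidx : M₀.index = 1 := by
          rw [Nat.eq_one_iff_not_exists_prime_dvd]
          intro r hr hd
          have : Fact r.Prime := ⟨hr⟩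
          obtain ⟨P, hPi, hPp, hPi'⟩ := Cfsg.Agent.Lib.Coprime.Bridge.exists_invariant_sylow hcop hsol r
          have hPne : P ≠ ⊤ := by
            rintro rfl
            apply hno
            refine ⟨r, hr, ?_⟩
            intro x
            obtain ⟨k, hk⟩ := hPp ⟨x, Subgroup.mem_top x⟩
            exact ⟨k, congrArg Subtype.val hk⟩
          obtain ⟨M, hPM, hM⟩ := hex P hPne hPi
          obtain ⟨c, -, e⟩ := hconj M₀ M ⟨hM₀.1, hM₀.2.1, hM₀.2.2⟩ ⟨hM.1, hM.2.1, hM.2.2⟩
          have h1 : M.index ∣ P.index := Subgroup.index_dvd_of_le hPM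
          rw [e, Cfsg.Agent.Lib.Solvable.Hall.index_conj_smul] at h1
          exact hPi' (hd.trans h1)
        exact hM₀.1 (Subgroup.index_eq_one.mp hidx)
      refine ⟨hpg, ?_⟩
      obtain ⟨p, hp, hpG⟩ := hpg
      have : Fact p.Prime := ⟨hp⟩
      intro L hFL hLi
      by_contra hLne
      obtain ⟨M, hLM, hM⟩ := hex L hLne hLi
      have hFltM : frattini G < M := lt_of_lt_of_le hFL hLM
      obtain ⟨C, hCi, hFC, hCM, hCMt⟩ :=
        Cfsg.Agent.Lib.Coprime.Bridge.exists_invariant_complement_frattini hcop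
          (fun x y => Cfsg.Agent.Lib.PGroups.Basic.commutator_le_frattini hpG
            (Subgroup.commutator_mem_commutator (Subgroup.mem_top x) (Subgroup.mem_top y)))
          (fun x => Cfsg.Agent.Lib.PGroups.Basic.pow_mem_frattini hpG x) M hM.2.1
      have hCne : C ≠ ⊤ := by
        rintro rfl
        rw [top_inf_eq] at hCM
        exact absurd hCM (not_le_of_gt hFltM)
      obtain ⟨M', hCM', hM'⟩ := hex C hCne hCi
      obtain ⟨c, -, e⟩ := hconj M M' ⟨hM.1, hM.2.1, hM.2.2⟩ ⟨hM'.1, hM'.2.1, hM'.2.2⟩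
      -- `M` is normal, so `M' = M`
      have hMconj : MulAut.conj c • M = M := by
        have hle : MulAut.conj c • M ≤ M := by
          intro x hx
          rw [Subgroup.mem_pointwise_smul_iff_inv_smul_mem] at hx
          have h1 : c⁻¹ * x * c ∈ M := by simpa [MulAut.smul_def] using hx
          have hcomm : x * (c⁻¹ * x * c)⁻¹ ∈ M := by
            apply hFM M hM
            have h2 := Cfsg.Agent.Lib.PGroups.Basic.commutator_le_frattini hpG
              (Subgroup.commutator_mem_commutator (Subgroup.mem_top x) (Subgroup.mem_top c⁻¹))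
            have e2 : ⁅x, c⁻¹⁆ = x * (c⁻¹ * x * c)⁻¹ := by
              rw [commutatorElement_def]
              group
            rwa [e2] at h2
          have e3 : x = (x * (c⁻¹ * x * c)⁻¹) * (c⁻¹ * x * c) := by group
          rw [e3]
          exact M.mul_mem hcomm h1
        exact Subgroup.eq_of_le_of_card_ge hle (by rw [Cfsg.Agent.Lib.Solvable.Hall.card_conj_smul])
      rw [hMconj] at e
      rw [e] at hCM'
      rw [sup_eq_right.mpr hCM'] at hCMt
      exact hM.1 hCMt
  · -- the structure implies conjugacy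
    rintro ⟨-, hirr⟩ M N hM hN
    obtain ⟨rfl, -⟩ := (hR hirr M).mp hM
    obtain ⟨rfl, -⟩ := (hR hirr N).mp hN
    exact ⟨1, fun a => smul_one a, by simp⟩
  · rintro ⟨-, hirr⟩ M
    exact hR hirr M
end Cfsg.Agent.S4381
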