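import Cfsg.Statements.S4385
import Cfsg.Agent.Lib.Sims3.OddQuot

set_option autoImplicit false
open Pointwise
open Cfsg

namespace Cfsg.Agent.S4385

open Cfsg.Agent.Lib.Sims3

variable {G : Type*} [Group G]

/-- Elements acting on `P` as an element of `P` does. -/
theorem inner_of_mem_sup [Finite G] {P : Subgroup G} {u : G}
    (hu : u ∈ P ⊔ Subgroup.centralizer (P : Set G)) : ∃ p ∈ P, ∀ x ∈ P, u * x * u⁻¹ = p * x * p⁻¹ := by
  have hmul : ∀ a b : G, (∃ p ∈ P, ∀ x ∈ P, a * x * a⁻¹ = p * x * p⁻¹) →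
      (∃ p ∈ P, ∀ x ∈ P, b * x * b⁻¹ = p * x * p⁻¹) →
      (∃ p ∈ P, ∀ x ∈ P, (a * b) * x * (a * b)⁻¹ = p * x * p⁻¹) := by
    rintro a b ⟨p, hp, hpx⟩ ⟨q, hq, hqx⟩
    refine ⟨p * q, P.mul_mem hp hq, fun x hx => ?_⟩
    have h1 : (a * b) * x * (a * b)⁻¹ = a * (b * x * b⁻¹) * a⁻¹ := by group
    rw [h1, hqx x hx]
    have h2 : q * x * q⁻¹ ∈ P := P.mul_mem (P.mul_mem hq hx) (P.inv_mem hq)
    rw [hpx _ h2]
    group
  have hpow : ∀ (a : G), (∃ p ∈ P, ∀ x ∈ P, a * x * a⁻¹ = p * x * p⁻¹) → ∀ k : ℕ,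
      ∃ p ∈ P, ∀ x ∈ P, (a ^ k) * x * (a ^ k)⁻¹ = p * x * p⁻¹ := by
    intro a ha k
    induction k with
    | zero => exact ⟨1, P.one_mem, fun x _ => by simp⟩
    | succ k ih =>
      rw [pow_succ]
      exact hmul _ _ ih ha
  let W : Subgroup G :=
    { carrier := {u | ∃ p ∈ P, ∀ x ∈ P, u * x * u⁻¹ = p * x * p⁻¹}
      mul_mem' := fun {a b} ha hb => hmul a b ha hb
      one_mem' := ⟨1, P.one_mem, fun x _ => by simp⟩
      inv_mem' := by
        intro a ha
        have h1 : a⁻¹ = a ^ (orderOf a - 1) := by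
          apply inv_eq_of_mul_eq_one_left
          rw [← pow_succ]
          have h2 : orderOf a - 1 + 1 = orderOf a := Nat.sub_add_cancel (orderOf_pos a)
          rw [h2, pow_orderOf_eq_one]
        simp only [Set.mem_setOf_eq]
        rw [h1]
        exact hpow a ha _ }
  have hle : P ⊔ Subgroup.centralizer (P : Set G) ≤ W := by
    refine sup_le (fun p hp => ⟨p, hp, fun x _ => rfl⟩) (fun c hc => ⟨1, P.one_mem, fun x hx => ?_⟩)
    rw [Subgroup.mem_centralizer_iff] at hc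
    rw [← hc x hx]
    group
  exact hle hu

theorem s_cor' {H K A : Subgroup G} {s : G} (sA : ∀ x, s * x * s⁻¹ ∈ A ↔ x ∈ A)
    (sH : ∀ x, s * x * s⁻¹ ∈ K ↔ x ∈ H) (x : G) : s * x * s⁻¹ ∈ cor K A ↔ x ∈ cor H A := by
  have sinvH : ∀ x, s⁻¹ * x * s ∈ H ↔ x ∈ K := by
    intro x
    have := sH (s⁻¹ * x * s)
    have h2 : s * (s⁻¹ * x * s) * s⁻¹ = x := by group
    rw [h2] at this
    exact this.symm
  constructor
  · rintro ⟨h1, h2⟩
    refine ⟨(sH x).1 h1, fun k hk => ?_⟩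
    have := h2 (s * k * s⁻¹) ((sH k).2 hk)
    have h3 : s * k * s⁻¹ * (s * x * s⁻¹) * (s * k * s⁻¹)⁻¹ = s * (k * x * k⁻¹) * s⁻¹ := by group
    rw [h3] at this
    exact (sA _).1 this
  · rintro ⟨h1, h2⟩
    refine ⟨(sH x).2 h1, fun k hk => ?_⟩
    have := h2 (s⁻¹ * k * s) ((sinvH k).2 hk)
    have h3 : k * (s * x * s⁻¹) * k⁻¹ = s * (s⁻¹ * k * s * x * (s⁻¹ * k * s)⁻¹) * s⁻¹ := by group
    rw [h3]
    exact (sA _).2 this

theorem conj_eq_of_le [Finite G] {X : Subgroup G} {g : G} (h : ∀ x ∈ X, g * x * g⁻¹ ∈ X) :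
    MulAut.conj g • X = X := by
  rw [conj_smul_eq]
  apply Subgroup.eq_of_le_of_card_ge
  · intro x hx
    have h1 := h _ (mem_cj.1 hx)
    have h2 : g * (g⁻¹ * x * g) * g⁻¹ = x := by group
    rwa [h2] at h1
  · exact le_of_eq (Amal.card_transfer g (fun _ => conj_mem_cj))

theorem closure_conj_mem {S : Set G} {g : G} (h : ∀ x ∈ S, g * x * g⁻¹ ∈ Subgroup.closure S) :
    ∀ x ∈ Subgroup.closure S, g * x * g⁻¹ ∈ Subgroup.closure S := by
  intro x hx
  induction hx using Subgroup.closure_induction with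
  | mem x hx => exact h x hx
  | one => simp [Subgroup.one_mem]
  | mul x y _ _ h1 h2 =>
    have := Subgroup.mul_mem _ h1 h2
    convert this using 1; group
  | inv x _ h1 =>
    have := Subgroup.inv_mem _ h1
    convert this using 1; group

theorem normal_subgroupOf {H X : Subgroup G} (h : ∀ k ∈ H, ∀ x ∈ X, k * x * k⁻¹ ∈ X) :
    (X.subgroupOf H).Normal :=
  ⟨fun n hn g => Subgroup.mem_subgroupOf.2 (h g g.2 n (Subgroup.mem_subgroupOf.1 hn))⟩

/-- The structure. -/
theorem exists_da [Finite G] {H P : Subgroup G} (hPH : P ≤ H) {g : G}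
    (hg2 : g ^ 2 ∈ P ⊔ Subgroup.centralizer (P : Set G)) (hgN : MulAut.conj g • P = P)
    (hgQ : ∀ Q : Subgroup G, Q ≤ P → (Q.subgroupOf H).Normal → MulAut.conj g • Q = Q → Q = ⊥)
    {y₀ : G} (hy₀H : y₀ ∈ H) (hy₀o : Odd (orderOf y₀)) (hQi : (cor H P).relIndex P = 2)
    (hgen : Gen H P (cor H P) y₀) : DA H (cj g H) P g y₀ := by
  have hsA : ∀ x, g * x * g⁻¹ ∈ P ↔ x ∈ P := by
    intro x
    have := mem_conj_smul (g := g) (x := g * x * g⁻¹) (X := P)
    rw [hgN] at this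
    rw [this]
    have h2 : g⁻¹ * (g * x * g⁻¹) * g = x := by group
    rw [h2]
  have hsinvA : ∀ x, g⁻¹ * x * g ∈ P ↔ x ∈ P := by
    intro x
    have := mem_conj_smul (g := g) (x := x) (X := P)
    rw [hgN] at this
    exact this.symm
  have hsH : ∀ x, g * x * g⁻¹ ∈ cj g H ↔ x ∈ H := fun _ => conj_mem_cj
  have hAK : P ≤ cj g H := fun x hx => hPH ((hsinvA x).2 hx)
  obtain ⟨p, hpP, hp⟩ := inner_of_mem_sup hg2
  have hpH := hPH hpP
  have hsq : ∀ x ∈ P, g * (g * x * g⁻¹) * g⁻¹ = p * x * p⁻¹ := by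
    intro x hx
    rw [← hp x hx, pow_two]
    group
  have hsQ := s_cor' (A := P) (H := H) (K := cj g H) hsA hsH
  have hsQ' : ∀ x, g * x * g⁻¹ ∈ cor H P ↔ x ∈ cor (cj g H) P := by
    intro x
    constructor
    · intro h1
      have h2 : x ∈ P := (hsA x).1 (cor_le_A H P h1)
      have h3 : g⁻¹ * x * g ∈ P := (hsinvA x).2 h2
      have h4 := hsq _ h3
      have h5 : g * (g * (g⁻¹ * x * g) * g⁻¹) * g⁻¹ = g * x * g⁻¹ := by group
      rw [h5] at h4
      rw [h4] at h1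
      have h6 := cor_conj (H.inv_mem hpH) h1
      have h7 : p⁻¹ * (p * (g⁻¹ * x * g) * p⁻¹) * p⁻¹⁻¹ = g⁻¹ * x * g := by group
      rw [h7] at h6
      have h8 := (hsQ _).2 h6
      have h9 : g * (g⁻¹ * x * g) * g⁻¹ = x := by group
      rwa [h9] at h8
    · intro h1
      have h0 : g * (g⁻¹ * x * g) * g⁻¹ = x := by group
      have h2 : g⁻¹ * x * g ∈ cor H P := by
        rw [← hsQ, h0]
        exact h1
      have h3 := hsq _ (cor_le_A H P h2)
      have h5 : g * (g * (g⁻¹ * x * g) * g⁻¹) * g⁻¹ = g * x * g⁻¹ := by group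
      rw [h5] at h3
      rw [h3]
      exact cor_conj hpH h2
  have hsR : ∀ x, g * x * g⁻¹ ∈ cor H P ⊓ cor (cj g H) P ↔ x ∈ cor H P ⊓ cor (cj g H) P := by
    intro x
    rw [Subgroup.mem_inf, Subgroup.mem_inf, hsQ, hsQ', and_comm]
  refine ⟨hPH, hAK, hsA, hsH, hy₀H, hy₀o, hQi, hgen, ?_, ?_, ?_, ?_⟩
  · intro X hX h1 _ h3
    exact hgQ X hX (normal_subgroupOf h1) (conj_eq_of_le (fun x hx => (h3 x).2 hx))
  · intro h1 _
    exact hgQ _ (inf_le_left.trans (cor_le_A H P)) (normal_subgroupOf h1)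
      (conj_eq_of_le (fun x hx => (hsR x).2 hx))
  · intro h1 _
    refine hgQ _ ?_ (normal_subgroupOf h1) (conj_eq_of_le ?_)
    · rw [sqR, Subgroup.closure_le]
      rintro w ⟨r, hr, rfl⟩
      have hr' : r ∈ P := cor_le_A H P hr.1
      exact P.mul_mem hr' hr'
    · apply closure_conj_mem
      rintro w ⟨r, hr, rfl⟩
      apply Subgroup.subset_closure
      refine ⟨g * r * g⁻¹, (hsR r).2 hr, by group⟩
  · intro z hz h1 h2
    obtain ⟨z₁, hz₁⟩ : ∃ z₁, z₁ = g⁻¹ * z * g := ⟨_, rfl⟩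
    have hz₁P : z₁ ∈ P := by
      rw [hz₁]
      exact (hsinvA z).2 hz
    have hz₁c : ∀ k ∈ H, k * z₁ = z₁ * k := by
      intro k hk
      have h3 := h2 (g * k * g⁻¹) ((hsH k).2 hk)
      rw [hz₁]
      calc k * (g⁻¹ * z * g) = g⁻¹ * (g * k * g⁻¹ * z) * g := by group
        _ = g⁻¹ * (z * (g * k * g⁻¹)) * g := by rw [h3]
        _ = g⁻¹ * z * g * k := by group
    have hz' : g * z * g⁻¹ = z₁ := by
      have h3 := hsq _ hz₁P
      have h4 : g * (g * z₁ * g⁻¹) * g⁻¹ = g * z * g⁻¹ := by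
        rw [hz₁]; group
      rw [h4] at h3
      rw [h3, hz₁c p hpH]
      group
    have hz'' : g * z₁ * g⁻¹ = z := by
      rw [hz₁]; group
    have hclP : Subgroup.closure {z, z₁} ≤ P := by
      rw [Subgroup.closure_le]
      rintro w (rfl | rfl)
      · exact hz
      · exact hz₁P
    have hcln : ∀ k ∈ H, ∀ x ∈ Subgroup.closure {z, z₁},
        k * x * k⁻¹ ∈ Subgroup.closure ({z, z₁} : Set G) := by
      intro k hk
      apply closure_conj_mem
      rintro w (rfl | rfl)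
      · rw [h1 k hk, mul_assoc, mul_inv_cancel, mul_one]
        exact Subgroup.subset_closure (Set.mem_insert _ _)
      · rw [hz₁c k hk, mul_assoc, mul_inv_cancel, mul_one]
        exact Subgroup.subset_closure (Set.mem_insert_of_mem _ rfl)
    have hclg : ∀ x ∈ Subgroup.closure ({z, z₁} : Set G),
        g * x * g⁻¹ ∈ Subgroup.closure ({z, z₁} : Set G) := by
      apply closure_conj_mem
      rintro w (rfl | rfl)
      · rw [hz']
        exact Subgroup.subset_closure (Set.mem_insert_of_mem _ rfl)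
      · rw [hz'']
        exact Subgroup.subset_closure (Set.mem_insert _ _)
    have h3 := hgQ _ hclP (normal_subgroupOf hcln) (conj_eq_of_le hclg)
    have h4 : z ∈ Subgroup.closure ({z, z₁} : Set G) :=
      Subgroup.subset_closure (Set.mem_insert _ _)
    rw [h3] at h4
    exact h4

/-- Let H be a subgroup of a finite group G whose largest normal 2-subgroup O_2(H) is nontrivial and such that H/O_2(H) is a dihedral group of order at least 4. Let P be a Sylow 2-subgroup of H and S a Sylow 2-subgroup of G containing P. Suppose y ∈ S lies outside P, normalizes P, has y² in the product of P with the centralizer of P in G, and normalizes no non-identity normal subgroup of H contained in P. Then P has order 4, 8 or 16, and H modulo its largest normal subgroup of odd order is isomorphic to the four-group, to the symmetric group of degree 4, or to the direct product of the symmetric group of degree 4 with a group of order 2. -/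
theorem result {G : Type*} [Group G] [Finite G]
    (H : Subgroup G) (hO : Cfsg.pCore 2 ↥H ≠ ⊥) (n : ℕ) (hn : 2 ≤ n) (hdih : Nonempty (↥H ⧸ Cfsg.pCore 2 ↥H ≃* DihedralGroup n))
    (P : Subgroup G) (hPH : P ≤ H) (hP : IsPGroup 2 P) (hPsyl : ¬ 2 ∣ P.relIndex H)
    (S : Sylow 2 G) (hPS : P ≤ (S : Subgroup G)) (y : G) (hyS : y ∈ (S : Subgroup G)) (hyP : y ∉ P)
    (hy2 : y ^ 2 ∈ P ⊔ Subgroup.centralizer (P : Set G)) (hyN : MulAut.conj y • P = P)
    (hyQ : ∀ Q : Subgroup G, Q ≤ P → (Q.subgroupOf H).Normal → MulAut.conj y • Q = Q → Q = ⊥) :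
    (Nat.card P = 4 ∨ Nat.card P = 8 ∨ Nat.card P = 16) ∧
    (Nonempty (↥H ⧸ Cfsg.oddCore ↥H ≃* Multiplicative (ZMod 2) × Multiplicative (ZMod 2)) ∨
     Nonempty (↥H ⧸ Cfsg.oddCore ↥H ≃* Equiv.Perm (Fin 4)) ∨
     Nonempty (↥H ⧸ Cfsg.oddCore ↥H ≃* Equiv.Perm (Fin 4) × Multiplicative (ZMod 2))) := by
  obtain ⟨e⟩ := hdih
  haveI : Fact (Nat.Prime 2) := ⟨Nat.prime_two⟩
  obtain ⟨hnodd, hidx, hQi, hmem, y₀, hy₀H, hy₀o, hgen, hform⟩ :=
    dihedral_setup hPH hP hPsyl (by omega : n ≠ 0) e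
  have hDA := exists_da hPH hy2 hyN hyQ hy₀H hy₀o hQi hgen
  obtain ⟨t, ht⟩ := IsPGroup.iff_card.1 hP
  have htle := da_bound hDA ht
  have hQc := hDA.card_cor
  have hQ0 : cor H P ≠ ⊥ := by
    intro h0
    apply hO
    rw [eq_bot_iff]
    intro x hx
    have := (hmem x).2 hx
    rw [h0] at this
    exact Subtype.ext this
  have hQ1 : Nat.card (cor H P) ≠ 1 := fun h => hQ0 (Subgroup.card_eq_one.1 h)
  have hQpos : 0 < Nat.card (cor H P) := Nat.card_pos
  have hcases : t = 2 ∨ t = 3 ∨ t = 4 := by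
    rw [ht] at hQc
    interval_cases t <;> omega
  have hne := hDA.cor_ne_cor hQ0
  have hKdef : ∃ K, K = cj y H := ⟨_, rfl⟩
  obtain ⟨K, hK⟩ := hKdef
  rw [← hK] at hDA hne
  have hPK : P ≤ K := hDA.AK
  have hcen4 : 4 ≤ t → ∃ c ∈ P, (∀ k ∈ H, k * c = c * k) ∧ c ≠ 1 ∧ c * c = 1 := by
    intro hle
    by_contra hcon
    have hno : ∀ z ∈ P, (∀ k ∈ H, k * z = z * k) → z = 1 := by
      intro z hz hzc
      by_contra hz1
      obtain ⟨c, hcA, hcZ, hc1, hcsq⟩ := exists_central_involution ht hz hz1 hzc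
      exact hcon ⟨c, hcA, hcZ, hc1, hcsq⟩
    obtain ⟨t', ht', _, ht'3, _⟩ := fan_one_da hDA hno
    have h1 : t' = t := Nat.pow_right_injective (le_refl 2) (ht'.symm.trans ht)
    omega
  have hP' : Nat.card (P.subgroupOf H) = Nat.card P :=
    Nat.card_congr (Subgroup.subgroupOfEquivOfLe hPH).toEquiv
  rcases hcases with rfl | rfl | rfl
  · -- `|P| = 4`
    refine ⟨Or.inl (by rw [ht]; norm_num), Or.inl ?_⟩
    have hQc2 : Nat.card (cor H P) = 2 := by
      rw [ht] at hQc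
      omega
    obtain ⟨z, hz1, hzu⟩ := (Nat.card_eq_two_iff' (1 : cor H P)).1 hQc2
    have hzall : ∀ q ∈ cor H P, q = 1 ∨ q = (z : G) := by
      intro q hq
      by_cases hq1 : q = 1
      · exact Or.inl hq1
      · right
        have := hzu ⟨q, hq⟩ (fun hh => hq1 (congrArg Subtype.val hh))
        exact congrArg Subtype.val this
    have hz1' : (z : G) ≠ 1 := fun hh => hz1 (Subtype.ext hh)
    have hzQ' : (z : G) ∉ cor K P := by
      intro hh
      apply hne
      apply Subgroup.eq_of_le_of_card_ge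
      · intro q hq
        rcases hzall q hq with rfl | rfl
        · exact Subgroup.one_mem _
        · exact hh
      · rw [hDA.card_cor']
    have hzH : (z : G) ∈ H := cor_le_H H P z.2
    have hzZ : ∀ k ∈ H, k * (z : G) = z * k := by
      intro k hk
      rcases hzall _ (cor_conj hk z.2) with h1 | h1
      · exfalso
        apply hz1'
        have h2 : (z : G) = k⁻¹ * (k * z * k⁻¹) * k := by group
        rw [h2, h1]; group
      · calc k * (z : G) = k * z * k⁻¹ * k := by group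
          _ = z * k := by rw [h1]
    obtain ⟨ε, hε⟩ := exists_eps_odd (Γ := H) (A := P.subgroupOf H) (M := (cor K P).subgroupOf H)
      (c := ⟨z, hzH⟩)
      (fun x hx => cor_le_A K P (Subgroup.mem_subgroupOf.1 hx))
      (by rw [Subgroup.relIndex_subgroupOf hPH]; exact hDA.Qi') hPsyl
      (Subgroup.mem_subgroupOf.2 (cor_le_A H P z.2))
      (fun hh => hzQ' (Subgroup.mem_subgroupOf.1 hh))
      (fun g => Subtype.ext (hzZ g g.2))
    obtain ⟨σ, hσ⟩ := dih_sign e hnodd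
    refine quot_v4 (A := P.subgroupOf H) (by rw [hP', ht]; norm_num) hPsyl ε σ ?_
    intro a ha hεa hσa
    have haP : (a : G) ∈ P := Subgroup.mem_subgroupOf.1 ha
    have haQ : (a : G) ∈ cor H P := by
      by_contra haQ
      apply hσ a (fun hh => haQ ((hmem a).2 hh)) ?_ hσa
      exact (hmem (a * a)).1 (mul_mem_of_two hQi haP haP haQ haQ)
    rcases hzall _ haQ with h1 | h1
    · exact Subtype.ext h1
    · exfalso
      apply hε
      have h2 : a = ⟨z, hzH⟩ := Subtype.ext h1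
      rw [← h2]
      exact hεa
  · -- `|P| = 8`
    refine ⟨Or.inr (Or.inl (by rw [ht]; norm_num)), Or.inr (Or.inl ?_)⟩
    have hQ4 : Nat.card (cor H P) = 4 := by
      rw [ht] at hQc
      omega
    have hQab : ∀ p ∈ cor H P, ∀ q ∈ cor H P, p * q = q * p := by
      intro p hp q hq
      have h1 := IsPGroup.commutative_of_card_eq_prime_sq (p := 2) (G := cor H P)
        (by rw [hQ4]; norm_num) ⟨p, hp⟩ ⟨q, hq⟩
      exact congrArg Subtype.val h1
    have hRc : Nat.card (cor H P ⊓ cor K P : Subgroup G) = 2 := by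
      have := hDA.card_R hne
      rw [ht] at this
      omega
    have hmove : ∃ q ∈ cor H P, y₀ * q ≠ q * y₀ := by
      by_contra hcon
      push Not at hcon
      obtain ⟨r, hr1, hru⟩ := (Nat.card_eq_two_iff' (1 : (cor H P ⊓ cor K P : Subgroup G))).1 hRc
      have hr1' : (r : G) ≠ 1 := fun hh => hr1 (Subtype.ext hh)
      have hrQ : (r : G) ∈ cor H P := r.2.1
      have hrQ' : (r : G) ∈ cor K P := r.2.2
      have hrA : ∀ a ∈ P, a * (r : G) = r * a := by
        intro a ha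
        have h1 : a * (r : G) * a⁻¹ ∈ (cor H P ⊓ cor K P : Subgroup G) :=
          ⟨cor_conj (hDA.AH ha) hrQ, cor_conj (hDA.AK ha) hrQ'⟩
        have h2 : (⟨a * (r : G) * a⁻¹, h1⟩ : (cor H P ⊓ cor K P : Subgroup G)) = r := by
          apply hru
          intro hh
          apply hr1'
          have h3 := congrArg Subtype.val hh
          simp only [Subgroup.coe_one] at h3
          have h4 : (r : G) = a⁻¹ * (a * r * a⁻¹) * a := by group
          rw [h4, h3]; group
        have h3 := congrArg Subtype.val h2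
        simp only at h3
        calc a * (r : G) = a * r * a⁻¹ * a := by group
          _ = r * a := by rw [h3]
      obtain ⟨a₀, ha₀, ha₀Q⟩ := hDA.exists_a
      obtain ⟨a₁, ha₁, ha₁Q⟩ := hDA.exists_a'
      have hrH := hDA.gen.comm_y ha₀ ha₀Q hrA (hcon r hrQ)
      have hy'r : y * y₀ * y⁻¹ * (r : G) = r * (y * y₀ * y⁻¹) := by
        have h0 : y⁻¹ * (r : G) * y ∈ cor H P := (hDA.s_cor_inv _).2 hrQ'
        have h1 := hcon _ h0
        calc y * y₀ * y⁻¹ * (r : G) = y * (y₀ * (y⁻¹ * r * y)) * y⁻¹ := by group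
          _ = y * ((y⁻¹ * r * y) * y₀) * y⁻¹ := by rw [h1]
          _ = r * (y * y₀ * y⁻¹) := by group
      have hrK := hDA.gen'.comm_y ha₁ ha₁Q hrA hy'r
      exact hr1' (hDA.central _ (cor_le_A H P hrQ) hrH hrK)
    have hi : (⊥ : Subgroup G).relIndex (cor H P) = 4 := by
      have h1 := relIndex_mul_card (bot_le : (⊥ : Subgroup G) ≤ cor H P)
      rw [hQ4] at h1
      simpa using h1
    have hcube0 := cube_acts hi hy₀o (fun w hw => cor_conj hy₀H hw)
      (fun w hw => by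
        rw [Subgroup.mem_bot.1 hw]
        simp)
    have hcube : ∀ q ∈ cor H P, y₀ ^ 3 * q = q * y₀ ^ 3 := by
      intro w hw
      have h1 := Subgroup.mem_bot.1 (hcube0 w hw)
      have h2 : y₀ * (y₀ * (y₀ * w * y₀⁻¹) * y₀⁻¹) * y₀⁻¹ = w := by
        have h3 := inv_mul_eq_one.1 h1
        exact h3.symm
      calc y₀ ^ 3 * w = (y₀ * (y₀ * (y₀ * w * y₀⁻¹) * y₀⁻¹) * y₀⁻¹) * y₀ ^ 3 := by
            simp only [pow_succ, pow_zero, one_mul]
            group
        _ = w * y₀ ^ 3 := by rw [h2]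
    have hCL := cl_of_da hPH hPsyl ht hmem hQi hy₀H hy₀o hgen hform hQab hmove hcube
    exact hCL.quot_s4
  · -- `|P| = 16`
    refine ⟨Or.inr (Or.inr (by rw [ht]; norm_num)), Or.inr (Or.inr ?_)⟩
    obtain ⟨c, hcA, hcZ, hc1, hcsq⟩ := hcen4 le_rfl
    have hQ8 : Nat.card (cor H P) = 8 := by
      rw [ht] at hQc
      omega
    have hRc : Nat.card (cor H P ⊓ cor K P : Subgroup G) = 4 := by
      have := hDA.card_R hne
      rw [ht] at this
      omega
    have hR0 : cor H P ⊓ cor K P ≠ ⊥ := by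
      intro h0
      rw [h0] at hRc
      simp at hRc
    have hcen := hDA.cen_in_cor hR0
    have hZQ : Z0 P ≤ cor H P := fun z hz => hcen z hz.1 hz.2.1
    have hV5 := hDA.V_five hcA hcZ hc1 hcsq
    have hVQ := Vv_le_cor hZQ
    have hVeq : Vv H P = cor H P := by
      apply Subgroup.eq_of_le_of_card_ge hVQ
      have hd : Nat.card (Vv H P) ∣ 8 := by
        rw [← hQ8]; exact Subgroup.card_dvd_of_le hVQ
      have hle := Nat.le_of_dvd (by norm_num) hd
      rw [hQ8]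
      generalize Nat.card (Vv H P) = d at *
      interval_cases d <;> first | omega | (exfalso; revert hd; decide)
    have hQe : ∀ q ∈ cor H P, q * q = 1 := fun q hq => Vv_sq hZQ (by rw [hVeq]; exact hq)
    have hQa : ∀ p ∈ cor H P, ∀ q ∈ cor H P, p * q = q * p :=
      fun p hp q hq => Vv_comm (by rw [hVeq]; exact hp) hq
    have hpull : ∀ q ∈ cor K P, y⁻¹ * q * y ∈ cor H P := fun q hq => (hDA.s_cor_inv q).2 hq
    have hQ'e : ∀ q ∈ cor K P, q * q = 1 := by
      intro q hq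
      have h1 := hQe _ (hpull q hq)
      have h2 : q * q = y * ((y⁻¹ * q * y) * (y⁻¹ * q * y)) * y⁻¹ := by group
      rw [h2, h1]
      group
    have hQ'a : ∀ p ∈ cor K P, ∀ q ∈ cor K P, p * q = q * p := by
      intro p hp q hq
      have h1 := hQa _ (hpull p hp) _ (hpull q hq)
      calc p * q = y * ((y⁻¹ * p * y) * (y⁻¹ * q * y)) * y⁻¹ := by group
        _ = y * ((y⁻¹ * q * y) * (y⁻¹ * p * y)) * y⁻¹ := by rw [h1]
        _ = q * p := by group
    obtain ⟨M, hMA, hcM, hMi⟩ := hDA.exists_M hne hQe hQa hQ'e hQ'a hcA hcZ hc1 hcsq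
    obtain ⟨ε, hε⟩ := exists_eps_odd (Γ := H) (A := P.subgroupOf H) (M := M.subgroupOf H)
      (c := ⟨c, hPH hcA⟩)
      (fun x hx => hMA (Subgroup.mem_subgroupOf.1 hx))
      (by rw [Subgroup.relIndex_subgroupOf hPH]; exact hMi) hPsyl
      (Subgroup.mem_subgroupOf.2 hcA)
      (fun hh => hcM (Subgroup.mem_subgroupOf.1 hh))
      (fun g => Subtype.ext (hcZ g g.2))
    have hc'Q : y * c * y⁻¹ ∈ cor H P :=
      hZQ (hDA.sZ0 ⟨hcA, fun a ha => hcZ a (hPH ha), hcsq⟩)
    have hcQ : c ∈ cor H P := hcen c hcA (fun a ha => hcZ a (hPH ha))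
    have hmove : ∃ q ∈ cor H P, y₀ * q ≠ q * y₀ :=
      ⟨_, hc'Q, hDA.conj_move hcA hcZ hcsq hc1⟩
    have hzc : Nat.card (Subgroup.zpowers c) = 2 := by
      rw [Nat.card_zpowers]
      exact orderOf_eq_prime (by rw [pow_two]; exact hcsq) hc1
    have hXle : Subgroup.zpowers c ≤ cor H P := (Subgroup.zpowers_le).2 hcQ
    have hi : (Subgroup.zpowers c).relIndex (cor H P) = 4 := by
      have h1 := relIndex_mul_card hXle
      rw [hQ8, hzc] at h1
      omega
    have hXall : ∀ w ∈ Subgroup.zpowers c, w = 1 ∨ w = c := by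
      intro w hw
      obtain ⟨n, rfl⟩ := Subgroup.mem_zpowers_iff.1 hw
      rcases Int.even_or_odd' n with ⟨m, rfl | rfl⟩
      · left
        rw [zpow_mul, zpow_two, hcsq, one_zpow]
      · right
        rw [zpow_add, zpow_mul, zpow_two, hcsq, one_zpow, one_mul, zpow_one]
    have hyc : ∀ w ∈ Subgroup.zpowers c, y₀ * w * y₀⁻¹ = w := by
      intro w hw
      obtain ⟨n, rfl⟩ := Subgroup.mem_zpowers_iff.1 hw
      have h1 : Commute y₀ (c ^ n) := (show Commute y₀ c from hcZ y₀ hy₀H).zpow_right n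
      rw [h1.eq, mul_assoc, mul_inv_cancel, mul_one]
    have hcube0 := cube_acts hi hy₀o (fun w hw => cor_conj hy₀H hw)
      (fun w hw => by
        rw [hyc w hw]
        exact hw)
    have hcube : ∀ q ∈ cor H P, y₀ ^ 3 * q = q * y₀ ^ 3 := by
      intro w hw
      have h1 : ∀ v ∈ cor H P, y₀ ^ 3 * v * (y₀ ^ 3)⁻¹ = v ∨ y₀ ^ 3 * v * (y₀ ^ 3)⁻¹ = v * c := by
        intro v hv
        have h2 : y₀ ^ 3 * v * (y₀ ^ 3)⁻¹ = y₀ * (y₀ * (y₀ * v * y₀⁻¹) * y₀⁻¹) * y₀⁻¹ := by
          simp only [pow_succ, pow_zero, one_mul]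
          group
        rw [h2]
        rcases hXall _ (hcube0 v hv) with h3 | h3
        · left
          exact (inv_mul_eq_one.1 h3).symm
        · right
          have h4 := inv_mul_eq_iff_eq_mul.1 h3
          exact h4
      have hcu : y₀ ^ 3 * c * (y₀ ^ 3)⁻¹ = c := by
        have h1 : Commute (y₀ ^ 3) c := (show Commute y₀ c from hcZ y₀ hy₀H).pow_left 3
        rw [h1.eq, mul_assoc, mul_inv_cancel, mul_one]
      have h5 : y₀ ^ 3 * y₀ ^ 3 * w * (y₀ ^ 3 * y₀ ^ 3)⁻¹ = w := by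
        have h6 : y₀ ^ 3 * y₀ ^ 3 * w * (y₀ ^ 3 * y₀ ^ 3)⁻¹
            = y₀ ^ 3 * (y₀ ^ 3 * w * (y₀ ^ 3)⁻¹) * (y₀ ^ 3)⁻¹ := by group
        rw [h6]
        rcases h1 w hw with h7 | h7
        · rw [h7]
          rcases h1 w hw with h8 | h8
          · exact h8
          · exact h7
        · rw [h7]
          have h8 : y₀ ^ 3 * (w * c) * (y₀ ^ 3)⁻¹
              = (y₀ ^ 3 * w * (y₀ ^ 3)⁻¹) * (y₀ ^ 3 * c * (y₀ ^ 3)⁻¹) := by group
          rw [h8, hcu, h7, mul_assoc, hcsq, mul_one]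
      have h6 : Commute (y₀ ^ 3 * y₀ ^ 3) w := by
        calc y₀ ^ 3 * y₀ ^ 3 * w
            = (y₀ ^ 3 * y₀ ^ 3 * w * (y₀ ^ 3 * y₀ ^ 3)⁻¹) * (y₀ ^ 3 * y₀ ^ 3) := by group
          _ = w * (y₀ ^ 3 * y₀ ^ 3) := by rw [h5]
      have hodd3 : Odd (orderOf (y₀ ^ 3)) := Odd.of_dvd_nat hy₀o (orderOf_dvd_of_pow_eq_one
        (by rw [← pow_mul, mul_comm, pow_mul, pow_orderOf_eq_one, one_pow]))
      obtain ⟨j, hj⟩ := hodd3
      have hyy : (y₀ ^ 3 * y₀ ^ 3) ^ (j + 1) = y₀ ^ 3 := by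
        have h9 : (y₀ ^ 3) ^ (2 * j + 1) = 1 := by rw [← hj]; exact pow_orderOf_eq_one _
        rw [← pow_two, ← pow_mul]
        have h10 : 2 * (j + 1) = (2 * j + 1) + 1 := by ring
        rw [h10, pow_succ, h9, one_mul]
      have h7 := (h6.pow_left (j + 1)).eq
      rwa [hyy] at h7
    have hCL := cl_of_da hPH hPsyl ht hmem hQi hy₀H hy₀o hgen hform hQa hmove hcube
    exact hCL.quot_s4z2 (c := ⟨c, hPH hcA⟩) ((hmem _).1 hcQ)
      (fun g => Subtype.ext (hcZ g g.2)) (fun hh => hc1 (congrArg Subtype.val hh))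
      (Subtype.ext hcsq) ε hε

end Cfsg.Agent.S4385
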