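import Cfsg.Statements.S4387
import Mathlib.GroupTheory.Sylow
import Mathlib.GroupTheory.SpecificGroups.Cyclic
import Mathlib.Order.Atoms
import Mathlib.Algebra.IsPrimePow

set_option autoImplicit false
open Pointwise
open Cfsg

namespace Cfsg.Agent.S4387

lemma exists_not_mem_conj {G : Type*} [Group G] [Finite G] (M : Subgroup G) (hM : M ≠ ⊤) :
    ∃ x : G, ∀ g : G, g⁻¹ * x * g ∉ M := by
  classical
  by_contra hcon
  have hcon' : ∀ x : G, ∃ g : G, g⁻¹ * x * g ∈ M := by
    intro x
    by_contra hx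
    exact hcon ⟨x, fun g hg => hx ⟨g, hg⟩⟩
  let f : (G ⧸ M) × M → G := fun c => c.1.out * (c.2 : G) * c.1.out⁻¹
  have hf : Function.Surjective f := by
    intro x
    obtain ⟨g, hg⟩ := hcon' x
    obtain ⟨h, hh⟩ := QuotientGroup.mk_out_eq_mul M g
    refine ⟨(((g : G) : G ⧸ M), ⟨(h : G)⁻¹ * (g⁻¹ * x * g) * h, ?_⟩), ?_⟩
    · exact M.mul_mem (M.mul_mem (M.inv_mem h.2) hg) h.2
    · simp only [f]
      rw [hh]
      group
  have hcard : Nat.card G = Nat.card ((G ⧸ M) × M) := by
    rw [Nat.card_prod]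
    exact (Subgroup.card_eq_card_quotient_mul_card_subgroup M)
  have hinj : Function.Injective f := by
    have := Fintype.ofFinite G
    have := Fintype.ofFinite ((G ⧸ M) × M)
    rw [Nat.card_eq_fintype_card, Nat.card_eq_fintype_card] at hcard
    exact ((Fintype.bijective_iff_surjective_and_card f).mpr ⟨hf, hcard.symm⟩).1
  have hsub : Subsingleton (G ⧸ M) := by
    refine ⟨fun c d => ?_⟩
    have : f (c, 1) = f (d, 1) := by simp [f]
    exact (Prod.ext_iff.mp (hinj this)).1
  exact hM (QuotientGroup.subgroup_eq_top_of_subsingleton M hsub)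

/-- Let G be a non-trivial finite group in which any two maximal subgroups are conjugate. Then G is cyclic of prime-power order. -/
theorem result {G : Type*} [Group G] [Finite G] [Nontrivial G]
    (h : ∀ M N : Subgroup G, IsCoatom M → IsCoatom N → ∃ g : G, N = MulAut.conj g • M) :
    IsCyclic G ∧ IsPrimePow (Nat.card G) := by
  classical
  obtain ⟨M, hM⟩ : ∃ M : Subgroup G, IsCoatom M := by
    rcases eq_top_or_exists_le_coatom (⊥ : Subgroup G) with h0 | ⟨M, hM, _⟩
    · exact absurd h0 bot_ne_top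
    · exact ⟨M, hM⟩
  obtain ⟨x, hx⟩ := exists_not_mem_conj M hM.1
  have hx_top : Subgroup.zpowers x = ⊤ := by
    rcases eq_top_or_exists_le_coatom (Subgroup.zpowers x) with h0 | ⟨N, hN, hle⟩
    · exact h0
    · exfalso
      obtain ⟨g, hg⟩ := h M N hM hN
      have hxN : x ∈ N := hle (Subgroup.mem_zpowers x)
      rw [hg, Subgroup.mem_pointwise_smul_iff_inv_smul_mem] at hxN
      apply hx g
      simpa [MulAut.smul_def] using hxN
  have hcyc : IsCyclic G := ⟨⟨x, fun y => by
    have : y ∈ Subgroup.zpowers x := by rw [hx_top]; exact Subgroup.mem_top y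
    exact this⟩⟩
  refine ⟨hcyc, ?_⟩
  have := hcyc
  have hcomm : ∀ a b : G, a * b = b * a := fun a b => (IsCyclic.isMulCommutative (α := G)).is_comm.comm a b
  -- every proper subgroup lies in M
  have hall : ∀ K : Subgroup G, K ≠ ⊤ → K ≤ M := by
    intro K hK
    rcases eq_top_or_exists_le_coatom K with h0 | ⟨N, hN, hle⟩
    · exact absurd h0 hK
    · obtain ⟨g, hg⟩ := h M N hM hN
      intro y hy
      have hyN := hle hy
      rw [hg, Subgroup.mem_pointwise_smul_iff_inv_smul_mem] at hyN
      have : (MulAut.conj g)⁻¹ • y = y := by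
        simp only [MulAut.smul_def, MulAut.conj_inv_apply]
        rw [hcomm g⁻¹ y, mul_assoc, inv_mul_cancel, mul_one]
      rwa [this] at hyN
  have hone : 1 < Nat.card G := Finite.one_lt_card
  have hxM : x ∉ M := by
    intro hxM
    apply hx 1
    simpa using hxM
  have hx_ord : orderOf x = Nat.card G := by
    rw [← Nat.card_zpowers, hx_top, Nat.card_congr Subgroup.topEquiv.toEquiv]
  -- x ^ p ∈ M for each prime p dividing |G|
  have hxp : ∀ p : ℕ, p.Prime → p ∣ Nat.card G → x ^ p ∈ M := by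
    intro p hp hpd
    apply hall (Subgroup.zpowers (x ^ p)) _ (Subgroup.mem_zpowers _)
    intro htop
    have h1 : orderOf (x ^ p) = Nat.card G := by
      rw [← Nat.card_zpowers, htop, Nat.card_congr Subgroup.topEquiv.toEquiv]
    have h2 := orderOf_pow' x hp.ne_zero
    rw [h1, hx_ord, Nat.gcd_eq_right hpd] at h2
    have hpos : 0 < Nat.card G := Finite.card_pos
    have h3 : Nat.card G / p < Nat.card G := Nat.div_lt_self hpos hp.one_lt
    omega
  rw [isPrimePow_iff_unique_prime_dvd]
  refine ⟨(Nat.card G).minFac, ⟨Nat.minFac_prime (by omega), Nat.minFac_dvd _⟩, ?_⟩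
  rintro q ⟨hq, hqd⟩
  by_contra hne
  have hp := Nat.minFac_prime (n := Nat.card G) (by omega)
  have hcop : IsCoprime (q : ℤ) ((Nat.card G).minFac : ℤ) :=
    Nat.isCoprime_iff_coprime.mpr ((Nat.coprime_primes hq hp).mpr hne)
  obtain ⟨u, v, huv⟩ := hcop
  apply hxM
  have : x = (x ^ q) ^ u * (x ^ (Nat.card G).minFac) ^ v := by
    rw [← zpow_natCast, ← zpow_natCast, ← zpow_mul, ← zpow_mul, ← zpow_add]
    have : (q : ℤ) * u + ((Nat.card G).minFac : ℤ) * v = 1 := by linarith
    rw [this, zpow_one]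
  rw [this]
  exact M.mul_mem (M.zpow_mem (hxp q hq hqd) _) (M.zpow_mem (hxp _ hp (Nat.minFac_dvd _)) _)

end Cfsg.Agent.S4387
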