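import Cfsg.Statements.S4400
import Cfsg.Agent.Lib.PGroups.Basic
import Cfsg.Agent.Lib.Solvable.Hall

set_option autoImplicit false
open Cfsg

namespace Cfsg.Agent.S4400

open Subgroup
open scoped commutatorElement

lemma center_le_frattini {T : Type*} [Group T] [Finite T] (hT : IsPGroup 2 T)
    (hna : ¬ IsMulCommutative T) (hZ : Nat.card (center T) = 2) : center T ≤ frattini T := by
  haveI : Fact (Nat.Prime 2) := ⟨Nat.prime_two⟩
  have hne : commutator T ≠ ⊥ := by
    intro h
    apply hna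
    refine ⟨⟨fun a b => ?_⟩⟩
    have h1 : ⁅a, b⁆ ∈ commutator T := Subgroup.commutator_mem_commutator (Subgroup.mem_top a) (Subgroup.mem_top b)
    rw [h, Subgroup.mem_bot, commutatorElement_eq_one_iff_mul_comm] at h1
    exact h1
  obtain ⟨z, hz, hzc, hzo⟩ := Cfsg.Agent.Lib.PGroups.Basic.exists_central_orderOf_eq hT (commutator T) hne
  have h1 : zpowers z = center T := by
    apply Subgroup.eq_of_le_of_card_ge
    · rwa [Subgroup.zpowers_le]
    · rw [Nat.card_zpowers, hzo, hZ]
  rw [← h1, Subgroup.zpowers_le]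
  exact Cfsg.Agent.Lib.PGroups.Basic.commutator_le_frattini hT hz

lemma four_le_index_frattini {T : Type*} [Group T] [Finite T] (hT : IsPGroup 2 T)
    (hna : ¬ IsMulCommutative T) : 4 ≤ (frattini T).index := by
  classical
  haveI : Fact (Nat.Prime 2) := ⟨Nat.prime_two⟩
  have hnt : Nontrivial T := by
    by_contra hcon
    rw [not_nontrivial_iff_subsingleton] at hcon
    exact hna ⟨⟨fun a b => Subsingleton.elim _ _⟩⟩
  obtain ⟨M₁, hM₁⟩ : ∃ M : Subgroup T, IsCoatom M := by
    rcases eq_top_or_exists_le_coatom (⊥ : Subgroup T) with h0 | ⟨M, hM, _⟩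
    · exact absurd h0 bot_ne_top
    · exact ⟨M, hM⟩
  obtain ⟨x, hx⟩ : ∃ x, x ∉ M₁ := by
    by_contra hcon
    apply hM₁.1
    rw [eq_top_iff]
    intro y _
    by_contra hy
    exact hcon ⟨y, hy⟩
  have hztop : zpowers x ≠ ⊤ := by
    intro h
    apply hna
    have hcyc : IsCyclic T := ⟨⟨x, fun y => by
      have : y ∈ zpowers x := by rw [h]; exact Subgroup.mem_top y
      exact this⟩⟩
    exact IsCyclic.isMulCommutative
  obtain ⟨M₂, hM₂, hle⟩ : ∃ M, IsCoatom M ∧ zpowers x ≤ M := by
    rcases eq_top_or_exists_le_coatom (zpowers x) with h0 | ⟨M, hM, hle⟩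
    · exact absurd h0 hztop
    · exact ⟨M, hM, hle⟩
  have hne : M₁ ≠ M₂ := by
    rintro rfl
    exact hx (hle (mem_zpowers x))
  have hMM : ¬ M₁ ≤ M₂ := by
    intro h
    rcases h.lt_or_eq with h1 | h1
    · exact hM₁.2 _ h1 |> fun h2 => hM₂.1 h2
    · exact hne h1
  have h1 : M₂.relIndex M₁ ≠ 1 := by
    intro h
    rw [Subgroup.relIndex_eq_one] at h
    exact hMM h
  have h2 : M₂.relIndex M₁ ≠ 0 := by
    show (M₂.subgroupOf M₁).index ≠ 0
    exact Subgroup.index_ne_zero_of_finite
  have h3 : M₁.index ≠ 1 := by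
    intro h
    rw [Subgroup.index_eq_one] at h
    exact hM₁.1 h
  have h4 : M₁.index ≠ 0 := Subgroup.index_ne_zero_of_finite
  have h5 : (M₂ ⊓ M₁).relIndex M₁ * M₁.index = (M₂ ⊓ M₁).index :=
    Subgroup.relIndex_mul_index inf_le_right
  rw [Subgroup.inf_relIndex_right] at h5
  have h6 : 2 * 2 ≤ (M₂ ⊓ M₁).index := by
    rw [← h5]
    exact Nat.mul_le_mul (by omega) (by omega)
  have h7 : frattini T ≤ M₂ ⊓ M₁ := le_inf (frattini_le_coatom hM₂) (frattini_le_coatom hM₁)
  have h8 := Subgroup.index_dvd_of_le h7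
  have h9 := Nat.le_of_dvd (Nat.pos_of_ne_zero Subgroup.index_ne_zero_of_finite) h8
  omega

/-- Let S be a finite 2-group of sectional 2-rank at most 4, and let P and Q be normal non-abelian subgroups of S whose centres have order 2 and are different. Then P and Q commute elementwise and intersect trivially, and PQ contains its own centralizer in S. -/
theorem result {S : Type*} [Group S] [Finite S] (h2 : IsPGroup 2 S) (hr : Cfsg.SectionalPRankLE 2 4 S)
    (P Q : Subgroup S) [P.Normal] [Q.Normal] (hP : ¬ IsMulCommutative ↥P) (hQ : ¬ IsMulCommutative ↥Q)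
    (hZP : Nat.card ↥(Subgroup.center ↥P) = 2) (hZQ : Nat.card ↥(Subgroup.center ↥Q) = 2)
    (hne : (Subgroup.center ↥P).map P.subtype ≠ (Subgroup.center ↥Q).map Q.subtype) :
    ⁅P, Q⁆ = ⊥ ∧ P ⊓ Q = ⊥ ∧ Subgroup.centralizer ((P ⊔ Q : Subgroup S) : Set S) ≤ P ⊔ Q := by
  classical
  haveI : Fact (Nat.Prime 2) := ⟨Nat.prime_two⟩
  have hPp : IsPGroup 2 P := h2.to_subgroup P
  have hQp : IsPGroup 2 Q := h2.to_subgroup Q
  -- a nontrivial normal subgroup inside `X` meets the centre of `X`
  have hmeet : ∀ (X : Subgroup S) [X.Normal], Nat.card ↥(Subgroup.center ↥X) = 2 → P ⊓ Q ≠ ⊥ →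
      P ⊓ Q ≤ X → (Subgroup.center ↥X).map X.subtype ≤ P ⊓ Q := by
    intro X hX hZX hPQ hle
    have hne' : (P ⊓ Q).subgroupOf X ≠ ⊥ := by
      intro h
      apply hPQ
      rw [eq_bot_iff]
      intro x hx
      have : (⟨x, hle hx⟩ : X) ∈ (P ⊓ Q).subgroupOf X := hx
      rw [h, Subgroup.mem_bot] at this
      exact Subgroup.mem_bot.mpr (congrArg Subtype.val this)
    haveI : ((P ⊓ Q).subgroupOf X).Normal := Subgroup.normal_subgroupOf
    obtain ⟨z, hz, hzc, hzo⟩ := Cfsg.Agent.Lib.PGroups.Basic.exists_central_orderOf_eq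
      (h2.to_subgroup X) ((P ⊓ Q).subgroupOf X) hne'
    have h1 : zpowers z = center X := by
      apply Subgroup.eq_of_le_of_card_ge
      · rwa [Subgroup.zpowers_le]
      · rw [Nat.card_zpowers, hzo, hZX]
    rintro _ ⟨w, hw, rfl⟩
    rw [SetLike.mem_coe, ← h1] at hw
    obtain ⟨i, rfl⟩ := hw
    simp only [Subgroup.subtype_apply, Subgroup.coe_zpow]
    exact Subgroup.zpow_mem _ hz i
  -- central elements
  have hcentral : ∀ (X : Subgroup S) [X.Normal], Nat.card ↥(Subgroup.center ↥X) = 2 →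
      ∀ z ∈ (Subgroup.center ↥X).map X.subtype, ∀ g : S, g * z = z * g := by
    intro X hX hZX z hz g
    have hn : ((Subgroup.center ↥X).map X.subtype).Normal := inferInstance
    by_cases hz1 : z = 1
    · rw [hz1, mul_one, one_mul]
    have h1 : g * z * g⁻¹ ∈ (Subgroup.center ↥X).map X.subtype := hn.conj_mem z hz g
    have hcard : Nat.card ((Subgroup.center ↥X).map X.subtype) = 2 := by
      rw [Subgroup.card_map_of_injective X.subtype_injective, hZX]
    have h3 : g * z * g⁻¹ ≠ 1 := by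
      intro h
      apply hz1
      have : z = g⁻¹ * (g * z * g⁻¹) * g := by group
      rw [this, h]; group
    -- a group of order 2 has only one nontrivial element
    have h4 : g * z * g⁻¹ = z := by
      have h5 := Nat.card_eq_two_iff.mp hcard
      obtain ⟨⟨u, hu⟩, ⟨v, hv⟩, huv, huniv⟩ := h5
      have hmem : ∀ w (hw : w ∈ (Subgroup.center ↥X).map X.subtype), w = u ∨ w = v := by
        intro w hw
        have : (⟨w, hw⟩ : ((Subgroup.center ↥X).map X.subtype)) ∈
            ({⟨u, hu⟩, ⟨v, hv⟩} : Set ((Subgroup.center ↥X).map X.subtype)) := by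
          rw [huniv]; exact Set.mem_univ _
        rcases this with h | h
        · left; exact congrArg Subtype.val h
        · right; exact congrArg Subtype.val h
      have hone := hmem 1 (Subgroup.one_mem _)
      rcases hmem z hz with hzu | hzv
      · rcases hmem _ h1 with h | h
        · rw [h, hzu]
        · rcases hone with h6 | h6
          · exact absurd (hzu.trans h6.symm) hz1
          · exact absurd (h.trans h6.symm) h3
      · rcases hmem _ h1 with h | h
        · rcases hone with h6 | h6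
          · exact absurd (h.trans h6.symm) h3
          · exact absurd (hzv.trans h6.symm) hz1
        · rw [h, hzv]
    calc g * z = g * z * g⁻¹ * g := by group
      _ = z * g := by rw [h4]
  have hinf : P ⊓ Q = ⊥ := by
    by_contra hcon
    apply hne
    have h1 := hmeet P hZP hcon inf_le_left
    have h3 := hmeet Q hZQ hcon inf_le_right
    -- Z(Q) ≤ Z(P)
    have h4 : (Subgroup.center ↥Q).map Q.subtype ≤ (Subgroup.center ↥P).map P.subtype := by
      intro z hz
      have hzP : z ∈ P := (h3 hz).1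
      refine ⟨⟨z, hzP⟩, ?_, rfl⟩
      rw [SetLike.mem_coe, Subgroup.mem_center_iff]
      rintro ⟨g, hg⟩
      apply Subtype.ext
      exact hcentral Q hZQ z hz g
    symm
    apply Subgroup.eq_of_le_of_card_ge h4
    rw [Subgroup.card_map_of_injective P.subtype_injective,
      Subgroup.card_map_of_injective Q.subtype_injective, hZP, hZQ]
  have hcomm : ⁅P, Q⁆ = ⊥ := by
    rw [eq_bot_iff, ← hinf]
    exact Subgroup.commutator_le_inf P Q
  have hPQc : ∀ a ∈ P, ∀ b ∈ Q, a * b = b * a := by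
    intro a ha b hb
    have h1 : ⁅a, b⁆ ∈ ⁅P, Q⁆ := Subgroup.commutator_mem_commutator ha hb
    rw [hcomm, Subgroup.mem_bot, commutatorElement_eq_one_iff_mul_comm] at h1
    exact h1
  refine ⟨hcomm, hinf, ?_⟩
  -- the third part
  by_contra hcent
  obtain ⟨y, hyC, hyPQ⟩ : ∃ y, y ∈ Subgroup.centralizer ((P ⊔ Q : Subgroup S) : Set S) ∧ y ∉ P ⊔ Q := by
    by_contra hcon
    apply hcent
    intro y hy
    by_contra hy'
    exact hcon ⟨y, hy, hy'⟩
  obtain ⟨r, hr'⟩ := h2 y
  have hex : ∃ i, y ^ 2 ^ i ∈ P ⊔ Q := ⟨r, by rw [hr']; exact Subgroup.one_mem _⟩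
  have h0 : Nat.find hex ≠ 0 := by
    intro h
    have := Nat.find_spec hex
    rw [h] at this
    simp only [pow_zero, pow_one] at this
    exact hyPQ this
  obtain ⟨i, hi⟩ := Nat.exists_eq_succ_of_ne_zero h0
  have hmin : ¬ y ^ 2 ^ i ∈ P ⊔ Q := Nat.find_min hex (by omega)
  have hsp : y ^ 2 ^ (i + 1) ∈ P ⊔ Q := by
    have := Nat.find_spec hex
    rw [hi] at this
    exact this
  set x := y ^ 2 ^ i with hxdef
  have hxC : x ∈ Subgroup.centralizer ((P ⊔ Q : Subgroup S) : Set S) := Subgroup.pow_mem _ hyC _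
  have hxPQ : x ^ 2 ∈ P ⊔ Q := by
    rw [hxdef, ← pow_mul, ← pow_succ]
    exact hsp
  have hxcomm : ∀ u ∈ P ⊔ Q, u * x = x * u := fun u hu => Subgroup.mem_centralizer_iff.mp hxC u hu
  let Pf : Subgroup S := (frattini ↥P).map P.subtype
  let Qf : Subgroup S := (frattini ↥Q).map Q.subtype
  have hPfn : Pf.Normal := inferInstance
  have hQfn : Qf.Normal := inferInstance
  have hPfP : Pf ≤ P := by
    rintro _ ⟨w, -, rfl⟩
    exact w.2
  have hQfQ : Qf ≤ Q := by
    rintro _ ⟨w, -, rfl⟩
    exact w.2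
  let D : Subgroup S := Pf ⊔ Qf
  have hDn : D.Normal := Subgroup.sup_normal Pf Qf
  have hsqP : ∀ a ∈ P, a ^ 2 ∈ Pf := by
    intro a ha
    refine ⟨⟨a, ha⟩ ^ 2, Cfsg.Agent.Lib.PGroups.Basic.pow_mem_frattini hPp _, ?_⟩
    simp
  have hsqQ : ∀ a ∈ Q, a ^ 2 ∈ Qf := by
    intro a ha
    refine ⟨⟨a, ha⟩ ^ 2, Cfsg.Agent.Lib.PGroups.Basic.pow_mem_frattini hQp _, ?_⟩
    simp
  -- x² ∈ D
  have hx2D : x ^ 2 ∈ D := by
    have h3 := hxPQ
    rw [← SetLike.mem_coe, Subgroup.mul_normal, Set.mem_mul] at h3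
    obtain ⟨a, ha, b, hb, hab⟩ := h3
    have hxx : ∀ u ∈ P ⊔ Q, u * x ^ 2 = x ^ 2 * u := by
      intro u hu
      exact (Commute.pow_right (hxcomm u hu) 2).eq
    have haZ : a ∈ Pf := by
      have hzc : (⟨a, ha⟩ : P) ∈ center P := by
        rw [Subgroup.mem_center_iff]
        rintro ⟨u, hu⟩
        apply Subtype.ext
        show u * a = a * u
        have h5 := hxx u (Subgroup.mem_sup_left hu)
        rw [← hab] at h5
        have h6 : u * b = b * u := hPQc u hu b hb
        have h7 : (u * a) * b = (a * u) * b := by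
          calc (u * a) * b = u * (a * b) := by group
            _ = (a * b) * u := h5
            _ = a * (b * u) := by group
            _ = a * (u * b) := by rw [h6]
            _ = (a * u) * b := by group
        exact mul_right_cancel h7
      exact ⟨_, center_le_frattini hPp hP hZP hzc, rfl⟩
    have hbZ : b ∈ Qf := by
      have hzc : (⟨b, hb⟩ : Q) ∈ center Q := by
        rw [Subgroup.mem_center_iff]
        rintro ⟨u, hu⟩
        apply Subtype.ext
        show u * b = b * u
        have h5 := hxx u (Subgroup.mem_sup_right hu)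
        rw [← hab] at h5
        have h6 : a * u = u * a := hPQc a ha u hu
        have h7 : a * (u * b) = a * (b * u) := by
          calc a * (u * b) = (a * u) * b := by group
            _ = (u * a) * b := by rw [h6]
            _ = u * (a * b) := by group
            _ = (a * b) * u := h5
            _ = a * (b * u) := by group
        exact mul_left_cancel h7
      exact ⟨_, center_le_frattini hQp hQ hZQ hzc, rfl⟩
    rw [← hab]
    exact Subgroup.mul_mem _ (Subgroup.mem_sup_left haZ) (Subgroup.mem_sup_right hbZ)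
  -- the big section
  let R : Subgroup S := zpowers x ⊔ (P ⊔ Q)
  have hDR : D ≤ R := (sup_le_sup hPfP hQfQ).trans le_sup_right
  have hsqR : ∀ r ∈ R, r ^ 2 ∈ D := by
    intro r hr0
    rw [← SetLike.mem_coe, Subgroup.mul_normal, Set.mem_mul] at hr0
    obtain ⟨u, hu, w, hw, rfl⟩ := hr0
    have hw' : w ∈ P ⊔ Q := hw
    rw [← SetLike.mem_coe, Subgroup.mul_normal, Set.mem_mul] at hw'
    obtain ⟨a, ha, b, hb, rfl⟩ := hw'
    obtain ⟨j, rfl⟩ := hu
    have hc1 : Commute (x ^ j) (a * b) := ((Commute.zpow_left (hxcomm _ hw).symm j))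
    have hc2 : Commute a b := hPQc a ha b hb
    show (x ^ j * (a * b)) ^ 2 ∈ D
    rw [hc1.mul_pow, hc2.mul_pow]
    refine Subgroup.mul_mem _ ?_ (Subgroup.mul_mem _ (Subgroup.mem_sup_left (hsqP a ha))
      (Subgroup.mem_sup_right (hsqQ b hb)))
    rw [← zpow_natCast, ← zpow_mul, mul_comm, zpow_mul, zpow_natCast]
    exact Subgroup.zpow_mem _ hx2D _
  -- counting
  have hcP : Nat.card (P ⊔ Q : Subgroup S) = Nat.card P * Nat.card Q := by
    have := Cfsg.Agent.Lib.Solvable.Hall.card_sup_mul_card_inf P Q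
    rw [hinf, Subgroup.card_bot, mul_one] at this
    exact this
  have hcD : Nat.card D = Nat.card Pf * Nat.card Qf := by
    have := Cfsg.Agent.Lib.Solvable.Hall.card_sup_mul_card_inf Pf Qf
    have h3 : Pf ⊓ Qf = ⊥ := by
      rw [eq_bot_iff, ← hinf]
      exact inf_le_inf hPfP hQfQ
    rw [h3, Subgroup.card_bot, mul_one] at this
    exact this
  have hP4 : 4 * Nat.card Pf ≤ Nat.card P := by
    have h3 := four_le_index_frattini hPp hP
    have h4 := Subgroup.index_mul_card (frattini ↥P)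
    have h5 : Nat.card Pf = Nat.card (frattini ↥P) := Subgroup.card_map_of_injective P.subtype_injective
    rw [h5, ← h4]
    exact Nat.mul_le_mul_right _ h3
  have hQ4 : 4 * Nat.card Qf ≤ Nat.card Q := by
    have h3 := four_le_index_frattini hQp hQ
    have h4 := Subgroup.index_mul_card (frattini ↥Q)
    have h5 : Nat.card Qf = Nat.card (frattini ↥Q) := Subgroup.card_map_of_injective Q.subtype_injective
    rw [h5, ← h4]
    exact Nat.mul_le_mul_right _ h3
  have hR2 : 2 * Nat.card (P ⊔ Q : Subgroup S) ≤ Nat.card R := by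
    have hle : P ⊔ Q ≤ R := le_sup_right
    have h3 := Subgroup.relIndex_mul_relIndex (⊥ : Subgroup S) (P ⊔ Q) R bot_le hle
    rw [Subgroup.relIndex_bot_left, Subgroup.relIndex_bot_left] at h3
    rw [← h3, mul_comm]
    apply Nat.mul_le_mul_left
    have h4 : (P ⊔ Q).relIndex R ≠ 1 := by
      intro h
      rw [Subgroup.relIndex_eq_one] at h
      exact hmin (h (Subgroup.mem_sup_left (mem_zpowers x)))
    have h5 : (P ⊔ Q).relIndex R ≠ 0 := by
      show ((P ⊔ Q).subgroupOf R).index ≠ 0
      exact Subgroup.index_ne_zero_of_finite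
    omega
  have hRD : D.relIndex R * Nat.card D = Nat.card R := by
    have h3 := Subgroup.relIndex_mul_relIndex (⊥ : Subgroup S) D R bot_le hDR
    rw [Subgroup.relIndex_bot_left, Subgroup.relIndex_bot_left] at h3
    rw [← h3, mul_comm]
  have hbig : 32 ≤ D.relIndex R := by
    have hDpos : 0 < Nat.card D := Nat.card_pos
    have h3 : 32 * Nat.card D ≤ D.relIndex R * Nat.card D := by
      rw [hRD]
      calc 32 * Nat.card D = 2 * ((4 * Nat.card Pf) * (4 * Nat.card Qf)) := by rw [hcD]; ring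
        _ ≤ 2 * (Nat.card P * Nat.card Q) := Nat.mul_le_mul_left 2 (Nat.mul_le_mul hP4 hQ4)
        _ = 2 * Nat.card (P ⊔ Q : Subgroup S) := by rw [hcP]
        _ ≤ Nat.card R := hR2
    exact Nat.le_of_mul_le_mul_right h3 hDpos
  -- the contradiction
  haveI hNn : (D.subgroupOf R).Normal := Subgroup.normal_subgroupOf
  have hsq : ∀ t : R ⧸ D.subgroupOf R, t ^ 2 = 1 := by
    intro t
    obtain ⟨r, rfl⟩ := QuotientGroup.mk_surjective t
    rw [← QuotientGroup.mk_pow, QuotientGroup.eq_one_iff]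
    exact hsqR _ r.2
  have hcq : ∀ a b : R ⧸ D.subgroupOf R, a * b = b * a := by
    intro a b
    have h1 : ∀ t : R ⧸ D.subgroupOf R, t⁻¹ = t := fun t => by
      have := hsq t
      rw [pow_two] at this
      exact inv_eq_of_mul_eq_one_left this
    calc a * b = (a * b)⁻¹ := (h1 _).symm
      _ = b⁻¹ * a⁻¹ := mul_inv_rev a b
      _ = b * a := by rw [h1, h1]
  have hcard := hr R (D.subgroupOf R) (⊤ : Subgroup (R ⧸ D.subgroupOf R))
    ⟨⟨fun a b => Subtype.ext (hcq a.1 b.1)⟩⟩ (fun a _ => hsq a)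
  have h3 : Nat.card (⊤ : Subgroup (R ⧸ D.subgroupOf R)) = D.relIndex R := by
    rw [Subgroup.card_top]
    rfl
  rw [h3] at hcard
  omega

end Cfsg.Agent.S4400
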