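import Cfsg.Statements.S4404
import Cfsg.Agent.Lib.ThreeTv.Asm

set_option autoImplicit false
open Cfsg

namespace Cfsg.Agent.S4404



/-- Let S be a finite solvable group and M a normal elementary abelian 2-subgroup of S. Suppose S contains an elementary abelian subgroup of order p³ for some odd prime p, and a cyclic 3-subgroup Q such that the cubes of the elements of Q centralize M and the commutator subgroup [Q, M] has order 4 (a four-group inside M). Then S contains an elementary abelian subgroup F of order r³, for some odd prime r, whose centralizer of [Q, M] in F — the subgroup C_F([Q, M]) — is not cyclic. -/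
theorem result {S : Type*} [Group S] [Finite S]
    [Group.IsSolvable S] (M : Subgroup S) [M.Normal] (hM : Cfsg.IsElementaryAbelian 2 M)
    (p : ℕ) (hp : p.Prime) (hp2 : p ≠ 2) (E : Subgroup S) (hE : Cfsg.IsElementaryAbelian p E) (hE3 : Nat.card ↥E = p ^ 3)
    (Q : Subgroup S) (hQc : IsCyclic ↥Q) (hQ3 : IsPGroup 3 ↥Q)
    (hQ1 : ∀ x ∈ Q, x ^ 3 ∈ Subgroup.centralizer (M : Set S)) (hQM : Nat.card ↥⁅Q, M⁆ = 4) :
    ∃ (r : ℕ) (F : Subgroup S), r.Prime ∧ r ≠ 2 ∧ Cfsg.IsElementaryAbelian r F ∧ Nat.card ↥F = r ^ 3 ∧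
      ¬ IsCyclic ↥(F ⊓ Subgroup.centralizer ((⁅Q, M⁆ : Subgroup S) : Set S)) := by
  classical
  obtain ⟨hMc, hMe⟩ := hM
  letI iC : CommGroup M := { (inferInstance : Group M) with mul_comm := hMc.is_comm.comm }
  haveI hpf : Fact p.Prime := ⟨hp⟩
  have h2 : ∀ x : M, x ^ 2 = 1 := fun x => Subtype.ext (by simpa using hMe x.1 x.2)
  let τ : S →* MulAut M := MulAut.conjNormal
  have hτ : ∀ (g : S) (m : M), ((τ g m : M) : S) = g * m * g⁻¹ := fun g m => rfl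
  obtain ⟨⟨a, haQ⟩, hgen⟩ := hQc.exists_generator
  have ha : ∃ k : ℕ, a ^ 3 ^ k = 1 := by
    obtain ⟨k, hk⟩ := hQ3 ⟨a, haQ⟩
    exact ⟨k, congrArg Subtype.val hk⟩
  have ht : τ a ^ 3 = 1 := by
    rw [← map_pow]
    ext m
    rw [hτ]
    have h1 := (Subgroup.mem_centralizer_iff.mp (hQ1 a haQ)) m.1 m.2
    show a ^ 3 * m.1 * (a ^ 3)⁻¹ = m.1
    rw [← h1]
    group
  have hmap : (Cfsg.Agent.Lib.ThreeTv.VV (τ a)).map M.subtype = ⁅Q, M⁆ := by
    apply le_antisymm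
    · rintro _ ⟨_, ⟨m, rfl⟩, rfl⟩
      have h1 : a * m.1 * a⁻¹ * m.1⁻¹ ∈ ⁅Q, M⁆ := Subgroup.commutator_mem_commutator haQ m.2
      exact h1
    · rw [Subgroup.commutator_le]
      intro x hx m hm
      obtain ⟨z, hz⟩ := Subgroup.mem_zpowers_iff.mp (hgen ⟨x, hx⟩)
      have hz' : a ^ z = x := congrArg Subtype.val hz
      have h1 : ((τ a) ^ z) ⟨m, hm⟩ * (⟨m, hm⟩ : M)⁻¹ ∈ Cfsg.Agent.Lib.ThreeTv.VV (τ a) :=
        Cfsg.Agent.Lib.ThreeTv.VV_zpow_le _ z (Cfsg.Agent.Lib.ThreeTv.dl_mem _ _)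
      refine ⟨_, h1, ?_⟩
      rw [← map_zpow, hz']
      rfl
  have hV : Nat.card (Cfsg.Agent.Lib.ThreeTv.VV (τ a)) = 4 := by
    rw [← hQM, ← hmap, Subgroup.card_map_of_injective M.subtype_injective]
  have hfinal : ∀ (r : ℕ) (F F₀ : Subgroup S), (∀ x ∈ F, x ^ r = 1) → 0 < r → F₀ ≤ F →
      (∀ g ∈ F₀, ∀ v ∈ Cfsg.Agent.Lib.ThreeTv.VV (τ a), τ g v = v) → r < Nat.card F₀ →
      ¬ IsCyclic ↥(F ⊓ Subgroup.centralizer ((⁅Q, M⁆ : Subgroup S) : Set S)) := by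
    intro r F F₀ hFe hr hF₀ hfix hlt hcyc
    have hle : F₀ ≤ F ⊓ Subgroup.centralizer ((⁅Q, M⁆ : Subgroup S) : Set S) := by
      intro g hg
      refine ⟨hF₀ hg, Subgroup.mem_centralizer_iff.mpr ?_⟩
      intro y hy
      rw [← hmap] at hy
      obtain ⟨v, hv, rfl⟩ := hy
      have h1 := hfix g hg v hv
      have h3 : g * v.1 * g⁻¹ = v.1 := congrArg Subtype.val h1
      exact (mul_inv_eq_iff_eq_mul.mp h3).symm
    obtain ⟨g, hg⟩ := hcyc.exists_generator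
    have hgr : g ^ r = 1 := Subtype.ext (hFe _ g.2.1)
    have hcard := orderOf_eq_card_of_forall_mem_zpowers hg
    have h3 : orderOf g ∣ r := orderOf_dvd_of_pow_eq_one hgr
    have h4 := Nat.le_of_dvd hr h3
    have h5 := Subgroup.card_le_of_le hle
    omega
  have hcase3 : ∀ E' : Subgroup S, Cfsg.IsElementaryAbelian 3 E' → Nat.card E' = 27 →
      ∃ (r : ℕ) (F : Subgroup S), r.Prime ∧ r ≠ 2 ∧ Cfsg.IsElementaryAbelian r F ∧ Nat.card ↥F = r ^ 3 ∧
      ¬ IsCyclic ↥(F ⊓ Subgroup.centralizer ((⁅Q, M⁆ : Subgroup S) : Set S)) := by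
    intro E' hE' hE'c
    obtain ⟨F, F₀, hFe, hFc, hle, hfix, h9⟩ :=
      Cfsg.Agent.Lib.ThreeTv.asm_p3 h2 τ a ha ht hV E' hE' hE'c
    exact ⟨3, F, by norm_num, by norm_num, hFe, by rw [hFc]; norm_num,
      hfinal 3 F F₀ hFe.2 (by norm_num) hle hfix (by omega)⟩
  by_cases hp3 : p = 3
  · subst hp3
    exact hcase3 E hE (by rw [hE3]; norm_num)
  have hp5 : 5 ≤ p := by
    have h1 := hp.two_le
    have h4 : p ≠ 4 := by
      rintro rfl
      exact absurd hp (by norm_num)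
    omega
  by_cases hEB : E ≤ Cfsg.pPrimeCore 3 S
  · obtain ⟨F, F₀, hFe, hFc, hle, hfix, h7⟩ :=
      Cfsg.Agent.Lib.ThreeTv.asm_p5 h2 τ a ha ht hV hp5 E hE hE3 hEB
    refine ⟨p, F, hp, hp2, hFe, hFc, hfinal p F F₀ hFe.2 hp.pos hle hfix ?_⟩
    by_contra hno
    push Not at hno
    have h8 : p ^ 3 ≤ 7 * p := h7.trans (Nat.mul_le_mul_left 7 hno)
    have h9 : 5 * 5 * p ≤ p * p * p := Nat.mul_le_mul_right p (Nat.mul_le_mul hp5 hp5)
    have h10 : p ^ 3 = p * p * p := by ring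
    have := hp.pos
    nlinarith
  · obtain ⟨E', hE', hE'c⟩ := Cfsg.Agent.Lib.ThreeTv.exists_E27_of_not_le hp5 E hE hEB
    exact hcase3 E' hE' hE'c

end Cfsg.Agent.S4404
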