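import Cfsg.Statements.S4405
import Cfsg.Agent.Lib.PGroups.Special
import Cfsg.Agent.Lib.Solvable.Fitting
import Cfsg.Agent.Lib.Solvable.Hall
import Cfsg.Agent.Lib.Char.Burnside
import Cfsg.Agent.Lib.Core.Basic
import Mathlib

set_option autoImplicit false
open Cfsg

namespace Cfsg.Agent.S4405

open Subgroup

/-- Fixed points modulo 5. -/
lemma card_fix_mod {α : Type*} [Finite α] (f : α → α) (hf : ∀ x, f (f (f (f (f x)))) = x) :
    Nat.card α ≡ Nat.card {a // f a = a} [MOD 5] := by
  classical
  letI := Fintype.ofFinite α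
  haveI : Fact (Nat.Prime 5) := ⟨by norm_num⟩
  let f' : Function.End α := f
  have h1 : f' ^ 5 ^ 1 = 1 := by
    funext x
    exact hf x
  have h2 := Equiv.Perm.card_fixedPoints_modEq h1
  rw [Nat.card_eq_fintype_card]
  convert h2 using 2
  rw [Nat.card_eq_fintype_card]
  rfl

lemma free_or_trivial {A : Type*} [Group A] [Finite A] (h16 : Nat.card A = 16) (r : A →* A)
    (hr : ∀ a, r (r (r (r (r a)))) = a) : (∀ a, r a = a → a = 1) ∨ (∀ a, r a = a) := by
  classical
  let F : Subgroup A :=
    { carrier := {a | r a = a}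
      mul_mem' := fun {a b} ha hb => by
        change r (a * b) = a * b
        rw [map_mul, show r a = a from ha, show r b = b from hb]
      one_mem' := map_one r
      inv_mem' := fun {a} ha => by
        change r a⁻¹ = a⁻¹
        rw [map_inv, show r a = a from ha] }
  have h1 : Nat.card F ∣ 16 := h16 ▸ Subgroup.card_subgroup_dvd_card F
  have h2 : Nat.card A ≡ Nat.card F [MOD 5] := card_fix_mod r hr
  rw [h16] at h2
  have h3 : Nat.card F ≤ 16 := Nat.le_of_dvd (by norm_num) h1
  have h4 : 16 % 5 = Nat.card F % 5 := h2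
  have h5 : Nat.card F = 1 ∨ Nat.card F = 16 := by
    generalize Nat.card F = n at h1 h3 h4
    interval_cases n <;> simp_all
  rcases h5 with h | h
  · left
    intro a ha
    have := (Subgroup.card_eq_one.1 h : F = ⊥)
    have h6 : a ∈ F := ha
    rw [this] at h6
    exact h6
  · right
    intro a
    have : F = ⊤ := by
      apply Subgroup.eq_top_of_card_eq
      rw [h, h16]
    have h6 : a ∈ F := by rw [this]; trivial
    exact h6

set_option maxHeartbeats 4000000 in
theorem abstract_key {A : Type*} [Group A] [Finite A] (hcomm : ∀ a b : A, a * b = b * a)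
    (hexp : ∀ a : A, a * a = 1) (h16 : Nat.card A = 16)
    (σ r : A →* A) (hσ : ∀ a, σ (σ a) = a) (hr : ∀ a, r (r (r (r (r a)))) = a)
    (hfree : ∀ a, r a = a → a = 1) (hσ1 : ∃ a, σ a ≠ a) (k : ℕ)
    (hk : ∀ a, σ (r (σ a)) = (r^[k]) a) (a : A) (ha : σ a = a) : ∃ x, a = σ x * x⁻¹ := by
  classical
  have hinv : ∀ x : A, x⁻¹ = x := fun x => inv_eq_of_mul_eq_one_left (hexp x)
  let d : A →* A :=
    { toFun := fun x => σ x * x⁻¹
      map_one' := by simp
      map_mul' := fun x y => by
        rw [map_mul, hinv, hinv, hinv]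
        calc σ x * σ y * (x * y) = σ x * (σ y * x) * y := by group
          _ = σ x * (x * σ y) * y := by rw [hcomm (σ y) x]
          _ = _ := by group }
  have hd : ∀ x, d x = σ x * x⁻¹ := fun _ => rfl
  have memC : ∀ x, x ∈ d.ker ↔ σ x = x := by
    intro x
    rw [MonoidHom.mem_ker, hd, mul_inv_eq_one]
  have hle : d.range ≤ d.ker := by
    rintro _ ⟨x, rfl⟩
    rw [memC, hd, map_mul, hσ, hinv]
    exact hcomm _ _
  have hcard : Nat.card d.ker * Nat.card d.range = 16 := by
    have := Subgroup.card_mul_index d.ker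
    rw [Subgroup.index_ker, h16] at this
    exact this
  have hC4 : Nat.card d.ker ≤ 4 := by
    by_contra h4
    have hCdvd : Nat.card d.ker ∣ 2 ^ 4 := by
      have := Subgroup.card_subgroup_dvd_card d.ker
      rwa [h16] at this
    obtain ⟨j, hj, hj2⟩ := (Nat.dvd_prime_pow Nat.prime_two).1 hCdvd
    have hC8 : Nat.card d.ker = 8 ∨ Nat.card d.ker = 16 := by
      rw [hj2] at h4 ⊢
      interval_cases j <;> simp_all
    have hrinj : Function.Injective r := by
      intro x y hxy
      have := congrArg (fun t => r (r (r (r t)))) hxy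
      simpa only [hr] using this
    let C' : Subgroup A := d.ker.map r
    haveI : C'.Normal := ⟨fun n hn g => by rw [hcomm g n]; simpa using hn⟩
    have hC' : Nat.card C' = Nat.card d.ker :=
      (Nat.card_congr (Subgroup.equivMapOfInjective d.ker r hrinj).toEquiv).symm
    have h1 := Cfsg.Agent.Lib.Solvable.Hall.card_sup_mul_card_inf d.ker C'
    have h2 : Nat.card (d.ker ⊔ C' : Subgroup A) ≤ 16 := by
      rw [← h16]
      exact Subgroup.card_le_card_group _
    have h3 : 4 ≤ Nat.card (d.ker ⊓ C' : Subgroup A) := by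
      rw [hC'] at h1
      have h5 : 64 ≤ Nat.card d.ker * Nat.card d.ker := by
        rcases hC8 with h | h <;> rw [h] <;> norm_num
      have h6 : 64 ≤ 16 * Nat.card (d.ker ⊓ C' : Subgroup A) := by
        calc 64 ≤ _ := h5
          _ = _ := h1.symm
          _ ≤ _ := Nat.mul_le_mul_right _ h2
      omega
    obtain ⟨b, hb, hb1⟩ : ∃ b ∈ (d.ker ⊓ C' : Subgroup A), b ≠ 1 := by
      by_contra hcon
      push Not at hcon
      have : (d.ker ⊓ C' : Subgroup A) = ⊥ := (Subgroup.eq_bot_iff_forall _).2 hcon
      rw [this, Subgroup.card_bot] at h3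
      omega
    obtain ⟨hb1', c, hc, hcb⟩ := hb
    have hσb : σ b = b := (memC b).1 hb1'
    have hσc : σ c = c := (memC c).1 hc
    have hc1 : c ≠ 1 := by
      rintro rfl
      apply hb1
      rw [← hcb, map_one]
    have hrk : r^[k] c = r c := by
      rw [← hk c, hσc, hcb, hσb, ← hcb]
    have hper5 : Function.IsPeriodicPt r 5 c := hr c
    have hper : Function.IsPeriodicPt r (k + 4) c := by
      change r^[k + 4] c = c
      rw [add_comm, Function.iterate_add_apply, hrk]
      exact hr c
    have hgcd := hper.gcd hper5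
    have hk5 : 5 ∣ k + 4 := by
      by_contra hnd
      have h5p : Nat.Prime 5 := by norm_num
      have : Nat.gcd (k + 4) 5 = 1 := by
        rw [Nat.gcd_comm]
        exact (Nat.Prime.coprime_iff_not_dvd h5p).2 hnd
      rw [this] at hgcd
      exact hc1 (hfree c hgcd)
    obtain ⟨t, ht⟩ := hk5
    have ht1 : 1 ≤ t := by
      rcases Nat.eq_zero_or_pos t with h | h
      · rw [h] at ht
        omega
      · exact h
    have hkeq : k = 5 * (t - 1) + 1 := by
      obtain ⟨u, rfl⟩ : ∃ u, t = u + 1 := ⟨t - 1, by omega⟩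
      simp only [Nat.add_sub_cancel]
      omega
    have hiter : ∀ (s : ℕ) (x : A), r^[5 * s] x = x := by
      intro s x
      induction s with
      | zero => rfl
      | succ s ih =>
        rw [show 5 * (s + 1) = 5 + 5 * s by ring, Function.iterate_add_apply, ih]
        exact hr x
    have hrk' : ∀ x, r^[k] x = r x := by
      intro x
      rw [hkeq, Function.iterate_add_apply, hiter]
      rfl
    have hcomm' : ∀ x, σ (r x) = r (σ x) := by
      intro x
      have := hk (σ x)
      rwa [hσ, hrk'] at this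
    let f : d.ker → d.ker := fun x => ⟨r x, (memC _).2 (by rw [hcomm', (memC x).1 x.2])⟩
    have hf5 := card_fix_mod f (fun x => Subtype.ext (hr x))
    have hfix : Nat.card {a // f a = a} = 1 := by
      have hone : f 1 = 1 := Subtype.ext (map_one r)
      haveI : Unique {a // f a = a} :=
        { default := ⟨1, hone⟩
          uniq := fun a => by
            apply Subtype.ext
            apply Subtype.ext
            exact hfree _ (congrArg Subtype.val a.2) }
      exact Nat.card_unique
    rw [hfix] at hf5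
    have hC16 : Nat.card d.ker = 16 := by
      rcases hC8 with h | h
      · rw [h] at hf5
        exact absurd hf5 (by decide)
      · exact h
    have htop : d.ker = ⊤ := by
      apply Subgroup.eq_top_of_card_eq
      rw [hC16, h16]
    obtain ⟨x, hx⟩ := hσ1
    apply hx
    rw [← memC, htop]
    trivial
  have hIC : d.range = d.ker := by
    apply Subgroup.eq_of_le_of_card_ge hle
    have hpos : 0 < Nat.card d.ker := Nat.card_pos
    have hr4 : 4 ≤ Nat.card d.range := by
      by_contra hlt
      have h1 : Nat.card d.range ≤ 3 := by omega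
      have h2 : Nat.card d.ker * Nat.card d.range ≤ 4 * 3 := Nat.mul_le_mul hC4 h1
      omega
    omega
  have hmem : a ∈ d.range := by
    rw [hIC, memC]
    exact ha
  obtain ⟨x, hx⟩ := hmem
  exact ⟨x, hx.symm⟩

/-- Any automorphism fixes a centre of order 2. -/
lemma fix_center {E : Type*} [Group E] (h2 : Nat.card (center E) = 2) (φ : E ≃* E) (c : E)
    (hc : c ∈ center E) : φ c = c := by
  by_cases h1 : c = 1
  · rw [h1, map_one]
  have hmem : φ c ∈ center E := by
    have h := (Subgroup.characteristic_iff_le_comap.1 (inferInstance : (center E).Characteristic)) φ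
    exact h hc
  obtain ⟨y, -, huniq⟩ := (Nat.card_eq_two_iff' (1 : center E)).1 h2
  have h3 := huniq ⟨c, hc⟩ (fun h => h1 (congrArg Subtype.val h))
  have h4 := huniq ⟨φ c, hmem⟩ (fun h => h1 (by
    have : φ c = 1 := congrArg Subtype.val h
    exact (map_eq_one_iff φ φ.injective).1 this))
  have h5 : (⟨φ c, hmem⟩ : center E) = ⟨c, hc⟩ := h4.trans h3.symm
  exact congrArg Subtype.val h5

/-- Conjugation on the quotient by the centre. -/
noncomputable def beta {G : Type*} [Group G] (H : Subgroup G) [H.Normal] (g : G) :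
    (H ⧸ center H) →* (H ⧸ center H) :=
  QuotientGroup.map (center H) (center H) (MulAut.conjNormal g : MulAut H).toMonoidHom
    ((Subgroup.characteristic_iff_le_comap.1 (inferInstance : (center H).Characteristic)) _)

lemma beta_mk {G : Type*} [Group G] (H : Subgroup G) [H.Normal] (g : G) (x : H) :
    beta H g (x : H ⧸ center H) = ((MulAut.conjNormal g x : H) : H ⧸ center H) := rfl

lemma beta_mul {G : Type*} [Group G] (H : Subgroup G) [H.Normal] (g h : G)
    (a : H ⧸ center H) : beta H (g * h) a = beta H g (beta H h a) := by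
  induction a using QuotientGroup.induction_on with
  | H x =>
    rw [beta_mk, beta_mk, beta_mk, map_mul]
    rfl

lemma beta_one {G : Type*} [Group G] (H : Subgroup G) [H.Normal]
    (a : H ⧸ center H) : beta H 1 a = a := by
  induction a using QuotientGroup.induction_on with
  | H x =>
    rw [beta_mk, map_one]
    rfl

lemma beta_pow {G : Type*} [Group G] (H : Subgroup G) [H.Normal] (g : G) (n : ℕ)
    (a : H ⧸ center H) : beta H (g ^ n) a = (beta H g)^[n] a := by
  induction n generalizing a with
  | zero => rw [pow_zero, beta_one]; rfl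
  | succ n ih =>
    rw [pow_succ, beta_mul, ih, Function.iterate_succ_apply]

open Cfsg.Agent.Lib.PGroups.Special
open scoped commutatorElement

lemma beta_of_mem {G : Type*} [Group G] [Finite G] {H : Subgroup G} [H.Normal]
    (hex : ExtraLike 2 H) (h : G) (hh : h ∈ H) (a : H ⧸ center H) : beta H h a = a := by
  induction a using QuotientGroup.induction_on with
  | H x =>
    rw [beta_mk]
    apply (QuotientGroup.eq (s := center H)).2
    have h1 : ((MulAut.conjNormal h x : H)) = ⟨h, hh⟩ * x * (⟨h, hh⟩ : H)⁻¹ := by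
      apply Subtype.ext
      rw [MulAut.conjNormal_apply]
      rfl
    rw [h1]
    have h3 : ((⟨h, hh⟩ : H) * x * (⟨h, hh⟩ : H)⁻¹)⁻¹ * x = ⁅(⟨h, hh⟩ : H), x⁻¹⁆ := by
      rw [commutatorElement_def]
      group
    rw [h3]
    exact hex.comm_mem _ _

/-- membership of a difference in the centre from an equality in the quotient -/
lemma exists_center_of_beta {G : Type*} [Group G] {H : Subgroup G} [H.Normal] (g : G) (x : H)
    (h : beta H g (x : H ⧸ center H) = (x : H ⧸ center H)) :
    ∃ c ∈ center H, (MulAut.conjNormal g x : H) = x * c := by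
  rw [beta_mk] at h
  have h2 : (x : H ⧸ center H) = ((MulAut.conjNormal g x : H) : H ⧸ center H) := h.symm
  have h3 := (QuotientGroup.eq (s := center H)).1 h2
  exact ⟨_, h3, by group⟩

/-- the element of odd order case -/
lemma centralizes_of_beta_trivial {G : Type*} [Group G] [Finite G] {H : Subgroup G} [H.Normal]
    (hex : ExtraLike 2 H) (ρ : G) (hρ : ρ ^ 5 = 1)
    (h : ∀ a, beta H ρ a = a) : ρ ∈ centralizer (H : Set G) := by
  rw [Subgroup.mem_centralizer_iff]
  intro x hx
  obtain ⟨c, hc, hc2⟩ := exists_center_of_beta ρ (⟨x, hx⟩ : H) (h _)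
  have hfix : ∀ n : ℕ, ((MulAut.conjNormal (ρ ^ n)) (⟨x, hx⟩ : H) : H) = ⟨x, hx⟩ * c ^ n := by
    intro n
    induction n with
    | zero => simp
    | succ n ih =>
      rw [pow_succ', map_mul, MulAut.mul_apply, ih, map_mul, map_pow, hc2]
      have h2 : (MulAut.conjNormal ρ : MulAut H) c = c :=
        fix_center (by rw [hex.card_center]) _ c hc
      rw [h2, pow_succ']
      group
  have h5 := hfix 5
  rw [hρ, map_one, MulAut.one_apply] at h5
  have hc2' : c ^ 2 = 1 := hex.center_pow c hc
  have hc5 : c ^ 5 = c := by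
    calc c ^ 5 = (c ^ 2) ^ 2 * c := by group
      _ = c := by rw [hc2']; simp
  rw [hc5] at h5
  have hc1 : c = 1 := by simpa using h5
  rw [hc1, mul_one] at hc2
  have := congrArg Subtype.val hc2
  rw [MulAut.conjNormal_apply] at this
  change ρ * x * ρ⁻¹ = x at this
  calc x * ρ = ρ * x * ρ⁻¹ * ρ := by rw [this]
    _ = ρ * x := by group

lemma eq_inner_of_beta_trivial {G : Type*} [Group G] [Finite G] {H : Subgroup G} [H.Normal]
    (hex : ExtraLike 2 H) (T : G) (h : ∀ a, beta H T a = a) :
    ∃ e : H, (e : G)⁻¹ * T ∈ centralizer (H : Set G) := by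
  have hc : ∀ x : H, ∃ c ∈ center H, (MulAut.conjNormal T x : H) = x * c := fun x =>
    exists_center_of_beta T x (h _)
  have hmem : ∀ x : H, (MulAut.conjNormal T x : H) * x⁻¹ ∈ center H := by
    intro x
    obtain ⟨c, hc1, hc2⟩ := hc x
    rw [hc2]
    have : x * c * x⁻¹ = c := by
      rw [Subgroup.mem_center_iff.1 hc1 x]
      group
    rwa [this]
  let f : H →* center H :=
    { toFun := fun x => ⟨(MulAut.conjNormal T x : H) * x⁻¹, hmem x⟩
      map_one' := by apply Subtype.ext; simp
      map_mul' := fun x y => by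
        apply Subtype.ext
        change (MulAut.conjNormal T (x * y) : H) * (x * y)⁻¹ =
          ((MulAut.conjNormal T x : H) * x⁻¹) * ((MulAut.conjNormal T y : H) * y⁻¹)
        rw [map_mul]
        have h2 := Subgroup.mem_center_iff.1 (hmem y) x⁻¹
        calc (MulAut.conjNormal T x : H) * (MulAut.conjNormal T y : H) * (x * y)⁻¹
            = (MulAut.conjNormal T x : H) * ((MulAut.conjNormal T y : H) * y⁻¹) * x⁻¹ := by group
          _ = (MulAut.conjNormal T x : H) * (x⁻¹ * ((MulAut.conjNormal T y : H) * y⁻¹)) := by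
              rw [mul_assoc, ← h2]
          _ = _ := by group }
  obtain ⟨e, he⟩ := hex.exists_comm_eq_hom f (by
    intro z hz
    apply Subtype.ext
    change (MulAut.conjNormal T z : H) * z⁻¹ = 1
    rw [fix_center (by rw [hex.card_center]) _ z hz]
    simp)
  refine ⟨e, ?_⟩
  rw [Subgroup.mem_centralizer_iff]
  intro x hx
  have h1 := he ⟨x, hx⟩
  change (MulAut.conjNormal T (⟨x, hx⟩ : H) : H) * (⟨x, hx⟩ : H)⁻¹ = ⁅e, (⟨x, hx⟩ : H)⁆ at h1
  rw [commutatorElement_def] at h1
  have h2 : (MulAut.conjNormal T (⟨x, hx⟩ : H) : H) = e * ⟨x, hx⟩ * e⁻¹ := by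
    exact mul_right_cancel h1
  have h3 := congrArg Subtype.val h2
  rw [MulAut.conjNormal_apply] at h3
  change T * x * T⁻¹ = (e : G) * x * (e : G)⁻¹ at h3
  calc x * ((e : G)⁻¹ * T) = (e : G)⁻¹ * ((e : G) * x * (e : G)⁻¹) * T := by group
    _ = (e : G)⁻¹ * (T * x * T⁻¹) * T := by rw [h3]
    _ = _ := by group

/-- Let G be a finite group of order 320 = 64·5 whose largest normal 2-subgroup H = O₂(G) equals the Fitting subgroup F(G) and is extraspecial of order 32 containing no elementary abelian subgroup of order 8 (so H is the central product of a quaternion group and a dihedral group of order 8). If T is an involution of G outside H whose centralizer in H contains an elementary abelian subgroup of order 4, then C_H(T) itself is elementary abelian of order 4. -/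
theorem result {G : Type*} [Group G] [Finite G]
    (hG : Nat.card G = 320) (hHF : Cfsg.pCore 2 G = Cfsg.fittingSubgroup G)
    (hex : Cfsg.IsExtraspecial 2 ↥(Cfsg.pCore 2 G)) (h32 : Nat.card ↥(Cfsg.pCore 2 G) = 32)
    (hminus : ∀ A : Subgroup G, A ≤ Cfsg.pCore 2 G → Cfsg.IsElementaryAbelian 2 A → Nat.card ↥A ≤ 4)
    (T : G) (hT : orderOf T = 2) (hTH : T ∉ Cfsg.pCore 2 G)
    (V : Subgroup G) (hV : V ≤ Cfsg.pCore 2 G ⊓ Subgroup.centralizer ({T} : Set G)) (hV4 : Nat.card ↥V = 4) (hVe : Cfsg.IsElementaryAbelian 2 V) :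
    Nat.card ↥(Cfsg.pCore 2 G ⊓ Subgroup.centralizer ({T} : Set G)) = 4 ∧
      Cfsg.IsElementaryAbelian 2 (Cfsg.pCore 2 G ⊓ Subgroup.centralizer ({T} : Set G)) := by

  classical
  set H := Cfsg.pCore 2 G with hH
  haveI hHn : H.Normal := Cfsg.pCore_normal 2 G
  have hH2 : IsPGroup 2 H := Cfsg.Agent.Lib.Core.Basic.pCore_isPGroup
  haveI hsol : Group.IsSolvable G :=
    Cfsg.Agent.Lib.Char.Burnside.isSolvable_of_card_eq 2 5 6 1 Nat.prime_two (by norm_num)
      (by rw [hG]; norm_num)
  have hCG : centralizer (H : Set G) ≤ H := by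
    have := Cfsg.Agent.Lib.Solvable.Fitting.centralizer_fittingSubgroup_le (G := G)
    rwa [← hHF] at this
  haveI : Fact (Nat.Prime 2) := ⟨Nat.prime_two⟩
  haveI : Fact (Nat.Prime 5) := ⟨by norm_num⟩
  have hexl : ExtraLike 2 H := extraLike_of_isExtraspecial hex
  -- the quotient
  have hA16 : Nat.card (H ⧸ center H) = 16 := by
    have h1 := Subgroup.card_eq_card_quotient_mul_card_subgroup (center H)
    rw [h32, hexl.card_center] at h1
    omega
  have hAcomm : ∀ a b : H ⧸ center H, a * b = b * a := by
    intro a b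
    induction a using QuotientGroup.induction_on with
    | H x =>
      induction b using QuotientGroup.induction_on with
      | H y =>
        apply (QuotientGroup.eq (s := center H)).2
        have h1 : (x * y)⁻¹ * (y * x) = ⁅y⁻¹, x⁻¹⁆ := by
          rw [commutatorElement_def]
          group
        rw [h1]
        exact hexl.comm_mem _ _
  have hAexp : ∀ a : H ⧸ center H, a * a = 1 := by
    intro a
    induction a using QuotientGroup.induction_on with
    | H x =>
      have h1 : (x : H ⧸ center H) * x = ((x ^ 2 : H) : H ⧸ center H) := by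
        rw [pow_two]
        rfl
      rw [h1]
      exact (QuotientGroup.eq_one_iff _).2 (hexl.pow_mem x)
  -- an element of order 5
  obtain ⟨ρ, hρ⟩ := exists_prime_orderOf_dvd_card' (G := G) 5 (by rw [hG]; norm_num)
  have hρ5 : ρ ^ 5 = 1 := by rw [← hρ]; exact pow_orderOf_eq_one ρ
  have hρH : ρ ∉ H := by
    intro hmem
    have h1 : orderOf (⟨ρ, hmem⟩ : H) = 5 := by
      rw [← hρ]
      exact Subgroup.orderOf_mk _ _
    obtain ⟨k, hk⟩ := (IsPGroup.iff_orderOf.1 hH2) ⟨ρ, hmem⟩
    rw [h1] at hk
    have : 5 ∣ 2 ^ k := ⟨1, by omega⟩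
    have := (Nat.prime_dvd_prime_iff_eq (by norm_num) Nat.prime_two).1 ((by norm_num : Nat.Prime 5).dvd_of_dvd_pow this)
    omega
  have hT2 : T * T = 1 := by
    rw [← pow_two, ← hT]
    exact pow_orderOf_eq_one T
  have hTinv : T⁻¹ = T := inv_eq_of_mul_eq_one_left hT2
  -- the `σ`
  have hσ : ∀ a, beta H T (beta H T a) = a := by
    intro a
    rw [← beta_mul, hT2, beta_one]
  have hr : ∀ a, beta H ρ (beta H ρ (beta H ρ (beta H ρ (beta H ρ a)))) = a := by
    intro a
    have := beta_pow H ρ 5 a
    rw [hρ5, beta_one] at this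
    exact this.symm
  have hr' : (∀ a, beta H ρ a = a → a = 1) := by
    rcases free_or_trivial hA16 (beta H ρ) hr with h | h
    · exact h
    · exact absurd (hCG (centralizes_of_beta_trivial hexl ρ hρ5 h)) hρH
  have hσ1 : ∃ a, beta H T a ≠ a := by
    by_contra hcon
    push Not at hcon
    obtain ⟨e, he⟩ := eq_inner_of_beta_trivial hexl T hcon
    apply hTH
    have h1 := hCG he
    have h2 : T = (e : G) * ((e : G)⁻¹ * T) := by group
    rw [h2]
    exact H.mul_mem e.2 h1
  -- the action on `⟨ρ⟩` mod `H`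
  obtain ⟨k, hk⟩ : ∃ k : ℕ, ∀ a, beta H T (beta H ρ (beta H T a)) = (beta H ρ)^[k] a := by
    have hcardQ : Nat.card (G ⧸ H) = 10 := by
      have h1 := Subgroup.card_eq_card_quotient_mul_card_subgroup H
      rw [hG, h32] at h1
      omega
    have hρbar : orderOf ((ρ : G ⧸ H)) = 5 := by
      apply orderOf_eq_prime
      · rw [← QuotientGroup.mk_pow, hρ5]
        rfl
      · intro h
        exact hρH ((QuotientGroup.eq_one_iff ρ).1 h)
    have hidx : (zpowers (ρ : G ⧸ H)).index = 2 := by
      have h1 := Subgroup.card_mul_index (zpowers (ρ : G ⧸ H))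
      rw [Nat.card_zpowers, hρbar, hcardQ] at h1
      omega
    haveI hnorm : (zpowers (ρ : G ⧸ H)).Normal := Subgroup.normal_of_index_eq_two hidx
    have hmem : (T : G ⧸ H) * (ρ : G ⧸ H) * (T : G ⧸ H)⁻¹ ∈ zpowers (ρ : G ⧸ H) :=
      hnorm.conj_mem _ (Subgroup.mem_zpowers _) _
    obtain ⟨n, hn⟩ : ∃ n : ℕ, (ρ : G ⧸ H) ^ n = (T : G ⧸ H) * (ρ : G ⧸ H) * (T : G ⧸ H)⁻¹ :=
      (mem_powers_iff_mem_zpowers.2 hmem)
    refine ⟨n, ?_⟩
    intro a
    have h1 : ((ρ ^ n : G) : G ⧸ H) = ((T * ρ * T⁻¹ : G) : G ⧸ H) := by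
      rw [QuotientGroup.mk_pow, hn]
      rfl
    have h2 := (QuotientGroup.eq (s := H)).1 h1
    set h := (ρ ^ n)⁻¹ * (T * ρ * T⁻¹) with hh
    have h3 : T * ρ * T = ρ ^ n * h := by
      rw [hh, hTinv] at *
      group
    rw [← beta_mul, ← beta_mul, h3, beta_mul, beta_of_mem hexl h h2, beta_pow]
  -- the key property of centralizing elements
  have hkey : ∀ w ∈ H ⊓ centralizer ({T} : Set G), w ^ 2 = 1 := by
    rintro w ⟨hwH, hwC⟩
    have hwT : T * w * T⁻¹ = w := by
      have := Subgroup.mem_centralizer_singleton_iff.1 hwC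
      rw [← this]
      group
    set w' : H := ⟨w, hwH⟩ with hw'
    have hconjw : (MulAut.conjNormal T w' : H) = w' := by
      apply Subtype.ext
      rw [MulAut.conjNormal_apply]
      exact hwT
    obtain ⟨x, hx⟩ := abstract_key hAcomm hAexp hA16 (beta H T) (beta H ρ) hσ hr hr' hσ1 k hk
      (w' : H ⧸ center H) (by rw [beta_mk, hconjw])
    induction x using QuotientGroup.induction_on with
    | H x =>
      rw [beta_mk] at hx
      set y : H := (MulAut.conjNormal T x : H) * x⁻¹ with hy
      have hx2 : (w' : H ⧸ center H) = (y : H ⧸ center H) := hx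
      have hcmem := (QuotientGroup.eq (s := center H)).1 hx2.symm
      set c : H := y⁻¹ * w' with hc
      have hwyc : w' = y * c := by rw [hc]; group
      have hconj2 : ∀ z : H, (MulAut.conjNormal T (MulAut.conjNormal T z : H) : H) = z := by
        intro z
        rw [← MulAut.mul_apply, ← map_mul, hT2, map_one, MulAut.one_apply]
      have hyinv : (MulAut.conjNormal T y : H) = y⁻¹ := by
        rw [hy, map_mul, hconj2, map_inv]
        group
      have hcT : (MulAut.conjNormal T c : H) = c :=
        fix_center (by rw [hexl.card_center]) _ c hcmem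
      have h1 : y * c = y⁻¹ * c := by
        rw [← hwyc]
        calc w' = (MulAut.conjNormal T w' : H) := hconjw.symm
          _ = _ := by rw [hwyc, map_mul, hyinv, hcT]
      have h2 : y = y⁻¹ := mul_right_cancel h1
      have h3 : y * y = 1 := by
        calc y * y = y⁻¹ * y := by rw [← h2]
          _ = 1 := by group
      have hc2 : c ^ 2 = 1 := hexl.center_pow c hcmem
      have h4 : w' ^ 2 = 1 := by
        rw [hwyc, pow_two]
        calc y * c * (y * c) = y * (c * y) * c := by group
          _ = y * (y * c) * c := by rw [Subgroup.mem_center_iff.1 hcmem y]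
          _ = (y * y) * (c ^ 2) := by rw [pow_two]; group
          _ = 1 := by rw [h3, hc2, one_mul]
      have := congrArg Subtype.val h4
      simpa using this
  have hEA : Cfsg.IsElementaryAbelian 2 (H ⊓ centralizer ({T} : Set G)) := by
    refine ⟨⟨⟨?_⟩⟩, hkey⟩
    intro a b
    apply Subtype.ext
    have h1 : (a : G) ^ 2 = 1 := hkey a a.2
    have h2 : (b : G) ^ 2 = 1 := hkey b b.2
    have h3 : ((a : G) * b) ^ 2 = 1 := hkey _ ((H ⊓ centralizer ({T} : Set G)).mul_mem a.2 b.2)
    have ha : (a : G)⁻¹ = a := inv_eq_of_mul_eq_one_left (by rw [← pow_two]; exact h1)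
    have hb : (b : G)⁻¹ = b := inv_eq_of_mul_eq_one_left (by rw [← pow_two]; exact h2)
    have h4 : ((a : G) * b)⁻¹ = (a : G) * b := inv_eq_of_mul_eq_one_left (by rw [← pow_two]; exact h3)
    rw [mul_inv_rev, ha, hb] at h4
    exact h4.symm
  refine ⟨?_, hEA⟩
  apply le_antisymm
  · exact hminus _ inf_le_left hEA
  · rw [← hV4]
    exact Subgroup.card_le_of_le hV

end Cfsg.Agent.S4405
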