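import Cfsg.Statements.S4406
import Mathlib

set_option autoImplicit false
open Cfsg

namespace Cfsg.Agent.S4406

abbrev A4 := ↥(alternatingGroup (Fin 4))

section finite
set_option maxRecDepth 100000
set_option synthInstance.maxHeartbeats 2000000
set_option synthInstance.maxSize 10000
set_option maxHeartbeats 40000000

theorem d1 : ∀ a : A4, a ^ 4 = 1 → a * a = 1 := by decide

theorem d2 : ∀ a b : A4, a * a = 1 → b * b = 1 → a * b = b * a := by decide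

theorem d4 : ∀ s a : A4, s ^ 3 = 1 → s ≠ 1 → a * a = 1 → a ≠ 1 →
    s * a * s⁻¹ ≠ a ∧ s * (s * a * s⁻¹) * s⁻¹ = a * (s * a * s⁻¹) := by decide

theorem d5 : ∀ r w w' : A4, r ^ 3 = 1 → r ≠ 1 → w * w = 1 → w ≠ 1 → w' * w' = 1 → w' ≠ 1 → w' ≠ w →
    (w' = r * w * r⁻¹ ∨ w' = r⁻¹ * w * r) := by decide

theorem d7 : ∀ x v₀ v₁ : A4, x * x = 1 → v₀ * v₀ = 1 → v₁ * v₁ = 1 → v₀ ≠ 1 → v₁ ≠ 1 → v₀ ≠ v₁ →
    x = 1 ∨ x = v₀ ∨ x = v₁ ∨ x = v₀ * v₁ := by decide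

theorem d8 : Fintype.card {a : A4 // a * a = 1} = 4 := by decide

theorem d9 : Fintype.card A4 = 12 := by decide

end finite

theorem card_A4 : Nat.card A4 = 12 := by
  rw [Nat.card_eq_fintype_card, d9]

theorem pow_lemma (a : A4) (q e k : ℕ) (hq : q.Prime) (h : a ^ q ^ k = 1) (he : ¬ q ^ (e + 1) ∣ 12) :
    a ^ q ^ e = 1 := by
  obtain ⟨j, -, hj⟩ := (Nat.dvd_prime_pow hq).mp (orderOf_dvd_of_pow_eq_one h)
  have h1 : q ^ j ∣ 12 := by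
    rw [← hj, ← card_A4]
    exact orderOf_dvd_natCard a
  have hje : j ≤ e := by
    by_contra hc
    push Not at hc
    exact he ((pow_dvd_pow q hc).trans h1)
  apply orderOf_dvd_iff_pow_eq_one.mp
  rw [hj]
  exact pow_dvd_pow q hje

theorem sq_of_two (a : A4) (k : ℕ) (h : a ^ 2 ^ k = 1) : a * a = 1 :=
  d1 a (pow_lemma a 2 2 k Nat.prime_two h (by decide))

theorem cube_of_three (a : A4) (k : ℕ) (h : a ^ 3 ^ k = 1) : a ^ 3 = 1 := by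
  have := pow_lemma a 3 1 k Nat.prime_three h (by decide)
  simpa using this

theorem card_le_three (S : Subgroup A4) (hS : ∀ x ∈ S, x ^ 3 = 1) : Nat.card S ≤ 3 := by
  haveI : Fact (Nat.Prime 3) := ⟨Nat.prime_three⟩
  have hp : IsPGroup 3 S := by
    intro x
    refine ⟨1, ?_⟩
    apply Subtype.ext
    simpa using hS x x.2
  obtain ⟨k, hk⟩ := IsPGroup.iff_card.mp hp
  have h1 : 3 ^ k ∣ 12 := by
    rw [← hk, ← card_A4]
    exact Subgroup.card_subgroup_dvd_card S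
  rw [hk]
  have hk1 : k ≤ 1 := by
    by_contra hc
    push Not at hc
    have : (3 : ℕ) ^ 2 ∣ 12 := (pow_dvd_pow 3 hc).trans h1
    omega
  calc 3 ^ k ≤ 3 ^ 1 := Nat.pow_le_pow_right (by norm_num) hk1
    _ = 3 := rfl

theorem card_sylow_three (Q : Sylow 3 (A4 × A4)) : Nat.card Q = 9 := by
  haveI : Fact (Nat.Prime 3) := ⟨Nat.prime_three⟩
  obtain ⟨k, hk⟩ := IsPGroup.iff_card.mp Q.2
  have hG : Nat.card (A4 × A4) = 144 := by
    rw [Nat.card_prod, card_A4]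
  have h1 := Subgroup.index_mul_card (Q : Subgroup (A4 × A4))
  rw [hG, hk] at h1
  have hk2 : k ≤ 2 := by
    by_contra hc
    push Not at hc
    have : (3 : ℕ) ^ 3 ∣ 144 := (pow_dvd_pow 3 hc).trans ⟨_, by rw [← h1, mul_comm]⟩
    omega
  have hni : ¬ 3 ∣ (Q : Subgroup (A4 × A4)).index := Q.not_dvd_index
  have : k = 2 := by
    interval_cases k
    · exfalso; apply hni; simp at h1; omega
    · exfalso; apply hni; simp at h1; omega
    · rfl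
  rw [hk, this]
  rfl

/-- In the direct product P = A₄ × A₄, let X be the Sylow 2-subgroup, X₁ and X₂ its intersections with the two direct factors, Q a Sylow 3-subgroup and Q₁, Q₂ its intersections with the two factors. Then every subgroup B of X of order 4 either meets X₁ or X₂ nontrivially, or is normalized by one of the two subgroups of Q of order 3 other than Q₁ and Q₂. -/
theorem result
    (X : Sylow 2 (↥(alternatingGroup (Fin 4)) × ↥(alternatingGroup (Fin 4))))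
    (Q : Sylow 3 (↥(alternatingGroup (Fin 4)) × ↥(alternatingGroup (Fin 4))))
    (B : Subgroup (↥(alternatingGroup (Fin 4)) × ↥(alternatingGroup (Fin 4)))) (hBX : B ≤ (X : Subgroup _)) (hB4 : Nat.card ↥B = 4) :
    B ⊓ ((X : Subgroup _) ⊓ Subgroup.prod ⊤ ⊥) ≠ ⊥ ∨ B ⊓ ((X : Subgroup _) ⊓ Subgroup.prod ⊥ ⊤) ≠ ⊥ ∨
      ∃ R : Subgroup (↥(alternatingGroup (Fin 4)) × ↥(alternatingGroup (Fin 4))), R ≤ (Q : Subgroup _) ∧ Nat.card ↥R = 3 ∧
        R ≠ (Q : Subgroup _) ⊓ Subgroup.prod ⊤ ⊥ ∧ R ≠ (Q : Subgroup _) ⊓ Subgroup.prod ⊥ ⊤ ∧ R ≤ Subgroup.normalizer (B : Set _) := by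
  classical
  by_cases h₁ : B ⊓ ((X : Subgroup _) ⊓ Subgroup.prod ⊤ ⊥) = ⊥
  swap
  · exact Or.inl h₁
  by_cases h₂ : B ⊓ ((X : Subgroup _) ⊓ Subgroup.prod ⊥ ⊤) = ⊥
  swap
  · exact Or.inr (Or.inl h₂)
  right; right
  have hB1 : ∀ b ∈ B, b.1 = 1 → b = 1 := by
    intro b hb h
    have : b ∈ B ⊓ ((X : Subgroup _) ⊓ Subgroup.prod ⊥ ⊤) :=
      ⟨hb, hBX hb, Subgroup.mem_prod.mpr ⟨by simpa using h, Subgroup.mem_top _⟩⟩
    rw [h₂] at this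
    exact this
  have hB2 : ∀ b ∈ B, b.2 = 1 → b = 1 := by
    intro b hb h
    have : b ∈ B ⊓ ((X : Subgroup _) ⊓ Subgroup.prod ⊤ ⊥) :=
      ⟨hb, hBX hb, Subgroup.mem_prod.mpr ⟨Subgroup.mem_top _, by simpa using h⟩⟩
    rw [h₁] at this
    exact this
  have hXp : ∀ b ∈ B, ∃ k : ℕ, b ^ 2 ^ k = 1 := by
    intro b hb
    obtain ⟨k, hk⟩ := X.2 ⟨b, hBX hb⟩
    exact ⟨k, by simpa using congrArg Subtype.val hk⟩
  have hsq₁ : ∀ b ∈ B, b.1 * b.1 = 1 := by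
    intro b hb
    obtain ⟨k, hk⟩ := hXp b hb
    exact sq_of_two b.1 k (by simpa using congrArg Prod.fst hk)
  have hsq₂ : ∀ b ∈ B, b.2 * b.2 = 1 := by
    intro b hb
    obtain ⟨k, hk⟩ := hXp b hb
    exact sq_of_two b.2 k (by simpa using congrArg Prod.snd hk)
  have hBinj₁ : ∀ b ∈ B, ∀ b' ∈ B, b.1 = b'.1 → b = b' := by
    intro b hb b' hb' h
    have h1 := hB1 (b * b'⁻¹) (B.mul_mem hb (B.inv_mem hb')) (by simp [h])
    exact mul_inv_eq_one.mp h1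
  have hBinj₂ : ∀ b ∈ B, ∀ b' ∈ B, b.2 = b'.2 → b = b' := by
    intro b hb b' hb' h
    have h1 := hB2 (b * b'⁻¹) (B.mul_mem hb (B.inv_mem hb')) (by simp [h])
    exact mul_inv_eq_one.mp h1
  -- surjectivity of the first projection
  have hsurj : ∀ v : A4, v * v = 1 → ∃ b ∈ B, b.1 = v := by
    let f : B → {a : A4 // a * a = 1} := fun b => ⟨b.1.1, hsq₁ _ b.2⟩
    have hfinj : Function.Injective f := by
      intro b b' h
      exact Subtype.ext (hBinj₁ _ b.2 _ b'.2 (congrArg Subtype.val h))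
    have hfbij := hfinj.bijective_of_nat_card_le (by
      rw [hB4, Nat.card_eq_fintype_card, d8])
    intro v hv
    obtain ⟨b, hb⟩ := hfbij.2 ⟨v, hv⟩
    exact ⟨b.1, b.2, congrArg Subtype.val hb⟩
  obtain ⟨b₀, hb₀, hb₀1⟩ : ∃ b ∈ B, b ≠ 1 := by
    haveI : Nontrivial B := Finite.one_lt_card_iff_nontrivial.mp (by omega)
    obtain ⟨b, hb⟩ := exists_ne (1 : B)
    exact ⟨b.1, b.2, fun h => hb (Subtype.ext h)⟩
  -- the Sylow 3-subgroup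
  have hQ9 := card_sylow_three Q
  have hQexp : ∀ x ∈ (Q : Subgroup (A4 × A4)), x.1 ^ 3 = 1 ∧ x.2 ^ 3 = 1 := by
    intro x hx
    obtain ⟨k, hk⟩ := Q.2 ⟨x, hx⟩
    have h1 : x ^ 3 ^ k = 1 := by simpa using congrArg Subtype.val hk
    exact ⟨cube_of_three x.1 k (by simpa using congrArg Prod.fst h1),
      cube_of_three x.2 k (by simpa using congrArg Prod.snd h1)⟩
  set S₁ : Subgroup A4 := (Q : Subgroup (A4 × A4)).map (MonoidHom.fst A4 A4) with hS₁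
  set S₂ : Subgroup A4 := (Q : Subgroup (A4 × A4)).map (MonoidHom.snd A4 A4) with hS₂
  have hc₁ : Nat.card S₁ ≤ 3 := card_le_three S₁ (by
    rintro _ ⟨x, hx, rfl⟩
    exact (hQexp x hx).1)
  have hc₂ : Nat.card S₂ ≤ 3 := card_le_three S₂ (by
    rintro _ ⟨x, hx, rfl⟩
    exact (hQexp x hx).2)
  have hQle : (Q : Subgroup (A4 × A4)) ≤ S₁.prod S₂ := by
    intro x hx
    exact Subgroup.mem_prod.mpr ⟨⟨x, hx, rfl⟩, ⟨x, hx, rfl⟩⟩
  have hcprod : Nat.card (S₁.prod S₂) = Nat.card S₁ * Nat.card S₂ := by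
    rw [← Nat.card_prod]
    exact Nat.card_congr (Subgroup.prodEquiv S₁ S₂).toEquiv
  have hcle : 9 ≤ Nat.card S₁ * Nat.card S₂ := by
    rw [← hcprod, ← hQ9]
    exact Subgroup.card_le_of_le hQle
  have h31 : Nat.card S₁ = 3 := by nlinarith
  have h32 : Nat.card S₂ = 3 := by nlinarith
  have hQeq : (Q : Subgroup (A4 × A4)) = S₁.prod S₂ := by
    apply Subgroup.eq_of_le_of_card_ge hQle
    rw [hcprod, h31, h32, hQ9]
  obtain ⟨s, hsS, hs1⟩ : ∃ s ∈ S₁, s ≠ 1 := by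
    haveI : Nontrivial S₁ := Finite.one_lt_card_iff_nontrivial.mp (by omega)
    obtain ⟨b, hb⟩ := exists_ne (1 : S₁)
    exact ⟨b.1, b.2, fun h => hb (Subtype.ext h)⟩
  obtain ⟨r, hrS, hr1⟩ : ∃ s ∈ S₂, s ≠ 1 := by
    haveI : Nontrivial S₂ := Finite.one_lt_card_iff_nontrivial.mp (by omega)
    obtain ⟨b, hb⟩ := exists_ne (1 : S₂)
    exact ⟨b.1, b.2, fun h => hb (Subtype.ext h)⟩
  have hs3 : s ^ 3 = 1 := by
    obtain ⟨x, hx, rfl⟩ := hsS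
    exact (hQexp x hx).1
  have hr3 : r ^ 3 = 1 := by
    obtain ⟨x, hx, rfl⟩ := hrS
    exact (hQexp x hx).2
  -- the elements of `B`
  set v₀ := b₀.1 with hv₀
  set w₀ := b₀.2 with hw₀
  have hv₀1 : v₀ ≠ 1 := fun h => hb₀1 (hB1 _ hb₀ h)
  have hw₀1 : w₀ ≠ 1 := fun h => hb₀1 (hB2 _ hb₀ h)
  have hv₀s : v₀ * v₀ = 1 := hsq₁ _ hb₀
  have hw₀s : w₀ * w₀ = 1 := hsq₂ _ hb₀
  have hd4 := d4 s v₀ hs3 hs1 hv₀s hv₀1
  set v₁ := s * v₀ * s⁻¹ with hv₁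
  have hv₁s : v₁ * v₁ = 1 := by
    rw [hv₁]
    have : s * v₀ * s⁻¹ * (s * v₀ * s⁻¹) = s * (v₀ * v₀) * s⁻¹ := by group
    rw [this, hv₀s]
    group
  obtain ⟨b₁, hb₁, hb₁v⟩ := hsurj v₁ hv₁s
  set w₁ := b₁.2 with hw₁
  have hb₁1 : b₁ ≠ 1 := by
    rintro rfl
    apply hv₀1
    have h1 : v₁ = 1 := hb₁v.symm
    rw [hv₁] at h1
    have h2 : s⁻¹ * (s * v₀ * s⁻¹) * s = v₀ := by group
    rw [← h2, h1]
    group
  have hw₁1 : w₁ ≠ 1 := fun h => hb₁1 (hB2 _ hb₁ h)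
  have hw₁s : w₁ * w₁ = 1 := hsq₂ _ hb₁
  have hw₁₀ : w₁ ≠ w₀ := by
    intro h
    have h1 : b₁ = b₀ := hBinj₂ _ hb₁ _ hb₀ h
    apply hd4.1
    rw [← hb₁v, h1]
  obtain ⟨r', hr'3, hr'1, hr'Q, hw⟩ : ∃ r' : A4, r' ^ 3 = 1 ∧ r' ≠ 1 ∧ (s, r') ∈ (Q : Subgroup (A4 × A4)) ∧
      w₁ = r' * w₀ * r'⁻¹ := by
    rcases d5 r w₀ w₁ hr3 hr1 hw₀s hw₀1 hw₁s hw₁1 hw₁₀ with h | h
    · exact ⟨r, hr3, hr1, by rw [hQeq]; exact Subgroup.mem_prod.mpr ⟨hsS, hrS⟩, h⟩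
    · refine ⟨r⁻¹, by rw [inv_pow, hr3, inv_one], inv_ne_one.mpr hr1,
        by rw [hQeq]; exact Subgroup.mem_prod.mpr ⟨hsS, S₂.inv_mem hrS⟩, ?_⟩
      rw [h, inv_inv]
  have hd4' := d4 r' w₀ hr'3 hr'1 hw₀s hw₀1
  set g : A4 × A4 := (s, r') with hg
  have hg3 : g ^ 3 = 1 := Prod.ext (by simpa [hg] using hs3) (by simpa [hg] using hr'3)
  have hg1 : g ≠ 1 := fun h => hs1 (congrArg Prod.fst h)
  have hb₁₀ : b₁ ≠ b₀ := by
    intro h
    apply hd4.1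
    rw [← hb₁v, h]
  -- conjugation preserves `B`
  have hconj : ∀ h ∈ B, g * h * g⁻¹ ∈ B := by
    intro h hh
    have hc0 : g * b₀ * g⁻¹ = b₁ := by
      apply Prod.ext
      · simp [hg, hb₁v, hv₁, hv₀]
      · show r' * b₀.2 * r'⁻¹ = b₁.2
        rw [← hw₀, ← hw, hw₁]
    have hc1 : g * b₁ * g⁻¹ = b₀ * b₁ := by
      apply Prod.ext
      · show s * b₁.1 * s⁻¹ = b₀.1 * b₁.1
        rw [hb₁v, hv₁]
        exact hd4.2
      · show r' * b₁.2 * r'⁻¹ = b₀.2 * b₁.2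
        rw [← hw₁, hw]
        exact hd4'.2
    rcases d7 h.1 v₀ v₁ (hsq₁ _ hh) hv₀s hv₁s hv₀1 (by rw [← hb₁v]; intro h'; exact hb₁1 (hB1 _ hb₁ h'))
      hd4.1.symm with e | e | e | e
    · rw [hB1 h hh e]
      simp [B.one_mem]
    · rw [hBinj₁ h hh b₀ hb₀ e, hc0]
      exact hb₁
    · rw [hBinj₁ h hh b₁ hb₁ (by rw [e, hb₁v]), hc1]
      exact B.mul_mem hb₀ hb₁
    · have e2 : h = b₀ * b₁ := hBinj₁ h hh _ (B.mul_mem hb₀ hb₁) (by
        rw [e]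
        show _ = b₀.1 * b₁.1
        rw [hb₁v])
      have e3 : g * (b₀ * b₁) * g⁻¹ = (g * b₀ * g⁻¹) * (g * b₁ * g⁻¹) := by group
      rw [e2, e3, hc0, hc1]
      exact B.mul_mem hb₁ (B.mul_mem hb₀ hb₁)
  refine ⟨Subgroup.zpowers g, ?_, ?_, ?_, ?_, ?_⟩
  · rw [Subgroup.zpowers_le]
    exact hr'Q
  · haveI : Fact (Nat.Prime 3) := ⟨Nat.prime_three⟩
    rw [Nat.card_zpowers, orderOf_eq_prime hg3 hg1]
  · intro h
    have h1 : g ∈ (Q : Subgroup (A4 × A4)) ⊓ Subgroup.prod ⊤ ⊥ := by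
      rw [← h]
      exact Subgroup.mem_zpowers g
    have h2 : r' ∈ (⊥ : Subgroup A4) := (Subgroup.mem_prod.mp h1.2).2
    exact hr'1 h2
  · intro h
    have h1 : g ∈ (Q : Subgroup (A4 × A4)) ⊓ Subgroup.prod ⊥ ⊤ := by
      rw [← h]
      exact Subgroup.mem_zpowers g
    have h2 : s ∈ (⊥ : Subgroup A4) := (Subgroup.mem_prod.mp h1.2).1
    exact hs1 h2
  · rw [Subgroup.zpowers_le, Subgroup.mem_normalizer_iff]
    intro h
    refine ⟨hconj h, fun hh => ?_⟩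
    have h5 := hconj _ (hconj _ hh)
    have h6 : g * (g * (g * h * g⁻¹) * g⁻¹) * g⁻¹ = g ^ 3 * h * (g ^ 3)⁻¹ := by
      rw [pow_three, mul_inv_rev, mul_inv_rev]
      simp only [mul_assoc]
    rw [h6, hg3] at h5
    simpa using h5

end Cfsg.Agent.S4406
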