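import Cfsg.Statements.S4407
import Cfsg.Agent.Lib.Solvable.Hall
import Mathlib

set_option autoImplicit false
open Cfsg

namespace Cfsg.Agent.S4407

section core
variable {M : Type*} [AddCommGroup M] [Module (ZMod 2) M]

/-- Operators in the frame situation. -/
structure Frame (Ta Tb Tr Ts : Module.End (ZMod 2) M) : Prop where
  aaa : ∀ m, Ta (Ta (Ta m)) = m
  bbb : ∀ m, Tb (Tb (Tb m)) = m
  ab : ∀ m, Ta (Tb m) = Tb (Ta m)
  rrrr : ∀ m, Tr (Tr (Tr (Tr m))) = m
  ss : ∀ m, Ts (Ts m) = m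
  sr : ∀ m, Ts (Tr m) = Tr (Tr (Tr (Ts m)))
  ra : ∀ m, Tr (Ta m) = Tb (Tr m)
  rb : ∀ m, Tr (Tb m) = Ta (Ta (Tr m))
  sa : ∀ m, Ts (Ta m) = Ta (Ts m)
  sb : ∀ m, Ts (Tb m) = Tb (Tb (Ts m))
  irr : ∀ N : Submodule (ZMod 2) M, (∀ m ∈ N, Ta m ∈ N) → (∀ m ∈ N, Tb m ∈ N) →
    (∀ m ∈ N, Tr m ∈ N) → (∀ m ∈ N, Ts m ∈ N) → N = ⊥ ∨ N = ⊤

variable {Ta Tb Tr Ts : Module.End (ZMod 2) M}

lemma zmod2_cases : ∀ p : ZMod 2, p = 0 ∨ p = 1 := by decide

lemma two (x : M) : x + x = 0 := ZModModule.add_self x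

lemma eq_of_add_eq_zero' {x y : M} (h : x + y = 0) : x = y := by
  have h1 : x + y + y = y := by rw [h, zero_add]
  rwa [add_assoc, two, add_zero] at h1

namespace Frame

variable (F : Frame Ta Tb Tr Ts)
include F

lemma tb_of_ta {m : M} (h : Ta m = m) : Tb (Tr m) = Tr m := by
  rw [← F.ra, h]

lemma ta_of_tb {m : M} (h : Tb m = m) : Ta (Tr m) = Tr m := by
  have h1 := F.rb m
  rw [h] at h1
  have h2 := congrArg Ta h1
  rw [F.aaa] at h2
  exact h2

lemma ta_tr (z : M) : Ta (Tr z) = Tr (Tb (Tb z)) := by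
  rw [F.rb, F.rb, F.aaa]

lemma srr (z : M) : Ts (Tr (Tr z)) = Tr (Tr (Ts z)) := by
  rw [F.sr, F.sr, F.rrrr]

lemma rr_inj : Function.Injective Tr := by
  intro x y h
  have := congrArg (fun t => Tr (Tr (Tr t))) h
  simpa only [F.rrrr] using this

lemma tb_inj : Function.Injective Tb := by
  intro x y h
  have := congrArg (fun t => Tb (Tb t)) h
  simpa only [F.bbb] using this

/-- The intersection. -/
lemma inter (hne : ∃ m, Ta m ≠ m) (m : M) (h1 : Ta m = m) (h2 : Tb m = m) : m = 0 := by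
  let C : Submodule (ZMod 2) M := LinearMap.ker (Ta - 1) ⊓ LinearMap.ker (Tb - 1)
  have memC : ∀ x, x ∈ C ↔ Ta x = x ∧ Tb x = x := by
    intro x
    simp only [C, Submodule.mem_inf, LinearMap.mem_ker, LinearMap.sub_apply, Module.End.one_apply,
      sub_eq_zero]
  have hC := F.irr C
    (fun x hx => by
      rw [memC] at hx ⊢
      rw [hx.1]; exact hx)
    (fun x hx => by
      rw [memC] at hx ⊢
      rw [hx.2]; exact hx)
    (fun x hx => by
      rw [memC] at hx ⊢
      exact ⟨F.ta_of_tb hx.2, F.tb_of_ta hx.1⟩)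
    (fun x hx => by
      rw [memC] at hx ⊢
      refine ⟨by rw [← F.sa, hx.1], ?_⟩
      have h3 := F.sb x
      rw [hx.2] at h3
      have h4 := congrArg Tb h3
      rw [F.bbb] at h4
      exact h4)
  rcases hC with h | h
  · have : m ∈ C := (memC m).2 ⟨h1, h2⟩
    rw [h] at this
    exact this
  · exfalso
    obtain ⟨x, hx⟩ := hne
    have : x ∈ C := by rw [h]; trivial
    exact hx ((memC x).1 this).1

/-- The sum of the two fixed spaces. -/
lemma sum_cases : LinearMap.ker (Ta - 1) ⊔ LinearMap.ker (Tb - 1) = ⊥ ∨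
    LinearMap.ker (Ta - 1) ⊔ LinearMap.ker (Tb - 1) = ⊤ := by
  have memA : ∀ x, x ∈ LinearMap.ker (Ta - 1) ↔ Ta x = x := by
    intro x
    simp only [LinearMap.mem_ker, LinearMap.sub_apply, Module.End.one_apply, sub_eq_zero]
  have memB : ∀ x, x ∈ LinearMap.ker (Tb - 1) ↔ Tb x = x := by
    intro x
    simp only [LinearMap.mem_ker, LinearMap.sub_apply, Module.End.one_apply, sub_eq_zero]
  apply F.irr
  · intro x hx
    obtain ⟨y, hy, z, hz, rfl⟩ := Submodule.mem_sup.1 hx
    rw [map_add]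
    apply Submodule.add_mem
    · apply Submodule.mem_sup_left
      rw [memA] at hy ⊢
      rw [hy, hy]
    · apply Submodule.mem_sup_right
      rw [memB] at hz ⊢
      rw [← F.ab, hz]
  · intro x hx
    obtain ⟨y, hy, z, hz, rfl⟩ := Submodule.mem_sup.1 hx
    rw [map_add]
    apply Submodule.add_mem
    · apply Submodule.mem_sup_left
      rw [memA] at hy ⊢
      rw [F.ab, hy]
    · apply Submodule.mem_sup_right
      rw [memB] at hz ⊢
      rw [hz, hz]
  · intro x hx
    obtain ⟨y, hy, z, hz, rfl⟩ := Submodule.mem_sup.1 hx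
    rw [map_add]
    apply Submodule.add_mem
    · apply Submodule.mem_sup_right
      rw [memA] at hy
      rw [memB]
      exact F.tb_of_ta hy
    · apply Submodule.mem_sup_left
      rw [memB] at hz
      rw [memA]
      exact F.ta_of_tb hz
  · intro x hx
    obtain ⟨y, hy, z, hz, rfl⟩ := Submodule.mem_sup.1 hx
    rw [map_add]
    apply Submodule.add_mem
    · apply Submodule.mem_sup_left
      rw [memA] at hy ⊢
      rw [← F.sa, hy]
    · apply Submodule.mem_sup_right
      rw [memB] at hz ⊢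
      have h3 := F.sb z
      rw [hz] at h3
      have h4 := congrArg Tb h3
      rw [F.bbb] at h4
      exact h4


/-- The key lemma: the operator `t` is trivial on the fixed space of `a`. -/
lemma tt_eq (hinter : ∀ m, Ta m = m → Tb m = m → m = 0) (hne : ∃ m : M, m ≠ 0 ∧ Ta m = m)
    (m : M) (hm : Ta m = m) : Tr (Tr (Ts m)) = m := by
  let W : Submodule (ZMod 2) M := LinearMap.ker (Ta - 1) ⊓ LinearMap.ker (Tr * Tr * Ts - 1)
  have memW : ∀ x, x ∈ W ↔ Ta x = x ∧ Tr (Tr (Ts x)) = x := by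
    intro x
    simp only [W, Submodule.mem_inf, LinearMap.mem_ker, LinearMap.sub_apply, Module.End.one_apply,
      sub_eq_zero, Module.End.mul_apply]
  -- properties of `t`
  have ht_a : ∀ x, Ta x = x → Ta (Tr (Tr (Ts x))) = Tr (Tr (Ts x)) := by
    intro x hx
    have h1 : Ta (Ts x) = Ts x := by rw [← F.sa, hx]
    have h2 := F.ra (Ts x)
    rw [h1] at h2
    have h3 := F.rb (Tr (Ts x))
    rw [← h2] at h3
    have h4 := congrArg Ta h3
    rw [F.aaa] at h4
    exact h4
  have ht_b : ∀ x, Tr (Tr (Ts (Tb x))) = Tb (Tr (Tr (Ts x))) := by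
    intro x
    rw [F.sb, F.rb, F.ta_tr, F.bbb]
    exact F.ra _
  have ht_t : ∀ x, Tr (Tr (Ts (Tr (Tr (Ts x))))) = x := by
    intro x
    rw [F.srr, F.ss, F.rrrr]
  have ht_s : ∀ x, Tr (Tr (Ts (Ts x))) = Ts (Tr (Tr (Ts x))) := by
    intro x
    rw [F.srr]
  have hWa : ∀ x ∈ W, Ta x ∈ W := by
    intro x hx
    rw [memW] at hx ⊢
    rw [hx.1]; exact hx
  have hWb : ∀ x ∈ W, Tb x ∈ W := by
    intro x hx
    rw [memW] at hx ⊢
    refine ⟨by rw [F.ab, hx.1], by rw [ht_b, hx.2]⟩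
  have hWs : ∀ x ∈ W, Ts x ∈ W := by
    intro x hx
    rw [memW] at hx ⊢
    refine ⟨by rw [← F.sa, hx.1], by rw [ht_s, hx.2]⟩
  have hrr : ∀ x ∈ W, Tr (Tr x) = Ts x := by
    intro x hx
    rw [memW] at hx
    have h1 := ht_s x
    rw [hx.2, F.ss] at h1
    exact h1
  let N : Submodule (ZMod 2) M := W ⊔ W.map Tr
  have hN := F.irr N
    (by
      intro x hx
      obtain ⟨y, hy, _, ⟨z, hz, rfl⟩, rfl⟩ := Submodule.mem_sup.1 hx
      rw [map_add]
      apply Submodule.add_mem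
      · exact Submodule.mem_sup_left (hWa y hy)
      · apply Submodule.mem_sup_right
        rw [F.ta_tr]
        exact ⟨_, hWb _ (hWb z hz), rfl⟩)
    (by
      intro x hx
      obtain ⟨y, hy, _, ⟨z, hz, rfl⟩, rfl⟩ := Submodule.mem_sup.1 hx
      rw [map_add]
      apply Submodule.add_mem
      · exact Submodule.mem_sup_left (hWb y hy)
      · apply Submodule.mem_sup_right
        rw [F.tb_of_ta ((memW z).1 hz).1]
        exact ⟨z, hz, rfl⟩)
    (by
      intro x hx
      obtain ⟨y, hy, _, ⟨z, hz, rfl⟩, rfl⟩ := Submodule.mem_sup.1 hx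
      rw [map_add]
      apply Submodule.add_mem
      · apply Submodule.mem_sup_right
        exact ⟨y, hy, rfl⟩
      · apply Submodule.mem_sup_left
        change Tr (Tr z) ∈ W
        rw [hrr z hz]
        exact hWs z hz)
    (by
      intro x hx
      obtain ⟨y, hy, _, ⟨z, hz, rfl⟩, rfl⟩ := Submodule.mem_sup.1 hx
      rw [map_add]
      apply Submodule.add_mem
      · exact Submodule.mem_sup_left (hWs y hy)
      · apply Submodule.mem_sup_right
        change Ts (Tr z) ∈ W.map Tr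
        rw [F.sr]
        refine ⟨Tr (Tr (Ts z)), ?_, rfl⟩
        rw [((memW z).1 hz).2]
        exact hz)
  have hNtop : N = ⊤ := by
    rcases hN with h | h
    · exfalso
      obtain ⟨m₀, hm₀, hm₀a⟩ := hne
      by_cases h1 : Tr (Tr (Ts m₀)) = m₀
      · have : m₀ ∈ N := Submodule.mem_sup_left ((memW m₀).2 ⟨hm₀a, h1⟩)
        rw [h] at this
        exact hm₀ this
      · have h2 : m₀ + Tr (Tr (Ts m₀)) ∈ W := by
          rw [memW]
          constructor
          · rw [map_add, hm₀a, ht_a m₀ hm₀a]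
          · rw [map_add, map_add, map_add, ht_t, add_comm]
        have : m₀ + Tr (Tr (Ts m₀)) ∈ N := Submodule.mem_sup_left h2
        rw [h] at this
        have h3 : m₀ + Tr (Tr (Ts m₀)) = 0 := this
        exact h1 (eq_of_add_eq_zero' h3).symm
    · exact h
  have hmN : m ∈ N := by rw [hNtop]; trivial
  obtain ⟨y, hy, _, ⟨z, hz, rfl⟩, hyz⟩ := Submodule.mem_sup.1 hmN
  have hz1 : Ta z = z := ((memW z).1 hz).1
  have hy1 : Ta y = y := ((memW y).1 hy).1
  have h0 : Tr z = 0 := by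
    apply hinter _ _ (F.tb_of_ta hz1)
    have h1 : Tr z = m + y := by
      rw [← hyz]
      rw [add_comm y, add_assoc, two, add_zero]
    rw [h1, map_add, hm, hy1]
  rw [h0, add_zero] at hyz
  rw [← hyz]
  exact ((memW y).1 hy).2


/-- The main structure theorem for the frame. -/
theorem core [Finite M] (hinter : ∀ m, Ta m = m → Tb m = m → m = 0)
    (hsum : ∀ m : M, ∃ m₁ m₂, Ta m₁ = m₁ ∧ Tb m₂ = m₂ ∧ m = m₁ + m₂) (hnt : Nontrivial M) :
    Nat.card M = 16 ∧ Nat.card {m : M // Tr (Tr m) = m ∧ Tr (Ts m) = m} = 2 ∧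
      Nat.card {m : M // Tr (Tr m) = m ∧ Ts m = m} ≠ 2 := by
  classical
  have hne : ∃ m : M, m ≠ 0 ∧ Ta m = m := by
    obtain ⟨m, hm⟩ := exists_ne (0 : M)
    obtain ⟨m₁, m₂, h1, h2, rfl⟩ := hsum m
    by_cases h : m₁ = 0
    · refine ⟨Tr m₂, ?_, F.ta_of_tb h2⟩
      intro h3
      apply hm
      rw [h, zero_add]
      apply F.rr_inj
      rw [h3, map_zero]
    · exact ⟨m₁, h, h1⟩
  have htt := F.tt_eq hinter hne
  have hrr : ∀ m, Ta m = m → Tr (Tr m) = Ts m := by
    intro m hm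
    have h1 : Ta (Ts m) = Ts m := by rw [← F.sa, hm]
    have h2 := htt _ h1
    rwa [F.ss] at h2
  -- the vector `v`
  obtain ⟨v, hv0, hva, hvs⟩ : ∃ v : M, v ≠ 0 ∧ Ta v = v ∧ Ts v = v := by
    obtain ⟨m₀, hm₀, hm₀a⟩ := hne
    by_cases h1 : Ts m₀ = m₀
    · exact ⟨m₀, hm₀, hm₀a, h1⟩
    · refine ⟨m₀ + Ts m₀, ?_, ?_, ?_⟩
      · intro h
        exact h1 (eq_of_add_eq_zero' h).symm
      · rw [map_add, hm₀a, ← F.sa, hm₀a]
      · rw [map_add, F.ss, add_comm]
  obtain ⟨u, hu⟩ : ∃ u, u = Tb v := ⟨_, rfl⟩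
  obtain ⟨w, hw⟩ : ∃ w, w = Tr v := ⟨_, rfl⟩
  obtain ⟨y, hy⟩ : ∃ y, y = Tr u := ⟨_, rfl⟩
  have hua : Ta u = u := by rw [hu, F.ab, hva]
  have hub : Tb u = v + u := by
    have h1 : Ta (v + u + Tb u) = v + u + Tb u := by
      rw [map_add, map_add, hva, hua, F.ab, hua]
    have h2 : Tb (v + u + Tb u) = v + u + Tb u := by
      have h0 : Tb (Tb u) = v := by rw [hu, F.bbb]
      rw [map_add, map_add, ← hu, h0]
      abel
    have h3 := hinter _ h1 h2
    have h4 := eq_of_add_eq_zero' h3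
    exact h4.symm
  have hus : Ts u = v + u := by
    rw [hu, F.sb, hvs, ← hu, hub]
  have hrw : Tr w = v := by rw [hw, hrr v hva, hvs]
  have hry : Tr y = v + u := by rw [hy, hrr u hua, hus]
  have hwa : Ta w = w + y := by
    rw [hw, F.ta_tr, ← hu, hub, map_add, ← hw, ← hy]
  have hub2 : Tb (Tb u) = v := by
    rw [hub, map_add, hub, ← hu]
    rw [add_comm u, add_assoc, two, add_zero]
  have hya : Ta y = w := by
    rw [hy, F.ta_tr, hub2, ← hw]
  have hwb : Tb w = w := hw ▸ F.tb_of_ta hva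
  have hyb : Tb y = y := hy ▸ F.tb_of_ta hua
  have hws : Ts w = w := by
    rw [hw, F.sr, hvs, hrr v hva, hvs]
  have hys : Ts y = y := by
    rw [hy, F.sr]
    rw [htt u hua]
  -- span
  let e : Fin 4 → M := ![v, u, w, y]
  let N : Submodule (ZMod 2) M := Submodule.span (ZMod 2) (Set.range e)
  have hv' : v ∈ N := Submodule.subset_span ⟨0, rfl⟩
  have hu' : u ∈ N := Submodule.subset_span ⟨1, rfl⟩
  have hw' : w ∈ N := Submodule.subset_span ⟨2, rfl⟩
  have hy' : y ∈ N := Submodule.subset_span ⟨3, rfl⟩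
  have hinv : ∀ T : Module.End (ZMod 2) M, T v ∈ N → T u ∈ N → T w ∈ N → T y ∈ N →
      ∀ m ∈ N, T m ∈ N := by
    intro T h1 h2 h3 h4 m hm
    have hle : N ≤ N.comap T := by
      apply Submodule.span_le.2
      rintro _ ⟨i, rfl⟩
      fin_cases i
      · exact h1
      · exact h2
      · exact h3
      · exact h4
    exact hle hm
  have hNtop : N = ⊤ := by
    rcases F.irr N
      (hinv Ta (by rw [hva]; exact hv') (by rw [hua]; exact hu')
        (by rw [hwa]; exact N.add_mem hw' hy') (by rw [hya]; exact hw'))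
      (hinv Tb (by rw [← hu]; exact hu') (by rw [hub]; exact N.add_mem hv' hu') (by rw [hwb]; exact hw')
        (by rw [hyb]; exact hy'))
      (hinv Tr (by rw [← hw]; exact hw') (by rw [← hy]; exact hy') (by rw [hrw]; exact hv') (by rw [hry]; exact N.add_mem hv' hu'))
      (hinv Ts (by rw [hvs]; exact hv') (by rw [hus]; exact N.add_mem hv' hu')
        (by rw [hws]; exact hw') (by rw [hys]; exact hy')) with h | h
    · exfalso
      rw [h] at hv'
      exact hv0 hv'
    · exact h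
  -- independence
  have hind : ∀ p q : ZMod 2, p • v + q • u = 0 → p = 0 ∧ q = 0 := by
    intro p q h
    have hp : p = 0 ∨ p = 1 := zmod2_cases p
    have hq : q = 0 ∨ q = 1 := zmod2_cases q
    rcases hp with rfl | rfl <;> rcases hq with rfl | rfl
    · exact ⟨rfl, rfl⟩
    · exfalso
      simp only [zero_smul, one_smul, zero_add] at h
      apply hv0
      apply F.tb_inj
      rw [map_zero, ← hu]
      exact h
    · exfalso
      simp only [zero_smul, one_smul, add_zero] at h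
      exact hv0 h
    · exfalso
      simp only [one_smul] at h
      have h1 := eq_of_add_eq_zero' h
      apply hv0
      apply hinter v hva
      rw [← hu]
      exact h1.symm
  have hkey : ∀ c₀ c₁ c₂ c₃ : ZMod 2, c₀ • v + c₁ • u + c₂ • w + c₃ • y = 0 →
      c₀ = 0 ∧ c₁ = 0 ∧ c₂ = 0 ∧ c₃ = 0 := by
    intro c₀ c₁ c₂ c₃ h
    have h1 : c₀ • v + c₁ • u = c₂ • w + c₃ • y := by
      apply eq_of_add_eq_zero'
      rw [← add_assoc]
      exact h
    have h2 : Ta (c₀ • v + c₁ • u) = c₀ • v + c₁ • u := by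
      rw [map_add, map_smul, map_smul, hva, hua]
    have h3 : Tb (c₂ • w + c₃ • y) = c₂ • w + c₃ • y := by
      rw [map_add, map_smul, map_smul, hwb, hyb]
    have h4 : c₀ • v + c₁ • u = 0 := by
      apply hinter _ h2
      rw [h1]
      exact h3
    obtain ⟨h5, h6⟩ := hind _ _ h4
    have h7 : c₂ • w + c₃ • y = 0 := by rw [← h1]; exact h4
    have h8 : Tr (c₂ • v + c₃ • u) = 0 := by
      rw [map_add, map_smul, map_smul, ← hw, ← hy]
      exact h7
    have h9 : c₂ • v + c₃ • u = 0 := by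
      apply F.rr_inj
      rw [h8, map_zero]
    obtain ⟨h10, h11⟩ := hind _ _ h9
    exact ⟨h5, h6, h10, h11⟩
  -- every vector is a combination
  have hcomb : ∀ m : M, ∃ c₀ c₁ c₂ c₃ : ZMod 2, m = c₀ • v + c₁ • u + c₂ • w + c₃ • y := by
    intro m
    have hm : m ∈ N := by rw [hNtop]; trivial
    have hle : N ≤ {
        carrier := {m | ∃ c₀ c₁ c₂ c₃ : ZMod 2, m = c₀ • v + c₁ • u + c₂ • w + c₃ • y}
        add_mem' := by
          rintro _ _ ⟨a₀, a₁, a₂, a₃, rfl⟩ ⟨b₀, b₁, b₂, b₃, rfl⟩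
          refine ⟨a₀ + b₀, a₁ + b₁, a₂ + b₂, a₃ + b₃, ?_⟩
          simp only [add_smul]
          abel
        zero_mem' := ⟨0, 0, 0, 0, by simp⟩
        smul_mem' := by
          rintro c _ ⟨a₀, a₁, a₂, a₃, rfl⟩
          refine ⟨c * a₀, c * a₁, c * a₂, c * a₃, ?_⟩
          simp only [smul_add, mul_smul] } := by
      apply Submodule.span_le.2
      rintro _ ⟨i, rfl⟩
      fin_cases i
      · exact ⟨1, 0, 0, 0, by simp [e]⟩
      · exact ⟨0, 1, 0, 0, by simp [e]⟩
      · exact ⟨0, 0, 1, 0, by simp [e]⟩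
      · exact ⟨0, 0, 0, 1, by simp [e]⟩
    exact hle hm
  -- cardinality
  have hcard : Nat.card M = 16 := by
    let f : (Fin 4 → ZMod 2) → M := fun c => c 0 • v + c 1 • u + c 2 • w + c 3 • y
    have hf : Function.Bijective f := by
      constructor
      · intro c c' h
        have h1 : f c + f c' = 0 := by rw [h, two]
        have h2 : (c 0 + c' 0) • v + (c 1 + c' 1) • u + (c 2 + c' 2) • w + (c 3 + c' 3) • y = 0 := by
          rw [← h1]
          simp only [f, add_smul]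
          abel
        obtain ⟨h3, h4, h5, h6⟩ := hkey _ _ _ _ h2
        funext i
        fin_cases i
        · exact eq_of_add_eq_zero' h3
        · exact eq_of_add_eq_zero' h4
        · exact eq_of_add_eq_zero' h5
        · exact eq_of_add_eq_zero' h6
      · intro m
        obtain ⟨c₀, c₁, c₂, c₃, rfl⟩ := hcomb m
        exact ⟨![c₀, c₁, c₂, c₃], rfl⟩
    rw [← Nat.card_congr (Equiv.ofBijective f hf)]
    simp [Nat.card_eq_fintype_card, ZMod.card]
  have hrrv : Tr (Tr v) = v := by rw [← hw]; exact hrw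
  have hrrw : Tr (Tr w) = w := by rw [hrw, hw]
  have hpfix : Tr (Tr (v + w)) = v + w ∧ Tr (Ts (v + w)) = v + w := by
    constructor
    · rw [map_add, map_add, hrrv, hrrw]
    · rw [map_add, map_add, hvs, hws, hrw, ← hw, add_comm]
  have hp0 : v + w ≠ 0 := by
    intro h
    have := hkey 1 0 1 0 (by simpa using h)
    exact one_ne_zero this.1
  refine ⟨hcard, ?_, ?_⟩
  · rw [Nat.card_eq_two_iff]
    refine ⟨⟨0, by simp⟩, ⟨v + w, hpfix⟩, ?_, ?_⟩
    · intro h
      exact hp0 (congrArg Subtype.val h).symm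
    · ext ⟨m, hm1, hm2⟩
      simp only [Set.mem_insert_iff, Set.mem_singleton_iff, Set.mem_univ, iff_true]
      obtain ⟨c₀, c₁, c₂, c₃, rfl⟩ := hcomb m
      have h1 : Tr (Tr (c₀ • v + c₁ • u + c₂ • w + c₃ • y)) =
          c₀ • v + c₁ • (v + u) + c₂ • w + c₃ • (w + y) := by
        simp only [map_add, map_smul]
        rw [hrrv, hrrw]
        have h3 : Tr (Tr u) = v + u := by rw [← hy]; exact hry
        have h4 : Tr (Tr y) = w + y := by
          rw [hry, map_add, ← hw, ← hy]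
        rw [h3, h4]
      rw [h1] at hm1
      have h2 : c₁ • v + (0 : ZMod 2) • u + c₃ • w + (0 : ZMod 2) • y = 0 := by
        calc c₁ • v + (0 : ZMod 2) • u + c₃ • w + (0 : ZMod 2) • y
            = (c₀ • v + c₁ • (v + u) + c₂ • w + c₃ • (w + y)) - (c₀ • v + c₁ • u + c₂ • w + c₃ • y) := by
              simp only [smul_add, zero_smul]
              abel
          _ = 0 := sub_eq_zero.2 hm1
      obtain ⟨h3, -, h4, -⟩ := hkey _ _ _ _ h2
      subst h3 h4
      simp only [zero_smul, add_zero] at hm2 ⊢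
      rw [map_add, map_add, map_smul, map_smul, map_smul, map_smul, hvs, hws, hrw, ← hw] at hm2
      have h5 : (c₀ + c₂) • v + (0 : ZMod 2) • u + (c₀ + c₂) • w + (0 : ZMod 2) • y = 0 := by
        have h6 : (c₀ • v + c₂ • w) + (c₀ • v + c₂ • w) = 0 := two _
        nth_rewrite 1 [← hm2] at h6
        rw [← h6]
        simp only [add_smul, zero_smul]
        abel
      obtain ⟨h6, -, -, -⟩ := hkey _ _ _ _ h5
      have h7 := eq_of_add_eq_zero' h6
      subst h7
      rcases zmod2_cases c₀ with rfl | rfl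
      · left
        apply Subtype.ext
        simp
      · right
        apply Subtype.ext
        simp
  · intro h
    have hz : Tr (Tr (0 : M)) = 0 ∧ Ts (0 : M) = 0 := by simp
    obtain ⟨t, -, huniq⟩ := (Nat.card_eq_two_iff' (⟨0, hz⟩ : {m : M // Tr (Tr m) = m ∧ Ts m = m})).1 h
    have h1 := huniq ⟨v, hrrv, hvs⟩ (fun h => hv0 (congrArg Subtype.val h))
    have h2 := huniq ⟨w, hrrw, hws⟩ (fun h => by
      have h3 : w = 0 := congrArg Subtype.val h
      apply hv0
      apply F.rr_inj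
      rw [map_zero, ← hw]
      exact h3)
    have h3 : v = w := congrArg Subtype.val (h1.trans h2.symm)
    apply hp0
    rw [← h3, two]

end Frame

end core

section abelian
variable {B : Type*} [CommGroup B] [Finite B]

lemma span_of_not_mem (h9 : Nat.card B = 9) (h3 : ∀ x : B, x ^ 3 = 1) {u v : B} (hu : u ≠ 1)
    (hv : v ∉ Subgroup.zpowers u) : ∀ x, ∃ i j : ℕ, x = u ^ i * v ^ j := by
  classical
  haveI : Fact (Nat.Prime 3) := ⟨by norm_num⟩
  have hv1 : v ≠ 1 := by
    rintro rfl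
    exact hv (Subgroup.one_mem _)
  have hou : orderOf u = 3 := orderOf_eq_prime (h3 u) hu
  have hov : orderOf v = 3 := orderOf_eq_prime (h3 v) hv1
  set H := Subgroup.zpowers u with hH
  set K := Subgroup.zpowers v with hK
  have hHc : Nat.card H = 3 := by rw [hH, Nat.card_zpowers, hou]
  have hKc : Nat.card K = 3 := by rw [hK, Nat.card_zpowers, hov]
  have hinf : Nat.card (H ⊓ K : Subgroup B) = 1 := by
    have h1 : Nat.card (H ⊓ K : Subgroup B) ∣ Nat.card K :=
      Subgroup.card_dvd_of_le inf_le_right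
    rw [hKc] at h1
    rcases (Nat.dvd_prime (by norm_num)).1 h1 with h | h
    · exact h
    · exfalso
      have h2 : (H ⊓ K : Subgroup B) = K :=
        Subgroup.eq_of_le_of_card_ge inf_le_right (by omega)
      have h3 : K ≤ H := by
        rw [← h2]
        exact inf_le_left
      exact hv (h3 (Subgroup.mem_zpowers v))
  have hsup := Cfsg.Agent.Lib.Solvable.Hall.card_sup_mul_card_inf H K
  rw [hinf, hHc, hKc, mul_one] at hsup
  have htop : H ⊔ K = ⊤ := by
    apply Subgroup.eq_top_of_card_eq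
    rw [hsup, h9]
  intro x
  have hx : x ∈ H ⊔ K := by rw [htop]; trivial
  obtain ⟨y, hy, z, hz, rfl⟩ := Subgroup.mem_sup.1 hx
  obtain ⟨i, rfl⟩ := (mem_powers_iff_mem_zpowers.2 hy)
  obtain ⟨j, rfl⟩ := (mem_powers_iff_mem_zpowers.2 hz)
  exact ⟨i, j, rfl⟩

lemma frame_exists (h9 : Nat.card B = 9) (h3 : ∀ x : B, x ^ 3 = 1) (ρ σ : B →* B)
    (hρ4 : ∀ x, ρ (ρ (ρ (ρ x))) = x) (hσ2 : ∀ x, σ (σ x) = x)
    (hσρ : ∀ x, σ (ρ x) = ρ (ρ (ρ (σ x)))) (hρ2 : ∃ x, ρ (ρ x) ≠ x)
    (hσc : ∃ x, σ x ≠ ρ (ρ x)) :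
    ∃ a b : B, a ≠ 1 ∧ b ∉ Subgroup.zpowers a ∧ σ a = a ∧ σ b = b⁻¹ ∧ ρ a = b ∧ ρ b = a⁻¹ := by
  classical
  have hone : ∀ x : B, x = x⁻¹ → x = 1 := by
    intro x hx
    have h1 : x ^ 2 = 1 := by
      rw [pow_two]
      nth_rewrite 2 [hx]
      simp
    have h2 := h3 x
    calc x = x ^ 3 * (x ^ 2)⁻¹ := by group
      _ = 1 := by rw [h1, h2]; simp
  have hρinj : Function.Injective ρ := by
    intro x y h
    have := congrArg (fun t => ρ (ρ (ρ t))) h
    simpa only [hρ4] using this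
  have hτ : ∀ x, ρ (ρ x) = x⁻¹ := by
    by_contra hcon
    push Not at hcon
    obtain ⟨x, hx⟩ := hcon
    obtain ⟨w, hw⟩ := hρ2
    obtain ⟨y, hy⟩ : ∃ y, y = x * ρ (ρ x) := ⟨_, rfl⟩
    have hy1 : y ≠ 1 := by
      intro h
      apply hx
      rw [hy] at h
      exact eq_inv_of_mul_eq_one_right h
    have hyτ : ρ (ρ y) = y := by
      rw [hy, map_mul, map_mul, hρ4, mul_comm]
    obtain ⟨z, hz⟩ : ∃ z, z = w * (ρ (ρ w))⁻¹ := ⟨_, rfl⟩
    have hz1 : z ≠ 1 := by
      intro h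
      apply hw
      rw [hz, mul_inv_eq_one] at h
      exact h.symm
    have hzτ : ρ (ρ z) = z⁻¹ := by
      rw [hz, map_mul, map_mul, map_inv, map_inv, hρ4, mul_inv_rev, inv_inv, mul_comm]
    have hz'τ : ρ (ρ (ρ z)) = (ρ z)⁻¹ := by
      rw [hzτ, map_inv]
    by_cases hz' : ρ z ∈ Subgroup.zpowers z
    · obtain ⟨k, hk⟩ := (mem_powers_iff_mem_zpowers.2 hz')
      have hk' : ρ z = z ^ k := hk.symm
      have h1 : ρ (ρ z) = z ^ (k * k) := by
        rw [hk', map_pow, hk', ← pow_mul]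
      have hzpow : ∀ n : ℕ, z ^ n = z ^ (n % 3) := by
        intro n
        conv_lhs => rw [← Nat.div_add_mod n 3, pow_add, pow_mul, h3 z, one_pow, one_mul]
      have hk3 : k % 3 = 0 ∨ k % 3 = 1 ∨ k % 3 = 2 := by omega
      rcases hk3 with h | h | h
      · apply hz1
        apply hρinj
        rw [hk', hzpow k, h, pow_zero, map_one]
      · have h2 : k * k % 3 = 1 := by
          rw [Nat.mul_mod, h]
        rw [hzpow, h2, pow_one] at h1
        rw [hzτ] at h1
        exact hz1 (hone z h1.symm)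
      · have h2 : k * k % 3 = 1 := by
          rw [Nat.mul_mod, h]
        rw [hzpow, h2, pow_one] at h1
        rw [hzτ] at h1
        exact hz1 (hone z h1.symm)
    · obtain ⟨i, j, hij⟩ := span_of_not_mem h9 h3 hz1 hz' y
      have h1 : ρ (ρ y) = y⁻¹ := by
        rw [hij, map_mul, map_mul, map_pow, map_pow, map_pow, map_pow, hz'τ, hzτ, mul_inv,
          inv_pow, inv_pow]
      rw [hyτ] at h1
      exact hy1 (hone y h1)
  obtain ⟨x, hx⟩ := hσc
  rw [hτ] at hx
  obtain ⟨a, ha⟩ : ∃ a, a = x * σ x := ⟨_, rfl⟩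
  have hσa : σ a = a := by
    rw [ha, map_mul, hσ2, mul_comm]
  have ha1 : a ≠ 1 := by
    intro h
    apply hx
    rw [ha] at h
    exact eq_inv_of_mul_eq_one_right h
  refine ⟨a, ρ a, ha1, ?_, hσa, ?_, rfl, hτ a⟩
  · intro hmem
    obtain ⟨k, hk⟩ := (mem_powers_iff_mem_zpowers.2 hmem)
    have hk' : ρ a = a ^ k := hk.symm
    have h1 : σ (ρ a) = (ρ a)⁻¹ := by
      rw [hσρ, hσa, hτ]
    have h2 : σ (ρ a) = ρ a := by
      rw [hk', map_pow, hσa]
    rw [h2] at h1
    have h3 := hone _ h1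
    apply ha1
    apply hρinj
    rw [h3, map_one]
  · rw [hσρ, hσa, hτ]

end abelian



section abelian'
variable {B : Type*} [Group B] [Finite B]

lemma span_of_not_mem' (hc : ∀ x y : B, x * y = y * x) (h9 : Nat.card B = 9) (h3 : ∀ x : B, x ^ 3 = 1)
    {u v : B} (hu : u ≠ 1) (hv : v ∉ Subgroup.zpowers u) : ∀ x, ∃ i j : ℕ, x = u ^ i * v ^ j := by
  letI : CommGroup B := { (inferInstance : Group B) with mul_comm := hc }
  exact span_of_not_mem h9 h3 hu hv

lemma frame_exists' (hc : ∀ x y : B, x * y = y * x) (h9 : Nat.card B = 9) (h3 : ∀ x : B, x ^ 3 = 1)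
    (ρ σ : B →* B)
    (hρ4 : ∀ x, ρ (ρ (ρ (ρ x))) = x) (hσ2 : ∀ x, σ (σ x) = x)
    (hσρ : ∀ x, σ (ρ x) = ρ (ρ (ρ (σ x)))) (hρ2 : ∃ x, ρ (ρ x) ≠ x)
    (hσc : ∃ x, σ x ≠ ρ (ρ x)) :
    ∃ a b : B, a ≠ 1 ∧ b ∉ Subgroup.zpowers a ∧ σ a = a ∧ σ b = b⁻¹ ∧ ρ a = b ∧ ρ b = a⁻¹ := by
  letI : CommGroup B := { (inferInstance : Group B) with mul_comm := hc }
  exact frame_exists h9 h3 ρ σ hρ4 hσ2 hσρ hρ2 hσc

end abelian'

section group
variable {S : Type*} [Group S] [Finite S] {M : Type*} [AddCommGroup M] [Module (ZMod 2) M]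
  (ρ : Representation (ZMod 2) S M)

/-- The stabilizer of a subspace. -/
def St (N : Submodule (ZMod 2) M) : Subgroup S where
  carrier := {g | ∀ m ∈ N, ρ g m ∈ N}
  mul_mem' := fun {g h} hg hh m hm => by
    rw [map_mul]
    exact hg _ (hh m hm)
  one_mem' := fun m hm => by
    rw [map_one]
    exact hm
  inv_mem' := fun {g} hg m hm => by
    have hpow : ∀ n : ℕ, ∀ m ∈ N, ρ (g ^ n) m ∈ N := by
      intro n
      induction n with
      | zero => intro m hm; simpa using hm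
      | succ n ih =>
        intro m hm
        rw [pow_succ, map_mul]
        exact ih _ (hg m hm)
    have h1 : g⁻¹ = g ^ (orderOf g - 1) := by
      apply inv_eq_of_mul_eq_one_left
      rw [← pow_succ, Nat.sub_add_cancel (orderOf_pos g), pow_orderOf_eq_one]
    rw [h1]
    exact hpow _ m hm

lemma mem_St {N : Submodule (ZMod 2) M} {g : S} : g ∈ St ρ N ↔ ∀ m ∈ N, ρ g m ∈ N := Iff.rfl

lemma frame_of_group {a b r s : S} (ha3 : a ^ 3 = 1) (hb3 : b ^ 3 = 1) (hab : a * b = b * a)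
    (hr4 : r ^ 4 = 1) (hs2 : s ^ 2 = 1) (hsr : s * r = r ^ 3 * s) (hra : r * a * r⁻¹ = b)
    (hrb : r * b * r⁻¹ = a⁻¹) (hsa : s * a * s⁻¹ = a) (hsb : s * b * s⁻¹ = b⁻¹)
    (hirr : ∀ N : Submodule (ZMod 2) M, a ∈ St ρ N → b ∈ St ρ N → r ∈ St ρ N → s ∈ St ρ N →
      N = ⊥ ∨ N = ⊤) : Frame (ρ a) (ρ b) (ρ r) (ρ s) := by
  have hT : ∀ (g h : S) (m : M), ρ g (ρ h m) = ρ (g * h) m := fun g h m => by
    rw [map_mul]
    rfl
  have hone : ∀ m : M, ρ 1 m = m := fun m => by
    rw [map_one]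
    rfl
  have p3 : ∀ x : S, x ^ 3 = x * x * x := fun x => by rw [pow_succ, pow_two]
  have p4 : ∀ x : S, x ^ 4 = x * x * x * x := fun x => by rw [pow_succ, p3]
  have haa : a⁻¹ = a * a := by
    apply inv_eq_of_mul_eq_one_left
    rw [← p3, ha3]
  have hbb : b⁻¹ = b * b := by
    apply inv_eq_of_mul_eq_one_left
    rw [← p3, hb3]
  refine ⟨?_, ?_, ?_, ?_, ?_, ?_, ?_, ?_, ?_, ?_, ?_⟩
  · intro m
    rw [hT, hT, ← p3, ha3, hone]
  · intro m
    rw [hT, hT, ← p3, hb3, hone]
  · intro m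
    rw [hT, hT, hab]
  · intro m
    rw [hT, hT, hT, ← p4, hr4, hone]
  · intro m
    rw [hT, ← pow_two, hs2, hone]
  · intro m
    rw [hT, hT, hT, hT, hsr, p3]
  · intro m
    rw [hT, hT, mul_inv_eq_iff_eq_mul.1 hra]
  · intro m
    rw [hT, hT, hT, mul_inv_eq_iff_eq_mul.1 hrb, haa]
  · intro m
    rw [hT, hT, mul_inv_eq_iff_eq_mul.1 hsa]
  · intro m
    rw [hT, hT, hT, mul_inv_eq_iff_eq_mul.1 hsb, hbb]
  · intro N h1 h2 h3 h4
    exact hirr N h1 h2 h3 h4

end group

section dih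
open DihedralGroup

/-- First list. -/
def L₁ : List (DihedralGroup 4) := [1, r 2, sr 0, sr 2]
/-- Second list. -/
def L₂ : List (DihedralGroup 4) := [1, r 2, sr 1, sr 3]

set_option maxRecDepth 10000 in
lemma L₁_mul : ∀ a b : DihedralGroup 4, a ∈ L₁ → b ∈ L₁ → a * b ∈ L₁ := by decide
set_option maxRecDepth 10000 in
lemma L₂_mul : ∀ a b : DihedralGroup 4, a ∈ L₂ → b ∈ L₂ → a * b ∈ L₂ := by decide
set_option maxRecDepth 10000 in
lemma L₁_inv : ∀ a : DihedralGroup 4, a ∈ L₁ → a⁻¹ ∈ L₁ := by decide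
set_option maxRecDepth 10000 in
lemma L₂_inv : ∀ a : DihedralGroup 4, a ∈ L₂ → a⁻¹ ∈ L₂ := by decide

/-- First four-group. -/
def K₁ : Subgroup (DihedralGroup 4) where
  carrier := {x | x ∈ L₁}
  mul_mem' := fun {a b} ha hb => L₁_mul a b ha hb
  one_mem' := by decide
  inv_mem' := fun {a} ha => L₁_inv a ha

/-- Second four-group. -/
def K₂ : Subgroup (DihedralGroup 4) where
  carrier := {x | x ∈ L₂}
  mul_mem' := fun {a b} ha hb => L₂_mul a b ha hb
  one_mem' := by decide
  inv_mem' := fun {a} ha => L₂_inv a ha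

lemma mem_K₁ {x : DihedralGroup 4} : x ∈ K₁ ↔ x ∈ L₁ := Iff.rfl
lemma mem_K₂ {x : DihedralGroup 4} : x ∈ K₂ ↔ x ∈ L₂ := Iff.rfl

instance : DecidablePred (· ∈ K₁) := fun x => decidable_of_iff (x ∈ L₁) mem_K₁.symm
instance : DecidablePred (· ∈ K₂) := fun x => decidable_of_iff (x ∈ L₂) mem_K₂.symm

set_option maxRecDepth 10000 in
lemma card_K₁ : Nat.card K₁ = 4 := by
  rw [Nat.card_eq_fintype_card]
  decide

set_option maxRecDepth 10000 in
lemma card_K₂ : Nat.card K₂ = 4 := by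
  rw [Nat.card_eq_fintype_card]
  decide

set_option maxRecDepth 100000 in
lemma dec_key : ∀ y z : DihedralGroup 4, y * y = 1 → z * z = 1 → (y * z) * (y * z) = 1 → y ≠ 1 →
    y ≠ r 2 → (y ∈ L₁ ∨ y ∈ L₂) ∧ (y ∈ L₁ → z ∈ L₁) ∧ (y ∈ L₂ → z ∈ L₂) := by
  decide

set_option maxRecDepth 100000 in
lemma dec_all : ∀ d : DihedralGroup 4, ∃ k : Fin 2, ∃ i : Fin 4,
    d = (sr 0) ^ (k : ℕ) * (r 1) ^ (i : ℕ) := by
  decide

lemma classify (K' : Subgroup (DihedralGroup 4)) (hc : Nat.card K' = 4)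
    (hexp : ∀ k ∈ K', k * k = 1) : K' = K₁ ∨ K' = K₂ := by
  classical
  obtain ⟨y, hy, hy1, hy2⟩ : ∃ y ∈ K', y ≠ 1 ∧ y ≠ r 2 := by
    by_contra hcon
    push Not at hcon
    have hle : K' ≤ Subgroup.zpowers (r 2 : DihedralGroup 4) := by
      intro x hx
      by_cases h1 : x = 1
      · rw [h1]; exact Subgroup.one_mem _
      · rw [hcon x hx h1]; exact Subgroup.mem_zpowers _
    have h2 := Subgroup.card_le_of_le hle
    rw [hc, Nat.card_zpowers, show orderOf (r 2 : DihedralGroup 4) = 2 from by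
      apply orderOf_eq_prime
      · decide
      · decide] at h2
    omega
  obtain ⟨h1, h2, h3⟩ := dec_key y y (hexp y hy) (hexp y hy) (hexp _ (K'.mul_mem hy hy)) hy1 hy2
  rcases h1 with h1 | h1
  · left
    apply Subgroup.eq_of_le_of_card_ge
    · intro z hz
      exact (dec_key y z (hexp y hy) (hexp z hz) (hexp _ (K'.mul_mem hy hz)) hy1 hy2).2.1 h1
    · rw [hc, card_K₁]
  · right
    apply Subgroup.eq_of_le_of_card_ge
    · intro z hz
      exact (dec_key y z (hexp y hy) (hexp z hz) (hexp _ (K'.mul_mem hy hz)) hy1 hy2).2.2 h1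
    · rw [hc, card_K₂]

end dih


section dih2
open DihedralGroup

set_option maxRecDepth 100000 in
lemma L₁_cases : ∀ k ∈ L₁, k = 1 ∨ k = r 1 * r 1 ∨ k = sr 0 ∨ k = r 1 * r 1 * sr 0 := by decide
set_option maxRecDepth 100000 in
lemma L₂_cases : ∀ k ∈ L₂, k = 1 ∨ k = r 1 * r 1 ∨ k = r 1 * sr 0 ∨ k = r 1 * r 1 * (r 1 * sr 0) := by
  decide
lemma mem1 : (r 1 * r 1 : DihedralGroup 4) ∈ K₁ := by decide
lemma mem2 : (sr 0 : DihedralGroup 4) ∈ K₁ := by decide
lemma mem3 : (r 1 * r 1 : DihedralGroup 4) ∈ K₂ := by decide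
lemma mem4 : (r 1 * sr 0 : DihedralGroup 4) ∈ K₂ := by decide
set_option maxRecDepth 100000 in
lemma sq1 : ∀ k ∈ L₁, k * k = (1 : DihedralGroup 4) := by decide
set_option maxRecDepth 100000 in
lemma sq2 : ∀ k ∈ L₂, k * k = (1 : DihedralGroup 4) := by decide

end dih2

/-- Let S be a finite group with a normal elementary abelian subgroup A of order 9 that is self-centralizing (C_S(A) = A), and a dihedral subgroup X of order 8 with S = AX. Let M be a finite-dimensional module for S over the field with two elements that is faithful and irreducible. Then M has 16 elements, and X contains exactly one subgroup B of order 4 and exponent 2 whose fixed points on M form a subspace with exactly 2 elements (equivalently, M is free of rank one over the group algebra of B). -/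
theorem result {S : Type*} [Group S] [Finite S]
    (A : Subgroup S) [A.Normal] (hA : Cfsg.IsElementaryAbelian 3 A) (hA9 : Nat.card ↥A = 9)
    (hAC : Subgroup.centralizer (A : Set S) = A) (X : Subgroup S) (hX : Nonempty (↥X ≃* DihedralGroup 4)) (hAX : A ⊔ X = ⊤)
    {M : Type*} [AddCommGroup M] [Module (ZMod 2) M] [Finite M] (ρ : Representation (ZMod 2) S M)
    (hfaith : Function.Injective ρ)
    (hirr : ∀ N : Submodule (ZMod 2) M, (∀ s : S, ∀ m ∈ N, ρ s m ∈ N) → N = ⊥ ∨ N = ⊤) (hM : Nontrivial M) :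
    Nat.card M = 16 ∧
      ∃! B : Subgroup S, B ≤ X ∧ Nat.card ↥B = 4 ∧ (∀ b ∈ B, b ^ 2 = 1) ∧
        Nat.card {m : M // ∀ b ∈ B, ρ b m = m} = 2 := by

  classical
  haveI : Fact (Nat.Prime 3) := ⟨by norm_num⟩
  obtain ⟨φ⟩ := hX
  let e : DihedralGroup 4 →* S := X.subtype.comp φ.symm.toMonoidHom
  have he : Function.Injective e := Subtype.val_injective.comp φ.symm.injective
  have heX : ∀ d, e d ∈ X := fun d => (φ.symm d).2
  have hXe : ∀ x ∈ X, ∃ d, e d = x := fun x hx => ⟨φ ⟨x, hx⟩, by simp [e]⟩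
  have hX8 : Nat.card X = 8 := by rw [Nat.card_congr φ.toEquiv, DihedralGroup.nat_card]
  obtain ⟨r, hr⟩ : ∃ r, r = e (DihedralGroup.r 1) := ⟨_, rfl⟩
  obtain ⟨s, hs⟩ : ∃ s, s = e (DihedralGroup.sr 0) := ⟨_, rfl⟩
  have p3 : ∀ x : S, x ^ 3 = x * x * x := fun x => by rw [pow_succ, pow_two]
  have p4 : ∀ x : S, x ^ 4 = x * x * x * x := fun x => by rw [pow_succ, p3]
  have hr4 : r ^ 4 = 1 := by
    rw [hr, ← map_pow, show (DihedralGroup.r (1 : ZMod 4)) ^ 4 = 1 by decide, map_one]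
  have hs2 : s ^ 2 = 1 := by
    rw [hs, ← map_pow, show (DihedralGroup.sr (0 : ZMod 4)) ^ 2 = 1 by decide, map_one]
  have hsr : s * r = r ^ 3 * s := by
    rw [hr, hs, ← map_mul, ← map_pow, ← map_mul]
    congr 1
  have hAX1 : ∀ x, x ∈ A → x ∈ X → x = 1 := by
    intro x hxA hxX
    have h3 := hA.2 x hxA
    have h8 : x ^ 8 = 1 := by
      have := pow_card_eq_one' (x := (⟨x, hxX⟩ : X))
      rw [hX8] at this
      exact congrArg Subtype.val this
    calc x = x ^ 9 * (x ^ 8)⁻¹ := by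
          rw [show (9 : ℕ) = 1 + 8 by norm_num, pow_add, pow_one]
          group
      _ = 1 := by
          rw [h8, show (9 : ℕ) = 3 * 3 by norm_num, pow_mul, h3]
          simp
  have hCent : ∀ d : DihedralGroup 4, d ≠ 1 → ∃ y ∈ A, e d * y * (e d)⁻¹ ≠ y := by
    intro d hd
    by_contra hcon
    push Not at hcon
    have h1 : e d ∈ Subgroup.centralizer (A : Set S) := by
      rw [Subgroup.mem_centralizer_iff]
      intro y hy
      have := hcon y hy
      calc y * e d = (e d * y * (e d)⁻¹) * e d := by rw [this]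
        _ = e d * y := by group
    rw [hAC] at h1
    have := hAX1 _ h1 (heX d)
    exact hd (he (by rw [this, map_one]))
  -- conjugation on `A`
  have hAc : ∀ x y : A, x * y = y * x := hA.1.is_comm.comm
  have hA3 : ∀ x : A, x ^ 3 = 1 := fun x => Subtype.ext (by simpa using hA.2 x x.2)
  let γ : S → (A →* A) := fun g => (MulAut.conjNormal g : MulAut A).toMonoidHom
  have hγ : ∀ (g : S) (x : A), ((γ g x : A) : S) = g * x * g⁻¹ := fun g x => by
    simp [γ, MulAut.conjNormal_apply]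
  have hγmul : ∀ (g h : S) (x : A), γ g (γ h x) = γ (g * h) x := fun g h x => by
    apply Subtype.ext
    rw [hγ, hγ, hγ]
    group
  have hγone : ∀ x : A, γ 1 x = x := fun x => by
    apply Subtype.ext
    rw [hγ]
    group
  obtain ⟨a₀, b₀, ha₀, hb₀, hsa₀, hsb₀, hra₀, hrb₀⟩ := frame_exists' hAc hA9 hA3 (γ r) (γ s)
    (fun x => by rw [hγmul, hγmul, hγmul, ← p4, hr4, hγone])
    (fun x => by rw [hγmul, ← pow_two, hs2, hγone])
    (fun x => by rw [hγmul, hγmul, hγmul, hγmul, hsr, p3])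
    (by
      obtain ⟨y, hy, hy1⟩ := hCent (DihedralGroup.r 1 * DihedralGroup.r 1) (by decide)
      rw [map_mul, ← hr] at hy1
      refine ⟨⟨y, hy⟩, ?_⟩
      intro h
      apply hy1
      have h2 := congrArg Subtype.val h
      rw [hγmul, hγ] at h2
      exact h2)
    (by
      by_contra hcon
      push Not at hcon
      obtain ⟨y, hy, hy1⟩ := hCent (DihedralGroup.sr 0 * (DihedralGroup.r 1 * DihedralGroup.r 1)⁻¹)
        (by decide)
      rw [map_mul, map_inv, map_mul, ← hr, ← hs] at hy1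
      apply hy1
      have h1 := hcon (γ (r * r)⁻¹ ⟨y, hy⟩)
      rw [hγmul, hγmul, hγmul, mul_inv_cancel, hγone] at h1
      have h2 := congrArg Subtype.val h1
      rwa [hγ] at h2)
  have hT : ∀ (g h : S) (m : M), ρ g (ρ h m) = ρ (g * h) m := fun g h m => by
    rw [map_mul]
    rfl
  have hone : ∀ m : M, ρ 1 m = m := fun m => by
    rw [map_one]
    rfl
  -- relations in S
  obtain ⟨a, haS⟩ : ∃ a : S, a = (a₀ : S) := ⟨_, rfl⟩
  obtain ⟨b, hbS⟩ : ∃ b : S, b = (b₀ : S) := ⟨_, rfl⟩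
  have ha3 : a ^ 3 = 1 := by
    rw [haS]
    exact hA.2 _ a₀.2
  have hb3 : b ^ 3 = 1 := by
    rw [hbS]
    exact hA.2 _ b₀.2
  have hab : a * b = b * a := by
    rw [haS, hbS]
    exact congrArg Subtype.val (hAc a₀ b₀)
  have hra : r * a * r⁻¹ = b := by
    rw [haS, hbS, ← hγ, hra₀]
  have hrb : r * b * r⁻¹ = a⁻¹ := by
    rw [haS, hbS, ← hγ, hrb₀]
    rfl
  have hsa : s * a * s⁻¹ = a := by
    rw [haS, ← hγ, hsa₀]
  have hsb : s * b * s⁻¹ = b⁻¹ := by
    rw [hbS, ← hγ, hsb₀]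
    rfl
  -- generation
  have hgen : ∀ N : Submodule (ZMod 2) M, a ∈ St ρ N → b ∈ St ρ N → r ∈ St ρ N → s ∈ St ρ N →
      N = ⊥ ∨ N = ⊤ := by
    intro N h1 h2 h3 h4
    apply hirr
    have htop : (⊤ : Subgroup S) ≤ St ρ N := by
      rw [← hAX, sup_le_iff]
      constructor
      · intro x hx
        obtain ⟨i, j, hij⟩ := span_of_not_mem' hAc hA9 hA3 ha₀ hb₀ ⟨x, hx⟩
        have hx2 : x = a ^ i * b ^ j := by
          have := congrArg Subtype.val hij
          simpa [haS, hbS] using this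
        rw [hx2]
        exact Subgroup.mul_mem _ (Subgroup.pow_mem _ h1 _) (Subgroup.pow_mem _ h2 _)
      · intro x hx
        obtain ⟨d, rfl⟩ := hXe x hx
        obtain ⟨k, i, hd⟩ := dec_all d
        rw [hd, map_mul, map_pow, map_pow, ← hr, ← hs]
        exact Subgroup.mul_mem _ (Subgroup.pow_mem _ h4 _) (Subgroup.pow_mem _ h3 _)
    intro g m hm
    exact htop (Subgroup.mem_top g) m hm
  have F₁ : Frame (ρ a) (ρ b) (ρ r) (ρ s) :=
    frame_of_group ρ ha3 hb3 hab hr4 hs2 hsr hra hrb hsa hsb hgen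
  -- the second frame
  have haa' : a⁻¹ = a * a := by
    apply inv_eq_of_mul_eq_one_left
    rw [← p3, ha3]
  have hbb' : b⁻¹ = b * b := by
    apply inv_eq_of_mul_eq_one_left
    rw [← p3, hb3]
  have hrs2 : (r * s) ^ 2 = 1 := by
    have : (r * s) ^ 2 = r * (s * r) * s := by rw [pow_two]; group
    rw [this, hsr, p3, show r * (r * r * r * s) * s = r * r * r * r * (s * s) by group]
    rw [← p4, hr4, ← pow_two, hs2]
    simp
  have hrsr : (r * s) * r = r ^ 3 * (r * s) := by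
    have h1 : r * s * r = r * (s * r) := by group
    rw [h1, hsr, p3]
    have h2 : r * s = r * s := rfl
    -- r * (r^3 s) = 1 * s and r^3 (r s) = s
    have h4 : r * r * r * r = 1 := by rw [← p4]; exact hr4
    calc r * (r * r * r * s) = (r * r * r * r) * s := by group
      _ = r * r * r * (r * s) := by group
  obtain ⟨a₁, ha₁⟩ : ∃ a₁ : S, a₁ = a * b := ⟨_, rfl⟩
  obtain ⟨b₁, hb₁⟩ : ∃ b₁ : S, b₁ = a⁻¹ * b := ⟨_, rfl⟩
  have hcomm : ∀ {x y : S}, x * y = y * x → ∀ n : ℕ, x ^ n * y = y * x ^ n := by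
    intro x y hxy n
    exact (Commute.pow_left hxy n)
  have haib : a⁻¹ * b = b * a⁻¹ := by
    have := (Commute.inv_left (show Commute a b from hab))
    exact this
  have ha₁3 : a₁ ^ 3 = 1 := by
    rw [ha₁, p3]
    have : a * b * (a * b) * (a * b) = (a * a * a) * (b * b * b) := by
      calc a * b * (a * b) * (a * b) = a * (b * a) * b * (a * b) := by group
        _ = a * (a * b) * b * (a * b) := by rw [hab]
        _ = a * a * (b * b * a) * b := by group
        _ = a * a * (b * (b * a)) * b := by group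
        _ = a * a * (b * (a * b)) * b := by rw [hab]
        _ = a * a * ((b * a) * b) * b := by group
        _ = a * a * ((a * b) * b) * b := by rw [hab]
        _ = (a * a * a) * (b * b * b) := by group
    rw [this, ← p3, ← p3, ha3, hb3, one_mul]
  have hb₁3 : b₁ ^ 3 = 1 := by
    rw [hb₁, p3]
    have : a⁻¹ * b * (a⁻¹ * b) * (a⁻¹ * b) = (a⁻¹ * a⁻¹ * a⁻¹) * (b * b * b) := by
      calc a⁻¹ * b * (a⁻¹ * b) * (a⁻¹ * b) = a⁻¹ * (b * a⁻¹) * b * (a⁻¹ * b) := by group
        _ = a⁻¹ * (a⁻¹ * b) * b * (a⁻¹ * b) := by rw [haib]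
        _ = a⁻¹ * a⁻¹ * (b * b * a⁻¹) * b := by group
        _ = a⁻¹ * a⁻¹ * (b * (b * a⁻¹)) * b := by group
        _ = a⁻¹ * a⁻¹ * (b * (a⁻¹ * b)) * b := by rw [haib]
        _ = a⁻¹ * a⁻¹ * ((b * a⁻¹) * b) * b := by group
        _ = a⁻¹ * a⁻¹ * ((a⁻¹ * b) * b) * b := by rw [haib]
        _ = (a⁻¹ * a⁻¹ * a⁻¹) * (b * b * b) := by group
    rw [this, ← p3, ← p3, hb3, inv_pow, ha3]
    simp
  have ha₁b₁ : a₁ * b₁ = b₁ * a₁ := by
    rw [ha₁, hb₁]
    calc a * b * (a⁻¹ * b) = a * (b * a⁻¹) * b := by group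
      _ = a * (a⁻¹ * b) * b := by rw [haib]
      _ = b * b := by group
      _ = a⁻¹ * (a * b) * b := by group
      _ = a⁻¹ * (b * a) * b := by rw [hab]
      _ = a⁻¹ * b * (a * b) := by group
  have hconj : ∀ (g x y : S), g * (x * y) * g⁻¹ = (g * x * g⁻¹) * (g * y * g⁻¹) := fun g x y => by
    group
  have hconji : ∀ (g x : S), g * x⁻¹ * g⁻¹ = (g * x * g⁻¹)⁻¹ := fun g x => by
    group
  have hra₁ : r * a₁ * r⁻¹ = b₁ := by
    rw [ha₁, hb₁, hconj, hra, hrb]
    exact (haib).symm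
  have hrb₁ : r * b₁ * r⁻¹ = a₁⁻¹ := by
    rw [ha₁, hb₁, hconj, hconji, hra, hrb, mul_inv_rev]
  have hr1a : (r * s) * a₁ * (r * s)⁻¹ = a₁ := by
    have h1 : (r * s) * a₁ * (r * s)⁻¹ = r * (s * a₁ * s⁻¹) * r⁻¹ := by group
    rw [h1, ha₁, hconj s a b, hsa, hsb, hconj, hconji, hra, hrb]
    simp
    exact hab.symm
  have hr1b : (r * s) * b₁ * (r * s)⁻¹ = b₁⁻¹ := by
    have h1 : (r * s) * b₁ * (r * s)⁻¹ = r * (s * b₁ * s⁻¹) * r⁻¹ := by group
    rw [h1, hb₁, hconj s, hconji s, hsa, hsb, hconj, hconji, hconji, hra, hrb]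
    simp
  have hgen₂ : ∀ N : Submodule (ZMod 2) M, a₁ ∈ St ρ N → b₁ ∈ St ρ N → r ∈ St ρ N →
      (r * s) ∈ St ρ N → N = ⊥ ∨ N = ⊤ := by
    intro N h1 h2 h3 h4
    have hb2 : b * b ∈ St ρ N := by
      have : b * b = a₁ * b₁ := by
        rw [ha₁, hb₁]
        calc b * b = a * (a⁻¹ * b) * b := by group
          _ = a * (b * a⁻¹) * b := by rw [haib]
          _ = a * b * (a⁻¹ * b) := by group
      rw [this]
      exact Subgroup.mul_mem _ h1 h2
    have hb' : b ∈ St ρ N := by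
      have : b = (b * b) * (b * b) := by
        calc b = b * (b * b * b) := by rw [← p3, hb3, mul_one]
          _ = (b * b) * (b * b) := by group
      rw [this]
      exact Subgroup.mul_mem _ hb2 hb2
    have ha' : a ∈ St ρ N := by
      have : a = a₁ * b⁻¹ := by rw [ha₁]; group
      rw [this]
      exact Subgroup.mul_mem _ h1 (Subgroup.inv_mem _ hb')
    have hs' : s ∈ St ρ N := by
      have : s = r⁻¹ * (r * s) := by group
      rw [this]
      exact Subgroup.mul_mem _ (Subgroup.inv_mem _ h3) h4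
    exact hgen N ha' hb' h3 hs'
  have F₂ : Frame (ρ a₁) (ρ b₁) (ρ r) (ρ (r * s)) :=
    frame_of_group ρ ha₁3 hb₁3 ha₁b₁ hr4 hrs2 hrsr hra₁ hrb₁ hr1a hr1b hgen₂
  have hne₁ : ∃ m, ρ a m ≠ m := by
    by_contra hcon
    push Not at hcon
    have h1 : ρ a = ρ 1 := by
      apply LinearMap.ext
      intro m
      rw [hcon, hone]
    have h2 := hfaith h1
    apply ha₀
    apply Subtype.ext
    rw [← haS, h2]
    rfl
  have hne₂ : ∃ m, ρ a₁ m ≠ m := by
    by_contra hcon
    push Not at hcon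
    have h1 : ρ a₁ = ρ 1 := by
      apply LinearMap.ext
      intro m
      rw [hcon, hone]
    have h2 := hfaith h1
    apply hb₀
    have h3 : a₀ * b₀ = 1 := by
      apply Subtype.ext
      rw [Subgroup.coe_mul, ← haS, ← hbS, ← ha₁, h2]
      rfl
    rw [eq_inv_of_mul_eq_one_right h3]
    exact Subgroup.inv_mem _ (Subgroup.mem_zpowers _)
  have hinter₁ := F₁.inter hne₁
  have hinter₂ := F₂.inter hne₂
  -- The dichotomy
  have hmain : Nat.card M = 16 ∧
      ((Nat.card {m : M // ρ r (ρ r m) = m ∧ ρ r (ρ s m) = m} = 2 ∧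
        Nat.card {m : M // ρ r (ρ r m) = m ∧ ρ s m = m} ≠ 2) ∨
       (Nat.card {m : M // ρ r (ρ r m) = m ∧ ρ s m = m} = 2 ∧
        Nat.card {m : M // ρ r (ρ r m) = m ∧ ρ r (ρ s m) = m} ≠ 2)) := by
    have memker : ∀ (T : Module.End (ZMod 2) M) (x : M), x ∈ LinearMap.ker (T - 1) ↔ T x = x := by
      intro T x
      simp only [LinearMap.mem_ker, LinearMap.sub_apply, Module.End.one_apply, sub_eq_zero]
    have hcase₁ : LinearMap.ker (ρ a - 1) ⊔ LinearMap.ker (ρ b - 1) = ⊤ → Nat.card M = 16 ∧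
      ((Nat.card {m : M // ρ r (ρ r m) = m ∧ ρ r (ρ s m) = m} = 2 ∧
        Nat.card {m : M // ρ r (ρ r m) = m ∧ ρ s m = m} ≠ 2) ∨
       (Nat.card {m : M // ρ r (ρ r m) = m ∧ ρ s m = m} = 2 ∧
        Nat.card {m : M // ρ r (ρ r m) = m ∧ ρ r (ρ s m) = m} ≠ 2)) := by
      intro h
      have hsum : ∀ m : M, ∃ m₁ m₂, ρ a m₁ = m₁ ∧ ρ b m₂ = m₂ ∧ m = m₁ + m₂ := by
        intro m
        have : m ∈ LinearMap.ker (ρ a - 1) ⊔ LinearMap.ker (ρ b - 1) := by rw [h]; trivial
        obtain ⟨y, hy, z, hz, rfl⟩ := Submodule.mem_sup.1 this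
        exact ⟨y, z, (memker _ _).1 hy, (memker _ _).1 hz, rfl⟩
      obtain ⟨h1, h2, h3⟩ := F₁.core hinter₁ hsum hM
      exact ⟨h1, Or.inl ⟨h2, h3⟩⟩
    have hcase₂ : LinearMap.ker (ρ a₁ - 1) ⊔ LinearMap.ker (ρ b₁ - 1) = ⊤ → Nat.card M = 16 ∧
      ((Nat.card {m : M // ρ r (ρ r m) = m ∧ ρ r (ρ s m) = m} = 2 ∧
        Nat.card {m : M // ρ r (ρ r m) = m ∧ ρ s m = m} ≠ 2) ∨
       (Nat.card {m : M // ρ r (ρ r m) = m ∧ ρ s m = m} = 2 ∧
        Nat.card {m : M // ρ r (ρ r m) = m ∧ ρ r (ρ s m) = m} ≠ 2)) := by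
      intro h
      have hsum : ∀ m : M, ∃ m₁ m₂, ρ a₁ m₁ = m₁ ∧ ρ b₁ m₂ = m₂ ∧ m = m₁ + m₂ := by
        intro m
        have : m ∈ LinearMap.ker (ρ a₁ - 1) ⊔ LinearMap.ker (ρ b₁ - 1) := by rw [h]; trivial
        obtain ⟨y, hy, z, hz, rfl⟩ := Submodule.mem_sup.1 this
        exact ⟨y, z, (memker _ _).1 hy, (memker _ _).1 hz, rfl⟩
      obtain ⟨h1, h2, h3⟩ := F₂.core hinter₂ hsum hM
      have hiff1 : ∀ m : M, (ρ r (ρ r m) = m ∧ ρ r (ρ (r * s) m) = m) ↔
          (ρ r (ρ r m) = m ∧ ρ s m = m) := by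
        intro m
        have h4 : ρ (r * s) m = ρ r (ρ s m) := (hT r s m).symm
        rw [h4]
        constructor
        · rintro ⟨h5, h6⟩
          refine ⟨h5, ?_⟩
          rw [← F₁.srr, h5] at h6
          exact h6
        · rintro ⟨h5, h6⟩
          refine ⟨h5, ?_⟩
          rw [← F₁.srr, h5]
          exact h6
      have hiff2 : ∀ m : M, (ρ r (ρ r m) = m ∧ ρ (r * s) m = m) ↔
          (ρ r (ρ r m) = m ∧ ρ r (ρ s m) = m) := by
        intro m
        have h4 : ρ (r * s) m = ρ r (ρ s m) := (hT r s m).symm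
        rw [h4]
      rw [Nat.card_congr (Equiv.subtypeEquivRight hiff1)] at h2
      rw [Nat.card_congr (Equiv.subtypeEquivRight hiff2)] at h3
      exact ⟨h1, Or.inr ⟨h2, h3⟩⟩
    rcases F₁.sum_cases with h1 | h1
    · rcases F₂.sum_cases with h2 | h2
      · exfalso
        have hfix : ∀ (T : Module.End (ZMod 2) M) (S' : Module.End (ZMod 2) M),
            LinearMap.ker (T - 1) ⊔ LinearMap.ker (S' - 1) = ⊥ → ∀ m, T m = m → m = 0 := by
          intro T S' h m hm
          have : m ∈ LinearMap.ker (T - 1) ⊔ LinearMap.ker (S' - 1) :=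
            Submodule.mem_sup_left ((memker _ _).2 hm)
          rw [h] at this
          exact this
        -- all the fixed spaces vanish
        have ea : ∀ m, m + ρ a m + ρ a (ρ a m) = 0 := by
          intro m
          apply hfix _ _ h1
          simp only [map_add, F₁.aaa]
          abel
        have eb : ∀ m, m + ρ b m + ρ b (ρ b m) = 0 := by
          intro m
          apply hfix (ρ b) (ρ a) (by rw [sup_comm]; exact h1)
          simp only [map_add, F₁.bbb]
          abel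
        have ea₁ : ∀ m, m + ρ a₁ m + ρ a₁ (ρ a₁ m) = 0 := by
          intro m
          apply hfix _ _ h2
          simp only [map_add, F₂.aaa]
          abel
        have htwo : ∀ x : M, x + x = 0 := two
        have hraa₁ : ∀ m, ρ a₁ m = ρ a (ρ b m) := fun m => by rw [ha₁, hT]
        have eq_of : ∀ {x y : M}, x + y = 0 → x = y := fun h => eq_of_add_eq_zero' h
        -- ρ a (ρ a m) = m + ρ a m etc
        have haa : ∀ m, ρ a (ρ a m) = m + ρ a m := fun m => by
          have := ea m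
          exact (eq_of (by rw [add_comm]; exact this)) 
        have hbb : ∀ m, ρ b (ρ b m) = m + ρ b m := fun m => by
          have := eb m
          exact (eq_of (by rw [add_comm]; exact this))
        -- expanding `ea₁`
        have key : ∀ m, ρ a m = ρ b m := by
          intro m
          have h5 := ea₁ m
          have h6 : ρ a₁ (ρ a₁ m) = ρ a (ρ a (ρ b (ρ b m))) := by
            rw [hraa₁, hraa₁, ← F₁.ab (ρ b m)]
          rw [h6, hraa₁, haa, hbb, map_add] at h5
          have h7 : ρ a m + ρ b m = 0 := by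
            have h8 : m + ρ a (ρ b m) + (m + ρ b m + (ρ a m + ρ a (ρ b m))) = ρ a m + ρ b m +
                (ρ a (ρ b m) + ρ a (ρ b m)) + (m + m) := by abel
            rw [h8, htwo, htwo, add_zero, add_zero] at h5
            exact h5
          exact eq_of h7
        have h8 : ρ a = ρ b := LinearMap.ext key
        have h9 := hfaith h8
        apply hb₀
        have : b₀ = a₀ := Subtype.ext (by rw [← haS, ← hbS, h9])
        rw [this]
        exact Subgroup.mem_zpowers _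
      · exact hcase₂ h2
    · exact hcase₁ h1
  obtain ⟨hcard, hdich⟩ := hmain
  refine ⟨hcard, ?_⟩
  -- fixed spaces of K₁ and K₂
  have hfix₁ : ∀ m : M, (∀ k ∈ K₁, ρ (e k) m = m) ↔ (ρ r (ρ r m) = m ∧ ρ s m = m) := by
    intro m
    constructor
    · intro h
      constructor
      · have := h _ mem1
        rw [map_mul, ← hr] at this
        rw [hT]
        exact this
      · have := h _ mem2
        rw [← hs] at this
        exact this
    · rintro ⟨h1, h2⟩ k hk
      rcases L₁_cases k hk with rfl | rfl | rfl | rfl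
      · rw [map_one, map_one]
        rfl
      · rw [show e (DihedralGroup.r 1 * DihedralGroup.r 1) = r * r by
          rw [hr, map_mul], ← hT]
        exact h1
      · rw [← hs]
        exact h2
      · rw [show e (DihedralGroup.r 1 * DihedralGroup.r 1 * DihedralGroup.sr 0) = r * r * s by
          rw [hr, hs, map_mul, map_mul], ← hT, ← hT, h2]
        exact h1
  have hfix₂ : ∀ m : M, (∀ k ∈ K₂, ρ (e k) m = m) ↔ (ρ r (ρ r m) = m ∧ ρ r (ρ s m) = m) := by
    intro m
    constructor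
    · intro h
      constructor
      · have := h _ mem3
        rw [map_mul, ← hr] at this
        rw [hT]
        exact this
      · have := h _ mem4
        rw [map_mul, ← hr, ← hs] at this
        rw [hT]
        exact this
    · rintro ⟨h1, h2⟩ k hk
      rcases L₂_cases k hk with rfl | rfl | rfl | rfl
      · rw [map_one, map_one]
        rfl
      · rw [show e (DihedralGroup.r 1 * DihedralGroup.r 1) = r * r by
          rw [hr, map_mul], ← hT]
        exact h1
      · rw [show e (DihedralGroup.r 1 * DihedralGroup.sr 0) = r * s by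
          rw [hr, hs, map_mul], ← hT]
        exact h2
      · rw [show e (DihedralGroup.r 1 * DihedralGroup.r 1 * (DihedralGroup.r 1 * DihedralGroup.sr 0)) = r * r * (r * s) by
          rw [hr, hs, map_mul, map_mul, map_mul], ← hT, ← hT, ← hT r s, h2]
        exact h1
  have hmapfix : ∀ (K : Subgroup (DihedralGroup 4)) (m : M),
      (∀ g ∈ K.map e, ρ g m = m) ↔ (∀ k ∈ K, ρ (e k) m = m) := by
    intro K m
    constructor
    · intro h k hk
      exact h _ ⟨k, hk, rfl⟩
    · rintro h g ⟨k, hk, rfl⟩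
      exact h k hk
  have hcardfix : ∀ (K : Subgroup (DihedralGroup 4)) (P : M → Prop),
      (∀ m : M, (∀ k ∈ K, ρ (e k) m = m) ↔ P m) →
      Nat.card {m : M // ∀ g ∈ K.map e, ρ g m = m} = Nat.card {m : M // P m} := by
    intro K P hP
    apply Nat.card_congr
    apply Equiv.subtypeEquivRight
    intro m
    rw [hmapfix, hP]
  have hkey : ∀ (good bad : Subgroup (DihedralGroup 4)),
      (∀ K' : Subgroup (DihedralGroup 4), K' = good ∨ K' = bad → Nat.card K' = 4) →
      (∀ k ∈ good, k * k = 1) →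
      (Nat.card {m : M // ∀ g ∈ good.map e, ρ g m = m} = 2) →
      (Nat.card {m : M // ∀ g ∈ bad.map e, ρ g m = m} ≠ 2) →
      (∀ K' : Subgroup (DihedralGroup 4), Nat.card K' = 4 → (∀ k ∈ K', k * k = 1) →
        K' = good ∨ K' = bad) →
      ∃! B : Subgroup S, B ≤ X ∧ Nat.card ↥B = 4 ∧ (∀ b ∈ B, b ^ 2 = 1) ∧
        Nat.card {m : M // ∀ b ∈ B, ρ b m = m} = 2 := by
    intro good bad hc hsq h1 h2 hcl
    refine ⟨good.map e, ⟨?_, ?_, ?_, h1⟩, ?_⟩
    · rintro g ⟨k, hk, rfl⟩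
      exact heX k
    · exact (Nat.card_congr (Subgroup.equivMapOfInjective good e he).symm.toEquiv).trans
        (hc good (Or.inl rfl))
    · rintro g ⟨k, hk, rfl⟩
      rw [← map_pow, pow_two, hsq k hk, map_one]
    · rintro B' ⟨hB1, hB2, hB3, hB4⟩
      have hmap : (B'.comap e).map e = B' := by
        apply le_antisymm
        · rintro g ⟨k, hk, rfl⟩
          exact hk
        · intro g hg
          obtain ⟨d, rfl⟩ := hXe g (hB1 hg)
          exact ⟨d, hg, rfl⟩
      have hc' : Nat.card (B'.comap e) = 4 := by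
        have := Nat.card_congr (Subgroup.equivMapOfInjective (B'.comap e) e he).toEquiv
        rw [hmap] at this
        exact this.trans hB2
      have hsq' : ∀ k ∈ B'.comap e, k * k = 1 := by
        intro k hk
        apply he
        rw [map_mul, map_one, ← pow_two]
        exact hB3 _ hk
      rcases hcl _ hc' hsq' with h | h
      · rw [← hmap, h]
      · exfalso
        rw [← hmap, h] at hB4
        exact h2 hB4
  rcases hdich with ⟨h1, h2⟩ | ⟨h1, h2⟩
  · -- K₂ good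
    refine hkey K₂ K₁ ?_ (fun k hk => sq2 k hk) ?_ ?_ ?_
    · rintro K' (rfl | rfl)
      · exact card_K₂
      · exact card_K₁
    · rw [hcardfix K₂ _ hfix₂]
      exact h1
    · rw [hcardfix K₁ _ hfix₁]
      exact h2
    · intro K' h3 h4
      exact (classify K' h3 h4).symm
  · refine hkey K₁ K₂ ?_ (fun k hk => sq1 k hk) ?_ ?_ ?_
    · rintro K' (rfl | rfl)
      · exact card_K₁
      · exact card_K₂
    · rw [hcardfix K₁ _ hfix₁]
      exact h1
    · rw [hcardfix K₂ _ hfix₂]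
      exact h2
    · intro K' h3 h4
      exact classify K' h3 h4

end Cfsg.Agent.S4407
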