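import Cfsg.Statements.S4408
import Cfsg.Agent.Lib.Solvable.Fitting

set_option autoImplicit false
open Cfsg

namespace Cfsg.Agent.S4408

open Subgroup
open scoped commutatorElement

variable {S : Type*} [Group S]

/-- `I`-invariance of a subgroup. -/
def Inv (I L : Subgroup S) : Prop := ∀ g ∈ I, ∀ l ∈ L, g * l * g⁻¹ ∈ L

lemma eq_one_of_sq_of_odd {x : S} (h : x ^ 2 = 1) (ho : Odd (orderOf x)) : x = 1 := by
  have h1 : orderOf x ∣ 2 := orderOf_dvd_of_pow_eq_one h
  rcases (Nat.dvd_prime Nat.prime_two).mp h1 with h2 | h2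
  · exact orderOf_eq_one_iff.mp h2
  · rw [h2] at ho
    exact absurd ho (by decide)

lemma exists_inverted [Finite S] [Group.IsSolvable S] (I J Y : Subgroup S)
    (hIc : ∀ g ∈ I, ∀ h ∈ I, g * h = h * g) (hI2 : ∀ g ∈ I, g ^ 2 = 1) (hJI : J ≤ I)
    (hYodd : ∀ y ∈ Y, Odd (orderOf y)) (hYinv : Inv I Y)
    (hJY : ∃ t ∈ J, ∃ y ∈ Y, t * y ≠ y * t) :
    ∃ x ∈ Y, (orderOf x).Prime ∧ (∀ g ∈ I, g * x * g⁻¹ = x ∨ g * x * g⁻¹ = x⁻¹) ∧
      ∃ t ∈ J, t * x * t⁻¹ = x⁻¹ := by
  classical
  -- a minimal invariant subgroup not centralized by `J`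
  let 𝒦 : Set (Subgroup S) := {K | K ≤ Y ∧ Inv I K ∧ ∃ t ∈ J, ∃ y ∈ K, t * y ≠ y * t}
  have hwf : WellFoundedLT (Subgroup S) := inferInstance
  obtain ⟨K, hK, hmin⟩ := hwf.wf.has_min 𝒦 ⟨Y, le_rfl, hYinv, hJY⟩
  obtain ⟨hKY, hKinv, t, htJ, y, hyK, hty⟩ := hK
  have htI := hJI htJ
  have ht2 : t * t = 1 := by rw [← pow_two]; exact hI2 t htI
  have htinv : t⁻¹ = t := inv_eq_of_mul_eq_one_left ht2
  -- every proper invariant subgroup is centralized
  have hprop : ∀ L : Subgroup S, L ≤ K → L ≠ K → Inv I L → ∀ s ∈ J, ∀ l ∈ L, s * l = l * s := by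
    intro L hLK hne hL s hs l hl
    by_contra hcon
    exact hmin L ⟨hLK.trans hKY, hL, s, hs, l, hl, hcon⟩ (lt_of_le_of_ne hLK hne)
  -- the largest proper invariant subgroup
  let ι := {L : Subgroup S // L ≤ K ∧ L ≠ K ∧ Inv I L}
  let D : Subgroup S := ⨆ L : ι, L.1
  have hDK : D ≤ K := iSup_le fun L => L.2.1
  have hDc : ∀ s ∈ J, ∀ d ∈ D, s * d = d * s := by
    intro s hs d hd
    have h1 : D ≤ centralizer ({s} : Set S) := by
      apply iSup_le
      intro L l hl
      rw [Subgroup.mem_centralizer_singleton_iff]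
      exact (hprop L.1 L.2.1 L.2.2.1 L.2.2.2 s hs l hl).symm
    have h2 := h1 hd
    rw [Subgroup.mem_centralizer_singleton_iff] at h2
    exact h2.symm
  have hDne : D ≠ K := by
    intro h
    apply hty
    exact hDc t htJ y (h ▸ hyK)
  have hDinv : Inv I D := by
    intro g hg d hd
    have h1 : D.map (MulAut.conj g).toMonoidHom ≤ D := by
      rw [Subgroup.map_iSup]
      apply iSup_le
      rintro ⟨L, hL1, hL2, hL3⟩
      rintro _ ⟨l, hl, rfl⟩
      exact le_iSup (fun L : ι => L.1) ⟨L, hL1, hL2, hL3⟩ (hL3 g hg l hl)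
    exact h1 ⟨d, hd, rfl⟩
  have hDmax : ∀ L : Subgroup S, L ≤ K → L ≠ K → Inv I L → L ≤ D := fun L h1 h2 h3 =>
    le_iSup (fun L : ι => L.1) ⟨L, h1, h2, h3⟩
  -- `K` is not perfect
  have hKne : K ≠ ⊥ := by
    rintro rfl
    apply hty
    rw [Subgroup.mem_bot] at hyK
    rw [hyK, mul_one, one_mul]
  have hcomm : ⁅K, K⁆ ≤ D := by
    apply hDmax
    · exact (Group.IsSolvable.commutator_lt_of_ne_bot hKne).le
    · exact (Group.IsSolvable.commutator_lt_of_ne_bot hKne).ne
    · intro g hg l hl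
      have h1 : ⁅K, K⁆.map (MulAut.conj g).toMonoidHom ≤ ⁅K, K⁆ := by
        rw [Subgroup.map_commutator]
        apply Subgroup.commutator_mono <;>
        · rintro _ ⟨k, hk, rfl⟩
          exact hKinv g hg k hk
      exact h1 ⟨l, hl, rfl⟩
  have hDnK : ∀ k ∈ K, ∀ d ∈ D, k * d * k⁻¹ ∈ D := by
    intro k hk d hd
    have h1 : k * d * k⁻¹ * d⁻¹ ∈ D := hcomm (Subgroup.commutator_mem_commutator hk (hDK hd))
    have h2 : k * d * k⁻¹ = (k * d * k⁻¹ * d⁻¹) * d := by group
    rw [h2]
    exact D.mul_mem h1 hd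
  have hKcomm : ∀ a ∈ K, ∀ b ∈ K, a * b * a⁻¹ * b⁻¹ ∈ D := fun a ha b hb =>
    hcomm (Subgroup.commutator_mem_commutator ha hb)
  -- an element of prime order inverted by `t`
  have hx₁ : ∃ x₁ ∈ K, x₁ ≠ 1 ∧ t * x₁ * t⁻¹ = x₁⁻¹ := by
    refine ⟨y⁻¹ * (t * y * t⁻¹), K.mul_mem (K.inv_mem hyK) (hKinv t htI y hyK), ?_, ?_⟩
    · intro h
      apply hty
      have h1 : t * y * t⁻¹ = y := by
        have := congrArg (y * ·) h
        simpa using this
      calc t * y = t * y * t⁻¹ * t := by group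
        _ = y * t := by rw [h1]
    · rw [htinv]
      calc t * (y⁻¹ * (t * y * t)) * t = t * y⁻¹ * t * y * (t * t) := by group
        _ = t * y⁻¹ * t * y := by rw [ht2, mul_one]
        _ = t⁻¹ * y⁻¹ * t⁻¹ * y := by rw [htinv]
        _ = (y⁻¹ * (t * y * t))⁻¹ := by group
  obtain ⟨x₁, hx₁K, hx₁1, hx₁t⟩ := hx₁
  have hord1 : orderOf x₁ ≠ 1 := fun h => hx₁1 (orderOf_eq_one_iff.mp h)
  have hrp : (orderOf x₁).minFac.Prime := Nat.minFac_prime hord1
  set x := x₁ ^ (orderOf x₁ / (orderOf x₁).minFac) with hxdef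
  have hxord : orderOf x = (orderOf x₁).minFac :=
    orderOf_pow_orderOf_div (orderOf_pos x₁).ne' (Nat.minFac_dvd _)
  have hxK : x ∈ K := K.pow_mem hx₁K _
  have hxt : t * x * t⁻¹ = x⁻¹ := by
    rw [hxdef, ← conj_pow, hx₁t, inv_pow]
  have hxodd : Odd (orderOf x) := hYodd x (hKY hxK)
  have hKodd : ∀ d ∈ D, d * d = 1 → d = 1 := by
    intro d hd h
    apply eq_one_of_sq_of_odd (by rw [pow_two]; exact h)
    exact hYodd d (hKY (hDK hd))
  have hxne1 : x ≠ 1 := by
    intro h
    rw [h, orderOf_one] at hxord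
    exact hrp.one_lt.ne hxord
  have hxne : x ≠ x⁻¹ := by
    intro h
    apply hxne1
    apply eq_one_of_sq_of_odd _ hxodd
    rw [pow_two]
    nth_rewrite 1 [h]
    exact inv_mul_cancel x
  have hxD : x ∉ D := by
    intro h
    apply hxne
    have h1 := hDc t htJ x h
    rw [← hxt, h1]
    group
  have hxcomm : ∀ d ∈ D, x * d = d * x := by
    intro d hd
    have h1 := hDnK x hxK d hd
    have h2 := hDc t htJ _ h1
    have h3 := hDc t htJ d hd
    have h4 : t * (x * d * x⁻¹) * t⁻¹ = x⁻¹ * d * x := by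
      calc t * (x * d * x⁻¹) * t⁻¹ = (t * x * t⁻¹) * (t * d) * t⁻¹ * (t * x⁻¹ * t⁻¹) := by group
        _ = (t * x * t⁻¹) * (d * t) * t⁻¹ * (t * x * t⁻¹)⁻¹ := by rw [h3]; group
        _ = x⁻¹ * d * x := by rw [hxt]; group
    have h5 : x * d * x⁻¹ = x⁻¹ * d * x := by
      rw [← h4, h2]; group
    have h6 : Commute (x ^ 2) d := by
      show x ^ 2 * d = d * x ^ 2
      calc x ^ 2 * d = x * (x * d * x⁻¹) * x := by rw [pow_two]; group
        _ = x * (x⁻¹ * d * x) * x := by rw [h5]
        _ = d * x ^ 2 := by rw [pow_two]; group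
    obtain ⟨s, hs⟩ := hxodd
    have h7 : x = (x ^ 2) ^ (s + 1) := by
      rw [← pow_mul]
      have : 2 * (s + 1) = orderOf x + 1 := by omega
      rw [this, pow_succ, pow_orderOf_eq_one, one_mul]
    have h8 : Commute x d := by
      rw [h7]
      exact h6.pow_left _
    exact h8.eq
  have hdich : ∀ g ∈ I, g * x * g⁻¹ = x ∨ g * x * g⁻¹ = x⁻¹ := by
    intro g hg
    have hgg : g * g = 1 := by rw [← pow_two]; exact hI2 g hg
    have hginv : g⁻¹ = g := inv_eq_of_mul_eq_one_left hgg
    have hgt : g * t = t * g := hIc g hg t htI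
    let C : Subgroup S :=
      { carrier := {k | k ∈ K ∧ g * k * g⁻¹ * k⁻¹ ∈ D}
        one_mem' := ⟨K.one_mem, by simp⟩
        mul_mem' := by
          rintro a b ⟨ha, ha'⟩ ⟨hb, hb'⟩
          refine ⟨K.mul_mem ha hb, ?_⟩
          have h1 : g * (a * b) * g⁻¹ * (a * b)⁻¹ =
              (g * a * g⁻¹ * a⁻¹) * (a * (g * b * g⁻¹ * b⁻¹) * a⁻¹) := by group
          rw [h1]
          exact D.mul_mem ha' (hDnK a ha _ hb')
        inv_mem' := by
          rintro a ⟨ha, ha'⟩
          refine ⟨K.inv_mem ha, ?_⟩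
          have h1 : g * a⁻¹ * g⁻¹ * a⁻¹⁻¹ = a⁻¹ * (g * a * g⁻¹ * a⁻¹)⁻¹ * a⁻¹⁻¹ := by group
          rw [h1]
          exact hDnK _ (K.inv_mem ha) _ (D.inv_mem ha') }
    have hCK : C ≤ K := fun k hk => hk.1
    have hCinv : Inv I C := by
      intro h hh k hk
      refine ⟨hKinv h hh k hk.1, ?_⟩
      have h1 := hDinv h hh _ hk.2
      have hgh : g * h = h * g := hIc g hg h hh
      have h2 : g * (h * k * h⁻¹) * g⁻¹ * (h * k * h⁻¹)⁻¹ = h * (g * k * g⁻¹ * k⁻¹) * h⁻¹ := by
        calc g * (h * k * h⁻¹) * g⁻¹ * (h * k * h⁻¹)⁻¹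
            = (g * h) * k * (g * h)⁻¹ * (h * k⁻¹ * h⁻¹) := by group
          _ = (h * g) * k * (h * g)⁻¹ * (h * k⁻¹ * h⁻¹) := by rw [hgh]
          _ = h * (g * k * g⁻¹ * k⁻¹) * h⁻¹ := by group
      rw [h2]
      exact h1
    set w := g * x * g⁻¹ with hwdef
    have hwt : t * w * t⁻¹ = w⁻¹ := by
      have h1 : t * g = g * t := hgt.symm
      calc t * w * t⁻¹ = (t * g) * x * (t * g)⁻¹ := by rw [hwdef]; group
        _ = (g * t) * x * (g * t)⁻¹ := by rw [h1]
        _ = g * (t * x * t⁻¹) * g⁻¹ := by group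
        _ = g * x⁻¹ * g⁻¹ := by rw [hxt]
        _ = w⁻¹ := by rw [hwdef]; group
    by_cases hCeq : C = K
    · left
      have hx' : x ∈ C := by rw [hCeq]; exact hxK
      have hd : w * x⁻¹ ∈ D := hx'.2
      set d := w * x⁻¹ with hddef
      have hwd : w = d * x := by rw [hddef]; group
      have h1 : t * d = d * t := hDc t htJ d hd
      have h2 : d * x⁻¹ = d⁻¹ * x⁻¹ := by
        calc d * x⁻¹ = (t * d * t⁻¹) * (t * x * t⁻¹) := by rw [hxt, h1]; group
          _ = t * w * t⁻¹ := by rw [hwd]; group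
          _ = w⁻¹ := hwt
          _ = x⁻¹ * d⁻¹ := by rw [hwd]; group
          _ = d⁻¹ * x⁻¹ := by
            have h3 : x⁻¹ * d⁻¹ = (d * x)⁻¹ := by group
            rw [h3, ← hxcomm d hd]; group
      have h3 : d = d⁻¹ := mul_right_cancel h2
      have h4 : d * d = 1 := by
        nth_rewrite 1 [h3]
        exact inv_mul_cancel d
      rw [hwd, hKodd d hd h4, one_mul]
    · right
      have hCD := hDmax C hCK hCeq hCinv
      have hwK : w ∈ K := hKinv g hg x hxK
      have hgw : g * w * g⁻¹ = x := by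
        rw [hwdef, hginv]
        calc g * (g * x * g) * g = (g * g) * x * (g * g) := by group
          _ = x := by rw [hgg]; group
      have hy : x * w ∈ C := by
        refine ⟨K.mul_mem hxK hwK, ?_⟩
        have h1 : g * (x * w) * g⁻¹ * (x * w)⁻¹ = w * x * w⁻¹ * x⁻¹ := by
          calc g * (x * w) * g⁻¹ * (x * w)⁻¹ = (g * x * g⁻¹) * (g * w * g⁻¹) * (x * w)⁻¹ := by group
            _ = w * x * (x * w)⁻¹ := by rw [hgw]
            _ = w * x * w⁻¹ * x⁻¹ := by group
        rw [h1]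
        exact hKcomm w hwK x hxK
      have hd := hCD hy
      set d := x * w with hddef
      have hwd : w = x⁻¹ * d := by rw [hddef]; group
      have h1 : t * d = d * t := hDc t htJ d hd
      have h2 : x * d = x * d⁻¹ := by
        calc x * d = (t * x⁻¹ * t⁻¹) * (t * d * t⁻¹) := by
              have h3 : t * x⁻¹ * t⁻¹ = (t * x * t⁻¹)⁻¹ := by group
              rw [h3, hxt, inv_inv, h1]; group
          _ = t * w * t⁻¹ := by rw [hwd]; group
          _ = w⁻¹ := hwt
          _ = d⁻¹ * x := by rw [hwd]; group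
          _ = x * d⁻¹ := by
            have h3 : x * d⁻¹ = (d * x⁻¹)⁻¹ := by group
            have h4 : d⁻¹ * x = (x⁻¹ * d)⁻¹ := by group
            have h5 : x⁻¹ * d = d * x⁻¹ := by
              have := hxcomm d hd
              calc x⁻¹ * d = x⁻¹ * (d * x) * x⁻¹ := by group
                _ = x⁻¹ * (x * d) * x⁻¹ := by rw [this]
                _ = d * x⁻¹ := by group
            rw [h3, h4, h5]
      have h3 : d = d⁻¹ := mul_left_cancel h2
      have h4 : d * d = 1 := by
        nth_rewrite 1 [h3]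
        exact inv_mul_cancel d
      rw [hwd, hKodd d hd h4, mul_one]
  exact ⟨x, hKY hxK, by rw [hxord]; exact hrp, hdich, t, htJ, hxt⟩

/-- The `A × B` type lemma. -/
lemma ab_lemma [Finite S] (F : Subgroup S) (hnil : Group.IsNilpotent F)
    (hodd : ∀ y ∈ F, Odd (orderOf y)) (t : S) (ht : t * t = 1) (htF : ∀ y ∈ F, t * y * t⁻¹ ∈ F)
    (B : Subgroup S) (hBF : B ≤ F) (hB : ∀ b ∈ B, t * b = b * t)
    (hC : ∀ c ∈ F, (∀ b ∈ B, c * b = b * c) → t * c = c * t) :
    ∀ y ∈ F, t * y = y * t := by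
  classical
  have htinv : t⁻¹ = t := inv_eq_of_mul_eq_one_left ht
  let H : Subgroup F :=
    { carrier := {y | t * (y : S) = (y : S) * t}
      one_mem' := by simp
      mul_mem' := by
        intro a b ha hb
        have ha' : t * (a : S) = (a : S) * t := ha
        have hb' : t * (b : S) = (b : S) * t := hb
        show t * ((a : S) * (b : S)) = ((a : S) * (b : S)) * t
        rw [← mul_assoc, ha', mul_assoc, hb', mul_assoc]
      inv_mem' := by
        intro a ha
        have ha' : t * (a : S) = (a : S) * t := ha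
        show t * (a : S)⁻¹ = (a : S)⁻¹ * t
        have h1 : Commute t (a : S) := ha'
        exact h1.inv_right.eq }
  have hHtop : H = ⊤ := by
    by_contra hne
    have hlt : H < ⊤ := lt_top_iff_ne_top.mpr hne
    have hnc := Group.normalizerCondition_of_isNilpotent (G := F) H hlt
    obtain ⟨y, hyN, hyH⟩ := SetLike.exists_of_lt hnc
    -- z = t y t⁻¹ y⁻¹
    let z : S := t * (y : S) * t⁻¹ * (y : S)⁻¹
    have hzF : z ∈ F := F.mul_mem (htF _ y.2) (F.inv_mem y.2)
    have hzB : ∀ b ∈ B, z * b = b * z := by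
      intro b hb
      -- y⁻¹ b y ∈ H
      have hbH : (⟨b, hBF hb⟩ : F) ∈ H := (hB b hb)
      have h1 : (⟨b, hBF hb⟩ : F) ∈ H ↔ y⁻¹ * ⟨b, hBF hb⟩ * y⁻¹⁻¹ ∈ H :=
        Subgroup.mem_normalizer_iff.mp (Subgroup.inv_mem _ hyN) _
      have h2 := h1.mp hbH
      have h3 : t * ((y : S)⁻¹ * b * y) = ((y : S)⁻¹ * b * y) * t := by
        have : t * (((y⁻¹ * ⟨b, hBF hb⟩ * y⁻¹⁻¹ : F) : F) : S) =
            (((y⁻¹ * ⟨b, hBF hb⟩ * y⁻¹⁻¹ : F) : F) : S) * t := h2
        simpa using this
      have h4 : t * (y : S)⁻¹ * b * y * t⁻¹ = (y : S)⁻¹ * b * y := by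
        calc t * (y : S)⁻¹ * b * y * t⁻¹ = (t * ((y : S)⁻¹ * b * y)) * t⁻¹ := by group
          _ = ((y : S)⁻¹ * b * y) * t * t⁻¹ := by rw [h3]
          _ = _ := by group
      show t * (y : S) * t⁻¹ * (y : S)⁻¹ * b = b * (t * (y : S) * t⁻¹ * (y : S)⁻¹)
      have h5 : (t * (y : S) * t⁻¹) * ((y : S)⁻¹ * b * y) = b * (t * (y : S) * t⁻¹) := by
        nth_rewrite 1 [← h4]
        have h6 : t * (y : S) * t⁻¹ * (t * (y : S)⁻¹ * b * y * t⁻¹) = t * ((y : S) * (t⁻¹ * t) * (y : S)⁻¹) * b * y * t⁻¹ := by group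
        rw [h6]
        simp only [inv_mul_cancel, mul_one, mul_inv_cancel]
        have h7 := hB b hb
        calc t * b * y * t⁻¹ = b * t * y * t⁻¹ := by rw [h7]
          _ = b * (t * y * t⁻¹) := by group
      calc t * (y : S) * t⁻¹ * (y : S)⁻¹ * b = ((t * (y : S) * t⁻¹) * ((y : S)⁻¹ * b * y)) * (y : S)⁻¹ := by group
        _ = (b * (t * (y : S) * t⁻¹)) * (y : S)⁻¹ := by rw [h5]
        _ = _ := by group
    have hzt := hC z hzF hzB
    have hyy : t * (y : S) * t⁻¹ = z * y := by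
      show _ = t * (y : S) * t⁻¹ * (y : S)⁻¹ * y
      group
    have hzz : z * z = 1 := by
      have h1 : (y : S) = z * z * y := by
        calc (y : S) = t * (t * (y : S) * t⁻¹) * t⁻¹ := by
              rw [htinv]
              calc (y : S) = (t * t) * y * (t * t) := by rw [ht]; group
                _ = _ := by group
          _ = t * (z * y) * t⁻¹ := by rw [hyy]
          _ = (t * z) * y * t⁻¹ := by group
          _ = (z * t) * y * t⁻¹ := by rw [hzt]
          _ = z * (t * (y : S) * t⁻¹) := by group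
          _ = z * (z * y) := by rw [hyy]
          _ = z * z * y := by group
      exact (mul_eq_right.mp h1.symm)
    have hz1 : z = 1 := eq_one_of_sq_of_odd (by rw [pow_two]; exact hzz) (hodd z hzF)
    apply hyH
    show t * (y : S) = (y : S) * t
    have h2 : t * (y : S) * t⁻¹ = y := by rw [hyy, hz1, one_mul]
    calc t * (y : S) = t * (y : S) * t⁻¹ * t := by group
      _ = (y : S) * t := by rw [h2]
  intro y hy
  have : (⟨y, hy⟩ : F) ∈ H := by rw [hHtop]; exact Subgroup.mem_top _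
  exact this

/-- The inductive invariant. -/
def Good (I F : Subgroup S) (k : ℕ) (f : Fin k → Subgroup S) : Prop :=
  (∀ i, (Nat.card ↥(f i)).Prime) ∧ (∀ i, f i ≤ F) ∧ (∀ i, Inv I (f i)) ∧
    (∀ i j, i ≠ j → ∀ a ∈ f i, ∀ b ∈ f j, a * b = b * a) ∧
    Nat.card ↥(⨆ i, f i) = ∏ i, Nat.card ↥(f i) ∧
    Nat.card ↥(I ⊓ centralizer ((⨆ i, f i : Subgroup S) : Set S)) * 2 ^ k = Nat.card I

lemma inv_iSup {I : Subgroup S} {k : ℕ} {f : Fin k → Subgroup S} (h : ∀ i, Inv I (f i)) :
    Inv I (⨆ i, f i) := by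
  intro g hg d hd
  have h1 : (⨆ i, f i).map (MulAut.conj g).toMonoidHom ≤ ⨆ i, f i := by
    rw [Subgroup.map_iSup]
    apply iSup_le
    intro i
    rintro _ ⟨l, hl, rfl⟩
    exact le_iSup f i (h i g hg l hl)
  exact h1 ⟨d, hd, rfl⟩

lemma card_sup_of_commute [Finite S] {B A : Subgroup S} (hc : ∀ b ∈ B, ∀ a ∈ A, b * a = a * b)
    (hd : B ⊓ A = ⊥) : Nat.card ↥(B ⊔ A) = Nat.card B * Nat.card A := by
  have hcomm : ∀ (m : B) (n : A), Commute (B.subtype m) (A.subtype n) :=
    fun m n => hc m m.2 n n.2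
  let φ := MonoidHom.noncommCoprod B.subtype A.subtype hcomm
  have hinj : Function.Injective φ := by
    rw [MonoidHom.noncommCoprod_injective]
    refine ⟨B.subtype_injective, A.subtype_injective, ?_⟩
    rw [Subgroup.range_subtype, Subgroup.range_subtype, disjoint_iff]
    exact hd
  have hrange : φ.range = B ⊔ A := by
    rw [MonoidHom.noncommCoprod_range, Subgroup.range_subtype, Subgroup.range_subtype]
  rw [← hrange, ← Nat.card_prod]
  exact (Nat.card_congr (MonoidHom.ofInjective hinj).toEquiv).symm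

/-- The inductive step. -/
lemma step [Finite S] [Group.IsSolvable S] (I F : Subgroup S) (hFnil : Group.IsNilpotent F)
    (hFC : centralizer (F : Set S) ≤ F) (hFn : F.Normal)
    (hFodd : ∀ y ∈ F, Odd (orderOf y))
    (hIc : ∀ g ∈ I, ∀ h ∈ I, g * h = h * g) (hI2 : ∀ g ∈ I, g ^ 2 = 1) {k : ℕ}
    (f : Fin k → Subgroup S) (hf : Good I F k f)
    (hne : I ⊓ centralizer ((⨆ i, f i : Subgroup S) : Set S) ≠ ⊥) :
    ∃ f' : Fin (k + 1) → Subgroup S, Good I F (k + 1) f' := by
  classical
  obtain ⟨hf1, hf2, hf3, hf4, hf5, hf6⟩ := hf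
  set B : Subgroup S := ⨆ i, f i with hBdef
  let J : Subgroup S := I ⊓ centralizer (B : Set S)
  have hBF : B ≤ F := iSup_le hf2
  have hBinv : Inv I B := inv_iSup hf3
  obtain ⟨t, htJ, ht1⟩ : ∃ t ∈ J, t ≠ 1 := by
    rcases J.bot_or_exists_ne_one with h | h
    · exact absurd h hne
    · exact h
  have htI : t ∈ I := htJ.1
  have htC : ∀ b ∈ B, b * t = t * b := fun b hb => Subgroup.mem_centralizer_iff.mp htJ.2 b hb
  have ht2 : t * t = 1 := by rw [← pow_two]; exact hI2 t htI
  have htF : ∀ y ∈ F, t * y * t⁻¹ ∈ F := fun y hy => hFn.conj_mem y hy t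
  have hIinv : ∀ g ∈ I, g⁻¹ = g := fun g hg =>
    inv_eq_of_mul_eq_one_left (by rw [← pow_two]; exact hI2 g hg)
  let Y : Subgroup S := F ⊓ centralizer (B : Set S)
  have hYinv : Inv I Y := by
    intro g hg y hy
    refine ⟨hFn.conj_mem y hy.1 g, ?_⟩
    refine Subgroup.mem_centralizer_iff.mpr ?_
    intro b hb
    have h1 : g⁻¹ * b * g ∈ B := by
      have := hBinv g⁻¹ (I.inv_mem hg) b hb
      simpa using this
    have h2 := Subgroup.mem_centralizer_iff.mp hy.2 _ h1
    calc b * (g * y * g⁻¹) = g * ((g⁻¹ * b * g) * y) * g⁻¹ := by group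
      _ = g * (y * (g⁻¹ * b * g)) * g⁻¹ := by rw [h2]
      _ = (g * y * g⁻¹) * b := by group
  have hJY : ∃ t ∈ J, ∃ y ∈ Y, t * y ≠ y * t := by
    by_contra hcon
    have hcon' : ∀ y ∈ Y, t * y = y * t := by
      intro y hy
      by_contra h
      exact hcon ⟨t, htJ, y, hy, h⟩
    have h1 := ab_lemma F hFnil hFodd t ht2 htF B hBF (fun b hb => (htC b hb).symm) (by
      intro c hc hcb
      apply hcon' c
      refine ⟨hc, ?_⟩
      refine Subgroup.mem_centralizer_iff.mpr ?_
      intro b hb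
      exact (hcb b hb).symm)
    have h2 : t ∈ F := by
      apply hFC
      refine Subgroup.mem_centralizer_iff.mpr ?_
      intro y hy
      exact (h1 y hy).symm
    exact ht1 (eq_one_of_sq_of_odd (by rw [pow_two]; exact ht2) (hFodd t h2))
  obtain ⟨x, hxY, hxp, hdich, t₀, ht₀J, ht₀x⟩ := exists_inverted I J Y hIc hI2 inf_le_left
    (fun y hy => hFodd y hy.1) hYinv hJY
  have hxodd := hFodd x hxY.1
  have hxne1 : x ≠ 1 := by
    intro h
    rw [h, orderOf_one] at hxp
    exact Nat.not_prime_one hxp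
  have hxne : x⁻¹ ≠ x := by
    intro h
    apply hxne1
    apply eq_one_of_sq_of_odd _ hxodd
    rw [pow_two]
    nth_rewrite 1 [← h]
    exact inv_mul_cancel x
  have ht₀C : ∀ b ∈ B, b * t₀ = t₀ * b := fun b hb => Subgroup.mem_centralizer_iff.mp ht₀J.2 b hb
  have hxB : x ∉ B := by
    intro h
    apply hxne
    rw [← ht₀x, ← ht₀C x h]
    group
  let A : Subgroup S := zpowers x
  have hAc : Nat.card A = orderOf x := Nat.card_zpowers x
  have hBA : B ⊓ A = ⊥ := by
    have h1 : Nat.card (B ⊓ A : Subgroup S) ∣ Nat.card A := Subgroup.card_dvd_of_le inf_le_right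
    rw [hAc] at h1
    rcases (Nat.dvd_prime hxp).mp h1 with h2 | h2
    · exact Subgroup.eq_bot_of_card_eq _ h2
    · exfalso
      have h3 : B ⊓ A = A := Subgroup.eq_of_le_of_card_ge inf_le_right (by rw [hAc, h2])
      have h4 : x ∈ B ⊓ A := by rw [h3]; exact mem_zpowers x
      exact hxB h4.1
  have hxcb : ∀ b ∈ B, b * x = x * b := fun b hb => Subgroup.mem_centralizer_iff.mp hxY.2 b hb
  have hBAc : ∀ b ∈ B, ∀ a ∈ A, b * a = a * b := by
    intro b hb a ha
    obtain ⟨i, rfl⟩ := ha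
    have h1 : Commute b x := hxcb b hb
    exact (h1.zpow_right i).eq
  have hAF : A ≤ F := by
    rw [Subgroup.zpowers_le]
    exact hxY.1
  have hAinv : Inv I A := by
    intro g hg a ha
    obtain ⟨i, rfl⟩ := ha
    simp only
    rw [← conj_zpow]
    rcases hdich g hg with h | h
    · rw [h]; exact Subgroup.zpow_mem _ (mem_zpowers x) i
    · rw [h]; exact Subgroup.zpow_mem _ (Subgroup.inv_mem _ (mem_zpowers x)) i
  let f' : Fin (k + 1) → Subgroup S := Fin.snoc (α := fun _ => Subgroup S) f A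
  have hf'c : ∀ i : Fin k, f' i.castSucc = f i := fun i => Fin.snoc_castSucc (α := fun _ => Subgroup S) _ _ _
  have hf'l : f' (Fin.last k) = A := Fin.snoc_last (α := fun _ => Subgroup S) _ _
  have hsup : (⨆ i, f' i) = B ⊔ A := by
    apply le_antisymm
    · apply iSup_le
      intro i
      refine Fin.lastCases ?_ (fun j => ?_) i
      · rw [hf'l]; exact le_sup_right
      · rw [hf'c]; exact (le_iSup f j).trans le_sup_left
    · apply sup_le
      · apply iSup_le
        intro j
        rw [← hf'c]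
        exact le_iSup f' j.castSucc
      · rw [← hf'l]
        exact le_iSup f' (Fin.last k)
  have hcomm' : ∀ i, ∀ a ∈ f i, ∀ b ∈ A, a * b = b * a := fun i a ha b hb =>
    hBAc a (le_iSup f i ha) b hb
  refine ⟨f', ?_, ?_, ?_, ?_, ?_, ?_⟩
  · intro i
    refine Fin.lastCases ?_ (fun j => ?_) i
    · rw [hf'l, hAc]; exact hxp
    · rw [hf'c]; exact hf1 j
  · intro i
    refine Fin.lastCases ?_ (fun j => ?_) i
    · rw [hf'l]; exact hAF
    · rw [hf'c]; exact hf2 j
  · intro i
    refine Fin.lastCases ?_ (fun j => ?_) i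
    · rw [hf'l]; exact hAinv
    · rw [hf'c]; exact hf3 j
  · intro i j
    refine Fin.lastCases ?_ (fun i' => ?_) i
    · refine Fin.lastCases ?_ (fun j' => ?_) j
      · intro h; exact absurd rfl h
      · intro _ a ha b hb
        rw [hf'l] at ha
        rw [hf'c] at hb
        exact (hcomm' j' b hb a ha).symm
    · refine Fin.lastCases ?_ (fun j' => ?_) j
      · intro _ a ha b hb
        rw [hf'c] at ha
        rw [hf'l] at hb
        exact hcomm' i' a ha b hb
      · intro hij a ha b hb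
        rw [hf'c] at ha hb
        exact hf4 i' j' (fun h => hij (by rw [h])) a ha b hb
  · rw [hsup, card_sup_of_commute hBAc hBA, hf5, Fin.prod_univ_castSucc]
    simp only [hf'c, hf'l]
  · rw [hsup]
    have hJ' : I ⊓ centralizer ((B ⊔ A : Subgroup S) : Set S) = J ⊓ centralizer (A : Set S) := by
      ext g
      constructor
      · rintro ⟨hg1, hg2⟩
        replace hg2 := Subgroup.mem_centralizer_iff.mp hg2
        refine ⟨⟨hg1, ?_⟩, ?_⟩
        · refine Subgroup.mem_centralizer_iff.mpr ?_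
          intro b hb
          exact hg2 b (Subgroup.mem_sup_left hb)
        · refine Subgroup.mem_centralizer_iff.mpr ?_
          intro b hb
          exact hg2 b (Subgroup.mem_sup_right hb)
      · rintro ⟨⟨hg1, hg2⟩, hg3⟩
        refine ⟨hg1, ?_⟩
        have : B ⊔ A ≤ centralizer ({g} : Set S) := by
          apply sup_le
          · intro b hb
            rw [Subgroup.mem_centralizer_singleton_iff]
            exact (Subgroup.mem_centralizer_iff.mp hg2 b hb)
          · intro b hb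
            rw [Subgroup.mem_centralizer_singleton_iff]
            exact (Subgroup.mem_centralizer_iff.mp hg3 b hb)
        refine Subgroup.mem_centralizer_iff.mpr ?_
        intro b hb
        have h1 := this hb
        rw [Subgroup.mem_centralizer_singleton_iff] at h1
        exact h1
    rw [hJ']
    have hcen : ∀ g, g ∈ centralizer (A : Set S) ↔ g * x = x * g := by
      intro g
      constructor
      · intro h
        exact (Subgroup.mem_centralizer_iff.mp h x (mem_zpowers x)).symm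
      · intro h
        refine Subgroup.mem_centralizer_iff.mpr ?_
        rintro _ ⟨i, rfl⟩
        have h1 : Commute g x := h
        exact (h1.zpow_right i).eq.symm
    have hidx : (J ⊓ centralizer (A : Set S)).relIndex J = 2 := by
      show ((J ⊓ centralizer (A : Set S)).subgroupOf J).index = 2
      rw [Subgroup.index_eq_two_iff]
      refine ⟨⟨t₀, ht₀J⟩, fun b => ?_⟩
      have hmem : ∀ c : J, c ∈ (J ⊓ centralizer (A : Set S)).subgroupOf J ↔ (c : S) * x = x * c := by
        intro c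
        rw [Subgroup.mem_subgroupOf]
        constructor
        · intro h
          exact (hcen _).mp h.2
        · intro h
          exact ⟨c.2, (hcen _).mpr h⟩
      have hcom : ∀ c : S, c * x * c⁻¹ = x ↔ c * x = x * c := by
        intro c
        constructor
        · intro h
          calc c * x = c * x * c⁻¹ * c := by group
            _ = x * c := by rw [h]
        · intro h
          rw [h]; group
      rw [hmem, hmem]
      rw [← hcom, ← hcom]
      have hbt : ((b * ⟨t₀, ht₀J⟩ : J) : S) * x * ((b * ⟨t₀, ht₀J⟩ : J) : S)⁻¹ =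
          (b : S) * (t₀ * x * t₀⁻¹) * (b : S)⁻¹ := by
        show ((b : S) * t₀) * x * ((b : S) * t₀)⁻¹ = _
        group
      rw [hbt, ht₀x]
      rcases hdich b b.2.1 with h | h
      · right
        refine ⟨h, ?_⟩
        have h3 : (b : S) * x⁻¹ * (b : S)⁻¹ = ((b : S) * x * (b : S)⁻¹)⁻¹ := by group
        rw [h3, h]
        exact hxne
      · left
        have h3 : (b : S) * x⁻¹ * (b : S)⁻¹ = ((b : S) * x * (b : S)⁻¹)⁻¹ := by group
        refine ⟨?_, ?_⟩
        · rw [h3, h, inv_inv]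
        · rw [h]
          exact hxne
    have h3 := Subgroup.relIndex_mul_relIndex (⊥ : Subgroup S) (J ⊓ centralizer (A : Set S)) J bot_le inf_le_left
    rw [Subgroup.relIndex_bot_left, Subgroup.relIndex_bot_left, hidx] at h3
    rw [pow_succ, mul_comm (2 ^ k), ← mul_assoc, h3]
    exact hf6

/-- Let S be a finite solvable group whose Fitting subgroup F(S) has odd order, and let I be an elementary abelian 2-subgroup of S of order 2ⁿ with n ≥ 1. Then F(S) contains subgroups A₁, …, Aₙ of prime order, each normalized by I, pairwise commuting and generating a subgroup A of order |A₁|⋯|Aₙ| (their internal direct product), such that no non-identity element of I centralizes A. -/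
theorem result {S : Type*} [Group S] [Finite S]
    [Group.IsSolvable S] (hF : Odd (Nat.card ↥(Cfsg.fittingSubgroup S)))
    (I : Subgroup S) (hI : Cfsg.IsElementaryAbelian 2 I) (n : ℕ) (hn : 1 ≤ n) (hIn : Nat.card ↥I = 2 ^ n) :
    ∃ f : Fin n → Subgroup S, (∀ i, (Nat.card ↥(f i)).Prime) ∧ (∀ i, f i ≤ Cfsg.fittingSubgroup S) ∧
      (∀ i, I ≤ Subgroup.normalizer ((f i) : Set S)) ∧ (∀ i j, i ≠ j → ∀ a ∈ f i, ∀ b ∈ f j, a * b = b * a) ∧
      Nat.card ↥(⨆ i, f i) = ∏ i, Nat.card ↥(f i) ∧ I ⊓ Subgroup.centralizer ((⨆ i, f i : Subgroup S) : Set S) = ⊥ := by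
  classical
  obtain ⟨hIab, hI2⟩ := hI
  have hIc : ∀ g ∈ I, ∀ h ∈ I, g * h = h * g := by
    intro g hg h hh
    have := hIab.is_comm.comm ⟨g, hg⟩ ⟨h, hh⟩
    exact congrArg Subtype.val this
  have hFnil : Group.IsNilpotent (fittingSubgroup S) := Cfsg.Agent.Lib.Core.Basic.fittingSubgroup_isNilpotent
  have hFodd : ∀ y ∈ fittingSubgroup S, Odd (orderOf y) := by
    intro y hy
    have h1 : orderOf y ∣ Nat.card (fittingSubgroup S) := by
      rw [← Subgroup.orderOf_mk y hy]
      exact orderOf_dvd_natCard _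
    exact hF.of_dvd_nat h1
  have hFC := Cfsg.Agent.Lib.Solvable.Fitting.centralizer_fittingSubgroup_le (G := S)
  -- the induction
  have hmain : ∀ k, k ≤ n → ∃ f : Fin k → Subgroup S, Good I (fittingSubgroup S) k f := by
    intro k
    induction k with
    | zero =>
      intro _
      refine ⟨Fin.elim0, fun i => i.elim0, fun i => i.elim0, fun i => i.elim0, fun i => i.elim0, ?_, ?_⟩
      · simp
      · have h0 : (⨆ i : Fin 0, ((Fin.elim0 i : Subgroup S))) = ⊥ := iSup_of_empty _
        have h1 : I ⊓ centralizer (((⨆ i : Fin 0, ((Fin.elim0 i : Subgroup S))) : Subgroup S) : Set S) = I := by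
          rw [h0, inf_eq_left]
          intro g _
          refine Subgroup.mem_centralizer_iff.mpr ?_
          intro h hh
          have hh' : h = 1 := hh
          rw [hh', one_mul, mul_one]
        rw [h1, pow_zero, mul_one]
    | succ k ih =>
      intro hk
      obtain ⟨f, hf⟩ := ih (by omega)
      refine step I (fittingSubgroup S) hFnil hFC inferInstance hFodd hIc hI2 f hf ?_
      intro hbot
      have h6 := hf.2.2.2.2.2
      rw [hbot, Subgroup.card_bot, one_mul, hIn] at h6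
      have h7 : 2 ^ k < 2 ^ n := Nat.pow_lt_pow_right (by norm_num) (by omega)
      omega
  obtain ⟨f, hf1, hf2, hf3, hf4, hf5, hf6⟩ := hmain n le_rfl
  refine ⟨f, hf1, hf2, ?_, hf4, hf5, ?_⟩
  · intro i g hg
    rw [Subgroup.mem_normalizer_iff]
    intro h
    have hginv : g⁻¹ = g := inv_eq_of_mul_eq_one_left (by rw [← pow_two]; exact hI2 g hg)
    constructor
    · intro hh
      exact hf3 i g hg h hh
    · intro hh
      have h1 := hf3 i g hg _ hh
      have h2 : g * (g * h * g⁻¹) * g⁻¹ = (g * g) * h * (g * g)⁻¹ := by group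
      have h3 : g * g = 1 := by rw [← pow_two]; exact hI2 g hg
      rw [h2, h3] at h1
      simpa using h1
  · rw [hIn] at hf6
    have h1 : Nat.card ↥(I ⊓ centralizer ((⨆ i, f i : Subgroup S) : Set S)) = 1 := by
      have hpos : 0 < 2 ^ n := by positivity
      exact Nat.eq_of_mul_eq_mul_right hpos (by rw [hf6, one_mul])
    exact Subgroup.eq_bot_of_card_eq _ h1

end Cfsg.Agent.S4408
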