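import Cfsg.Statements.S4409
import Cfsg.Agent.Lib.NCA8.StepA
import Cfsg.Agent.Lib.Solvable.Hall
import Cfsg.Agent.Lib.Core.PSolvable
import Cfsg.Agent.Lib.Core.PSolvable2
import Cfsg.Agent.Lib.PGroups.Special

set_option autoImplicit false
open Cfsg

namespace Cfsg.Agent.S4409


open Subgroup
open Cfsg.Agent.Lib.Coprime.Action Cfsg.Agent.Lib.NCA8.Basic Cfsg.Agent.Lib.NCA8.Act
  Cfsg.Agent.Lib.NCA8.Q8 Cfsg.Agent.Lib.NCA8.MinAct Cfsg.Agent.Lib.NCA8.StepB
  Cfsg.Agent.Lib.NCA8.StepA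
open scoped commutatorElement

universe u

/-- Passing to the subgroup `P` as a group. -/
theorem special_of {S : Type u} [Group S] [Finite S] {P : Subgroup S} (hP2 : IsPGroup 2 P)
    (h1 : Sq P = P ⊓ centralizer (P : Set S)) (h2 : Sq P = ⁅P, P⁆) :
    Cfsg.IsSpecial 2 ↥P ∧ Nat.card (center ↥P) = Nat.card (Sq P) := by
  haveI : Fact (Nat.Prime 2) := ⟨Nat.prime_two⟩
  have hmem : ∀ x : P, x ∈ center ↥P ↔ (x : S) ∈ Sq P := by
    intro x
    rw [h1, mem_center_iff]
    constructor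
    · intro hx
      refine ⟨x.2, ?_⟩
      show (x : S) ∈ centralizer (P : Set S)
      rw [mem_centralizer_iff]
      intro g hg
      exact congrArg Subtype.val (hx ⟨g, hg⟩)
    · rintro ⟨-, hx⟩ g
      exact Subtype.ext (mem_centralizer_iff.mp hx g g.2)
  have hcm : center ↥P = (Sq P).subgroupOf P := by
    ext x
    rw [hmem, mem_subgroupOf]
  have hcomm : commutator ↥P = center ↥P := by
    apply Subgroup.map_injective P.subtype_injective
    rw [Subgroup.map_subtype_commutator, hcm, Subgroup.map_subgroupOf_eq_of_le (sq_le P), h2]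
  have hfr : frattini ↥P = center ↥P := by
    refine le_antisymm ?_ ?_
    · refine Cfsg.Agent.Lib.PGroups.Basic.frattini_le_of_normal (p := 2) (center ↥P) hcomm.le ?_
      intro x
      rw [hmem]
      exact sq_mem x.2
    · rw [← hcomm]
      exact Cfsg.Agent.Lib.PGroups.Basic.commutator_le_frattini hP2
  refine ⟨⟨hP2, hfr, hcomm⟩, ?_⟩
  rw [hcm]
  exact Nat.card_congr (Subgroup.subgroupOfEquivOfLe (sq_le P)).toEquiv

theorem main_result {S : Type*} [Group S] [Finite S]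
    [Group.IsSolvable S] (hO : Cfsg.pPrimeCore 2 S = ⊥)
    (h8 : ∃ A : Subgroup S, IsMulCommutative ↥A ∧ ¬ IsCyclic ↥A ∧ Nat.card ↥A = 8)
    (hmin : ∀ R : Subgroup S, R ≠ ⊤ → (∃ k : ℕ, R.index = 2 ^ k) →
      ¬ ∃ A : Subgroup S, A ≤ R ∧ IsMulCommutative ↥A ∧ ¬ IsCyclic ↥A ∧ Nat.card ↥A = 8)
    (X : Sylow 2 S) :
    (X : Subgroup S).Normal ∧
      (IsMulCommutative ↥X ∨
        (Cfsg.IsExtraspecial 2 ↥X ∧ 32 ≤ Nat.card ↥X) ∨
        (∃ (X₀ : Subgroup S) (k : ℕ), X₀ ≤ (X : Subgroup S) ∧ X₀.relIndex (X : Subgroup S) = 2 ∧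
          Nonempty (↥X₀ ≃* QuaternionGroup (2 ^ (k + 1))) ∧ X₀ ⊔ ((X : Subgroup S) ⊓ Subgroup.centralizer (X₀ : Set S)) = (X : Subgroup S)) ∨
        (Cfsg.IsSpecial 2 ↥X ∧ Nat.card ↥(Subgroup.center ↥X) = 4)) := by
  classical
  haveI : Fact (Nat.Prime 2) := ⟨Nat.prime_two⟩
  obtain ⟨A, hAc, hAn, hA8⟩ := h8
  have hA2 : IsPGroup 2 A := IsPGroup.of_card (n := 3) (by rw [hA8]; norm_num)
  obtain ⟨P, hAP⟩ := hA2.exists_le_sylow
  have hP2 : IsPGroup 2 (P : Subgroup S) := P.isPGroup'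
  -- the Hall subgroup
  have hPcard : (P : Subgroup S).index * Nat.card (P : Subgroup S) = Nat.card S :=
    Subgroup.index_mul_card _
  obtain ⟨K, hK⟩ := Cfsg.Agent.Lib.Solvable.Hall.exists_card_eq (P : Subgroup S).index
    (Nat.card (P : Subgroup S)) hPcard.symm P.card_coprime_index.symm
  have hodd : Odd (Nat.card K) := by
    rw [hK, ← Nat.not_even_iff_odd, even_iff_two_dvd]
    exact P.not_dvd_index
  have hcard : Nat.card K * Nat.card (P : Subgroup S) = Nat.card S := by rw [hK, hPcard]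
  -- the hypothesis in terms of `K`-invariant subgroups
  have hno : ∀ U : Subgroup S, IsPGroup 2 U → K ≤ normalizer (U : Set S) →
      Nat.card U < Nat.card (P : Subgroup S) → ¬ NCA U := by
    intro U hU2 hKU hlt hn
    have hsup := Cfsg.Agent.Lib.QuadAct.Basic.card_sup_mul_card_inf_of_le_normalizer K U hKU
    have hKpos : 0 < Nat.card K := Nat.card_pos
    have hinfpos : 0 < Nat.card (K ⊓ U : Subgroup S) := Nat.card_pos
    have hRlt : Nat.card (K ⊔ U : Subgroup S) < Nat.card S := by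
      rw [← hcard]
      calc Nat.card (K ⊔ U : Subgroup S) ≤ Nat.card (K ⊔ U : Subgroup S) * Nat.card (K ⊓ U : Subgroup S) :=
            Nat.le_mul_of_pos_right _ hinfpos
        _ = Nat.card K * Nat.card U := hsup
        _ < Nat.card K * Nat.card (P : Subgroup S) := Nat.mul_lt_mul_of_pos_left hlt hKpos
    have hRne : K ⊔ U ≠ ⊤ := by
      intro he
      rw [he, Subgroup.card_top] at hRlt
      exact lt_irrefl _ hRlt
    have hidx : ∃ k : ℕ, (K ⊔ U).index = 2 ^ k := by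
      have h1 : (K ⊔ U).index * Nat.card (K ⊔ U : Subgroup S) = Nat.card S := Subgroup.index_mul_card _
      obtain ⟨r, hr⟩ : Nat.card K ∣ Nat.card (K ⊔ U : Subgroup S) := Subgroup.card_dvd_of_le le_sup_left
      have h2 : (K ⊔ U).index ∣ Nat.card (P : Subgroup S) := by
        rw [hr, ← hcard] at h1
        have h3 : Nat.card K * ((K ⊔ U).index * r) = Nat.card K * Nat.card (P : Subgroup S) := by
          rw [← h1]; ring
        have h4 := Nat.eq_of_mul_eq_mul_left hKpos h3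
        exact ⟨r, h4.symm⟩
      obtain ⟨a, ha⟩ := IsPGroup.iff_card.mp hP2
      rw [ha] at h2
      obtain ⟨k, -, hk⟩ := (Nat.dvd_prime_pow Nat.prime_two).mp h2
      exact ⟨k, hk⟩
    exact hmin _ hRne hidx (NCA.mono le_sup_right hn)
  -- the core
  have hNn : (Cfsg.pCore 2 S).Normal := Subgroup.normal_of_characteristic _
  have hN2 : IsPGroup 2 (Cfsg.pCore 2 S) := Cfsg.Agent.Lib.Core.Basic.pCore_isPGroup
  have hNP : Cfsg.pCore 2 S ≤ P := Cfsg.Agent.Lib.Core.Basic.pCore_le_sylow P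
  have hcen : centralizer (Cfsg.pCore 2 S : Set S) ≤ Cfsg.pCore 2 S :=
    Cfsg.Agent.Lib.Core.PSolvable.centralizer_pCore_le_of_isPSolvable
      Cfsg.Agent.Lib.Core.PSolvable2.isPSolvable_of_isSolvable hO
  have hcore : ∀ U : Subgroup S, U.Normal → IsPGroup 2 U → U ≤ Cfsg.pCore 2 S :=
    fun U hU hU2 => Cfsg.Agent.Lib.Core.Basic.le_pCore hU hU2
  have hNPe : Cfsg.pCore 2 S = P :=
    step_A hNn hN2 hNP hP2 hcen hodd hcard hno hAP hAc hAn hA8 hcore
  have hPn : (P : Subgroup S).Normal := by rw [← hNPe]; exact hNn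
  have hcenP : centralizer ((P : Subgroup S) : Set S) ≤ P := by rw [← hNPe]; exact hcen
  have hXP : X = P := by
    haveI := Sylow.unique_of_normal P hPn
    exact Subsingleton.elim _ _
  subst hXP
  refine ⟨hPn, ?_⟩
  by_cases hab : IsMulCommutative ↥(X : Subgroup S)
  · exact Or.inl hab
  right
  have hnab : ∃ x ∈ (X : Subgroup S), ∃ y ∈ (X : Subgroup S), x * y ≠ y * x := by
    by_contra hall
    push Not at hall
    exact hab ⟨⟨fun a b => Subtype.ext (hall a a.2 b b.2)⟩⟩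
  have hKP : K ≤ normalizer ((X : Subgroup S) : Set S) := by
    rw [normalizer_eq_top_iff.mpr hPn]; exact le_top
  have hact : OddAct (X : Subgroup S) K := ⟨hP2, hodd, hKP⟩
  have hnoP : ∀ U ≤ (X : Subgroup S), K ≤ normalizer (U : Set S) → U ≠ X → ¬ NCA U := by
    intro U hU hKU hne
    exact hno U (hP2.to_le hU) hKU (Cfsg.Agent.Lib.PGroups.Basic.card_lt_of_lt (lt_of_le_of_ne hU hne))
  have hAne : A ≠ X := by
    intro he
    apply hab
    rw [← he]
    exact hAc
  have hAnca : NCA A := ⟨A, le_rfl, hAc, hAn, hA8⟩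
  have hK : ⁅(X : Subgroup S), K⁆ ≠ ⊥ := by
    intro hbot
    have h1 : K ≤ centralizer ((X : Subgroup S) : Set S) :=
      le_centralizer_iff.mp (commutator_eq_bot_iff_le_centralizer.mp hbot)
    have h2 : K ≤ X := h1.trans hcenP
    have h3 : Nat.card K ∣ Nat.card (X : Subgroup S) := Subgroup.card_dvd_of_le h2
    have h4 : Nat.card K = 1 := by
      obtain ⟨a, ha⟩ := IsPGroup.iff_card.mp hP2
      rw [ha] at h3
      obtain ⟨b, -, hb⟩ := (Nat.dvd_prime_pow Nat.prime_two).mp h3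
      rcases Nat.eq_zero_or_pos b with rfl | hb0
      · simpa using hb
      · exfalso
        rw [hb] at hodd
        exact (Nat.not_even_iff_odd.mpr hodd) ((Nat.even_pow' (by omega)).mpr even_two)
    have hKbot : K = ⊥ := (Subgroup.card_eq_one).mp h4
    exact hnoP A hAP (by rw [hKbot]; exact bot_le) hAne hAnca
  by_cases hlt : ⁅(X : Subgroup S), K⁆ = X
  · obtain ⟨h1, h2, h3⟩ := step_C3 hact hlt hnoP hnab
    obtain ⟨hs, hc⟩ := special_of hP2 h1 h2
    rcases h3 with h3 | h3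
    · left
      have hex : Cfsg.IsExtraspecial 2 ↥(X : Subgroup S) := ⟨hs, by rw [hc, h3]⟩
      refine ⟨hex, ?_⟩
      change 32 ≤ Nat.card ↥(X : Subgroup S)
      obtain ⟨n, hn1, hn⟩ := Cfsg.Agent.Lib.PGroups.Special.IsExtraspecial.card_eq hex
      have hlt8 : 8 < Nat.card (X : Subgroup S) := by
        rw [← hA8]
        exact Cfsg.Agent.Lib.PGroups.Basic.card_lt_of_lt (lt_of_le_of_ne hAP hAne)
      rw [hn] at hlt8 ⊢
      have hn2 : 2 ≤ n := by
        by_contra hlt'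
        have : n = 1 := by omega
        rw [this] at hlt8
        norm_num at hlt8
      calc 32 = 2 ^ 5 := by norm_num
        _ ≤ 2 ^ (2 * n + 1) := Nat.pow_le_pow_right (by norm_num) (by omega)
    · right; right
      refine ⟨hs, ?_⟩
      change Nat.card (center ↥(X : Subgroup S)) = 4
      rw [hc, h3]
  · right; left
    obtain ⟨Y, z, hq, hYP, hrel, hsup⟩ := step_C2 hact hK hlt hnoP hnab
    obtain ⟨e⟩ := hq.nonempty_equiv
    exact ⟨Y, 0, hYP, hrel, ⟨e.symm⟩, hsup⟩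



/-- Let S be a finite solvable group with O_{2'}(S) = 1 that contains a non-cyclic abelian subgroup of order 8, while no proper subgroup of S of 2-power index contains one. Then a Sylow 2-subgroup X of S is normal in S, and one of the following holds: X is abelian; X is extraspecial of order at least 32; X has a generalized quaternion subgroup X₀ of index 2 with X = X₀·C_X(X₀); or X is special with centre of order 4. -/
theorem result {S : Type*} [Group S] [Finite S]
    [Group.IsSolvable S] (hO : Cfsg.pPrimeCore 2 S = ⊥)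
    (h8 : ∃ A : Subgroup S, IsMulCommutative ↥A ∧ ¬ IsCyclic ↥A ∧ Nat.card ↥A = 8)
    (hmin : ∀ R : Subgroup S, R ≠ ⊤ → (∃ k : ℕ, R.index = 2 ^ k) →
      ¬ ∃ A : Subgroup S, A ≤ R ∧ IsMulCommutative ↥A ∧ ¬ IsCyclic ↥A ∧ Nat.card ↥A = 8)
    (X : Sylow 2 S) :
    (X : Subgroup S).Normal ∧
      (IsMulCommutative ↥X ∨
        (Cfsg.IsExtraspecial 2 ↥X ∧ 32 ≤ Nat.card ↥X) ∨
        (∃ (X₀ : Subgroup S) (k : ℕ), X₀ ≤ (X : Subgroup S) ∧ X₀.relIndex (X : Subgroup S) = 2 ∧
          Nonempty (↥X₀ ≃* QuaternionGroup (2 ^ (k + 1))) ∧ X₀ ⊔ ((X : Subgroup S) ⊓ Subgroup.centralizer (X₀ : Set S)) = (X : Subgroup S)) ∨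
        (Cfsg.IsSpecial 2 ↥X ∧ Nat.card ↥(Subgroup.center ↥X) = 4)) := by
  exact main_result hO h8 hmin X

end Cfsg.Agent.S4409
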