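import Cfsg.Statements.S4410
import Cfsg.Agent.Lib.CaseTh.SolvableCharP2

set_option autoImplicit false
open Cfsg

namespace Cfsg.Agent.S4410

open Subgroup

variable {V : Type*} [AddCommGroup V] [Module (ZMod 2) V]

lemma add_self' (v : V) : v + v = 0 := by
  have h : (2 : ZMod 2) = 0 := rfl
  rw [← two_smul (ZMod 2) v, h, zero_smul]

/-- `u` is a transvection with centre `a`. -/
structure Tv (u : V ≃ₗ[ZMod 2] V) (a : V) : Prop where
  ne : a ≠ 0
  inv : ∀ v, u (u v) = v
  mem : ∀ v, u v = v ∨ u v = v + a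
  ne1 : ∃ v, u v ≠ v

lemma Tv.fix {u : V ≃ₗ[ZMod 2] V} {a : V} (h : Tv u a) : u a = a := by
  rcases h.mem a with h1 | h1
  · exact h1
  · exfalso
    rw [add_self'] at h1
    apply h.ne
    exact (LinearEquiv.map_eq_zero_iff u).mp h1

lemma Tv.unique {u : V ≃ₗ[ZMod 2] V} {a b : V} (h : Tv u a) (h' : Tv u b) : a = b := by
  obtain ⟨v, hv⟩ := h.ne1
  rcases h.mem v with h1 | h1
  · exact absurd h1 hv
  · rcases h'.mem v with h2 | h2
    · exact absurd h2 hv
    · rw [h1] at h2
      exact add_left_cancel h2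

lemma Tv.conj {u : V ≃ₗ[ZMod 2] V} {a : V} (h : Tv u a) (g : V ≃ₗ[ZMod 2] V) :
    Tv (g * u * g⁻¹) (g a) := by
  refine ⟨?_, ?_, ?_, ?_⟩
  · intro h0
    exact h.ne ((LinearEquiv.map_eq_zero_iff g).mp h0)
  · intro v
    simp [LinearEquiv.mul_apply, h.inv]
  · intro v
    simp only [LinearEquiv.mul_apply, LinearEquiv.coe_inv]
    rcases h.mem (g.symm v) with h1 | h1
    · left
      rw [h1]
      simp
    · right
      rw [h1, map_add]
      simp
  · obtain ⟨v, hv⟩ := h.ne1
    refine ⟨g v, ?_⟩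
    simp only [LinearEquiv.mul_apply, LinearEquiv.coe_inv, LinearEquiv.symm_apply_apply]
    intro h1
    exact hv (g.injective h1)

lemma four {u w : V ≃ₗ[ZMod 2] V} {a b : V} (hu : Tv u a) (hw : Tv w b) (hub : u b = b) :
    (u * w) ^ 4 = 1 := by
  set W := u * w with hWdef
  have hWapp : ∀ v, W v = u (w v) := fun v => rfl
  have hWb : W b = b := by rw [hWapp, hw.fix, hub]
  have hWa : W a = a ∨ W a = a + b := by
    rw [hWapp]
    rcases hw.mem a with h1 | h1
    · left; rw [h1, hu.fix]
    · right; rw [h1, map_add, hu.fix, hub]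
  have hW : ∀ v, W v = v ∨ W v = v + a ∨ W v = v + b ∨ W v = v + a + b := by
    intro v
    rw [hWapp]
    rcases hw.mem v with h1 | h1 <;> rcases hu.mem v with h2 | h2
    · left; rw [h1, h2]
    · right; left; rw [h1, h2]
    · right; right; left; rw [h1, map_add, h2, hub]
    · right; right; right; rw [h1, map_add, h2, hub]
  have ha := add_self' a
  have hb := add_self' b
  have hW2 : ∀ v, W (W v) = v ∨ W (W v) = v + b := by
    intro v
    rcases hW v with h1 | h1 | h1 | h1
    · left; rw [h1, h1]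
    · rw [h1, map_add, h1]
      rcases hWa with h2 | h2
      · left; rw [h2]; linear_combination (norm := abel) ha
      · right; rw [h2]; linear_combination (norm := abel) ha
    · left
      rw [h1, map_add, h1, hWb]; linear_combination (norm := abel) hb
    · rw [h1, map_add, map_add, h1, hWb]
      rcases hWa with h2 | h2
      · left; rw [h2]; linear_combination (norm := abel) ha + hb
      · right; rw [h2]; linear_combination (norm := abel) ha + hb
  apply LinearEquiv.ext
  intro v
  have e : (W ^ 4) v = W (W (W (W v))) := rfl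
  rw [e]
  rcases hW2 v with h1 | h1
  · rw [h1, h1]; rfl
  · rw [h1, map_add, map_add, h1, hWb, hWb]
    show v + b + b = v
    linear_combination (norm := abel) hb

lemma key {u w : V ≃ₗ[ZMod 2] V} {a b : V} (hu : Tv u a) (hw : Tv w b)
    (hodd : Odd (orderOf (u * w))) (hne : u ≠ w) : u b = b + a := by
  rcases hu.mem b with h1 | h1
  · exfalso
    have h4 := four hu hw h1
    have h5 : orderOf (u * w) ∣ 2 ^ 2 := orderOf_dvd_of_pow_eq_one h4
    obtain ⟨j, hj, hj'⟩ := (Nat.dvd_prime_pow Nat.prime_two).mp h5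
    have h6 : orderOf (u * w) = 1 := by
      rw [hj'] at hodd ⊢
      rcases j with _ | j
      · rfl
      · exfalso
        rw [Nat.odd_iff, pow_succ] at hodd
        omega
    have h7 : u * w = 1 := orderOf_eq_one_iff.mp h6
    apply hne
    have h8 : w * w = 1 := LinearEquiv.ext hw.inv
    calc u = u * (w * w) := by rw [h8, mul_one]
      _ = (u * w) * w := by group
      _ = w := by rw [h7, one_mul]
  · exact h1

/-- Let V be a finite-dimensional vector space over the field with two elements and S a solvable group of linear automorphisms of V with O₂(S) = 1. If P ∈ S has order 4 and (P − 1)³ = 0 on V, then the image of (P − 1)² has at least 4 elements; equivalently, in the decomposition of V into indecomposable modules for the cyclic group generated by P, at least two summands have dimension 3. -/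
theorem result
    {V : Type*} [AddCommGroup V] [Module (ZMod 2) V] [Finite V]
    (S : Subgroup (V ≃ₗ[ZMod 2] V)) (hS : Group.IsSolvable ↥S) (hO2 : Cfsg.pCore 2 ↥S = ⊥)
    (P : V ≃ₗ[ZMod 2] V) (hPS : P ∈ S) (hP4 : orderOf P = 4)
    (hcub : ((P : V →ₗ[ZMod 2] V) - LinearMap.id) ^ 3 = 0) :
    4 ≤ Nat.card ↥(LinearMap.range (((P : V →ₗ[ZMod 2] V) - LinearMap.id) ^ 2)) := by
  classical
  haveI : Finite (V ≃ₗ[ZMod 2] V) := Finite.of_injective (fun e => (e : V → V)) DFunLike.coe_injective
  set t : V ≃ₗ[ZMod 2] V := P ^ 2 with htdef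
  have htt : t * t = 1 := by
    rw [htdef, ← pow_add]
    have h24 : 2 + 2 = orderOf P := by rw [hP4]
    rw [h24]
    exact pow_orderOf_eq_one P
  have htne : t ≠ 1 := by
    apply pow_ne_one_of_lt_orderOf (by norm_num)
    rw [hP4]; norm_num
  have htS : t ∈ S := S.pow_mem hPS 2
  have hcomm : P * t = t * P := by rw [htdef]; exact (Commute.pow_right (Commute.refl P) 2).eq
  have htinv : t⁻¹ = t := inv_eq_of_mul_eq_one_left htt
  set L : V →ₗ[ZMod 2] V := ((P : V →ₗ[ZMod 2] V) - LinearMap.id) ^ 2 with hLdef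
  have hL : ∀ v, L v = t v + v := by
    intro v
    have e : L v = P (P v - v) - (P v - v) := rfl
    have e2 : t v = P (P v) := rfl
    rw [e, e2, map_sub]
    have h0 := add_self' (P v)
    linear_combination (norm := abel) (-1 : ℤ) • h0
  by_contra hcard
  -- `t` is a transvection
  obtain ⟨a, hTv⟩ : ∃ a, Tv t a := by
    obtain ⟨v₀, hv₀⟩ : ∃ v, t v ≠ v := by
      by_contra hcon
      apply htne
      apply LinearEquiv.ext
      intro v
      by_contra hv
      exact hcon ⟨v, hv⟩
    let a := t v₀ + v₀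
    have ha0 : a ≠ 0 := by
      intro h
      apply hv₀
      have h1 := add_self' v₀
      have h2 : t v₀ + v₀ = v₀ + v₀ := h.trans h1.symm
      exact add_right_cancel h2
    have haR : a ∈ LinearMap.range L := ⟨v₀, hL v₀⟩
    have huniq : ∀ b ∈ LinearMap.range L, b = 0 ∨ b = a := by
      intro b hb
      by_contra hcon
      rw [not_or] at hcon
      apply hcard
      -- four elements
      let R := LinearMap.range L
      let F : Fin 4 → R := ![0, ⟨a, haR⟩, ⟨b, hb⟩, ⟨a + b, R.add_mem haR hb⟩]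
      have hinj : Function.Injective F := by
        have hab : a + b ≠ 0 := by
          intro h
          apply hcon.2
          have h1 := add_self' a
          have h2 : a + b = a + a := h.trans h1.symm
          exact add_left_cancel h2
        have hab1 : a + b ≠ a := by
          intro h
          apply hcon.1
          have h2 : a + b = a + 0 := by rw [h, add_zero]
          exact add_left_cancel h2
        have hab2 : a + b ≠ b := by
          intro h
          apply ha0
          have h2 : a + b = 0 + b := by rw [h, zero_add]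
          exact add_right_cancel h2
        intro i j hij
        have hij' := congrArg Subtype.val hij
        fin_cases i <;> fin_cases j <;> first
          | rfl
          | (exfalso; simp [F] at hij'; first
              | exact ha0 hij'
              | exact ha0 hij'.symm
              | exact hcon.1 hij'
              | exact hcon.1 hij'.symm
              | exact hcon.2 hij'
              | exact hcon.2 hij'.symm
              | exact hab hij'
              | exact hab hij'.symm
              | exact hab1 hij'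
              | exact hab1 hij'.symm
              | exact hab2 hij'
              | exact hab2 hij'.symm)
      have h4 := Nat.card_le_card_of_injective F hinj
      rw [Nat.card_eq_fintype_card (α := Fin 4), Fintype.card_fin] at h4
      exact h4
    refine ⟨a, ha0, ?_, ?_, ⟨v₀, hv₀⟩⟩
    · intro v
      have : (t * t) v = v := by rw [htt]; rfl
      exact this
    · intro v
      rcases huniq (t v + v) ⟨v, hL v⟩ with h1 | h1
      · left
        have h2 := add_self' v
        have h3 : t v + v = v + v := h1.trans h2.symm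
        exact add_right_cancel h3
      · right
        have h2 := add_self' v
        calc t v = t v + (v + v) := by rw [h2, add_zero]
          _ = (t v + v) + v := by abel
          _ = a + v := by rw [h1]
          _ = v + a := add_comm _ _
  -- the odd core
  let G := ↥S
  haveI : Group.IsSolvable G := hS
  let K : Subgroup G := pPrimeCore 2 G
  have hKC : centralizer (K : Set G) ≤ K := by
    apply Cfsg.Agent.Lib.CaseTh.SolvableCharP2.centralizer_le_of_forall_pCore_le
    intro q hq
    by_cases hq2 : q = 2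
    · subst hq2
      rw [hO2]
      exact bot_le
    · haveI : Fact q.Prime := ⟨hq⟩
      apply Cfsg.Agent.Lib.Core.Basic.le_pPrimeCore inferInstance
      obtain ⟨m, hm⟩ := IsPGroup.iff_card.mp (Cfsg.Agent.Lib.Core.Basic.pCore_isPGroup (p := q) (G := G))
      rw [hm]
      exact Nat.Coprime.pow_left m ((Nat.coprime_primes hq Nat.prime_two).mpr hq2)
  have hodd : ∀ y ∈ K, Odd (orderOf ((y : G) : V ≃ₗ[ZMod 2] V)) := by
    intro y hy
    rw [Subgroup.orderOf_coe]
    have := Cfsg.Agent.Lib.Core.Basic.orderOf_coprime_of_mem_pPrimeCore hy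
    exact Nat.Coprime.odd_of_right this
  let tt : G := ⟨t, htS⟩
  have htK : tt ∉ K := by
    intro h
    have h1 := hodd tt h
    have h2 : orderOf t = 2 := orderOf_eq_prime (by rw [pow_two]; exact htt) htne
    have h3 : orderOf ((tt : G) : V ≃ₗ[ZMod 2] V) = 2 := h2
    rw [h3] at h1
    exact absurd h1 (by decide)
  obtain ⟨y, hyK, hy⟩ : ∃ y ∈ K, y * tt ≠ tt * y := by
    by_contra hcon
    apply htK
    apply hKC
    rw [Subgroup.mem_centralizer_iff]
    intro z hz
    by_contra hne
    exact hcon ⟨z, hz, hne⟩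
  -- the conjugacy class under K
  let T : Set (V ≃ₗ[ZMod 2] V) := {u | ∃ z ∈ K, u = ((z : G) : V ≃ₗ[ZMod 2] V) * t * ((z : G) : V ≃ₗ[ZMod 2] V)⁻¹}
  have hT1 : ∀ u ∈ T, ∃ b, Tv u b := by
    rintro u ⟨z, -, rfl⟩
    exact ⟨_, hTv.conj _⟩
  have hTmem : ∀ g ∈ S, ∀ z ∈ K, ∃ z' ∈ K, ((z' : G) : V ≃ₗ[ZMod 2] V) = g * ((z : G) : V ≃ₗ[ZMod 2] V) * g⁻¹ := by
    intro g hg z hz
    have h1 : (⟨g, hg⟩ : G) * z * (⟨g, hg⟩ : G)⁻¹ ∈ K :=
      (inferInstance : K.Normal).conj_mem z hz ⟨g, hg⟩
    exact ⟨_, h1, rfl⟩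
  have hT2 : ∀ u ∈ T, ∀ w ∈ T, Odd (orderOf (u * w)) := by
    rintro u ⟨z, hz, rfl⟩ w ⟨z', hz', rfl⟩
    -- u w = z (t z⁻¹ z' t) z'⁻¹
    obtain ⟨z₁, hz₁, he⟩ := hTmem t htS (z⁻¹ * z') (K.mul_mem (K.inv_mem hz) hz')
    have h1 : z * z₁ * z'⁻¹ ∈ K := K.mul_mem (K.mul_mem hz hz₁) (K.inv_mem hz')
    have h2 := hodd _ h1
    have h3 : ((z * z₁ * z'⁻¹ : G) : V ≃ₗ[ZMod 2] V) =
        ((z : G) : V ≃ₗ[ZMod 2] V) * t * ((z : G) : V ≃ₗ[ZMod 2] V)⁻¹ *
          (((z' : G) : V ≃ₗ[ZMod 2] V) * t * ((z' : G) : V ≃ₗ[ZMod 2] V)⁻¹) := by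
      have h4 : ((z₁ : G) : V ≃ₗ[ZMod 2] V) = t * (((z : G) : V ≃ₗ[ZMod 2] V)⁻¹ * ((z' : G) : V ≃ₗ[ZMod 2] V)) * t⁻¹ := by
        rw [he]
        rfl
      show ((z : G) : V ≃ₗ[ZMod 2] V) * ((z₁ : G) : V ≃ₗ[ZMod 2] V) * ((z' : G) : V ≃ₗ[ZMod 2] V)⁻¹ = _
      rw [h4, htinv]
      group
    rw [h3] at h2
    exact h2
  have hT3 : ∀ u ∈ T, ∀ w ∈ T, ∀ b d, Tv u b → Tv w d → u ≠ w → u d = d + b := by
    intro u hu w hw b d hb hd hne
    exact key hb hd (hT2 u hu w hw) hne
  have hT4 : t ∈ T := ⟨1, K.one_mem, by simp⟩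
  have hT5 : ∀ g ∈ S, g * t = t * g → ∀ u ∈ T, g * u * g⁻¹ ∈ T := by
    rintro g hg hgt u ⟨z, hz, rfl⟩
    obtain ⟨z', hz', he⟩ := hTmem g hg z hz
    refine ⟨z', hz', ?_⟩
    rw [he]
    have h1 : g * t * g⁻¹ = t := by rw [hgt]; group
    calc g * (((z : G) : V ≃ₗ[ZMod 2] V) * t * ((z : G) : V ≃ₗ[ZMod 2] V)⁻¹) * g⁻¹
        = g * ((z : G) : V ≃ₗ[ZMod 2] V) * g⁻¹ * (g * t * g⁻¹) * (g * ((z : G) : V ≃ₗ[ZMod 2] V)⁻¹ * g⁻¹) := by group
      _ = g * ((z : G) : V ≃ₗ[ZMod 2] V) * g⁻¹ * t * (g * ((z : G) : V ≃ₗ[ZMod 2] V) * g⁻¹)⁻¹ := by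
          rw [h1]; group
  let s : V ≃ₗ[ZMod 2] V := ((y : G) : V ≃ₗ[ZMod 2] V) * t * ((y : G) : V ≃ₗ[ZMod 2] V)⁻¹
  have hsT : s ∈ T := ⟨y, hyK, rfl⟩
  have hst : t ≠ s := by
    intro h
    apply hy
    apply Subtype.ext
    show ((y : G) : V ≃ₗ[ZMod 2] V) * t = t * ((y : G) : V ≃ₗ[ZMod 2] V)
    have h1 : t * ((y : G) : V ≃ₗ[ZMod 2] V) = ((y : G) : V ≃ₗ[ZMod 2] V) * t := by
      calc t * ((y : G) : V ≃ₗ[ZMod 2] V) = s * ((y : G) : V ≃ₗ[ZMod 2] V) := by rw [← h]
        _ = _ := by simp only [s]; group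
    exact h1.symm
  obtain ⟨b₂, hb₂⟩ := hT1 s hsT
  let s₃ := t * s * t
  have hs₃T : s₃ ∈ T := by
    have := hT5 t htS rfl s hsT
    rwa [htinv] at this
  have hs₃Tv : Tv s₃ (t b₂) := by
    have := hb₂.conj t
    rwa [htinv] at this
  have htb₂ : t b₂ = b₂ + a := hT3 t hT4 s hsT a b₂ hTv hb₂ hst
  have hall : ∀ w ∈ T, w = t ∨ w = s ∨ w = s₃ := by
    intro w hw
    by_contra hcon
    rw [not_or, not_or] at hcon
    obtain ⟨d, hd⟩ := hT1 w hw
    have h1 := hT3 w hw t hT4 d a hd hTv hcon.1
    have h2 := hT3 w hw s hsT d b₂ hd hb₂ hcon.2.1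
    have h3 := hT3 w hw s₃ hs₃T d (t b₂) hd hs₃Tv hcon.2.2
    rw [htb₂, map_add, h1, h2] at h3
    apply hd.ne
    have h4 := add_self' d
    have h5 : b₂ + a = b₂ + a + d := by
      linear_combination (norm := abel) h3 - h4
    have h6 : b₂ + a + 0 = b₂ + a + d := by rw [add_zero]; exact h5
    exact (add_left_cancel h6).symm
  have hss₃ : s₃ ≠ s := by
    intro h
    -- t and s commute
    have h1 : t * s = s * t := by
      have h2 : t * s * t = s := h
      calc t * s = t * s * t * t := by rw [mul_assoc (t * s), htt, mul_one]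
        _ = s * t := by rw [h2]
    have h3 : (t * s) ^ 2 = 1 := by
      rw [pow_two]
      have hss : s * s = 1 := LinearEquiv.ext hb₂.inv
      calc t * s * (t * s) = t * (s * t) * s := by group
        _ = t * (t * s) * s := by rw [h1]
        _ = (t * t) * (s * s) := by group
        _ = 1 := by rw [htt, hss, one_mul]
    have h4 := hT2 t hT4 s hsT
    have h5 : orderOf (t * s) ∣ 2 := orderOf_dvd_of_pow_eq_one h3
    have h6 : orderOf (t * s) = 1 := by
      rcases (Nat.dvd_prime Nat.prime_two).mp h5 with h7 | h7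
      · exact h7
      · rw [h7] at h4
        exact absurd h4 (by decide)
    have h7 : t * s = 1 := orderOf_eq_one_iff.mp h6
    apply hst
    have hss : s * s = 1 := LinearEquiv.ext hb₂.inv
    calc t = t * (s * s) := by rw [hss, mul_one]
      _ = (t * s) * s := by group
      _ = s := by rw [h7, one_mul]
  have hPs := hall _ (hT5 P hPS hcomm s hsT)
  have hfin : t * s * t⁻¹ = s := by
    rcases hPs with h | h | h
    · exfalso
      apply hst
      have h1 : P * t * P⁻¹ = t := by rw [hcomm]; group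
      have h2 : P * s * P⁻¹ = P * t * P⁻¹ := by rw [h, h1]
      have h3 : P * s = P * t := mul_right_cancel h2
      exact (mul_left_cancel h3).symm
    · rw [htdef]
      calc P ^ 2 * s * (P ^ 2)⁻¹ = P * (P * s * P⁻¹) * P⁻¹ := by rw [pow_two]; group
        _ = P * s * P⁻¹ := congrArg (fun z => P * z * P⁻¹) h
        _ = s := h
    · have h1 : P * t * P⁻¹ = t := by rw [hcomm]; group
      have h2 : P * s₃ * P⁻¹ = s := by
        calc P * s₃ * P⁻¹ = (P * t * P⁻¹) * (P * s * P⁻¹) * (P * t * P⁻¹) := by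
              simp only [s₃]; group
          _ = t * s₃ * t := by rw [h1, h]
          _ = (t * t) * s * (t * t) := by simp only [s₃]; group
          _ = s := by rw [htt]; group
      rw [htdef]
      calc P ^ 2 * s * (P ^ 2)⁻¹ = P * (P * s * P⁻¹) * P⁻¹ := by rw [pow_two]; group
        _ = P * s₃ * P⁻¹ := by rw [h]
        _ = s := h2
  rw [htinv] at hfin
  exact hss₃ hfin

end Cfsg.Agent.S4410
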