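import Cfsg.Statements.S4412
import Cfsg.Agent.Lib.InvolChar.Basic
import Mathlib

set_option autoImplicit false
open Cfsg

namespace Cfsg.Agent.S4412

variable {P : Type*} [Group P] [Finite P]

theorem invol_apply {T : MulAut P} (hT : T * T = 1) (y : P) : T (T y) = y := by
  have := congrArg (fun f : MulAut P => f y) hT
  simpa [MulAut.mul_apply] using this

/-- Factorization under an involutory automorphism of a group of odd order. -/
theorem factor (hodd : Odd (Nat.card P)) (T : MulAut P) (hT : T * T = 1) (N : Subgroup P)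
    (hN : ∀ x ∈ N, T x ∈ N) {x : P} (hx : x ∈ N) :
    ∃ a ∈ N, ∃ c ∈ N, x = a * c ∧ T a = a ∧ T c = c⁻¹ := by
  obtain ⟨m, hm⟩ := hodd
  have hTT := invol_apply hT
  set d := x⁻¹ * T x with hd
  have hTd : T d = d⁻¹ := by simp [hd, hTT]
  set e := d ^ (m + 1) with he
  have hTe : T e = e⁻¹ := by simp [he, hTd]
  have hee : e * e = d := by
    have h1 : d ^ (2 * m + 1) = 1 := by
      rw [← hm]
      exact pow_card_eq_one'
    calc e * e = d ^ (2 * m + 1) * d := by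
          rw [he, ← pow_add, ← pow_succ]
          congr 1
          ring
      _ = d := by rw [h1, one_mul]
  have hdN : d ∈ N := N.mul_mem (N.inv_mem hx) (hN x hx)
  have heN : e ∈ N := N.pow_mem hdN _
  refine ⟨x * e, N.mul_mem hx heN, e⁻¹, N.inv_mem heN, by group, ?_, by simp [hTe]⟩
  rw [map_mul, hTe]
  have h2 : T x = x * d := by simp [hd]
  rw [h2, ← hee]
  group

theorem odd_of_pgroup {p : ℕ} (hp : p.Prime) (hp2 : p ≠ 2) (hP : IsPGroup p P) : Odd (Nat.card P) := by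
  haveI : Fact p.Prime := ⟨hp⟩
  obtain ⟨n, hn⟩ := IsPGroup.iff_card.mp hP
  rw [hn]
  exact (hp.odd_of_ne_two hp2).pow

theorem eq_one_of_sq {x : P} (hodd : Odd (Nat.card P)) (hx : x * x = 1) : x = 1 := by
  obtain ⟨m, hm⟩ := hodd
  have h1 : x ^ (2 * m + 1) = 1 := by
    rw [← hm]
    exact pow_card_eq_one'
  rw [pow_succ, pow_mul, pow_two, hx, one_pow, one_mul] at h1
  exact h1

theorem mem_of_sq_mem {x : P} (hodd : Odd (Nat.card P)) (Q : Subgroup P) (hx : x * x ∈ Q) : x ∈ Q := by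
  obtain ⟨m, hm⟩ := hodd
  have h1 : x ^ (2 * m + 1) = 1 := by
    rw [← hm]
    exact pow_card_eq_one'
  have h2 : x = ((x * x) ^ m)⁻¹ := by
    rw [eq_inv_iff_mul_eq_one, ← h1, ← pow_two, ← pow_mul, pow_succ']
  rw [h2]
  exact Q.inv_mem (Q.pow_mem hx _)

/-- Generation under a four-group. -/
theorem gen {p : ℕ} (hp : p.Prime) (hp2 : p ≠ 2) (hP : IsPGroup p P) (T₁ T₂ : MulAut P)
    (h1 : T₁ * T₁ = 1) (h2 : T₂ * T₂ = 1) (hc : T₁ * T₂ = T₂ * T₁) (C Q : Subgroup P) (hQC : Q ≤ C)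
    (hC₁ : ∀ x ∈ C, T₁ x ∈ C) (hC₂ : ∀ x ∈ C, T₂ x ∈ C)
    (hQ₁ : ∀ x ∈ Q, T₁ x ∈ Q) (hQ₂ : ∀ x ∈ Q, T₂ x ∈ Q)
    (hf₁ : ∀ x ∈ C, T₁ x = x → x ∈ Q) (hf₂ : ∀ x ∈ C, T₂ x = x → x ∈ Q)
    (hf₃ : ∀ x ∈ C, (T₁ * T₂) x = x → x ∈ Q) : C ≤ Q := by
  classical
  haveI : Fact p.Prime := ⟨hp⟩
  have hodd := odd_of_pgroup hp hp2 hP
  by_contra hCQ
  have hlt : Q < C := lt_of_le_not_ge hQC hCQ
  have hCp : IsPGroup p C := hP.to_subgroup C
  obtain ⟨y, hyC, hyQ, hy1, hy2⟩ := Cfsg.Agent.Lib.InvolChar.Basic.exists_normalizing hCp hlt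
  have hinv : ∀ T : MulAut P, T * T = 1 → (∀ x ∈ Q, T x ∈ Q) → ∀ x, T x ∈ Q ↔ x ∈ Q := by
    intro T hT hTQ x
    refine ⟨fun h => ?_, hTQ x⟩
    have := hTQ _ h
    rwa [invol_apply hT] at this
  have hT3 : (T₁ * T₂) * (T₁ * T₂) = 1 := by
    calc (T₁ * T₂) * (T₁ * T₂) = T₁ * (T₂ * T₁) * T₂ := by group
      _ = T₁ * (T₁ * T₂) * T₂ := by rw [hc]
      _ = (T₁ * T₁) * (T₂ * T₂) := by group
      _ = 1 := by rw [h1, h2, one_mul]
  have hQ₃ : ∀ x ∈ Q, (T₁ * T₂) x ∈ Q := fun x hx => hQ₁ _ (hQ₂ x hx)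
  have hC₃ : ∀ x ∈ C, (T₁ * T₂) x ∈ C := fun x hx => hC₁ _ (hC₂ x hx)
  -- The subgroup N
  let N : Subgroup P := C ⊓ Subgroup.normalizer (Q : Set P)
  have hNinv : ∀ T : MulAut P, T * T = 1 → (∀ x ∈ Q, T x ∈ Q) → (∀ x ∈ C, T x ∈ C) → ∀ x ∈ N, T x ∈ N := by
    intro T hT hTQ hTC z hz
    obtain ⟨hz1, hz2⟩ := Subgroup.mem_inf.mp hz
    refine Subgroup.mem_inf.mpr ⟨hTC z hz1, ?_⟩
    rw [Subgroup.mem_normalizer_iff] at hz2 ⊢
    intro h
    have e : T z * h * (T z)⁻¹ = T (z * T h * z⁻¹) := by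
      simp [invol_apply hT]
    show h ∈ Q ↔ T z * h * (T z)⁻¹ ∈ Q
    rw [e, hinv T hT hTQ, ← hinv T hT hTQ h]
    exact hz2 (T h)
  have hstep : ∀ T : MulAut P, T * T = 1 → (∀ x ∈ Q, T x ∈ Q) → (∀ x ∈ C, T x ∈ C) →
      (∀ x ∈ C, T x = x → x ∈ Q) → ∀ x ∈ N, x ∉ Q → ∃ q ∈ Q, ∃ c ∈ N, x = q * c ∧ T c = c⁻¹ ∧ c ∉ Q := by
    intro T hT hTQ hTC hfT x hx hxQ
    obtain ⟨a, haN, c, hcN, e, ha, hc'⟩ := factor hodd T hT N (hNinv T hT hTQ hTC) hx
    have haQ : a ∈ Q := hfT a (Subgroup.mem_inf.mp haN).1 ha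
    refine ⟨a, haQ, c, hcN, e, hc', fun hcQ => hxQ ?_⟩
    rw [e]
    exact Q.mul_mem haQ hcQ
  have hyN : y ∈ N := by
    refine Subgroup.mem_inf.mpr ⟨hyC, ?_⟩
    rw [Subgroup.mem_normalizer_iff]
    intro h
    refine ⟨fun hh => hy1 h hh, fun hh => ?_⟩
    have := hy2 _ hh
    have e : y⁻¹ * (y * h * y⁻¹) * y = h := by group
    rwa [e] at this
  obtain ⟨_, _, c, hcN, -, hTc, hcQ⟩ := hstep T₁ h1 hQ₁ hC₁ hf₁ y hyN hyQ
  obtain ⟨q₁, hq₁, c', hc'N, e₁, hTc', hc'Q⟩ := hstep T₂ h2 hQ₂ hC₂ hf₂ c hcN hcQ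
  obtain ⟨q₂, hq₂, c'', hc''N, e₂, hTc'', hc''Q⟩ := hstep (T₁ * T₂) hT3 hQ₃ hC₃ hf₃ c' hc'N hc'Q
  apply hc''Q
  have key : c''⁻¹ * c''⁻¹ ∈ Q := by
    have hc''n : c'' * T₁ q₁ * c''⁻¹ ∈ Q := by
      have := (Subgroup.mem_inf.mp hc''N).2
      rw [Subgroup.mem_normalizer_iff] at this
      exact (this _).mp (hQ₁ _ hq₁)
    have e₃ : c''⁻¹ * c''⁻¹ = ((T₁ * T₂) q₂)⁻¹ * q₁ * q₂ * (c'' * T₁ q₁ * c''⁻¹) := by
      have e₄ : c''⁻¹ = ((T₁ * T₂) q₂)⁻¹ * q₁ * q₂ * c'' * T₁ q₁ := by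
        rw [← hTc'']
        have e₅ : c'' = q₂⁻¹ * c' := by rw [e₂]; group
        have e₆ : c' = q₁⁻¹ * c := by rw [e₁]; group
        have e₇ : (T₁ * T₂) c' = c * T₁ q₁ := by
          rw [MulAut.mul_apply, hTc', map_inv, e₆, map_mul, hTc]
          simp
        calc (T₁ * T₂) c'' = ((T₁ * T₂) q₂)⁻¹ * ((T₁ * T₂) c') := by rw [e₅, map_mul, map_inv]
          _ = ((T₁ * T₂) q₂)⁻¹ * (c * T₁ q₁) := by rw [e₇]
          _ = _ := by
            rw [e₁, e₂]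
            group
      nth_rewrite 1 [e₄]
      group
    rw [e₃]
    exact Q.mul_mem (Q.mul_mem (Q.mul_mem (Q.inv_mem (hQ₃ _ hq₂)) hq₁) hq₂) hc''n
  have := mem_of_sq_mem hodd Q key
  simpa using this

/-- An involutory automorphism acts on an invariant cyclic `p`-subgroup (`p` odd) by `±1`. -/
theorem sign {p : ℕ} (hp : p.Prime) (hp2 : p ≠ 2) (hP : IsPGroup p P) (T : MulAut P) (hT : T * T = 1)
    (y : P) (hy : T y ∈ Subgroup.zpowers y) : T y = y ∨ T y = y⁻¹ := by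
  obtain ⟨k, hk⟩ := Subgroup.mem_zpowers_iff.mp hy
  have h1 : y ^ (k * k) = y := by
    have := invol_apply hT y
    rw [← hk, map_zpow, ← hk, ← zpow_mul] at this
    exact this
  have h2 : y ^ ((k - 1) * (k + 1)) = 1 := by
    have e : (k - 1) * (k + 1) = k * k - 1 := by ring
    rw [e, zpow_sub, h1, zpow_one, mul_inv_cancel]
  obtain ⟨n, hn⟩ := hP y
  obtain ⟨m, -, hm⟩ := (Nat.dvd_prime_pow hp).mp (orderOf_dvd_of_pow_eq_one hn)
  have h3 : ((p : ℤ) ^ m) ∣ (k - 1) * (k + 1) := by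
    have := orderOf_dvd_iff_zpow_eq_one.mpr h2
    rw [hm] at this
    simpa using this
  have hpi : Prime (p : ℤ) := Nat.prime_iff_prime_int.mp hp
  by_cases hd : (p : ℤ) ∣ k + 1
  · have hnd : ¬ (p : ℤ) ∣ k - 1 := by
      intro h
      have h4 : (p : ℤ) ∣ 2 := by
        have := dvd_sub hd h
        simpa using this
      have h5 : p ∣ 2 := by exact_mod_cast h4
      exact hp2 ((Nat.prime_dvd_prime_iff_eq hp Nat.prime_two).mp h5)
    have hco : IsCoprime ((p : ℤ) ^ m) (k - 1) :=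
      ((Irreducible.coprime_iff_not_dvd hpi.irreducible).mpr hnd).pow_left
    have h6 := hco.dvd_of_dvd_mul_left h3
    right
    have h7 : y ^ (k + 1) = 1 := by
      apply orderOf_dvd_iff_zpow_eq_one.mp
      rw [hm]
      simpa using h6
    rw [← hk]
    rw [zpow_add, zpow_one] at h7
    exact eq_inv_of_mul_eq_one_left h7
  · have hco : IsCoprime ((p : ℤ) ^ m) (k + 1) :=
      ((Irreducible.coprime_iff_not_dvd hpi.irreducible).mpr hd).pow_left
    have h6 := hco.dvd_of_dvd_mul_right h3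
    left
    have h7 : y ^ (k - 1) = 1 := by
      apply orderOf_dvd_iff_zpow_eq_one.mp
      rw [hm]
      simpa using h6
    rw [← hk]
    rw [zpow_sub, zpow_one] at h7
    exact mul_inv_eq_one.mp h7

abbrev Narrow (T : MulAut P) : Prop := ∃ g : P, ∀ x : P, (T x = x ↔ x ∈ Subgroup.zpowers g)

/-- Choice of a four-group in `I` without broad elements. -/
theorem exists_pair {G : Type*} [Group G] [Finite G] (I I₀ : Subgroup G)
    (hcomm : ∀ T ∈ I, ∀ T' ∈ I, T * T' = T' * T) (hsq : ∀ T ∈ I, T * T = 1)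
    (h8 : Nat.card I = 8) (hI₀ : I₀ < I) (B : G → Prop)
    (hdisj : ∀ T ∈ I₀, T ≠ 1 → ¬ B T)
    (hprod : ∀ T ∈ I, ∀ T' ∈ I, T ≠ 1 → T' ≠ 1 → B T → B T' → T * T' ∈ I₀) :
    ∃ T₁ ∈ I, ∃ T₂ ∈ I, T₁ ≠ T₂ ∧ (T₁ ≠ 1 ∧ ¬ B T₁) ∧ (T₂ ≠ 1 ∧ ¬ B T₂) ∧ (T₁ * T₂ ≠ 1 ∧ ¬ B (T₁ * T₂)) := by
  classical
  obtain ⟨t, ht, ht0, hB⟩ : ∃ t ∈ I, t ∉ I₀ ∧ ∀ T ∈ I, T ≠ 1 → B T → T * t ∈ I₀ := by
    by_cases h : ∃ b ∈ I, b ≠ 1 ∧ B b
    · obtain ⟨b, hb, hb1, hbB⟩ := h
      exact ⟨b, hb, fun hb0 => hdisj b hb0 hb1 hbB, fun T hT hT1 hTB => hprod T hT b hb hT1 hb1 hTB hbB⟩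
    · obtain ⟨t, ht, ht0⟩ := SetLike.exists_of_lt hI₀
      exact ⟨t, ht, ht0, fun T hT hT1 hTB => (h ⟨T, hT, hT1, hTB⟩).elim⟩
  obtain ⟨K, hI₀K, hK⟩ := Finite.exists_le_maximal (p := fun K : Subgroup G => K ≤ I ∧ t ∉ K) (a := I₀)
    ⟨hI₀.le, ht0⟩
  obtain ⟨hKI, htK⟩ := hK.prop
  have hcover : ∀ x ∈ I, x ∈ K ∨ t * x ∈ K := by
    intro x hx
    by_contra hno
    push Not at hno
    obtain ⟨hxK, htxK⟩ := hno
    let K' : Subgroup G :=
      { carrier := {y | y ∈ I ∧ (y ∈ K ∨ y * x ∈ K)}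
        mul_mem' := by
          rintro a b ⟨ha, ha'⟩ ⟨hb, hb'⟩
          refine ⟨I.mul_mem ha hb, ?_⟩
          rcases ha' with ha' | ha' <;> rcases hb' with hb' | hb'
          · exact Or.inl (K.mul_mem ha' hb')
          · right
            rw [mul_assoc]
            exact K.mul_mem ha' hb'
          · right
            have : a * b * x = a * x * b := by
              rw [mul_assoc, hcomm b hb x hx, mul_assoc]
            rw [this]
            exact K.mul_mem ha' hb'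
          · left
            have : a * b = a * x * (b * x) := by
              have e : a * x * (b * x) = a * b * (x * x) := by
                rw [mul_assoc, mul_assoc, ← mul_assoc x b x, hcomm x hx b hb, mul_assoc b x x]
              rw [e, hsq x hx, mul_one]
            rw [this]
            exact K.mul_mem ha' hb'
        one_mem' := ⟨I.one_mem, Or.inl K.one_mem⟩
        inv_mem' := by
          rintro a ⟨ha, ha'⟩
          have e : a⁻¹ = a := inv_eq_of_mul_eq_one_left (hsq a ha)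
          rw [e]
          exact ⟨ha, ha'⟩ }
    have hKK' : K ≤ K' := fun y hy => ⟨hKI hy, Or.inl hy⟩
    have hK'I : K' ≤ I := fun y hy => hy.1
    have htK' : t ∉ K' := by
      rintro ⟨-, h | h⟩
      · exact htK h
      · exact htxK h
    have hle := hK.le_of_ge ⟨hK'I, htK'⟩ hKK'
    have hxK' : x ∈ K' := ⟨hx, Or.inr (by rw [hsq x hx]; exact K.one_mem)⟩
    exact hxK (hle hxK')
  have hnotB : ∀ T ∈ K, T ≠ 1 → ¬ B T := by
    intro T hT hT1 hTB
    have h1 := hB T (hKI hT) hT1 hTB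
    have h2 : T⁻¹ * (T * t) ∈ K := K.mul_mem (K.inv_mem hT) (hI₀K h1)
    rw [inv_mul_cancel_left] at h2
    exact htK h2
  have hpair : ∃ T₁ ∈ K, ∃ T₂ ∈ K, T₁ ≠ 1 ∧ T₂ ≠ 1 ∧ T₁ ≠ T₂ := by
    by_contra hno
    push Not at hno
    obtain ⟨T₁, hT₁, hall⟩ : ∃ T₁ ∈ K, ∀ x ∈ K, x = 1 ∨ x = T₁ := by
      by_cases h : ∃ T₁ ∈ K, T₁ ≠ 1
      · obtain ⟨T₁, hT₁, h1⟩ := h
        refine ⟨T₁, hT₁, fun x hx => ?_⟩
        by_cases hx1 : x = 1
        · exact Or.inl hx1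
        · exact Or.inr (hno T₁ hT₁ x hx h1 hx1).symm
      · push Not at h
        exact ⟨1, K.one_mem, fun x hx => Or.inl (h x hx)⟩
    have hsub : (I : Set G) ⊆ ({1, T₁, t, t * T₁} : Finset G) := by
      intro x hx
      have hxI : x ∈ I := hx
      simp only [Finset.coe_insert, Finset.coe_singleton, Set.mem_insert_iff, Set.mem_singleton_iff]
      have htt : t * t = 1 := hsq t ht
      rcases hcover x hxI with h | h
      · rcases hall x h with h' | h'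
        · exact Or.inl h'
        · exact Or.inr (Or.inl h')
      · rcases hall _ h with h' | h'
        · right; right; left
          calc x = (t * t) * x := by rw [htt, one_mul]
            _ = t * (t * x) := by group
            _ = t := by rw [h', mul_one]
        · right; right; right
          calc x = (t * t) * x := by rw [htt, one_mul]
            _ = t * (t * x) := by group
            _ = t * T₁ := by rw [h']
    have hcard : Nat.card I ≤ 4 := by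
      have h1 : Nat.card I = (I : Set G).ncard := (Nat.card_coe_set_eq _)
      have h2 := Set.ncard_le_ncard hsub (Finset.finite_toSet _)
      rw [Set.ncard_coe_finset] at h2
      have h3 : ({1, T₁, t, t * T₁} : Finset G).card ≤ 4 := Finset.card_le_four
      omega
    omega
  obtain ⟨T₁, hT₁, T₂, hT₂, h1, h2, h12⟩ := hpair
  refine ⟨T₁, hKI hT₁, T₂, hKI hT₂, h12, ⟨h1, hnotB _ hT₁ h1⟩, ⟨h2, hnotB _ hT₂ h2⟩, ?_⟩
  have h3 : T₁ * T₂ ≠ 1 := by
    intro h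
    apply h12
    have e1 : T₂⁻¹ = T₂ := inv_eq_of_mul_eq_one_left (hsq T₂ (hKI hT₂))
    rw [← e1]
    exact eq_inv_of_mul_eq_one_left h
  exact ⟨h3, hnotB _ (K.mul_mem hT₁ hT₂) h3⟩

/-- `y` or its inverse -/
def sg (a : Bool) (y : P) : P := if a then y else y⁻¹

@[simp] theorem sg_true (y : P) : sg true y = y := rfl

@[simp] theorem sg_false (y : P) : sg false y = y⁻¹ := rfl

theorem map_sg (T : MulAut P) (a : Bool) (y : P) : T (sg a y) = sg a (T y) := by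
  cases a <;> simp

theorem sg_sg (a b : Bool) (y : P) : sg a (sg b y) = sg (a == b) y := by
  cases a <;> cases b <;> simp

theorem sg_zpow (a : Bool) (y : P) (k : ℤ) : (sg a y) ^ k = sg a (y ^ k) := by
  cases a <;> simp

structure Frame (p : ℕ) (I : Subgroup (MulAut P)) (y₁ y₂ y₃ : P)
    (E : Bool → Bool → Bool → MulAut P) : Prop where
  hp : p.Prime
  hp2 : p ≠ 2
  hP : IsPGroup p P
  hcomm : ∀ T ∈ I, ∀ T' ∈ I, T * T' = T' * T
  hsq : ∀ T ∈ I, T * T = 1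
  memI : ∀ a b c, E a b c ∈ I
  act₁ : ∀ a b c, E a b c y₁ = sg a y₁
  act₂ : ∀ a b c, E a b c y₂ = sg b y₂
  act₃ : ∀ a b c, E a b c y₃ = sg c y₃
  all : ∀ T ∈ I, ∃ a b c, T = E a b c
  top : Subgroup.closure {y₁, y₂, y₃} = ⊤
  ne₁ : y₁ ≠ 1
  ne₂ : y₂ ≠ 1
  ne₃ : y₃ ≠ 1
  t0 : ∀ x, E false false false x = x⁻¹

theorem eq_of_agree {y₁ y₂ y₃ : P} (hc : Subgroup.closure {y₁, y₂, y₃} = ⊤) {T T' : MulAut P}
    (h₁ : T y₁ = T' y₁) (h₂ : T y₂ = T' y₂) (h₃ : T y₃ = T' y₃) : T = T' := by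
  ext x
  have hx : x ∈ Subgroup.closure {y₁, y₂, y₃} := by
    rw [hc]
    exact Subgroup.mem_top x
  induction hx using Subgroup.closure_induction with
  | mem z hz =>
    simp only [Set.mem_insert_iff, Set.mem_singleton_iff] at hz
    rcases hz with rfl | rfl | rfl <;> assumption
  | one => simp
  | mul a b _ _ ha hb => rw [map_mul, map_mul, ha, hb]
  | inv a _ ha => rw [map_inv, map_inv, ha]

theorem exists_frame {p : ℕ} (hp : p.Prime) (hp2 : p ≠ 2) (hP : IsPGroup p P)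
    (I : Subgroup (MulAut P)) (hI : Cfsg.IsElementaryAbelian 2 I) (hI8 : Nat.card ↥I = 8)
    (T₁ T₂ : MulAut P) (hT₁ : T₁ ∈ I) (hT₂ : T₂ ∈ I) (y₁ y₂ y₃ : P)
    (hy₁ : ∀ x, T₁ x = x ↔ x ∈ Subgroup.zpowers y₁)
    (hy₂ : ∀ x, T₂ x = x ↔ x ∈ Subgroup.zpowers y₂)
    (hy₃ : ∀ x, (T₁ * T₂) x = x ↔ x ∈ Subgroup.zpowers y₃) :
    ∃ E, Frame p I y₁ y₂ y₃ E := by
  classical
  have hodd := odd_of_pgroup hp hp2 hP
  have hcomm : ∀ T ∈ I, ∀ T' ∈ I, T * T' = T' * T := by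
    intro T hT T' hT'
    have := hI.1.is_comm.comm (⟨T, hT⟩ : I) ⟨T', hT'⟩
    exact congrArg Subtype.val this
  have hsq : ∀ T ∈ I, T * T = 1 := by
    intro T hT
    have := hI.2 T hT
    rwa [pow_two] at this
  have hcomm_apply : ∀ T ∈ I, ∀ T' ∈ I, ∀ x, T (T' x) = T' (T x) := by
    intro T hT T' hT' x
    have := congrArg (fun f : MulAut P => f x) (hcomm T hT T' hT')
    simpa [MulAut.mul_apply] using this
  have hT₃ : T₁ * T₂ ∈ I := I.mul_mem hT₁ hT₂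
  have hs₁ : ∀ T ∈ I, T y₁ = y₁ ∨ T y₁ = y₁⁻¹ := by
    intro T hT
    apply sign hp hp2 hP T (hsq T hT)
    rw [← hy₁, hcomm_apply T₁ hT₁ T hT, (hy₁ y₁).mpr (Subgroup.mem_zpowers y₁)]
  have hs₂ : ∀ T ∈ I, T y₂ = y₂ ∨ T y₂ = y₂⁻¹ := by
    intro T hT
    apply sign hp hp2 hP T (hsq T hT)
    rw [← hy₂, hcomm_apply T₂ hT₂ T hT, (hy₂ y₂).mpr (Subgroup.mem_zpowers y₂)]
  have hs₃ : ∀ T ∈ I, T y₃ = y₃ ∨ T y₃ = y₃⁻¹ := by
    intro T hT
    apply sign hp hp2 hP T (hsq T hT)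
    rw [← hy₃, hcomm_apply _ hT₃ T hT, (hy₃ y₃).mpr (Subgroup.mem_zpowers y₃)]
  -- generation
  set Q : Subgroup P := Subgroup.closure {y₁, y₂, y₃} with hQ
  have hy₁Q : y₁ ∈ Q := Subgroup.subset_closure (by simp)
  have hy₂Q : y₂ ∈ Q := Subgroup.subset_closure (by simp)
  have hy₃Q : y₃ ∈ Q := Subgroup.subset_closure (by simp)
  have hQinv : ∀ T ∈ I, ∀ x ∈ Q, T x ∈ Q := by
    intro T hT x hx
    induction hx using Subgroup.closure_induction with
    | mem z hz =>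
      simp only [Set.mem_insert_iff, Set.mem_singleton_iff] at hz
      rcases hz with rfl | rfl | rfl
      · rcases hs₁ T hT with h | h <;> rw [h]
        · exact hy₁Q
        · exact Q.inv_mem hy₁Q
      · rcases hs₂ T hT with h | h <;> rw [h]
        · exact hy₂Q
        · exact Q.inv_mem hy₂Q
      · rcases hs₃ T hT with h | h <;> rw [h]
        · exact hy₃Q
        · exact Q.inv_mem hy₃Q
    | one => rw [map_one]; exact Q.one_mem
    | mul a b _ _ ha hb => rw [map_mul]; exact Q.mul_mem ha hb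
    | inv a _ ha => rw [map_inv]; exact Q.inv_mem ha
  have htop : Q = ⊤ := by
    rw [eq_top_iff]
    apply gen hp hp2 hP T₁ T₂ (hsq _ hT₁) (hsq _ hT₂) (hcomm _ hT₁ _ hT₂) ⊤ Q le_top
      (fun _ _ => Subgroup.mem_top _) (fun _ _ => Subgroup.mem_top _)
      (hQinv _ hT₁) (hQinv _ hT₂)
    · intro x _ hx
      exact (Subgroup.zpowers_le.mpr hy₁Q) ((hy₁ x).mp hx)
    · intro x _ hx
      exact (Subgroup.zpowers_le.mpr hy₂Q) ((hy₂ x).mp hx)
    · intro x _ hx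
      exact (Subgroup.zpowers_le.mpr hy₃Q) ((hy₃ x).mp hx)
  -- injection into sign triples
  let f : I → Bool × Bool × Bool := fun T =>
    (decide ((T : MulAut P) y₁ = y₁), decide ((T : MulAut P) y₂ = y₂), decide ((T : MulAut P) y₃ = y₃))
  have hfinj : Function.Injective f := by
    rintro ⟨T, hT⟩ ⟨T', hT'⟩ h
    simp only [f, Prod.mk.injEq, decide_eq_decide] at h
    obtain ⟨h1, h2, h3⟩ := h
    apply Subtype.ext
    apply eq_of_agree htop
    · by_cases h : T y₁ = y₁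
      · rw [h, h1.mp h]
      · have h' : ¬ T' y₁ = y₁ := fun h' => h (h1.mpr h')
        rw [(hs₁ T hT).resolve_left h, (hs₁ T' hT').resolve_left h']
    · by_cases h : T y₂ = y₂
      · rw [h, h2.mp h]
      · have h' : ¬ T' y₂ = y₂ := fun h' => h (h2.mpr h')
        rw [(hs₂ T hT).resolve_left h, (hs₂ T' hT').resolve_left h']
    · by_cases h : T y₃ = y₃
      · rw [h, h3.mp h]
      · have h' : ¬ T' y₃ = y₃ := fun h' => h (h3.mpr h')
        rw [(hs₃ T hT).resolve_left h, (hs₃ T' hT').resolve_left h']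
  have hfbij : Function.Bijective f := by
    apply Function.Injective.bijective_of_nat_card_le hfinj
    rw [hI8]
    simp
  have hE : ∀ a b c : Bool, ∃ T ∈ I, T y₁ = sg a y₁ ∧ T y₂ = sg b y₂ ∧ T y₃ = sg c y₃ ∧
      (a = false → T y₁ ≠ y₁) ∧ (b = false → T y₂ ≠ y₂) ∧ (c = false → T y₃ ≠ y₃) := by
    intro a b c
    obtain ⟨⟨T, hT⟩, h⟩ := hfbij.2 (a, b, c)
    simp only [f, Prod.mk.injEq] at h
    obtain ⟨h1, h2, h3⟩ := h
    refine ⟨T, hT, ?_, ?_, ?_, ?_, ?_, ?_⟩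
    · cases a
      · exact (hs₁ T hT).resolve_left (by simpa using h1)
      · simpa using h1
    · cases b
      · exact (hs₂ T hT).resolve_left (by simpa using h2)
      · simpa using h2
    · cases c
      · exact (hs₃ T hT).resolve_left (by simpa using h3)
      · simpa using h3
    · rintro rfl
      simpa using h1
    · rintro rfl
      simpa using h2
    · rintro rfl
      simpa using h3
  choose E hEI hE₁ hE₂ hE₃ hn₁ hn₂ hn₃ using hE
  have hne₁ : y₁ ≠ 1 := by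
    rintro h
    exact hn₁ false false false rfl (by rw [h, map_one])
  have hne₂ : y₂ ≠ 1 := by
    rintro h
    exact hn₂ false false false rfl (by rw [h, map_one])
  have hne₃ : y₃ ≠ 1 := by
    rintro h
    exact hn₃ false false false rfl (by rw [h, map_one])
  have hall : ∀ T ∈ I, ∃ a b c, T = E a b c := by
    intro T hT
    refine ⟨decide (T y₁ = y₁), decide (T y₂ = y₂), decide (T y₃ = y₃), ?_⟩
    apply eq_of_agree htop
    · rw [hE₁]
      by_cases h : T y₁ = y₁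
      · rw [decide_eq_true h, sg_true, h]
      · rw [decide_eq_false h, sg_false]
        exact (hs₁ T hT).resolve_left h
    · rw [hE₂]
      by_cases h : T y₂ = y₂
      · rw [decide_eq_true h, sg_true, h]
      · rw [decide_eq_false h, sg_false]
        exact (hs₂ T hT).resolve_left h
    · rw [hE₃]
      by_cases h : T y₃ = y₃
      · rw [decide_eq_true h, sg_true, h]
      · rw [decide_eq_false h, sg_false]
        exact (hs₃ T hT).resolve_left h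
  -- fixed points of `t₀`
  set t₀ := E false false false with ht₀
  have ht₀I : t₀ ∈ I := hEI _ _ _
  let C : Subgroup P :=
    { carrier := {x | t₀ x = x}
      mul_mem' := by
        intro a b ha hb
        simp only [Set.mem_setOf_eq] at ha hb ⊢
        rw [map_mul, ha, hb]
      one_mem' := by simp
      inv_mem' := by
        intro a ha
        simp only [Set.mem_setOf_eq] at ha ⊢
        rw [map_inv, ha] }
  have hCinv : ∀ T ∈ I, ∀ x ∈ C, T x ∈ C := by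
    intro T hT x hx
    show t₀ (T x) = T x
    rw [hcomm_apply _ ht₀I _ hT, show t₀ x = x from hx]
  have hfixzero : ∀ u : P, t₀ u = u⁻¹ → ∀ x ∈ C, x ∈ Subgroup.zpowers u → x ∈ (⊥ : Subgroup P) := by
    intro u hu x hx hxu
    obtain ⟨k, rfl⟩ := Subgroup.mem_zpowers_iff.mp hxu
    have hx' : t₀ (u ^ k) = u ^ k := hx
    rw [map_zpow, hu, inv_zpow] at hx'
    rw [Subgroup.mem_bot]
    apply eq_one_of_sq hodd
    nth_rewrite 1 [← hx']
    simp
  have hCbot : C ≤ ⊥ := by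
    apply gen hp hp2 hP T₁ T₂ (hsq _ hT₁) (hsq _ hT₂) (hcomm _ hT₁ _ hT₂) C ⊥ bot_le
      (hCinv _ hT₁) (hCinv _ hT₂)
    · intro x hx
      rw [Subgroup.mem_bot] at hx
      simp [hx]
    · intro x hx
      rw [Subgroup.mem_bot] at hx
      simp [hx]
    · intro x hx hfx
      exact hfixzero y₁ (hE₁ _ _ _) x hx ((hy₁ x).mp hfx)
    · intro x hx hfx
      exact hfixzero y₂ (hE₂ _ _ _) x hx ((hy₂ x).mp hfx)
    · intro x hx hfx
      exact hfixzero y₃ (hE₃ _ _ _) x hx ((hy₃ x).mp hfx)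
  have ht0 : ∀ x, t₀ x = x⁻¹ := by
    intro x
    obtain ⟨a, -, c, -, e, ha, hc⟩ := factor hodd t₀ (hsq _ ht₀I) ⊤ (fun _ _ => Subgroup.mem_top _)
      (Subgroup.mem_top x)
    have ha1 : a = 1 := by
      have : a ∈ C := ha
      simpa using hCbot this
    rw [e, ha1, one_mul, hc]
  exact ⟨E, ⟨hp, hp2, hP, hcomm, hsq, hEI, hE₁, hE₂, hE₃, hall, htop, hne₁, hne₂, hne₃, ht0⟩⟩

section Comm

variable {C : Type*} [CommGroup C] [Finite C] {p : ℕ} {I : Subgroup (MulAut C)} {y₁ y₂ y₃ : C}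
  {E : Bool → Bool → Bool → MulAut C}

theorem Frame.odd (F : Frame p I y₁ y₂ y₃ E) : Odd (Nat.card C) := odd_of_pgroup F.hp F.hp2 F.hP

theorem Frame.mul (F : Frame p I y₁ y₂ y₃ E) (a b c a' b' c' : Bool) :
    E a b c * E a' b' c' = E (a == a') (b == b') (c == c') := by
  apply eq_of_agree F.top
  · rw [MulAut.mul_apply, F.act₁, map_sg, F.act₁, sg_sg, F.act₁]
    cases a <;> cases a' <;> rfl
  · rw [MulAut.mul_apply, F.act₂, map_sg, F.act₂, sg_sg, F.act₂]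
    cases b <;> cases b' <;> rfl
  · rw [MulAut.mul_apply, F.act₃, map_sg, F.act₃, sg_sg, F.act₃]
    cases c <;> cases c' <;> rfl

theorem Frame.one (F : Frame p I y₁ y₂ y₃ E) : E true true true = 1 := by
  apply eq_of_agree F.top
  · rw [F.act₁]; rfl
  · rw [F.act₂]; rfl
  · rw [F.act₃]; rfl

theorem Frame.decomp (F : Frame p I y₁ y₂ y₃ E) (g : C) :
    ∃ α β γ : ℤ, g = y₁ ^ α * y₂ ^ β * y₃ ^ γ := by
  have hg : g ∈ Subgroup.closure {y₁, y₂, y₃} := by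
    rw [F.top]
    exact Subgroup.mem_top g
  induction hg using Subgroup.closure_induction with
  | mem z hz =>
    simp only [Set.mem_insert_iff, Set.mem_singleton_iff] at hz
    rcases hz with rfl | rfl | rfl
    · exact ⟨1, 0, 0, by simp⟩
    · exact ⟨0, 1, 0, by simp⟩
    · exact ⟨0, 0, 1, by simp⟩
  | one => exact ⟨0, 0, 0, by simp⟩
  | mul a b _ _ ha hb =>
    obtain ⟨α, β, γ, rfl⟩ := ha
    obtain ⟨α', β', γ', rfl⟩ := hb
    refine ⟨α + α', β + β', γ + γ', ?_⟩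
    rw [zpow_add, zpow_add, zpow_add]
    simp only [mul_assoc, mul_comm, mul_left_comm]
  | inv a _ ha =>
    obtain ⟨α, β, γ, rfl⟩ := ha
    refine ⟨-α, -β, -γ, ?_⟩
    rw [zpow_neg, zpow_neg, zpow_neg]
    simp only [mul_inv_rev, mul_assoc, mul_comm, mul_left_comm]

theorem Frame.apply (F : Frame p I y₁ y₂ y₃ E) (a b c : Bool) (α β γ : ℤ) :
    E a b c (y₁ ^ α * y₂ ^ β * y₃ ^ γ) = sg a (y₁ ^ α) * sg b (y₂ ^ β) * sg c (y₃ ^ γ) := by
  rw [map_mul, map_mul, map_zpow, map_zpow, map_zpow, F.act₁, F.act₂, F.act₃, sg_zpow, sg_zpow, sg_zpow]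

theorem indep_aux (T : MulAut C) (hodd : Odd (Nat.card C)) (x u : C) (hTx : T x = x⁻¹) (hTu : T u = u)
    (h : x * u = 1) : x = 1 := by
  have h1 := congrArg T h
  rw [map_mul, hTx, hTu, map_one] at h1
  have h2 : u = x⁻¹ := eq_inv_of_mul_eq_one_right h
  have h3 : u = x := by
    have := eq_inv_of_mul_eq_one_right h1
    simpa using this
  apply eq_one_of_sq hodd
  nth_rewrite 1 [← h3]
  rw [h2]
  simp

theorem Frame.indep (F : Frame p I y₁ y₂ y₃ E) {x₁ x₂ x₃ : C}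
    (h₁ : x₁ ∈ Subgroup.zpowers y₁) (h₂ : x₂ ∈ Subgroup.zpowers y₂) (h₃ : x₃ ∈ Subgroup.zpowers y₃)
    (h : x₁ * x₂ * x₃ = 1) : x₁ = 1 ∧ x₂ = 1 ∧ x₃ = 1 := by
  obtain ⟨α, rfl⟩ := Subgroup.mem_zpowers_iff.mp h₁
  obtain ⟨β, rfl⟩ := Subgroup.mem_zpowers_iff.mp h₂
  obtain ⟨γ, rfl⟩ := Subgroup.mem_zpowers_iff.mp h₃
  have ha : ∀ (T : MulAut C) (a : Bool) (y : C) (k : ℤ), T y = sg a y → T (y ^ k) = sg a (y ^ k) := by
    intro T a y k hT
    rw [map_zpow, hT, sg_zpow]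
  refine ⟨?_, ?_, ?_⟩
  · apply indep_aux (E false true true) F.odd _ (y₂ ^ β * y₃ ^ γ)
    · exact ha _ false _ _ (F.act₁ _ _ _)
    · rw [map_mul, ha _ true _ _ (F.act₂ _ _ _), ha _ true _ _ (F.act₃ _ _ _)]
      rfl
    · rw [← mul_assoc, h]
  · apply indep_aux (E true false true) F.odd _ (y₁ ^ α * y₃ ^ γ)
    · exact ha _ false _ _ (F.act₂ _ _ _)
    · rw [map_mul, ha _ true _ _ (F.act₁ _ _ _), ha _ true _ _ (F.act₃ _ _ _)]
      rfl
    · rw [← h]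
      simp only [mul_assoc, mul_comm, mul_left_comm]
  · apply indep_aux (E true true false) F.odd _ (y₁ ^ α * y₂ ^ β)
    · exact ha _ false _ _ (F.act₃ _ _ _)
    · rw [map_mul, ha _ true _ _ (F.act₁ _ _ _), ha _ true _ _ (F.act₂ _ _ _)]
      rfl
    · rw [← h]
      simp only [mul_assoc, mul_comm, mul_left_comm]

theorem sg_mul_inv_mem (a : Bool) (y x : C) (hx : x ∈ Subgroup.zpowers y) :
    sg a x * x⁻¹ ∈ Subgroup.zpowers y := by
  cases a
  · exact Subgroup.mul_mem _ (Subgroup.inv_mem _ hx) (Subgroup.inv_mem _ hx)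
  · simp

theorem Frame.fix (F : Frame p I y₁ y₂ y₃ E) (a b c : Bool) (α β γ : ℤ)
    (h : E a b c (y₁ ^ α * y₂ ^ β * y₃ ^ γ) = y₁ ^ α * y₂ ^ β * y₃ ^ γ) :
    (a = false → y₁ ^ α = 1) ∧ (b = false → y₂ ^ β = 1) ∧ (c = false → y₃ ^ γ = 1) := by
  rw [F.apply] at h
  have h0 : (sg a (y₁ ^ α) * (y₁ ^ α)⁻¹) * (sg b (y₂ ^ β) * (y₂ ^ β)⁻¹) * (sg c (y₃ ^ γ) * (y₃ ^ γ)⁻¹) = 1 := by
    have e : (sg a (y₁ ^ α) * (y₁ ^ α)⁻¹) * (sg b (y₂ ^ β) * (y₂ ^ β)⁻¹) * (sg c (y₃ ^ γ) * (y₃ ^ γ)⁻¹)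
        = (sg a (y₁ ^ α) * sg b (y₂ ^ β) * sg c (y₃ ^ γ)) * (y₁ ^ α * y₂ ^ β * y₃ ^ γ)⁻¹ := by
      simp only [mul_inv_rev, mul_assoc, mul_comm, mul_left_comm]
    rw [e, h, mul_inv_cancel]
  obtain ⟨h1, h2, h3⟩ := F.indep
    (sg_mul_inv_mem a y₁ _ (Subgroup.zpow_mem_zpowers y₁ α))
    (sg_mul_inv_mem b y₂ _ (Subgroup.zpow_mem_zpowers y₂ β))
    (sg_mul_inv_mem c y₃ _ (Subgroup.zpow_mem_zpowers y₃ γ)) h0
  have hz : ∀ x : C, x⁻¹ * x⁻¹ = 1 → x = 1 := by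
    intro x hx
    have := eq_one_of_sq F.odd hx
    simpa using this
  refine ⟨?_, ?_, ?_⟩
  · rintro rfl
    exact hz _ h1
  · rintro rfl
    exact hz _ h2
  · rintro rfl
    exact hz _ h3

theorem zpow_fix (T : MulAut C) (y : C) (hy : T y = y) (x : C) (hx : x ∈ Subgroup.zpowers y) : T x = x := by
  obtain ⟨k, rfl⟩ := Subgroup.mem_zpowers_iff.mp hx
  rw [map_zpow, hy]

theorem Frame.narrow₁ (F : Frame p I y₁ y₂ y₃ E) (x : C) :
    E true false false x = x ↔ x ∈ Subgroup.zpowers y₁ := by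
  refine ⟨fun h => ?_, zpow_fix _ _ (F.act₁ _ _ _) x⟩
  obtain ⟨α, β, γ, rfl⟩ := F.decomp x
  obtain ⟨-, h2, h3⟩ := F.fix _ _ _ _ _ _ h
  rw [h2 rfl, h3 rfl, mul_one, mul_one]
  exact Subgroup.zpow_mem_zpowers y₁ α

theorem Frame.narrow₂ (F : Frame p I y₁ y₂ y₃ E) (x : C) :
    E false true false x = x ↔ x ∈ Subgroup.zpowers y₂ := by
  refine ⟨fun h => ?_, zpow_fix _ _ (F.act₂ _ _ _) x⟩
  obtain ⟨α, β, γ, rfl⟩ := F.decomp x
  obtain ⟨h1, -, h3⟩ := F.fix _ _ _ _ _ _ h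
  rw [h1 rfl, h3 rfl, mul_one, one_mul]
  exact Subgroup.zpow_mem_zpowers y₂ β

theorem Frame.narrow₃ (F : Frame p I y₁ y₂ y₃ E) (x : C) :
    E false false true x = x ↔ x ∈ Subgroup.zpowers y₃ := by
  refine ⟨fun h => ?_, zpow_fix _ _ (F.act₃ _ _ _) x⟩
  obtain ⟨α, β, γ, rfl⟩ := F.decomp x
  obtain ⟨h1, h2, -⟩ := F.fix _ _ _ _ _ _ h
  rw [h1 rfl, h2 rfl, mul_one, one_mul]
  exact Subgroup.zpow_mem_zpowers y₃ γ

theorem Frame.narrow₀ (F : Frame p I y₁ y₂ y₃ E) (x : C) :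
    E false false false x = x ↔ x ∈ Subgroup.zpowers (1 : C) := by
  refine ⟨fun h => ?_, ?_⟩
  · obtain ⟨α, β, γ, rfl⟩ := F.decomp x
    obtain ⟨h1, h2, h3⟩ := F.fix _ _ _ _ _ _ h
    rw [h1 rfl, h2 rfl, h3 rfl]
    simp
  · intro h
    simp only [Subgroup.zpowers_one_eq_bot, Subgroup.mem_bot] at h
    simp [h]

theorem not_narrow (hp : p.Prime) (hp2 : p ≠ 2) (hP : IsPGroup p C) (T A : MulAut C) (hA : A * A = 1)
    (hTA : T * A = A * T) (u v : C) (hTu : T u = u) (hTv : T v = v) (hAu : A u = u⁻¹) (hAv : A v = v)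
    (hu : u ≠ 1) (hv : v ≠ 1) : ¬ Narrow T := by
  rintro ⟨g, hg⟩
  have hodd := odd_of_pgroup hp hp2 hP
  have hTAa : ∀ x, T (A x) = A (T x) := by
    intro x
    have := congrArg (fun f : MulAut C => f x) hTA
    simpa [MulAut.mul_apply] using this
  have hgg : T g = g := (hg g).mpr (Subgroup.mem_zpowers g)
  have hAg : A g ∈ Subgroup.zpowers g := by
    rw [← hg, hTAa, hgg]
  have hug := (hg u).mp hTu
  have hvg := (hg v).mp hTv
  rcases sign hp hp2 hP A hA g hAg with h | h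
  · apply hu
    have := zpow_fix A g h u hug
    rw [hAu] at this
    apply eq_one_of_sq hodd
    nth_rewrite 1 [← this]
    simp
  · apply hv
    obtain ⟨k, hk⟩ := Subgroup.mem_zpowers_iff.mp hvg
    have h5 : A v = v⁻¹ := by
      rw [← hk, map_zpow, h, inv_zpow]
    rw [hAv] at h5
    apply eq_one_of_sq hodd
    nth_rewrite 1 [h5]
    simp

theorem Frame.broad_fix (F : Frame p I y₁ y₂ y₃ E) : ¬ Narrow (E false true true) := by
  apply not_narrow F.hp F.hp2 F.hP _ (E true false true) (F.hsq _ (F.memI _ _ _))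
    (F.hcomm _ (F.memI _ _ _) _ (F.memI _ _ _)) y₂ y₃ (F.act₂ _ _ _) (F.act₃ _ _ _) (F.act₂ _ _ _)
    (F.act₃ _ _ _) F.ne₂ F.ne₃

theorem Frame.broad_fix' (F : Frame p I y₁ y₂ y₃ E) : ¬ Narrow (E true false true) := by
  apply not_narrow F.hp F.hp2 F.hP _ (E false true true) (F.hsq _ (F.memI _ _ _))
    (F.hcomm _ (F.memI _ _ _) _ (F.memI _ _ _)) y₁ y₃ (F.act₁ _ _ _) (F.act₃ _ _ _) (F.act₁ _ _ _)
    (F.act₃ _ _ _) F.ne₁ F.ne₃

theorem Frame.broad_fix'' (F : Frame p I y₁ y₂ y₃ E) : ¬ Narrow (E true true false) := by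
  apply not_narrow F.hp F.hp2 F.hP _ (E false true true) (F.hsq _ (F.memI _ _ _))
    (F.hcomm _ (F.memI _ _ _) _ (F.memI _ _ _)) y₁ y₂ (F.act₁ _ _ _) (F.act₂ _ _ _) (F.act₁ _ _ _)
    (F.act₂ _ _ _) F.ne₁ F.ne₂

theorem Frame.ne_one₁ (F : Frame p I y₁ y₂ y₃ E) (b c : Bool) : E false b c ≠ 1 := by
  intro h
  have := F.act₁ false b c
  rw [h] at this
  apply F.ne₁
  apply eq_one_of_sq F.odd
  nth_rewrite 1 [show y₁ = y₁⁻¹ from this]
  simp

theorem Frame.ne_one₂ (F : Frame p I y₁ y₂ y₃ E) (a c : Bool) : E a false c ≠ 1 := by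
  intro h
  have := F.act₂ a false c
  rw [h] at this
  apply F.ne₂
  apply eq_one_of_sq F.odd
  nth_rewrite 1 [show y₂ = y₂⁻¹ from this]
  simp

theorem Frame.ne_one₃ (F : Frame p I y₁ y₂ y₃ E) (a b : Bool) : E a b false ≠ 1 := by
  intro h
  have := F.act₃ a b false
  rw [h] at this
  apply F.ne₃
  apply eq_one_of_sq F.odd
  nth_rewrite 1 [show y₃ = y₃⁻¹ from this]
  simp

theorem Frame.broad_set (F : Frame p I y₁ y₂ y₃ E) :
    {T : MulAut C | T ∈ I ∧ T ≠ 1 ∧ ¬ Narrow T} = {E false true true, E true false true, E true true false} := by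
  ext T
  simp only [Set.mem_setOf_eq, Set.mem_insert_iff, Set.mem_singleton_iff]
  constructor
  · rintro ⟨hT, hT1, hN⟩
    obtain ⟨a, b, c, rfl⟩ := F.all T hT
    cases a <;> cases b <;> cases c
    · exact (hN ⟨1, F.narrow₀⟩).elim
    · exact (hN ⟨_, F.narrow₃⟩).elim
    · exact (hN ⟨_, F.narrow₂⟩).elim
    · exact Or.inl rfl
    · exact (hN ⟨_, F.narrow₁⟩).elim
    · exact Or.inr (Or.inl rfl)
    · exact Or.inr (Or.inr rfl)
    · exact (hT1 F.one).elim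
  · rintro (rfl | rfl | rfl)
    · exact ⟨F.memI _ _ _, F.ne_one₁ _ _, F.broad_fix⟩
    · exact ⟨F.memI _ _ _, F.ne_one₂ _ _, F.broad_fix'⟩
    · exact ⟨F.memI _ _ _, F.ne_one₃ _ _, F.broad_fix''⟩

theorem Frame.ne_E (F : Frame p I y₁ y₂ y₃ E) : E false true true ≠ E true false true ∧
    E false true true ≠ E true true false ∧ E true false true ≠ E true true false := by
  have hne : ∀ y : C, y ≠ 1 → y⁻¹ ≠ y := by
    intro y hy h
    apply hy
    apply eq_one_of_sq F.odd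
    nth_rewrite 1 [← h]
    simp
  refine ⟨fun h => ?_, fun h => ?_, fun h => ?_⟩
  · have := F.act₁ false true true
    rw [h, F.act₁] at this
    exact hne _ F.ne₁ this.symm
  · have := F.act₁ false true true
    rw [h, F.act₁] at this
    exact hne _ F.ne₁ this.symm
  · have := F.act₂ true false true
    rw [h, F.act₂] at this
    exact hne _ F.ne₂ this.symm

theorem Frame.closure_eq (F : Frame p I y₁ y₂ y₃ E) :
    Subgroup.closure {T : MulAut C | T ∈ I ∧ T ≠ 1 ∧ ¬ Narrow T} = I := by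
  rw [F.broad_set]
  apply le_antisymm
  · rw [Subgroup.closure_le]
    rintro T (rfl | rfl | rfl)
    · exact F.memI _ _ _
    · exact F.memI _ _ _
    · exact F.memI _ _ _
  · intro T hT
    obtain ⟨a, b, c, rfl⟩ := F.all T hT
    set S := Subgroup.closure ({E false true true, E true false true, E true true false} : Set (MulAut C))
    have hA : E false true true ∈ S := Subgroup.subset_closure (by simp)
    have hB : E true false true ∈ S := Subgroup.subset_closure (by simp)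
    have hC : E true true false ∈ S := Subgroup.subset_closure (by simp)
    have hAB : E false false true ∈ S := by
      have := S.mul_mem hA hB
      rwa [F.mul] at this
    have hAC : E false true false ∈ S := by
      have := S.mul_mem hA hC
      rwa [F.mul] at this
    have hBC : E true false false ∈ S := by
      have := S.mul_mem hB hC
      rwa [F.mul] at this
    have hABC : E false false false ∈ S := by
      have := S.mul_mem hAB hC
      rwa [F.mul] at this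
    have hone : E true true true ∈ S := by
      rw [F.one]
      exact S.one_mem
    cases a <;> cases b <;> cases c <;> assumption

theorem Frame.I₀_eq (F : Frame p I y₁ y₂ y₃ E) (I₀ : Subgroup (MulAut C)) (hI₀ : I₀ ≤ I)
    (hdisj : ∀ T ∈ I₀, T ≠ 1 → Narrow T)
    (hprod : ∀ T ∈ I, ∀ T' ∈ I, T ≠ 1 → T' ≠ 1 → (¬ Narrow T) → (¬ Narrow T') → T * T' ∈ I₀) :
    (I₀ : Set (MulAut C)) = {S : MulAut C | ∃ T T' : MulAut C, T ∈ I ∧ T' ∈ I ∧ T ≠ 1 ∧ T' ≠ 1 ∧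
        (¬ Narrow T) ∧ (¬ Narrow T') ∧ S = T * T'} := by
  ext S
  constructor
  · intro hS
    have hS' : S ∈ I₀ := hS
    obtain ⟨a, b, c, rfl⟩ := F.all S (hI₀ hS')
    have hA := F.ne_one₁ true true
    have hB := F.ne_one₂ true true
    have hC := F.ne_one₃ true true
    have hnA : E false true true ∉ I₀ := fun h => F.broad_fix (hdisj _ h hA)
    have hnB : E true false true ∉ I₀ := fun h => F.broad_fix' (hdisj _ h hB)
    have hnC : E true true false ∉ I₀ := fun h => F.broad_fix'' (hdisj _ h hC)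
    have hpr1 : E false false true ∈ I₀ := by
      have := hprod _ (F.memI false true true) _ (F.memI true false true) hA hB F.broad_fix F.broad_fix'
      rwa [F.mul] at this
    cases a <;> cases b <;> cases c
    · exfalso
      apply hnC
      have := I₀.mul_mem hS' hpr1
      rwa [F.mul] at this
    · exact ⟨_, _, F.memI false true true, F.memI true false true, hA, hB, F.broad_fix, F.broad_fix', (F.mul false true true true false true).symm⟩
    · exact ⟨_, _, F.memI false true true, F.memI true true false, hA, hC, F.broad_fix, F.broad_fix'', (F.mul false true true true true false).symm⟩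
    · exact (hnA hS').elim
    · exact ⟨_, _, F.memI true false true, F.memI true true false, hB, hC, F.broad_fix', F.broad_fix'', (F.mul true false true true true false).symm⟩
    · exact (hnB hS').elim
    · exact (hnC hS').elim
    · exact ⟨_, _, F.memI false true true, F.memI false true true, hA, hA, F.broad_fix, F.broad_fix, (F.mul false true true false true true).symm⟩
  · rintro ⟨T, T', hT, hT', h1, h1', hb, hb', rfl⟩
    exact hprod T hT T' hT' h1 h1' hb hb'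

theorem keydiv (hp : p.Prime) (hP : IsPGroup p C) (hp2 : p ≠ 2) (A : MulAut C) (hAA : A * A = 1) (x : C) (hAx : A x = x⁻¹) (hx : x ≠ 1)
    (hinv : ∀ g, A g = g⁻¹ → g ∈ Subgroup.zpowers x) (r : C) (hr : A r = r) (u : ℤ) (z : C)
    (h : x ^ u * r = z ^ p) : (p : ℤ) ∣ u := by
  have h1 : (x ^ u)⁻¹ * r = (A z) ^ p := by
    have := congrArg A h
    rwa [map_mul, map_zpow, hAx, hr, inv_zpow, map_pow] at this
  set g := z * (A z)⁻¹ with hg
  have hAg : A g = g⁻¹ := by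
    rw [hg, map_mul, map_inv, invol_apply hAA]
    simp [mul_comm]
  obtain ⟨α, hα⟩ := Subgroup.mem_zpowers_iff.mp (hinv g hAg)
  have h2 : g ^ p = x ^ u * x ^ u := by
    rw [hg, mul_pow, inv_pow, ← h1, ← h, mul_inv_rev, inv_inv, mul_assoc, mul_inv_cancel_left]
  rw [← hα, ← zpow_natCast, ← zpow_mul, ← zpow_add] at h2
  have h3 : x ^ (α * p - (u + u)) = 1 := by
    rw [zpow_sub, h2, mul_inv_cancel]
  have h4 := orderOf_dvd_iff_zpow_eq_one.mpr h3
  obtain ⟨n, hn⟩ := hP x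
  obtain ⟨m, -, hm⟩ := (Nat.dvd_prime_pow hp).mp (orderOf_dvd_of_pow_eq_one hn)
  have hm0 : m ≠ 0 := by
    rintro rfl
    rw [pow_zero, orderOf_eq_one_iff] at hm
    exact hx hm
  have h5 : p ∣ orderOf x := by
    rw [hm]
    exact dvd_pow_self p hm0
  have h6 : (p : ℤ) ∣ α * p - (u + u) := dvd_trans (by exact_mod_cast h5) h4
  have h7 : (p : ℤ) ∣ 2 * u := by
    have h8 : (p : ℤ) ∣ α * p := Dvd.intro_left α rfl
    have := dvd_sub h8 h6
    have e : α * p - (α * p - (u + u)) = 2 * u := by ring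
    rwa [e] at this
  have hpi : Prime (p : ℤ) := Nat.prime_iff_prime_int.mp hp
  rcases hpi.dvd_or_dvd h7 with h9 | h9
  · exfalso
    have h5 : p ∣ 2 := by exact_mod_cast h9
    exact hp2 ((Nat.prime_dvd_prime_iff_eq hp Nat.prime_two).mp h5)
  · exact h9

theorem aux_ident (X' X Y' Y Z' Z : C) :
    (X' * X⁻¹) * (Y' * Y⁻¹) * (Z' * Z⁻¹) * (X * Y * Z) = X' * Y' * Z' := by
  have e : X⁻¹ * Y⁻¹ * Z⁻¹ = (X * Y * Z)⁻¹ := by
    simp only [mul_inv_rev, mul_assoc, mul_comm, mul_left_comm]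
  calc (X' * X⁻¹) * (Y' * Y⁻¹) * (Z' * Z⁻¹) * (X * Y * Z)
      = X' * Y' * Z' * (X⁻¹ * Y⁻¹ * Z⁻¹) * (X * Y * Z) := by
        simp only [mul_assoc, mul_comm, mul_left_comm]
    _ = X' * Y' * Z' := by rw [e, inv_mul_cancel_right]

theorem pigeon (hp : p.Prime) (y₁ y₂ y₃ a b : C) (hcl : Subgroup.closure {a, b} = ⊤) :
    ∃ (u v w : ℤ) (z : C), ¬ ((p : ℤ) ∣ u ∧ (p : ℤ) ∣ v ∧ (p : ℤ) ∣ w) ∧ y₁ ^ u * y₂ ^ v * y₃ ^ w = z ^ p := by
  haveI : Fact p.Prime := ⟨hp⟩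
  classical
  have hmem : ∀ g : C, ∃ m n : ℤ, a ^ m * b ^ n = g := by
    intro g
    have : g ∈ Subgroup.closure {a, b} := by
      rw [hcl]
      exact Subgroup.mem_top g
    exact Subgroup.mem_closure_pair.mp this
  choose m n hmn using hmem
  let g : ZMod p × ZMod p × ZMod p → C := fun t =>
    y₁ ^ ((t.1.val : ℤ)) * y₂ ^ ((t.2.1.val : ℤ)) * y₃ ^ ((t.2.2.val : ℤ))
  let f : ZMod p × ZMod p × ZMod p → ZMod p × ZMod p := fun t =>
    (((m (g t) : ℤ) : ZMod p), ((n (g t) : ℤ) : ZMod p))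
  have hcard : Fintype.card (ZMod p × ZMod p) < Fintype.card (ZMod p × ZMod p × ZMod p) := by
    simp only [Fintype.card_prod, ZMod.card]
    have := hp.one_lt
    nlinarith [Nat.mul_pos hp.pos hp.pos]
  obtain ⟨t, t', hne, hf⟩ := Fintype.exists_ne_map_eq_of_card_lt f hcard
  simp only [f, Prod.mk.injEq] at hf
  obtain ⟨hf1, hf2⟩ := hf
  obtain ⟨α, hα⟩ := (ZMod.intCast_eq_intCast_iff_dvd_sub _ _ _).mp hf1
  obtain ⟨β, hβ⟩ := (ZMod.intCast_eq_intCast_iff_dvd_sub _ _ _).mp hf2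
  refine ⟨(t'.1.val : ℤ) - t.1.val, (t'.2.1.val : ℤ) - t.2.1.val, (t'.2.2.val : ℤ) - t.2.2.val,
    a ^ α * b ^ β, ?_, ?_⟩
  · rintro ⟨h1, h2, h3⟩
    apply hne
    have h4 : ∀ s s' : ZMod p, (p : ℤ) ∣ (s'.val : ℤ) - s.val → s = s' := by
      intro s s' h
      have := (ZMod.intCast_eq_intCast_iff_dvd_sub (s.val : ℤ) (s'.val : ℤ) p).mpr h
      simpa using this
    exact Prod.ext (h4 _ _ h1) (Prod.ext (h4 _ _ h2) (h4 _ _ h3))
  · have h5 : (a ^ α * b ^ β) ^ p = (a ^ m (g t') * b ^ n (g t')) * (a ^ m (g t) * b ^ n (g t))⁻¹ := by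
      have e1 : m (g t') = m (g t) + p * α := by rw [← hα]; ring
      have e2 : n (g t') = n (g t) + p * β := by rw [← hβ]; ring
      have e3 : (a ^ α * b ^ β) ^ p = a ^ ((p : ℤ) * α) * b ^ ((p : ℤ) * β) := by
        rw [mul_pow, mul_comm (p : ℤ), mul_comm (p : ℤ), zpow_mul, zpow_mul, zpow_natCast, zpow_natCast]
      rw [e3, e1, e2, zpow_add, zpow_add, eq_mul_inv_iff_mul_eq]
      simp only [mul_assoc, mul_comm, mul_left_comm]
    rw [h5, hmn, hmn, eq_mul_inv_iff_mul_eq]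
    simp only [g, zpow_sub]
    exact aux_ident _ _ _ _ _ _

theorem Frame.not_two (F : Frame p I y₁ y₂ y₃ E) : ¬ ∃ a b : C, Subgroup.closure {a, b} = ⊤ := by
  rintro ⟨a, b, hcl⟩
  obtain ⟨u, v, w, z, hn, h⟩ := pigeon F.hp y₁ y₂ y₃ a b hcl
  apply hn
  have hAinv : ∀ (a b c : Bool) (g : C), E a b c g = g⁻¹ → E (!a) (!b) (!c) g = g := by
    intro a b c g h
    have e : E (!a) (!b) (!c) = E false false false * E a b c := by
      rw [F.mul]
      cases a <;> cases b <;> cases c <;> rfl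
    rw [e, MulAut.mul_apply, h, F.t0, inv_inv]
  refine ⟨?_, ?_, ?_⟩
  · apply keydiv F.hp F.hP F.hp2 (E false true true) (F.hsq _ (F.memI _ _ _)) y₁ (F.act₁ _ _ _) F.ne₁
      (fun g hg => (F.narrow₁ g).mp (hAinv _ _ _ g hg)) (y₂ ^ v * y₃ ^ w) ?_ u z ?_
    · rw [map_mul, map_zpow, map_zpow, F.act₂, F.act₃]
      rfl
    · rw [← h, mul_assoc]
  · apply keydiv F.hp F.hP F.hp2 (E true false true) (F.hsq _ (F.memI _ _ _)) y₂ (F.act₂ _ _ _) F.ne₂
      (fun g hg => (F.narrow₂ g).mp (hAinv _ _ _ g hg)) (y₁ ^ u * y₃ ^ w) ?_ v z ?_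
    · rw [map_mul, map_zpow, map_zpow, F.act₁, F.act₃]
      rfl
    · rw [← h]
      simp only [mul_assoc, mul_comm, mul_left_comm]
  · apply keydiv F.hp F.hP F.hp2 (E true true false) (F.hsq _ (F.memI _ _ _)) y₃ (F.act₃ _ _ _) F.ne₃
      (fun g hg => (F.narrow₃ g).mp (hAinv _ _ _ g hg)) (y₁ ^ u * y₂ ^ v) ?_ w z ?_
    · rw [map_mul, map_zpow, map_zpow, F.act₁, F.act₂]
      rfl
    · rw [← h]
      simp only [mul_assoc, mul_comm, mul_left_comm]

theorem Frame.final (F : Frame p I y₁ y₂ y₃ E) (I₀ : Subgroup (MulAut C)) (hI₀ : I₀ ≤ I)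
    (hdisj : ∀ T ∈ I₀, T ≠ 1 → Narrow T)
    (hprod : ∀ T ∈ I, ∀ T' ∈ I, T ≠ 1 → T' ≠ 1 → (¬ Narrow T) → (¬ Narrow T') → T * T' ∈ I₀) :
    (∃ a b c : C, Subgroup.closure {a, b, c} = ⊤) ∧ (¬ ∃ a b : C, Subgroup.closure {a, b} = ⊤) ∧
      Nat.card {T : MulAut C // T ∈ I ∧ T ≠ 1 ∧ ¬ Narrow T} = 3 ∧
      Subgroup.closure {T : MulAut C | T ∈ I ∧ T ≠ 1 ∧ ¬ Narrow T} = I ∧
      (I₀ : Set (MulAut C)) = {S : MulAut C | ∃ T T' : MulAut C, T ∈ I ∧ T' ∈ I ∧ T ≠ 1 ∧ T' ≠ 1 ∧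
        (¬ Narrow T) ∧ (¬ Narrow T') ∧ S = T * T'} := by
  refine ⟨⟨_, _, _, F.top⟩, F.not_two, ?_, F.closure_eq, F.I₀_eq I₀ hI₀ hdisj hprod⟩
  have h1 : Nat.card {T : MulAut C // T ∈ I ∧ T ≠ 1 ∧ ¬ Narrow T}
      = Set.ncard {T : MulAut C | T ∈ I ∧ T ≠ 1 ∧ ¬ Narrow T} := Nat.card_coe_set_eq _
  rw [h1, Set.ncard_eq_three]
  obtain ⟨h2, h3, h4⟩ := F.ne_E
  exact ⟨_, _, _, h2, h3, h4, F.broad_set⟩

end Comm

/-- Let p be an odd prime, P a finite p-group and I an elementary abelian subgroup of order 8 of Aut(P). Call T ∈ I, T ≠ 1, broad when its fixed-point subgroup C_P(T) is not cyclic. Suppose I has a proper subgroup I₀ containing no broad element such that the product of any two broad elements lies in I₀. Then P is abelian of rank exactly 3 (generated by three elements but not by two), there are exactly three broad elements and they generate I, and I₀ is exactly the set of products of two broad elements.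 -/
theorem result
    {P : Type*} [Group P] [Finite P] (p : ℕ) (hp : p.Prime) (hp2 : p ≠ 2) (hP : IsPGroup p P)
    (I : Subgroup (MulAut P)) (hI : Cfsg.IsElementaryAbelian 2 I) (hI8 : Nat.card ↥I = 8)
    (I₀ : Subgroup (MulAut P)) (hI₀ : I₀ < I)
    (hdisj : ∀ T ∈ I₀, T ≠ 1 → ∃ g : P, ∀ x : P, (T x = x ↔ x ∈ Subgroup.zpowers g))
    (hprod : ∀ T ∈ I, ∀ T' ∈ I, T ≠ 1 → T' ≠ 1 → (¬ ∃ g : P, ∀ x : P, (T x = x ↔ x ∈ Subgroup.zpowers g)) →
      (¬ ∃ g : P, ∀ x : P, (T' x = x ↔ x ∈ Subgroup.zpowers g)) → T * T' ∈ I₀) :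
    IsMulCommutative P ∧ (∃ a b c : P, Subgroup.closure {a, b, c} = ⊤) ∧ (¬ ∃ a b : P, Subgroup.closure {a, b} = ⊤) ∧
      Nat.card {T : MulAut P // T ∈ I ∧ T ≠ 1 ∧ ¬ ∃ g : P, ∀ x : P, (T x = x ↔ x ∈ Subgroup.zpowers g)} = 3 ∧
      Subgroup.closure {T : MulAut P | T ∈ I ∧ T ≠ 1 ∧ ¬ ∃ g : P, ∀ x : P, (T x = x ↔ x ∈ Subgroup.zpowers g)} = I ∧
      (I₀ : Set (MulAut P)) = {S : MulAut P | ∃ T T' : MulAut P, T ∈ I ∧ T' ∈ I ∧ T ≠ 1 ∧ T' ≠ 1 ∧
        (¬ ∃ g : P, ∀ x : P, (T x = x ↔ x ∈ Subgroup.zpowers g)) ∧ (¬ ∃ g : P, ∀ x : P, (T' x = x ↔ x ∈ Subgroup.zpowers g)) ∧ S = T * T'} := by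
  classical
  have hcomm : ∀ T ∈ I, ∀ T' ∈ I, T * T' = T' * T := by
    intro T hT T' hT'
    have := hI.1.is_comm.comm (⟨T, hT⟩ : I) ⟨T', hT'⟩
    exact congrArg Subtype.val this
  have hsq : ∀ T ∈ I, T * T = 1 := by
    intro T hT
    have := hI.2 T hT
    rwa [pow_two] at this
  obtain ⟨T₁, hT₁, T₂, hT₂, -, ⟨-, hn₁⟩, ⟨-, hn₂⟩, ⟨-, hn₃⟩⟩ := exists_pair I I₀ hcomm hsq hI8 hI₀
    (fun T : MulAut P => ¬ Narrow T) (fun T hT h1 hB => hB (hdisj T hT h1))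
    (fun T hT T' hT' h1 h1' hb hb' => hprod T hT T' hT' h1 h1' hb hb')
  obtain ⟨y₁, hy₁⟩ := not_not.mp hn₁
  obtain ⟨y₂, hy₂⟩ := not_not.mp hn₂
  obtain ⟨y₃, hy₃⟩ := not_not.mp hn₃
  obtain ⟨E, F⟩ := exists_frame hp hp2 hP I hI hI8 T₁ T₂ hT₁ hT₂ y₁ y₂ y₃ hy₁ hy₂ hy₃
  have hc : ∀ x y : P, x * y = y * x := by
    intro x y
    have h := F.t0 (x * y)
    rw [map_mul, F.t0, F.t0, ← mul_inv_rev] at h
    exact (inv_injective h).symm
  refine ⟨⟨⟨hc⟩⟩, ?_⟩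
  letI : CommGroup P := { ‹Group P› with mul_comm := hc }
  exact Frame.final F I₀ hI₀.le hdisj hprod

end Cfsg.Agent.S4412
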