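import Cfsg.Statements.S5405
import Cfsg.Agent.Lib.ThreeT.H1Orth
import Cfsg.Agent.S0824
import Cfsg.Agent.S0288
import Cfsg.Agent.Lib.PermRepO.Basic
import Cfsg.Agent.Lib.PermRepO.Transfer

set_option autoImplicit false
open scoped MatrixGroups
open Cfsg

namespace Cfsg.Agent.S5405

open Cfsg.Agent.Lib.ThreeT.H1Orth Cfsg.Agent.Lib.Orth.Forms

def M6J0 : List ℕ := [25, 38, 17, 34, 24, 36]

def M6Js : List (List ℕ) := [[24, 32, 34, 13, 5, 35], [40, 25, 36, 22, 44, 31], [13, 20, 14, 22, 16, 35]]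

def M6tree : List (ℕ × ℕ) := [(0, 5), (1, 5), (2, 5), (0, 35), (1, 35), (2, 35), (0, 14), (1, 14), (2, 14), (1, 57), (2, 57), (1, 38), (2, 38), (0, 28), (1, 28), (2, 28), (1, 51), (2, 51), (2, 49), (2, 11), (1, 22), (2, 22), (0, 33), (0, 18), (2, 18), (1, 10), (2, 63), (1, 44), (1, 16), (1, 17), (2, 17), (2, 47), (1, 34), (0, 31), (1, 56)]

def M6L : List ℕ := [41, 54, 20, 36, 32, 56, 48, 31, 7, 13, 34, 25, 19, 24, 50, 47, 17, 16, 44, 52, 63, 40, 10, 18, 60, 33, 22, 11, 49, 51, 28, 38, 57, 14, 35, 5]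

def P8J0 : List ℕ := [91, 158, 94, 152, 114, 140, 127, 142]

def P8Js : List (List ℕ) := [[79, 34, 99, 141, 106, 29, 107, 182], [50, 77, 143, 71, 79, 166, 76, 31], [76, 168, 94, 141, 84, 140, 78, 173]]

def P8tree : List (ℕ × ℕ) := [(0, 17), (1, 17), (2, 17), (0, 101), (1, 101), (2, 101), (0, 84), (1, 84), (2, 84), (0, 43), (1, 43), (2, 43), (1, 116), (2, 116), (0, 177), (1, 177), (2, 177), (1, 151), (2, 151), (0, 172), (1, 172), (2, 172), (0, 69), (2, 69), (1, 140), (2, 140), (0, 253), (2, 253), (0, 119), (1, 119), (2, 119), (0, 58), (1, 58), (1, 229), (2, 229), (0, 188), (2, 188), (0, 143), (0, 212), (2, 203), (1, 29), (0, 242), (1, 248), (2, 248), (2, 94), (0, 232), (1, 232), (2, 232), (1, 201), (2, 201), (0, 167), (1, 167), (2, 167), (0, 254), (1, 254), (2, 254), (0, 216), (1, 216), (2, 214), (2, 99), (2, 92), (0, 178), (2, 178), (0, 152), (0, 35), (1, 35), (0, 145), (0, 200), (1, 62), (0, 122), (2,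 138), (0, 191), (0, 27), (1, 27), (2, 27), (0, 100), (2, 100), (0, 141), (1, 154), (2, 154), (1, 47), (0, 68), (1, 68), (1, 239), (2, 239), (0, 127), (2, 127), (0, 184), (1, 184), (2, 184), (1, 137), (0, 173), (2, 114), (0, 109), (0, 233), (2, 187), (0, 89), (0, 158), (1, 158), (0, 136), (1, 136), (2, 198), (1, 39), (0, 142), (2, 142), (0, 42), (1, 42), (0, 156), (1, 163), (2, 241), (1, 113), (1, 70), (2, 196), (2, 46), (1, 83), (0, 181), (0, 79), (0, 202), (1, 21)]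

def P8L : List ℕ := [228, 247, 34, 166, 76, 61, 124, 168, 53, 107, 57, 139, 23, 86, 221, 149, 169, 121, 78, 108, 19, 91, 21, 202, 49, 79, 181, 83, 46, 196, 218, 31, 182, 81, 70, 38, 113, 98, 199, 241, 163, 238, 156, 223, 42, 227, 142, 77, 209, 211, 147, 39, 50, 25, 198, 162, 197, 244, 136, 158, 89, 187, 233, 109, 114, 173, 226, 137, 184, 127, 239, 68, 47, 154, 141, 100, 27, 191, 138, 122, 251, 62, 200, 54, 71, 145, 35, 152, 178, 92, 106, 99, 214, 216, 254, 167, 201, 232, 94, 248, 242, 29, 203, 212, 143, 188, 229, 58, 119, 253, 140, 69, 172, 151, 177, 116, 43, 84, 101, 17]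



/-- Coordinates. -/
def idxM : (Fin 2 ⊕ Fin 2) ⊕ Fin 2 → ℕ
  | .inl (.inl i) => i
  | .inl (.inr i) => i + 2
  | .inr j => j + 4

def idxP : Fin 4 ⊕ Fin 4 → ℕ
  | .inl i => i
  | .inr i => i + 4

lemma idxM_inj : Function.Injective idxM := by decide
lemma idxP_inj : Function.Injective idxP := by decide

lemma hab2 : ∀ z₁ z₂ : ZMod 2, z₁ ^ 2 + 1 * z₁ * z₂ + 1 * z₂ ^ 2 = 0 → z₁ = 0 ∧ z₂ = 0 := by decide

set_option maxRecDepth 100000 in
theorem m6 (f : ↥(Omega (ZMod 2) (quadFormMinus 2 (ZMod 2) 1 1)) → ((Fin 2 ⊕ Fin 2) ⊕ Fin 2 → ZMod 2))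
    (hf : IsCocycle f) : ∃ v, ∀ g, f g = ac g v - v := by
  refine vanish_cert (Q := minusForm 2 (ZMod 2) 1 1) idxM (minusForm_nondeg 2 hab2) (by decide) idxM_inj 6 (by decide)
    M6J0 M6Js 5 M6tree ?_ ?_ ?_ ?_ ?_ f hf
  · decide +kernel
  · decide +kernel
  · decide +kernel
  · decide +kernel
  · have h : grow idxM (⇑(minusForm 2 (ZMod 2) 1 1)) M6Js M6tree [5] = M6L := by decide +kernel
    rw [h]
    decide +kernel

set_option maxRecDepth 100000 in
theorem p8 (f : ↥(Omega (ZMod 2) (quadFormPlus 4 (ZMod 2))) → (Fin 4 ⊕ Fin 4 → ZMod 2))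
    (hf : IsCocycle f) : ∃ v, ∀ g, f g = ac g v - v := by
  refine vanish_cert (Q := plusForm 4 (ZMod 2)) idxP (plusForm_nondeg 4) (by decide) idxP_inj 8 (by decide)
    P8J0 P8Js (17) P8tree ?_ ?_ ?_ ?_ ?_ f hf
  · decide +kernel
  · decide +kernel
  · decide +kernel
  · decide +kernel
  · have h : grow idxP (⇑(plusForm 4 (ZMod 2))) P8Js P8tree [17] = P8L := by decide +kernel
    rw [h]
    decide +kernel


/-! ### The elliptic form in dimension four -/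

section A5

open scoped commutatorElement
open Equiv Cfsg.Agent.Lib.PermRepO.Transfer Cfsg.Agent.Lib.PermRepO.Basic Cfsg.Agent.S0824

/-- The action of the symmetric group on the natural module. -/
def actS (σ : Perm (Fin 5)) (x : I4 → Z2) : I4 → Z2 := proj (P σ (emb x))

theorem exists_phi : ∃ φ : Perm (Fin 5) ≃* isometryGroup Z2 (quadFormMinus 1 Z2 1 1),
    ∀ σ x, (((φ σ : isometryGroup Z2 (quadFormMinus 1 Z2 1 1)) : GL I4 Z2) : Matrix I4 I4 Z2).mulVec x = actS σ x := by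
  obtain ⟨f, hf, hact⟩ := exists_hom (K := Z2) (G := Perm (Fin 5)) permRep emb proj (LinearMap.ker sumL) ⊥
    sum_emb
    (fun σ v hv => by
      rw [LinearMap.mem_ker] at hv ⊢
      rw [permRep_apply, sumL_P, hv])
    proj_emb
    (fun v hv => by
      rw [LinearMap.mem_ker] at hv
      rw [emb_proj v hv, sub_self]
      exact Submodule.zero_mem _)
    (fun σ l hl => by
      rw [Submodule.mem_bot] at hl ⊢
      rw [hl, map_zero])
    (fun l hl => by
      rw [Submodule.mem_bot] at hl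
      rw [hl, map_zero])
    (quadFormMinus 1 Z2 1 1) QX QX_emb
    (fun σ v => QX_P σ v)
    (fun v _ l hl => by
      rw [Submodule.mem_bot] at hl
      rw [hl, add_zero])
    (fun σ h => eq_one_of_scalar (by norm_num) σ (1 : Z2) (fun v hv => by
      have := h v hv
      rw [Submodule.mem_bot, sub_eq_zero] at this
      rw [one_smul]
      exact this))
  have hc : Nat.card (isometryGroup Z2 (quadFormMinus 1 Z2 1 1)) = Nat.card (Perm (Fin 5)) := by
    have h1 := Cfsg.Agent.S0288.result (F := Z2) (q := 2) (ZMod.card 2) 2 (by norm_num) 1 1 (by decide)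
    have h3 : Nat.card (Perm (Fin 5)) = 120 := by
      simp [Nat.card_eq_fintype_card, Fintype.card_perm, Nat.factorial]
    rw [h3]
    exact h1
  have hb : Function.Bijective f :=
    (Nat.bijective_iff_injective_and_card f).mpr ⟨hf, hc.symm⟩
  exact ⟨MulEquiv.ofBijective f hb, fun σ x => hact σ x⟩

/-- A cycle of length five. -/
def c5 : Perm (Fin 5) := ⟨![1, 2, 3, 4, 0], ![4, 0, 1, 2, 3], by decide, by decide⟩
/-- An involution. -/
def b5 : Perm (Fin 5) := ⟨![1, 0, 3, 2, 4], ![1, 0, 3, 2, 4], by decide, by decide⟩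
def xc : Perm (Fin 5) := ⟨![0, 1, 3, 4, 2], ![0, 1, 4, 2, 3], by decide, by decide⟩
def yc : Perm (Fin 5) := ⟨![2, 3, 0, 4, 1], ![2, 4, 0, 1, 3], by decide, by decide⟩
def xb : Perm (Fin 5) := ⟨![0, 1, 3, 2, 4], ![0, 1, 3, 2, 4], by decide, by decide⟩
def yb : Perm (Fin 5) := ⟨![2, 3, 0, 1, 4], ![2, 3, 0, 1, 4], by decide, by decide⟩

lemma c5_comm : ⁅xc, yc⁆ = c5 := by decide
lemma b5_comm : ⁅xb, yb⁆ = b5 := by decide

lemma actS_fpf : ∀ y : I4 → Z2, actS c5 y = y → y = 0 := by decide +kernel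

lemma act_key : ∀ x : I4 → Z2, x + actS b5 x = 0 →
    actS c5 x + actS (c5 * b5) (actS c5 x) + actS (c5 * b5) (actS (c5 * b5) (actS c5 x)) = 0 → x = 0 := by
  decide +kernel

lemma card_aux (H : Subgroup (Perm (Fin 5))) (hH : H ≤ alternatingGroup (Fin 5))
    (h30 : 30 ∣ Nat.card H) : alternatingGroup (Fin 5) ≤ H := by
  have hcard : Nat.card (alternatingGroup (Fin 5)) = 60 := by
    rw [nat_card_alternatingGroup]
    simp [Nat.card_perm, Nat.factorial]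
  let H' : Subgroup (alternatingGroup (Fin 5)) := H.subgroupOf (alternatingGroup (Fin 5))
  have h1 : Nat.card H' = Nat.card H := Nat.card_congr (Subgroup.subgroupOfEquivOfLe hH).toEquiv
  have h2 : Nat.card H' * H'.index = 60 := by
    rw [Subgroup.card_mul_index, hcard]
  have htop : H' = ⊤ := by
    obtain ⟨k, hk⟩ := h30
    rw [h1, hk] at h2
    have hk'' : 30 * (k * H'.index) = 60 := by rw [← h2]; ring
    have hk' : k * H'.index = 2 := by omega
    have hi : H'.index = 1 ∨ H'.index = 2 := by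
      have : H'.index ∣ 2 := ⟨k, by rw [mul_comm]; exact hk'.symm⟩
      exact (Nat.dvd_prime Nat.prime_two).1 this
    rcases hi with hi | hi
    · exact Subgroup.index_eq_one.1 hi
    · have hN : H'.Normal := Subgroup.normal_of_index_eq_two hi
      rcases hN.eq_bot_or_eq_top with h | h
      · exfalso
        rw [h, Subgroup.index_bot, hcard] at hi
        omega
      · exact h
  intro σ hσ
  have : (⟨σ, hσ⟩ : alternatingGroup (Fin 5)) ∈ H' := by
    rw [htop]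
    exact Subgroup.mem_top _
  exact this

theorem a5 (f : ↥(Omega Z2 (quadFormMinus 1 Z2 1 1)) → (I4 → Z2)) (hf : IsCocycle f) :
    ∃ v, ∀ g, f g = ac g v - v := by
  obtain ⟨φ, hφ⟩ := exists_phi
  -- elements of `Ω`
  have hmem : ∀ x y : Perm (Fin 5), φ ⁅x, y⁆ ∈ Omega Z2 (quadFormMinus 1 Z2 1 1) := by
    intro x y
    rw [map_commutatorElement]
    exact Subgroup.commutator_mem_commutator (Subgroup.mem_top _) (Subgroup.mem_top _)
  let C : ↥(Omega Z2 (quadFormMinus 1 Z2 1 1)) := ⟨φ c5, by rw [← c5_comm]; exact hmem _ _⟩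
  let B : ↥(Omega Z2 (quadFormMinus 1 Z2 1 1)) := ⟨φ b5, by rw [← b5_comm]; exact hmem _ _⟩
  have hCac : ∀ x, ac C x = actS c5 x := fun x => hφ c5 x
  have hBac : ∀ x, ac B x = actS b5 x := fun x => hφ b5 x
  have hDac : ∀ x, ac (C * B) x = actS (c5 * b5) x := by
    intro x
    have h1 : ((C * B : ↥(Omega Z2 (quadFormMinus 1 Z2 1 1))) : isometryGroup Z2 (quadFormMinus 1 Z2 1 1)) = φ (c5 * b5) := by
      rw [map_mul]
      rfl
    show (((((C * B : ↥(Omega Z2 (quadFormMinus 1 Z2 1 1))) : isometryGroup Z2 (quadFormMinus 1 Z2 1 1))) : GL I4 Z2) : Matrix I4 I4 Z2).mulVec x = _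
    rw [h1, hφ]
  refine reduce hf C (fun y hy => actS_fpf y (by rw [← hCac]; exact hy)) fun f hf hf0 g => ?_
  -- the involution
  have hBB : B * B = 1 := by
    apply Subtype.ext
    show φ b5 * φ b5 = 1
    rw [← map_mul, show b5 * b5 = 1 by decide, map_one]
  have hDDD : (C * B) * (C * B) * (C * B) = 1 := by
    apply Subtype.ext
    show φ c5 * φ b5 * (φ c5 * φ b5) * (φ c5 * φ b5) = 1
    simp only [← map_mul]
    rw [show c5 * b5 * (c5 * b5) * (c5 * b5) = 1 by decide, map_one]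
  have hB0 : f B = 0 := by
    apply act_key
    · have h1 := hf B B
      rw [hBB, hf.one, hBac] at h1
      exact h1.symm
    · have h2 : f (C * B) = actS c5 (f B) := by
        rw [hf C B, hf0, zero_add, hCac]
      have h3 := hf ((C * B) * (C * B)) (C * B)
      rw [hDDD, hf.one, hf (C * B) (C * B), ac_mul (C * B) (C * B), h2] at h3
      simp only [hDac] at h3
      exact h3.symm
  -- the subgroup of the symmetric group
  let K : Subgroup ↥(Omega Z2 (quadFormMinus 1 Z2 1 1)) :=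
    { carrier := {g | f g = 0}
      one_mem' := hf.one
      mul_mem' := fun ha hb => hf.mul ha hb
      inv_mem' := fun ha => hf.inv ha }
  let H : Subgroup (Perm (Fin 5)) := (K.map (Omega Z2 (quadFormMinus 1 Z2 1 1)).subtype).comap φ.toMonoidHom
  have hcH : c5 ∈ H := ⟨C, hf0, rfl⟩
  have hbH : b5 ∈ H := ⟨B, hB0, rfl⟩
  have hdH : c5 * b5 ∈ H := mul_mem hcH hbH
  have hHalt : H ≤ alternatingGroup (Fin 5) := by
    rintro σ ⟨k, -, hk⟩
    have h1 : (k : isometryGroup Z2 (quadFormMinus 1 Z2 1 1)) ∈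
        ((Perm.sign (α := Fin 5)).comp φ.symm.toMonoidHom).ker :=
      Abelianization.commutator_subset_ker _ k.2
    rw [MonoidHom.mem_ker] at h1
    have h2 : (k : isometryGroup Z2 (quadFormMinus 1 Z2 1 1)) = φ σ := hk
    rw [h2] at h1
    simpa [Equiv.Perm.mem_alternatingGroup] using h1
  have h30 : 30 ∣ Nat.card H := by
    have h5 : orderOf c5 ∣ Nat.card H := Subgroup.orderOf_dvd_natCard H hcH
    have h2 : orderOf b5 ∣ Nat.card H := Subgroup.orderOf_dvd_natCard H hbH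
    have h3 : orderOf (c5 * b5) ∣ Nat.card H := Subgroup.orderOf_dvd_natCard H hdH
    have : Fact (Nat.Prime 5) := ⟨by norm_num⟩
    have : Fact (Nat.Prime 3) := ⟨by norm_num⟩
    have : Fact (Nat.Prime 2) := ⟨by norm_num⟩
    rw [orderOf_eq_prime (by decide : c5 ^ 5 = 1) (by decide : c5 ≠ 1)] at h5
    rw [orderOf_eq_prime (by decide : b5 ^ 2 = 1) (by decide : b5 ≠ 1)] at h2
    rw [orderOf_eq_prime (by decide : (c5 * b5) ^ 3 = 1) (by decide : c5 * b5 ≠ 1)] at h3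
    have h6 : 2 * 3 ∣ Nat.card H := Nat.Coprime.mul_dvd_of_dvd_of_dvd (by norm_num) h2 h3
    have h7 : 2 * 3 * 5 ∣ Nat.card H := Nat.Coprime.mul_dvd_of_dvd_of_dvd (by norm_num) h6 h5
    simpa using h7
  have halt := card_aux H hHalt h30
  -- conclusion
  have h1 : φ.symm (g : isometryGroup Z2 (quadFormMinus 1 Z2 1 1)) ∈ alternatingGroup (Fin 5) := by
    have h1 : (g : isometryGroup Z2 (quadFormMinus 1 Z2 1 1)) ∈
        ((Perm.sign (α := Fin 5)).comp φ.symm.toMonoidHom).ker :=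
      Abelianization.commutator_subset_ker _ g.2
    rw [MonoidHom.mem_ker] at h1
    simpa [Equiv.Perm.mem_alternatingGroup] using h1
  obtain ⟨k, hk0, hk⟩ := halt h1
  have h2 : k = g := by
    apply Subtype.ext
    have : (k : isometryGroup Z2 (quadFormMinus 1 Z2 1 1)) = φ (φ.symm g) := hk
    rw [this]
    exact φ.apply_symm_apply _
  rw [← h2]
  exact hk0

end A5

/-- Vanishing of first cohomology on the natural module for three small orthogonal groups over the field with two elements: for the commutator subgroup of the isometry group of the elliptic quadratic form in dimension 4, of the elliptic form in dimension 6, and of the hyperbolic form in dimension 8, every crossed homomorphism into the natural module (a map f with f(gh) = f(g) + g·f(h)) is principal (of the form g ↦ g·v − v). -/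
theorem result : (∀ f : ↥(Cfsg.Omega (ZMod 2) (Cfsg.quadFormMinus 1 (ZMod 2) 1 1)) → ((Fin 1 ⊕ Fin 1) ⊕ Fin 2 → ZMod 2), (∀ g h : ↥(Cfsg.Omega (ZMod 2) (Cfsg.quadFormMinus 1 (ZMod 2) 1 1)), f (g * h) = f g + Matrix.mulVec (((g : ↥(Cfsg.isometryGroup (ZMod 2) (Cfsg.quadFormMinus 1 (ZMod 2) 1 1))) : GL ((Fin 1 ⊕ Fin 1) ⊕ Fin 2) (ZMod 2)) : Matrix ((Fin 1 ⊕ Fin 1) ⊕ Fin 2) ((Fin 1 ⊕ Fin 1) ⊕ Fin 2) (ZMod 2)) (f h)) → ∃ v : (Fin 1 ⊕ Fin 1) ⊕ Fin 2 → ZMod 2, ∀ g : ↥(Cfsg.Omega (ZMod 2) (Cfsg.quadFormMinus 1 (ZMod 2) 1 1)), f g = Matrix.mulVec (((g : ↥(Cfsg.isometryGroup (ZMod 2) (Cfsg.quadFormMinus 1 (ZMod 2) 1 1))) : GL ((Fin 1 ⊕ Fin 1) ⊕ Fin 2) (ZMod 2)) : Matrix ((Fin 1 ⊕ Fin 1) ⊕ Fin 2) ((Fin 1 ⊕ Fin 1) ⊕ Fin 2) (ZMod 2)) v - v) ∧ (∀ f : ↥(Cfsg.Omega (ZMod 2) (Cfsg.quadFormMinus 2 (ZMod 2) 1 1)) → ((Fin 2 ⊕ Fin 2) ⊕ Fin 2 → ZMod 2), (∀ g h : ↥(Cfsg.Omega (ZMod 2) (Cfsg.quadFormMinus 2 (ZMod 2) 1 1)), f (g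 * h) = f g + Matrix.mulVec (((g : ↥(Cfsg.isometryGroup (ZMod 2) (Cfsg.quadFormMinus 2 (ZMod 2) 1 1))) : GL ((Fin 2 ⊕ Fin 2) ⊕ Fin 2) (ZMod 2)) : Matrix ((Fin 2 ⊕ Fin 2) ⊕ Fin 2) ((Fin 2 ⊕ Fin 2) ⊕ Fin 2) (ZMod 2)) (f h)) → ∃ v : (Fin 2 ⊕ Fin 2) ⊕ Fin 2 → ZMod 2, ∀ g : ↥(Cfsg.Omega (ZMod 2) (Cfsg.quadFormMinus 2 (ZMod 2) 1 1)), f g = Matrix.mulVec (((g : ↥(Cfsg.isometryGroup (ZMod 2) (Cfsg.quadFormMinus 2 (ZMod 2) 1 1))) : GL ((Fin 2 ⊕ Fin 2) ⊕ Fin 2) (ZMod 2)) : Matrix ((Fin 2 ⊕ Fin 2) ⊕ Fin 2) ((Fin 2 ⊕ Fin 2) ⊕ Fin 2) (ZMod 2)) v - v) ∧ (∀ f : ↥(Cfsg.Omega (ZMod 2) (Cfsg.quadFormPlus 4 (ZMod 2))) → (Fin 4 ⊕ Fin 4 → ZMod 2), (∀ g h : ↥(Cfsg.Omega (ZMod 2) (Cfsg.quadFormPlus 4 (ZMod 2))), f (g * h) = f g + Matrix.mulVec (((g : ↥(Cfsg.isometryGroup (ZMod 2) (Cfsg.quadFormPlus 4 (ZMod 2)))) : GL (Fin 4 ⊕ Fin 4) (ZMod 2)) : Matrix (Fin 4 ⊕ Fin 4) (Fin 4 ⊕ Fin 4) (ZMod 2)) (f h)) → ∃ v : Fin 4 ⊕ Fin 4 → ZMod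 2, ∀ g : ↥(Cfsg.Omega (ZMod 2) (Cfsg.quadFormPlus 4 (ZMod 2))), f g = Matrix.mulVec (((g : ↥(Cfsg.isometryGroup (ZMod 2) (Cfsg.quadFormPlus 4 (ZMod 2)))) : GL (Fin 4 ⊕ Fin 4) (ZMod 2)) : Matrix (Fin 4 ⊕ Fin 4) (Fin 4 ⊕ Fin 4) (ZMod 2)) v - v) := by
  exact ⟨fun f hf => a5 f hf, fun f hf => m6 f hf, fun f hf => p8 f hf⟩

end Cfsg.Agent.S5405
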