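import Cfsg.Statements.S5432
import Cfsg.Agent.Lib.PGroups.ExtraOut
import Cfsg.Agent.Lib.PGroups.ExtraRank

set_option autoImplicit false
open Cfsg

namespace Cfsg.Agent.S5432

/-- Let E be an extraspecial 2-group of order 2^(2n+1), n ≥ 1. If E contains an elementary abelian subgroup of order 2^(n+1) (plus type), then its outer automorphism group is isomorphic to the full isometry group of the hyperbolic quadratic form in dimension 2n over the field with two elements; otherwise (minus type) it is isomorphic to the full isometry group of the elliptic quadratic form in dimension 2n over that field. -/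
theorem result {E : Type*} [Group E] [Finite E] (hE : Cfsg.IsExtraspecial 2 E) (n : ℕ) (hn : 1 ≤ n) (hcard : Nat.card E = 2 ^ (2 * n + 1)) : ((∃ A : Subgroup E, Cfsg.IsElementaryAbelian 2 A ∧ Nat.card ↥A = 2 ^ (n + 1)) → Nonempty (Cfsg.Out E ≃* Cfsg.isometryGroup (ZMod 2) (Cfsg.quadFormPlus n (ZMod 2)))) ∧ ((¬ ∃ A : Subgroup E, Cfsg.IsElementaryAbelian 2 A ∧ Nat.card ↥A = 2 ^ (n + 1)) → Nonempty (Cfsg.Out E ≃* Cfsg.isometryGroup (ZMod 2) (Cfsg.quadFormMinus (n - 1) (ZMod 2) 1 1))) := by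
  obtain ⟨k, rfl⟩ : ∃ k, n = k + 1 := ⟨n - 1, by omega⟩
  have h := Cfsg.Agent.Lib.PGroups.Special.extraLike_of_isExtraspecial hE
  obtain ⟨m, hm, hcard', hN⟩ := Cfsg.Agent.Lib.PGroups.ExtraIso.count_of_isExtraspecial hE
  have hmn : m = k + 1 := by
    have h1 : (2 : ℕ) ^ (2 * m + 1) = 2 ^ (2 * (k + 1) + 1) := by rw [← hcard', hcard]
    have h2 := Nat.pow_right_injective (le_refl 2) h1
    omega
  subst hmn
  constructor
  · rintro ⟨A, hA, hAc⟩
    have hplus : Nat.card {x : E // x ^ 2 = 1} = 2 ^ (2 * (k + 1)) + 2 ^ (k + 1) := by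
      rcases hN with h1 | h1
      · exact h1
      · exfalso
        have h2 := (Cfsg.Agent.Lib.PGroups.ExtraRank.prank_of_minus h hm hcard h1).1 A hA.1 hA.2
        rw [hAc] at h2
        have h3 := (Nat.pow_le_pow_iff_right (by norm_num : 1 < 2)).mp h2
        omega
    have hf := Cfsg.Agent.Lib.PGroups.ExtraConstruct.fm_eq_beta0 (k + 1)
    have hnd := Cfsg.Agent.Lib.F2Quad.Plus.fm_nd (k + 1)
    have hV := Cfsg.Agent.Lib.F2Quad.Types.card_V (k + 1)
    have hL := Cfsg.Agent.Lib.PGroups.ExtraConstruct.CE.extraLike hf hnd hV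
    haveI : Finite (Cfsg.Agent.Lib.PGroups.ExtraConstruct.CE (Cfsg.Agent.Lib.PGroups.ExtraConstruct.beta0 (k + 1))) :=
      Finite.of_equiv _ Cfsg.Agent.Lib.PGroups.ExtraConstruct.CE.equivProd.symm
    have hcardCE : Nat.card (Cfsg.Agent.Lib.PGroups.ExtraConstruct.CE (Cfsg.Agent.Lib.PGroups.ExtraConstruct.beta0 (k + 1))) = 2 ^ (2 * (k + 1) + 1) := by
      rw [Cfsg.Agent.Lib.PGroups.ExtraConstruct.CE.card_eq, hV, pow_succ]
    have hNCE : Nat.card {x : Cfsg.Agent.Lib.PGroups.ExtraConstruct.CE (Cfsg.Agent.Lib.PGroups.ExtraConstruct.beta0 (k + 1)) // x ^ 2 = 1} = 2 ^ (2 * (k + 1)) + 2 ^ (k + 1) := by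
      rw [Cfsg.Agent.Lib.PGroups.ExtraConstruct.CE.card_sq]
      simp only [Cfsg.Agent.Lib.PGroups.ExtraConstruct.beta0_self]
      rw [Cfsg.Agent.Lib.F2Quad.Types.card_zero]
      ring
    obtain ⟨e⟩ := Cfsg.Agent.Lib.PGroups.ExtraIso.nonempty_equiv_of_count h hL (hcard.trans hcardCE.symm) (hplus.trans hNCE.symm)
    obtain ⟨e₁⟩ := Cfsg.Agent.Lib.PGroups.ExtraOut.nonempty_out_congr e
    obtain ⟨e₂⟩ := Cfsg.Agent.Lib.PGroups.ExtraOut.nonempty_out_equiv hf hnd (LinearEquiv.refl _ _)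
      (Cfsg.quadFormPlus (k + 1) (ZMod 2)) (fun v => Cfsg.Agent.Lib.PGroups.ExtraConstruct.beta0_self _ v)
    exact ⟨e₁.trans e₂⟩
  · intro hno
    have hminus : Nat.card {x : E // x ^ 2 = 1} + 2 ^ (k + 1) = 2 ^ (2 * (k + 1)) := by
      rcases hN with h1 | h1
      · exfalso
        apply hno
        obtain ⟨M, -, hMc, hM, hmax⟩ := Cfsg.Agent.Lib.PGroups.ExtraRank.exists_maximal_ea (⊥ : Subgroup E) inferInstance (by simp)
        exact ⟨M, ⟨hMc, hM⟩, (Cfsg.Agent.Lib.PGroups.ExtraRank.card_maximal_ea h M hMc hM hmax hcard).1 h1⟩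
      · exact h1
    have hf := Cfsg.Agent.Lib.PGroups.ExtraConstruct.fm_eq_betaM k
    have hnd := Cfsg.Agent.Lib.F2Quad.Plus.fm_nd (k + 1)
    have hV := Cfsg.Agent.Lib.F2Quad.Types.card_V (k + 1)
    have hL := Cfsg.Agent.Lib.PGroups.ExtraConstruct.CE.extraLike hf hnd hV
    haveI : Finite (Cfsg.Agent.Lib.PGroups.ExtraConstruct.CE (Cfsg.Agent.Lib.PGroups.ExtraConstruct.betaM k)) :=
      Finite.of_equiv _ Cfsg.Agent.Lib.PGroups.ExtraConstruct.CE.equivProd.symm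
    have hcardCE : Nat.card (Cfsg.Agent.Lib.PGroups.ExtraConstruct.CE (Cfsg.Agent.Lib.PGroups.ExtraConstruct.betaM k)) = 2 ^ (2 * (k + 1) + 1) := by
      rw [Cfsg.Agent.Lib.PGroups.ExtraConstruct.CE.card_eq, hV, pow_succ]
    have hNCE : Nat.card {x : Cfsg.Agent.Lib.PGroups.ExtraConstruct.CE (Cfsg.Agent.Lib.PGroups.ExtraConstruct.betaM k) // x ^ 2 = 1} + 2 ^ (k + 1) = 2 ^ (2 * (k + 1)) := by
      rw [Cfsg.Agent.Lib.PGroups.ExtraConstruct.CE.card_sq]
      simp only [Cfsg.Agent.Lib.PGroups.ExtraConstruct.betaM_self]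
      exact Cfsg.Agent.Lib.PGroups.ExtraConstruct.card_q' k
    obtain ⟨e⟩ := Cfsg.Agent.Lib.PGroups.ExtraIso.nonempty_equiv_of_count h hL (hcard.trans hcardCE.symm)
      (by omega)
    obtain ⟨e₁⟩ := Cfsg.Agent.Lib.PGroups.ExtraOut.nonempty_out_congr e
    obtain ⟨e₂⟩ := Cfsg.Agent.Lib.PGroups.ExtraOut.nonempty_out_equiv hf hnd (Cfsg.Agent.Lib.F2Quad.Plus.iota k)
      (Cfsg.quadFormMinus k (ZMod 2) 1 1) (fun v => by
        rw [Cfsg.Agent.Lib.PGroups.ExtraConstruct.betaM_self]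
        exact (Cfsg.Agent.Lib.F2Quad.Plus.minus_iota k v).symm)
    exact ⟨e₁.trans e₂⟩

end Cfsg.Agent.S5432
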