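import Cfsg.Statements.S4413
import Cfsg.Agent.S5432
import Cfsg.Agent.S5405
import Cfsg.Agent.Lib.PGroups.Special

set_option autoImplicit false
open Cfsg

namespace Cfsg.Agent.S4413

/-- Let P be an extraspecial 2-group of order 32 with no elementary abelian subgroup of order 8 (the central product of a dihedral and a quaternion group of order 8). Then the inner automorphism group of P has order 16 and the outer automorphism group Aut(P)/Inn(P) is isomorphic to the symmetric group of degree 5; in particular Aut(P) has order 1920. -/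
theorem result {P : Type*} [Group P] [Finite P]
    (hex : Cfsg.IsExtraspecial 2 P) (h32 : Nat.card P = 32)
    (hminus : ∀ A : Subgroup P, Cfsg.IsElementaryAbelian 2 A → Nat.card ↥A ≤ 4)
    [(MulAut.conj : P →* MulAut P).range.Normal] :
    Nat.card ↥(MulAut.conj : P →* MulAut P).range = 16 ∧ Nat.card (MulAut P) = 1920 ∧
      Nonempty ((MulAut P ⧸ (MulAut.conj : P →* MulAut P).range) ≃* Equiv.Perm (Fin 5)) := by
  have hinn : Nat.card ↥(MulAut.conj : P →* MulAut P).range = 16 := by
    have h1 := Subgroup.card_eq_card_quotient_mul_card_subgroup (MulAut.conj : P →* MulAut P).ker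
    have h2 : (MulAut.conj : P →* MulAut P).ker = Subgroup.center P := by
      ext x
      simp only [MonoidHom.mem_ker, Subgroup.mem_center_iff, MulEquiv.ext_iff]
      constructor
      · intro h g
        have := h g
        simp only [MulAut.conj_apply, MulAut.one_apply] at this
        exact (mul_inv_eq_iff_eq_mul.1 this).symm
      · intro h g
        simp only [MulAut.conj_apply, MulAut.one_apply]
        rw [← h g]
        group
    have h3 : Nat.card (P ⧸ (MulAut.conj : P →* MulAut P).ker)
        = Nat.card ↥(MulAut.conj : P →* MulAut P).range :=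
      Nat.card_congr (QuotientGroup.quotientKerEquivRange _).toEquiv
    rw [h32, h2, hex.2] at h1
    rw [h2] at h3
    rw [← h3]
    omega
  have hout : Nonempty (Cfsg.Out P ≃* Equiv.Perm (Fin 5)) := by
    have hno : ¬ ∃ A : Subgroup P, Cfsg.IsElementaryAbelian 2 A ∧ Nat.card ↥A = 2 ^ (2 + 1) := by
      rintro ⟨A, hA, hc⟩
      have := hminus A hA
      omega
    obtain ⟨e⟩ := (Cfsg.Agent.S5432.result hex 2 (by norm_num) (by rw [h32]; norm_num)).2 hno
    obtain ⟨φ, -⟩ := Cfsg.Agent.S5405.exists_phi
    exact ⟨e.trans φ.symm⟩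
  obtain ⟨e⟩ := hout
  have e' : Nonempty ((MulAut P ⧸ (MulAut.conj : P →* MulAut P).range) ≃* Equiv.Perm (Fin 5)) :=
    ⟨e⟩
  obtain ⟨e2⟩ := e'
  refine ⟨hinn, ?_, ⟨e2⟩⟩
  have h1 := Subgroup.card_eq_card_quotient_mul_card_subgroup (MulAut.conj : P →* MulAut P).range
  rw [hinn, Nat.card_congr e2.toEquiv] at h1
  have h3 : Nat.card (Equiv.Perm (Fin 5)) = 120 := by
    simp [Nat.card_eq_fintype_card, Fintype.card_perm, Nat.factorial]
  rw [h3] at h1
  omega

end Cfsg.Agent.S4413
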