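import Cfsg.Statements.S4414
import Mathlib
import Cfsg.Agent.Lib.PermMod.Basic
-- import your own Cfsg.Agent.* helpers here

set_option autoImplicit false
set_option linter.unusedSectionVars false
open Cfsg

namespace Cfsg.Agent.S4414

open scoped IsMulCommutative TensorProduct


section Chars

variable {S : Type*} [Group S] (P : Subgroup S) [hPn : P.Normal] {K : Type*} [Field K]

/-- conjugation action on characters -/
noncomputable def cact (s : S) (χ : P →* Kˣ) : P →* Kˣ :=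
  χ.comp (MulAut.conjNormal s⁻¹).toMonoidHom

theorem cact_apply (s : S) (χ : P →* Kˣ) (g : P) :
    cact P s χ g = χ (MulAut.conjNormal s⁻¹ g) := rfl

noncomputable instance charAction : MulAction S (P →* Kˣ) where
  smul := cact P
  one_smul χ := by
    ext g
    change ((cact P 1 χ g : Kˣ) : K) = _
    rw [cact_apply]
    simp
  mul_smul a b χ := by
    ext g
    change ((cact P (a * b) χ g : Kˣ) : K) = ((cact P a (cact P b χ) g : Kˣ) : K)
    rw [cact_apply, cact_apply, cact_apply]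
    simp [mul_inv_rev]

theorem smul_char_apply (s : S) (χ : P →* Kˣ) (g : P) :
    (s • χ) g = χ (MulAut.conjNormal s⁻¹ g) := rfl

variable {P}

/-- Character sums. -/
theorem char_sum_eq_zero [Fintype P] {χ : P →* Kˣ} (hχ : χ ≠ 1) :
    ∑ g : P, ((χ g : Kˣ) : K) = 0 := by
  obtain ⟨h, hh⟩ : ∃ h, χ h ≠ 1 := by
    by_contra hcon
    push Not at hcon
    exact hχ (by ext g; simp [hcon g])
  have h1 : ((χ h : Kˣ) : K) * ∑ g : P, ((χ g : Kˣ) : K) = ∑ g : P, ((χ g : Kˣ) : K) := by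
    rw [Finset.mul_sum]
    refine Fintype.sum_equiv (Equiv.mulLeft h) _ _ fun g => ?_
    simp
  have h2 : (((χ h : Kˣ) : K) - 1) * ∑ g : P, ((χ g : Kˣ) : K) = 0 := by
    rw [sub_mul, h1, one_mul, sub_self]
  rcases mul_eq_zero.mp h2 with h3 | h3
  · exact absurd (Units.ext (by simpa [sub_eq_zero] using h3)) hh
  · exact h3

theorem dual_sum_eq_zero [Fintype P] [IsMulCommutative P]
    [HasEnoughRootsOfUnity K (Monoid.exponent P)]
    [Fintype (P →* Kˣ)] {g : P} (hg : g ≠ 1) :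
    ∑ χ : P →* Kˣ, ((χ g : Kˣ) : K) = 0 := by
  obtain ⟨χ₀, h0⟩ := CommGroup.exists_apply_ne_one_of_hasEnoughRootsOfUnity P K hg
  have h1 : ((χ₀ g : Kˣ) : K) * ∑ χ : P →* Kˣ, ((χ g : Kˣ) : K) =
      ∑ χ : P →* Kˣ, ((χ g : Kˣ) : K) := by
    rw [Finset.mul_sum]
    refine Fintype.sum_equiv (Equiv.mulLeft χ₀) _ _ fun χ => ?_
    simp
  have h2 : (((χ₀ g : Kˣ) : K) - 1) * ∑ χ : P →* Kˣ, ((χ g : Kˣ) : K) = 0 := by
    rw [sub_mul, h1, one_mul, sub_self]
  rcases mul_eq_zero.mp h2 with h3 | h3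
  · exact absurd (Units.ext (by simpa [sub_eq_zero] using h3)) h0
  · exact h3

variable {V : Type*} [AddCommGroup V] [Module K V] (R : S →* Module.End K V) [Fintype P]

/-- The isotypic idempotent attached to the character `χ`. -/
noncomputable def e (χ : P →* Kˣ) : Module.End K V :=
  ∑ g : P, ((χ g⁻¹ : Kˣ) : K) • R (g : S)

theorem e_apply (χ : P →* Kˣ) (v : V) :
    e R χ v = ∑ g : P, ((χ g⁻¹ : Kˣ) : K) • R (g : S) v := by
  simp [e, LinearMap.sum_apply]

theorem R_mul_apply (a b : S) (v : V) : R (a * b) v = R a (R b v) := by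
  rw [map_mul]; rfl

theorem R_e_of_mem (h : P) (χ : P →* Kˣ) (v : V) :
    R (h : S) (e R χ v) = ((χ h : Kˣ) : K) • e R χ v := by
  rw [e_apply, map_sum, Finset.smul_sum]
  refine (Fintype.sum_equiv (Equiv.mulLeft h) _ _ fun g => ?_)
  simp only [map_smul, Equiv.coe_mulLeft, Subgroup.coe_mul, smul_smul, mul_inv_rev, map_mul,
    Units.val_mul]
  congr 1
  rw [mul_comm ((χ h : Kˣ) : K), mul_assoc, ← Units.val_mul, ← map_mul]
  simp

theorem e_e_eq_smul (ψ χ : P →* Kˣ) (v : V) :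
    e R ψ (e R χ v) = (∑ g : P, ((χ g * ψ g⁻¹ : Kˣ) : K)) • e R χ v := by
  rw [e_apply R ψ, Finset.sum_smul]
  refine Finset.sum_congr rfl fun g _ => ?_
  rw [R_e_of_mem, smul_smul, Units.val_mul, mul_comm]

theorem e_e_of_ne {ψ χ : P →* Kˣ} (h : ψ ≠ χ) (v : V) : e R ψ (e R χ v) = 0 := by
  rw [e_e_eq_smul]
  have h1 : χ * ψ⁻¹ ≠ 1 := by
    intro h2
    exact h (mul_inv_eq_one.mp h2).symm
  have h2 := char_sum_eq_zero h1
  simp only [MonoidHom.mul_apply, MonoidHom.inv_apply, map_inv] at h2 ⊢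
  rw [h2, zero_smul]

theorem e_e_self (hc : ((Fintype.card P : ℕ) : K) = 1) (χ : P →* Kˣ) (v : V) :
    e R χ (e R χ v) = e R χ v := by
  rw [e_e_eq_smul]
  have : ∑ g : P, ((χ g * χ g⁻¹ : Kˣ) : K) = 1 := by
    simp [← map_mul, hc]
  rw [this, one_smul]

theorem sum_e [IsMulCommutative P] [HasEnoughRootsOfUnity K (Monoid.exponent P)]
    [Fintype (P →* Kˣ)] (hc : ((Fintype.card P : ℕ) : K) = 1) (v : V) :
    ∑ χ : P →* Kˣ, e R χ v = v := by
  classical
  simp_rw [e_apply]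
  rw [Finset.sum_comm]
  simp_rw [← Finset.sum_smul]
  rw [Finset.sum_eq_single (1 : P)]
  · have hcard : Fintype.card (P →* Kˣ) = Fintype.card P := by
      simpa [Nat.card_eq_fintype_card] using
        CommGroup.card_monoidHom_of_hasEnoughRootsOfUnity P K
    simp [hcard, hc]
  · intro g _ hg
    rw [dual_sum_eq_zero (K := K) (g := g⁻¹) (by simpa using hg), zero_smul]
  · simp

theorem R_e_conj (s : S) (χ : P →* Kˣ) (v : V) :
    R s (e R χ v) = e R (s • χ) (R s v) := by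
  rw [e_apply, e_apply, map_sum]
  refine Fintype.sum_equiv (MulAut.conjNormal (H := P) s).toEquiv _ _ fun g => ?_
  have h1 : (((MulAut.conjNormal (H := P) s) g : P) : S) * s = s * g := by
    simp [MulAut.conjNormal_apply]
  have h2 : (s • χ) ((MulAut.conjNormal (H := P) s) g)⁻¹ = χ g⁻¹ := by
    rw [smul_char_apply]
    congr 1
    ext
    simp [MulAut.conjNormal_apply]
  simp only [map_smul, ← R_mul_apply, MulEquiv.toEquiv_eq_coe, EquivLike.coe_coe]
  rw [h1, h2]


/-- The subspace of vectors with support in `U`. -/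
def WU (U : Set (P →* Kˣ)) : Submodule K V where
  carrier := {v | ∀ χ, χ ∉ U → e R χ v = 0}
  add_mem' := by
    intro a b ha hb χ hχ
    rw [map_add, ha χ hχ, hb χ hχ, add_zero]
  zero_mem' := by
    intro χ _
    simp
  smul_mem' := by
    intro c a ha χ hχ
    rw [map_smul, ha χ hχ, smul_zero]

theorem mem_WU {U : Set (P →* Kˣ)} {v : V} : v ∈ WU R U ↔ ∀ χ, χ ∉ U → e R χ v = 0 := Iff.rfl

theorem R_inv_R (s : S) (v : V) : R s⁻¹ (R s v) = v := by
  rw [← R_mul_apply]; simp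

theorem R_R_inv (s : S) (v : V) : R s (R s⁻¹ v) = v := by
  rw [← R_mul_apply]; simp

theorem e_R (s : S) (χ : P →* Kˣ) (v : V) :
    e R χ (R s v) = R s (e R (s⁻¹ • χ) v) := by
  rw [R_e_conj, smul_inv_smul]

theorem e_R_eq_zero_iff (s : S) (χ : P →* Kˣ) (v : V) :
    e R χ (R s v) = 0 ↔ e R (s⁻¹ • χ) v = 0 := by
  rw [e_R]
  constructor
  · intro h
    have := congrArg (R s⁻¹) h
    rwa [R_inv_R, map_zero] at this
  · intro h
    rw [h, map_zero]

theorem WU_invariant {T : Subgroup S} {U : Set (P →* Kˣ)}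
    (hU : ∀ t ∈ T, ∀ χ ∈ U, t • χ ∈ U) (t : S) (ht : t ∈ T) {v : V} (hv : v ∈ WU R U) :
    R t v ∈ WU R U := by
  intro χ hχ
  rw [e_R_eq_zero_iff]
  apply hv
  intro h
  apply hχ
  have := hU t ht _ h
  rwa [smul_inv_smul] at this

theorem exists_fixed_in_WU {T : Subgroup S} [Finite T] [CharP K 2] (hT : IsPGroup 2 T)
    (hc : ((Fintype.card P : ℕ) : K) = 1)
    {U : Set (P →* Kˣ)}
    (hU : ∀ t ∈ T, ∀ χ ∈ U, t • χ ∈ U) {χ₀ : P →* Kˣ} (h0 : χ₀ ∈ U) {v : V} (hv : e R χ₀ v ≠ 0) :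
    ∃ w ∈ WU R U, w ≠ 0 ∧ ∀ t ∈ T, R t w = w := by
  classical
  haveI : Fact (Nat.Prime 2) := ⟨Nat.prime_two⟩
  let ρ' : Representation K T V := R.comp T.subtype
  have hmem : e R χ₀ v ∈ WU R U := by
    intro χ hχ
    apply e_e_of_ne
    rintro rfl
    exact hχ h0
  obtain ⟨u, huW, hu0, hu⟩ := Cfsg.Agent.Lib.PermMod.Basic.exists_fixed_vector (K := K) (p := 2) hT ρ'
    (WU R U) (fun g v hv => WU_invariant R hU g g.2 hv) hmem hv
  exact ⟨u, huW, hu0, fun t ht => hu ⟨t, ht⟩⟩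

theorem linearIndependent_of_supports [IsMulCommutative P]
    [HasEnoughRootsOfUnity K (Monoid.exponent P)] [Fintype (P →* Kˣ)]
    (hc : ((Fintype.card P : ℕ) : K) = 1)
    {ι : Type*} [Fintype ι] {U : ι → Set (P →* Kˣ)} (hdis : ∀ i j, i ≠ j → Disjoint (U i) (U j))
    {w : ι → V} (hw : ∀ i, w i ∈ WU R (U i)) (hw0 : ∀ i, w i ≠ 0) :
    LinearIndependent K w := by
  classical
  rw [Fintype.linearIndependent_iff]
  intro g hg i
  obtain ⟨χ, hχ⟩ : ∃ χ, e R χ (w i) ≠ 0 := by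
    by_contra hcon
    push Not at hcon
    apply hw0 i
    rw [← sum_e R hc (w i)]
    exact Finset.sum_eq_zero fun χ _ => hcon χ
  have hχU : χ ∈ U i := by
    by_contra h
    exact hχ (hw i χ h)
  have h1 := congrArg (e R χ) hg
  rw [map_sum, map_zero, Finset.sum_eq_single i] at h1
  · rw [map_smul] at h1
    exact (smul_eq_zero.mp h1).resolve_right hχ
  · intro j _ hj
    rw [map_smul, hw j χ, smul_zero]
    intro h
    exact Set.disjoint_left.mp (hdis i j (Ne.symm hj)) hχU h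
  · simp

end Chars



section Tensor

variable {S : Type*} [Group S] {E : Type*} [AddCommGroup E] [Module (ZMod 2) E]
  (ρ : Representation (ZMod 2) S E) (K : Type*) [Field K] [Algebra (ZMod 2) K]

/-- base change -/
noncomputable def RK : S →* Module.End K (K ⊗[ZMod 2] E) :=
  (Module.End.baseChangeHom (ZMod 2) K E).toMonoidHom.comp ρ

theorem RK_tmul (s : S) (a : K) (v : E) : RK ρ K s (a ⊗ₜ v) = a ⊗ₜ ρ s v := by
  change (ρ s).baseChange K (a ⊗ₜ v) = _
  simp

/-- Fixed vectors -/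
def fixedSub (A : Set S) : Submodule (ZMod 2) E where
  carrier := {v | ∀ t ∈ A, ρ t v = v}
  add_mem' := by
    intro a b ha hb t ht
    rw [map_add, ha t ht, hb t ht]
  zero_mem' := by
    intro t _
    simp
  smul_mem' := by
    intro c a ha t ht
    rw [map_smul, ha t ht]

theorem mem_fixedSub {A : Set S} {v : E} : v ∈ fixedSub ρ A ↔ ∀ t ∈ A, ρ t v = v := Iff.rfl

theorem mem_span_of_fixed (A : Set S) {u : K ⊗[ZMod 2] E} (hu : ∀ t ∈ A, RK ρ K t u = u) :
    u ∈ Submodule.span K ((fun w : E => (1 : K) ⊗ₜ[ZMod 2] w) '' (fixedSub ρ A : Set E)) := by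
  classical
  let b := Module.Basis.ofVectorSpace (ZMod 2) K
  let φ := TensorProduct.equivFinsuppOfBasisLeft (N := E) b
  have h1 : ∀ (t : S) (u : K ⊗[ZMod 2] E) i, φ (RK ρ K t u) i = ρ t (φ u i) := by
    intro t u i
    induction u with
    | zero => simp
    | add x y hx hy => simp [map_add, hx, hy]
    | tmul a v =>
      rw [RK_tmul]
      simp [φ]
  have h2 : ∀ i, φ u i ∈ fixedSub ρ A := by
    intro i t ht
    rw [← h1, hu t ht]
  have h3 : u = φ.symm (φ u) := (φ.symm_apply_apply u).symm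
  rw [h3]
  simp only [φ, TensorProduct.equivFinsuppOfBasisLeft_symm_apply]
  refine Submodule.sum_mem _ fun i _ => ?_
  have h4 : (b i : K) ⊗ₜ[ZMod 2] (φ u i) = (b i : K) • ((1 : K) ⊗ₜ[ZMod 2] (φ u i)) := by
    rw [TensorProduct.smul_tmul', smul_eq_mul, mul_one]
  change (b i : K) ⊗ₜ[ZMod 2] (φ u i) ∈ _
  rw [h4]
  exact Submodule.smul_mem _ _ (Submodule.subset_span ⟨_, h2 i, rfl⟩)

theorem card_le_finrank_fixed [Finite E] (A : Set S) {ι : Type*} [Fintype ι]
    {w : ι → K ⊗[ZMod 2] E} (hw : LinearIndependent K w) (hfix : ∀ i, ∀ t ∈ A, RK ρ K t (w i) = w i) :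
    Fintype.card ι ≤ Module.finrank (ZMod 2) (fixedSub ρ A) := by
  classical
  let W := fixedSub ρ A
  have : Finite W := inferInstance
  let β := Module.finBasis (ZMod 2) W
  let B : Submodule K (K ⊗[ZMod 2] E) :=
    Submodule.span K (Set.range fun i => (1 : K) ⊗ₜ[ZMod 2] ((β i : W) : E))
  have hB : Module.Finite K B := FiniteDimensional.span_of_finite K (Set.finite_range _)
  have h1 : ∀ i, w i ∈ B := by
    intro i
    refine Submodule.span_le.mpr ?_ (mem_span_of_fixed ρ K A (hfix i))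
    rintro _ ⟨v, hv, rfl⟩
    have h2 : (⟨v, hv⟩ : W) = ∑ j, β.repr ⟨v, hv⟩ j • β j := (β.sum_repr _).symm
    have h3 : v = ∑ j, β.repr ⟨v, hv⟩ j • ((β j : W) : E) := by
      have h7 : ((∑ j, β.repr ⟨v, hv⟩ j • β j : W) : E) = v := by rw [β.sum_repr]
      have h8 := h7.symm
      rw [Submodule.coe_sum] at h8
      exact h8
    change (1 : K) ⊗ₜ[ZMod 2] v ∈ B
    rw [h3, TensorProduct.tmul_sum]
    refine Submodule.sum_mem _ fun j _ => ?_
    rw [TensorProduct.tmul_smul]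
    exact Submodule.smul_of_tower_mem _ _ (Submodule.subset_span ⟨j, rfl⟩)
  have h5 : Fintype.card ι = Module.finrank K (Submodule.span K (Set.range w)) :=
    (finrank_span_eq_card hw).symm
  have h6 : Submodule.span K (Set.range w) ≤ B := Submodule.span_le.mpr (by
    rintro _ ⟨i, rfl⟩; exact h1 i)
  have h7 := Submodule.finrank_mono h6
  have h8 : Module.finrank K B ≤ Fintype.card (Fin (Module.finrank (ZMod 2) W)) := by
    have := finrank_range_le_card (R := K) (fun i => (1 : K) ⊗ₜ[ZMod 2] ((β i : W) : E))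
    simpa [Set.finrank] using this
  simp only [Fintype.card_fin] at h8
  change Fintype.card ι ≤ Module.finrank (ZMod 2) W
  omega

theorem eq_zero_of_fixed_bot (A : Set S) (hA : fixedSub ρ A = ⊥) {u : K ⊗[ZMod 2] E}
    (hu : ∀ t ∈ A, RK ρ K t u = u) : u = 0 := by
  have := mem_span_of_fixed ρ K A hu
  rw [hA] at this
  simpa using this

theorem RK_fix_of_fix (A : Set S) {x : S} (hx : ∀ v ∈ fixedSub ρ A, ρ x v = v)
    {u : K ⊗[ZMod 2] E} (hu : ∀ t ∈ A, RK ρ K t u = u) : RK ρ K x u = u := by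
  have h := mem_span_of_fixed ρ K A hu
  clear hu
  induction h using Submodule.span_induction with
  | mem y hy =>
    obtain ⟨v, hv, rfl⟩ := hy
    simp only [RK_tmul, hx v hv]
  | zero => simp
  | add y z _ _ hy hz => rw [map_add, hy, hz]
  | smul c y _ hy => rw [map_smul, hy]

end Tensor


section Grp

theorem dvd_card_of_free {X : Type*} [Finite X] (f : X → X) {q : ℕ} [hq : Fact q.Prime]
    (hf : ∀ x, f^[q] x = x) (hfree : ∀ x, f x ≠ x) : q ∣ Nat.card X := by
  classical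
  have := Fintype.ofFinite X
  let g : Function.End X := f
  have h1 : g ^ q ^ 1 = 1 := by
    rw [pow_one]
    funext x
    exact hf x
  have h2 := Equiv.Perm.card_fixedPoints_modEq (f := g) (p := q) (n := 1) h1
  have h3 : IsEmpty (Function.fixedPoints f) := ⟨fun x => hfree x.1 x.2⟩
  have h4 : Fintype.card (Function.fixedPoints f) = 0 := Fintype.card_eq_zero
  rw [Nat.card_eq_fintype_card]
  have h5 : Fintype.card X ≡ 0 [MOD q] := by
    convert h2
    exact h4.symm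
  exact (Nat.modEq_zero_iff_dvd).mp h5

theorem dichotomy {S : Type*} [Group S] [Finite S] {T Q C : Subgroup S} {q : ℕ} (hq : q.Prime)
    (hcard : Nat.card ↥(T ⊔ Q) = Nat.card T * Nat.card Q) (hQ : Nat.card Q = q)
    (hTC : T ≤ C) (hQC : ∀ z ∈ Q, ∀ c ∈ C, z * c * z⁻¹ ∈ C) :
    Q ≤ C ∨ ∀ z ∈ Q, ∀ t ∈ T, z * t * z⁻¹ ∈ T := by
  let H := T ⊔ Q
  let L := C ⊓ H
  have hTL : T ≤ L := le_inf hTC le_sup_left
  have hLH : L ≤ H := inf_le_right
  have h1 : Nat.card T ∣ Nat.card L := Subgroup.card_dvd_of_le hTL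
  have h2 : Nat.card L ∣ Nat.card T * q := by
    have := Subgroup.card_dvd_of_le hLH
    rwa [hcard, hQ] at this
  obtain ⟨k, hk⟩ := h1
  have hT0 : 0 < Nat.card T := Nat.card_pos
  have h3 : k ∣ q := by
    rw [hk] at h2
    exact Nat.dvd_of_mul_dvd_mul_left hT0 h2
  rcases (Nat.dvd_prime hq).mp h3 with rfl | rfl
  · right
    have hLT : L = T := by
      symm
      apply Subgroup.eq_of_le_of_card_ge hTL
      rw [hk, mul_one]
    intro z hz t ht
    rw [← hLT]
    refine ⟨hQC z hz t (hTC ht), ?_⟩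
    exact H.mul_mem (H.mul_mem (le_sup_right (a := T) hz) (le_sup_left (b := Q) ht))
      (H.inv_mem (le_sup_right (a := T) hz))
  · left
    have hLH' : L = H := by
      apply Subgroup.eq_of_le_of_card_ge hLH
      change Nat.card ↥(T ⊔ Q) ≤ _
      rw [hcard, hQ, hk]
    intro z hz
    have : z ∈ L := by
      rw [hLH']
      exact le_sup_right (a := T) hz
    exact this.1

end Grp


section Core

variable {S : Type*} [Group S] [Finite S] {P Q : Subgroup S} [hPn : P.Normal] {K : Type*} [Field K]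

theorem char_free {q : ℕ} (hq : q.Prime) (hQ : Nat.card Q = q) (hcomm : ⁅P, Q⁆ = P)
    {χ : P →* Kˣ} (hχ : χ ≠ 1) {y : S} (hy : y ∈ Q) (hy1 : y ≠ 1) : y • χ ≠ χ := by
  intro hfix
  haveI : Fact q.Prime := ⟨hq⟩
  have hall : ∀ z ∈ Q, z • χ = χ := by
    intro z hz
    have h1 : (⟨z, hz⟩ : Q) ∈ Subgroup.zpowers (⟨y, hy⟩ : Q) :=
      mem_zpowers_of_prime_card hQ (by
        intro h; exact hy1 (congrArg Subtype.val h))
    obtain ⟨k, hk⟩ := h1
    have h2 : z = y ^ k := by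
      have := congrArg Subtype.val hk
      simpa using this.symm
    have h3 : y ∈ MulAction.stabilizer S χ := hfix
    have h4 : y ^ k ∈ MulAction.stabilizer S χ := Subgroup.zpow_mem _ h3 k
    rw [h2]
    exact h4
  apply hχ
  let K₀ : Subgroup S := (χ.ker).map P.subtype
  have hle : ⁅P, Q⁆ ≤ K₀ := by
    rw [Subgroup.commutator_le]
    intro g hg z hz
    let g' : P := ⟨g, hg⟩
    let h : P := MulAut.conjNormal z g'⁻¹
    have h1 : χ h = χ g'⁻¹ := by
      have h2 := smul_char_apply P z⁻¹ χ g'⁻¹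
      rw [hall z⁻¹ (Q.inv_mem hz), inv_inv] at h2
      exact h2.symm
    refine ⟨g' * h, ?_, ?_⟩
    · change χ (g' * h) = 1
      rw [map_mul, h1, ← map_mul]
      simp
    · simp [g', h, commutatorElement_def, MulAut.conjNormal_apply, mul_assoc]
  rw [hcomm] at hle
  ext g
  obtain ⟨k, hk1, hk2⟩ := hle g.2
  have : k = g := Subtype.ext hk2
  rw [← this]
  have h5 : χ k = 1 := hk1
  simp [h5]

variable [Finite (P →* Kˣ)]

theorem dvd_card_of_invariant {q : ℕ} (hq : q.Prime) (hQ : Nat.card Q = q) (hcomm : ⁅P, Q⁆ = P)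
    {O : Set (P →* Kˣ)} (hO1 : (1 : P →* Kˣ) ∉ O) {y : S} (hy : y ∈ Q) (hy1 : y ≠ 1)
    (hinv : ∀ χ ∈ O, y • χ ∈ O) : q ∣ Nat.card O := by
  haveI : Fact q.Prime := ⟨hq⟩
  let f : O → O := fun x => ⟨y • x.1, hinv _ x.2⟩
  have h1 : ∀ (n : ℕ) (x : O), ((f^[n] x : O) : P →* Kˣ) = y ^ n • x.1 := by
    intro n x
    induction n with
    | zero => simp
    | succ n ih =>
      rw [Function.iterate_succ_apply']
      change y • ((f^[n] x : O) : P →* Kˣ) = _
      rw [ih, pow_succ', mul_smul]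
  have hyq : y ^ q = 1 := by
    have h2 := pow_card_eq_one' (G := Q) (x := ⟨y, hy⟩)
    rw [hQ] at h2
    have := congrArg Subtype.val h2
    simpa using this
  refine dvd_card_of_free f ?_ ?_
  · intro x
    apply Subtype.ext
    rw [h1, hyq, one_smul]
  · intro x hx
    have h3 : y • x.1 = x.1 := congrArg Subtype.val hx
    refine char_free hq hQ hcomm (χ := x.1) ?_ hy hy1 h3
    intro h4
    exact hO1 (h4 ▸ x.2)

end Core


section Main

theorem smul_orbit_mem {S : Type*} [Group S] {P : Subgroup S} [P.Normal] {K : Type*} [Field K]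
    (T : Subgroup S) (χ χ' : P →* Kˣ) (t : S) (ht : t ∈ T) (h : χ' ∈ MulAction.orbit T χ) :
    t • χ' ∈ MulAction.orbit T χ := by
  obtain ⟨t', rfl⟩ := h
  refine ⟨⟨t, ht⟩ * t', ?_⟩
  change ((⟨t, ht⟩ * t' : T) : S) • χ = t • ((t' : S) • χ)
  rw [Subgroup.coe_mul, mul_smul]

variable {S : Type*} [Group S] [Finite S] {P T Q : Subgroup S} [hPn : P.Normal] [IsMulCommutative P]
  {K : Type*} [Field K] [Algebra (ZMod 2) K] [CharP K 2]
  [HasEnoughRootsOfUnity K (Monoid.exponent P)]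
  {E : Type*} [AddCommGroup E] [Module (ZMod 2) E] [Finite E] (ρ : Representation (ZMod 2) S E)

theorem core {q : ℕ} (hq : q.Prime) (hq2 : q ≠ 2) (hTp : IsPGroup 2 T)
    (hQ : Nat.card Q = q) (hcomm : ⁅P, Q⁆ = P)
    (hcard : Nat.card ↥(T ⊔ Q) = Nat.card T * Nat.card Q)
    (hcP : ((Nat.card P : ℕ) : K) = 1)
    [Nontrivial E]
    (hPfix : fixedSub ρ (P : Set S) = ⊥) :
    8 ≤ Nat.card (fixedSub ρ (T : Set S)) ∨
      (Nat.card (fixedSub ρ (T : Set S)) = 4 ∧
        ∃ x ∈ Q, ∃ v ∈ fixedSub ρ (T : Set S), ρ x v ∉ fixedSub ρ (T : Set S)) := by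
  classical
  haveI := Fintype.ofFinite P
  haveI := Fintype.ofFinite (P →* Kˣ)
  have hc : ((Fintype.card P : ℕ) : K) = 1 := by rwa [Nat.card_eq_fintype_card] at hcP
  let V := K ⊗[ZMod 2] E
  let R : S →* Module.End K V := RK ρ K
  let Λ : Set (P →* Kˣ) := {χ | ∃ v : V, e R χ v ≠ 0}
  have hRne : ∀ (s : S) {a : V}, a ≠ 0 → R s a ≠ 0 := by
    intro s a ha h
    apply ha
    have := congrArg (R s⁻¹) h
    rwa [R_inv_R, map_zero] at this
  have hΛ1 : ∀ χ ∈ Λ, χ ≠ 1 := by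
    rintro χ ⟨v, hv⟩ rfl
    apply hv
    refine eq_zero_of_fixed_bot ρ K (P : Set S) hPfix ?_
    intro t ht
    have := R_e_of_mem R (⟨t, ht⟩ : P) 1 v
    simpa using this
  have hΛinv : ∀ (s : S) (χ : P →* Kˣ), χ ∈ Λ → s • χ ∈ Λ := by
    rintro s χ ⟨v, hv⟩
    refine ⟨R s v, ?_⟩
    rw [← R_e_conj]
    exact hRne s hv
  haveI : Module.Finite (ZMod 2) E := Module.Finite.of_finite
  haveI hVnt : Nontrivial V := by
    have h1 : Module.finrank K V = Module.finrank (ZMod 2) E := Module.finrank_baseChange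
    have h2 : 0 < Module.finrank (ZMod 2) E := Module.finrank_pos
    exact Module.nontrivial_of_finrank_pos (R := K) (by rw [h1]; exact h2)
  obtain ⟨χ₀, hχ₀⟩ : ∃ χ, χ ∈ Λ := by
    obtain ⟨v, hv⟩ := exists_ne (0 : V)
    by_contra hcon
    push Not at hcon
    apply hv
    rw [← sum_e R hc v]
    refine Finset.sum_eq_zero fun χ _ => ?_
    by_contra h
    exact hcon χ ⟨v, h⟩
  -- orbits
  have horb : ∀ (χ : P →* Kˣ) (t : S), t ∈ T → ∀ χ' ∈ MulAction.orbit T χ, t • χ' ∈ MulAction.orbit T χ := by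
    intro χ t ht χ' h
    exact smul_orbit_mem T χ χ' t ht h
  have horbΛ : ∀ χ ∈ Λ, ∀ χ' ∈ MulAction.orbit T χ, χ' ∈ Λ := by
    rintro χ hχ _ ⟨t', rfl⟩
    exact hΛinv (t' : S) χ hχ
  have hpow : ∀ χ : P →* Kˣ, ¬ q ∣ Nat.card (MulAction.orbit T χ) := by
    intro χ h
    haveI : Fact (Nat.Prime 2) := ⟨Nat.prime_two⟩
    obtain ⟨n, hn⟩ := hTp.card_orbit χ
    rw [hn] at h
    exact hq2 ((Nat.prime_dvd_prime_iff_eq hq Nat.prime_two).mp (hq.dvd_of_dvd_pow h))
  have hC : ∀ χ ∈ Λ, ∀ y ∈ Q, y ≠ 1 → ¬ ∀ χ' ∈ MulAction.orbit T χ, y • χ' ∈ MulAction.orbit T χ := by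
    intro χ hχ y hy hy1 hinv
    refine hpow χ (dvd_card_of_invariant hq hQ hcomm ?_ hy hy1 hinv)
    intro h
    exact hΛ1 1 (horbΛ χ hχ 1 h) rfl
  have hcount : ∀ (n : ℕ) (U : Fin n → Set (P →* Kˣ)), (∀ i, ∀ t ∈ T, ∀ χ ∈ U i, t • χ ∈ U i) →
      (∀ i j, i ≠ j → Disjoint (U i) (U j)) → (∀ i, ∃ χ ∈ U i, χ ∈ Λ) →
      n ≤ Module.finrank (ZMod 2) (fixedSub ρ (T : Set S)) := by
    intro n U hU hdis hne
    have h1 : ∀ i, ∃ w ∈ WU R (U i), w ≠ 0 ∧ ∀ t ∈ T, R t w = w := by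
      intro i
      obtain ⟨χ, hχ, v, hv⟩ := hne i
      exact exists_fixed_in_WU R hTp hc (hU i) hχ hv
    choose w hw hw0 hwfix using h1
    have h2 := card_le_finrank_fixed ρ K (T : Set S)
      (linearIndependent_of_supports R hc hdis hw hw0) (fun i t ht => hwfix i t ht)
    simpa using h2
  have hd2 : 2 ≤ Module.finrank (ZMod 2) (fixedSub ρ (T : Set S)) := by
    let O₁ := MulAction.orbit T χ₀
    obtain ⟨χ₂, hχ₂, hχ₂'⟩ : ∃ χ ∈ Λ, χ ∉ O₁ := by
      by_contra hcon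
      push Not at hcon
      have hEq : O₁ = Λ := Set.Subset.antisymm (fun χ hχ => horbΛ χ₀ hχ₀ χ hχ) hcon
      obtain ⟨y, hy, hy1⟩ : ∃ y ∈ Q, y ≠ 1 := by
        have : Nontrivial Q := by
          rw [← Finite.one_lt_card_iff_nontrivial, hQ]
          exact hq.one_lt
        obtain ⟨y, hy⟩ := exists_ne (1 : Q)
        exact ⟨y.1, y.2, fun h => hy (Subtype.ext h)⟩
      exact hC χ₀ hχ₀ y hy hy1 (by
        intro χ' hχ'
        rw [show MulAction.orbit T χ₀ = Λ from hEq] at hχ' ⊢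
        exact hΛinv y χ' hχ')
    refine hcount 2 ![O₁, Λ \ O₁] ?_ ?_ ?_
    · intro i t ht χ hχ
      fin_cases i
      · exact horb χ₀ t ht χ hχ
      · refine ⟨hΛinv t χ hχ.1, fun h => hχ.2 ?_⟩
        have h3 := horb χ₀ t⁻¹ (T.inv_mem ht) _ h
        rwa [inv_smul_smul] at h3
    · intro i j hij
      fin_cases i <;> fin_cases j <;> first | exact absurd rfl hij | skip
      · exact Set.disjoint_sdiff_right
      · exact Set.disjoint_sdiff_left
    · intro i
      fin_cases i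
      · exact ⟨χ₀, MulAction.mem_orbit_self _, hχ₀⟩
      · exact ⟨χ₂, ⟨hχ₂, hχ₂'⟩, hχ₂⟩
  have hcardpow : Nat.card (fixedSub ρ (T : Set S)) =
      2 ^ Module.finrank (ZMod 2) (fixedSub ρ (T : Set S)) := by
    rw [Module.natCard_eq_pow_finrank (K := ZMod 2), Nat.card_zmod]
  by_contra hcon
  push Not at hcon
  obtain ⟨hlt, hall⟩ := hcon
  set d := Module.finrank (ZMod 2) (fixedSub ρ (T : Set S)) with hd
  have hd2' : d = 2 := by
    by_contra hne
    have h3 : 3 ≤ d := by omega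
    have := Nat.pow_le_pow_right (show 0 < 2 by norm_num) h3
    rw [← hcardpow] at this
    omega
  have hc4 : Nat.card (fixedSub ρ (T : Set S)) = 4 := by
    rw [hcardpow, hd2']; norm_num
  have hpres := hall hc4
  -- the pointwise stabiliser
  let C : Subgroup S :=
    { carrier := {s | ∀ v ∈ fixedSub ρ (T : Set S), ρ s v = v}
      mul_mem' := by
        intro a b ha hb v hv
        rw [map_mul, Module.End.mul_apply, hb v hv, ha v hv]
      one_mem' := by
        intro v _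
        simp
      inv_mem' := by
        intro a ha v hv
        have h := ha v hv
        calc ρ a⁻¹ v = ρ a⁻¹ (ρ a v) := by rw [h]
          _ = v := by rw [← Module.End.mul_apply, ← map_mul]; simp }
  have hTC : T ≤ C := fun t ht v hv => hv t ht
  have hQC : ∀ z ∈ Q, ∀ c ∈ C, z * c * z⁻¹ ∈ C := by
    intro z hz c hc' v hv
    have h1 : ρ z⁻¹ v ∈ fixedSub ρ (T : Set S) := hpres z⁻¹ (Q.inv_mem hz) v hv
    rw [map_mul, map_mul, Module.End.mul_apply, Module.End.mul_apply, hc' _ h1,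
      ← Module.End.mul_apply, ← map_mul]
    simp
  obtain ⟨y, hy, hy1⟩ : ∃ y ∈ Q, y ≠ 1 := by
    have : Nontrivial Q := by
      rw [← Finite.one_lt_card_iff_nontrivial, hQ]
      exact hq.one_lt
    obtain ⟨y, hy⟩ := exists_ne (1 : Q)
    exact ⟨y.1, y.2, fun h => hy (Subtype.ext h)⟩
  let O₁ := MulAction.orbit T χ₀
  rcases dichotomy hq hcard hQ hTC hQC with hcase | hnorm
  · -- `y` fixes `E₀` pointwise
    obtain ⟨v₀, hv₀⟩ := hχ₀
    obtain ⟨w, hwW, hw0, hwfix⟩ := exists_fixed_in_WU R hTp hc (horb χ₀)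
      (MulAction.mem_orbit_self χ₀) hv₀
    have hRy : R y w = w := RK_fix_of_fix ρ K (T : Set S)
      (fun v hv => hcase hy v hv) (fun t ht => hwfix t ht)
    obtain ⟨χ₁, hχ₁⟩ : ∃ χ, e R χ w ≠ 0 := by
      by_contra hcon
      push Not at hcon
      apply hw0
      rw [← sum_e R hc w]
      exact Finset.sum_eq_zero fun χ _ => hcon χ
    have hχ₁O : χ₁ ∈ O₁ := by
      by_contra h
      exact hχ₁ (hwW χ₁ h)
    have hall' : ∀ χ' ∈ O₁, e R χ' w ≠ 0 := by
      rintro _ ⟨t', rfl⟩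
      obtain ⟨t₁, ht₁⟩ := hχ₁O
      have h2 : (fun m : T => m • χ₀) t' = ((t' * t₁⁻¹ : T) : S) • χ₁ := by
        rw [← ht₁]
        change t' • χ₀ = (t' * t₁⁻¹ : T) • (t₁ • χ₀)
        rw [smul_smul, inv_mul_cancel_right]
      rw [h2]
      have h3 := R_e_conj R ((t' * t₁⁻¹ : T) : S) χ₁ w
      rw [hwfix _ (t' * t₁⁻¹ : T).2] at h3
      rw [← h3]
      exact hRne _ hχ₁
    refine hC χ₀ (⟨v₀, hv₀⟩) y hy hy1 ?_
    intro χ' hχ'
    by_contra h
    have h4 := hwW _ h
    have h5 := R_e_conj R y χ' w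
    rw [hRy] at h5
    rw [h4] at h5
    exact hRne y (hall' χ' hχ') h5
  · -- `Q` normalises `T`: three orbits
    have hyq : y ^ q = 1 := by
      have h2 := pow_card_eq_one' (G := Q) (x := ⟨y, hy⟩)
      rw [hQ] at h2
      have := congrArg Subtype.val h2
      simpa using this
    have hord : orderOf y = q := by
      haveI : Fact q.Prime := ⟨hq⟩
      exact orderOf_eq_prime hyq hy1
    have hq3 : 3 ≤ q := by
      have := hq.two_le
      omega
    have hd3 : 3 ≤ d := by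
      refine hcount 3 (fun i => {χ | (y ^ (i : ℕ))⁻¹ • χ ∈ O₁}) ?_ ?_ ?_
      · intro i t ht χ hχ
        have hzQ : (y ^ (i : ℕ))⁻¹ ∈ Q := Q.inv_mem (Q.pow_mem hy _)
        have h1 := hnorm _ hzQ t ht
        have h2 := horb χ₀ _ h1 _ hχ
        change (y ^ (i : ℕ))⁻¹ • t • χ ∈ O₁
        rw [smul_smul] at h2 ⊢
        simpa [mul_assoc] using h2
      · intro i j hij
        rw [Set.disjoint_left]
        intro χ hi hj
        change (y ^ (i : ℕ))⁻¹ • χ ∈ O₁ at hi
        change (y ^ (j : ℕ))⁻¹ • χ ∈ O₁ at hj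
        let z := (y ^ (j : ℕ))⁻¹ * y ^ (i : ℕ)
        have hzQ : z ∈ Q := Q.mul_mem (Q.inv_mem (Q.pow_mem hy _)) (Q.pow_mem hy _)
        have hz1 : z ≠ 1 := by
          intro h
          have h1 : y ^ (i : ℕ) = y ^ (j : ℕ) := (inv_mul_eq_one.mp h).symm
          have h2 : (i : ℕ) = (j : ℕ) := pow_injOn_Iio_orderOf
            (by rw [Set.mem_Iio, hord]; have := i.2; omega)
            (by rw [Set.mem_Iio, hord]; have := j.2; omega) h1
          exact hij (Fin.ext h2)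
        have hzab : z • ((y ^ (i : ℕ))⁻¹ • χ) = (y ^ (j : ℕ))⁻¹ • χ := by
          simp [z, smul_smul, mul_assoc]
        refine hC χ₀ hχ₀ z hzQ hz1 ?_
        intro χ' hχ'
        obtain ⟨t₁, ht₁⟩ := hi
        obtain ⟨t', rfl⟩ := hχ'
        have h3 : (fun m : T => m • χ₀) t' = ((t' * t₁⁻¹ : T) : S) • ((y ^ (i : ℕ))⁻¹ • χ) := by
          rw [← ht₁]
          change t' • χ₀ = (t' * t₁⁻¹ : T) • (t₁ • χ₀)
          rw [smul_smul, inv_mul_cancel_right]
        rw [h3, smul_smul]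
        have h4 := hnorm z hzQ _ (t' * t₁⁻¹ : T).2
        have h5 := horb χ₀ _ h4 _ hj
        rw [← hzab, smul_smul] at h5
        simpa [mul_assoc] using h5
      · intro i
        refine ⟨y ^ (i : ℕ) • χ₀, ?_, hΛinv _ _ hχ₀⟩
        change (y ^ (i : ℕ))⁻¹ • (y ^ (i : ℕ) • χ₀) ∈ O₁
        rw [inv_smul_smul]
        exact MulAction.mem_orbit_self _
    omega

end Main



/-- Let S be a finite solvable group whose order is divisible only by the primes 2, p, q (p, q distinct odd primes), with a Sylow system S₂, S_p, S_q (pairwise permutable Sylow subgroups) such that: S_p is a minimal normal subgroup of S of order p or p²; S_q has order q and [S_p, S_q] = S_p; and O₂(S) = 1. Let E be an irreducible module for S over the field with two elements on which S_p acts faithfully, and E₀ the subspace of fixed points of S₂. Then either E₀ has at least 8 elements, or E₀ has exactly 4 elements and S_q does not leave E₀ invariant. -/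
theorem result {S : Type*} [Group S] [Finite S]
    [Group.IsSolvable S] (p q : ℕ) (hp : p.Prime) (hq : q.Prime) (hp2 : p ≠ 2) (hq2 : q ≠ 2) (hpq : p ≠ q)
    (hπ : ∀ r : ℕ, r.Prime → r ∣ Nat.card S → r = 2 ∨ r = p ∨ r = q)
    (S₂ : Sylow 2 S) (Sp : Sylow p S) (Sq : Sylow q S)
    (h2q : Nat.card ↥((S₂ : Subgroup S) ⊔ (Sq : Subgroup S)) = Nat.card ↥S₂ * Nat.card ↥Sq)
    (h2p : Nat.card ↥((S₂ : Subgroup S) ⊔ (Sp : Subgroup S)) = Nat.card ↥S₂ * Nat.card ↥Sp)
    (hpq' : Nat.card ↥((Sp : Subgroup S) ⊔ (Sq : Subgroup S)) = Nat.card ↥Sp * Nat.card ↥Sq)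
    (hSpN : (Sp : Subgroup S).Normal) (hSpmin : ∀ N : Subgroup S, N.Normal → N ≤ (Sp : Subgroup S) → N = ⊥ ∨ N = (Sp : Subgroup S))
    (hSpcard : Nat.card ↥Sp = p ∨ Nat.card ↥Sp = p ^ 2)
    (hSq : Nat.card ↥Sq = q) (hcomm : ⁅(Sp : Subgroup S), (Sq : Subgroup S)⁆ = (Sp : Subgroup S))
    (hO2 : Cfsg.pCore 2 S = ⊥)
    {E : Type*} [AddCommGroup E] [Module (ZMod 2) E] [Finite E] (ρ : Representation (ZMod 2) S E) (hE : Nontrivial E)
    (hirr : ∀ N : Submodule (ZMod 2) E, (∀ s : S, ∀ m ∈ N, ρ s m ∈ N) → N = ⊥ ∨ N = ⊤)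
    (hfaith : ∀ x ∈ (Sp : Subgroup S), ρ x = 1 → x = 1) :
    8 ≤ Nat.card {v : E // ∀ s ∈ (S₂ : Subgroup S), ρ s v = v} ∨
      (Nat.card {v : E // ∀ s ∈ (S₂ : Subgroup S), ρ s v = v} = 4 ∧
        ∃ x ∈ (Sq : Subgroup S), ∃ v : E, (∀ s ∈ (S₂ : Subgroup S), ρ s v = v) ∧ ¬ ∀ s ∈ (S₂ : Subgroup S), ρ s (ρ x v) = ρ x v) := by
  classical
  haveI := hE
  haveI : Fact p.Prime := ⟨hp⟩
  have hPab : IsMulCommutative (Sp : Subgroup S) := by
    rcases hSpcard with h | h
    · haveI := isCyclic_of_prime_card h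
      infer_instance
    · exact IsPGroup.isMulCommutative_of_card_eq_prime_sq (p := p) h
  let K := AlgebraicClosure (ZMod 2)
  have h2K : (2 : K) = 0 := by
    have := CharP.cast_eq_zero K 2
    simpa using this
  have hoddK : ∀ n : ℕ, n % 2 = 1 → ((n : ℕ) : K) = 1 := by
    intro n hn
    have h1 : n = 2 * (n / 2) + 1 := by omega
    rw [h1, Nat.cast_add, Nat.cast_mul, Nat.cast_one, Nat.cast_ofNat, h2K, zero_mul, zero_add]
  have hpodd : p % 2 = 1 := (hp.eq_two_or_odd).resolve_left hp2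
  have hcardodd : Nat.card (Sp : Subgroup S) % 2 = 1 := by
    rcases hSpcard with h | h
    · change Nat.card ↥Sp % 2 = 1
      rw [h]; exact hpodd
    · change Nat.card ↥Sp % 2 = 1
      rw [h, Nat.pow_mod, hpodd]
  have hcP : ((Nat.card (Sp : Subgroup S) : ℕ) : K) = 1 := hoddK _ hcardodd
  haveI : NeZero ((Monoid.exponent (Sp : Subgroup S) : ℕ) : K) := by
    refine ⟨fun h => ?_⟩
    have h1 : Monoid.exponent (Sp : Subgroup S) ∣ Nat.card (Sp : Subgroup S) :=
      Group.exponent_dvd_nat_card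
    obtain ⟨m, hm⟩ := h1
    rw [hm, Nat.cast_mul, h, zero_mul] at hcP
    exact zero_ne_one hcP
  haveI : (Sp : Subgroup S).Normal := hSpN
  have hPfix : fixedSub ρ ((Sp : Subgroup S) : Set S) = ⊥ := by
    have hinv : ∀ s : S, ∀ m ∈ fixedSub ρ ((Sp : Subgroup S) : Set S),
        ρ s m ∈ fixedSub ρ ((Sp : Subgroup S) : Set S) := by
      intro s m hm t ht
      have h1 : s⁻¹ * t * s ∈ (Sp : Subgroup S) := by
        have := hSpN.conj_mem t ht s⁻¹
        simpa using this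
      have h2 := hm _ h1
      calc ρ t (ρ s m) = ρ s (ρ (s⁻¹ * t * s) m) := by
            rw [← Module.End.mul_apply, ← map_mul, ← Module.End.mul_apply, ← map_mul]
            simp [mul_assoc]
        _ = ρ s m := by rw [h2]
    rcases hirr (fixedSub ρ ((Sp : Subgroup S) : Set S)) hinv with h | h
    · exact h
    · exfalso
      have h1 : ∀ x ∈ (Sp : Subgroup S), x = 1 := by
        intro x hx
        apply hfaith x hx
        ext v
        have : v ∈ fixedSub ρ ((Sp : Subgroup S) : Set S) := by rw [h]; trivial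
        simpa using this x hx
      have h2 : (Sp : Subgroup S) = ⊥ := (Subgroup.eq_bot_iff_forall _).mpr h1
      have h3 : Nat.card ↥Sp = 1 := by
        change Nat.card (Sp : Subgroup S) = 1
        rw [h2]; simp
      rcases hSpcard with h4 | h4
      · rw [h3] at h4
        exact hp.one_lt.ne h4
      · rw [h3] at h4
        have := Nat.one_lt_pow (n := 2) (by norm_num) hp.one_lt
        omega
  have := core (P := (Sp : Subgroup S)) (T := (S₂ : Subgroup S)) (Q := (Sq : Subgroup S)) (K := K) ρ hq hq2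
    S₂.isPGroup' hSq hcomm h2q hcP hPfix
  exact this

end Cfsg.Agent.S4414
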