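import Cfsg.Statements.S4415
import Cfsg.Agent.Lib.Cubic3.Reduce
import Cfsg.Agent.Lib.Core.Basic
import Cfsg.Agent.Lib.CaseTh.SolvableCharP
import Cfsg.Agent.Lib.SolvStruct.Fit

set_option autoImplicit false
open Cfsg

namespace Cfsg.Agent.S4415

open Cfsg.Agent.Lib.Cubic3.Basic Cfsg.Agent.Lib.Cubic3.Reduce Cfsg.Agent.Lib.Core.Basic
  Cfsg.Agent.Lib.Coprime.Action

open scoped commutatorElement

theorem rank_aux {E : Type*} [AddCommGroup E] [Module (ZMod 3) E] [Finite E]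
    (T : Module.End (ZMod 3) E)
    (hT : ∀ v, T (T (T v)) = 0) (E₀ E₁ : Submodule (ZMod 3) E) (hsup : E₀ ⊔ E₁ = ⊤)
    (h1 : ∀ v ∈ E₁, T v = 0) (hinv : ∀ v ∈ E₀, T v ∈ E₀) (hcard : Nat.card E₀ = 27) :
    Module.finrank (ZMod 3) (LinearMap.range T) ≤ 2 := by
  let T₀ : Module.End (ZMod 3) E₀ := T.restrict hinv
  have hfr : Module.finrank (ZMod 3) E₀ = 3 := by
    have := Module.natCard_eq_pow_finrank (K := ZMod 3) (V := E₀)
    rw [hcard, Nat.card_zmod] at this
    have h27 : (27 : ℕ) = 3 ^ 3 := by norm_num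
    rw [h27] at this
    exact (Nat.pow_right_injective (by norm_num : 2 ≤ 3) this).symm
  have hker : LinearMap.ker T₀ ≠ ⊥ := by
    intro hbot
    have hinj : Function.Injective T₀ := LinearMap.ker_eq_bot.mp hbot
    have : Nontrivial E₀ := Module.nontrivial_of_finrank_pos (R := ZMod 3) (by omega)
    obtain ⟨v, hv⟩ := exists_ne (0 : E₀)
    apply hv
    apply hinj; apply hinj; apply hinj
    rw [map_zero, map_zero, map_zero]
    apply Subtype.ext
    exact hT v
  have hkerpos : 1 ≤ Module.finrank (ZMod 3) (LinearMap.ker T₀) :=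
    Submodule.one_le_finrank_iff.mpr hker
  have hrk := LinearMap.finrank_range_add_finrank_ker T₀
  have hr0 : Module.finrank (ZMod 3) (LinearMap.range T₀) ≤ 2 := by omega
  have hle : LinearMap.range T ≤ (LinearMap.range T₀).map E₀.subtype := by
    rintro _ ⟨v, rfl⟩
    have : v ∈ E₀ ⊔ E₁ := by rw [hsup]; trivial
    obtain ⟨x, hx, y, hy, rfl⟩ := Submodule.mem_sup.mp this
    rw [map_add, h1 y hy, add_zero]
    exact ⟨T₀ ⟨x, hx⟩, ⟨_, rfl⟩, rfl⟩
  calc Module.finrank (ZMod 3) (LinearMap.range T)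
      ≤ Module.finrank (ZMod 3) ((LinearMap.range T₀).map E₀.subtype) :=
        Submodule.finrank_mono hle
    _ = Module.finrank (ZMod 3) (LinearMap.range T₀) := Submodule.finrank_map_subtype_eq _ _
    _ ≤ 2 := hr0

theorem eq_one_of_mul_self {G : Type*} [Group G] {H : Subgroup G} (hp : IsPGroup 3 H) {x : G}
    (hx : x ∈ H) (h2 : x * x = 1) : x = 1 := by
  obtain ⟨k, hk⟩ := hp ⟨x, hx⟩
  have hk' : x ^ 3 ^ k = 1 := congrArg Subtype.val hk
  have h2' : x ^ 2 = 1 := by rw [sq, h2]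
  have hd : orderOf x ∣ Nat.gcd (3 ^ k) 2 :=
    Nat.dvd_gcd (orderOf_dvd_of_pow_eq_one hk') (orderOf_dvd_of_pow_eq_one h2')
  have hc : Nat.gcd (3 ^ k) 2 = 1 := Nat.Coprime.pow_left k (by norm_num)
  rw [hc, Nat.dvd_one, orderOf_eq_one_iff] at hd
  exact hd

/-- Four-group cycled by `φ`. -/
theorem cycled_aux {S : Type*} [Group S] [Finite S] (Q : Subgroup S)
    (hc : ∀ x ∈ Q, ∀ y ∈ Q, x * y = y * x) (hs : ∀ x ∈ Q, x * x = 1) (hQ4 : Nat.card Q = 4)
    (b : S) (hb3 : b ^ 3 = 1) (hbQ : ∀ x ∈ Q, b * x * b⁻¹ ∈ Q) (a : S) (ha : a ∈ Q)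
    (hab : b * a * b⁻¹ ≠ a) :
    a ≠ 1 ∧ a * a = 1 ∧ a * (b * a * b⁻¹) * (b * (b * a * b⁻¹) * b⁻¹) = 1 := by
  classical
  set a₂ := b * a * b⁻¹ with ha₂
  set a₃ := b * a₂ * b⁻¹ with ha₃
  have hbbb : b * b * b = 1 := by
    have := hb3
    rwa [pow_succ, pow_two] at this
  have ha₄ : b * a₃ * b⁻¹ = a := by
    rw [ha₃, ha₂]
    have e1 : b * (b * (b * a * b⁻¹) * b⁻¹) * b⁻¹ = (b * b * b) * a * (b * b * b)⁻¹ := by group
    rw [e1, hbbb]
    simp
  have h2Q : a₂ ∈ Q := hbQ a ha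
  have h3Q : a₃ ∈ Q := hbQ _ h2Q
  have inj : ∀ x y : S, b * x * b⁻¹ = b * y * b⁻¹ → x = y := by
    intro x y h
    simpa using h
  have ha1 : a ≠ 1 := by
    rintro h
    apply hab
    rw [ha₂, h]
    simp
  have h21 : a₂ ≠ 1 := by
    intro h
    apply ha1
    apply inj
    rw [← ha₂, h]
    simp
  have h31 : a₃ ≠ 1 := by
    intro h
    apply h21
    apply inj
    rw [← ha₃, h]
    simp
  have h32 : a₃ ≠ a₂ := by
    intro h
    apply hab
    exact inj _ _ h
  have h31' : a₃ ≠ a := by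
    intro h
    apply hab
    -- `a₃ = a` so `b a₃ b⁻¹ = a₂`; and `b a₃ b⁻¹ = a`
    have e : b * a₃ * b⁻¹ = a₂ := by rw [h]
    rw [← e, ha₄]
  have hset : ((({1, a, a₂, a₃} : Finset S)) : Set S) = (Q : Set S) := by
    apply Set.eq_of_subset_of_ncard_le
    · intro x hx
      simp only [Finset.coe_insert, Finset.coe_singleton, Set.mem_insert_iff,
        Set.mem_singleton_iff] at hx
      rcases hx with rfl | rfl | rfl | rfl
      · exact Q.one_mem
      · exact ha
      · exact h2Q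
      · exact h3Q
    · rw [Set.ncard_coe_finset, ← Nat.card_coe_set_eq, show Nat.card ((Q : Set S)) = 4 from hQ4]
      rw [Finset.card_insert_of_notMem, Finset.card_insert_of_notMem, Finset.card_insert_of_notMem,
        Finset.card_singleton]
      · simp only [Finset.mem_singleton]
        exact fun h => h32 h.symm
      · simp only [Finset.mem_insert, Finset.mem_singleton, not_or]
        exact ⟨fun h => hab h.symm, fun h => h31' h.symm⟩
      · simp only [Finset.mem_insert, Finset.mem_singleton, not_or]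
        exact ⟨fun h => ha1 h.symm, fun h => h21 h.symm, fun h => h31 h.symm⟩
    · exact Set.toFinite _
  have hprodQ : a * a₂ ∈ Q := Q.mul_mem ha h2Q
  rw [SetLike.mem_coe.symm, ← hset] at hprodQ
  simp only [Finset.coe_insert, Finset.coe_singleton, Set.mem_insert_iff,
    Set.mem_singleton_iff] at hprodQ
  refine ⟨ha1, hs a ha, ?_⟩
  rcases hprodQ with h | h | h | h
  · exfalso
    apply hab
    have : a * a₂ = a * a := by rw [h, hs a ha]
    exact mul_left_cancel this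
  · exfalso
    apply h21
    have : a * a₂ = a * 1 := by rw [h, mul_one]
    exact mul_left_cancel this
  · exfalso
    apply ha1
    have : a * a₂ = 1 * a₂ := by rw [h, one_mul]
    exact mul_right_cancel this
  · rw [h]
    exact hs _ h3Q

/-- Let S be a finite solvable group acting faithfully on a finite-dimensional space E over the field with three elements, with O₃(S) = 1. Let B ≤ S have order 3 and suppose: E = E₀ ⊕ E₁ with B fixing E₁ pointwise, E₀ B-invariant of order 27 and indecomposable under B (a generator of B has a single Jordan block on E₀); B normalizes but does not centralize some subgroup Q of S that is elementary abelian of order 4; and B is the centre of a Sylow 3-subgroup of S. Put R = [O_{3'}(S), B]. Then R is elementary abelian of order 4 or extraspecial of order 32 containing an elementary abelian subgroup of order 8 (a central product of two quaternion groups), and E is the direct sum of a subspace fixed pointwise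 by R and an RB-invariant subspace on which the subgroup RB acts faithfully and irreducibly. -/
theorem result {S : Type*} [Group S] [Finite S]
    [Group.IsSolvable S] {E : Type*} [AddCommGroup E] [Module (ZMod 3) E] [Finite E] (ρ : Representation (ZMod 3) S E)
    (hfaith : Function.Injective ρ) (hO3 : Cfsg.pCore 3 S = ⊥)
    (B : Subgroup S) (hB : Nat.card ↥B = 3) (b : S) (hb : Subgroup.zpowers b = B)
    (E₀ E₁ : Submodule (ZMod 3) E) (hE01 : E₀ ⊓ E₁ = ⊥) (hE01' : E₀ ⊔ E₁ = ⊤)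
    (hE1 : ∀ v ∈ E₁, ρ b v = v) (hE0inv : ∀ v ∈ E₀, ρ b v ∈ E₀) (hE0 : Nat.card ↥E₀ = 27)
    (hind : ∃ v ∈ E₀, ρ b (ρ b v - v) - (ρ b v - v) ≠ 0)
    (Q : Subgroup S) (hQ : Cfsg.IsElementaryAbelian 2 Q) (hQ4 : Nat.card ↥Q = 4)
    (hBQ : B ≤ Subgroup.normalizer (Q : Set S)) (hBQ' : ¬ B ≤ Subgroup.centralizer (Q : Set S))
    (P : Sylow 3 S) (hBZ : (Subgroup.center ↥(P : Subgroup S)).map (P : Subgroup S).subtype = B) :
    ((Cfsg.IsElementaryAbelian 2 ⁅Cfsg.pPrimeCore 3 S, B⁆ ∧ Nat.card ↥⁅Cfsg.pPrimeCore 3 S, B⁆ = 4) ∨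
      (Cfsg.IsExtraspecial 2 ↥⁅Cfsg.pPrimeCore 3 S, B⁆ ∧ Nat.card ↥⁅Cfsg.pPrimeCore 3 S, B⁆ = 32 ∧
        ∃ A : Subgroup S, A ≤ ⁅Cfsg.pPrimeCore 3 S, B⁆ ∧ Cfsg.IsElementaryAbelian 2 A ∧ Nat.card ↥A = 8)) ∧
    ∃ F₀ F₁ : Submodule (ZMod 3) E, F₀ ⊓ F₁ = ⊥ ∧ F₀ ⊔ F₁ = ⊤ ∧
      (∀ r ∈ ⁅Cfsg.pPrimeCore 3 S, B⁆, ∀ v ∈ F₁, ρ r v = v) ∧ (∀ r ∈ ⁅Cfsg.pPrimeCore 3 S, B⁆ ⊔ B, ∀ v ∈ F₀, ρ r v ∈ F₀) ∧
      (∀ r ∈ ⁅Cfsg.pPrimeCore 3 S, B⁆ ⊔ B, (∀ v ∈ F₀, ρ r v = v) → r = 1) ∧
      (∀ N : Submodule (ZMod 3) E, N ≤ F₀ → (∀ r ∈ ⁅Cfsg.pPrimeCore 3 S, B⁆ ⊔ B, ∀ v ∈ N, ρ r v ∈ N) → N = ⊥ ∨ N = F₀) := by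
  classical
  set O := Cfsg.pPrimeCore 3 S with hO
  haveI hOn : O.Normal := Cfsg.pPrimeCore_normal 3 S
  have hBO : B ≤ Subgroup.normalizer (O : Set S) := by
    rw [Subgroup.normalizer_eq_top_iff.mpr hOn]
    exact le_top
  have hord : orderOf b = 3 := by rw [← Nat.card_zpowers, hb, hB]
  have hb3 : b ^ 3 = 1 := by rw [← hord, pow_orderOf_eq_one]
  have hbmem : b ∈ B := by rw [← hb]; exact Subgroup.mem_zpowers b
  have hcopO : (Nat.card O).Coprime 3 := pPrimeCore_coprime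
  have hcop : (Nat.card B).Coprime (Nat.card O) := by rw [hB]; exact hcopO.symm
  haveI hBsolv : Group.IsSolvable B := Group.isSolvable_of_isSolvable_injective B.subtype_injective
  have hR₀O : ⁅O, B⁆ ≤ O := commutator_le_of_le_normalizer hBO
  have h3R₀ : ¬ 3 ∣ Nat.card ↥⁅O, B⁆ := by
    intro h
    have h1 : Nat.card ↥⁅O, B⁆ ∣ Nat.card O := Subgroup.card_dvd_of_le hR₀O
    have h2 : 3 ∣ Nat.card O := h.trans h1
    have := Nat.dvd_gcd h2 (dvd_refl 3)
    rw [hcopO] at this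
    omega
  have hRB : ⁅⁅O, B⁆, B⁆ = ⁅O, B⁆ := commutator_commutator_eq hBO hcop (Or.inl hBsolv)
  have hbR : ∀ r ∈ ⁅O, B⁆, b * r * b⁻¹ ∈ ⁅O, B⁆ := fun r hr =>
    conj_mem_of_le_normalizer (le_normalizer_commutator_right O B) hbmem hr
  have hbbb : b * b * b = 1 := by
    have := hb3
    rwa [pow_succ, pow_two] at this
  have hrank : Module.finrank (ZMod 3) (LinearMap.range (ρ b - 1)) ≤ 2 := by
    apply rank_aux (ρ b - 1) _ E₀ E₁ hE01'
    · intro v hv
      simp only [LinearMap.sub_apply, Module.End.one_apply]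
      rw [hE1 v hv, sub_self]
    · intro v hv
      simp only [LinearMap.sub_apply, Module.End.one_apply]
      exact E₀.sub_mem (hE0inv v hv) hv
    · exact hE0
    · intro v
      simp only [LinearMap.sub_apply, Module.End.one_apply, map_sub]
      have hz : ρ b (ρ b (ρ b v)) = v := by
        rw [← rho_mul, ← rho_mul, hbbb, rho_one]
      rw [hz]
      have t1 := three_smul (ρ b (ρ b v))
      have t2 := three_smul (ρ b v)
      linear_combination (norm := module) t2 - t1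
  -- the element `a`
  have hbQ : ∀ x ∈ Q, b * x * b⁻¹ ∈ Q := fun x hx => conj_mem_of_le_normalizer hBQ hbmem hx
  obtain ⟨a, haQ, hab⟩ : ∃ a ∈ Q, b * a * b⁻¹ ≠ a := by
    by_contra hcon
    push Not at hcon
    apply hBQ'
    rw [← hb, Subgroup.zpowers_le, Subgroup.mem_centralizer_iff]
    intro x hx
    have := hcon x hx
    rw [mul_inv_eq_iff_eq_mul] at this
    exact this.symm
  have hcQ : ∀ x ∈ Q, ∀ y ∈ Q, x * y = y * x := by
    intro x hx y hy
    have := congrArg Subtype.val (hQ.1.is_comm.comm (⟨x, hx⟩ : Q) ⟨y, hy⟩)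
    simpa using this
  have hsQ : ∀ x ∈ Q, x * x = 1 := by
    intro x hx
    have := hQ.2 x hx
    rwa [sq] at this
  obtain ⟨ha1, ha2, hprod⟩ := cycled_aux Q hcQ hsQ hQ4 b hb3 hbQ a haQ hab
  -- `mk b` lies in the `3`-core of the quotient
  let mk : S →* S ⧸ O := QuotientGroup.mk' O
  have hmk : Function.Surjective mk := QuotientGroup.mk'_surjective O
  have hker : ∀ x, mk x = 1 ↔ x ∈ O := fun x => QuotientGroup.eq_one_iff x
  haveI hSq : Group.IsSolvable (S ⧸ O) := inferInstance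
  have hT := Cfsg.Agent.Lib.CaseTh.SolvableCharP.centralizer_pCore_le (X := S ⧸ O) 3
    (pPrimeCore_quotient_eq_bot (p := 3) (G := S))
  set T := Cfsg.pCore 3 (S ⧸ O) with hTdef
  haveI hTn : T.Normal := Cfsg.pCore_normal 3 (S ⧸ O)
  have hTp : IsPGroup 3 T := pCore_isPGroup
  have hTne : T ≠ ⊥ := by
    intro h
    have h1 : mk b ∈ Subgroup.centralizer (T : Set (S ⧸ O)) := by
      rw [Subgroup.mem_centralizer_iff]
      intro x hx
      have hx1 : x = 1 := by
        rw [h] at hx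
        simpa using hx
      rw [hx1, one_mul, mul_one]
    have h2 := hT h1
    rw [h, Subgroup.mem_bot, hker] at h2
    have h3 := orderOf_dvd_natCard (⟨b, h2⟩ : O)
    have h4 : orderOf (⟨b, h2⟩ : O) = 3 := by
      rw [Subgroup.orderOf_mk, hord]
    rw [h4] at h3
    have := Nat.dvd_gcd h3 (dvd_refl 3)
    rw [hcopO] at this
    omega
  have hOP : ∀ x ∈ O, x ∈ (P : Subgroup S) → x = 1 := by
    intro x hxO hxP
    have h1 : (orderOf x).Coprime 3 := orderOf_coprime_of_mem_pPrimeCore hxO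
    obtain ⟨k, hk⟩ := P.isPGroup' ⟨x, hxP⟩
    have hk' : x ^ 3 ^ k = 1 := congrArg Subtype.val hk
    have h2 : orderOf x ∣ 3 ^ k := orderOf_dvd_of_pow_eq_one hk'
    have h3 : orderOf x = 1 := by
      have := Nat.Coprime.eq_one_of_dvd (h1.pow_right k) h2
      exact this
    exact orderOf_eq_one_iff.mp h3
  have hTP : T ≤ (P.map mk) := by
    have := pCore_le_sylow (P.mapSurjective hmk)
    simpa using this
  have hmkb : mk b ∈ T := by
    let P' : Subgroup (S ⧸ O) := P.map mk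
    have hP'p : IsPGroup 3 P' := P.isPGroup'.map mk
    haveI : Group.IsNilpotent P' := hP'p.isNilpotent
    let N : Subgroup P' := T.subgroupOf P'
    haveI : N.Normal := Subgroup.normal_subgroupOf
    have hNne : N ≠ ⊥ := by
      obtain ⟨⟨t, ht⟩, ht1⟩ := Subgroup.ne_bot_iff_exists_ne_one.1 hTne
      intro hbot
      have h1 : (⟨t, hTP ht⟩ : P') ∈ N := by
        rw [Subgroup.mem_subgroupOf]
        exact ht
      rw [hbot, Subgroup.mem_bot] at h1
      apply ht1
      apply Subtype.ext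
      have h2 : ((⟨t, hTP ht⟩ : P') : S ⧸ O) = 1 := congrArg Subtype.val h1
      exact h2
    have hz := Cfsg.Agent.Lib.SolvStruct.Fit.inf_center_ne_bot N hNne
    obtain ⟨⟨z, hzm⟩, hz1⟩ := Subgroup.ne_bot_iff_exists_ne_one.1 hz
    obtain ⟨hzN, hzC⟩ := Subgroup.mem_inf.1 hzm
    have hzT : (z : S ⧸ O) ∈ T := Subgroup.mem_subgroupOf.1 hzN
    obtain ⟨p, hpP, hpz⟩ := z.2
    have hp1 : p ≠ 1 := by
      intro h
      apply hz1
      apply Subtype.ext
      apply Subtype.ext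
      show (z : S ⧸ O) = 1
      rw [← hpz, h, map_one]
    have hcentral : ∀ q ∈ (P : Subgroup S), q * p = p * q := by
      intro q hq
      have h1 := Subgroup.mem_center_iff.1 hzC ⟨mk q, ⟨q, hq, rfl⟩⟩
      have h2 : mk q * mk p = mk p * mk q := by
        have := congrArg Subtype.val h1
        simpa [hpz] using this
      have h3 : (p * q)⁻¹ * (q * p) ∈ O := by
        rw [← hker, map_mul, map_inv, map_mul, map_mul, h2]
        group
      have h4 : (p * q)⁻¹ * (q * p) ∈ (P : Subgroup S) :=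
        Subgroup.mul_mem _ (Subgroup.inv_mem _ (Subgroup.mul_mem _ hpP hq)) (Subgroup.mul_mem _ hq hpP)
      have h5 := hOP _ h3 h4
      exact (inv_mul_eq_one.mp h5).symm
    have hpB : p ∈ B := by
      rw [← hBZ]
      refine ⟨⟨p, hpP⟩, ?_, rfl⟩
      rw [SetLike.mem_coe, Subgroup.mem_center_iff]
      intro q
      exact Subtype.ext (hcentral q q.2)
    have hzp : Subgroup.zpowers p = B := by
      apply Subgroup.eq_of_le_of_card_ge
      · rw [Subgroup.zpowers_le]
        exact hpB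
      · rw [hB, Nat.card_zpowers]
        have h1 : orderOf (⟨p, hpB⟩ : B) ∣ Nat.card B := orderOf_dvd_natCard _
        rw [Subgroup.orderOf_mk, hB] at h1
        rcases (Nat.dvd_prime Nat.prime_three).1 h1 with h | h
        · exact absurd (orderOf_eq_one_iff.1 h) hp1
        · omega
    have hbz : b ∈ Subgroup.zpowers p := by
      rw [hzp]
      exact hbmem
    obtain ⟨k, hk⟩ := hbz
    rw [← hk]
    simp only [map_zpow]
    rw [hpz]
    exact T.zpow_mem hzT k
  have hu : mk (a * (b * a * b⁻¹)) ∈ T := by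
    have e : mk (a * (b * a * b⁻¹)) = (mk a * mk b * (mk a)⁻¹) * (mk b)⁻¹ := by
      have hai : a⁻¹ = a := inv_eq_of_mul_eq_one_left ha2
      simp only [map_mul, map_inv]
      rw [← map_inv mk a, hai]
      group
    rw [e]
    exact T.mul_mem (hTn.conj_mem _ hmkb _) (T.inv_mem hmkb)
  have ha₂Q : b * a * b⁻¹ ∈ Q := hbQ a haQ
  have ha₃Q : b * (b * a * b⁻¹) * b⁻¹ ∈ Q := hbQ _ ha₂Q
  have hu2 : (a * (b * a * b⁻¹)) * (a * (b * a * b⁻¹)) = 1 := hsQ _ (Q.mul_mem haQ ha₂Q)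
  have hu1 : a * (b * a * b⁻¹) ∈ O := by
    rw [← hker]
    apply eq_one_of_mul_self hTp hu
    rw [← map_mul, hu2, map_one]
  have hua : a * (b * a * b⁻¹) = b * (b * a * b⁻¹) * b⁻¹ := by
    have h3 := hsQ _ ha₃Q
    have h4 := hprod
    rw [← h3] at h4
    exact mul_right_cancel h4
  have hab3 : b * (b * (b * a * b⁻¹) * b⁻¹) * b⁻¹ = a := by
    have e1 : b * (b * (b * a * b⁻¹) * b⁻¹) * b⁻¹ = (b * b * b) * a * (b * b * b)⁻¹ := by group
    rw [e1, hbbb]
    simp
  have haO : a ∈ O := by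
    rw [← hab3, ← hua]
    exact hOn.conj_mem _ hu1 _
  have haR : a ∈ ⁅O, B⁆ := by
    have hc : ⁅a, b⁆ ∈ ⁅O, B⁆ := Subgroup.commutator_mem_commutator haO hbmem
    have e : ⁅a, b⁆ = a * (b * a * b⁻¹) := by
      have hai : a⁻¹ = a := inv_eq_of_mul_eq_one_left ha2
      rw [commutatorElement_def, hai]
      group
    rw [e, hua] at hc
    have := hbR _ hc
    rwa [hab3] at this
  exact reduce ρ hfaith B b hb3 hb ⁅O, B⁆ hbR h3R₀ hRB hrank a haR ha2 ha1 hprod

end Cfsg.Agent.S4415
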