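import Cfsg.Statements.S4417
import Mathlib

set_option autoImplicit false
open Cfsg

namespace Cfsg.Agent.S4417

universe w

open Module

/-- The inductive statement. -/
def Stmt (p N : ℕ) : Prop :=
  ∀ (F V Q : Type w) [Field F] [Finite F] [AddCommGroup V] [Module F V] [Module.Finite F V]
    [Group Q] [Finite Q],
    IsPGroup p Q → ¬ p ∣ Nat.card F → ∀ (ρ : Q →* Module.End F V), Function.Injective ρ →
    Nat.card Q + finrank F V ≤ N →
    derivedSeries Q (Nat.log 2 (finrank F V / orderOf ((Nat.card F : ℕ) : ZMod p)) + 1) = ⊥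

section
variable {p N : ℕ}

theorem noninj (IH : Stmt.{w} p N) {F V Q : Type w} [Field F] [Finite F] [AddCommGroup V]
    [Module F V] [Module.Finite F V] [Group Q] [Finite Q] (hQ : IsPGroup p Q)
    (hF : ¬ p ∣ Nat.card F) (ρ : Q →* Module.End F V) (hN : Nat.card Q + finrank F V ≤ N)
    {x : Q} (hx : x ∈ derivedSeries Q
      (Nat.log 2 (finrank F V / orderOf ((Nat.card F : ℕ) : ZMod p)) + 1)) : ρ x = 1 := by
  have hcard : Nat.card (Q ⧸ ρ.ker) ≤ Nat.card Q :=
    Nat.card_le_card_of_surjective _ (QuotientGroup.mk'_surjective ρ.ker)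
  let ρ' : Q ⧸ ρ.ker →* Module.End F V := QuotientGroup.lift ρ.ker ρ (fun _ h => h)
  have hρ' : Function.Injective ρ' := by
    intro a b
    induction a using QuotientGroup.induction_on with
    | H a =>
      induction b using QuotientGroup.induction_on with
      | H b =>
        intro hab
        change ρ a = ρ b at hab
        apply (QuotientGroup.eq (s := ρ.ker)).2
        rw [MonoidHom.mem_ker, map_mul, ← hab, ← map_mul]
        simp
  have h := IH F V (Q ⧸ ρ.ker) (hQ.to_quotient ρ.ker) hF ρ' hρ' (by omega)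
  have h2 : (QuotientGroup.mk' ρ.ker) x ∈ derivedSeries (Q ⧸ ρ.ker)
      (Nat.log 2 (finrank F V / orderOf ((Nat.card F : ℕ) : ZMod p)) + 1) :=
    map_derivedSeries_le_derivedSeries _ _ (Subgroup.mem_map_of_mem _ hx)
  rw [h, Subgroup.mem_bot] at h2
  have h3 : x ∈ ρ.ker := by
    rwa [← QuotientGroup.eq_one_iff]
  exact h3

theorem p_ne_zero [Fact p.Prime] {F : Type w} [Field F] [Finite F] (hF : ¬ p ∣ Nat.card F) :
    (p : F) ≠ 0 := by
  intro h
  apply hF
  have h1 : addOrderOf (1 : F) = p := by
    apply addOrderOf_eq_prime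
    · simpa using h
    · exact one_ne_zero
  rw [← h1]
  exact addOrderOf_dvd_natCard _

theorem orderOf_pos_aux [hp : Fact p.Prime] {a : ℕ} (ha : ¬ p ∣ a) :
    0 < orderOf (a : ZMod p) := by
  apply orderOf_pos_iff.2
  apply isOfFinOrder_iff_pow_eq_one.2
  refine ⟨p - 1, Nat.sub_pos_of_lt hp.out.one_lt, ?_⟩
  apply ZMod.pow_card_sub_one_eq_one
  rwa [Ne, ZMod.natCast_eq_zero_iff]

theorem reducible_step [hp : Fact p.Prime] (IH : Stmt.{w} p N) {F V Q : Type w} [Field F] [Finite F]
    [AddCommGroup V] [Module F V] [Module.Finite F V] [Group Q] [Finite Q] (hQ : IsPGroup p Q)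
    (hF : ¬ p ∣ Nat.card F) (ρ : Q →* Module.End F V) (hρ : Function.Injective ρ)
    (hN : Nat.card Q + finrank F V ≤ N + 1) (W : Submodule F V)
    (hW : ∀ g, ∀ v ∈ W, ρ g v ∈ W) (hbot : W ≠ ⊥) (htop : W ≠ ⊤) :
    derivedSeries Q (Nat.log 2 (finrank F V / orderOf ((Nat.card F : ℕ) : ZMod p)) + 1) = ⊥ := by
  have h1 : finrank F W < finrank F V := Submodule.finrank_lt htop
  have h2 := Submodule.finrank_quotient_add_finrank W
  have h3 : 0 < finrank F W := by
    rcases Nat.eq_zero_or_pos (finrank F W) with h | h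
    · exact absurd (Submodule.finrank_eq_zero.1 h) hbot
    · exact h
  let ρW : Q →* Module.End F W :=
    { toFun := fun g => (ρ g).restrict (hW g)
      map_one' := by ext v; simp
      map_mul' := fun a b => by ext v; simp }
  let ρQ : Q →* Module.End F (V ⧸ W) :=
    { toFun := fun g => W.mapQ W (ρ g) (fun v hv => hW g v hv)
      map_one' := by
        ext v
        simp
      map_mul' := fun a b => by
        ext v
        simp }
  rw [eq_bot_iff]
  intro x hx
  have hle1 : Nat.log 2 (finrank F W / orderOf ((Nat.card F : ℕ) : ZMod p)) + 1 ≤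
      Nat.log 2 (finrank F V / orderOf ((Nat.card F : ℕ) : ZMod p)) + 1 := by
    have := Nat.log_mono_right (b := 2) (Nat.div_le_div_right (c := orderOf ((Nat.card F : ℕ) : ZMod p)) h1.le)
    omega
  have hle2 : Nat.log 2 (finrank F (V ⧸ W) / orderOf ((Nat.card F : ℕ) : ZMod p)) + 1 ≤
      Nat.log 2 (finrank F V / orderOf ((Nat.card F : ℕ) : ZMod p)) + 1 := by
    have := Nat.log_mono_right (b := 2) (Nat.div_le_div_right (c := orderOf ((Nat.card F : ℕ) : ZMod p)) (show finrank F (V ⧸ W) ≤ finrank F V by omega))
    omega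
  have hx1 := noninj IH hQ hF ρW (by omega) (derivedSeries_antitone Q hle1 hx)
  have hx2 := noninj IH hQ hF ρQ (by omega) (derivedSeries_antitone Q hle2 hx)
  have hW1 : ∀ v ∈ W, ρ x v = v := by
    intro v hv
    have := LinearMap.congr_fun hx1 ⟨v, hv⟩
    simpa [ρW, Subtype.ext_iff] using this
  have hW2 : ∀ v, ρ x v - v ∈ W := by
    intro v
    have := LinearMap.congr_fun hx2 (Submodule.Quotient.mk v)
    have h4 : (Submodule.Quotient.mk (ρ x v) : V ⧸ W) = Submodule.Quotient.mk v := by
      simpa [ρQ] using this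
    exact (Submodule.Quotient.eq W).1 h4
  have hpow : ∀ (m : ℕ) (v : V), ρ (x ^ m) v = v + m • (ρ x v - v) := by
    intro m v
    induction m with
    | zero => simp
    | succ m ih =>
      rw [pow_succ', map_mul, Module.End.mul_apply, ih, map_add, map_nsmul,
        hW1 _ (hW2 v), add_smul, one_smul]
      abel
  obtain ⟨k, hk⟩ := (IsPGroup.iff_orderOf.1 hQ) x
  have hfix : ∀ v, ρ x v = v := by
    intro v
    have h5 := hpow (orderOf x) v
    rw [pow_orderOf_eq_one, map_one, Module.End.one_apply, hk] at h5
    have h6 : (((p ^ k : ℕ) : F)) • (ρ x v - v) = 0 := by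
      rw [Nat.cast_smul_eq_nsmul]
      simpa using h5
    rcases smul_eq_zero.1 h6 with h7 | h7
    · exfalso
      exact pow_ne_zero k (p_ne_zero hF) (by exact_mod_cast h7)
    · exact sub_eq_zero.1 h7
  have : ρ x = 1 := by
    ext v
    simpa using hfix v
  exact hρ (by rw [this, map_one])

/-- Change of field. -/
theorem change_field [hp : Fact p.Prime] (IH : Stmt.{w} p N) {F V Q : Type w} [Field F] [Finite F]
    [AddCommGroup V] [Module F V] [Module.Finite F V] [Group Q] [Finite Q] (hQ : IsPGroup p Q)
    (hF : ¬ p ∣ Nat.card F) (ρ : Q →* Module.End F V) (hρ : Function.Injective ρ)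
    (hN : Nat.card Q + finrank F V ≤ N + 1) (hV : 0 < finrank F V)
    (K : Type w) [Field K] [Finite K] (φ : K →+* Module.End F V)
    (hφ : ∀ a g, φ a * ρ g = ρ g * φ a) (d : ℕ) (hd : Nat.card K = Nat.card F ^ d) (hd2 : 2 ≤ d) :
    ∃ e', 0 < e' ∧ orderOf ((Nat.card F : ℕ) : ZMod p) ∣ d * e' ∧ d ∣ finrank F V ∧
      derivedSeries Q (Nat.log 2 ((finrank F V / d) / e') + 1) = ⊥ := by
  letI : Module K V := Module.compHom V φ
  have hsmul : ∀ (a : K) (v : V), a • v = φ a v := fun _ _ => rfl
  haveI hfinV : Finite V := Module.finite_of_finite F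
  haveI : Module.Finite K V := Module.Finite.of_finite
  let ρ' : Q →* Module.End K V :=
    { toFun := fun g =>
        { toFun := ρ g
          map_add' := map_add _
          map_smul' := fun a v => by
            have := LinearMap.congr_fun (hφ a g) v
            simpa [hsmul] using this.symm }
      map_one' := by ext v; simp
      map_mul' := fun a b => by ext v; simp }
  have hρ' : Function.Injective ρ' := by
    intro a b hab
    apply hρ
    ext v
    exact LinearMap.congr_fun hab v
  have hKp : ¬ p ∣ Nat.card K := by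
    rw [hd]
    intro h
    exact hF (hp.out.dvd_of_dvd_pow h)
  have hcard1 : Nat.card V = Nat.card F ^ finrank F V := Module.natCard_eq_pow_finrank
  have hcard2 : Nat.card V = Nat.card K ^ finrank K V := Module.natCard_eq_pow_finrank
  have hFcard : 1 < Nat.card F := Finite.one_lt_card
  have hdn : finrank F V = d * finrank K V := by
    apply Nat.pow_right_injective hFcard
    simp only []
    rw [← hcard1, hcard2, hd, pow_mul]
  have hdiv : finrank F V / d = finrank K V := by
    rw [hdn]; exact Nat.mul_div_cancel_left _ (by omega)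
  have hlt : finrank K V < finrank F V := by
    rw [hdn]
    have : 0 < finrank K V := by
      rcases Nat.eq_zero_or_pos (finrank K V) with h | h
      · rw [hdn, h] at hV; simp at hV
      · exact h
    nlinarith
  refine ⟨orderOf ((Nat.card K : ℕ) : ZMod p), orderOf_pos_aux hKp, ?_, ⟨_, hdn⟩, ?_⟩
  · apply orderOf_dvd_of_pow_eq_one
    rw [pow_mul]
    have : ((Nat.card F : ℕ) : ZMod p) ^ d = ((Nat.card K : ℕ) : ZMod p) := by
      rw [hd]; push_cast; rfl
    rw [this]
    exact pow_orderOf_eq_one _
  · rw [hdiv]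
    exact IH K V Q hQ hKp ρ' hρ' (by omega)

/-- Irreducibility. -/
def Irr {F V Q : Type w} [Field F] [AddCommGroup V] [Module F V] [Group Q]
    (ρ : Q →* Module.End F V) : Prop :=
  ∀ W : Submodule F V, (∀ g, ∀ v ∈ W, ρ g v ∈ W) → W = ⊥ ∨ W = ⊤

/-- The field step. -/
theorem field_step [hp : Fact p.Prime] (IH : Stmt.{w} p N) {F V Q : Type w} [Field F] [Finite F]
    [AddCommGroup V] [Module F V] [Module.Finite F V] [Group Q] [Finite Q] (hQ : IsPGroup p Q)
    (hF : ¬ p ∣ Nat.card F) (ρ : Q →* Module.End F V) (hρ : Function.Injective ρ)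
    (hN : Nat.card Q + finrank F V ≤ N + 1) (hirr : Irr ρ)
    (T : Module.End F V) (hT : ∀ g, T * ρ g = ρ g * T) (hTs : ∀ c : F, T ≠ c • 1) :
    ∃ d e', 2 ≤ d ∧ 0 < e' ∧ orderOf ((Nat.card F : ℕ) : ZMod p) ∣ d * e' ∧ d ∣ finrank F V ∧
      0 < finrank F V ∧
      derivedSeries Q (Nat.log 2 ((finrank F V / d) / e') + 1) = ⊥ := by
  have hVnt : Nontrivial V := by
    by_contra h
    rw [not_nontrivial_iff_subsingleton] at h
    apply hTs 0
    ext v
    exact Subsingleton.elim _ _
  have hV : 0 < finrank F V := finrank_pos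
  haveI : Finite V := Module.finite_of_finite F
  let D : Subalgebra F (Module.End F V) := Subalgebra.centralizer F (Set.range ρ)
  have memD : ∀ A : Module.End F V, A ∈ D ↔ ∀ g, ρ g * A = A * ρ g := by
    intro A
    rw [Subalgebra.mem_centralizer_iff]
    simp
  have hinj : ∀ A ∈ D, A ≠ 0 → Function.Injective A := by
    intro A hA hne
    have hker := hirr (LinearMap.ker A) (by
      intro g v hv
      rw [LinearMap.mem_ker] at hv ⊢
      have := LinearMap.congr_fun ((memD A).1 hA g) v
      simp only [Module.End.mul_apply] at this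
      rw [← this, hv, map_zero])
    rcases hker with h | h
    · exact LinearMap.ker_eq_bot.1 h
    · exfalso
      apply hne
      exact LinearMap.ker_eq_top.1 h
  haveI : Finite (Module.End F V) := Module.finite_of_finite F
  haveI : Finite D := inferInstance
  haveI : Nontrivial D := inferInstance
  haveI : NoZeroDivisors D := by
    constructor
    intro a b hab
    by_contra hcon
    push_neg at hcon
    have h1 := hinj a a.2 (fun h => hcon.1 (Subtype.ext h))
    apply hcon.2
    apply Subtype.ext
    ext v
    apply h1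
    have : ((a * b : D) : Module.End F V) v = 0 := by rw [hab]; rfl
    simpa using this
  haveI : IsDomain D := NoZeroDivisors.to_isDomain D
  have hdd : Nat.card D = Nat.card F ^ finrank F D := Module.natCard_eq_pow_finrank
  have hT_mem : T ∈ D := (memD T).2 (fun g => (hT g).symm)
  have hdd2 : 2 ≤ finrank F D := by
    have h0 : 0 < finrank F D := finrank_pos
    have h1 : finrank F D ≠ 1 := by
      intro h
      have hbot : D = ⊥ := Subalgebra.finrank_eq_one_iff.1 h
      rw [hbot, Algebra.mem_bot] at hT_mem
      obtain ⟨c, hc⟩ := hT_mem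
      apply hTs c
      rw [← hc, Algebra.algebraMap_eq_smul_one]
    omega
  letI fD : Field D := (Finite.isDomain_to_isField D).toField
  let φ : D →+* Module.End F V :=
    { toFun := fun a => (a : Module.End F V)
      map_one' := rfl
      map_mul' := fun _ _ => rfl
      map_zero' := rfl
      map_add' := fun _ _ => rfl }
  obtain ⟨e', h1, h2, h3, h4⟩ := change_field IH hQ hF ρ hρ hN hV D φ
    (fun a g => ((memD a.1).1 a.2 g).symm) (finrank F D) hdd hdd2
  exact ⟨finrank F D, e', hdd2, h1, h2, h3, hV, h4⟩


/-- The key irreducible nonabelian step. -/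
theorem irreducible_step [hp : Fact p.Prime] (IH : Stmt.{w} p N) {F V Q : Type w} [Field F]
    [Finite F] [AddCommGroup V] [Module F V] [Module.Finite F V] [Group Q] [Finite Q]
    (hQ : IsPGroup p Q) (hF : ¬ p ∣ Nat.card F) (ρ : Q →* Module.End F V)
    (hρ : Function.Injective ρ) (hN : Nat.card Q + finrank F V ≤ N + 1) (hirr : Irr ρ)
    (hsc : ∀ T : Module.End F V, (∀ g, T * ρ g = ρ g * T) → ∃ c : F, T = c • 1)
    (hab : ¬ ∀ a b : Q, a * b = b * a) :
    derivedSeries Q (Nat.log 2 (finrank F V / orderOf ((Nat.card F : ℕ) : ZMod p)) + 1) = ⊥ := by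
  classical
  -- choose `y`
  have hZ : ∃ y : Q, y ∉ Subgroup.center Q ∧ ∀ g : Q, g * y * g⁻¹ * y⁻¹ ∈ Subgroup.center Q := by
    haveI : Nontrivial (Q ⧸ Subgroup.center Q) := by
      by_contra hcon
      rw [not_nontrivial_iff_subsingleton] at hcon
      apply hab
      intro a b
      have : (a : Q ⧸ Subgroup.center Q) = 1 := Subsingleton.elim _ _
      rw [QuotientGroup.eq_one_iff] at this
      exact (Subgroup.mem_center_iff.1 this b).symm
    have hQ' : IsPGroup p (Q ⧸ Subgroup.center Q) := hQ.to_quotient _
    haveI := hQ'.center_nontrivial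
    obtain ⟨z, hz⟩ := exists_ne (1 : Subgroup.center (Q ⧸ Subgroup.center Q))
    obtain ⟨y, hy⟩ := QuotientGroup.mk'_surjective (Subgroup.center Q) (z : Q ⧸ Subgroup.center Q)
    refine ⟨y, ?_, ?_⟩
    · intro hmem
      apply hz
      apply Subtype.ext
      rw [← hy]
      exact (QuotientGroup.eq_one_iff y).2 hmem
    · intro g
      rw [← QuotientGroup.eq_one_iff]
      have h1 : ((y : Q) : Q ⧸ Subgroup.center Q) = z := hy
      have h2 : (g : Q ⧸ Subgroup.center Q) * (z : Q ⧸ Subgroup.center Q) =
          (z : Q ⧸ Subgroup.center Q) * (g : Q ⧸ Subgroup.center Q) :=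
        (Subgroup.mem_center_iff.1 z.2 _)
      have h3 : (((g * y * g⁻¹ * y⁻¹ : Q)) : Q ⧸ Subgroup.center Q) =
        (g : Q ⧸ Subgroup.center Q) * (y : Q ⧸ Subgroup.center Q) * (g : Q ⧸ Subgroup.center Q)⁻¹ *
          (y : Q ⧸ Subgroup.center Q)⁻¹ := rfl
      rw [h3, h1, h2]
      group
  obtain ⟨y, hy, hyc⟩ := hZ
  let c : Q →* Subgroup.center Q :=
    { toFun := fun g => ⟨g * y * g⁻¹ * y⁻¹, hyc g⟩
      map_one' := by apply Subtype.ext; simp
      map_mul' := fun a b => by
        apply Subtype.ext
        change a * b * y * (a * b)⁻¹ * y⁻¹ = a * y * a⁻¹ * y⁻¹ * (b * y * b⁻¹ * y⁻¹)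
        have h := Subgroup.mem_center_iff.1 (hyc b) (a * y * a⁻¹ * y⁻¹)
        rw [h]
        have h' := Subgroup.mem_center_iff.1 (hyc b) a
        calc a * b * y * (a * b)⁻¹ * y⁻¹ = a * (b * y * b⁻¹ * y⁻¹) * y * a⁻¹ * y⁻¹ := by group
          _ = (b * y * b⁻¹ * y⁻¹) * (a * y * a⁻¹ * y⁻¹) := by rw [h']; group }
  have hc : ∀ g, ((c g : Subgroup.center Q) : Q) = g * y * g⁻¹ * y⁻¹ := fun _ => rfl
  let M : Subgroup Q := c.ker
  have memM : ∀ g, g ∈ M ↔ g * y = y * g := by
    intro g
    change c g = 1 ↔ _
    rw [Subtype.ext_iff, hc]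
    constructor
    · intro h
      have : g * y * g⁻¹ = y := by
        have := congrArg (· * y) h
        simpa using this
      calc g * y = g * y * g⁻¹ * g := by group
        _ = y * g := by rw [this]
    · intro h
      rw [h]
      simp
  -- `M` is a proper subgroup
  obtain ⟨g₀, hg₀⟩ : ∃ g₀, g₀ ∉ M := by
    by_contra hcon
    push_neg at hcon
    apply hy
    rw [Subgroup.mem_center_iff]
    intro g
    exact (memM g).1 (hcon g)
  have hMcard : Nat.card M < Nat.card Q := by
    have h1 := M.card_mul_index
    have h2 : M.index ≠ 1 := by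
      rw [Ne, Subgroup.index_eq_one]
      intro h
      exact hg₀ (h ▸ Subgroup.mem_top g₀)
    have h3 : M.index ≠ 0 := Subgroup.index_ne_zero_of_finite
    have h4 : 0 < Nat.card M := Nat.card_pos
    nlinarith [show 2 ≤ M.index by omega]
  have hMp : IsPGroup p M := hQ.to_subgroup M
  -- `e = 1`
  have he : orderOf ((Nat.card F : ℕ) : ZMod p) = 1 := by
    obtain ⟨ζ, hζ⟩ := hsc (ρ (c g₀ : Q)) (by
      intro g
      rw [← map_mul, ← map_mul, Subgroup.mem_center_iff.1 (c g₀).2 g])
    have hζ1 : ζ ≠ 1 := by
      intro h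
      rw [h, one_smul] at hζ
      apply hg₀
      change c g₀ = 1
      apply Subtype.ext
      apply hρ
      rw [hζ]; simp
    obtain ⟨k, hk⟩ := (IsPGroup.iff_orderOf.1 hQ) (c g₀ : Q)
    have hζk : ζ ^ (p ^ k) = 1 := by
      have h1 : ρ (c g₀ : Q) ^ (p ^ k) = 1 := by
        rw [← map_pow, ← hk, pow_orderOf_eq_one, map_one]
      rw [hζ, smul_pow, one_pow] at h1
      haveI : Nontrivial V := by
        by_contra hcon
        rw [not_nontrivial_iff_subsingleton] at hcon
        apply hab
        intro a b
        apply hρ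
        ext v
        exact Subsingleton.elim _ _
      have h2 := LinearMap.congr_fun h1 (Classical.choose (exists_ne (0 : V)))
      have h3 := Classical.choose_spec (exists_ne (0 : V))
      simp only [LinearMap.smul_apply, Module.End.one_apply] at h2
      have h4 : (ζ ^ p ^ k - 1) • Classical.choose (exists_ne (0 : V)) = 0 := by
        rw [sub_smul, h2, one_smul, sub_self]
      rcases smul_eq_zero.1 h4 with h5 | h5
      · exact sub_eq_zero.1 h5
      · exact absurd h5 h3
    have hζ0 : ζ ≠ 0 := by
      intro h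
      rw [h] at hζk
      have : p ^ k ≠ 0 := pow_ne_zero _ hp.out.ne_zero
      rw [zero_pow this] at hζk
      exact zero_ne_one hζk
    haveI : Fintype F := Fintype.ofFinite F
    have hq1 : ζ ^ (Fintype.card F - 1) = 1 := FiniteField.pow_card_sub_one_eq_one ζ hζ0
    have hd1 : orderOf ζ ∣ p ^ k := orderOf_dvd_of_pow_eq_one hζk
    have hd2 : orderOf ζ ∣ Fintype.card F - 1 := orderOf_dvd_of_pow_eq_one hq1
    have hne1 : orderOf ζ ≠ 1 := by
      rw [Ne, orderOf_eq_one_iff]
      exact hζ1
    obtain ⟨j, hj, hj2⟩ := (Nat.dvd_prime_pow hp.out).1 hd1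
    have hj0 : j ≠ 0 := by
      rintro rfl
      rw [pow_zero] at hj2
      exact hne1 hj2
    have hpd : p ∣ Fintype.card F - 1 := by
      apply dvd_trans (dvd_pow_self p hj0)
      rw [← hj2]
      exact hd2
    have hone : ((Nat.card F : ℕ) : ZMod p) = 1 := by
      rw [Nat.card_eq_fintype_card]
      have h1 : 1 ≤ Fintype.card F := Fintype.card_pos
      have h2 : (((Fintype.card F - 1 : ℕ)) : ZMod p) = 0 := (ZMod.natCast_eq_zero_iff _ _).2 hpd
      rw [Nat.cast_sub h1, Nat.cast_one, sub_eq_zero] at h2
      exact h2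
    rw [hone, orderOf_one]
  rw [he, Nat.div_one]
  -- the main claim
  have hmain : 2 ≤ finrank F V ∧ derivedSeries M (Nat.log 2 (finrank F V / 2) + 1) = ⊥ := by
    have hVnt : Nontrivial V := by
      by_contra hcon
      rw [not_nontrivial_iff_subsingleton] at hcon
      apply hab
      intro a b
      apply hρ
      ext v
      exact Subsingleton.elim _ _
    let S : Set (Submodule F V) := {W | W ≠ ⊥ ∧ ∀ g ∈ M, ∀ v ∈ W, ρ g v ∈ W}
    have hS : S.Nonempty := ⟨⊤, top_ne_bot, fun _ _ _ _ => Submodule.mem_top⟩
    obtain ⟨W, hWS, hmin⟩ :=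
      (InvImage.wf (fun W : Submodule F V => finrank F W) Nat.lt_wfRel.wf).has_min S hS
    have hmin' : ∀ W' ∈ S, finrank F W ≤ finrank F W' := fun W' h =>
      not_lt.1 (hmin W' h)
    have hW0 : 0 < finrank F W := by
      rcases Nat.eq_zero_or_pos (finrank F W) with h | h
      · exact absurd (Submodule.finrank_eq_zero.1 h) hWS.1
      · exact h
    have hM1 : Nat.card M + finrank F V ≤ N := by omega
    by_cases hWtop : W = ⊤
    · -- `V` is `M`-irreducible
      have hirrM : Irr (ρ.comp M.subtype) := by
        intro W' hW'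
        by_cases hb : W' = ⊥
        · exact Or.inl hb
        · right
          have h1 := hmin' W' ⟨hb, fun g hg v hv => hW' ⟨g, hg⟩ v hv⟩
          rw [hWtop, finrank_top] at h1
          exact Submodule.eq_top_of_finrank_eq (le_antisymm (Submodule.finrank_le _) h1)
      obtain ⟨d, e', hd2, he', -, hdvd, hV, h4⟩ := field_step (N := N) (by
          intro F' V' Q' _ _ _ _ _ _ _ h1 h2 ρ'' h3 h4
          exact IH F' V' Q' h1 h2 ρ'' h3 h4) hMp hF (ρ.comp M.subtype)
        (hρ.comp Subtype.val_injective) (by omega) hirrM (ρ y)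
        (by
          intro g
          simp only [MonoidHom.comp_apply, Subgroup.subtype_apply]
          rw [← map_mul, ← map_mul, ((memM g.1).1 g.2)])
        (by
          intro a ha
          apply hy
          rw [Subgroup.mem_center_iff]
          intro g
          apply hρ
          rw [map_mul, map_mul, ha]
          ext v
          simp)
      refine ⟨?_, ?_⟩
      · obtain ⟨u, hu⟩ := hdvd
        rw [hu] at hV ⊢
        have : 0 < u := Nat.pos_of_mul_pos_left hV |> fun h => by
          rcases Nat.eq_zero_or_pos u with h' | h'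
          · rw [h'] at hV; simp at hV
          · exact h'
        nlinarith
      · rw [eq_bot_iff, ← h4]
        apply derivedSeries_antitone M
        have h5 : finrank F V / d / e' ≤ finrank F V / 2 :=
          le_trans (Nat.div_le_self _ _) (Nat.div_le_div_left hd2 (by norm_num))
        have := Nat.log_mono_right (b := 2) h5
        omega
    · -- `W` is not `Q`-invariant
      obtain ⟨g₁, v₁, hv₁, hv₁'⟩ : ∃ g₁, ∃ v₁ ∈ W, ρ g₁ v₁ ∉ W := by
        by_contra hcon
        push_neg at hcon
        rcases hirr W hcon with h | h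
        · exact hWS.1 h
        · exact hWtop h
      have hinjg : Function.Injective (ρ g₁) := by
        intro a b hab
        have h := congrArg (ρ g₁⁻¹) hab
        rw [← Module.End.mul_apply, ← Module.End.mul_apply, ← map_mul] at h
        simpa using h
      let W₁ : Submodule F V := W.map (ρ g₁)
      have hW₁ : finrank F W₁ = finrank F W :=
        (Submodule.equivMapOfInjective (ρ g₁) hinjg W).finrank_eq.symm
      have hMnormal : M.Normal := MonoidHom.normal_ker c
      have hW₁inv : ∀ g ∈ M, ∀ v ∈ W₁, ρ g v ∈ W₁ := by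
        rintro g hg v ⟨u, hu, rfl⟩
        have h1 : g₁⁻¹ * g * g₁ ∈ M := by
          have := hMnormal.conj_mem g hg g₁⁻¹
          simpa using this
        refine ⟨ρ (g₁⁻¹ * g * g₁) u, hWS.2 _ h1 u hu, ?_⟩
        rw [← Module.End.mul_apply, ← map_mul]
        have : g₁ * (g₁⁻¹ * g * g₁) = g * g₁ := by group
        rw [this, map_mul, Module.End.mul_apply]
      have hinf : W ⊓ W₁ = ⊥ := by
        by_contra hne
        have h1 := hmin' (W ⊓ W₁) ⟨hne, fun g hg v hv =>
          ⟨hWS.2 g hg v hv.1, hW₁inv g hg v hv.2⟩⟩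
        have h2 : W ⊓ W₁ = W := Submodule.eq_of_le_of_finrank_le inf_le_left h1
        have h3 : W ≤ W₁ := inf_eq_left.1 h2
        have h4 : W = W₁ := Submodule.eq_of_le_of_finrank_le h3 (by omega)
        apply hv₁'
        rw [h4]
        exact ⟨v₁, hv₁, rfl⟩
      have hsum := Submodule.finrank_sup_add_finrank_inf_eq W W₁
      rw [hinf, finrank_bot, hW₁] at hsum
      have hle : finrank F (W ⊔ W₁ : Submodule F V) ≤ finrank F V := Submodule.finrank_le _
      have hWle : finrank F W ≤ finrank F V / 2 := by
        rw [Nat.le_div_iff_mul_le (by norm_num)]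
        omega
      refine ⟨by omega, ?_⟩
      -- `M` acting on `W`
      let ρW : M →* Module.End F W :=
        { toFun := fun g => (ρ g).restrict (fun v hv => hWS.2 g g.2 v hv)
          map_one' := by ext v; simp
          map_mul' := fun a b => by ext v; simp }
      rw [eq_bot_iff]
      intro x hx
      have hle1 : Nat.log 2 (finrank F W / orderOf ((Nat.card F : ℕ) : ZMod p)) + 1 ≤
          Nat.log 2 (finrank F V / 2) + 1 := by
        have := Nat.log_mono_right (b := 2)
          (le_trans (Nat.div_le_self (finrank F W) (orderOf ((Nat.card F : ℕ) : ZMod p))) hWle)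
        omega
      have hkey : ∀ x ∈ derivedSeries M (Nat.log 2 (finrank F V / 2) + 1), ∀ v ∈ W, ρ x v = v := by
        intro x hx v hv
        have h1 := noninj IH hMp hF ρW (by omega) (derivedSeries_antitone M hle1 hx)
        have := LinearMap.congr_fun h1 ⟨v, hv⟩
        simpa [ρW, Subtype.ext_iff] using this
      -- the fixed space
      let Fix : Submodule F V :=
        { carrier := {v | ∀ x ∈ derivedSeries M (Nat.log 2 (finrank F V / 2) + 1), ρ x v = v}
          add_mem' := fun {a b} ha hb x hx => by rw [map_add, ha x hx, hb x hx]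
          zero_mem' := fun x _ => map_zero _
          smul_mem' := fun c v hv x hx => by rw [map_smul, hv x hx] }
      have hFix : Fix = ⊤ := by
        rcases hirr Fix (by
          intro g v hv x hx
          have hconj : MulAut.conjNormal g⁻¹ x ∈ derivedSeries M (Nat.log 2 (finrank F V / 2) + 1) := by
            have hch := (derivedSeries_characteristic M (Nat.log 2 (finrank F V / 2) + 1)).fixed
              (MulAut.conjNormal g⁻¹)
            rw [← hch] at hx
            exact hx
          have h1 := hv _ hconj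
          have h2 : ((MulAut.conjNormal g⁻¹ x : M) : Q) = g⁻¹ * x * g := by
            rw [MulAut.conjNormal_apply]; simp
          rw [h2] at h1
          have h3 : (x : Q) * g = g * (g⁻¹ * x * g) := by group
          rw [← Module.End.mul_apply, ← map_mul, h3, map_mul, Module.End.mul_apply, h1]) with h | h
        · exfalso
          apply hWS.1
          rw [eq_bot_iff]
          intro v hv
          rw [← h]
          intro x hx
          exact hkey x hx v hv
        · exact h
      have h1 : ρ (x : Q) = 1 := by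
        ext v
        have : v ∈ Fix := hFix ▸ Submodule.mem_top
        exact this x hx
      rw [Subgroup.mem_bot]
      apply Subtype.ext
      apply hρ
      rw [h1]; simp
  obtain ⟨h2, hM⟩ := hmain
  -- going up
  have hup : ∀ k, derivedSeries Q (k + 1) ≤ (derivedSeries M k).map M.subtype := by
    intro k
    induction k with
    | zero =>
      simp only [zero_add, derivedSeries_one, derivedSeries_zero, ← MonoidHom.range_eq_map,
        Subgroup.range_subtype]
      have : commutator Q ≤ M := by
        rw [commutator_eq_closure]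
        rw [Subgroup.closure_le]
        rintro _ ⟨a, b, rfl⟩
        change c _ = 1
        rw [map_commutatorElement]
        rw [commutatorElement_eq_one_iff_mul_comm]
        exact Subtype.ext (Subgroup.mem_center_iff.1 (c b).2 (c a : Q))
      exact this
    | succ k ih =>
      change ⁅derivedSeries Q (k + 1), derivedSeries Q (k + 1)⁆ ≤
        (⁅derivedSeries M k, derivedSeries M k⁆).map M.subtype
      rw [Subgroup.map_commutator]
      exact Subgroup.commutator_mono ih ih
  rw [Nat.log_of_one_lt_of_le (by norm_num) h2, eq_bot_iff]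
  refine le_trans (hup _) ?_
  rw [hM]
  simp

theorem stmt_all [hp : Fact p.Prime] : ∀ N, Stmt.{w} p N := by
  intro N
  induction N with
  | zero =>
    intro F V Q _ _ _ _ _ _ _ _ _ _ _ h
    have : 0 < Nat.card Q := Nat.card_pos
    omega
  | succ N IH =>
    intro F V Q _ _ _ _ _ _ _ hQ hF ρ hρ hN
    by_cases hab : ∀ a b : Q, a * b = b * a
    · rw [eq_bot_iff]
      refine le_trans (derivedSeries_antitone Q (show 1 ≤ _ by omega)) ?_
      rw [derivedSeries_one, ← eq_bot_iff, commutator_eq_bot_iff_center_eq_top]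
      rw [eq_top_iff]
      intro a _
      rw [Subgroup.mem_center_iff]
      intro b
      exact hab b a
    by_cases hred : ∃ W : Submodule F V, (∀ g, ∀ v ∈ W, ρ g v ∈ W) ∧ W ≠ ⊥ ∧ W ≠ ⊤
    · obtain ⟨W, h1, h2, h3⟩ := hred
      exact reducible_step IH hQ hF ρ hρ hN W h1 h2 h3
    have hirr : Irr ρ := by
      intro W hW
      by_contra hcon
      push_neg at hcon
      exact hred ⟨W, hW, hcon.1, hcon.2⟩
    by_cases hsc : ∀ T : Module.End F V, (∀ g, T * ρ g = ρ g * T) → ∃ c : F, T = c • 1
    · exact irreducible_step IH hQ hF ρ hρ hN hirr hsc hab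
    · push_neg at hsc
      obtain ⟨T, hT, hTs⟩ := hsc
      obtain ⟨d, e', hd2, he', hdvd, -, -, h4⟩ := field_step IH hQ hF ρ hρ hN hirr T hT hTs
      rw [eq_bot_iff, ← h4]
      apply derivedSeries_antitone Q
      have h0 : 0 < orderOf ((Nat.card F : ℕ) : ZMod p) := orderOf_pos_aux hF
      have hle : orderOf ((Nat.card F : ℕ) : ZMod p) ≤ d * e' :=
        Nat.le_of_dvd (Nat.mul_pos (by omega) he') hdvd
      have h5 : finrank F V / d / e' ≤ finrank F V / orderOf ((Nat.card F : ℕ) : ZMod p) := by
        rw [Nat.div_div_eq_div_mul]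
        exact Nat.div_le_div_left hle h0
      have := Nat.log_mono_right (b := 2) h5
      omega

end

/-- Let F be a field with q elements, p a prime not dividing q, and e the multiplicative order of q modulo p; assume e ≤ n. Then every p-subgroup of GL_n(F) has derived length at most ⌊log₂(n/e)⌋ + 1: that term of its derived series is trivial (n/e is the integer quotient). -/
theorem result {F : Type*} [Field F] [Fintype F] (q : ℕ) (hF : Fintype.card F = q) (p : ℕ) [Fact p.Prime] (hpq : ¬ p ∣ q) (n e : ℕ) (he : e = orderOf (q : ZMod p)) (hen : e ≤ n) (P : Subgroup (GL (Fin n) F)) (hP : IsPGroup p P) : derivedSeries ↥P (Nat.log 2 (n / e) + 1) = ⊥ := by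
  subst he
  have hq : Nat.card F = q := by rw [Nat.card_eq_fintype_card, hF]
  haveI : Finite (GL (Fin n) F) := inferInstance
  let ρ : ↥P →* Module.End F (Fin n → F) :=
    { toFun := fun g => Matrix.toLinAlgEquiv' (((g : GL (Fin n) F) : Matrix (Fin n) (Fin n) F))
      map_one' := by
        simp
      map_mul' := fun a b => by
        simp [map_mul] }
  have hρ : Function.Injective ρ := by
    intro a b hab
    apply Subtype.ext
    apply Units.ext
    exact Matrix.toLinAlgEquiv'.injective hab
  have h := stmt_all (p := p) _ F (Fin n → F) (↥P) hP (by rwa [hq]) ρ hρ le_rfl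
  rw [Module.finrank_fin_fun, hq] at h
  exact h

end Cfsg.Agent.S4417
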