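import Cfsg.Statements.S4420
import Mathlib.GroupTheory.Index
import Mathlib.Order.Atoms
import Mathlib.Order.Atoms.Finite
import Mathlib.GroupTheory.QuotientGroup.Basic

set_option autoImplicit false
open Cfsg

namespace Cfsg.Agent.S4420

variable {H : Type*} [Group H]

lemma comm_of_sq {H : Type*} [Group H] (h : ∀ x : H, x ^ 2 = 1) (a b : H) : a * b = b * a := by
  have h1 : ∀ x : H, x⁻¹ = x := fun x => by
    have := h x
    rw [pow_two] at this
    exact inv_eq_of_mul_eq_one_left this
  calc a * b = (a * b)⁻¹ := (h1 _).symm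
    _ = b⁻¹ * a⁻¹ := mul_inv_rev a b
    _ = b * a := by rw [h1, h1]

lemma inverts {A : Subgroup H} (hD : ∀ x : H, x ∉ A → x ^ 2 = 1) (x a : H) (hx : x ∉ A)
    (ha : a ∈ A) : x * a * x⁻¹ = a⁻¹ := by
  have h1 : x * a ∉ A := fun h => hx (by simpa using A.mul_mem h (A.inv_mem ha))
  have h2 := hD _ h1
  have h3 := hD _ hx
  rw [pow_two] at h2 h3
  have hxi : x⁻¹ = x := inv_eq_of_mul_eq_one_left h3
  rw [hxi]
  apply eq_inv_of_mul_eq_one_left
  calc x * a * x * a = (x * a) * (x * a) := by group
    _ = 1 := h2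

lemma comm_A {A : Subgroup H} (hA : A ≠ ⊤) (hD : ∀ x : H, x ∉ A → x ^ 2 = 1) (a b : H)
    (ha : a ∈ A) (hb : b ∈ A) : a * b = b * a := by
  obtain ⟨x, hx⟩ : ∃ x, x ∉ A := by
    by_contra hcon
    apply hA
    rw [eq_top_iff]
    intro y _
    by_contra hy
    exact hcon ⟨y, hy⟩
  have h1 := inverts hD x a hx ha
  have h2 := inverts hD x b hx hb
  have h3 := inverts hD x (a * b) hx (A.mul_mem ha hb)
  have h4 : x * (a * b) * x⁻¹ = (x * a * x⁻¹) * (x * b * x⁻¹) := by group
  rw [h4, h1, h2, mul_inv_rev] at h3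
  -- a⁻¹ b⁻¹ = b⁻¹ a⁻¹
  have h5 : (a⁻¹ * b⁻¹)⁻¹ = (b⁻¹ * a⁻¹)⁻¹ := by rw [h3]
  simpa using h5.symm

lemma uniq {B B' : Subgroup H} [Finite H] (hBc : IsMulCommutative ↥B)
    (hBi : B.index = 2) (hB'i : B'.index = 2)
    (hB : ∀ x : H, x ∉ B → x ^ 2 = 1 ∧ ∀ b ∈ B, x * b * x⁻¹ = b⁻¹)
    (hB' : ∀ x : H, x ∉ B' → x ^ 2 = 1 ∧ ∀ b ∈ B', x * b * x⁻¹ = b⁻¹)
    (hne : B' ≠ B) : ∀ x : H, x ^ 2 = 1 := by
  obtain ⟨b, hb, hb'⟩ : ∃ b, b ∈ B ∧ b ∉ B' := by
    by_contra hcon
    have hle : B ≤ B' := by
      intro y hy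
      by_contra hy'
      exact hcon ⟨y, hy, hy'⟩
    apply hne
    symm
    have h1 : Nat.card B' ≤ Nat.card B := by
      have e1 := Subgroup.card_mul_index B
      have e2 := Subgroup.card_mul_index B'
      rw [hBi] at e1
      rw [hB'i] at e2
      omega
    exact Subgroup.eq_of_le_of_card_ge hle h1
  intro c
  by_cases hc : c ∈ B
  · by_cases hc' : c ∈ B'
    · have h1 := (hB' b hb').2 c hc'
      have h2 : b * c = c * b := by
        have := hBc.is_comm.comm ⟨b, hb⟩ ⟨c, hc⟩
        exact congrArg Subtype.val this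
      rw [h2] at h1
      simp only [mul_inv_cancel_right] at h1
      rw [pow_two]
      calc c * c = c * c⁻¹ := by rw [← h1]
        _ = 1 := by simp
    · exact (hB' c hc').1
  · exact (hB c hc).1

lemma exists_index_two [Finite H] (hsq : ∀ x : H, x ^ 2 = 1) (A : Subgroup H) (hA : A ≠ ⊤) :
    ∃ B : Subgroup H, B.index = 2 := by
  classical
  rcases eq_top_or_exists_le_coatom A with h0 | ⟨B, hB, _⟩
  · exact absurd h0 hA
  refine ⟨B, ?_⟩
  obtain ⟨x, hx⟩ : ∃ x, x ∉ B := by
    by_contra hcon
    apply hB.1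
    rw [eq_top_iff]
    intro y _
    by_contra hy
    exact hcon ⟨y, hy⟩
  have hcomm := comm_of_sq hsq
  have hxx : x * x = 1 := by rw [← pow_two]; exact hsq x
  let K : Subgroup H :=
    { carrier := {z | z ∈ B ∨ z * x ∈ B}
      one_mem' := Or.inl B.one_mem
      mul_mem' := by
        rintro a b (ha | ha) (hb | hb)
        · exact Or.inl (B.mul_mem ha hb)
        · exact Or.inr (by rw [mul_assoc]; exact B.mul_mem ha hb)
        · exact Or.inr (by rw [mul_assoc, hcomm b x, ← mul_assoc]; exact B.mul_mem ha hb)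
        · refine Or.inl ?_
          have : a * b = (a * x) * (b * x) := by
            rw [hcomm b x, mul_assoc, ← mul_assoc x x b, hxx, one_mul]
          rw [this]
          exact B.mul_mem ha hb
      inv_mem' := by
        rintro a (ha | ha)
        · exact Or.inl (B.inv_mem ha)
        · refine Or.inr ?_
          have h1 := B.inv_mem ha
          have h2 : (a * x)⁻¹ = a⁻¹ * x := by
            rw [mul_inv_rev, hcomm]
            congr 1
            exact inv_eq_of_mul_eq_one_left hxx
          rwa [h2] at h1 }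
  have hK : K = ⊤ := by
    apply hB.2
    refine lt_of_le_of_ne (fun y hy => Or.inl hy) ?_
    intro heq
    apply hx
    have : x ∈ K := Or.inr (by rw [hxx]; exact B.one_mem)
    rw [← heq] at this
    exact this
  rw [Subgroup.index_eq_two_iff]
  refine ⟨x, fun y => ?_⟩
  have hy : y ∈ K := by rw [hK]; exact Subgroup.mem_top y
  rcases hy with hy | hy
  · right
    exact ⟨hy, fun h => hx (by simpa using B.mul_mem (B.inv_mem hy) h)⟩
  · left
    refine ⟨hy, fun h => hx (by simpa using B.mul_mem (B.inv_mem h) hy)⟩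

/-- Structure of groups in which every element outside some proper subgroup has square 1. Let H be a finite group with a proper subgroup A such that every element outside A has square 1. Then H has an abelian normal subgroup B of index 2 such that every element outside B is an involution inverting every element of B; and if H is not an elementary abelian 2-group, B is the only abelian normal subgroup of index 2 with this property. -/
theorem result {H : Type*} [Group H] [Finite H] (A : Subgroup H) (hA : A ≠ ⊤) (hD : ∀ x : H, x ∉ A → x ^ 2 = 1) :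
    ∃ B : Subgroup H, B.Normal ∧ IsMulCommutative ↥B ∧ B.index = 2 ∧
      (∀ x : H, x ∉ B → x ^ 2 = 1 ∧ ∀ b ∈ B, x * b * x⁻¹ = b⁻¹) ∧
      (¬ (IsMulCommutative H ∧ ∀ x : H, x ^ 2 = 1) →
        ∀ B' : Subgroup H, B'.Normal → IsMulCommutative ↥B' → B'.index = 2 →
          (∀ x : H, x ∉ B' → x ^ 2 = 1 ∧ ∀ b ∈ B', x * b * x⁻¹ = b⁻¹) → B' = B) := by
  classical
  by_cases hi : A.index = 2
  · have hAc : IsMulCommutative ↥A := ⟨⟨fun a b => Subtype.ext (comm_A hA hD a.1 b.1 a.2 b.2)⟩⟩
    have hprop : ∀ x : H, x ∉ A → x ^ 2 = 1 ∧ ∀ b ∈ A, x * b * x⁻¹ = b⁻¹ :=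
      fun x hx => ⟨hD x hx, fun b hb => inverts hD x b hx hb⟩
    refine ⟨A, Subgroup.normal_of_index_eq_two hi, hAc, hi, hprop, ?_⟩
    intro hnot B' _ _ hB'i hB'
    by_contra hne
    have hsq := uniq hAc hi hB'i hprop hB' hne
    exact hnot ⟨⟨⟨comm_of_sq hsq⟩⟩, hsq⟩
  · -- all elements have square 1
    obtain ⟨x₀, hx₀⟩ : ∃ x, x ∉ A := by
      by_contra hcon
      apply hA
      rw [eq_top_iff]
      intro y _
      by_contra hy
      exact hcon ⟨y, hy⟩
    have hinv : ∀ x, x ∉ A → x * x = 1 := fun x hx => by rw [← pow_two]; exact hD x hx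
    -- commuting outside
    have hc1 : ∀ x y, x ∉ A → y ∉ A → x * y ∉ A → x * y = y * x := by
      intro x y hx hy hxy
      have h4 : (x * y)⁻¹ = x * y := inv_eq_of_mul_eq_one_left (hinv _ hxy)
      rw [mul_inv_rev, inv_eq_of_mul_eq_one_left (hinv _ hy),
        inv_eq_of_mul_eq_one_left (hinv _ hx)] at h4
      exact h4.symm
    have hidx : ∀ x, x ∉ A → ∃ z, z ∉ A ∧ x * z ∉ A := by
      intro x hx
      by_contra hcon
      have hcon' : ∀ z, z ∉ A → x * z ∈ A := by
        intro z hz
        by_contra hxz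
        exact hcon ⟨z, hz, hxz⟩
      apply hi
      rw [Subgroup.index_eq_two_iff]
      refine ⟨x, fun b => ?_⟩
      by_cases hb : b ∈ A
      · right
        exact ⟨hb, fun h => hx (by simpa using A.mul_mem (A.inv_mem hb) h)⟩
      · left
        refine ⟨?_, hb⟩
        have h1 := A.inv_mem (hcon' b hb)
        rwa [mul_inv_rev, inv_eq_of_mul_eq_one_left (hinv _ hx),
          inv_eq_of_mul_eq_one_left (hinv _ hb)] at h1
    have hc2 : ∀ x y, x ∉ A → y ∉ A → x * y = y * x := by
      intro x y hx hy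
      by_cases hxy : x * y ∈ A
      · obtain ⟨z, hz, hxz⟩ := hidx x hx
        have hyz : y * z ∉ A := by
          intro h
          apply hxz
          have : x * z = (x * y) * (y * z) := by
            rw [mul_assoc, ← mul_assoc y y z, hinv y hy, one_mul]
          rw [this]
          exact A.mul_mem hxy h
        have h1 := hc1 x z hx hz hxz
        have h2 := hc1 y z hy hz hyz
        have hyx : y * x ∈ A := by
          have := A.inv_mem hxy
          rwa [mul_inv_rev, inv_eq_of_mul_eq_one_left (hinv _ hy),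
            inv_eq_of_mul_eq_one_left (hinv _ hx)] at this
        have h3 : y * (x * z) ∉ A := by
          intro h
          apply hz
          have : z = (y * x)⁻¹ * (y * (x * z)) := by group
          rw [this]
          exact A.mul_mem (A.inv_mem hyx) h
        have h4 := hc1 y (x * z) hy hxz h3
        have h5 : (y * x) * z = (x * y) * z := by
          calc (y * x) * z = y * (x * z) := by group
            _ = x * z * y := h4
            _ = x * (z * y) := by group
            _ = x * (y * z) := by rw [h2]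
            _ = (x * y) * z := by group
        exact (mul_right_cancel h5).symm
      · exact hc1 x y hx hy hxy
    have hsq : ∀ g : H, g ^ 2 = 1 := by
      intro g
      by_cases hg : g ∈ A
      · have h1 : x₀ * g ∉ A := fun h => hx₀ (by simpa using A.mul_mem h (A.inv_mem hg))
        have h2 := hc2 x₀ (x₀ * g) hx₀ h1
        have h3 := hinv _ h1
        have h4 := hinv _ hx₀
        have h5 : g = x₀ * (x₀ * g) := by rw [← mul_assoc, h4, one_mul]
        rw [pow_two]
        calc g * g = (x₀ * (x₀ * g)) * (x₀ * (x₀ * g)) := by rw [← h5]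
          _ = x₀ * ((x₀ * g) * x₀) * (x₀ * g) := by group
          _ = x₀ * (x₀ * (x₀ * g)) * (x₀ * g) := by rw [← h2]
          _ = (x₀ * x₀) * ((x₀ * g) * (x₀ * g)) := by group
          _ = 1 := by rw [h3, h4, one_mul]
      · exact hD g hg
    have hcomm := comm_of_sq hsq
    obtain ⟨B, hBi⟩ := exists_index_two hsq A hA
    refine ⟨B, Subgroup.normal_of_index_eq_two hBi,
      ⟨⟨fun a b => Subtype.ext (hcomm a.1 b.1)⟩⟩, hBi, ?_, ?_⟩
    · intro x _
      refine ⟨hsq x, fun b _ => ?_⟩
      rw [hcomm x b, mul_assoc, mul_inv_cancel, mul_one]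
      exact eq_inv_of_mul_eq_one_left (by rw [← pow_two]; exact hsq b)
    · intro hnot
      exact absurd ⟨⟨⟨hcomm⟩⟩, hsq⟩ hnot

end Cfsg.Agent.S4420
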