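import Cfsg.Statements.S4480
import Cfsg.Agent.Lib.V4Block.Second
import Cfsg.Agent.Lib.V4Block.Arith

set_option autoImplicit false
open Cfsg

namespace Cfsg.Agent.S4480

/-- Same setting as the Klein-four order formula: G of order 4·g₀ (g₀ odd) with no normal 2-complement, P a Sylow 2-subgroup, J an involution of P, M over 2, principal 2-block {1, χ₁, χ₂, χ₃} with χ_i(J) = ε_i = ±1. Suppose ε₁ε₂ε₃ = −1 and ε₃ = −1, and put q = x₃ = χ₃(1). Then there is a natural number m with 4·c(J) = m·c(P)·(q + 1), and the order of G equals (m³·c(P)/4)·(q³ − q)/2, that is 8·#G = m³·c(P)·(q³ − q). -/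
theorem result {G : Type*} [Group G] [Finite G] (M : Ideal Cfsg.AlgInt) (hM : Cfsg.IsPModular 2 M) (g₀ : ℕ) (hg₀ : Odd g₀) (hG : Nat.card G = 4 * g₀) (hnc : ¬ ∃ N : Subgroup G, N.Normal ∧ Nat.card N = g₀) (P : Sylow 2 G) (J : G) (hJ : J ∈ (P : Subgroup G)) (hJ2 : orderOf J = 2) (χ₁ χ₂ χ₃ : Cfsg.IrrCharacter G) (ε₁ ε₂ ε₃ : ℤ) (hB : Cfsg.principalBlock M G = {χ : Cfsg.IrrCharacter G | (χ : G → ℂ) = (fun _ => 1) ∨ χ = χ₁ ∨ χ = χ₂ ∨ χ = χ₃}) (hdist : (χ₁ : G → ℂ) ≠ (fun _ => 1) ∧ (χ₂ : G → ℂ) ≠ (fun _ => 1) ∧ (χ₃ : G → ℂ) ≠ (fun _ => 1) ∧ χ₁ ≠ χ₂ ∧ χ₁ ≠ χ₃ ∧ χ₂ ≠ χ₃) (hε : (ε₁ = 1 ∨ ε₁ = -1) ∧ (ε₂ = 1 ∨ ε₂ = -1) ∧ (ε₃ = 1 ∨ ε₃ = -1)) (hval : (χ₁ : G → ℂ) J = ε₁ ∧ (χ₂ : G → ℂ) J = ε₂ ∧ (χ₃ : G → ℂ) J = ε₃) (hprod : ε₁ * ε₂ * ε₃ = -1) (hε₃ : ε₃ = -1) : ∃ m : ℕ, 4 * Nat.card (Subgroup.centralizer ({J} : Set G)) = m * Nat.card (Subgroup.centralizer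 ((P : Subgroup G) : Set G)) * (Cfsg.charDegree (χ₃ : G → ℂ) + 1) ∧ 8 * Nat.card G = m ^ 3 * Nat.card (Subgroup.centralizer ((P : Subgroup G) : Set G)) * (Cfsg.charDegree (χ₃ : G → ℂ) ^ 3 - Cfsg.charDegree (χ₃ : G → ℂ)) := by
  classical
  letI := Fintype.ofFinite G
  haveI := Cfsg.Agent.Lib.Char.Ortho.finite_irrCharacter (G := G)
  letI := Fintype.ofFinite (Cfsg.IrrCharacter G)
  have hC := Cfsg.Agent.Lib.V4Block.Ctx.of_no_complement hg₀ hG hnc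
  have h4 : Cfsg.Agent.Lib.V4Block.IsFour M χ₁ χ₂ χ₃ := ⟨hB, hdist⟩
  obtain ⟨hR, hF⟩ := hC.master hM hJ2 P hJ h4 hε hval
  subst hε₃
  have hp₁ := Cfsg.Agent.Lib.Char.Degree.charDegree_pos χ₁.2
  have hp₂ := Cfsg.Agent.Lib.Char.Degree.charDegree_pos χ₂.2
  have hp₃ := Cfsg.Agent.Lib.Char.Degree.charDegree_pos χ₃.2
  have hε12 : ε₁ = 1 ∧ ε₂ = 1 := by
    obtain ⟨h1, h2, -⟩ := hε
    rcases h1 with rfl | rfl <;> rcases h2 with rfl | rfl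
    · exact ⟨rfl, rfl⟩
    · norm_num at hprod
    · norm_num at hprod
    · exfalso
      simp only [mul_neg, mul_one] at hR
      omega
  obtain ⟨rfl, rfl⟩ := hε12
  obtain ⟨hv₁, hv₂, hv₃⟩ := hval
  have hd : ∀ χ : Cfsg.IrrCharacter G, (χ : G → ℂ) 1 = (Cfsg.charDegree (χ : G → ℂ) : ℂ) := fun χ =>
    (Cfsg.Agent.Lib.Char.Degree.charDegree_natCast
      (Cfsg.Agent.Lib.Char.Basic.isCharacter_of_isIrrCharacter χ.2)).symm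
  have ho₁ : Odd (Cfsg.charDegree (χ₁ : G → ℂ)) := by
    obtain ⟨m, hm⟩ := Cfsg.Agent.Lib.V4Block.exists_deg_add_value χ₁ hJ2
    rw [hv₁, hd] at hm
    have : (Cfsg.charDegree (χ₁ : G → ℂ) : ℤ) + 1 = 2 * m := by exact_mod_cast hm
    rw [Nat.odd_iff]
    omega
  have ho₂ : Odd (Cfsg.charDegree (χ₂ : G → ℂ)) := by
    obtain ⟨m, hm⟩ := Cfsg.Agent.Lib.V4Block.exists_deg_add_value χ₂ hJ2
    rw [hv₂, hd] at hm
    have : (Cfsg.charDegree (χ₂ : G → ℂ) : ℤ) + 1 = 2 * m := by exact_mod_cast hm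
    rw [Nat.odd_iff]
    omega
  have ho₃ : Odd (Cfsg.charDegree (χ₃ : G → ℂ)) := by
    obtain ⟨m, hm⟩ := Cfsg.Agent.Lib.V4Block.exists_deg_add_value χ₃ hJ2
    rw [hv₃, hd] at hm
    have : (Cfsg.charDegree (χ₃ : G → ℂ) : ℤ) + (-1) = 2 * m := by exact_mod_cast hm
    rw [Nat.odd_iff]
    omega
  have hv₁' : (χ₁ : G → ℂ) J = 1 := by rw [hv₁]; simp
  have hv₂' : (χ₂ : G → ℂ) J = 1 := by rw [hv₂]; simp
  have hv₃' : (χ₃ : G → ℂ) J = -1 := by rw [hv₃]; simp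
  have heq := hC.degree_eq hM hJ2 h4 hv₁' hv₂' hv₃' ho₁ ho₂ ho₃
  rw [← heq] at hR hF
  have hq : Cfsg.charDegree (χ₃ : G → ℂ) = 1 + 2 * Cfsg.charDegree (χ₁ : G → ℂ) := by
    simp only [mul_neg, mul_one] at hR
    omega
  have hdvd : Nat.card (Subgroup.centralizer ((P : Subgroup G) : Set G)) ∣
      Nat.card (Subgroup.centralizer ({J} : Set G)) := by
    apply Subgroup.card_dvd_of_le
    apply Subgroup.centralizer_le
    intro x hx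
    rw [Set.mem_singleton_iff.mp hx]
    exact hJ
  have hn : Nat.card G = Nat.card (Subgroup.centralizer ({J} : Set G)) *
      (Subgroup.centralizer ({J} : Set G)).index := (Subgroup.card_mul_index _).symm
  refine Cfsg.Agent.Lib.V4Block.arith_main Nat.card_pos Nat.card_pos hn hdvd ho₁ hq ?_
  exact_mod_cast hF

end Cfsg.Agent.S4480
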