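import Cfsg.Statements.S4481
import Cfsg.Agent.Lib.DihBlock.Table
import Cfsg.Agent.Lib.DihBlock.OfIso

set_option autoImplicit false
open Cfsg

namespace Cfsg.Agent.S4481

/-- The principal 2-block of a group with dihedral Sylow 2-subgroups. Let G be a finite group whose Sylow 2-subgroup P is dihedral of order 2^n ≥ 8, let σ be an element of P of order 2^(n−1), ζ a primitive 2^(n−1)-th root of unity, and M a maximal ideal of the algebraic integers containing 2. Then the principal 2-block consists of exactly 3 + 2^(n−2) irreducible characters, which can be labelled 1, χ₁, χ₂, χ₃ and χ^(j) for 1 ≤ j ≤ 2^(n−2) − 1 (all distinct), with signs δ₁, δ₂, δ₃ such that for 0 < λ < 2^(n−1): χ₁(σ^λ) = δ₁, χ₂(σ^λ) = δ₂(−1)^(λ+1), χ₃(σ^λ) = δ₃(−1)^(λ+1) and χ^(j)(σ^λ) = δ₁(ζ^(jλ) + ζ^(−jλ)); and for every element ρ of odd order and every j: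 1 + δ₁χ₁(ρ) = −δ₂χ₂(ρ) − δ₃χ₃(ρ) = δ₁χ^(j)(ρ). -/
theorem result {G : Type*} [Group G] [Finite G] (M : Ideal Cfsg.AlgInt) (hM : Cfsg.IsPModular 2 M) (n : ℕ) (hn : 3 ≤ n) (P : Sylow 2 G) (hP : Nonempty ((P : Subgroup G) ≃* DihedralGroup (2 ^ (n - 1)))) (σ : G) (hσ : σ ∈ (P : Subgroup G)) (hσo : orderOf σ = 2 ^ (n - 1)) (ζ : ℂ) (hζ : IsPrimitiveRoot ζ (2 ^ (n - 1))) : Nat.card (Cfsg.principalBlock M G) = 3 + 2 ^ (n - 2) ∧ ∃ (χ₁ χ₂ χ₃ : Cfsg.IrrCharacter G) (χ' : Fin (2 ^ (n - 2) - 1) → Cfsg.IrrCharacter G) (δ₁ δ₂ δ₃ : ℤ), (δ₁ = 1 ∨ δ₁ = -1) ∧ (δ₂ = 1 ∨ δ₂ = -1) ∧ (δ₃ = 1 ∨ δ₃ = -1) ∧ Function.Injective χ' ∧ (χ₁ : G → ℂ) ≠ (fun _ => 1) ∧ (χ₂ : G → ℂ) ≠ (fun _ => 1) ∧ (χ₃ : G → ℂ) ≠ (fun _ => 1) ∧ χ₁ ≠ χ₂ ∧ χ₁ ≠ χ₃ ∧ χ₂ ≠ χ₃ ∧ (∀ j, χ' j ≠ χ₁ ∧ χ' j ≠ χ₂ ∧ χ' j ≠ χ₃ ∧ (χ' j : G → ℂ) ≠ (fun _ => 1)) ∧ Cfsg.principalBlock M G = {χ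 : Cfsg.IrrCharacter G | (χ : G → ℂ) = (fun _ => 1) ∨ χ = χ₁ ∨ χ = χ₂ ∨ χ = χ₃ ∨ ∃ j, χ = χ' j} ∧ (∀ l : ℕ, 0 < l → l < 2 ^ (n - 1) → (χ₁ : G → ℂ) (σ ^ l) = δ₁ ∧ (χ₂ : G → ℂ) (σ ^ l) = δ₂ * (-1) ^ (l + 1) ∧ (χ₃ : G → ℂ) (σ ^ l) = δ₃ * (-1) ^ (l + 1) ∧ ∀ j : Fin (2 ^ (n - 2) - 1), (χ' j : G → ℂ) (σ ^ l) = δ₁ * (ζ ^ (((j : ℕ) + 1) * l) + (ζ ^ (((j : ℕ) + 1) * l))⁻¹)) ∧ ∀ ρ : G, Odd (orderOf ρ) → ∀ j : Fin (2 ^ (n - 2) - 1), 1 + δ₁ * (χ₁ : G → ℂ) ρ = -δ₂ * (χ₂ : G → ℂ) ρ - δ₃ * (χ₃ : G → ℂ) ρ ∧ 1 + δ₁ * (χ₁ : G → ℂ) ρ = δ₁ * (χ' j : G → ℂ) ρ := by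
  classical
  letI := Fintype.ofFinite G
  haveI := Cfsg.Agent.Lib.Char.Ortho.finite_irrCharacter (G := G)
  letI := Fintype.ofFinite (Cfsg.IrrCharacter G)
  letI : Fintype (Cfsg.Agent.Lib.V4Block.Idx M G) := Fintype.ofFinite _
  haveI := hM.2.1.isPrime
  have hk : 2 ^ (n - 1) = 2 * 2 ^ (n - 2) := by
    rw [show n - 1 = (n - 2) + 1 by omega, pow_succ]
    ring
  have h4 : 2 ≤ 2 ^ (n - 2) := by
    calc 2 = 2 ^ 1 := by norm_num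
      _ ≤ 2 ^ (n - 2) := Nat.pow_le_pow_right (by norm_num) (by omega)
  have hhalf : 2 ^ (n - 1) / 2 = 2 ^ (n - 2) := by
    rw [hk]
    simp
  obtain ⟨τ, hτ⟩ := Cfsg.Agent.Lib.DihBlock.exists_dihCtx_of_iso (N := 2 ^ (n - 1)) (by omega)
    ⟨n - 1, rfl⟩ hP hσ hσo
  obtain ⟨δ, s₂, s₃, r₁, r₂, r₃, p, hT⟩ := hτ.exists_table hM hζ
  have hcast : 2 ^ (n - 2) - 1 = 2 ^ (n - 1) / 2 - 1 := by rw [hhalf]
  refine ⟨?_, r₁.1, r₂.1, r₃.1, fun j => (p (Fin.cast hcast j)).1, δ, -s₂, -s₃, hT.hδ, ?_, ?_, ?_,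
    hT.r₁i, hT.r₂i, hT.r₃i, ?_, ?_, ?_, ?_, ?_, ?_, ?_⟩
  · have h1 : Nat.card (Cfsg.principalBlock M G) = Fintype.card (Cfsg.Agent.Lib.V4Block.Idx M G) :=
      Nat.card_eq_fintype_card
    rw [h1, hT.card, hhalf]
    omega
  · rcases hT.hs₂ with h | h <;> rw [h] <;> norm_num
  · rcases hT.hs₃ with h | h <;> rw [h] <;> norm_num
  · intro a b hab
    have h1 : p (Fin.cast hcast a) = p (Fin.cast hcast b) := Subtype.ext hab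
    have h2 := hT.inj h1
    exact Fin.cast_injective hcast h2
  · exact fun e => hT.r₁₂ (Subtype.ext e)
  · exact fun e => hT.r₁₃ (Subtype.ext e)
  · exact fun e => hT.r₂₃ (Subtype.ext e)
  · intro j
    obtain ⟨h1, h2, h3, h4⟩ := hT.pne (Fin.cast hcast j)
    exact ⟨fun e => h2 (Subtype.ext e), fun e => h3 (Subtype.ext e), fun e => h4 (Subtype.ext e), h1⟩
  · ext χ
    simp only [Set.mem_setOf_eq]
    constructor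
    · intro hχ
      rcases hT.cover ⟨χ, hχ⟩ with e | e | e | e | ⟨a, e⟩
      · exact Or.inl e
      · exact Or.inr (Or.inl (congrArg Subtype.val e))
      · exact Or.inr (Or.inr (Or.inl (congrArg Subtype.val e)))
      · exact Or.inr (Or.inr (Or.inr (Or.inl (congrArg Subtype.val e))))
      · refine Or.inr (Or.inr (Or.inr (Or.inr ⟨Fin.cast hcast.symm a, ?_⟩)))
        exact congrArg Subtype.val e
    · rintro (e | rfl | rfl | rfl | ⟨j, rfl⟩)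
      · have : χ = (Cfsg.Agent.Lib.DihBlock.idxOne M G).1 := Subtype.ext e
        rw [this]
        exact (Cfsg.Agent.Lib.DihBlock.idxOne M G).2
      · exact r₁.2
      · exact r₂.2
      · exact r₃.2
      · exact (p _).2
  · intro l hl hl'
    refine ⟨hT.val₁ l hl hl', ?_, ?_, ?_⟩
    · rw [hT.val₂ l hl hl']
      push_cast
      ring
    · rw [hT.val₃ l hl hl']
      push_cast
      ring
    · intro j
      rw [hT.valp l hl hl']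
      rfl
  · intro ρ hρ j
    have hρ' : ¬ 2 ∣ orderOf ρ := Nat.odd_iff.mp hρ |> fun h => by omega
    have h1 := hT.odd₁ ρ hρ' (Fin.cast hcast j)
    have h2 := hT.odd₂ ρ hρ'
    constructor
    · push_cast
      linear_combination -h2
    · linear_combination -h1

end Cfsg.Agent.S4481
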