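import Cfsg.Statements.S4512
import Cfsg.Agent.Lib.V4Block.Rank

set_option autoImplicit false
open Cfsg

namespace Cfsg.Agent.S4512

/-- If G is a finite group with a Sylow 2-subgroup that is a Klein four-group and a single conjugacy class of involutions, then its principal 2-block (relative to a maximal ideal M of the algebraic integers containing 2) has 2-regular rank 3: the restrictions of its irreducible characters to the elements of odd order span a space of dimension 3 (it has three irreducible Brauer characters). -/
theorem result {G : Type*} [Group G] [Finite G] (M : Ideal Cfsg.AlgInt) (hM : Cfsg.IsPModular 2 M) (P : Sylow 2 G)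
    (hP : Nat.card P = 4) (hexp : ∀ x : P, x * x = 1)
    (hone : ∀ s t : G, orderOf s = 2 → orderOf t = 2 → IsConj s t) :
    Cfsg.blockRank 2 (Cfsg.principalBlock M G) = 3 := by
  classical
  letI := Fintype.ofFinite G
  haveI := Cfsg.Agent.Lib.Char.Ortho.finite_irrCharacter (G := G)
  letI := Fintype.ofFinite (Cfsg.IrrCharacter G)
  have hG := Cfsg.Agent.Lib.V4Block.Ctx.of_sylow P hP hexp hone
  haveI : Nontrivial P := by
    apply Finite.one_lt_card_iff_nontrivial.mp
    rw [hP]
    norm_num
  obtain ⟨x, hx⟩ := exists_ne (1 : P)
  have hx1 : (x : G) ≠ 1 := fun h => hx (Subtype.ext h)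
  have hx2 : (x : G) * x = 1 := congrArg Subtype.val (hexp x)
  have hJ : orderOf (x : G) = 2 := Cfsg.Agent.Lib.V4Block.orderOf_two_of_mul_self hx2 hx1
  have h1 := hG.blockRank_add_one hM hJ
  have h2 := hG.card_block hM hJ
  omega

end Cfsg.Agent.S4512
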