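import Cfsg.Statements.S4517
import Cfsg.Agent.Lib.BlockP.Stable

set_option autoImplicit false
open Cfsg

namespace Cfsg.Agent.S4517

/-- Let G be a finite group, M a maximal ideal of the algebraic integers containing 2, and k a natural number coprime to the order of G with g ^ k = g⁻¹ for every element g of odd order (so that g ↦ g ^ k induces a field automorphism of the character values inverting the roots of unity of odd order). If B is a 2-block of full defect (its defect equals the exponent of 2 in the order of G) that is stable under χ ↦ χ ∘ (· ^ k), then B is the principal 2-block. -/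
theorem result {G : Type*} [Group G] [Finite G] (M : Ideal Cfsg.AlgInt) (hM : Cfsg.IsPModular 2 M) (k : ℕ) (hk : Nat.Coprime k (Nat.card G)) (hk₂ : ∀ g : G, Odd (orderOf g) → g ^ k = g⁻¹) (B : Set (Cfsg.IrrCharacter G)) (hB : Cfsg.IsPBlock M B) (hdef : Cfsg.blockDefect 2 B = (Nat.card G).factorization 2) (hstab : ∀ χ ∈ B, ∃ ψ ∈ B, ∀ g : G, (ψ : G → ℂ) g = (χ : G → ℂ) (g ^ k)) : B = Cfsg.principalBlock M G := by
  classical
  cases nonempty_fintype G
  haveI hprime : M.IsPrime := Cfsg.Agent.Lib.Blocks.Local.isPrime_of_pModular hM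
  have hfinI := Cfsg.Agent.Lib.Char.Ortho.finite_irrCharacter (G := G)
  letI := Fintype.ofFinite (Cfsg.IrrCharacter G)
  obtain ⟨χ₀, hχ₀, hodd⟩ := Cfsg.Agent.Lib.BlockP.Stable.exists_odd_of_blockDefect (M := M)
    (Cfsg.Agent.Lib.Blocks.Central.isPBlock_nonempty hB) hdef
  -- the map on the block
  let e : Cfsg.IrrCharacter G → Cfsg.IrrCharacter G := fun χ =>
    if h : χ ∈ B then (hstab χ h).choose else χ
  have he : ∀ χ ∈ B, e χ ∈ B ∧ ∀ g : G, (e χ : G → ℂ) g = (χ : G → ℂ) (g ^ k) := by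
    intro χ h
    simp only [e, dif_pos h]
    exact (hstab χ h).choose_spec
  have hsurj : Function.Surjective (fun g : G => g ^ k) := by
    have hbij := (powCoprime (G := G) hk.symm).surjective
    intro y
    obtain ⟨x, hx⟩ := hbij y
    exact ⟨x, hx⟩
  have hinj : Set.InjOn e B := by
    intro χ hχ χ' hχ' heq
    apply Subtype.ext
    funext y
    obtain ⟨x, rfl⟩ := hsurj y
    simp only
    rw [← (he χ hχ).2 x, ← (he χ' hχ').2 x, heq]
  have hbij : Set.BijOn e B B :=
    (Set.Finite.injOn_iff_bijOn_of_mapsTo (Set.toFinite B) (fun χ h => (he χ h).1)).mp hinj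
  have hcoeff : ∀ g : G, Cfsg.blockCoeff B (g ^ k) = Cfsg.blockCoeff B g := by
    intro g
    unfold Cfsg.blockCoeff
    congr 1
    apply finsum_mem_eq_of_bijOn e hbij
    intro χ hχ
    rw [(he χ hχ).2 g, (he χ hχ).2 1, one_pow]
  have hinv : ∀ g : G, Odd (orderOf g) → Cfsg.blockCoeff B g⁻¹ = Cfsg.blockCoeff B g := by
    intro g hg
    rw [← hk₂ g hg, hcoeff]
  refine Cfsg.Agent.Lib.BlockP.Stable.eq_principalBlock_of_stable hM hB hinv χ₀ hχ₀ hodd ?_
  intro g hg
  have h1 : Cfsg.SameBlock M (χ₀ : G → ℂ) (e χ₀ : G → ℂ) := by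
    have h2 := (he χ₀ hχ₀).1
    have h3 := Cfsg.Agent.Lib.Blocks.Central.isPBlock_eq_blockOf hB hχ₀
    rw [h3] at h2
    exact h2
  have h2 : Cfsg.centralChar (e χ₀ : G → ℂ) g = Cfsg.centralChar (χ₀ : G → ℂ) g⁻¹ := by
    rw [Cfsg.centralChar, Cfsg.centralChar, (he χ₀ hχ₀).2 g, (he χ₀ hχ₀).2 1, one_pow, hk₂ g hg,
      Cfsg.Agent.Lib.BlockP.Stable.centralizer_inv]
  have h3 := h1 g
  rwa [h2] at h3

end Cfsg.Agent.S4517
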