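import Cfsg.Statements.S4518
import Cfsg.Agent.Lib.GaloisFix.Basic

set_option autoImplicit false
open Cfsg

namespace Cfsg.Agent.S4518

/-- Let N be a normal subgroup of the finite group G whose index is not divisible by the prime p, and let k be coprime to the order of G with k ^ (p ^ e) ≡ 1 modulo the order of G for some e (so g ↦ g ^ k induces a field automorphism of p-power order on character values). If an irreducible character χ of G satisfies χ (g ^ k) = χ g for all g, then every irreducible constituent θ of the restriction of χ to N satisfies θ (n ^ k) = θ n for all n. -/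
theorem result {G : Type*} [Group G] [Fintype G] (p : ℕ) [Fact p.Prime] (N : Subgroup G) [N.Normal] [Fintype N] (hidx : ¬ p ∣ N.index) (k e : ℕ) (hk : Nat.Coprime k (Nat.card G)) (hke : k ^ (p ^ e) ≡ 1 [MOD Nat.card G]) (χ : Cfsg.IrrCharacter G) (hχ : ∀ g : G, (χ : G → ℂ) (g ^ k) = (χ : G → ℂ) g) (θ : Cfsg.IrrCharacter N) (hθ : Cfsg.classInner (fun n : N => (χ : G → ℂ) n) (θ : N → ℂ) ≠ 0) : ∀ n : N, (θ : N → ℂ) (n ^ k) = (θ : N → ℂ) n := by
  exact Cfsg.Agent.Lib.GaloisFix.Basic.constituents_fixed p N hidx k e hk hke χ hχ θ hθ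

end Cfsg.Agent.S4518
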