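import Cfsg.Statements.S4538
import Cfsg.Agent.Lib.SLnBlock.Full
import Cfsg.Agent.Lib.Classical.SLBasic

set_option autoImplicit false
set_option linter.style.haveILetI false
open Cfsg

namespace Cfsg.Agent.S4538

open Cfsg.Agent.Lib.SLnBlock.Sys Cfsg.Agent.Lib.SLnBlock.Zero Cfsg.Agent.Lib.SLnBlock.Full
open Cfsg.Agent.Lib.Blocks.Central

/-- Let F be a finite field of characteristic p and n ≥ 2. Relative to a maximal ideal M of the algebraic integers containing p, the group SL(n, F) has exactly one p-block of defect zero, and every other p-block has full defect (its defect equals the exponent of p in the order of the group, so its defect groups are Sylow p-subgroups). -/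
theorem result {F : Type*} [Field F] [Fintype F] (n : ℕ) (hn : 2 ≤ n) (p : ℕ) [Fact p.Prime] [CharP F p] (M : Ideal Cfsg.AlgInt) (hM : Cfsg.IsPModular p M) : Nat.card {B : Set (Cfsg.IrrCharacter (Matrix.SpecialLinearGroup (Fin n) F)) // Cfsg.IsPBlock M B ∧ Cfsg.blockDefect p B = 0} = 1 ∧ ∀ B : Set (Cfsg.IrrCharacter (Matrix.SpecialLinearGroup (Fin n) F)), Cfsg.IsPBlock M B → Cfsg.blockDefect p B = 0 ∨ Cfsg.blockDefect p B = (Nat.card (Matrix.SpecialLinearGroup (Fin n) F)).factorization p := by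
  classical
  haveI : NeZero n := ⟨by omega⟩
  haveI : Nonempty (Fin n) := ⟨0⟩
  haveI : M.IsPrime := hM.2.1.isPrime
  refine ⟨?_, fun B hB => defect_full p M hM hB⟩
  have hp : p.Prime := Fact.out
  let St' : IrrCharacter (SLn n F) := ⟨St n F, St_irr⟩
  have hSt1 : St n F 1 = ((Fintype.card F ^ n.choose 2 : ℕ) : ℂ) := by
    rw [St, map_one, Cfsg.Agent.Lib.Classical.Flags.St_one]
    push_cast
    rfl
  have hdegSt : charDegree (St' : SLn n F → ℂ) = Fintype.card F ^ n.choose 2 := by
    have h3 := Cfsg.Agent.Lib.Char.Degree.charDegree_natCast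
      (Cfsg.Agent.Lib.Char.Basic.isCharacter_of_isIrrCharacter St'.2)
    have h4 : (St' : SLn n F → ℂ) 1 = ((Fintype.card F ^ n.choose 2 : ℕ) : ℂ) := hSt1
    rw [h4] at h3
    exact_mod_cast h3
  -- the `p`-part of the group order
  have hqdvd : p ∣ Fintype.card F := by
    obtain ⟨f, -, hf⟩ := FiniteField.card F p
    rw [hf]
    exact dvd_pow_self p f.ne_zero
  have hdeg : p ^ (Nat.card (SLn n F)).factorization p ∣ charDegree (St' : SLn n F → ℂ) := by
    rw [hdegSt]
    obtain ⟨m, hm, hGL⟩ := Cfsg.Agent.Lib.Classical.Flags.card_GL_eq (F := F) n p hp hqdvd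
    have h1 := Cfsg.Agent.Lib.Classical.SLBasic.card_gl_eq_mul_card_sl (ι := Fin n) (F := F)
    have h2 : Nat.card (SLn n F) ∣ Fintype.card F ^ n.choose 2 * m := by
      rw [← hGL, h1]
      exact Dvd.intro_left _ rfl
    have h3 : p ^ (Nat.card (SLn n F)).factorization p ∣ Fintype.card F ^ n.choose 2 * m :=
      (Nat.ordProj_dvd _ _).trans h2
    exact (Nat.Coprime.pow_left _ ((Nat.Prime.coprime_iff_not_dvd hp).mpr hm)).dvd_of_dvd_mul_right h3
  have hdeg0 : ∀ χ : IrrCharacter (SLn n F), charDegree (χ : SLn n F → ℂ) ≠ 0 := by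
    intro χ h0
    have h1 := Cfsg.Agent.Lib.Char.Degree.charDegree_natCast (Cfsg.Agent.Lib.Char.Basic.isCharacter_of_isIrrCharacter χ.2)
    rw [h0] at h1
    exact Cfsg.Agent.Lib.Char.Complete.irr_one_ne_zero χ.2 (by rw [← h1]; simp)
  -- uniqueness of the character
  have huniq : ∀ χ : IrrCharacter (SLn n F), p ^ (Nat.card (SLn n F)).factorization p ∣ charDegree (χ : SLn n F → ℂ) → χ = St' := by
    intro χ hχ
    obtain ⟨χ₀, hχ₀⟩ := χ
    obtain ⟨m, ρ, hρ, rfl⟩ := id hχ₀
    haveI : ρ.IsIrreducible := hρ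
    apply Subtype.ext
    apply eq_St ρ p hχ₀
    have h3 := Cfsg.Agent.Lib.Char.Degree.charDegree_natCast
      (Cfsg.Agent.Lib.Char.Basic.isCharacter_of_isIrrCharacter hχ₀)
    have h4 : ρ.character 1 = ((Module.finrank ℂ (Fin m → ℂ) : ℕ) : ℂ) := Representation.char_one ρ
    rw [h4] at h3
    have h5 : charDegree ρ.character = Module.finrank ℂ (Fin m → ℂ) := by exact_mod_cast h3
    rw [← h5]
    exact hχ
  -- the block of the Steinberg character
  have hStB : blockOf M (St' : SLn n F → ℂ) = {St'} := by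
    rw [← Cfsg.Agent.S0914.result p M hM St']
    intro hdvd
    obtain ⟨m, ρ, hρ, hχ⟩ := St'.2
    haveI : ρ.IsIrreducible := hρ
    have h3 : charDegree (St' : SLn n F → ℂ) ∣ Nat.card (SLn n F) := by
      have h4 := Cfsg.Agent.Lib.Char.Central.finrank_dvd_card (ρ := ρ)
      have h5 : (charDegree (St' : SLn n F → ℂ) : ℂ) = (Module.finrank ℂ (Fin m → ℂ) : ℕ) := by
        rw [Cfsg.Agent.Lib.Char.Degree.charDegree_natCast (Cfsg.Agent.Lib.Char.Basic.isCharacter_of_isIrrCharacter St'.2), ← hχ]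
        exact Representation.char_one ρ
      have h6 : charDegree (St' : SLn n F → ℂ) = Module.finrank ℂ (Fin m → ℂ) := by exact_mod_cast h5
      rw [h6]
      exact h4
    obtain ⟨c, hc⟩ := h3
    have hc0 : c ≠ 0 := by
      rintro rfl
      simp at hc
    have h7 : Nat.card (SLn n F) / charDegree (St' : SLn n F → ℂ) = c := by
      rw [hc]
      exact Nat.mul_div_cancel_left _ (Nat.pos_of_ne_zero (hdeg0 St'))
    rw [h7] at hdvd
    have h8 : p ^ ((Nat.card (SLn n F)).factorization p + 1) ∣ Nat.card (SLn n F) := by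
      rw [pow_succ]
      conv_rhs => rw [hc]
      exact mul_dvd_mul hdeg hdvd
    exact Nat.pow_succ_factorization_not_dvd Nat.card_pos.ne' hp h8
  have hStD : blockDefect p (blockOf M (St' : SLn n F → ℂ)) = 0 := by
    rw [hStB, blockDefect, Set.image_singleton, csInf_singleton]
    have := (hp.pow_dvd_iff_le_factorization (hdeg0 St')).mp hdeg
    omega
  rw [Nat.card_eq_one_iff_unique]
  refine ⟨⟨?_⟩, ⟨⟨_, ⟨St', rfl⟩, hStD⟩⟩⟩
  have key : ∀ B : Set (IrrCharacter (SLn n F)), IsPBlock M B → blockDefect p B = 0 → B = blockOf M (St' : SLn n F → ℂ) := by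
    rintro B ⟨χ₀, rfl⟩ h2
    have hmem : χ₀ ∈ blockOf M (χ₀ : SLn n F → ℂ) := mem_blockOf_self χ₀
    have h3 : sInf ((fun χ : IrrCharacter (SLn n F) => (charDegree (χ : SLn n F → ℂ)).factorization p) '' blockOf M (χ₀ : SLn n F → ℂ)) ≤
        (charDegree (χ₀ : SLn n F → ℂ)).factorization p := Nat.sInf_le ⟨χ₀, hmem, rfl⟩
    have h4 : (Nat.card (SLn n F)).factorization p ≤ (charDegree (χ₀ : SLn n F → ℂ)).factorization p := by
      rw [blockDefect] at h2
      omega
    have h5 := (hp.pow_dvd_iff_le_factorization (hdeg0 χ₀)).mpr h4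
    rw [huniq χ₀ h5]
  rintro ⟨B, hB, hB0⟩ ⟨B', hB', hB0'⟩
  apply Subtype.ext
  show B = B'
  rw [key B hB hB0, key B' hB' hB0']

end Cfsg.Agent.S4538
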