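import Cfsg.Statements.S4539
import Cfsg.Agent.Lib.Contrib.RankTwo

set_option linter.style.haveILetI false

set_option autoImplicit false
open Cfsg

namespace Cfsg.Agent.S4539

/-- Let B be a p-block of the finite group G (relative to a maximal ideal M of the algebraic integers containing p) of defect d with defect group D. Let z be an element of D commuting with every element of D, and let b be a block of the centralizer C of z with defect group D that induces B (a major subsection (z, b)). If b has p-regular rank at most two, then B contains at most p ^ d irreducible characters. -/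
theorem result {G : Type*} [Group G] [Finite G] (p : ℕ) [Fact p.Prime] (M : Ideal Cfsg.AlgInt) (hM : Cfsg.IsPModular p M) (B : Set (Cfsg.IrrCharacter G)) (hB : Cfsg.IsPBlock M B) (D : Subgroup G) (hD : Cfsg.IsDefectGroup p M B D) (z : G) (hzD : z ∈ D) (hzc : ∀ d ∈ D, d * z = z * d) (b : Set (Cfsg.IrrCharacter ↥(Subgroup.centralizer ({z} : Set G)))) (hb : Cfsg.IsInducedBlock M (Subgroup.centralizer ({z} : Set G)) b B) (hbD : Cfsg.IsDefectGroup p M b (D.subgroupOf (Subgroup.centralizer ({z} : Set G)))) (hl : Cfsg.blockRank p b ≤ 2) : Nat.card B ≤ p ^ Cfsg.blockDefect p B := by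
  classical
  cases nonempty_fintype G
  haveI := Cfsg.Agent.Lib.Char.Ortho.finite_irrCharacter (G := G)
  letI : Fintype (Cfsg.IrrCharacter G) := Fintype.ofFinite _
  letI : Fintype (Subgroup.centralizer ({z} : Set G)) := Fintype.ofFinite _
  haveI := Cfsg.Agent.Lib.Char.Ortho.finite_irrCharacter (G := Subgroup.centralizer ({z} : Set G))
  letI : Fintype (Cfsg.IrrCharacter (Subgroup.centralizer ({z} : Set G))) := Fintype.ofFinite _
  letI : Fintype B := Fintype.ofFinite _
  haveI hMp := Cfsg.Agent.Lib.Blocks.Local.isPrime_of_pModular hM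
  have hq := Cfsg.Agent.Lib.Contrib.TwoMajor.blockDefect_eq_of_defectGroup hM hB hD hzc hb.1 hbD
  have hDp : IsPGroup p D := Cfsg.Agent.Lib.Blocks.Defect2.isDefectGroup_isPGroup hD
  obtain ⟨k, hk⟩ : ∃ k, orderOf z = p ^ k := by
    obtain ⟨k, hk⟩ := (IsPGroup.iff_orderOf.mp hDp) ⟨z, hzD⟩
    exact ⟨k, by rw [← hk, Subgroup.orderOf_mk]⟩
  rw [Nat.card_eq_fintype_card, ← hq]
  exact Cfsg.Agent.Lib.Contrib.RankTwo.card_le_of_rank_le_two hM hk hB hb hq hl

end Cfsg.Agent.S4539
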