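import Cfsg.Statements.S4540
import Cfsg.Agent.Lib.Contrib.TwoMajor

set_option linter.style.haveILetI false

set_option autoImplicit false
open Cfsg

namespace Cfsg.Agent.S4540

/-- Let B be a 2-block of the finite group G (relative to a maximal ideal M of the algebraic integers containing 2) of defect d with defect group D. Let z be an element of D commuting with every element of D, and let b be a block of the centralizer C of z with defect group D that induces B (a major subsection (z, b)). If b has 2-regular rank at most three, then 3·k(B) ≤ 3·k₀(B) + 2·Σ 2 ^ h(χ), where k(B) is the number of members of B, k₀(B) the number of members of height zero, and the sum runs over the members χ of B of positive height h(χ); this bound is at most 3·2 ^ d, so in particular B contains at most 2 ^ d irreducible characters. -/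
theorem result {G : Type*} [Group G] [Finite G] (M : Ideal Cfsg.AlgInt) (hM : Cfsg.IsPModular 2 M) (B : Set (Cfsg.IrrCharacter G)) (hB : Cfsg.IsPBlock M B) (D : Subgroup G) (hD : Cfsg.IsDefectGroup 2 M B D) (z : G) (hzD : z ∈ D) (hzc : ∀ d ∈ D, d * z = z * d) (b : Set (Cfsg.IrrCharacter ↥(Subgroup.centralizer ({z} : Set G)))) (hb : Cfsg.IsInducedBlock M (Subgroup.centralizer ({z} : Set G)) b B) (hbD : Cfsg.IsDefectGroup 2 M b (D.subgroupOf (Subgroup.centralizer ({z} : Set G)))) (hl : Cfsg.blockRank 2 b ≤ 3) : 3 * Nat.card B ≤ 3 * Nat.card {χ : Cfsg.IrrCharacter G // χ ∈ B ∧ Cfsg.blockHeight 2 B (χ : G → ℂ) = 0} + 2 * (∑ᶠ χ ∈ {χ : Cfsg.IrrCharacter G | χ ∈ B ∧ 1 ≤ Cfsg.blockHeight 2 B (χ : G → ℂ)}, 2 ^ Cfsg.blockHeight 2 B (χ : G → ℂ)) ∧ 3 * Nat.card {χ : Cfsg.IrrCharacter G // χ ∈ B ∧ Cfsg.blockHeight 2 B (χ : G → ℂ) = 0} + 2 * (∑ᶠ χ ∈ {χ : Cfsg.IrrCharacter G | χ ∈ B ∧ 1 ≤ Cfsg.blockHeight 2 B (χ : G → ℂ)}, 2 ^ Cfsg.blockHeight 2 B (χ : G → ℂ)) ≤ 3 * 2 ^ Cfsg.blockDefect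 2 B := by
  classical
  cases nonempty_fintype G
  haveI := Cfsg.Agent.Lib.Char.Ortho.finite_irrCharacter (G := G)
  letI : Fintype (Cfsg.IrrCharacter G) := Fintype.ofFinite _
  letI : Fintype (Subgroup.centralizer ({z} : Set G)) := Fintype.ofFinite _
  haveI := Cfsg.Agent.Lib.Char.Ortho.finite_irrCharacter (G := Subgroup.centralizer ({z} : Set G))
  letI : Fintype (Cfsg.IrrCharacter (Subgroup.centralizer ({z} : Set G))) := Fintype.ofFinite _
  letI : Fintype B := Fintype.ofFinite _
  have hq := Cfsg.Agent.Lib.Contrib.TwoMajor.blockDefect_eq_of_defectGroup hM hB hD hzc hb.1 hbD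
  have hDp : IsPGroup 2 D := Cfsg.Agent.Lib.Blocks.Defect2.isDefectGroup_isPGroup hD
  obtain ⟨k, hk⟩ : ∃ k, orderOf z = 2 ^ k := by
    obtain ⟨k, hk⟩ := (IsPGroup.iff_orderOf.mp hDp) ⟨z, hzD⟩
    exact ⟨k, by rw [← hk, Subgroup.orderOf_mk]⟩
  obtain ⟨t, hodd, hdiv, hsum, hle, hrow, hrow', hlt⟩ :=
    Cfsg.Agent.Lib.Contrib.TwoMajor.two_data hM hk hB hb hq
  rw [Cfsg.Agent.Lib.Contrib.TwoMajor.card_block_eq (B := B)
      (fun χ : Cfsg.IrrCharacter G => Cfsg.blockHeight 2 B (χ : G → ℂ) = 0),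
    Cfsg.Agent.Lib.Contrib.TwoMajor.finsum_block_eq (B := B)
      (fun χ : Cfsg.IrrCharacter G => 1 ≤ Cfsg.blockHeight 2 B (χ : G → ℂ))
      (fun χ : Cfsg.IrrCharacter G => 2 ^ Cfsg.blockHeight 2 B (χ : G → ℂ)),
    ← hq, Nat.card_eq_fintype_card]
  set h : B → ℕ := fun i => Cfsg.blockHeight 2 B ((i : Cfsg.IrrCharacter G) : G → ℂ) with hh
  change 3 * Fintype.card B ≤ 3 * (∑ i : B, if h i = 0 then 1 else 0) +
      2 * (∑ i : B, if 1 ≤ h i then 2 ^ h i else 0) ∧
    3 * (∑ i : B, if h i = 0 then 1 else 0) +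
      2 * (∑ i : B, if 1 ≤ h i then 2 ^ h i else 0) ≤ 3 * 2 ^ Cfsg.blockDefect 2 b
  set P := 2 ^ Cfsg.blockDefect 2 b with hP
  have hcomb : 3 * (∑ i : B, if h i = 0 then 1 else 0) +
      2 * (∑ i : B, if 1 ≤ h i then 2 ^ h i else 0) =
      ∑ i : B, ((3 * if h i = 0 then 1 else 0) + 2 * if 1 ≤ h i then 2 ^ h i else 0) := by
    rw [Finset.mul_sum, Finset.mul_sum, Finset.sum_add_distrib]
  constructor
  · rw [hcomb]
    have h1 : ∑ _i : B, 3 ≤ ∑ i : B, ((3 * if h i = 0 then 1 else 0) + 2 * if 1 ≤ h i then 2 ^ h i else 0) := by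
      refine Finset.sum_le_sum fun i _ => ?_
      by_cases h0 : h i = 0
      · rw [if_pos h0, if_neg (by omega)]
      · rw [if_neg h0, if_pos (by omega)]
        have : 2 ^ 1 ≤ 2 ^ h i := Nat.pow_le_pow_right (by norm_num) (by omega)
        omega
    simpa [mul_comm] using h1
  · rw [hcomb]
    by_cases hex : ∃ i : B, h i = 0 ∧ t i = 1
    · obtain ⟨i, hi, hti⟩ := hex
      have h1 := hrow i hi
      rw [hti, mul_one] at h1
      calc _ ≤ ∑ j : B, 3 * 4 ^ h j := by
            refine Finset.sum_le_sum fun j _ => ?_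
            by_cases h0 : h j = 0
            · rw [if_pos h0, if_neg (by omega), h0]
              norm_num
            · rw [if_neg h0, if_pos (by omega)]
              have : 2 ^ h j ≤ 4 ^ h j := Nat.pow_le_pow_left (by norm_num) _
              omega
        _ = 3 * ∑ j : B, 4 ^ h j := by rw [Finset.mul_sum]
        _ ≤ 3 * P := Nat.mul_le_mul_left _ h1
    · push Not at hex
      calc _ ≤ ∑ i : B, t i := by
            refine Finset.sum_le_sum fun i _ => ?_
            by_cases h0 : h i = 0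
            · rw [if_pos h0, if_neg (by omega)]
              have h1 := hodd i h0
              have h2 := hex i h0
              obtain ⟨a, ha⟩ := h1
              omega
            · rw [if_neg h0, if_pos (by omega)]
              obtain ⟨h2, h4⟩ := hdiv i (Nat.one_le_iff_ne_zero.mpr h0)
              have h5 : 2 ^ (h i + 1) ≤ t i := Nat.le_of_dvd h4 h2
              simp only [mul_zero, zero_add]
              rw [pow_succ] at h5
              omega
        _ = P * Cfsg.blockRank 2 b := hsum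
        _ ≤ P * 3 := Nat.mul_le_mul_left _ hl
        _ = 3 * P := mul_comm _ _

end Cfsg.Agent.S4540
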