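import Cfsg.Statements.S4541
import Cfsg.Agent.Lib.Contrib.Two

set_option linter.style.haveILetI false

set_option autoImplicit false
open Cfsg

namespace Cfsg.Agent.S4541

/-- Let B be a 2-block of the finite group G (relative to a maximal ideal M of the algebraic integers containing 2), u a 2-element, and b a block of the centralizer of u inducing B (a subsection (u, b)), of defect q and 2-regular rank l; write s for the integer square root of l and k₀(B) for the number of members of B of height zero. If s is odd then k₀(B) ≤ s·2 ^ q, and otherwise (s + 1)·k₀(B) ≤ l·2 ^ q; in particular k₀(B) ≤ 2 ^ q when l ≤ 3. -/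
theorem result {G : Type*} [Group G] [Finite G] (M : Ideal Cfsg.AlgInt) (hM : Cfsg.IsPModular 2 M) (B : Set (Cfsg.IrrCharacter G)) (hB : Cfsg.IsPBlock M B) (u : G) (hu : ∃ j : ℕ, orderOf u = 2 ^ j) (b : Set (Cfsg.IrrCharacter ↥(Subgroup.centralizer ({u} : Set G)))) (hb : Cfsg.IsInducedBlock M (Subgroup.centralizer ({u} : Set G)) b B) : (Odd (Nat.sqrt (Cfsg.blockRank 2 b)) → Nat.card {χ : Cfsg.IrrCharacter G // χ ∈ B ∧ Cfsg.blockHeight 2 B (χ : G → ℂ) = 0} ≤ Nat.sqrt (Cfsg.blockRank 2 b) * 2 ^ Cfsg.blockDefect 2 b) ∧ (¬ Odd (Nat.sqrt (Cfsg.blockRank 2 b)) → (Nat.sqrt (Cfsg.blockRank 2 b) + 1) * Nat.card {χ : Cfsg.IrrCharacter G // χ ∈ B ∧ Cfsg.blockHeight 2 B (χ : G → ℂ) = 0} ≤ Cfsg.blockRank 2 b * 2 ^ Cfsg.blockDefect 2 b) ∧ (Cfsg.blockRank 2 b ≤ 3 → Nat.card {χ : Cfsg.IrrCharacter G // χ ∈ B ∧ Cfsg.blockHeight 2 B (χ : G → ℂ) = 0} ≤ 2 ^ Cfsg.blockDefect 2 b) := by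
  classical
  cases nonempty_fintype G
  haveI := Cfsg.Agent.Lib.Char.Ortho.finite_irrCharacter (G := G)
  letI : Fintype (Cfsg.IrrCharacter G) := Fintype.ofFinite _
  letI : Fintype (Subgroup.centralizer ({u} : Set G)) := Fintype.ofFinite _
  haveI := Cfsg.Agent.Lib.Char.Ortho.finite_irrCharacter (G := Subgroup.centralizer ({u} : Set G))
  letI : Fintype (Cfsg.IrrCharacter (Subgroup.centralizer ({u} : Set G))) := Fintype.ofFinite _
  letI : Fintype B := Fintype.ofFinite _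
  obtain ⟨k, hk⟩ := hu
  set Z : Finset B := Finset.univ.filter
    (fun i : B => Cfsg.blockHeight 2 B ((i : Cfsg.IrrCharacter G) : G → ℂ) = 0) with hZ
  have hcard : Nat.card {χ : Cfsg.IrrCharacter G // χ ∈ B ∧ Cfsg.blockHeight 2 B (χ : G → ℂ) = 0} = Z.card := by
    rw [hZ, ← Fintype.card_subtype, ← Nat.card_eq_fintype_card]
    refine Nat.card_congr ⟨fun χ => ⟨⟨χ.1, χ.2.1⟩, χ.2.2⟩, fun i => ⟨i.1.1, i.1.2, i.2⟩, fun _ => rfl, fun _ => rfl⟩
  rw [hcard]
  set l := Cfsg.blockRank 2 b with hl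
  set P := 2 ^ Cfsg.blockDefect 2 b with hP
  have key : (Odd (Nat.sqrt l) → Z.card ≤ Nat.sqrt l * P) ∧
      (¬ Odd (Nat.sqrt l) → (Nat.sqrt l + 1) * Z.card ≤ l * P) := by
    by_cases hne : Z.Nonempty
    · obtain ⟨j₀, hj, h1, h2⟩ := Cfsg.Agent.Lib.Contrib.Two.core hM hk hB hb Z
        (fun i hi => (Finset.mem_filter.mp hi).2) hne
      exact Cfsg.Agent.Lib.Contrib.Cyc.arith_bound hj h1 h2
    · rw [Finset.not_nonempty_iff_eq_empty] at hne
      simp [hne]
  refine ⟨key.1, key.2, fun h3 => ?_⟩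
  have hs1 : Nat.sqrt l * Nat.sqrt l ≤ l := Nat.sqrt_le l
  have hs2 : l < (Nat.sqrt l + 1) * (Nat.sqrt l + 1) := Nat.lt_succ_sqrt l
  have hs3 : Nat.sqrt l ≤ 1 := by
    by_contra hc
    push Not at hc
    nlinarith
  by_cases ho : Odd (Nat.sqrt l)
  · have h4 := key.1 ho
    have h5 : Nat.sqrt l * P ≤ 1 * P := Nat.mul_le_mul_right _ hs3
    omega
  · have h4 := key.2 ho
    have h5 : Nat.sqrt l = 0 := by
      by_contra hc
      apply ho
      have : Nat.sqrt l = 1 := by omega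
      rw [this]
      exact odd_one
    rw [h5] at h4 hs2
    have h6 : l = 0 := by omega
    rw [h6] at h4
    have h7 : Z.card = 0 := by simpa using h4
    rw [h7]
    exact Nat.zero_le _

end Cfsg.Agent.S4541
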