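import Cfsg.Statements.S4550
import Cfsg.Agent.Lib.Blk89.PrinBlock
import Cfsg.Agent.Lib.BlockP.RegPair
import Cfsg.Agent.Lib.Blocks.Third
import Cfsg.Agent.Lib.Char.Ortho

set_option autoImplicit false
open Cfsg

namespace Cfsg.Agent.S4550

/-- Let G be a finite group of even order and M a maximal ideal of the algebraic integers containing 2. Let k be a natural number with g ^ k = g ^ 3 for every 2-element g and g ^ k = g for every element g of odd order (such k exist); an irreducible character χ is unchanged by g ↦ g ^ k exactly when it is fixed by the field automorphism that cubes the 2-power roots of unity and fixes the roots of unity of odd order. Then the number of members χ of the principal 2-block of odd degree with χ (g ^ k) = χ g for all g is even. -/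
theorem result {G : Type*} [Group G] [Finite G] (M : Ideal Cfsg.AlgInt) (hM : Cfsg.IsPModular 2 M) (hev : Even (Nat.card G)) (k : ℕ) (hk₁ : ∀ g : G, (∃ j : ℕ, orderOf g = 2 ^ j) → g ^ k = g ^ 3) (hk₂ : ∀ g : G, Odd (orderOf g) → g ^ k = g) : Even (Nat.card {χ : Cfsg.IrrCharacter G // χ ∈ Cfsg.principalBlock M G ∧ Odd (Cfsg.charDegree (χ : G → ℂ)) ∧ ∀ g : G, (χ : G → ℂ) (g ^ k) = (χ : G → ℂ) g}) := by
  classical
  haveI := Fintype.ofFinite G
  letI : Fintype (Cfsg.IrrCharacter G) := @Fintype.ofFinite _ (Cfsg.Agent.Lib.Char.Ortho.finite_irrCharacter (G := G))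
  haveI : Fact (Nat.Prime 2) := ⟨Nat.prime_two⟩
  have hcard : 2 ∣ Nat.card G := hev.two_dvd
  -- coprimality of k
  have hk : k.Coprime (Nat.card G) := by
    refine Nat.coprime_of_dvd fun q hq hqk hqG => ?_
    obtain ⟨g, hg⟩ := @exists_prime_orderOf_dvd_card' G _ _ q ⟨hq⟩ hqG
    have hg1 : g ^ k = 1 := by
      obtain ⟨t, rfl⟩ := hqk
      rw [pow_mul, ← hg, pow_orderOf_eq_one, one_pow]
    have hgne : g ≠ 1 := by
      rintro rfl
      rw [orderOf_one] at hg
      exact hq.one_lt.ne hg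
    rcases hq.eq_two_or_odd' with rfl | hodd
    · have h3 := hk₁ g ⟨1, by simpa using hg⟩
      rw [hg1] at h3
      have h2 : g ^ 2 = 1 := by rw [← hg]; exact pow_orderOf_eq_one g
      rw [pow_succ, h2, one_mul] at h3
      exact hgne h3.symm
    · have h3 := hk₂ g (by rw [hg]; exact hodd)
      rw [hg1] at h3
      exact hgne h3.symm
  -- 2-power order of the permutation
  have hpow : ∀ g : G, g ^ (k ^ (2 ^ Nat.card G)) = g := by
    intro g
    have hN : orderOf g ≠ 0 := (orderOf_pos g).ne'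
    obtain ⟨a, m, hm, hord⟩ := Nat.exists_eq_two_pow_mul_odd hN
    have hm0 : 0 < m := hm.pos
    have hcop : Nat.Coprime (2 ^ a) m := Nat.Coprime.pow_left _ (Nat.coprime_two_left.mpr hm)
    have h2 : k ≡ 3 [MOD 2 ^ a] := by
      have hord1 : orderOf (g ^ m) = 2 ^ a := by
        rw [orderOf_pow_of_dvd hm0.ne' ⟨2 ^ a, by rw [hord, mul_comm]⟩, hord, Nat.mul_div_cancel _ hm0]
      have := hk₁ (g ^ m) ⟨a, hord1⟩
      have h4 := pow_eq_pow_iff_modEq.mp this
      rwa [hord1] at h4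
    have h1 : k ≡ 1 [MOD m] := by
      have hord1 : orderOf (g ^ (2 ^ a)) = m := by
        rw [orderOf_pow_of_dvd (pow_ne_zero _ two_ne_zero) ⟨m, hord⟩, hord,
          Nat.mul_div_cancel_left _ (by positivity)]
      have := hk₂ (g ^ (2 ^ a)) (by rw [hord1]; exact hm)
      have h4 : (g ^ (2 ^ a)) ^ k = (g ^ (2 ^ a)) ^ 1 := by rw [this, pow_one]
      have h5 := pow_eq_pow_iff_modEq.mp h4
      rwa [hord1] at h5
    have hle : a ≤ Nat.card G := by
      have h3 : orderOf g ≤ Nat.card G := orderOf_le_card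
      have h4 : a < 2 ^ a := Nat.lt_two_pow_self
      have h5 : 2 ^ a ≤ orderOf g := by
        rw [hord]; exact Nat.le_mul_of_pos_right _ hm0
      omega
    have htot : Nat.totient (2 ^ a) ∣ 2 ^ Nat.card G := by
      refine dvd_trans ?_ (pow_dvd_pow 2 hle)
      cases a with
      | zero => simp
      | succ b =>
        rw [Nat.totient_prime_pow_succ Nat.prime_two]
        simp only [Nat.add_one_sub_one, mul_one]
        exact pow_dvd_pow 2 (Nat.le_succ b)
    have h3 : 3 ^ (2 ^ Nat.card G) ≡ 1 [MOD 2 ^ a] := by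
      obtain ⟨c, hc⟩ := htot
      rw [hc, pow_mul]
      have h5 : (3 : ℕ).Coprime (2 ^ a) := Nat.Coprime.pow_right _ (by norm_num)
      have h6 := (Nat.ModEq.pow_totient h5).pow c
      rwa [one_pow] at h6
    have h4 : k ^ (2 ^ Nat.card G) ≡ 1 [MOD 2 ^ a] := (h2.pow _).trans h3
    have h5 : k ^ (2 ^ Nat.card G) ≡ 1 [MOD m] := by
      have := h1.pow (2 ^ Nat.card G)
      rwa [one_pow] at this
    have h6 : k ^ (2 ^ Nat.card G) ≡ 1 [MOD orderOf g] := by
      rw [hord]
      exact (Nat.modEq_and_modEq_iff_modEq_mul hcop).mp ⟨h4, h5⟩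
    have h7 := pow_eq_pow_iff_modEq.mpr h6
    rwa [pow_one] at h7
  -- the permutation
  let S : Type _ := {χ : Cfsg.IrrCharacter G // χ ∈ Cfsg.principalBlock M G ∧ Odd (Cfsg.charDegree (χ : G → ℂ))}
  have hdeg : ∀ χ : Cfsg.IrrCharacter G,
      Cfsg.charDegree ((Cfsg.Agent.Lib.Blk89.PrinBlock.powI hk χ : Cfsg.IrrCharacter G) : G → ℂ)
        = Cfsg.charDegree (χ : G → ℂ) := by
    intro χ
    simp only [Cfsg.charDegree, Cfsg.Agent.Lib.Blk89.PrinBlock.powI_apply, one_pow]
  let f : Function.End S := fun χ =>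
    ⟨Cfsg.Agent.Lib.Blk89.PrinBlock.powI hk χ.1,
      Cfsg.Agent.Lib.Blk89.PrinBlock.powI_mem_principal hk χ.2.1, by rw [hdeg]; exact χ.2.2⟩
  have hfpow : ∀ (n : ℕ) (χ : S) (g : G), (((f ^ n) χ).1 : G → ℂ) g = (χ.1 : G → ℂ) (g ^ (k ^ n)) := by
    intro n
    induction n with
    | zero => intro χ g; simp; rfl
    | succ n ih =>
      intro χ g
      rw [pow_succ', Function.End.mul_def]
      show ((Cfsg.Agent.Lib.Blk89.PrinBlock.powI hk ((f ^ n) χ).1 : Cfsg.IrrCharacter G) : G → ℂ) g = _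
      rw [Cfsg.Agent.Lib.Blk89.PrinBlock.powI_apply, ih, ← pow_mul, pow_succ']
  have hf1 : f ^ 2 ^ Nat.card G = 1 := by
    funext χ
    apply Subtype.ext
    apply Subtype.ext
    funext g
    rw [hfpow, hpow]
    rfl
  letI : Fintype S := Fintype.ofFinite _
  have hmod := Equiv.Perm.card_fixedPoints_modEq (p := 2) hf1
  -- fixed points are the target
  have hfix : Nat.card {χ : Cfsg.IrrCharacter G // χ ∈ Cfsg.principalBlock M G ∧ Odd (Cfsg.charDegree (χ : G → ℂ)) ∧ ∀ g : G, (χ : G → ℂ) (g ^ k) = (χ : G → ℂ) g} = Nat.card f.fixedPoints := by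
    refine Nat.card_congr ⟨fun χ => ⟨⟨χ.1, χ.2.1, χ.2.2.1⟩, ?_⟩, fun χ => ⟨χ.1.1, χ.1.2.1, χ.1.2.2, ?_⟩, ?_, ?_⟩
    · apply Subtype.ext
      apply Subtype.ext
      funext g
      exact χ.2.2.2 g
    · intro g
      have h := congrArg (fun x : S => (x.1 : G → ℂ) g) χ.2
      exact h
    · intro χ; rfl
    · intro χ; rfl
  rw [hfix]
  -- parity of |S|
  have hB := Cfsg.Agent.Lib.Blocks.Third.isPBlock_principal (G := G) M
  have hfac := Cfsg.Agent.Lib.BlockP.RegPair.factorization_sum_sq hM hB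
  have hcardne : Nat.card G ≠ 0 := Nat.card_pos.ne'
  have hv : 1 ≤ (Nat.card G).factorization 2 :=
    (Nat.Prime.dvd_iff_one_le_factorization Nat.prime_two hcardne).mp hcard
  have hdef : Cfsg.blockDefect 2 (Cfsg.principalBlock M G) ≤ (Nat.card G).factorization 2 := by
    unfold Cfsg.blockDefect; omega
  have hdvd : 2 ∣ ∑ᶠ χ ∈ Cfsg.principalBlock M G, Cfsg.charDegree (χ : G → ℂ) ^ 2 :=
    Nat.dvd_of_factorization_pos (by rw [hfac]; omega)
  letI : Fintype (Cfsg.principalBlock M G : Set (Cfsg.IrrCharacter G)) := Fintype.ofFinite _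
  rw [finsum_mem_eq_toFinset_sum (fun χ : Cfsg.IrrCharacter G => Cfsg.charDegree (χ : G → ℂ) ^ 2) (Cfsg.principalBlock M G)] at hdvd
  have hz : ((∑ χ ∈ (Cfsg.principalBlock M G).toFinset, (fun χ : Cfsg.IrrCharacter G => Cfsg.charDegree (χ : G → ℂ) ^ 2) χ : ℕ) : ZMod 2)
      = ((((Cfsg.principalBlock M G).toFinset.filter (fun χ : Cfsg.IrrCharacter G => Odd (Cfsg.charDegree (χ : G → ℂ)))).card : ℕ) : ZMod 2) := by
    rw [Finset.card_filter]
    push_cast
    refine Finset.sum_congr rfl fun χ _ => ?_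
    by_cases h : Odd (Cfsg.charDegree (χ : G → ℂ))
    · rw [if_pos h, ZMod.natCast_eq_one_iff_odd.mpr h]; norm_num
    · rw [if_neg h, ZMod.natCast_eq_zero_iff_even.mpr (Nat.not_odd_iff_even.mp h)]; norm_num
  have hS : Fintype.card S = ((Cfsg.principalBlock M G).toFinset.filter (fun χ : Cfsg.IrrCharacter G => Odd (Cfsg.charDegree (χ : G → ℂ)))).card := by
    rw [Fintype.card_subtype]
    refine congrArg Finset.card ?_
    ext χ
    simp only [Finset.mem_filter, Finset.mem_univ, true_and, Set.mem_toFinset]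
  have h0 : (((Fintype.card S : ℕ)) : ZMod 2) = 0 := by
    rw [hS, ← hz, (ZMod.natCast_eq_zero_iff _ 2).mpr hdvd]
  have hS2 : 2 ∣ Fintype.card S := (ZMod.natCast_eq_zero_iff _ 2).mp h0
  have hfin := (hmod.dvd_iff (dvd_refl 2)).mp hS2
  rw [← Nat.card_eq_fintype_card] at hfin
  exact even_iff_two_dvd.mpr hfin

end Cfsg.Agent.S4550
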