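import Cfsg.Statements.S4551
import Cfsg.Agent.Lib.AlperinDade.Main

set_option autoImplicit false
open Cfsg

namespace Cfsg.Agent.S4551



/-- Let N be a normal subgroup of the finite group G of index prime to p, P a Sylow p-subgroup of G with G = N·C_G(P), and M a maximal ideal of the algebraic integers containing p. Then restriction to N is a bijection from the principal p-block of G onto the principal p-block of N: every member of the principal block of G restricts to a member of the principal block of N, and every member of the principal block of N is the restriction of exactly one member of the principal block of G. -/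
theorem result {G : Type*} [Group G] [Finite G] (p : ℕ) [Fact p.Prime] (M : Ideal Cfsg.AlgInt) (hM : Cfsg.IsPModular p M) (N : Subgroup G) [N.Normal] (hidx : ¬ p ∣ N.index) (P : Sylow p G) (hsup : N ⊔ Subgroup.centralizer ((P : Subgroup G) : Set G) = ⊤) : (∀ χ ∈ Cfsg.principalBlock M G, ∃ θ ∈ Cfsg.principalBlock M ↥N, ∀ n : N, (χ : G → ℂ) n = (θ : N → ℂ) n) ∧ ∀ θ ∈ Cfsg.principalBlock M ↥N, ∃! χ : Cfsg.IrrCharacter G, χ ∈ Cfsg.principalBlock M G ∧ ∀ n : N, (χ : G → ℂ) n = (θ : N → ℂ) n := by
  classical
  letI : Fintype G := Fintype.ofFinite G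
  have hle : (P : Subgroup G) ≤ N := by
    intro x hx
    obtain ⟨k, hk⟩ := P.isPGroup' ⟨x, hx⟩
    have hk' : x ^ p ^ k = 1 := congrArg Subtype.val hk
    rw [← QuotientGroup.eq_one_iff]
    have h1 : ((x : G) : G ⧸ N) ^ p ^ k = 1 := by
      rw [← QuotientGroup.mk_pow, hk', QuotientGroup.mk_one]
    have h2 : ((x : G) : G ⧸ N) ^ Nat.card (G ⧸ N) = 1 := pow_card_eq_one'
    have h3 := pow_gcd_eq_one.mpr ⟨h1, h2⟩
    have hcop : Nat.gcd (p ^ k) (Nat.card (G ⧸ N)) = 1 := by
      apply Nat.Coprime.pow_left
      rw [Nat.Prime.coprime_iff_not_dvd Fact.out, ← Subgroup.index_eq_card]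
      exact hidx
    rwa [hcop, pow_one] at h3
  have hP : ¬ p ∣ (P : Subgroup G).index := P.not_dvd_index
  exact Cfsg.Agent.Lib.AlperinDade.Main.main_res hM _ G N P rfl hle hP hsup

end Cfsg.Agent.S4551
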