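import Cfsg.Statements.S4566
import Cfsg.Agent.Lib.Char.Central

set_option autoImplicit false
open Cfsg

namespace Cfsg.Agent.S4566

open scoped ComplexConjugate

/-- Let N be a central subgroup of the finite group G, ψ a faithful irreducible (hence degree-one) character of N, and χ an irreducible character of G whose restriction to N contains ψ. If g ∈ G and some x ∈ G has commutator x⁻¹ g⁻¹ x g in N but different from 1, then χ g = 0. -/
theorem result {G : Type*} [Group G] [Fintype G] (N : Subgroup G) [Fintype N] (hN : N ≤ Subgroup.center G) (ψ : Cfsg.IrrCharacter ↥N) (hfaith : ∀ n : ↥N, (ψ : ↥N → ℂ) n = (ψ : ↥N → ℂ) 1 → n = 1) (χ : Cfsg.IrrCharacter G) (hover : Cfsg.classInner (fun n : ↥N => (χ : G → ℂ) n) (ψ : ↥N → ℂ) ≠ 0) (g x : G) (hcomm : x⁻¹ * g⁻¹ * x * g ∈ N) (hne : x⁻¹ * g⁻¹ * x * g ≠ 1) : (χ : G → ℂ) g = 0 := by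
  classical
  obtain ⟨χf, n, ρ, hρ, hχρ⟩ := χ
  obtain ⟨ψf, m, σ, hσ, hψσ⟩ := ψ
  simp only at hover hfaith ⊢
  subst hχρ hψσ
  haveI := hρ
  haveI := hσ
  by_contra hne0
  set z : G := x⁻¹ * g⁻¹ * x * g with hz
  have hzN : z ∈ N := hcomm
  have hzC : z ∈ Subgroup.center G := hN hzN
  obtain ⟨c, hc⟩ := Cfsg.Agent.Lib.Char.Central.center_acts_scalar ρ z hzC
  -- `x⁻¹ g x = g z⁻¹`
  have hconj : x⁻¹ * g * x = g * z⁻¹ := by
    have : z⁻¹ = g⁻¹ * x⁻¹ * g * x := by rw [hz]; group
    rw [this]; group
  have hconj' : ρ.character (g * z⁻¹) = ρ.character g := by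
    rw [← hconj]
    have := Representation.char_conj ρ g x⁻¹
    simpa using this
  have hg : ρ.character g = c * ρ.character (g * z⁻¹) := by
    have h1 : ρ g = c • ρ (g * z⁻¹) := by
      have h2 : ρ g = ρ (g * z⁻¹) * ρ z := by rw [← map_mul]; group
      rw [h2, hc]; simp
    simp only [Representation.character]
    rw [h1, map_smul, smul_eq_mul]
  rw [hconj'] at hg
  have hc1 : c = 1 := by
    have : (c - 1) * ρ.character g = 0 := by linear_combination -hg
    rcases mul_eq_zero.mp this with h | h
    · linear_combination h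
    · exact absurd h hne0
  have hρz : ρ z = 1 := by rw [hc, hc1, one_smul]
  -- now the representation `σ`
  let z' : ↥N := ⟨z, hzN⟩
  have hz'C : z' ∈ Subgroup.center ↥N := by
    rw [Subgroup.mem_center_iff]
    intro a
    apply Subtype.ext
    exact (Subgroup.mem_center_iff.mp hzC (a : G))
  obtain ⟨c', hc'⟩ := Cfsg.Agent.Lib.Char.Central.center_acts_scalar σ z' hz'C
  set S : ℂ := ∑ n : ↥N, ρ.character (n : G) * conj (σ.character n) with hS
  have hSne : S ≠ 0 := by
    intro h0
    apply hover
    simp only [Cfsg.classInner]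
    rw [← hS, h0, mul_zero]
  have hSeq : S = conj c' * S := by
    have h1 : S = ∑ n : ↥N, ρ.character ((n * z' : ↥N) : G) * conj (σ.character (n * z')) :=
      (Equiv.sum_comp (Equiv.mulRight z') _).symm
    refine h1.trans ?_
    rw [hS, Finset.mul_sum]
    refine Finset.sum_congr rfl fun n _ => ?_
    have h2 : ρ ((n * z' : ↥N) : G) = ρ (n : G) := by
      change ρ ((n : G) * z) = _
      rw [map_mul, hρz, mul_one]
    have h3 : σ.character (n * z') = c' * σ.character n := by
      simp only [Representation.character]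
      rw [map_mul, hc']
      simp
    have h2' : ρ.character ((n * z' : ↥N) : G) = ρ.character (n : G) := by
      simp only [Representation.character]
      rw [h2]
    rw [h3, map_mul, h2']
    ring
  have hc'1 : conj c' = 1 := by
    have : (conj c' - 1) * S = 0 := by linear_combination -hSeq
    rcases mul_eq_zero.mp this with h | h
    · linear_combination h
    · exact absurd h hSne
  have hc'2 : c' = 1 := by
    have := congrArg conj hc'1
    simpa using this
  have hσz : σ.character z' = σ.character 1 := by
    have h5 : σ z' = σ 1 := by rw [hc', hc'2, one_smul, σ.map_one]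
    simp only [Representation.character]
    rw [h5]
  have := hfaith z' hσz
  apply hne
  have h4 := congrArg (Subtype.val) this
  simpa [z'] using h4

end Cfsg.Agent.S4566
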