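import Cfsg.Statements.S4571
import Cfsg.Agent.Lib.Blocks.DomRank

set_option autoImplicit false
open Cfsg

namespace Cfsg.Agent.S4571

/-- Let Q be a normal p-subgroup of the finite group G with G = Q·C_G(Q), and M a maximal ideal of the algebraic integers containing p. Then the principal p-blocks of G and of G/Q have the same p-regular rank (the same number of irreducible Brauer characters). -/
theorem result {G : Type*} [Group G] [Finite G] (p : ℕ) [Fact p.Prime] (M : Ideal Cfsg.AlgInt) (hM : Cfsg.IsPModular p M) (Q : Subgroup G) [Q.Normal] (hQ : IsPGroup p Q) (hsup : Q ⊔ Subgroup.centralizer (Q : Set G) = ⊤) : Cfsg.blockRank p (Cfsg.principalBlock M G) = Cfsg.blockRank p (Cfsg.principalBlock M (G ⧸ Q)) := by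
  classical
  cases nonempty_fintype G
  letI : Fintype (G ⧸ Q) := Fintype.ofFinite _
  haveI := Cfsg.Agent.Lib.Char.Ortho.finite_irrCharacter (G := G)
  letI := Fintype.ofFinite (Cfsg.IrrCharacter G)
  haveI := Cfsg.Agent.Lib.Char.Ortho.finite_irrCharacter (G := G ⧸ Q)
  letI := Fintype.ofFinite (Cfsg.IrrCharacter (G ⧸ Q))
  have hker : (QuotientGroup.mk' Q).ker = Q := QuotientGroup.ker_mk' Q
  refine Cfsg.Agent.Lib.Blocks.DomRank.blockRank_eq (QuotientGroup.mk' Q)
    (QuotientGroup.mk'_surjective Q) (by rw [hker]; exact hQ) ?_ hM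
  intro s hs q hq
  rw [hker] at hq
  have hsQ : s ∈ Q ⊔ Subgroup.centralizer (Q : Set G) := by rw [hsup]; trivial
  have hmem : s ∈ (↑(Q ⊔ Subgroup.centralizer (Q : Set G)) : Set G) := hsQ
  rw [Subgroup.normal_mul] at hmem
  obtain ⟨a, ha, c, hc, rfl⟩ := Set.mem_mul.mp hmem
  have hcomm : Commute a c := (Subgroup.mem_centralizer_iff.mp hc a ha)
  obtain ⟨n, hn⟩ := hQ ⟨a, ha⟩
  have hn' : a ^ (p ^ n) = 1 := by
    have := congrArg Subtype.val hn
    simpa using this
  have hcop : Nat.Coprime (p ^ n) (orderOf (a * c)) :=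
    Nat.Coprime.pow_left _ ((Nat.Prime.coprime_iff_not_dvd (Fact.out)).mpr hs)
  obtain ⟨m, hm⟩ := exists_pow_eq_self_of_coprime hcop
  have h1 : (a * c) ^ (p ^ n) = c ^ (p ^ n) := by
    rw [hcomm.mul_pow, hn', one_mul]
  rw [h1] at hm
  have hmem' : a * c ∈ Subgroup.centralizer (Q : Set G) := by
    rw [← hm]
    exact Subgroup.pow_mem _ (Subgroup.pow_mem _ hc _) _
  exact (Subgroup.mem_centralizer_iff.mp hmem' q hq)

end Cfsg.Agent.S4571
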