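import Cfsg.Statements.S4575
import Cfsg.Agent.Lib.Contrib.TwoMajor

set_option linter.style.haveILetI false

set_option autoImplicit false
open Cfsg

namespace Cfsg.Agent.S4575

/-- Let B be a 2-block of the finite group G (relative to a maximal ideal M of the algebraic integers containing 2) of defect d with defect group D. Let z be an element of D commuting with every element of D, and let b be a block of the centralizer of z with defect group D that induces B (a major subsection (z, b)). If the number of irreducible characters in B exceeds the 2-regular rank of b by at most three, then B contains at most 2 ^ d irreducible characters. -/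
theorem result {G : Type*} [Group G] [Finite G] (M : Ideal Cfsg.AlgInt) (hM : Cfsg.IsPModular 2 M) (B : Set (Cfsg.IrrCharacter G)) (hB : Cfsg.IsPBlock M B) (D : Subgroup G) (hD : Cfsg.IsDefectGroup 2 M B D) (z : G) (hzD : z ∈ D) (hzc : ∀ d ∈ D, d * z = z * d) (b : Set (Cfsg.IrrCharacter ↥(Subgroup.centralizer ({z} : Set G)))) (hb : Cfsg.IsInducedBlock M (Subgroup.centralizer ({z} : Set G)) b B) (hbD : Cfsg.IsDefectGroup 2 M b (D.subgroupOf (Subgroup.centralizer ({z} : Set G)))) (h : Nat.card B ≤ Cfsg.blockRank 2 b + 3) : Nat.card B ≤ 2 ^ Cfsg.blockDefect 2 B := by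
  rename' h => h_1
  classical
  cases nonempty_fintype G
  haveI := Cfsg.Agent.Lib.Char.Ortho.finite_irrCharacter (G := G)
  letI : Fintype (Cfsg.IrrCharacter G) := Fintype.ofFinite _
  letI : Fintype (Subgroup.centralizer ({z} : Set G)) := Fintype.ofFinite _
  haveI := Cfsg.Agent.Lib.Char.Ortho.finite_irrCharacter (G := Subgroup.centralizer ({z} : Set G))
  letI : Fintype (Cfsg.IrrCharacter (Subgroup.centralizer ({z} : Set G))) := Fintype.ofFinite _
  letI : Fintype B := Fintype.ofFinite _
  have hq := Cfsg.Agent.Lib.Contrib.TwoMajor.blockDefect_eq_of_defectGroup hM hB hD hzc hb.1 hbD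
  have hDp : IsPGroup 2 D := Cfsg.Agent.Lib.Blocks.Defect2.isDefectGroup_isPGroup hD
  obtain ⟨k, hk⟩ : ∃ k, orderOf z = 2 ^ k := by
    obtain ⟨k, hk⟩ := (IsPGroup.iff_orderOf.mp hDp) ⟨z, hzD⟩
    exact ⟨k, by rw [← hk, Subgroup.orderOf_mk]⟩
  obtain ⟨t, hodd, hdiv, hsum, hle, hrow, hrow', hlt⟩ :=
    Cfsg.Agent.Lib.Contrib.TwoMajor.two_data hM hk hB hb hq
  rw [← hq]
  set h : B → ℕ := fun i => Cfsg.blockHeight 2 B ((i : Cfsg.IrrCharacter G) : G → ℂ) with hh
  rw [Nat.card_eq_fintype_card]
  rw [Nat.card_eq_fintype_card] at h_1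
  set P := 2 ^ Cfsg.blockDefect 2 b with hP
  set l := Cfsg.blockRank 2 b with hl
  by_cases hex : ∃ i : B, h i = 0 ∧ t i = 1
  · obtain ⟨i, hi, hti⟩ := hex
    have h1 := hrow i hi
    rw [hti, mul_one] at h1
    refine le_trans ?_ h1
    have h2 : ∑ _j : B, 1 ≤ ∑ j : B, 4 ^ h j := Finset.sum_le_sum fun j _ => Nat.one_le_pow _ _ (by norm_num)
    simpa using h2
  by_cases hex' : ∃ i : B, h i = 0 ∧ t i + 1 = P
  · obtain ⟨i, hi, hti⟩ := hex'
    exact hrow' i hi hti
  push Not at hex hex'
  have h3 : ∀ i, t i + 3 ≤ P := by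
    intro i
    have hle' := hle i
    by_cases h0 : h i = 0
    · obtain ⟨a, ha⟩ := hodd i h0
      have h5 := hex i h0
      have h6 := hex' i h0
      by_cases hq0 : Cfsg.blockDefect 2 b = 0
      · have h7 : P = 1 := by rw [hP, hq0, pow_zero]
        omega
      · obtain ⟨q', hq'⟩ : ∃ q', Cfsg.blockDefect 2 b = q' + 1 := ⟨_, (Nat.succ_pred_eq_of_ne_zero hq0).symm⟩
        have h7 : P = 2 ^ q' * 2 := by rw [hP, hq', pow_succ]
        omega
    · obtain ⟨h2, h4⟩ := hdiv i (Nat.one_le_iff_ne_zero.mpr h0)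
      have h5 := hlt i (Nat.one_le_iff_ne_zero.mpr h0)
      obtain ⟨c, hc⟩ := h2
      have h6 : 4 ∣ t i := by
        rw [hc]
        refine Dvd.dvd.mul_right ?_ c
        have h7 : 2 ^ 2 ∣ 2 ^ (Cfsg.blockHeight 2 B ((i : Cfsg.IrrCharacter G) : G → ℂ) + 1) :=
          pow_dvd_pow 2 (by have := Nat.one_le_iff_ne_zero.mpr h0
                            change 1 ≤ Cfsg.blockHeight 2 B ((i : Cfsg.IrrCharacter G) : G → ℂ) at this
                            omega)
        simpa using h7
      have h8 : 4 ≤ t i := Nat.le_of_dvd h4 h6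
      have h9 : 4 ∣ P := by
        have h10 : 2 ≤ Cfsg.blockDefect 2 b := by
          by_contra hc2
          have h11 : Cfsg.blockDefect 2 b ≤ 1 := by omega
          have h12 : P ≤ 2 ^ 1 := Nat.pow_le_pow_right (by norm_num) h11
          omega
        have h13 : 2 ^ 2 ∣ P := pow_dvd_pow 2 h10
        simpa using h13
      omega
  have h4 : ∑ i : B, (t i + 3) ≤ ∑ _i : B, P := Finset.sum_le_sum fun i _ => h3 i
  rw [Finset.sum_add_distrib, hsum] at h4
  simp only [Finset.sum_const, Finset.card_univ, smul_eq_mul] at h4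
  have h5 : Fintype.card B * P ≤ (l + 3) * P := Nat.mul_le_mul_right _ h_1
  nlinarith

end Cfsg.Agent.S4575
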