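import Cfsg.Statements.S4580
import Mathlib
import Cfsg.Agent.Lib.Char.RealOdd
import Cfsg.Agent.Lib.CharDeep.GallagherExt
import Cfsg.Agent.Lib.Char.FrobSchur
import Cfsg.Agent.Lib.CharZeros.Gallagher
import Cfsg.Agent.Lib.Char.Extend
import Cfsg.Agent.Lib.BlockT.NormalP
import Cfsg.Agent.Lib.Char.Burnside

set_option autoImplicit false
open Cfsg

namespace Cfsg.Agent.S4580

open Cfsg
open scoped ComplexConjugate

/-- Let N be a normal subgroup of the finite group G, M a maximal ideal of the algebraic integers containing 2, and θ a real-valued irreducible character of N of odd degree that extends to G (some irreducible character of G restricts to θ). Then θ has an extension to G lying in the principal 2-block of G. -/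
theorem result {G : Type*} [Group G] [Finite G] (N : Subgroup G) [N.Normal] (M : Ideal Cfsg.AlgInt) (hM : Cfsg.IsPModular 2 M) (θ : Cfsg.IrrCharacter N) (hreal : ∀ n : N, ((θ : N → ℂ) n).im = 0) (hodd : Odd (Cfsg.charDegree (θ : N → ℂ))) (hext : ∃ η : Cfsg.IrrCharacter G, ∀ n : N, (η : G → ℂ) n = (θ : N → ℂ) n) :
    ∃ η : Cfsg.IrrCharacter G, (∀ n : N, (η : G → ℂ) n = (θ : N → ℂ) n) ∧ η ∈ Cfsg.principalBlock M G := by
  classical
  letI : Fintype G := Fintype.ofFinite G
  letI : Fintype N := Fintype.ofFinite N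
  haveI := Cfsg.Agent.Lib.Blocks.Local.isPrime_of_pModular hM
  obtain ⟨η, hη⟩ := hext
  have hηchar := Cfsg.Agent.Lib.Char.Basic.isCharacter_of_isIrrCharacter η.2
  have hres' : (fun n : N => (η : G → ℂ) n) = (θ : N → ℂ) := funext hη
  have hres : IsIrrCharacter N (fun n : N => (η : G → ℂ) n) := by rw [hres']; exact θ.2
  -- the conjugate extension
  have hconj : IsIrrCharacter G (fun g => conj ((η : G → ℂ) g)) :=
    Cfsg.Agent.Lib.Char.FrobSchur.isIrr_conj η.2
  have hne : classInner (fun n : N => conj ((η : G → ℂ) n)) (fun n : N => (η : G → ℂ) n) ≠ 0 := by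
    have h1 : (fun n : N => conj ((η : G → ℂ) n)) = fun n : N => (η : G → ℂ) n := by
      funext n
      rw [hη n]
      exact Complex.conj_eq_iff_im.mpr (hreal n)
    rw [h1, Cfsg.Agent.Lib.Char.Ortho.classInner_self_of_isIrr hres]
    exact one_ne_zero
  obtain ⟨φ, hφ, he⟩ := Cfsg.Agent.Lib.CharDeep.GallagherExt.exists_eq_mul_of_classInner_ne_zero N hηchar hres hconj hne
  have hη0 : (η : G → ℂ) 1 ≠ 0 := Cfsg.Agent.Lib.Char.Complete.irr_one_ne_zero η.2
  have hφ1 : φ 1 = 1 := by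
    have h1 := congrFun he 1
    simp only [Pi.mul_apply, Function.comp_apply, map_one] at h1
    have h2 : conj ((η : G → ℂ) 1) = (η : G → ℂ) 1 := by
      rw [← Cfsg.Agent.Lib.Char.Degree.charDegree_natCast hηchar, Complex.conj_natCast]
    rw [h2] at h1
    exact (mul_left_cancel₀ hη0 (by rw [mul_one]; exact h1)).symm
  have hφchar := Cfsg.Agent.Lib.Char.Basic.isCharacter_of_isIrrCharacter hφ
  have hφmul := Cfsg.Agent.Lib.Char.Linear.deg_one_mul hφchar hφ1
  have hφconj := Cfsg.Agent.Lib.CharZeros.Gallagher.linear_mul_conj hφchar hφ1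
  -- the exponents
  obtain ⟨s, m, hm, hcard⟩ := Nat.exists_eq_two_pow_mul_odd (Nat.card_pos (α := G ⧸ N)).ne'
  obtain ⟨j, hj⟩ := hm
  -- the powers of φ are characters
  have hpow : ∀ k : ℕ, IsCharacter (G ⧸ N) (fun a => φ a ^ k) := by
    intro k
    induction k with
    | zero => simpa using Cfsg.Agent.Lib.Char.Basic.isCharacter_one (G := G ⧸ N)
    | succ k ih =>
      have := Cfsg.Agent.Lib.Char.Basic.isCharacter_mul ih hφchar
      convert this using 1
      funext a
      simp [pow_succ]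
  have hpowexp : ∀ a, φ a ^ Nat.card (G ⧸ N) = 1 := by
    intro a
    have h1 : ∀ k : ℕ, φ (a ^ k) = φ a ^ k := by
      intro k
      induction k with
      | zero => simpa using hφ1
      | succ k ih => rw [pow_succ, hφmul, ih, pow_succ]
    rw [← h1, pow_card_eq_one', hφ1]
  let k := j + 1
  let π := QuotientGroup.mk' N
  have hk1 : (fun a => φ a ^ k) 1 = (1 : ℂ) := by simp [hφ1]
  have hirr₁ : IsIrrCharacter G (fun g => (fun a => φ a ^ k) (π g) * (η : G → ℂ) g) := by
    refine Cfsg.Agent.Lib.CharZeros.Gallagher.isIrrCharacter_mul_linear (ν := fun g => φ (π g) ^ k)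
      (Cfsg.Agent.Lib.Char.Basic.isCharacter_comp π (hpow k)) ?_ η.2
    simp [hφ1, π]
  let η₁ : IrrCharacter G := ⟨_, hirr₁⟩
  have hη₁ : ∀ g, (η₁ : G → ℂ) g = φ (π g) ^ k * (η : G → ℂ) g := fun g => rfl
  have hη₁N : ∀ n : N, (η₁ : G → ℂ) n = (θ : N → ℂ) n := by
    intro n
    have : π (n : G) = 1 := (QuotientGroup.eq_one_iff _).mpr n.2
    rw [hη₁, this, hφ1, one_pow, one_mul, hη]
  refine ⟨η₁, hη₁N, ?_⟩
  -- the kernel of the 2-part
  let ν : G → ℂ := fun g => conj (φ (π g)) ^ (2 * j + 1)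
  have hν1 : ν 1 = 1 := by
    simp [ν, hφ1]
  have hνmul : ∀ a b, ν (a * b) = ν a * ν b := by
    intro a b
    simp only [ν, map_mul, hφmul, mul_pow]
  let f : G →* ℂ := ⟨⟨ν, hν1⟩, hνmul⟩
  let G₀ : Subgroup G := f.ker
  haveI hG₀ : G₀.Normal := MonoidHom.normal_ker f
  have hmemG₀ : ∀ g, g ∈ G₀ ↔ ν g = 1 := fun g => MonoidHom.mem_ker
  have hNG₀ : N ≤ G₀ := by
    intro n hn
    rw [hmemG₀]
    have : π n = 1 := (QuotientGroup.eq_one_iff _).mpr hn
    simp [ν, this, hφ1]
  -- conjugate of η₁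
  have hconj₁ : ∀ g, conj ((η₁ : G → ℂ) g) = ν g * (η₁ : G → ℂ) g := by
    intro g
    have h1 : conj ((η : G → ℂ) g) = (η : G → ℂ) g * φ (π g) := congrFun he g
    rw [hη₁, map_mul, h1, map_pow]
    simp only [ν]
    have huv : conj (φ (π g)) * φ (π g) = 1 := by rw [mul_comm]; exact hφconj _
    set u := φ (π g)
    set v := conj u
    have e1 : v ^ k * u = v ^ j := by
      simp only [k, pow_succ]
      rw [mul_assoc, huv, mul_one]
    have e2 : v ^ (2 * j + 1) * u ^ k = v ^ j := by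
      have : v ^ (2 * j + 1) * u ^ k = v ^ j * (v * u) ^ (j + 1) := by
        simp only [k, mul_pow]
        ring
      rw [this, huv, one_pow, mul_one]
    calc v ^ k * ((η : G → ℂ) g * u) = (v ^ k * u) * (η : G → ℂ) g := by ring
      _ = (v ^ (2 * j + 1) * u ^ k) * (η : G → ℂ) g := by rw [e1, e2]
      _ = _ := by ring
  -- η₁ is real on G₀
  have hrealG₀ : ∀ g : G₀, ((η₁ : G → ℂ) g).im = 0 := by
    intro g
    apply Complex.conj_eq_iff_im.mp
    rw [hconj₁, (hmemG₀ _).mp g.2, one_mul]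
  have hη₁char := Cfsg.Agent.Lib.Char.Basic.isCharacter_of_isIrrCharacter η₁.2
  have hirrG₀ : IsIrrCharacter G₀ (fun g : G₀ => (η₁ : G → ℂ) g) := by
    refine Cfsg.Agent.Lib.Char.Extend.isIrrCharacter_of_comp_isIrr (Subgroup.inclusion hNG₀)
      (Cfsg.Agent.Lib.Char.Basic.isCharacter_restrict G₀ hη₁char) ?_
    have : (fun g : G₀ => (η₁ : G → ℂ) g) ∘ Subgroup.inclusion hNG₀ = (θ : N → ℂ) := funext hη₁N
    rw [this]
    exact θ.2
  have hdeg : charDegree (fun g : G₀ => (η₁ : G → ℂ) g) = charDegree (θ : N → ℂ) := by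
    unfold charDegree
    congr 2
    exact hη₁N 1
  have hB₀ : (⟨_, hirrG₀⟩ : IrrCharacter G₀) ∈ principalBlock M G₀ :=
    Cfsg.Agent.Lib.Char.RealOdd.mem_principalBlock_of_real_of_odd hM _ hrealG₀ (by rw [hdeg]; exact hodd)
  -- the index of G₀ is a power of 2
  haveI : Fact (Nat.Prime 2) := ⟨Nat.prime_two⟩
  have hpg : IsPGroup 2 (G ⧸ G₀) := by
    intro x
    obtain ⟨g, rfl⟩ := QuotientGroup.mk_surjective x
    refine ⟨s, ?_⟩
    rw [← QuotientGroup.mk_pow, QuotientGroup.eq_one_iff, hmemG₀]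
    have h1 : ∀ (x : G) (i : ℕ), ν (x ^ i) = ν x ^ i := by
      intro x i
      induction i with
      | zero => simpa using hν1
      | succ i ih => rw [pow_succ, hνmul, ih, pow_succ]
    rw [h1]
    simp only [ν]
    rw [← pow_mul, ← map_pow]
    have : (2 * j + 1) * 2 ^ s = Nat.card (G ⧸ N) := by
      rw [hcard, hj]
      ring
    rw [this, hpowexp, map_one]
  obtain ⟨t, ht⟩ := (IsPGroup.iff_card).mp hpg
  have hidx : ∃ t : ℕ, G₀.index = 2 ^ t := ⟨t, by rw [Subgroup.index_eq_card, ht]⟩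
  -- comparison with the principal character
  let oneG : IrrCharacter G := ⟨fun _ => 1, Cfsg.Agent.Lib.Char.Burnside.isIrrCharacter_one⟩
  let oneN : IrrCharacter G₀ := ⟨fun _ => 1, Cfsg.Agent.Lib.Char.Burnside.isIrrCharacter_one⟩
  have hsame : SameBlock M (oneN : G₀ → ℂ) ((⟨_, hirrG₀⟩ : IrrCharacter G₀) : G₀ → ℂ) := hB₀
  have h2 := Cfsg.Agent.Lib.BlockT.NormalP.sameBlock_of_constituents hM (χ := oneG) (χ' := η₁) (N := G₀) hG₀ hidx
    hsame (by
      have : classInner (fun n : G₀ => (oneG : G → ℂ) n) (oneN : G₀ → ℂ) = 1 :=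
        Cfsg.Agent.Lib.Char.Ortho.classInner_self_of_isIrr oneN.2
      rw [this]
      exact one_ne_zero)
    (by
      have : classInner (fun n : G₀ => (η₁ : G → ℂ) n) ((⟨_, hirrG₀⟩ : IrrCharacter G₀) : G₀ → ℂ) = 1 :=
        Cfsg.Agent.Lib.Char.Ortho.classInner_self_of_isIrr hirrG₀
      rw [this]
      exact one_ne_zero)
  exact h2

end Cfsg.Agent.S4580
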