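-- Statement S4581: real characters of odd degree of a solvable group, and the Sylow 2-normalizer.
import Cfsg.Statements.S4581
import Cfsg.Agent.Lib.ReOdd.IffTwo

set_option autoImplicit false
open Cfsg

namespace Cfsg.Agent.S4581

open Cfsg.Agent.Lib.ReOdd.Basic Cfsg.Agent.Lib.ReOdd.IffBase Cfsg.Agent.Lib.ReOdd.IffOdd
open Cfsg.Agent.Lib.ReOdd.IffTwo

universe u

/-- The characterization, by induction. -/
theorem iff_main : ∀ (n : ℕ) (X : Type u) [Group X] [Finite X] [Group.IsSolvable X]
    (P : Subgroup X), Nat.card X = n → IsSyl2 P → (AllReal X ↔ (Nr P = P ∧ LL P)) := by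
  intro n
  induction n using Nat.strong_induction_on with
  | _ n ih =>
  intro X _ _ _ P hn hP
  have IH : IHyp X := by
    intro Y _ _ _ R hY hR
    exact ih _ (hn ▸ hY) Y R rfl hR
  rcases subsingleton_or_nontrivial X with hX | hX
  · refine ⟨fun _ => ⟨?_, ?_⟩, fun _ => ?_⟩
    · apply le_antisymm _ Subgroup.le_normalizer
      intro x _
      rw [Subsingleton.elim x 1]
      exact P.one_mem
    · intro β x
      have hx : x = 1 := Subtype.ext (Subsingleton.elim _ _)
      rw [hx, map_one, one_mul]
    · intro χ _ g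
      rw [Subsingleton.elim g 1]
      obtain ⟨k, hk⟩ := Cfsg.Agent.Lib.Char.Basic.exists_deg_of_isCharacter
        (Cfsg.Agent.Lib.Char.Basic.isCharacter_of_isIrrCharacter χ.2)
      rw [hk]
      simp
  · letI := Fintype.ofFinite X
    rcases exists_normal_dichotomy (X := X) with ⟨O, hOn, hO, habel, hOinv⟩ | ⟨M, hMn, hM, hm2⟩
    · haveI := hOn
      refine step_iff_odd hP habel hOinv (IH _ _ ?_ (hP.map _ (QuotientGroup.mk'_surjective O)))
      have h1 := Subgroup.card_eq_card_quotient_mul_card_subgroup O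
      have h4 : 1 < Nat.card O := (Subgroup.one_lt_card_iff_ne_bot O).mpr hO
      have h5 : 0 < Nat.card (X ⧸ O) := Nat.card_pos
      nlinarith
    · exact step_iff_two IH hP hMn hM hm2

/-- Let G be a finite solvable group, P a Sylow 2-subgroup and N its normalizer. Then G and N have the same number of real-valued irreducible characters of odd degree; and every odd-degree irreducible character of G is real-valued exactly when the derived subgroup of P equals the Frattini subgroup of P and P is its own normalizer in G. -/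
theorem result {G : Type*} [Group G] [Finite G] [Group.IsSolvable G] (P : Sylow 2 G) :
    Nat.card {χ : Cfsg.IrrCharacter G // (∀ g : G, ((χ : G → ℂ) g).im = 0) ∧ Odd (Cfsg.charDegree (χ : G → ℂ))} =
      Nat.card {ψ : Cfsg.IrrCharacter (Subgroup.normalizer ((P : Subgroup G) : Set G)) // (∀ g, ((ψ : Subgroup.normalizer ((P : Subgroup G) : Set G) → ℂ) g).im = 0) ∧ Odd (Cfsg.charDegree (ψ : Subgroup.normalizer ((P : Subgroup G) : Set G) → ℂ))} ∧
    ((∀ χ : Cfsg.IrrCharacter G, Odd (Cfsg.charDegree (χ : G → ℂ)) → ∀ g : G, ((χ : G → ℂ) g).im = 0) ↔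
      (commutator (P : Subgroup G) = frattini (P : Subgroup G) ∧ Subgroup.normalizer ((P : Subgroup G) : Set G) = (P : Subgroup G))) := by
  have hP : IsSyl2 (P : Subgroup G) := ⟨P.2, P.not_dvd_index⟩
  refine ⟨Cfsg.Agent.Lib.ReOdd.Count.main _ G P rfl hP, ?_⟩
  have h := iff_main _ G P rfl hP
  have h2 := LL_iff (X := (P : Subgroup G)) P.2
  constructor
  · intro h3
    have h4 := h.mp h3
    exact ⟨h2.mp h4.2, h4.1⟩
  · rintro ⟨h3, h4⟩
    exact h.mpr ⟨h4, h2.mpr h3⟩

end Cfsg.Agent.S4581
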