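import Cfsg.Statements.S4582
import Mathlib.GroupTheory.Transfer

set_option autoImplicit false
open Cfsg

namespace Cfsg.Agent.S4582

open MonoidHom

theorem key {T : Type*} [Group T] [Finite T] (N : Subgroup T) [hN : N.Normal] (P : Subgroup T)
    (hP2 : IsPGroup 2 P) (hind : Odd P.index) (hNP : N ⊔ P = ⊤)
    (hP : ∀ x ∈ P, x ^ 2 ∈ (P ⊓ N) ⊔ ⁅P, P⁆)
    (hQ : ∀ x ∈ P ⊓ N, x ^ 2 ∈ ⁅P ⊓ N, P ⊓ N⁆)
    (hodd : ∀ n ∈ N, ∃ c : ℕ, Odd c ∧ n ^ c ∈ ⁅N, N⁆) :
    ∀ x ∈ P, x ^ 2 ∈ ⁅P, P⁆ := by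
  classical
  haveI : P.FiniteIndex := inferInstance
  let ϕ : P →* Abelianization P := Abelianization.of
  have hϕ1 : ∀ y : P, ϕ y = 1 ↔ (y : T) ∈ ⁅P, P⁆ := by
    intro y
    have h0 : ϕ y = 1 ↔ y ∈ commutator P := by
      rw [← MonoidHom.mem_ker]
      change y ∈ Abelianization.of.ker ↔ _
      rw [Abelianization.ker_of]
    rw [h0]
    have h1 : (commutator P).map P.subtype = ⁅P, P⁆ := by
      rw [commutator_def, Subgroup.map_commutator, ← MonoidHom.range_eq_map, Subgroup.range_subtype]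
    rw [← h1]
    constructor
    · intro h
      exact ⟨y, h, rfl⟩
    · rintro ⟨z, hz, hzy⟩
      have : z = y := Subtype.ext hzy
      rwa [← this]
  let V : T →* Abelianization P := transfer ϕ
  have hV2 : ∀ w : Abelianization P, ∃ k : ℕ, w ^ 2 ^ k = 1 := by
    intro w
    obtain ⟨y, rfl⟩ := QuotientGroup.mk_surjective w
    obtain ⟨k, hk⟩ := hP2 y
    refine ⟨k, ?_⟩
    have := congrArg ϕ hk
    rw [map_pow, map_one] at this
    exact this
  have hVcomm : ∀ y ∈ ⁅(⊤ : Subgroup T), (⊤ : Subgroup T)⁆, V y = 1 := by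
    intro y hy
    have h1 : ⁅(⊤ : Subgroup T), (⊤ : Subgroup T)⁆ ≤ V.ker := by
      rw [Subgroup.commutator_le]
      intro a _ b _
      rw [MonoidHom.mem_ker, commutatorElement_def]
      simp only [map_mul, map_inv]
      rw [mul_comm (V a) (V b)]
      group
    exact h1 hy
  have hVN : ∀ n ∈ N, V n = 1 := by
    intro n hn
    obtain ⟨c, hc, hnc⟩ := hodd n hn
    have h1 : V (n ^ c) = 1 := hVcomm _ (Subgroup.commutator_mono le_top le_top hnc)
    rw [map_pow] at h1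
    obtain ⟨k, hk⟩ := hV2 (V n)
    have h2 : orderOf (V n) ∣ c := orderOf_dvd_of_pow_eq_one h1
    have h3 : orderOf (V n) ∣ 2 ^ k := orderOf_dvd_of_pow_eq_one hk
    have h4 : Nat.Coprime c (2 ^ k) := (Nat.coprime_two_right.2 hc).pow_right k
    exact orderOf_eq_one_iff.1 (Nat.eq_one_of_dvd_coprimes h4 h2 h3)
  let R : Subgroup (Abelianization P) := ((P ⊓ N).subgroupOf P).map ϕ
  have hVsq : ∀ x ∈ P, V (x ^ 2) = 1 := by
    intro x hx
    have h1 : (P ⊓ N) ⊔ ⁅P, P⁆ ≤ V.ker := by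
      refine sup_le (fun y hy => hVN y hy.2) ?_
      intro y hy
      exact hVcomm y (Subgroup.commutator_mono le_top le_top hy)
    exact h1 (hP x hx)
  -- the transfer, modulo the image of `Q`
  have hmain : ∀ x : P, ((V x : Abelianization P) : Abelianization P ⧸ R) = ((ϕ x) ^ P.index : Abelianization P) := by
    intro x
    haveI : Fintype (Quotient (MulAction.orbitRel (Subgroup.zpowers (x : T)) (T ⧸ P))) :=
      Fintype.ofFinite _
    haveI : Fintype (T ⧸ P) := Fintype.ofFinite _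
    have hfac : ∀ (k : ℕ) (t : T) (hy : t⁻¹ * (x : T) ^ k * t ∈ P),
        ((ϕ ⟨t⁻¹ * (x : T) ^ k * t, hy⟩ : Abelianization P) : Abelianization P ⧸ R) =
          ((ϕ x ^ k : Abelianization P) : Abelianization P ⧸ R) := by
      intro k t hy
      have ht : t ∈ N ⊔ P := by rw [hNP]; trivial
      obtain ⟨n, hn, u, hu, rfl⟩ := Subgroup.mem_sup_of_normal_left.1 ht
      have hz : u⁻¹ * (x : T) ^ k * u ∈ P :=
        P.mul_mem (P.mul_mem (P.inv_mem hu) (P.pow_mem x.2 k)) hu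
      have hq : (n * u)⁻¹ * (x : T) ^ k * (n * u) * (u⁻¹ * (x : T) ^ k * u)⁻¹ ∈ P ⊓ N := by
        refine ⟨P.mul_mem hy (P.inv_mem hz), ?_⟩
        have h1 : (n * u)⁻¹ * (x : T) ^ k * (n * u) * (u⁻¹ * (x : T) ^ k * u)⁻¹
            = u⁻¹ * (n⁻¹ * ((x : T) ^ k * n * ((x : T) ^ k)⁻¹)) * u⁻¹⁻¹ := by group
        rw [h1]
        exact hN.conj_mem _ (N.mul_mem (N.inv_mem hn) (hN.conj_mem n hn _)) _
      have hyeq : (⟨(n * u)⁻¹ * (x : T) ^ k * (n * u), hy⟩ : P)
          = ⟨_, hq.1⟩ * ((⟨u, hu⟩ : P)⁻¹ * x ^ k * ⟨u, hu⟩) := by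
        apply Subtype.ext
        simp only [Subgroup.coe_mul, Subgroup.coe_inv, Subgroup.coe_pow]
        group
      have hqR : ϕ ⟨_, hq.1⟩ ∈ R := ⟨⟨_, hq.1⟩, hq, rfl⟩
      rw [hyeq, map_mul]
      have h2 : ϕ ((⟨u, hu⟩ : P)⁻¹ * x ^ k * ⟨u, hu⟩) = ϕ x ^ k := by
        simp only [map_mul, map_inv, map_pow]
        rw [mul_comm ((ϕ ⟨u, hu⟩)⁻¹), mul_assoc, inv_mul_cancel, mul_one]
      rw [h2, QuotientGroup.mk_mul, (QuotientGroup.eq_one_iff _).2 hqR, one_mul]
    have h3 := transfer_eq_prod_quotient_orbitRel_zpowers_quot ϕ (x : T)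
    change ((transfer ϕ (x : T) : Abelianization P) : Abelianization P ⧸ R) = _
    rw [h3]
    have h4 : ∀ w : Abelianization P, ((w : Abelianization P) : Abelianization P ⧸ R) =
        QuotientGroup.mk' R w := fun _ => rfl
    rw [h4, map_prod]
    rw [h4]
    simp only [← h4]
    rw [Finset.prod_congr rfl (fun q _ => hfac _ _ _)]
    simp only [QuotientGroup.mk_pow]
    rw [Finset.prod_pow_eq_pow_sum, ← Subgroup.index_eq_sum_minimalPeriod P (x : T)]
  intro x hx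
  have hsup : (P ⊓ N) ⊔ ⁅P, P⁆ ≤ (R.comap ϕ).map P.subtype := by
    refine sup_le ?_ ?_
    · intro y hy
      refine ⟨⟨y, hy.1⟩, ?_, rfl⟩
      exact ⟨⟨y, hy.1⟩, hy, rfl⟩
    · intro y hy
      have hyP : y ∈ P := (Subgroup.commutator_le_self P) hy
      refine ⟨⟨y, hyP⟩, ?_, rfl⟩
      have h0 : ϕ ⟨y, hyP⟩ = 1 := (hϕ1 _).2 hy
      change ϕ ⟨y, hyP⟩ ∈ R
      rw [h0]
      exact R.one_mem
  obtain ⟨y, hy, hyx⟩ := hsup (hP x hx)
  have hyeq : y = (⟨x, hx⟩ : P) ^ 2 := by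
    apply Subtype.ext
    simpa using hyx
  have hsq : ϕ (⟨x, hx⟩ : P) ^ 2 ∈ R := by
    rw [← map_pow, ← hyeq]
    exact hy
  have hmx := hmain ⟨x, hx⟩
  obtain ⟨e, he⟩ := hind
  rw [he, pow_succ, pow_mul] at hmx
  have hq1 : (((ϕ (⟨x, hx⟩ : P) ^ 2) ^ e : Abelianization P) : Abelianization P ⧸ R) = 1 :=
    (QuotientGroup.eq_one_iff _).2 (R.pow_mem hsq e)
  rw [QuotientGroup.mk_mul, hq1, one_mul] at hmx
  have hmem : (V x)⁻¹ * ϕ (⟨x, hx⟩ : P) ∈ R := QuotientGroup.eq.1 hmx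
  obtain ⟨q₀, hq₀, hq₀eq⟩ := hmem
  have h5 : ϕ (⟨x, hx⟩ : P) = V x * ϕ q₀ := by
    rw [hq₀eq]
    group
  have h6 : ϕ (q₀ ^ 2) = 1 := by
    rw [hϕ1]
    have h7 : ((q₀ : T)) ∈ P ⊓ N := hq₀
    have h8 := hQ _ h7
    have h9 : ⁅P ⊓ N, P ⊓ N⁆ ≤ ⁅P, P⁆ := Subgroup.commutator_mono inf_le_left inf_le_left
    simpa using h9 h8
  have h10 : ϕ ((⟨x, hx⟩ : P) ^ 2) = 1 := by
    rw [map_pow, h5, mul_pow, ← map_pow, hVsq x hx, one_mul, ← map_pow, h6]
  have := (hϕ1 _).1 h10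
  simpa using this

/-- Let N be a normal subgroup of the finite group G, P a Sylow 2-subgroup of G and Q = P ∩ N. Suppose that P/QP' and Q/Q' are elementary abelian (every square of an element of P lies in the subgroup generated by Q and the derived subgroup of P, and every square of an element of Q lies in the derived subgroup of Q), and that the commutator factor group N/N' has odd order. Then P/P' is elementary abelian. -/
theorem result {G : Type*} [Group G] [Finite G] (N : Subgroup G) [N.Normal] (P : Sylow 2 G)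
    (hP : ∀ x ∈ (P : Subgroup G), x ^ 2 ∈ ((P : Subgroup G) ⊓ N) ⊔ ⁅(P : Subgroup G), (P : Subgroup G)⁆)
    (hQ : ∀ x ∈ (P : Subgroup G) ⊓ N, x ^ 2 ∈ ⁅(P : Subgroup G) ⊓ N, (P : Subgroup G) ⊓ N⁆)
    (hodd : Odd (Nat.card (Abelianization N))) :
    ∀ x ∈ (P : Subgroup G), x ^ 2 ∈ ⁅(P : Subgroup G), (P : Subgroup G)⁆ := by
  classical
  let T : Subgroup G := N ⊔ (P : Subgroup G)
  have hNT : N ≤ T := le_sup_left
  have hPT : (P : Subgroup G) ≤ T := le_sup_right
  have hmapc : ∀ A B : Subgroup G, A ≤ T → B ≤ T → ∀ y : T, y ∈ ⁅A.subgroupOf T, B.subgroupOf T⁆ ↔ (y : G) ∈ ⁅A, B⁆ := by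
    intro A B hA hB y
    have h1 : (⁅A.subgroupOf T, B.subgroupOf T⁆).map T.subtype = ⁅A, B⁆ := by
      rw [Subgroup.map_commutator, Subgroup.map_subgroupOf_eq_of_le hA, Subgroup.map_subgroupOf_eq_of_le hB]
    rw [← h1]
    constructor
    · intro h
      exact ⟨y, h, rfl⟩
    · rintro ⟨z, hz, hzy⟩
      have : z = y := Subtype.ext hzy
      rwa [← this]
  have hind : Odd ((P : Subgroup G).subgroupOf T).index := by
    have h1 : ¬ 2 ∣ (P : Subgroup G).index := P.not_dvd_index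
    have h2 : ((P : Subgroup G).subgroupOf T).index ∣ (P : Subgroup G).index := by
      rw [← Subgroup.relIndex_mul_index hPT]
      exact dvd_mul_right _ _
    rw [← Nat.not_even_iff_odd, even_iff_two_dvd]
    exact fun h => h1 (h.trans h2)
  have hP2 : IsPGroup 2 ((P : Subgroup G).subgroupOf T) := by
    intro y
    obtain ⟨k, hk⟩ := P.isPGroup' ⟨((y : T) : G), y.2⟩
    refine ⟨k, Subtype.ext (Subtype.ext ?_)⟩
    simpa using congrArg Subtype.val hk
  have hinf : ((P : Subgroup G).subgroupOf T) ⊓ N.subgroupOf T = ((P : Subgroup G) ⊓ N).subgroupOf T := by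
    ext y
    simp [Subgroup.mem_subgroupOf]
  intro x hx
  have key' := key (N.subgroupOf T) ((P : Subgroup G).subgroupOf T) hP2 hind ?_ ?_ ?_ ?_ ⟨x, hPT hx⟩ (by simpa [Subgroup.mem_subgroupOf] using hx)
  · have := (hmapc _ _ hPT hPT _).1 key'
    simpa using this
  · apply Subgroup.map_injective T.subtype_injective
    rw [Subgroup.map_sup, Subgroup.map_subgroupOf_eq_of_le hNT, Subgroup.map_subgroupOf_eq_of_le hPT,
      ← MonoidHom.range_eq_map, Subgroup.range_subtype]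
  · intro y hy
    have h1 : (y : G) ^ 2 ∈ ((P : Subgroup G) ⊓ N) ⊔ ⁅(P : Subgroup G), (P : Subgroup G)⁆ :=
      hP _ (by simpa [Subgroup.mem_subgroupOf] using hy)
    have h2 : (((P : Subgroup G).subgroupOf T ⊓ N.subgroupOf T) ⊔ ⁅(P : Subgroup G).subgroupOf T, (P : Subgroup G).subgroupOf T⁆).map T.subtype
        = ((P : Subgroup G) ⊓ N) ⊔ ⁅(P : Subgroup G), (P : Subgroup G)⁆ := by
      rw [Subgroup.map_sup, hinf, Subgroup.map_subgroupOf_eq_of_le (inf_le_left.trans hPT),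
        Subgroup.map_commutator, Subgroup.map_subgroupOf_eq_of_le hPT]
    rw [← h2] at h1
    obtain ⟨z, hz, hzy⟩ := h1
    have : z = y ^ 2 := Subtype.ext (by simpa using hzy)
    rwa [← this]
  · intro y hy
    rw [hinf] at hy ⊢
    rw [hmapc _ _ (inf_le_left.trans hPT) (inf_le_left.trans hPT)]
    have := hQ (y : G) hy
    simpa using this
  · intro y hy
    have hyN : (y : G) ∈ N := hy
    refine ⟨Nat.card (Abelianization N), hodd, ?_⟩
    rw [hmapc _ _ hNT hNT]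
    have h1 : (Abelianization.of (⟨(y : G), hyN⟩ : N)) ^ Nat.card (Abelianization N) = 1 :=
      pow_card_eq_one'
    rw [← map_pow] at h1
    have h2 : (⟨(y : G), hyN⟩ : N) ^ Nat.card (Abelianization N) ∈ commutator N := by
      rw [← Abelianization.ker_of]
      exact h1
    have h3 : (commutator N).map N.subtype = ⁅N, N⁆ := by
      rw [commutator_def, Subgroup.map_commutator, ← MonoidHom.range_eq_map, Subgroup.range_subtype]
    rw [← h3]
    refine ⟨_, h2, ?_⟩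
    simp

end Cfsg.Agent.S4582
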