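import Cfsg.Statements.S4584
import Cfsg.Agent.Lib.PGroups.ClassTwo
import Mathlib.GroupTheory.SpecificGroups.Cyclic
-- import your own Cfsg.Agent.* helpers here

set_option autoImplicit false
open Cfsg

namespace Cfsg.Agent.S4584

open Subgroup
open scoped commutatorElement
open Cfsg.Agent.Lib.PGroups.ClassTwo

variable {P : Type*} [Group P]

/-- For central commutators the map `x ↦ ⁅x, a⁆` is a homomorphism. -/
def commHom (hc : ∀ a b : P, ⁅a, b⁆ ∈ center P) (a : P) : P →* P :=
  MonoidHom.mk' (fun x => ⁅x, a⁆) (fun x y => comm_mul_left hc x y a)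

@[simp] theorem commHom_apply (hc : ∀ a b : P, ⁅a, b⁆ ∈ center P) (a x : P) :
    commHom hc a x = ⁅x, a⁆ := rfl

theorem commHom_ker (hc : ∀ a b : P, ⁅a, b⁆ ∈ center P) (a : P) :
    (commHom hc a).ker = centralizer ({a} : Set P) := by
  ext x
  rw [MonoidHom.mem_ker, commHom_apply, commutatorElement_eq_one_iff_commute, mem_centralizer_singleton_iff]
  exact ⟨fun h => h.eq, fun h => h⟩

theorem comm_of_card_le {A : Type*} [Group A] [Finite A] (p : ℕ) [hp : Fact p.Prime] (t : ℕ)
    (ht : t ≤ 2) (hA : Nat.card A = p ^ t) (x y : A) : x * y = y * x := by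
  interval_cases t
  · have : Subsingleton A := (Nat.card_eq_one_iff_unique.mp (by simpa using hA)).1
    exact Subsingleton.elim _ _
  · have : IsCyclic A := isCyclic_of_prime_card (p := p) (by simpa using hA)
    exact mul_comm' x y
  · have := IsPGroup.isMulCommutative_of_card_eq_prime_sq (G := A) (p := p) hA
    exact IsMulCommutative.is_comm.comm x y

theorem card_eq_pow_of_le {P : Type*} [Group P] [Finite P] (p n : ℕ) [hp : Fact p.Prime]
    (hP : Nat.card P = p ^ n) (H : Subgroup P) : ∃ t ≤ n, Nat.card H = p ^ t := by
  have h := Subgroup.card_subgroup_dvd_card H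
  rw [hP] at h
  exact (Nat.dvd_prime_pow hp.out).mp h

theorem card_lt_of_lt' {P : Type*} [Group P] [Finite P] {H K : Subgroup P} (h : H < K) :
    Nat.card H < Nat.card K :=
  Cfsg.Agent.Lib.PGroups.Basic.card_lt_of_lt h

/-- Index-based decomposition: `u ∉ Z(P)` and `[P : Z] = p^2` force `[P : C(u)] = p`. -/
theorem index_centralizer_of_not_center [Finite P] (p : ℕ) [hp : Fact p.Prime]
    (hZ : (center P).index = p ^ 2) (u : P) (hu : u ∉ center P) :
    (centralizer ({u} : Set P)).index = p := by
  have hle : center P ≤ centralizer ({u} : Set P) := by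
    intro z hz
    rw [mem_centralizer_singleton_iff]
    exact ((mem_center_iff.mp hz) u).symm
  have hmul := Subgroup.relIndex_mul_index hle
  rw [hZ] at hmul
  have hn : (centralizer ({u} : Set P)).index ∣ p ^ 2 := ⟨_, by rw [← hmul]; ring⟩
  obtain ⟨t, ht, hcard⟩ := (Nat.dvd_prime_pow hp.out).mp hn
  have hn1 : (centralizer ({u} : Set P)).index ≠ 1 := by
    intro h
    rw [Subgroup.index_eq_one] at h
    apply hu
    rw [mem_center_iff]
    intro g
    have : g ∈ centralizer ({u} : Set P) := h ▸ mem_top g
    rw [mem_centralizer_singleton_iff] at this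
    exact this
  have hm1 : (center P).relIndex (centralizer ({u} : Set P)) ≠ 1 := by
    intro h
    rw [Subgroup.relIndex_eq_one] at h
    have : u ∈ centralizer ({u} : Set P) := by
      rw [mem_centralizer_singleton_iff]
    exact hu (h this)
  have hp1 := hp.out.one_lt
  interval_cases t
  · rw [pow_zero] at hcard; exact absurd hcard hn1
  · simpa using hcard
  · rw [hcard] at hmul
    have hp2 : 0 < p ^ 2 := by positivity
    have : (center P).relIndex (centralizer ({u} : Set P)) = 1 := by
      nlinarith
    exact absurd this hm1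


/-- Let p be a prime and P a group of order p^4. Then the derived subgroup P' has order p if and only if the centre Z(P) has index p^2 in P. -/
theorem result {P : Type*} [Group P] [Finite P] (p : ℕ) [Fact p.Prime] (hP : Nat.card P = p ^ 4) :
    Nat.card (commutator P) = p ↔ (Subgroup.center P).index = p ^ 2 := by
  have hp := (Fact.out : p.Prime)
  have hp1 := hp.one_lt
  have hp0 : 0 < p := hp.pos
  have hPp : IsPGroup p P := IsPGroup.of_card hP
  constructor
  · intro hcomm
    -- `P'` is central
    have hne : commutator P ≠ ⊥ := by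
      intro h
      rw [h, Subgroup.card_bot] at hcomm
      omega
    obtain ⟨z, hzN, hzC, hzo⟩ := Cfsg.Agent.Lib.PGroups.Basic.exists_central_orderOf_eq hPp (commutator P) hne
    have hzle : zpowers z ≤ commutator P := by
      rw [zpowers_le]; exact hzN
    have hPz : commutator P = zpowers z := by
      symm
      apply Subgroup.eq_of_le_of_card_ge hzle
      rw [hcomm, Nat.card_zpowers, hzo]
    have hc : ∀ a b : P, ⁅a, b⁆ ∈ center P := by
      intro a b
      have h1 : ⁅a, b⁆ ∈ commutator P :=
        Subgroup.commutator_mem_commutator (mem_top a) (mem_top b)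
      rw [hPz] at h1
      exact (zpowers_le.mpr hzC) h1
    -- a non-commuting pair
    obtain ⟨a, b, hab⟩ : ∃ a b : P, ⁅a, b⁆ ≠ 1 := by
      by_contra hcon
      push Not at hcon
      apply hne
      rw [eq_bot_iff, _root_.commutator_def, Subgroup.commutator_le]
      intro x _ y _
      simp [hcon x y]
    have hba : ⁅b, a⁆ ≠ 1 := by
      intro h; apply hab
      rw [← commutatorElement_inv, h, inv_one]
    -- elements of `P'` are powers of a nontrivial one
    have hpow : ∀ u v : P, u ∈ commutator P → v ∈ commutator P → v ≠ 1 → ∃ k : ℕ, u = v ^ k := by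
      intro u v hu hv hv1
      have hv1' : (⟨v, hv⟩ : commutator P) ≠ 1 := by
        intro h; exact hv1 (congrArg Subtype.val h)
      have := mem_powers_of_prime_card (G := commutator P) (p := p) hcomm (g' := ⟨u, hu⟩) hv1'
      obtain ⟨k, hk⟩ := this
      exact ⟨k, (congrArg Subtype.val hk).symm⟩
    have hcm : ∀ x y : P, ⁅x, y⁆ ∈ commutator P := fun x y =>
      Subgroup.commutator_mem_commutator (mem_top x) (mem_top y)
    set A : Subgroup P := centralizer ({a} : Set P) ⊓ centralizer ({b} : Set P) with hA
    -- decomposition of an arbitrary element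
    have hdec : ∀ x : P, ∃ (c : P) (i j : ℕ), c ∈ A ∧ x = c * b ^ j * a ^ i := by
      intro x
      obtain ⟨i, hi⟩ := hpow ⁅x, b⁆ ⁅a, b⁆ (hcm _ _) (hcm _ _) hab
      set x₁ := x * (a ^ i)⁻¹ with hx₁
      have h1 : commHom hc b x₁ = 1 := by
        rw [hx₁, map_mul, map_inv, map_pow]
        simp only [commHom_apply]
        rw [hi]; simp
      obtain ⟨j, hj⟩ := hpow ⁅x₁, a⁆ ⁅b, a⁆ (hcm _ _) (hcm _ _) hba
      set x₂ := x₁ * (b ^ j)⁻¹ with hx₂
      have h2 : commHom hc a x₂ = 1 := by
        rw [hx₂, map_mul, map_inv, map_pow]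
        simp only [commHom_apply]
        rw [hj]; simp
      have h3 : commHom hc b x₂ = 1 := by
        rw [hx₂, map_mul, map_inv, map_pow, h1]
        simp [commutatorElement_self]
      refine ⟨x₂, i, j, ?_, ?_⟩
      · refine mem_inf.mpr ⟨?_, ?_⟩
        · rw [← commHom_ker hc a, MonoidHom.mem_ker]; exact h2
        · rw [← commHom_ker hc b, MonoidHom.mem_ker]; exact h3
      · simp [hx₂, hx₁]
    -- the strict chain
    have hCa : centralizer ({a} : Set P) < ⊤ := by
      rw [lt_top_iff_ne_top]
      intro h
      have : b ∈ centralizer ({a} : Set P) := h ▸ mem_top b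
      rw [mem_centralizer_singleton_iff] at this
      apply hab
      rw [commutatorElement_eq_one_iff_commute]
      exact this.symm
    have hAlt : A < centralizer ({a} : Set P) := by
      refine lt_of_le_of_ne inf_le_left ?_
      intro h
      have h1 : a ∈ centralizer ({a} : Set P) := by
        rw [mem_centralizer_singleton_iff]
      have h2 : a ∈ A := h ▸ h1
      have h3 := (mem_inf.mp h2).2
      rw [mem_centralizer_singleton_iff] at h3
      apply hab
      rw [commutatorElement_eq_one_iff_commute]
      exact h3
    obtain ⟨s, hs4, hs⟩ := card_eq_pow_of_le p 4 hP (centralizer ({a} : Set P))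
    obtain ⟨t, ht4, ht⟩ := card_eq_pow_of_le p 4 hP A
    have hs3 : s ≤ 3 := by
      have h1 := card_lt_of_lt' hCa
      rw [hs, Subgroup.card_top, hP] at h1
      have := (Nat.pow_lt_pow_iff_right hp1).mp h1
      omega
    have ht2 : t ≤ 2 := by
      have h1 := card_lt_of_lt' hAlt
      rw [hs, ht] at h1
      have := (Nat.pow_lt_pow_iff_right hp1).mp h1
      omega
    -- `A` is central
    have hAcomm := comm_of_card_le (A := A) p t ht2 ht
    have hAZ : A ≤ center P := by
      intro y hy
      rw [mem_center_iff]
      intro g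
      obtain ⟨c, i, j, hc', rfl⟩ := hdec g
      have hyc : c * y = y * c := by
        have := hAcomm ⟨c, hc'⟩ ⟨y, hy⟩
        exact congrArg Subtype.val this
      have hya : Commute y a := by
        have := (mem_inf.mp hy).1
        rw [mem_centralizer_singleton_iff] at this
        exact this
      have hyb : Commute y b := by
        have := (mem_inf.mp hy).2
        rw [mem_centralizer_singleton_iff] at this
        exact this
      have h1 : Commute y (c * b ^ j * a ^ i) :=
        (Commute.mul_right (Commute.eq hyc.symm |> fun h => h) (hyb.pow_right j)).mul_right (hya.pow_right i)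
      exact h1.eq.symm
    have hZA : center P ≤ A := by
      intro z hz
      refine mem_inf.mpr ⟨?_, ?_⟩
      · rw [mem_centralizer_singleton_iff]; exact ((mem_center_iff.mp hz) a).symm
      · rw [mem_centralizer_singleton_iff]; exact ((mem_center_iff.mp hz) b).symm
    have hAeq : center P = A := le_antisymm hZA hAZ
    -- index computation
    have hidx : ∀ u : P, (centralizer ({u} : Set P)).index ≤ p := by
      intro u
      rw [← commHom_ker hc u, Subgroup.index_ker]
      rw [← hcomm]
      apply Subgroup.card_le_of_le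
      rintro _ ⟨x, rfl⟩
      exact hcm x u
    have hle : (center P).index ≤ p ^ 2 := by
      rw [hAeq]
      calc A.index ≤ _ := Subgroup.index_inf_le
        _ ≤ p * p := Nat.mul_le_mul (hidx a) (hidx b)
        _ = p ^ 2 := by ring
    have hcard := Subgroup.card_mul_index A
    rw [ht, hP] at hcard
    rw [hAeq] at hle ⊢
    have hA2 : p ^ t ≤ p ^ 2 := Nat.pow_le_pow_right hp0 ht2
    have hge : p ^ 2 ≤ A.index := by
      by_contra hlt
      push Not at hlt
      have h5 : p ^ t * A.index < p ^ 2 * p ^ 2 := by
        have : 0 < p ^ 2 := by positivity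
        calc p ^ t * A.index ≤ p ^ 2 * A.index := Nat.mul_le_mul_right _ hA2
          _ < p ^ 2 * p ^ 2 := Nat.mul_lt_mul_of_pos_left hlt this
      rw [hcard] at h5
      have : p ^ 2 * p ^ 2 = p ^ 4 := by ring
      omega
    exact le_antisymm hle hge
  · intro hZ
    -- `P / Z` is abelian
    have hq : Nat.card (P ⧸ center P) = p ^ 2 := by
      rw [← Subgroup.index_eq_card]; exact hZ
    have hqc := IsPGroup.isMulCommutative_of_card_eq_prime_sq (G := P ⧸ center P) (p := p) hq
    have hc : ∀ a b : P, ⁅a, b⁆ ∈ center P := by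
      intro a b
      rw [← QuotientGroup.eq_one_iff]
      have h1 : ((⁅a, b⁆ : P) : P ⧸ center P) = ⁅(a : P ⧸ center P), (b : P ⧸ center P)⁆ :=
        map_commutatorElement (QuotientGroup.mk' (center P)) a b
      rw [h1, commutatorElement_eq_one_iff_commute]
      exact IsMulCommutative.is_comm.comm _ _
    -- a noncommuting pair
    have hnt : center P ≠ ⊤ := by
      intro h
      rw [h, Subgroup.index_top] at hZ
      have : 1 < p ^ 2 := Nat.one_lt_pow (by norm_num) hp1
      omega
    obtain ⟨a, ha⟩ : ∃ a, a ∉ center P := by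
      by_contra hcon
      push Not at hcon
      exact hnt (eq_top_iff.mpr (fun x _ => hcon x))
    obtain ⟨b, hb⟩ : ∃ b, b * a ≠ a * b := by
      by_contra hcon
      push Not at hcon
      exact ha (mem_center_iff.mpr hcon)
    have hbZ : b ∉ center P := by
      intro h; exact hb ((mem_center_iff.mp h) a).symm
    set g : P := ⁅a, b⁆ with hg
    have hg1 : g ≠ 1 := by
      rw [hg, Ne, commutatorElement_eq_one_iff_commute]
      intro h; exact hb h.eq.symm
    have hg'1 : ⁅b, a⁆ ≠ 1 := by
      rw [Ne, commutatorElement_eq_one_iff_commute]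
      intro h; exact hb h.eq
    have hra : Nat.card (commHom hc a).range = p := by
      rw [← Subgroup.index_ker, commHom_ker]
      exact index_centralizer_of_not_center p hZ a ha
    have hrb : Nat.card (commHom hc b).range = p := by
      rw [← Subgroup.index_ker, commHom_ker]
      exact index_centralizer_of_not_center p hZ b hbZ
    -- powers
    have hpa : ∀ x : P, ∃ k : ℕ, ⁅x, a⁆ = ⁅b, a⁆ ^ k := by
      intro x
      have h1 : (⟨⁅b, a⁆, ⟨b, rfl⟩⟩ : (commHom hc a).range) ≠ 1 := by
        intro h; exact hg'1 (congrArg Subtype.val h)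
      obtain ⟨k, hk⟩ := mem_powers_of_prime_card (G := (commHom hc a).range) (p := p) hra
        (g' := ⟨⁅x, a⁆, ⟨x, rfl⟩⟩) h1
      exact ⟨k, (congrArg Subtype.val hk).symm⟩
    have hpb : ∀ x : P, ∃ k : ℕ, ⁅x, b⁆ = ⁅a, b⁆ ^ k := by
      intro x
      have h1 : (⟨⁅a, b⁆, ⟨a, rfl⟩⟩ : (commHom hc b).range) ≠ 1 := by
        intro h; exact hg1 (congrArg Subtype.val h)
      obtain ⟨k, hk⟩ := mem_powers_of_prime_card (G := (commHom hc b).range) (p := p) hrb
        (g' := ⟨⁅x, b⁆, ⟨x, rfl⟩⟩) h1
      exact ⟨k, (congrArg Subtype.val hk).symm⟩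
    have hgp : g ^ p = 1 := by
      have h1 := pow_card_eq_one' (G := (commHom hc b).range) (x := ⟨⁅a, b⁆, ⟨a, rfl⟩⟩)
      rw [hrb] at h1
      exact congrArg Subtype.val h1
    -- the centralizer intersection equals the centre
    set A : Subgroup P := centralizer ({a} : Set P) ⊓ centralizer ({b} : Set P) with hA
    have hZA : center P ≤ A := by
      intro z hz
      refine mem_inf.mpr ⟨?_, ?_⟩
      · rw [mem_centralizer_singleton_iff]; exact ((mem_center_iff.mp hz) a).symm
      · rw [mem_centralizer_singleton_iff]; exact ((mem_center_iff.mp hz) b).symm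
    have hAZ : A ≤ center P := by
      have h1 : A ≤ centralizer ({a} : Set P) := inf_le_left
      have hm1 := Subgroup.relIndex_mul_index h1
      have hm2 := Subgroup.relIndex_mul_index hZA
      rw [index_centralizer_of_not_center p hZ a ha] at hm1
      rw [hZ, ← hm1] at hm2
      have hm3 : A.relIndex (centralizer ({a} : Set P)) ≠ 1 := by
        intro h
        rw [Subgroup.relIndex_eq_one] at h
        have h2 : a ∈ centralizer ({a} : Set P) := by rw [mem_centralizer_singleton_iff]
        have h3 := (mem_inf.mp (h h2)).2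
        rw [mem_centralizer_singleton_iff] at h3
        exact hb h3.symm
      have hm4 : (center P).relIndex A * A.relIndex (centralizer ({a} : Set P)) = p := by
        have : p * ((center P).relIndex A * A.relIndex (centralizer ({a} : Set P))) = p * p := by
          nlinarith
        exact Nat.eq_of_mul_eq_mul_left hp0 this
      have hm5 : (center P).relIndex A = 1 := by
        rcases (Nat.dvd_prime hp).mp ⟨_, hm4.symm⟩ with h | h
        · exact h
        · rw [h] at hm4
          have : A.relIndex (centralizer ({a} : Set P)) = 1 := by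
            have h9 : p * A.relIndex (centralizer ({a} : Set P)) = p * 1 := by omega
            exact Nat.eq_of_mul_eq_mul_left hp0 h9
          exact absurd this hm3
      exact Subgroup.relIndex_eq_one.mp hm5
    -- decomposition
    have hdec : ∀ x : P, ∃ (c : P) (i j : ℕ), c ∈ center P ∧ x = c * b ^ j * a ^ i := by
      intro x
      obtain ⟨i, hi⟩ := hpb x
      set x₁ := x * (a ^ i)⁻¹ with hx₁
      have h1 : commHom hc b x₁ = 1 := by
        rw [hx₁, map_mul, map_inv, map_pow]
        simp only [commHom_apply]
        rw [hi]; simp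
      obtain ⟨j, hj⟩ := hpa x₁
      set x₂ := x₁ * (b ^ j)⁻¹ with hx₂
      have h2 : commHom hc a x₂ = 1 := by
        rw [hx₂, map_mul, map_inv, map_pow]
        simp only [commHom_apply]
        rw [hj]; simp
      have h3 : commHom hc b x₂ = 1 := by
        rw [hx₂, map_mul, map_inv, map_pow, h1]
        simp [commutatorElement_self]
      refine ⟨x₂, i, j, hAZ ?_, ?_⟩
      · refine mem_inf.mpr ⟨?_, ?_⟩
        · rw [← commHom_ker hc a, MonoidHom.mem_ker]; exact h2
        · rw [← commHom_ker hc b, MonoidHom.mem_ker]; exact h3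
      · simp [hx₂, hx₁]
    -- every commutator is a power of `g`
    have hmem : ∀ x y : P, ⁅x, y⁆ ∈ zpowers g := by
      intro x y
      obtain ⟨c, i, j, hc', rfl⟩ := hdec y
      have h1 : ⁅x, c⁆ = 1 := by
        rw [commutatorElement_eq_one_iff_commute]
        exact ((mem_center_iff.mp hc') x)
      have h2 : ⁅x, c * b ^ j * a ^ i⁆ = ⁅x, b⁆ ^ j * ⁅x, a⁆ ^ i := by
        rw [comm_mul_right hc, comm_mul_right hc, h1, one_mul, comm_pow_right hc, comm_pow_right hc]
      rw [h2]
      obtain ⟨k, hk⟩ := hpa x
      obtain ⟨l, hl⟩ := hpb x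
      have h4 : ⁅b, a⁆ = g⁻¹ := by
        rw [hg, commutatorElement_inv]
      rw [hk, hl, h4]
      refine mul_mem (pow_mem (pow_mem (mem_zpowers g) _) _)
        (pow_mem (pow_mem (inv_mem (mem_zpowers g)) _) _)
    have hle : commutator P ≤ zpowers g := by
      rw [_root_.commutator_def, Subgroup.commutator_le]
      intro x _ y _
      exact hmem x y
    have hgc : g ∈ commutator P :=
      Subgroup.commutator_mem_commutator (mem_top a) (mem_top b)
    have hge : zpowers g ≤ commutator P := by
      rw [zpowers_le]; exact hgc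
    have hEq : commutator P = zpowers g := le_antisymm hle hge
    rw [hEq, Nat.card_zpowers]
    exact orderOf_eq_prime hgp hg1

end Cfsg.Agent.S4584
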