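import Cfsg.Statements.S4585
import Cfsg.Agent.S4584
import Mathlib.GroupTheory.Frattini
-- import your own Cfsg.Agent.* helpers here

set_option autoImplicit false
open Cfsg

namespace Cfsg.Agent.S4585

open Subgroup
open scoped commutatorElement

variable {P : Type*} [Group P]

/-- The lower central series of a nilpotent group strictly descends until it hits the bottom. -/
theorem lcs_succ_lt [Group.IsNilpotent P] (k : ℕ) (h : (⊤ : Subgroup P).lowerCentralSeries k ≠ ⊥) :
    (⊤ : Subgroup P).lowerCentralSeries (k + 1) < (⊤ : Subgroup P).lowerCentralSeries k := by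
  refine lt_of_le_of_ne (Subgroup.lowerCentralSeries_antitone _ (Nat.le_succ k)) ?_
  intro heq
  apply h
  have hall : ∀ j, (⊤ : Subgroup P).lowerCentralSeries (k + j) = (⊤ : Subgroup P).lowerCentralSeries k := by
    intro j
    induction j with
    | zero => rfl
    | succ j ih =>
      rw [← add_assoc, Subgroup.lowerCentralSeries_succ, ih, ← Subgroup.lowerCentralSeries_succ, heq]
  have h0 := Subgroup.lowerCentralSeries_nilpotencyClass (G := P)
  rw [← hall (Group.nilpotencyClass P), eq_bot_iff, ← h0]
  exact Subgroup.lowerCentralSeries_antitone _ (Nat.le_add_left _ _)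

/-- Let p be a prime and P a group of order p^4. Then P' has index p^2 in P if and only if P has maximal nilpotency class, that is, nilpotency class exactly 3. -/
theorem result {P : Type*} [Group P] [Finite P] (p : ℕ) [Fact p.Prime] (hP : Nat.card P = p ^ 4) :
    (commutator P).index = p ^ 2 ↔ Group.nilpotencyClass P = 3 := by
  have hp := (Fact.out : p.Prime)
  have hp1 := hp.one_lt
  have hp0 : 0 < p := hp.pos
  have hPp : IsPGroup p P := IsPGroup.of_card hP
  haveI hnil : Group.IsNilpotent P := hPp.isNilpotent
  -- cardinalities of the terms of the series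
  set L : ℕ → Subgroup P := (⊤ : Subgroup P).lowerCentralSeries with hL
  have hcard : ∀ k, ∃ t ≤ 4, Nat.card (L k) = p ^ t := fun k =>
    Cfsg.Agent.S4584.card_eq_pow_of_le p 4 hP (L k)
  choose s hs4 hs using hcard
  have hstep : ∀ k, L k ≠ ⊥ → s (k + 1) < s k := by
    intro k hk
    have h1 := Cfsg.Agent.S4584.card_lt_of_lt' (lcs_succ_lt k hk)
    have h2 : Nat.card ((⊤ : Subgroup P).lowerCentralSeries (k + 1)) = p ^ s (k + 1) := hs (k + 1)
    have h3 : Nat.card ((⊤ : Subgroup P).lowerCentralSeries k) = p ^ s k := hs k
    rw [h2, h3] at h1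
    exact (Nat.pow_lt_pow_iff_right hp1).mp h1
  have hL0 : L 0 = ⊤ := rfl
  have hL1 : L 1 = commutator P := rfl
  have hnt : (⊤ : Subgroup P) ≠ ⊥ := by
    intro h
    have : Nat.card (⊤ : Subgroup P) = 1 := by rw [h, Subgroup.card_bot]
    rw [Subgroup.card_top, hP] at this
    have h2 : 1 < p ^ 4 := Nat.one_lt_pow (by norm_num) hp1
    omega
  have hs0 : s 0 = 4 := by
    have h1 := hs 0
    rw [hL0, Subgroup.card_top, hP] at h1
    exact (Nat.pow_right_injective hp.two_le h1).symm
  have hbot : ∀ k, L k = ⊥ → s k = 0 := by
    intro k hk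
    have h1 := hs k
    rw [hk, Subgroup.card_bot] at h1
    have h2 : p ^ s k = p ^ 0 := by simpa using h1.symm
    exact Nat.pow_right_injective hp.two_le h2
  have hbot' : ∀ k, s k = 0 → L k = ⊥ := by
    intro k hk
    have h1 := hs k
    rw [hk, pow_zero] at h1
    exact Subgroup.card_eq_one.mp h1
  -- relation with the index
  have hidx : (commutator P).index * p ^ s 1 = p ^ 4 := by
    have h1 := Subgroup.index_mul_card (commutator P)
    rw [hP] at h1
    have h2 : Nat.card (commutator P) = p ^ s 1 := hs 1
    rw [h2] at h1
    exact h1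
  -- index `p` is impossible
  have hs1 : s 1 ≠ 3 := by
    intro h3
    rw [h3] at hidx
    have hidxp : (commutator P).index = p := by
      have : (commutator P).index * p ^ 3 = p * p ^ 3 := by rw [hidx]; ring
      exact Nat.eq_of_mul_eq_mul_right (by positivity) this
    -- the quotient is cyclic, so `P` is cyclic
    have hmax : IsCoatom (commutator P) :=
      Cfsg.Agent.Lib.PGroups.Basic.isCoatom_of_index_prime (by rw [hidxp]; exact hp)
    obtain ⟨x, hx⟩ : ∃ x, x ∉ commutator P := by
      by_contra hcon
      push Not at hcon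
      have : commutator P = ⊤ := eq_top_iff.mpr (fun y _ => hcon y)
      rw [this, Subgroup.index_top] at hidxp
      omega
    have hsup : zpowers x ⊔ frattini P = ⊤ := by
      have h1 : commutator P ≤ frattini P := Cfsg.Agent.Lib.PGroups.Basic.commutator_le_frattini hPp
      have h2 : commutator P < commutator P ⊔ zpowers x := by
        refine lt_of_le_of_ne le_sup_left ?_
        intro heq
        apply hx
        rw [heq]
        exact mem_sup_right (mem_zpowers x)
      have h3 : commutator P ⊔ zpowers x = ⊤ := hmax.2 _ h2
      rw [eq_top_iff, ← h3, sup_comm]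
      exact sup_le_sup_left h1 _
    have htop : zpowers x = ⊤ := frattini_nongenerating hsup
    have hcyc : IsCyclic P := ⟨x, fun y => by
      have : y ∈ zpowers x := htop ▸ mem_top y
      exact this⟩
    have hcomm : commutator P = ⊥ := by
      letI := IsCyclic.commGroup (α := P)
      rw [eq_bot_iff, _root_.commutator_def, Subgroup.commutator_le]
      intro a _ b _
      rw [mem_bot, commutatorElement_eq_one_iff_commute]
      exact mul_comm a b
    rw [hcomm, Subgroup.index_bot, hP] at hidxp
    have h5 : p ^ 1 < p ^ 4 := Nat.pow_lt_pow_right hp1 (by norm_num)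
    rw [pow_one] at h5
    omega
  have hs1le : s 1 ≤ 2 := by
    have h1 : s 1 < s 0 := hstep 0 (by rw [hL0]; exact hnt)
    omega
  -- the series dies at step three
  have hL3 : L 3 = ⊥ := by
    by_cases h2 : L 2 = ⊥
    · rw [eq_bot_iff, ← h2]
      exact Subgroup.lowerCentralSeries_antitone _ (by norm_num)
    · have h1 : L 1 ≠ ⊥ := by
        intro h
        apply h2
        rw [eq_bot_iff, ← h]
        exact Subgroup.lowerCentralSeries_antitone _ (by norm_num)
      have h3 := hstep 1 h1
      have h4 := hstep 2 h2
      apply hbot'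
      norm_num at h3 h4 ⊢
      omega
  have hcl3 : Group.nilpotencyClass P ≤ 3 :=
    Subgroup.lowerCentralSeries_eq_bot_iff_nilpotencyClass_le.mp hL3
  have hcl2 : Group.nilpotencyClass P ≤ 2 ↔ L 2 = ⊥ :=
    Subgroup.lowerCentralSeries_eq_bot_iff_nilpotencyClass_le.symm
  have hmain : Group.nilpotencyClass P = 3 ↔ L 2 ≠ ⊥ := by
    rw [← not_iff_not, not_not, ← hcl2]
    omega
  rw [hmain]
  constructor
  · intro hi
    rw [hi] at hidx
    have hs12 : s 1 = 2 := by
      have : p ^ 2 * p ^ s 1 = p ^ 2 * p ^ 2 := by rw [hidx]; ring
      have h2 := Nat.eq_of_mul_eq_mul_left (by positivity) this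
      exact Nat.pow_right_injective hp.two_le h2
    intro hL2
    -- `P'` is central
    have hcen : commutator P ≤ center P := by
      intro x hx
      rw [mem_center_iff]
      intro g
      have h1 : ⁅x, g⁆ ∈ L 2 := by
        have : L 2 = ⁅L 1, ⊤⁆ := rfl
        rw [this]
        exact Subgroup.commutator_mem_commutator hx (mem_top g)
      rw [hL2, mem_bot, commutatorElement_eq_one_iff_commute] at h1
      exact h1.eq.symm
    have hdvd : (center P).index ∣ (commutator P).index := Subgroup.index_dvd_of_le hcen
    rw [hi] at hdvd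
    obtain ⟨t, ht, htc⟩ := (Nat.dvd_prime_pow hp).mp hdvd
    have hne1 : Nat.card (commutator P) = p ^ 2 := by
      rw [← hL1, hs 1, hs12]
    interval_cases t
    · -- abelian
      rw [pow_zero, Subgroup.index_eq_one] at htc
      have : commutator P = ⊥ := by
        rw [eq_bot_iff, _root_.commutator_def, Subgroup.commutator_le]
        intro a _ b _
        have : b ∈ center P := htc ▸ mem_top b
        rw [mem_bot, commutatorElement_eq_one_iff_commute]
        exact ((mem_center_iff.mp this) a)
      rw [this, Subgroup.card_bot] at hne1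
      have : 1 < p ^ 2 := Nat.one_lt_pow (by norm_num) hp1
      omega
    · -- the central quotient is cyclic
      rw [pow_one] at htc
      have h1 : Nat.card (P ⧸ center P) = p := by rw [← Subgroup.index_eq_card]; exact htc
      have h2 : IsCyclic (P ⧸ center P) := isCyclic_of_prime_card h1
      have h3 := isMulCommutative_of_isCyclic_quotient_center_self P
      have : commutator P = ⊥ := by
        rw [eq_bot_iff, _root_.commutator_def, Subgroup.commutator_le]
        intro a _ b _
        rw [mem_bot, commutatorElement_eq_one_iff_commute]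
        exact h3.is_comm.comm a b
      rw [this, Subgroup.card_bot] at hne1
      have : 1 < p ^ 2 := Nat.one_lt_pow (by norm_num) hp1
      omega
    · have h6 := (Cfsg.Agent.S4584.result p hP).mpr htc
      rw [hne1] at h6
      have h7 : p ^ 1 < p ^ 2 := Nat.pow_lt_pow_right hp1 (by norm_num)
      rw [pow_one] at h7
      omega
  · intro hL2
    have h1 : L 1 ≠ ⊥ := by
      intro h
      apply hL2
      rw [eq_bot_iff, ← h]
      exact Subgroup.lowerCentralSeries_antitone _ (by norm_num)
    have h3 := hstep 1 h1
    have h4 : s 2 ≠ 0 := fun h => hL2 (hbot' 2 h)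
    norm_num at h3
    have hs12 : s 1 = 2 := by omega
    rw [hs12] at hidx
    have : (commutator P).index * p ^ 2 = p ^ 2 * p ^ 2 := by rw [hidx]; ring
    exact Nat.eq_of_mul_eq_mul_right (by positivity) this

end Cfsg.Agent.S4585
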