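import Cfsg.Statements.S4586
import Cfsg.Agent.Lib.PGroups.Basic
-- import your own Cfsg.Agent.* helpers here

set_option autoImplicit false
open Cfsg

namespace Cfsg.Agent.S4586

open Subgroup
open scoped commutatorElement

variable {P : Type*} [Group P]

/-- `n ↦ x n x⁻¹ n⁻¹` as a homomorphism from `N` to its abelianization. -/
noncomputable def phi (N : Subgroup P) [N.Normal] (x : P) : N →* Abelianization N :=
  ((Abelianization.of).comp (MulAut.conjNormal x : MulAut N).toMonoidHom) * (Abelianization.of)⁻¹

theorem phi_apply (N : Subgroup P) [N.Normal] (x : P) (n : N) :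
    phi N x n = Abelianization.of ((MulAut.conjNormal x : MulAut N) n * n⁻¹) := by
  simp [phi, map_mul, map_inv]

theorem phi_eq_one_iff (N : Subgroup P) [N.Normal] (x : P) (n : N) :
    phi N x n = 1 ↔ x * n * x⁻¹ * (n : P)⁻¹ ∈ (commutator N).map N.subtype := by
  rw [phi_apply]
  have h1 : ((((MulAut.conjNormal x : MulAut N) n * n⁻¹ : N)) : P) = x * n * x⁻¹ * (n : P)⁻¹ := by
    simp [MulAut.conjNormal_apply]
  rw [← h1]
  constructor
  · intro h
    refine ⟨(MulAut.conjNormal x : MulAut N) n * n⁻¹, ?_, rfl⟩
    exact (QuotientGroup.eq_one_iff _).mp h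
  · rintro ⟨m, hm, hm2⟩
    have : m = (MulAut.conjNormal x : MulAut N) n * n⁻¹ := Subtype.ext hm2
    rw [← this]
    exact (QuotientGroup.eq_one_iff _).mpr hm

/-- The subgroup `K` of `N` corresponding to the range of `phi`. -/
noncomputable def K (N : Subgroup P) [N.Normal] (x : P) : Subgroup N :=
  (phi N x).range.comap Abelianization.of

/-- The key identity: `[P : P'] |N'| = p c(x)` for `x ∉ N`. -/
theorem key_commutator [Finite P] (N : Subgroup P) [hn : N.Normal] (hi : N.index.Prime) (x : P) (hx : x ∉ N) :
    commutator P = (K N x).map N.subtype := by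
  -- generation
  have hcoat : IsCoatom N := Cfsg.Agent.Lib.PGroups.Basic.isCoatom_of_index_prime hi
  have hsup : N ⊔ zpowers x = ⊤ := by
    apply hcoat.2
    refine lt_of_le_of_ne le_sup_left ?_
    intro h
    apply hx
    rw [h]
    exact mem_sup_right (mem_zpowers x)
  set K' : Subgroup P := (K N x).map N.subtype with hK'
  -- basic memberships
  have hcomm_mem : ∀ c : N, c ∈ commutator N → (c : P) ∈ K' := by
    intro c hc
    refine ⟨c, ?_, rfl⟩
    show Abelianization.of c ∈ (phi N x).range
    have : Abelianization.of c = 1 := (QuotientGroup.eq_one_iff _).mpr hc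
    rw [this]
    exact one_mem _
  have hx_mem : ∀ n : N, x * n * x⁻¹ * (n : P)⁻¹ ∈ K' := by
    intro n
    refine ⟨(MulAut.conjNormal x : MulAut N) n * n⁻¹, ?_, by simp [MulAut.conjNormal_apply]⟩
    show Abelianization.of _ ∈ (phi N x).range
    exact ⟨n, phi_apply N x n⟩
  have hK'le : K' ≤ N := by
    rw [hK']
    exact Subgroup.map_subtype_le _
  -- normality of `K'`
  have hKnormalN : ∀ (k n : N), k ∈ K N x → n * k * n⁻¹ ∈ K N x := by
    intro k n hk
    show Abelianization.of (n * k * n⁻¹) ∈ (phi N x).range
    have : Abelianization.of (n * k * n⁻¹) = Abelianization.of k := by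
      simp only [map_mul, map_inv]
      rw [mul_comm (Abelianization.of n)]
      simp
    rw [this]
    exact hk
  have hKx : ∀ k : N, k ∈ K N x → (MulAut.conjNormal x : MulAut N) k ∈ K N x := by
    intro k hk
    obtain ⟨n, hn1⟩ := hk
    refine ⟨(MulAut.conjNormal x : MulAut N) n, ?_⟩
    rw [phi_apply] at hn1 ⊢
    -- `τ` preserves the kernel of `of`
    have hk' : ∃ c ∈ commutator N, k = ((MulAut.conjNormal x : MulAut N) n * n⁻¹) * c := by
      refine ⟨((MulAut.conjNormal x : MulAut N) n * n⁻¹)⁻¹ * k, ?_, by group⟩
      have : Abelianization.of (((MulAut.conjNormal x : MulAut N) n * n⁻¹)⁻¹ * k) = 1 := by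
        rw [map_mul, map_inv, hn1]; simp
      exact (QuotientGroup.eq_one_iff _).mp this
    obtain ⟨c, hc, rfl⟩ := hk'
    have hτc : (MulAut.conjNormal x : MulAut N) c ∈ commutator N := by
      have : (commutator N).Characteristic := inferInstance
      exact (Subgroup.characteristic_iff_map_le.mp this _) ⟨c, hc, rfl⟩
    have h0 : Abelianization.of ((MulAut.conjNormal x : MulAut N) c) = 1 :=
      (QuotientGroup.eq_one_iff _).mpr hτc
    simp only [map_mul, map_inv, h0, mul_one]
  have hK'normal : K'.Normal := by
    -- `K'` is normalized by `N` and `x`, hence by everything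
    have hle : N ⊔ zpowers x ≤ normalizer (K' : Set P) := by
      apply sup_le
      · intro n hn' 
        rw [mem_normalizer_iff]
        intro k
        constructor
        · rintro ⟨k₀, hk₀, rfl⟩
          refine ⟨⟨n, hn'⟩ * k₀ * ⟨n, hn'⟩⁻¹, hKnormalN k₀ _ hk₀, by simp⟩
        · intro hk
          obtain ⟨k₀, hk₀, hk₁⟩ := hk
          refine ⟨⟨n, hn'⟩⁻¹ * k₀ * ⟨n, hn'⟩, ?_, ?_⟩
          · have := hKnormalN k₀ ⟨n, hn'⟩⁻¹ hk₀
            simpa using this
          · simp only [Subgroup.coe_subtype, MulMemClass.coe_mul, InvMemClass.coe_inv] at hk₁ ⊢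
            rw [hk₁]; group
      · rw [zpowers_le]
        -- `x` normalizes `K'`, by finiteness
        have hsub : ∀ k ∈ K', x * k * x⁻¹ ∈ K' := by
          rintro _ ⟨k₀, hk₀, rfl⟩
          refine ⟨(MulAut.conjNormal x : MulAut N) k₀, hKx k₀ hk₀, by simp [MulAut.conjNormal_apply]⟩
        have hmap : K'.map (MulAut.conj x).toMonoidHom = K' := by
          apply Subgroup.eq_of_le_of_card_ge
          · rintro _ ⟨k, hk, rfl⟩
            exact hsub k hk
          · exact le_of_eq (Nat.card_congr
              (Subgroup.equivMapOfInjective _ _ (MulAut.conj x).injective).toEquiv)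
        rw [mem_normalizer_iff]
        intro k
        refine ⟨hsub k, fun hk => ?_⟩
        rw [← hmap] at hk
        obtain ⟨k₁, hk₁, hk₂⟩ := hk
        have : k = k₁ := by
          have h3 : x * k * x⁻¹ = x * k₁ * x⁻¹ := by
            rw [← hk₂]; simp [MulAut.conj_apply]
          simpa using h3
        rw [this]; exact hk₁
    rw [hsup, top_le_iff] at hle
    exact Subgroup.normalizer_eq_top_iff.mp hle
  apply le_antisymm
  · -- `P / K'` is abelian
    rw [_root_.commutator_def, Subgroup.commutator_le]
    intro u _ v _
    let f : P →* P ⧸ K' := QuotientGroup.mk' K'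
    have hf1 : ∀ a b : N, f a * f b = f b * f a := by
      intro a b
      have h1 : ((⁅a, b⁆ : N) : P) ∈ K' :=
        hcomm_mem _ (Subgroup.commutator_mem_commutator (mem_top a) (mem_top b))
      have h2 : f ((⁅a, b⁆ : N) : P) = 1 := (QuotientGroup.eq_one_iff _).mpr h1
      have h3 : f ((⁅a, b⁆ : N) : P) = ⁅f a, f b⁆ := by
        simp [commutatorElement_def, map_mul, map_inv]
      rw [h3, commutatorElement_eq_one_iff_commute] at h2
      exact h2
    have hf2 : ∀ a : N, f x * f a = f a * f x := by
      intro a
      have h2 : f (x * a * x⁻¹ * (a : P)⁻¹) = 1 := (QuotientGroup.eq_one_iff _).mpr (hx_mem a)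
      have h3 : f (x * a * x⁻¹ * (a : P)⁻¹) = ⁅f x, f a⁆ := by
        simp [commutatorElement_def, map_mul, map_inv]
      rw [h3, commutatorElement_eq_one_iff_commute] at h2
      exact h2
    -- every `f a`, `a ∈ N`, is central
    have hf3 : ∀ (a : N) (w : P), f a * f w = f w * f a := by
      intro a w
      have hle : N ⊔ zpowers x ≤ (centralizer ({f a} : Set (P ⧸ K'))).comap f := by
        apply sup_le
        · intro b hb
          rw [mem_comap, mem_centralizer_singleton_iff]
          exact (hf1 ⟨b, hb⟩ a)
        · rw [zpowers_le, mem_comap, mem_centralizer_singleton_iff]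
          exact hf2 a
      rw [hsup] at hle
      have := hle (mem_top w)
      rw [mem_comap, mem_centralizer_singleton_iff] at this
      exact this.symm
    have hf4 : ∀ w : P, f x * f w = f w * f x := by
      intro w
      have hle : N ⊔ zpowers x ≤ (centralizer ({f x} : Set (P ⧸ K'))).comap f := by
        apply sup_le
        · intro b hb
          rw [mem_comap, mem_centralizer_singleton_iff]
          exact (hf2 ⟨b, hb⟩).symm
        · rw [zpowers_le, mem_comap, mem_centralizer_singleton_iff]
      rw [hsup] at hle
      have := hle (mem_top w)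
      rw [mem_comap, mem_centralizer_singleton_iff] at this
      exact this.symm
    have hf5 : f u * f v = f v * f u := by
      have hle : N ⊔ zpowers x ≤ (centralizer ({f v} : Set (P ⧸ K'))).comap f := by
        apply sup_le
        · intro b hb
          rw [mem_comap, mem_centralizer_singleton_iff]
          exact (hf3 ⟨b, hb⟩ v)
        · rw [zpowers_le, mem_comap, mem_centralizer_singleton_iff]
          exact hf4 v
      rw [hsup] at hle
      have := hle (mem_top u)
      rw [mem_comap, mem_centralizer_singleton_iff] at this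
      exact this
    have h6 : f ⁅u, v⁆ = 1 := by
      have : f ⁅u, v⁆ = ⁅f u, f v⁆ := map_commutatorElement f u v
      rw [this, commutatorElement_eq_one_iff_commute]
      exact hf5
    exact (QuotientGroup.eq_one_iff _).mp h6
  · -- `K'` lies in `P'`
    rintro _ ⟨k, ⟨n, hn1⟩, rfl⟩
    rw [phi_apply] at hn1
    have hc : ((MulAut.conjNormal x : MulAut N) n * n⁻¹)⁻¹ * k ∈ commutator N := by
      have : Abelianization.of (((MulAut.conjNormal x : MulAut N) n * n⁻¹)⁻¹ * k) = 1 := by
        rw [map_mul, map_inv, hn1]; simp
      exact (QuotientGroup.eq_one_iff _).mp this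
    have h1 : (N.subtype k) = ((MulAut.conjNormal x : MulAut N) n * n⁻¹ : N) *
        (((((MulAut.conjNormal x : MulAut N) n * n⁻¹)⁻¹ * k : N)) : P) := by
      simp [MulAut.conjNormal_apply]
      group
    rw [h1]
    apply mul_mem
    · have h2 : (((MulAut.conjNormal x : MulAut N) n * n⁻¹ : N) : P) = ⁅x, (n : P)⁆ := by
        simp [MulAut.conjNormal_apply, commutatorElement_def]
      rw [h2]
      exact Subgroup.commutator_mem_commutator (mem_top x) (mem_top _)
    · have h3 : (commutator N).map N.subtype ≤ commutator P := by
        rw [Subgroup.map_subtype_commutator]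
        exact Subgroup.commutator_mono le_top le_top
      exact h3 ⟨_, hc, rfl⟩

theorem key_identity [Finite P] (N : Subgroup P) [hn : N.Normal] (hi : N.index.Prime) (x : P) (hx : x ∉ N) :
    (commutator P).index * Nat.card (commutator N) =
      N.index * Nat.card {n : N // x * n * x⁻¹ * (n : P)⁻¹ ∈ (commutator N).map N.subtype} := by
  have hK := key_commutator N hi x hx
  -- the counting
  have hker : Nat.card {n : N // x * n * x⁻¹ * (n : P)⁻¹ ∈ (commutator N).map N.subtype} =
      Nat.card (phi N x).ker := by
    apply Nat.card_congr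
    exact Equiv.subtypeEquivRight (fun n => by
      rw [MonoidHom.mem_ker, phi_eq_one_iff])
  rw [hker]
  have h1 : Nat.card (commutator P) * (commutator P).index = Nat.card P :=
    Subgroup.card_mul_index _
  have h2 : Nat.card N * N.index = Nat.card P := Subgroup.card_mul_index _
  have h3 : Nat.card (phi N x).ker * Nat.card (phi N x).range = Nat.card N := by
    rw [← Subgroup.index_ker]
    exact Subgroup.card_mul_index _
  have h4 : Nat.card (commutator P) = Nat.card (K N x) := by
    rw [hK]
    exact Nat.card_congr (Subgroup.equivMapOfInjective _ _ N.subtype_injective).symm.toEquiv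
  -- `K` versus range
  have h5 : Nat.card (K N x) = Nat.card (phi N x).range * Nat.card (commutator N) := by
    have hsurj : Function.Surjective (Abelianization.of : N →* Abelianization N) :=
      QuotientGroup.mk'_surjective _
    have h6 : (K N x).index = (phi N x).range.index :=
      Subgroup.index_comap_of_surjective _ hsurj
    have h7 : Nat.card (K N x) * (K N x).index = Nat.card N := Subgroup.card_mul_index _
    have h8 : Nat.card (phi N x).range * (phi N x).range.index = Nat.card (Abelianization N) :=
      Subgroup.card_mul_index _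
    have h9 : Nat.card (commutator N) * (commutator N).index = Nat.card N :=
      Subgroup.card_mul_index _
    have h10 : (commutator N).index = Nat.card (Abelianization N) := Subgroup.index_eq_card _
    rw [h6] at h7
    rw [h10, ← h8] at h9
    have hpos : 0 < (phi N x).range.index := Nat.pos_of_ne_zero Subgroup.index_ne_zero_of_finite
    have : Nat.card (K N x) * (phi N x).range.index =
        (Nat.card (phi N x).range * Nat.card (commutator N)) * (phi N x).range.index := by
      rw [h7, ← h9]; ring
    exact Nat.eq_of_mul_eq_mul_right hpos this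
  have hpos : 0 < Nat.card (phi N x).range := Nat.card_pos
  have h11 : Nat.card (commutator P) * (commutator P).index = Nat.card N * N.index := by
    rw [h1, h2]
  rw [h4, h5, ← h3] at h11
  have h12 : Nat.card (phi N x).range * ((commutator P).index * Nat.card (commutator N)) =
      Nat.card (phi N x).range * (N.index * Nat.card (phi N x).ker) := by
    nlinarith [h11]
  exact Nat.eq_of_mul_eq_mul_left hpos h12

/-- Let p be a prime, P a finite p-group and N a normal subgroup of P of index p. For x ∈ P write c(x) for the number of elements n of N whose commutator x n x⁻¹ n⁻¹ lies in the derived subgroup N' (so c(x)/#N' is the order of the centralizer of x acting on N/N'). Then [P : P'] = p² if and only if c(x) = p·#N' for every x ∈ P outside N, and also if and only if c(x) = p·#N' for some x ∈ P outside N. -/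
theorem result {P : Type*} [Group P] [Finite P] (p : ℕ) [Fact p.Prime] (hP : IsPGroup p P) (N : Subgroup P) [N.Normal] (hN : N.index = p) :
    ((commutator P).index = p ^ 2 ↔ ∀ x : P, x ∉ N →
        Nat.card {n : N // x * n * x⁻¹ * (n : P)⁻¹ ∈ (commutator N).map N.subtype} = p * Nat.card (commutator N)) ∧
    ((commutator P).index = p ^ 2 ↔ ∃ x : P, x ∉ N ∧
        Nat.card {n : N // x * n * x⁻¹ * (n : P)⁻¹ ∈ (commutator N).map N.subtype} = p * Nat.card (commutator N)) := by
  have hp := (Fact.out : p.Prime)
  have hi : N.index.Prime := by rw [hN]; exact hp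
  have hp0 : 0 < p := hp.pos
  have hpos : 0 < Nat.card (commutator N) := Nat.card_pos
  have hmain : ∀ x : P, x ∉ N → ((commutator P).index = p ^ 2 ↔
      Nat.card {n : N // x * n * x⁻¹ * (n : P)⁻¹ ∈ (commutator N).map N.subtype} = p * Nat.card (commutator N)) := by
    intro x hx
    have h := key_identity N hi x hx
    rw [hN] at h
    constructor
    · intro h2
      rw [h2] at h
      have : p * (p * Nat.card (commutator N)) =
          p * Nat.card {n : N // x * n * x⁻¹ * (n : P)⁻¹ ∈ (commutator N).map N.subtype} := by
        rw [← h]; ring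
      exact (Nat.eq_of_mul_eq_mul_left hp0 this).symm
    · intro h2
      rw [h2] at h
      have : (commutator P).index * Nat.card (commutator N) = p ^ 2 * Nat.card (commutator N) := by
        rw [h]; ring
      exact Nat.eq_of_mul_eq_mul_right hpos this
  obtain ⟨x₀, hx₀⟩ : ∃ x, x ∉ N := by
    by_contra hcon
    push Not at hcon
    have : N = ⊤ := eq_top_iff.mpr (fun y _ => hcon y)
    rw [this, Subgroup.index_top] at hN
    exact hp.one_lt.ne hN
  refine ⟨⟨fun h x hx => (hmain x hx).mp h, fun h => (hmain x₀ hx₀).mpr (h x₀ hx₀)⟩,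
    ⟨fun h => ⟨x₀, hx₀, (hmain x₀ hx₀).mp h⟩, ?_⟩⟩
  rintro ⟨x, hx, hc⟩
  exact (hmain x hx).mpr hc

end Cfsg.Agent.S4586
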