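import Cfsg.Statements.S4587
import Cfsg.Agent.Lib.AbP2.Main

set_option autoImplicit false
open Cfsg
open scoped commutatorElement

namespace Cfsg.Agent.S4587

/-- Let G be a finite group, p a prime and P a Sylow p-subgroup of order at least p². Assume that G has no nontrivial normal subgroup of order prime to p, that the derived subgroup P' of P contains no nontrivial normal subgroup of G, and that G is not almost simple (there is no non-abelian simple normal subgroup of G with trivial centralizer). Then [P : P'] = p² if and only if some p-element x of G has centralizer whose order has p-part exactly p². -/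
theorem result {G : Type*} [Group G] [Finite G] (p : ℕ) [Fact p.Prime] (P : Sylow p G) (hbig : p ^ 2 ∣ Nat.card G) (hcore : Cfsg.pPrimeCore p G = ⊥)
    (hcore' : (⁅(P : Subgroup G), (P : Subgroup G)⁆).normalCore = ⊥) (hnas : ¬ ∃ S : Subgroup G, S.Normal ∧ IsSimpleGroup S ∧ ¬ IsMulCommutative S ∧ Subgroup.centralizer (S : Set G) = ⊥) :
    (⁅(P : Subgroup G), (P : Subgroup G)⁆).relIndex (P : Subgroup G) = p ^ 2 ↔
      ∃ x : G, (∃ k : ℕ, orderOf x = p ^ k) ∧ (Nat.card (Subgroup.centralizer ({x} : Set G))).factorization p = 2 := by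
  classical
  constructor
  · intro hidx
    rw [Lib.AbP2.Final.relIndex_eq] at hidx
    by_cases hab : ∀ a b : (P : Subgroup G), a * b = b * a
    · refine ⟨1, ⟨0, by simp⟩, ?_⟩
      have h1 : commutator (P : Subgroup G) = ⊥ := by
        rw [_root_.commutator_def, eq_bot_iff, Subgroup.commutator_le]
        intro a _ b _
        rw [Subgroup.mem_bot, commutatorElement_eq_one_iff_mul_comm]
        exact hab a b
      rw [h1, Subgroup.index_bot] at hidx
      have h2 := P.card_eq_multiplicity
      rw [hidx] at h2
      have h3 : Subgroup.centralizer ({1} : Set G) = ⊤ := by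
        rw [eq_top_iff]
        intro g _
        rw [Subgroup.mem_centralizer_singleton_iff]
        simp
      rw [h3, Subgroup.card_top]
      exact (Nat.pow_right_injective (Fact.out : p.Prime).two_le h2).symm
    · obtain ⟨hgen, hfr⟩ := Lib.AbP2.Main.frattini_data P.isPGroup' hab hidx
      have hderfrat : Lib.FG7.Tate2Gen.der P = Lib.FG7.Tate2Gen.frat P := by
        rw [Lib.FG7.Tate2Gen.der, Lib.FG7.Tate2Gen.frat, hfr]
      have hfrat : (Lib.FG7.Tate2Gen.frat P).normalCore = ⊥ := by
        rw [← hderfrat, Lib.AbP2.Final.der_eq]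
        exact hcore'
      let M : Subgroup G := Lib.FG7.Tate2Gen.minNormal G
      have hMn : M.Normal := Lib.FG7.Tate2Gen.minNormal_normal
      have hna : ¬ IsMulCommutative (P : Subgroup G) := fun h => hab h.is_comm.comm
      have hDM := Lib.FG7.Tate2Gen.der_le_minNormal P hgen hcore hfrat
      have hMne : M ≠ ⊥ := by
        intro h
        apply Lib.FG7.Tate2Gen.der_ne_bot P hna
        rw [eq_bot_iff]
        exact hDM.trans (le_of_eq h)
      have hMmin : ∀ N : Subgroup G, N.Normal → N ≠ ⊥ → M ≤ N :=
        fun N hN hne => Lib.FG7.Tate2Gen.minNormal_le hN hne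
      have hAnot : ¬ M ⊓ P ≤ Lib.FG7.Tate2Gen.der P := by
        rw [hderfrat]
        exact Lib.FG7.Tate2Gen.not_inf_le_frat P hcore hfrat M hMne
      by_cases hM : ⁅M, M⁆ = ⊥
      · have habM : ∀ a ∈ M, ∀ b ∈ M, a * b = b * a := by
          intro a ha b hb
          have h1 : ⁅a, b⁆ ∈ ⁅M, M⁆ := Subgroup.commutator_mem_commutator ha hb
          rw [hM, Subgroup.mem_bot, commutatorElement_eq_one_iff_mul_comm] at h1
          exact h1
        obtain ⟨t, htP, htM⟩ : ∃ t ∈ (P : Subgroup G), t ∉ M := by
          by_contra hcon
          push Not at hcon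
          apply hab
          intro a b
          apply Subtype.ext
          exact habM a (hcon a a.2) b (hcon b b.2)
        exact Lib.AbP2.Final.exists_good P M hidx hDM hAnot htP htM
          (fun a ha b hb => habM a ha.1 b hb.1)
      · have hperf : ⁅M, M⁆ = M :=
          le_antisymm (Subgroup.commutator_le_left M M) (hMmin _ inferInstance hM)
        obtain ⟨⟨t, htP, htM⟩, hab2⟩ := Lib.AbP2.Main.perfect_case P hna hgen hcore hnas M hMne hMmin
          hperf hidx hDM hAnot
        exact Lib.AbP2.Final.exists_good P M hidx hDM hAnot htP htM hab2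
  · rintro ⟨x, hx, hC⟩
    exact Lib.AbP2.Final.reverse P hbig x hx hC

end Cfsg.Agent.S4587
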