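import Cfsg.Statements.S4588
import Cfsg.Agent.Lib.Contrib.BF

set_option autoImplicit false
set_option linter.style.haveILetI false
open Cfsg

namespace Cfsg.Agent.S4588

open Cfsg.Agent.Lib.Blocks.Local Cfsg.Agent.Lib.Blocks.Central Cfsg.Agent.Lib.Contrib.D1Loc
open Cfsg.Agent.Lib.Contrib.Sec Cfsg.Agent.Lib.Contrib.Proj

/-- Let G be a finite group, p a prime and M a maximal ideal of the algebraic integers containing p. If some p-element x of G (possibly x = 1) has centralizer whose order has p-part at most p², then the principal p-block of G contains at most p² irreducible characters of degree prime to p. -/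
theorem result {G : Type*} [Group G] [Finite G] (p : ℕ) [Fact p.Prime] (M : Ideal Cfsg.AlgInt) (hM : Cfsg.IsPModular p M)
    (hx : ∃ x : G, (∃ k : ℕ, orderOf x = p ^ k) ∧ (Nat.card (Subgroup.centralizer ({x} : Set G))).factorization p ≤ 2) :
    Nat.card {χ : Cfsg.IrrCharacter G // χ ∈ Cfsg.principalBlock M G ∧ ¬ p ∣ Cfsg.charDegree (χ : G → ℂ)} ≤ p ^ 2 := by
  classical
  cases nonempty_fintype G
  haveI := Cfsg.Agent.Lib.Char.Ortho.finite_irrCharacter (G := G)
  letI : Fintype (IrrCharacter G) := Fintype.ofFinite _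
  haveI := isPrime_of_pModular hM
  have hpp : p.Prime := Fact.out
  have hB : IsPBlock M (principalBlock M G) := Cfsg.Agent.Lib.Blocks.Third.isPBlock_principal M
  letI : Fintype (principalBlock M G) := Fintype.ofFinite _
  obtain ⟨x, ⟨k₀, hk₀⟩, hxc⟩ := hx
  by_cases hex : ∃ z : G, (∃ k : ℕ, 1 ≤ k ∧ orderOf z = p ^ k) ∧
      (Nat.card (Subgroup.centralizer ({z} : Set G))).factorization p ≤ 2
  · obtain ⟨z, ⟨k, hk1, hk⟩, hz⟩ := hex
    letI : Fintype (KK z) := Fintype.ofFinite _
    haveI := Cfsg.Agent.Lib.Char.Ortho.finite_irrCharacter (G := KK z)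
    letI : Fintype (IrrCharacter (KK z)) := Fintype.ofFinite _
    have hP := Cfsg.Agent.Lib.Blocks.Main.isBrauerPair_zpowers (p := p) (x := z) ⟨k, hk⟩
    have hb : IsInducedBlock M (KK z) (principalBlock M (KK z)) (principalBlock M G) :=
      (Cfsg.Agent.Lib.Blocks.Third.third_main hM (KK z)
        (Cfsg.Agent.Lib.Blocks.Induced.exists_induced hM hP (Cfsg.Agent.Lib.Blocks.Third.isPBlock_principal M))).mpr rfl
    have hdb : blockDefect p (principalBlock M (KK z)) ≤ 2 := (Nat.sub_le _ _).trans hz
    have h1 := Cfsg.Agent.Lib.Contrib.BF.card_filter_le hM hk hk1 hB hb hdb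
    refine le_trans ?_ (h1.trans (Nat.pow_le_pow_right hpp.pos hdb))
    rw [← Fintype.card_coe, ← Nat.card_eq_fintype_card]
    refine Nat.card_le_card_of_injective (fun χ => ⟨⟨χ.1, χ.2.1⟩, Finset.mem_filter.mpr ⟨Finset.mem_univ _, ?_⟩⟩) ?_
    · intro h0
      have hχ0 : blockHeight p (principalBlock M G) (χ.1 : G → ℂ) = 0 := by
        change (charDegree (χ.1 : G → ℂ)).factorization p - _ = 0
        rw [Nat.factorization_eq_zero_of_not_dvd χ.2.2, Nat.zero_sub]
      apply section_value_notMem hM ⟨k, hk⟩ hB hb χ.2.1 hχ0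
      rw [h0]
      simp only [Pi.zero_apply, zero_div]
      exact memLocalIdeal_zero
    · intro a c hac
      apply Subtype.ext
      have h2 := congrArg (fun s => ((s : principalBlock M G) : IrrCharacter G)) (congrArg Subtype.val hac)
      exact h2
  · -- `x = 1`, and `p` does not divide the order of `G`
    have hk₀0 : k₀ = 0 := by
      by_contra hne
      exact hex ⟨x, ⟨k₀, Nat.one_le_iff_ne_zero.mpr hne, hk₀⟩, hxc⟩
    subst hk₀0
    rw [pow_zero, orderOf_eq_one_iff] at hk₀
    subst hk₀
    have hGf : (Nat.card G).factorization p ≤ 2 := by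
      have h1 : Subgroup.centralizer ({(1 : G)} : Set G) = ⊤ := by
        rw [eq_top_iff]
        intro c _
        exact Subgroup.mem_centralizer_singleton_iff.mpr (by simp)
      rw [h1, Subgroup.card_top] at hxc
      exact hxc
    have hpG : ¬ p ∣ Nat.card G := by
      intro hd
      obtain ⟨z, hz⟩ := exists_prime_orderOf_dvd_card' p hd
      apply hex
      refine ⟨z, ⟨1, le_rfl, by rw [pow_one, hz]⟩, le_trans ?_ hGf⟩
      exact (Nat.factorization_le_iff_dvd Nat.card_pos.ne' Nat.card_pos.ne').mpr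
        (Subgroup.card_subgroup_dvd_card _) p
    have hd0 : blockDefect p (principalBlock M G) = 0 := by
      change (Nat.card G).factorization p - _ = 0
      rw [Nat.factorization_eq_zero_of_not_dvd hpG, Nat.zero_sub]
    obtain ⟨φ, hφ⟩ := Cfsg.Agent.Lib.Contrib.D1Main.exists_eq_singleton hM hB hd0
    have h1 : Nat.card {χ : Cfsg.IrrCharacter G // χ ∈ Cfsg.principalBlock M G ∧ ¬ p ∣ Cfsg.charDegree (χ : G → ℂ)} ≤ 1 := by
      rw [Finite.card_le_one_iff_subsingleton]
      constructor
      intro a c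
      apply Subtype.ext
      have ha : a.1 ∈ ({φ} : Set (IrrCharacter G)) := hφ ▸ a.2.1
      have hc : c.1 ∈ ({φ} : Set (IrrCharacter G)) := hφ ▸ c.2.1
      rw [Set.mem_singleton_iff] at ha hc
      rw [ha, hc]
    exact h1.trans (Nat.one_le_pow _ _ hpp.pos)

end Cfsg.Agent.S4588
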