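import Cfsg.Statements.S4591
import Cfsg.Agent.Lib.PrimeKer.Main

set_option autoImplicit false
open Cfsg

namespace Cfsg.Agent.S4591

/-- Let G be a finite group, p a prime and P a Sylow p-subgroup, and let N be the largest normal subgroup of G in which P has trivial centralizer (N is normal with C_N(P) = 1 and contains every normal subgroup with that property). Then the intersection of the kernels of the irreducible characters of G of degree prime to p is the normal core in G of the subgroup N·P' (P' the derived subgroup of P). In particular, when G has no nontrivial normal subgroup of order prime to p, that intersection is the normal core of P'. -/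
theorem result {G : Type*} [Group G] [Finite G] (p : ℕ) [Fact p.Prime] (P : Sylow p G) (N : Subgroup G) [N.Normal]
    (hN : N ⊓ Subgroup.centralizer ((P : Subgroup G) : Set G) = ⊥)
    (hmax : ∀ L : Subgroup G, L.Normal → L ⊓ Subgroup.centralizer ((P : Subgroup G) : Set G) = ⊥ → L ≤ N) :
    {g : G | ∀ χ : Cfsg.IrrCharacter G, ¬ p ∣ Cfsg.charDegree (χ : G → ℂ) → (χ : G → ℂ) g = (χ : G → ℂ) 1} =
      ((N ⊔ ⁅(P : Subgroup G), (P : Subgroup G)⁆).normalCore : Set G) := by
  exact Cfsg.Agent.Lib.PrimeKer.Main.main P N hN hmax

end Cfsg.Agent.S4591
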