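import Cfsg.Statements.S4602
import Cfsg.Agent.Lib.Solvable.SylowNorm

set_option autoImplicit false
open Cfsg

namespace Cfsg.Agent.S4602

/-- Let G be a finite p-solvable group and q a prime different from p. Some Sylow p-subgroup of G normalizes some Sylow q-subgroup of G if and only if q does not divide the order of G/O_{p'}(G), the quotient by the largest normal subgroup of order prime to p. -/
theorem result {G : Type*} [Group G] [Finite G] (p q : ℕ) [Fact p.Prime] [Fact q.Prime] (hpq : p ≠ q) (hsolv : Cfsg.IsPSolvable p G) :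
    (∃ (P : Sylow p G) (Q : Sylow q G), (P : Subgroup G) ≤ Subgroup.normalizer ((Q : Subgroup G) : Set G)) ↔ ¬ q ∣ (Cfsg.pPrimeCore p G).index := by
  exact ⟨fun ⟨P, Q, h⟩ => Cfsg.Agent.Lib.Solvable.SylowNorm.not_dvd_index_of_normalizes hpq hsolv P Q h,
    Cfsg.Agent.Lib.Solvable.SylowNorm.exists_normalizes_of_not_dvd⟩

end Cfsg.Agent.S4602
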