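import Cfsg.Statements.S4604
import Cfsg.Agent.Lib.Char.Eigen
import Cfsg.Agent.Lib.Char.Central
import Cfsg.Agent.Lib.Char.Complete
import Cfsg.Agent.Lib.CharDeep.PElt

set_option autoImplicit false
open Cfsg

namespace Cfsg.Agent.S4604

open scoped ComplexConjugate

/-- Trace of a character averaged over a subgroup commuting with `u` is integral. -/
theorem avg_isIntegral {G : Type*} [Group G] [Finite G] {V : Type*} [AddCommGroup V] [Module ℂ V]
    [FiniteDimensional ℂ V] (ρ : Representation ℂ G V) (u : G) (S : Subgroup G)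
    (hS : ∀ s ∈ S, Commute u s) [Fintype S] :
    IsIntegral ℤ ((Nat.card S : ℂ)⁻¹ * ∑ s : S, ρ.character (u * s)) := by
  classical
  have hn0 : (Nat.card S : ℂ) ≠ 0 := Nat.cast_ne_zero.mpr Nat.card_pos.ne'
  let e : Module.End ℂ V := (Nat.card S : ℂ)⁻¹ • ∑ s : S, ρ (s : G)
  have hmul : ∀ t : S, ρ (t : G) * e = e := by
    intro t
    simp only [e, mul_smul_comm, Finset.mul_sum, ← map_mul]
    congr 1
    exact Fintype.sum_equiv (Equiv.mulLeft t) _ _ fun s => by simp
  have he2 : IsIdempotentElem e := by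
    change e * e = e
    have h1 : e * e = (Nat.card S : ℂ)⁻¹ • ∑ s : S, (ρ (s : G) * e) := by
      simp only [e, Finset.sum_mul, smul_mul_assoc]
    rw [h1]
    simp only [hmul, Finset.sum_const, Finset.card_univ, ← Nat.card_eq_fintype_card]
    rw [← Nat.cast_smul_eq_nsmul ℂ, smul_smul, inv_mul_cancel₀ hn0, one_smul]
  have hcomm : Commute (ρ u) e := by
    change ρ u * e = e * ρ u
    simp only [e, mul_smul_comm, smul_mul_assoc, Finset.mul_sum, Finset.sum_mul, ← map_mul]
    congr 1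
    refine Finset.sum_congr rfl fun s _ => ?_
    rw [(hS s s.2).eq]
  let T : Module.End ℂ V := ρ u * e + (1 - e)
  have hpow : ∀ k : ℕ, T ^ (k + 1) = ρ u ^ (k + 1) * e + (1 - e) := by
    intro k
    induction k with
    | zero => simp [T]
    | succ k ih =>
      rw [pow_succ, ih]
      have h1 : e * ρ u = ρ u * e := hcomm.eq.symm
      have h2 : e * e = e := he2
      simp only [T, mul_add, add_mul, mul_sub, sub_mul, mul_one, one_mul]
      have h3 : ρ u ^ (k + 1) * e * (ρ u * e) = ρ u ^ (k + 1 + 1) * e := by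
        calc ρ u ^ (k + 1) * e * (ρ u * e) = ρ u ^ (k + 1) * (e * ρ u) * e := by
              simp only [mul_assoc]
          _ = ρ u ^ (k + 1) * (ρ u * e) * e := by rw [h1]
          _ = ρ u ^ (k + 1) * ρ u * (e * e) := by simp only [mul_assoc]
          _ = _ := by rw [h2, pow_succ (ρ u) (k + 1)]
      have h4 : ρ u ^ (k + 1) * e * e = ρ u ^ (k + 1) * e := by rw [mul_assoc, h2]
      have h5 : e * (ρ u * e) = ρ u * e := by
        rw [← mul_assoc, h1, mul_assoc, h2]
      rw [h3, h4, h5, h2]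
      abel
  have hTn : T ^ orderOf u = 1 := by
    obtain ⟨k, hk⟩ : ∃ k, orderOf u = k + 1 := Nat.exists_eq_succ_of_ne_zero (orderOf_pos u).ne'
    rw [hk, hpow, ← hk, ← map_pow, pow_orderOf_eq_one, map_one, one_mul]
    abel
  obtain ⟨b, μ, h1, h2⟩ := Cfsg.Agent.Lib.Char.Eigen.exists_eigenbasis_of_pow_eq_one T
    (orderOf_pos u).ne' hTn
  have htr : IsIntegral ℤ (LinearMap.trace ℂ V T) := by
    rw [Cfsg.Agent.Lib.Char.Eigen.trace_eq_sum_of_eigenbasis b μ h1]
    exact IsIntegral.sum _ fun i _ =>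
      Cfsg.Agent.Lib.Char.Eigen.isIntegral_of_pow_eq_one (orderOf_pos u).ne' (h2 i)
  have hte : LinearMap.trace ℂ V e = (Module.finrank ℂ (LinearMap.range e) : ℂ) :=
    (LinearMap.IsIdempotentElem.isProj_range e he2).trace
  have hgoal : (Nat.card S : ℂ)⁻¹ * ∑ s : S, ρ.character (u * s) =
      LinearMap.trace ℂ V T - (Module.finrank ℂ V : ℂ) + (Module.finrank ℂ (LinearMap.range e) : ℂ) := by
    have h3 : LinearMap.trace ℂ V T = LinearMap.trace ℂ V (ρ u * e) + (Module.finrank ℂ V : ℂ) -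
        LinearMap.trace ℂ V e := by
      simp only [T, map_add, map_sub]
      rw [show (1 : Module.End ℂ V) = LinearMap.id from rfl, LinearMap.trace_id]
      ring
    have h4 : LinearMap.trace ℂ V (ρ u * e) = (Nat.card S : ℂ)⁻¹ * ∑ s : S, ρ.character (u * s) := by
      simp only [e, mul_smul_comm, Finset.mul_sum, ← map_mul, map_smul, map_sum, smul_eq_mul]
      rfl
    rw [h3, h4, hte]
    ring
  rw [hgoal]
  exact (htr.sub (isIntegral_natCast _)).add (isIntegral_natCast _)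

/-- Frobenius for characters. -/
theorem exists_char_pow_eq {G : Type*} [Group G] [Finite G] (χ : Cfsg.IrrCharacter G) (p : ℕ)
    (hp : p.Prime) (a : ℕ) (g : G) :
    ∃ γ : Cfsg.AlgInt, (χ : G → ℂ) g ^ p ^ a = (χ : G → ℂ) (g ^ p ^ a) + (p : ℂ) * (γ : ℂ) := by
  obtain ⟨χ, n, ρ, hρ, rfl⟩ := χ
  obtain ⟨μ, h1, h2⟩ := Cfsg.Agent.Lib.Char.Eigen.character_eq_sum_roots ρ g
  have hint : ∀ i, IsIntegral ℤ (μ i) := fun i =>
    Cfsg.Agent.Lib.Char.Eigen.isIntegral_of_pow_eq_one (orderOf_pos g).ne' (h1 i)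
  let m : Fin (Module.finrank ℂ (Fin n → ℂ)) → Cfsg.AlgInt := fun i => ⟨μ i, hint i⟩
  obtain ⟨r, hr⟩ := Cfsg.Agent.Lib.CharDeep.PElt.exists_sum_pow_eq (R := Cfsg.AlgInt) hp a Finset.univ m
  refine ⟨r, ?_⟩
  have h3 := congrArg (integralClosure ℤ ℂ).val hr
  simp only [map_add, map_mul, map_pow, map_sum, map_natCast] at h3
  have hv : ∀ i, (integralClosure ℤ ℂ).val (m i) = μ i := fun i => rfl
  simp only [hv] at h3
  change ρ.character g ^ p ^ a = ρ.character (g ^ p ^ a) + _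
  have h4 := h2 1
  rw [pow_one] at h4
  rw [h4, h2 (p ^ a)]
  simpa using h3

/-- Separation of `p`-regular classes modulo `p`. -/
theorem isConj_of_congr {G : Type*} [Group G] [Finite G] (p : ℕ) [Fact p.Prime] {u v : G}
    (hu : ¬ p ∣ orderOf u) (hv : ¬ p ∣ orderOf v)
    (h : ∀ χ : Cfsg.IrrCharacter G, ∃ γ : Cfsg.AlgInt,
      (χ : G → ℂ) u - (χ : G → ℂ) v = (p : ℂ) * (γ : ℂ)) : IsConj u v := by
  classical
  by_contra hnc
  letI := Fintype.ofFinite G
  haveI := Cfsg.Agent.Lib.Char.Ortho.finite_irrCharacter (G := G)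
  letI := Fintype.ofFinite (Cfsg.IrrCharacter G)
  have hp : p.Prime := Fact.out
  let C := Subgroup.centralizer ({u} : Set G)
  let P : Sylow p C := default
  let S : Subgroup G := (P : Subgroup C).map C.subtype
  letI : Fintype S := Fintype.ofFinite S
  have hS : ∀ s ∈ S, Commute u s := by
    rintro s ⟨t, -, rfl⟩
    have := Subgroup.mem_centralizer_iff.mp t.2 u (Set.mem_singleton u)
    exact this
  have hSp : ∀ s : S, ∃ k : ℕ, (s : G) ^ p ^ k = 1 := by
    rintro ⟨s, t, ht, rfl⟩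
    obtain ⟨k, hk⟩ := P.isPGroup' ⟨t, ht⟩
    refine ⟨k, ?_⟩
    have := congrArg (fun z : P => ((z : C) : G)) hk
    simpa using this
  have hreg : ∀ (w : G) (s : S), ¬ p ∣ orderOf w → IsConj w (u * s) → s = 1 := by
    intro w s hw hc
    obtain ⟨c, hc⟩ := isConj_iff.mp hc
    have h1 : orderOf (u * s) = orderOf w := by
      rw [← hc]; exact (MulAut.conj c).orderOf_eq w
    obtain ⟨k, hk⟩ := hSp s
    by_contra hs1
    have hs1' : (s : G) ≠ 1 := fun h0 => hs1 (Subtype.ext h0)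
    have hord : p ∣ orderOf (s : G) := by
      have h2 := orderOf_dvd_of_pow_eq_one hk
      obtain ⟨j, -, hj⟩ := (Nat.dvd_prime_pow hp).mp h2
      rw [hj]
      have hj0 : j ≠ 0 := by
        rintro rfl
        rw [pow_zero, orderOf_eq_one_iff] at hj
        exact hs1' hj
      exact dvd_pow_self p hj0
    have hcop : Nat.Coprime (orderOf u) (orderOf (s : G)) := by
      have h2 := orderOf_dvd_of_pow_eq_one hk
      exact Nat.Coprime.coprime_dvd_right h2 (Nat.Coprime.pow_right _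
        ((Nat.Prime.coprime_iff_not_dvd hp).mpr hu).symm)
    have h3 : orderOf (u * s) = orderOf u * orderOf (s : G) :=
      (hS s s.2).orderOf_mul_eq_mul_orderOf_of_coprime hcop
    exact hw (h1 ▸ h3 ▸ Dvd.dvd.mul_left hord _)
  -- the averaged coefficients
  let a : Cfsg.IrrCharacter G → ℂ := fun χ =>
    (Nat.card S : ℂ)⁻¹ * ∑ s : S, conj ((χ : G → ℂ) (u * s))
  have haint : ∀ χ, IsIntegral ℤ (a χ) := by
    rintro ⟨χ, n, ρ, hρ, rfl⟩
    have h1 := avg_isIntegral ρ u S hS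
    have h2 : a ⟨ρ.character, n, ρ, hρ, rfl⟩ =
        conj ((Nat.card S : ℂ)⁻¹ * ∑ s : S, ρ.character (u * s)) := by
      simp only [a, map_mul, map_inv₀, map_natCast, map_sum]
    rw [h2]
    exact h1.map (starRingEnd ℂ).toIntAlgHom
  have hsum : ∀ g : G, ∑ χ : Cfsg.IrrCharacter G, a χ * (χ : G → ℂ) g =
      (Nat.card S : ℂ)⁻¹ * ∑ s : S, if IsConj g (u * s) then
        (Nat.card (Subgroup.centralizer ({u * (s : G)} : Set G)) : ℂ) else 0 := by
    intro g
    simp only [a, mul_assoc, ← Finset.mul_sum]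
    congr 1
    simp only [Finset.sum_mul]
    rw [Finset.sum_comm]
    refine Finset.sum_congr rfl fun s _ => ?_
    refine Eq.trans (Finset.sum_congr rfl fun χ _ => mul_comm _ _) ?_
    convert Cfsg.Agent.Lib.Char.Complete.sum_irr_mul_conj g (u * (s : G))
  have hone : (1 : S) ∈ (Finset.univ : Finset S) := Finset.mem_univ _
  have hu1 := hsum u
  have hv1 := hsum v
  have hu2 : (∑ s : S, if IsConj u (u * s) then
        (Nat.card (Subgroup.centralizer ({u * (s : G)} : Set G)) : ℂ) else 0) =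
      (Nat.card C : ℂ) := by
    rw [Finset.sum_eq_single (1 : S)]
    · simp only [OneMemClass.coe_one, mul_one]
      rw [if_pos (IsConj.refl u)]
    · intro s _ hs
      rw [if_neg]
      exact fun hc => hs (hreg u s hu hc)
    · simp
  have hv2 : (∑ s : S, if IsConj v (u * s) then
        (Nat.card (Subgroup.centralizer ({u * (s : G)} : Set G)) : ℂ) else 0) = 0 := by
    refine Finset.sum_eq_zero fun s _ => ?_
    rw [if_neg]
    intro hc
    have := hreg v s hv hc
    subst this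
    apply hnc
    simpa using hc.symm
  rw [hu2] at hu1
  rw [hv2, mul_zero] at hv1
  choose γ hγ using h
  have hdiff : (Nat.card S : ℂ)⁻¹ * (Nat.card C : ℂ) = (p : ℂ) * ∑ χ, a χ * (γ χ : ℂ) := by
    rw [← hu1, Finset.mul_sum, ← sub_zero (∑ χ : Cfsg.IrrCharacter G, a χ * (χ : G → ℂ) u), ← hv1,
      ← Finset.sum_sub_distrib]
    refine Finset.sum_congr rfl fun χ _ => ?_
    rw [← mul_sub, hγ χ]
    ring
  have hcard : Nat.card S = Nat.card P := by
    have : Nat.card S = Nat.card (P : Subgroup C) :=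
      Subgroup.card_map_of_injective (Subtype.val_injective)
    exact this
  have hidx : Nat.card C = (P : Subgroup C).index * Nat.card S := by
    rw [hcard, mul_comm]
    exact ((P : Subgroup C).card_mul_index).symm
  have hSne : (Nat.card S : ℂ) ≠ 0 := Nat.cast_ne_zero.mpr Nat.card_pos.ne'
  have hp0 : (p : ℂ) ≠ 0 := Nat.cast_ne_zero.mpr hp.ne_zero
  have hquot : (((P : Subgroup C).index : ℕ) : ℂ) / (p : ℂ) = ∑ χ, a χ * (γ χ : ℂ) := by
    rw [div_eq_iff hp0, mul_comm _ (p : ℂ), ← hdiff, hidx]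
    push_cast
    field_simp
  have hint : IsIntegral ℤ ((((P : Subgroup C).index : ℕ) : ℂ) / (p : ℂ)) := by
    rw [hquot]
    exact IsIntegral.sum _ fun χ _ => (haint χ).mul (γ χ).2
  exact P.not_dvd_index (Cfsg.Agent.Lib.Char.Central.nat_dvd_of_isIntegral_div hp.ne_zero hint)


/-- Let G be a finite group, p a prime and p^a the p-part of the order of G. Let x, y ∈ G and let x′, y′ be their p-regular parts: x′ has order prime to p, commutes with x·x′⁻¹, and x·x′⁻¹ has p-power order (likewise for y). Then x′ and y′ are conjugate in G if and only if for every irreducible character χ of G the algebraic integer χ(x)^(p^a) − χ(y)^(p^a) is p times an algebraic integer. -/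
theorem result {G : Type*} [Group G] [Finite G] (p : ℕ) [Fact p.Prime] (x y x' y' : G)
    (hx : (∃ k : ℕ, orderOf (x * x'⁻¹) = p ^ k) ∧ Commute (x * x'⁻¹) x' ∧ ¬ p ∣ orderOf x')
    (hy : (∃ k : ℕ, orderOf (y * y'⁻¹) = p ^ k) ∧ Commute (y * y'⁻¹) y' ∧ ¬ p ∣ orderOf y') :
    IsConj x' y' ↔ ∀ χ : Cfsg.IrrCharacter G, ∃ γ : Cfsg.AlgInt,
      (χ : G → ℂ) x ^ (p ^ (Nat.card G).factorization p) - (χ : G → ℂ) y ^ (p ^ (Nat.card G).factorization p) = (p : ℂ) * (γ : ℂ) := by
  classical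
  have hp : p.Prime := Fact.out
  set a := (Nat.card G).factorization p with ha
  have hq : ∀ z : G, (∃ k : ℕ, orderOf z = p ^ k) → z ^ p ^ a = 1 := by
    rintro z ⟨k, hk⟩
    have h1 : orderOf z ∣ Nat.card G := orderOf_dvd_natCard z
    rw [hk] at h1
    have h2 : p ^ k ∣ p ^ a := (Nat.Prime.pow_dvd_iff_le_factorization hp Nat.card_pos.ne').mp h1 |> pow_dvd_pow p
    exact orderOf_dvd_iff_pow_eq_one.mp (hk ▸ h2)
  have hxq : x ^ p ^ a = x' ^ p ^ a := by
    have h1 : x = (x * x'⁻¹) * x' := by group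
    conv_lhs => rw [h1]
    rw [hx.2.1.mul_pow, hq _ hx.1, one_mul]
  have hyq : y ^ p ^ a = y' ^ p ^ a := by
    have h1 : y = (y * y'⁻¹) * y' := by group
    conv_lhs => rw [h1]
    rw [hy.2.1.mul_pow, hq _ hy.1, one_mul]
  constructor
  · intro hc χ
    obtain ⟨γ₁, h1⟩ := exists_char_pow_eq χ p hp a x
    obtain ⟨γ₂, h2⟩ := exists_char_pow_eq χ p hp a y
    refine ⟨γ₁ - γ₂, ?_⟩
    have hc' : IsConj (x' ^ p ^ a) (y' ^ p ^ a) := by
      obtain ⟨c, hc⟩ := isConj_iff.mp hc
      refine isConj_iff.mpr ⟨c, ?_⟩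
      rw [← hc, conj_pow]
    have h3 : (χ : G → ℂ) (x' ^ p ^ a) = (χ : G → ℂ) (y' ^ p ^ a) :=
      Cfsg.Agent.Lib.Char.Complete.isClassFunction_iff_isConj.mp
        (Cfsg.Agent.Lib.Char.Basic.isClassFunction_of_isIrrCharacter χ.2) _ _ hc'
    rw [h1, h2, hxq, hyq, h3]
    push_cast
    ring
  · intro h
    have hcopx : Nat.Coprime (p ^ a) (orderOf x') :=
      Nat.Coprime.pow_left _ ((Nat.Prime.coprime_iff_not_dvd hp).mpr hx.2.2)
    have hcopy : Nat.Coprime (p ^ a) (orderOf y') :=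
      Nat.Coprime.pow_left _ ((Nat.Prime.coprime_iff_not_dvd hp).mpr hy.2.2)
    have hox : ¬ p ∣ orderOf (x' ^ p ^ a) := fun hd => hx.2.2 (hd.trans (orderOf_pow_dvd _))
    have hoy : ¬ p ∣ orderOf (y' ^ p ^ a) := fun hd => hy.2.2 (hd.trans (orderOf_pow_dvd _))
    have hconj : IsConj (x' ^ p ^ a) (y' ^ p ^ a) := by
      refine isConj_of_congr p hox hoy fun χ => ?_
      obtain ⟨γ, hγ⟩ := h χ
      obtain ⟨γ₁, h1⟩ := exists_char_pow_eq χ p hp a x
      obtain ⟨γ₂, h2⟩ := exists_char_pow_eq χ p hp a y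
      refine ⟨γ - γ₁ + γ₂, ?_⟩
      rw [← hxq, ← hyq]
      push_cast
      rw [mul_add, mul_sub, ← hγ, h1, h2]
      ring
    -- invert the power map on ⟨x'⟩ and ⟨y'⟩
    obtain ⟨c, hc⟩ := isConj_iff.mp hconj
    have hcop : Nat.Coprime (p ^ a) (orderOf ((x', y') : G × G)) := by
      rw [Prod.orderOf_mk]
      exact Nat.Coprime.coprime_dvd_right (Nat.lcm_dvd (dvd_mul_right _ _) (dvd_mul_left _ _))
        (Nat.Coprime.mul_right hcopx hcopy)
    obtain ⟨m, hm⟩ := exists_pow_eq_self_of_coprime hcop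
    have hm1 : (x' ^ p ^ a) ^ m = x' := by
      simpa using congrArg Prod.fst hm
    have hm2 : (y' ^ p ^ a) ^ m = y' := by
      simpa using congrArg Prod.snd hm
    refine isConj_iff.mpr ⟨c, ?_⟩
    rw [← hm2, ← hc, conj_pow, hm1]

end Cfsg.Agent.S4604
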