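import Cfsg.Statements.S4607
import Cfsg.Agent.Lib.BlockAlg.Brandt
import Cfsg.Agent.Lib.BlockD1.OrderTwo
import Cfsg.Agent.Lib.BlockT.Inflate2
import Cfsg.Agent.Lib.BlockP.RegPair
import Cfsg.Agent.Lib.Blocks.Rank1

set_option autoImplicit false
open Cfsg

namespace Cfsg.Agent.S4607

theorem aux_val (p : ℕ) (d a δ v : ℕ) (hd : d ≠ 0)
    (hv : d.factorization p = v) (hsum : (d ^ 2 + d ^ 2).factorization p = 2 * a - δ) (ha : v + δ = a) :
    δ = (2 : ℕ).factorization p := by
  have h1 : d ^ 2 + d ^ 2 = 2 * d ^ 2 := by ring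
  rw [h1, Nat.factorization_mul (by norm_num) (pow_ne_zero _ hd), Nat.factorization_pow] at hsum
  simp only [Finsupp.coe_add, Pi.add_apply, Finsupp.smul_apply, smul_eq_mul, hv] at hsum
  omega
theorem aux_gen {G : Type*} [Group G] (D : Subgroup G) (h2 : Nat.card D = 2) :
    ∃ x : G, orderOf x = 2 ∧ D = Subgroup.zpowers x := by
  haveI : Fact (Nat.card D).Prime := ⟨by rw [h2]; exact Nat.prime_two⟩
  haveI : IsCyclic D := isCyclic_of_prime_card rfl
  obtain ⟨g, hg⟩ := IsCyclic.exists_generator (α := D)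
  have hoD : orderOf g = 2 := by
    rw [← h2]
    exact orderOf_eq_card_of_forall_mem_zpowers hg
  refine ⟨g, ?_, ?_⟩
  · rw [Subgroup.orderOf_coe]
    exact hoD
  · ext y
    constructor
    · intro hy
      obtain ⟨k, hk⟩ := hg ⟨y, hy⟩
      refine ⟨k, ?_⟩
      have := congrArg (Subtype.val) hk
      simpa using this
    · rintro ⟨k, rfl⟩
      exact D.zpow_mem g.2 k

/-- Let G be a finite group, p a prime, M a maximal ideal of the algebraic integers containing p, and B a p-block of G with defect group D. Then B contains exactly two irreducible characters if and only if D has order 2. -/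
theorem result {G : Type*} [Group G] [Finite G] (p : ℕ) [Fact p.Prime] (M : Ideal Cfsg.AlgInt) (hM : Cfsg.IsPModular p M) (B : Set (Cfsg.IrrCharacter G)) (hB : Cfsg.IsPBlock M B) (D : Subgroup G) (hD : Cfsg.IsDefectGroup p M B D) : Nat.card B = 2 ↔ Nat.card D = 2 := by
  classical
  cases nonempty_fintype G
  haveI := Cfsg.Agent.Lib.Blocks.Local.isPrime_of_pModular hM
  haveI := Cfsg.Agent.Lib.Char.Ortho.finite_irrCharacter (G := G)
  letI := Fintype.ofFinite (Cfsg.IrrCharacter G)
  have hp : p.Prime := Fact.out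
  have hcardD := Cfsg.Agent.Lib.Blocks.Inducing.card_eq_pow_blockDefect hM hB hD
  constructor
  · intro h2
    obtain ⟨χ₁, χ₂, hne, hBeq⟩ := Set.ncard_eq_two.mp (by rwa [← Nat.card_coe_set_eq])
    have hdeg := Cfsg.Agent.Lib.BlockAlg.degrees_eq_of_block_two hB hne hBeq
    have hfs := Cfsg.Agent.Lib.BlockP.RegPair.factorization_sum_sq hM hB
    have hχ₁B : χ₁ ∈ B := by rw [hBeq]; simp
    have hχ₂B : χ₂ ∈ B := by rw [hBeq]; simp
    have hmin := Cfsg.Agent.Lib.Blocks.RegPart2.minExp_add_blockDefect (p := p) hχ₁B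
    have hminval : Cfsg.Agent.Lib.BlockP.Defect.minExp p B = (Cfsg.charDegree (χ₁ : G → ℂ)).factorization p := by
      rw [Cfsg.Agent.Lib.BlockP.Defect.minExp]
      have h1 : (fun χ : Cfsg.IrrCharacter G => (Cfsg.charDegree (χ : G → ℂ)).factorization p) '' B =
          {(Cfsg.charDegree (χ₁ : G → ℂ)).factorization p} := by
        rw [hBeq, Set.image_pair, hdeg, Set.pair_eq_singleton]
      rw [h1, csInf_singleton]
    rw [hBeq, finsum_mem_pair hne, hdeg, ← hBeq] at hfs
    have hval := aux_val p (Cfsg.charDegree (χ₂ : G → ℂ)) _ (Cfsg.blockDefect p B) _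
      (Cfsg.Agent.Lib.Blocks.Heights.charDegree_ne_zero_irr χ₂) (by rw [← hdeg]; exact hminval.symm) hfs hmin
    by_cases hp2 : p = 2
    · subst hp2
      rw [hcardD, hval]
      simp [Nat.prime_two.factorization_self]
    · exfalso
      have h0 : Cfsg.blockDefect p B = 0 := by
        rw [hval]
        exact Nat.factorization_eq_zero_of_not_dvd (fun h => hp2 ((Nat.prime_dvd_prime_iff_eq hp Nat.prime_two).mp h))
      have h1 := Cfsg.Agent.Lib.Blocks.Rank1.eq_singleton_of_blockDefect_eq_zero hM hB hχ₁B h0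
      rw [h1] at hχ₂B
      exact hne (Set.mem_singleton_iff.mp hχ₂B).symm
  · intro h2
    -- the prime is `2`
    have hp2 : p = 2 := by
      rw [h2] at hcardD
      have hδ : Cfsg.blockDefect p B ≠ 0 := by
        intro h0
        rw [h0, pow_zero] at hcardD
        omega
      have h1 : p ∣ 2 := by
        rw [hcardD]
        exact dvd_pow_self p hδ
      exact (Nat.prime_dvd_prime_iff_eq hp Nat.prime_two).mp h1
    subst hp2
    -- `D` is generated by an involution
    obtain ⟨x, hx, rfl⟩ := aux_gen D h2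
    letI : Fintype (Subgroup.centralizer ({x} : Set G)) := Fintype.ofFinite _
    haveI := Cfsg.Agent.Lib.Char.Ortho.finite_irrCharacter (G := Subgroup.centralizer ({x} : Set G))
    letI : Fintype (Cfsg.IrrCharacter (Subgroup.centralizer ({x} : Set G))) := Fintype.ofFinite _
    letI : Fintype (ConjClasses (Subgroup.centralizer ({x} : Set G))) := Fintype.ofFinite _
    have hP := Cfsg.Agent.Lib.Blocks.Main.isBrauerPair_zpowers (p := 2) (x := x) ⟨1, by rw [hx, pow_one]⟩
    obtain ⟨b, hb⟩ := Cfsg.Agent.Lib.Blocks.Defect2.exists_induced_of_le_defect hM hP hB hD (x := 1) (by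
      intro u hu
      obtain ⟨v, hv, rfl⟩ := hu
      simpa using hv)
    have hn := Cfsg.Agent.Lib.BlockD1.OrderTwo.normal_subgroupOf_zpowers x
    have hpg : IsPGroup 2 ((Subgroup.zpowers x).subgroupOf (Subgroup.centralizer ({x} : Set G))) :=
      (hP.isP).comap_of_injective _ (Subgroup.subtype_injective _)
    letI : Fintype ((Subgroup.zpowers x).subgroupOf (Subgroup.centralizer ({x} : Set G))) := Fintype.ofFinite _
    obtain ⟨θ, hθ, htriv⟩ := Cfsg.Agent.Lib.BlockT.Inflate2.exists_trivial_mem_block hM hn hpg hb.1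
    have hxmem : Cfsg.Agent.Lib.BlockD1.OrderTwo.xc x ∈ (Subgroup.zpowers x).subgroupOf (Subgroup.centralizer ({x} : Set G)) := by
      rw [Subgroup.mem_subgroupOf]
      exact Subgroup.mem_zpowers x
    exact (Cfsg.Agent.Lib.BlockD1.OrderTwo.defect_two hM hx hB hD hb hθ (htriv ⟨_, hxmem⟩)).1

end Cfsg.Agent.S4607
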