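import Cfsg.Statements.S4608
import Cfsg.Agent.Lib.KS84.Final

set_option autoImplicit false
open Cfsg

namespace Cfsg.Agent.S4608

/-- Let G be a finite group, p a prime, M a maximal ideal of the algebraic integers containing p, and B a p-block of G with defect group D. If B has p-regular rank one and exactly five irreducible characters, then D is cyclic of order 5, or D has order 8 and is non-abelian (dihedral or quaternion). -/
theorem result {G : Type*} [Group G] [Finite G] (p : ℕ) [Fact p.Prime] (M : Ideal Cfsg.AlgInt) (hM : Cfsg.IsPModular p M) (B : Set (Cfsg.IrrCharacter G)) (hB : Cfsg.IsPBlock M B) (D : Subgroup G) (hD : Cfsg.IsDefectGroup p M B D)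
    (hl : Cfsg.blockRank p B = 1) (hk : Nat.card B = 5) :
    (Nat.card D = 5) ∨ (Nat.card D = 8 ∧ ¬ IsMulCommutative D) := by
  classical
  cases nonempty_fintype G
  haveI := Cfsg.Agent.Lib.Blocks.Local.isPrime_of_pModular hM
  haveI := Cfsg.Agent.Lib.Char.Ortho.finite_irrCharacter (G := G)
  letI : Fintype (Cfsg.IrrCharacter G) := Fintype.ofFinite _
  rcases Cfsg.Agent.Lib.KS84.Block.card_defect_five_or_eight hM hB hD hl hk with h5 | h8
  · exact Or.inl h5
  · refine Or.inr ⟨h8, fun hcomm => ?_⟩
    have hp : p.Prime := Fact.out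
    have hp2 : p = 2 := by
      have hPp : IsPGroup p D := Cfsg.Agent.Lib.Blocks.Defect2.isDefectGroup_isPGroup hD
      obtain ⟨n, hn⟩ := IsPGroup.iff_card.mp hPp
      rw [h8] at hn
      have h2 : 2 ∣ p ^ n := by
        rw [← hn]
        norm_num
      have h3 := Nat.Prime.dvd_of_dvd_pow Nat.prime_two h2
      exact ((Nat.prime_dvd_prime_iff_eq Nat.prime_two hp).mp h3).symm
    subst hp2
    exact Cfsg.Agent.Lib.KS84.Final.no_abelian_eight hM hB hD hl hk h8 (fun x hx y hy =>
      congrArg Subtype.val (hcomm.is_comm.comm ⟨x, hx⟩ ⟨y, hy⟩))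

end Cfsg.Agent.S4608
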