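import Cfsg.Statements.S4611
import Cfsg.Agent.Lib.Blk89.PrinBlock
import Cfsg.Agent.Lib.Char.Degree
import Cfsg.Agent.Lib.Core.PSolvable2
import Cfsg.Agent.Lib.Char.Complete

set_option autoImplicit false
open Cfsg

namespace Cfsg.Agent.S4611

/-- Let G be a finite solvable group and π a nonempty set of primes, each dividing the order of G; fix for each p in π a maximal ideal M p of the algebraic integers containing p. Then the only irreducible character lying in the principal p-block for every p in π is the principal character if and only if G is generated by the subgroups O_{p'}(G), p in π (the largest normal subgroups of order prime to p). -/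
theorem result {G : Type*} [Group G] [Finite G] [Group.IsSolvable G] (π : Set ℕ) (hπ : ∀ p ∈ π, p.Prime ∧ p ∣ Nat.card G) (hne : π.Nonempty) (M : ℕ → Ideal Cfsg.AlgInt) (hM : ∀ p ∈ π, Cfsg.IsPModular p (M p)) :
    (∀ χ : Cfsg.IrrCharacter G, (∀ p ∈ π, χ ∈ Cfsg.principalBlock (M p) G) → (χ : G → ℂ) = fun _ => 1) ↔
      ⨆ p ∈ π, Cfsg.pPrimeCore p G = ⊤ := by
  classical
  have hsolv : ∀ p ∈ π, ∀ χ : Cfsg.IrrCharacter G, χ ∈ Cfsg.principalBlock (M p) G ↔
      ∀ n ∈ Cfsg.pPrimeCore p G, (χ : G → ℂ) n = (χ : G → ℂ) 1 := by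
    intro p hp χ
    haveI : Fact p.Prime := ⟨(hπ p hp).1⟩
    exact Cfsg.Agent.Lib.Blk89.PrinBlock.mem_principal_iff_of_isPSolvable (hM p hp)
      Cfsg.Agent.Lib.Core.PSolvable2.isPSolvable_of_isSolvable χ
  have hNn : (⨆ p ∈ π, Cfsg.pPrimeCore p G).Normal := by
    refine Subgroup.biSup_normal π _ fun p hp => ?_
    exact Cfsg.pPrimeCore_normal p G
  constructor
  · intro h
    by_contra hne
    haveI := hNn
    set N : Subgroup G := ⨆ p ∈ π, Cfsg.pPrimeCore p G with hN
    -- a nontrivial irreducible character of the quotient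
    have hex : ∃ φ : Cfsg.IrrCharacter (G ⧸ N), (φ : (G ⧸ N) → ℂ) ≠ fun _ => 1 := by
      by_contra hall
      push Not at hall
      have h1 : Nat.card (Cfsg.IrrCharacter (G ⧸ N)) ≤ 1 := by
        haveI := Cfsg.Agent.Lib.Char.Ortho.finite_irrCharacter (G := G ⧸ N)
        refine Finite.card_le_one_iff_subsingleton.mpr ⟨fun a b => Subtype.ext ?_⟩
        rw [hall a, hall b]
      rw [Cfsg.Agent.Lib.Char.Complete.card_irr_eq_card_conjClasses] at h1
      haveI : Finite (ConjClasses (G ⧸ N)) := Finite.of_surjective ConjClasses.mk ConjClasses.mk_surjective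
      have h2 : Subsingleton (ConjClasses (G ⧸ N)) := Finite.card_le_one_iff_subsingleton.mp h1
      apply hne
      rw [eq_top_iff]
      intro g _
      have h3 : ConjClasses.mk (QuotientGroup.mk g : G ⧸ N) = ConjClasses.mk 1 := Subsingleton.elim _ _
      have h4 := ConjClasses.mk_eq_mk_iff_isConj.mp h3
      exact (QuotientGroup.eq_one_iff g).mp (isConj_one_right.mp h4.symm)
    obtain ⟨φ, hφ⟩ := hex
    let ψ : Cfsg.IrrCharacter G := ⟨(φ : (G ⧸ N) → ℂ) ∘ QuotientGroup.mk' N,
      Cfsg.Agent.Lib.Char.Linear.isIrrCharacter_comp _ (QuotientGroup.mk'_surjective N) φ.2⟩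
    have h1 := h ψ (fun p hp => (hsolv p hp ψ).mpr fun n hn => by
      change (φ : (G ⧸ N) → ℂ) (QuotientGroup.mk n) = (φ : (G ⧸ N) → ℂ) (QuotientGroup.mk 1)
      have h2 : n ∈ N := (le_iSup₂_of_le p hp le_rfl : Cfsg.pPrimeCore p G ≤ N) hn
      rw [(QuotientGroup.eq_one_iff n).mpr h2]
      rfl)
    apply hφ
    funext q
    obtain ⟨g, rfl⟩ := QuotientGroup.mk_surjective q
    exact congrFun h1 g
  · intro h χ hχ
    have hχc := Cfsg.Agent.Lib.Char.Basic.isCharacter_of_isIrrCharacter χ.2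
    have hle : ⨆ p ∈ π, Cfsg.pPrimeCore p G ≤ Cfsg.Agent.Lib.Char.Degree.charKer hχc :=
      iSup₂_le fun p hp n hn => ((hsolv p hp χ).mp (hχ p hp)) n hn
    rw [h, top_le_iff] at hle
    have hconst : ∀ g, (χ : G → ℂ) g = (χ : G → ℂ) 1 := fun g => by
      have : g ∈ Cfsg.Agent.Lib.Char.Degree.charKer hχc := by rw [hle]; trivial
      exact this
    letI : Fintype G := Fintype.ofFinite G
    obtain ⟨n, hn0, hn⟩ := Cfsg.Agent.Lib.Char.Complete.exists_pos_deg_of_isIrr χ.2
    have h1 := Cfsg.Agent.Lib.Char.Ortho.classInner_self_of_isIrr χ.2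
    rw [Cfsg.Agent.Lib.Char.Ortho.classInner_def] at h1
    have h2 : ∀ g, (χ : G → ℂ) g = n := fun g => by rw [hconst, hn]
    simp only [h2, Complex.conj_natCast, Finset.sum_const, Finset.card_univ, nsmul_eq_mul] at h1
    rw [Nat.card_eq_fintype_card] at h1
    have hc : (Fintype.card G : ℂ) ≠ 0 := Nat.cast_ne_zero.mpr Fintype.card_ne_zero
    rw [← mul_assoc, inv_mul_cancel₀ hc, one_mul] at h1
    have h3 : n * n = 1 := by exact_mod_cast h1
    have h4 : n = 1 := by nlinarith
    funext g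
    rw [h2, h4]
    simp

end Cfsg.Agent.S4611
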