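import Cfsg.Statements.S4619
-- import your own Cfsg.Agent.* helpers here

set_option autoImplicit false
open scoped Pointwise
open Cfsg

namespace Cfsg.Agent.S4619

/-- Let P be a Sylow p-subgroup of the finite group G that is a trivial-intersection set: P meets each conjugate g P g⁻¹ with g outside N_G(P) trivially. Then for every nontrivial subgroup Q of P the normalizer of Q lies in the normalizer of P, and any g ∈ G conjugating Q into P lies in N_G(P). -/
theorem result {G : Type*} [Group G] [Finite G] (p : ℕ) [Fact p.Prime] (P : Sylow p G) (hTI : (∀ g : G, g ∉ Subgroup.normalizer ((P : Subgroup G) : Set G) → (P : Subgroup G) ⊓ (MulAut.conj g • (P : Subgroup G)) = ⊥)) (Q : Subgroup G) (hQ : Q ≤ (P : Subgroup G)) (hQ1 : Q ≠ ⊥) :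
    Subgroup.normalizer (Q : Set G) ≤ Subgroup.normalizer ((P : Subgroup G) : Set G) ∧
      ∀ g : G, MulAut.conj g • Q ≤ (P : Subgroup G) → g ∈ Subgroup.normalizer ((P : Subgroup G) : Set G) := by
  have key : ∀ g : G, MulAut.conj g • Q ≤ (P : Subgroup G) → g ∈ Subgroup.normalizer ((P : Subgroup G) : Set G) := by
    intro g hg
    by_contra hn
    have h := hTI g hn
    have hle : MulAut.conj g • Q ≤ (P : Subgroup G) ⊓ (MulAut.conj g • (P : Subgroup G)) :=
      le_inf hg (Subgroup.pointwise_smul_le_pointwise_smul_iff.mpr hQ)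
    rw [h] at hle
    apply hQ1
    rw [eq_bot_iff]
    intro x hx
    have hx' : MulAut.conj g • x ∈ MulAut.conj g • Q := Subgroup.smul_mem_pointwise_smul x _ Q hx
    have := hle hx'
    rw [Subgroup.mem_bot] at this
    have h1 : (MulAut.conj g) x = 1 := this
    have h2 : x = 1 := by
      simpa using (MulAut.conj g).injective (h1.trans (map_one _).symm)
    simpa using h2
  refine ⟨?_, key⟩
  intro g hg
  apply key
  have hgQ : MulAut.conj g • Q = Q := by
    ext x
    rw [Subgroup.mem_pointwise_smul_iff_inv_smul_mem]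
    have := (Subgroup.mem_normalizer_iff.mp hg) (g⁻¹ * x * g)
    simp only [MulAut.smul_def, map_inv, MulAut.conj_inv_apply]
    constructor
    · intro h
      have h3 := (Subgroup.mem_normalizer_iff.mp hg) (g⁻¹ * x * g)
      have h4 : g * (g⁻¹ * x * g) * g⁻¹ = x := by group
      rw [h4] at h3
      exact h3.mp h
    · intro h
      have h3 := (Subgroup.mem_normalizer_iff.mp hg) (g⁻¹ * x * g)
      have h4 : g * (g⁻¹ * x * g) * g⁻¹ = x := by group
      rw [h4] at h3
      exact h3.mpr h
  rw [hgQ]
  exact hQ

end Cfsg.Agent.S4619
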