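import Cfsg.Statements.S4620
import Cfsg.Agent.Lib.Core.Basic
import Cfsg.Agent.Lib.Subnormal.Basic

set_option autoImplicit false
open scoped Pointwise
open Cfsg

namespace Cfsg.Agent.S4620

open Cfsg.Agent.Lib.Core.Basic Cfsg.Agent.Lib.Subnormal.Basic
open scoped Pointwise commutatorElement

section

variable {H : Type*} [Group H] [Finite H] {p : ℕ} [hp : Fact p.Prime]

theorem ti_all (P : Sylow p H)
    (hTI : ∀ g : H, g ∉ Subgroup.normalizer ((P : Subgroup H) : Set H) →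
      (P : Subgroup H) ⊓ (MulAut.conj g • (P : Subgroup H)) = ⊥)
    (Q : Sylow p H) {x g : H} (hx : x ∈ (Q : Subgroup H)) (hx1 : x ≠ 1)
    (hg : g * x * g⁻¹ ∈ (Q : Subgroup H)) : g ∈ Subgroup.normalizer ((Q : Subgroup H) : Set H) := by
  obtain ⟨u, rfl⟩ := MulAction.exists_smul_eq H P Q
  have hmem : ∀ y : H, y ∈ ((u • P : Sylow p H) : Subgroup H) ↔ u⁻¹ * y * u ∈ (P : Subgroup H) := by
    intro y
    rw [Sylow.coe_subgroup_smul, mem_conj]
  rw [hmem] at hx hg
  have h0 : u⁻¹ * g * u ∈ Subgroup.normalizer ((P : Subgroup H) : Set H) := by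
    by_contra hnot
    have h1 := hTI _ hnot
    have h2 : u⁻¹ * (g * x * g⁻¹) * u ∈ (P : Subgroup H) ⊓ (MulAut.conj (u⁻¹ * g * u) • (P : Subgroup H)) := by
      refine Subgroup.mem_inf.2 ⟨hg, mem_conj.2 ?_⟩
      have : (u⁻¹ * g * u)⁻¹ * (u⁻¹ * (g * x * g⁻¹) * u) * (u⁻¹ * g * u) = u⁻¹ * x * u := by group
      rw [this]
      exact hx
    rw [h1, Subgroup.mem_bot] at h2
    apply hx1
    have h3 : g * x * g⁻¹ = 1 := by
      have h4 : g * x * g⁻¹ = u * (u⁻¹ * (g * x * g⁻¹) * u) * u⁻¹ := by group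
      rw [h4, h2]
      group
    have h4 : x = g⁻¹ * (g * x * g⁻¹) * g := by group
    rw [h4, h3]
    group
  rw [Subgroup.mem_normalizer_iff] at h0 ⊢
  intro y
  rw [hmem, hmem]
  have h1 := h0 (u⁻¹ * y * u)
  rw [h1]
  have : u⁻¹ * g * u * (u⁻¹ * y * u) * (u⁻¹ * g * u)⁻¹ = u⁻¹ * (g * y * g⁻¹) * u := by group
  rw [this]

theorem mem_of_normalizes (Q : Sylow p H) {x : H} (hx : x ∈ Subgroup.normalizer ((Q : Subgroup H) : Set H))
    {k : ℕ} (hk : x ^ p ^ k = 1) : x ∈ (Q : Subgroup H) := by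
  have hz : IsPGroup p (Subgroup.zpowers x) := by
    obtain ⟨j, -, hj⟩ := (Nat.dvd_prime_pow hp.out).1 (orderOf_dvd_of_pow_eq_one hk)
    exact IsPGroup.of_card (n := j) (by rw [Nat.card_zpowers, hj])
  have h1 := hz.inf_normalizer_sylow Q
  exact (h1.le ⟨Subgroup.mem_zpowers x, hx⟩).2

theorem dvd_of_sn (hOp' : Cfsg.pPrimeCore p H = ⊥) {K : Subgroup H} (hK : K.IsSubnormal) (hK1 : K ≠ ⊥) :
    p ∣ Nat.card K := by
  by_contra hnot
  have h1 : (Nat.card K).Coprime p := ((Nat.Prime.coprime_iff_not_dvd hp.out).2 hnot).symm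
  have h2 := le_pPrimeCore_of_isSubnormal hK h1
  rw [hOp'] at h2
  exact hK1 (le_bot_iff.1 h2)

theorem not_le_normalizer (hOp : Cfsg.pCore p H = ⊥) (hOp' : Cfsg.pPrimeCore p H = ⊥)
    {K : Subgroup H} (hK : K.IsSubnormal) (hK1 : K ≠ ⊥) (Q : Sylow p H) :
    ¬ K ≤ Subgroup.normalizer ((Q : Subgroup H) : Set H) := by
  intro hle
  have hnorm : ((K ⊓ (Q : Subgroup H)).subgroupOf K).Normal := by
    refine ⟨fun n hn g => ?_⟩
    rw [Subgroup.mem_subgroupOf] at hn ⊢
    refine ⟨K.mul_mem (K.mul_mem g.2 hn.1) (K.inv_mem g.2), ?_⟩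
    exact (Subgroup.mem_normalizer_iff.1 (hle g.2) (n : H)).1 hn.2
  have hsn : (K ⊓ (Q : Subgroup H)).IsSubnormal := Subgroup.IsSubnormal.step _ K inf_le_left hK hnorm
  have hpg : IsPGroup p (K ⊓ (Q : Subgroup H) : Subgroup H) :=
    Q.isPGroup'.to_le inf_le_right
  have h1 := le_pCore_of_isSubnormal hsn hpg
  rw [hOp, le_bot_iff] at h1
  obtain ⟨x, hx⟩ := exists_prime_orderOf_dvd_card' p (dvd_of_sn hOp' hK hK1)
  have hx1 : (x : H) ^ p ^ 1 = 1 := by
    rw [pow_one, ← hx, ← Subgroup.orderOf_coe, pow_orderOf_eq_one]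
  have hxQ := mem_of_normalizes Q (hle x.2) hx1
  have hxD : (x : H) ∈ K ⊓ (Q : Subgroup H) := ⟨x.2, hxQ⟩
  rw [h1, Subgroup.mem_bot] at hxD
  have : x = 1 := Subtype.ext hxD
  rw [this, orderOf_one] at hx
  exact hp.out.one_lt.ne hx

theorem not_commute (P : Sylow p H)
    (hTI : ∀ g : H, g ∉ Subgroup.normalizer ((P : Subgroup H) : Set H) →
      (P : Subgroup H) ⊓ (MulAut.conj g • (P : Subgroup H)) = ⊥)
    (hOp : Cfsg.pCore p H = ⊥) (hOp' : Cfsg.pPrimeCore p H = ⊥)
    {K L : Subgroup H} (hK : K.IsSubnormal) (hK1 : K ≠ ⊥) (hL : L.IsSubnormal) (hL1 : L ≠ ⊥)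
    (hcomm : ∀ k ∈ K, ∀ l ∈ L, k * l = l * k) : False := by
  obtain ⟨x, hx⟩ := exists_prime_orderOf_dvd_card' p (dvd_of_sn hOp' hK hK1)
  have hxo : orderOf (x : H) = p := by rw [Subgroup.orderOf_coe, hx]
  have hx1 : (x : H) ≠ 1 := by
    intro h
    rw [h, orderOf_one] at hxo
    exact hp.out.one_lt.ne hxo
  have hz : IsPGroup p (Subgroup.zpowers (x : H)) :=
    IsPGroup.of_card (n := 1) (by rw [Nat.card_zpowers, hxo, pow_one])
  obtain ⟨Q, hQ⟩ := hz.exists_le_sylow
  have hxQ : (x : H) ∈ (Q : Subgroup H) := hQ (Subgroup.mem_zpowers _)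
  refine not_le_normalizer hOp hOp' hL hL1 Q fun l hl => ?_
  apply ti_all P hTI Q hxQ hx1
  have : l * (x : H) * l⁻¹ = x := by
    rw [← hcomm _ x.2 l hl]
    group
  rw [this]
  exact hxQ

end

/-- Let H be a finite group with no nontrivial normal p-subgroup and no nontrivial normal subgroup of order prime to p, whose Sylow p-subgroup P is nontrivial and a trivial-intersection set (P meets its conjugates by elements outside N_H(P) trivially). Then H has a unique minimal normal subgroup N; N is non-abelian simple with trivial centralizer in H (so H embeds in Aut(N)), and a Sylow p-subgroup of N is again a nontrivial trivial-intersection set in N. -/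
theorem result {H : Type*} [Group H] [Finite H] (p : ℕ) [Fact p.Prime] (hOp : Cfsg.pCore p H = ⊥) (hOp' : Cfsg.pPrimeCore p H = ⊥) (P : Sylow p H) (hP1 : (P : Subgroup H) ≠ ⊥)
    (hTI : ∀ g : H, g ∉ Subgroup.normalizer ((P : Subgroup H) : Set H) → (P : Subgroup H) ⊓ (MulAut.conj g • (P : Subgroup H)) = ⊥) :
    ∃ N : Subgroup H, N.Normal ∧ N ≠ ⊥ ∧ (∀ K : Subgroup H, K.Normal → K ≠ ⊥ → N ≤ K) ∧
      IsSimpleGroup N ∧ ¬ IsMulCommutative N ∧ Subgroup.centralizer (N : Set H) = ⊥ ∧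
      ∀ Q : Sylow p N, (Q : Subgroup N) ≠ ⊥ ∧
        ∀ n : N, n ∉ Subgroup.normalizer ((Q : Subgroup N) : Set N) → (Q : Subgroup N) ⊓ (MulAut.conj n • (Q : Subgroup N)) = ⊥ := by
  classical
  obtain ⟨N, hNmin⟩ : ∃ N : Subgroup H, Minimal (fun K : Subgroup H => K.Normal ∧ K ≠ ⊥) N := by
    have hne : {K : Subgroup H | K.Normal ∧ K ≠ ⊥}.Nonempty := by
      refine ⟨⊤, inferInstance, fun h => hP1 ?_⟩
      rw [eq_bot_iff]
      intro y _
      have hy : y ∈ (⊤ : Subgroup H) := trivial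
      rw [h] at hy
      exact hy
    exact (Set.toFinite _).exists_minimal hne
  obtain ⟨⟨hNn, hN1⟩, hNle⟩ := hNmin
  have hNsn : N.IsSubnormal := hNn.isSubnormal
  have hnc := fun {K L : Subgroup H} => not_commute P hTI hOp hOp' (K := K) (L := L)
  have hNmin' : ∀ K : Subgroup H, K.Normal → K ≠ ⊥ → K ≤ N → K = N :=
    fun K hK hK1 hKN => le_antisymm hKN (hNle ⟨hK, hK1⟩ hKN)
  have hNcomm : ¬ IsMulCommutative N := by
    intro hc
    refine hnc hNsn hN1 hNsn hN1 fun k hk l hl => ?_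
    have := hc.is_comm.comm ⟨k, hk⟩ ⟨l, hl⟩
    exact congrArg Subtype.val this
  -- `N` lies in every nontrivial normal subgroup
  have hNK : ∀ K : Subgroup H, K.Normal → K ≠ ⊥ → N ≤ K := by
    intro K hK hK1
    by_contra hnot
    have hinf : N ⊓ K = ⊥ := by
      by_contra hne
      have h1 := hNmin' (N ⊓ K) (Subgroup.normal_inf_normal N K) hne inf_le_left
      exact hnot (h1 ▸ inf_le_right)
    refine hnc hNsn hN1 hK.isSubnormal hK1 fun k hk l hl => ?_
    have h2 : ⁅k, l⁆ ∈ N ⊓ K := Subgroup.commutator_le_inf N K (Subgroup.commutator_mem_commutator hk hl)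
    rw [hinf, Subgroup.mem_bot, commutatorElement_eq_one_iff_mul_comm] at h2
    exact h2
  have hcent : Subgroup.centralizer (N : Set H) = ⊥ := by
    by_contra hne
    refine hnc hNsn hN1 (Subgroup.Normal.isSubnormal inferInstance) hne fun k hk l hl => ?_
    exact (Subgroup.mem_centralizer_iff.1 hl k hk)
  have hsimple : IsSimpleGroup N := by
    haveI : Nontrivial N := (Subgroup.nontrivial_iff_ne_bot N).2 hN1
    refine ⟨fun T₀ hT₀ => ?_⟩
    by_contra hcon
    push Not at hcon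
    obtain ⟨hT₀1, hT₀2⟩ := hcon
    let T₁ : Subgroup H := T₀.map N.subtype
    have hT₁N : T₁ ≤ N := Subgroup.map_subtype_le T₀
    have hT₁1 : T₁ ≠ ⊥ := by
      intro h
      exact hT₀1 ((Subgroup.map_eq_bot_iff_of_injective _ N.subtype_injective).1 h)
    have hT₁n : N ≤ Subgroup.normalizer (T₁ : Set H) := by
      intro n hn
      rw [Subgroup.mem_normalizer_iff]
      intro y
      constructor
      · rintro ⟨z, hz, rfl⟩
        exact ⟨⟨n, hn⟩ * z * ⟨n, hn⟩⁻¹, hT₀.conj_mem z hz _, rfl⟩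
      · rintro ⟨z, hz, hzy⟩
        refine ⟨⟨n, hn⟩⁻¹ * z * ⟨n, hn⟩⁻¹⁻¹, hT₀.conj_mem z hz _, ?_⟩
        have hzy' : (z : H) = n * y * n⁻¹ := hzy
        simp only [Subgroup.coe_subtype, Subgroup.coe_mul, Subgroup.coe_inv, inv_inv]
        rw [hzy']
        group
    obtain ⟨T, hTmin⟩ : ∃ T : Subgroup H, Minimal
        (fun T : Subgroup H => T ≠ ⊥ ∧ T ≤ T₁ ∧ N ≤ Subgroup.normalizer (T : Set H)) T :=
      (Set.toFinite {T : Subgroup H | T ≠ ⊥ ∧ T ≤ T₁ ∧ N ≤ Subgroup.normalizer (T : Set H)}).exists_minimal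
        ⟨T₁, hT₁1, le_rfl, hT₁n⟩
    obtain ⟨⟨hT1, hTT₁, hTn⟩, hTle⟩ := hTmin
    have hTN : T ≤ N := hTT₁.trans hT₁N
    have hsnof : ∀ U : Subgroup H, U ≤ N → N ≤ Subgroup.normalizer (U : Set H) → U.IsSubnormal := by
      intro U hU hUn
      refine Subgroup.IsSubnormal.step U N hU hNsn ⟨fun y hy g => ?_⟩
      rw [Subgroup.mem_subgroupOf] at hy ⊢
      exact (Subgroup.mem_normalizer_iff.1 (hUn g.2) (y : H)).1 hy
    have hTinv : ∀ h : H, MulAut.conj h • T = T := by
      intro h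
      set T' : Subgroup H := MulAut.conj h • T with hT'
      have hT'N : T' ≤ N := by
        intro y hy
        have h1 := mem_conj.1 hy
        have h2 := hNn.conj_mem _ (hTN h1) h
        have h3 : h * (h⁻¹ * y * h) * h⁻¹ = y := by group
        rwa [h3] at h2
      have hT'n : N ≤ Subgroup.normalizer (T' : Set H) := by
        intro n hn
        have hn' : h⁻¹ * n * h ∈ N := by
          simpa using hNn.conj_mem n hn h⁻¹
        have h1 := hTn hn'
        rw [Subgroup.mem_normalizer_iff] at h1 ⊢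
        intro y
        change y ∈ MulAut.conj h • T ↔ n * y * n⁻¹ ∈ MulAut.conj h • T
        rw [mem_conj, mem_conj, h1 (h⁻¹ * y * h)]
        have : h⁻¹ * n * h * (h⁻¹ * y * h) * (h⁻¹ * n * h)⁻¹ = h⁻¹ * (n * y * n⁻¹) * h := by group
        rw [this]
      have hT'1 : T' ≠ ⊥ := by
        intro h0
        apply hT1
        rw [eq_bot_iff]
        intro y hy
        have h1 : h * y * h⁻¹ ∈ T' := conj_mem_conj hy
        rw [h0, Subgroup.mem_bot] at h1
        rw [Subgroup.mem_bot]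
        have h2 : y = h⁻¹ * (h * y * h⁻¹) * h := by group
        rw [h2, h1]
        group
      by_cases hinf : T ⊓ T' = ⊥
      · exfalso
        refine hnc (hsnof T hTN hTn) hT1 (hsnof T' hT'N hT'n) hT'1 fun a ha b hb => ?_
        have h1 : a * b * a⁻¹ * b⁻¹ ∈ T ⊓ T' := by
          refine ⟨?_, ?_⟩
          · have h2 := (Subgroup.mem_normalizer_iff.1 (hTn (hT'N hb)) a⁻¹).1 (T.inv_mem ha)
            have h3 : a * b * a⁻¹ * b⁻¹ = a * (b * a⁻¹ * b⁻¹) := by group
            rw [h3]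
            exact T.mul_mem ha h2
          · have h2 := (Subgroup.mem_normalizer_iff.1 (hT'n (hTN ha)) b).1 hb
            exact T'.mul_mem h2 (T'.inv_mem hb)
        rw [hinf, Subgroup.mem_bot] at h1
        have h2 : a * b * a⁻¹ = b := mul_inv_eq_one.1 h1
        exact mul_inv_eq_iff_eq_mul.1 h2
      · have h1 : T ≤ T ⊓ T' := by
          refine hTle ⟨hinf, inf_le_left.trans hTT₁, ?_⟩ inf_le_left
          intro n hn
          rw [Subgroup.mem_normalizer_iff]
          intro y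
          have h1 := Subgroup.mem_normalizer_iff.1 (hTn hn) y
          have h2 := Subgroup.mem_normalizer_iff.1 (hT'n hn) y
          rw [Subgroup.mem_inf, Subgroup.mem_inf, h1, h2]
        have h2 : T ≤ T' := h1.trans inf_le_right
        exact (Subgroup.eq_of_le_of_card_ge h2 (le_of_eq (card_conj h T))).symm
    have hTnormal : T.Normal := by
      refine ⟨fun y hy g => ?_⟩
      rw [← hTinv g]
      exact conj_mem_conj hy
    have hTeq := hNmin' T hTnormal hT1 hTN
    apply hT₀2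
    have h1 : T₁ = N := le_antisymm hT₁N (hTeq ▸ hTT₁)
    rw [eq_top_iff]
    intro y _
    have hy : (y : H) ∈ T₁ := by rw [h1]; exact y.2
    obtain ⟨z, hz, hzy⟩ := hy
    have : z = y := Subtype.ext hzy
    rwa [← this]
  refine ⟨N, hNn, hN1, hNK, hsimple, hNcomm, hcent, fun Q => ⟨?_, ?_⟩⟩
  · intro hQ
    have hdvd := dvd_of_sn hOp' hNsn hN1
    have h1 := Q.card_eq_multiplicity
    rw [hQ, Subgroup.card_bot] at h1
    have h2 : 0 < (Nat.card N).factorization p :=
      (Fact.out : p.Prime).factorization_pos_of_dvd Nat.card_pos.ne' hdvd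
    have h3 : 1 < p ^ (Nat.card N).factorization p := Nat.one_lt_pow h2.ne' (Fact.out : p.Prime).one_lt
    omega
  · intro n hn
    have hQ' : IsPGroup p ((Q : Subgroup N).map N.subtype) := Q.isPGroup'.map _
    obtain ⟨S, hS⟩ := hQ'.exists_le_sylow
    have hSp : IsPGroup p ((S : Subgroup H).subgroupOf N) := S.isPGroup'.comap_of_injective _ N.subtype_injective
    have hle : (Q : Subgroup N) ≤ (S : Subgroup H).subgroupOf N := by
      intro z hz
      rw [Subgroup.mem_subgroupOf]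
      exact hS ⟨z, hz, rfl⟩
    have heq : (S : Subgroup H).subgroupOf N = (Q : Subgroup N) := Q.is_maximal' hSp hle
    have hQS : ∀ z : N, z ∈ (Q : Subgroup N) ↔ (z : H) ∈ (S : Subgroup H) := by
      intro z
      rw [← heq, Subgroup.mem_subgroupOf]
    rw [eq_bot_iff]
    rintro y ⟨hy1, hy2⟩
    by_contra hy
    rw [Subgroup.mem_bot] at hy
    have hy2' : n⁻¹ * y * n ∈ (Q : Subgroup N) := mem_conj.1 hy2
    have hx := (hQS _).1 hy2'
    have hx1 : (((n⁻¹ * y * n : N)) : H) ≠ 1 := by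
      intro h
      apply hy
      have h1 : n⁻¹ * y * n = 1 := Subtype.ext h
      have h2 : y = n * (n⁻¹ * y * n) * n⁻¹ := by group
      rw [h2, h1]
      group
    have hnS := ti_all P hTI S hx hx1 (g := (n : H)) (by
      have h1 : (n : H) * ((n⁻¹ * y * n : N) : H) * (n : H)⁻¹ = y := by
        simp only [Subgroup.coe_mul, Subgroup.coe_inv]
        group
      rw [h1]
      exact (hQS y).1 hy1)
    apply hn
    rw [Subgroup.mem_normalizer_iff]
    intro z
    rw [hQS, hQS, Subgroup.mem_normalizer_iff.1 hnS]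
    simp only [Subgroup.coe_mul, Subgroup.coe_inv]

end Cfsg.Agent.S4620
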