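import Cfsg.Statements.S4623
import Cfsg.Agent.Lib.Components.SylowSub
import Cfsg.Agent.Lib.QuadAct.Basic
import Cfsg.Agent.Lib.LocalStruct.Comm

set_option autoImplicit false
open Cfsg

namespace Cfsg.Agent.S4623


open Subgroup Equiv Equiv.Perm
open scoped Nat

/-- A subgroup generated by its elements of exponent `p`. -/
def OG (p : ℕ) {G : Type*} [Group G] (P : Subgroup G) : Prop :=
  closure {x : G | x ∈ P ∧ x ^ p = 1} = P

theorem pow_mem_commutator {p : ℕ} {G : Type*} [Group G] {P : Subgroup G} (h : OG p P) (x : P) :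
    x ^ p ∈ commutator P := by
  let ff : P →* Abelianization P := (powMonoidHom p).comp Abelianization.of
  have hle : closure {x : G | x ∈ P ∧ x ^ p = 1} ≤ (ff.ker).map P.subtype := by
    rw [closure_le]
    rintro g ⟨hg, hgp⟩
    refine ⟨⟨g, hg⟩, ?_, rfl⟩
    have : (⟨g, hg⟩ : P) ^ p = 1 := Subtype.ext (by simpa using hgp)
    show ff _ = 1
    simp only [ff, MonoidHom.comp_apply, powMonoidHom_apply]
    rw [← map_pow, this, map_one]
  have hxm : (x : G) ∈ closure {x : G | x ∈ P ∧ x ^ p = 1} := by
    have h' : closure {x : G | x ∈ P ∧ x ^ p = 1} = P := h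
    rw [h']; exact x.2
  obtain ⟨y, hy, hyx⟩ := hle hxm
  have hyx' : y = x := Subtype.ext hyx
  subst hyx'
  have h1 : Abelianization.of (y ^ p) = 1 := by
    rw [map_pow]
    exact hy
  have h2 : y ^ p ∈ (Abelianization.of (G := P)).ker := h1
  rwa [Abelianization.ker_of] at h2

theorem OG.map {p : ℕ} {G H : Type*} [Group G] [Group H] {P : Subgroup G} (h : OG p P)
    (f : G →* H) (hf : Function.Injective f) : OG p (P.map f) := by
  unfold OG at h ⊢
  conv_rhs => rw [← h, MonoidHom.map_closure]
  apply le_antisymm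
  · rw [closure_le]
    rintro y ⟨⟨x, hx, rfl⟩, hy⟩
    apply Subgroup.subset_closure
    refine ⟨x, ⟨hx, hf ?_⟩, rfl⟩
    rw [map_pow, hy, map_one]
  · rw [closure_le]
    rintro y ⟨x, ⟨hx, hxp⟩, rfl⟩
    apply Subgroup.subset_closure
    refine ⟨mem_map_of_mem _ hx, ?_⟩
    rw [← map_pow, hxp, map_one]

theorem OG.of_map {p : ℕ} {G H : Type*} [Group G] [Group H] {P : Subgroup G}
    (f : G →* H) (hf : Function.Injective f) (h : OG p (P.map f)) : OG p P := by
  unfold OG at h ⊢
  apply Subgroup.map_injective hf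
  conv_rhs => rw [← h]
  rw [MonoidHom.map_closure]
  apply le_antisymm
  · rw [closure_le]
    rintro y ⟨x, ⟨hx, hxp⟩, rfl⟩
    apply Subgroup.subset_closure
    refine ⟨mem_map_of_mem _ hx, ?_⟩
    rw [← map_pow, hxp, map_one]
  · rw [closure_le]
    rintro y ⟨⟨x, hx, rfl⟩, hy⟩
    apply Subgroup.subset_closure
    refine ⟨x, ⟨hx, hf ?_⟩, rfl⟩
    rw [map_pow, hy, map_one]

theorem OG.sylow {p : ℕ} [Fact p.Prime] {G : Type*} [Group G] [Finite G] (Q P : Sylow p G)
    (h : OG p (Q : Subgroup G)) : OG p (P : Subgroup G) := by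
  obtain ⟨g, rfl⟩ := MulAction.exists_smul_eq G Q P
  rw [Sylow.coe_subgroup_smul, Subgroup.pointwise_smul_def]
  exact h.map _ (fun a b hab => by
    simpa using hab)

variable {p : ℕ} [hp : Fact p.Prime]

section shift

variable {Y : Type*} [Fintype Y] [DecidableEq Y]

/-- Shift in the first coordinate. -/
def shift (a : Y → ZMod p) : Perm (ZMod p × Y) where
  toFun x := (x.1 + a x.2, x.2)
  invFun x := (x.1 - a x.2, x.2)
  left_inv x := by simp
  right_inv x := by simp

def shiftHom : Multiplicative (Y → ZMod p) →* Perm (ZMod p × Y) where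
  toFun a := shift (Multiplicative.toAdd a)
  map_one' := by
    ext x <;> simp [shift]
  map_mul' a b := by
    ext x
    · simp [shift]; ring
    · simp [shift]

theorem shiftHom_apply (a : Multiplicative (Y → ZMod p)) (x : ZMod p × Y) :
    shiftHom a x = (x.1 + (Multiplicative.toAdd a) x.2, x.2) := rfl

theorem shiftHom_injective : Function.Injective (shiftHom (p := p) (Y := Y)) := by
  intro a b hab
  apply Multiplicative.toAdd.injective
  funext y
  have := congrArg (fun σ : Perm (ZMod p × Y) => (σ (0, y)).1) hab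
  simpa [shiftHom_apply] using this

theorem shiftHom_pow (a : Multiplicative (Y → ZMod p)) : (shiftHom a) ^ p = 1 := by
  rw [← map_pow]
  have : a ^ p = 1 := by
    apply Multiplicative.toAdd.injective
    funext y
    simp
  rw [this, map_one]

/-- Diagonal action on the second coordinate. -/
def topHom : Perm Y →* Perm (ZMod p × Y) where
  toFun π := Equiv.prodCongrRight (fun _ => π)
  map_one' := by
    ext x <;> simp
  map_mul' a b := by
    ext x <;> simp

theorem topHom_apply (π : Perm Y) (x : ZMod p × Y) : topHom (p := p) π x = (x.1, π x.2) := rfl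

theorem topHom_injective : Function.Injective (topHom (p := p) (Y := Y)) := by
  intro a b hab
  ext y
  have := congrArg (fun σ : Perm (ZMod p × Y) => (σ (0, y)).2) hab
  simpa [topHom_apply] using this

theorem top_conj_shift (π : Perm Y) (a : Multiplicative (Y → ZMod p)) :
    topHom (p := p) π * shiftHom a * (topHom (p := p) π)⁻¹ =
      shiftHom (Multiplicative.ofAdd ((Multiplicative.toAdd a) ∘ (π⁻¹ : Perm Y))) := by
  rw [← map_inv]
  ext x
  · simp only [Perm.mul_apply, topHom_apply, shiftHom_apply]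
    simp
  · simp only [Perm.mul_apply, topHom_apply, shiftHom_apply]
    simp

theorem range_le_normalizer (P : Subgroup (Perm Y)) :
    P.map (topHom (p := p)) ≤ normalizer ((shiftHom (p := p) (Y := Y)).range : Set (Perm (ZMod p × Y))) := by
  rintro _ ⟨π, hπ, rfl⟩
  rw [mem_normalizer_iff]
  intro h
  constructor
  · rintro ⟨a, rfl⟩
    exact ⟨_, (top_conj_shift π a).symm⟩
  · rintro ⟨a, ha⟩
    refine ⟨Multiplicative.ofAdd ((Multiplicative.toAdd a) ∘ π), ?_⟩
    have h2 := top_conj_shift (p := p) π (Multiplicative.ofAdd ((Multiplicative.toAdd a) ∘ π))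
    have h3 : (Multiplicative.toAdd a ∘ π) ∘ (π⁻¹ : Perm Y) = Multiplicative.toAdd a := by
      funext y; simp
    simp only [toAdd_ofAdd, h3, ofAdd_toAdd] at h2
    rw [ha] at h2
    have : topHom (p := p) π * (shiftHom (Multiplicative.ofAdd ((Multiplicative.toAdd a) ∘ π))) * (topHom (p := p) π)⁻¹
        = topHom (p := p) π * h * (topHom (p := p) π)⁻¹ := h2
    exact mul_left_cancel (mul_right_cancel this)

theorem inf_range_eq_bot (P : Subgroup (Perm Y)) :
    P.map (topHom (p := p)) ⊓ (shiftHom (p := p) (Y := Y)).range = ⊥ := by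
  rw [eq_bot_iff]
  rintro x ⟨⟨π, hπ, rfl⟩, ⟨a, ha⟩⟩
  rw [mem_bot]
  have h1 : π = 1 := by
    ext y
    have := congrArg (fun σ : Perm (ZMod p × Y) => (σ (0, y)).2) ha
    simpa [topHom_apply, shiftHom_apply] using this.symm
  rw [h1, map_one]

/-- The group `T₀`. -/
def T0 (P : Subgroup (Perm Y)) : Subgroup (Perm (ZMod p × Y)) :=
  P.map (topHom (p := p)) ⊔ (shiftHom (p := p) (Y := Y)).range

theorem card_T0 (P : Subgroup (Perm Y)) :
    Nat.card (T0 (p := p) P) = Nat.card P * p ^ Fintype.card Y := by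
  have h := Cfsg.Agent.Lib.QuadAct.Basic.card_sup_mul_card_inf_of_le_normalizer _ _
    (range_le_normalizer (p := p) P)
  rw [inf_range_eq_bot] at h
  rw [Subgroup.card_bot, mul_one] at h
  change Nat.card (T0 (p := p) P) = _ at h
  rw [h, Subgroup.card_map_of_injective topHom_injective]
  congr 1
  have : Nat.card (shiftHom (p := p) (Y := Y)).range = Nat.card (Multiplicative (Y → ZMod p)) :=
    Nat.card_congr (MonoidHom.ofInjective shiftHom_injective).symm.toEquiv
  rw [this, Nat.card_eq_fintype_card, Fintype.card_multiplicative, Fintype.card_fun, ZMod.card]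

/-- The Sylow fact for `T₀`: elements generated by exponent `p` -/
theorem OG_T0 {P : Subgroup (Perm Y)} (hP : OG p P) : OG p (T0 (p := p) P) := by
  have h1 := hP.map _ (topHom_injective (p := p) (Y := Y))
  unfold OG at h1 ⊢
  apply le_antisymm
  · rw [closure_le]
    rintro x ⟨hx, _⟩
    exact hx
  · apply sup_le
    · rw [← h1]
      apply Subgroup.closure_mono
      rintro x ⟨hx, hxp⟩
      exact ⟨mem_sup_left hx, hxp⟩
    · rintro x ⟨a, rfl⟩
      exact Subgroup.subset_closure ⟨mem_sup_right ⟨a, rfl⟩, shiftHom_pow a⟩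

end shift

theorem fact_fact (hp : p.Prime) (m r : ℕ) (hr : r < p) :
    ((p * m + r)!).factorization p = (m !).factorization p + m := by
  induction r with
  | zero => simpa using Nat.factorization_factorial_mul hp
  | succ r ih =>
    have h1 : ¬ p ∣ p * m + r + 1 := by
      rw [add_assoc, Nat.dvd_add_right (dvd_mul_right p m)]
      exact Nat.not_dvd_of_pos_of_lt (by omega) hr
    rw [← add_assoc, Nat.factorial_succ, Nat.factorization_mul (by omega) (Nat.factorial_ne_zero _)]
    simp [ih (by omega), Nat.factorization_eq_zero_of_not_dvd h1]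

section embed

variable {X R Y : Type*} [Fintype X] [DecidableEq X] [Fintype R] [DecidableEq R]
  [Fintype Y] [DecidableEq Y]

/-- Embedding into the permutations of `X`. -/
noncomputable def iota (e : X ≃ (ZMod p × Y) ⊕ R) : Perm (ZMod p × Y) →* Perm X :=
  (e.symm.permCongrHom.toMonoidHom).comp ((Equiv.Perm.sumCongrHom _ _).comp (MonoidHom.inl _ _))

theorem iota_injective (e : X ≃ (ZMod p × Y) ⊕ R) : Function.Injective (iota e) := by
  unfold iota
  rw [MonoidHom.coe_comp, MonoidHom.coe_comp]
  exact (e.symm.permCongrHom.injective).comp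
    ((Equiv.Perm.sumCongrHom_injective).comp (fun a b h => (Prod.ext_iff.mp h).1))

theorem sign_iota (e : X ≃ (ZMod p × Y) ⊕ R) (σ : Perm (ZMod p × Y)) :
    sign (iota e σ) = sign σ := by
  show sign (e.symm.permCongr (Equiv.Perm.sumCongr σ 1)) = _
  rw [sign_permCongr, sign_sumCongr, Perm.sign_one, mul_one]

/-- The candidate Sylow subgroup. -/
noncomputable def TT (e : X ≃ (ZMod p × Y) ⊕ R) (P : Subgroup (Perm Y)) : Subgroup (Perm X) :=
  (T0 (p := p) P).map (iota e)

theorem card_TT (e : X ≃ (ZMod p × Y) ⊕ R) (P : Subgroup (Perm Y)) :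
    Nat.card (TT e P) = Nat.card P * p ^ Fintype.card Y := by
  unfold TT
  rw [Subgroup.card_map_of_injective (iota_injective e), card_T0]

theorem OG_TT (e : X ≃ (ZMod p × Y) ⊕ R) {P : Subgroup (Perm Y)} (hP : OG p P) :
    OG p (TT e P) := (OG_T0 hP).map _ (iota_injective e)

theorem card_X_eq (e : X ≃ (ZMod p × Y) ⊕ R) :
    Fintype.card X = p * Fintype.card Y + Fintype.card R := by
  rw [Fintype.card_congr e, Fintype.card_sum, Fintype.card_prod, ZMod.card]

/-- Sylow. -/
noncomputable def syl (e : X ≃ (ZMod p × Y) ⊕ R) (hR : Fintype.card R < p) (P : Sylow p (Perm Y)) :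
    Sylow p (Perm X) :=
  Sylow.ofCard (TT e (P : Subgroup (Perm Y))) (by
    rw [card_TT, P.card_eq_multiplicity, Nat.card_eq_fintype_card (α := Perm X),
      Fintype.card_perm, Nat.card_eq_fintype_card (α := Perm Y), Fintype.card_perm, card_X_eq e,
      fact_fact hp.out _ _ hR, pow_add])

theorem coe_syl (e : X ≃ (ZMod p × Y) ⊕ R) (hR : Fintype.card R < p) (P : Sylow p (Perm Y)) :
    (syl e hR P : Subgroup (Perm X)) = TT e (P : Subgroup (Perm Y)) := rfl

/-- Part for `p = 2`. -/
theorem OG_inf_alt [Fact (Nat.Prime 2)] (e : X ≃ (ZMod 2 × Y) ⊕ R) {P : Subgroup (Perm Y)}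
    (hP : OG 2 P) : OG 2 (TT e P ⊓ alternatingGroup X) := by
  have hevenτ : ∀ π : Perm Y, sign (iota e (topHom (p := 2) π)) = 1 := by
    intro π
    rw [sign_iota]
    show sign (Equiv.prodCongrRight (fun _ : ZMod 2 => π)) = 1
    rw [sign_prodCongrRight]
    simp
  unfold OG
  set S : Set (Perm X) := {x | x ∈ TT e P ⊓ alternatingGroup X ∧ x ^ 2 = 1} with hS
  apply le_antisymm
  · rw [closure_le]
    rintro x ⟨hx, _⟩
    exact hx
  · have hQ : (P.map (topHom (p := 2))).map (iota e) ≤ closure S := by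
      have hP' : closure {x : Perm Y | x ∈ P ∧ x ^ 2 = 1} = P := hP
      rw [Subgroup.map_map, ← hP', MonoidHom.map_closure, closure_le]
      rintro _ ⟨π, ⟨hπ, hπ2⟩, rfl⟩
      apply Subgroup.subset_closure
      refine ⟨⟨?_, ?_⟩, ?_⟩
      · exact mem_map_of_mem _ (mem_sup_left (mem_map_of_mem _ hπ))
      · exact Equiv.Perm.mem_alternatingGroup.mpr (hevenτ π)
      · rw [← map_pow, hπ2, map_one]
    rintro x ⟨⟨z, hz, rfl⟩, hxA⟩
    have hz2 : z ∈ (shiftHom (p := 2) (Y := Y)).range ⊔ P.map (topHom (p := 2)) := by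
      rw [sup_comm]; exact hz
    obtain ⟨q, hq, a, ha, rfl⟩ :=
      Cfsg.Agent.Lib.LocalStruct.Comm.mem_sup_of_le_normalizer' (range_le_normalizer (p := 2) P) hz2
    replace hxA : iota e (q * a) ∈ alternatingGroup X := hxA
    rw [map_mul] at hxA ⊢
    have hq1 : iota e q ∈ closure S := hQ (mem_map_of_mem _ hq)
    refine mul_mem hq1 ?_
    apply Subgroup.subset_closure
    obtain ⟨π, hπ, rfl⟩ := hq
    have hA := Equiv.Perm.mem_alternatingGroup.mp hxA
    rw [map_mul, hevenτ, one_mul] at hA
    refine ⟨⟨mem_map_of_mem _ (mem_sup_right ha), Equiv.Perm.mem_alternatingGroup.mpr hA⟩, ?_⟩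
    obtain ⟨a', rfl⟩ := ha
    rw [← map_pow, shiftHom_pow, map_one]

end embed

theorem OG_perm : ∀ n : ℕ, ∀ (X : Type) [Fintype X] [DecidableEq X], Fintype.card X = n →
    ∀ P : Sylow p (Perm X), OG p (P : Subgroup (Perm X)) := by
  intro n
  induction n using Nat.strong_induction_on with
  | _ n ih =>
    intro X _ _ hn P
    rcases Nat.eq_zero_or_pos n with h0 | hpos
    · subst h0
      have hX : IsEmpty X := Fintype.card_eq_zero_iff.mp hn
      have : Subsingleton (Perm X) := inferInstance
      have hb : (P : Subgroup (Perm X)) = ⊥ := Subsingleton.elim _ _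
      unfold OG
      rw [hb]
      apply le_antisymm
      · rw [closure_le]
        rintro x ⟨hx, _⟩
        exact hx
      · exact bot_le
    have hpp := hp.out
    have hm : n / p < n := Nat.div_lt_self hpos hpp.one_lt
    let Y := Fin (n / p)
    let R := Fin (n % p)
    have hcard : Fintype.card X = Fintype.card ((ZMod p × Y) ⊕ R) := by
      simp only [Fintype.card_sum, Fintype.card_prod, ZMod.card, Y, R, Fintype.card_fin]
      rw [hn, Nat.div_add_mod]
    let e : X ≃ (ZMod p × Y) ⊕ R := Fintype.equivOfCardEq hcard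
    have hR : Fintype.card R < p := by
      simp only [R, Fintype.card_fin]
      exact Nat.mod_lt _ hpp.pos
    let Pm : Sylow p (Perm Y) := default
    have hPm : OG p (Pm : Subgroup (Perm Y)) := ih _ hm Y (by simp [Y]) Pm
    exact OG.sylow (syl e hR Pm) P (OG_TT e hPm)

theorem odd_le_alt {X : Type} [Fintype X] [DecidableEq X] (hp2 : p ≠ 2) (T : Sylow p (Perm X)) :
    (T : Subgroup (Perm X)) ≤ alternatingGroup X := by
  intro x hx
  obtain ⟨k, hk⟩ := (T.isPGroup' ⟨x, hx⟩)
  have hk' : x ^ p ^ k = 1 := by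
    simpa [Subtype.ext_iff] using hk
  rw [Equiv.Perm.mem_alternatingGroup]
  have h1 : (sign x) ^ p ^ k = 1 := by rw [← map_pow, hk', map_one]
  rcases Int.units_eq_one_or (sign x) with h | h
  · exact h
  · rw [h, Odd.neg_one_pow ((hp.out.odd_of_ne_two hp2).pow)] at h1
    exact absurd h1 (by decide)

theorem OG_alt : ∀ (X : Type) [Fintype X] [DecidableEq X],
    ∀ Q : Sylow p (alternatingGroup X), OG p (Q : Subgroup (alternatingGroup X)) := by
  intro X _ _ Q
  have hpp := hp.out
  let n := Fintype.card X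
  let Y := Fin (n / p)
  let R := Fin (n % p)
  have hcard : Fintype.card X = Fintype.card ((ZMod p × Y) ⊕ R) := by
    simp only [Fintype.card_sum, Fintype.card_prod, ZMod.card, Y, R, Fintype.card_fin]
    rw [Nat.div_add_mod]
  let e : X ≃ (ZMod p × Y) ⊕ R := Fintype.equivOfCardEq hcard
  have hR : Fintype.card R < p := by
    simp only [R, Fintype.card_fin]
    exact Nat.mod_lt _ hpp.pos
  let Pm : Sylow p (Perm Y) := default
  have hPm : OG p (Pm : Subgroup (Perm Y)) := OG_perm _ Y rfl Pm
  let T : Sylow p (Perm X) := syl e hR Pm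
  have hA : (alternatingGroup X).IsSubnormal :=
    Subgroup.Normal.isSubnormal inferInstance
  let S : Sylow p (alternatingGroup X) :=
    Cfsg.Agent.Lib.Components.SylowSub.sylowOfSubnormal T hA
  apply OG.sylow S Q
  have hS : (S : Subgroup (alternatingGroup X)) = (T : Subgroup (Perm X)).subgroupOf (alternatingGroup X) := rfl
  rw [hS]
  apply OG.of_map (alternatingGroup X).subtype (alternatingGroup X).subtype_injective
  rw [subgroupOf_map_subtype]
  by_cases hp2 : p = 2
  · subst hp2
    exact OG_inf_alt e hPm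
  · rw [inf_of_le_left (odd_le_alt hp2 T)]
    exact OG_TT e hPm

theorem main_result (p : ℕ) [Fact p.Prime] (n : ℕ) (P : Sylow p (Equiv.Perm (Fin n))) (Q : Sylow p (alternatingGroup (Fin n))) :
    (∀ x : (P : Subgroup (Equiv.Perm (Fin n))), x ^ p ∈ commutator (P : Subgroup (Equiv.Perm (Fin n)))) ∧
    (∀ x : (Q : Subgroup (alternatingGroup (Fin n))), x ^ p ∈ commutator (Q : Subgroup (alternatingGroup (Fin n)))) :=
  ⟨fun x => pow_mem_commutator (OG_perm _ (Fin n) rfl P) x,
    fun x => pow_mem_commutator (OG_alt (Fin n) Q) x⟩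



/-- For every prime p and every n, a Sylow p-subgroup P of the symmetric group on n letters has P/P' elementary abelian (the p-th power of every element of P lies in the derived subgroup of P), and the same holds for a Sylow p-subgroup of the alternating group on n letters. -/
theorem result (p : ℕ) [Fact p.Prime] (n : ℕ) (P : Sylow p (Equiv.Perm (Fin n))) (Q : Sylow p (alternatingGroup (Fin n))) :
    (∀ x : (P : Subgroup (Equiv.Perm (Fin n))), x ^ p ∈ commutator (P : Subgroup (Equiv.Perm (Fin n)))) ∧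
    (∀ x : (Q : Subgroup (alternatingGroup (Fin n))), x ^ p ∈ commutator (Q : Subgroup (alternatingGroup (Fin n)))) := by
  exact main_result p n P Q

end Cfsg.Agent.S4623
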