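import Cfsg.Statements.S4741
import Cfsg.Agent.Lib.Blk89.BlockPow

set_option autoImplicit false
set_option linter.style.haveILetI false
open Cfsg

namespace Cfsg.Agent.S4741

open MonoidAlgebra
open Cfsg.Agent.Lib.Blocks.Local Cfsg.Agent.Lib.Blocks.Central
open Cfsg.Agent.Lib.Blocks.Brauer Cfsg.Agent.Lib.Blocks.Defect Cfsg.Agent.Lib.Blocks.Defect2
open Cfsg.Agent.Lib.Blocks.Heights Cfsg.Agent.Lib.BlockT.SylowIn Cfsg.Agent.Lib.BlockP.Stable
open Cfsg.Agent.Lib.Blk89.BlockPow Cfsg.Agent.Lib.Blk89.Necklace
open Cfsg.Agent.Lib.Blocks.Sections Cfsg.Agent.Lib.BlockP.Defect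

/-- A matrix with a right inverse has an invertible maximal submatrix. -/
theorem exists_submatrix {F : Type*} [Field F] {ι : Type*} [Fintype ι] {r : ℕ}
    (U : Matrix (Fin r) ι F) (V : Matrix ι (Fin r) F) (h : U * V = 1) :
    ∃ f : Fin r → ι, Function.Injective f ∧ (U.submatrix id f).det ≠ 0 := by
  classical
  let c : ι → (Fin r → F) := fun B i => U i B
  have hspan : Submodule.span F (Set.range c) = ⊤ := by
    rw [eq_top_iff]
    rintro v -
    have h1 : v = ∑ B, (∑ j, V B j * v j) • c B := by
      ext i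
      have h2 : ∑ B, U i B * V B i = 1 := by
        have := congrFun (congrFun h i) i
        simpa [Matrix.mul_apply] using this
      have h3 : ∀ j, ∑ B, U i B * V B j = if i = j then 1 else 0 := by
        intro j
        have := congrFun (congrFun h i) j
        simpa [Matrix.mul_apply, Matrix.one_apply] using this
      simp only [Finset.sum_apply, Pi.smul_apply, smul_eq_mul, c, Finset.sum_mul]
      rw [Finset.sum_comm]
      have h4 : ∀ j, ∑ B, V B j * v j * U i B = (if i = j then 1 else 0) * v j := by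
        intro j
        rw [← h3 j, Finset.sum_mul]
        refine Finset.sum_congr rfl fun B _ => ?_
        ring
      simp only [h4]
      simp
    rw [h1]
    exact Submodule.sum_mem _ fun B _ => Submodule.smul_mem _ _ (Submodule.subset_span ⟨B, rfl⟩)
  obtain ⟨κ, a, ha, hspan', hli⟩ := exists_linearIndependent' F c
  have hfin : Finite κ := Finite.of_injective a ha
  have := Fintype.ofFinite κ
  rw [hspan] at hspan'
  let b := Module.Basis.mk hli (by rw [hspan'])
  have hcard : Fintype.card κ = r := by
    have h1 := Module.finrank_eq_card_basis b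
    rw [Module.finrank_fin_fun] at h1
    exact h1.symm
  let e : Fin r ≃ κ := (Fintype.equivFinOfCardEq hcard).symm
  refine ⟨a ∘ e, ha.comp e.injective, ?_⟩
  have hli2 : LinearIndependent F (U.submatrix id (a ∘ e)).col := by
    have := hli.comp e e.injective
    exact this
  have hu := Matrix.linearIndependent_cols_iff_isUnit.mp hli2
  exact ((Matrix.isUnit_iff_isUnit_det _).mp hu).ne_zero

/-- Defect groups from min-max. -/
theorem isDefect_of_minmax {G : Type*} [Group G] [Fintype G] [Fintype (IrrCharacter G)] {p : ℕ}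
    [Fact p.Prime] {M : Ideal AlgInt} [M.IsPrime] (hM : IsPModular p M) {B : Set (IrrCharacter G)}
    (hB : IsPBlock M B) {χ : IrrCharacter G} (hχ : χ ∈ B) {D : Subgroup G} {g h : G}
    (hg : ¬ MemLocalIdeal M (centralChar (χ : G → ℂ) g))
    (hD : IsSylowIn p D (Subgroup.centralizer ({g} : Set G)))
    (hh : ¬ MemLocalIdeal M (blockCoeff B h))
    (hDh : D ≤ Subgroup.centralizer ({h} : Set G)) : IsDefectGroup p M B D := by
  obtain ⟨y, hy⟩ := exists_isDefectClass hB
  obtain ⟨S⟩ : Nonempty (Sylow p (Subgroup.centralizer ({y} : Set G))) := inferInstance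
  set E : Subgroup G := (S : Subgroup (Subgroup.centralizer ({y} : Set G))).map
    (Subgroup.centralizer ({y} : Set G)).subtype with hE
  have hES : IsSylowIn p E (Subgroup.centralizer ({y} : Set G)) := ⟨S, rfl⟩
  obtain ⟨a, ha⟩ := minmax_le hM hB hχ hg hy.2.1 hD hES.isPGroup hES.le
  obtain ⟨b, hb⟩ := minmax_le hM hB hχ (hy.2.2 χ hχ) hh hES hD.isPGroup hDh
  have hc1 : Nat.card E ≤ Nat.card D := by
    have := Subgroup.card_le_of_le ha
    rwa [card_conj_eq] at this
  have hc2 : Nat.card D ≤ Nat.card E := by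
    have := Subgroup.card_le_of_le hb
    rwa [card_conj_eq] at this
  have heq : D = E.map (MulAut.conj b).toMonoidHom := by
    apply Subgroup.eq_of_le_of_card_ge hb
    rw [card_conj_eq]
    exact hc1
  rw [heq]
  exact isDefectGroup_conj (isDefectGroup_of_isSylowIn hy hES) b

/-- Valuation of the index from a Sylow subgroup. -/
theorem factorization_index_of_isSylowIn {G : Type*} [Group G] [Finite G] {p : ℕ} [Fact p.Prime]
    {D H : Subgroup G} (hD : IsSylowIn p D H) :
    H.index.factorization p + (Nat.card D).factorization p = (Nat.card G).factorization p := by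
  have hp : p.Prime := Fact.out
  obtain ⟨S, rfl⟩ := hD
  have h1 : Nat.card ((S : Subgroup H).map H.subtype) = Nat.card (S : Subgroup H) :=
    Subgroup.card_map_of_injective H.subtype_injective
  have h2 := S.card_eq_multiplicity
  rw [h1, h2, Nat.factorization_pow, Finsupp.smul_apply, hp.factorization_self]
  simp only [smul_eq_mul, mul_one]
  rw [← H.card_mul_index, Nat.factorization_mul Nat.card_pos.ne' H.index_ne_zero_of_finite]
  simp [add_comm]

/-- The count of `p`-elements. -/
theorem card_delta {G : Type*} [Group G] [Finite G] {p : ℕ} [Fact p.Prime] {r : ℕ} (x : Fin r → G)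
    (hx : ∀ i j : Fin r, IsConj (x i) (x j) → i = j)
    (hsep : ∀ i j : Fin r, ∀ g h : G, IsConj (x i) g → IsConj (x j) h → ∀ k : ℕ, 0 < k →
      orderOf (g * h⁻¹) ≠ p ^ k) (n : ℕ) (i j : Fin r) :
    Nat.card {y : G // IsConj (x i) (y * x j) ∧ y ^ (p ^ n) = 1} = if i = j then 1 else 0 := by
  classical
  have hp : p.Prime := Fact.out
  have hy1 : ∀ y : {y : G // IsConj (x i) (y * x j) ∧ y ^ (p ^ n) = 1}, (y : G) = 1 := by
    rintro ⟨y, hc, hpow⟩
    by_contra hne
    obtain ⟨k, -, hk⟩ := (Nat.dvd_prime_pow hp).mp (orderOf_dvd_of_pow_eq_one hpow)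
    have hk0 : 0 < k := by
      rcases Nat.eq_zero_or_pos k with rfl | h
      · rw [pow_zero, orderOf_eq_one_iff] at hk
        exact absurd hk hne
      · exact h
    have h1 := hsep i j (y * x j) (x j) hc (IsConj.refl _) k hk0
    apply h1
    rw [mul_inv_cancel_right]
    exact hk
  split_ifs with hij
  · subst hij
    rw [Nat.card_eq_one_iff_unique]
    refine ⟨⟨fun a b => Subtype.ext ((hy1 a).trans (hy1 b).symm)⟩, ⟨⟨1, ?_, one_pow _⟩⟩⟩
    rw [one_mul]
  · have : IsEmpty {y : G // IsConj (x i) (y * x j) ∧ y ^ (p ^ n) = 1} := ⟨fun y => by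
      have h1 := y.2.1
      rw [hy1 y, one_mul] at h1
      exact hij (hx i j h1)⟩
    exact Nat.card_of_isEmpty

/-- Let p be a prime, M a maximal ideal of the algebraic integers containing p, and D a subgroup of the finite group G. Let x₁, …, x_r be pairwise non-conjugate elements of G such that D is a Sylow p-subgroup of the centralizer of each xᵢ, and such that for any conjugates g of some xᵢ and h of some xⱼ the element g h⁻¹ is never a non-identity p-element. Then there are r distinct p-blocks B₁, …, B_r of G, each having D as a defect group, such that for every choice of characters χᵢ ∈ Bᵢ of height zero the determinant of the r × r matrix (χᵢ(xⱼ)) does not lie in the local ideal at M. -/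
theorem result {G : Type*} [Group G] [Finite G] (p : ℕ) [Fact p.Prime] (M : Ideal Cfsg.AlgInt) (hM : Cfsg.IsPModular p M) (D : Subgroup G) {r : ℕ} (x : Fin r → G) (hx : ∀ i j : Fin r, IsConj (x i) (x j) → i = j) (hD : ∀ i : Fin r, ∃ S : Sylow p ↥(Subgroup.centralizer ({x i} : Set G)), (S : Subgroup ↥(Subgroup.centralizer ({x i} : Set G))).map (Subgroup.centralizer ({x i} : Set G)).subtype = D) (hsep : ∀ i j : Fin r, ∀ g h : G, IsConj (x i) g → IsConj (x j) h → ∀ k : ℕ, 0 < k → orderOf (g * h⁻¹) ≠ p ^ k) : ∃ B : Fin r → Set (Cfsg.IrrCharacter G), Function.Injective B ∧ (∀ i : Fin r, Cfsg.IsPBlock M (B i) ∧ Cfsg.IsDefectGroup p M (B i) D) ∧ ∀ χ : Fin r → Cfsg.IrrCharacter G, (∀ i : Fin r, χ i ∈ B i ∧ Cfsg.blockHeight p (B i) (χ i : G → ℂ) = 0) → ¬ Cfsg.MemLocalIdeal M (Matrix.det (Matrix.of fun i j : Fin r => (χ i : G → ℂ) (x j))) := by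
  classical
  have hp : p.Prime := Fact.out
  haveI hMp : M.IsPrime := hM.2.1.isPrime
  haveI := Fintype.ofFinite G
  haveI : Finite (IrrCharacter G) := Cfsg.Agent.Lib.Char.Ortho.finite_irrCharacter
  haveI := Fintype.ofFinite (IrrCharacter G)
  haveI : CharP (Res M) p := charP_res hM
  have hDS : ∀ i, IsSylowIn p D (Subgroup.centralizer ({x i} : Set G)) := hD
  obtain ⟨n, hn⟩ : ∃ n, Fintype.card (IrrCharacter G) ≤ p ^ n :=
    ⟨_, (Nat.lt_pow_self hp.one_lt).le⟩
  have hrepE : ∀ B : {B : Set (IrrCharacter G) // IsPBlock M B}, ∃ χ, χ ∈ (B : Set (IrrCharacter G)) :=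
    fun B => isPBlock_nonempty B.2
  choose rep hrep using hrepE
  let ω : {B : Set (IrrCharacter G) // IsPBlock M B} → Fin r → Res M :=
    fun B i => Cfsg.Agent.Lib.Blk89.BlockPow.r M (centralChar ((rep B : IrrCharacter G) : G → ℂ) (x i))
  let a : {B : Set (IrrCharacter G) // IsPBlock M B} → Fin r → Res M :=
    fun B j => Cfsg.Agent.Lib.Blk89.BlockPow.r M (blockCoeff (B : Set (IrrCharacter G)) (x j ^ p ^ n))
  have hωloc : ∀ (χ : IrrCharacter G) (g : G), MemLocalRing M (centralChar (χ : G → ℂ) g) :=
    fun χ g => memLocalRing_of_isIntegral (isIntegral_centralChar χ g)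
  -- the identity
  have hid : ∀ i j, ∑ B, ω B i ^ p ^ n * a B j = if i = j then 1 else 0 := by
    intro i j
    have h1 := coeff_classSum_pow (x i) (x j) (p ^ n)
    have h2 : ((classSum (x i) ^ p ^ n : Subalgebra.center ℂ (GA G)) : GA G).coeff (x j ^ p ^ n) =
        ∑ B : {B : Set (IrrCharacter G) // IsPBlock M B},
          ((classSum (x i) ^ p ^ n * idem (B : Set (IrrCharacter G)) : Subalgebra.center ℂ (GA G)) : GA G).coeff (x j ^ p ^ n) := by
      have h3 : classSum (x i) ^ p ^ n = ∑ B : {B : Set (IrrCharacter G) // IsPBlock M B},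
          classSum (x i) ^ p ^ n * idem (B : Set (IrrCharacter G)) := by
        rw [← Finset.mul_sum, sum_idem_blocks, mul_one]
      conv_lhs => rw [h3]
      rw [AddSubmonoidClass.coe_finsetSum, coeff_sum']
    have hmemC : ∀ B : {B : Set (IrrCharacter G) // IsPBlock M B},
        (classSum (x i) ^ p ^ n * idem (B : Set (IrrCharacter G)) : Subalgebra.center ℂ (GA G)) ∈ localCenter M G :=
      fun B => Subring.mul_mem _ (Subring.pow_mem _ (classSum_mem_localCenter _) _) (idem_mem_localCenter B.2)
    have h4 : Cfsg.Agent.Lib.Blk89.BlockPow.r M (Nat.card (Neck (x i) (x j) (p ^ n)) : ℂ) = ∑ B, ω B i ^ p ^ n * a B j := by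
      rw [← h1, h2, r_sum _ _ (fun B _ => hmemC B _)]
      refine Finset.sum_congr rfl fun B _ => ?_
      have h5 := coeff_pow_idem hM B.2 (hrep B) (classSum_mem_localCenter (x i)) hn (x j ^ p ^ n)
      have hloc2 : MemLocalRing M (omegaHom (rep B) (classSum (x i))) := omegaHom_mem_local _ (classSum_mem_localCenter _)
      have hloc3 := memLocalRing_blockCoeff B.2 (x j ^ p ^ n)
      rw [r_eq_of_sub (hmemC B _) (memLocalRing_mul (memLocalRing_pow hloc2 _) hloc3) h5,
        r_mul (memLocalRing_pow hloc2 _) hloc3, r_pow hloc2, omegaHom_classSum]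
    rw [← h4, r_natCast]
    have h6 := card_neck_modEq (p := p) (n := n) (x i) (x j)
    rw [card_delta x hx hsep n i j] at h6
    have h7 := (CharP.natCast_eq_natCast (Res M) p).mpr h6
    rw [h7]
    split_ifs <;> simp
  -- restrict to blocks of defect group `D`
  have hterm : ∀ (B : {B : Set (IrrCharacter G) // IsPBlock M B}) (i j),
      ω B i ^ p ^ n * a B j ≠ 0 → IsDefectGroup p M (B : Set (IrrCharacter G)) D := by
    intro B i j hne
    have h1 : ω B i ≠ 0 := by
      intro h0
      apply hne
      rw [h0, zero_pow (pow_pos hp.pos n).ne', zero_mul]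
    have h2 : a B j ≠ 0 := by
      intro h0
      apply hne
      rw [h0, mul_zero]
    have h1' : ¬ MemLocalIdeal M (centralChar ((rep B : IrrCharacter G) : G → ℂ) (x i)) :=
      fun h => h1 ((r_eq_zero_iff (hωloc _ _)).mpr h)
    have h2' : ¬ MemLocalIdeal M (blockCoeff (B : Set (IrrCharacter G)) (x j ^ p ^ n)) :=
      fun h => h2 ((r_eq_zero_iff (memLocalRing_blockCoeff B.2 _)).mpr h)
    have hle : D ≤ Subgroup.centralizer ({x j ^ p ^ n} : Set G) := by
      intro d hd
      have h3 := (hDS j).le hd
      rw [Subgroup.mem_centralizer_singleton_iff] at h3 ⊢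
      exact (Commute.pow_right h3 _)
    exact isDefect_of_minmax hM B.2 (hrep B) h1' (hDS i) h2' hle
  let 𝓑 := {B : {B : Set (IrrCharacter G) // IsPBlock M B} // IsDefectGroup p M (B : Set (IrrCharacter G)) D}
  let U : Matrix (Fin r) 𝓑 (Res M) := fun i B => ω B i ^ p ^ n
  let V : Matrix 𝓑 (Fin r) (Res M) := fun B j => a B j
  have hUV : U * V = 1 := by
    ext i j
    rw [Matrix.mul_apply, Matrix.one_apply, ← hid i j]
    have h1 : ∑ B, ω B i ^ p ^ n * a B j = ∑ B ∈ Finset.univ.filter
        (fun B : {B : Set (IrrCharacter G) // IsPBlock M B} => IsDefectGroup p M (B : Set (IrrCharacter G)) D),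
        ω B i ^ p ^ n * a B j := by
      rw [Finset.sum_filter_of_ne]
      intro B _ hne
      exact hterm B i j hne
    rw [h1, Finset.sum_subtype (p := fun B : {B : Set (IrrCharacter G) // IsPBlock M B} => IsDefectGroup p M (B : Set (IrrCharacter G)) D) _ (by simp)]
  obtain ⟨f, hfi, hfd⟩ := exists_submatrix U V hUV
  -- the Frobenius twist
  let W : Matrix (Fin r) (Fin r) (Res M) := Matrix.of fun s i => ω (f s : {B : Set (IrrCharacter G) // IsPBlock M B}) i
  have hW : W.det ≠ 0 := by
    intro h0
    apply hfd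
    have h1 : U.submatrix id f = Matrix.transpose ((iterateFrobenius (Res M) p n).mapMatrix W) := by
      refine Matrix.ext fun i s => ?_
      simp [W, iterateFrobenius_def]
      rfl
    rw [h1, Matrix.det_transpose, ← RingHom.map_det, h0, map_zero]
  refine ⟨fun s => ((f s : {B : Set (IrrCharacter G) // IsPBlock M B}) : Set (IrrCharacter G)), ?_,
    fun s => ⟨(f s).1.2, (f s).2⟩, ?_⟩
  · intro s t hst
    exact hfi (Subtype.ext (Subtype.ext hst))
  · intro χ hχ hJ
    let X : Matrix (Fin r) (Fin r) (Res M) := Matrix.of fun s i =>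
      Cfsg.Agent.Lib.Blk89.BlockPow.r M ((χ s : G → ℂ) (x i))
    have hint : ∀ s i, MemLocalRing M ((χ s : G → ℂ) (x i)) := fun s i =>
      memLocalRing_of_isIntegral (irr_integral (χ s) (x i))
    have hXdet : X.det = 0 := by
      let A' : Matrix (Fin r) (Fin r) (localSubring M) := Matrix.of fun s i => ⟨(χ s : G → ℂ) (x i), hint s i⟩
      have e : (A'.det : ℂ) = Matrix.det (Matrix.of fun i j : Fin r => (χ i : G → ℂ) (x j)) := by
        have h1 := RingHom.map_det (localSubring M).subtype A'
        have h2 : (localSubring M).subtype.mapMatrix A' = Matrix.of fun i j : Fin r => (χ i : G → ℂ) (x j) := by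
          refine Matrix.ext fun i j => ?_
          simp [A']
        rw [h2] at h1
        exact h1
      have h3 : X = (Ideal.Quotient.mk (localIdeal M)).mapMatrix A' := by
        refine Matrix.ext fun i j => ?_
        simp only [X, A', RingHom.mapMatrix_apply, Matrix.map_apply, Matrix.of_apply]
        exact r_of_mem (⟨(χ i : G → ℂ) (x j), hint i j⟩ : localSubring M)
      rw [h3, ← RingHom.map_det, Ideal.Quotient.eq_zero_iff_mem, mem_localIdeal, e]
      exact hJ
    -- valuations
    have hval : ∀ s i, (charDegree (χ s : G → ℂ)).factorization p =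
        (Subgroup.centralizer ({x i} : Set G)).index.factorization p := by
      intro s i
      obtain ⟨y, hy, hyS⟩ := isDefectGroup_isSylowIn (f s).2
      have hB : IsPBlock M ((f s : {B : Set (IrrCharacter G) // IsPBlock M B}) : Set (IrrCharacter G)) := (f s).1.2
      have h1 := factorization_charDegree_of_height_zero (p := p) (hχ s).1 (hχ s).2
      have h2 := factorization_index_of_defectClass hM hB hy
      have h3 := factorization_index_of_isSylowIn hyS
      have h4 := factorization_index_of_isSylowIn (hDS i)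
      rw [h1, ← h2]
      omega
    let k : Fin r → ℕ := fun i => ordCompl[p] (Subgroup.centralizer ({x i} : Set G)).index
    let d : Fin r → ℕ := fun s => ordCompl[p] (charDegree (χ s : G → ℂ))
    have hd0 : ∀ s, (d s : Res M) ≠ 0 := by
      intro s
      rw [Ne, r_natCast_eq_zero_iff hM]
      exact Nat.not_dvd_ordCompl hp (charDegree_ne_zero_irr (χ s))
    have hrel : ∀ s i, (d s : Res M) * W s i = (k i : Res M) * X s i := by
      intro s i
      have hB : IsPBlock M ((f s : {B : Set (IrrCharacter G) // IsPBlock M B}) : Set (IrrCharacter G)) := (f s).1.2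
      have h1 : W s i = Cfsg.Agent.Lib.Blk89.BlockPow.r M (centralChar (χ s : G → ℂ) (x i)) := by
        refine r_eq_of_sub (hωloc _ _) (hωloc _ _) ?_
        have h2 : χ s ∈ blockOf M ((rep (f s : {B : Set (IrrCharacter G) // IsPBlock M B}) : IrrCharacter G) : G → ℂ) := by
          rw [← isPBlock_eq_blockOf hB (hrep _)]
          exact (hχ s).1
        exact h2 (x i)
      have h3 := centralChar_mul_deg (χ s) (x i)
      set e := (Subgroup.centralizer ({x i} : Set G)).index.factorization p with he
      have hb : charDegree (χ s : G → ℂ) = p ^ e * d s := by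
        change charDegree (χ s : G → ℂ) = p ^ e * ((charDegree (χ s : G → ℂ)) / p ^ (charDegree (χ s : G → ℂ)).factorization p)
        rw [he, ← hval s i]
        exact (Nat.ordProj_mul_ordCompl_eq_self _ p).symm
      have ha : (Subgroup.centralizer ({x i} : Set G)).index = p ^ e * k i :=
        (Nat.ordProj_mul_ordCompl_eq_self _ p).symm
      have hb' : (charDegree (χ s : G → ℂ) : ℂ) = (p : ℂ) ^ e * (d s : ℂ) := by exact_mod_cast hb
      have ha' : ((Subgroup.centralizer ({x i} : Set G)).index : ℂ) = (p : ℂ) ^ e * (k i : ℂ) := by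
        exact_mod_cast ha
      rw [hb', ha'] at h3
      have h4 : ((d s : ℕ) : ℂ) * centralChar (χ s : G → ℂ) (x i) = (k i : ℂ) * (χ s : G → ℂ) (x i) := by
        have hpe : (p : ℂ) ^ e ≠ 0 := pow_ne_zero _ (Nat.cast_ne_zero.mpr hp.ne_zero)
        apply mul_left_cancel₀ hpe
        linear_combination h3
      have hX : X s i = Cfsg.Agent.Lib.Blk89.BlockPow.r M ((χ s : G → ℂ) (x i)) := rfl
      rw [h1, hX, ← r_natCast, ← r_natCast, ← r_mul (memLocalRing_natCast _) (hωloc _ _),
        ← r_mul (memLocalRing_natCast _) (hint s i), h4]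
    have h5 := Matrix.det_mul_column (fun s => (d s : Res M)) W
    have h6 := Matrix.det_mul_row (fun i => (k i : Res M)) X
    have h7 : (Matrix.of fun s i => (d s : Res M) * W s i) = (Matrix.of fun s i => (k i : Res M) * X s i) := by
      refine Matrix.ext fun s i => ?_
      exact hrel s i
    rw [h7, h6, hXdet, mul_zero] at h5
    have h8 : ∏ s, (d s : Res M) ≠ 0 := Finset.prod_ne_zero_iff.mpr fun s _ => hd0 s
    exact mul_ne_zero h8 hW h5.symm

end Cfsg.Agent.S4741
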