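import Cfsg.Statements.S4742
import Cfsg.Agent.Lib.Blk89.Necklace
-- import your own Cfsg.Agent.* helpers here

set_option autoImplicit false
open Cfsg

namespace Cfsg.Agent.S4742

/-- Let p ≠ q be primes dividing the order of the finite group G, and suppose the centralizer of every non-identity p-element of G has order prime to q. Then either G has an irreducible character of p-defect zero, or for every non-identity q-element z of G there are conjugates g, h of z such that g h⁻¹ is a non-identity p-element. -/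
theorem result {G : Type*} [Group G] [Finite G] (p q : ℕ) [Fact p.Prime] [Fact q.Prime] (hppq : p ≠ q) (hpG : p ∣ Nat.card G) (hqG : q ∣ Nat.card G) (hC : ∀ g : G, g ≠ 1 → (∃ k : ℕ, orderOf g = p ^ k) → ¬ q ∣ Nat.card ↥(Subgroup.centralizer ({g} : Set G))) : (∃ χ : Cfsg.IrrCharacter G, (Cfsg.charDegree (χ : G → ℂ)).factorization p = (Nat.card G).factorization p) ∨ ∀ z : G, z ≠ 1 → (∃ k : ℕ, orderOf z = q ^ k) → ∃ g h : G, IsConj z g ∧ IsConj z h ∧ g * h⁻¹ ≠ 1 ∧ ∃ k : ℕ, orderOf (g * h⁻¹) = p ^ k := by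
  classical
  have hp : p.Prime := Fact.out
  have hq : q.Prime := Fact.out
  by_cases hex : ∃ χ : Cfsg.IrrCharacter G, (Cfsg.charDegree (χ : G → ℂ)).factorization p = (Nat.card G).factorization p
  · exact Or.inl hex
  right
  push Not at hex
  rintro z hz ⟨k, hk⟩
  have hCz : ¬ p ∣ Nat.card ↥(Subgroup.centralizer ({z} : Set G)) := by
    intro hdvd
    obtain ⟨x, hx⟩ := exists_prime_orderOf_dvd_card' p hdvd
    have hxo : orderOf (x : G) = p := by
      rw [← hx, Subgroup.orderOf_coe]
    have hx1 : (x : G) ≠ 1 := by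
      intro h
      rw [h, orderOf_one] at hxo
      exact hp.one_lt.ne hxo
    apply hC (x : G) hx1 ⟨1, by rw [pow_one, hxo]⟩
    have hk0 : k ≠ 0 := by
      rintro rfl
      rw [pow_zero, orderOf_eq_one_iff] at hk
      exact hz hk
    have hmem : z ∈ Subgroup.centralizer ({(x : G)} : Set G) := by
      rw [Subgroup.mem_centralizer_singleton_iff]
      have := x.2
      rw [Subgroup.mem_centralizer_singleton_iff] at this
      exact this.symm
    have h1 : orderOf (⟨z, hmem⟩ : Subgroup.centralizer ({(x : G)} : Set G)) = q ^ k := by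
      rw [← hk, ← Subgroup.orderOf_coe]
    have h2 := orderOf_dvd_natCard (⟨z, hmem⟩ : Subgroup.centralizer ({(x : G)} : Set G))
    rw [h1] at h2
    exact (dvd_pow_self q hk0).trans h2
  obtain ⟨n, hn, -⟩ := Cfsg.Agent.Lib.Blk89.Necklace.dvd_card_pElements hex z z hCz
  have hpos : 0 < Nat.card {y : G // IsConj z (y * z) ∧ y ^ (p ^ n) = 1} := by
    have : Nonempty {y : G // IsConj z (y * z) ∧ y ^ (p ^ n) = 1} :=
      ⟨⟨1, by rw [one_mul], one_pow _⟩⟩
    exact Nat.card_pos
  have hlt : 1 < Nat.card {y : G // IsConj z (y * z) ∧ y ^ (p ^ n) = 1} :=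
    lt_of_lt_of_le hp.one_lt (Nat.le_of_dvd hpos hn)
  have := Finite.one_lt_card_iff_nontrivial.mp hlt
  obtain ⟨y, hy⟩ := exists_ne (⟨1, by rw [one_mul], one_pow _⟩ : {y : G // IsConj z (y * z) ∧ y ^ (p ^ n) = 1})
  have hy1 : (y : G) ≠ 1 := fun h => hy (Subtype.ext h)
  refine ⟨y * z, z, y.2.1, IsConj.refl z, ?_, ?_⟩
  · rw [mul_inv_cancel_right]
    exact hy1
  · rw [mul_inv_cancel_right]
    obtain ⟨m, -, hm⟩ := (Nat.dvd_prime_pow hp).mp (orderOf_dvd_of_pow_eq_one y.2.2)
    exact ⟨m, hm⟩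

end Cfsg.Agent.S4742
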