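import Cfsg.Statements.S4743
import Cfsg.Agent.S4742
import Cfsg.Agent.Lib.Blk89.ItoMichler
import Cfsg.Agent.Lib.Char.BrauerPerm
import Cfsg.Agent.Lib.Core.PSolvable
-- import your own Cfsg.Agent.* helpers here

set_option autoImplicit false
open Cfsg

namespace Cfsg.Agent.S4743

open Cfsg.Agent.Lib.Char.Basic Cfsg.Agent.Lib.Char.Ortho Cfsg.Agent.Lib.Char.Complete
open Cfsg.Agent.Lib.Char.Degree Cfsg.Agent.Lib.Blk89.Basic Cfsg.Agent.Lib.Blk89.Linear
open Cfsg.Agent.Lib.Blk89.ItoMichler Cfsg.Agent.Lib.Char.Linear Cfsg.Agent.Lib.Char.CliffordCorr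
open Cfsg.Agent.Lib.Char.Conj Cfsg.Agent.Lib.Char.BrauerPerm Cfsg.Agent.Lib.Core.PSolvable
open Module

universe u

theorem noPQ_of_hC {G : Type*} [Group G] [Finite G] {p q : ℕ} [Fact p.Prime] [Fact q.Prime] (hpq : p ≠ q)
    (hC : ∀ g : G, g ≠ 1 → (∃ k : ℕ, orderOf g = p ^ k) → ¬ q ∣ Nat.card ↥(Subgroup.centralizer ({g} : Set G)))
    (g : G) : orderOf g ≠ p * q := by
  intro hg
  have hp : p.Prime := Fact.out
  have hq : q.Prime := Fact.out
  have hgq : orderOf (g ^ q) = p := by
    rw [orderOf_pow_of_dvd hq.ne_zero (by rw [hg]; exact Dvd.intro_left p rfl), hg]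
    exact Nat.mul_div_cancel _ hq.pos
  have hgp : orderOf (g ^ p) = q := by
    rw [orderOf_pow_of_dvd hp.ne_zero (by rw [hg]; exact Dvd.intro q rfl), hg]
    exact Nat.mul_div_cancel_left _ hp.pos
  have h1 : g ^ q ≠ 1 := by
    intro h
    rw [h, orderOf_one] at hgq
    exact hp.one_lt.ne hgq
  apply hC (g ^ q) h1 ⟨1, by rw [pow_one, hgq]⟩
  have hmem : g ^ p ∈ Subgroup.centralizer ({g ^ q} : Set G) := by
    rw [Subgroup.mem_centralizer_singleton_iff]
    exact (Commute.pow_pow_self g p q).eq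
  have h2 : orderOf (⟨g ^ p, hmem⟩ : Subgroup.centralizer ({g ^ q} : Set G)) = orderOf (g ^ p) := by
    rw [← Subgroup.orderOf_coe]
  have h3 := orderOf_dvd_natCard (⟨g ^ p, hmem⟩ : Subgroup.centralizer ({g ^ q} : Set G))
  rw [h2, hgp] at h3
  exact h3

theorem hC_of_noPQ {G : Type*} [Group G] [Finite G] {p q : ℕ} [Fact p.Prime] [Fact q.Prime] (hpq : p ≠ q)
    (hno : ∀ g : G, orderOf g ≠ p * q) (g : G) (hg : g ≠ 1) (hk : ∃ k : ℕ, orderOf g = p ^ k) :
    ¬ q ∣ Nat.card ↥(Subgroup.centralizer ({g} : Set G)) := by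
  intro hdvd
  have hp : p.Prime := Fact.out
  have hq : q.Prime := Fact.out
  obtain ⟨k, hk⟩ := hk
  obtain ⟨x, hx⟩ := exists_prime_orderOf_dvd_card' q hdvd
  have hxo : orderOf (x : G) = q := by
    rw [← hx, Subgroup.orderOf_coe]
  have hk0 : k ≠ 0 := by
    rintro rfl
    rw [pow_zero, orderOf_eq_one_iff] at hk
    exact hg hk
  obtain ⟨k', rfl⟩ := Nat.exists_eq_succ_of_ne_zero hk0
  have hg' : orderOf (g ^ (p ^ k')) = p := by
    rw [orderOf_pow_of_dvd (pow_ne_zero _ hp.ne_zero) (by rw [hk]; exact pow_dvd_pow _ (Nat.le_succ _)), hk,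
      Nat.succ_eq_add_one, pow_succ]
    exact Nat.mul_div_cancel_left _ (pow_pos hp.pos _)
  have hcomm : Commute (g ^ (p ^ k')) (x : G) := by
    have := x.2
    rw [Subgroup.mem_centralizer_singleton_iff] at this
    exact (Commute.pow_left (show Commute g (x : G) from this.symm) _)
  apply hno (g ^ (p ^ k') * x)
  rw [hcomm.orderOf_mul_eq_mul_orderOf_of_coprime (by
    rw [hg', hxo]; exact (Nat.coprime_primes hp hq).mpr hpq), hg', hxo]

theorem noPQ_symm {G : Type*} [Group G] {p q : ℕ} (hno : ∀ g : G, orderOf g ≠ p * q) (g : G) :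
    orderOf g ≠ q * p := by
  rw [mul_comm]
  exact hno g

theorem noPQ_quotient {G : Type*} [Group G] [Finite G] {p q : ℕ} [Fact p.Prime] [Fact q.Prime]
    (hno : ∀ g : G, orderOf g ≠ p * q) (N : Subgroup G) [N.Normal] (x : G ⧸ N) : orderOf x ≠ p * q := by
  intro hx
  obtain ⟨g, rfl⟩ := QuotientGroup.mk_surjective x
  have h1 : orderOf ((g : G ⧸ N)) ∣ orderOf g := orderOf_map_dvd (QuotientGroup.mk' N) g
  rw [hx] at h1
  obtain ⟨m, hm⟩ := h1
  have hpos := orderOf_pos g
  have hm0 : m ≠ 0 := by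
    rintro rfl
    omega
  apply hno (g ^ m)
  rw [orderOf_pow_of_dvd hm0 (by rw [hm]; exact Dvd.intro_left _ rfl), hm]
  exact Nat.mul_div_cancel _ (Nat.pos_of_ne_zero hm0)

/-- An abelian normal `p`-subgroup gives a character of `q`-defect zero. -/
theorem exists_qdz {G : Type*} [Group G] [Finite G] {p q : ℕ} [Fact p.Prime] [Fact q.Prime] (hpq : p ≠ q)
    (hno : ∀ g : G, orderOf g ≠ p * q) (A : Subgroup G) (hA : A.Normal) (hAb : ∀ a b : A, a * b = b * a)
    (hAp : ∃ m : ℕ, Nat.card A = p ^ m) (hA1 : A ≠ ⊥) :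
    ∃ χ : Cfsg.IrrCharacter G, (Cfsg.charDegree (χ : G → ℂ)).factorization q = (Nat.card G).factorization q := by
  classical
  have hp : p.Prime := Fact.out
  have hq : q.Prime := Fact.out
  have := Fintype.ofFinite G
  have := Fintype.ofFinite A
  -- a nontrivial linear character
  obtain ⟨a, ha⟩ := (Subgroup.ne_bot_iff_exists_ne_one).mp hA1
  have hcomm : commutator A = ⊥ := by
    rw [commutator_eq_bot_iff_center_eq_top, Subgroup.eq_top_iff']
    intro x
    rw [Subgroup.mem_center_iff]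
    intro g
    exact hAb g x
  obtain ⟨lam, hlam⟩ := exists_hom_ne_one (g := a) (by
    rw [hcomm, Subgroup.mem_bot]
    exact ha)
  set θ : A → ℂ := fun x => (lam x : ℂ) with hθdef
  have hθ : Cfsg.IsIrrCharacter A θ := isIrrCharacter_of_hom lam
  have hqT : ¬ q ∣ Nat.card (inertia hA θ) := by
    intro hdvd
    obtain ⟨y, hy⟩ := exists_prime_orderOf_dvd_card' q hdvd
    have hyo : orderOf (y : G) = q := by
      rw [← hy, Subgroup.orderOf_coe]
    have hfix : ∀ b : A, (y : G) * b * (y : G)⁻¹ = b → b = 1 := by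
      intro b hb
      by_contra hb1
      have hb1' : (b : G) ≠ 1 := fun h => hb1 (Subtype.ext h)
      obtain ⟨m, hm⟩ := hAp
      have h1 : orderOf (b : G) ∣ p ^ m := by
        rw [← hm, Subgroup.orderOf_coe]
        exact orderOf_dvd_natCard b
      obtain ⟨k, -, hk⟩ := (Nat.dvd_prime_pow hp).mp h1
      apply hC_of_noPQ hpq hno (b : G) hb1' ⟨k, hk⟩
      have hmem : (y : G) ∈ Subgroup.centralizer ({(b : G)} : Set G) := by
        rw [Subgroup.mem_centralizer_singleton_iff]
        calc (y : G) * b = (y : G) * b * (y : G)⁻¹ * y := by group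
          _ = b * y := by rw [hb]
      have h2 : orderOf (⟨y, hmem⟩ : Subgroup.centralizer ({(b : G)} : Set G)) = orderOf (y : G) := by
        rw [← Subgroup.orderOf_coe]
      have h3 := orderOf_dvd_natCard (⟨y, hmem⟩ : Subgroup.centralizer ({(b : G)} : Set G))
      rw [h2, hyo] at h3
      exact h3
    let α : A ≃* A := conjEquiv hA (y : G)
    have hαa : ∀ b : A, ((α b : A) : G) = (y : G) * b * (y : G)⁻¹ := fun b => rfl
    have hcount := card_fixed_classes_eq_card_fixed_irr α
    have hone : Nat.card {C : ConjClasses A // ConjClasses.map α.toMonoidHom C = C} = 1 := by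
      have hfixC : ∀ b : A, ConjClasses.map α.toMonoidHom (ConjClasses.mk b) = ConjClasses.mk b → b = 1 := by
        intro b hb
        have h1 : IsConj (α b) b := ConjClasses.mk_eq_mk_iff_isConj.mp hb
        have h2 : α b = b := by
          obtain ⟨c, hc⟩ := isConj_iff.mp h1
          calc α b = c * α b * c⁻¹ := by rw [hAb c, mul_assoc, mul_inv_cancel, mul_one]
            _ = b := hc
        apply hfix b
        rw [← hαa, h2]
      rw [Nat.card_eq_one_iff_unique]
      refine ⟨⟨?_⟩, ⟨⟨ConjClasses.mk 1, ?_⟩⟩⟩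
      · rintro ⟨C, hC⟩ ⟨D, hD⟩
        obtain ⟨x, rfl⟩ := ConjClasses.mk_surjective C
        obtain ⟨z, rfl⟩ := ConjClasses.mk_surjective D
        have hx := hfixC x hC
        have hz := hfixC z hD
        subst hx
        subst hz
        rfl
      · change ConjClasses.mk (α.toMonoidHom 1) = _
        rw [map_one]
    rw [hone] at hcount
    have hsub := (Nat.card_eq_one_iff_unique.mp hcount.symm).1
    have hθfix : θ ∘ α = θ := by
      have := (mem_inertia hA θ (y : G)).mp y.2
      rw [conjOn_eq_comp] at this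
      exact this
    have hoi : ((oneIrr A : Cfsg.IrrCharacter A) : A → ℂ) ∘ α = ((oneIrr A : Cfsg.IrrCharacter A) : A → ℂ) := by
      funext b
      simp [oneIrr_apply]
    have e : (⟨⟨θ, hθ⟩, hθfix⟩ : {χ : Cfsg.IrrCharacter A // (χ : A → ℂ) ∘ α = (χ : A → ℂ)}) =
        ⟨oneIrr A, hoi⟩ := Subsingleton.elim _ _
    have e2 := congrArg (fun x : {χ : Cfsg.IrrCharacter A // (χ : A → ℂ) ∘ α = (χ : A → ℂ)} =>
      ((x.1 : Cfsg.IrrCharacter A) : A → ℂ) a) e
    simp only [oneIrr_apply] at e2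
    apply hlam
    apply Units.ext
    simpa [hθdef] using e2
  obtain ⟨χ, hχ⟩ := exists_irr_over hθ
  refine ⟨χ, ?_⟩
  have h1 := deg_mul_index_dvd hA χ.2 hθ hχ
  have h2 : (inertia hA θ).index ∣ Cfsg.charDegree (χ : G → ℂ) := (Dvd.intro _ rfl).trans h1
  have hd0 : Cfsg.charDegree (χ : G → ℂ) ≠ 0 := (charDegree_pos χ.2).ne'
  have h3 := (Nat.factorization_le_iff_dvd (Subgroup.index_ne_zero_of_finite) hd0).mpr h2 q
  have h4 := (Nat.factorization_le_iff_dvd hd0 Nat.card_pos.ne').mpr (charDegree_dvd_card χ.2) q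
  have h5 := Subgroup.card_mul_index (inertia hA θ)
  have h6 : (Nat.card G).factorization q = (inertia hA θ).index.factorization q := by
    rw [← h5, Nat.factorization_mul Nat.card_pos.ne' Subgroup.index_ne_zero_of_finite, Finsupp.add_apply,
      Nat.factorization_eq_zero_of_not_dvd hqT, zero_add]
  omega

theorem claim_aux (p q : ℕ) [Fact p.Prime] [Fact q.Prime] (hpq : p ≠ q) (n : ℕ) :
    ∀ (G : Type u) [Group G] [Finite G], Nat.card G = n →
    p ∣ Nat.card G → q ∣ Nat.card G → (∀ g : G, orderOf g ≠ p * q) → Cfsg.IsPSolvable p G →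
    (∃ χ : Cfsg.IrrCharacter G, (Cfsg.charDegree (χ : G → ℂ)).factorization p = (Nat.card G).factorization p) ∨
    (∃ χ : Cfsg.IrrCharacter G, (Cfsg.charDegree (χ : G → ℂ)).factorization q = (Nat.card G).factorization q) := by
  induction n using Nat.strong_induction_on with
  | _ n ih =>
  intro G _ _ hn hpG hqG hno hs
  have hp : p.Prime := Fact.out
  have hq : q.Prime := Fact.out
  have : Nontrivial G := by
    apply Finite.one_lt_card_iff_nontrivial.mp
    exact lt_of_lt_of_le hp.one_lt (Nat.le_of_dvd Nat.card_pos hpG)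
  obtain ⟨N, hN, hN1, hNc⟩ := isPSolvable_exists_normal hs
  rcases hNc with ⟨m, hm⟩ | hcop
  · right
    have hNp : IsPGroup p N := IsPGroup.of_card hm
    have : Nontrivial N := (Subgroup.nontrivial_iff_ne_bot N).mpr hN1
    have hcn := hNp.center_nontrivial
    obtain ⟨z, hz⟩ := exists_ne (1 : Subgroup.center N)
    have hz1 : ((z : N) : G) ≠ 1 := fun h => hz (Subtype.ext (Subtype.ext h))
    let A : Subgroup G := N ⊓ Subgroup.centralizer (N : Set G)
    have hAn : A.Normal := Subgroup.normal_inf_normal _ _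
    have hAz : ((z : N) : G) ∈ A := by
      refine ⟨(z : N).2, Subgroup.mem_centralizer_iff.mpr ?_⟩
      intro h hh
      have := (Subgroup.mem_center_iff.mp z.2) ⟨h, hh⟩
      exact congrArg Subtype.val this
    have hA1 : A ≠ ⊥ := by
      intro h
      rw [h, Subgroup.mem_bot] at hAz
      exact hz1 hAz
    have hAp : ∃ m : ℕ, Nat.card A = p ^ m := by
      have h1 : Nat.card A ∣ p ^ m := by
        rw [← hm]
        exact Subgroup.card_dvd_of_le inf_le_left
      obtain ⟨k, -, hk⟩ := (Nat.dvd_prime_pow hp).mp h1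
      exact ⟨k, hk⟩
    have hAb : ∀ a b : A, a * b = b * a := by
      intro a b
      apply Subtype.ext
      have := (Subgroup.mem_centralizer_iff.mp b.2.2) a a.2.1
      exact this
    exact exists_qdz hpq hno A hAn hAb hAp hA1
  · by_cases hpd : ∃ χ : Cfsg.IrrCharacter G, (Cfsg.charDegree (χ : G → ℂ)).factorization p = (Nat.card G).factorization p
    · exact Or.inl hpd
    have hC := hC_of_noPQ hpq hno
    have hpN : ¬ p ∣ Nat.card N := by
      intro h
      have := Nat.Coprime.eq_one_of_dvd (hcop.symm) h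
      exact hp.one_lt.ne' this
    have hqN : ¬ q ∣ Nat.card N := by
      intro hdvd
      obtain ⟨z, hz⟩ := exists_prime_orderOf_dvd_card' q hdvd
      have hzo : orderOf (z : G) = q := by
        rw [← hz, Subgroup.orderOf_coe]
      have hz1 : (z : G) ≠ 1 := by
        intro h
        rw [h, orderOf_one] at hzo
        exact hq.one_lt.ne hzo
      rcases Cfsg.Agent.S4742.result p q hpq hpG hqG hC with h | h
      · exact hpd h
      obtain ⟨g, h', hg, hh, hne, k, hk⟩ := h (z : G) hz1 ⟨1, by rw [pow_one, hzo]⟩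
      have hg' : g ∈ N := by
        obtain ⟨c, hc⟩ := isConj_iff.mp hg
        rw [← hc]
        exact hN.conj_mem _ z.2 c
      have hh' : h' ∈ N := by
        obtain ⟨c, hc⟩ := isConj_iff.mp hh
        rw [← hc]
        exact hN.conj_mem _ z.2 c
      have hmem : g * h'⁻¹ ∈ N := N.mul_mem hg' (N.inv_mem hh')
      have h1 : orderOf (⟨g * h'⁻¹, hmem⟩ : N) = orderOf (g * h'⁻¹) := by
        rw [← Subgroup.orderOf_coe]
      have h2 := orderOf_dvd_natCard (⟨g * h'⁻¹, hmem⟩ : N)
      rw [h1, hk] at h2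
      have hk0 : k = 0 := by
        by_contra hk0
        exact hpN ((dvd_pow_self p hk0).trans h2)
      subst hk0
      rw [pow_zero, orderOf_eq_one_iff] at hk
      exact hne hk
    have hcard : Nat.card (G ⧸ N) * Nat.card N = Nat.card G :=
      (Subgroup.card_eq_card_quotient_mul_card_subgroup N).symm
    have hN0 : Nat.card N ≠ 0 := Nat.card_pos.ne'
    have hQ0 : Nat.card (G ⧸ N) ≠ 0 := Nat.card_pos.ne'
    have hlt : Nat.card (G ⧸ N) < n := by
      have h2 : 1 < Nat.card N := by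
        have : Nontrivial N := (Subgroup.nontrivial_iff_ne_bot N).mpr hN1
        exact Finite.one_lt_card
      rw [← hn, ← hcard]
      exact lt_mul_of_one_lt_right (Nat.pos_of_ne_zero hQ0) h2
    have hpQ : p ∣ Nat.card (G ⧸ N) := by
      rw [← hcard] at hpG
      exact (hp.dvd_mul.mp hpG).resolve_right hpN
    have hqQ : q ∣ Nat.card (G ⧸ N) := by
      rw [← hcard] at hqG
      exact (hq.dvd_mul.mp hqG).resolve_right hqN
    have hsQ : Cfsg.IsPSolvable p (G ⧸ N) :=
      isPSolvable_of_surjective (QuotientGroup.mk' N) (QuotientGroup.mk'_surjective N) hs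
    have hfac : ∀ r : ℕ, ¬ r ∣ Nat.card N → (Nat.card G).factorization r = (Nat.card (G ⧸ N)).factorization r := by
      intro r hr
      rw [← hcard, Nat.factorization_mul hQ0 hN0, Finsupp.add_apply,
        Nat.factorization_eq_zero_of_not_dvd hr, add_zero]
    have hinfl : ∀ φ : Cfsg.IrrCharacter (G ⧸ N), ∃ χ : Cfsg.IrrCharacter G,
        Cfsg.charDegree (χ : G → ℂ) = Cfsg.charDegree (φ : G ⧸ N → ℂ) := by
      intro φ
      refine ⟨⟨(φ : G ⧸ N → ℂ) ∘ (QuotientGroup.mk' N), Cfsg.Agent.Lib.Char.Linear.isIrrCharacter_comp _ (QuotientGroup.mk'_surjective N) φ.2⟩, ?_⟩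
      simp [Cfsg.charDegree]
    rcases ih _ hlt (G ⧸ N) rfl hpQ hqQ (noPQ_quotient hno N) hsQ with ⟨φ, hφ⟩ | ⟨φ, hφ⟩
    · obtain ⟨χ, hχ⟩ := hinfl φ
      left
      exact ⟨χ, by rw [hχ, hφ, hfac p hpN]⟩
    · obtain ⟨χ, hχ⟩ := hinfl φ
      right
      exact ⟨χ, by rw [hχ, hφ, hfac q hqN]⟩

theorem claim {G : Type u} [Group G] [Finite G] (p q : ℕ) [Fact p.Prime] [Fact q.Prime] (hpq : p ≠ q)
    (hpG : p ∣ Nat.card G) (hqG : q ∣ Nat.card G) (hno : ∀ g : G, orderOf g ≠ p * q)
    (hs : Cfsg.IsPSolvable p G) :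
    (∃ χ : Cfsg.IrrCharacter G, (Cfsg.charDegree (χ : G → ℂ)).factorization p = (Nat.card G).factorization p) ∨
    (∃ χ : Cfsg.IrrCharacter G, (Cfsg.charDegree (χ : G → ℂ)).factorization q = (Nat.card G).factorization q) :=
  claim_aux p q hpq _ G rfl hpG hqG hno hs

/-- Let p ≠ q be primes dividing the order of the finite group G, suppose the centralizer of every non-identity p-element has order prime to q, and suppose G is p-solvable or q-solvable. Then G has an irreducible character of p-defect zero or an irreducible character of q-defect zero. -/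
theorem result {G : Type*} [Group G] [Finite G] (p q : ℕ) [Fact p.Prime] [Fact q.Prime] (hppq : p ≠ q) (hpG : p ∣ Nat.card G) (hqG : q ∣ Nat.card G) (hC : ∀ g : G, g ≠ 1 → (∃ k : ℕ, orderOf g = p ^ k) → ¬ q ∣ Nat.card ↥(Subgroup.centralizer ({g} : Set G))) (hsolv : Cfsg.IsPSolvable p G ∨ Cfsg.IsPSolvable q G) : (∃ χ : Cfsg.IrrCharacter G, (Cfsg.charDegree (χ : G → ℂ)).factorization p = (Nat.card G).factorization p) ∨ (∃ χ : Cfsg.IrrCharacter G, (Cfsg.charDegree (χ : G → ℂ)).factorization q = (Nat.card G).factorization q) := by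
  have hp : p.Prime := Fact.out
  have hq : q.Prime := Fact.out
  have hno := noPQ_of_hC hppq hC
  rcases hsolv with hs | hs
  · exact claim p q hppq hpG hqG hno hs
  · exact (claim q p hppq.symm hqG hpG (noPQ_symm hno) hs).symm

end Cfsg.Agent.S4743
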