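import Cfsg.Statements.S4744
import Cfsg.Agent.Lib.Blk89.NoTwoP
-- import your own Cfsg.Agent.* helpers here

set_option autoImplicit false
open Cfsg

namespace Cfsg.Agent.S4744

/-- Let p be an odd prime and G a finite group of even order divisible by p in which the centralizer of every non-identity p-element has odd order. Then either G has an irreducible character of p-defect zero, or the normalizer of every Sylow p-subgroup P of G has even order and P is abelian. -/
theorem result {G : Type*} [Group G] [Finite G] (p : ℕ) [Fact p.Prime] (hp2 : p ≠ 2) (hpG : p ∣ Nat.card G) (h2G : 2 ∣ Nat.card G) (hC : ∀ g : G, g ≠ 1 → (∃ k : ℕ, orderOf g = p ^ k) → Odd (Nat.card ↥(Subgroup.centralizer ({g} : Set G)))) : (∃ χ : Cfsg.IrrCharacter G, (Cfsg.charDegree (χ : G → ℂ)).factorization p = (Nat.card G).factorization p) ∨ ∀ P : Sylow p G, Even (Nat.card ↥(Subgroup.normalizer ((P : Subgroup G) : Set G))) ∧ IsMulCommutative ↥(P : Subgroup G) := by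
  by_cases hex : ∃ χ : Cfsg.IrrCharacter G, (Cfsg.charDegree (χ : G → ℂ)).factorization p = (Nat.card G).factorization p
  · exact Or.inl hex
  right
  push Not at hex
  intro P
  have hC' : Cfsg.Agent.Lib.Blk89.NoTwoP.OddCent p G := hC
  obtain ⟨t, ht⟩ := exists_prime_orderOf_dvd_card' 2 h2G
  obtain ⟨t₀, ht₀, hN, -⟩ := Cfsg.Agent.Lib.Blk89.NoTwoP.exists_conj_mem_normalizer hC' hex ht P
  refine ⟨?_, Cfsg.Agent.Lib.Blk89.NoTwoP.isMulCommutative_of_normalized hC' ht₀ P.isPGroup' hN⟩
  rw [even_iff_two_dvd]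
  have h1 := orderOf_dvd_natCard (⟨t₀, hN⟩ : Subgroup.normalizer ((P : Subgroup G) : Set G))
  rwa [show orderOf (⟨t₀, hN⟩ : Subgroup.normalizer ((P : Subgroup G) : Set G)) = orderOf t₀ by
    rw [← Subgroup.orderOf_coe], ht₀] at h1

end Cfsg.Agent.S4744
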