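import Cfsg.Statements.S4746
import Cfsg.Agent.Lib.Blk89.Necklace
import Cfsg.Agent.Lib.Char.FrobSchur
-- import your own Cfsg.Agent.* helpers here

set_option autoImplicit false
open Cfsg

namespace Cfsg.Agent.S4746

open Cfsg.Agent.Lib.Char.Basic Cfsg.Agent.Lib.Char.Ortho Cfsg.Agent.Lib.Char.Complete
open Cfsg.Agent.Lib.Char.Degree Cfsg.Agent.Lib.Blk89.Basic Cfsg.Agent.Lib.Char.FrobSchur
open Module
open scoped ComplexConjugate

/-- The value at an involution has the parity of the degree. -/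
theorem exists_int_of_invol {G : Type*} [Group G] [Finite G] {χ : G → ℂ} (hχ : Cfsg.IsCharacter G χ)
    {t : G} (ht : orderOf t = 2) (hodd : Odd (Cfsg.charDegree χ)) : ∃ c : ℤ, χ t = 1 + 2 * c := by
  classical
  obtain ⟨n, ρ, -, rfl⟩ := hχ
  obtain ⟨μ, h1, h2⟩ := Cfsg.Agent.Lib.Char.Eigen.character_eq_sum_roots' ρ t
  have hc : ∀ i, ∃ c : ℤ, μ i = 1 + 2 * c := by
    intro i
    have h3 := h1 i
    rw [ht] at h3
    rcases sq_eq_one_iff.mp h3 with h4 | h4
    · exact ⟨0, by simp [h4]⟩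
    · exact ⟨-1, by rw [h4]; norm_num⟩
  choose c hc using hc
  obtain ⟨k, hk⟩ := hodd
  rw [Cfsg.Agent.Lib.Char.Degree.charDegree_character, finrank_fin_fun] at hk
  refine ⟨k + ∑ i, c i, ?_⟩
  rw [h2]
  simp_rw [hc]
  rw [Finset.sum_add_distrib]
  simp only [Finset.sum_const, Finset.card_univ, Fintype.card_fin, nsmul_eq_mul, mul_one]
  rw [← Finset.mul_sum]
  have hd : ((finrank ℂ (Fin n → ℂ) : ℕ) : ℂ) = 2 * k + 1 := by
    have : finrank ℂ (Fin n → ℂ) = 2 * k + 1 := by rw [finrank_fin_fun, hk]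
    rw [this]
    push_cast
    rfl
  rw [hd]
  push_cast
  ring

/-- Let p be an odd prime and G a finite group of even order divisible by p in which the centralizer of every non-identity p-element has odd order. Then G has an irreducible character of p-defect zero or an irreducible character of even degree. -/
theorem result {G : Type*} [Group G] [Finite G] (p : ℕ) [Fact p.Prime] (hp2 : p ≠ 2) (hpG : p ∣ Nat.card G) (h2G : 2 ∣ Nat.card G) (hC : ∀ g : G, g ≠ 1 → (∃ k : ℕ, orderOf g = p ^ k) → Odd (Nat.card ↥(Subgroup.centralizer ({g} : Set G)))) : (∃ χ : Cfsg.IrrCharacter G, (Cfsg.charDegree (χ : G → ℂ)).factorization p = (Nat.card G).factorization p) ∨ ∃ χ : Cfsg.IrrCharacter G, Even (Cfsg.charDegree (χ : G → ℂ)) := by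
  classical
  have hp : p.Prime := Fact.out
  have := Fintype.ofFinite G
  have : Finite (Cfsg.IrrCharacter G) := finite_irrCharacter
  have := Fintype.ofFinite (Cfsg.IrrCharacter G)
  by_cases hex : ∃ χ : Cfsg.IrrCharacter G, (Cfsg.charDegree (χ : G → ℂ)).factorization p = (Nat.card G).factorization p
  · exact Or.inl hex
  right
  by_contra hall
  push Not at hex hall
  have hodd : ∀ χ : Cfsg.IrrCharacter G, Odd (Cfsg.charDegree (χ : G → ℂ)) := fun χ =>
    Nat.not_even_iff_odd.mp (hall χ)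
  obtain ⟨t, ht⟩ := exists_prime_orderOf_dvd_card' 2 h2G
  have ht1 : t ≠ 1 := by
    intro h
    rw [h, orderOf_one] at ht
    omega
  have ht2 : t * t = 1 := by
    rw [← pow_two, ← ht]
    exact pow_orderOf_eq_one t
  have hCt : ¬ p ∣ Nat.card ↥(Subgroup.centralizer ({t} : Set G)) := by
    intro hdvd
    obtain ⟨x, hx⟩ := exists_prime_orderOf_dvd_card' p hdvd
    have hxo : orderOf (x : G) = p := by
      rw [← hx, Subgroup.orderOf_coe]
    have hx1 : (x : G) ≠ 1 := by
      intro h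
      rw [h, orderOf_one] at hxo
      exact hp.one_lt.ne hxo
    have hO := hC (x : G) hx1 ⟨1, by rw [pow_one, hxo]⟩
    have hmem : t ∈ Subgroup.centralizer ({(x : G)} : Set G) := by
      rw [Subgroup.mem_centralizer_singleton_iff]
      have := x.2
      rw [Subgroup.mem_centralizer_singleton_iff] at this
      exact this.symm
    have h1 : orderOf (⟨t, hmem⟩ : Subgroup.centralizer ({(x : G)} : Set G)) = 2 := by
      rw [← ht, ← Subgroup.orderOf_coe]
    have h2 := orderOf_dvd_natCard (⟨t, hmem⟩ : Subgroup.centralizer ({(x : G)} : Set G))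
    rw [h1] at h2
    exact (Nat.not_even_iff_odd.mpr hO) (even_iff_two_dvd.mpr h2)
  obtain ⟨n, hn, -⟩ := Cfsg.Agent.Lib.Blk89.Necklace.dvd_card_pElements hex t t hCt
  have hpos : 0 < Nat.card {y : G // IsConj t (y * t) ∧ y ^ (p ^ n) = 1} := by
    have : Nonempty {y : G // IsConj t (y * t) ∧ y ^ (p ^ n) = 1} :=
      ⟨⟨1, by rw [one_mul], one_pow _⟩⟩
    exact Nat.card_pos
  have hlt : 1 < Nat.card {y : G // IsConj t (y * t) ∧ y ^ (p ^ n) = 1} :=
    lt_of_lt_of_le hp.one_lt (Nat.le_of_dvd hpos hn)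
  have := Finite.one_lt_card_iff_nontrivial.mp hlt
  obtain ⟨y', hy'⟩ := exists_ne (⟨1, by rw [one_mul], one_pow _⟩ : {y : G // IsConj t (y * t) ∧ y ^ (p ^ n) = 1})
  obtain ⟨y, hyc, hypow⟩ := y'
  have hy1 : y ≠ 1 := fun h => hy' (Subtype.ext h)
  obtain ⟨m, -, hym⟩ := (Nat.dvd_prime_pow hp).mp (orderOf_dvd_of_pow_eq_one hypow)
  have hyt : (y * t) * (y * t) = 1 := by
    obtain ⟨c, hc⟩ := isConj_iff.mp hyc
    rw [← hc]
    calc c * t * c⁻¹ * (c * t * c⁻¹) = c * (t * t) * c⁻¹ := by group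
      _ = 1 := by rw [ht2]; group
  have htinv : t⁻¹ = t := inv_eq_of_mul_eq_one_left ht2
  have hyinv : IsConj y y⁻¹ := by
    rw [isConj_iff]
    refine ⟨t, ?_⟩
    rw [htinv]
    have : y * t * (y * t) * (t * y⁻¹) = t * y⁻¹ := by rw [hyt, one_mul]
    have h3 : y * t * (y * t) * (t * y⁻¹) = y * t * (y * (t * t) * y⁻¹) := by group
    rw [h3, ht2] at this
    simp only [mul_one, mul_inv_cancel] at this
    have h4 : t * y * t * (y * t) = t * (y * t * (y * t)) := by group
    rw [hyt] at h4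
    simp only [mul_one] at h4
    calc t * y * t = t * y * t * (y * y⁻¹) := by group
      _ = t * y * t * (y * t) * (t * y⁻¹) := by
        rw [show t * y * t * (y * t) * (t * y⁻¹) = t * y * t * (y * (t * t) * y⁻¹) by group, ht2]
        group
      _ = t * t * y⁻¹ := by rw [h4]; group
      _ = y⁻¹ := by rw [ht2, one_mul]
  have hreal : ∀ χ : Cfsg.IrrCharacter G, conj ((χ : G → ℂ) y) = (χ : G → ℂ) y := by
    intro χ
    rw [← char_inv (isCharacter_of_isIrrCharacter χ.2)]
    exact (char_conj_eq (isCharacter_of_isIrrCharacter χ.2) hyinv).symm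
  have hty : ¬ IsConj t y := by
    intro h
    have h1 : orderOf t = orderOf y := by
      obtain ⟨c, hc⟩ := isConj_iff.mp h
      rw [← hc]
      exact (MulEquiv.orderOf_eq (MulAut.conj c) t).symm
    rw [ht, hym] at h1
    have h2 : p ∣ 2 := by
      have hm0 : m ≠ 0 := by
        rintro rfl
        rw [pow_zero, orderOf_eq_one_iff] at hym
        exact hy1 hym
      rw [h1]
      exact dvd_pow_self p hm0
    exact hp2 ((Nat.prime_dvd_prime_iff_eq hp Nat.prime_two).mp h2)
  -- column orthogonality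
  have hcol := sum_irr_mul_conj (G := G) t y
  rw [if_neg hty] at hcol
  have hcχ : ∀ χ : Cfsg.IrrCharacter G, ∃ c : ℤ, (χ : G → ℂ) t = 1 + 2 * c := fun χ =>
    exists_int_of_invol (isCharacter_of_isIrrCharacter χ.2) ht (hodd χ)
  choose c hc using hcχ
  -- the square roots of `y`
  have hCy := hC y hy1 ⟨m, hym⟩
  obtain ⟨k, hk⟩ := hCy
  have hsqrt : Nat.card {s : G // s * s = y} = 1 := by
    have hmemC : ∀ s : G, s * s = y → s ∈ Subgroup.centralizer ({y} : Set G) := by
      rintro s rfl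
      rw [Subgroup.mem_centralizer_singleton_iff]
      group
    have hpowC : ∀ s ∈ Subgroup.centralizer ({y} : Set G), s ^ (2 * k + 1) = 1 := by
      intro s hs
      have := pow_card_eq_one' (x := (⟨s, hs⟩ : Subgroup.centralizer ({y} : Set G)))
      rw [hk] at this
      simpa using congrArg Subtype.val this
    have hymem : y ∈ Subgroup.centralizer ({y} : Set G) := by
      rw [Subgroup.mem_centralizer_singleton_iff]
    rw [Nat.card_eq_one_iff_unique]
    refine ⟨⟨?_⟩, ⟨⟨y ^ (k + 1), ?_⟩⟩⟩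
    · have huniq : ∀ s : {s : G // s * s = y}, s.1 = y ^ (k + 1) := by
        rintro ⟨s, hs⟩
        have h1 := hpowC s (hmemC s hs)
        simp only
        rw [← hs, ← pow_two, ← pow_mul]
        calc s = s ^ (2 * k + 1) * s := by rw [h1, one_mul]
          _ = s ^ (2 * (k + 1)) := by rw [← pow_succ]; ring_nf
      intro a b
      exact Subtype.ext ((huniq a).trans (huniq b).symm)
    · have h1 := hpowC y hymem
      rw [← pow_two, ← pow_mul]
      calc y ^ ((k + 1) * 2) = y ^ (2 * k + 1) * y := by rw [← pow_succ]; ring_nf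
        _ = y := by rw [h1, one_mul]
  have hroot := card_sqrt_eq (G := G) y
  rw [hsqrt] at hroot
  -- the conjugation permutation
  let σ : Equiv.Perm (Cfsg.IrrCharacter G) :=
    { toFun := fun χ => ⟨fun g => conj ((χ : G → ℂ) g), isIrr_conj χ.2⟩
      invFun := fun χ => ⟨fun g => conj ((χ : G → ℂ) g), isIrr_conj χ.2⟩
      left_inv := fun χ => by
        apply Subtype.ext
        funext g
        simp
      right_inv := fun χ => by
        apply Subtype.ext
        funext g
        simp }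
  have hσσ : ∀ χ, σ (σ χ) = χ := σ.left_inv
  let F : Cfsg.IrrCharacter G → ℂ := fun χ =>
    if (∀ g, ((χ : G → ℂ) g).im = 0) then 0 else (χ : G → ℂ) y
  have hFσ : ∀ χ, F (σ χ) = F χ := by
    intro χ
    have h1 : (∀ g, (((σ χ : Cfsg.IrrCharacter G) : G → ℂ) g).im = 0) ↔ ∀ g, ((χ : G → ℂ) g).im = 0 := by
      refine forall_congr' fun g => ?_
      change (conj ((χ : G → ℂ) g)).im = 0 ↔ _
      rw [Complex.conj_im, neg_eq_zero]
    simp only [F]
    by_cases h2 : ∀ g, ((χ : G → ℂ) g).im = 0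
    · rw [if_pos h2, if_pos (h1.mpr h2)]
    · rw [if_neg h2, if_neg (fun h => h2 (h1.mp h))]
      exact hreal χ
  have hFint : ∀ χ, IsIntegral ℤ (F χ) := by
    intro χ
    simp only [F]
    split_ifs
    · exact isIntegral_zero
    · exact Cfsg.Agent.Lib.Blk89.Necklace.irr_integral χ y
  have hFper : ∀ χ, F χ ≠ 0 → 2 ∣ Function.minimalPeriod σ χ := by
    intro χ hχ
    have h1 : ¬ ∀ g, ((χ : G → ℂ) g).im = 0 := by
      intro h
      apply hχ
      simp only [F]
      rw [if_pos h]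
    have h2 : σ χ ≠ χ := by
      intro h
      apply h1
      rw [isReal_iff_conj]
      exact congrArg (fun x : Cfsg.IrrCharacter G => (x : G → ℂ)) h
    have h3 : Function.IsPeriodicPt σ 2 χ := by
      change σ^[2] χ = χ
      simp [hσσ]
    rcases (Nat.dvd_prime Nat.prime_two).mp h3.minimalPeriod_dvd with h4 | h4
    · exact absurd (Function.minimalPeriod_eq_one_iff_isFixedPt.mp h4) h2
    · rw [h4]
  obtain ⟨γ, hγ, hγeq⟩ := Cfsg.Agent.Lib.Char.DefectZero.sum_invariant_eq_mul σ F hFσ hFint 2 hFper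
  -- each value decomposes
  have hdecomp : ∀ χ : Cfsg.IrrCharacter G, (χ : G → ℂ) y =
      conj ((Nat.card G : ℂ)⁻¹ * ∑ s : G, (χ : G → ℂ) (s * s)) * (χ : G → ℂ) y + F χ := by
    intro χ
    obtain ⟨d, ρ, hρ, hχρ⟩ := χ.2
    have hdodd : Odd d := by
      have h1 := hodd χ
      rw [← hχρ, Cfsg.Agent.Lib.Char.Degree.charDegree_character, finrank_fin_fun] at h1
      exact h1
    simp only [F]
    by_cases h2 : ∀ g, ((χ : G → ℂ) g).im = 0
    · rw [if_pos h2, add_zero]
      have h3 := indicator_of_odd_degree ρ hρ (by rw [hχρ]; exact h2) hdodd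
      rw [hχρ] at h3
      rw [h3]
      simp
    · rw [if_neg h2]
      have h3 := (frobeniusSchur ρ hρ).2.mpr (by
        push Not at h2
        rw [hχρ]
        exact h2)
      rw [hχρ] at h3
      rw [h3]
      simp
  have hsumy : ∑ χ : Cfsg.IrrCharacter G, (χ : G → ℂ) y = 1 + 2 * γ := by
    calc ∑ χ : Cfsg.IrrCharacter G, (χ : G → ℂ) y
        = ∑ χ : Cfsg.IrrCharacter G, (conj ((Nat.card G : ℂ)⁻¹ * ∑ s : G, (χ : G → ℂ) (s * s)) * (χ : G → ℂ) y + F χ) :=
          Finset.sum_congr rfl fun χ _ => hdecomp χ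
      _ = _ := by
          rw [Finset.sum_add_distrib, ← hroot, hγeq]
          simp
  have hmain : (1 : ℂ) + 2 * (γ + ∑ χ : Cfsg.IrrCharacter G, (c χ : ℂ) * (χ : G → ℂ) y) = 0 := by
    rw [← hcol, mul_add, ← add_assoc, ← hsumy, Finset.mul_sum, ← Finset.sum_add_distrib]
    refine Finset.sum_congr rfl fun χ _ => ?_
    rw [hreal χ, hc χ]
    ring
  have hint : IsIntegral ℤ (γ + ∑ χ : Cfsg.IrrCharacter G, (c χ : ℂ) * (χ : G → ℂ) y) := by
    refine hγ.add (IsIntegral.sum _ fun χ _ => IsIntegral.mul ?_ (Cfsg.Agent.Lib.Blk89.Necklace.irr_integral χ y))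
    exact (isIntegral_algebraMap (R := ℤ) (A := ℂ) (x := c χ))
  have hhalf : IsIntegral ℤ (((1 : ℕ) : ℂ) / ((2 : ℕ) : ℂ)) := by
    have h5 : ((1 : ℕ) : ℂ) / ((2 : ℕ) : ℂ) = -(γ + ∑ χ : Cfsg.IrrCharacter G, (c χ : ℂ) * (χ : G → ℂ) y) := by
      push_cast
      linear_combination (1 / 2 : ℂ) * hmain
    rw [h5]
    exact hint.neg
  have h6 := Cfsg.Agent.Lib.Char.Central.nat_dvd_of_isIntegral_div (by norm_num) hhalf
  omega

end Cfsg.Agent.S4746
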