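import Cfsg.Agent.Lib.Blk89.Linear
import Cfsg.Agent.Lib.Char.Eigen
import Cfsg.Agent.Lib.Char.Clifford
import Cfsg.Agent.Lib.Core.Basic
import Cfsg.Agent.Lib.QuadAct.Sections

set_option autoImplicit false

namespace Cfsg.Agent.S4748

open Cfsg Module
open Cfsg.Agent.Lib.Char.Basic Cfsg.Agent.Lib.Char.Ortho Cfsg.Agent.Lib.Char.Complete
open Cfsg.Agent.Lib.Char.Degree Cfsg.Agent.Lib.Blk89.Basic Cfsg.Agent.Lib.Blk89.Linear
open scoped ComplexConjugate Pointwise

/-- The sum of squared norms of an irreducible character. -/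
theorem sum_norm_sq {H : Type*} [Group H] [Fintype H] (ζ : H → ℂ) :
    ((classInner ζ ζ : ℂ) : ℂ) = (((Nat.card H : ℝ)⁻¹ * ∑ h : H, ‖ζ h‖ ^ 2 : ℝ) : ℂ) := by
  rw [classInner]
  push_cast
  congr 1
  refine Finset.sum_congr rfl fun h _ => ?_
  rw [Complex.mul_conj, Complex.normSq_eq_norm_sq]
  push_cast
  rfl

/-- Central elements of an irreducible character have maximal absolute value. -/
theorem norm_central {H : Type*} [Group H] [Finite H] {χ : H → ℂ} (hχ : IsIrrCharacter H χ) {z : H}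
    (hz : z ∈ Subgroup.center H) : ‖χ z‖ = ‖χ 1‖ := by
  have h1 : ∀ n : ℕ, χ (z ^ n) * χ 1 ^ n = χ z ^ n * χ 1 := by
    intro n
    induction n with
    | zero => simp
    | succ n ih =>
      have h2 := char_mul_central hχ (z ^ n) hz
      rw [pow_succ z, pow_succ (χ 1)]
      calc χ (z ^ n * z) * (χ 1 ^ n * χ 1) = (χ (z ^ n * z) * χ 1) * χ 1 ^ n := by ring
        _ = (χ (z ^ n) * χ z) * χ 1 ^ n := by rw [h2]
        _ = (χ (z ^ n) * χ 1 ^ n) * χ z := by ring
        _ = χ z ^ (n + 1) * χ 1 := by rw [ih]; ring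
  have h3 := h1 (orderOf z)
  rw [pow_orderOf_eq_one] at h3
  have h4 : χ 1 ≠ 0 := irr_one_ne_zero hχ
  have h5 : χ 1 ^ orderOf z = χ z ^ orderOf z := by
    have : χ 1 * χ 1 ^ orderOf z = χ 1 * χ z ^ orderOf z := by rw [h3]; ring
    exact mul_left_cancel₀ h4 this
  have h6 : ‖χ 1‖ ^ orderOf z = ‖χ z‖ ^ orderOf z := by
    rw [← norm_pow, ← norm_pow, h5]
  have h7 : orderOf z ≠ 0 := (orderOf_pos z).ne'
  exact ((pow_left_inj₀ (norm_nonneg _) (norm_nonneg _) h7).mp h6).symm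

section key

variable {H : Type*} [Group H]

/-- The fiber bound. -/
theorem fiber_bound (O P Y : Subgroup H) [O.Normal] [Fintype O] [Fintype Y]
    (hcop : (Nat.card O).Coprime (Nat.card P))
    (hY : ∀ c, c ∈ Y ↔ c ∈ O ∧ ∀ v ∈ P, c * v = v * c)
    (hC : ∀ u ∈ P, u ≠ 1 → ∀ x ∈ O, x * u = u * x → ∀ v ∈ P, x * v = v * x)
    {f : H → ℝ} (hf0 : ∀ h, 0 ≤ f h) (hfc : ∀ g h, f (g * h * g⁻¹) = f h)
    {u : H} (hu : u ∈ P) (hu1 : u ≠ 1) :
    (Nat.card O : ℝ) * ∑ c : ↥Y, f (c * u) ≤ (Nat.card ↥Y : ℝ) * ∑ a : O, f (a * u) := by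
  classical
  have hYO : ∀ c : ↥Y, (c : H) ∈ O := fun c => ((hY _).mp c.2).1
  have hYP : ∀ c : ↥Y, ∀ v ∈ P, (c : H) * v = v * c := fun c => ((hY _).mp c.2).2
  -- the map
  have hmem : ∀ q : O × ↥Y, (q.1 : H) * q.2 * (u * (q.1 : H)⁻¹ * u⁻¹) ∈ O := by
    intro q
    refine O.mul_mem (O.mul_mem q.1.2 (hYO q.2)) ?_
    exact ‹O.Normal›.conj_mem _ (O.inv_mem q.1.2) u
  let φ : O × ↥Y → O := fun q => ⟨(q.1 : H) * q.2 * (u * (q.1 : H)⁻¹ * u⁻¹), hmem q⟩
  have hφ : ∀ q : O × ↥Y, ((φ q : O) : H) * u = (q.1 : H) * ((q.2 : H) * u) * (q.1 : H)⁻¹ := by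
    intro q
    simp only [φ]
    group
  -- key: fiber cardinalities
  obtain ⟨k, hk1, hk2⟩ : ∃ k : ℕ, k ≡ 0 [MOD Nat.card O] ∧ k ≡ 1 [MOD Nat.card P] := by
    let c := Nat.chineseRemainder hcop 0 1
    exact ⟨c, c.2.1, c.2.2⟩
  have hpow : ∀ c : ↥Y, ((c : H) * u) ^ k = u := by
    intro c
    have hcomm : Commute (c : H) u := hYP c u hu
    rw [hcomm.mul_pow]
    have h1 : (c : H) ^ k = 1 := by
      have hd : Nat.card O ∣ k := (Nat.modEq_zero_iff_dvd).mp hk1
      obtain ⟨m, rfl⟩ := hd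
      rw [pow_mul]
      have : (c : H) ^ Nat.card O = 1 := by
        have h2 : (⟨c, hYO c⟩ : O) ^ Nat.card O = 1 := pow_card_eq_one'
        simpa only [SubgroupClass.coe_pow, OneMemClass.coe_one] using congrArg Subtype.val h2
      rw [this, one_pow]
    have h2 : u ^ k = u := by
      have h3 : u ^ Nat.card P = 1 := by
        have h2 : (⟨u, hu⟩ : P) ^ Nat.card P = 1 := pow_card_eq_one'
        simpa only [SubgroupClass.coe_pow, OneMemClass.coe_one] using congrArg Subtype.val h2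
      have h4 := (pow_eq_pow_iff_modEq (x := u)).mpr
        (hk2.of_dvd (by
          have := orderOf_dvd_of_pow_eq_one h3
          exact this))
      simpa using h4
    rw [h1, h2, one_mul]
  have hkey : ∀ q q' : O × ↥Y, φ q = φ q' → (q'.1 : H)⁻¹ * q.1 ∈ Y := by
    intro q q' hq
    have h1 : (q.1 : H) * ((q.2 : H) * u) * (q.1 : H)⁻¹ = (q'.1 : H) * ((q'.2 : H) * u) * (q'.1 : H)⁻¹ := by
      rw [← hφ, ← hφ, hq]
    have h2 : ((q.1 : H) * u * (q.1 : H)⁻¹) = (q'.1 : H) * u * (q'.1 : H)⁻¹ := by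
      have h3 := congrArg (· ^ k) h1
      simp only [conj_pow, hpow] at h3
      exact h3
    have h4 : ((q'.1 : H)⁻¹ * q.1) * u = u * ((q'.1 : H)⁻¹ * q.1) := by
      have h5 : (q.1 : H) * u = ((q'.1 : H) * u * (q'.1 : H)⁻¹) * q.1 := by
        rw [← h2]; group
      calc ((q'.1 : H)⁻¹ * q.1) * u = (q'.1 : H)⁻¹ * ((q.1 : H) * u) := by group
        _ = u * ((q'.1 : H)⁻¹ * q.1) := by rw [h5]; group
    have hmemO : (q'.1 : H)⁻¹ * q.1 ∈ O := O.mul_mem (O.inv_mem q'.1.2) q.1.2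
    refine (hY _).mpr ⟨hmemO, ?_⟩
    intro v hv
    exact hC u hu hu1 _ hmemO h4 v hv
  have hfib : ∀ a : O, (Finset.univ.filter (fun q : O × ↥Y => φ q = a)).card ≤ Nat.card ↥Y := by
    intro a
    by_cases hne : (Finset.univ.filter (fun q : O × ↥Y => φ q = a)).Nonempty
    · obtain ⟨q₀, hq₀⟩ := hne
      rw [Finset.mem_filter] at hq₀
      rw [Nat.card_eq_fintype_card, ← Finset.card_univ]
      refine Finset.card_le_card_of_injOn (fun q =>
        if h : (q₀.1 : H)⁻¹ * q.1 ∈ Y then ⟨(q₀.1 : H)⁻¹ * q.1, h⟩ else 1) (fun _ _ => Finset.mem_coe.mpr (Finset.mem_univ _)) ?_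
      intro q hq q' hq' heq
      simp only [Finset.coe_filter, Finset.mem_univ, true_and, Set.mem_ofPred_eq] at hq hq'
      have h1 : (q₀.1 : H)⁻¹ * q.1 ∈ Y := hkey q q₀ (hq.trans hq₀.2.symm)
      have h2 : (q₀.1 : H)⁻¹ * q'.1 ∈ Y := hkey q' q₀ (hq'.trans hq₀.2.symm)
      simp only [dif_pos h1, dif_pos h2] at heq
      have h3 : (q.1 : H) = q'.1 := by
        have := congrArg Subtype.val heq
        simpa using this
      have h4 : q.1 = q'.1 := Subtype.ext h3
      have h5 : (φ q : H) = φ q' := by rw [hq, hq']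
      simp only [φ, h3] at h5
      have h6 : (q.2 : H) = q'.2 := by
        have := mul_right_cancel h5
        exact mul_left_cancel this
      exact Prod.ext h4 (Subtype.ext h6)
    · rw [Finset.not_nonempty_iff_eq_empty] at hne
      rw [hne]
      simp
  -- now the computation
  have hL : (Nat.card O : ℝ) * ∑ c : ↥Y, f (c * u) = ∑ q : O × ↥Y, f ((φ q : O) * u) := by
    rw [Fintype.sum_prod_type]
    rw [Nat.card_eq_fintype_card, ← nsmul_eq_mul, ← Finset.card_univ, ← Finset.sum_const]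
    refine Finset.sum_congr rfl fun x _ => Finset.sum_congr rfl fun c _ => ?_
    rw [hφ (x, c)]
    exact (hfc _ _).symm
  rw [hL]
  rw [← Finset.sum_fiberwise (Finset.univ) φ, Finset.mul_sum]
  refine Finset.sum_le_sum fun a _ => ?_
  calc ∑ q ∈ Finset.univ.filter (fun q : O × ↥Y => φ q = a), f ((φ q : O) * u)
      = ∑ q ∈ Finset.univ.filter (fun q : O × ↥Y => φ q = a), f ((a : H) * u) := by
        refine Finset.sum_congr rfl fun q hq => ?_
        rw [(Finset.mem_filter.mp hq).2]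
    _ = ((Finset.univ.filter (fun q : O × ↥Y => φ q = a)).card : ℝ) * f ((a : H) * u) := by
        rw [Finset.sum_const, nsmul_eq_mul]
    _ ≤ _ := by
        apply mul_le_mul_of_nonneg_right _ (hf0 _)
        exact_mod_cast hfib a

/-- The main estimate. -/
theorem key [Finite H] (O P : Subgroup H) [O.Normal] (hcop : (Nat.card O).Coprime (Nat.card P))
    (hgen : ∀ h : H, ∃ a ∈ O, ∃ u ∈ P, h = a * u)
    (hC : ∀ u ∈ P, u ≠ 1 → ∀ x ∈ O, x * u = u * x → ∀ v ∈ P, x * v = v * x)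
    {ζ : H → ℂ} (hζ : IsIrrCharacter H ζ) (hd : charDegree ζ ^ 2 ≤ Nat.card P)
    {u₀ : H} (hu₀ : u₀ ∈ P) (hz : ∀ v ∈ P, u₀ * v = v * u₀) : ‖ζ u₀‖ = ‖ζ 1‖ := by
  classical
  have := Fintype.ofFinite H
  have := Fintype.ofFinite O
  have := Fintype.ofFinite P
  let Y : Subgroup H := O ⊓ Subgroup.centralizer (P : Set H)
  have hY : ∀ c, c ∈ Y ↔ c ∈ O ∧ ∀ v ∈ P, c * v = v * c := by
    intro c
    rw [Subgroup.mem_inf, Subgroup.mem_centralizer_iff]
    exact and_congr_right fun _ => forall₂_congr fun v _ => eq_comm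
  have := Fintype.ofFinite Y
  have hζc := isCharacter_of_isIrrCharacter hζ
  let f : H → ℝ := fun h => ‖ζ h‖ ^ 2
  have hf0 : ∀ h, 0 ≤ f h := fun h => by positivity
  have hfc : ∀ g h, f (g * h * g⁻¹) = f h := by
    intro g h
    simp only [f]
    rw [isClassFunction_of_isCharacter hζc h g]
  -- the decomposition
  have hinf : O ⊓ P = ⊥ := by
    exact disjoint_iff.mp (Subgroup.disjoint_of_coprime_natCard hcop)
  let e : O × P → H := fun q => (q.1 : H) * q.2
  have he : Function.Bijective e := by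
    constructor
    · rintro ⟨a, u⟩ ⟨a', u'⟩ h
      simp only [e] at h
      have h1 : (a' : H)⁻¹ * a = u' * (u : H)⁻¹ := by
        rw [inv_mul_eq_iff_eq_mul, ← mul_assoc, eq_mul_inv_iff_mul_eq]
        exact h
      have h2 : (a' : H)⁻¹ * a ∈ O ⊓ P := by
        refine ⟨O.mul_mem (O.inv_mem a'.2) a.2, ?_⟩
        rw [h1]
        exact P.mul_mem u'.2 (P.inv_mem u.2)
      rw [hinf, Subgroup.mem_bot] at h2
      have h3 : (a : H) = a' := by
        rw [inv_mul_eq_one] at h2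
        exact h2.symm
      have h4 : (u : H) = u' := by
        rw [h3] at h
        exact mul_left_cancel h
      exact Prod.ext (Subtype.ext h3) (Subtype.ext h4)
    · intro h
      obtain ⟨a, ha, u, hu, rfl⟩ := hgen h
      exact ⟨(⟨a, ha⟩, ⟨u, hu⟩), rfl⟩
  let ee : O × P ≃ H := Equiv.ofBijective e he
  have hcard : Nat.card H = Nat.card O * Nat.card P := by
    rw [← Nat.card_prod]
    exact (Nat.card_congr ee).symm
  have hsum : ∑ u : P, ∑ a : O, f (a * u) = (Nat.card O : ℝ) * Nat.card P := by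
    have h1 : ∑ h : H, f h = (Nat.card H : ℝ) := by
      have h2 := classInner_self_of_isIrr hζ
      rw [sum_norm_sq] at h2
      have h3 : ((Nat.card H : ℝ)⁻¹ * ∑ h : H, ‖ζ h‖ ^ 2 : ℝ) = 1 := by exact_mod_cast h2
      have h4 : (Nat.card H : ℝ) ≠ 0 := by
        exact_mod_cast Nat.card_pos.ne'
      field_simp at h3
      exact h3
    rw [← Nat.cast_mul, ← hcard, ← h1, ← Equiv.sum_comp ee, Fintype.sum_prod_type_right]
    rfl
  -- the estimates
  let S : P → ℝ := fun u => ∑ c : ↥Y, f (c * u)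
  let T : P → ℝ := fun u => ∑ a : O, f (a * u)
  have hdpos : 0 < ‖ζ 1‖ ^ 2 := by
    have := irr_one_ne_zero hζ
    positivity
  have hdeg : ‖ζ 1‖ ^ 2 = (charDegree ζ ^ 2 : ℕ) := by
    have h1 : (charDegree ζ : ℂ) = ζ 1 := charDegree_natCast hζc
    rw [← h1]
    simp
  have hT1 : ‖ζ 1‖ ^ 2 ≤ T 1 := by
    have h1 := Finset.single_le_sum (f := fun a : O => f (a * ((1 : P) : H)))
      (fun a _ => hf0 _) (Finset.mem_univ (1 : O))
    have h2 : f ((((1 : O) : H)) * ((1 : P) : H)) = ‖ζ 1‖ ^ 2 := by simp [f]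
    rw [← h2]
    exact h1
  have hS1 : S 1 ≤ (Nat.card Y : ℝ) * ‖ζ 1‖ ^ 2 := by
    have h1 : ∀ c : ↥Y, f (c * ((1 : P) : H)) ≤ ‖ζ 1‖ ^ 2 := by
      intro c
      have h2 := norm_le_deg hζc ((c : H) * ((1 : P) : H))
      simp only [f]
      gcongr
    calc S 1 ≤ ∑ _c : ↥Y, ‖ζ 1‖ ^ 2 := Finset.sum_le_sum fun c _ => h1 c
      _ = _ := by
        rw [Finset.sum_const, Finset.card_univ, nsmul_eq_mul, Nat.card_eq_fintype_card]
  have hSu : ∀ u : P, u ≠ 1 → (Nat.card O : ℝ) * S u ≤ (Nat.card Y : ℝ) * T u := by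
    intro u hu
    exact fiber_bound O P Y hcop hY hC hf0 hfc u.2 (by simpa using hu)
  have hOpos : (0 : ℝ) < Nat.card O := by exact_mod_cast Nat.card_pos
  have hYpos : (0 : ℝ) < Nat.card Y := by exact_mod_cast Nat.card_pos
  have hPpos : (0 : ℝ) < Nat.card P := by exact_mod_cast Nat.card_pos
  have hdP : ‖ζ 1‖ ^ 2 ≤ (Nat.card P : ℝ) := by
    rw [hdeg]
    exact_mod_cast hd
  have htotal : ∑ u : P, S u < 2 * ((Nat.card Y : ℝ) * Nat.card P) := by
    have h1 : ∑ u : P, S u = S 1 + ∑ u ∈ Finset.univ.erase (1 : P), S u :=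
      (Finset.add_sum_erase _ _ (Finset.mem_univ _)).symm
    have h2 : ∑ u : P, T u = T 1 + ∑ u ∈ Finset.univ.erase (1 : P), T u :=
      (Finset.add_sum_erase _ _ (Finset.mem_univ _)).symm
    have h3 : (Nat.card O : ℝ) * ∑ u ∈ Finset.univ.erase (1 : P), S u ≤
        (Nat.card Y : ℝ) * ∑ u ∈ Finset.univ.erase (1 : P), T u := by
      rw [Finset.mul_sum, Finset.mul_sum]
      exact Finset.sum_le_sum fun u hu => hSu u (Finset.ne_of_mem_erase hu)
    have h4 : ∑ u : P, T u = (Nat.card O : ℝ) * Nat.card P := hsum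
    have h5 : (Nat.card O : ℝ) * ∑ u : P, S u < (Nat.card O : ℝ) * (2 * ((Nat.card Y : ℝ) * Nat.card P)) := by
      rw [h1, mul_add]
      have h6 : (Nat.card Y : ℝ) * ∑ u ∈ Finset.univ.erase (1 : P), T u ≤
          (Nat.card Y : ℝ) * ((Nat.card O : ℝ) * Nat.card P - ‖ζ 1‖ ^ 2) := by
        apply mul_le_mul_of_nonneg_left _ hYpos.le
        linarith
      have h7 : (Nat.card O : ℝ) * S 1 ≤ (Nat.card O : ℝ) * ((Nat.card Y : ℝ) * Nat.card P) := by
        apply mul_le_mul_of_nonneg_left _ hOpos.le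
        refine hS1.trans ?_
        exact mul_le_mul_of_nonneg_left hdP hYpos.le
      have h8 : 0 < (Nat.card Y : ℝ) * ‖ζ 1‖ ^ 2 := mul_pos hYpos hdpos
      nlinarith
    exact lt_of_mul_lt_mul_left h5 hOpos.le
  -- the direct product
  have hcommYP : ∀ (c : ↥Y) (u : P), Commute ((c : H)) (u : H) := fun c u => ((hY _).mp c.2).2 u u.2
  let π : ↥Y × ↥P →* H := MonoidHom.noncommCoprod Y.subtype P.subtype hcommYP
  have hπ : ∀ q : ↥Y × ↥P, π q = (q.1 : H) * q.2 := fun q => rfl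
  have hψ : IsCharacter (↥Y × ↥P) (ζ ∘ π) := isCharacter_comp π hζc
  obtain ⟨n, hn⟩ := exists_nat_classInner hψ hψ
  have hinner : ((n : ℝ) : ℂ) = (((Nat.card (↥Y × ↥P) : ℝ)⁻¹ * ∑ q : ↥Y × ↥P, ‖(ζ ∘ π) q‖ ^ 2 : ℝ) : ℂ) := by
    rw [← sum_norm_sq]
    simpa using hn.symm
  have hinner' : (n : ℝ) = ((Nat.card (↥Y × ↥P) : ℝ)⁻¹ * ∑ q : ↥Y × ↥P, ‖(ζ ∘ π) q‖ ^ 2 : ℝ) := by
    exact_mod_cast hinner
  have hsumq : ∑ q : ↥Y × ↥P, ‖(ζ ∘ π) q‖ ^ 2 = ∑ u : P, S u := by
    rw [Fintype.sum_prod_type_right]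
    rfl
  have hcardq : (Nat.card (↥Y × ↥P) : ℝ) = (Nat.card Y : ℝ) * Nat.card P := by
    rw [Nat.card_prod]; push_cast; rfl
  have hn2 : n < 2 := by
    have h1 : (n : ℝ) < 2 := by
      rw [hinner', hsumq, hcardq, inv_mul_lt_iff₀ (mul_pos hYpos hPpos)]
      linarith
    exact_mod_cast h1
  have hn0 : n ≠ 0 := by
    intro h0
    rw [h0, Nat.cast_zero, hsumq, hcardq] at hinner'
    have h1 : ∑ u : P, S u = 0 := by
      have h2 := mul_pos hYpos hPpos
      field_simp at hinner'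
      linarith
    have h2 : S 1 = 0 := by
      refine (Finset.sum_eq_zero_iff_of_nonneg (fun u _ => Finset.sum_nonneg fun c _ => hf0 _)).mp h1 1 (Finset.mem_univ _)
    have h3 := (Finset.sum_eq_zero_iff_of_nonneg (fun c _ => hf0 _)).mp h2 1 (Finset.mem_univ _)
    simp only [f] at h3
    have h4 : ‖ζ 1‖ ^ 2 = 0 := by simpa using h3
    exact hdpos.ne' h4
  have hn1 : n = 1 := by omega
  have hirr : IsIrrCharacter (↥Y × ↥P) (ζ ∘ π) := by
    rw [isIrrCharacter_iff]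
    refine ⟨hψ, ?_⟩
    rw [hn, hn1, Nat.cast_one]
  have hcenter : ((1 : ↥Y), (⟨u₀, hu₀⟩ : P)) ∈ Subgroup.center (↥Y × ↥P) := by
    rw [Subgroup.mem_center_iff]
    rintro ⟨c, v⟩
    refine Prod.ext (by simp) (Subtype.ext ?_)
    exact (hz v v.2).symm
  have h := norm_central hirr hcenter
  simpa [hπ] using h

end key

/-- Bound on commutators from the estimate. -/
theorem comm_of_norm {H : Type*} [Group H] [Finite H] {ζ : H → ℂ} (hζ : IsCharacter H ζ) {u : H}
    (hu : ‖ζ u‖ = ‖ζ 1‖) (x : H) : ζ (x * u * x⁻¹ * u⁻¹) = ζ 1 := by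
  obtain ⟨n, ρ, rfl⟩ := hζ
  have h1 : ‖ρ.character u‖ = (finrank ℂ (Fin n → ℂ) : ℝ) := by
    rw [hu, Representation.char_one]
    simp
  obtain ⟨ω, hω⟩ := (Cfsg.Agent.Lib.Char.Eigen.norm_character_eq_iff_scalar ρ u).mp h1
  have h2 : ρ (x * u * x⁻¹ * u⁻¹) = 1 := by
    rw [map_mul, map_mul, map_mul, hω]
    have h3 : ρ x * (ω • LinearMap.id) * ρ x⁻¹ = ω • LinearMap.id := by
      refine LinearMap.ext fun v => ?_
      have h4 : ρ x (ρ x⁻¹ v) = v := by
        rw [← Module.End.mul_apply, ← map_mul, mul_inv_cancel, map_one, Module.End.one_apply]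
      simp [Module.End.mul_apply, h4]
    rw [h3, ← hω, ← map_mul, mul_inv_cancel, map_one]
  rw [Representation.char_one, Representation.character, h2, LinearMap.trace_one]

/-- **Result.** -/
theorem result {G : Type*} [Group G] [Finite G] (p : ℕ) [Fact p.Prime] (hsolv : Cfsg.IsPSolvable p G) (P : Sylow p G) (hTI : ∀ g : G, g ∉ Subgroup.normalizer ((P : Subgroup G) : Set G) → (P : Subgroup G) ⊓ (MulAut.conj g • (P : Subgroup G)) = ⊥) (χ : G → ℂ) (hχ : Cfsg.IsCharacter G χ) (hfaith : ∀ g : G, χ g = χ 1 → g = 1) (hdeg : Cfsg.charDegree χ ^ 2 ≤ Nat.card ↥(P : Subgroup G)) : (P : Subgroup G).Normal := by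
  classical
  by_contra hnorm
  have := Fintype.ofFinite G
  have hnormal_of : ∀ w : G, w ≠ 1 → (∀ g : G, g * w * g⁻¹ ∈ (P : Subgroup G)) → (P : Subgroup G).Normal := by
    intro w hw hall
    have htop : ∀ g, g ∈ Subgroup.normalizer ((P : Subgroup G) : Set G) := by
      intro g
      by_contra hg
      have h := hTI g hg
      have hw1 : w ∈ (P : Subgroup G) := by simpa using hall 1
      have hw2 : w ∈ MulAut.conj g • (P : Subgroup G) := by
        rw [Subgroup.mem_pointwise_smul_iff_inv_smul_mem]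
        simpa using hall g⁻¹
      have h3 : w ∈ (P : Subgroup G) ⊓ (MulAut.conj g • (P : Subgroup G)) := ⟨hw1, hw2⟩
      rw [h, Subgroup.mem_bot] at h3
      exact hw h3
    exact Subgroup.normalizer_eq_top_iff.mp (eq_top_iff.mpr fun g _ => htop g)
  have hcore : pCore p G = ⊥ := by
    by_contra hne
    obtain ⟨⟨w, hw⟩, hw1⟩ := (Subgroup.ne_bot_iff_exists_ne_one).mp hne
    apply hnorm
    refine hnormal_of w (by simpa using hw1) fun g => ?_
    exact Cfsg.Agent.Lib.Core.Basic.pCore_le_sylow P ((Cfsg.pCore_normal p G).conj_mem w hw g)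
  have hPne : (P : Subgroup G) ≠ ⊥ := fun h => hnorm (h ▸ Subgroup.normal_bot)
  -- central element
  obtain ⟨u₀, hu₀, hu₀1, hu₀c⟩ : ∃ u₀ : G, u₀ ∈ (P : Subgroup G) ∧ u₀ ≠ 1 ∧ ∀ v ∈ (P : Subgroup G), u₀ * v = v * u₀ := by
    have : Nontrivial ↥(P : Subgroup G) := (Subgroup.nontrivial_iff_ne_bot _).mpr hPne
    have h1 := P.isPGroup'.center_nontrivial
    obtain ⟨⟨z, hz⟩, hz1⟩ := exists_ne (1 : Subgroup.center ↥(P : Subgroup G))
    refine ⟨z, z.2, ?_, fun v hv => ?_⟩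
    · intro h
      apply hz1
      apply Subtype.ext
      apply Subtype.ext
      simpa using h
    · have := Subgroup.mem_center_iff.mp hz ⟨v, hv⟩
      exact (congrArg Subtype.val this).symm
  set O : Subgroup G := pPrimeCore p G with hO
  have hOn : O.Normal := inferInstanceAs (pPrimeCore p G).Normal
  have hcen := Cfsg.Agent.Lib.QuadAct.Sections.centralizer_pPrimeCore_le hsolv hcore
  have hcop : (Nat.card O).Coprime (Nat.card ↥(P : Subgroup G)) := by
    obtain ⟨k, hk⟩ := IsPGroup.iff_card.mp P.isPGroup'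
    rw [hk]
    exact Nat.Coprime.pow_right k Cfsg.Agent.Lib.Core.Basic.pPrimeCore_coprime
  have hinf : O ⊓ (P : Subgroup G) = ⊥ := disjoint_iff.mp (Subgroup.disjoint_of_coprime_natCard hcop)
  -- the action hypothesis
  have hCG : ∀ u ∈ (P : Subgroup G), u ≠ 1 → ∀ x ∈ O, x * u = u * x → ∀ v ∈ (P : Subgroup G), x * v = v * x := by
    intro u hu hu1 x hx hcomm v hv
    have hxN : x ∈ Subgroup.normalizer ((P : Subgroup G) : Set G) := by
      by_contra hg
      have h := hTI x hg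
      have hw2 : u ∈ MulAut.conj x • (P : Subgroup G) := by
        rw [Subgroup.mem_pointwise_smul_iff_inv_smul_mem]
        have : (MulAut.conj x)⁻¹ • u = u := by
          simp only [MulAut.smul_def, MulAut.conj_inv_apply]
          rw [mul_assoc, ← hcomm]
          group
        rw [this]
        exact hu
      have h3 : u ∈ (P : Subgroup G) ⊓ (MulAut.conj x • (P : Subgroup G)) := ⟨hu, hw2⟩
      rw [h, Subgroup.mem_bot] at h3
      exact hu1 h3
    have h1 : x * v * x⁻¹ ∈ (P : Subgroup G) := (Subgroup.mem_normalizer_iff.mp hxN v).mp hv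
    have h2 : x * v * x⁻¹ * v⁻¹ ∈ O ⊓ (P : Subgroup G) := by
      refine ⟨?_, (P : Subgroup G).mul_mem h1 ((P : Subgroup G).inv_mem hv)⟩
      have h3 : x * v * x⁻¹ * v⁻¹ = x * (v * x⁻¹ * v⁻¹) := by group
      rw [h3]
      exact O.mul_mem hx (hOn.conj_mem _ (O.inv_mem hx) v)
    rw [hinf, Subgroup.mem_bot] at h2
    have h3 : x * v = v * x := by
      have h4 : x * v * x⁻¹ = v := by
        rw [mul_inv_eq_one] at h2
        exact h2
      rw [mul_inv_eq_iff_eq_mul] at h4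
      exact h4
    exact h3
  -- the subgroup
  let H : Subgroup G := O ⊔ (P : Subgroup G)
  have hOH : O ≤ H := le_sup_left
  have hPH : (P : Subgroup G) ≤ H := le_sup_right
  have hcO : Nat.card (O.subgroupOf H) = Nat.card O := Nat.card_congr (Subgroup.subgroupOfEquivOfLe hOH).toEquiv
  have hcP : Nat.card ((P : Subgroup G).subgroupOf H) = Nat.card ↥(P : Subgroup G) :=
    Nat.card_congr (Subgroup.subgroupOfEquivOfLe hPH).toEquiv
  have hOn' : (O.subgroupOf H).Normal := Subgroup.normal_subgroupOf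
  have hgen : ∀ h : H, ∃ a ∈ O.subgroupOf H, ∃ u ∈ (P : Subgroup G).subgroupOf H, h = a * u := by
    rintro ⟨h, hh⟩
    have h1 : h ∈ ((O ⊔ (P : Subgroup G) : Subgroup G) : Set G) := hh
    rw [Subgroup.normal_mul, Set.mem_mul] at h1
    obtain ⟨a, ha, u, hu, rfl⟩ := h1
    exact ⟨⟨a, hOH ha⟩, Subgroup.mem_subgroupOf.mpr ha, ⟨u, hPH hu⟩, Subgroup.mem_subgroupOf.mpr hu, rfl⟩
  have hC' : ∀ u ∈ (P : Subgroup G).subgroupOf H, u ≠ 1 → ∀ x ∈ O.subgroupOf H, x * u = u * x →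
      ∀ v ∈ (P : Subgroup G).subgroupOf H, x * v = v * x := by
    intro u hu hu1 x hx hcomm v hv
    apply Subtype.ext
    exact hCG u (Subgroup.mem_subgroupOf.mp hu) (fun h => hu1 (Subtype.ext h)) x (Subgroup.mem_subgroupOf.mp hx)
      (congrArg Subtype.val hcomm) v (Subgroup.mem_subgroupOf.mp hv)
  let u₁ : H := ⟨u₀, hPH hu₀⟩
  have hu₁ : u₁ ∈ (P : Subgroup G).subgroupOf H := Subgroup.mem_subgroupOf.mpr hu₀
  have hu₁c : ∀ v ∈ (P : Subgroup G).subgroupOf H, u₁ * v = v * u₁ := by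
    intro v hv
    apply Subtype.ext
    exact hu₀c v (Subgroup.mem_subgroupOf.mp hv)
  -- constituents
  have hθ : IsCharacter H (fun h : H => χ h) := isCharacter_restrict H hχ
  have := Fintype.ofFinite H
  have : Finite (IrrCharacter H) := Cfsg.Agent.Lib.Char.Ortho.finite_irrCharacter
  have := Fintype.ofFinite (IrrCharacter H)
  obtain ⟨m, hm, hin, -⟩ := exists_mult hθ
  have hcons : ∀ i : IrrCharacter H, m i ≠ 0 → ∀ x : H,
      (i : H → ℂ) (x * u₁ * x⁻¹ * u₁⁻¹) = (i : H → ℂ) 1 := by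
    intro i hi x
    have hic := isCharacter_of_isIrrCharacter i.2
    have hne : classInner (fun h : H => χ h) (i : H → ℂ) ≠ 0 := by
      rw [hin]
      exact_mod_cast hi
    have hle : charDegree (i : H → ℂ) ≤ charDegree χ := by
      refine Cfsg.Agent.Lib.Char.Clifford.deg_le_of_constituent hθ i.2 hne (a := charDegree χ) ?_ (charDegree_natCast hic).symm
      exact (charDegree_natCast hχ).symm
    have hdeg' : charDegree (i : H → ℂ) ^ 2 ≤ Nat.card ((P : Subgroup G).subgroupOf H) := by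
      rw [hcP]
      exact (Nat.pow_le_pow_left hle 2).trans hdeg
    have hk := key (O.subgroupOf H) ((P : Subgroup G).subgroupOf H) (by rw [hcO, hcP]; exact hcop) hgen hC' i.2 hdeg' hu₁ hu₁c
    exact comm_of_norm hic hk x
  have hval : ∀ x : H, χ ((x * u₁ * x⁻¹ * u₁⁻¹ : H) : G) = χ ((1 : H) : G) := by
    intro x
    have h1 : ∀ c : H, χ (c : G) = ∑ i : IrrCharacter H, (m i : ℂ) * (i : H → ℂ) c := by
      intro c
      have := congrFun hm c
      simpa [Finset.sum_apply] using this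
    rw [h1, h1]
    refine Finset.sum_congr rfl fun i _ => ?_
    by_cases hi : m i = 0
    · simp [hi]
    · rw [hcons i hi x]
  have hcomm : ∀ x ∈ O, x * u₀ = u₀ * x := by
    intro x hx
    have h1 := hval ⟨x, hOH hx⟩
    have h2 : (((⟨x, hOH hx⟩ : H) * u₁ * (⟨x, hOH hx⟩ : H)⁻¹ * u₁⁻¹ : H) : G) = x * u₀ * x⁻¹ * u₀⁻¹ := rfl
    rw [h2] at h1
    have h3 := hfaith _ h1
    rw [mul_inv_eq_one, mul_inv_eq_iff_eq_mul] at h3
    exact h3
  have hu₀O : u₀ ∈ O := by
    apply hcen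
    rw [Subgroup.mem_centralizer_iff]
    intro x hx
    exact hcomm x hx
  have : u₀ ∈ O ⊓ (P : Subgroup G) := ⟨hu₀O, hu₀⟩
  rw [hinf, Subgroup.mem_bot] at this
  exact hu₀1 this

end Cfsg.Agent.S4748
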