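import Cfsg.Statements.S4750
import Cfsg.Agent.Lib.ModTI.Fixed
import Cfsg.Agent.Lib.CharX.Fixed
import Cfsg.Agent.Lib.CharZeros.Average

set_option autoImplicit false
open scoped Pointwise
open Cfsg

namespace Cfsg.Agent.S4750

/-- Let P be a Sylow p-subgroup of the finite group G that meets each conjugate g P g⁻¹ with g outside N_G(P) trivially, χ a character of G with χ(1)² ≤ |P|, and H a subgroup of G containing N_G(P). Then the inner product of χ with itself over G equals the inner product over H of the restriction of χ to H. -/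
theorem result {G : Type*} [Group G] [Fintype G] [DecidableEq G] (p : ℕ) [Fact p.Prime] (P : Sylow p G) (hTI : ∀ g : G, g ∉ Subgroup.normalizer ((P : Subgroup G) : Set G) → (P : Subgroup G) ⊓ (MulAut.conj g • (P : Subgroup G)) = ⊥) (χ : G → ℂ) (hχ : Cfsg.IsCharacter G χ) (hdeg : Cfsg.charDegree χ ^ 2 ≤ Nat.card ↥(P : Subgroup G)) (H : Subgroup G) [Fintype ↥H] (hH : Subgroup.normalizer ((P : Subgroup G) : Set G) ≤ H) : Cfsg.classInner χ χ = Cfsg.classInner (fun h : ↥H => χ h) (fun h : ↥H => χ h) := by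
  classical
  obtain ⟨m, ρ, hρ⟩ := Cfsg.Agent.Lib.CharZeros.Average.isCharacter_mul_conj hχ
  have hc : ∀ g, ρ.character g = χ g * (starRingEnd ℂ) (χ g) := fun g => congrFun hρ g
  have hG : Cfsg.classInner χ χ = (Module.finrank ℂ (Representation.invariants ρ) : ℂ) := by
    rw [← Cfsg.Agent.Lib.CharX.Fixed.classInner_one_eq_finrank, Cfsg.Agent.Lib.CharX.Fixed.classInner_one_eq]
    rw [Cfsg.Agent.Lib.Char.Ortho.classInner_def]
    simp only [hc]
  have hH' : Cfsg.classInner (fun h : ↥H => χ h) (fun h : ↥H => χ h) =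
      (Module.finrank ℂ (Representation.invariants (ρ.comp H.subtype)) : ℂ) := by
    rw [← Cfsg.Agent.Lib.CharX.Fixed.classInner_restrict_one_eq_finrank,
      Cfsg.Agent.Lib.CharX.Fixed.classInner_one_eq]
    rw [Cfsg.Agent.Lib.Char.Ortho.classInner_def]
    simp only [hc]
  rw [hG, hH']
  have hdeg2 : Module.finrank ℂ (Fin m → ℂ) = Cfsg.charDegree χ ^ 2 := by
    have h1 : ((Module.finrank ℂ (Fin m → ℂ) : ℕ) : ℂ) = ρ.character 1 :=
      (Representation.char_one ρ).symm
    have h2 : ((Cfsg.charDegree χ : ℕ) : ℂ) = χ 1 := Cfsg.Agent.Lib.Char.Degree.charDegree_natCast hχ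
    rw [hc, ← h2] at h1
    have h3 : ((Module.finrank ℂ (Fin m → ℂ) : ℕ) : ℂ) = ((Cfsg.charDegree χ ^ 2 : ℕ) : ℂ) := by
      rw [h1]
      push_cast
      rw [Complex.conj_natCast, sq]
    exact_mod_cast h3
  have hW : Module.finrank ℂ (Fin m → ℂ) < Nat.card ↥(P : Subgroup G) ∨
      (Module.finrank ℂ (Fin m → ℂ) = Nat.card ↥(P : Subgroup G) ∧
        ∃ v : Fin m → ℂ, v ≠ 0 ∧ ∀ g, ρ g v = v) := by
    rw [hdeg2]
    rcases lt_or_eq_of_le hdeg with h | h
    · exact Or.inl h
    · refine Or.inr ⟨h, ?_⟩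
      have hpos : 0 < Nat.card ↥(P : Subgroup G) := Nat.card_pos
      have hd0 : Cfsg.charDegree χ ≠ 0 := by
        intro h0
        rw [h0, zero_pow two_ne_zero] at h
        omega
      have hχ0 : χ ≠ 0 := by
        intro h0
        apply hd0
        have h2 : ((Cfsg.charDegree χ : ℕ) : ℂ) = χ 1 :=
          Cfsg.Agent.Lib.Char.Degree.charDegree_natCast hχ
        have h3 : χ 1 = 0 := by rw [h0]; rfl
        rw [h3] at h2
        exact_mod_cast h2
      have hne : Cfsg.classInner χ χ ≠ 0 := by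
        rw [Ne, Cfsg.Agent.Lib.Char.Ortho.classInner_self_eq_zero_iff]
        exact hχ0
      rw [hG] at hne
      have hnz : Module.finrank ℂ (Representation.invariants ρ) ≠ 0 := by
        intro h0
        apply hne
        rw [h0, Nat.cast_zero]
      have hnt := Module.nontrivial_of_finrank_pos (R := ℂ) (Nat.pos_of_ne_zero hnz)
      obtain ⟨v, hv⟩ := exists_ne (0 : Representation.invariants ρ)
      exact ⟨v, fun h => hv (Subtype.ext h), v.2⟩
  rw [Cfsg.Agent.Lib.ModTI.Fixed.finrank_invariants_eq ρ P hTI hW H hH]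

end Cfsg.Agent.S4750
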