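import Cfsg.Statements.S4755
import Cfsg.Agent.Lib.Char.ClassProd
import Cfsg.Agent.Lib.Char.Linear
import Mathlib.GroupTheory.Commutator.Basic

set_option autoImplicit false
open Cfsg
open scoped ComplexConjugate commutatorElement

namespace Cfsg.Agent.S4755

/-- Let x, y be non-identity elements of the finite group G such that χ(x' y') = χ(x') χ(y') for all conjugates x' of x, y' of y and every irreducible character χ. Then the conjugacy class of x y is the set of all products of a conjugate of x with a conjugate of y; every irreducible character of degree greater than 1 vanishes at x y; and the conjugacy class of x y is the coset of the commutator subgroup containing x y. -/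
theorem result {G : Type*} [Group G] [Finite G] (x y : G) (hx : x ≠ 1) (hy : y ≠ 1) (h : ∀ (a b : G) (χ : Cfsg.IrrCharacter G), (χ : G → ℂ) (a * x * a⁻¹ * (b * y * b⁻¹)) = (χ : G → ℂ) (a * x * a⁻¹) * (χ : G → ℂ) (b * y * b⁻¹)) : (∀ z : G, IsConj (x * y) z ↔ ∃ a b : G, z = a * x * a⁻¹ * (b * y * b⁻¹)) ∧ (∀ χ : Cfsg.IrrCharacter G, (χ : G → ℂ) 1 ≠ 1 → (χ : G → ℂ) (x * y) = 0) ∧ (∀ z : G, IsConj (x * y) z ↔ (x * y)⁻¹ * z ∈ commutator G) := by
  classical
  have := Cfsg.Agent.Lib.Char.Ortho.finite_irrCharacter (G := G)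
  let _ := Fintype.ofFinite (Cfsg.IrrCharacter G)
  let _ := Fintype.ofFinite G
  have hcf : ∀ (χ : Cfsg.IrrCharacter G) (u v : G), IsConj u v → (χ : G → ℂ) u = (χ : G → ℂ) v :=
    fun χ u v huv => Cfsg.Agent.Lib.Char.Complete.isClassFunction_iff_isConj.mp
      (Cfsg.Agent.Lib.Char.Basic.isClassFunction_of_isIrrCharacter χ.2) u v huv
  have hG : (Nat.card G : ℂ) ≠ 0 := Cfsg.Agent.Lib.Char.Ortho.card_ne_zero_complex
  -- the values on products
  have hval : ∀ (a b : G) (χ : Cfsg.IrrCharacter G),
      (χ : G → ℂ) (a * x * a⁻¹ * (b * y * b⁻¹)) = (χ : G → ℂ) x * (χ : G → ℂ) y := by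
    intro a b χ
    rw [h a b χ, hcf χ (a * x * a⁻¹) x (isConj_iff.mpr ⟨a⁻¹, by group⟩),
      hcf χ (b * y * b⁻¹) y (isConj_iff.mpr ⟨b⁻¹, by group⟩)]
  have hxy : ∀ χ : Cfsg.IrrCharacter G, (χ : G → ℂ) (x * y) = (χ : G → ℂ) x * (χ : G → ℂ) y := by
    intro χ
    have := hval 1 1 χ
    simpa using this
  -- nonlinear characters vanish
  have hvan : ∀ χ : Cfsg.IrrCharacter G, (χ : G → ℂ) 1 ≠ 1 → (χ : G → ℂ) x * (χ : G → ℂ) y = 0 := by
    intro χ hχ
    have h1 := Cfsg.Agent.Lib.Char.ClassSum.sum_irr_mul_conj' χ.2 x y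
    have h2 : ∀ v : G, (χ : G → ℂ) (x * (v * y * v⁻¹)) = (χ : G → ℂ) x * (χ : G → ℂ) y := by
      intro v
      have := hval 1 v χ
      simpa using this
    simp_rw [h2] at h1
    rw [Finset.sum_const, nsmul_eq_mul, Finset.card_univ, ← Nat.card_eq_fintype_card] at h1
    have hone := Cfsg.Agent.Lib.Char.Complete.irr_one_ne_zero χ.2
    field_simp at h1
    have h3 : ((χ : G → ℂ) 1 - 1) * ((χ : G → ℂ) x * (χ : G → ℂ) y) = 0 := by
      linear_combination h1
    rcases mul_eq_zero.mp h3 with h4 | h4
    · exact absurd (sub_eq_zero.mp h4) hχ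
    · exact h4
  have hpart1 : ∀ z : G, IsConj (x * y) z ↔ ∃ a b : G, z = a * x * a⁻¹ * (b * y * b⁻¹) := by
    refine (Cfsg.Agent.Lib.Char.ClassProd.class_prod_iff x y).mpr ?_
    intro a b χ
    by_cases hχ : (χ : G → ℂ) 1 = 1
    · rw [hχ, one_mul]
      exact hval a b χ
    · rw [hval a b χ, hvan χ hχ, mul_zero]
  refine ⟨hpart1, ?_, ?_⟩
  · intro χ hχ
    rw [hxy χ]
    exact hvan χ hχ
  · -- the class of `x * y` has the size of the commutator subgroup
    have hcol := Cfsg.Agent.Lib.Char.Complete.sum_irr_mul_conj (x * y) (x * y)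
    rw [if_pos (IsConj.refl _)] at hcol
    -- degree one characters have norm one values at `x * y`
    have hterm : ∀ χ : Cfsg.IrrCharacter G, (χ : G → ℂ) (x * y) * conj ((χ : G → ℂ) (x * y)) =
        if (χ : G → ℂ) 1 = 1 then 1 else 0 := by
      intro χ
      split_ifs with hχ
      · obtain ⟨lam, hlam⟩ := Cfsg.Agent.Lib.Char.Linear.exists_hom_of_deg_one
          (Cfsg.Agent.Lib.Char.Basic.isCharacter_of_isIrrCharacter χ.2) hχ
        have h1 := Cfsg.Agent.Lib.Char.Ortho.char_inv_eq_conj
          (Cfsg.Agent.Lib.Char.Basic.isCharacter_of_isIrrCharacter χ.2) (x * y)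
        rw [← h1, hlam]
        change (lam (x * y) : ℂ) * (lam (x * y)⁻¹ : ℂ) = 1
        rw [← Units.val_mul, ← map_mul, mul_inv_cancel, map_one, Units.val_one]
      · rw [hxy χ, hvan χ hχ, zero_mul]
    simp_rw [hterm] at hcol
    rw [Finset.sum_boole] at hcol
    have hlin := Cfsg.Agent.Lib.Char.Linear.card_linear_eq_index (G := G)
    have hcent : (Subgroup.centralizer ({x * y} : Set G)) |> fun C => Nat.card C = (commutator G).index := by
      rw [← hlin, Nat.card_eq_fintype_card, Fintype.card_subtype]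
      exact_mod_cast hcol.symm
    have hclass : Nat.card {z : G // IsConj (x * y) z} = Nat.card (commutator G) := by
      have h1 := Cfsg.Agent.Lib.Char.ClassSum.card_class_mul_card_centralizer (x * y)
      have h2 := (commutator G).card_mul_index
      simp only at hcent
      rw [hcent] at h1
      rw [← h2] at h1
      have hidx : 0 < (commutator G).index := Nat.pos_of_ne_zero Subgroup.index_ne_zero_of_finite
      exact Nat.eq_of_mul_eq_mul_right hidx h1
    -- the map from the class to the commutator subgroup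
    have hmem : ∀ z : {z : G // IsConj (x * y) z}, (x * y)⁻¹ * z.1 ∈ commutator G := by
      rintro ⟨z, hz⟩
      obtain ⟨g, rfl⟩ := isConj_iff.mp hz
      have h3 : (x * y)⁻¹ * (g * (x * y) * g⁻¹) = ⁅(x * y)⁻¹, g⁆ := by
        rw [commutatorElement_def, inv_inv]
        group
      simp only
      rw [h3]
      exact Subgroup.commutator_mem_commutator (Subgroup.mem_top _) (Subgroup.mem_top _)
    let f : {z : G // IsConj (x * y) z} → commutator G := fun z => ⟨(x * y)⁻¹ * z.1, hmem z⟩
    have hfinj : Function.Injective f := by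
      intro z w hzw
      apply Subtype.ext
      have := congrArg Subtype.val hzw
      exact mul_left_cancel this
    have hfbij := Function.Injective.bijective_of_nat_card_le hfinj hclass.ge
    intro z
    constructor
    · intro hz
      exact hmem ⟨z, hz⟩
    · intro hz
      obtain ⟨w, hw⟩ := hfbij.2 ⟨(x * y)⁻¹ * z, hz⟩
      have h5 : (x * y)⁻¹ * w.1 = (x * y)⁻¹ * z := congrArg Subtype.val hw
      rw [← mul_left_cancel h5]
      exact w.2

end Cfsg.Agent.S4755
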