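import Cfsg.Statements.S4757
import Cfsg.Agent.Lib.Blk89.Basic
import Cfsg.Agent.Lib.Core.Basic
-- import your own Cfsg.Agent.* helpers here

set_option autoImplicit false
open Cfsg
open scoped Pointwise
open scoped ComplexConjugate
open Cfsg.Agent.Lib.Char.Basic Cfsg.Agent.Lib.Char.Ortho Cfsg.Agent.Lib.Char.Complete Cfsg.Agent.Lib.Blk89.Basic Cfsg.Agent.Lib.Char.Degree Cfsg.Agent.Lib.Char.Linear

namespace Cfsg.Agent.S4757


section
variable {G : Type*} [Group G] [Finite G]

/-- Column orthogonality of `u ≠ 1` with `1`, principal character split off. -/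
theorem one_add_sum (u : G) (hu : u ≠ 1) [Fintype (IrrCharacter G)] [DecidableEq (IrrCharacter G)] :
    1 + ∑ χ ∈ Finset.univ.erase (oneIrr G), (χ : G → ℂ) 1 * (χ : G → ℂ) u = 0 := by
  classical
  have := Fintype.ofFinite G
  have h := sum_irr_mul_conj (G := G) u 1
  have hnc : ¬ IsConj u 1 := by
    intro h'
    exact hu (isConj_one_right.mp h'.symm)
  rw [if_neg hnc] at h
  have hsplit := Finset.add_sum_erase Finset.univ
    (fun χ : IrrCharacter G => (χ : G → ℂ) 1 * (χ : G → ℂ) u) (Finset.mem_univ (oneIrr G))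
  simp only [oneIrr_apply, mul_one] at hsplit
  rw [hsplit, ← h]
  refine Finset.sum_congr rfl fun χ _ => ?_
  rw [conj_deg (isCharacter_of_isIrrCharacter χ.2)]
  ring

theorem c_pos (u : G) (hu : u ≠ 1) (c : ℂ) (hyp : ∀ χ : Cfsg.IrrCharacter G, (χ : G → ℂ) ≠ (fun _ => (1 : ℂ)) → ((χ : G → ℂ) 1 - (χ : G → ℂ) u = c ∨ (χ : G → ℂ) u = 0)) :
    ∃ r : ℝ, c = r ∧ 0 < r := by
  classical
  have := Fintype.ofFinite G
  have : Finite (IrrCharacter G) := finite_irrCharacter
  have := Fintype.ofFinite (IrrCharacter G)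
  have h := one_add_sum u hu
  set A : Finset (IrrCharacter G) := (Finset.univ.erase (oneIrr G)).filter (fun χ => (χ : G → ℂ) u ≠ 0) with hA
  have h1 : ∑ χ ∈ Finset.univ.erase (oneIrr G), (χ : G → ℂ) 1 * (χ : G → ℂ) u
      = ∑ χ ∈ A, (χ : G → ℂ) 1 * (χ : G → ℂ) u := by
    rw [hA, Finset.sum_filter]
    refine Finset.sum_congr rfl fun χ _ => ?_
    by_cases h0 : (χ : G → ℂ) u = 0
    · simp [h0]
    · simp [h0]
  rw [h1] at h
  have h2 : ∀ χ ∈ A, (χ : G → ℂ) u = (χ : G → ℂ) 1 - c := by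
    intro χ hχ
    rw [hA, Finset.mem_filter, Finset.mem_erase] at hχ
    have hne : (χ : G → ℂ) ≠ (fun _ => (1 : ℂ)) := fun he => hχ.1.1 (Subtype.ext he)
    rcases hyp χ hne with h3 | h3
    · rw [← h3]; ring
    · exact absurd h3 hχ.2
  have h3 : ∑ χ ∈ A, (χ : G → ℂ) 1 * (χ : G → ℂ) u =
      ∑ χ ∈ A, (((χ : G → ℂ) 1) ^ 2) - c * ∑ χ ∈ A, (χ : G → ℂ) 1 := by
    rw [Finset.mul_sum, ← Finset.sum_sub_distrib]
    refine Finset.sum_congr rfl fun χ hχ => ?_
    rw [h2 χ hχ]
    ring
  rw [h3] at h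
  set a : ℝ := ∑ χ ∈ A, ((charDegree (χ : G → ℂ) : ℝ)) ^ 2 with ha
  set b : ℝ := ∑ χ ∈ A, (charDegree (χ : G → ℂ) : ℝ) with hb
  have ha0 : 0 ≤ a := Finset.sum_nonneg fun _ _ => by positivity
  have hb0 : 0 ≤ b := Finset.sum_nonneg fun _ _ => by positivity
  have ha' : ∑ χ ∈ A, (((χ : G → ℂ) 1) ^ 2) = (a : ℂ) := by
    rw [ha]
    push_cast
    refine Finset.sum_congr rfl fun χ _ => ?_
    rw [charDegree_natCast (isCharacter_of_isIrrCharacter χ.2)]
  have hb' : ∑ χ ∈ A, (χ : G → ℂ) 1 = (b : ℂ) := by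
    rw [hb]
    push_cast
    refine Finset.sum_congr rfl fun χ _ => ?_
    rw [charDegree_natCast (isCharacter_of_isIrrCharacter χ.2)]
  rw [ha', hb'] at h
  have hb1 : b ≠ 0 := by
    intro h0
    rw [h0] at h
    have : (1 + a : ℂ) = 0 := by simpa using h
    have h5 : (1 + a : ℝ) = 0 := by exact_mod_cast this
    linarith
  have hbC : (b : ℂ) ≠ 0 := by exact_mod_cast hb1
  refine ⟨(1 + a) / b, ?_, ?_⟩
  · push_cast
    field_simp
    linear_combination -h
  · have : 0 < b := lt_of_le_of_ne hb0 (Ne.symm hb1)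
    positivity

theorem lin_val (u : G) (hu : u ≠ 1) (c : ℂ) (hyp : ∀ χ : Cfsg.IrrCharacter G, (χ : G → ℂ) ≠ (fun _ => (1 : ℂ)) → ((χ : G → ℂ) 1 - (χ : G → ℂ) u = c ∨ (χ : G → ℂ) u = 0))
    (lam : G →* ℂˣ) (hlam : lam ≠ 1) : ((lam u : ℂˣ) : ℂ) = -1 ∧ c = 2 := by
  obtain ⟨r, rfl, hr⟩ := c_pos u hu c hyp
  have hirr := isIrrCharacter_of_hom lam
  have hne : (fun g => ((lam g : ℂˣ) : ℂ)) ≠ (fun _ => (1 : ℂ)) := by
    intro he
    apply hlam
    ext g
    simpa using congrFun he g
  rcases hyp ⟨_, hirr⟩ hne with h | h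
  · simp only [map_one, Units.val_one] at h
    have h1 : ((lam u : ℂˣ) : ℂ) = ((1 - r : ℝ) : ℂ) := by
      push_cast
      linear_combination -h
    have h2 := norm_hom_eq_one lam u
    rw [h1, Complex.norm_real, Real.norm_eq_abs, abs_eq (by norm_num)] at h2
    rcases h2 with h2 | h2
    · have : r = 0 := by linarith
      exact absurd this hr.ne'
    · have h3 : r = 2 := by linarith
      subst h3
      refine ⟨?_, by norm_num⟩
      rw [h1]
      norm_num
  · exact absurd h (Units.ne_zero _)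

theorem not_perfect_of_c (u : G) (hu : u ≠ 1) (hyp : ∀ χ : Cfsg.IrrCharacter G, (χ : G → ℂ) ≠ (fun _ => (1 : ℂ)) → ((χ : G → ℂ) 1 - (χ : G → ℂ) u = 2 ∨ (χ : G → ℂ) u = 0)) :
    commutator G ≠ ⊤ := by
  classical
  intro htop
  have := Fintype.ofFinite G
  have : Finite (IrrCharacter G) := finite_irrCharacter
  have := Fintype.ofFinite (IrrCharacter G)
  have h := one_add_sum u hu
  have hre : ∀ χ ∈ Finset.univ.erase (oneIrr G), 0 ≤ ((χ : G → ℂ) 1 * (χ : G → ℂ) u).re := by
    intro χ hχ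
    have hne : χ ≠ oneIrr G := (Finset.mem_erase.mp hχ).1
    have hne' : (χ : G → ℂ) ≠ (fun _ => (1 : ℂ)) := fun he => hne (Subtype.ext he)
    have hdeg : (χ : G → ℂ) 1 ≠ 1 := by
      intro h1
      obtain ⟨lam, hlam⟩ := exists_hom_of_deg_one (isCharacter_of_isIrrCharacter χ.2) h1
      apply hne'
      rw [hlam]
      funext g
      have hker : commutator G ≤ lam.ker := Abelianization.commutator_subset_ker lam
      have : g ∈ lam.ker := hker (by rw [htop]; trivial)
      rw [MonoidHom.mem_ker] at this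
      simp [this]
    have h2 := two_le_deg χ.2 hdeg
    have h3 := charDegree_natCast (isCharacter_of_isIrrCharacter χ.2)
    rcases hyp χ hne' with h4 | h4
    · have h5 : (χ : G → ℂ) u = (charDegree (χ : G → ℂ) : ℂ) - 2 := by
        rw [h3]; linear_combination -h4
      rw [h5, ← h3]
      have h6 : (2 : ℝ) ≤ charDegree (χ : G → ℂ) := by exact_mod_cast h2
      have : ((charDegree (χ : G → ℂ) : ℂ) * ((charDegree (χ : G → ℂ) : ℂ) - 2)) =
        (((charDegree (χ : G → ℂ) : ℝ) * ((charDegree (χ : G → ℂ) : ℝ) - 2) : ℝ) : ℂ) := by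
        push_cast; ring
      rw [this, Complex.ofReal_re]
      apply mul_nonneg <;> linarith
    · rw [h4]
      simp
  have h7 := congrArg Complex.re h
  rw [Complex.add_re, Complex.re_sum, Complex.one_re, Complex.zero_re] at h7
  have h8 := Finset.sum_nonneg hre
  linarith

/-- `(a) ⇒` not perfect. -/
theorem not_perfect_of_a (u : G) (h2 : orderOf u = 2) (hsup : Subgroup.zpowers u ⊔ Cfsg.oddCore G = ⊤) :
    commutator G ≠ ⊤ := by
  intro htop
  have hnorm : (Cfsg.oddCore G).Normal := (inferInstance : (Cfsg.pPrimeCore 2 G).Normal)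
  let π := QuotientGroup.mk' (Cfsg.oddCore G)
  have hu : ∀ a : G, ∃ k : ℤ, π a = (π u) ^ k := by
    intro a
    have ha : a ∈ Subgroup.zpowers u ⊔ Cfsg.oddCore G := by rw [hsup]; trivial
    have hm : a ∈ ((Subgroup.zpowers u : Set G) * (Cfsg.oddCore G : Set G)) := by
      rw [← Subgroup.mul_normal]
      exact ha
    obtain ⟨x, hx, y, hy, rfl⟩ := hm
    obtain ⟨k, rfl⟩ := Subgroup.mem_zpowers_iff.mp hx
    refine ⟨k, ?_⟩
    have hy' : π y = 1 := (QuotientGroup.eq_one_iff y).mpr hy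
    simp [hy', map_zpow]
  have hcomm : commutator G ≤ Cfsg.oddCore G := by
    rw [commutator_def, Subgroup.commutator_le]
    intro a _ b _
    obtain ⟨k, hk⟩ := hu a
    obtain ⟨l, hl⟩ := hu b
    rw [← QuotientGroup.eq_one_iff]
    show π _ = 1
    rw [commutatorElement_def]
    simp only [map_mul, map_inv, hk, hl]
    rw [← zpow_neg, ← zpow_neg, ← zpow_add, ← zpow_add, ← zpow_add]
    convert zpow_zero _
    ring
  rw [htop] at hcomm
  have hall : Cfsg.oddCore G = ⊤ := top_le_iff.mp hcomm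
  have hcop : (Nat.card (Cfsg.oddCore G)).Coprime 2 := Cfsg.Agent.Lib.Core.Basic.pPrimeCore_coprime
  have hmem : u ∈ Cfsg.oddCore G := by rw [hall]; trivial
  have hdvd : orderOf (⟨u, hmem⟩ : Cfsg.oddCore G) ∣ Nat.card (Cfsg.oddCore G) := orderOf_dvd_natCard _
  have : orderOf (⟨u, hmem⟩ : Cfsg.oddCore G) = orderOf u := Subgroup.orderOf_mk u hmem
  rw [this, h2] at hdvd
  have := Nat.Coprime.eq_one_of_dvd hcop.symm hdvd
  omega

theorem a_of_not_perfect (u : G) (hu : u ≠ 1) (hyp : ∀ χ : Cfsg.IrrCharacter G, (χ : G → ℂ) ≠ (fun _ => (1 : ℂ)) → ((χ : G → ℂ) 1 - (χ : G → ℂ) u = 2 ∨ (χ : G → ℂ) u = 0))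
    (lam : G →* ℂˣ) (hlam : lam ≠ 1) (hval : ∀ mu : G →* ℂˣ, mu ≠ 1 → ((mu u : ℂˣ) : ℂ) = -1) :
    orderOf u = 2 ∧ Subgroup.zpowers u ⊔ Cfsg.oddCore G = ⊤ ∧ Subgroup.centralizer ({u} : Set G) = Subgroup.zpowers u := by
  classical
  have := Fintype.ofFinite G
  have : Finite (IrrCharacter G) := finite_irrCharacter
  have := Fintype.ofFinite (IrrCharacter G)
  -- `λ` squares to one and is the unique non-principal linear character
  have huniq : ∀ mu : G →* ℂˣ, mu ≠ 1 → mu = lam := by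
    intro mu hmu
    by_contra hne
    have h1 : mu * lam⁻¹ ≠ 1 := by
      intro h
      exact hne (mul_inv_eq_one.mp h)
    have h2 := hval _ h1
    rw [MonoidHom.mul_apply, MonoidHom.inv_apply, Units.val_mul, Units.val_inv_eq_inv_val, hval mu hmu, hval lam hlam] at h2
    norm_num at h2
  have hsq : ∀ x, (lam x) * (lam x) = 1 := by
    have h0 : lam⁻¹ ≠ 1 := by
      intro h
      apply hlam
      ext g
      have h1 := congrArg (fun f : G →* ℂˣ => f g) h
      simp only [MonoidHom.inv_apply, MonoidHom.one_apply, inv_eq_one] at h1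
      rw [h1]
      simp
    have h1 := huniq _ h0
    intro x
    have h2 := congrArg (fun f : G →* ℂˣ => f x) h1
    simp only [MonoidHom.inv_apply] at h2
    nth_rewrite 1 [← h2]
    simp
  -- all the others vanish at `u`
  let L : IrrCharacter G := ⟨fun g => ((lam g : ℂˣ) : ℂ), isIrrCharacter_of_hom lam⟩
  have hL : L ≠ oneIrr G := by
    intro he
    apply hlam
    ext g
    simpa [L, oneIrr] using congrFun (congrArg Subtype.val he) g
  have hLu : (L : G → ℂ) u = -1 := hval lam hlam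
  have hL1 : (L : G → ℂ) 1 = 1 := by simp [L]
  have hvan : ∀ χ : IrrCharacter G, χ ≠ oneIrr G → χ ≠ L → (χ : G → ℂ) u = 0 := by
    have h := one_add_sum u hu
    rw [← Finset.add_sum_erase _ _ (Finset.mem_erase.mpr ⟨hL, Finset.mem_univ L⟩), hL1, hLu] at h
    have h0 : ∑ χ ∈ (Finset.univ.erase (oneIrr G)).erase L, (χ : G → ℂ) 1 * (χ : G → ℂ) u = 0 := by
      linear_combination h
    have hdeg : ∀ χ : IrrCharacter G, χ ≠ oneIrr G → χ ≠ L → 2 ≤ charDegree (χ : G → ℂ) := by
      intro χ h1 h2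
      apply two_le_deg χ.2
      intro h3
      obtain ⟨mu, hmu⟩ := exists_hom_of_deg_one (isCharacter_of_isIrrCharacter χ.2) h3
      by_cases hm : mu = 1
      · apply h1
        apply Subtype.ext
        rw [hmu, hm]
        funext g
        simp [oneIrr]
      · apply h2
        apply Subtype.ext
        rw [hmu, huniq mu hm]
    have hval2 : ∀ χ ∈ (Finset.univ.erase (oneIrr G)).erase L,
        (((χ : G → ℂ) 1 * (χ : G → ℂ) u).re = ((χ : G → ℂ) 1 * (χ : G → ℂ) u)) ∧
        0 ≤ ((χ : G → ℂ) 1 * (χ : G → ℂ) u).re := by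
      intro χ hχ
      have h1 : χ ≠ L := (Finset.mem_erase.mp hχ).1
      have h2 : χ ≠ oneIrr G := (Finset.mem_erase.mp (Finset.mem_erase.mp hχ).2).1
      have hne' : (χ : G → ℂ) ≠ (fun _ => (1 : ℂ)) := fun he => h2 (Subtype.ext he)
      have h3 := hdeg χ h2 h1
      have h4 := charDegree_natCast (isCharacter_of_isIrrCharacter χ.2)
      rcases hyp χ hne' with h5 | h5
      · have h5' : (χ : G → ℂ) u = (charDegree (χ : G → ℂ) : ℂ) - 2 := by
          rw [h4]; linear_combination -h5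
        rw [h5', ← h4]
        have h6 : (2 : ℝ) ≤ charDegree (χ : G → ℂ) := by exact_mod_cast h3
        have : ((charDegree (χ : G → ℂ) : ℂ) * ((charDegree (χ : G → ℂ) : ℂ) - 2)) =
          (((charDegree (χ : G → ℂ) : ℝ) * ((charDegree (χ : G → ℂ) : ℝ) - 2) : ℝ) : ℂ) := by
          push_cast; ring
        rw [this, Complex.ofReal_re]
        refine ⟨rfl, ?_⟩
        apply mul_nonneg <;> linarith
      · rw [h5]
        simp
    have h5 := congrArg Complex.re h0
    rw [Complex.re_sum, Complex.zero_re] at h5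
    have h6 := (Finset.sum_eq_zero_iff_of_nonneg (fun χ hχ => (hval2 χ hχ).2)).mp h5
    intro χ h1 h2
    have hmem : χ ∈ (Finset.univ.erase (oneIrr G)).erase L :=
      Finset.mem_erase.mpr ⟨h2, Finset.mem_erase.mpr ⟨h1, Finset.mem_univ _⟩⟩
    have h7 := h6 χ hmem
    have h8 := (hval2 χ hmem).1
    rw [h7] at h8
    have h9 : (χ : G → ℂ) 1 * (χ : G → ℂ) u = 0 := by
      rw [← h8]; simp
    exact (mul_eq_zero.mp h9).resolve_left (irr_one_ne_zero χ.2)
  -- the second orthogonality at `x` with `lam x = -1`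
  have hsum : ∀ x : G, ((lam x : ℂˣ) : ℂ) = -1 →
      ∑ χ : IrrCharacter G, (χ : G → ℂ) x * conj ((χ : G → ℂ) u) = 2 := by
    intro x hx
    rw [Finset.sum_eq_add (oneIrr G) L hL.symm]
    · simp only [oneIrr_apply, map_one, mul_one]
      rw [hLu]
      change 1 + ((lam x : ℂˣ) : ℂ) * _ = _
      rw [hx]
      simp
      norm_num
    · intro χ _ hχ
      rw [hvan χ hχ.1 hχ.2]
      simp
    · simp
    · simp
  have hcentr : Nat.card (Subgroup.centralizer ({u} : Set G)) = 2 := by
    have h1 := sum_irr_mul_conj (G := G) u u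
    rw [if_pos (IsConj.refl u), hsum u (hval lam hlam)] at h1
    exact_mod_cast h1.symm
  have hz : Subgroup.zpowers u ≤ Subgroup.centralizer ({u} : Set G) := by
    rw [Subgroup.zpowers_le, Subgroup.mem_centralizer_singleton_iff]
  have hord : orderOf u = 2 := by
    have h1 : Nat.card (Subgroup.zpowers u) ∣ Nat.card (Subgroup.centralizer ({u} : Set G)) :=
      Subgroup.card_dvd_of_le hz
    rw [Nat.card_zpowers, hcentr] at h1
    have h2 : orderOf u ≠ 1 := by
      rw [Ne, orderOf_eq_one_iff]; exact hu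
    have h3 := Nat.le_of_dvd (by norm_num) h1
    have h4 : 0 < orderOf u := orderOf_pos u
    omega
  have hceq : Subgroup.centralizer ({u} : Set G) = Subgroup.zpowers u := by
    symm
    apply Subgroup.eq_of_le_of_card_ge hz
    rw [hcentr, Nat.card_zpowers, hord]
  refine ⟨hord, ?_, hceq⟩
  have hu2 : u * u = 1 := by
    rw [← pow_two, ← hord]
    exact pow_orderOf_eq_one u
  -- every element with `lam x = -1` is an involution
  have hconj : ∀ x : G, ((lam x : ℂˣ) : ℂ) = -1 → x * x = 1 := by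
    intro x hx
    have h1 := sum_irr_mul_conj (G := G) x u
    rw [hsum x hx] at h1
    by_cases hc : IsConj x u
    · obtain ⟨c, hc⟩ := isConj_iff.mp hc
      have h3 : c * (x * x) * c⁻¹ = 1 := by
        calc c * (x * x) * c⁻¹ = (c * x * c⁻¹) * (c * x * c⁻¹) := by group
          _ = 1 := by rw [hc, hu2]
      have h4 : x * x = c⁻¹ * (c * (x * x) * c⁻¹) * c := by group
      rw [h4, h3]
      group
    · rw [if_neg hc] at h1
      norm_num at h1
  have hsgn : ∀ x : G, ((lam x : ℂˣ) : ℂ) = 1 ∨ ((lam x : ℂˣ) : ℂ) = -1 := by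
    intro x
    have h1 := congrArg (Units.val) (hsq x)
    rw [Units.val_mul, Units.val_one] at h1
    exact mul_self_eq_one_iff.mp h1
  have hLuu : ((lam u : ℂˣ) : ℂ) = -1 := hval lam hlam
  have hmul : ∀ x : G, ((lam x : ℂˣ) : ℂ) = 1 → ((lam (u * x) : ℂˣ) : ℂ) = -1 := by
    intro x hx
    rw [map_mul, Units.val_mul, hx, hLuu]
    ring
  have hodd : (Nat.card lam.ker).Coprime 2 := by
    by_contra hno
    have h2 : Fact (Nat.Prime 2) := ⟨Nat.prime_two⟩
    have hdvd : 2 ∣ Nat.card lam.ker := by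
      by_contra hd
      exact hno ((Nat.Prime.coprime_iff_not_dvd Nat.prime_two).mpr hd).symm
    obtain ⟨g, hg⟩ := exists_prime_orderOf_dvd_card' 2 hdvd
    have hg1 : (g : G) * g = 1 := by
      rw [← pow_two]
      have := pow_orderOf_eq_one g
      rw [hg] at this
      exact_mod_cast this
    have hg2 : ((lam g : ℂˣ) : ℂ) = 1 := by
      have := g.2
      rw [MonoidHom.mem_ker] at this
      rw [this, Units.val_one]
    have hg3 : (g : G) ≠ 1 := by
      intro h
      have : g = 1 := Subtype.ext h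
      rw [this, orderOf_one] at hg
      omega
    have h5 := hconj _ (hmul g hg2)
    have hcomm : (g : G) * u = u * g := by
      have h6 : ((g : G) * u) * (u * g) = 1 := by
        calc ((g : G) * u) * (u * g) = g * (u * u) * g := by group
          _ = 1 := by rw [hu2, mul_one, hg1]
      calc (g : G) * u = (g * u) * ((u * g) * (u * g)) := by rw [h5, mul_one]
        _ = ((g * u) * (u * g)) * (u * g) := by group
        _ = u * g := by rw [h6, one_mul]
    have hmem : (g : G) ∈ Subgroup.centralizer ({u} : Set G) := by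
      rw [Subgroup.mem_centralizer_singleton_iff]
      exact hcomm
    have hmemu : u ∈ Subgroup.centralizer ({u} : Set G) := by
      rw [Subgroup.mem_centralizer_singleton_iff]
    obtain ⟨y, -, hy⟩ := (Nat.card_eq_two_iff' (1 : Subgroup.centralizer ({u} : Set G))).mp hcentr
    have h7 := hy ⟨g, hmem⟩ (fun h => hg3 (congrArg Subtype.val h))
    have h8 := hy ⟨u, hmemu⟩ (fun h => hu (congrArg Subtype.val h))
    have h9 : (g : G) = u := congrArg Subtype.val (h7.trans h8.symm)
    rw [h9, hLuu] at hg2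
    norm_num at hg2
  have hle : lam.ker ≤ Cfsg.oddCore G := Cfsg.Agent.Lib.Core.Basic.le_pPrimeCore inferInstance hodd
  rw [eq_top_iff]
  intro x _
  rcases hsgn x with hx | hx
  · apply Subgroup.mem_sup_right
    apply hle
    rw [MonoidHom.mem_ker]
    exact Units.ext hx
  · have h1 : x * u ∈ lam.ker := by
      rw [MonoidHom.mem_ker]
      apply Units.ext
      rw [map_mul, Units.val_mul, hx, hLuu]
      norm_num
    have h2 : x = (x * u) * u := by
      rw [mul_assoc, hu2, mul_one]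
    rw [h2, sup_comm]
    exact Subgroup.mul_mem_sup (hle h1) (Subgroup.mem_zpowers u)

end

/-- Let u ≠ 1 be an element of the finite group G and c a complex number such that every non-principal irreducible character χ satisfies χ(1) − χ(u) = c or χ(u) = 0. Then the following are equivalent: (a) u has order 2, G is generated by u together with O(G), the largest normal subgroup of G of odd order, and the centralizer of u is {1, u}; (b) G is not perfect; (c) c = 2. -/
theorem result {G : Type*} [Group G] [Finite G] (u : G) (hu : u ≠ 1) (c : ℂ) (hyp : ∀ χ : Cfsg.IrrCharacter G, (χ : G → ℂ) ≠ (fun _ => (1 : ℂ)) → ((χ : G → ℂ) 1 - (χ : G → ℂ) u = c ∨ (χ : G → ℂ) u = 0)) : ((orderOf u = 2 ∧ Subgroup.zpowers u ⊔ Cfsg.oddCore G = ⊤ ∧ Subgroup.centralizer ({u} : Set G) = Subgroup.zpowers u) ↔ commutator G ≠ ⊤) ∧ (commutator G ≠ ⊤ ↔ c = 2) := by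
  have hval : commutator G ≠ ⊤ → c = 2 := by
    intro hb
    obtain ⟨lam, hlam⟩ := exists_linear_ne_one hb
    exact (lin_val u hu c hyp lam hlam).2
  refine ⟨⟨fun ha => not_perfect_of_a u ha.1 ha.2.1, fun hb => ?_⟩, ⟨hval, ?_⟩⟩
  · have hc := hval hb
    subst hc
    obtain ⟨lam, hlam⟩ := exists_linear_ne_one hb
    exact a_of_not_perfect u hu hyp lam hlam fun mu hmu => (lin_val u hu 2 hyp mu hmu).1
  · rintro rfl
    exact not_perfect_of_c u hu hyp

end Cfsg.Agent.S4757
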