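import Cfsg.Statements.S4758
import Cfsg.Agent.Lib.ChiFour.Transfer
import Cfsg.Agent.Lib.ChiFour.Group

set_option autoImplicit false
open Cfsg

namespace Cfsg.Agent.S4758

/-- Let u ≠ 1 be an element of the finite group G such that every non-principal irreducible character χ satisfies χ(1) − χ(u) = 4 or χ(u) = 0. Then O(G), the largest normal subgroup of odd order, is abelian, and either G ⧸ O(G) ≅ PSL₂(5) and u is an involution, or G ⧸ O(G) ≅ SL₂(5) and u has order 4. -/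
theorem result {G : Type*} [Group G] [Finite G] (u : G) (hu : u ≠ 1) (hyp : ∀ χ : Cfsg.IrrCharacter G, (χ : G → ℂ) ≠ (fun _ => (1 : ℂ)) → ((χ : G → ℂ) 1 - (χ : G → ℂ) u = 4 ∨ (χ : G → ℂ) u = 0)) : IsMulCommutative ↥(Cfsg.oddCore G) ∧ ((Nonempty (G ⧸ Cfsg.oddCore G ≃* Matrix.ProjectiveSpecialLinearGroup (Fin 2) (ZMod 5)) ∧ orderOf u = 2) ∨ (Nonempty (G ⧸ Cfsg.oddCore G ≃* Matrix.SpecialLinearGroup (Fin 2) (ZMod 5)) ∧ orderOf u = 4)) := by
  classical
  letI : Fintype G := Fintype.ofFinite G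
  have h : Cfsg.Agent.Lib.ChiFour.Basic.Hyp G u := fun χ hχ hne => hyp ⟨χ, hχ⟩ hne
  obtain ⟨N, hN, hQ, huN, huu, hcen⟩ := Cfsg.Agent.Lib.ChiFour.Transfer.main_char h hu
  haveI := hN
  have hperf := h.perfect
  have hQns : ¬ Group.IsSolvable (G ⧸ N) := by
    intro h0
    haveI := h0
    have h1 := Cfsg.Agent.Lib.Zassen.Unique.perf_solv hperf (QuotientGroup.mk' N)
      (QuotientGroup.mk'_surjective N)
    have h2 := Nat.card_of_subsingleton (1 : G ⧸ N)
    omega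
  haveI hQs : IsSimpleGroup (G ⧸ N) :=
    Cfsg.Agent.Lib.PermRec.DegreeA5.isSimple_of_not_solvable _ hQ hQns
  have hx1 : (QuotientGroup.mk u : G ⧸ N) ≠ 1 := by
    rw [Ne, QuotientGroup.eq_one_iff]
    exact huN
  have hx2 : (QuotientGroup.mk u : G ⧸ N) ^ 2 = 1 := by
    rw [sq, ← QuotientGroup.mk_mul, QuotientGroup.eq_one_iff]
    exact huu
  have hC4 := Cfsg.Agent.Lib.ChiFour.A5.card_centralizer hQ _ hx1 hx2
  rw [← hcen] at hC4
  exact Cfsg.Agent.Lib.ChiFour.Group.main_group u hperf (fun L hL huL => @Cfsg.Agent.Lib.ChiFour.Basic.Hyp.eq_top_of_mem G _ _ u h L hL huL)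
    N hQ huN huu hC4

end Cfsg.Agent.S4758
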