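import Cfsg.Statements.S4762
import Cfsg.Agent.Lib.Blk89.Linear
import Cfsg.Agent.Lib.Char.Product
import Cfsg.Agent.Lib.Char.Conj
import Cfsg.Agent.Lib.PGroups.Special
import Cfsg.Agent.Lib.SolvStruct.Fit
-- import your own Cfsg.Agent.* helpers here

set_option autoImplicit false
open Cfsg
open scoped ComplexConjugate commutatorElement
open Cfsg.Agent.Lib.Char.Basic Cfsg.Agent.Lib.Char.Ortho Cfsg.Agent.Lib.Char.Complete Cfsg.Agent.Lib.Blk89.Basic Cfsg.Agent.Lib.Char.Degree Cfsg.Agent.Lib.Char.Linear Cfsg.Agent.Lib.Blk89.Codegree Cfsg.Agent.Lib.Blk89.Linear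

namespace Cfsg.Agent.S4762


section
variable {G : Type*} [Group G] [Finite G]

/-- Reduction to the `p`-group case. -/
theorem isPGroup_of_unique [Group.IsNilpotent G] (p : ℕ) [hp : Fact p.Prime] (χ₀ : IrrCharacter G)
    (h0 : p ∣ charDegree (χ₀ : G → ℂ))
    (huniq : ∀ χ : IrrCharacter G, p ∣ charDegree (χ : G → ℂ) → χ = χ₀) : IsPGroup p G := by
  classical
  obtain ⟨P⟩ : Nonempty (Sylow p G) := inferInstance
  have hPn : (P : Subgroup G).Normal := inferInstance
  have hcop : (Nat.card (P : Subgroup G)).Coprime (P : Subgroup G).index := by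
    rw [P.card_eq_multiplicity]
    exact Nat.Coprime.pow_left _ ((Nat.Prime.coprime_iff_not_dvd hp.out).mpr P.not_dvd_index)
  obtain ⟨H, hH⟩ := Subgroup.exists_right_complement'_of_coprime hcop
  have hHcard : Nat.card H = (P : Subgroup G).index := hH.symm.index_eq_card.symm
  have hHcop : (Nat.card H).Coprime p := by
    rw [hHcard]
    exact ((Nat.Prime.coprime_iff_not_dvd hp.out).mpr P.not_dvd_index).symm
  have hcomm : ∀ (x : (P : Subgroup G)) (y : H), Commute (x : G) (y : G) := by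
    intro x y
    apply commute_of_coprime G inferInstance
    have h1 : orderOf (x : G) ∣ Nat.card (P : Subgroup G) := by
      rw [Subgroup.orderOf_coe]
      exact orderOf_dvd_natCard x
    have h2 : orderOf (y : G) ∣ Nat.card H := by
      rw [Subgroup.orderOf_coe]
      exact orderOf_dvd_natCard y
    rw [hHcard] at h2
    exact Nat.Coprime.coprime_dvd_left h1 (Nat.Coprime.coprime_dvd_right h2 hcop)
  let f : ↥(P : Subgroup G) × ↥H →* G :=
    MonoidHom.noncommCoprod (P : Subgroup G).subtype H.subtype (fun x y => hcomm x y)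
  have hf : Function.Bijective f := hH
  let e : ↥(P : Subgroup G) × ↥H ≃* G := MulEquiv.ofBijective f hf
  have hφ := Cfsg.Agent.Lib.Char.Conj.isIrrCharacter_comp_mulEquiv e χ₀.2
  obtain ⟨φ, ψ, hφ1, hψ1, htens⟩ := (Cfsg.Agent.Lib.Char.Product.isIrr_prod_iff _).mp hφ
  have hdeg : charDegree (χ₀ : G → ℂ) = charDegree φ * charDegree ψ := by
    have h1 := congrFun htens 1
    simp only [Function.comp, map_one, Prod.fst_one, Prod.snd_one] at h1
    have h2 : ((charDegree (χ₀ : G → ℂ) : ℕ) : ℂ) = ((charDegree φ * charDegree ψ : ℕ) : ℂ) := by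
      push_cast
      rw [charDegree_natCast (isCharacter_of_isIrrCharacter χ₀.2),
        charDegree_natCast (isCharacter_of_isIrrCharacter hφ1),
        charDegree_natCast (isCharacter_of_isIrrCharacter hψ1), h1]
    exact_mod_cast h2
  have hpφ : p ∣ charDegree φ := by
    rw [hdeg] at h0
    rcases (Nat.Prime.dvd_mul hp.out).mp h0 with h1 | h1
    · exact h1
    · exfalso
      have h2 := h1.trans (charDegree_dvd_card hψ1)
      have h3 := Nat.Coprime.eq_one_of_dvd hHcop.symm h2
      exact hp.out.one_lt.ne' h3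
  -- all the irreducible characters of `H` agree with `ψ`
  have hall : ∀ ψ' : IrrCharacter H, (ψ' : H → ℂ) = ψ := by
    intro ψ'
    have h1 := Cfsg.Agent.Lib.Char.Product.isIrr_tensorFun hφ1 ψ'.2
    have h2 := Cfsg.Agent.Lib.Char.Conj.isIrrCharacter_comp_mulEquiv e.symm h1
    have h3 : charDegree (Cfsg.Agent.Lib.Char.Product.tensorFun φ (ψ' : H → ℂ) ∘ e.symm) =
        charDegree φ * charDegree (ψ' : H → ℂ) := by
      have h4 : ((charDegree (Cfsg.Agent.Lib.Char.Product.tensorFun φ (ψ' : H → ℂ) ∘ e.symm) : ℕ) : ℂ) =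
          ((charDegree φ * charDegree (ψ' : H → ℂ) : ℕ) : ℂ) := by
        push_cast
        rw [charDegree_natCast (isCharacter_of_isIrrCharacter h2),
          charDegree_natCast (isCharacter_of_isIrrCharacter hφ1),
          charDegree_natCast (isCharacter_of_isIrrCharacter ψ'.2)]
        simp [Cfsg.Agent.Lib.Char.Product.tensorFun]
      exact_mod_cast h4
    have h5 := huniq ⟨_, h2⟩ (by
      show p ∣ charDegree (Cfsg.Agent.Lib.Char.Product.tensorFun φ (ψ' : H → ℂ) ∘ e.symm)
      rw [h3]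
      exact hpφ.mul_right _)
    have h6 : Cfsg.Agent.Lib.Char.Product.tensorFun φ (ψ' : H → ℂ) ∘ e.symm = (χ₀ : G → ℂ) :=
      congrArg Subtype.val h5
    have h7 : Cfsg.Agent.Lib.Char.Product.tensorFun φ (ψ' : H → ℂ) = (χ₀ : G → ℂ) ∘ e := by
      rw [← h6]
      funext x
      simp
    rw [htens] at h7
    exact (Cfsg.Agent.Lib.Char.Product.tensorFun_injective hφ1 hφ1 ψ'.2 hψ1 h7).2
  have hHbot : ∀ h : H, h = 1 := by
    intro h
    apply eq_one_of_forall_irr
    intro ψ'
    rw [hall ψ', ← hall (oneIrr H)]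
    rfl
  intro g
  obtain ⟨⟨x, y⟩, rfl⟩ := hf.2 g
  have hy := hHbot y
  subst hy
  obtain ⟨k, hk⟩ := P.isPGroup' x
  refine ⟨k, ?_⟩
  have hfx : f (x, 1) = (x : G) := by
    show (P : Subgroup G).subtype x * H.subtype 1 = x
    simp
  rw [hfx]
  have := congrArg Subtype.val hk
  simpa using this

/-- The `p`-group case of the forward direction. -/
theorem extraspecial_of_unique [Group.IsNilpotent G] (p : ℕ) [hp : Fact p.Prime] (hPG : IsPGroup p G)
    (χ₀ : IrrCharacter G) (h0 : p ∣ charDegree (χ₀ : G → ℂ))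
    (huniq : ∀ χ : IrrCharacter G, p ∣ charDegree (χ : G → ℂ) → χ = χ₀) :
    p = 2 ∧ IsExtraspecial 2 G := by
  classical
  have := Fintype.ofFinite G
  have : Finite (IrrCharacter G) := finite_irrCharacter
  have := Fintype.ofFinite (IrrCharacter G)
  have hχc := isCharacter_of_isIrrCharacter χ₀.2
  have hdeg1 : (χ₀ : G → ℂ) 1 ≠ 1 := by
    intro h
    have h1 : charDegree (χ₀ : G → ℂ) = 1 := by
      apply charDegree_eq_of_eq_natCast
      simpa using h
    rw [h1] at h0
    exact hp.out.one_lt.ne' (Nat.dvd_one.mp h0)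
  -- other characters are linear
  have hlin : ∀ ν : IrrCharacter G, ν ≠ χ₀ → (ν : G → ℂ) 1 = 1 := by
    intro ν hν
    have h1 := charDegree_dvd_card ν.2
    obtain ⟨n, hn⟩ := IsPGroup.iff_card.mp hPG
    rw [hn] at h1
    obtain ⟨i, -, hi⟩ := (Nat.dvd_prime_pow hp.out).mp h1
    rcases Nat.eq_zero_or_pos i with rfl | hipos
    · rw [← charDegree_natCast (isCharacter_of_isIrrCharacter ν.2), hi]
      simp
    · exfalso
      apply hν
      apply huniq
      rw [hi]
      exact dvd_pow_self _ hipos.ne'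
  have hD : ∀ ν : IrrCharacter G, ν ≠ χ₀ → ∀ x ∈ commutator G, (ν : G → ℂ) x = 1 := by
    intro ν hν x hx
    obtain ⟨lam, hlam⟩ := exists_hom_of_deg_one (isCharacter_of_isIrrCharacter ν.2) (hlin ν hν)
    have hker : commutator G ≤ lam.ker := Abelianization.commutator_subset_ker lam
    have := hker hx
    rw [MonoidHom.mem_ker] at this
    rw [hlam]
    simp [this]
  have hne1 : oneIrr G ≠ χ₀ := by
    intro h
    apply hdeg1
    rw [← h]
    rfl
  -- vanishing off the commutator subgroup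
  have hvan : ∀ g, g ∉ commutator G → (χ₀ : G → ℂ) g = 0 := by
    intro g hg
    obtain ⟨lam, hlam⟩ := exists_hom_ne_one hg
    have h1 := isIrr_hom_mul χ₀.2 lam
    have hd : charDegree (fun g => ((lam g : ℂˣ) : ℂ) * (χ₀ : G → ℂ) g) = charDegree (χ₀ : G → ℂ) := by
      simp [charDegree]
    have h2 := huniq ⟨_, h1⟩ (by
      show p ∣ charDegree (fun g => ((lam g : ℂˣ) : ℂ) * (χ₀ : G → ℂ) g)
      rw [hd]
      exact h0)
    have h3 : (fun g => ((lam g : ℂˣ) : ℂ) * (χ₀ : G → ℂ) g) = (χ₀ : G → ℂ) := congrArg Subtype.val h2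
    have h4 := congrFun h3 g
    have h5 : (((lam g : ℂˣ) : ℂ) - 1) * (χ₀ : G → ℂ) g = 0 := by
      linear_combination h4
    have h6 : ((lam g : ℂˣ) : ℂ) - 1 ≠ 0 := by
      rw [sub_ne_zero]
      intro h
      exact hlam (Units.ext h)
    exact (mul_eq_zero.mp h5).resolve_left h6
  -- the constant value
  set c : ℂ := ∑ ν ∈ Finset.univ.erase χ₀, ((ν : G → ℂ) 1 * conj ((ν : G → ℂ) 1)) with hc
  have hcval : ∀ ν ∈ Finset.univ.erase χ₀, ((ν : G → ℂ) 1 * conj ((ν : G → ℂ) 1)) = 1 := by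
    intro ν hν
    rw [hlin ν (Finset.mem_erase.mp hν).1]
    simp
  set e : ℂ := (χ₀ : G → ℂ) 1 with he
  have he0 : e ≠ 0 := irr_one_ne_zero χ₀.2
  have heconj : conj e = e := conj_deg hχc
  have hcol : ∀ x ∈ commutator G, x ≠ 1 → (χ₀ : G → ℂ) x * e = -c := by
    intro x hx hx1
    have h1 := sum_irr_mul_conj (G := G) x 1
    rw [if_neg (fun h => hx1 (isConj_one_right.mp h.symm))] at h1
    rw [← Finset.add_sum_erase _ _ (Finset.mem_univ χ₀), heconj] at h1
    have h2 : ∑ ν ∈ Finset.univ.erase χ₀, (ν : G → ℂ) x * conj ((ν : G → ℂ) 1) = c := by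
      rw [hc]
      refine Finset.sum_congr rfl fun ν hν => ?_
      rw [hD ν (Finset.mem_erase.mp hν).1 x hx, hlin ν (Finset.mem_erase.mp hν).1]
    rw [h2] at h1
    linear_combination h1
  have hcpos : ∃ r : ℕ, 0 < r ∧ c = r := by
    refine ⟨(Finset.univ.erase χ₀).card, ?_, ?_⟩
    · exact Finset.card_pos.mpr ⟨oneIrr G, Finset.mem_erase.mpr ⟨hne1, Finset.mem_univ _⟩⟩
    · rw [hc, Finset.sum_congr rfl hcval]
      simp
  obtain ⟨r, hr0, hr⟩ := hcpos
  have hex2 : ∀ x ∈ commutator G, ∀ y ∈ commutator G, x ≠ 1 → y ≠ 1 → IsConj x y := by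
    intro x hx y hy hx1 hy1
    by_contra hno
    have h1 := sum_irr_mul_conj (G := G) x y
    rw [if_neg hno, ← Finset.add_sum_erase _ _ (Finset.mem_univ χ₀)] at h1
    have h2 : ∑ ν ∈ Finset.univ.erase χ₀, (ν : G → ℂ) x * conj ((ν : G → ℂ) y) = c := by
      rw [hc]
      refine Finset.sum_congr rfl fun ν hν => ?_
      rw [hD ν (Finset.mem_erase.mp hν).1 x hx, hD ν (Finset.mem_erase.mp hν).1 y hy,
        hlin ν (Finset.mem_erase.mp hν).1]
    rw [h2] at h1
    have hxv : (χ₀ : G → ℂ) x = -c / e := by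
      rw [eq_div_iff he0]
      exact hcol x hx hx1
    have hyv : (χ₀ : G → ℂ) y = -c / e := by
      rw [eq_div_iff he0]
      exact hcol y hy hy1
    rw [hxv, hyv, hr, map_div₀, heconj, map_neg, map_natCast] at h1
    -- real positive
    obtain ⟨n, hn⟩ := exists_deg_of_isCharacter hχc
    have hn' : e = (n : ℂ) := hn
    rw [hn'] at h1
    have hn0 : (n : ℂ) ≠ 0 := by rw [← hn']; exact he0
    have h3 : ((r : ℂ) * r + r * (n * n)) = 0 := by
      field_simp at h1
      linear_combination h1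
    have h4 : r * r + r * (n * n) = 0 := by exact_mod_cast h3
    have : 0 < r * r := Nat.mul_pos hr0 hr0
    omega
  -- the commutator subgroup has order two
  have hDbot : commutator G ≠ ⊥ := by
    intro h
    apply hdeg1
    apply deg_one_of_commutator_le χ₀.2
    intro x hx
    rw [h, Subgroup.mem_bot] at hx
    rw [hx]
  have hnormD : (commutator G).Normal := inferInstance
  have hinf := Cfsg.Agent.Lib.SolvStruct.Fit.inf_center_ne_bot (commutator G) hDbot
  obtain ⟨z, hz⟩ := Subgroup.ne_bot_iff_exists_ne_one.mp hinf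
  have hzD : (z : G) ∈ commutator G := z.2.1
  have hzC : (z : G) ∈ Subgroup.center G := z.2.2
  have hz1 : (z : G) ≠ 1 := fun h => hz (Subtype.ext h)
  have hDz : ∀ x ∈ commutator G, x = 1 ∨ x = z := by
    intro x hx
    by_cases hx1 : x = 1
    · exact Or.inl hx1
    · right
      obtain ⟨a, ha⟩ := isConj_iff.mp (hex2 z hzD x hx hz1 hx1)
      rw [← ha, (Subgroup.mem_center_iff.mp hzC a), mul_inv_cancel_right]
  have hcard : Nat.card (commutator G) = 2 := by
    rw [Nat.card_eq_two_iff' (1 : commutator G)]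
    refine ⟨⟨z, hzD⟩, fun h => hz1 (congrArg Subtype.val h), ?_⟩
    rintro ⟨y, hy⟩ hy1
    apply Subtype.ext
    exact (hDz y hy).resolve_left (fun h => hy1 (Subtype.ext h))
  have hp2 : p = 2 := by
    have h1 : 2 ∣ Nat.card G := by
      rw [← hcard]
      exact Subgroup.card_subgroup_dvd_card _
    obtain ⟨n, hn⟩ := IsPGroup.iff_card.mp hPG
    rw [hn] at h1
    exact ((Nat.prime_dvd_prime_iff_eq Nat.prime_two hp.out).mp (Nat.prime_two.dvd_of_dvd_pow h1)).symm
  subst hp2
  have hcenter : Subgroup.center G = commutator G := by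
    apply le_antisymm
    · intro x hx
      by_contra hno
      exact char_central_ne_zero χ₀.2 hx (hvan x hno)
    · intro x hx
      rcases hDz x hx with rfl | rfl
      · exact Subgroup.one_mem _
      · exact hzC
  have hcomm_mem : ∀ x y : G, ⁅x, y⁆ ∈ Subgroup.center G := by
    intro x y
    rw [hcenter]
    exact Subgroup.commutator_mem_commutator (Subgroup.mem_top _) (Subgroup.mem_top _)
  have hEL : Cfsg.Agent.Lib.PGroups.Special.ExtraLike 2 G := by
    refine ⟨hPG, by rw [hcenter]; exact hcard, hcomm_mem, ?_⟩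
    intro x
    rw [Subgroup.mem_center_iff]
    intro y
    have h1 := Cfsg.Agent.Lib.PGroups.ClassTwo.comm_pow_left hcomm_mem x y 2
    have h2 : ⁅x, y⁆ ^ 2 = 1 := by
      have hmem : ⁅x, y⁆ ∈ commutator G := Subgroup.commutator_mem_commutator (Subgroup.mem_top _) (Subgroup.mem_top _)
      have h3 := pow_card_eq_one' (x := (⟨⁅x, y⁆, hmem⟩ : commutator G))
      rw [hcard] at h3
      simpa using congrArg Subtype.val h3
    rw [h2] at h1
    exact ((commutatorElement_eq_one_iff_mul_comm).mp h1).symm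
  refine ⟨rfl, hEL.isExtraspecial ?_⟩
  intro hc
  apply hDbot
  rw [commutator_eq_bot_iff_center_eq_top, eq_top_iff]
  intro g _
  rw [Subgroup.mem_center_iff]
  intro a
  exact hc.is_comm.comm a g

/-- The converse. -/
theorem unique_of_extraspecial (h : IsExtraspecial 2 G) :
    ∃ χ₀ : IrrCharacter G, 2 ∣ charDegree (χ₀ : G → ℂ) ∧
      ∀ χ : IrrCharacter G, 2 ∣ charDegree (χ : G → ℂ) → χ = χ₀ := by
  classical
  have := Fintype.ofFinite G
  have : Finite (IrrCharacter G) := finite_irrCharacter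
  have := Fintype.ofFinite (IrrCharacter G)
  have : Fact (Nat.Prime 2) := ⟨Nat.prime_two⟩
  have hPG : IsPGroup 2 G := h.1.1
  obtain ⟨z, hz1, hzu⟩ := (Nat.card_eq_two_iff' (1 : Subgroup.center G)).mp h.2
  have hcen : ∀ x ∈ Subgroup.center G, x = 1 ∨ x = (z : G) := by
    intro x hx
    by_cases hx1 : x = 1
    · exact Or.inl hx1
    · right
      have := hzu ⟨x, hx⟩ (fun h => hx1 (congrArg Subtype.val h))
      exact congrArg Subtype.val this
  have hz1' : (z : G) ≠ 1 := fun h => hz1 (Subtype.ext h)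
  have hzz : (z : G) * z = 1 := by
    have h3 := pow_card_eq_one' (x := z)
    rw [h.2] at h3
    have := congrArg Subtype.val h3
    simpa [pow_two] using this
  -- the nonlinear characters
  have key : ∀ χ : IrrCharacter G, (χ : G → ℂ) 1 ≠ 1 →
      (χ : G → ℂ) z = - (χ : G → ℂ) 1 ∧ ∀ g : G, g ≠ 1 → g ≠ (z : G) → (χ : G → ℂ) g = 0 := by
    intro χ hχ
    have he0 := irr_one_ne_zero χ.2
    have hsq : ((χ : G → ℂ) z) * (χ : G → ℂ) z = (χ : G → ℂ) 1 * (χ : G → ℂ) 1 := by
      have h1 := char_mul_central χ.2 z z.2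
      rw [hzz] at h1
      exact h1.symm
    have hzv : (χ : G → ℂ) z = - (χ : G → ℂ) 1 := by
      have h2 : ((χ : G → ℂ) z - (χ : G → ℂ) 1) * ((χ : G → ℂ) z + (χ : G → ℂ) 1) = 0 := by
        linear_combination hsq
      rcases mul_eq_zero.mp h2 with h3 | h3
      · exfalso
        apply hχ
        apply deg_one_of_commutator_le χ.2
        intro x hx
        rw [h.1.2.2] at hx
        rcases hcen x hx with rfl | rfl
        · rfl
        · exact sub_eq_zero.mp h3
      · linear_combination h3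
    refine ⟨hzv, ?_⟩
    intro g hg1 hgz
    have hgc : g ∉ Subgroup.center G := by
      intro hmem
      rcases hcen g hmem with h1 | h1
      · exact hg1 h1
      · exact hgz h1
    -- `g` is conjugate to `g * z`
    rw [Subgroup.mem_center_iff] at hgc
    push Not at hgc
    obtain ⟨y, hy⟩ := hgc
    have hcomm : ⁅g, y⁆ ∈ Subgroup.center G := Cfsg.Agent.Lib.PGroups.Special.IsSpecial.comm_mem h.1 g y
    have hne : ⁅g, y⁆ ≠ 1 := by
      rw [Ne, commutatorElement_eq_one_iff_mul_comm]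
      exact fun h => hy h.symm
    have hcz : ⁅g, y⁆ = z := (hcen _ hcomm).resolve_left hne
    have hconj : y * g * y⁻¹ = g * z := by
      have h2 : g * y * g⁻¹ * y⁻¹ = z := hcz
      have h3 : (z : G)⁻¹ = z := inv_eq_of_mul_eq_one_left hzz
      have h4 : y * g * y⁻¹ = (g * y * g⁻¹ * y⁻¹)⁻¹ * g := by group
      rw [h4, h2, h3]
      exact (Subgroup.mem_center_iff.mp z.2 g).symm
    have h5 : (χ : G → ℂ) g = (χ : G → ℂ) (g * z) := by
      rw [← hconj]
      exact char_conj_eq (isCharacter_of_isIrrCharacter χ.2) (isConj_iff.mpr ⟨y, rfl⟩)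
    have h6 := char_mul_central χ.2 g z.2
    rw [← h5, hzv] at h6
    have h7 : 2 * (χ : G → ℂ) g * (χ : G → ℂ) 1 = 0 := by linear_combination h6
    have h8 := (mul_eq_zero.mp h7).resolve_right he0
    simpa using h8
  -- existence
  have hnc : ¬ ∀ a b : G, a * b = b * a := by
    intro hc
    apply Cfsg.Agent.Lib.PGroups.Special.not_isMulCommutative_of_isExtraspecial h
    exact ⟨⟨hc⟩⟩
  rw [comm_iff_all_deg_one] at hnc
  push Not at hnc
  obtain ⟨χ₀, hχ₀⟩ := hnc
  have hdvd : ∀ χ : IrrCharacter G, (χ : G → ℂ) 1 ≠ 1 → 2 ∣ charDegree (χ : G → ℂ) := by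
    intro χ hχ
    have h1 := charDegree_dvd_card χ.2
    obtain ⟨n, hn⟩ := IsPGroup.iff_card.mp hPG
    rw [hn] at h1
    obtain ⟨i, -, hi⟩ := (Nat.dvd_prime_pow Nat.prime_two).mp h1
    rcases Nat.eq_zero_or_pos i with rfl | hipos
    · exfalso
      apply hχ
      rw [← charDegree_natCast (isCharacter_of_isIrrCharacter χ.2), hi]
      simp
    · rw [hi]
      exact dvd_pow_self _ hipos.ne'
  refine ⟨χ₀, hdvd χ₀ hχ₀, ?_⟩
  intro χ hχ
  have hχ1 : (χ : G → ℂ) 1 ≠ 1 := by
    intro h1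
    have h2 : charDegree (χ : G → ℂ) = 1 := by
      apply charDegree_eq_of_eq_natCast
      simpa using h1
    rw [h2] at hχ
    omega
  by_contra hne
  have h0 := classInner_eq_zero_of_isIrr_of_ne χ.2 χ₀.2 (fun h => hne (Subtype.ext h))
  rw [classInner_def] at h0
  have h1 := (mul_eq_zero.mp h0).resolve_left (inv_ne_zero card_ne_zero_complex')
  rw [Finset.sum_eq_add (1 : G) (z : G) (Ne.symm hz1')] at h1
  · obtain ⟨hzv, -⟩ := key χ hχ1
    obtain ⟨hzv0, -⟩ := key χ₀ hχ₀
    rw [hzv, hzv0, conj_deg (isCharacter_of_isIrrCharacter χ₀.2) ] at h1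
    rw [map_neg, conj_deg (isCharacter_of_isIrrCharacter χ₀.2)] at h1
    have h2 : 2 * ((χ : G → ℂ) 1 * (χ₀ : G → ℂ) 1) = 0 := by linear_combination h1
    have h3 := (mul_eq_zero.mp h2).resolve_left two_ne_zero
    rcases mul_eq_zero.mp h3 with h4 | h4
    · exact irr_one_ne_zero χ.2 h4
    · exact irr_one_ne_zero χ₀.2 h4
  · intro g _ hg
    rw [(key χ hχ1).2 g hg.1 hg.2]
    simp
  · simp
  · simp

end

/-- Let p be a prime and G a finite nilpotent group. Then G has exactly one irreducible complex character of degree divisible by p if and only if p = 2 and G is an extraspecial 2-group. -/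
theorem result {G : Type*} [Group G] [Finite G] [Group.IsNilpotent G] (p : ℕ) [Fact p.Prime] : Nat.card {χ : Cfsg.IrrCharacter G // p ∣ Cfsg.charDegree (χ : G → ℂ)} = 1 ↔ (p = 2 ∧ Cfsg.IsExtraspecial 2 G) := by
  classical
  constructor
  · intro h
    obtain ⟨⟨⟨χ₀, h0⟩⟩, huni⟩ := (Nat.card_eq_one_iff_unique.mp h).symm
    have huniq : ∀ χ : IrrCharacter G, p ∣ charDegree (χ : G → ℂ) → χ = χ₀ := by
      intro χ hχ
      have := huni.elim ⟨χ, hχ⟩ ⟨χ₀, h0⟩
      exact congrArg Subtype.val this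
    exact extraspecial_of_unique p (isPGroup_of_unique p χ₀ h0 huniq) χ₀ h0 huniq
  · rintro ⟨rfl, h⟩
    obtain ⟨χ₀, h0, huniq⟩ := unique_of_extraspecial h
    rw [Nat.card_eq_one_iff_unique]
    refine ⟨⟨?_⟩, ⟨⟨χ₀, h0⟩⟩⟩
    rintro ⟨a, ha⟩ ⟨b, hb⟩
    apply Subtype.ext
    exact (huniq a ha).trans (huniq b hb).symm

end Cfsg.Agent.S4762
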