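import Cfsg.Statements.S4765
import Cfsg.Agent.Lib.GL2.PSLDeg

set_option autoImplicit false
open Cfsg

namespace Cfsg.Agent.S4765

open Cfsg.Agent.Lib.GL2.SigSL2 Cfsg.Agent.Lib.GL2.PSLDeg Cfsg.Agent.Lib.SLn.Basic Cfsg.Agent.Lib.Char.Linear Cfsg.Agent.Lib.Char.Degree

/-- Let F be a finite field of characteristic p with at least 4 elements. Then PSL(2,F) has exactly one irreducible complex character of degree divisible by p, and its degree is the order of F. -/
theorem result (p : ℕ) [Fact p.Prime] (F : Type*) [Field F] [Fintype F] [CharP F p] (hF : 4 ≤ Fintype.card F) : Nat.card {χ : Cfsg.IrrCharacter (Matrix.ProjectiveSpecialLinearGroup (Fin 2) F) // p ∣ Cfsg.charDegree (χ : Matrix.ProjectiveSpecialLinearGroup (Fin 2) F → ℂ)} = 1 ∧ ∀ χ : Cfsg.IrrCharacter (Matrix.ProjectiveSpecialLinearGroup (Fin 2) F), p ∣ Cfsg.charDegree (χ : Matrix.ProjectiveSpecialLinearGroup (Fin 2) F → ℂ) → Cfsg.charDegree (χ : Matrix.ProjectiveSpecialLinearGroup (Fin 2) F → ℂ) = Fintype.card F := by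
  classical
  have key : ∀ χ : Cfsg.IrrCharacter (Matrix.ProjectiveSpecialLinearGroup (Fin 2) F),
      p ∣ Cfsg.charDegree (χ : Matrix.ProjectiveSpecialLinearGroup (Fin 2) F → ℂ) →
      ((χ : Matrix.ProjectiveSpecialLinearGroup (Fin 2) F → ℂ) ∘ toPSL (n := 2) (F := F)) = St1 := by
    intro χ hd
    apply eq_St1_of_dvd p (isIrrCharacter_comp _ toPSL_surjective χ.2)
    rwa [charDegree_comp]
  obtain ⟨φ, hφ, e⟩ := St1_descends (F := F)
  have hq : p ∣ Fintype.card F := (CharP.cast_eq_zero_iff F p _).mp (FiniteField.cast_card_eq_zero F)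
  have hdeg : Cfsg.charDegree φ = Fintype.card F := by
    rw [← charDegree_comp (toPSL (n := 2) (F := F)) φ, ← e]
    exact charDegree_eq_of_eq_natCast St1_one
  constructor
  · rw [Nat.card_eq_one_iff_unique]
    constructor
    · refine ⟨fun a b => ?_⟩
      apply Subtype.ext
      apply Subtype.ext
      have h1 := key a.1 a.2
      have h2 := key b.1 b.2
      exact (Function.Surjective.injective_comp_right toPSL_surjective) (h1.trans h2.symm)
    · exact ⟨⟨⟨φ, hφ⟩, by
        show p ∣ Cfsg.charDegree φ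
        rw [hdeg]; exact hq⟩⟩
  · intro χ hd
    rw [← charDegree_comp (toPSL (n := 2) (F := F)) (χ : Matrix.ProjectiveSpecialLinearGroup (Fin 2) F → ℂ), key χ hd]
    exact charDegree_eq_of_eq_natCast St1_one

end Cfsg.Agent.S4765
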