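import Cfsg.Statements.S4768
import Cfsg.Agent.Lib.Char.DerivedDiv

set_option autoImplicit false
open Cfsg

namespace Cfsg.Agent.S4768

/-- Let p be a prime, G a finite p-solvable group and P a Sylow p-subgroup of G. If n is the number of irreducible complex characters of G whose degree is divisible by p, then the (n+1)-st term of the derived series of P is trivial. (The p-solvable case has a direct inductive proof.) -/
theorem result {G : Type*} [Group G] [Finite G] (p : ℕ) [Fact p.Prime] (hG : Cfsg.IsPSolvable p G) (P : Sylow p G) : derivedSeries ↥(P : Subgroup G) (Nat.card {χ : Cfsg.IrrCharacter G // p ∣ Cfsg.charDegree (χ : G → ℂ)} + 1) = ⊥ := by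
  classical
  letI := Fintype.ofFinite G
  exact Cfsg.Agent.Lib.Char.DerivedDiv.main_ind p _ G rfl hG P

end Cfsg.Agent.S4768
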