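import Cfsg.Statements.S4774
import Cfsg.Agent.Lib.GL2.PSLDeg2

set_option autoImplicit false
open Cfsg

namespace Cfsg.Agent.S4774

open Cfsg.Agent.Lib.GL2.PSLDeg

lemma sq_sub_one_eq {q : ℕ} (hq : 1 ≤ q) : q ^ 2 - 1 = (q - 1) * (q + 1) := by
  obtain ⟨n, rfl⟩ : ∃ n, q = n + 1 := ⟨q - 1, by omega⟩
  simp only [Nat.add_sub_cancel]
  have : (n + 1) ^ 2 = n * (n + 1 + 1) + 1 := by ring
  omega

lemma prime_dvd_q_iff {q r : ℕ} (hq : 1 ≤ q) (hr : r.Prime) :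
    r ∣ q * (q ^ 2 - 1) ↔ r ∣ q ∨ r ∣ q - 1 ∨ r ∣ q + 1 := by
  rw [sq_sub_one_eq hq, hr.dvd_mul, hr.dvd_mul]

lemma half_dvd_add {q r : ℕ} (hq : Odd q) (h : r ∣ (q + 1) / 2) : r ∣ q + 1 := by
  obtain ⟨k, rfl⟩ := hq
  have e : (2 * k + 1 + 1) / 2 = k + 1 := by omega
  rw [e] at h
  have : 2 * k + 1 + 1 = 2 * (k + 1) := by ring
  rw [this]
  exact Dvd.dvd.mul_left h 2

lemma half_dvd_sub {q r : ℕ} (hq : Odd q) (h : r ∣ (q - 1) / 2) : r ∣ q - 1 := by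
  obtain ⟨k, rfl⟩ := hq
  have e : (2 * k + 1 - 1) / 2 = k := by omega
  rw [e] at h
  have : 2 * k + 1 - 1 = 2 * k := by omega
  rw [this]
  exact Dvd.dvd.mul_left h 2

/-- Let F be a finite field of odd characteristic t with q > 5 elements and let S be isomorphic to PSL(2,F) or to SL(2,F). Then the vertices of the character degree graph of S are the primes dividing q(q²−1); the prime t is adjacent to no vertex; two distinct primes dividing q² − 1 are adjacent exactly when one of them is 2, or both divide q + 1, or both divide q − 1. -/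
theorem result (F : Type*) [Field F] [Fintype F] (t : ℕ) [Fact t.Prime] [CharP F t] (ht : t ≠ 2) (q : ℕ) (hq : Fintype.card F = q) (h5 : 5 < q) {S : Type*} [Group S] [Finite S] (hS : Nonempty (S ≃* Matrix.ProjectiveSpecialLinearGroup (Fin 2) F) ∨ Nonempty (S ≃* Matrix.SpecialLinearGroup (Fin 2) F)) : Cfsg.degreePrimes S = {r : ℕ | r.Prime ∧ r ∣ q * (q ^ 2 - 1)} ∧ ∀ r s : ℕ, (Cfsg.degreeGraph S).Adj r s ↔ (r ≠ s ∧ r.Prime ∧ s.Prime ∧ r ∣ q ^ 2 - 1 ∧ s ∣ q ^ 2 - 1 ∧ (r = 2 ∨ s = 2 ∨ (r ∣ q + 1 ∧ s ∣ q + 1) ∨ (r ∣ q - 1 ∧ s ∣ q - 1))) := by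
  have hodd : Odd (Fintype.card F) := by
    have : ringChar F ≠ 2 := by
      rw [ringChar.eq F t]
      exact ht
    exact Nat.odd_iff.mpr (FiniteField.odd_card_of_char_ne_two this)
  obtain ⟨h1, h2, h3, h4⟩ := degrees_of_odd (F := F) (S := S) hodd (hq ▸ h5) hS
  rw [hq] at h1 h2 h3 h4 hodd
  obtain ⟨n, hn⟩ : ∃ n, q = t ^ (n : ℕ) := by
    obtain ⟨n, hp, hn⟩ := FiniteField.card F t
    exact ⟨n, by rw [← hq, hn]⟩
  have ht' : t.Prime := Fact.out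
  have hq1 : 1 ≤ q := by omega
  have h2q1 : 2 ∣ q + 1 := by
    obtain ⟨k, rfl⟩ := hodd
    exact ⟨k + 1, by ring⟩
  have h2q2 : 2 ∣ q - 1 := by
    obtain ⟨k, rfl⟩ := hodd
    exact ⟨k, by omega⟩
  constructor
  · ext r
    show (r.Prime ∧ ∃ d ∈ Cfsg.charDegrees S, r ∣ d) ↔ (r.Prime ∧ r ∣ q * (q ^ 2 - 1))
    constructor
    · rintro ⟨hr, d, hd, hrd⟩
      refine ⟨hr, ?_⟩
      rw [prime_dvd_q_iff hq1 hr]
      rcases h4 d hd with rfl | rfl | rfl | rfl | rfl | rfl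
      · exact absurd (Nat.dvd_one.mp hrd) hr.one_lt.ne'
      · exact Or.inl hrd
      · exact Or.inr (Or.inr hrd)
      · exact Or.inr (Or.inl hrd)
      · exact Or.inr (Or.inr (half_dvd_add hodd hrd))
      · exact Or.inr (Or.inl (half_dvd_sub hodd hrd))
    · rintro ⟨hr, h⟩
      rw [prime_dvd_q_iff hq1 hr] at h
      refine ⟨hr, ?_⟩
      rcases h with h | h | h
      · exact ⟨q, h1, h⟩
      · exact ⟨q - 1, h3, h⟩
      · exact ⟨q + 1, h2, h⟩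
  · intro r s
    show (r ≠ s ∧ r.Prime ∧ s.Prime ∧ ∃ d ∈ Cfsg.charDegrees S, r * s ∣ d) ↔ _
    rw [sq_sub_one_eq hq1]
    have hdvd1 : ∀ x : ℕ, x ∣ q + 1 → x ∣ (q - 1) * (q + 1) := fun x h => Dvd.dvd.mul_left h _
    have hdvd2 : ∀ x : ℕ, x ∣ q - 1 → x ∣ (q - 1) * (q + 1) := fun x h => Dvd.dvd.mul_right h _
    constructor
    · rintro ⟨hne, hr, hs, d, hd, hrd⟩
      have h1' : r ∣ d := dvd_trans (dvd_mul_right r s) hrd
      have h2' : s ∣ d := dvd_trans (dvd_mul_left s r) hrd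
      refine ⟨hne, hr, hs, ?_⟩
      rcases h4 d hd with rfl | rfl | rfl | rfl | rfl | rfl
      · exact absurd (Nat.dvd_one.mp h1') hr.one_lt.ne'
      · exfalso
        rw [hn] at h1' h2'
        have e1 := (Nat.prime_dvd_prime_iff_eq hr ht').mp (hr.dvd_of_dvd_pow h1')
        have e2 := (Nat.prime_dvd_prime_iff_eq hs ht').mp (hs.dvd_of_dvd_pow h2')
        exact hne (e1.trans e2.symm)
      · exact ⟨hdvd1 _ h1', hdvd1 _ h2', Or.inr (Or.inr (Or.inl ⟨h1', h2'⟩))⟩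
      · exact ⟨hdvd2 _ h1', hdvd2 _ h2', Or.inr (Or.inr (Or.inr ⟨h1', h2'⟩))⟩
      · have e1 := half_dvd_add hodd h1'
        have e2 := half_dvd_add hodd h2'
        exact ⟨hdvd1 _ e1, hdvd1 _ e2, Or.inr (Or.inr (Or.inl ⟨e1, e2⟩))⟩
      · have e1 := half_dvd_sub hodd h1'
        have e2 := half_dvd_sub hodd h2'
        exact ⟨hdvd2 _ e1, hdvd2 _ e2, Or.inr (Or.inr (Or.inr ⟨e1, e2⟩))⟩
    · rintro ⟨hne, hr, hs, hrd, hsd, h⟩
      refine ⟨hne, hr, hs, ?_⟩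
      have hco : Nat.Coprime r s := (Nat.coprime_primes hr hs).mpr hne
      rcases h with rfl | rfl | ⟨h5', h6⟩ | ⟨h5', h6⟩
      · rcases hs.dvd_mul.mp hsd with h7 | h7
        · exact ⟨q - 1, h3, hco.mul_dvd_of_dvd_of_dvd h2q2 h7⟩
        · exact ⟨q + 1, h2, hco.mul_dvd_of_dvd_of_dvd h2q1 h7⟩
      · rcases hr.dvd_mul.mp hrd with h7 | h7
        · exact ⟨q - 1, h3, hco.mul_dvd_of_dvd_of_dvd h7 h2q2⟩
        · exact ⟨q + 1, h2, hco.mul_dvd_of_dvd_of_dvd h7 h2q1⟩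
      · exact ⟨q + 1, h2, hco.mul_dvd_of_dvd_of_dvd h5' h6⟩
      · exact ⟨q - 1, h3, hco.mul_dvd_of_dvd_of_dvd h5' h6⟩

end Cfsg.Agent.S4774
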