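import Cfsg.Statements.S4775
import Cfsg.Agent.Lib.SzChar.Degrees
import Cfsg.Agent.Lib.SzIso.Basic
import Cfsg.Agent.Lib.GL2.PSLDeg

set_option autoImplicit false
open Cfsg
open Cfsg.Agent.Lib.SzChar.Degrees Cfsg.Agent.Lib.SzIso.Basic Cfsg.Agent.Lib.GL2.PSLDeg Cfsg.Agent.Lib.Suzuki.Stab Cfsg.Agent.Lib.Suzuki.Elements Cfsg.Agent.Lib.SuzukiX.Partition Cfsg.Agent.Lib.Suzuki.Sylow2

namespace Cfsg.Agent.S4775


/-- Let F be a finite field with q = 2^(2m+1) ≥ 8 elements and let S be isomorphic to the Suzuki group over F. Then the vertices of the character degree graph of S are 2 and the primes dividing (q − 1)(q² + 1); the primes dividing (q − 1)(q² + 1) are pairwise adjacent, and 2 is adjacent exactly to the primes dividing q − 1. -/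
theorem result (F : Type*) [Field F] [Fintype F] (m : ℕ) (hm : 1 ≤ m) (q : ℕ) (hq : Fintype.card F = q) (hqm : q = 2 ^ (2 * m + 1)) {S : Type*} [Group S] [Finite S] (hS : Nonempty (S ≃* ↥(Cfsg.Lie.Sz F (2 ^ (m + 1))))) : Cfsg.degreePrimes S = {r : ℕ | r.Prime ∧ (r = 2 ∨ r ∣ (q - 1) * (q ^ 2 + 1))} ∧ ∀ r s : ℕ, (Cfsg.degreeGraph S).Adj r s ↔ (r ≠ s ∧ r.Prime ∧ s.Prime ∧ ((r ∣ (q - 1) * (q ^ 2 + 1) ∧ s ∣ (q - 1) * (q ^ 2 + 1)) ∨ (r = 2 ∧ s ∣ q - 1) ∨ (s = 2 ∧ r ∣ q - 1))) := by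
  classical
  have hcc : Ctx F m := ctx_of_card hm (hq.trans hqm)
  haveI : CharP F 2 := charP_two_of_card (hq.trans hqm)
  obtain ⟨e⟩ := hS
  let e' : S ≃* ↥(Cfsg.Sz F m) := e.trans (equivSz hcc).symm
  have hD := (charDegrees_of_equiv e').trans (charDegrees_Sz hcc)
  rw [← hqm] at hD
  set r := 2 ^ (m + 1) with hr
  have hr2 : r = 2 * 2 ^ m := by rw [hr, pow_succ]; ring
  have hprod := prod_eq hm
  rw [← hqm, ← hr] at hprod
  have hsr := s_lt hm
  rw [← hqm, ← hr] at hsr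
  have ha1 : Odd (q + r + 1) := by
    have := odd_plus hm
    rwa [← hqm, ← hr] at this
  have ha2 : Odd (q - r + 1) := by
    have := odd_minus hm
    rwa [← hqm, ← hr] at this
  have hq1 : Odd (q - 1) := by
    have := odd_q (m := m)
    rwa [← hqm] at this
  have hq2 : Odd (q ^ 2 + 1) := by
    have := odd_q2 (m := m)
    rwa [← hqm] at this
  have hpow : ∀ {p k : ℕ}, p.Prime → p ∣ 2 ^ k → p = 2 := by
    intro p k hp h
    exact (Nat.prime_dvd_prime_iff_eq hp Nat.prime_two).1 (hp.dvd_of_dvd_pow h)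
  have hodd2 : ∀ {n : ℕ}, Odd n → ¬ 2 ∣ n := fun h => h.not_two_dvd_nat
  have hdvdM1 : ∀ {p : ℕ}, p ∣ q - 1 → p ∣ (q - 1) * (q ^ 2 + 1) := fun h => Dvd.dvd.mul_right h _
  have hdvdM2 : ∀ {p : ℕ}, p ∣ q ^ 2 + 1 → p ∣ (q - 1) * (q ^ 2 + 1) := fun h => Dvd.dvd.mul_left h _
  have ha1d : q + r + 1 ∣ q ^ 2 + 1 := ⟨_, hprod.symm⟩
  have ha2d : q - r + 1 ∣ q ^ 2 + 1 := ⟨_, by rw [← hprod, mul_comm]⟩
  constructor
  · rw [degreePrimes_eq_of S hD]
    ext p
    simp only [Set.mem_ofPred_eq]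
    constructor
    · rintro ⟨hp, d, hd, hpd⟩
      refine ⟨hp, ?_⟩
      simp only [Set.mem_insert_iff, Set.mem_singleton_iff] at hd
      rcases hd with rfl | rfl | rfl | rfl | rfl | rfl
      · exact absurd (Nat.dvd_one.1 hpd) hp.one_lt.ne'
      · left
        rw [hqm] at hpd
        exact hpow hp ((by rw [← pow_mul] at hpd; exact hpd))
      · right
        exact hdvdM2 hpd
      · rcases (Nat.Prime.dvd_mul hp).1 hpd with h | h
        · exact Or.inr (hdvdM1 h)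
        · exact Or.inl (hpow hp h)
      · rcases (Nat.Prime.dvd_mul hp).1 hpd with h | h
        · exact Or.inr (hdvdM1 h)
        · exact Or.inr (hdvdM2 (h.trans ha2d))
      · rcases (Nat.Prime.dvd_mul hp).1 hpd with h | h
        · exact Or.inr (hdvdM1 h)
        · exact Or.inr (hdvdM2 (h.trans ha1d))
    · rintro ⟨hp, h⟩
      refine ⟨hp, ?_⟩
      rcases h with rfl | h
      · refine ⟨q ^ 2, by simp, ?_⟩
        rw [hqm]
        exact Dvd.dvd.pow (dvd_pow_self 2 (by omega)) (by norm_num)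
      · rcases (Nat.Prime.dvd_mul hp).1 h with h | h
        · exact ⟨(q - 1) * (q + r + 1), by simp, Dvd.dvd.mul_right h _⟩
        · exact ⟨q ^ 2 + 1, by simp, h⟩
  · intro a b
    rw [degreeGraph_adj_of S hD]
    constructor
    · rintro ⟨hne, hp, hs, d, hd, hpd⟩
      refine ⟨hne, hp, hs, ?_⟩
      have hpa : a ∣ d := (Dvd.intro _ rfl).trans hpd
      have hpb : b ∣ d := (Dvd.intro_left _ rfl).trans hpd
      simp only [Set.mem_insert_iff, Set.mem_singleton_iff] at hd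
      rcases hd with rfl | rfl | rfl | rfl | rfl | rfl
      · exact absurd (Nat.dvd_one.1 hpa) hp.one_lt.ne'
      · exfalso
        rw [hqm, ← pow_mul] at hpa hpb
        exact hne ((hpow hp hpa).trans (hpow hs hpb).symm)
      · exact Or.inl ⟨hdvdM2 hpa, hdvdM2 hpb⟩
      · have caseA := (Nat.Prime.dvd_mul hp).1 hpa
        have caseB := (Nat.Prime.dvd_mul hs).1 hpb
        rcases caseA with h1 | h1
        · rcases caseB with h2 | h2
          · exact Or.inl ⟨hdvdM1 h1, hdvdM1 h2⟩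
          · exact Or.inr (Or.inr ⟨hpow hs h2, h1⟩)
        · rcases caseB with h2 | h2
          · exact Or.inr (Or.inl ⟨hpow hp h1, h2⟩)
          · exact absurd ((hpow hp h1).trans (hpow hs h2).symm) hne
      · have h1 : (q - 1) * (q - r + 1) ∣ (q - 1) * (q ^ 2 + 1) := Nat.mul_dvd_mul_left _ ha2d
        exact Or.inl ⟨hpa.trans h1, hpb.trans h1⟩
      · have h1 : (q - 1) * (q + r + 1) ∣ (q - 1) * (q ^ 2 + 1) := Nat.mul_dvd_mul_left _ ha1d
        exact Or.inl ⟨hpa.trans h1, hpb.trans h1⟩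
    · rintro ⟨hne, hp, hs, h⟩
      refine ⟨hne, hp, hs, ?_⟩
      have hcop : Nat.Coprime a b := (Nat.coprime_primes hp hs).2 hne
      rcases h with ⟨h1, h2⟩ | ⟨rfl, h2⟩ | ⟨rfl, h1⟩
      · rcases (Nat.Prime.dvd_mul hp).1 h1 with h1 | h1
        · rcases (Nat.Prime.dvd_mul hs).1 h2 with h2 | h2
          · exact ⟨(q - 1) * (q + r + 1), by simp,
              (Nat.Coprime.mul_dvd_of_dvd_of_dvd hcop h1 h2).mul_right _⟩
          · -- `b` divides one of the two factors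
            rw [← hprod] at h2
            rcases (Nat.Prime.dvd_mul hs).1 h2 with h2 | h2
            · exact ⟨(q - 1) * (q + r + 1), by simp, Nat.mul_dvd_mul h1 h2⟩
            · exact ⟨(q - 1) * (q - r + 1), by simp, Nat.mul_dvd_mul h1 h2⟩
        · rcases (Nat.Prime.dvd_mul hs).1 h2 with h2 | h2
          · rw [← hprod] at h1
            rw [mul_comm a b]
            rcases (Nat.Prime.dvd_mul hp).1 h1 with h1 | h1
            · exact ⟨(q - 1) * (q + r + 1), by simp, Nat.mul_dvd_mul h2 h1⟩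
            · exact ⟨(q - 1) * (q - r + 1), by simp, Nat.mul_dvd_mul h2 h1⟩
          · exact ⟨q ^ 2 + 1, by simp, Nat.Coprime.mul_dvd_of_dvd_of_dvd hcop h1 h2⟩
      · refine ⟨(q - 1) * 2 ^ m, by simp, ?_⟩
        rw [mul_comm 2 b]
        exact Nat.mul_dvd_mul h2 (dvd_pow_self 2 (by omega))
      · refine ⟨(q - 1) * 2 ^ m, by simp, ?_⟩
        exact Nat.mul_dvd_mul h1 (dvd_pow_self 2 (by omega))

end Cfsg.Agent.S4775
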