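import Cfsg.Statements.S4782
import Cfsg.Agent.Lib.Char.Burnside
import Cfsg.Agent.Lib.CharDeg.ItoMichlerSolv
import Cfsg.Agent.Lib.ClassPow.Basic

set_option autoImplicit false
open Cfsg

namespace Cfsg.Agent.S4782

open Module Cfsg.Agent.Lib.Char
open scoped ComplexConjugate

universe u

/-- Burnside's criterion, with a coprimality hypothesis: a non-abelian simple group has no
non-identity element whose class size is coprime to every degree not divisible by `q`. -/
theorem false_of_simple {G : Type*} [Group G] [Finite G] [hsim : IsSimpleGroup G] (q : ℕ)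
    (hp : q.Prime) (g : G) (hg : g ≠ 1) (hcomm : ¬ ∀ a b : G, a * b = b * a)
    (hcop : ∀ χ : IrrCharacter G, ¬ q ∣ charDegree (χ : G → ℂ) →
      Nat.Coprime (charDegree (χ : G → ℂ)) (Subgroup.centralizer ({g} : Set G)).index) : False := by
  classical
  cases nonempty_fintype G
  have hcenter : Subgroup.center G = ⊥ := by
    rcases IsSimpleGroup.eq_bot_or_eq_top_of_normal (Subgroup.center G) inferInstance with h | h
    · exact h
    · exfalso
      apply hcomm
      intro a b
      have : b ∈ Subgroup.center G := by rw [h]; trivial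
      exact (Subgroup.mem_center_iff.mp this a)
  have hgnc : g ∉ Subgroup.center G := by
    rw [hcenter]
    simpa using hg
  have hnotconj : ¬ IsConj g (1 : G) := by
    intro h
    exact hg (isConj_one_right.mp h.symm)
  have := Ortho.finite_irrCharacter (G := G)
  let _ := Fintype.ofFinite (IrrCharacter G)
  have hsum := Complete.sum_irr_mul_conj g (1 : G)
  rw [if_neg hnotconj] at hsum
  let τ : IrrCharacter G := ⟨fun _ => 1, Burnside.isIrrCharacter_one⟩
  have key : ∀ χ : IrrCharacter G, ∃ β : ℂ, IsIntegral ℤ β ∧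
      (χ ≠ τ → (χ : G → ℂ) g * conj ((χ : G → ℂ) 1) = (q : ℂ) * β) := by
    intro χ
    by_cases hχ : χ = τ
    · exact ⟨0, isIntegral_zero, fun h => absurd hχ h⟩
    have hcopχ := hcop χ
    obtain ⟨n, ρ, hirr, hρ⟩ := χ.2
    have := hirr
    have hχ1 : (χ : G → ℂ) 1 = (finrank ℂ (Fin n → ℂ) : ℂ) := by
      rw [← hρ, Representation.char_one]
    have hconj : conj ((χ : G → ℂ) 1) = (finrank ℂ (Fin n → ℂ) : ℂ) := by
      rw [hχ1]
      simp
    have hdeg : charDegree (χ : G → ℂ) = finrank ℂ (Fin n → ℂ) :=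
      Degree.charDegree_eq_of_eq_natCast hχ1
    rw [hdeg] at hcopχ
    have hint : IsIntegral ℤ (ρ.character g) := Eigen.character_isIntegral ρ g
    have hnontriv : ∃ h : G, ρ h ≠ LinearMap.id := by
      by_contra hcon
      push Not at hcon
      apply hχ
      apply Subtype.ext
      have hconst : ∀ x, (χ : G → ℂ) x = (finrank ℂ (Fin n → ℂ) : ℂ) := by
        intro x
        rw [← hρ]
        exact (Eigen.character_eq_finrank_iff ρ x).mpr (hcon x)
      have h1 := Ortho.classInner_self_of_isIrr χ.2
      simp only [classInner, hconst] at h1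
      have hG : (Nat.card G : ℂ) ≠ 0 := Ortho.card_ne_zero_complex
      rw [Finset.sum_const, Finset.card_univ, nsmul_eq_mul, ← Nat.card_eq_fintype_card,
        inv_mul_cancel_left₀ hG] at h1
      simp only [map_natCast] at h1
      have h2 : finrank ℂ (Fin n → ℂ) * finrank ℂ (Fin n → ℂ) = 1 := by exact_mod_cast h1
      have h3 : finrank ℂ (Fin n → ℂ) = 1 := Nat.eq_one_of_mul_eq_one_right h2
      funext x
      rw [hconst x, h3]
      simp [τ]
    have hker : (ρ : G →* End ℂ (Fin n → ℂ)).ker = ⊥ := by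
      rcases IsSimpleGroup.eq_bot_or_eq_top_of_normal (ρ : G →* End ℂ (Fin n → ℂ)).ker
        inferInstance with h | h
      · exact h
      · exfalso
        obtain ⟨h0, hh0⟩ := hnontriv
        apply hh0
        have : h0 ∈ (ρ : G →* End ℂ (Fin n → ℂ)).ker := by rw [h]; trivial
        exact MonoidHom.mem_ker.mp this
    have hinj : Function.Injective ρ := (MonoidHom.ker_eq_bot_iff _).mp hker
    by_cases hdvd : q ∣ finrank ℂ (Fin n → ℂ)
    · obtain ⟨m, hm⟩ := hdvd
      refine ⟨(m : ℂ) * ρ.character g, isIntegral_algebraMap (x := (m : ℤ)) |>.mul hint |> fun h => ?_,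
        fun _ => ?_⟩
      · simpa using h
      · rw [hconj, hm, ← hρ]
        push_cast
        ring
    · have hcop' := hcopχ hdvd
      rcases Galois.character_eq_zero_or_norm_eq_of_coprime ρ g hcop' with h0 | h1
      · refine ⟨0, isIntegral_zero, fun _ => ?_⟩
        rw [← hρ, h0]
        simp
      · exfalso
        obtain ⟨ω, hω⟩ := (Eigen.norm_character_eq_iff_scalar ρ g).mp h1
        apply hgnc
        rw [Subgroup.mem_center_iff]
        intro x
        apply hinj
        rw [map_mul, map_mul, hω]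
        ext v i
        simp
  choose β hβ hβ' using key
  have hτ : (τ : G → ℂ) g * conj ((τ : G → ℂ) 1) = 1 := by simp [τ]
  have hfinal : 1 + (q : ℂ) * ∑ χ ∈ Finset.univ.erase τ, β χ = 0 := by
    rw [← Finset.add_sum_erase _ _ (Finset.mem_univ τ), hτ] at hsum
    rw [Finset.mul_sum, ← hsum]
    congr 1
    refine Finset.sum_congr rfl fun χ hχ => ?_
    exact (hβ' χ (Finset.ne_of_mem_erase hχ)).symm
  have hpne : (q : ℂ) ≠ 0 := by exact_mod_cast hp.ne_zero
  have hinv : ((1 : ℕ) : ℂ) / (q : ℂ) = -∑ χ ∈ Finset.univ.erase τ, β χ := by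
    field_simp
    push_cast
    linear_combination hfinal
  have hdvd : q ∣ 1 := by
    apply Central.nat_dvd_of_isIntegral_div hp.ne_zero
    rw [hinv]
    exact (IsIntegral.sum _ fun χ _ => hβ χ).neg
  exact hp.one_lt.ne' (Nat.dvd_one.mp hdvd)

/-- There is a non-identity element whose class size is prime to `p`. -/
theorem exists_ne_one_not_dvd_index {H : Type*} [Group H] [Finite H] [Nontrivial H] (p : ℕ)
    (hp : p.Prime) : ∃ z : H, z ≠ 1 ∧ ¬ p ∣ (Subgroup.centralizer ({z} : Set H)).index := by
  haveI := Fact.mk hp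
  let P : Sylow p H := default
  have hnd : ¬ p ∣ (P : Subgroup H).index := P.not_dvd_index
  have hle : ∃ z : H, z ≠ 1 ∧ (P : Subgroup H) ≤ Subgroup.centralizer ({z} : Set H) := by
    by_cases hP : (P : Subgroup H) = ⊥
    · obtain ⟨z, hz⟩ := exists_ne (1 : H)
      exact ⟨z, hz, by rw [hP]; exact bot_le⟩
    · haveI : Nontrivial (P : Subgroup H) := (Subgroup.nontrivial_iff_ne_bot _).mpr hP
      haveI : Nontrivial (Subgroup.center (P : Subgroup H)) :=
        P.isPGroup'.center_nontrivial
      obtain ⟨⟨z, hz⟩, hz1⟩ := exists_ne (1 : Subgroup.center (P : Subgroup H))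
      refine ⟨(z : H), ?_, ?_⟩
      · intro h
        apply hz1
        ext
        simpa using h
      · intro x hx
        rw [Subgroup.mem_centralizer_singleton_iff]
        have := (Subgroup.mem_center_iff.mp hz) ⟨x, hx⟩
        exact (congrArg Subtype.val this)
  obtain ⟨z, hz, hzP⟩ := hle
  exact ⟨z, hz, fun h => hnd (h.trans (Subgroup.index_dvd_of_le hzP))⟩

/-- Groups whose character degrees only involve `p` and `q` are solvable. -/
theorem solvable_of_two_primes (p q : ℕ) (hp : p.Prime) (hq : q.Prime) :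
    ∀ (n : ℕ) (H : Type u) [Group H] [Finite H], Nat.card H = n →
      (∀ r : ℕ, r.Prime → r ≠ p → r ≠ q → ∀ χ : IrrCharacter H,
        ¬ r ∣ charDegree (χ : H → ℂ)) → Group.IsSolvable H := by
  intro n
  induction n using Nat.strong_induction_on with
  | _ n ih =>
    intro H _ _ hn hdeg
    classical
    cases nonempty_fintype H
    by_cases htriv : Subsingleton H
    · exact inferInstance
    rw [not_subsingleton_iff_nontrivial] at htriv
    by_cases hsimple : ∃ N : Subgroup H, N.Normal ∧ N ≠ ⊥ ∧ N ≠ ⊤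
    · obtain ⟨N, hN, hbot, htop⟩ := hsimple
      haveI := hN
      have h1 : Nat.card N < n := by
        rw [← hn]
        exact Cfsg.Agent.Lib.ClassPow.card_lt_of_ne_top htop
      have h2 : Nat.card (H ⧸ N) < n := by
        rw [← hn]
        exact Cfsg.Agent.Lib.ClassPow.card_quot_lt_of_ne_bot hbot
      letI : Fintype N := Fintype.ofFinite N
      have sN : Group.IsSolvable N := ih _ h1 N rfl (fun r hr hrp hrq χ =>
        Cfsg.Agent.Lib.CharDeg.ItoMichlerSolv.not_dvd_of_normal (hdeg r hr hrp hrq) hN χ)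
      have sQ : Group.IsSolvable (H ⧸ N) := ih _ h2 (H ⧸ N) rfl (fun r hr hrp hrq χ =>
        Cfsg.Agent.Lib.CharDeg.ItoMichlerSolv.not_dvd_of_quotient (hdeg r hr hrp hrq) (QuotientGroup.mk' N)
          (QuotientGroup.mk'_surjective N) χ)
      exact Group.isSolvable_of_ker_le_range N.subtype (QuotientGroup.mk' N) (by simp)
    · push Not at hsimple
      haveI hsim : IsSimpleGroup H := by
        refine ⟨fun N hN => ?_⟩
        by_cases h : N = ⊥
        · exact Or.inl h
        · exact Or.inr (hsimple N hN h)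
      by_cases hcomm : ∀ a b : H, a * b = b * a
      · exact Group.isSolvable_of_comm hcomm
      exfalso
      obtain ⟨z, hz, hzp⟩ := exists_ne_one_not_dvd_index (H := H) p hp
      refine false_of_simple q hq z hz hcomm fun χ hχ => ?_
      by_contra hnc
      obtain ⟨r, hr, hr1, hr2⟩ := Nat.Prime.not_coprime_iff_dvd.mp hnc
      by_cases hrp : r = p
      · subst hrp
        exact hzp hr2
      · by_cases hrq : r = q
        · subst hrq
          exact hχ hr1
        · exact hdeg r hr hrp hrq χ hr1


/-- If the finite group G is not solvable, then at least three distinct primes each divide some irreducible complex character degree of G. -/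
theorem result {G : Type*} [Group G] [Finite G] (hG : ¬ Group.IsSolvable G) : ∃ p q r : ℕ, p ≠ q ∧ q ≠ r ∧ p ≠ r ∧ p ∈ Cfsg.degreePrimes G ∧ q ∈ Cfsg.degreePrimes G ∧ r ∈ Cfsg.degreePrimes G := by
  classical
  by_contra hcon
  have hS : ∃ p q : ℕ, p.Prime ∧ q.Prime ∧ ∀ r ∈ Cfsg.degreePrimes G, r = p ∨ r = q := by
    by_cases h1 : ∃ p, p ∈ Cfsg.degreePrimes G
    · obtain ⟨p, hp⟩ := h1
      by_cases h2 : ∃ q, q ∈ Cfsg.degreePrimes G ∧ q ≠ p
      · obtain ⟨q, hq, hqp⟩ := h2
        refine ⟨p, q, hp.1, hq.1, fun r hr => ?_⟩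
        by_contra hr'
        push Not at hr'
        exact hcon ⟨p, q, r, hqp.symm, hr'.2.symm, hr'.1.symm, hp, hq, hr⟩
      · push Not at h2
        exact ⟨p, p, hp.1, hp.1, fun r hr => Or.inl (h2 r hr)⟩
    · push Not at h1
      exact ⟨2, 2, Nat.prime_two, Nat.prime_two, fun r hr => absurd hr (h1 r)⟩
  obtain ⟨p, q, hp, hq, hS⟩ := hS
  have hsol : Group.IsSolvable G := solvable_of_two_primes p q hp hq _ G rfl fun r hr hrp hrq χ hdvd => by
    rcases hS r ⟨hr, _, ⟨χ, rfl⟩, hdvd⟩ with h | h
    · exact hrp h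
    · exact hrq h
  exact hG hsol

end Cfsg.Agent.S4782
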