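import Cfsg.Statements.S4796
import Cfsg.Agent.Lib.Blk89.CodPrime
import Cfsg.Agent.Lib.Frobenius.Basic
-- import your own Cfsg.Agent.* helpers here

set_option autoImplicit false
open Cfsg
open Cfsg.Agent.Lib.Blk89.CodPrime

namespace Cfsg.Agent.S4796

/-- Let G be a finite group with a faithful irreducible complex character χ whose codegree #G / χ(1) is a prime p (for a faithful character the kernel is trivial, so the codegree is #G / χ(1)). Then either G is cyclic of order p, or G is a Frobenius group whose Frobenius kernel has order p: some proper non-trivial subgroup H satisfies H ∩ gHg⁻¹ = 1 for every element g outside H, and the set of elements lying in no conjugate of H, together with the identity, has exactly p elements. -/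
theorem result {G : Type*} [Group G] [Finite G] (χ : Cfsg.IrrCharacter G) (hfaith : ∀ g : G, (χ : G → ℂ) g = (χ : G → ℂ) 1 → g = 1) (p : ℕ) (hp : p.Prime) (hcod : Nat.card G = p * Cfsg.charDegree (χ : G → ℂ)) : (IsCyclic G ∧ Nat.card G = p) ∨ ∃ H : Subgroup G, Cfsg.IsFrobeniusComplement H ∧ Nat.card ↥(Cfsg.frobeniusKernel H) = p := by
  classical
  by_cases hd : Cfsg.charDegree (χ : G → ℂ) = 1
  · left
    have hG : Nat.card G = p := by rw [hcod, hd, mul_one]
    have := Fact.mk hp
    exact ⟨isCyclic_of_prime_card hG, hG⟩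
  right
  obtain ⟨P, hPn, hPc, hcent, hidx, hpd⟩ := exists_normal_selfCentralizing χ.2 hfaith hp hcod hd
  have hcop : (Nat.card P).Coprime P.index := by
    rw [hPc, hidx]
    exact (Nat.Prime.coprime_iff_not_dvd hp).mpr hpd
  obtain ⟨H, hH⟩ := Subgroup.exists_right_complement'_of_coprime hcop
  have hcardH : Nat.card H = Cfsg.charDegree (χ : G → ℂ) := by
    rw [← hidx]
    exact hH.symm.index_eq_card.symm
  have hPbot : P ≠ ⊥ := by
    rintro rfl
    rw [Subgroup.card_bot] at hPc
    exact hp.one_lt.ne hPc
  have hHbot : H ≠ ⊥ := by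
    rintro rfl
    rw [Subgroup.card_bot] at hcardH
    exact hd hcardH.symm
  have hF : Cfsg.IsFrobeniusComplement H := by
    rw [Cfsg.Agent.Lib.Frobenius.Basic.isFrobeniusComplement_iff_of_isComplement' P hH hPbot hHbot]
    intro h hh hne
    rw [eq_bot_iff]
    rintro x ⟨hxP, hxc⟩
    rw [Subgroup.mem_bot]
    by_contra hx1
    apply hne
    have := Fact.mk hp
    have htop : Subgroup.zpowers (⟨x, hxP⟩ : P) = ⊤ := by
      apply zpowers_eq_top_of_prime_card hPc
      intro h0
      exact hx1 (congrArg Subtype.val h0)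
    have hxh : x * h = h * x := (Subgroup.mem_centralizer_iff.mp hxc h (by simp)).symm
    have hcentr : h ∈ Subgroup.centralizer (P : Set G) := by
      rw [Subgroup.mem_centralizer_iff]
      intro y hy
      have hy' : (⟨y, hy⟩ : P) ∈ Subgroup.zpowers (⟨x, hxP⟩ : P) := by rw [htop]; trivial
      obtain ⟨k, hk⟩ := Subgroup.mem_zpowers_iff.mp hy'
      have hk' : x ^ k = y := by
        have := congrArg Subtype.val hk
        simpa using this
      rw [← hk']
      exact ((Commute.zpow_left (a := x) (b := h) hxh k)).eq
    have h1 : h ∈ P := hcent hcentr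
    have h2 := hH.disjoint
    rw [Subgroup.disjoint_def] at h2
    exact h2 h1 hh
  refine ⟨H, hF, ?_⟩
  rw [Cfsg.Agent.Lib.Frobenius.Basic.card_frobeniusKernel hF, hH.index_eq_card, hPc]

end Cfsg.Agent.S4796
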