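import Cfsg.Statements.S4797
import Cfsg.Agent.Lib.Blk89.CodPrime
-- import your own Cfsg.Agent.* helpers here

set_option autoImplicit false
open Cfsg
open Cfsg.Agent.Lib.Char.Basic Cfsg.Agent.Lib.Char.Ortho Cfsg.Agent.Lib.Char.Complete Cfsg.Agent.Lib.Blk89.Basic Cfsg.Agent.Lib.Char.Degree Cfsg.Agent.Lib.Char.Linear Cfsg.Agent.Lib.Blk89.Codegree Cfsg.Agent.Lib.Blk89.CodPrime

namespace Cfsg.Agent.S4797


section
variable {G : Type*} [Group G] [Finite G]

/-- Commutators centralize a cyclic normal subgroup. -/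
theorem commutator_le_centralizer_of_cyclic (P : Subgroup G) [hn : P.Normal] (hc : IsCyclic P) :
    commutator G ≤ Subgroup.centralizer (P : Set G) := by
  obtain ⟨x, hx⟩ := hc.exists_generator
  have hconj : ∀ a : G, ∃ i : ℤ, a * (x : G) * a⁻¹ = (x : G) ^ i := by
    intro a
    have h1 : a * (x : G) * a⁻¹ ∈ P := hn.conj_mem _ x.2 a
    obtain ⟨k, hk⟩ := Subgroup.mem_zpowers_iff.mp (hx ⟨_, h1⟩)
    exact ⟨k, by simpa using (congrArg Subtype.val hk).symm⟩
  have hconjz : ∀ (a : G) (i : ℤ) (j : ℤ), a * (x : G) * a⁻¹ = (x : G) ^ i →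
      a * (x : G) ^ j * a⁻¹ = (x : G) ^ (i * j) := by
    intro a i j h
    rw [zpow_mul, ← h]
    exact (conj_zpow).symm
  rw [commutator_def, Subgroup.commutator_le]
  intro a _ b _
  rw [Subgroup.mem_centralizer_iff]
  intro y hy
  obtain ⟨i, hi⟩ := hconj a
  obtain ⟨j, hj⟩ := hconj b
  -- `[a, b]` fixes `x`
  have hab : ∀ k : ℤ, (a * b) * (x : G) ^ k * (a * b)⁻¹ = (b * a) * (x : G) ^ k * (b * a)⁻¹ := by
    intro k
    have h1 : (a * b) * (x : G) ^ k * (a * b)⁻¹ = a * (b * (x : G) ^ k * b⁻¹) * a⁻¹ := by group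
    have h2 : (b * a) * (x : G) ^ k * (b * a)⁻¹ = b * (a * (x : G) ^ k * a⁻¹) * b⁻¹ := by group
    rw [h1, h2, hconjz b j k hj, hconjz a i k hi, hconjz a i _ hi, hconjz b j _ hj]
    congr 1
    ring
  have hw : (b * a)⁻¹ * y * (b * a) ∈ P := by
    have := hn.conj_mem y hy (b * a)⁻¹
    simpa using this
  obtain ⟨l, hl⟩ := Subgroup.mem_zpowers_iff.mp (hx ⟨_, hw⟩)
  have hl' : (x : G) ^ l = (b * a)⁻¹ * y * (b * a) := by simpa using congrArg Subtype.val hl
  have h3 := hab l
  rw [hl'] at h3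
  have h4 : (b * a) * ((b * a)⁻¹ * y * (b * a)) * (b * a)⁻¹ = y := by group
  rw [h4] at h3
  rw [commutatorElement_def]
  have h5 : (a * b * a⁻¹ * b⁻¹) * y * (a * b * a⁻¹ * b⁻¹)⁻¹ = y := by
    calc (a * b * a⁻¹ * b⁻¹) * y * (a * b * a⁻¹ * b⁻¹)⁻¹
        = a * b * ((b * a)⁻¹ * y * (b * a)) * (a * b)⁻¹ := by group
      _ = y := h3
  calc y * (a * b * a⁻¹ * b⁻¹) = ((a * b * a⁻¹ * b⁻¹) * y * (a * b * a⁻¹ * b⁻¹)⁻¹) * (a * b * a⁻¹ * b⁻¹) := by rw [h5]
    _ = _ := by group

/-- A non-perfect group has an irreducible character of prime codegree. -/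
theorem exists_prime_cod (h : commutator G ≠ ⊤) :
    ∃ χ : Cfsg.IrrCharacter G, ((Nat.card G / (Nat.card {g : G // (χ : G → ℂ) g = (χ : G → ℂ) 1} * Cfsg.charDegree (χ : G → ℂ)))).Prime := by
  classical
  obtain ⟨lam, hlam⟩ := exists_linear_ne_one h
  -- the range is cyclic of order `n > 1`
  have hRfin : Finite lam.range := Finite.of_surjective lam.rangeRestrict lam.rangeRestrict_surjective
  have hcyc : IsCyclic lam.range := inferInstance
  obtain ⟨r, hr⟩ := hcyc.exists_generator
  set n := Nat.card lam.range with hn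
  have hord : orderOf r = n := by
    rw [hn, orderOf_eq_card_of_forall_mem_zpowers hr]
  have hn1 : n ≠ 1 := by
    intro h1
    have : Subsingleton lam.range := (Nat.card_eq_one_iff_unique.mp h1).1
    apply hlam
    ext g
    have h2 : (⟨lam g, g, rfl⟩ : lam.range) = 1 := Subsingleton.elim _ _
    have h3 := congrArg Subtype.val h2
    simp only [OneMemClass.coe_one] at h3
    rw [h3]
    rfl
  obtain ⟨p, hp, hpn⟩ := Nat.exists_prime_and_dvd hn1
  obtain ⟨m, hm⟩ := hpn
  have hnpos : 0 < n := Nat.card_pos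
  have hm0 : 0 < m := by
    rcases Nat.eq_zero_or_pos m with h0 | h0
    · rw [h0, mul_zero] at hm; omega
    · exact h0
  let mu : G →* ℂˣ := lam ^ m
  have hmuapply : ∀ g, mu g = (lam g) ^ m := fun g => rfl
  have hmup : ∀ g, (mu g) ^ p = 1 := by
    intro g
    rw [hmuapply, ← pow_mul, mul_comm, ← hm]
    have h1 := pow_card_eq_one' (x := (⟨lam g, g, rfl⟩ : lam.range))
    have h2 := congrArg Subtype.val h1
    rw [SubmonoidClass.coe_pow, OneMemClass.coe_one] at h2
    exact h2
  obtain ⟨g0, hg0⟩ : ∃ g0, (⟨lam g0, g0, rfl⟩ : lam.range) = r := by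
    obtain ⟨g0, hg0⟩ := r.2
    exact ⟨g0, Subtype.ext hg0⟩
  have hmune : mu g0 ≠ 1 := by
    intro h1
    rw [hmuapply] at h1
    have h2 : r ^ m = 1 := by
      apply Subtype.ext
      rw [← hg0]
      simpa using h1
    have h3 := orderOf_dvd_of_pow_eq_one h2
    rw [hord, hm] at h3
    have h4 := Nat.le_of_dvd hm0 h3
    have := hp.two_le
    nlinarith
  -- the range of `mu`
  have hRfin2 : Finite mu.range := Finite.of_surjective mu.rangeRestrict mu.rangeRestrict_surjective
  have hcyc2 : IsCyclic mu.range := inferInstance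
  obtain ⟨s, hs⟩ := hcyc2.exists_generator
  have hsord : orderOf s = Nat.card mu.range := orderOf_eq_card_of_forall_mem_zpowers hs
  have hsp : s ^ p = 1 := by
    obtain ⟨g, hg⟩ := s.2
    have hs2 : s = ⟨mu g, g, rfl⟩ := Subtype.ext hg.symm
    rw [hs2]
    apply Subtype.ext
    simpa using hmup g
  have hs1 : s ≠ 1 := by
    rintro rfl
    apply hmune
    have h1 := hs ⟨mu g0, g0, rfl⟩
    simp only [Subgroup.zpowers_one_eq_bot, Subgroup.mem_bot] at h1
    exact congrArg Subtype.val h1
  have hsord2 : orderOf s = p := by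
    have := Fact.mk hp
    exact orderOf_eq_prime hsp hs1
  have hidx : mu.ker.index = p := by
    rw [Subgroup.index_ker, ← hsord, hsord2]
  refine ⟨⟨fun g => ((mu g : ℂˣ) : ℂ), isIrrCharacter_of_hom mu⟩, ?_⟩
  have hdeg : Cfsg.charDegree (fun g => ((mu g : ℂˣ) : ℂ)) = 1 := by
    apply charDegree_eq_of_eq_natCast
    simp
  have hker : Nat.card {g : G // ((mu g : ℂˣ) : ℂ) = ((mu 1 : ℂˣ) : ℂ)} = Nat.card mu.ker := by
    apply Nat.card_congr
    refine Equiv.subtypeEquivRight ?_
    intro g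
    rw [MonoidHom.mem_ker, map_one, Units.val_one, Units.val_eq_one]
  simp only [hdeg, hker, mul_one]
  have h5 := mu.ker.card_mul_index
  rw [hidx] at h5
  rw [← h5, Nat.mul_div_cancel_left _ Nat.card_pos]
  exact hp

end

/-- The codegree of an irreducible complex character χ of a finite group G is [G : ker χ] / χ(1), where ker χ is the set of elements at which χ takes the value χ(1). A non-trivial finite group is perfect if and only if no irreducible complex character of it has prime codegree. -/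
theorem result {G : Type*} [Group G] [Finite G] [Nontrivial G] : commutator G = ⊤ ↔ ∀ χ : Cfsg.IrrCharacter G, ¬ ((Nat.card G / (Nat.card {g : G // (χ : G → ℂ) g = (χ : G → ℂ) 1} * Cfsg.charDegree (χ : G → ℂ)))).Prime := by
  constructor
  · intro hperf χ hpr
    have hχc := isCharacter_of_isIrrCharacter χ.2
    obtain ⟨φ, hφ, hχφ⟩ := exists_irr_quotient χ.2
    have hdeg : Cfsg.charDegree (χ : G → ℂ) = Cfsg.charDegree φ := charDegree_eq_of_one_eq (congrFun hχφ 1)
    set pp := Nat.card G / (Nat.card {g : G // (χ : G → ℂ) g = (χ : G → ℂ) 1} * Cfsg.charDegree (χ : G → ℂ)) with hpp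
    have hcard := card_eq_mul_cod χ.2
    rw [card_subtype_eq hχc] at hcard
    have hcardQ : Nat.card (G ⧸ charKer hχc) = pp * Cfsg.charDegree φ := by
      have h3 := (charKer hχc).card_eq_card_quotient_mul_card_subgroup
      have hK0 : 0 < Nat.card (charKer hχc) := Nat.card_pos
      apply Nat.eq_of_mul_eq_mul_right hK0
      rw [← h3, ← hdeg]
      calc Nat.card G = Nat.card (charKer hχc) * Cfsg.charDegree (χ : G → ℂ) * pp := hcard
        _ = _ := by ring
    have hperfQ : commutator (G ⧸ charKer hχc) = ⊤ := by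
      have h1 := Subgroup.map_commutator (⊤ : Subgroup G) ⊤ (QuotientGroup.mk' (charKer hχc))
      have h2 : Subgroup.map (QuotientGroup.mk' (charKer hχc)) (⊤ : Subgroup G) = ⊤ :=
        (Subgroup.map_top_of_surjective _ (QuotientGroup.mk'_surjective _))
      rw [← commutator_def, hperf, h2] at h1
      rw [commutator_def, ← h1]
    have hnotp : ∀ (Q : Type _) [Group Q], Nat.card Q = pp → commutator Q ≠ ⊤ := by
      intro Q _ hQ htop
      have := Fact.mk hpr
      have hcyc : IsCyclic Q := isCyclic_of_prime_card hQ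
      have hcomm : ∀ a b : Q, a * b = b * a := by
        obtain ⟨g, hg⟩ := hcyc.exists_generator
        intro a b
        obtain ⟨i, hi⟩ := Subgroup.mem_zpowers_iff.mp (hg a)
        obtain ⟨j, hj⟩ := Subgroup.mem_zpowers_iff.mp (hg b)
        rw [← hi, ← hj, ← zpow_add, ← zpow_add, add_comm]
      have h1 : commutator Q ≤ ⊥ := by
        rw [commutator_def, Subgroup.commutator_le]
        intro a _ b _
        rw [Subgroup.mem_bot, commutatorElement_eq_one_iff_mul_comm]
        exact hcomm a b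
      rw [htop] at h1
      have h2 : (⊤ : Subgroup Q) = ⊥ := le_antisymm h1 bot_le
      have h3 := Subgroup.card_top (G := Q)
      rw [h2, Subgroup.card_bot, hQ] at h3
      exact hpr.one_lt.ne h3
    by_cases hd : Cfsg.charDegree φ = 1
    · exact hnotp (G ⧸ charKer hχc) (by rw [hcardQ, hd, mul_one]) hperfQ
    · obtain ⟨P, hPn, hPc, hcent, -, -⟩ := exists_normal_selfCentralizing hφ (by
        intro q hq
        obtain ⟨g, rfl⟩ := QuotientGroup.mk_surjective q
        rw [QuotientGroup.eq_one_iff]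
        have h1 : (χ : G → ℂ) g = φ g := congrFun hχφ g
        have h2 : (χ : G → ℂ) 1 = φ 1 := congrFun hχφ 1
        show (χ : G → ℂ) g = (χ : G → ℂ) 1
        rw [h1, h2]
        exact hq) hpr hcardQ hd
      have := Fact.mk hpr
      have hcyc : IsCyclic P := isCyclic_of_prime_card hPc
      have h1 := (commutator_le_centralizer_of_cyclic P hcyc).trans hcent
      rw [hperfQ] at h1
      have h2 : P = ⊤ := top_le_iff.mp h1
      apply hnotp (G ⧸ charKer hχc) _ hperfQ
      rw [← hPc, h2, Subgroup.card_top]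
  · intro hno
    by_contra h
    obtain ⟨χ, hχ⟩ := exists_prime_cod h
    exact hno χ hχ

end Cfsg.Agent.S4797
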