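import Cfsg.Statements.S4798
import Cfsg.Agent.Lib.Blk89.Basic
import Cfsg.Agent.Lib.Char.IndRep
import Cfsg.Agent.Lib.Char.Clifford
-- import your own Cfsg.Agent.* helpers here

set_option autoImplicit false
open Cfsg
open scoped ComplexConjugate
open Cfsg.Agent.Lib.Char.Basic Cfsg.Agent.Lib.Char.Ortho Cfsg.Agent.Lib.Char.Complete Cfsg.Agent.Lib.Blk89.Basic Cfsg.Agent.Lib.Char.Degree Cfsg.Agent.Lib.Char.Linear Cfsg.Agent.Lib.Char.Induced Cfsg.Agent.Lib.Char.IndRep Cfsg.Agent.Lib.Char.Clifford

namespace Cfsg.Agent.S4798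

/-- Let p be a prime and χ a faithful irreducible complex character of the finite group G (χ(g) = χ(1) only for g = 1), so that its codegree is #G / χ(1). Then #G / χ(1) is a power of p if and only if χ is induced from a character of a Sylow p-subgroup of G. -/
theorem result {G : Type*} [Group G] [Fintype G] (p : ℕ) [Fact p.Prime] (χ : Cfsg.IrrCharacter G) (hfaith : ∀ g : G, (χ : G → ℂ) g = (χ : G → ℂ) 1 → g = 1) : (∃ k : ℕ, Nat.card G = p ^ k * Cfsg.charDegree (χ : G → ℂ)) ↔ ∃ (P : Sylow p G) (θ : ↥(P : Subgroup G) → ℂ), Cfsg.IsCharacter ↥(P : Subgroup G) θ ∧ (χ : G → ℂ) = Cfsg.indFun (P : Subgroup G) θ := by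
  classical
  constructor
  · rintro ⟨k, hk⟩
    obtain ⟨P⟩ : Nonempty (Sylow p G) := inferInstance
    refine ⟨P, ?_⟩
    have hχc := isCharacter_of_isIrrCharacter χ.2
    have hres : IsCharacter ↥(P : Subgroup G) (fun h => (χ : G → ℂ) h) :=
      isCharacter_restrict (P : Subgroup G) hχc
    have hPcard := P.card_eq_multiplicity
    obtain ⟨a, ha⟩ : ∃ a, a = (Nat.card G).factorization p := ⟨_, rfl⟩
    rw [← ha] at hPcard
    have hidx := P.not_dvd_index
    set m := (P : Subgroup G).index with hm
    have hGm : Nat.card G = p ^ a * m := by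
      rw [← hPcard, hm, Subgroup.card_mul_index]
    have hp := (Fact.out : p.Prime)
    have hka : k ≤ a := by
      have h1 : p ^ k ∣ p ^ a * m := by rw [← hGm, hk]; exact dvd_mul_right _ _
      have h2 : p ^ k ∣ p ^ a :=
        (Nat.Coprime.pow_left k ((Nat.Prime.coprime_iff_not_dvd hp).mpr hidx)).dvd_of_dvd_mul_right h1
      exact (Nat.pow_dvd_pow_iff_le_right hp.one_lt).mp h2
    obtain ⟨j, rfl⟩ := Nat.exists_eq_add_of_le hka
    have hd : charDegree (χ : G → ℂ) = p ^ j * m := by
      have hpk : 0 < p ^ k := pow_pos hp.pos _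
      apply Nat.eq_of_mul_eq_mul_left hpk
      rw [← hk, hGm, pow_add]
      ring
    -- a small constituent
    have hex : ∃ μ : IrrCharacter ↥(P : Subgroup G), classInner (fun h : ↥(P : Subgroup G) => (χ : G → ℂ) h) (μ : ↥(P : Subgroup G) → ℂ) ≠ 0 ∧
        ¬ p ^ (j + 1) ∣ charDegree (μ : ↥(P : Subgroup G) → ℂ) := by
      by_contra hno
      push Not at hno
      have h1 := dvd_deg_of_forall_constituent hres (p ^ (j + 1)) hno
      have h2 : charDegree (fun h : ↥(P : Subgroup G) => (χ : G → ℂ) h) = charDegree (χ : G → ℂ) := by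
        simp [charDegree]
      rw [h2, hd, pow_succ] at h1
      have hpj : 0 < p ^ j := pow_pos hp.pos _
      exact hidx (Nat.dvd_of_mul_dvd_mul_left hpj h1)
    obtain ⟨μ, hμ1, hμ2⟩ := hex
    refine ⟨μ, isCharacter_of_isIrrCharacter μ.2, ?_⟩
    have hle : charDegree (μ : ↥(P : Subgroup G) → ℂ) ≤ p ^ j := by
      have h1 : charDegree (μ : ↥(P : Subgroup G) → ℂ) ∣ p ^ (k + j) := by
        rw [← hPcard]
        exact charDegree_dvd_card μ.2
      obtain ⟨i, -, hi⟩ := (Nat.dvd_prime_pow hp).mp h1
      rw [hi] at hμ2 ⊢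
      have h2 : ¬ (j + 1 ≤ i) := fun h => hμ2 (pow_dvd_pow _ h)
      exact Nat.pow_le_pow_right hp.pos (by omega)
    have hin : classInner (indFun (P : Subgroup G) (μ : ↥(P : Subgroup G) → ℂ)) (χ : G → ℂ) ≠ 0 := by
      rw [classInner_indFun_left _ _ _ (isClassFunction_of_isIrrCharacter χ.2)]
      exact classInner_ne_zero_comm hμ1
    have h3 := eq_of_constituent_of_deg_le (isCharacter_indFun _ (isCharacter_of_isIrrCharacter μ.2)) χ.2 hin
      (a := m * charDegree (μ : ↥(P : Subgroup G) → ℂ)) (b := charDegree (χ : G → ℂ))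
      (by
        rw [indFun_one]
        push_cast
        rw [charDegree_natCast (isCharacter_of_isIrrCharacter μ.2)])
      (charDegree_natCast hχc).symm
      (by
        rw [hd, mul_comm]
        exact Nat.mul_le_mul_right _ hle)
    exact h3.symm
  · rintro ⟨P, θ, hθ, hχ⟩
    have hχ1 : (χ : G → ℂ) 1 = ((P : Subgroup G).index : ℂ) * θ 1 := by
      rw [hχ, indFun_one]
    have hp := (Fact.out : p.Prime)
    have hθ0 : θ ≠ 0 := by
      rintro rfl
      apply irr_one_ne_zero χ.2
      rw [hχ1]
      simp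
    obtain ⟨μ, hμ, hin⟩ := exists_irr_constituent (isClassFunction_of_isCharacter hθ) hθ0
    have hsub := isCharacter_sub_of_classInner_ne_zero hθ hμ hin
    have hsplit : (χ : G → ℂ) = indFun (P : Subgroup G) μ + indFun (P : Subgroup G) (θ - μ) := by
      rw [← indFun_add, hχ]
      congr 1
      abel
    have hchar := isCharacter_indFun (P : Subgroup G) (isCharacter_of_isIrrCharacter hμ)
    have hchar2 := isCharacter_indFun (P : Subgroup G) hsub
    have hne : indFun (P : Subgroup G) μ ≠ 0 := by
      intro h0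
      have h1 := congrFun h0 1
      rw [indFun_one] at h1
      simp only [Pi.zero_apply, mul_eq_zero] at h1
      rcases h1 with h1 | h1
      · have : (P : Subgroup G).index = 0 := by exact_mod_cast h1
        exact Subgroup.index_ne_zero_of_finite this
      · exact irr_one_ne_zero hμ h1
    obtain ⟨τ, hτ, hτin⟩ := exists_irr_constituent (isClassFunction_of_isCharacter hchar) hne
    have hτ2 : classInner (χ : G → ℂ) τ ≠ 0 := by
      intro h0
      rw [hsplit] at h0
      exact hτin (classInner_eq_zero_of_add hchar hchar2 (isCharacter_of_isIrrCharacter hτ) h0)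
    have hτ3 : (χ : G → ℂ) = τ := by
      by_contra hne
      exact hτ2 (classInner_eq_zero_of_isIrr_of_ne χ.2 hτ hne)
    rw [← hτ3] at hτin
    have h0 := hθ
    set m := (P : Subgroup G).index with hm
    set n1 := charDegree μ with hn1
    have hn1c : μ 1 = n1 := (charDegree_natCast (isCharacter_of_isIrrCharacter hμ)).symm
    have hn2c := (charDegree_natCast hsub).symm
    set n2 := charDegree (θ - μ) with hn2
    have hle := deg_le_of_constituent hchar χ.2 hτin (a := m * n1) (b := charDegree (χ : G → ℂ))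
      (by rw [indFun_one, hn1c]; push_cast; rfl)
      (charDegree_natCast (isCharacter_of_isIrrCharacter χ.2)).symm
    have hdeg : charDegree (χ : G → ℂ) = m * (n1 + n2) := by
      have h1 : (charDegree (χ : G → ℂ) : ℂ) = ((m * (n1 + n2) : ℕ) : ℂ) := by
        rw [charDegree_natCast (isCharacter_of_isIrrCharacter χ.2), hχ1]
        push_cast
        rw [← hn1c, ← hn2c]
        simp
      exact_mod_cast h1
    have hm0 : 0 < m := Nat.pos_of_ne_zero Subgroup.index_ne_zero_of_finite
    have hn20 : n2 = 0 := by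
      rw [hdeg, mul_add] at hle
      have : m * n2 = 0 := by omega
      exact (Nat.mul_eq_zero.mp this).resolve_left hm0.ne'
    rw [hn20, add_zero] at hdeg
    have hPcard := P.card_eq_multiplicity
    have hdvd : n1 ∣ Nat.card ↥(P : Subgroup G) := charDegree_dvd_card hμ
    rw [hPcard] at hdvd
    obtain ⟨i, hi, hi2⟩ := (Nat.dvd_prime_pow hp).mp hdvd
    refine ⟨(Nat.card G).factorization p - i, ?_⟩
    rw [hdeg, hi2]
    calc Nat.card G = Nat.card ↥(P : Subgroup G) * m := (Subgroup.card_mul_index _).symm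
      _ = p ^ ((Nat.card G).factorization p - i + i) * m := by
        rw [hPcard, Nat.sub_add_cancel hi]
      _ = _ := by rw [pow_add]; ring

end Cfsg.Agent.S4798
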