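import Cfsg.Statements.S4801
import Cfsg.Agent.Lib.Blk89.Codegree
-- import your own Cfsg.Agent.* helpers here

set_option autoImplicit false
open Cfsg
open scoped ComplexConjugate
open Cfsg.Agent.Lib.Char.Basic Cfsg.Agent.Lib.Char.Ortho Cfsg.Agent.Lib.Char.Complete Cfsg.Agent.Lib.Blk89.Basic Cfsg.Agent.Lib.Char.Degree Cfsg.Agent.Lib.Char.Linear Cfsg.Agent.Lib.Blk89.Codegree

namespace Cfsg.Agent.S4801

/-- The codegree of an irreducible complex character χ of a finite group G is [G : ker χ] / χ(1), where ker χ is the set of elements at which χ takes the value χ(1). Let S be a finite simple group and G a finite group such that every codegree of an irreducible character of S is a codegree of an irreducible character of G. Then the order of S divides the order of G. -/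
theorem result {S : Type*} [Group S] [Finite S] (hS : IsSimpleGroup S) {G : Type*} [Group G] [Finite G] (hsub : ∀ χ : Cfsg.IrrCharacter S, ∃ ψ : Cfsg.IrrCharacter G, (Nat.card S / (Nat.card {g : S // (χ : S → ℂ) g = (χ : S → ℂ) 1} * Cfsg.charDegree (χ : S → ℂ))) = (Nat.card G / (Nat.card {g : G // (ψ : G → ℂ) g = (ψ : G → ℂ) 1} * Cfsg.charDegree (ψ : G → ℂ)))) : Nat.card S ∣ Nat.card G := by
  rw [← Nat.factorization_prime_le_iff_dvd Nat.card_pos.ne' Nat.card_pos.ne']
  intro p hp
  by_cases hdvd : p ∣ Nat.card S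
  · obtain ⟨χ, hχ1, hχ2⟩ := exists_irr_ne_one_not_dvd hp hdvd
    obtain ⟨ψ, hψ⟩ := hsub χ
    have hne : (χ : S → ℂ) ≠ fun _ => 1 := fun h => hχ1 (Subtype.ext h)
    have hk := ker_trivial_of_simple hS χ.2 hne
    have h1 := card_eq_mul_cod χ.2
    rw [hk, one_mul] at h1
    have h2 : cod (χ : S → ℂ) ∣ Nat.card G := by
      have h3 := cod_dvd_card ψ.2
      rw [cod, ← hψ] at h3
      exact h3
    have hpow : p ^ (Nat.card S).factorization p ∣ Nat.card G := by
      refine Dvd.dvd.trans ?_ h2
      have hcop : Nat.Coprime (p ^ (Nat.card S).factorization p) (charDegree (χ : S → ℂ)) :=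
        Nat.Coprime.pow_left _ ((Nat.Prime.coprime_iff_not_dvd hp).mpr hχ2)
      apply hcop.dvd_of_dvd_mul_left
      rw [← h1]
      exact Nat.ordProj_dvd _ _
    exact (hp.pow_dvd_iff_le_factorization Nat.card_pos.ne').mp hpow
  · rw [Nat.factorization_eq_zero_of_not_dvd hdvd]
    exact Nat.zero_le _

end Cfsg.Agent.S4801
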