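import Cfsg.Statements.S4802
import Cfsg.Agent.Lib.Char.Complete
import Cfsg.Agent.Lib.Char.Zeros
import Cfsg.Agent.Lib.Char.Degree
-- import your own Cfsg.Agent.* helpers here

set_option autoImplicit false
open Cfsg
open scoped ComplexConjugate

namespace Cfsg.Agent.S4802

/-- Let N < M be normal subgroups of the finite group G and g ∈ M ∖ N. Then the conjugacy class of g is exactly M ∖ N if and only if every irreducible complex character of G whose kernel contains N takes the same value at all elements of M ∖ N, and every irreducible complex character of G whose kernel does not contain N vanishes at g. -/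
theorem result {G : Type*} [Group G] [Finite G] (N M : Subgroup G) [N.Normal] [M.Normal] (hNM : N < M) (g : G) (hgM : g ∈ M) (hgN : g ∉ N) : {h : G | IsConj g h} = (M : Set G) \ (N : Set G) ↔ ((∀ χ : Cfsg.IrrCharacter G, (∀ x ∈ N, (χ : G → ℂ) x = (χ : G → ℂ) 1) → ∀ x ∈ M, x ∉ N → ∀ y ∈ M, y ∉ N → (χ : G → ℂ) x = (χ : G → ℂ) y) ∧ (∀ χ : Cfsg.IrrCharacter G, (∃ x ∈ N, (χ : G → ℂ) x ≠ (χ : G → ℂ) 1) → (χ : G → ℂ) g = 0)) := by
  classical
  have hcl : ∀ {χ : G → ℂ}, IsIrrCharacter G χ → ∀ {a b : G}, IsConj a b → χ a = χ b := by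
    intro χ hχ a b hab
    exact (Cfsg.Agent.Lib.Char.Complete.isClassFunction_iff_isConj.mp
      (Cfsg.Agent.Lib.Char.Basic.isClassFunction_of_isIrrCharacter hχ)) a b hab
  constructor
  · intro hcls
    have hconj : ∀ x ∈ M, x ∉ N → IsConj g x := by
      intro x hxM hxN
      have : x ∈ {h : G | IsConj g h} := by
        rw [hcls]
        exact ⟨hxM, hxN⟩
      exact this
    refine ⟨?_, ?_⟩
    · rintro ⟨χ, hχ⟩ - x hxM hxN y hyM hyN
      show χ x = χ y
      exact (hcl hχ (hconj x hxM hxN)).symm.trans (hcl hχ (hconj y hyM hyN))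
    · rintro ⟨χ, hχ⟩ ⟨x, hxN, hx⟩
      obtain ⟨n, ρ, hρ, rfl⟩ := id hχ
      have hker : ∃ h ∈ N, ρ h ≠ LinearMap.id := by
        refine ⟨x, hxN, fun h => hx ?_⟩
        exact (Cfsg.Agent.Lib.Char.Degree.character_eq_one_iff ρ x).mpr h
      have : Finite G := inferInstance
      letI : Fintype N := Fintype.ofFinite _
      have h0 := Cfsg.Agent.Lib.Char.Zeros.sum_subgroup_eq_zero ρ N hker
      have h1 : ∑ h : N, ρ.character ((h : G) * g) = 0 := by
        have h2 : ∑ h : N, ρ ((h : G) * g) = (∑ h : N, ρ (h : G)) * ρ g := by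
          rw [Finset.sum_mul]
          exact Finset.sum_congr rfl fun h _ => map_mul _ _ _
        have h3 := congrArg (LinearMap.trace ℂ _) h2
        rw [h0, zero_mul, map_zero, map_sum] at h3
        exact h3
      have h2 : ∀ h : N, ρ.character ((h : G) * g) = ρ.character g := by
        intro h
        have hmem : (h : G) * g ∈ M := M.mul_mem (hNM.le h.2) hgM
        have hnot : (h : G) * g ∉ N := fun hh => hgN ((N.mul_mem_cancel_left h.2).mp hh)
        exact (hcl hχ (hconj _ hmem hnot)).symm
      simp_rw [h2] at h1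
      rw [Finset.sum_const, nsmul_eq_mul] at h1
      have hcard : ((Fintype.card N : ℕ) : ℂ) ≠ 0 := by
        exact Nat.cast_ne_zero.mpr Fintype.card_ne_zero
      rw [Finset.card_univ] at h1
      exact (mul_eq_zero.mp h1).resolve_left hcard
  · rintro ⟨h1, h2⟩
    ext x
    simp only [Set.mem_ofPred_eq, Set.mem_sdiff, SetLike.mem_coe]
    constructor
    · intro hgx
      obtain ⟨c, hc⟩ := isConj_iff.mp hgx
      rw [← hc]
      refine ⟨Subgroup.Normal.conj_mem inferInstance g hgM c, ?_⟩
      intro hh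
      apply hgN
      have := Subgroup.Normal.conj_mem (inferInstance : N.Normal) _ hh c⁻¹
      simpa [mul_assoc] using this
    · rintro ⟨hxM, hxN⟩
      have : Finite (IrrCharacter G) := Cfsg.Agent.Lib.Char.Ortho.finite_irrCharacter
      letI : Fintype G := Fintype.ofFinite _
      letI : Fintype (IrrCharacter G) := Fintype.ofFinite _
      have h3 := Cfsg.Agent.Lib.Char.Complete.sum_irr_mul_conj x g
      have h4 := Cfsg.Agent.Lib.Char.Complete.sum_irr_mul_conj g g
      rw [if_pos (IsConj.refl g)] at h4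
      have h5 : ∑ χ : IrrCharacter G, (χ : G → ℂ) x * conj ((χ : G → ℂ) g)
          = ∑ χ : IrrCharacter G, (χ : G → ℂ) g * conj ((χ : G → ℂ) g) := by
        refine Finset.sum_congr rfl fun χ _ => ?_
        by_cases hχ : ∀ y ∈ N, (χ : G → ℂ) y = (χ : G → ℂ) 1
        · rw [h1 χ hχ x hxM hxN g hgM hgN]
        · push Not at hχ
          rw [h2 χ hχ]
          simp
      rw [h5, h4] at h3
      by_contra hnc
      have hnc' : ¬ IsConj x g := fun h => hnc h.symm
      rw [if_neg hnc'] at h3
      have : Nat.card (Subgroup.centralizer ({g} : Set G)) ≠ 0 := Nat.card_pos.ne'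
      exact this (by exact_mod_cast h3)

end Cfsg.Agent.S4802
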