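import Cfsg.Statements.S4807
import Cfsg.Agent.Lib.RelMcKay.KeyTop

set_option autoImplicit false
open Cfsg

namespace Cfsg.Agent.S4807

open Cfsg.Agent.Lib.Char.Basic Cfsg.Agent.Lib.Char.Ortho Cfsg.Agent.Lib.Char.Conj
open Cfsg.Agent.Lib.RelMcKay.Basic Cfsg.Agent.Lib.RelMcKay.Induct
open Cfsg.Agent.Lib.RelMcKay.Induct2 Cfsg.Agent.Lib.RelMcKay.KeyTop

/-- The inner product as a sum. -/
theorem over_iff_finsum.{u} {K Y : Type u} [Group K] [Group Y] [Finite K] (j : K →* Y) (χ : Y → ℂ)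
    (θ : K → ℂ) :
    Over j χ θ ↔ (∑ᶠ l : K, χ (j l) * (starRingEnd ℂ) (θ l)) ≠ 0 := by
  classical
  letI : Fintype K := Fintype.ofFinite K
  unfold Over
  rw [ci_eq, finsum_eq_sum_of_fintype]
  unfold classInner
  have hc : ((Nat.card K : ℂ))⁻¹ ≠ 0 := inv_ne_zero (Nat.cast_ne_zero.mpr Nat.card_pos.ne')
  constructor
  · intro h
    exact right_ne_zero_of_mul h
  · intro h
    exact mul_ne_zero hc h

/-- Let p be a prime and G a finite p-solvable group, L a normal subgroup of G, S a Sylow p-subgroup of G and P the subgroup generated by L and S (so P/L is a Sylow p-subgroup of G/L), and let ν be an irreducible complex character of L that is invariant under conjugation by every element of P. Let N be the normalizer of P in G (it contains L). Then the number of irreducible characters of G of degree prime to p lying over ν (restriction to L not orthogonal to ν) equals the number of irreducible characters of N of degree prime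 to p lying over ν. -/
theorem result {G : Type*} [Group G] [Finite G] (p : ℕ) [Fact p.Prime] (hG : Cfsg.IsPSolvable p G) (L : Subgroup G) [L.Normal] (S : Sylow p G) (P : Subgroup G) (hP : P = L ⊔ (S : Subgroup G)) (hLN : L ≤ (Subgroup.normalizer ((P : Subgroup G) : Set G))) (ν : Cfsg.IrrCharacter ↥L) (hν : ∀ x ∈ P, Cfsg.IsConjCharOf L x (ν : ↥L → ℂ) (ν : ↥L → ℂ)) : Nat.card {χ : Cfsg.IrrCharacter G // ¬ p ∣ Cfsg.charDegree (χ : G → ℂ) ∧ (∑ᶠ l : ↥L, (χ : G → ℂ) (l : G) * (starRingEnd ℂ) ((ν : ↥L → ℂ) l)) ≠ 0} = Nat.card {ψ : Cfsg.IrrCharacter ↥(Subgroup.normalizer ((P : Subgroup G) : Set G)) // ¬ p ∣ Cfsg.charDegree (ψ : ↥(Subgroup.normalizer ((P : Subgroup G) : Set G)) → ℂ) ∧ (∑ᶠ l : ↥L, (ψ : ↥(Subgroup.normalizer ((P : Subgroup G) : Set G)) → ℂ) (Subgroup.inclusion hLN l) * (starRingEnd ℂ) ((ν : ↥L → ℂ) l)) ≠ 0} := by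
  classical
  subst hP
  have hnL : (⊤ : Subgroup G) ≤ Subgroup.normalizer (L : Set G) := by
    intro x _
    rw [Subgroup.normalizer_eq_top_iff.mpr inferInstance]
    trivial
  have hk : L ≤ ⊤ ⊓ Subgroup.normalizer ((L ⊔ (S : Subgroup G) : Subgroup G) : Set G) :=
    le_inf le_top hLN
  have hmain := relMcKay_of_key hG keyStmt _ ⊤ L (S : Subgroup G) le_top hnL le_top S.isPGroup'
    (by
      rw [Subgroup.relIndex_top_right]
      exact S.not_dvd_index)
    (ν : ↥L → ℂ) ν.2 (fun s hs => hν s (Subgroup.mem_sup_right hs)) hk rfl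
  have e₂ : Cnt p (⊤ ⊓ Subgroup.normalizer ((L ⊔ (S : Subgroup G) : Subgroup G) : Set G)) L hk
      (ν : ↥L → ℂ) = Cnt p (Subgroup.normalizer ((L ⊔ (S : Subgroup G) : Subgroup G) : Set G)) L hLN
      (ν : ↥L → ℂ) := Cnt_congr (top_inf_eq _) _ _ _
  rw [e₂] at hmain
  have e₃ : Cnt p (Subgroup.normalizer ((L ⊔ (S : Subgroup G) : Subgroup G) : Set G)) L hLN
      (ν : ↥L → ℂ) = Nat.card {ψ : Cfsg.IrrCharacter ↥(Subgroup.normalizer ((L ⊔ (S : Subgroup G) : Subgroup G) : Set G)) // ¬ p ∣ Cfsg.charDegree (ψ : ↥(Subgroup.normalizer ((L ⊔ (S : Subgroup G) : Subgroup G) : Set G)) → ℂ) ∧ (∑ᶠ l : ↥L, (ψ : ↥(Subgroup.normalizer ((L ⊔ (S : Subgroup G) : Subgroup G) : Set G)) → ℂ) (Subgroup.inclusion hLN l) * (starRingEnd ℂ) ((ν : ↥L → ℂ) l)) ≠ 0} := by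
    unfold Cnt
    apply Nat.card_congr
    apply Equiv.subtypeEquivRight
    intro ψ
    rw [over_iff_finsum]
  rw [← e₃, ← hmain]
  -- the whole group
  let e : (⊤ : Subgroup G) ≃* G := Subgroup.topEquiv
  have hdeg : ∀ χ : G → ℂ, charDegree (χ ∘ e) = charDegree χ := by
    intro χ
    unfold charDegree
    simp
  have hover : ∀ χ : G → ℂ, Over (Subgroup.inclusion (le_top : L ≤ ⊤)) (χ ∘ e) (ν : ↥L → ℂ) ↔
      (∑ᶠ l : ↥L, χ (l : G) * (starRingEnd ℂ) ((ν : ↥L → ℂ) l)) ≠ 0 := by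
    intro χ
    rw [over_iff_finsum]
    rfl
  unfold Cnt
  apply Nat.card_congr
  refine ⟨fun c => ⟨⟨c.1.1 ∘ e, isIrrCharacter_comp_mulEquiv e c.1.2⟩, ?_, ?_⟩,
    fun c => ⟨⟨c.1.1 ∘ e.symm, isIrrCharacter_comp_mulEquiv e.symm c.1.2⟩, ?_, ?_⟩, ?_, ?_⟩
  · show ¬ p ∣ charDegree (c.1.1 ∘ e)
    rw [hdeg]
    exact c.2.1
  · exact (hover _).mpr c.2.2
  · show ¬ p ∣ charDegree (c.1.1 ∘ e.symm)
    rw [← hdeg]
    have h1 : c.1.1 ∘ e.symm ∘ e = c.1.1 := by
      funext x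
      simp
    show ¬ p ∣ charDegree (c.1.1 ∘ e.symm ∘ e)
    rw [h1]
    exact c.2.1
  · rw [← hover]
    have h1 : c.1.1 ∘ e.symm ∘ e = c.1.1 := by
      funext x
      simp
    show Over _ (c.1.1 ∘ e.symm ∘ e) _
    rw [h1]
    exact c.2.2
  · intro c
    apply Subtype.ext
    apply Subtype.ext
    funext x
    simp
  · intro c
    apply Subtype.ext
    apply Subtype.ext
    funext x
    simp

end Cfsg.Agent.S4807
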