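import Cfsg.Statements.S4808
import Cfsg.Agent.Lib.Blk89.Codegree
-- import your own Cfsg.Agent.* helpers here

set_option autoImplicit false
open Cfsg
open scoped ComplexConjugate
open Cfsg.Agent.Lib.Char.Basic Cfsg.Agent.Lib.Char.Ortho Cfsg.Agent.Lib.Char.Complete Cfsg.Agent.Lib.Blk89.Basic Cfsg.Agent.Lib.Char.Degree Cfsg.Agent.Lib.Char.Linear Cfsg.Agent.Lib.Blk89.Codegree

namespace Cfsg.Agent.S4808

/-- The codegree of an irreducible complex character χ of a finite group G is [G : ker χ] / χ(1), where ker χ is the set of elements at which χ takes the value χ(1). A prime divides the order of G if and only if it divides the codegree of some irreducible complex character of G. -/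
theorem result {G : Type*} [Group G] [Finite G] (p : ℕ) (hp : p.Prime) : p ∣ Nat.card G ↔ ∃ χ : Cfsg.IrrCharacter G, p ∣ (Nat.card G / (Nat.card {g : G // (χ : G → ℂ) g = (χ : G → ℂ) 1} * Cfsg.charDegree (χ : G → ℂ))) := by
  classical
  constructor
  · intro hdvd
    by_contra hno
    push Not at hno
    have := Fact.mk hp
    obtain ⟨x, hx⟩ := exists_prime_orderOf_dvd_card' p hdvd
    have hx1 : x ≠ 1 := by
      rintro rfl
      rw [orderOf_one] at hx
      exact hp.one_lt.ne hx
    have := Fintype.ofFinite G
    have : Finite (IrrCharacter G) := finite_irrCharacter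
    have := Fintype.ofFinite (IrrCharacter G)
    have h1 := sum_irr_mul_conj (G := G) x 1
    rw [if_neg (fun h => hx1 (isConj_one_right.mp h.symm))] at h1
    have h2 : ∀ χ : IrrCharacter G, 0 ≤ ((χ : G → ℂ) x * conj ((χ : G → ℂ) 1)).re := by
      intro χ
      by_cases hc : (χ : G → ℂ) x = (χ : G → ℂ) 1
      · rw [hc, Complex.mul_conj]
        simp [Complex.normSq_nonneg]
      · rw [eq_zero_of_not_dvd_cod_of_order χ.2 hp (hno χ) x hx hc]
        simp
    have h3 := congrArg Complex.re h1
    rw [Complex.re_sum, Complex.zero_re] at h3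
    have h4 := (Finset.sum_eq_zero_iff_of_nonneg (fun χ _ => h2 χ)).mp h3 (oneIrr G) (Finset.mem_univ _)
    simp at h4
  · rintro ⟨χ, hχ⟩
    exact hχ.trans (cod_dvd_card χ.2)

end Cfsg.Agent.S4808
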