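import Cfsg.Statements.S4812
import Cfsg.Agent.Lib.GL2.PSLDeg

set_option autoImplicit false
open Cfsg

namespace Cfsg.Agent.S4812

open Cfsg.Agent.Lib.GL2.PSLDeg

lemma prime_dvd_q_iff {q r : ℕ} (hq : 1 ≤ q) (hr : r.Prime) :
    r ∣ q * (q ^ 2 - 1) ↔ r ∣ q ∨ r ∣ q - 1 ∨ r ∣ q + 1 := by
  have e : q ^ 2 - 1 = (q - 1) * (q + 1) := by
    obtain ⟨n, rfl⟩ : ∃ n, q = n + 1 := ⟨q - 1, by omega⟩
    simp only [Nat.add_sub_cancel]
    have : (n + 1) ^ 2 = n * (n + 1 + 1) + 1 := by ring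
    omega
  rw [e, hr.dvd_mul, hr.dvd_mul]

/-- Let F be a finite field of characteristic 2 with q ≥ 4 elements and let S be isomorphic to PSL(2,F) or to SL(2,F). Then the vertices of the character degree graph of S are the primes dividing q(q²−1), and two distinct primes are adjacent exactly when both divide q + 1 or both divide q − 1; so the graph has the three connected components {2}, the primes dividing q + 1 and the primes dividing q − 1, each complete. -/
theorem result (F : Type*) [Field F] [Fintype F] [CharP F 2] (q : ℕ) (hq : Fintype.card F = q) (h4 : 4 ≤ q) {S : Type*} [Group S] [Finite S] (hS : Nonempty (S ≃* Matrix.ProjectiveSpecialLinearGroup (Fin 2) F) ∨ Nonempty (S ≃* Matrix.SpecialLinearGroup (Fin 2) F)) : Cfsg.degreePrimes S = {r : ℕ | r.Prime ∧ r ∣ q * (q ^ 2 - 1)} ∧ ∀ r s : ℕ, (Cfsg.degreeGraph S).Adj r s ↔ (r ≠ s ∧ r.Prime ∧ s.Prime ∧ ((r ∣ q + 1 ∧ s ∣ q + 1) ∨ (r ∣ q - 1 ∧ s ∣ q - 1))) := by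
  have hD := charDegrees_even_of (F := F) (S := S) (hq ▸ h4) hS
  rw [hq] at hD
  have hq2 : ∃ n, q = 2 ^ n := by
    obtain ⟨n, hp, hn⟩ := FiniteField.card F 2
    exact ⟨n, by rw [← hq, hn]⟩
  obtain ⟨n, hn⟩ := hq2
  constructor
  · rw [degreePrimes_eq_of S hD]
    ext r
    simp only [Set.mem_setOf_eq, Set.mem_insert_iff, Set.mem_singleton_iff]
    constructor
    · rintro ⟨hr, d, hd, hrd⟩
      refine ⟨hr, ?_⟩
      rw [prime_dvd_q_iff (by omega) hr]
      rcases hd with rfl | rfl | rfl | rfl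
      · exact absurd (Nat.dvd_one.mp hrd) hr.one_lt.ne'
      · exact Or.inr (Or.inl hrd)
      · exact Or.inl hrd
      · exact Or.inr (Or.inr hrd)
    · rintro ⟨hr, h⟩
      rw [prime_dvd_q_iff (by omega) hr] at h
      refine ⟨hr, ?_⟩
      rcases h with h | h | h
      · exact ⟨q, by simp, h⟩
      · exact ⟨q - 1, by simp, h⟩
      · exact ⟨q + 1, by simp, h⟩
  · intro r s
    rw [degreeGraph_adj_of S hD]
    constructor
    · rintro ⟨hne, hr, hs, d, hd, hrd⟩
      refine ⟨hne, hr, hs, ?_⟩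
      have h1 : r ∣ d := dvd_trans (dvd_mul_right r s) hrd
      have h2 : s ∣ d := dvd_trans (dvd_mul_left s r) hrd
      simp only [Set.mem_insert_iff, Set.mem_singleton_iff] at hd
      rcases hd with rfl | rfl | rfl | rfl
      · exact absurd (Nat.dvd_one.mp h1) hr.one_lt.ne'
      · exact Or.inr ⟨h1, h2⟩
      · exfalso
        rw [hn] at h1 h2
        have e1 := (Nat.prime_dvd_prime_iff_eq hr Nat.prime_two).mp (hr.dvd_of_dvd_pow h1)
        have e2 := (Nat.prime_dvd_prime_iff_eq hs Nat.prime_two).mp (hs.dvd_of_dvd_pow h2)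
        exact hne (e1.trans e2.symm)
      · exact Or.inl ⟨h1, h2⟩
    · rintro ⟨hne, hr, hs, h⟩
      refine ⟨hne, hr, hs, ?_⟩
      have hco : Nat.Coprime r s := (Nat.coprime_primes hr hs).mpr hne
      rcases h with ⟨h1, h2⟩ | ⟨h1, h2⟩
      · exact ⟨q + 1, by simp, hco.mul_dvd_of_dvd_of_dvd h1 h2⟩
      · exact ⟨q - 1, by simp, hco.mul_dvd_of_dvd_of_dvd h1 h2⟩

end Cfsg.Agent.S4812
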