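import Cfsg.Statements.S4813
import Cfsg.Statements.S4813
import Cfsg.Agent.Lib.CharDeg.PrimeDeg
import Cfsg.Agent.Lib.CharDeep.GallagherExt
import Cfsg.Agent.Lib.Char.Ito
import Cfsg.Agent.Lib.Char.Eigen
import Cfsg.Agent.Lib.Char.DetChar
import Cfsg.Agent.Lib.CharZeros.Gallagher
import Mathlib
-- import your own Cfsg.Agent.* helpers here

set_option autoImplicit false
open Cfsg

namespace Cfsg.Agent.S4813


section helpers

open Cfsg Module
open Cfsg.Agent.Lib.Char.Basic Cfsg.Agent.Lib.Char.Ortho Cfsg.Agent.Lib.Char.Complete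
open Cfsg.Agent.Lib.Char.Degree Cfsg.Agent.Lib.Char.Clifford Cfsg.Agent.Lib.Char.Conj
open Cfsg.Agent.Lib.Char.CliffordCorr Cfsg.Agent.Lib.CharDeg.PrimeDeg
open Cfsg.Agent.Lib.CharDeep.GallagherExt
open scoped ComplexConjugate

universe u

variable {G : Type u} [Group G]

theorem deg_factor [Fintype G] {N : Subgroup G} [Fintype N] (hN : N.Normal)
    {ξ : G → ℂ} (hξ : IsIrrCharacter G ξ) {φ : N → ℂ} (hφ : IsIrrCharacter N φ)
    (hcon : classInner (fun n : N => ξ n) φ ≠ 0) :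
    ∃ m : ℕ, classInner (fun n : N => ξ n) φ = m ∧ m ≠ 0 ∧
      charDegree ξ = m * ((inertia hN φ).index * charDegree φ) := by
  obtain ⟨m, hm⟩ := exists_nat_classInner (isCharacter_restrict N (isCharacter_of_isIrrCharacter hξ))
    (isCharacter_of_isIrrCharacter hφ)
  refine ⟨m, hm, ?_, ?_⟩
  · rintro rfl
    apply hcon
    rw [hm]
    simp
  · have h := deg_eq_of_constituent hN hξ hφ hcon
    rw [hm, ← charDegree_natCast (isCharacter_of_isIrrCharacter hφ),
      ← charDegree_natCast (isCharacter_of_isIrrCharacter hξ)] at h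
    have h2 : (charDegree ξ : ℂ) = ((m * ((inertia hN φ).index * charDegree φ) : ℕ) : ℂ) := by
      rw [h]; push_cast; ring
    exact_mod_cast h2

/-- A nonabelian normal subgroup contains the commutator subgroup. -/
theorem commutator_le_of_nonabelian [Finite G] (h : Hyp G) (N : Subgroup G) (hN : N.Normal)
    (hna : ¬ ∀ a b : N, a * b = b * a) : commutator G ≤ N := by
  classical
  letI := Fintype.ofFinite G
  letI : Fintype N := Fintype.ofFinite _
  obtain ⟨φ, hφ⟩ : ∃ φ : IrrCharacter N, (φ : N → ℂ) 1 ≠ 1 := by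
    by_contra hno
    push Not at hno
    exact hna (Cfsg.Agent.Lib.Char.Linear.comm_iff_all_deg_one.mpr hno)
  obtain ⟨ξ, hξ⟩ := Cfsg.Agent.Lib.BlockT.NormalP.exists_irr_over (G := G) (N := N) φ
  obtain ⟨m, hm, hm0, hdeg⟩ := deg_factor hN ξ.2 φ.2 hξ
  have hφd : charDegree (φ : N → ℂ) ≠ 1 := by
    intro h1
    apply hφ
    rw [← charDegree_natCast (isCharacter_of_isIrrCharacter φ.2), h1]
    simp
  have hdvd : charDegree (φ : N → ℂ) ∣ charDegree (ξ : G → ℂ) := by
    rw [hdeg]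
    exact Dvd.dvd.mul_left (Dvd.dvd.mul_left dvd_rfl _) _
  have hξ1 : charDegree (ξ : G → ℂ) ≠ 1 := by
    intro h1
    rw [h1] at hdvd
    exact hφd (Nat.dvd_one.mp hdvd)
  have hp := h ξ hξ1
  have heq : charDegree (φ : N → ℂ) = charDegree (ξ : G → ℂ) := by
    rcases (Nat.dvd_prime hp).mp hdvd with h6 | h6
    · exact absurd h6 hφd
    · exact h6
  have hres : (fun n : N => (ξ : G → ℂ) n) = (φ : N → ℂ) := by
    apply eq_of_constituent_of_deg_le (isCharacter_restrict N (isCharacter_of_isIrrCharacter ξ.2)) φ.2 hξ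
      (a := charDegree (ξ : G → ℂ)) (b := charDegree (φ : N → ℂ))
    · have := charDegree_natCast (isCharacter_of_isIrrCharacter ξ.2)
      simpa using this.symm
    · exact (charDegree_natCast (isCharacter_of_isIrrCharacter φ.2)).symm
    · exact heq.ge
  have hresI : IsIrrCharacter N (fun n : N => (ξ : G → ℂ) n) := by
    rw [hres]; exact φ.2
  haveI : Fintype (G ⧸ N) := Fintype.ofFinite _
  have hcomm : ∀ a b : G ⧸ N, a * b = b * a := by
    apply Cfsg.Agent.Lib.Char.Linear.comm_iff_all_deg_one.mpr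
    intro β
    have hβ' := Cfsg.Agent.Lib.Char.Linear.isIrrCharacter_comp (QuotientGroup.mk' N)
      (QuotientGroup.mk'_surjective N) β.2
    have hmul := isIrr_mul N (isCharacter_of_isIrrCharacter ξ.2) hresI hβ'
      (leftInv_comp N (β : G ⧸ N → ℂ))
    have hdβ : ((β : G ⧸ N → ℂ) ∘ QuotientGroup.mk' N) 1 = charDegree (β : G ⧸ N → ℂ) := by
      simp only [Function.comp, map_one]
      exact (charDegree_natCast (isCharacter_of_isIrrCharacter β.2)).symm
    have hd : charDegree (((ξ : G → ℂ) * ((β : G ⧸ N → ℂ) ∘ QuotientGroup.mk' N)) : G → ℂ) =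
        charDegree (ξ : G → ℂ) * charDegree (β : G ⧸ N → ℂ) := by
      apply charDegree_eq_of_eq_natCast
      rw [Pi.mul_apply, hdβ, ← charDegree_natCast (isCharacter_of_isIrrCharacter ξ.2)]
      push_cast
      rfl
    have hp2 := h ⟨_, hmul⟩
    change charDegree (((ξ : G → ℂ) * ((β : G ⧸ N → ℂ) ∘ QuotientGroup.mk' N)) : G → ℂ) ≠ 1 →
      (charDegree (((ξ : G → ℂ) * ((β : G ⧸ N → ℂ) ∘ QuotientGroup.mk' N)) : G → ℂ)).Prime at hp2
    rw [hd] at hp2
    have hpos := charDegree_pos β.2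
    have hp3 := hp2 (by
      intro h1
      exact hξ1 (Nat.eq_one_of_mul_eq_one_right h1))
    have h4 : charDegree (β : G ⧸ N → ℂ) = 1 := by
      rcases hp3.eq_one_or_self_of_dvd _ (Dvd.intro _ rfl) with h5 | h5
      · exact absurd h5 hξ1
      · nlinarith [hp3.one_lt, charDegree_pos ξ.2]
    rw [← charDegree_natCast (isCharacter_of_isIrrCharacter β.2), h4]
    simp
  rw [commutator_def, Subgroup.commutator_le]
  intro x _ y _
  have h1 : (QuotientGroup.mk' N) (x * y * x⁻¹ * y⁻¹) = 1 := by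
    rw [map_mul, map_mul, map_mul, map_inv, map_inv, hcomm ((QuotientGroup.mk' N) x)]
    group
  exact (QuotientGroup.eq_one_iff _).mp h1

theorem norm_eq_one_of_linear {H : Type*} [Group H] [Fintype H] {φ : H → ℂ}
    (hφ : IsCharacter H φ) (h1 : φ 1 = 1) (n : H) : ‖φ n‖ = 1 := by
  have h := Cfsg.Agent.Lib.CharZeros.Gallagher.linear_mul_conj hφ h1 n
  rw [Complex.mul_conj'] at h
  have h2 : ‖φ n‖ ^ 2 = 1 := by exact_mod_cast h
  exact (pow_eq_one_iff_of_nonneg (norm_nonneg _) two_ne_zero).mp h2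

/-- The determinant argument. -/
theorem pow_deg_eq_one [Fintype G] [Fintype (commutator G)] (ξ : IrrCharacter G) {φ : commutator G → ℂ}
    (hφ : IsCharacter _ φ) (hφ1 : φ 1 = 1)
    (hres : ∀ n : commutator G, (ξ : G → ℂ) n = charDegree (ξ : G → ℂ) * φ n) (n : commutator G) :
    φ n ^ charDegree (ξ : G → ℂ) = 1 := by
  classical
  obtain ⟨k, ρ, hρ, hχ⟩ : ∃ k : ℕ, ∃ ρ : Representation ℂ G (Fin k → ℂ),
      ρ.IsIrreducible ∧ (ξ : G → ℂ) = ρ.character := by
    obtain ⟨k, ρ, hρ, hχ⟩ := ξ.2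
    exact ⟨k, ρ, hρ, hχ.symm⟩
  have hd : charDegree (ξ : G → ℂ) = finrank ℂ (Fin k → ℂ) := by
    rw [hχ]; exact charDegree_character ρ
  rw [hd] at hres ⊢
  rw [hχ] at hres
  have hnorm : ‖ρ.character (n : G)‖ = (finrank ℂ (Fin k → ℂ) : ℝ) := by
    rw [hres n, norm_mul, norm_eq_one_of_linear hφ hφ1 n, mul_one]
    simp
  obtain ⟨ω, hω⟩ := (Cfsg.Agent.Lib.Char.Eigen.norm_character_eq_iff_scalar ρ (n : G)).mp hnorm
  have hpos : (finrank ℂ (Fin k → ℂ) : ℂ) ≠ 0 := by
    have := Cfsg.Agent.Lib.Char.Complete.nontrivial_of_isIrreducible hρ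
    exact Nat.cast_ne_zero.mpr Module.finrank_pos.ne'
  have hωφ : ω = φ n := by
    have h1 := hres n
    have h2 : ρ.character (n : G) = ω * (finrank ℂ (Fin k → ℂ) : ℂ) := by
      simp only [Representation.character, hω]
      rw [map_smul, LinearMap.trace_id]
      simp
    rw [h2] at h1
    apply mul_left_cancel₀ hpos
    rw [mul_comm]
    exact h1
  have hdet : LinearMap.det (ρ (n : G)) = 1 := by
    have h := Abelianization.commutator_subset_ker (Cfsg.Agent.Lib.Char.DetChar.detRep ρ) n.2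
    have h2 : Cfsg.Agent.Lib.Char.DetChar.detRep ρ (n : G) = 1 := h
    have h3 := congrArg (fun u : ℂˣ => (u : ℂ)) h2
    simpa using h3
  rw [hω, LinearMap.det_smul, LinearMap.det_id, mul_one, hωφ] at hdet
  exact hdet

theorem deg_one_of_trivial_on_commutator [Finite G] {ξ : G → ℂ} (hξ : IsIrrCharacter G ξ)
    (h : ∀ n ∈ commutator G, ξ n = ξ 1) : ξ 1 = 1 := by
  obtain ⟨ψ, hψ, hξψ⟩ := Cfsg.Agent.Lib.Char.Linear.isIrrCharacter_descend
    (Abelianization.of (G := G)) (QuotientGroup.mk'_surjective _) hξ (by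
      intro k hk
      rw [Abelianization.ker_of] at hk
      exact h k hk)
  have h1 := Cfsg.Agent.Lib.Char.Linear.isIrr_deg_one_of_comm (fun a b => mul_comm a b) hψ
  rw [hξψ]
  simpa using h1

theorem normal_of_commutator_le {T : Subgroup G} (h : commutator G ≤ T) : T.Normal := by
  refine ⟨fun t ht g => ?_⟩
  have h1 : g * t * g⁻¹ * t⁻¹ ∈ T := h (by
    rw [commutator_def]
    exact Subgroup.commutator_mem_commutator (Subgroup.mem_top g) (Subgroup.mem_top t))
  have h2 : g * t * g⁻¹ = (g * t * g⁻¹ * t⁻¹) * t := by group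
  rw [h2]
  exact T.mul_mem h1 ht

/-- Type E: over an invariant linear character. -/
def TypeE (G : Type u) [Group G] [Fintype G] [Fintype (commutator G)] (d : ℕ) : Prop :=
  d ≠ 1 ∧ ∃ ξ : IrrCharacter G, charDegree (ξ : G → ℂ) = d ∧ ∃ φ : commutator G → ℂ,
    IsCharacter _ φ ∧ φ 1 = 1 ∧ (∀ g : G, conjOn (inferInstance : (commutator G).Normal) g φ = φ) ∧
    ∀ n : commutator G, (ξ : G → ℂ) n = d * φ n

/-- Type O: the size of an orbit of a linear character. -/
def TypeO (G : Type u) [Group G] [Fintype G] [Fintype (commutator G)] (d : ℕ) : Prop :=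
  d.Prime ∧ ∃ φ : commutator G → ℂ, IsCharacter _ φ ∧ φ 1 = 1 ∧
    (inertia (inferInstance : (commutator G).Normal) φ).index = d

theorem restrict_of_invariant [Fintype G] {N : Subgroup G} [Fintype N] (hN : N.Normal)
    {ξ : G → ℂ} (hξ : IsIrrCharacter G ξ) {φ : N → ℂ} (hφ : IsIrrCharacter N φ)
    (h1 : φ 1 = 1) (hinv : ∀ g : G, conjOn hN g φ = φ)
    (hcon : classInner (fun n : N => ξ n) φ ≠ 0) (n : N) :
    ξ n = charDegree ξ * φ n := by
  classical
  have hc := clifford_restrict hN hξ hφ hcon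
  have horb : orbitFinset hN φ = {φ} := by
    ext ψ
    rw [mem_orbitFinset, Finset.mem_singleton]
    constructor
    · rintro ⟨g, rfl⟩
      exact hinv g
    · rintro rfl
      exact ⟨1, conjOn_one hN _⟩
  rw [horb, Finset.sum_singleton] at hc
  have h2 := congrFun hc n
  have h3 := congrFun hc 1
  simp only [Pi.smul_apply, smul_eq_mul, h1, mul_one, Subgroup.coe_one] at h2 h3
  rw [h2, ← h3, charDegree_natCast (isCharacter_of_isIrrCharacter hξ)]

theorem typeE_eq [Finite G] [Fintype G] [Fintype (commutator G)] (h : Hyp G) {d₁ d₂ : ℕ}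
    (h₁ : TypeE G d₁) (h₂ : TypeE G d₂) : d₁ = d₂ := by
  classical
  obtain ⟨hd₁, ξ₁, hξ₁, φ₁, hφ₁, hφ₁1, hinv₁, hres₁⟩ := h₁
  obtain ⟨hd₂, ξ₂, hξ₂, φ₂, hφ₂, hφ₂1, hinv₂, hres₂⟩ := h₂
  by_contra hne
  have hp₁ : d₁.Prime := by
    have := h ξ₁ (by rw [hξ₁]; exact hd₁)
    rwa [hξ₁] at this
  have hp₂ : d₂.Prime := by
    have := h ξ₂ (by rw [hξ₂]; exact hd₂)
    rwa [hξ₂] at this
  have hN : (commutator G).Normal := inferInstance
  -- the product
  have hφc : IsCharacter (commutator G) (φ₁ * φ₂) := isCharacter_mul hφ₁ hφ₂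
  have hφ31 : (φ₁ * φ₂) 1 = 1 := by simp [hφ₁1, hφ₂1]
  have hφI := Cfsg.Agent.Lib.Char.Linear.isIrrCharacter_of_deg_one hφc hφ31
  have hinv₃ : ∀ g : G, conjOn hN g (φ₁ * φ₂) = φ₁ * φ₂ := by
    intro g
    funext n
    have h1 := congrFun (hinv₁ g) n
    have h2 := congrFun (hinv₂ g) n
    rw [conjOn_apply] at h1 h2 ⊢
    simp only [Pi.mul_apply]
    rw [h1, h2]
  obtain ⟨ξ₃, hξ₃⟩ := Cfsg.Agent.Lib.BlockT.NormalP.exists_irr_over (G := G) (N := commutator G) ⟨_, hφI⟩
  have hres₃ := restrict_of_invariant hN ξ₃.2 hφI hφ31 hinv₃ hξ₃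
  have hpow₃ := pow_deg_eq_one ξ₃ hφc hφ31 hres₃
  set d₃ := charDegree (ξ₃ : G → ℂ) with hd₃def
  have hpow₁ : ∀ n, φ₁ n ^ d₁ = 1 := by
    intro n
    have := pow_deg_eq_one ξ₁ hφ₁ hφ₁1 (by rw [hξ₁]; exact hres₁) n
    rwa [hξ₁] at this
  have hpow₂ : ∀ n, φ₂ n ^ d₂ = 1 := by
    intro n
    have := pow_deg_eq_one ξ₂ hφ₂ hφ₂1 (by rw [hξ₂]; exact hres₂) n
    rwa [hξ₂] at this
  -- nontriviality
  have hnt₁ : ∃ n, φ₁ n ≠ 1 := by
    by_contra hno
    push Not at hno
    have h1 : (ξ₁ : G → ℂ) 1 = 1 := deg_one_of_trivial_on_commutator ξ₁.2 (by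
      intro n hn
      have h2 := hres₁ ⟨n, hn⟩
      rw [hno] at h2
      rw [h2, ← charDegree_natCast (isCharacter_of_isIrrCharacter ξ₁.2), hξ₁]
      simp)
    apply hd₁
    rw [← hξ₁]
    exact charDegree_eq_of_eq_natCast (by simpa using h1)
  have hnt₂ : ∃ n, φ₂ n ≠ 1 := by
    by_contra hno
    push Not at hno
    have h1 : (ξ₂ : G → ℂ) 1 = 1 := deg_one_of_trivial_on_commutator ξ₂.2 (by
      intro n hn
      have h2 := hres₂ ⟨n, hn⟩
      rw [hno] at h2
      rw [h2, ← charDegree_natCast (isCharacter_of_isIrrCharacter ξ₂.2), hξ₂]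
      simp)
    apply hd₂
    rw [← hξ₂]
    exact charDegree_eq_of_eq_natCast (by simpa using h1)
  obtain ⟨n₁, hn₁⟩ := hnt₁
  obtain ⟨n₂, hn₂⟩ := hnt₂
  have key : ∀ (a b : ℕ) (z w : ℂ), a.Prime → b.Prime → z ≠ 1 → z ^ a = 1 → w ^ b = 1 →
      (z * w) ^ d₃ = 1 → a ≠ b → a ∣ d₃ := by
    intro a b z w ha hb hz hza hwb hzw hab
    have hord : orderOf z = a := by
      haveI : Fact a.Prime := ⟨ha⟩
      exact orderOf_eq_prime hza hz
    have h1 : z ^ (b * d₃) = 1 := by
      have h2 : (z * w) ^ (b * d₃) = 1 := by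
        rw [mul_comm b, pow_mul, hzw, one_pow]
      rw [mul_pow, pow_mul w, hwb, one_pow, mul_one] at h2
      exact h2
    have h3 := orderOf_dvd_of_pow_eq_one h1
    rw [hord] at h3
    rcases (Nat.Prime.dvd_mul ha).mp h3 with h4 | h4
    · exact absurd ((Nat.prime_dvd_prime_iff_eq ha hb).mp h4) hab
    · exact h4
  have hdv₁ : d₁ ∣ d₃ := key d₁ d₂ (φ₁ n₁) (φ₂ n₁) hp₁ hp₂ hn₁ (hpow₁ n₁) (hpow₂ n₁) (hpow₃ n₁) hne
  have hdv₂ : d₂ ∣ d₃ := by
    refine key d₂ d₁ (φ₂ n₂) (φ₁ n₂) hp₂ hp₁ hn₂ (hpow₂ n₂) (hpow₁ n₂) ?_ (Ne.symm hne)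
    rw [mul_comm]
    exact hpow₃ n₂
  by_cases hd₃1 : d₃ = 1
  · rw [hd₃1] at hdv₁
    exact hp₁.one_lt.ne' (Nat.dvd_one.mp hdv₁)
  · have hp₃ : d₃.Prime := h ξ₃ hd₃1
    exact hne (((Nat.prime_dvd_prime_iff_eq hp₁ hp₃).mp hdv₁).trans
      ((Nat.prime_dvd_prime_iff_eq hp₂ hp₃).mp hdv₂).symm)

theorem typeO_eq [Finite G] [Fintype G] [Fintype (commutator G)] (h : Hyp G) {d₁ d₂ : ℕ}
    (h₁ : TypeO G d₁) (h₂ : TypeO G d₂) : d₁ = d₂ := by
  classical
  obtain ⟨hp₁, φ₁, hφ₁, hφ₁1, hi₁⟩ := h₁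
  obtain ⟨hp₂, φ₂, hφ₂, hφ₂1, hi₂⟩ := h₂
  by_contra hne
  have hN : (commutator G).Normal := inferInstance
  have hφc : IsCharacter (commutator G) (φ₁ * φ₂) := isCharacter_mul hφ₁ hφ₂
  have hφ31 : (φ₁ * φ₂) 1 = 1 := by simp [hφ₁1, hφ₂1]
  have hφI := Cfsg.Agent.Lib.Char.Linear.isIrrCharacter_of_deg_one hφc hφ31
  have hφ₁I := Cfsg.Agent.Lib.Char.Linear.isIrrCharacter_of_deg_one hφ₁ hφ₁1
  have hφ₂I := Cfsg.Agent.Lib.Char.Linear.isIrrCharacter_of_deg_one hφ₂ hφ₂1
  obtain ⟨ξ₃, hξ₃⟩ := Cfsg.Agent.Lib.BlockT.NormalP.exists_irr_over (G := G) (N := commutator G) ⟨_, hφI⟩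
  obtain ⟨m, hm, hm0, hdeg⟩ := deg_factor hN ξ₃.2 hφI hξ₃
  set T₁ := inertia hN φ₁ with hT₁
  set T₂ := inertia hN φ₂ with hT₂
  set T₃ := inertia hN (φ₁ * φ₂) with hT₃
  have hT₁n : T₁.Normal := normal_of_commutator_le (le_inertia hN (isClassFunction_of_isCharacter hφ₁))
  have hT₂n : T₂.Normal := normal_of_commutator_le (le_inertia hN (isClassFunction_of_isCharacter hφ₂))
  have hne0 : ∀ (φ : commutator G → ℂ), IsCharacter _ φ → φ 1 = 1 → ∀ n, φ n ≠ 0 := by
    intro φ hφ h1 n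
    exact Cfsg.Agent.Lib.CharDeep.LinearChar.ne_zero_of_linear hφ h1 n
  have h13 : ∀ g, g ∈ T₃ → g ∈ T₁ → g ∈ T₂ := by
    intro g hg3 hg1
    rw [hT₂, mem_inertia]
    funext n
    have h3 := congrFun ((mem_inertia hN _ g).mp hg3) n
    have h1 := congrFun ((mem_inertia hN _ g).mp hg1) n
    rw [conjOn_apply] at h1 h3 ⊢
    simp only [Pi.mul_apply] at h3
    rw [h1] at h3
    exact mul_left_cancel₀ (hne0 φ₁ hφ₁ hφ₁1 n) h3
  have h23 : ∀ g, g ∈ T₃ → g ∈ T₂ → g ∈ T₁ := by
    intro g hg3 hg2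
    rw [hT₁, mem_inertia]
    funext n
    have h3 := congrFun ((mem_inertia hN _ g).mp hg3) n
    have h2 := congrFun ((mem_inertia hN _ g).mp hg2) n
    rw [conjOn_apply] at h2 h3 ⊢
    simp only [Pi.mul_apply] at h3
    rw [h2] at h3
    exact mul_right_cancel₀ (hne0 φ₂ hφ₂ hφ₂1 n) h3
  have hinf : T₁ ⊓ T₃ = T₂ ⊓ T₃ := by
    apply le_antisymm
    · intro g hg
      exact ⟨h13 g hg.2 hg.1, hg.2⟩
    · intro g hg
      exact ⟨h23 g hg.2 hg.1, hg.2⟩
  have hrel : T₁.relIndex T₃ = T₂.relIndex T₃ := by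
    rw [← Subgroup.inf_relIndex_right T₁ T₃, ← Subgroup.inf_relIndex_right T₂ T₃, hinf]
  have hdvd₁ : T₁.relIndex T₃ ∣ d₁ := by
    rw [← hi₁]
    exact Subgroup.relIndex_dvd_index_of_normal T₁ T₃
  have hdvd₂ : T₁.relIndex T₃ ∣ d₂ := by
    rw [← hi₂, hrel]
    exact Subgroup.relIndex_dvd_index_of_normal T₂ T₃
  have hcop : Nat.Coprime d₁ d₂ := (Nat.coprime_primes hp₁ hp₂).mpr hne
  have hone : T₁.relIndex T₃ = 1 := Nat.eq_one_of_dvd_coprimes hcop hdvd₁ hdvd₂
  have hle₁ : T₃ ≤ T₁ := Subgroup.relIndex_eq_one.mp hone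
  have hle₂ : T₃ ≤ T₂ := Subgroup.relIndex_eq_one.mp (hrel ▸ hone)
  have hdv₁ : d₁ ∣ T₃.index := by
    rw [← hi₁]
    exact Subgroup.index_dvd_of_le hle₁
  have hdv₂ : d₂ ∣ T₃.index := by
    rw [← hi₂]
    exact Subgroup.index_dvd_of_le hle₂
  have hT₃d : T₃.index ∣ charDegree (ξ₃ : G → ℂ) := by
    rw [hdeg]
    exact Dvd.dvd.mul_left (Dvd.intro _ rfl) _
  have hd₃1 : charDegree (ξ₃ : G → ℂ) ≠ 1 := by
    intro h1
    rw [h1] at hT₃d
    exact hp₁.one_lt.ne' (Nat.dvd_one.mp (hdv₁.trans hT₃d))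
  have hp₃ := h ξ₃ hd₃1
  exact hne (((Nat.prime_dvd_prime_iff_eq hp₁ hp₃).mp (hdv₁.trans hT₃d)).trans
    ((Nat.prime_dvd_prime_iff_eq hp₂ hp₃).mp (hdv₂.trans hT₃d)).symm)

/-- The subgroup of elements which are `r`-th powers modulo the commutator subgroup. -/
def powSub (r : ℕ) (H : Type*) [Group H] : Subgroup H :=
  (powMonoidHom r : Abelianization H →* Abelianization H).range.comap Abelianization.of

theorem mem_powSub {r : ℕ} {H : Type*} [Group H] {x : H} :
    x ∈ powSub r H ↔ ∃ y : Abelianization H, y ^ r = Abelianization.of x := by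
  simp [powSub, MonoidHom.mem_range]

theorem pow_mem_powSub (r : ℕ) {H : Type*} [Group H] (x : H) : x ^ r ∈ powSub r H :=
  mem_powSub.mpr ⟨Abelianization.of x, by simp⟩

instance powSub_char (r : ℕ) (H : Type*) [Group H] : (powSub r H).Characteristic := by
  rw [Subgroup.characteristic_iff_le_comap]
  intro φ x hx
  rw [Subgroup.mem_comap]
  obtain ⟨y, hy⟩ := mem_powSub.mp hx
  refine mem_powSub.mpr ⟨Abelianization.map φ.toMonoidHom y, ?_⟩
  rw [← map_pow, hy]
  simp

theorem powSub_ne_top {r : ℕ} (hr : r.Prime) {H : Type*} [Group H] [Finite H]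
    (hd : r ∣ Nat.card (Abelianization H)) : powSub r H ≠ ⊤ := by
  intro htop
  haveI : Fact r.Prime := ⟨hr⟩
  obtain ⟨z, hz⟩ := exists_prime_orderOf_dvd_card' r hd
  have hsurj : Function.Surjective (powMonoidHom r : Abelianization H →* Abelianization H) := by
    intro w
    obtain ⟨x, rfl⟩ := (QuotientGroup.mk'_surjective _) w
    have hx : x ∈ powSub r H := by rw [htop]; trivial
    obtain ⟨y, hy⟩ := mem_powSub.mp hx
    exact ⟨y, hy⟩
  have hinj := Finite.injective_iff_surjective.mpr hsurj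
  have h1 : (powMonoidHom r : Abelianization H →* Abelianization H) z = 1 := by
    simp [← hz, pow_orderOf_eq_one]
  have h2 : z = 1 := hinj (by rw [h1, map_one])
  rw [h2, orderOf_one] at hz
  exact hr.one_lt.ne hz

theorem comm_of_two {A B : Subgroup G} (hAn : A.Normal) (hBn : B.Normal)
    (hAc : ∀ a ∈ A, ∀ b ∈ A, a * b = b * a) (hBc : ∀ a ∈ B, ∀ b ∈ B, a * b = b * a)
    {r d : ℕ} (hcop : Nat.Coprime r d) (hr : ∀ x ∈ B, x ^ r ∈ A) (hd : ∀ x ∈ A, x ^ d ∈ B)
    {a c : G} (ha : a ∈ A) (hc : c ∈ B) : a * c = c * a := by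
  have hu : a * c * a⁻¹ ∈ B := hBn.conj_mem c hc a
  have hv : c * a * c⁻¹ ∈ A := hAn.conj_mem a ha c
  have hw₁ : (a * c * a⁻¹ * c⁻¹) ^ r = 1 := by
    have hcomm : Commute (a * c * a⁻¹) c⁻¹ := hBc _ hu _ (B.inv_mem hc)
    rw [hcomm.mul_pow, conj_pow, inv_pow]
    have h1 := hAc a ha _ (hr c hc)
    rw [h1]
    group
  have hw₂ : (a * c * a⁻¹ * c⁻¹) ^ d = 1 := by
    have h0 : a * c * a⁻¹ * c⁻¹ = a * (c * a * c⁻¹)⁻¹ := by group
    rw [h0]
    have hcomm : Commute a (c * a * c⁻¹)⁻¹ := hAc _ ha _ (A.inv_mem hv)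
    rw [hcomm.mul_pow, inv_pow, conj_pow]
    have h1 := hBc c hc _ (hd a ha)
    rw [h1]
    group
  have hw : a * c * a⁻¹ * c⁻¹ = 1 := by
    have h1 := orderOf_dvd_of_pow_eq_one hw₁
    have h2 := orderOf_dvd_of_pow_eq_one hw₂
    have h3 := Nat.eq_one_of_dvd_coprimes hcop h1 h2
    exact orderOf_eq_one_iff.mp h3
  have : a * c * a⁻¹ = c := by
    rw [mul_inv_eq_one] at hw
    exact hw
  rw [mul_inv_eq_iff_eq_mul] at this
  exact this

/-- The non-metabelian case. -/
theorem exists_r [Finite G] [Fintype G] [Fintype (commutator G)] (h : Hyp G)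
    (hna : ¬ ∀ a b : commutator G, a * b = b * a) :
    ∃ r : ℕ, r.Prime ∧ (∀ θ : IrrCharacter (commutator G),
        charDegree (θ : commutator G → ℂ) ≠ 1 → charDegree (θ : commutator G → ℂ) = r) ∧
      ∀ d, TypeE G d → d = r := by
  classical
  have hN : (commutator G).Normal := inferInstance
  have hHN := h.normal (commutator G) hN
  haveI hsolv : Group.IsSolvable (commutator G) := main hHN
  haveI hnt : Nontrivial (commutator G) := by
    by_contra hno
    rw [not_nontrivial_iff_subsingleton] at hno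
    exact hna (fun a b => Subsingleton.elim _ _)
  have hlt := IsSolvable.commutator_lt_top_of_nontrivial (commutator G)
  have hcard : Nat.card (Abelianization (commutator G)) ≠ 1 := by
    intro h1
    have h2 : (commutator (commutator G)).index = 1 := h1
    exact hlt.ne (Subgroup.index_eq_one.mp h2)
  set r := (Nat.card (Abelianization (commutator G))).minFac with hrdef
  have hr : r.Prime := Nat.minFac_prime hcard
  have hrd : r ∣ Nat.card (Abelianization (commutator G)) := Nat.minFac_dvd _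
  have hStop := powSub_ne_top hr hrd
  set S := powSub r (commutator G) with hSdef
  haveI hSchar : S.Characteristic := powSub_char r _
  have hSn : S.Normal := inferInstance
  have hS'n : (S.map (commutator G).subtype).Normal := inferInstance
  have hS'c : ∀ a ∈ S.map (commutator G).subtype, ∀ b ∈ S.map (commutator G).subtype,
      a * b = b * a := by
    by_contra hno
    have hle := commutator_le_of_nonabelian h _ hS'n (by
      intro hall
      apply hno
      intro a ha b hb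
      exact congrArg Subtype.val (hall ⟨a, ha⟩ ⟨b, hb⟩))
    apply hStop
    rw [eq_top_iff]
    intro x _
    obtain ⟨y, hy, hyx⟩ := hle x.2
    have : y = x := Subtype.ext hyx
    rwa [← this]
  have hSc : ∀ a ∈ S, ∀ b ∈ S, a * b = b * a := by
    intro a ha b hb
    apply Subtype.ext
    exact hS'c _ ⟨a, ha, rfl⟩ _ ⟨b, hb, rfl⟩
  have hSp : IsPGroup r (commutator G ⧸ S) := by
    intro q
    obtain ⟨x, rfl⟩ := QuotientGroup.mk'_surjective S q
    refine ⟨1, ?_⟩
    rw [pow_one, ← map_pow]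
    exact (QuotientGroup.eq_one_iff _).mpr (pow_mem_powSub r x)
  haveI : Fact r.Prime := ⟨hr⟩
  obtain ⟨k, hk⟩ := IsPGroup.iff_card.mp hSp
  refine ⟨r, hr, ?_, ?_⟩
  · intro θ hθ
    have hp := hHN θ hθ
    obtain ⟨n, ρ, hρ, hχ⟩ := θ.2
    have hd : charDegree (θ : commutator G → ℂ) = finrank ℂ (Fin n → ℂ) := by
      rw [← hχ]; exact charDegree_character ρ
    have := hρ
    have hdv := Cfsg.Agent.Lib.Char.Ito.finrank_dvd_index_of_abelian_normal ρ S hSc
    rw [← hd] at hdv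
    have hidx : S.index = r ^ k := hk
    rw [hidx] at hdv
    exact (Nat.prime_dvd_prime_iff_eq hp hr).mp (hp.dvd_of_dvd_pow hdv)
  · rintro d ⟨hd1, ξ, hξ, φ, hφ, hφ1, hinv, hres⟩
    by_contra hne
    have hpd : d.Prime := by
      have := h ξ (by rw [hξ]; exact hd1)
      rwa [hξ] at this
    have hpow : ∀ n, φ n ^ d = 1 := by
      intro n
      have := pow_deg_eq_one ξ hφ hφ1 (by rw [hξ]; exact hres) n
      rwa [hξ] at this
    have hnt₁ : ∃ n, φ n ≠ 1 := by
      by_contra hno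
      push Not at hno
      have h1 : (ξ : G → ℂ) 1 = 1 := deg_one_of_trivial_on_commutator ξ.2 (by
        intro n hn
        have h2 := hres ⟨n, hn⟩
        rw [hno] at h2
        rw [h2, ← charDegree_natCast (isCharacter_of_isIrrCharacter ξ.2), hξ]
        simp)
      apply hd1
      rw [← hξ]
      exact charDegree_eq_of_eq_natCast (by simpa using h1)
    obtain ⟨n₁, hn₁⟩ := hnt₁
    -- the kernel
    let lam := Cfsg.Agent.Lib.CharDeep.LinearChar.toHom hφ hφ1
    have hlam : ∀ n, ((lam n : ℂˣ) : ℂ) = φ n := fun n => rfl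
    let K : Subgroup G := lam.ker.map (commutator G).subtype
    have hKmem : ∀ x : commutator G, (x : G) ∈ K ↔ φ x = 1 := by
      intro x
      constructor
      · rintro ⟨y, hy, hyx⟩
        have : y = x := Subtype.ext hyx
        rw [← this, ← hlam, (MonoidHom.mem_ker).mp hy]
        rfl
      · intro hx
        refine ⟨x, ?_, rfl⟩
        rw [SetLike.mem_coe, MonoidHom.mem_ker]
        apply Units.ext
        rw [hlam, hx]
        rfl
    have hKle : K ≤ commutator G := by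
      rintro x ⟨y, -, rfl⟩
      exact y.2
    have hKn : K.Normal := by
      refine ⟨fun x hx g => ?_⟩
      have hxN := hKle hx
      have hx1 := (hKmem ⟨x, hxN⟩).mp hx
      have hg := congrFun (hinv g) ⟨x, hxN⟩
      rw [conjOn_apply, hx1] at hg
      have hm := hN.conj_mem x hxN g
      exact (hKmem ⟨g * x * g⁻¹, hm⟩).mpr hg
    have hKc : ∀ a ∈ K, ∀ b ∈ K, a * b = b * a := by
      by_contra hno
      have hle := commutator_le_of_nonabelian h _ hKn (by
        intro hall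
        apply hno
        intro a ha b hb
        exact congrArg Subtype.val (hall ⟨a, ha⟩ ⟨b, hb⟩))
      exact hn₁ ((hKmem n₁).mp (hle n₁.2))
    have hcop : Nat.Coprime r d := (Nat.coprime_primes hr hpd).mpr (Ne.symm hne)
    have hrK : ∀ x ∈ K, x ^ r ∈ S.map (commutator G).subtype := by
      intro x hx
      exact ⟨⟨x, hKle hx⟩ ^ r, pow_mem_powSub r _, by simp⟩
    have hdS : ∀ x ∈ S.map (commutator G).subtype, x ^ d ∈ K := by
      rintro x ⟨y, -, rfl⟩
      have h1 := (hKmem (y ^ d))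
      have h2 : φ (y ^ d) = 1 := by
        rw [← hlam, map_pow, Units.val_pow_eq_pow_val, hlam, hpow]
      have h3 := h1.mpr h2
      simpa using h3
    have hcomm : ∀ a ∈ S.map (commutator G).subtype, ∀ c ∈ K, a * c = c * a :=
      fun a ha c hc => comm_of_two hS'n hKn hS'c hKc hcop hrK hdS ha hc
    apply hna
    -- every element of `N` is a product
    have hdec : ∀ x : commutator G, ∃ a ∈ S.map (commutator G).subtype, ∃ c ∈ K, (x : G) = a * c := by
      intro x
      obtain ⟨u, v, huv⟩ : ∃ u v : ℤ, u * r + v * d = 1 := by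
        have := (Nat.isCoprime_iff_coprime.mpr hcop)
        obtain ⟨u, v, huv⟩ := this
        exact ⟨u, v, huv⟩
      refine ⟨((x : G) ^ r) ^ u, ?_, ((x : G) ^ d) ^ v, ?_, ?_⟩
      · apply Subgroup.zpow_mem
        exact ⟨x ^ r, pow_mem_powSub r _, by simp⟩
      · apply Subgroup.zpow_mem
        have h2 : φ (x ^ d) = 1 := by
          rw [← hlam, map_pow, Units.val_pow_eq_pow_val, hlam, hpow]
        have h3 := (hKmem (x ^ d)).mpr h2
        simpa using h3
      · rw [← zpow_natCast, ← zpow_natCast, ← zpow_mul, ← zpow_mul, ← zpow_add, mul_comm (r : ℤ),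
          mul_comm (d : ℤ), huv, zpow_one]
    intro x y
    obtain ⟨a₁, ha₁, c₁, hc₁, hx⟩ := hdec x
    obtain ⟨a₂, ha₂, c₂, hc₂, hy⟩ := hdec y
    apply Subtype.ext
    simp only [Subgroup.coe_mul]
    rw [hx, hy]
    calc a₁ * c₁ * (a₂ * c₂) = a₁ * (c₁ * a₂) * c₂ := by group
      _ = a₁ * (a₂ * c₁) * c₂ := by rw [hcomm a₂ ha₂ c₁ hc₁]
      _ = (a₁ * a₂) * (c₁ * c₂) := by group
      _ = (a₂ * a₁) * (c₂ * c₁) := by rw [hS'c a₁ ha₁ a₂ ha₂, hKc c₁ hc₁ c₂ hc₂]
      _ = a₂ * (a₁ * c₂) * c₁ := by group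
      _ = a₂ * (c₂ * a₁) * c₁ := by rw [hcomm a₁ ha₁ c₂ hc₂]
      _ = a₂ * c₂ * (a₁ * c₁) := by group

/-- The trichotomy. -/
theorem trichotomy [Finite G] [Fintype G] [Fintype (commutator G)] (h : Hyp G) (χ : IrrCharacter G) :
    charDegree (χ : G → ℂ) = 1 ∨ TypeO G (charDegree (χ : G → ℂ)) ∨ TypeE G (charDegree (χ : G → ℂ)) ∨
      ∃ θ : IrrCharacter (commutator G), charDegree (θ : commutator G → ℂ) ≠ 1 ∧
        charDegree (χ : G → ℂ) = charDegree (θ : commutator G → ℂ) := by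
  classical
  by_cases hd : charDegree (χ : G → ℂ) = 1
  · exact Or.inl hd
  right
  have hp := h χ hd
  have hN : (commutator G).Normal := inferInstance
  have hcc := isCharacter_restrict (commutator G) (isCharacter_of_isIrrCharacter χ.2)
  have hne : (fun n : commutator G => (χ : G → ℂ) n) ≠ 0 := by
    intro h0
    have h1 := congrFun h0 1
    simp only [Subgroup.coe_one, Pi.zero_apply] at h1
    exact irr_one_ne_zero χ.2 h1
  obtain ⟨θ', hθ'I, hθ⟩ := exists_irr_constituent (isClassFunction_of_isCharacter hcc) hne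
  let θ : IrrCharacter (commutator G) := ⟨θ', hθ'I⟩
  change classInner (fun n : commutator G => (χ : G → ℂ) n) (θ : commutator G → ℂ) ≠ 0 at hθ
  obtain ⟨m, hm, hm0, hdeg⟩ := deg_factor hN χ.2 θ.2 hθ
  by_cases hθ1 : charDegree (θ : commutator G → ℂ) = 1
  · rw [hθ1, mul_one] at hdeg
    have hθ11 : (θ : commutator G → ℂ) 1 = 1 := by
      rw [← charDegree_natCast (isCharacter_of_isIrrCharacter θ.2), hθ1]
      simp
    have hdv : (inertia hN (θ : commutator G → ℂ)).index ∣ charDegree (χ : G → ℂ) := by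
      rw [hdeg]
      exact Dvd.intro_left _ rfl
    rcases (Nat.dvd_prime hp).mp hdv with h1 | h1
    · -- invariant
      right; left
      refine ⟨hd, χ, rfl, θ, isCharacter_of_isIrrCharacter θ.2, hθ11, ?_, ?_⟩
      · have htop := Subgroup.index_eq_one.mp h1
        intro g
        have : g ∈ inertia hN (θ : commutator G → ℂ) := by rw [htop]; trivial
        exact this
      · intro n
        refine restrict_of_invariant hN χ.2 θ.2 hθ11 ?_ hθ n
        have htop := Subgroup.index_eq_one.mp h1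
        intro g
        have : g ∈ inertia hN (θ : commutator G → ℂ) := by rw [htop]; trivial
        exact this
    · left
      exact ⟨hp, θ, isCharacter_of_isIrrCharacter θ.2, hθ11, h1⟩
  · right; right
    refine ⟨θ, hθ1, ?_⟩
    have hdv : charDegree (θ : commutator G → ℂ) ∣ charDegree (χ : G → ℂ) := by
      rw [hdeg]
      exact Dvd.dvd.mul_left (Dvd.dvd.mul_left dvd_rfl _) _
    rcases (Nat.dvd_prime hp).mp hdv with h1 | h1
    · exact absurd h1 hθ1
    · exact h1.symm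

/-- Final count. -/
theorem card_le_three [Finite G] (h : Hyp G) : Nat.card ↥(Cfsg.charDegrees G) ≤ 3 := by
  classical
  letI := Fintype.ofFinite G
  letI : Fintype (commutator G) := Fintype.ofFinite _
  set O : Set ℕ := {d | TypeO G d} with hO
  set X : Set ℕ := {d | TypeE G d ∨ ∃ θ : IrrCharacter (commutator G),
    charDegree (θ : commutator G → ℂ) ≠ 1 ∧ d = charDegree (θ : commutator G → ℂ)} with hX
  have hOs : O.Subsingleton := fun a ha b hb => typeO_eq h ha hb
  have hXs : X.Subsingleton := by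
    have hnon : ∀ θ : IrrCharacter (commutator G), charDegree (θ : commutator G → ℂ) ≠ 1 →
        ¬ ∀ a b : commutator G, a * b = b * a := by
      intro θ hθ hall
      apply hθ
      apply charDegree_eq_of_eq_natCast
      simpa using Cfsg.Agent.Lib.Char.Linear.isIrr_deg_one_of_comm hall θ.2
    rintro a (ha | ⟨θ, hθ, rfl⟩) b (hb | ⟨θ', hθ', rfl⟩)
    · exact typeE_eq h ha hb
    · obtain ⟨r, -, h1, h2⟩ := exists_r h (hnon θ' hθ')
      rw [h2 a ha, h1 θ' hθ']
    · obtain ⟨r, -, h1, h2⟩ := exists_r h (hnon θ hθ)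
      rw [h2 b hb, h1 θ hθ]
    · obtain ⟨r, -, h1, h2⟩ := exists_r h (hnon θ hθ)
      rw [h1 θ hθ, h1 θ' hθ']
  have hsub : Cfsg.charDegrees G ⊆ {1} ∪ O ∪ X := by
    rintro d ⟨χ, rfl⟩
    rcases trichotomy h χ with h1 | h1 | h1 | h1
    · left; left; exact h1
    · left; right; exact h1
    · right; left; exact h1
    · right; right; exact h1
  have hfin : ({1} ∪ O ∪ X : Set ℕ).Finite :=
    ((Set.finite_singleton 1).union hOs.finite).union hXs.finite
  rw [Nat.card_coe_set_eq]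
  calc (Cfsg.charDegrees G).ncard ≤ ({1} ∪ O ∪ X : Set ℕ).ncard := Set.ncard_le_ncard hsub hfin
    _ ≤ ({1} ∪ O : Set ℕ).ncard + X.ncard := Set.ncard_union_le _ _
    _ ≤ ({1} : Set ℕ).ncard + O.ncard + X.ncard := by
        gcongr
        exact Set.ncard_union_le _ _
    _ ≤ 3 := by
        haveI := hOs.finite.to_subtype
        haveI := hXs.finite.to_subtype
        have h1 := Set.ncard_le_one_iff_subsingleton.mpr hOs
        have h2 := Set.ncard_le_one_iff_subsingleton.mpr hXs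
        rw [Set.ncard_singleton]
        omega

end helpers



/-- If every irreducible complex character of the finite group G of degree greater than one has prime degree, then G has at most three distinct irreducible character degrees. -/
theorem result {G : Type*} [Group G] [Finite G] (hprime : ∀ d ∈ Cfsg.charDegrees G, d = 1 ∨ d.Prime) : Nat.card ↥(Cfsg.charDegrees G) ≤ 3 := by
  apply card_le_three
  intro χ hχ
  rcases hprime _ ⟨χ, rfl⟩ with h | h
  · exact absurd h hχ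
  · exact h

end Cfsg.Agent.S4813
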