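import Cfsg.Statements.S4814
import Cfsg.Agent.Lib.Blk89.Basic
-- import your own Cfsg.Agent.* helpers here

set_option autoImplicit false
open Cfsg
open scoped ComplexConjugate
open Cfsg.Agent.Lib.Char.Basic Cfsg.Agent.Lib.Char.Ortho Cfsg.Agent.Lib.Char.Complete Cfsg.Agent.Lib.Blk89.Basic Cfsg.Agent.Lib.Char.ClassSum

namespace Cfsg.Agent.S4814


theorem sum_four {G : Type*} [Group G] [Fintype G] {χ : G → ℂ} (hχ : IsIrrCharacter G χ) :
    ∑ b : G, ∑ d : G, ∑ c : G, ∑ a : G, χ ((a * b * a⁻¹ * b⁻¹) * (c * d * c⁻¹ * d⁻¹)) =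
      (Nat.card G : ℂ) ^ 4 / χ 1 ^ 3 := by
  have hch := isCharacter_of_isIrrCharacter hχ
  have he : χ 1 ≠ 0 := irr_one_ne_zero hχ
  have hn : (Nat.card G : ℂ) ≠ 0 := card_ne_zero_complex'
  have h1 : ∀ b c d : G, ∑ a : G, χ ((a * b * a⁻¹ * b⁻¹) * (c * d * c⁻¹ * d⁻¹)) =
      (Nat.card G : ℂ) * χ (b⁻¹ * (c * d * c⁻¹ * d⁻¹)) * χ b / χ 1 := by
    intro b c d
    rw [← sum_irr_mul_conj' hχ]
    refine Finset.sum_congr rfl fun a _ => ?_
    rw [show (a * b * a⁻¹ * b⁻¹) * (c * d * c⁻¹ * d⁻¹) = (a * b * a⁻¹) * (b⁻¹ * (c * d * c⁻¹ * d⁻¹)) by group,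
      char_mul_comm hch]
  have h2 : ∀ b d : G, ∑ c : G, χ (b⁻¹ * (c * d * c⁻¹ * d⁻¹)) =
      (Nat.card G : ℂ) * χ (d⁻¹ * b⁻¹) * χ d / χ 1 := by
    intro b d
    rw [← sum_irr_mul_conj' hχ]
    refine Finset.sum_congr rfl fun c _ => ?_
    rw [show b⁻¹ * (c * d * c⁻¹ * d⁻¹) = (b⁻¹ * (c * d * c⁻¹)) * d⁻¹ by group,
      char_mul_comm hch]
    congr 1
    group
  have h3 : ∀ d : G, ∑ b : G, χ b * χ (d⁻¹ * b⁻¹) = (Nat.card G : ℂ) / χ 1 * χ d⁻¹ := by
    intro d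
    rw [← sum_conv hχ]
    refine Fintype.sum_equiv (Equiv.inv G) _ _ fun b => ?_
    simp
  have h4 : ∑ d : G, χ d⁻¹ * χ d = (Nat.card G : ℂ) := by
    have h5 := classInner_self_of_isIrr hχ
    rw [classInner_def] at h5
    have h6 : ∑ g, χ g * conj (χ g) = (Nat.card G : ℂ) := by
      field_simp at h5
      exact h5
    rw [← h6]
    refine Finset.sum_congr rfl fun d _ => ?_
    rw [char_inv hch]
    ring
  calc ∑ b : G, ∑ d : G, ∑ c : G, ∑ a : G, χ ((a * b * a⁻¹ * b⁻¹) * (c * d * c⁻¹ * d⁻¹))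
      = ∑ b : G, ∑ d : G, ((Nat.card G : ℂ) ^ 2 / χ 1 ^ 2) * (χ b * χ (d⁻¹ * b⁻¹)) * χ d := by
        refine Finset.sum_congr rfl fun b _ => Finset.sum_congr rfl fun d _ => ?_
        simp_rw [h1]
        have : ∀ c : G, (Nat.card G : ℂ) * χ (b⁻¹ * (c * d * c⁻¹ * d⁻¹)) * χ b / χ 1 =
            ((Nat.card G : ℂ) * χ b / χ 1) * χ (b⁻¹ * (c * d * c⁻¹ * d⁻¹)) := fun c => by ring
        simp_rw [this]
        rw [← Finset.mul_sum, h2]
        field_simp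
    _ = ∑ d : G, ∑ b : G, ((Nat.card G : ℂ) ^ 2 / χ 1 ^ 2) * (χ b * χ (d⁻¹ * b⁻¹)) * χ d :=
        Finset.sum_comm
    _ = ∑ d : G, ((Nat.card G : ℂ) ^ 3 / χ 1 ^ 3) * (χ d⁻¹ * χ d) := by
        refine Finset.sum_congr rfl fun d _ => ?_
        rw [← Finset.sum_mul, ← Finset.mul_sum, h3]
        field_simp
    _ = _ := by
        rw [← Finset.mul_sum, h4]
        field_simp

/-- Let G be a finite group such that the sum, over the irreducible complex characters χ of G, of 1/χ(1)² is less than 2. Then every element of G is a product of two commutators. -/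
theorem result {G : Type*} [Group G] [Finite G]
    (h : ∑ᶠ χ : Cfsg.IrrCharacter G, 1 / ‖(χ : G → ℂ) 1‖ ^ 2 < (2 : ℝ)) (g : G) :
    ∃ a b c d : G, (a * b * a⁻¹ * b⁻¹) * (c * d * c⁻¹ * d⁻¹) = g := by
  classical
  cases nonempty_fintype G
  have : Finite (IrrCharacter G) := finite_irrCharacter
  cases nonempty_fintype (IrrCharacter G)
  rw [finsum_eq_sum_of_fintype] at h
  -- enough to find a conjugate
  suffices hex : ∃ a b c d : G, IsConj ((a * b * a⁻¹ * b⁻¹) * (c * d * c⁻¹ * d⁻¹)) g by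
    obtain ⟨a, b, c, d, hh⟩ := hex
    obtain ⟨x, hx⟩ := isConj_iff.mp hh
    refine ⟨x * a * x⁻¹, x * b * x⁻¹, x * c * x⁻¹, x * d * x⁻¹, ?_⟩
    rw [← hx]
    group
  by_contra hno
  push Not at hno
  have hn : (Nat.card G : ℂ) ≠ 0 := card_ne_zero_complex'
  have hz : ∀ a b c d : G, ∑ χ : IrrCharacter G,
      (χ : G → ℂ) ((a * b * a⁻¹ * b⁻¹) * (c * d * c⁻¹ * d⁻¹)) * conj ((χ : G → ℂ) g) = 0 := by
    intro a b c d
    rw [sum_irr_mul_conj, if_neg (hno a b c d)]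
  have htot : ∑ χ : IrrCharacter G, ((Nat.card G : ℂ) ^ 4 / (χ : G → ℂ) 1 ^ 3) * conj ((χ : G → ℂ) g) = 0 := by
    have h1 : ∑ b : G, ∑ d : G, ∑ c : G, ∑ a : G, ∑ χ : IrrCharacter G,
      (χ : G → ℂ) ((a * b * a⁻¹ * b⁻¹) * (c * d * c⁻¹ * d⁻¹)) * conj ((χ : G → ℂ) g) = 0 := by
      simp [hz]
    rw [← h1]
    simp_rw [← sum_four (Subtype.property _)]
    simp_rw [Finset.sum_mul]
    rw [Finset.sum_comm]
    refine Finset.sum_congr rfl fun b _ => ?_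
    rw [Finset.sum_comm]
    refine Finset.sum_congr rfl fun d _ => ?_
    rw [Finset.sum_comm]
    refine Finset.sum_congr rfl fun c _ => ?_
    rw [Finset.sum_comm]
  -- the sum T
  set f : IrrCharacter G → ℂ := fun χ => conj ((χ : G → ℂ) g) / (χ : G → ℂ) 1 ^ 3 with hf
  have hT : ∑ χ, f χ = 0 := by
    have h2 : ∑ χ : IrrCharacter G, ((Nat.card G : ℂ) ^ 4 / (χ : G → ℂ) 1 ^ 3) * conj ((χ : G → ℂ) g)
        = (Nat.card G : ℂ) ^ 4 * ∑ χ, f χ := by
      rw [Finset.mul_sum]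
      refine Finset.sum_congr rfl fun χ _ => ?_
      simp only [hf]
      ring
    rw [h2] at htot
    exact (mul_eq_zero.mp htot).resolve_left (pow_ne_zero _ hn)
  have hnorm : ∀ χ : IrrCharacter G, ‖f χ‖ ≤ 1 / ‖(χ : G → ℂ) 1‖ ^ 2 := by
    intro χ
    have hpos : 0 < ‖(χ : G → ℂ) 1‖ := norm_pos_iff.mpr (irr_one_ne_zero χ.2)
    simp only [hf, norm_div, norm_pow, Complex.norm_conj]
    have := norm_le_deg (isCharacter_of_isIrrCharacter χ.2) g
    rw [div_le_div_iff₀ (by positivity) (by positivity)]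
    nlinarith [pow_pos hpos 2]
  have hone : f (oneIrr G) = 1 := by
    simp [hf]
  have hsplit := Finset.add_sum_erase Finset.univ f (Finset.mem_univ (oneIrr G))
  have hsplit2 := Finset.add_sum_erase Finset.univ (fun χ : IrrCharacter G => 1 / ‖(χ : G → ℂ) 1‖ ^ 2)
    (Finset.mem_univ (oneIrr G))
  rw [hT, hone] at hsplit
  have hR : ‖∑ χ ∈ Finset.univ.erase (oneIrr G), f χ‖ = 1 := by
    have : ∑ χ ∈ Finset.univ.erase (oneIrr G), f χ = -1 := by linear_combination hsplit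
    rw [this]
    simp
  have hle := norm_sum_le_of_le (Finset.univ.erase (oneIrr G)) (fun χ _ => hnorm χ)
  rw [hR] at hle
  simp only [oneIrr_apply, norm_one, one_pow, div_one] at hsplit2
  linarith

end Cfsg.Agent.S4814
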