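import Cfsg.Statements.S4825
import Cfsg.Agent.Lib.Char.CliffordCorr
import Cfsg.Agent.Lib.Blocks.Central
import Cfsg.Agent.Lib.BlockT.NormalP
import Cfsg.Agent.Lib.Char.Degree

set_option autoImplicit false
open Cfsg

namespace Cfsg.Agent.S4825


open Cfsg.Agent.Lib.Char.Basic Cfsg.Agent.Lib.Char.Ortho Cfsg.Agent.Lib.Char.CliffordCorr
open Cfsg.Agent.Lib.Blocks.Local Cfsg.Agent.Lib.Blocks.Central
open scoped ComplexConjugate

theorem zmod2_sq : ∀ a : ZMod 2, a ≠ 0 → a ^ 2 = 1 := by decide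

theorem zmod3_sq : ∀ a : ZMod 3, a ≠ 0 → a ^ 2 = 1 := by decide

/-- The weighted sum of the multiplicities over a block. -/
theorem sum_deg_mul_inner {G : Type*} [Group G] [Fintype G] {M : Ideal AlgInt} [M.IsPrime]
    [Fintype (IrrCharacter G)]
    {B : Set (IrrCharacter G)} (hB : IsPBlock M B) [DecidablePred (· ∈ B)]
    (N : Subgroup G) [Fintype N] (θ : IrrCharacter N) :
    ∃ Y : ℂ, MemLocalRing M Y ∧
      ∑ χ : IrrCharacter G, (if χ ∈ B then (χ : G → ℂ) 1 *
        classInner (fun n : N => (χ : G → ℂ) n) (θ : N → ℂ) else 0) = (N.index : ℂ) * Y := by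
  classical
  have hcN : (Nat.card N : ℂ) ≠ 0 := by
    exact_mod_cast Nat.card_pos.ne'
  have hcG : (Nat.card G : ℂ) ≠ 0 := by
    exact_mod_cast Nat.card_pos.ne'
  refine ⟨∑ n : N, (θ : N → ℂ) n * blockCoeff B (n : G), ?_, ?_⟩
  · refine memLocalRing_sum _ _ fun n _ => memLocalRing_mul ?_ (memLocalRing_blockCoeff hB _)
    exact memLocalRing_of_isIntegral (Cfsg.Agent.Lib.BlockT.NormalP.isIntegral_irr θ n)
  · have hconj : ∀ χ : IrrCharacter G, classInner (fun n : N => (χ : G → ℂ) n) (θ : N → ℂ) =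
        (Nat.card N : ℂ)⁻¹ * ∑ n : N, conj ((χ : G → ℂ) n) * (θ : N → ℂ) n := by
      intro χ
      obtain ⟨m, hm⟩ := exists_nat_classInner (isCharacter_restrict N
        (isCharacter_of_isIrrCharacter χ.2)) (isCharacter_of_isIrrCharacter θ.2)
      have h1 : classInner (fun n : N => (χ : G → ℂ) n) (θ : N → ℂ) =
          conj (classInner (fun n : N => (χ : G → ℂ) n) (θ : N → ℂ)) := by
        rw [hm, Complex.conj_natCast]
      rw [h1, classInner, map_mul, map_inv₀, Complex.conj_natCast, map_sum]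
      congr 1
      refine Finset.sum_congr rfl fun n _ => ?_
      rw [map_mul, Complex.conj_conj]
    have hidx : (Nat.card G : ℂ) = (N.index : ℂ) * (Nat.card N : ℂ) := by
      rw [← Nat.cast_mul, Subgroup.index_mul_card]
    have h2 : ∀ n : N, (θ : N → ℂ) n * blockCoeff B (n : G) =
        (Nat.card G : ℂ)⁻¹ * ∑ χ : IrrCharacter G, (if χ ∈ B then
          (χ : G → ℂ) 1 * (conj ((χ : G → ℂ) n) * (θ : N → ℂ) n) else 0) := by
      intro n
      rw [blockCoeff_eq_sum, mul_left_comm, Finset.mul_sum]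
      congr 1
      refine Finset.sum_congr rfl fun χ _ => ?_
      split_ifs
      · ring
      · ring
    simp only [h2, ← Finset.mul_sum]
    rw [Finset.sum_comm]
    have h3 : ∀ χ : IrrCharacter G, (∑ n : N, (if χ ∈ B then
          (χ : G → ℂ) 1 * (conj ((χ : G → ℂ) n) * (θ : N → ℂ) n) else 0)) =
        (Nat.card N : ℂ) * (if χ ∈ B then (χ : G → ℂ) 1 *
          classInner (fun n : N => (χ : G → ℂ) n) (θ : N → ℂ) else 0) := by
      intro χ
      split_ifs with hχ
      · rw [hconj χ, ← Finset.mul_sum]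
        field_simp
      · simp
    simp only [h3, ← Finset.mul_sum]
    rw [hidx]
    have hI : (N.index : ℂ) ≠ 0 := by
      exact_mod_cast (Subgroup.index_ne_zero_of_finite (H := N))
    field_simp

/-- Let p be a prime, G a finite group with Sylow p-subgroup P, M a maximal ideal of the algebraic integers containing p, and B a p-block of G with defect group P. Let N be a normal subgroup of G not containing P and θ an irreducible character of N. Then the number of irreducible characters in B of degree prime to p lying over θ (having θ as a constituent on restriction to N) is either 0 or at least 2, and when p ≤ 3 it is divisible by p. -/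
theorem result {G : Type*} [Group G] [Fintype G] (p : ℕ) [Fact p.Prime] (P : Sylow p G) (M : Ideal Cfsg.AlgInt) (hM : Cfsg.IsPModular p M) (B : Set (Cfsg.IrrCharacter G)) (hB : Cfsg.IsPBlock M B) (hBP : Cfsg.IsDefectGroup p M B P) (N : Subgroup G) [N.Normal] [Fintype N] (hPN : ¬ (P : Subgroup G) ≤ N) (θ : Cfsg.IrrCharacter N) :
    (Nat.card {χ : Cfsg.IrrCharacter G // χ ∈ B ∧ ¬ p ∣ Cfsg.charDegree (χ : G → ℂ) ∧ Cfsg.classInner (fun n : N => (χ : G → ℂ) n) (θ : N → ℂ) ≠ 0} = 0 ∨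
      2 ≤ Nat.card {χ : Cfsg.IrrCharacter G // χ ∈ B ∧ ¬ p ∣ Cfsg.charDegree (χ : G → ℂ) ∧ Cfsg.classInner (fun n : N => (χ : G → ℂ) n) (θ : N → ℂ) ≠ 0}) ∧
    (p ≤ 3 → p ∣ Nat.card {χ : Cfsg.IrrCharacter G // χ ∈ B ∧ ¬ p ∣ Cfsg.charDegree (χ : G → ℂ) ∧ Cfsg.classInner (fun n : N => (χ : G → ℂ) n) (θ : N → ℂ) ≠ 0}) := by
  classical
  have hp : p.Prime := Fact.out
  have hMp := isPrime_of_pModular hM
  have := finite_irrCharacter (G := G)
  letI : Fintype (IrrCharacter G) := Fintype.ofFinite _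
  have hNn : N.Normal := inferInstance
  -- `p` divides the index
  have hdvd : p ∣ N.index := by
    by_contra hnd
    apply hPN
    intro x hx
    obtain ⟨k, hk⟩ := (IsPGroup.iff_card.mp P.isPGroup' : ∃ k, Nat.card (P : Subgroup G) = p ^ k)
    have h2 : x ^ p ^ k = 1 := by
      have := pow_card_eq_one' (x := (⟨x, hx⟩ : (P : Subgroup G)))
      rw [hk] at this
      simpa using congrArg Subtype.val this
    have h3 : ((x : G) : G ⧸ N) ^ N.index = 1 := pow_card_eq_one'
    have h4 : ((x : G) : G ⧸ N) ^ p ^ k = 1 := by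
      rw [← QuotientGroup.mk_pow, h2, QuotientGroup.mk_one]
    have hcop : Nat.Coprime (p ^ k) N.index :=
      Nat.Coprime.pow_left _ ((Nat.Prime.coprime_iff_not_dvd hp).mpr hnd)
    have h5 := Nat.dvd_gcd (orderOf_dvd_of_pow_eq_one h4) (orderOf_dvd_of_pow_eq_one h3)
    rw [Nat.Coprime.gcd_eq_one hcop, Nat.dvd_one, orderOf_eq_one_iff] at h5
    exact (QuotientGroup.eq_one_iff x).mp h5
  set inn : IrrCharacter G → ℂ := fun χ => classInner (fun n : N => (χ : G → ℂ) n) (θ : N → ℂ)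
    with hinn
  set deg : IrrCharacter G → ℕ := fun χ => charDegree (χ : G → ℂ) with hdeg
  have hdegc : ∀ χ : IrrCharacter G, (deg χ : ℂ) = (χ : G → ℂ) 1 := fun χ =>
    Cfsg.Agent.Lib.Char.Degree.charDegree_natCast (isCharacter_of_isIrrCharacter χ.2)
  obtain ⟨Y, hY, hsum⟩ := sum_deg_mul_inner (M := M) hB N θ
  set I : ℕ := (inertia hNn (θ : N → ℂ)).index with hI
  set T : Finset (IrrCharacter G) := Finset.univ.filter (fun χ => χ ∈ B ∧ inn χ ≠ 0) with hT
  have hdegT : ∀ χ ∈ T, ((deg χ ^ 2 : ℕ) : ℂ) = (I : ℂ) * ((θ : N → ℂ) 1) *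
      ((χ : G → ℂ) 1 * inn χ) := by
    intro χ hχ
    have hχ' := (Finset.mem_filter.mp hχ).2.2
    have h1 := deg_eq_of_constituent hNn χ.2 θ.2 hχ'
    rw [Nat.cast_pow, hdegc, sq]
    nth_rewrite 1 [h1]
    ring
  have hsumT : ((∑ χ ∈ T, deg χ ^ 2 : ℕ) : ℂ) = (I : ℂ) * ((θ : N → ℂ) 1) * ((N.index : ℂ) * Y) := by
    rw [← hsum, Nat.cast_sum, Finset.mul_sum, hT, Finset.sum_filter]
    refine Finset.sum_congr rfl fun χ _ => ?_
    by_cases hχB : χ ∈ B
    · by_cases h0 : inn χ = 0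
      · have h0' : classInner (fun n : N => (χ : G → ℂ) n) (θ : N → ℂ) = 0 := h0
        rw [if_neg (fun h => h.2 h0), if_pos hχB, h0']
        simp
      · rw [if_pos ⟨hχB, h0⟩, if_pos hχB]
        exact hdegT χ (Finset.mem_filter.mpr ⟨Finset.mem_univ _, hχB, h0⟩)
    · simp [hχB]
  have hlocθ : MemLocalRing M ((θ : N → ℂ) 1) := memLocalRing_of_isIntegral
    (Cfsg.Agent.Lib.BlockT.NormalP.isIntegral_irr θ 1)
  have hJ : MemLocalIdeal M ((∑ χ ∈ T, deg χ ^ 2 : ℕ) : ℂ) := by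
    rw [hsumT, show (I : ℂ) * ((θ : N → ℂ) 1) * ((N.index : ℂ) * Y) =
      (N.index : ℂ) * ((I : ℂ) * ((θ : N → ℂ) 1) * Y) by ring]
    exact memLocalIdeal_mul_right ((natCast_memLocalIdeal_iff hM _).mpr hdvd)
      (memLocalRing_mul (memLocalRing_mul (memLocalRing_natCast I) hlocθ) hY)
  have hdvdT : p ∣ ∑ χ ∈ T, deg χ ^ 2 := (natCast_memLocalIdeal_iff hM _).mp hJ
  set S : Finset (IrrCharacter G) := Finset.univ.filter
    (fun χ => χ ∈ B ∧ ¬ p ∣ deg χ ∧ inn χ ≠ 0) with hS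
  have hcard : Nat.card {χ : IrrCharacter G // χ ∈ B ∧ ¬ p ∣ charDegree (χ : G → ℂ) ∧
      classInner (fun n : N => (χ : G → ℂ) n) (θ : N → ℂ) ≠ 0} = S.card := by
    rw [Nat.card_eq_fintype_card, Fintype.card_subtype]
  have hST : S = T.filter (fun χ => ¬ p ∣ deg χ) := by
    ext χ
    simp only [hS, hT, Finset.mem_filter, Finset.mem_univ, true_and]
    tauto
  have hdvdS : p ∣ ∑ χ ∈ S, deg χ ^ 2 := by
    have h1 := Finset.sum_filter_add_sum_filter_not T (fun χ => ¬ p ∣ deg χ) (fun χ => deg χ ^ 2)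
    rw [← hST] at h1
    have h2 : p ∣ ∑ χ ∈ T.filter (fun χ => ¬ ¬ p ∣ deg χ), deg χ ^ 2 := by
      refine Finset.dvd_sum fun χ hχ => ?_
      have := (Finset.mem_filter.mp hχ).2
      exact Dvd.dvd.pow (not_not.mp this) two_ne_zero
    rw [← h1] at hdvdT
    exact (Nat.dvd_add_left h2).mp hdvdT
  rw [hcard]
  refine ⟨?_, ?_⟩
  · by_contra hcon
    push Not at hcon
    have h1 : S.card = 1 := by omega
    obtain ⟨χ, hχ⟩ := Finset.card_eq_one.mp h1
    rw [hχ, Finset.sum_singleton] at hdvdS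
    have h2 : χ ∈ S := by rw [hχ]; exact Finset.mem_singleton_self χ
    exact (Finset.mem_filter.mp h2).2.2.1 (hp.dvd_of_dvd_pow hdvdS)
  · intro hle
    have hcase : p = 2 ∨ p = 3 := by
      have := hp.two_le
      interval_cases p
      · exact Or.inl rfl
      · exact Or.inr rfl
    have hzm : ∀ χ ∈ S, ((deg χ ^ 2 : ℕ) : ZMod p) = 1 := by
      intro χ hχ
      have h1 : (deg χ : ZMod p) ≠ 0 := by
        rw [Ne, ZMod.natCast_eq_zero_iff]
        exact (Finset.mem_filter.mp hχ).2.2.1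
      rw [Nat.cast_pow]
      generalize (deg χ : ZMod p) = a at h1
      rcases hcase with rfl | rfl
      · exact zmod2_sq a h1
      · exact zmod3_sq a h1
    have h3 : ((∑ χ ∈ S, deg χ ^ 2 : ℕ) : ZMod p) = (S.card : ZMod p) := by
      rw [Nat.cast_sum, Finset.sum_congr rfl hzm]
      simp
    rw [(ZMod.natCast_eq_zero_iff _ _).mpr hdvdS] at h3
    exact (ZMod.natCast_eq_zero_iff _ _).mp h3.symm

end Cfsg.Agent.S4825
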