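import Cfsg.Statements.S4828
import Cfsg.Agent.Lib.BlockNil.MaxChar
import Cfsg.Agent.S0968

set_option autoImplicit false
open Cfsg

namespace Cfsg.Agent.S4828

open Cfsg
open Cfsg.Agent.Lib.Blocks.Local Cfsg.Agent.Lib.Blocks.Central
open Cfsg.Agent.Lib.BlockH.Subpair
open Cfsg.Agent.Lib.BlockNil.MaxChar

/-- Let p be a prime, M a maximal ideal of the algebraic integers containing p, and (Q, e) a Brauer pair of the finite group G (Q a p-subgroup, e a block of C_G(Q)). Then (Q, e) is a maximal Brauer pair of some block of G if and only if e contains an irreducible character θ such that θ takes the value θ(1) at every element of Z(Q) = Q ∩ C_G(Q), the p-part of θ(1) times the p-part of the order of Z(Q) equals the p-part of the order of C_G(Q) (θ has defect zero as a character of C_G(Q)/Z(Q)), and every element of N_G(Q) of p-power order that stabilizes e lies in Q·C_G(Q) (the stabilizer of e in N_G(Q) has index prime to p over Q·C_G(Q)). -/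
theorem result {G : Type*} [Group G] [Finite G] (p : ℕ) [Fact p.Prime] (M : Ideal Cfsg.AlgInt) (hM : Cfsg.IsPModular p M) (Q : Subgroup G) (e : Set (Cfsg.IrrCharacter (Subgroup.centralizer (Q : Set G)))) (he : Cfsg.IsBrauerPair p M Q e) :
    (∃ B : Set (Cfsg.IrrCharacter G), Cfsg.IsMaximalBrauerPair p M B Q e) ↔
      ∃ θ ∈ e, (∀ z : Subgroup.centralizer (Q : Set G), (z : G) ∈ Q → (θ : Subgroup.centralizer (Q : Set G) → ℂ) z = (θ : Subgroup.centralizer (Q : Set G) → ℂ) 1) ∧
        (Cfsg.charDegree (θ : Subgroup.centralizer (Q : Set G) → ℂ)).factorization p + (Nat.card ↥(Q ⊓ Subgroup.centralizer (Q : Set G))).factorization p = (Nat.card (Subgroup.centralizer (Q : Set G))).factorization p ∧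
        (∀ g : G, g ∈ Subgroup.normalizer (Q : Set G) → Cfsg.StabilizesBlock (Subgroup.centralizer (Q : Set G)) e g → (∃ k : ℕ, orderOf g = p ^ k) → g ∈ Q ⊔ Subgroup.centralizer (Q : Set G)) := by
  classical
  cases nonempty_fintype G
  haveI := isPrime_of_pModular hM
  letI : Fintype (Subgroup.centralizer (Q : Set G)) := Fintype.ofFinite _
  haveI := Cfsg.Agent.Lib.Char.Ortho.finite_irrCharacter (G := Subgroup.centralizer (Q : Set G))
  letI : Fintype (IrrCharacter (Subgroup.centralizer (Q : Set G))) := Fintype.ofFinite _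
  have hcard : (Nat.card ↥(Q ⊓ Subgroup.centralizer (Q : Set G))) = Nat.card (cenZ Q) :=
    (Cfsg.Agent.Lib.BlockH.FusionB.card_subgroupOf_of_le' inf_le_right).symm
  have hidx : (Nat.card (Subgroup.centralizer (Q : Set G))).factorization p =
      (cenZ Q).index.factorization p + (Nat.card ↥(Q ⊓ Subgroup.centralizer (Q : Set G))).factorization p := by
    rw [hcard, ← Subgroup.index_mul_card (cenZ Q), Nat.factorization_mul Subgroup.index_ne_zero_of_finite Nat.card_pos.ne']
    rfl
  constructor
  · rintro ⟨B, hmax⟩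
    have hZ := isDefectGroup_of_isMaximal' hM hmax
    have hsup : cenZ Q ⊔ Subgroup.centralizer ((cenZ Q : Subgroup (Subgroup.centralizer (Q : Set G))) : Set _) = ⊤ := by
      refine top_le_iff.mp (le_trans ?_ le_sup_right)
      intro c _
      rw [Subgroup.mem_centralizer_iff]
      intro z hz
      exact (Subgroup.mem_center_iff.mp (cenZ_le_center hz) c).symm
    have hS := Cfsg.Agent.S0968.result p M hM (cenZ Q) (cenZ_isPGroup he.1) hsup e he.2 hZ
    obtain ⟨θ, ⟨hθ, hθZ⟩, -⟩ := hS.1
    refine ⟨θ, hθ, ?_, ?_, ?_⟩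
    · intro z hz
      exact hθZ z (Subgroup.mem_subgroupOf.mpr (Subgroup.mem_inf.mpr ⟨hz, z.2⟩))
    · rw [hS.2.1 θ hθ hθZ, hidx]
    · intro g hg hs hk
      exact mem_sup_of_isMaximal hM hmax hg hs hk
  · rintro ⟨θ, hθ, -, hdeg, h3⟩
    obtain ⟨B, hB, -⟩ := existsUnique_isBrauerPairOf hM he
    refine ⟨B, isMaximal_of_defect hM hB ?_ h3⟩
    have h1 := Cfsg.Agent.Lib.Blocks.CentralDefect.isDefectGroup_of_central hM (cenZ_isPGroup he.1) cenZ_le_center θ (by omega)
    rw [isPBlock_eq_blockOf he.2 hθ]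
    exact h1

end Cfsg.Agent.S4828
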