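import Cfsg.Statements.S4835
import Cfsg.Agent.Lib.Blk89.Codegree
import Cfsg.Agent.Lib.Char.Zeros
-- import your own Cfsg.Agent.* helpers here

set_option autoImplicit false
open Cfsg
open scoped ComplexConjugate
open Cfsg.Agent.Lib.Char.Basic Cfsg.Agent.Lib.Char.Ortho Cfsg.Agent.Lib.Char.Complete Cfsg.Agent.Lib.Blk89.Basic Cfsg.Agent.Lib.Char.Degree Cfsg.Agent.Lib.Char.Linear Cfsg.Agent.Lib.Blk89.Codegree

namespace Cfsg.Agent.S4835

/-- Let G be a finite group of order greater than 2 with an irreducible character χ that is nonzero on exactly two conjugacy classes. Then G has a unique minimal normal subgroup N; N is an elementary abelian p-group for some prime p; χ is nonzero exactly at the elements of N; and any two nonidentity elements of N are conjugate in G. -/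
theorem result {G : Type*} [Group G] [Finite G] (hG : 2 < Nat.card G) (χ : Cfsg.IrrCharacter G) (hχ : Nat.card {C : ConjClasses G // ∃ g ∈ C.carrier, (χ : G → ℂ) g ≠ 0} = 2) :
    ∃ N : Subgroup G, N.Normal ∧ N ≠ ⊥ ∧ (∀ K : Subgroup G, K.Normal → K ≠ ⊥ → N ≤ K) ∧
      (∃ p : ℕ, p.Prime ∧ Cfsg.IsElementaryAbelian p N) ∧
      (∀ g : G, (χ : G → ℂ) g ≠ 0 ↔ g ∈ N) ∧
      (∀ x ∈ N, ∀ y ∈ N, x ≠ 1 → y ≠ 1 → ∃ g : G, g * x * g⁻¹ = y) := by
  classical
  cases nonempty_fintype G
  have : Finite (IrrCharacter G) := finite_irrCharacter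
  cases nonempty_fintype (IrrCharacter G)
  have hX1 : (χ : G → ℂ) 1 ≠ 0 := irr_one_ne_zero χ.2
  have hχc := isCharacter_of_isIrrCharacter χ.2
  -- step 1: the element `g`
  obtain ⟨g, hg1, hgχ, hcls⟩ : ∃ g : G, g ≠ 1 ∧ (χ : G → ℂ) g ≠ 0 ∧
      ∀ x, (χ : G → ℂ) x ≠ 0 → x = 1 ∨ IsConj g x := by
    let C0 : {C : ConjClasses G // ∃ g ∈ C.carrier, (χ : G → ℂ) g ≠ 0} :=
      ⟨ConjClasses.mk 1, 1, ConjClasses.mem_carrier_mk, hX1⟩
    obtain ⟨y, hy, huniq⟩ := (Nat.card_eq_two_iff' C0).mp hχ
    obtain ⟨C, g, hgC, hg⟩ := y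
    have hCg : ConjClasses.mk g = C := ConjClasses.mem_carrier_iff_mk_eq.mp hgC
    refine ⟨g, ?_, hg, ?_⟩
    · rintro rfl
      apply hy
      apply Subtype.ext
      exact hCg.symm
    · intro x hx
      by_cases hx1 : x = 1
      · exact Or.inl hx1
      · right
        have h1 := huniq ⟨ConjClasses.mk x, x, ConjClasses.mem_carrier_mk, hx⟩ (by
          intro h
          have h2 : ConjClasses.mk x = ConjClasses.mk 1 := congrArg Subtype.val h
          rw [ConjClasses.mk_eq_mk_iff_isConj] at h2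
          exact hx1 (isConj_one_right.mp h2.symm))
        have h2 : ConjClasses.mk x = C := congrArg Subtype.val h1
        rw [← hCg, ConjClasses.mk_eq_mk_iff_isConj] at h2
        exact h2.symm
  -- step 2: the sum formula
  set cl : Finset G := Finset.univ.filter (fun x => IsConj g x) with hcl
  set k : ℕ := cl.card with hk
  have h1cl : (1 : G) ∉ cl := by
    rw [hcl, Finset.mem_filter]
    rintro ⟨-, h⟩
    exact hg1 (isConj_one_left.mp h)
  have hsum : ∀ F : G → ℂ, IsClassFunction G F →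
      ∑ x, (χ : G → ℂ) x * F x = (χ : G → ℂ) 1 * F 1 + k * ((χ : G → ℂ) g * F g) := by
    intro F hF
    rw [← Finset.sum_subset (Finset.subset_univ (insert 1 cl))]
    · rw [Finset.sum_insert h1cl]
      congr 1
      rw [hk, ← nsmul_eq_mul, ← Finset.sum_const]
      refine Finset.sum_congr rfl fun x hx => ?_
      have hx' : IsConj g x := (Finset.mem_filter.mp hx).2
      rw [← char_conj_eq hχc hx', ← (isClassFunction_iff_isConj.mp hF) g x hx']
    · intro x _ hx
      have hx0 : (χ : G → ℂ) x = 0 := by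
        by_contra h0
        rcases hcls x h0 with h1 | h1
        · exact hx (Finset.mem_insert.mpr (Or.inl h1))
        · exact hx (Finset.mem_insert.mpr (Or.inr (Finset.mem_filter.mpr ⟨Finset.mem_univ _, h1⟩)))
      rw [hx0, zero_mul]
  -- orthogonality relations
  have horth : ∀ ν : IrrCharacter G, ν ≠ χ →
      (χ : G → ℂ) 1 * conj ((ν : G → ℂ) 1) + k * ((χ : G → ℂ) g * conj ((ν : G → ℂ) g)) = 0 := by
    intro ν hν
    have h1 := classInner_eq_zero_of_isIrr_of_ne χ.2 ν.2 (fun h => hν (Subtype.ext h.symm))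
    rw [classInner_def] at h1
    have hcf : IsClassFunction G (fun x => conj ((ν : G → ℂ) x)) := by
      intro a b
      simp only
      rw [isClassFunction_of_isIrrCharacter ν.2 a b]
    rw [hsum _ hcf] at h1
    exact (mul_eq_zero.mp h1).resolve_left (inv_ne_zero card_ne_zero_complex')
  have hconjdeg : ∀ ν : IrrCharacter G, conj ((ν : G → ℂ) 1) = (ν : G → ℂ) 1 :=
    fun ν => conj_deg (isCharacter_of_isIrrCharacter ν.2)
  -- `χ` is not principal
  have hχne : χ ≠ oneIrr G := by
    intro h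
    have hall : ∀ x : G, x = 1 ∨ IsConj g x := by
      intro x
      apply hcls
      rw [h]
      simp
    have hcard : Nat.card G = k + 1 := by
      rw [Nat.card_eq_fintype_card, hk, ← Finset.card_univ]
      have : (Finset.univ : Finset G) = insert 1 cl := by
        ext x
        simp only [Finset.mem_univ, Finset.mem_insert, true_iff]
        rcases hall x with h1 | h1
        · exact Or.inl h1
        · exact Or.inr (Finset.mem_filter.mpr ⟨Finset.mem_univ _, h1⟩)
      rw [this, Finset.card_insert_of_notMem h1cl]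
    have h2 := card_isConj_mul_card_centralizer g
    have h3 : Nat.card {x : G // IsConj x g} = k := by
      rw [Nat.card_eq_fintype_card, Fintype.card_subtype, hk, hcl]
      congr 1
      ext x
      simp only [Finset.mem_filter, Finset.mem_univ, true_and]
      exact ⟨fun h => h.symm, fun h => h.symm⟩
    rw [h3, hcard] at h2
    have h4 : k ∣ k + 1 := ⟨_, h2.symm⟩
    have h5 : k ∣ 1 := (Nat.dvd_add_right (dvd_refl k)).mp h4
    have h6 : k = 1 := Nat.dvd_one.mp h5
    rw [hcard, h6] at hG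
    omega
  have hprinc : (χ : G → ℂ) 1 + k * (χ : G → ℂ) g = 0 := by
    have h1 := horth (oneIrr G) hχne.symm
    simpa using h1
  have hval : ∀ ν : IrrCharacter G, ν ≠ χ → (ν : G → ℂ) g = (ν : G → ℂ) 1 := by
    intro ν hν
    have h1 := horth ν hν
    have h2 : (χ : G → ℂ) 1 * (conj ((ν : G → ℂ) 1) - conj ((ν : G → ℂ) g)) = 0 := by
      linear_combination h1 - conj ((ν : G → ℂ) g) * hprinc
    have h3 := (mul_eq_zero.mp h2).resolve_left hX1
    have h4 : conj ((ν : G → ℂ) g) = (ν : G → ℂ) 1 := by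
      rw [← hconjdeg ν]
      exact (sub_eq_zero.mp h3).symm
    rw [← Complex.conj_conj ((ν : G → ℂ) g), h4, hconjdeg]
  -- the subgroup `N`
  let N : Subgroup G := ⨅ ν : {ν : IrrCharacter G // ν ≠ χ}, charKer (isCharacter_of_isIrrCharacter ν.1.2)
  have hNmem : ∀ x, x ∈ N ↔ ∀ ν : IrrCharacter G, ν ≠ χ → (ν : G → ℂ) x = (ν : G → ℂ) 1 := by
    intro x
    simp only [N, Subgroup.mem_iInf, mem_charKer, Subtype.forall]
  have hNn : N.Normal := by
    constructor
    intro n hn c
    rw [hNmem] at hn ⊢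
    intro ν hν
    rw [isClassFunction_of_isIrrCharacter ν.2 n c]
    exact hn ν hν
  have hmem : ∀ x, x ∈ N ↔ x = 1 ∨ IsConj g x := by
    intro x
    constructor
    · intro hx
      by_contra hno
      push Not at hno
      have hx0 : (χ : G → ℂ) x = 0 := by
        by_contra h0
        rcases hcls x h0 with h1 | h1
        · exact hno.1 h1
        · exact hno.2 h1
      have h1 := sum_irr_mul_conj (G := G) x 1
      rw [if_neg (fun h => hno.1 (isConj_one_right.mp h.symm))] at h1
      have hx' := (hNmem x).mp hx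
      have h2 : ∀ ν : IrrCharacter G, 0 ≤ ((ν : G → ℂ) x * conj ((ν : G → ℂ) 1)).re := by
        intro ν
        by_cases hν : ν = χ
        · rw [hν, hx0]
          simp
        · rw [hx' ν hν, Complex.mul_conj]
          simp [Complex.normSq_nonneg]
      have h3 := congrArg Complex.re h1
      rw [Complex.re_sum, Complex.zero_re] at h3
      have h4 := (Finset.sum_eq_zero_iff_of_nonneg (fun ν _ => h2 ν)).mp h3 (oneIrr G) (Finset.mem_univ _)
      simp at h4
    · rintro (rfl | h)
      · exact N.one_mem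
      · rw [hNmem]
        intro ν hν
        rw [← char_conj_eq (isCharacter_of_isIrrCharacter ν.2) h, hval ν hν]
  have hgN : g ∈ N := (hmem g).mpr (Or.inr (IsConj.refl g))
  have hχN : ∀ x : G, (χ : G → ℂ) x ≠ 0 ↔ x ∈ N := by
    intro x
    rw [hmem]
    constructor
    · exact hcls x
    · rintro (rfl | h)
      · exact hX1
      · rw [← char_conj_eq hχc h]
        exact hgχ
  have hNbot : N ≠ ⊥ := by
    intro h
    rw [h, Subgroup.mem_bot] at hgN
    exact hg1 hgN
  have hNconj : ∀ x ∈ N, ∀ y ∈ N, x ≠ 1 → y ≠ 1 → IsConj x y := by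
    intro x hx y hy hx1 hy1
    have h1 := ((hmem x).mp hx).resolve_left hx1
    have h2 := ((hmem y).mp hy).resolve_left hy1
    exact h1.symm.trans h2
  -- the prime
  obtain ⟨p, hp, hpg⟩ := Nat.exists_prime_and_dvd (n := orderOf g) (by
    rw [Ne, orderOf_eq_one_iff]; exact hg1)
  have hordg : orderOf g = p := by
    have hy := orderOf_pow_orderOf_div (x := g) (orderOf_pos g).ne' hpg
    have hy1 : g ^ (orderOf g / p) ≠ 1 := by
      intro h
      rw [h, orderOf_one] at hy
      exact hp.one_lt.ne hy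
    have hyN : g ^ (orderOf g / p) ∈ N := N.pow_mem hgN _
    have h2 := hNconj g hgN _ hyN hg1 hy1
    rw [← hy]
    obtain ⟨c, hc⟩ := isConj_iff.mp h2
    rw [← hc]
    exact (MulEquiv.orderOf_eq (MulAut.conj c) g).symm
  have hpow : ∀ x ∈ N, x ^ p = 1 := by
    intro x hx
    rcases (hmem x).mp hx with rfl | h
    · simp
    · obtain ⟨c, hc⟩ := isConj_iff.mp h
      rw [← hc, conj_pow, ← hordg, pow_orderOf_eq_one]
      simp
  have := Fact.mk hp
  have hPG : IsPGroup p N := fun x => ⟨1, by
    apply Subtype.ext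
    simpa using hpow x x.2⟩
  have hNnt : Nontrivial N := ⟨⟨⟨g, hgN⟩, 1, fun h => hg1 (congrArg Subtype.val h)⟩⟩
  have hZ := hPG.center_nontrivial
  obtain ⟨c, hc1⟩ := exists_ne (1 : Subgroup.center N)
  have hc1' : ((c : N) : G) ≠ 1 := by
    intro h
    apply hc1
    apply Subtype.ext
    apply Subtype.ext
    exact h
  have habel : IsMulCommutative N := by
    refine ⟨⟨fun x y => ?_⟩⟩
    by_cases hx1 : (x : G) = 1
    · have : x = 1 := Subtype.ext hx1
      rw [this, one_mul, mul_one]
    · obtain ⟨a, ha⟩ := isConj_iff.mp (hNconj _ (c : N).2 _ x.2 hc1' hx1)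
      have hyN : a⁻¹ * (y : G) * a ∈ N := by
        have := hNn.conj_mem y y.2 a⁻¹
        simpa using this
      have hcomm := Subgroup.mem_center_iff.mp c.2 ⟨_, hyN⟩
      have hcomm' : (a⁻¹ * (y : G) * a) * ((c : N) : G) = ((c : N) : G) * (a⁻¹ * (y : G) * a) :=
        congrArg Subtype.val hcomm
      apply Subtype.ext
      show (x : G) * y = y * x
      rw [← ha]
      calc a * ((c : N) : G) * a⁻¹ * (y : G)
          = a * (((c : N) : G) * (a⁻¹ * (y : G) * a)) * a⁻¹ := by group
        _ = a * ((a⁻¹ * (y : G) * a) * ((c : N) : G)) * a⁻¹ := by rw [hcomm']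
        _ = _ := by group
  have hmin : ∀ K : Subgroup G, K.Normal → K ≠ ⊥ → N ≤ K := by
    intro L hLn hL
    by_cases hint : ∃ y ∈ L, y ∈ N ∧ y ≠ 1
    · obtain ⟨y, hyL, hyN, hy1⟩ := hint
      intro x hx
      by_cases hx1 : x = 1
      · rw [hx1]; exact L.one_mem
      · obtain ⟨c, hc⟩ := isConj_iff.mp (hNconj y hyN x hx hy1 hx1)
        rw [← hc]
        exact hLn.conj_mem y hyL c
    · exfalso
      push Not at hint
      have hzero : ∀ y ∈ L, y ≠ 1 → (χ : G → ℂ) y = 0 := by
        intro y hy hy1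
        by_contra h0
        exact hy1 (hint y hy ((hχN y).mp h0))
      obtain ⟨z, hz1⟩ := (Subgroup.ne_bot_iff_exists_ne_one.mp hL)
      obtain ⟨n, ρ, hρ, hρχ⟩ := χ.2
      have := hρ
      have hker : ∃ h ∈ L, ρ h ≠ LinearMap.id := by
        refine ⟨z, z.2, fun h => ?_⟩
        have h1 := (Cfsg.Agent.Lib.Char.Degree.character_eq_one_iff ρ z).mpr h
        rw [hρχ, hzero z z.2 (fun h => hz1 (Subtype.ext h))] at h1
        exact hX1 h1.symm
      have h0 := Cfsg.Agent.Lib.Char.Zeros.sum_subgroup_eq_zero ρ L hker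
      have h1 := congrArg (LinearMap.trace ℂ _) h0
      rw [map_sum, map_zero] at h1
      have h2 : ∑ h : L, ρ.character (h : G) = 0 := h1
      rw [Finset.sum_eq_single (1 : L)] at h2
      · rw [hρχ] at h2
        exact hX1 h2
      · intro b _ hb
        rw [hρχ]
        exact hzero b b.2 (fun h => hb (Subtype.ext h))
      · simp
  refine ⟨N, hNn, hNbot, hmin, ⟨p, hp, habel, hpow⟩, hχN, ?_⟩
  intro x hx y hy hx1 hy1
  obtain ⟨c, hc⟩ := isConj_iff.mp (hNconj x hx y hy hx1 hy1)
  exact ⟨c, hc⟩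

end Cfsg.Agent.S4835
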