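import Cfsg.Statements.S4838
import Cfsg.Agent.Lib.Gagola.Camina

set_option autoImplicit false
open Cfsg

namespace Cfsg.Agent.S4838

open Cfsg.Agent.Lib.Gagola.Normal Cfsg.Agent.Lib.Gagola.Camina

/-- Let G be a finite group of order greater than 2 with an irreducible character χ nonzero on exactly two conjugacy classes, N the normal p-subgroup of elements where χ is nonzero, and P a Sylow p-subgroup of G. Then (a) for every x outside N the centralizer of x in G has the same order as the centralizer of xN in G/N; (b) the centre of P lies in N, and equals N exactly when P is normal in G; (c) N, viewed inside P, is a term of the upper central series of P. -/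
theorem result {G : Type*} [Group G] [Finite G] (hG : 2 < Nat.card G) (χ : Cfsg.IrrCharacter G) (hχ : Nat.card {C : ConjClasses G // ∃ g ∈ C.carrier, (χ : G → ℂ) g ≠ 0} = 2) (p : ℕ) [Fact p.Prime] (N : Subgroup G) [N.Normal] (hN : ∀ g : G, g ∈ N ↔ (χ : G → ℂ) g ≠ 0) (hNp : IsPGroup p N) (hN1 : N ≠ ⊥) (P : Sylow p G) :
    (∀ x : G, x ∉ N → Nat.card (Subgroup.centralizer ({x} : Set G)) = Nat.card (Subgroup.centralizer ({(x : G ⧸ N)} : Set (G ⧸ N)))) ∧
      ((Subgroup.center ↥(P : Subgroup G)).map (P : Subgroup G).subtype ≤ N ∧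
        ((Subgroup.center ↥(P : Subgroup G)).map (P : Subgroup G).subtype = N ↔ (P : Subgroup G).Normal)) ∧
      (∃ i : ℕ, Subgroup.upperCentralSeries ↥(P : Subgroup G) i = N.subgroupOf (P : Subgroup G)) := by
  classical
  have hNP : N ≤ (P : Subgroup G) := hNp.le_sylow_of_normal P
  have hZN : (Subgroup.center ↥(P : Subgroup G)).map (P : Subgroup G).subtype ≤ N := by
    -- the center of `P` lies in `N`
    rintro _ ⟨⟨z, hzP⟩, hz, rfl⟩
    simp only [Subgroup.coe_subtype]
    by_contra hzN
    have hcomm : ∀ u ∈ (P : Subgroup G), z⁻¹ * u * z * u⁻¹ ∈ N := by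
      intro u hu
      have h1 : (⟨u, hu⟩ : (P : Subgroup G)) * ⟨z, hzP⟩ = ⟨z, hzP⟩ * ⟨u, hu⟩ :=
        (Subgroup.mem_center_iff.mp hz) ⟨u, hu⟩
      have h2 : u * z = z * u := congrArg Subtype.val h1
      have h3 : z⁻¹ * u * z * u⁻¹ = 1 := by
        rw [mul_assoc z⁻¹, h2]
        group
      rw [h3]
      exact N.one_mem
    apply hN1
    rw [eq_bot_iff]
    intro n hn
    obtain ⟨u, hu, huz⟩ := orbit_surj χ N hG hχ hN hNp P hzN hcomm n hn
    have h1 : (⟨u, hu⟩ : (P : Subgroup G)) * ⟨z, hzP⟩ = ⟨z, hzP⟩ * ⟨u, hu⟩ :=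
      (Subgroup.mem_center_iff.mp hz) ⟨u, hu⟩
    have h2 : u * z = z * u := congrArg Subtype.val h1
    have h3 : u * z * u⁻¹ = z := by rw [h2]; group
    rw [h3] at huz
    exact Subgroup.mem_bot.mpr (by simpa using huz.symm)
  refine ⟨fun x hx => card_centralizer_eq χ N hG hχ hN hx, ⟨hZN, ?_⟩, ?_⟩
  · constructor
    · intro hZ
      have hcent : ∀ x ∈ N, x ≠ 1 → Subgroup.centralizer ({x} : Set G) = (P : Subgroup G) := by
        intro x hx hx1
        obtain ⟨Q, hQ⟩ := centralizer_sylow χ N hG hχ hN hNp hx hx1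
        have hle : (P : Subgroup G) ≤ Q := by
          rw [← hQ]
          intro u hu
          rw [Subgroup.mem_centralizer_singleton_iff]
          rw [← hZ] at hx
          obtain ⟨⟨x', hx'P⟩, hx'Z, rfl⟩ := hx
          have h1 := (Subgroup.mem_center_iff.mp hx'Z) ⟨u, hu⟩
          exact congrArg Subtype.val h1
        rw [hQ]
        exact P.is_maximal' Q.isPGroup' hle
      obtain ⟨x, hx1⟩ := Subgroup.ne_bot_iff_exists_ne_one.mp hN1
      obtain ⟨x, hx⟩ := x
      have hx1 : x ≠ 1 := fun h => hx1 (Subtype.ext h)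
      constructor
      intro u hu g
      have hy : g⁻¹ * x * g ∈ N := by
        have := (inferInstance : N.Normal).conj_mem x hx g⁻¹
        simpa using this
      have hy1 : g⁻¹ * x * g ≠ 1 := by
        intro h
        apply hx1
        have : x = g * (g⁻¹ * x * g) * g⁻¹ := by group
        rw [this, h]
        group
      have hu' : u ∈ Subgroup.centralizer ({g⁻¹ * x * g} : Set G) := by
        rw [hcent _ hy hy1]
        exact hu
      rw [Subgroup.mem_centralizer_singleton_iff] at hu'
      rw [← hcent x hx hx1, Subgroup.mem_centralizer_singleton_iff]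
      calc g * u * g⁻¹ * x = g * (u * (g⁻¹ * x * g)) * g⁻¹ := by group
        _ = g * ((g⁻¹ * x * g) * u) * g⁻¹ := by rw [hu']
        _ = x * (g * u * g⁻¹) := by group
    · intro hPn
      apply le_antisymm hZN
      intro x hx
      by_cases hx1 : x = 1
      · rw [hx1]; exact Subgroup.one_mem _
      obtain ⟨Q, hQ⟩ := centralizer_sylow χ N hG hχ hN hNp hx hx1
      have hQP : Q = P := by
        let _ := Sylow.unique_of_normal P hPn
        exact Subsingleton.elim _ _
      refine ⟨⟨x, hNP hx⟩, ?_, rfl⟩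
      rw [SetLike.mem_coe, Subgroup.mem_center_iff]
      rintro ⟨u, hu⟩
      apply Subtype.ext
      have hu' : u ∈ Subgroup.centralizer ({x} : Set G) := by
        rw [hQ, hQP]
        exact hu
      rw [Subgroup.mem_centralizer_singleton_iff] at hu'
      exact hu'
  · by_contra hne
    push Not at hne
    have hall : ∀ j, Subgroup.upperCentralSeries ↥(P : Subgroup G) j ≤ N.subgroupOf (P : Subgroup G) := by
      intro j
      induction j with
      | zero =>
        rw [Subgroup.upperCentralSeries_zero]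
        exact bot_le
      | succ j ih =>
        intro z hz
        by_contra hzM
        have hzN : (z : G) ∉ N := hzM
        have hzinv' := (Subgroup.upperCentralSeries ↥(P : Subgroup G) (j + 1)).inv_mem hz
        rw [Subgroup.mem_upperCentralSeries_succ_iff] at hzinv'
        have hzinv : ∀ y : (P : Subgroup G), z⁻¹ * y * z⁻¹⁻¹ * y⁻¹ ∈
            Subgroup.upperCentralSeries ↥(P : Subgroup G) j := fun y => by
          have := hzinv' y
          rwa [commutatorElement_def] at this
        have hcomm : ∀ u ∈ (P : Subgroup G), (z : G)⁻¹ * u * z * u⁻¹ ∈ N := by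
          intro u hu
          have h1 := ih (hzinv ⟨u, hu⟩)
          have h2 : ((z⁻¹ * ⟨u, hu⟩ * z⁻¹⁻¹ * (⟨u, hu⟩ : (P : Subgroup G))⁻¹ : (P : Subgroup G)) : G) ∈ N := h1
          simpa using h2
        apply hne j
        apply le_antisymm ih
        intro n hn
        obtain ⟨u, hu, huz⟩ := orbit_surj χ N hG hχ hN hNp P hzN hcomm n hn
        have h1 := hzinv ⟨u, hu⟩
        have h2 : z⁻¹ * ⟨u, hu⟩ * z⁻¹⁻¹ * (⟨u, hu⟩ : (P : Subgroup G))⁻¹ = n := by
          apply Subtype.ext
          have h3 : (n : G) = (z : G)⁻¹ * (u * z * u⁻¹) := by rw [huz]; group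
          rw [h3]
          simp only [Subgroup.coe_mul, InvMemClass.coe_inv, inv_inv]
          group
        rw [h2] at h1
        exact h1
    have hnil : Group.IsNilpotent ↥(P : Subgroup G) := P.isPGroup'.isNilpotent
    obtain ⟨k, hk⟩ := Group.IsNilpotent.nilpotent' (G := ↥(P : Subgroup G))
    apply hne k
    apply le_antisymm (hall k)
    rw [hk]
    exact le_top

end Cfsg.Agent.S4838
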