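import Cfsg.Statements.S4843
import Cfsg.Agent.Lib.OddChar.GaloisConj
import Cfsg.Agent.Lib.Char.CliffordCorr
import Cfsg.Agent.Lib.Char.IndRep
import Cfsg.Agent.Lib.Char.Burnside
import Cfsg.Agent.Lib.Char.Decomp
import Cfsg.Agent.Lib.Char.Linear
import Cfsg.Agent.Lib.Char.Gallagher
import Cfsg.Agent.Lib.CharZeros.Amgm
import Mathlib.Tactic

set_option autoImplicit false
set_option linter.style.haveILetI false
open Cfsg

namespace Cfsg.Agent.S4843

open Module
open Cfsg.Agent.Lib.Char.Basic Cfsg.Agent.Lib.Char.Ortho Cfsg.Agent.Lib.Char.Complete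
open Cfsg.Agent.Lib.Char.Clifford Cfsg.Agent.Lib.Char.CliffordCorr Cfsg.Agent.Lib.Char.Induced
open Cfsg.Agent.Lib.Char.IndRep Cfsg.Agent.Lib.Char.Conj Cfsg.Agent.Lib.Char.Gallagher
open Cfsg.Agent.Lib.OddChar.GaloisConj
open scoped ComplexConjugate

section General

variable {G : Type*} [Group G] [Fintype G]

/-- The norm of the twisted product. -/
theorem inner_twist (χ : G → ℂ) (k : ℕ) :
    classInner (fun g => χ g * χ (g ^ k)) (fun g => χ g * χ (g ^ k)) =
      classInner (fun g => χ g * conj (χ g)) (fun g => χ (g ^ k) * conj (χ (g ^ k))) := by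
  simp only [classInner_def]
  congr 1
  refine Finset.sum_congr rfl fun g _ => ?_
  simp only [map_mul, Complex.conj_conj]
  ring

/-- The key criterion: a rational part of `χ χ̄` which is not `1` but contains `1`. -/
theorem not_irr_of_decomp {χ : G → ℂ} {k : ℕ} (hk : k.Coprime (Nat.card G))
    {π κ : G → ℂ} (hπ : IsCharacter G π) (hκ : IsCharacter G κ)
    (hf : ∀ g, χ g * conj (χ g) = π g + κ g) (hrat : ∀ g, π (g ^ k) = π g)
    (hone : classInner π (fun _ => 1) ≠ 0) (hdeg : π 1 ≠ 1) :
    ¬ IsIrrCharacter G (fun g => χ g * χ (g ^ k)) := by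
  intro hirr
  have h1 := classInner_self_of_isIrr hirr
  rw [inner_twist] at h1
  have hκk : IsCharacter G (fun g => κ (g ^ k)) := isCharacter_pow hk hκ
  have e1 : (fun g => χ g * conj (χ g)) = π + κ := by
    funext g; simp [hf]
  have e2 : (fun g => χ (g ^ k) * conj (χ (g ^ k))) = π + (fun g => κ (g ^ k)) := by
    funext g; simp [hf, hrat]
  rw [e1, e2, classInner_add_left, classInner_add_right, classInner_add_right] at h1
  obtain ⟨a, ha⟩ := exists_nat_classInner hπ hπ
  obtain ⟨b, hb⟩ := exists_nat_classInner hπ hκk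
  obtain ⟨c, hc⟩ := exists_nat_classInner hκ hπ
  obtain ⟨d, hd⟩ := exists_nat_classInner hκ hκk
  rw [ha, hb, hc, hd] at h1
  have h2 : a + b + (c + d) = 1 := by exact_mod_cast h1
  -- π = 1 + π'
  have hπ' : IsCharacter G (π - fun _ => (1 : ℂ)) :=
    isCharacter_sub_of_classInner_ne_zero hπ Cfsg.Agent.Lib.Char.Burnside.isIrrCharacter_one hone
  have hone' : IsCharacter G (fun _ => (1 : ℂ)) := isCharacter_one
  set π' : G → ℂ := π - fun _ => (1 : ℂ) with hπ'def
  have e3 : π = (fun _ => (1 : ℂ)) + π' := by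
    funext g; simp [π']
  have hne : π' ≠ 0 := by
    intro h0
    have := congrFun h0 1
    simp only [π', Pi.sub_apply, Pi.zero_apply] at this
    exact hdeg (sub_eq_zero.mp this)
  have h3 : classInner π π = 1 + classInner (fun _ => (1 : ℂ)) π' +
      (classInner π' (fun _ => (1 : ℂ)) + classInner π' π') := by
    conv_lhs => rw [e3]
    rw [classInner_add_left, classInner_add_right, classInner_add_right,
      classInner_self_of_isIrr Cfsg.Agent.Lib.Char.Burnside.isIrrCharacter_one]
  obtain ⟨p, hp⟩ := exists_nat_classInner hone' hπ'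
  obtain ⟨q, hq⟩ := exists_nat_classInner hπ' hone'
  obtain ⟨r, hr⟩ := exists_nat_classInner hπ' hπ'
  rw [hp, hq, hr, ha] at h3
  have h4 : a = 1 + p + (q + r) := by exact_mod_cast h3
  have hr0 : r ≠ 0 := by
    rintro rfl
    apply hne
    rw [← classInner_self_eq_zero_iff, hr]
    simp
  omega

end General

section Abelian

variable {G : Type*} [Group G] [Fintype G]

/-- Case 1: abelian normal subgroups are central. -/
theorem central_of_abelian {χ : G → ℂ} (hχ : IsIrrCharacter G χ)
    (hfaith : ∀ g : G, χ g = χ 1 → g = 1) {k : ℕ} (hk : k.Coprime (Nat.card G))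
    (hirr : IsIrrCharacter G (fun g => χ g * χ (g ^ k)))
    (A : Subgroup G) (hA : A.Normal) (hab : ∀ a ∈ A, ∀ b ∈ A, a * b = b * a) :
    A ≤ Subgroup.center G := by
  classical
  let _ : Fintype A := Fintype.ofFinite _
  have hχc := isCharacter_of_isIrrCharacter hχ
  have hχcf := isClassFunction_of_isCharacter hχc
  have hres : IsClassFunction A (fun n : A => χ n) :=
    isClassFunction_of_isCharacter (isCharacter_restrict A hχc)
  have hres0 : (fun n : A => χ n) ≠ 0 := by
    intro h0
    have := congrFun h0 1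
    exact irr_one_ne_zero hχ (by simpa using this)
  obtain ⟨lam, hlam, hcon⟩ := exists_irr_constituent hres hres0
  have hlamc := isCharacter_of_isIrrCharacter hlam
  have hlamcf := isClassFunction_of_isCharacter hlamc
  set T : Subgroup G := inertia hA lam with hTdef
  let _ : Fintype T := Fintype.ofFinite _
  have hNT : A ≤ T := le_inertia hA hlamcf
  obtain ⟨ψ, hψ, hind, -⟩ := exists_irr_inertia_of_lies_over hA hNT hlam rfl hχ hcon
  by_cases hTtop : T = ⊤
  · -- the invariant case
    have hinv : ∀ g : G, conjOn hA g lam = lam := by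
      intro g
      have hg : g ∈ T := by rw [hTtop]; trivial
      exact (mem_inertia hA lam g).mp hg
    have hcl := clifford_restrict hA hχ hlam hcon
    have horb : orbitFinset hA lam = {lam} := by
      ext φ
      rw [mem_orbitFinset, Finset.mem_singleton]
      constructor
      · rintro ⟨g, rfl⟩
        exact hinv g
      · rintro rfl
        exact ⟨1, conjOn_one hA _⟩
    rw [horb, Finset.sum_singleton] at hcl
    set c := classInner (fun n : A => χ n) lam with hc
    have hcomm : ∀ a b : A, a * b = b * a := fun a b =>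
      Subtype.ext (hab a a.2 b b.2)
    have h1 : lam 1 = 1 := Cfsg.Agent.Lib.Char.Linear.isIrr_deg_one_of_comm hcomm hlam
    have hmul := Cfsg.Agent.Lib.Char.Linear.deg_one_mul hlamc h1
    have hχA : ∀ a : A, χ a = c * lam a := fun a => by
      have := congrFun hcl a
      simpa using this
    have hχ1 : χ 1 = c := by
      have := hχA 1
      rwa [h1, mul_one, OneMemClass.coe_one] at this
    intro a ha
    rw [Subgroup.mem_center_iff]
    intro g
    have hgconj : g * a⁻¹ * g⁻¹ ∈ A := hA.conj_mem _ (inv_mem ha) g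
    have hc' : a * (g * a⁻¹ * g⁻¹) ∈ A := mul_mem ha hgconj
    have h2 : lam ⟨a * (g * a⁻¹ * g⁻¹), hc'⟩ = 1 := by
      have e : (⟨a * (g * a⁻¹ * g⁻¹), hc'⟩ : A) = ⟨a, ha⟩ * ⟨g * a⁻¹ * g⁻¹, hgconj⟩ := rfl
      rw [e, hmul]
      have h3 : lam ⟨g * a⁻¹ * g⁻¹, hgconj⟩ = lam (⟨a, ha⟩ : A)⁻¹ := by
        have := congrFun (hinv g) (⟨a, ha⟩ : A)⁻¹
        rw [conjOn_apply] at this
        exact this
      rw [h3, ← hmul, mul_inv_cancel, h1]
    have h4 := hχA ⟨a * (g * a⁻¹ * g⁻¹), hc'⟩
    rw [h2, mul_one, ← hχ1] at h4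
    have h5 := hfaith _ h4
    have h6 : a * (g * a⁻¹ * g⁻¹) = 1 := h5
    have h7 : a * g * a⁻¹ = g := by
      have : a * g * a⁻¹ * g⁻¹ = 1 := by rw [← h6]; group
      exact mul_inv_eq_one.mp this
    exact (mul_inv_eq_iff_eq_mul.mp h7).symm
  · exfalso
    have hψc := isCharacter_of_isIrrCharacter hψ
    have hconjT : IsCharacter T (fun t : T => conj (χ t)) := by
      have h1 := isCharacter_inv (isCharacter_restrict T hχc)
      convert h1 using 1
      funext t
      have h2 := char_inv_eq_conj (isCharacter_restrict T hχc) t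
      exact h2.symm
    have hβ : IsCharacter T (ψ * fun t : T => conj (χ t)) := isCharacter_mul hψc hconjT
    have hcfconj : IsClassFunction G (fun g => conj (χ g)) := fun g h => by
      simp only [hχcf g h]
    have hone_T : IsIrrCharacter T (fun _ : T => (1 : ℂ)) :=
      Cfsg.Agent.Lib.Char.Burnside.isIrrCharacter_one
    have hβ1 : classInner (ψ * fun t : T => conj (χ t)) (fun _ : T => (1 : ℂ)) ≠ 0 := by
      have h1 : classInner (ψ * fun t : T => conj (χ t)) (fun _ : T => (1 : ℂ)) =
          classInner ψ (fun t : T => χ t) := by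
        simp only [classInner_def, Pi.mul_apply, map_one, mul_one]
      rw [h1, ← classInner_indFun_left T ψ χ hχcf, hind, classInner_self_of_isIrr hχ]
      exact one_ne_zero
    have hκ₀ := isCharacter_sub_of_classInner_ne_zero hβ hone_T hβ1
    set κ₀ : T → ℂ := (ψ * fun t : T => conj (χ t)) - fun _ => (1 : ℂ) with hκ₀def
    have hβeq : (ψ * fun t : T => conj (χ t)) = (fun _ => (1 : ℂ)) + κ₀ := by
      funext t; simp [κ₀]
    have hf : ∀ g, χ g * conj (χ g) = indFun T (fun _ => (1 : ℂ)) g + indFun T κ₀ g := by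
      intro g
      have h1 := congrFun (indFun_mul_of_isClassFunction T ψ hcfconj) g
      rw [Pi.mul_apply, hind] at h1
      rw [h1, hβeq, indFun_add]
      rfl
    refine not_irr_of_decomp hk (isCharacter_indFun T (isCharacter_of_isIrrCharacter hone_T)) (isCharacter_indFun T hκ₀) hf ?_ ?_ ?_ hirr
    · intro y
      simp only [indFun_apply]
      congr 1
      refine Finset.sum_congr rfl fun x _ => ?_
      have e : x⁻¹ * y ^ k * x = (x⁻¹ * y * x) ^ k := by
        have := conj_pow (a := x⁻¹) (b := y) (i := k)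
        simpa using this.symm
      rw [e]
      by_cases hy : x⁻¹ * y * x ∈ T
      · rw [extendByZero_of_mem _ _ hy, extendByZero_of_mem _ _ (T.pow_mem hy k)]
      · rw [extendByZero_of_not_mem _ _ hy, extendByZero_of_not_mem _ _
          (Cfsg.Agent.Lib.CharZeros.Amgm.pow_notMem_of_coprime T hk hy)]
    · rw [classInner_indFun_left T _ (fun _ => (1 : ℂ)) (fun _ _ => rfl)]
      rw [classInner_self_of_isIrr hone_T]
      exact one_ne_zero
    · rw [indFun_one]
      simp only [mul_one]
      intro h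
      have h2 : T.index = 1 := by exact_mod_cast h
      exact hTtop (Subgroup.index_eq_one.mp h2)

end Abelian

section TraceLemma

theorem trace_restrict_eq {E : Type*} [AddCommGroup E] [Module ℂ E] {ι : Type*} [Fintype ι]
    [DecidableEq ι] (u : ι → E) (ℓ : ι → (E →ₗ[ℂ] ℂ))
    (hℓ : ∀ i j, ℓ i (u j) = if i = j then 1 else 0)
    (U : Submodule ℂ E) (hU : U = Submodule.span ℂ (Set.range u)) (g : U →ₗ[ℂ] U)
    (T : E →ₗ[ℂ] E) (hg : ∀ x : U, (g x : E) = T x) :
    LinearMap.trace ℂ U g = ∑ i, ℓ i (T (u i)) := by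
  subst hU
  have hli : LinearIndependent ℂ u := by
    rw [Fintype.linearIndependent_iff]
    intro c hc i
    have h1 := congrArg (ℓ i) hc
    simp only [map_sum, map_smul, hℓ, map_zero, smul_eq_mul, mul_ite, mul_one, mul_zero,
      Finset.sum_ite_eq, Finset.mem_univ, if_true] at h1
    exact h1
  let b := Module.Basis.span hli
  have hb : ∀ i, (b i : E) = u i := fun i => congrArg Subtype.val (Module.Basis.span_apply hli i)
  have hrepr : ∀ (i : ι) (x : Submodule.span ℂ (Set.range u)), b.repr x i = ℓ i (x : E) := by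
    intro i x
    have : (b.coord i) = (ℓ i) ∘ₗ (Submodule.span ℂ (Set.range u)).subtype := by
      apply b.ext
      intro j
      simp only [Module.Basis.coord_apply, LinearMap.comp_apply, Submodule.subtype_apply, hb, hℓ,
        Module.Basis.repr_self, Finsupp.single_apply]
      by_cases hij : i = j
      · simp [hij]
      · simp [hij, Ne.symm hij]
    have h2 := congrArg (fun f => f x) this
    simpa using h2
  rw [LinearMap.trace_eq_matrix_trace ℂ b g, Matrix.trace]
  refine Finset.sum_congr rfl fun i _ => ?_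
  rw [Matrix.diag_apply, LinearMap.toMatrix_apply, hrepr, hg, hb]

end TraceLemma

section Commutators

variable {G : Type*} [Group G]

/-- `a⁻¹ y a y⁻¹`. -/
def tt (a y : G) : G := a⁻¹ * y * a * y⁻¹

theorem tt_pow_right {a y z : G} (hz : z ∈ Subgroup.center G) (h : tt a y = z) (j : ℕ) :
    tt a (y ^ j) = z ^ j := by
  have hc : ∀ x, z * x = x * z := fun x => (Subgroup.mem_center_iff.mp hz x).symm
  induction j with
  | zero => simp [tt]
  | succ j ih =>
    have h1 : a⁻¹ * y ^ j * a = z ^ j * y ^ j := by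
      have : tt a (y ^ j) * y ^ j = a⁻¹ * y ^ j * a := by simp [tt]
      rw [← this, ih]
    have h2 : a⁻¹ * y * a = z * y := by
      have : tt a y * y = a⁻¹ * y * a := by simp [tt]
      rw [← this, h]
    have h3 : a⁻¹ * y ^ (j + 1) * a = (a⁻¹ * y ^ j * a) * (a⁻¹ * y * a) := by
      rw [pow_succ]; group
    have h4 : tt a (y ^ (j + 1)) = (a⁻¹ * y ^ (j + 1) * a) * (y ^ (j + 1))⁻¹ := rfl
    rw [h4, h3, h1, h2, pow_succ z, pow_succ y]
    have hcj : z * y ^ j = y ^ j * z := hc _
    calc z ^ j * y ^ j * (z * y) * (y ^ j * y)⁻¹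
        = z ^ j * (y ^ j * z) * y * (y ^ j * y)⁻¹ := by group
      _ = z ^ j * (z * y ^ j) * y * (y ^ j * y)⁻¹ := by rw [hcj]
      _ = z ^ j * z := by group

theorem tt_pow_left {a y z : G} (hz : z ∈ Subgroup.center G) (h : tt a y = z) (j : ℕ) :
    tt (a ^ j) y = z ^ j := by
  have hc : ∀ x, z * x = x * z := fun x => (Subgroup.mem_center_iff.mp hz x).symm
  induction j with
  | zero => simp [tt]
  | succ j ih =>
    have h1 : y * a ^ j * y⁻¹ = a ^ j * z ^ j := by
      have : a ^ j * tt (a ^ j) y = y * a ^ j * y⁻¹ := by simp [tt, mul_assoc]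
      rw [← this, ih]
    have h2 : y * a * y⁻¹ = a * z := by
      have : a * tt a y = y * a * y⁻¹ := by simp [tt, mul_assoc]
      rw [← this, h]
    have h3 : y * a ^ (j + 1) * y⁻¹ = (y * a ^ j * y⁻¹) * (y * a * y⁻¹) := by
      rw [pow_succ]; group
    have h4 : tt (a ^ (j + 1)) y = (a ^ (j + 1))⁻¹ * (y * a ^ (j + 1) * y⁻¹) := by
      simp [tt, mul_assoc]
    rw [h4, h3, h1, h2, pow_succ z, pow_succ a]
    have hcj : z ^ j * a = a * z ^ j := by
      induction j with
      | zero => simp
      | succ j _ =>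
        exact (Commute.pow_left (show Commute z a from hc a) (j + 1))
    calc (a ^ j * a)⁻¹ * (a ^ j * z ^ j * (a * z))
        = a⁻¹ * (z ^ j * a) * z := by group
      _ = a⁻¹ * (a * z ^ j) * z := by rw [hcj]
      _ = z ^ j * z := by group

/-- The pointwise comparison of commutators under powers. -/
theorem tt_pow_comm {a y : G} (h : tt a y ∈ Subgroup.center G) (k : ℕ) :
    tt a (y ^ k) = tt (a ^ k) y := by
  rw [tt_pow_right h rfl k, tt_pow_left h rfl k]

end Commutators

section Case2

variable {G : Type*} [Group G] [Fintype G]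
variable {V : Type*} [AddCommGroup V] [Module ℂ V] [FiniteDimensional ℂ V]

theorem scalar_of_center (ρ : Representation ℂ G V) (hρ : ρ.IsIrreducible) {z : G}
    (hz : z ∈ Subgroup.center G) : ∃ c : ℂ, ρ z = c • LinearMap.id := by
  refine schur_scalar ρ hρ (ρ z) fun g => ?_
  have h1 : ρ z * ρ g = ρ g * ρ z := by
    rw [← map_mul, ← map_mul, (Subgroup.mem_center_iff.mp hz g).symm]
  exact h1

theorem vanish_of_not_center (ρ : Representation ℂ G V) (hρ : ρ.IsIrreducible)
    (hfaith : ∀ g : G, ρ.character g = ρ.character 1 → g = 1) {a b : G}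
    (hz : a * b * a⁻¹ * b⁻¹ ∈ Subgroup.center G) (hab : a * b ≠ b * a) : ρ.character a = 0 := by
  set z := a * b * a⁻¹ * b⁻¹ with hzdef
  obtain ⟨c, hc⟩ := scalar_of_center ρ hρ hz
  have hz1 : z ≠ 1 := by
    intro h
    apply hab
    have : a * b * a⁻¹ = b := by
      rw [hzdef] at h
      exact mul_inv_eq_one.mp h
    exact mul_inv_eq_iff_eq_mul.mp this
  have hc1 : c ≠ 1 := by
    rintro rfl
    apply hz1
    apply hfaith
    simp only [Representation.character, hc, one_smul, map_one]
    rfl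
  have ha : a = z * (b * a * b⁻¹) := by rw [hzdef]; group
  have h1 : ρ.character a = c * ρ.character a := by
    conv_lhs => rw [ha]
    have h2 : ρ.character (z * (b * a * b⁻¹)) = c * ρ.character (b * a * b⁻¹) := by
      simp only [Representation.character, map_mul (ρ) z, hc]
      rw [Module.End.mul_eq_comp, LinearMap.smul_comp, LinearMap.id_comp, map_smul]
      rfl
    rw [h2, Representation.char_conj]
  have h3 : (1 - c) * ρ.character a = 0 := by
    rw [sub_mul, one_mul, ← h1, sub_self]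
  rcases mul_eq_zero.mp h3 with h4 | h4
  · exact absurd (sub_eq_zero.mp h4).symm hc1
  · exact h4

theorem not_irr_case2 (ρ : Representation ℂ G V) (hρ : ρ.IsIrreducible)
    (hfaith : ∀ g : G, ρ.character g = ρ.character 1 → g = 1) {k : ℕ}
    (hk : k.Coprime (Nat.card G)) (A : Subgroup G) (hA : A.Normal)
    (hcomm : ∀ a ∈ A, ∀ b ∈ A, a * b * a⁻¹ * b⁻¹ ∈ Subgroup.center G)
    (hnc : ∀ a ∈ A, a ∉ Subgroup.center G → ∃ b ∈ A, a * b ≠ b * a)
    (hne : ∃ a ∈ A, a ∉ Subgroup.center G) :
    ¬ IsIrrCharacter G (fun g => ρ.character g * ρ.character (g ^ k)) := by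
  classical
  set χ := ρ.character with hχdef
  have hvan : ∀ a ∈ A, a ∉ Subgroup.center G → χ a = 0 := by
    intro a ha hna
    obtain ⟨b, hb, hab⟩ := hnc a ha hna
    exact vanish_of_not_center ρ hρ hfaith (hcomm a ha b hb) hab
  have hnt := nontrivial_of_isIrreducible hρ
  have hd : (finrank ℂ V : ℂ) ≠ 0 := by
    have : 0 < finrank ℂ V := Module.finrank_pos
    exact_mod_cast this.ne'
  set d : ℂ := (finrank ℂ V : ℂ) with hddef
  have hχ1 : χ 1 = d := Representation.char_one ρ
  let Zs : Subgroup A := (Subgroup.center G).subgroupOf A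
  have hZs : Zs.Normal := Subgroup.normal_subgroupOf
  let Q := A ⧸ Zs
  let _ : Fintype Q := Fintype.ofFinite _
  let mkQ : A →* Q := QuotientGroup.mk' Zs
  let s : Q → A := Quotient.out
  have hs : ∀ i : Q, mkQ (s i) = i := fun i => QuotientGroup.out_eq' i
  have hsrel : ∀ a : A, (s (mkQ a) : G)⁻¹ * a ∈ Subgroup.center G := by
    intro a
    have h1 : mkQ (s (mkQ a)) = mkQ a := hs _
    have h2 := QuotientGroup.eq.mp h1
    exact h2
  have hsne : ∀ i j : Q, i ≠ j → ((s i : G)⁻¹ * s j) ∉ Subgroup.center G := by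
    intro i j hij h
    apply hij
    rw [← hs i, ← hs j]
    exact QuotientGroup.eq.mpr h
  have hsA : ∀ i j : Q, ((s i : G)⁻¹ * s j) ∈ A := fun i j => mul_mem (inv_mem (s i).2) (s j).2
  let u : Q → Module.End ℂ V := fun i => ρ (s i)
  let ℓ : Q → (Module.End ℂ V →ₗ[ℂ] ℂ) := fun i =>
    d⁻¹ • ((LinearMap.trace ℂ V) ∘ₗ LinearMap.mulLeft ℂ (ρ ((s i : G)⁻¹)))
  have hℓapply : ∀ i (T : Module.End ℂ V), ℓ i T = d⁻¹ * LinearMap.trace ℂ V (ρ ((s i : G)⁻¹) * T) :=
    fun i T => rfl
  have hℓu : ∀ i j, ℓ i (u j) = if i = j then 1 else 0 := by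
    intro i j
    rw [hℓapply]
    have h1 : ρ ((s i : G)⁻¹) * u j = ρ ((s i : G)⁻¹ * s j) := by
      rw [map_mul]
    rw [h1]
    change d⁻¹ * χ _ = _
    by_cases hij : i = j
    · subst hij
      rw [if_pos rfl, inv_mul_cancel, hχ1, inv_mul_cancel₀ hd]
    · rw [if_neg hij, hvan _ (hsA i j) (hsne i j hij), mul_zero]
  -- the span
  set W : Submodule ℂ (Module.End ℂ V) := Submodule.span ℂ (Set.range u) with hW
  have hmemW : ∀ a ∈ A, (ρ a : Module.End ℂ V) ∈ W := by
    intro a ha
    have h1 := hsrel ⟨a, ha⟩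
    obtain ⟨c, hc⟩ := scalar_of_center ρ hρ h1
    have h2 : a = (s (mkQ ⟨a, ha⟩) : G) * ((s (mkQ ⟨a, ha⟩) : G)⁻¹ * a) := by group
    rw [h2, map_mul, hc]
    have h3 : (ρ ((s (mkQ ⟨a, ha⟩) : G)) : Module.End ℂ V) * c • LinearMap.id =
        c • u (mkQ ⟨a, ha⟩) := by
      rw [mul_smul_comm]
      rfl
    rw [h3]
    exact W.smul_mem c (Submodule.subset_span ⟨_, rfl⟩)
  let R := Representation.linHom ρ ρ
  have hRu : ∀ y i, R y (u i) = (ρ (y * s i * y⁻¹) : Module.End ℂ V) := by
    intro y i
    rw [Representation.linHom_apply]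
    ext v
    simp [u, map_mul]
  let U : Subrepresentation R := ⟨W, by
    intro y x hx
    have h1 : W ≤ W.comap (R y) := by
      rw [hW, Submodule.span_le]
      rintro _ ⟨i, rfl⟩
      rw [SetLike.mem_coe, Submodule.mem_comap, hRu]
      exact hmemW _ (hA.conj_mem _ (s i).2 y)
    exact h1 hx⟩
  obtain ⟨U', hU'⟩ := Cfsg.Agent.Lib.Char.Decomp.exists_isCompl_subrep U
  have hchar := Cfsg.Agent.Lib.Char.Decomp.character_eq_add_of_isCompl hU'
  have hπ : ∀ y, U.toRepresentation.character y = ∑ i, d⁻¹ * χ (tt (s i : G) y) := by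
    intro y
    change LinearMap.trace ℂ W _ = _
    rw [trace_restrict_eq u ℓ hℓu W rfl (U.toRepresentation y) (R y) (fun x => rfl)]
    refine Finset.sum_congr rfl fun i _ => ?_
    rw [hℓapply, hRu, ← map_mul]
    have : (s i : G)⁻¹ * (y * s i * y⁻¹) = tt (s i : G) y := by simp [tt, mul_assoc]
    rw [this]
    rfl
  -- well-definedness on cosets
  have htt : ∀ (a : A) (y : G), χ (tt (s (mkQ a) : G) y) = χ (tt (a : G) y) := by
    intro a y
    have h1 := hsrel a
    set w := (s (mkQ a) : G)⁻¹ * a with hw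
    have h2 : (a : G) = (s (mkQ a) : G) * w := by rw [hw]; group
    have hcw : ∀ x, w * x = x * w := fun x => (Subgroup.mem_center_iff.mp h1 x).symm
    have h3 : tt (a : G) y = tt (s (mkQ a) : G) y := by
      simp only [tt]
      rw [h2]
      calc ((s (mkQ a) : G) * w)⁻¹ * y * ((s (mkQ a) : G) * w) * y⁻¹
          = w⁻¹ * ((s (mkQ a) : G)⁻¹ * y * (s (mkQ a) : G)) * w * y⁻¹ := by group
        _ = w⁻¹ * (w * ((s (mkQ a) : G)⁻¹ * y * (s (mkQ a) : G))) * y⁻¹ := by
            rw [mul_assoc w⁻¹ _ w, ← hcw]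
        _ = _ := by group
    rw [h3]
  have httA : ∀ (a : A) (y : G), tt (a : G) y ∈ A := by
    intro a y
    have h1 : tt (a : G) y = (a : G)⁻¹ * (y * a * y⁻¹) := by simp [tt, mul_assoc]
    rw [h1]
    exact mul_mem (inv_mem a.2) (hA.conj_mem _ a.2 y)
  -- pointwise comparison
  have hptw : ∀ (a : A) (y : G), χ (tt (a : G) (y ^ k)) = χ (tt ((a : G) ^ k) y) := by
    intro a y
    have hkG : ∀ x : G, k.Coprime (orderOf x) := fun x => hk.coprime_dvd_right (orderOf_dvd_natCard x)
    by_cases hcen : tt (a : G) y ∈ Subgroup.center G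
    · rw [tt_pow_comm hcen]
    · have h1 : tt (a : G) (y ^ k) ∉ Subgroup.center G := by
        intro h
        obtain ⟨m, hm⟩ := exists_pow_eq_self_of_coprime (hkG y)
        apply hcen
        have h2 := tt_pow_right h rfl m
        rw [hm] at h2
        rw [h2]
        exact pow_mem h m
      have h2 : tt ((a : G) ^ k) y ∉ Subgroup.center G := by
        intro h
        obtain ⟨m, hm⟩ := exists_pow_eq_self_of_coprime (hkG (a : G))
        apply hcen
        have h3 := tt_pow_left h rfl m
        rw [hm] at h3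
        rw [h3]
        exact pow_mem h m
      have h3 := httA ⟨(a : G) ^ k, pow_mem a.2 k⟩ y
      rw [hvan _ (httA a (y ^ k)) h1, hvan _ h3 h2]
  have hQcop : (Nat.card Q).Coprime k := by
    have h1 : Nat.card Q ∣ Nat.card A := Subgroup.card_quotient_dvd_card Zs
    have h2 : Nat.card A ∣ Nat.card G := Subgroup.card_subgroup_dvd_card A
    exact (hk.coprime_dvd_right (h1.trans h2)).symm
  have hrat : ∀ y, U.toRepresentation.character (y ^ k) = U.toRepresentation.character y := by
    intro y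
    rw [hπ, hπ]
    have h1 : ∀ i : Q, d⁻¹ * χ (tt (s i : G) (y ^ k)) = d⁻¹ * χ (tt (s (i ^ k) : G) y) := by
      intro i
      rw [hptw]
      have h2 : i ^ k = mkQ ((s i) ^ k) := by rw [map_pow, hs]
      rw [h2, htt]
      rfl
    rw [Finset.sum_congr rfl (fun i _ => h1 i)]
    exact Fintype.sum_equiv (powCoprime hQcop) _ _ fun i => rfl
  have hf : ∀ g, χ g * conj (χ g) =
      U.toRepresentation.character g + U'.toRepresentation.character g := by
    intro g
    have h1 := congrFun hchar g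
    rw [Pi.add_apply] at h1
    rw [← h1, Representation.char_linHom]
    have h2 := character_inv ρ g
    rw [h2]
    ring
  refine not_irr_of_decomp hk (isCharacter_of_rep _) (isCharacter_of_rep _) hf hrat ?_ ?_
  · -- the trivial constituent
    have hinv : Invertible (Nat.card G : ℂ) := invertibleOfNonzero card_ne_zero_complex
    have h1 := Representation.card_inv_mul_sum_char_eq_finrank U.toRepresentation
    have h2 : classInner U.toRepresentation.character (fun _ => (1 : ℂ)) =
        (Nat.card G : ℂ)⁻¹ * ∑ g : G, U.toRepresentation.character g := by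
      simp [classInner_def]
    rw [h2, h1]
    have hid : (LinearMap.id : Module.End ℂ V) ∈ W := by
      have := hmemW 1 (one_mem A)
      rwa [map_one] at this
    let x : U.toSubmodule := ⟨LinearMap.id, hid⟩
    have hx : x ∈ U.toRepresentation.invariants := by
      intro y
      apply Subtype.ext
      change R y LinearMap.id = LinearMap.id
      rw [Representation.linHom_apply]
      ext v
      simp
    intro h0
    have h3 : Module.finrank ℂ (U.toRepresentation.invariants) = 0 := by exact_mod_cast h0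
    have h4 := Submodule.finrank_eq_zero.mp h3
    rw [h4, Submodule.mem_bot] at hx
    have h5 : (LinearMap.id : Module.End ℂ V) = 0 := congrArg Subtype.val hx
    obtain ⟨v, hv⟩ := exists_ne (0 : V)
    exact hv (by simpa using congrArg (fun f : Module.End ℂ V => f v) h5)
  · rw [hπ]
    have h1 : ∀ i : Q, d⁻¹ * χ (tt (s i : G) 1) = 1 := by
      intro i
      have : tt (s i : G) 1 = 1 := by simp [tt]
      rw [this, hχ1, inv_mul_cancel₀ hd]
    rw [Finset.sum_congr rfl (fun i _ => h1 i)]
    simp only [Finset.sum_const, Finset.card_univ, nsmul_eq_mul, mul_one]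
    intro hc
    have hc1 : Fintype.card Q = 1 := by exact_mod_cast hc
    obtain ⟨a, ha, hna⟩ := hne
    have hQ := Fintype.card_le_one_iff.mp hc1.le (mkQ ⟨a, ha⟩) 1
    apply hna
    have h2 : (⟨a, ha⟩ : A) ∈ Zs := (QuotientGroup.eq_one_iff _).mp hQ
    exact h2

end Case2

section Reduction

variable {G : Type*} [Group G]

/-- The subgroup of a normal subgroup central modulo the centre of `G`. -/
def relCenter (N : Subgroup G) : Subgroup G where
  carrier := {a | a ∈ N ∧ ∀ b ∈ N, a * b * a⁻¹ * b⁻¹ ∈ Subgroup.center G}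
  one_mem' := ⟨one_mem N, fun b _ => by simp⟩
  mul_mem' := by
    rintro a₁ a₂ ⟨h₁, h₁'⟩ ⟨h₂, h₂'⟩
    refine ⟨mul_mem h₁ h₂, fun b hb => ?_⟩
    have e : a₁ * a₂ * b * (a₁ * a₂)⁻¹ * b⁻¹ =
        a₁ * (a₂ * b * a₂⁻¹ * b⁻¹) * a₁⁻¹ * (a₁ * b * a₁⁻¹ * b⁻¹) := by group
    rw [e]
    exact mul_mem ((inferInstance : (Subgroup.center G).Normal).conj_mem _ (h₂' b hb) a₁) (h₁' b hb)
  inv_mem' := by
    rintro a ⟨h, h'⟩
    refine ⟨inv_mem h, fun b hb => ?_⟩
    have e : a⁻¹ * b * a⁻¹⁻¹ * b⁻¹ = a⁻¹ * (a * b * a⁻¹ * b⁻¹)⁻¹ * a := by group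
    rw [e]
    have := (inferInstance : (Subgroup.center G).Normal).conj_mem _ (inv_mem (h' b hb)) a⁻¹
    simpa using this

theorem relCenter_normal (N : Subgroup G) (hN : N.Normal) : (relCenter N).Normal := by
  constructor
  rintro a ⟨ha, ha'⟩ g
  refine ⟨hN.conj_mem a ha g, fun b hb => ?_⟩
  have e : g * a * g⁻¹ * b * (g * a * g⁻¹)⁻¹ * b⁻¹ =
      g * (a * (g⁻¹ * b * g⁻¹⁻¹) * a⁻¹ * (g⁻¹ * b * g⁻¹⁻¹)⁻¹) * g⁻¹ := by group
  rw [e]
  exact (inferInstance : (Subgroup.center G).Normal).conj_mem _ (ha' _ (hN.conj_mem b hb g⁻¹)) g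

theorem exists_relCenter (N : Subgroup G) (hnil : Group.IsNilpotent N) (hN : ¬ N ≤ Subgroup.center G) :
    ∃ a ∈ relCenter N, a ∉ Subgroup.center G := by
  classical
  obtain ⟨c, hc⟩ := hnil.nilpotent'
  let P : ℕ → Prop := fun j => ∃ x : N, x ∈ Subgroup.upperCentralSeries N j ∧ (x : G) ∉ Subgroup.center G
  have hPc : P c := by
    obtain ⟨x, hx, hnx⟩ := SetLike.not_le_iff_exists.mp hN
    exact ⟨⟨x, hx⟩, by rw [hc]; trivial, hnx⟩
  have hP0 : ¬ P 0 := by
    rintro ⟨x, hx, hnx⟩
    have : x = 1 := by simpa [Subgroup.upperCentralSeries_zero] using hx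
    rw [this] at hnx
    exact hnx (one_mem _)
  have hex : ∃ j, P j := ⟨c, hPc⟩
  set j := Nat.find hex with hj
  have hjP : P j := Nat.find_spec hex
  have hj0 : j ≠ 0 := by
    intro h
    rw [h] at hjP
    exact hP0 hjP
  obtain ⟨i, hi⟩ := Nat.exists_eq_succ_of_ne_zero hj0
  have hiP : ¬ P i := Nat.find_min hex (by omega)
  rw [hi] at hjP
  obtain ⟨x, hx, hnx⟩ := hjP
  refine ⟨x, ⟨x.2, fun b hb => ?_⟩, hnx⟩
  have h1 : x * (⟨b, hb⟩ : N) * x⁻¹ * (⟨b, hb⟩ : N)⁻¹ ∈ Subgroup.upperCentralSeries N i := by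
    have h3 := (Subgroup.mem_upperCentralSeries_succ_iff.mp hx) ⟨b, hb⟩
    rwa [commutatorElement_def] at h3
  by_contra h2
  exact hiP ⟨_, h1, by simpa using h2⟩

end Reduction

/-- Let G be a finite group with a faithful irreducible character χ (taking the value χ(1) only at the identity) and let k be prime to the order of G, so that g ↦ χ(g^k) is a Galois conjugate of χ. If the pointwise product g ↦ χ(g)·χ(g^k) is again an irreducible character, then the Fitting subgroup of G equals its centre. -/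
theorem result {G : Type*} [Group G] [Finite G] (χ : Cfsg.IrrCharacter G) (hfaith : ∀ g : G, (χ : G → ℂ) g = (χ : G → ℂ) 1 → g = 1) (k : ℕ) (hk : Nat.Coprime k (Nat.card G)) (hirr : Cfsg.IsIrrCharacter G (fun g => (χ : G → ℂ) g * (χ : G → ℂ) (g ^ k))) : Cfsg.fittingSubgroup G = Subgroup.center G := by
  classical
  let _ : Fintype G := Fintype.ofFinite G
  obtain ⟨χ₀, n, ρ, hρ, hχ⟩ := χ
  subst hχ
  have hab := fun (A : Subgroup G) (hA : A.Normal) (hab : ∀ a ∈ A, ∀ b ∈ A, a * b = b * a) =>
    central_of_abelian (isIrrCharacter_of_irrep ρ hρ) hfaith hk hirr A hA hab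
  apply le_antisymm
  · refine sSup_le ?_
    rintro N ⟨hN, hnil⟩
    by_contra hNZ
    obtain ⟨a₀, ha₀, hna₀⟩ := exists_relCenter N hnil hNZ
    set A := relCenter N with hAdef
    have hA : A.Normal := relCenter_normal N hN
    have hcomm : ∀ a ∈ A, ∀ b ∈ A, a * b * a⁻¹ * b⁻¹ ∈ Subgroup.center G :=
      fun a ha b hb => ha.2 b hb.1
    have hB : A ⊓ Subgroup.centralizer (A : Set G) ≤ Subgroup.center G := by
      refine hab _ ?_ ?_
      · haveI := hA
        exact Subgroup.normal_inf_normal _ _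
      · intro a ha b hb
        exact Subgroup.mem_centralizer_iff.mp hb.2 a ha.1
    have hnc : ∀ a ∈ A, a ∉ Subgroup.center G → ∃ b ∈ A, a * b ≠ b * a := by
      intro a ha hna
      by_contra hcon
      push Not at hcon
      apply hna
      apply hB
      refine ⟨ha, Subgroup.mem_centralizer_iff.mpr fun b hb => (hcon b hb).symm⟩
    exact not_irr_case2 ρ hρ hfaith hk A hA hcomm hnc ⟨a₀, ha₀, hna₀⟩ hirr
  · refine le_sSup ⟨inferInstance, ?_⟩
    letI : CommGroup (Subgroup.center G) :=
      { (inferInstance : Group (Subgroup.center G)) with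
        mul_comm := fun a b => Subtype.ext (Subgroup.mem_center_iff.mp a.2 b).symm }
    exact CommGroup.isNilpotent

end Cfsg.Agent.S4843
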