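import Cfsg.Statements.S4845
import Cfsg.Agent.Lib.OddSq.Basic
import Cfsg.Agent.Lib.CharDeep.FTBound
import Cfsg.Agent.Lib.Char.CentralCount
import Cfsg.Agent.Lib.Transfer.Tate

set_option autoImplicit false
open Cfsg

namespace Cfsg.Agent.S4845

set_option linter.unusedSectionVars false
set_option linter.style.haveILetI false

open Module Finset
open Cfsg.Agent.Lib.OddSq
open Cfsg.Agent.Lib.Char.Basic Cfsg.Agent.Lib.Char.Ortho Cfsg.Agent.Lib.Char.Complete
open Cfsg.Agent.Lib.Char.Degree Cfsg.Agent.Lib.Char.Clifford Cfsg.Agent.Lib.Char.Induced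
open Cfsg.Agent.Lib.Char.Linear Cfsg.Agent.Lib.Char.IndRep
open Cfsg.Agent.Lib.Char.CentralCount (char_mul_central)
open Cfsg.Agent.Lib.CharDeep.FTBound (normSq_central)
open scoped Classical ComplexConjugate commutatorElement

attribute [local instance] instFinIrr

universe u

section Basic

variable {G : Type u} [Group G] [Fintype G]

theorem one_of_linear {χ : G → ℂ} (hχ : IsIrrCharacter G χ) (h : charDegree χ = 1) : χ 1 = 1 := by
  rw [← charDegree_natCast (isCharacter_of_isIrrCharacter hχ), h]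
  simp

/-- Linear characters are trivial on the derived subgroup. -/
theorem apply_of_linear {χ : G → ℂ} (hχ : IsIrrCharacter G χ) (h : charDegree χ = 1) {x : G}
    (hx : x ∈ commutator G) : χ x = χ 1 := by
  have hone := one_of_linear hχ h
  obtain ⟨lam, hlam⟩ := exists_hom_of_deg_one (isCharacter_of_isIrrCharacter hχ) hone
  have ha2 : lam x = 1 := Abelianization.commutator_subset_ker lam hx
  rw [hone, hlam]
  simp [ha2]

/-- Characters with the derived subgroup in the kernel are linear. -/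
theorem linear_of_ker {χ : G → ℂ} (hχ : IsIrrCharacter G χ)
    (h : ∀ x ∈ commutator G, χ x = χ 1) : charDegree χ = 1 := by
  let π : G →* G ⧸ commutator G := QuotientGroup.mk' _
  have hπ : Function.Surjective π := QuotientGroup.mk'_surjective _
  obtain ⟨φ, hφ, hφe⟩ := isIrrCharacter_descend π hπ hχ (fun k hk => by
    rw [QuotientGroup.ker_mk'] at hk
    exact h k hk)
  have h1 : φ 1 = 1 := by
    have hcomm : ∀ a b : G ⧸ commutator G, a * b = b * a := by
      intro a b
      obtain ⟨x, rfl⟩ := hπ a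
      obtain ⟨y, rfl⟩ := hπ b
      have h2 : π ⁅x, y⁆ = 1 := (QuotientGroup.eq_one_iff _).mpr
        (Subgroup.commutator_mem_commutator (Subgroup.mem_top _) (Subgroup.mem_top _))
      rw [map_commutatorElement] at h2
      exact commutatorElement_eq_one_iff_mul_comm.mp h2
    exact isIrr_deg_one_of_comm hcomm hφ
  apply charDegree_eq_of_eq_natCast
  rw [hφe]
  simp [h1]

theorem sum_normSq {χ : G → ℂ} (hχ : IsIrrCharacter G χ) :
    ∑ g, Complex.normSq (χ g) = (Nat.card G : ℝ) := by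
  have h1 := classInner_self_of_isIrr hχ
  unfold classInner at h1
  have hne : (Nat.card G : ℂ) ≠ 0 := by
    have := Nat.card_pos (α := G)
    exact_mod_cast this.ne'
  have h2 : ∑ g, χ g * conj (χ g) = (Nat.card G : ℂ) := by
    field_simp at h1
    exact h1
  have h3 : ((∑ g, Complex.normSq (χ g) : ℝ) : ℂ) = ((Nat.card G : ℝ) : ℂ) := by
    push_cast
    rw [← h2]
    refine Finset.sum_congr rfl fun g _ => ?_
    rw [Complex.normSq_eq_conj_mul_self, mul_comm]
  exact_mod_cast h3

theorem normSq_one {χ : G → ℂ} (hχ : IsIrrCharacter G χ) :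
    Complex.normSq (χ 1) = ((charDegree χ : ℝ)) ^ 2 := by
  rw [← charDegree_natCast (isCharacter_of_isIrrCharacter hχ), Complex.normSq_natCast, pow_two]

/-- The degree bound with the centre. -/
theorem deg_sq_mul_center_le {χ : G → ℂ} (hχ : IsIrrCharacter G χ) :
    charDegree χ ^ 2 * Nat.card (Subgroup.center G) ≤ Nat.card G := by
  have h1 := sum_normSq hχ
  have h2 : ∑ g ∈ univ.filter (· ∈ Subgroup.center G), Complex.normSq (χ g) ≤
      ∑ g, Complex.normSq (χ g) :=
    Finset.sum_le_sum_of_subset_of_nonneg (Finset.subset_univ _)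
      (fun g _ _ => Complex.normSq_nonneg _)
  have h3 : ∑ g ∈ univ.filter (· ∈ Subgroup.center G), Complex.normSq (χ g) =
      ((charDegree χ ^ 2 * Nat.card (Subgroup.center G) : ℕ) : ℝ) := by
    rw [Finset.sum_congr rfl (fun g hg => normSq_central hχ (Finset.mem_filter.mp hg).2),
      Finset.sum_const, normSq_one hχ, nsmul_eq_mul, Nat.card_eq_fintype_card,
      Fintype.card_subtype]
    push_cast
    ring
  rw [h3, h1] at h2
  exact_mod_cast h2

/-- The degree equality, for a character vanishing off the centre. -/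
theorem deg_sq_mul_center_eq {χ : G → ℂ} (hχ : IsIrrCharacter G χ)
    (hv : ∀ x, x ∉ Subgroup.center G → χ x = 0) :
    charDegree χ ^ 2 * Nat.card (Subgroup.center G) = Nat.card G := by
  have h1 := sum_normSq hχ
  have h2 : ∑ g ∈ univ.filter (· ∈ Subgroup.center G), Complex.normSq (χ g) =
      ∑ g, Complex.normSq (χ g) := by
    apply Finset.sum_subset (Finset.subset_univ _)
    intro g _ hg
    have hg' : g ∉ Subgroup.center G := fun h => hg (Finset.mem_filter.mpr ⟨Finset.mem_univ _, h⟩)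
    rw [hv g hg']
    simp
  have h3 : ∑ g ∈ univ.filter (· ∈ Subgroup.center G), Complex.normSq (χ g) =
      ((charDegree χ ^ 2 * Nat.card (Subgroup.center G) : ℕ) : ℝ) := by
    rw [Finset.sum_congr rfl (fun g hg => normSq_central hχ (Finset.mem_filter.mp hg).2),
      Finset.sum_const, normSq_one hχ, nsmul_eq_mul, Nat.card_eq_fintype_card,
      Fintype.card_subtype]
    push_cast
    ring
  rw [h3, h1] at h2
  exact_mod_cast h2

/-- The characters having `N` in their kernels. -/
theorem sum_sq_le_quotient (N : Subgroup G) [hN : N.Normal] :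
    ∑ χ ∈ univ.filter (fun χ : IrrCharacter G => ∀ n ∈ N, (χ : G → ℂ) n = (χ : G → ℂ) 1),
      charDegree (χ : G → ℂ) ^ 2 ≤ Nat.card (G ⧸ N) := by
  letI : Fintype (G ⧸ N) := Fintype.ofFinite _
  let π : G →* G ⧸ N := QuotientGroup.mk' N
  have hπ : Function.Surjective π := QuotientGroup.mk'_surjective N
  have hdes : ∀ χ : IrrCharacter G, ∃ ψ : IrrCharacter (G ⧸ N),
      (∀ n ∈ N, (χ : G → ℂ) n = (χ : G → ℂ) 1) → (χ : G → ℂ) = (ψ : G ⧸ N → ℂ) ∘ π := by
    intro χ
    by_cases h : ∀ n ∈ N, (χ : G → ℂ) n = (χ : G → ℂ) 1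
    · obtain ⟨φ, hφ, hφe⟩ := isIrrCharacter_descend π hπ χ.2 (fun k hk => by
        rw [QuotientGroup.ker_mk'] at hk
        exact h k hk)
      exact ⟨⟨φ, hφ⟩, fun _ => hφe⟩
    · exact ⟨⟨fun _ => 1, Cfsg.Agent.Lib.Char.Burnside.isIrrCharacter_one⟩, fun h' => absurd h' h⟩
  choose F hF using hdes
  rw [← sum_charDegree_sq (G := G ⧸ N)]
  set S := univ.filter (fun χ : IrrCharacter G => ∀ n ∈ N, (χ : G → ℂ) n = (χ : G → ℂ) 1) with hS
  have hinj : Set.InjOn F (S : Set (IrrCharacter G)) := by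
    intro a ha b hb hab
    have ha' := (Finset.mem_filter.mp ha).2
    have hb' := (Finset.mem_filter.mp hb).2
    apply Subtype.ext
    rw [hF a ha', hF b hb', hab]
  have hdeg : ∀ χ ∈ S, charDegree (χ : G → ℂ) = charDegree ((F χ : IrrCharacter (G ⧸ N)) : G ⧸ N → ℂ) := by
    intro χ hχ
    have h1 := hF χ (Finset.mem_filter.mp hχ).2
    unfold charDegree
    rw [h1]
    simp
  calc ∑ χ ∈ S, charDegree (χ : G → ℂ) ^ 2
      = ∑ ψ ∈ S.image F, charDegree (ψ : G ⧸ N → ℂ) ^ 2 := by
        rw [Finset.sum_image hinj]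
        exact Finset.sum_congr rfl fun χ hχ => by rw [hdeg χ hχ]
    _ ≤ _ := Finset.sum_le_sum_of_subset (Finset.subset_univ _)

/-- The counting lemma. -/
theorem card_le_totient (S : Finset (IrrCharacter G)) (W : Subgroup G)
    (hvan : ∀ χ ∈ S, ∀ g, g ∉ W → (χ : G → ℂ) g = 0)
    (hconj : ∀ χ ∈ S, ∀ ψ ∈ S, ∃ k : ℕ, Nat.Coprime k (Nat.card G) ∧
      ∀ g, (ψ : G → ℂ) g = (χ : G → ℂ) (g ^ k))
    (e : ℕ) (he : ∀ x ∈ W, x ^ e = 1) (he0 : 0 < e)
    (hcop : ∀ k : ℕ, Nat.Coprime k (Nat.card G) → Nat.Coprime k e) :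
    S.card ≤ Nat.totient e := by
  rcases S.eq_empty_or_nonempty with rfl | ⟨χ₀, hχ₀⟩
  · simp
  choose! K hK1 hK2 using hconj χ₀ hχ₀
  rw [Nat.totient_eq_card_coprime]
  apply Finset.card_le_card_of_injOn (fun ψ => K ψ % e)
  · intro ψ hψ
    simp only [Finset.coe_filter, Finset.mem_range, Set.mem_setOf_eq]
    refine ⟨Nat.mod_lt _ he0, ?_⟩
    have h1 := hcop _ (hK1 ψ hψ)
    change Nat.gcd e (K ψ % e) = 1
    rw [Nat.gcd_comm, ← Nat.gcd_rec, Nat.gcd_comm]
    exact h1
  · intro a ha b hb hab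
    apply Subtype.ext
    funext g
    by_cases hg : g ∈ W
    · rw [hK2 a ha, hK2 b hb]
      have hab' : K a ≡ K b [MOD e] := hab
      rw [(pow_eq_pow_iff_modEq.mpr (hab'.of_dvd (orderOf_dvd_of_pow_eq_one (he g hg))))]
    · rw [hvan a ha g hg, hvan b hb g hg]

/-- Commutators of powers. -/
theorem commutator_pow_of_central {a b : G} (hc : ⁅a, b⁆ ∈ Subgroup.center G) (n : ℕ) :
    ⁅a ^ n, b⁆ = ⁅a, b⁆ ^ n := by
  induction n with
  | zero => simp
  | succ n ih =>
    have h1 : ⁅a ^ (n + 1), b⁆ = a * ⁅a ^ n, b⁆ * (b * a⁻¹ * b⁻¹) := by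
      simp only [commutatorElement_def, pow_succ', mul_inv_rev]
      group
    rw [h1, ih, pow_succ]
    have h2 : ⁅a, b⁆ ^ n ∈ Subgroup.center G := Subgroup.pow_mem _ hc n
    have h3 : a * ⁅a, b⁆ ^ n = ⁅a, b⁆ ^ n * a := Subgroup.mem_center_iff.mp h2 a
    rw [h3, mul_assoc]
    congr 1
    simp only [commutatorElement_def, mul_assoc]

end Basic

section PGroup

variable {p : ℕ} [hp : Fact p.Prime] {G : Type u} [Group G] [Fintype G]

theorem card_commutator_ne_bot (hc : Nat.card (commutator G) = p) : commutator G ≠ ⊥ := by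
  intro h
  rw [h, Subgroup.card_bot] at hc
  exact hp.out.one_lt.ne hc

/-- A derived subgroup of order `p` in a `p`-group is central. -/
theorem commutator_le_center (hG : IsPGroup p G) (hc : Nat.card (commutator G) = p) :
    commutator G ≤ Subgroup.center G := by
  obtain ⟨z, hzc, hzo, hzZ⟩ := Cfsg.Agent.Lib.Transfer.Tate.exists_central_of_normal hG
    (commutator G) (card_commutator_ne_bot hc)
  have h1 : Subgroup.zpowers z ≤ commutator G := (Subgroup.zpowers_le).mpr hzc
  have h2 : Subgroup.zpowers z = commutator G :=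
    Subgroup.eq_of_le_of_card_ge h1 (by rw [hc, Nat.card_zpowers, hzo])
  rw [← h2, Subgroup.zpowers_le]
  exact hzZ

/-- A nontrivial element of the derived subgroup of order `p` in a kernel makes the character
linear. -/
theorem linear_of_mem_ker (hc : Nat.card (commutator G) = p) {χ : G → ℂ}
    (hχ : IsIrrCharacter G χ) {c : G} (hcC : c ∈ commutator G) (hc1 : c ≠ 1) (h : χ c = χ 1) :
    charDegree χ = 1 := by
  apply linear_of_ker hχ
  intro w hw
  have hne : (⟨c, hcC⟩ : commutator G) ≠ 1 := fun h => hc1 (congrArg Subtype.val h)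
  have htop := zpowers_eq_top_of_prime_card (G := commutator G) (p := p) hc (g := ⟨c, hcC⟩) hne
  have hw2 : (⟨w, hw⟩ : commutator G) ∈ Subgroup.zpowers (⟨c, hcC⟩ : commutator G) := by
    rw [htop]
    trivial
  obtain ⟨i, hi⟩ := hw2
  have hi2 : c ^ i = w := congrArg Subtype.val hi
  have hk := isCharacter_of_isIrrCharacter hχ
  have h3 : c ∈ charKer hk := h
  have h4 : w ∈ charKer hk := by
    rw [← hi2]
    exact Subgroup.zpow_mem _ h3 i
  exact h4

/-- Nonlinear characters vanish off the centre. -/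
theorem vanish_off_center (hc : Nat.card (commutator G) = p) (hcc : commutator G ≤ Subgroup.center G)
    {χ : G → ℂ} (hχ : IsIrrCharacter G χ) (hnl : charDegree χ ≠ 1) {x : G}
    (hx : x ∉ Subgroup.center G) : χ x = 0 := by
  rw [Subgroup.mem_center_iff] at hx
  push_neg at hx
  obtain ⟨y, hy⟩ := hx
  set c : G := ⁅x⁻¹, y⁆ with hcdef
  have hcC : c ∈ commutator G :=
    Subgroup.commutator_mem_commutator (Subgroup.mem_top _) (Subgroup.mem_top _)
  have hcv : c = x⁻¹ * y * x * y⁻¹ := by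
    rw [hcdef, commutatorElement_def, inv_inv]
  have hc1 : c ≠ 1 := by
    intro h
    apply hy
    rw [hcv] at h
    have h2 : x⁻¹ * y * x = y := mul_inv_eq_one.mp h
    calc y * x = x * (x⁻¹ * y * x) := by group
      _ = x * y := by rw [h2]
  have h1 : χ (y * x * y⁻¹) = χ x := isClassFunction_of_isCharacter (isCharacter_of_isIrrCharacter hχ) x y
  have h2 : y * x * y⁻¹ = x * c := by
    rw [hcv]
    group
  have h3 := char_mul_central hχ (hcc hcC) x
  rw [← h2, h1] at h3
  have h4 : χ c ≠ χ 1 := fun h => hnl (linear_of_mem_ker hc hχ hcC hc1 h)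
  have h5 : χ x * (χ 1 - χ c) = 0 := by
    rw [mul_sub, h3, sub_self]
  exact (mul_eq_zero.mp h5).resolve_right (sub_ne_zero.mpr h4.symm)

/-- The exact degree of nonlinear characters. -/
theorem deg_nonlinear (hG : IsPGroup p G) (hc : Nat.card (commutator G) = p)
    {χ : G → ℂ} (hχ : IsIrrCharacter G χ) (hnl : charDegree χ ≠ 1) :
    charDegree χ ^ 2 * Nat.card (Subgroup.center G) = Nat.card G :=
  deg_sq_mul_center_eq hχ fun _ hx =>
    vanish_off_center hc (commutator_le_center hG hc) hχ hnl hx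

/-- **The backward direction.** -/
theorem backward (hG : IsPGroup p G) (hcyc : IsCyclic (Subgroup.center G))
    (hc : Nat.card (commutator G) = p) (χ ψ : IrrCharacter G)
    (hnl : charDegree (χ : G → ℂ) ≠ 1)
    (hd : charDegree (χ : G → ℂ) = charDegree (ψ : G → ℂ)) :
    ∃ k : ℕ, Nat.Coprime k (Nat.card G) ∧ ∀ g : G, (ψ : G → ℂ) g = (χ : G → ℂ) (g ^ k) := by
  have hcc := commutator_le_center hG hc
  have hnl' : charDegree (ψ : G → ℂ) ≠ 1 := hd ▸ hnl
  set Z := Subgroup.center G with hZ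
  obtain ⟨z₀, hz₀⟩ := hcyc.exists_generator
  set x₀ : G := z₀.1 with hx₀
  have hx₀Z : x₀ ∈ Z := z₀.2
  set N := Nat.card Z with hN
  have hN0 : 0 < N := Nat.card_pos
  have hxN : x₀ ^ N = 1 := by
    have := pow_card_eq_one' (x := z₀)
    exact congrArg Subtype.val this
  set d : ℂ := (χ : G → ℂ) 1 with hd'
  have hd0 : d ≠ 0 := irr_one_ne_zero χ.2
  have hψ1 : (ψ : G → ℂ) 1 = d := by
    rw [hd', ← charDegree_natCast (isCharacter_of_isIrrCharacter χ.2),
      ← charDegree_natCast (isCharacter_of_isIrrCharacter ψ.2), hd]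
  -- a general fact about central powers
  have hpow : ∀ (θ : IrrCharacter G), (θ : G → ℂ) 1 = d → ∀ n : ℕ,
      (θ : G → ℂ) (x₀ ^ n) = d * ((θ : G → ℂ) x₀ / d) ^ n := by
    intro θ hθ n
    induction n with
    | zero => simp [hθ]
    | succ n ih =>
      have h1 := char_mul_central θ.2 hx₀Z (x₀ ^ n)
      rw [hθ, ih] at h1
      rw [pow_succ, pow_succ]
      apply mul_right_cancel₀ hd0
      have hw : ((θ : G → ℂ) x₀ / d) * d = (θ : G → ℂ) x₀ := div_mul_cancel₀ _ hd0
      linear_combination h1 - d * ((θ : G → ℂ) x₀ / d) ^ n * hw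
  -- cyclicity fact
  have hsocle : ∀ v : G, v ∈ Z → v ^ p = 1 → v ∈ commutator G := by
    intro v hv hvp
    let S : Finset Z := univ.filter (fun a : Z => a ^ p = 1)
    let T : Finset Z := univ.filter (fun a : Z => (a : G) ∈ commutator G)
    have hTS : T ⊆ S := by
      intro a ha
      have h1 : (a : G) ∈ commutator G := (Finset.mem_filter.mp ha).2
      have h2 : (⟨a, h1⟩ : commutator G) ^ Nat.card (commutator G) = 1 := pow_card_eq_one'
      rw [hc] at h2
      have h3 : (a : G) ^ p = 1 := congrArg Subtype.val h2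
      exact Finset.mem_filter.mpr ⟨Finset.mem_univ _, Subtype.ext h3⟩
    have hcardT : T.card = p := by
      have h1 : T.card = Nat.card (commutator G) := by
        rw [Nat.card_eq_fintype_card, ← Fintype.card_subtype]
        apply Fintype.card_congr
        exact
          { toFun := fun a => ⟨a.1.1, a.2⟩
            invFun := fun a => ⟨⟨a.1, hcc a.2⟩, a.2⟩
            left_inv := fun a => rfl
            right_inv := fun a => rfl }
      rw [h1, hc]
    have hcardS : S.card ≤ p := IsCyclic.card_pow_eq_one_le hp.out.pos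
    have hST : T = S := Finset.eq_of_subset_of_card_le hTS (by rw [hcardT]; exact hcardS)
    have h1 : (⟨v, hv⟩ : Z) ∈ S := Finset.mem_filter.mpr ⟨Finset.mem_univ _, Subtype.ext hvp⟩
    rw [← hST] at h1
    exact (Finset.mem_filter.mp h1).2
  -- primitivity
  have hprim : ∀ θ : IrrCharacter G, charDegree (θ : G → ℂ) ≠ 1 → (θ : G → ℂ) 1 = d →
      IsPrimitiveRoot ((θ : G → ℂ) x₀ / d) N := by
    intro θ hnlθ hθ
    rw [IsPrimitiveRoot.iff_def]
    constructor
    · have h1 := hpow θ hθ N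
      rw [hxN, hθ] at h1
      have h2 : d * 1 = d * ((θ : G → ℂ) x₀ / d) ^ N := by rw [mul_one]; exact h1
      exact (mul_left_cancel₀ hd0 h2).symm
    · intro l hl
      have h1 := hpow θ hθ l
      rw [hl, mul_one, ← hθ] at h1
      by_contra hnd
      have hne : x₀ ^ l ≠ 1 := by
        intro h
        apply hnd
        have h2 : z₀ ^ l = 1 := Subtype.ext h
        rw [hN, ← orderOf_eq_card_of_forall_mem_zpowers hz₀]
        exact orderOf_dvd_of_pow_eq_one h2
      -- an element of order `p`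
      set u := x₀ ^ l with hu
      have huZ : u ∈ Z := Subgroup.pow_mem _ hx₀Z l
      obtain ⟨m, hm⟩ := IsPGroup.iff_orderOf.mp hG u
      have hm0 : m ≠ 0 := by
        rintro rfl
        rw [pow_zero, orderOf_eq_one_iff] at hm
        exact hne hm
      have hdvd : p ∣ orderOf u := by
        rw [hm]
        exact dvd_pow_self p hm0
      set v := u ^ (orderOf u / p) with hv
      have hvo : orderOf v = p := orderOf_pow_orderOf_div (orderOf_pos _).ne' hdvd
      have hvZ : v ∈ Z := Subgroup.pow_mem _ huZ _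
      have hvC : v ∈ commutator G := hsocle v hvZ (by rw [← hvo]; exact pow_orderOf_eq_one v)
      have hv1 : v ≠ 1 := by
        intro h
        rw [h, orderOf_one] at hvo
        exact hp.out.one_lt.ne hvo
      have hk := isCharacter_of_isIrrCharacter θ.2
      have huk : u ∈ charKer hk := h1
      have hvk : (θ : G → ℂ) v = (θ : G → ℂ) 1 := Subgroup.pow_mem (charKer hk) huk _
      exact hnlθ (linear_of_mem_ker hc θ.2 hvC hv1 hvk)
  have hζ := hprim χ hnl rfl
  have hξ := hprim ψ hnl' hψ1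
  haveI : NeZero N := ⟨hN0.ne'⟩
  obtain ⟨k, -, hk⟩ := hζ.eq_pow_of_pow_eq_one hξ.pow_eq_one
  have hkc : Nat.Coprime k N := by
    rw [← hk] at hξ
    exact (hζ.pow_iff_coprime hN0 k).mp hξ
  -- `p` divides `N`
  obtain ⟨a, ha⟩ := IsPGroup.iff_card.mp (hG.to_subgroup Z)
  have ha0 : a ≠ 0 := by
    rintro rfl
    have h1 : Z = ⊥ := by
      apply (Subgroup.card_eq_one (H := Z)).mp
      simpa using ha
    apply card_commutator_ne_bot hc
    rw [eq_bot_iff, ← h1]
    exact hcc
  have hkp : Nat.Coprime k p := by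
    have ha' : N = p ^ a := ha
    rw [ha'] at hkc
    exact Nat.Coprime.coprime_dvd_right (dvd_pow_self p ha0) hkc
  have hkG : Nat.Coprime k (Nat.card G) := by
    obtain ⟨b, hb⟩ := IsPGroup.iff_card.mp hG
    rw [hb]
    exact Nat.Coprime.pow_right b hkp
  refine ⟨k, hkG, fun g => ?_⟩
  by_cases hg : g ∈ Z
  · have h1 : (⟨g, hg⟩ : Z) ∈ Submonoid.powers z₀ := by
      rw [mem_powers_iff_mem_zpowers]
      exact hz₀ _
    obtain ⟨j, hj⟩ := h1
    have hgj : x₀ ^ j = g := congrArg Subtype.val hj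
    rw [← hgj, hpow ψ hψ1, ← pow_mul, hpow χ rfl, ← hk, ← pow_mul, mul_comm j k]
  · have hg2 : g ^ k ∉ Z := by
      intro h
      have hkg : Nat.Coprime k (orderOf g) :=
        Nat.Coprime.coprime_dvd_right (orderOf_dvd_natCard g) hkG
      obtain ⟨m, hm⟩ := exists_pow_eq_self_of_coprime hkg
      apply hg
      rw [← hm]
      exact Subgroup.pow_mem _ h m
    rw [vanish_off_center hc hcc ψ.2 hnl' hg, vanish_off_center hc hcc χ.2 hnl hg2]

end PGroup

section Forward

variable {p : ℕ} [hp : Fact p.Prime]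

/-- The hypothesis of the statement. -/
def CC (P : Type u) [Group P] : Prop :=
  ∀ χ ψ : IrrCharacter P, charDegree (χ : P → ℂ) ≠ 1 →
    charDegree (χ : P → ℂ) = charDegree (ψ : P → ℂ) →
    ∃ k : ℕ, Nat.Coprime k (Nat.card P) ∧ ∀ g : P, (ψ : P → ℂ) g = (χ : P → ℂ) (g ^ k)

theorem CC_quotient {P : Type u} [Group P] [Finite P] (hC : CC P) (N : Subgroup P) [N.Normal] :
    CC (P ⧸ N) := by
  intro χ ψ hnl hd
  let π : P →* P ⧸ N := QuotientGroup.mk' N
  have hπ : Function.Surjective π := QuotientGroup.mk'_surjective N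
  have hχ' := Cfsg.Agent.Lib.Char.Linear.isIrrCharacter_comp π hπ χ.2
  have hψ' := Cfsg.Agent.Lib.Char.Linear.isIrrCharacter_comp π hπ ψ.2
  have hdeg : ∀ θ : IrrCharacter (P ⧸ N), charDegree ((θ : P ⧸ N → ℂ) ∘ π) =
      charDegree (θ : P ⧸ N → ℂ) := by
    intro θ
    unfold charDegree
    simp
  obtain ⟨k, hk, hkv⟩ := hC ⟨_, hχ'⟩ ⟨_, hψ'⟩ (by rw [hdeg]; exact hnl) (by
    rw [hdeg, hdeg]; exact hd)
  refine ⟨k, Nat.Coprime.coprime_dvd_right (Subgroup.card_quotient_dvd_card N) hk, fun q => ?_⟩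
  obtain ⟨g, rfl⟩ := hπ q
  have h1 := hkv g
  change (ψ : P ⧸ N → ℂ) (π g) = (χ : P ⧸ N → ℂ) (π (g ^ k)) at h1
  rw [h1, map_pow]

/-- **Step B**. -/
theorem cyclic_center {P : Type u} [Group P] [Fintype P] (hP : IsPGroup p P)
    (hc : Nat.card (commutator P) = p) (hC : CC P) : IsCyclic (Subgroup.center P) := by
  have hcc := commutator_le_center hP hc
  set Zc := Nat.card (Subgroup.center P) with hZc
  set Gc := Nat.card P with hGc
  have hGc0 : 0 < Gc := Nat.card_pos
  have hZc0 : 0 < Zc := Nat.card_pos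
  let T : Finset (IrrCharacter P) := univ.filter (fun χ => charDegree (χ : P → ℂ) ≠ 1)
  have hTdeg : ∀ χ ∈ T, charDegree (χ : P → ℂ) ^ 2 * Zc = Gc := fun χ hχ =>
    deg_nonlinear hP hc χ.2 (Finset.mem_filter.mp hχ).2
  have hsum := sum_charDegree_sq (G := P)
  have hsplit := Finset.sum_filter_add_sum_filter_not (univ : Finset (IrrCharacter P))
    (fun χ => charDegree (χ : P → ℂ) = 1) (fun χ => charDegree (χ : P → ℂ) ^ 2)
  have hL : ∑ χ ∈ univ.filter (fun χ : IrrCharacter P => charDegree (χ : P → ℂ) = 1),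
      charDegree (χ : P → ℂ) ^ 2 ≤ Nat.card (P ⧸ commutator P) := by
    refine le_trans (Finset.sum_le_sum_of_subset ?_) (sum_sq_le_quotient (commutator P))
    intro χ hχ
    refine Finset.mem_filter.mpr ⟨Finset.mem_univ _, fun n hn => ?_⟩
    exact apply_of_linear χ.2 (Finset.mem_filter.mp hχ).2 hn
  have hquot : Gc = Nat.card (P ⧸ commutator P) * p := by
    rw [hGc, Subgroup.card_eq_card_quotient_mul_card_subgroup (commutator P), hc]
  set S := ∑ χ ∈ T, charDegree (χ : P → ℂ) ^ 2 with hS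
  have hSZ : S * Zc = T.card * Gc := by
    rw [hS, Finset.sum_mul, Finset.sum_congr rfl hTdeg, Finset.sum_const, smul_eq_mul]
  have hlow : (p - 1) * Zc ≤ p * T.card := by
    have h1 : (p - 1) * Gc ≤ p * S := by
      have h2 : Gc = ∑ χ ∈ univ.filter (fun χ : IrrCharacter P => charDegree (χ : P → ℂ) = 1),
          charDegree (χ : P → ℂ) ^ 2 + S := by
        rw [hGc, ← hsum]
        exact hsplit.symm
      have h3 : p * Gc ≤ Gc + p * S := by
        calc p * Gc = p * (∑ χ ∈ univ.filter (fun χ : IrrCharacter P => charDegree (χ : P → ℂ) = 1),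
              charDegree (χ : P → ℂ) ^ 2) + p * S := by
              conv_lhs => rw [h2]
              ring
          _ ≤ p * Nat.card (P ⧸ commutator P) + p * S := by gcongr
          _ = Gc + p * S := by rw [hquot]; ring
      have h4 : 1 ≤ p := hp.out.one_lt.le
      obtain ⟨q, rfl⟩ : ∃ q, p = q + 1 := ⟨p - 1, by omega⟩
      simp only [Nat.add_sub_cancel]
      nlinarith
    have h2 : (p - 1) * Zc * Gc ≤ (p * T.card) * Gc := by
      calc (p - 1) * Zc * Gc = (p - 1) * Gc * Zc := by ring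
        _ ≤ p * S * Zc := Nat.mul_le_mul_right _ h1
        _ = p * (S * Zc) := by ring
        _ = (p * T.card) * Gc := by rw [hSZ]; ring
    exact Nat.le_of_mul_le_mul_right h2 hGc0
  set e := Monoid.exponent (Subgroup.center P) with he
  have hedvd : e ∣ Zc := Group.exponent_dvd_nat_card
  have he0 : 0 < e := Nat.pos_of_dvd_of_pos hedvd hZc0
  obtain ⟨z, hz⟩ := IsPGroup.iff_card.mp (hP.to_subgroup (Subgroup.center P))
  rw [← hZc] at hz
  rw [hz] at hedvd
  obtain ⟨t, -, ht⟩ := (Nat.dvd_prime_pow hp.out).mp hedvd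
  have hpowe : ∀ x ∈ Subgroup.center P, x ^ e = 1 := by
    intro x hx
    have h1 := Monoid.pow_exponent_eq_one (⟨x, hx⟩ : Subgroup.center P)
    exact congrArg Subtype.val h1
  have ht0 : 0 < t := by
    rcases Nat.eq_zero_or_pos t with rfl | h
    · exfalso
      rw [pow_zero] at ht
      have hne := card_commutator_ne_bot hc
      apply hne
      rw [eq_bot_iff]
      intro w hw
      have h1 := hpowe w (hcc hw)
      rw [ht, pow_one] at h1
      exact h1
    · exact h
  have hcount : T.card ≤ Nat.totient e := by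
    apply card_le_totient T (Subgroup.center P) _ _ e hpowe he0
    · intro k hk
      have h1 : e ∣ Gc := by
        refine dvd_trans Group.exponent_dvd_nat_card (Subgroup.card_subgroup_dvd_card _)
      exact Nat.Coprime.coprime_dvd_right h1 hk
    · intro χ hχ g hg
      exact vanish_off_center hc hcc χ.2 (Finset.mem_filter.mp hχ).2 hg
    · intro χ hχ ψ hψ
      apply hC χ ψ (Finset.mem_filter.mp hχ).2
      have h1 := hTdeg χ hχ
      have h2 := hTdeg ψ hψ
      have h3 : charDegree (χ : P → ℂ) ^ 2 = charDegree (ψ : P → ℂ) ^ 2 :=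
        Nat.eq_of_mul_eq_mul_right hZc0 (h1.trans h2.symm)
      exact Nat.pow_left_injective (n := 2) (by norm_num) h3
  rw [ht, Nat.totient_prime_pow hp.out ht0] at hcount
  have h5 : Zc ≤ e := by
    have h6 : (p - 1) * Zc ≤ (p - 1) * p ^ t := by
      calc (p - 1) * Zc ≤ p * T.card := hlow
        _ ≤ p * (p ^ (t - 1) * (p - 1)) := Nat.mul_le_mul_left _ hcount
        _ = (p - 1) * (p * p ^ (t - 1)) := by ring
        _ = (p - 1) * p ^ t := by
          rw [← pow_succ', Nat.sub_add_cancel ht0]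
    have h7 : 0 < p - 1 := by
      have := hp.out.one_lt
      omega
    rw [ht]
    exact Nat.le_of_mul_le_mul_left h6 h7
  have h8 : e = Zc := Nat.le_antisymm
    (Nat.le_of_dvd hZc0 Group.exponent_dvd_nat_card) h5
  letI : CommGroup (Subgroup.center P) :=
    { (inferInstance : Group (Subgroup.center P)) with
      mul_comm := fun a b => Subtype.ext (Subgroup.mem_center_iff.mp a.2 b).symm }
  exact IsCyclic.of_exponent_eq_card (α := ↥(Subgroup.center P)) h8

/-- A numerical fact. -/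
theorem sum_pow_bound (b : ℕ) (hp2 : 2 ≤ p) :
    p * ∑ a ∈ Finset.range b, p ^ (2 * a) < p ^ (2 * b) := by
  induction b with
  | zero => simp
  | succ b ih =>
    rw [Finset.sum_range_succ, mul_add]
    have h1 : p ^ (2 * (b + 1)) = p ^ (2 * b) * p ^ 2 := by ring
    have h2 : p * p ^ (2 * b) = p ^ (2 * b) * p := by ring
    rw [h1, h2]
    have h4 : p + 1 ≤ p ^ 2 := by nlinarith
    have h5 := Nat.mul_le_mul_left (p ^ (2 * b)) h4
    have h6 : p ^ (2 * b) * (p + 1) = p ^ (2 * b) * p + p ^ (2 * b) := by ring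
    rw [h6] at h5
    linarith

/-- **Step A**: the derived subgroup has order `p`. -/
theorem card_commutator_eq : ∀ (n : ℕ) (P : Type u) [Group P] [Finite P], Nat.card P = n →
    IsPGroup p P → (∃ a b : P, a * b ≠ b * a) → CC P → Nat.card (commutator P) = p := by
  intro n
  induction n using Nat.strong_induction_on with
  | _ n ih =>
  intro P _ _ hn hP hna hC
  cases nonempty_fintype P
  by_contra hne
  have hbot : commutator P ≠ ⊥ := by
    intro h
    obtain ⟨a, b, hab⟩ := hna
    apply hab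
    have h1 : ⁅a, b⁆ ∈ commutator P :=
      Subgroup.commutator_mem_commutator (Subgroup.mem_top _) (Subgroup.mem_top _)
    rw [h] at h1
    exact commutatorElement_eq_one_iff_mul_comm.mp h1
  obtain ⟨w, hwC, hwo, hwZ⟩ := Cfsg.Agent.Lib.Transfer.Tate.exists_central_of_normal hP
    (commutator P) hbot
  set N : Subgroup P := Subgroup.zpowers w with hN
  have hNC : N ≤ commutator P := (Subgroup.zpowers_le).mpr hwC
  have hNZ : N ≤ Subgroup.center P := (Subgroup.zpowers_le).mpr hwZ
  haveI hNn : N.Normal := ⟨fun x hx g => by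
    have h1 : g * x * g⁻¹ = x := by
      rw [(Subgroup.mem_center_iff.mp (hNZ hx) g)]
      group
    rw [h1]
    exact hx⟩
  have hNcard : Nat.card N = p := by rw [hN, Nat.card_zpowers, hwo]
  set Q := P ⧸ N with hQ
  let π : P →* Q := QuotientGroup.mk' N
  have hπ : Function.Surjective π := QuotientGroup.mk'_surjective N
  have hπ1 : ∀ x, π x = 1 ↔ x ∈ N := fun x => QuotientGroup.eq_one_iff x
  have hcardQ : Nat.card P = Nat.card Q * p := by
    rw [Subgroup.card_eq_card_quotient_mul_card_subgroup N, hNcard]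
  have hQ0 : 0 < Nat.card Q := Nat.card_pos
  have hQlt : Nat.card Q < n := by
    rw [← hn, hcardQ]
    have := hp.out.one_lt
    nlinarith
  have hPQ : IsPGroup p Q := hP.to_quotient N
  have hQna : ∃ a b : Q, a * b ≠ b * a := by
    by_contra hcon
    push_neg at hcon
    apply hne
    have h1 : commutator P ≤ N := by
      rw [commutator_def, Subgroup.commutator_le]
      intro a _ b _
      rw [← hπ1, map_commutatorElement]
      exact commutatorElement_eq_one_iff_mul_comm.mpr (hcon _ _)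
    rw [le_antisymm h1 hNC]
    exact hNcard
  have hCQ : CC Q := CC_quotient hC N
  have hQ' : Nat.card (commutator Q) = p := ih _ hQlt Q rfl hPQ hQna hCQ
  letI : Fintype Q := Fintype.ofFinite _
  have hQcyc := cyclic_center hPQ hQ' hCQ
  have hcQ := commutator_le_center hPQ hQ'
  -- a nonlinear character of the quotient
  obtain ⟨β₀, hβ₀⟩ : ∃ β₀ : IrrCharacter Q, charDegree (β₀ : Q → ℂ) ≠ 1 := by
    by_contra hcon
    push_neg at hcon
    apply card_commutator_ne_bot hQ'
    rw [eq_bot_iff]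
    intro c hc
    apply eq_one_of_forall_irr
    intro χ
    exact apply_of_linear χ.2 (hcon χ) hc
  set d₀ := charDegree (β₀ : Q → ℂ) with hd₀
  have hdeg : d₀ ^ 2 * Nat.card (Subgroup.center Q) = Nat.card Q :=
    deg_nonlinear hPQ hQ' β₀.2 hβ₀
  obtain ⟨q, hq⟩ := IsPGroup.iff_card.mp hPQ
  obtain ⟨b, -, hb⟩ := (Nat.dvd_prime_pow hp.out).mp
    (show d₀ ∣ p ^ q from hq ▸ charDegree_dvd_card β₀.2)
  set zq := Nat.card (Subgroup.center Q) with hzq
  obtain ⟨s, hs⟩ : ∃ s, zq = p ^ s := IsPGroup.iff_card.mp (hPQ.to_subgroup (Subgroup.center Q))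
  set Zc := Nat.card (Subgroup.center P) with hZc
  have hZc0 : 0 < Zc := Nat.card_pos
  -- the preimage of the centre
  let Z₂ : Subgroup P := (Subgroup.center Q).comap π
  have hZ₂card : Nat.card Z₂ = zq * p := by
    have h1 : Z₂.index = (Subgroup.center Q).index := Subgroup.index_comap_of_surjective _ hπ
    have h2 := Subgroup.card_mul_index Z₂
    have h3 := Subgroup.card_mul_index (Subgroup.center Q)
    rw [h1, hcardQ, ← h3] at h2
    have hI : 0 < (Subgroup.center Q).index := Nat.pos_of_ne_zero Subgroup.index_ne_zero_of_finite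
    apply Nat.eq_of_mul_eq_mul_right hI
    rw [h2]
    ring
  obtain ⟨ū, hū⟩ := hQcyc.exists_generator
  obtain ⟨u, hu⟩ := hπ ū.1
  have huZ₂ : u ∈ Z₂ := by
    change π u ∈ Subgroup.center Q
    rw [hu]
    exact ū.2
  have hZZ₂ : Subgroup.center P ≤ Z₂ := by
    intro z hz
    change π z ∈ Subgroup.center Q
    rw [Subgroup.mem_center_iff]
    intro c
    obtain ⟨y, rfl⟩ := hπ c
    rw [← map_mul, ← map_mul, Subgroup.mem_center_iff.mp hz y]
  have hZ₂N : ∀ x ∈ Z₂, ∀ y, ⁅x, y⁆ ∈ N := by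
    intro x hx y
    rw [← hπ1, map_commutatorElement]
    apply commutatorElement_eq_one_iff_mul_comm.mpr
    exact (Subgroup.mem_center_iff.mp hx _).symm
  have hNp : ∀ c ∈ N, c ^ p = 1 := by
    intro c hc
    have h1 : (⟨c, hc⟩ : N) ^ Nat.card N = 1 := pow_card_eq_one'
    rw [hNcard] at h1
    exact congrArg Subtype.val h1
  have huc : u ^ p ∈ Subgroup.center P := by
    rw [Subgroup.mem_center_iff]
    intro y
    have h1 := commutator_pow_of_central (hNZ (hZ₂N u huZ₂ y)) p
    rw [hNp _ (hZ₂N u huZ₂ y)] at h1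
    exact (commutatorElement_eq_one_iff_mul_comm.mp h1).symm
  haveI : NeZero p := ⟨hp.out.ne_zero⟩
  let f : Fin p × Subgroup.center P → Z₂ := fun x =>
    ⟨u ^ (x.1 : ℕ) * x.2, Z₂.mul_mem (Z₂.pow_mem huZ₂ _) (hZZ₂ x.2.2)⟩
  have hf : Function.Surjective f := by
    rintro ⟨x, hx⟩
    have h1 : (⟨π x, hx⟩ : Subgroup.center Q) ∈ Submonoid.powers ū := by
      rw [mem_powers_iff_mem_zpowers]
      exact hū _
    obtain ⟨j, hj⟩ := h1
    have h2 : π (u ^ j) = π x := by
      rw [map_pow, hu]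
      exact congrArg Subtype.val hj
    have h3 : (u ^ j)⁻¹ * x ∈ N := QuotientGroup.eq.mp h2
    have hz : (u ^ p) ^ (j / p) * ((u ^ j)⁻¹ * x) ∈ Subgroup.center P :=
      Subgroup.mul_mem _ (Subgroup.pow_mem _ huc _) (hNZ h3)
    refine ⟨(⟨j % p, Nat.mod_lt _ hp.out.pos⟩, ⟨_, hz⟩), Subtype.ext ?_⟩
    change u ^ (j % p) * ((u ^ p) ^ (j / p) * ((u ^ j)⁻¹ * x)) = x
    rw [← mul_assoc, ← pow_mul, ← pow_add, Nat.mod_add_div, mul_inv_cancel_left]
  have hbound : zq * p ≤ p * Zc := by
    have h1 := Nat.card_le_card_of_surjective f hf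
    rw [hZ₂card, Nat.card_prod, Nat.card_eq_fintype_card (α := Fin p), Fintype.card_fin] at h1
    exact h1
  have hzqZ : zq ≤ Zc := by
    rw [mul_comm] at hbound
    exact Nat.le_of_mul_le_mul_left hbound hp.out.pos
  -- exponent
  have hexp : ∀ x : P, x ^ (p * (zq * p)) = 1 := by
    intro x
    have h1 : x ^ p ∈ Z₂ := by
      change π (x ^ p) ∈ Subgroup.center Q
      rw [map_pow, Subgroup.mem_center_iff]
      intro c
      have hcm : ⁅π x, c⁆ ∈ commutator Q :=
        Subgroup.commutator_mem_commutator (Subgroup.mem_top _) (Subgroup.mem_top _)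
      have h2 := commutator_pow_of_central (hcQ hcm) p
      have h3 : ⁅π x, c⁆ ^ p = 1 := by
        have h4 : (⟨_, hcm⟩ : commutator Q) ^ Nat.card (commutator Q) = 1 := pow_card_eq_one'
        rw [hQ'] at h4
        exact congrArg Subtype.val h4
      rw [h3] at h2
      exact (commutatorElement_eq_one_iff_mul_comm.mp h2).symm
    have h2 : (⟨x ^ p, h1⟩ : Z₂) ^ Nat.card Z₂ = 1 := pow_card_eq_one'
    rw [hZ₂card] at h2
    rw [pow_mul]
    exact congrArg Subtype.val h2
  set e := p * (zq * p) with he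
  have hepow : e = p ^ (s + 2) := by
    rw [he, hs]
    ring
  have he0 : 0 < e := by
    rw [hepow]
    exact pow_pos hp.out.pos _
  have htot : Nat.totient e = p ^ (s + 1) * (p - 1) := by
    rw [hepow, Nat.totient_prime_pow hp.out (by omega)]
    simp
  -- the characters moving `w`
  let T : Finset (IrrCharacter P) := univ.filter (fun χ => (χ : P → ℂ) w ≠ (χ : P → ℂ) 1)
  have hT1 : ∀ χ ∈ T, charDegree (χ : P → ℂ) ≠ 1 := fun χ hχ h1 =>
    (Finset.mem_filter.mp hχ).2 (apply_of_linear χ.2 h1 hwC)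
  have hβ := Cfsg.Agent.Lib.Char.Linear.isIrrCharacter_comp π hπ β₀.2
  have hβd : charDegree ((β₀ : Q → ℂ) ∘ π) = d₀ := by
    rw [hd₀]
    unfold charDegree
    simp
  have hπw : π w = 1 := (hπ1 w).mpr (Subgroup.mem_zpowers w)
  have hT2 : ∀ χ ∈ T, charDegree (χ : P → ℂ) ≠ d₀ := by
    intro χ hχ h
    obtain ⟨k, -, hk⟩ := hC ⟨_, hβ⟩ χ (by
      change charDegree ((β₀ : Q → ℂ) ∘ π) ≠ 1
      rw [hβd]
      exact hβ₀) (by
      change charDegree ((β₀ : Q → ℂ) ∘ π) = _
      rw [hβd, h])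
    apply (Finset.mem_filter.mp hχ).2
    rw [hk w, hk 1]
    change (β₀ : Q → ℂ) (π (w ^ k)) = (β₀ : Q → ℂ) (π (1 ^ k))
    rw [map_pow, hπw, one_pow, one_pow, map_one]
  have hGcard : Nat.card P = d₀ ^ 2 * zq * p := by rw [hcardQ, hdeg]
  have hT3 : ∀ χ ∈ T, ∃ a, a < b ∧ charDegree (χ : P → ℂ) = p ^ a := by
    intro χ hχ
    obtain ⟨g, hg⟩ := IsPGroup.iff_card.mp hP
    obtain ⟨a, -, ha⟩ := (Nat.dvd_prime_pow hp.out).mp
      (show charDegree (χ : P → ℂ) ∣ p ^ g from hg ▸ charDegree_dvd_card χ.2)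
    refine ⟨a, ?_, ha⟩
    have h1 := deg_sq_mul_center_le χ.2
    rw [hGcard, ha, hb] at h1
    have h2 : (p ^ a) ^ 2 * Zc ≤ (p ^ b) ^ 2 * p * Zc := by
      calc (p ^ a) ^ 2 * Zc ≤ (p ^ b) ^ 2 * zq * p := h1
        _ = (p ^ b) ^ 2 * p * zq := by ring
        _ ≤ (p ^ b) ^ 2 * p * Zc := Nat.mul_le_mul_left _ hzqZ
    have h3 := Nat.le_of_mul_le_mul_right h2 hZc0
    have h4 : p ^ (2 * a) ≤ p ^ (2 * b + 1) := by
      calc p ^ (2 * a) = (p ^ a) ^ 2 := by ring
        _ ≤ (p ^ b) ^ 2 * p := h3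
        _ = p ^ (2 * b + 1) := by ring
    have h5 := (Nat.pow_le_pow_iff_right hp.out.one_lt).mp h4
    have h6 : a ≠ b := by
      rintro rfl
      exact hT2 χ hχ (ha.trans hb.symm)
    omega
  have hlog : ∀ χ ∈ T, ∀ a, Nat.log p (charDegree (χ : P → ℂ)) = a →
      charDegree (χ : P → ℂ) = p ^ a := by
    intro χ hχ a ha
    obtain ⟨c, -, hc⟩ := hT3 χ hχ
    rw [hc, Nat.log_pow hp.out.one_lt] at ha
    rw [hc, ha]
  have hfib : ∀ a, (T.filter (fun χ : IrrCharacter P => Nat.log p (charDegree (χ : P → ℂ)) = a)).card ≤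
      Nat.totient e := by
    intro a
    apply card_le_totient _ ⊤ _ _ e (fun x _ => hexp x) he0
    · intro k hk
      obtain ⟨g, hg⟩ := IsPGroup.iff_card.mp hP
      have hg0 : g ≠ 0 := by
        rintro rfl
        have := hQ0
        have h1 : Nat.card P = 1 := by simpa using hg
        rw [hcardQ] at h1
        have h2 := hp.out.one_lt
        nlinarith
      have hkp : Nat.Coprime k p := by
        rw [hg] at hk
        exact Nat.Coprime.coprime_dvd_right (dvd_pow_self p hg0) hk
      rw [hepow]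
      exact Nat.Coprime.pow_right _ hkp
    · intro χ _ g hg
      exact absurd (Subgroup.mem_top g) hg
    · intro χ hχ ψ hψ
      have h1 := Finset.mem_filter.mp hχ
      have h2 := Finset.mem_filter.mp hψ
      apply hC χ ψ (hT1 χ h1.1)
      rw [hlog χ h1.1 a h1.2, hlog ψ h2.1 a h2.2]
  -- the upper bound
  have hupper : ∑ χ ∈ T, charDegree (χ : P → ℂ) ^ 2 ≤
      Nat.totient e * ∑ a ∈ Finset.range b, p ^ (2 * a) := by
    have hmaps : ∀ χ ∈ T, Nat.log p (charDegree (χ : P → ℂ)) ∈ Finset.range b := by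
      intro χ hχ
      obtain ⟨c, hc1, hc⟩ := hT3 χ hχ
      rw [hc, Nat.log_pow hp.out.one_lt]
      exact Finset.mem_range.mpr hc1
    rw [← Finset.sum_fiberwise_of_maps_to hmaps, Finset.mul_sum]
    refine Finset.sum_le_sum fun a _ => ?_
    have h1 : ∀ χ ∈ T.filter (fun χ : IrrCharacter P => Nat.log p (charDegree (χ : P → ℂ)) = a),
        charDegree (χ : P → ℂ) ^ 2 = p ^ (2 * a) := by
      intro χ hχ
      have h2 := Finset.mem_filter.mp hχ
      rw [hlog χ h2.1 a h2.2]
      ring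
    rw [Finset.sum_congr rfl h1, Finset.sum_const, smul_eq_mul]
    exact Nat.mul_le_mul_right _ (hfib a)
  -- the lower bound
  have hlower : Nat.card P ≤ ∑ χ ∈ T, charDegree (χ : P → ℂ) ^ 2 + Nat.card Q := by
    have h1 := Finset.sum_filter_add_sum_filter_not (univ : Finset (IrrCharacter P))
      (fun χ => (χ : P → ℂ) w ≠ (χ : P → ℂ) 1) (fun χ => charDegree (χ : P → ℂ) ^ 2)
    rw [sum_charDegree_sq] at h1
    rw [← h1]
    apply Nat.add_le_add_left
    refine le_trans (Finset.sum_le_sum_of_subset ?_) (sum_sq_le_quotient N)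
    intro χ hχ
    have h2 : (χ : P → ℂ) w = (χ : P → ℂ) 1 := by
      have h3 := (Finset.mem_filter.mp hχ).2
      exact not_not.mp h3
    refine Finset.mem_filter.mpr ⟨Finset.mem_univ _, fun n hn => ?_⟩
    have hk := isCharacter_of_isIrrCharacter χ.2
    have h4 : w ∈ charKer hk := h2
    obtain ⟨i, rfl⟩ := hn
    exact Subgroup.zpow_mem (charKer hk) h4 i
  -- conclusion
  have hp1 : 0 < p - 1 := by
    have := hp.out.one_lt
    omega
  have hQcard : Nat.card Q = p ^ (2 * b) * p ^ s := by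
    rw [← hdeg, hb, hs]
    ring
  have hfinal : (p - 1) * p ^ s * p ^ (2 * b) ≤ (p - 1) * p ^ s * (p * ∑ a ∈ Finset.range b, p ^ (2 * a)) := by
    have h1 : (p - 1) * Nat.card Q ≤ ∑ χ ∈ T, charDegree (χ : P → ℂ) ^ 2 := by
      rw [hcardQ] at hlower
      obtain ⟨r, hr⟩ : ∃ r, p = r + 1 := ⟨p - 1, by have := hp.out.one_lt; omega⟩
      rw [hr] at hlower ⊢
      simp only [Nat.add_sub_cancel]
      nlinarith
    calc (p - 1) * p ^ s * p ^ (2 * b) = (p - 1) * Nat.card Q := by rw [hQcard]; ring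
      _ ≤ ∑ χ ∈ T, charDegree (χ : P → ℂ) ^ 2 := h1
      _ ≤ Nat.totient e * ∑ a ∈ Finset.range b, p ^ (2 * a) := hupper
      _ = (p - 1) * p ^ s * (p * ∑ a ∈ Finset.range b, p ^ (2 * a)) := by rw [htot]; ring
  have h9 : 0 < (p - 1) * p ^ s := Nat.mul_pos hp1 (pow_pos hp.out.pos _)
  have h10 := Nat.le_of_mul_le_mul_left hfinal h9
  have h11 := sum_pow_bound (p := p) b hp.out.two_le
  omega

end Forward


/-- Let p be a prime and P a finite non-commutative p-group. Then every two irreducible characters of P of the same degree greater than 1 are Galois conjugate (one is obtained from the other by composing with g ↦ g^k for some k prime to the order of P) if and only if the centre of P is cyclic and the derived subgroup of P has order p. -/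
theorem result {P : Type*} [Group P] [Finite P] (p : ℕ) [Fact p.Prime] (hP : IsPGroup p P) (hna : ¬ IsMulCommutative P) :
    (∀ χ ψ : Cfsg.IrrCharacter P, Cfsg.charDegree (χ : P → ℂ) ≠ 1 → Cfsg.charDegree (χ : P → ℂ) = Cfsg.charDegree (ψ : P → ℂ) → ∃ k : ℕ, Nat.Coprime k (Nat.card P) ∧ ∀ g : P, (ψ : P → ℂ) g = (χ : P → ℂ) (g ^ k)) ↔
      (IsCyclic (Subgroup.center P) ∧ Nat.card (commutator P) = p) := by
  classical
  cases nonempty_fintype P
  have hna' : ∃ a b : P, a * b ≠ b * a := by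
    by_contra hcon
    push_neg at hcon
    exact hna ⟨⟨fun a b => hcon a b⟩⟩
  constructor
  · intro h
    have hC : CC P := fun χ ψ h1 h2 => h χ ψ h1 h2
    have hc := card_commutator_eq (p := p) _ P rfl hP hna' hC
    exact ⟨cyclic_center hP hc hC, hc⟩
  · rintro ⟨hcyc, hc⟩ χ ψ h1 h2
    exact backward hP hcyc hc χ ψ h1 h2

end Cfsg.Agent.S4845
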