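import Cfsg.Statements.S4850
import Mathlib
import Cfsg.Agent.Lib.Vanish.SameOrder

set_option autoImplicit false
open Cfsg

namespace Cfsg.Agent.S4850

/-- Let p be a prime and G a finite solvable group whose vanishing elements (elements at which some irreducible character is zero) of order divisible by p all have the same order, with at least one such element. Let P be a Sylow p-subgroup of G. Then the derived subgroup of P is subnormal in G and the image of P in G/O_p(G) is cyclic. -/
theorem result {G : Type*} [Group G] [Finite G] [hs : Group.IsSolvable G] (p : ℕ) [Fact p.Prime] (b : ℕ) (hvo : {n : ℕ | p ∣ n ∧ ∃ (g : G) (χ : Cfsg.IrrCharacter G), orderOf g = n ∧ (χ : G → ℂ) g = 0} = {b}) (P : Sylow p G) :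
    ((commutator ↥(P : Subgroup G)).map (P : Subgroup G).subtype).IsSubnormal ∧ IsCyclic ↥((P : Subgroup G).map (QuotientGroup.mk' (Cfsg.pCore p G))) := by
  have Hv : ∀ z w : G, (∃ χ : Cfsg.IrrCharacter G, (χ : G → ℂ) z = 0) → p ∣ orderOf z →
      (∃ χ : Cfsg.IrrCharacter G, (χ : G → ℂ) w = 0) → p ∣ orderOf w → orderOf z = orderOf w := by
    rintro z w ⟨χ, hχ⟩ hz ⟨χ', hχ'⟩ hw
    have h1 : orderOf z ∈ ({b} : Set ℕ) := by
      rw [← hvo]
      exact ⟨hz, z, χ, rfl, hχ⟩
    have h2 : orderOf w ∈ ({b} : Set ℕ) := by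
      rw [← hvo]
      exact ⟨hw, w, χ', rfl, hχ'⟩
    rw [Set.mem_singleton_iff.mp h1, Set.mem_singleton_iff.mp h2]
  exact Cfsg.Agent.Lib.Vanish.SameOrder.conclusion_of_card_le P
    (Cfsg.Agent.Lib.Vanish.SameOrder.card_map_le_all Hv P)

end Cfsg.Agent.S4850
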