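import Cfsg.Statements.S4856
import Cfsg.Agent.Lib.Char.Complete
import Mathlib.Tactic

set_option autoImplicit false
open Cfsg

namespace Cfsg.Agent.S4856

open Cfsg.Agent.Lib.Char.Basic Cfsg.Agent.Lib.Char.Ortho Cfsg.Agent.Lib.Char.Complete
open scoped ComplexConjugate

/-- Averaging a conjugate against `w`: `χ(1) Σₓ χ(x y x⁻¹ w) = |G| χ(y) χ(w)`. -/
lemma sum_conj_mul {G : Type*} [Group G] [Fintype G] {χ : G → ℂ} (hχ : IsIrrCharacter G χ)
    (y w : G) : χ 1 * ∑ x : G, χ (x * y * x⁻¹ * w) = (Nat.card G : ℂ) * χ y * χ w := by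
  classical
  obtain ⟨n, ρ, hρ, rfl⟩ := hχ
  let T : Module.End ℂ (Fin n → ℂ) := ∑ x : G, ρ (x * y * x⁻¹)
  have hcomm : ∀ g, T ∘ₗ ρ g = ρ g ∘ₗ T := by
    intro g
    refine LinearMap.ext fun v => ?_
    simp only [T, LinearMap.comp_apply, LinearMap.sum_apply, map_sum]
    refine Fintype.sum_equiv (Equiv.mulLeft g⁻¹) _ _ ?_
    intro x
    rw [← Module.End.mul_apply, ← map_mul, ← Module.End.mul_apply, ← map_mul]
    congr 2
    simp only [Equiv.coe_mulLeft]
    group
  obtain ⟨c, hc⟩ := schur_scalar ρ hρ T hcomm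
  have htr : ∀ w : G, ∑ x : G, ρ.character (x * y * x⁻¹ * w) = c * ρ.character w := by
    intro w
    have h1 : T * ρ w = c • ρ w := by
      rw [hc]
      refine LinearMap.ext fun v => ?_
      simp
    have h2 : LinearMap.trace ℂ _ (T * ρ w) = c * ρ.character w := by
      rw [h1, map_smul]; rfl
    rw [← h2]
    simp only [T, Finset.sum_mul, map_sum]
    refine Finset.sum_congr rfl fun x _ => ?_
    rw [← map_mul ρ (x * y * x⁻¹) w]
    rfl
  have h1 := htr 1
  have h3 : ∑ x : G, ρ.character (x * y * x⁻¹ * 1) = (Nat.card G : ℂ) * ρ.character y := by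
    simp only [mul_one, Representation.char_conj]
    simp [Finset.sum_const, Finset.card_univ, Nat.card_eq_fintype_card]
  rw [h3] at h1
  rw [htr w, h1]
  ring

/-- Sum over commutators. -/
lemma sum_commutator {G : Type*} [Group G] [Fintype G] {χ : G → ℂ} (hχ : IsIrrCharacter G χ) :
    χ 1 * ∑ y : G, ∑ x : G, χ (x * y * x⁻¹ * y⁻¹) = (Nat.card G : ℂ) ^ 2 := by
  have hc : IsCharacter G χ := isCharacter_of_isIrrCharacter hχ
  have h1 : ∑ y : G, χ y * χ y⁻¹ = (Nat.card G : ℂ) := by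
    have h := classInner_self_of_isIrr hχ
    rw [classInner_eq_sum_inv _ hc] at h
    have hG : (Nat.card G : ℂ) ≠ 0 := card_ne_zero_complex
    field_simp at h
    exact h
  calc χ 1 * ∑ y : G, ∑ x : G, χ (x * y * x⁻¹ * y⁻¹)
      = ∑ y : G, χ 1 * ∑ x : G, χ (x * y * x⁻¹ * y⁻¹) := by rw [Finset.mul_sum]
    _ = ∑ y : G, (Nat.card G : ℂ) * (χ y * χ y⁻¹) := by
        refine Finset.sum_congr rfl fun y _ => ?_
        rw [sum_conj_mul hχ y y⁻¹]
        ring
    _ = (Nat.card G : ℂ) ^ 2 := by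
        rw [← Finset.mul_sum, h1]
        ring

/-- For an element z of a finite group G, the number of pairs (x, y) of elements with x y x⁻¹ y⁻¹ = z equals the order of G times the sum over the irreducible characters χ of χ(z)/χ(1). -/
theorem result {G : Type*} [Group G] [Finite G] (z : G) : (Nat.card {xy : G × G // xy.1 * xy.2 * xy.1⁻¹ * xy.2⁻¹ = z} : ℂ) = (Nat.card G : ℂ) * ∑ᶠ χ : Cfsg.IrrCharacter G, (χ : G → ℂ) z / (χ : G → ℂ) 1 := by
  classical
  let _ := Fintype.ofFinite G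
  have := finite_irrCharacter (G := G)
  let _ := Fintype.ofFinite (IrrCharacter G)
  rw [finsum_eq_sum_of_fintype]
  let N : G → ℂ := fun z => (Nat.card {xy : G × G // xy.1 * xy.2 * xy.1⁻¹ * xy.2⁻¹ = z} : ℂ)
  have hNcf : IsClassFunction G N := by
    intro g h
    simp only [N]
    congr 1
    refine Nat.card_congr ?_
    refine
      { toFun := fun p => ⟨(h⁻¹ * p.1.1 * h, h⁻¹ * p.1.2 * h), ?_⟩
        invFun := fun p => ⟨(h * p.1.1 * h⁻¹, h * p.1.2 * h⁻¹), ?_⟩
        left_inv := ?_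
        right_inv := ?_ }
    · have := p.2
      simp only at this ⊢
      rw [show h⁻¹ * p.1.1 * h * (h⁻¹ * p.1.2 * h) * (h⁻¹ * p.1.1 * h)⁻¹ * (h⁻¹ * p.1.2 * h)⁻¹
        = h⁻¹ * (p.1.1 * p.1.2 * p.1.1⁻¹ * p.1.2⁻¹) * h by group, this]
      group
    · have := p.2
      simp only at this ⊢
      rw [show h * p.1.1 * h⁻¹ * (h * p.1.2 * h⁻¹) * (h * p.1.1 * h⁻¹)⁻¹ * (h * p.1.2 * h⁻¹)⁻¹
        = h * (p.1.1 * p.1.2 * p.1.1⁻¹ * p.1.2⁻¹) * h⁻¹ by group, this]
    · intro p
      apply Subtype.ext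
      apply Prod.ext <;> simp only <;> group
    · intro p
      apply Subtype.ext
      apply Prod.ext <;> simp only <;> group
  have hNsum : ∀ f : G → ℂ, ∑ z : G, N z * f z =
      ∑ y : G, ∑ x : G, f (x * y * x⁻¹ * y⁻¹) := by
    intro f
    have hN : ∀ z : G, N z = ∑ p : G × G, if p.1 * p.2 * p.1⁻¹ * p.2⁻¹ = z then (1 : ℂ) else 0 := by
      intro z
      simp only [N, Nat.card_eq_fintype_card, Fintype.card_subtype]
      rw [Finset.sum_boole]
    simp only [hN, Finset.sum_mul]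
    rw [Finset.sum_comm]
    rw [← Finset.univ_product_univ, Finset.sum_product, Finset.sum_comm]
    refine Finset.sum_congr rfl fun y _ => Finset.sum_congr rfl fun x _ => ?_
    simp
  have hinner : ∀ χ : IrrCharacter G, classInner N χ = (Nat.card G : ℂ) / (χ : G → ℂ) 1 := by
    intro χ
    have hχ := χ.2
    have h1 : classInner N χ = (Nat.card G : ℂ)⁻¹ *
        ∑ y : G, ∑ x : G, conj ((χ : G → ℂ) (x * y * x⁻¹ * y⁻¹)) := by
      rw [classInner_def, hNsum (fun z => conj ((χ : G → ℂ) z))]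
    have h2 := sum_commutator hχ
    obtain ⟨d, hd0, hd⟩ := exists_pos_deg_of_isIrr hχ
    have hdne : (χ : G → ℂ) 1 ≠ 0 := irr_one_ne_zero hχ
    have h3 : ∑ y : G, ∑ x : G, conj ((χ : G → ℂ) (x * y * x⁻¹ * y⁻¹)) =
        (Nat.card G : ℂ) ^ 2 / (χ : G → ℂ) 1 := by
      have h4 : ∑ y : G, ∑ x : G, (χ : G → ℂ) (x * y * x⁻¹ * y⁻¹) =
          (Nat.card G : ℂ) ^ 2 / (χ : G → ℂ) 1 := by
        field_simp
        rw [mul_comm]
        exact h2
      have h5 := congrArg (starRingEnd ℂ) h4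
      simp only [map_sum, map_div₀, map_pow, map_natCast] at h5
      rw [h5, hd]
      simp
    rw [h1, h3]
    have hG : (Nat.card G : ℂ) ≠ 0 := card_ne_zero_complex
    field_simp
  have hexp := classFunction_eq_sum hNcf
  have hz := congrFun hexp z
  simp only [Finset.sum_apply, Pi.smul_apply, smul_eq_mul] at hz
  show N z = _
  rw [hz, Finset.mul_sum]
  refine Finset.sum_congr rfl fun χ _ => ?_
  rw [hinner]
  ring

end Cfsg.Agent.S4856
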