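import Cfsg.Statements.S4862
import Cfsg.Agent.Lib.RealDeg.Core
import Mathlib.Tactic

set_option autoImplicit false
set_option linter.style.haveILetI false
open Cfsg

namespace Cfsg.Agent.S4862

/-- Let p be an odd prime and G a finite group such that the subgroup generated by the p-elements of G is solvable and every real-valued irreducible complex character of G has degree prime to p. Let K be the subgroup generated by the 2-elements of G and P a Sylow p-subgroup of G. Then every normal subgroup M of G contained in K and in the derived subgroup of P is centralized by K. -/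
theorem result {G : Type*} [Group G] [Finite G] (p : ℕ) [Fact p.Prime] (hp : p ≠ 2) (hsolv : Group.IsSolvable ↥(Subgroup.closure {g : G | ∃ k : ℕ, orderOf g = p ^ k})) (hreal : ∀ χ : Cfsg.IrrCharacter G, (∀ g : G, ((χ : G → ℂ) g).im = 0) → ¬ p ∣ Cfsg.charDegree (χ : G → ℂ)) (P : Sylow p G) (M : Subgroup G) (hM : M.Normal) (hMK : M ≤ (Subgroup.closure {g : G | ∃ k : ℕ, orderOf g = 2 ^ k})) (hMP : M ≤ ⁅(P : Subgroup G), (P : Subgroup G)⁆) : (Subgroup.closure {g : G | ∃ k : ℕ, orderOf g = 2 ^ k}) ≤ Subgroup.centralizer (M : Set G) := by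
  classical
  let _ : Fintype G := Fintype.ofFinite G
  let _ : Fintype M := Fintype.ofFinite M
  haveI := hM
  have hMle : M ≤ (P : Subgroup G) := hMP.trans (Subgroup.commutator_le.mpr fun a ha b hb => by
    rw [commutatorElement_def]
    exact mul_mem (mul_mem (mul_mem ha hb) (inv_mem ha)) (inv_mem hb))
  have hMp : IsPGroup p M := P.isPGroup'.to_le hMle
  have hker : ∀ χ : IrrCharacter G, (∀ g, ((χ : G → ℂ) g).im = 0) →
      ∀ k ∈ (QuotientGroup.mk' M).ker, (χ : G → ℂ) k = (χ : G → ℂ) 1 := by
    intro χ hχ k hk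
    have hkM : k ∈ M := by simpa using hk
    exact Cfsg.Agent.Lib.RealDeg.Basic.eq_of_mem_of_le_commutator χ.2 (hreal χ hχ) hM
      P.isPGroup' hMP ⟨k, hkM⟩
  have hodd : Odd (Nat.card M) := by
    obtain ⟨a, ha⟩ := IsPGroup.iff_card.mp hMp
    rw [ha]
    exact ((Fact.out : p.Prime).odd_of_ne_two hp).pow
  have hnoreal : ∀ n ∈ M, IsConj n n⁻¹ → n = 1 := by
    intro n hn hr
    have h1 := Cfsg.Agent.Lib.RealDeg.Basic.isConj_of_map_isConj_of_real (QuotientGroup.mk' M)
      (QuotientGroup.mk'_surjective M) hker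
      (fun q hq => Cfsg.Agent.Lib.RealDeg.Basic.exists_real_lift_of_odd M hodd q hq)
      (a := n) (b := 1) hr (by simp) (by
        have h2 : (QuotientGroup.mk' M) n = 1 := by simpa using hn
        rw [h2, map_one])
    exact isConj_one_right.mp h1.symm
  rw [Subgroup.closure_le]
  intro t ht
  obtain ⟨k, hk⟩ := ht
  rw [SetLike.mem_coe, Subgroup.mem_centralizer_iff]
  intro n hn
  by_contra hne
  have hne2 : ∃ n ∈ M, t * n * t⁻¹ ≠ n := ⟨n, hn, fun h => hne (by
    rw [mul_inv_eq_iff_eq_mul] at h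
    exact h.symm)⟩
  obtain ⟨n', hn', hn1, hr⟩ := Cfsg.Agent.Lib.RealDeg.Basic.exists_real_of_not_centralizes M
    (t := t) (k := k) (by rw [← hk, pow_orderOf_eq_one]) hne2
  exact hn1 (hnoreal n' hn' hr)

end Cfsg.Agent.S4862
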