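import Cfsg.Statements.S4870
import Cfsg.Agent.Lib.CharZeros.Gallagher

set_option autoImplicit false
open Cfsg

namespace Cfsg.Agent.S4870

open Cfsg.Agent.Lib.Char.Basic Cfsg.Agent.Lib.Char.Ortho Cfsg.Agent.Lib.Char.Complete
open Cfsg.Agent.Lib.Char.Induced Cfsg.Agent.Lib.Char.CliffordCorr Cfsg.Agent.Lib.Char.Degree
open Cfsg.Agent.Lib.CharZeros.Gallagher
open scoped ComplexConjugate

/-- Let G be a finite group with a non-abelian minimal normal subgroup N, and let φ be an irreducible complex character of N with stabilizer I in G (the elements g with φ(g n g⁻¹) = φ(n) for all n ∈ N) such that φ extends to an irreducible character of I. Put d = φ(1)·[G : I]. Then the number of linear characters of G is at most [G : I] times the number of irreducible characters of G of degree d. -/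
theorem result {G : Type*} [Group G] [Finite G] (N : Subgroup G) (hN : N.Normal) (hN1 : N ≠ ⊥) (hmin : ∀ M : Subgroup G, M.Normal → M ≤ N → M = ⊥ ∨ M = N) (hna : ¬ IsMulCommutative ↥N) (φ : Cfsg.IrrCharacter ↥N) (I : Subgroup G) (hI : ∀ g : G, g ∈ I ↔ ∀ n n' : ↥N, (n' : G) = g * (n : G) * g⁻¹ → (φ : ↥N → ℂ) n' = (φ : ↥N → ℂ) n) (hNI : N ≤ I) (hext : ∃ ψ : Cfsg.IrrCharacter ↥I, ∀ n : ↥N, (ψ : ↥I → ℂ) (Subgroup.inclusion hNI n) = (φ : ↥N → ℂ) n) : Nat.card {χ : Cfsg.IrrCharacter G // Cfsg.charDegree (χ : G → ℂ) = 1} ≤ I.index * Nat.card {χ : Cfsg.IrrCharacter G // Cfsg.charDegree (χ : G → ℂ) = Cfsg.charDegree (φ : ↥N → ℂ) * I.index} := by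
  classical
  let _ := Fintype.ofFinite G
  let _ := Fintype.ofFinite N
  let _ := Fintype.ofFinite I
  have := finite_irrCharacter (G := G)
  let _ := Fintype.ofFinite (IrrCharacter G)
  obtain ⟨ψ, hψφ⟩ := hext
  have hI' : I = inertia hN (φ : N → ℂ) := by
    ext g
    rw [hI, mem_inertia]
    constructor
    · intro h
      funext n
      exact h n _ rfl
    · intro h n n' hn'
      have h1 := congrFun h n
      have hn2 : n' = ⟨g * n * g⁻¹, hN.conj_mem n n.2 g⟩ := Subtype.ext hn'
      rw [hn2]
      exact h1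
  have hres : res hNI (ψ : I → ℂ) = (φ : N → ℂ) := by
    funext n
    exact hψφ n
  let L := {χ : IrrCharacter G // charDegree (χ : G → ℂ) = 1}
  let D := {χ : IrrCharacter G // charDegree (χ : G → ℂ) = charDegree (φ : N → ℂ) * I.index}
  let _ : Fintype L := Fintype.ofFinite _
  let _ : Fintype D := Fintype.ofFinite _
  have hLc : ∀ a : L, IsCharacter G (a.1 : G → ℂ) := fun a => isCharacter_of_isIrrCharacter a.1.2
  have hL1 : ∀ a : L, (a.1 : G → ℂ) 1 = 1 := by
    intro a
    rw [← charDegree_natCast (hLc a), a.2]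
    simp
  have hLN : ∀ a : L, ∀ n ∈ N, (a.1 : G → ℂ) n = 1 := fun a n hn =>
    linear_eq_one_of_minimal N hN hmin hna (hLc a) (hL1 a) hn
  have hτ : ∀ a : L, IsIrrCharacter I (fun x : I => (a.1 : G → ℂ) x * (ψ : I → ℂ) x) := fun a =>
    isIrrCharacter_mul_linear (isCharacter_restrict I (hLc a)) (by simpa using hL1 a) ψ.2
  have hφ1 : classInner (φ : N → ℂ) (φ : N → ℂ) = 1 := classInner_self_of_isIrr φ.2
  have hresτ : ∀ a : L, res hNI (fun x : I => (a.1 : G → ℂ) x * (ψ : I → ℂ) x) = (φ : N → ℂ) := by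
    intro a
    rw [← hres]
    funext n
    simp [res, hLN a n n.2]
  have hFirr : ∀ a : L, IsIrrCharacter G
      (indFun I (fun x : I => (a.1 : G → ℂ) x * (ψ : I → ℂ) x)) := fun a =>
    (isIrrCharacter_indFun_of_lies_over hN hNI φ.2 hI' (hτ a) (by
      rw [hresτ a, hφ1]; exact one_ne_zero)).1
  have hFdeg : ∀ a : L, charDegree (indFun I (fun x : I => (a.1 : G → ℂ) x * (ψ : I → ℂ) x)) =
      charDegree (φ : N → ℂ) * I.index := by
    intro a
    apply charDegree_eq_of_eq_natCast
    rw [indFun_one]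
    push_cast
    rw [charDegree_natCast (isCharacter_of_isIrrCharacter φ.2)]
    have h1 : (ψ : I → ℂ) 1 = (φ : N → ℂ) 1 := hψφ 1
    simp only [hL1 a, one_mul, h1]
    ring
  let F : L → D := fun a => ⟨⟨_, hFirr a⟩, hFdeg a⟩
  have hfib : ∀ b ∈ (Finset.univ : Finset D),
      (Finset.univ.filter (fun a : L => F a = b)).card ≤ I.index := by
    intro b _
    by_cases hempty : (Finset.univ.filter (fun a : L => F a = b)).Nonempty
    · obtain ⟨a0, ha0⟩ := hempty
      have ha0' : F a0 = b := (Finset.mem_filter.mp ha0).2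
      let Y := {ν : IrrCharacter G // (ν : G → ℂ) 1 = 1 ∧ ∀ x ∈ I, (ν : G → ℂ) x = 1}
      let _ : Fintype Y := Fintype.ofFinite _
      have hcardY : Fintype.card Y ≤ I.index := by
        rw [← Nat.card_eq_fintype_card]
        exact card_linear_trivial_le_index I
      have hprod : ∀ a : L, IsCharacter G (fun g => (a.1 : G → ℂ) g * conj ((a0.1 : G → ℂ) g)) := by
        intro a
        have h1 := isCharacter_mul (hLc a) (isCharacter_inv (hLc a0))
        convert h1 using 1
        funext x
        simp only [Pi.mul_apply]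
        rw [char_inv_eq_conj (hLc a0)]
      have hprod1 : ∀ a : L, (fun g => (a.1 : G → ℂ) g * conj ((a0.1 : G → ℂ) g)) 1 = 1 := by
        intro a
        simp [hL1 a, hL1 a0]
      have hprodirr : ∀ a : L, IsIrrCharacter G (fun g => (a.1 : G → ℂ) g * conj ((a0.1 : G → ℂ) g)) :=
        fun a => Cfsg.Agent.Lib.Char.Linear.isIrrCharacter_of_deg_one (hprod a) (hprod1 a)
      have hprodI : ∀ a : L, F a = b → ∀ x ∈ I, (a.1 : G → ℂ) x * conj ((a0.1 : G → ℂ) x) = 1 := by
        intro a hab x hx
        have heq : F a = F a0 := hab.trans ha0'.symm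
        have heq2 := congrArg (fun d : D => (d.1 : G → ℂ)) heq
        have h1 := eq_on_inertia_of_indFun_eq hN hNI φ.2 hI' ψ.2 hres (hLc a) (hL1 a) (hLN a)
          (hLc a0) (hL1 a0) (hLN a0) heq2 x hx
        rw [h1]
        exact linear_mul_conj (hLc a0) (hL1 a0) x
      have hle : (Finset.univ.filter (fun a : L => F a = b)).card ≤ (Finset.univ : Finset Y).card := by
        refine Finset.card_le_card_of_injOn (fun a =>
          if h : F a = b then ⟨⟨_, hprodirr a⟩, hprod1 a, hprodI a h⟩ else
            ⟨⟨_, hprodirr a0⟩, hprod1 a0, hprodI a0 ha0'⟩) (fun _ _ => Finset.mem_univ _) ?_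
        intro a ha a' ha' hval
        have ha1 : F a = b := (Finset.mem_filter.mp ha).2
        have ha1' : F a' = b := (Finset.mem_filter.mp ha').2
        simp only [ha1, ha1', dif_pos] at hval
        have h2 := congrArg (fun d : Y => (d.1 : G → ℂ)) hval
        simp only at h2
        apply Subtype.ext
        apply Subtype.ext
        funext g
        have h3 := congrFun h2 g
        have h4 := linear_mul_conj (hLc a0) (hL1 a0) g
        have h5 : conj ((a0.1 : G → ℂ) g) ≠ 0 := by
          intro h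
          rw [h, mul_zero] at h4
          exact zero_ne_one h4
        exact mul_right_cancel₀ h5 h3
      exact hle.trans (by rw [Finset.card_univ]; exact hcardY)
    · rw [Finset.not_nonempty_iff_eq_empty.mp hempty]
      simp
  have hcount := Finset.card_le_mul_card_image_of_maps_to (f := F) (s := (Finset.univ : Finset L))
    (t := (Finset.univ : Finset D)) (fun _ _ => Finset.mem_univ _) I.index hfib
  rw [Finset.card_univ, Finset.card_univ] at hcount
  rw [Nat.card_eq_fintype_card, Nat.card_eq_fintype_card]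
  exact hcount

end Cfsg.Agent.S4870
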