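import Cfsg.Statements.S4871
import Cfsg.Agent.Lib.Char.FSParity
import Cfsg.Agent.Lib.CharZeros.Gallagher
import Cfsg.Agent.Lib.Char.RealChar
import Cfsg.Agent.Lib.Char.Linear

set_option autoImplicit false
set_option linter.style.haveILetI false
open Cfsg

namespace Cfsg.Agent.S4871

open Cfsg.Agent.Lib.Char.Basic Cfsg.Agent.Lib.Char.Ortho Cfsg.Agent.Lib.Char.Complete
open Cfsg.Agent.Lib.Char.Induced Cfsg.Agent.Lib.Char.CliffordCorr Cfsg.Agent.Lib.Char.Degree
open Cfsg.Agent.Lib.CharZeros.Gallagher Cfsg.Agent.Lib.Char.Conj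
open Cfsg.Agent.Lib.Char.OddIndexReal
open Cfsg.Agent.Lib.Char.Linear
open scoped ComplexConjugate

/-- The final count. -/
theorem count_arith {ι : Type*} [Fintype ι] (deg : ι → ℕ) (good : ι → Prop) (i : ℕ)
    (hi : 2 ≤ i) (hpos : ∀ x, 0 < deg x) (hieven : 2 ∣ i)
    (hcount : Nat.card {x // deg x = 1 ∧ good x} ≤ i * Nat.card {x // deg x = i ∧ good x}) :
    4 * Nat.card {x // (deg x = 1 ∨ 2 ∣ deg x) ∧ good x} ≤
      3 * ∑ᶠ x : {x // (deg x = 1 ∨ 2 ∣ deg x) ∧ good x}, deg x.1 := by
  classical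
  let C : Finset ι := Finset.univ.filter (fun x => (deg x = 1 ∨ 2 ∣ deg x) ∧ good x)
  let A : Finset ι := C.filter (fun x => deg x = 1)
  let B : Finset ι := C.filter (fun x => deg x = i)
  have hCc : Nat.card {x // (deg x = 1 ∨ 2 ∣ deg x) ∧ good x} = C.card := by
    rw [Nat.card_eq_fintype_card, Fintype.card_subtype]
  have hAc : Nat.card {x // deg x = 1 ∧ good x} = A.card := by
    rw [Nat.card_eq_fintype_card, Fintype.card_subtype]
    congr 1
    ext x
    simp only [A, C, Finset.mem_filter, Finset.mem_univ, true_and]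
    constructor
    · rintro ⟨h1, h2⟩
      exact ⟨⟨Or.inl h1, h2⟩, h1⟩
    · rintro ⟨⟨_, h2⟩, h1⟩
      exact ⟨h1, h2⟩
  have hBc : Nat.card {x // deg x = i ∧ good x} = B.card := by
    rw [Nat.card_eq_fintype_card, Fintype.card_subtype]
    congr 1
    ext x
    simp only [B, C, Finset.mem_filter, Finset.mem_univ, true_and]
    constructor
    · rintro ⟨h1, h2⟩
      exact ⟨⟨Or.inr (h1 ▸ hieven), h2⟩, h1⟩
    · rintro ⟨⟨_, h2⟩, h1⟩
      exact ⟨h1, h2⟩
  have hsumC : ∑ᶠ x : {x // (deg x = 1 ∨ 2 ∣ deg x) ∧ good x}, deg x.1 = ∑ x ∈ C, deg x := by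
    rw [finsum_eq_sum_of_fintype]
    symm
    exact Finset.sum_subtype C (fun x => by simp [C]) deg
  rw [hCc, hsumC]
  rw [hAc, hBc] at hcount
  have hle : ∑ x ∈ C, (4 + (if deg x = i then (3 * i - 4) else 0)) ≤
      ∑ x ∈ C, (3 * deg x + (if deg x = 1 then 1 else 0)) := by
    apply Finset.sum_le_sum
    intro x hx
    have hx' := (Finset.mem_filter.mp hx).2.1
    have hpx := hpos x
    by_cases h1 : deg x = 1
    · have h2 : deg x ≠ i := by omega
      simp [h1, h2]
      omega
    · rcases hx' with h3 | h3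
      · exact absurd h3 h1
      · by_cases h4 : deg x = i
        · simp only [h4, if_true]
          have h5 : i ≠ 1 := by omega
          simp only [h5, if_false]
          omega
        · simp only [h4, h1, if_false]
          obtain ⟨k, hk⟩ := h3
          omega
  rw [Finset.sum_add_distrib, Finset.sum_add_distrib, Finset.sum_const, smul_eq_mul,
    ← Finset.mul_sum, Finset.sum_ite, Finset.sum_ite, Finset.sum_const_zero, Finset.sum_const_zero,
    Finset.sum_const, Finset.sum_const, smul_eq_mul, smul_eq_mul, add_zero, add_zero, mul_one] at hle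
  have hB : (C.filter (fun x => deg x = i)).card = B.card := rfl
  have hA : (C.filter (fun x => deg x = 1)).card = A.card := rfl
  rw [hB, hA] at hle
  have h6 : i * B.card ≤ (3 * i - 4) * B.card := Nat.mul_le_mul_right _ (by omega)
  have h7 : C.card * 4 = 4 * C.card := mul_comm _ _
  nlinarith

section Nu

variable {G : Type*} [Group G] [Fintype G]

/-- The indicator of an induced function. -/
theorem nu_indFun (T : Subgroup G) (ξ : T → ℂ) :
    nu (indFun T ξ) = (Nat.card T : ℂ)⁻¹ * ∑ g : G, extendByZero T ξ (g * g) := by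
  have hG : (Nat.card G : ℂ) ≠ 0 := Nat.cast_ne_zero.mpr Nat.card_pos.ne'
  have h1 : ∀ x : G, ∑ s : G, extendByZero T ξ (x⁻¹ * (s * s) * x) =
      ∑ s : G, extendByZero T ξ (s * s) := by
    intro x
    refine Fintype.sum_equiv (MulAut.conj x⁻¹).toEquiv _ _ fun s => ?_
    simp only [MulEquiv.toEquiv_eq_coe, EquivLike.coe_coe, MulAut.conj_apply, inv_inv]
    congr 1
    group
  simp only [nu, indFun_apply]
  rw [← Finset.mul_sum, Finset.sum_comm]
  simp_rw [h1]
  rw [Finset.sum_const, Finset.card_univ, ← Nat.card_eq_fintype_card, nsmul_eq_mul]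
  field_simp

end Nu

section Inverting

variable {G : Type*} [Group G] [Finite G]

/-- The inverting involution. -/
theorem exists_inverting (N P : Subgroup G) (hN : N.Normal)
    (hcomm : ∀ a ∈ N, ∀ b ∈ N, a * b = b * a) (hP : IsPGroup 2 P) (hP1 : P ≠ ⊥)
    (hdisj : N ⊓ P = ⊥) (hprod : N ⊔ P = ⊤)
    (hmin : N ≠ ⊥ ∧ ∀ M : Subgroup G, M.Normal → M ≠ ⊥ → N ≤ M) :
    ∃ t ∈ P, t * t = 1 ∧ (∀ p ∈ P, t * p = p * t) ∧ ∀ n ∈ N, t * n * t⁻¹ = n⁻¹ := by
  classical
  haveI : Fact (Nat.Prime 2) := ⟨Nat.prime_two⟩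
  have hdec : ∀ g : G, ∃ n ∈ N, ∃ p ∈ P, g = n * p := by
    intro g
    have h1 : g ∈ ((N ⊔ P : Subgroup G) : Set G) := by rw [hprod]; trivial
    rw [@Subgroup.normal_mul _ _ N P hN] at h1
    obtain ⟨n, hn, p, hp, rfl⟩ := Set.mem_mul.mp h1
    exact ⟨n, hn, p, hp, rfl⟩
  have hNP : ∀ x ∈ N, x ∈ P → x = 1 := by
    intro x hxN hxP
    have : x ∈ N ⊓ P := ⟨hxN, hxP⟩
    rw [hdisj] at this
    exact this
  have hNne : ∃ n ∈ N, n ≠ 1 := by
    by_contra hcon
    push Not at hcon
    exact hmin.1 (by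
      rw [eq_bot_iff]
      intro n hn
      exact hcon n hn)
  -- `C_P(N) = 1`
  have hC : ∀ c ∈ P, (∀ m ∈ N, c * m = m * c) → c = 1 := by
    let C : Subgroup G :=
      { carrier := {c | c ∈ P ∧ ∀ m ∈ N, c * m = m * c}
        mul_mem' := by
          rintro a b ⟨ha, ha'⟩ ⟨hb, hb'⟩
          refine ⟨mul_mem ha hb, fun m hm => ?_⟩
          rw [mul_assoc, hb' m hm, ← mul_assoc, ha' m hm, mul_assoc]
        one_mem' := ⟨one_mem _, fun m _ => by simp⟩
        inv_mem' := by
          rintro a ⟨ha, ha'⟩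
          refine ⟨inv_mem ha, fun m hm => ?_⟩
          have := ha' m hm
          rw [inv_mul_eq_iff_eq_mul, ← mul_assoc, this, mul_assoc, mul_inv_cancel, mul_one] }
    have hCn : C.Normal := by
      constructor
      rintro c ⟨hcP, hcN⟩ g
      obtain ⟨n, hn, p, hp, rfl⟩ := hdec g
      set x := p * c * p⁻¹ with hx
      have hxP : x ∈ P := mul_mem (mul_mem hp hcP) (inv_mem hp)
      have hxN : ∀ m ∈ N, x * m = m * x := by
        intro m hm
        have hm' : p⁻¹ * m * p ∈ N := by
          have := hN.conj_mem m hm p⁻¹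
          simpa using this
        have h1 := hcN _ hm'
        calc x * m = p * (c * (p⁻¹ * m * p)) * p⁻¹ := by rw [hx]; group
          _ = p * ((p⁻¹ * m * p) * c) * p⁻¹ := by rw [h1]
          _ = m * x := by rw [hx]; group
      have e : (n * p) * c * (n * p)⁻¹ = x := by
        have h2 := hxN n hn
        calc (n * p) * c * (n * p)⁻¹ = n * x * n⁻¹ := by rw [hx]; group
          _ = (x * n) * n⁻¹ := by rw [h2]
          _ = x := by group
      rw [e]
      exact ⟨hxP, hxN⟩
    by_cases hbot : C = ⊥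
    · intro c hc hcN
      have : c ∈ C := ⟨hc, hcN⟩
      rw [hbot] at this
      exact this
    · exfalso
      have h1 := hmin.2 C hCn hbot
      obtain ⟨n, hn, hn1⟩ := hNne
      exact hn1 (hNP n hn (h1 hn).1)
  -- the central involution
  haveI : Nontrivial P := Subgroup.nontrivial_iff_ne_bot P |>.mpr hP1
  haveI hcn : Nontrivial (Subgroup.center P) := hP.center_nontrivial
  have hcp : IsPGroup 2 (Subgroup.center P) := IsPGroup.to_subgroup hP _
  have h2c : 2 ∣ Nat.card (Subgroup.center P) := by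
    obtain ⟨k, hk⟩ := IsPGroup.iff_card.mp hcp
    have h1 : 1 < Nat.card (Subgroup.center P) := Finite.one_lt_card
    rw [hk] at h1 ⊢
    rcases Nat.eq_zero_or_pos k with rfl | hk0
    · simp at h1
    · exact dvd_pow_self 2 hk0.ne'
  obtain ⟨z, hz⟩ := exists_prime_orderOf_dvd_card' 2 h2c
  have hz1 : z ≠ 1 := by
    intro h
    rw [h, orderOf_one] at hz
    omega
  have hzsq : z * z = 1 := by
    rw [← pow_two, ← hz, pow_orderOf_eq_one]
  let t : G := ((z : P) : G)
  have htP : t ∈ P := (z : P).2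
  have ht1 : t ≠ 1 := by
    intro h
    apply hz1
    apply Subtype.ext
    apply Subtype.ext
    exact h
  have htt : t * t = 1 := by
    have := congrArg (fun w : Subgroup.center P => ((w : P) : G)) hzsq
    simpa using this
  have htinv : t⁻¹ = t := by
    rw [inv_eq_iff_mul_eq_one]
    exact htt
  have htc : ∀ p ∈ P, t * p = p * t := by
    intro p hp
    have h1 := (Subgroup.mem_center_iff.mp z.2) ⟨p, hp⟩
    have := congrArg (Subtype.val) h1
    exact this.symm
  -- `C_N(t) = 1`
  let M : Subgroup G :=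
    { carrier := {m | m ∈ N ∧ t * m * t⁻¹ = m}
      mul_mem' := by
        rintro a b ⟨ha, ha'⟩ ⟨hb, hb'⟩
        refine ⟨mul_mem ha hb, ?_⟩
        have e : t * (a * b) * t⁻¹ = (t * a * t⁻¹) * (t * b * t⁻¹) := by group
        rw [e, ha', hb']
      one_mem' := ⟨one_mem _, by simp⟩
      inv_mem' := by
        rintro a ⟨ha, ha'⟩
        refine ⟨inv_mem ha, ?_⟩
        have e : t * a⁻¹ * t⁻¹ = (t * a * t⁻¹)⁻¹ := by group
        rw [e, ha'] }
  have hMn : M.Normal := by
    constructor
    rintro c ⟨hcN, hct⟩ g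
    obtain ⟨n, hn, p, hp, rfl⟩ := hdec g
    set x := p * c * p⁻¹ with hx
    have hxN : x ∈ N := hN.conj_mem c hcN p
    have e : (n * p) * c * (n * p)⁻¹ = x := by
      have h2 := hcomm n hn x hxN
      calc (n * p) * c * (n * p)⁻¹ = (n * x) * n⁻¹ := by rw [hx]; group
        _ = (x * n) * n⁻¹ := by rw [h2]
        _ = x := by group
    rw [e]
    refine ⟨hxN, ?_⟩
    have h3 : t * p = p * t := htc p hp
    calc t * x * t⁻¹ = (t * p) * c * (p⁻¹ * t⁻¹) := by rw [hx]; group
      _ = p * (t * c * t⁻¹) * p⁻¹ := by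
          have h5 : p⁻¹ * t⁻¹ = t⁻¹ * p⁻¹ := by
            have := congrArg (·⁻¹) h3
            simpa using this
          rw [h3, h5]
          group
      _ = x := by rw [hct]
  have hMbot : M = ⊥ := by
    by_contra hne
    have h1 := hmin.2 M hMn hne
    apply ht1
    apply hC t htP
    intro m hm
    have h2 := (h1 hm).2
    rw [mul_inv_eq_iff_eq_mul] at h2
    exact h2
  refine ⟨t, htP, htt, htc, fun n hn => ?_⟩
  have hconjN : t * n * t⁻¹ ∈ N := hN.conj_mem n hn t
  have hx : n * (t * n * t⁻¹) ∈ M := by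
    refine ⟨mul_mem hn hconjN, ?_⟩
    have e : t * (n * (t * n * t⁻¹)) * t⁻¹ = (t * n * t⁻¹) * ((t * t) * n * (t * t)⁻¹) := by group
    rw [e, htt]
    simp only [one_mul, inv_one, mul_one]
    exact hcomm _ hconjN _ hn
  rw [hMbot, Subgroup.mem_bot] at hx
  exact eq_inv_of_mul_eq_one_right hx

end Inverting

section Sum

variable {G : Type*} [Group G] [Fintype G]

/-- The key sum. -/
theorem sum_ext_sq (N P : Subgroup G) (hN : N.Normal) [Fintype N] [Fintype P]
    (he : Function.Bijective (fun x : N × P => (x.1 : G) * x.2))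
    {θ : N → ℂ} (hθ1 : θ 1 = 1) (hθmul : ∀ x y, θ (x * y) = θ x * θ y)
    (pr : G → N) (hpr : ∀ n : N, ∀ p ∈ P, pr (n * p) = n)
    (T : Subgroup G) (hT : T = inertia hN θ) (hNT : N ≤ T) [Fintype T]
    {t : G} (htP : t ∈ P) (htt : t * t = 1) (htc : ∀ p ∈ P, t * p = p * t)
    (htinv : ∀ n ∈ N, t * n * t⁻¹ = n⁻¹) :
    ∑ g : G, extendByZero T (fun x : T => θ (pr x)) (g * g) = (Nat.card T : ℂ) := by
  classical
  have hsumG : ∀ f : G → ℂ, ∑ g, f g = ∑ p : P, ∑ n : N, f (n * p) := by
    intro f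
    rw [← (Equiv.ofBijective _ he).sum_comp f, Fintype.sum_prod_type, Finset.sum_comm]
    rfl
  have hmemT : ∀ g, g ∈ T ↔ conjOn hN g θ = θ := by
    intro g
    rw [hT]
    exact mem_inertia hN θ g
  -- the multiplicative conjugation
  have hperp : ∀ p : P, ∑ n : N, extendByZero T (fun x : T => θ (pr x)) ((n * p) * (n * p)) =
      (Nat.card N : ℂ) * (if t * p ∈ T then 1 else 0) := by
    intro p
    let c : N → N := fun n => ⟨p * n * (p : G)⁻¹, hN.conj_mem n n.2 p⟩
    have hcmul : ∀ x y, c (x * y) = c x * c y := by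
      intro x y
      apply Subtype.ext
      change (p : G) * (x * y) * (p : G)⁻¹ = (p * x * (p : G)⁻¹) * (p * y * (p : G)⁻¹)
      group
    have hsq : ∀ n : N, ((n : G) * p) * (n * p) = ((n * c n : N) : G) * (p * p) := by
      intro n
      change ((n : G) * p) * (n * p) = (n * (p * n * (p : G)⁻¹)) * (p * p)
      group
    have hθinv : ∀ x : N, θ x * θ x⁻¹ = 1 := by
      intro x
      rw [← hθmul, mul_inv_cancel, hθ1]
    -- value when `p * p ∈ T`
    have hval : (p : G) * p ∈ T → ∀ n : N,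
        extendByZero T (fun x : T => θ (pr x)) ((n * p) * (n * p)) = θ n * θ (c n) := by
      intro hpp n
      have hmem : ((n : G) * p) * (n * p) ∈ T := by
        rw [hsq]
        exact mul_mem (hNT (n * c n).2) hpp
      rw [extendByZero_of_mem T _ hmem]
      have h1 : pr (((n : G) * p) * (n * p)) = n * c n := by
        rw [hsq]
        exact hpr _ _ (mul_mem p.2 p.2)
      rw [h1, hθmul]
    have hconj : ∀ n : N, conjOn hN (t * p) θ n = θ (c n)⁻¹ := by
      intro n
      rw [conjOn_apply]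
      congr 1
      apply Subtype.ext
      have h2 := htinv (c n) (c n).2
      change (t * p) * (n : G) * (t * p)⁻¹ = ((c n : N) : G)⁻¹
      rw [← h2]
      change _ = t * (p * n * (p : G)⁻¹) * t⁻¹
      group
    by_cases htp : t * p ∈ T
    · rw [if_pos htp, mul_one]
      have hpp : (p : G) * p ∈ T := by
        have h1 := mul_mem htp htp
        have h2 : (t * p) * (t * p) = (p : G) * p := by
          calc (t * p) * (t * p) = t * (p * t) * p := by group
            _ = t * (t * p) * p := by rw [htc p p.2]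
            _ = (t * t) * (p * p) := by group
            _ = _ := by rw [htt, one_mul]
        rwa [h2] at h1
      have h1 : ∀ n : N, θ n * θ (c n) = 1 := by
        intro n
        have h2 := congrFun ((hmemT _).mp htp) n
        rw [hconj] at h2
        rw [← h2, mul_comm, hθinv]
      simp_rw [hval hpp, h1]
      rw [Finset.sum_const, Finset.card_univ, ← Nat.card_eq_fintype_card, nsmul_eq_mul, mul_one]
    · rw [if_neg htp, mul_zero]
      by_cases hpp : (p : G) * p ∈ T
      · simp_rw [hval hpp]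
        -- nontrivial hom
        obtain ⟨n₁, hn₁⟩ : ∃ n₁ : N, θ n₁ * θ (c n₁) ≠ 1 := by
          by_contra hcon
          push Not at hcon
          apply htp
          rw [hmemT]
          funext n
          rw [hconj]
          have h1 := hcon n
          have h2 := hθinv (c n)
          calc θ (c n)⁻¹ = (θ n * θ (c n)) * θ (c n)⁻¹ := by rw [h1, one_mul]
            _ = θ n * (θ (c n) * θ (c n)⁻¹) := by rw [mul_assoc]
            _ = θ n := by rw [h2, mul_one]
        set S := ∑ n : N, θ n * θ (c n) with hS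
        have h3 : (θ n₁ * θ (c n₁)) * S = S := by
          rw [hS, Finset.mul_sum]
          refine Fintype.sum_equiv (Equiv.mulLeft n₁) _ _ fun n => ?_
          simp only [Equiv.coe_mulLeft]
          rw [hcmul, hθmul, hθmul]
          ring
        have h4 : (1 - θ n₁ * θ (c n₁)) * S = 0 := by
          rw [sub_mul, one_mul, h3, sub_self]
        rcases mul_eq_zero.mp h4 with h5 | h5
        · exact absurd (sub_eq_zero.mp h5).symm hn₁
        · exact h5
      · apply Finset.sum_eq_zero
        intro n _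
        apply extendByZero_of_not_mem
        intro hmem
        rw [hsq] at hmem
        apply hpp
        have h6 : (p : G) * p = ((n * c n : N) : G)⁻¹ * (((n * c n : N) : G) * (p * p)) := by group
        rw [h6]
        exact mul_mem (inv_mem (hNT (n * c n).2)) hmem
  have hT2 : ∀ p : P, ∑ n : N, (if (n : G) * p ∈ T then (1 : ℂ) else 0) =
      (Nat.card N : ℂ) * (if (p : G) ∈ T then 1 else 0) := by
    intro p
    by_cases hp : (p : G) ∈ T
    · rw [if_pos hp, mul_one]
      have h1 : ∀ n : N, (n : G) * p ∈ T := fun n => mul_mem (hNT n.2) hp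
      simp_rw [if_pos (h1 _)]
      rw [Finset.sum_const, Finset.card_univ, ← Nat.card_eq_fintype_card, nsmul_eq_mul, mul_one]
    · rw [if_neg hp, mul_zero]
      apply Finset.sum_eq_zero
      intro n _
      rw [if_neg]
      intro hmem
      apply hp
      have h6 : (p : G) = (n : G)⁻¹ * (n * p) := by group
      rw [h6]
      exact mul_mem (inv_mem (hNT n.2)) hmem
  have hcardT : (Nat.card T : ℂ) = ∑ g : G, (if g ∈ T then (1 : ℂ) else 0) := by
    rw [Finset.sum_boole, Nat.card_eq_fintype_card, Fintype.card_subtype]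
  rw [hsumG, hcardT, hsumG]
  simp_rw [hperp, hT2]
  rw [← Finset.mul_sum, ← Finset.mul_sum]
  congr 1
  let tP : P := ⟨t, htP⟩
  exact Fintype.sum_equiv (Equiv.mulLeft tP) _ _ fun p => rfl

end Sum

section Nonreal

theorem exists_nonreal_linear {N : Type*} [Group N] [Fintype N] (hc : ∀ a b : N, a * b = b * a)
    {q : ℕ} (hq : Odd q) (hexp : ∀ a : N, a ^ q = 1) (hnt : 1 < Nat.card N) :
    ∃ θ : IrrCharacter N, ∃ n : N, conj ((θ : N → ℂ) n) ≠ (θ : N → ℂ) n := by
  classical
  have := finite_irrCharacter (G := N)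
  let _ := Fintype.ofFinite (IrrCharacter N)
  have h1 : 1 < Nat.card (IrrCharacter N) := by
    rw [card_irr_eq_card_conjClasses, card_conjClasses_of_comm hc]
    exact hnt
  have hnt2 : Nontrivial (IrrCharacter N) := Finite.one_lt_card_iff_nontrivial.mp h1
  obtain ⟨θ, hθ⟩ := exists_ne (⟨fun _ => (1 : ℂ), Cfsg.Agent.Lib.Char.RealChar.isIrr_one'⟩ : IrrCharacter N)
  refine ⟨θ, ?_⟩
  by_contra hcon
  push Not at hcon
  apply hθ
  apply Subtype.ext
  funext n
  have h2 : (θ : N → ℂ) 1 = 1 := isIrr_deg_one_of_comm hc θ.2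
  have hmul := deg_one_mul (isCharacter_of_isIrrCharacter θ.2) h2
  have hpow : ∀ (x : N) (j : ℕ), (θ : N → ℂ) (x ^ j) = (θ : N → ℂ) x ^ j := by
    intro x j
    induction j with
    | zero => simpa using h2
    | succ j ih => rw [pow_succ, hmul, ih, pow_succ]
  have h3 := hpow n q
  rw [hexp, h2] at h3
  obtain ⟨x, hx⟩ := Complex.conj_eq_iff_real.mp (hcon n)
  rw [hx] at h3
  have h4 : x ^ q = 1 := by
    have h5 : ((x ^ q : ℝ) : ℂ) = ((1 : ℝ) : ℂ) := by
      push_cast
      exact h3.symm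
    exact_mod_cast h5
  have h6 : x = 1 := by
    have := hq.strictMono_pow.injective (a₁ := x) (a₂ := 1) (by simpa using h4)
    exact this
  rw [hx, h6]
  simp

end Nonreal

/-- Let G be a finite group that is the semidirect product of a normal elementary abelian subgroup N of odd order by a non-trivial 2-subgroup P, with N the unique minimal normal subgroup of G. Consider the strongly real irreducible complex characters of G (Frobenius–Schur indicator +1) whose degree is 1 or even. Then their average degree is at least 4/3: four times their number is at most three times the sum of their degrees. -/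
theorem result {G : Type*} [Group G] [Finite G] (N P : Subgroup G) (hN : N.Normal) (q : ℕ) [Fact q.Prime] (hq : q ≠ 2) (hNel : Cfsg.IsElementaryAbelian q N) (hP : IsPGroup 2 ↥P) (hP1 : P ≠ ⊥) (hdisj : N ⊓ P = ⊥) (hprod : N ⊔ P = ⊤) (hmin : N ≠ ⊥ ∧ ∀ M : Subgroup G, M.Normal → M ≠ ⊥ → N ≤ M) : 4 * Nat.card {χ : Cfsg.IrrCharacter G // (Cfsg.charDegree (χ : G → ℂ) = 1 ∨ 2 ∣ Cfsg.charDegree (χ : G → ℂ)) ∧ (Nat.card G : ℂ)⁻¹ * ∑ᶠ g : G, (χ : G → ℂ) (g * g) = 1} ≤ 3 * (∑ᶠ χ : {χ : Cfsg.IrrCharacter G // (Cfsg.charDegree (χ : G → ℂ) = 1 ∨ 2 ∣ Cfsg.charDegree (χ : G → ℂ)) ∧ (Nat.card G : ℂ)⁻¹ * ∑ᶠ g : G, (χ : G → ℂ) (g * g) = 1}, Cfsg.charDegree (χ.1 : G → ℂ)) := by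
  classical
  let _ := Fintype.ofFinite G
  let _ := Fintype.ofFinite N
  let _ := Fintype.ofFinite P
  have := finite_irrCharacter (G := G)
  let _ := Fintype.ofFinite (IrrCharacter G)
  obtain ⟨hNc, hNq⟩ := hNel
  have hcomm : ∀ a ∈ N, ∀ b ∈ N, a * b = b * a := by
    intro a ha b hb
    have := hNc.is_comm.comm (⟨a, ha⟩ : N) ⟨b, hb⟩
    exact congrArg Subtype.val this
  obtain ⟨t, htP, htt, htc, htinv⟩ := exists_inverting N P hN hcomm hP hP1 hdisj hprod hmin
  have hcommN : ∀ a b : N, a * b = b * a := fun a b => Subtype.ext (hcomm a a.2 b b.2)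
  have hqodd : Odd q := (Fact.out : q.Prime).odd_of_ne_two hq
  -- the decomposition
  have hdec : ∀ g : G, ∃ n ∈ N, ∃ p ∈ P, g = n * p := by
    intro g
    have h1 : g ∈ ((N ⊔ P : Subgroup G) : Set G) := by rw [hprod]; trivial
    rw [@Subgroup.normal_mul _ _ N P hN] at h1
    obtain ⟨n, hn, p, hp, rfl⟩ := Set.mem_mul.mp h1
    exact ⟨n, hn, p, hp, rfl⟩
  have hNP : ∀ x ∈ N, x ∈ P → x = 1 := by
    intro x hxN hxP
    have : x ∈ N ⊓ P := ⟨hxN, hxP⟩
    rw [hdisj] at this
    exact this
  have huniq : ∀ (n n' : N) (p p' : P), (n : G) * p = n' * p' → n = n' ∧ p = p' := by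
    intro n n' p p' h
    have h1 : (n' : G)⁻¹ * n = p' * (p : G)⁻¹ := by
      rw [inv_mul_eq_iff_eq_mul, ← mul_assoc, ← h]
      group
    have h2 : (n' : G)⁻¹ * n = 1 := hNP _ (mul_mem (inv_mem n'.2) n.2) (by
      rw [h1]
      exact mul_mem p'.2 (inv_mem p.2))
    have h3 : (n : G) = n' := by
      rw [inv_mul_eq_one] at h2
      exact h2.symm
    have h4 : n = n' := Subtype.ext h3
    refine ⟨h4, ?_⟩
    rw [h3] at h
    exact Subtype.ext (mul_left_cancel h)
  have he : Function.Bijective (fun x : N × P => (x.1 : G) * x.2) := by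
    constructor
    · rintro ⟨n, p⟩ ⟨n', p'⟩ h
      obtain ⟨h1, h2⟩ := huniq n n' p p' h
      rw [h1, h2]
    · intro g
      obtain ⟨n, hn, p, hp, rfl⟩ := hdec g
      exact ⟨(⟨n, hn⟩, ⟨p, hp⟩), rfl⟩
  choose pr0 hpr0N sec0 hsec0P hps using hdec
  let pr : G → N := fun g => ⟨pr0 g, hpr0N g⟩
  let sec : G → P := fun g => ⟨sec0 g, hsec0P g⟩
  have hps' : ∀ g, g = (pr g : G) * sec g := hps
  have hpr : ∀ n : N, ∀ p ∈ P, pr (n * p) = n := by
    intro n p hp
    exact (huniq _ _ _ (⟨p, hp⟩ : P) (hps' _).symm).1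
  -- the character `θ`
  have hNbig : 1 < Nat.card N := N.one_lt_card_iff_ne_bot.mpr hmin.1
  obtain ⟨θ, n₀, hn₀⟩ := exists_nonreal_linear hcommN hqodd
    (fun a => Subtype.ext (by simpa using hNq a a.2)) hNbig
  have hθ1 : (θ : N → ℂ) 1 = 1 := isIrr_deg_one_of_comm hcommN θ.2
  have hθmul := deg_one_mul (isCharacter_of_isIrrCharacter θ.2) hθ1
  let T : Subgroup G := inertia hN (θ : N → ℂ)
  have hNT : N ≤ T := le_inertia hN (isClassFunction_of_isIrrCharacter θ.2)
  let _ : Fintype T := Fintype.ofFinite _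
  have hmemT : ∀ g, g ∈ T ↔ conjOn hN g (θ : N → ℂ) = θ := fun g => mem_inertia hN _ g
  -- `t ∉ T`
  have htT : t ∉ T := by
    intro h
    apply hn₀
    have h1 := congrFun ((hmemT t).mp h) n₀
    rw [conjOn_apply] at h1
    have e : (⟨t * (n₀ : G) * t⁻¹, hN.conj_mem _ n₀.2 t⟩ : N) = n₀⁻¹ := Subtype.ext (htinv n₀ n₀.2)
    rw [e] at h1
    rw [← char_inv_eq_conj (isCharacter_of_isIrrCharacter θ.2)]
    exact h1
  -- `ψ`
  let ψ : T → ℂ := fun x => (θ : N → ℂ) (pr x)
  have hψ1 : ψ 1 = 1 := by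
    have h1 : pr ((1 : T) : G) = 1 := by
      have := hpr 1 1 (one_mem _)
      simpa using this
    simp only [ψ, h1, hθ1]
  have hψmul : ∀ x y, ψ (x * y) = ψ x * ψ y := by
    intro x y
    have hsT : (sec x : G) ∈ T := by
      have e : (sec x : G) = (pr x : G)⁻¹ * x := by
        rw [eq_inv_mul_iff_mul_eq]
        exact (hps' (x : G)).symm
      rw [e]
      exact mul_mem (inv_mem (hNT (pr x).2)) x.2
    let c : N := ⟨(sec x : G) * (pr y : G) * (sec x : G)⁻¹, hN.conj_mem _ (pr y).2 _⟩
    have hc : (θ : N → ℂ) c = (θ : N → ℂ) (pr y) := congrFun ((hmemT _).mp hsT) (pr y)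
    have e : ((x * y : T) : G) = ((pr x * c : N) : G) * ((sec x : G) * sec y) := by
      change (x : G) * y = (pr x : G) * ((sec x : G) * (pr y : G) * (sec x : G)⁻¹) * ((sec x : G) * sec y)
      have hx := hps' (x : G)
      have hy := hps' (y : G)
      calc (x : G) * y = ((pr x : G) * sec x) * ((pr y : G) * sec y) := by rw [← hx, ← hy]
        _ = _ := by group
    simp only [ψ]
    rw [e, hpr _ _ (mul_mem (sec x).2 (sec y).2), hθmul, hc]
  have hψirr : IsIrrCharacter T ψ := by
    let f : T →* ℂ := { toFun := ψ, map_one' := hψ1, map_mul' := hψmul }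
    have h1 := isIrrCharacter_of_hom f.toHomUnits
    convert h1 using 1
    funext g
    exact (MonoidHom.coe_toHomUnits f g).symm
  have hres : res hNT ψ = (θ : N → ℂ) := by
    funext n
    change (θ : N → ℂ) (pr (n : G)) = _
    have := hpr n 1 (one_mem _)
    rw [mul_one] at this
    rw [this]
  -- linear characters
  let L := {χ : IrrCharacter G // charDegree (χ : G → ℂ) = 1 ∧ (Nat.card G : ℂ)⁻¹ * ∑ᶠ g : G, (χ : G → ℂ) (g * g) = 1}
  let D := {χ : IrrCharacter G // charDegree (χ : G → ℂ) = T.index ∧ (Nat.card G : ℂ)⁻¹ * ∑ᶠ g : G, (χ : G → ℂ) (g * g) = 1}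
  let _ : Fintype L := Fintype.ofFinite _
  let _ : Fintype D := Fintype.ofFinite _
  have hconv : ∀ χ : IrrCharacter G, (Nat.card G : ℂ)⁻¹ * ∑ᶠ g : G, (χ : G → ℂ) (g * g) =
      nu (χ : G → ℂ) := by
    intro χ
    rw [nu, finsum_eq_sum_of_fintype]
  have hLc : ∀ a : L, IsCharacter G (a.1 : G → ℂ) := fun a => isCharacter_of_isIrrCharacter a.1.2
  have hL1 : ∀ a : L, (a.1 : G → ℂ) 1 = 1 := by
    intro a
    rw [← charDegree_natCast (hLc a), a.2.1]
    simp
  have hLmul : ∀ a : L, ∀ x y, (a.1 : G → ℂ) (x * y) = (a.1 : G → ℂ) x * (a.1 : G → ℂ) y :=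
    fun a => deg_one_mul (hLc a) (hL1 a)
  -- `a ^ 2 = 1`
  have hLsq : ∀ a : L, ∀ g, (a.1 : G → ℂ) g * (a.1 : G → ℂ) g = 1 := by
    intro a
    have hc : IsCharacter G (fun g => (a.1 : G → ℂ) g * (a.1 : G → ℂ) g) :=
      isCharacter_mul (hLc a) (hLc a)
    have hirr : IsIrrCharacter G (fun g => (a.1 : G → ℂ) g * (a.1 : G → ℂ) g) :=
      isIrrCharacter_of_deg_one hc (by simp [hL1 a])
    have h1 := classInner_irr hirr (Cfsg.Agent.Lib.Char.RealChar.isIrr_one' (G := G))
    have h2 : classInner (fun g => (a.1 : G → ℂ) g * (a.1 : G → ℂ) g) (fun _ : G => (1 : ℂ)) =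
        nu (a.1 : G → ℂ) := by
      rw [classInner_def, nu]
      congr 1
      refine Finset.sum_congr rfl fun g _ => ?_
      simp [hLmul a]
    have h3 : nu (a.1 : G → ℂ) = 1 := by
      rw [← hconv]
      exact a.2.2
    rw [h2, h3] at h1
    by_cases h4 : (fun g => (a.1 : G → ℂ) g * (a.1 : G → ℂ) g) = (fun _ : G => (1 : ℂ))
    · exact fun g => congrFun h4 g
    · rw [if_neg h4] at h1
      exact absurd h1 one_ne_zero
  have hLN : ∀ a : L, ∀ n ∈ N, (a.1 : G → ℂ) n = 1 := by
    intro a n hn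
    obtain ⟨k, hk⟩ := hqodd
    have hpow : ∀ (x : G) (j : ℕ), (a.1 : G → ℂ) (x ^ j) = (a.1 : G → ℂ) x ^ j := by
      intro x j
      induction j with
      | zero => simpa using hL1 a
      | succ j ih => rw [pow_succ, hLmul, ih, pow_succ]
    have h1 := hpow n q
    rw [hNq n hn, hL1 a, hk, pow_succ, pow_mul, pow_two, hLsq, one_pow, one_mul] at h1
    exact h1.symm
  have hτ : ∀ a : L, IsIrrCharacter T (fun x : T => (a.1 : G → ℂ) x * ψ x) := fun a =>
    isIrrCharacter_mul_linear (isCharacter_restrict T (hLc a)) (by simpa using hL1 a) hψirr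
  have hφ1 : classInner (θ : N → ℂ) (θ : N → ℂ) = 1 := classInner_self_of_isIrr θ.2
  have hresτ : ∀ a : L, res hNT (fun x : T => (a.1 : G → ℂ) x * ψ x) = (θ : N → ℂ) := by
    intro a
    rw [← hres]
    funext n
    simp [res, hLN a n n.2]
  have hFirr : ∀ a : L, IsIrrCharacter G
      (indFun T (fun x : T => (a.1 : G → ℂ) x * ψ x)) := fun a =>
    (isIrrCharacter_indFun_of_lies_over hN hNT θ.2 rfl (hτ a) (by
      rw [hresτ a, hφ1]; exact one_ne_zero)).1
  have hFdeg : ∀ a : L, charDegree (indFun T (fun x : T => (a.1 : G → ℂ) x * ψ x)) = T.index := by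
    intro a
    apply charDegree_eq_of_eq_natCast
    rw [indFun_one]
    simp only [hL1 a, hψ1, OneMemClass.coe_one, one_mul, mul_one]
  have hFν : ∀ a : L, nu (indFun T (fun x : T => (a.1 : G → ℂ) x * ψ x)) = 1 := by
    intro a
    rw [nu_indFun]
    have h1 : ∀ g : G, extendByZero T (fun x : T => (a.1 : G → ℂ) x * ψ x) (g * g) =
        extendByZero T ψ (g * g) := by
      intro g
      by_cases hg : g * g ∈ T
      · rw [extendByZero_of_mem T _ hg, extendByZero_of_mem T _ hg, hLmul, hLsq, one_mul]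
      · rw [extendByZero_of_not_mem T _ hg, extendByZero_of_not_mem T _ hg]
    simp_rw [h1]
    have h2 := sum_ext_sq N P hN he hθ1 hθmul pr hpr T rfl hNT htP htt htc htinv
    have h3 : ∑ g : G, extendByZero T ψ (g * g) = (Nat.card T : ℂ) := h2
    rw [h3]
    exact inv_mul_cancel₀ (Nat.cast_ne_zero.mpr Nat.card_pos.ne')
  let F : L → D := fun a => ⟨⟨_, hFirr a⟩, hFdeg a, by
    rw [hconv]; exact hFν a⟩
  have hfib : ∀ b ∈ (Finset.univ : Finset D),
      (Finset.univ.filter (fun a : L => F a = b)).card ≤ T.index := by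
    intro b _
    by_cases hempty : (Finset.univ.filter (fun a : L => F a = b)).Nonempty
    · obtain ⟨a0, ha0⟩ := hempty
      have ha0' : F a0 = b := (Finset.mem_filter.mp ha0).2
      let Y := {ν : IrrCharacter G // (ν : G → ℂ) 1 = 1 ∧ ∀ x ∈ T, (ν : G → ℂ) x = 1}
      let _ : Fintype Y := Fintype.ofFinite _
      have hcardY : Fintype.card Y ≤ T.index := by
        rw [← Nat.card_eq_fintype_card]
        exact card_linear_trivial_le_index T
      have hprod : ∀ a : L, IsCharacter G (fun g => (a.1 : G → ℂ) g * conj ((a0.1 : G → ℂ) g)) := by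
        intro a
        have h1 := isCharacter_mul (hLc a) (isCharacter_inv (hLc a0))
        convert h1 using 1
        funext x
        simp only [Pi.mul_apply]
        rw [char_inv_eq_conj (hLc a0)]
      have hprod1 : ∀ a : L, (fun g => (a.1 : G → ℂ) g * conj ((a0.1 : G → ℂ) g)) 1 = 1 := by
        intro a
        simp [hL1 a, hL1 a0]
      have hprodirr : ∀ a : L, IsIrrCharacter G (fun g => (a.1 : G → ℂ) g * conj ((a0.1 : G → ℂ) g)) :=
        fun a => isIrrCharacter_of_deg_one (hprod a) (hprod1 a)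
      have hprodI : ∀ a : L, F a = b → ∀ x ∈ T, (a.1 : G → ℂ) x * conj ((a0.1 : G → ℂ) x) = 1 := by
        intro a hab x hx
        have heq : F a = F a0 := hab.trans ha0'.symm
        have heq2 := congrArg (fun d : D => (d.1 : G → ℂ)) heq
        have h1 := eq_on_inertia_of_indFun_eq hN hNT θ.2 rfl hψirr hres (hLc a) (hL1 a) (hLN a)
          (hLc a0) (hL1 a0) (hLN a0) heq2 x hx
        rw [h1]
        exact linear_mul_conj (hLc a0) (hL1 a0) x
      have hle : (Finset.univ.filter (fun a : L => F a = b)).card ≤ (Finset.univ : Finset Y).card := by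
        refine Finset.card_le_card_of_injOn (fun a =>
          if h : F a = b then ⟨⟨_, hprodirr a⟩, hprod1 a, hprodI a h⟩ else
            ⟨⟨_, hprodirr a0⟩, hprod1 a0, hprodI a0 ha0'⟩) (fun _ _ => Finset.mem_univ _) ?_
        intro a ha a' ha' hval
        have ha1 : F a = b := (Finset.mem_filter.mp ha).2
        have ha1' : F a' = b := (Finset.mem_filter.mp ha').2
        simp only [ha1, ha1', dif_pos] at hval
        have h2 := congrArg (fun d : Y => (d.1 : G → ℂ)) hval
        simp only at h2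
        apply Subtype.ext
        apply Subtype.ext
        funext g
        have h3 := congrFun h2 g
        have h4 := linear_mul_conj (hLc a0) (hL1 a0) g
        have h5 : conj ((a0.1 : G → ℂ) g) ≠ 0 := by
          intro h
          rw [h, mul_zero] at h4
          exact zero_ne_one h4
        exact mul_right_cancel₀ h5 h3
      exact hle.trans (by rw [Finset.card_univ]; exact hcardY)
    · rw [Finset.not_nonempty_iff_eq_empty.mp hempty]
      simp
  have hcount := Finset.card_le_mul_card_image_of_maps_to (f := F) (s := (Finset.univ : Finset L))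
    (t := (Finset.univ : Finset D)) (fun _ _ => Finset.mem_univ _) T.index hfib
  rw [Finset.card_univ, Finset.card_univ] at hcount
  have hcount' : Nat.card L ≤ T.index * Nat.card D := by
    rw [Nat.card_eq_fintype_card, Nat.card_eq_fintype_card]
    exact hcount
  -- the index
  have hT1 : T.index ≠ 1 := by
    intro h
    rw [Subgroup.index_eq_one] at h
    apply htT
    rw [h]
    trivial
  have hT0 : T.index ≠ 0 := Subgroup.index_ne_zero_of_finite
  have hNidx : N.index = Nat.card P := by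
    have h1 : Nat.card G = Nat.card N * Nat.card P := by
      rw [← Nat.card_prod]
      exact (Nat.card_congr (Equiv.ofBijective _ he)).symm
    have h2 := Subgroup.card_mul_index N
    rw [h1] at h2
    exact Nat.eq_of_mul_eq_mul_left Nat.card_pos h2
  have hTeven : 2 ∣ T.index := by
    have h1 : T.index ∣ N.index := Subgroup.index_dvd_of_le hNT
    obtain ⟨k, hk⟩ := IsPGroup.iff_card.mp hP
    rw [hNidx, hk] at h1
    obtain ⟨j, -, hj⟩ := (Nat.dvd_prime_pow Nat.prime_two).mp h1
    rcases Nat.eq_zero_or_pos j with rfl | hj0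
    · exact absurd (by simpa using hj) hT1
    · rw [hj]
      exact dvd_pow_self 2 hj0.ne'
  have hT2 : 2 ≤ T.index := by omega
  exact count_arith (fun χ : IrrCharacter G => charDegree (χ : G → ℂ))
    (fun χ => (Nat.card G : ℂ)⁻¹ * ∑ᶠ g : G, (χ : G → ℂ) (g * g) = 1) T.index hT2
    (fun χ => charDegree_pos χ.2) hTeven hcount'

end Cfsg.Agent.S4871
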