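import Cfsg.Statements.S4872
import Cfsg.Agent.Lib.Char.FSParity
import Cfsg.Agent.Lib.Char.DefectZero
import Cfsg.Agent.Lib.Char.DegDvd
import Cfsg.Agent.Lib.Char.IndRep
import Cfsg.Agent.Lib.Char.Degree
import Cfsg.Agent.Lib.Char.RealChar

set_option autoImplicit false
set_option linter.style.haveILetI false
open Cfsg

namespace Cfsg.Agent.S4872

open Cfsg.Agent.Lib.Char.Basic Cfsg.Agent.Lib.Char.Ortho Cfsg.Agent.Lib.Char.Complete
open Cfsg.Agent.Lib.Char.Induced Cfsg.Agent.Lib.Char.CliffordCorr Cfsg.Agent.Lib.Char.Degree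
open Cfsg.Agent.Lib.Char.OddIndexReal Cfsg.Agent.Lib.Char.FSParity Cfsg.Agent.Lib.Char.FrobSchur
open Cfsg.Agent.Lib.Char.IndRep Cfsg.Agent.Lib.Char.DegDvd
open scoped ComplexConjugate

theorem classInner_swap {H : Type*} [Group H] [Fintype H] (a b : H → ℂ) :
    classInner a b = conj (classInner b a) := by
  simp only [classInner_def, map_mul, map_inv₀, map_natCast, map_sum, Complex.conj_conj]
  congr 1
  exact Finset.sum_congr rfl fun h _ => mul_comm _ _

/-- An involution on a finite set with an invariant function of odd sum has a fixed point of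
odd value. -/
theorem exists_fixed_odd {ι : Type*} [Fintype ι] [DecidableEq ι] (c : ι → ι) (hc : ∀ i, c (c i) = i)
    (f : ι → ℕ) (hf : ∀ i, f (c i) = f i) (hodd : Odd (∑ i, f i)) :
    ∃ i, c i = i ∧ Odd (f i) := by
  by_contra hcon
  push Not at hcon
  have h1 : ∑ i, ((f i : ℕ) : ZMod 2) = 0 := by
    refine Finset.sum_involution (fun i _ => c i) ?_ ?_ (fun _ _ => Finset.mem_univ _) (fun i _ => hc i)
    · intro i _
      rw [hf]
      have h2 : ((f i : ℕ) : ZMod 2) + (f i : ℕ) = ((2 * f i : ℕ) : ZMod 2) := by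
        push_cast
        ring
      rw [h2]
      exact (ZMod.natCast_eq_zero_iff _ _).mpr (Dvd.intro _ rfl)
    · intro i _ hne hfix
      apply hne
      have h3 := hcon i hfix
      rw [Nat.not_odd_iff_even] at h3
      exact (ZMod.natCast_eq_zero_iff _ _).mpr h3.two_dvd
  have h2 : ((∑ i, f i : ℕ) : ZMod 2) = 0 := by
    push_cast
    exact h1
  have h3 := (ZMod.natCast_eq_zero_iff _ _).mp h2
  exact (Nat.not_even_iff_odd.mpr hodd) (even_iff_two_dvd.mpr h3)

/-- Let N be a normal subgroup of the finite group G with G/N a 2-group, and let φ be an irreducible complex character of N of 2-defect zero (the 2-part of #N divides φ(1)) whose complex conjugate is G-conjugate to φ. Then some irreducible character of G with Frobenius–Schur indicator +1 contains φ with multiplicity exactly one on restriction to N. -/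
theorem result {G : Type*} [Group G] [Finite G] (N : Subgroup G) [N.Normal] (h2 : IsPGroup 2 (G ⧸ N)) (φ : Cfsg.IrrCharacter ↥N) (hdef : 2 ^ (Nat.card ↥N).factorization 2 ∣ Cfsg.charDegree (φ : ↥N → ℂ)) (hconj : ∃ g : G, ∀ n n' : ↥N, (n' : G) = g * (n : G) * g⁻¹ → (φ : ↥N → ℂ) n' = (starRingEnd ℂ) ((φ : ↥N → ℂ) n)) : ∃ χ : Cfsg.IrrCharacter G, (Nat.card G : ℂ)⁻¹ * ∑ᶠ g : G, (χ : G → ℂ) (g * g) = 1 ∧ (Nat.card ↥N : ℂ)⁻¹ * ∑ᶠ n : ↥N, (χ : G → ℂ) n * (starRingEnd ℂ) ((φ : ↥N → ℂ) n) = 1 := by
  classical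
  haveI : Fact (Nat.Prime 2) := ⟨Nat.prime_two⟩
  let _ := Fintype.ofFinite G
  let _ := Fintype.ofFinite N
  have := finite_irrCharacter (G := G)
  let _ := Fintype.ofFinite (IrrCharacter G)
  obtain ⟨P⟩ : Nonempty (Sylow 2 G) := inferInstance
  let _ : Fintype (P : Subgroup G) := Fintype.ofFinite _
  have hN : N.Normal := inferInstance
  -- numbers
  set a := (Nat.card N).factorization 2 with ha
  have hNpos : Nat.card N ≠ 0 := Nat.card_pos.ne'
  obtain ⟨r, hr⟩ : ∃ r, Nat.card N = 2 ^ a * r := Nat.ordProj_dvd _ _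
  have hrodd : Odd r := by
    by_contra hev
    rw [Nat.not_odd_iff_even] at hev
    obtain ⟨s, rfl⟩ := hev.two_dvd
    have h1 : 2 ^ (a + 1) ∣ Nat.card N := by
      rw [hr, pow_succ]
      exact Nat.mul_dvd_mul_left _ (Dvd.intro s rfl)
    have h2' := (Nat.Prime.pow_dvd_iff_le_factorization Nat.prime_two hNpos).mp h1
    omega
  obtain ⟨k, hk⟩ : ∃ k, N.index = 2 ^ k := IsPGroup.iff_card.mp h2
  have hPi : (P : Subgroup G).index = r := by
    obtain ⟨b, hb⟩ := IsPGroup.iff_card.mp P.isPGroup'
    have h1 := Subgroup.card_mul_index (P : Subgroup G)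
    have h3 := Subgroup.card_mul_index N
    rw [hb] at h1
    rw [hr, hk] at h3
    have h4 : ¬ 2 ∣ (P : Subgroup G).index := P.not_dvd_index
    have hcop1 : Nat.Coprime (P : Subgroup G).index (2 ^ (a + k)) :=
      Nat.Coprime.pow_right _ (((Nat.Prime.coprime_iff_not_dvd Nat.prime_two).mpr h4).symm)
    have hcop2 : Nat.Coprime r (2 ^ b) :=
      Nat.Coprime.pow_right _ ((Nat.Prime.coprime_iff_not_dvd Nat.prime_two).mpr
        (by rwa [← even_iff_two_dvd, Nat.not_even_iff_odd])).symm
    have h5 : 2 ^ b * (P : Subgroup G).index = 2 ^ (a + k) * r := by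
      rw [h1, ← h3]
      ring
    apply Nat.dvd_antisymm
    · exact hcop1.dvd_of_dvd_mul_left (Dvd.intro_left _ h5)
    · exact hcop2.dvd_of_dvd_mul_left (Dvd.intro_left _ h5.symm)
  obtain ⟨q, hq⟩ := hdef
  have hqodd : Odd q := by
    have h1 := charDegree_dvd_card φ.2
    rw [hq, hr] at h1
    have h2' : q ∣ r := Nat.dvd_of_mul_dvd_mul_left (by positivity) h1
    exact Odd.of_dvd_nat hrodd h2'
  have hφ1 : (φ : N → ℂ) 1 = (2 ^ a * q : ℕ) := by
    rw [← hq, charDegree_natCast (isCharacter_of_isIrrCharacter φ.2)]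
  -- the permutation character
  let π : G → ℂ := indFun (P : Subgroup G) (fun _ => (1 : ℂ))
  have hπc : IsCharacter G π := isCharacter_indFun (P : Subgroup G) isCharacter_one
  have hπcf : IsClassFunction G π := isClassFunction_of_isCharacter hπc
  have hπN : classInner (fun n : N => π n) (φ : N → ℂ) = (q : ℂ) := by
    rw [classInner_def]
    rw [Finset.sum_eq_single (1 : N)]
    · have h1 : π ((1 : N) : G) = (r : ℂ) := by
        simp only [π, OneMemClass.coe_one]
        rw [indFun_one, hPi]
        simp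
      rw [h1, hφ1]
      simp only [map_natCast]
      have h3 : (Nat.card N : ℂ) = (2 ^ a * r : ℕ) := by rw [hr]
      have h4 : (Nat.card N : ℂ) ≠ 0 := Nat.cast_ne_zero.mpr hNpos
      rw [inv_mul_eq_div, div_eq_iff h4, h3]
      push_cast
      ring
    · intro n _ hn
      by_cases hn2 : ∃ j : ℕ, (n : G) ^ 2 ^ j = 1
      · obtain ⟨j, hj⟩ := hn2
        have hj' : n ^ 2 ^ j = 1 := Subtype.ext (by simpa using hj)
        have h2ord : 2 ∣ orderOf n := by
          obtain ⟨i, -, hi⟩ := (Nat.dvd_prime_pow Nat.prime_two).mp (orderOf_dvd_of_pow_eq_one hj')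
          rcases Nat.eq_zero_or_pos i with rfl | hipos
          · exfalso
            apply hn
            simpa [orderOf_eq_one_iff] using hi
          · rw [hi]
            exact dvd_pow_self 2 hipos.ne'
        obtain ⟨d, ρ, hρ, hρφ⟩ := φ.2
        have hdeg : 2 ^ a ∣ Module.finrank ℂ (Fin d → ℂ) := by
          have h1 : charDegree (φ : N → ℂ) = Module.finrank ℂ (Fin d → ℂ) := by
            rw [← hρφ, charDegree_character]
          rw [← h1, hq]
          exact Dvd.intro _ rfl
        have h2a : 2 ^ a ∣ Nat.card N := Dvd.intro _ hr.symm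
        have h2a' : ¬ 2 ^ (a + 1) ∣ Nat.card N := by
          intro h
          have := (Nat.Prime.pow_dvd_iff_le_factorization Nat.prime_two hNpos).mp h
          omega
        haveI := hρ
        have h0 := Cfsg.Agent.Lib.Char.DefectZero.character_eq_zero_of_defect_zero ρ 2 a
          Nat.prime_two h2a h2a' hdeg n h2ord
        rw [← hρφ, h0]
        simp
      · have h1 : π n = 0 := by
          simp only [π]
          rw [indFun_apply]
          rw [Finset.sum_eq_zero, mul_zero]
          intro x _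
          apply extendByZero_of_not_mem
          intro hx
          obtain ⟨j, hj⟩ := P.isPGroup' ⟨_, hx⟩
          apply hn2
          refine ⟨j, ?_⟩
          have h5 : (x⁻¹ * n * x) ^ 2 ^ j = 1 := by
            have := congrArg Subtype.val hj
            simpa using this
          have h6 : (x⁻¹ * n * x) ^ 2 ^ j = x⁻¹ * (n : G) ^ 2 ^ j * x := by
            have e : x⁻¹ * (n : G) * x = x⁻¹ * n * x⁻¹⁻¹ := by simp
            rw [e, conj_pow, inv_inv]
          rw [h6] at h5
          have h7 : (n : G) ^ 2 ^ j = x * (x⁻¹ * (n : G) ^ 2 ^ j * x) * x⁻¹ := by group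
          rw [h7, h5]
          group
        rw [h1, zero_mul]
    · intro h
      exact absurd (Finset.mem_univ _) h
  -- multiplicities
  have hm : ∀ χ : IrrCharacter G, ∃ m : ℕ,
      classInner (fun h : (P : Subgroup G) => (χ : G → ℂ) h) (fun _ => (1 : ℂ)) = m := fun χ =>
    exists_nat_classInner (isCharacter_restrict _ (isCharacter_of_isIrrCharacter χ.2)) isCharacter_one
  have he : ∀ χ : IrrCharacter G, ∃ e : ℕ,
      classInner (fun n : N => (χ : G → ℂ) n) (φ : N → ℂ) = e := fun χ =>
    exists_nat_classInner (isCharacter_restrict _ (isCharacter_of_isIrrCharacter χ.2))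
      (isCharacter_of_isIrrCharacter φ.2)
  choose m hm using hm
  choose e he using he
  have hπχ : ∀ χ : IrrCharacter G, classInner π (χ : G → ℂ) = m χ := by
    intro χ
    simp only [π]
    rw [classInner_indFun_left _ _ _ (isClassFunction_of_isIrrCharacter χ.2), classInner_swap, hm]
    simp
  have hsum : ∑ χ, m χ * e χ = q := by
    have h1 : classInner (fun n : N => π n) (φ : N → ℂ) =
        ∑ χ : IrrCharacter G, classInner π (χ : G → ℂ) *
          classInner (fun n : N => (χ : G → ℂ) n) (φ : N → ℂ) := by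
      obtain ⟨C, hC⟩ : ∃ C : IrrCharacter G → ℂ, ∀ χ, C χ = classInner π (χ : G → ℂ) :=
        ⟨_, fun _ => rfl⟩
      have hπn : ∀ g, π g = ∑ χ : IrrCharacter G, C χ * (χ : G → ℂ) g := by
        intro g
        calc π g = (∑ χ : IrrCharacter G, classInner π (χ : G → ℂ) • (χ : G → ℂ)) g :=
              congrFun (classFunction_eq_sum hπcf) g
          _ = _ := by simp [Finset.sum_apply, hC]
      simp_rw [← hC]
      calc classInner (fun n : N => π n) (φ : N → ℂ)
          = (Nat.card N : ℂ)⁻¹ * ∑ n : N, (∑ χ : IrrCharacter G, C χ * (χ : G → ℂ) n) *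
              conj ((φ : N → ℂ) n) := by
            rw [classInner_def]
            congr 1
            exact Finset.sum_congr rfl fun n _ => by rw [hπn]
        _ = ∑ χ : IrrCharacter G, C χ * ((Nat.card N : ℂ)⁻¹ * ∑ n : N, (χ : G → ℂ) n *
              conj ((φ : N → ℂ) n)) := by
            simp only [Finset.sum_mul, Finset.mul_sum]
            rw [Finset.sum_comm]
            refine Finset.sum_congr rfl fun χ _ => Finset.sum_congr rfl fun n _ => ?_
            ring
        _ = _ := by
            refine Finset.sum_congr rfl fun χ _ => ?_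
            rw [classInner_def]
    rw [hπN] at h1
    have h2' : ((∑ χ, m χ * e χ : ℕ) : ℂ) = q := by
      rw [h1]
      push_cast
      refine Finset.sum_congr rfl fun χ _ => ?_
      rw [hπχ, he]
    exact_mod_cast h2'
  -- the conjugation involution
  let c : IrrCharacter G → IrrCharacter G := fun χ => ⟨fun g => conj ((χ : G → ℂ) g), isIrr_conj χ.2⟩
  have hcc : ∀ χ, c (c χ) = χ := by
    intro χ
    apply Subtype.ext
    funext g
    simp [c]
  have hmc : ∀ χ, m (c χ) = m χ := by
    intro χ
    have h1 : classInner (fun h : (P : Subgroup G) => (c χ : G → ℂ) h) (fun _ => (1 : ℂ)) =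
        conj (classInner (fun h : (P : Subgroup G) => (χ : G → ℂ) h) (fun _ => (1 : ℂ))) := by
      simp [classInner_def, c, map_sum]
    rw [hm, hm] at h1
    simp only [map_natCast] at h1
    exact_mod_cast h1
  obtain ⟨g, hg⟩ := hconj
  have hec : ∀ χ, e (c χ) = e χ := by
    intro χ
    let τ : N ≃ N := (MulAut.conjNormal g : N ≃* N).toEquiv
    have hτ : ∀ n : N, ((τ n : N) : G) = g * n * g⁻¹ := fun n => rfl
    have hχτ : ∀ n : N, (χ : G → ℂ) (τ n) = (χ : G → ℂ) n := by
      intro n
      rw [hτ]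
      exact isClassFunction_of_isIrrCharacter χ.2 _ _
    have hφτ : ∀ n : N, (φ : N → ℂ) (τ n) = conj ((φ : N → ℂ) n) := fun n => hg n (τ n) (hτ n)
    have h1 : classInner (fun n : N => (c χ : G → ℂ) n) (φ : N → ℂ) =
        conj (classInner (fun n : N => (χ : G → ℂ) n) (φ : N → ℂ)) := by
      simp only [classInner_def, map_mul, map_inv₀, map_natCast, map_sum, Complex.conj_conj]
      congr 1
      rw [← Equiv.sum_comp τ]
      refine Finset.sum_congr rfl fun n _ => ?_
      simp only [c]
      rw [hχτ, hφτ, Complex.conj_conj]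
    rw [he, he] at h1
    simp only [map_natCast] at h1
    exact_mod_cast h1
  obtain ⟨χ, hfix, hodd⟩ := exists_fixed_odd c hcc (fun χ => m χ * e χ)
    (fun χ => by simp only [hmc, hec]) (by
      show Odd (∑ χ, m χ * e χ)
      rw [hsum]
      exact hqodd)
  have hreal : ∀ g, conj ((χ : G → ℂ) g) = (χ : G → ℂ) g := fun g =>
    congrFun (congrArg Subtype.val hfix) g
  have hmodd : Odd (m χ) := (Nat.odd_mul.mp hodd).1
  have heodd : Odd (e χ) := (Nat.odd_mul.mp hodd).2
  have hconv : (Nat.card N : ℂ)⁻¹ * ∑ᶠ n : N, (χ : G → ℂ) n * (starRingEnd ℂ) ((φ : N → ℂ) n) =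
      classInner (fun n : N => (χ : G → ℂ) n) (φ : N → ℂ) := by
    rw [classInner_def, finsum_eq_sum_of_fintype]
  have hcon : classInner (fun n : N => (χ : G → ℂ) n) (φ : N → ℂ) ≠ 0 := by
    rw [he]
    exact_mod_cast heodd.pos.ne'
  have he1 : e χ = 1 := by
    obtain ⟨e', t, h1, h2'⟩ := dvd_index_of_constituent hN φ.2 χ.2 hcon
    have h3 := deg_eq_of_constituent hN χ.2 φ.2 hcon
    rw [he] at h3
    have hφne : (φ : N → ℂ) 1 ≠ 0 := irr_one_ne_zero φ.2
    have h4 : ((e χ * (inertia hN (φ : N → ℂ)).index : ℕ) : ℂ) = ((e' * t : ℕ) : ℂ) := by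
      apply mul_right_cancel₀ hφne
      rw [← h1, h3]
      push_cast
      ring
    have h5 : e χ * (inertia hN (φ : N → ℂ)).index = e' * t := by exact_mod_cast h4
    have h6 : e χ ∣ 2 ^ k := by
      rw [← hk]
      exact (Dvd.intro _ h5).trans h2'
    obtain ⟨i, -, hi⟩ := (Nat.dvd_prime_pow Nat.prime_two).mp h6
    rcases Nat.eq_zero_or_pos i with rfl | hipos
    · simpa using hi
    · exfalso
      rw [hi] at heodd
      exact (Nat.not_even_iff_odd.mpr heodd) ((Nat.even_pow' hipos.ne').mpr even_two)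
  refine ⟨χ, ?_, ?_⟩
  · have h1 : nu (fun _ : (P : Subgroup G) => (1 : ℂ)) = 1 := by
      have hc : (Nat.card (P : Subgroup G) : ℂ) ≠ 0 := Nat.cast_ne_zero.mpr Nat.card_pos.ne'
      simp only [nu, Finset.sum_const, Finset.card_univ, nsmul_eq_mul, mul_one]
      rw [← Nat.card_eq_fintype_card, inv_mul_cancel₀ hc]
    have h2' := nu_eq_one_of_classInner_odd (P : Subgroup G) χ.2 hreal
      Cfsg.Agent.Lib.Char.RealChar.isIrr_one' h1 (hm χ) hmodd
    rw [nu] at h2'
    rw [finsum_eq_sum_of_fintype]
    exact h2'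
  · rw [hconv, he, he1]
    simp

end Cfsg.Agent.S4872
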