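import Cfsg.Statements.S4873
import Cfsg.Agent.Lib.Char.OddIndexReal

set_option autoImplicit false
open Cfsg

namespace Cfsg.Agent.S4873

/-- Let N be a normal subgroup of odd index in the finite group G. Then every irreducible complex character of N with Frobenius–Schur indicator +1 lies under exactly one irreducible character of G with Frobenius–Schur indicator +1. -/
theorem result {G : Type*} [Group G] [Finite G] (N : Subgroup G) [N.Normal] (hodd : Odd N.index) (φ : Cfsg.IrrCharacter ↥N) (hφ : (Nat.card ↥N : ℂ)⁻¹ * ∑ᶠ g : ↥N, (φ : ↥N → ℂ) (g * g) = 1) : ∃! χ : Cfsg.IrrCharacter G, (Nat.card G : ℂ)⁻¹ * ∑ᶠ g : G, (χ : G → ℂ) (g * g) = 1 ∧ (∑ᶠ n : ↥N, (χ : G → ℂ) n * (starRingEnd ℂ) ((φ : ↥N → ℂ) n)) ≠ 0 := by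
  classical
  letI := Fintype.ofFinite G
  letI : Fintype ↥N := Fintype.ofFinite _
  have hφ' : Cfsg.Agent.Lib.Char.OddIndexReal.nu (φ : ↥N → ℂ) = 1 := by
    rw [Cfsg.Agent.Lib.Char.OddIndexReal.nu, ← finsum_eq_sum_of_fintype]
    exact hφ
  have hconv : ∀ χ : Cfsg.IrrCharacter G, (Nat.card G : ℂ)⁻¹ * ∑ᶠ g : G, (χ : G → ℂ) (g * g) = Cfsg.Agent.Lib.Char.OddIndexReal.nu (χ : G → ℂ) := by
    intro χ
    rw [Cfsg.Agent.Lib.Char.OddIndexReal.nu, finsum_eq_sum_of_fintype]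
  have hconv2 : ∀ χ : Cfsg.IrrCharacter G, (∑ᶠ n : ↥N, (χ : G → ℂ) n * (starRingEnd ℂ) ((φ : ↥N → ℂ) n)) ≠ 0 ↔
      Cfsg.classInner (fun n : ↥N => (χ : G → ℂ) n) (φ : ↥N → ℂ) ≠ 0 := by
    intro χ
    rw [Cfsg.Agent.Lib.Char.Ortho.classInner_def, finsum_eq_sum_of_fintype]
    constructor
    · intro h
      exact mul_ne_zero (inv_ne_zero (Nat.cast_ne_zero.mpr Nat.card_pos.ne')) h
    · intro h
      exact right_ne_zero_of_mul h
  obtain ⟨χ, ⟨h1, h2⟩, h3⟩ := Cfsg.Agent.Lib.Char.OddIndexReal.existsUnique_of_odd_index N hodd φ.2 hφ'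
  refine ⟨χ, ⟨by rw [hconv]; exact h1, (hconv2 χ).mpr h2⟩, ?_⟩
  rintro χ' ⟨h4, h5⟩
  exact h3 χ' ⟨by rw [← hconv]; exact h4, (hconv2 χ').mp h5⟩

end Cfsg.Agent.S4873
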