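import Cfsg.Statements.S4888
import Cfsg.Agent.Lib.BlockCover.Thompson

set_option autoImplicit false
set_option linter.style.haveILetI false
open Cfsg

namespace Cfsg.Agent.S4888

/-- Let G be a finite group, p a prime and M a maximal ideal of the algebraic integers containing p. Then all height-zero irreducible characters of the principal p-block of G (equivalently, all its characters of degree prime to p) have the same degree if and only if G has a normal p-complement. -/
theorem result {G : Type*} [Group G] [Finite G] (p : ℕ) [Fact p.Prime] (M : Ideal Cfsg.AlgInt) (hM : Cfsg.IsPModular p M) : (∃ d : ℕ, ∀ χ : Cfsg.IrrCharacter G, χ ∈ (Cfsg.principalBlock M G) → Cfsg.blockHeight p (Cfsg.principalBlock M G) (χ : G → ℂ) = 0 → Cfsg.charDegree (χ : G → ℂ) = d) ↔ Cfsg.HasNormalPComplement p G := by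
  classical
  haveI hMp := hM.2.1.isPrime
  haveI := Cfsg.Agent.Lib.Char.Ortho.finite_irrCharacter (G := G)
  letI := Fintype.ofFinite G
  letI := Fintype.ofFinite (Cfsg.IrrCharacter G)
  have hp : p.Prime := Fact.out
  set e := Cfsg.Agent.Lib.Blocks.Third.oneI G with he
  have h0 : e ∈ Cfsg.principalBlock M G := Cfsg.Agent.Lib.Blocks.Central.mem_blockOf_self e
  have hdeg1 : Cfsg.charDegree (e : G → ℂ) = 1 :=
    Cfsg.Agent.Lib.Char.Degree.charDegree_eq_of_eq_natCast (by
      change (1 : ℂ) = _
      simp)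
  have hinf : sInf ((fun ψ : Cfsg.IrrCharacter G => (Cfsg.charDegree (ψ : G → ℂ)).factorization p) ''
      Cfsg.principalBlock M G) = 0 := by
    apply Nat.sInf_eq_zero.mpr
    left
    exact ⟨e, h0, by simp [hdeg1]⟩
  have hht : ∀ χ : Cfsg.IrrCharacter G, Cfsg.blockHeight p (Cfsg.principalBlock M G) (χ : G → ℂ) = 0 ↔
      ¬ p ∣ Cfsg.charDegree (χ : G → ℂ) := by
    intro χ
    rw [Cfsg.blockHeight, hinf, Nat.sub_zero, Nat.factorization_eq_zero_iff]
    have hpos := Cfsg.Agent.Lib.Char.Degree.charDegree_pos χ.2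
    constructor
    · rintro (h | h | h)
      · exact absurd hp h
      · exact h
      · omega
    · intro h
      exact Or.inr (Or.inl h)
  constructor
  · rintro ⟨d, hd⟩
    have hd1 : d = 1 := by
      rw [← hd e h0 ((hht e).mpr (by rw [hdeg1]; exact fun h => hp.one_lt.ne' (Nat.dvd_one.mp h))), hdeg1]
    obtain ⟨L, hLn, hLidx, hLc⟩ := Cfsg.Agent.Lib.BlockCover.Thompson.exists_normal_complement (G := G) (p := p) hM (by
      intro χ hχ
      by_cases hnd : p ∣ Cfsg.charDegree (χ : G → ℂ)
      · exact Or.inr hnd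
      · left
        have h1 := hd χ hχ ((hht χ).mpr hnd)
        rw [← Cfsg.Agent.Lib.Char.Degree.charDegree_natCast
          (Cfsg.Agent.Lib.Char.Basic.isCharacter_of_isIrrCharacter χ.2), h1, hd1]
        simp)
    obtain ⟨k, hk⟩ := hLidx
    exact Cfsg.Agent.Lib.Transfer.Basic.hasNormalPComplement_iff_exists.mpr
      ⟨L, hLn, ((Nat.Prime.coprime_iff_not_dvd hp).mpr hLc).symm,
        IsPGroup.of_card (n := k) (by rw [← hk]; rfl)⟩
  · intro h
    obtain ⟨N, hN, hc, hq⟩ := Cfsg.Agent.Lib.Transfer.Basic.hasNormalPComplement_iff_exists.mp h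
    refine ⟨1, fun χ hχ hh => ?_⟩
    have hnd := (hht χ).mp hh
    have hker : ∀ n : N, (χ : G → ℂ) n = (χ : G → ℂ) 1 := fun n =>
      Cfsg.Agent.Lib.BlockT.Inflate.trivial_of_sameBlock hM hN
        (by
          intro hd
          have := Nat.Coprime.eq_one_of_dvd hc.symm hd
          exact hp.one_lt.ne' this)
        (χ := e) (ψ := χ) hχ (fun _ => rfl) n
    obtain ⟨φ, hφ, hφe⟩ := Cfsg.Agent.Lib.Char.Linear.isIrrCharacter_descend (QuotientGroup.mk' N)
      (QuotientGroup.mk'_surjective N) χ.2 (by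
        intro k hk
        have hkN : k ∈ N := by simpa using hk
        exact hker ⟨k, hkN⟩)
    have h1 := Cfsg.Agent.Lib.Char.Degree.charDegree_dvd_card hφ
    have h2 : Cfsg.charDegree φ = Cfsg.charDegree (χ : G → ℂ) := by
      rw [hφe]
      simp [Cfsg.charDegree]
    rw [h2] at h1
    obtain ⟨m, hm⟩ := IsPGroup.iff_card.mp hq
    rw [hm] at h1
    obtain ⟨j, -, hj⟩ := (Nat.dvd_prime_pow hp).mp h1
    rw [hj] at hnd ⊢
    rcases j with _ | j
    · simp
    · exact absurd (dvd_pow_self p (Nat.succ_ne_zero j)) hnd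

end Cfsg.Agent.S4888
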