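import Cfsg.Statements.S4912
import Cfsg.Agent.Lib.CharZeros.Gallagher
import Cfsg.Agent.Lib.Char.FSParity
import Cfsg.Agent.Lib.Char.RealChar

set_option autoImplicit false
set_option linter.style.haveILetI false
open Cfsg

namespace Cfsg.Agent.S4912

open Cfsg.Agent.Lib.Char.Basic Cfsg.Agent.Lib.Char.Ortho Cfsg.Agent.Lib.Char.Complete
open Cfsg.Agent.Lib.Char.Induced Cfsg.Agent.Lib.Char.CliffordCorr Cfsg.Agent.Lib.Char.Degree
open Cfsg.Agent.Lib.CharZeros.Gallagher
open Cfsg.Agent.Lib.Char.OddIndexReal Cfsg.Agent.Lib.Char.FSParity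
open scoped ComplexConjugate

/-- If `a` is linear with indicator one and `ψ` has indicator one, and `(aψ)^G` is irreducible, then
it has indicator one. -/
theorem nu_indFun_of_linear {G : Type*} [Group G] [Fintype G] {N : Subgroup G} [Fintype N]
    (hN : N.Normal) {T : Subgroup G} [Fintype T] (hNT : N ≤ T) {ϑ : N → ℂ}
    (hϑ : IsIrrCharacter N ϑ) (hT : T = inertia hN ϑ) {ψ : T → ℂ} (hψ : IsIrrCharacter T ψ)
    (hψν : nu ψ = 1) {a : G → ℂ} (ha : IsCharacter G a) (ha1 : a 1 = 1) (haν : nu a = 1)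
    (hτ : IsIrrCharacter T (fun x : T => a x * ψ x))
    (hne : classInner (res hNT (fun x : T => a x * ψ x)) ϑ ≠ 0) :
    nu (indFun T (fun x : T => a x * ψ x)) = 1 := by
  classical
  have hamul := Cfsg.Agent.Lib.Char.Linear.deg_one_mul ha ha1
  -- `a ^ 2 = 1`
  have ha2 : ∀ g, a g * a g = 1 := by
    have hc : IsCharacter G (fun g => a g * a g) := isCharacter_mul ha ha
    have hirr : IsIrrCharacter G (fun g => a g * a g) :=
      Cfsg.Agent.Lib.Char.Linear.isIrrCharacter_of_deg_one hc (by simp [ha1])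
    have h1 := classInner_irr hirr (Cfsg.Agent.Lib.Char.RealChar.isIrr_one' (G := G))
    have h2 : classInner (fun g => a g * a g) (fun _ : G => (1 : ℂ)) = nu a := by
      rw [classInner_def, nu]
      congr 1
      refine Finset.sum_congr rfl fun g _ => ?_
      simp [hamul]
    rw [h2, haν] at h1
    by_cases h3 : (fun g => a g * a g) = (fun _ : G => (1 : ℂ))
    · exact fun g => congrFun h3 g
    · rw [if_neg h3] at h1
      exact absurd h1 one_ne_zero
  have hareal : ∀ g, conj (a g) = a g := by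
    intro g
    have h1 := ha2 g
    have h2 : a g = 1 ∨ a g = -1 := mul_self_eq_one_iff.mp h1
    rcases h2 with h | h <;> simp [h]
  have hψr := real_of_nu_ne_zero hψ (by rw [hψν]; exact one_ne_zero)
  set τ : T → ℂ := fun x : T => a x * ψ x with hτdef
  have hτr : ∀ x, conj (τ x) = τ x := by
    intro x
    simp [hτdef, hareal, hψr]
  have hτν : nu τ = 1 := by
    rw [← hψν, nu, nu]
    congr 1
    refine Finset.sum_congr rfl fun s _ => ?_
    simp only [hτdef]
    have e : (((s * s : T) : G)) = (s : G) * s := rfl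
    rw [e, hamul, ha2, one_mul]
  obtain ⟨hFirr, -⟩ := isIrrCharacter_indFun_of_lies_over hN hNT hϑ hT hτ hne
  set χ : G → ℂ := indFun T τ with hχ
  have hχr : ∀ g, conj (χ g) = χ g := by
    intro g
    simp only [hχ, indFun_apply, map_mul, map_sum, map_inv₀, map_natCast]
    congr 1
    refine Finset.sum_congr rfl fun x _ => ?_
    by_cases hx : x⁻¹ * g * x ∈ T
    · rw [extendByZero_of_mem T τ hx, hτr]
    · rw [extendByZero_of_not_mem T τ hx, map_zero]
  have h1 : classInner (fun t : T => χ t) τ = ((1 : ℕ) : ℂ) := by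
    rw [← classInner_indFun_right T τ χ (isClassFunction_of_isIrrCharacter hFirr), ← hχ,
      classInner_self_of_isIrr hFirr]
    simp
  exact nu_eq_one_of_classInner_odd T hFirr hχr hτ hτν h1 odd_one

/-- Let G be a finite group with a non-abelian minimal normal subgroup N, and let φ be an irreducible complex character of N with stabilizer I in G such that φ extends to an irreducible character of I with Frobenius–Schur indicator +1. Put d = φ(1)·[G : I]. Then the number of linear characters of G with Frobenius–Schur indicator +1 is at most [G : I] times the number of irreducible characters of G of degree d with Frobenius–Schur indicator +1. -/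
theorem result {G : Type*} [Group G] [Finite G] (N : Subgroup G) (hN : N.Normal) (hN1 : N ≠ ⊥) (hmin : ∀ M : Subgroup G, M.Normal → M ≤ N → M = ⊥ ∨ M = N) (hna : ¬ IsMulCommutative ↥N) (φ : Cfsg.IrrCharacter ↥N) (I : Subgroup G) (hI : ∀ g : G, g ∈ I ↔ ∀ n n' : ↥N, (n' : G) = g * (n : G) * g⁻¹ → (φ : ↥N → ℂ) n' = (φ : ↥N → ℂ) n) (hNI : N ≤ I) (hext : ∃ ψ : Cfsg.IrrCharacter ↥I, (Nat.card ↥I : ℂ)⁻¹ * ∑ᶠ g : ↥I, (ψ : ↥I → ℂ) (g * g) = 1 ∧ ∀ n : ↥N, (ψ : ↥I → ℂ) (Subgroup.inclusion hNI n) = (φ : ↥N → ℂ) n) : Nat.card {χ : Cfsg.IrrCharacter G // Cfsg.charDegree (χ : G → ℂ) = 1 ∧ (Nat.card G : ℂ)⁻¹ * ∑ᶠ g : G, (χ : G → ℂ) (g * g) = 1} ≤ I.index * Nat.card {χ : Cfsg.IrrCharacter G // Cfsg.charDegree (χ : G → ℂ) = Cfsg.charDegree (φ : ↥N → ℂ) * I.index ∧ (Nat.card G : ℂ)⁻¹ * ∑ᶠ g : G, (χ : G → ℂ) (g * g) = 1} := by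
  classical
  let _ := Fintype.ofFinite G
  let _ := Fintype.ofFinite N
  let _ := Fintype.ofFinite I
  have := finite_irrCharacter (G := G)
  let _ := Fintype.ofFinite (IrrCharacter G)
  obtain ⟨ψ, hψν, hψφ⟩ := hext
  have hψν' : Cfsg.Agent.Lib.Char.OddIndexReal.nu (ψ : I → ℂ) = 1 := by
    rw [Cfsg.Agent.Lib.Char.OddIndexReal.nu, ← finsum_eq_sum_of_fintype]
    exact hψν
  have hconv : ∀ χ : IrrCharacter G, (Nat.card G : ℂ)⁻¹ * ∑ᶠ g : G, (χ : G → ℂ) (g * g) =
      Cfsg.Agent.Lib.Char.OddIndexReal.nu (χ : G → ℂ) := by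
    intro χ
    rw [Cfsg.Agent.Lib.Char.OddIndexReal.nu, finsum_eq_sum_of_fintype]
  have hI' : I = inertia hN (φ : N → ℂ) := by
    ext g
    rw [hI, mem_inertia]
    constructor
    · intro h
      funext n
      exact h n _ rfl
    · intro h n n' hn'
      have h1 := congrFun h n
      have hn2 : n' = ⟨g * n * g⁻¹, hN.conj_mem n n.2 g⟩ := Subtype.ext hn'
      rw [hn2]
      exact h1
  have hres : res hNI (ψ : I → ℂ) = (φ : N → ℂ) := by
    funext n
    exact hψφ n
  let L := {χ : IrrCharacter G // charDegree (χ : G → ℂ) = 1 ∧ (Nat.card G : ℂ)⁻¹ * ∑ᶠ g : G, (χ : G → ℂ) (g * g) = 1}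
  let D := {χ : IrrCharacter G // charDegree (χ : G → ℂ) = charDegree (φ : N → ℂ) * I.index ∧ (Nat.card G : ℂ)⁻¹ * ∑ᶠ g : G, (χ : G → ℂ) (g * g) = 1}
  let _ : Fintype L := Fintype.ofFinite _
  let _ : Fintype D := Fintype.ofFinite _
  have hLc : ∀ a : L, IsCharacter G (a.1 : G → ℂ) := fun a => isCharacter_of_isIrrCharacter a.1.2
  have hL1 : ∀ a : L, (a.1 : G → ℂ) 1 = 1 := by
    intro a
    rw [← charDegree_natCast (hLc a), a.2.1]
    simp
  have hLN : ∀ a : L, ∀ n ∈ N, (a.1 : G → ℂ) n = 1 := fun a n hn =>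
    linear_eq_one_of_minimal N hN hmin hna (hLc a) (hL1 a) hn
  have hτ : ∀ a : L, IsIrrCharacter I (fun x : I => (a.1 : G → ℂ) x * (ψ : I → ℂ) x) := fun a =>
    isIrrCharacter_mul_linear (isCharacter_restrict I (hLc a)) (by simpa using hL1 a) ψ.2
  have hφ1 : classInner (φ : N → ℂ) (φ : N → ℂ) = 1 := classInner_self_of_isIrr φ.2
  have hresτ : ∀ a : L, res hNI (fun x : I => (a.1 : G → ℂ) x * (ψ : I → ℂ) x) = (φ : N → ℂ) := by
    intro a
    rw [← hres]
    funext n
    simp [res, hLN a n n.2]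
  have hFirr : ∀ a : L, IsIrrCharacter G
      (indFun I (fun x : I => (a.1 : G → ℂ) x * (ψ : I → ℂ) x)) := fun a =>
    (isIrrCharacter_indFun_of_lies_over hN hNI φ.2 hI' (hτ a) (by
      rw [hresτ a, hφ1]; exact one_ne_zero)).1
  have hFdeg : ∀ a : L, charDegree (indFun I (fun x : I => (a.1 : G → ℂ) x * (ψ : I → ℂ) x)) =
      charDegree (φ : N → ℂ) * I.index := by
    intro a
    apply charDegree_eq_of_eq_natCast
    rw [indFun_one]
    push_cast
    rw [charDegree_natCast (isCharacter_of_isIrrCharacter φ.2)]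
    have h1 : (ψ : I → ℂ) 1 = (φ : N → ℂ) 1 := hψφ 1
    simp only [hL1 a, one_mul, h1]
    ring
  have hFν : ∀ a : L, Cfsg.Agent.Lib.Char.OddIndexReal.nu
      (indFun I (fun x : I => (a.1 : G → ℂ) x * (ψ : I → ℂ) x)) = 1 := by
    intro a
    exact nu_indFun_of_linear hN hNI φ.2 hI' ψ.2 hψν' (hLc a) (hL1 a) (by
      rw [← hconv]; exact a.2.2) (hτ a) (by rw [hresτ a, hφ1]; exact one_ne_zero)
  let F : L → D := fun a => ⟨⟨_, hFirr a⟩, hFdeg a, by
    rw [hconv]; exact hFν a⟩
  have hfib : ∀ b ∈ (Finset.univ : Finset D),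
      (Finset.univ.filter (fun a : L => F a = b)).card ≤ I.index := by
    intro b _
    by_cases hempty : (Finset.univ.filter (fun a : L => F a = b)).Nonempty
    · obtain ⟨a0, ha0⟩ := hempty
      have ha0' : F a0 = b := (Finset.mem_filter.mp ha0).2
      let Y := {ν : IrrCharacter G // (ν : G → ℂ) 1 = 1 ∧ ∀ x ∈ I, (ν : G → ℂ) x = 1}
      let _ : Fintype Y := Fintype.ofFinite _
      have hcardY : Fintype.card Y ≤ I.index := by
        rw [← Nat.card_eq_fintype_card]
        exact card_linear_trivial_le_index I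
      have hprod : ∀ a : L, IsCharacter G (fun g => (a.1 : G → ℂ) g * conj ((a0.1 : G → ℂ) g)) := by
        intro a
        have h1 := isCharacter_mul (hLc a) (isCharacter_inv (hLc a0))
        convert h1 using 1
        funext x
        simp only [Pi.mul_apply]
        rw [char_inv_eq_conj (hLc a0)]
      have hprod1 : ∀ a : L, (fun g => (a.1 : G → ℂ) g * conj ((a0.1 : G → ℂ) g)) 1 = 1 := by
        intro a
        simp [hL1 a, hL1 a0]
      have hprodirr : ∀ a : L, IsIrrCharacter G (fun g => (a.1 : G → ℂ) g * conj ((a0.1 : G → ℂ) g)) :=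
        fun a => Cfsg.Agent.Lib.Char.Linear.isIrrCharacter_of_deg_one (hprod a) (hprod1 a)
      have hprodI : ∀ a : L, F a = b → ∀ x ∈ I, (a.1 : G → ℂ) x * conj ((a0.1 : G → ℂ) x) = 1 := by
        intro a hab x hx
        have heq : F a = F a0 := hab.trans ha0'.symm
        have heq2 := congrArg (fun d : D => (d.1 : G → ℂ)) heq
        have h1 := eq_on_inertia_of_indFun_eq hN hNI φ.2 hI' ψ.2 hres (hLc a) (hL1 a) (hLN a)
          (hLc a0) (hL1 a0) (hLN a0) heq2 x hx
        rw [h1]
        exact linear_mul_conj (hLc a0) (hL1 a0) x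
      have hle : (Finset.univ.filter (fun a : L => F a = b)).card ≤ (Finset.univ : Finset Y).card := by
        refine Finset.card_le_card_of_injOn (fun a =>
          if h : F a = b then ⟨⟨_, hprodirr a⟩, hprod1 a, hprodI a h⟩ else
            ⟨⟨_, hprodirr a0⟩, hprod1 a0, hprodI a0 ha0'⟩) (fun _ _ => Finset.mem_univ _) ?_
        intro a ha a' ha' hval
        have ha1 : F a = b := (Finset.mem_filter.mp ha).2
        have ha1' : F a' = b := (Finset.mem_filter.mp ha').2
        simp only [ha1, ha1', dif_pos] at hval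
        have h2 := congrArg (fun d : Y => (d.1 : G → ℂ)) hval
        simp only at h2
        apply Subtype.ext
        apply Subtype.ext
        funext g
        have h3 := congrFun h2 g
        have h4 := linear_mul_conj (hLc a0) (hL1 a0) g
        have h5 : conj ((a0.1 : G → ℂ) g) ≠ 0 := by
          intro h
          rw [h, mul_zero] at h4
          exact zero_ne_one h4
        exact mul_right_cancel₀ h5 h3
      exact hle.trans (by rw [Finset.card_univ]; exact hcardY)
    · rw [Finset.not_nonempty_iff_eq_empty.mp hempty]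
      simp
  have hcount := Finset.card_le_mul_card_image_of_maps_to (f := F) (s := (Finset.univ : Finset L))
    (t := (Finset.univ : Finset D)) (fun _ _ => Finset.mem_univ _) I.index hfib
  rw [Finset.card_univ, Finset.card_univ] at hcount
  change Nat.card L ≤ I.index * Nat.card D
  rw [Nat.card_eq_fintype_card, Nat.card_eq_fintype_card]
  exact hcount


end Cfsg.Agent.S4912
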