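import Cfsg.Statements.S4914
import Cfsg.Agent.Lib.DGN.Main

set_option autoImplicit false
open Cfsg

namespace Cfsg.Agent.S4914

set_option linter.unusedSectionVars false
set_option linter.style.haveILetI false

open Module Finset
open Cfsg.Agent.Lib.Char.Basic Cfsg.Agent.Lib.Char.Ortho Cfsg.Agent.Lib.Char.Complete
open Cfsg.Agent.Lib.DGN.Basic Cfsg.Agent.Lib.DGN.Invariant Cfsg.Agent.Lib.DGN.Main
open scoped Classical ComplexConjugate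

universe u

theorem good_not_bad {p : ℕ} (hp : p.Prime) {z : ℂ} (h1 : Good p z) (h2 : Bad p z) : False := by
  obtain ⟨ε, k, hε, hk⟩ := h1
  obtain ⟨k', hk'⟩ := h2
  have h3 : ((p * k + ε : ℤ) : ℂ) = ((p * k' : ℤ) : ℂ) := hk.symm.trans hk'
  have h4 : (p * k + ε : ℤ) = p * k' := by exact_mod_cast h3
  have h5 : (p : ℤ) ∣ ε := ⟨k' - k, by linarith⟩
  have h6 : (p : ℤ) ∣ 1 := by
    rcases hε with rfl | rfl
    · exact h5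
    · simpa using h5
  have h7 : p ∣ 1 := by exact_mod_cast h6
  exact hp.one_lt.ne' (Nat.dvd_one.mp h7)

theorem normal_Q {G : Type u} [Group G] [Fintype G] (p : ℕ) [Fact p.Prime] (P K Q : Subgroup G)
    (hPK : ∀ x ∈ P, ∀ k ∈ K, x * k * x⁻¹ ∈ K) (hQK : Q ≤ K)
    (hQn : ∀ k ∈ K, ∀ q ∈ Q, k * q * k⁻¹ ∈ Q) (hQp : ∃ a : ℕ, Nat.card ↥Q = p ^ a)
    (hQsyl : ¬ p ∣ Q.relIndex K) : ∀ x ∈ P, ∀ q ∈ Q, x * q * x⁻¹ ∈ Q := by
  intro x hx q hq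
  haveI hN : (Q.subgroupOf K).Normal := normal_subgroupOf hQn
  obtain ⟨a, ha⟩ := hQp
  have hy : x * q * x⁻¹ ∈ K := hPK x hx q (hQK hq)
  let yb : (K ⧸ Q.subgroupOf K) := ((⟨_, hy⟩ : K) : K ⧸ Q.subgroupOf K)
  have h1 : yb ^ (p ^ a) = 1 := by
    have h2 : (⟨q, hq⟩ : Q) ^ (p ^ a) = 1 := by
      rw [← ha]
      exact pow_card_eq_one'
    have h3 : q ^ (p ^ a) = 1 := congrArg Subtype.val h2
    have h4 : (⟨_, hy⟩ : K) ^ (p ^ a) = 1 := by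
      apply Subtype.ext
      simp only [Subgroup.coe_pow, OneMemClass.coe_one]
      rw [conj_pow, h3]
      simp
    show (((⟨_, hy⟩ : K) ^ (p ^ a) : K) : K ⧸ Q.subgroupOf K) = 1
    rw [h4]
    rfl
  have h2 : yb ^ (Nat.card (K ⧸ Q.subgroupOf K)) = 1 := pow_card_eq_one'
  have hc : Nat.Coprime (p ^ a) (Nat.card (K ⧸ Q.subgroupOf K)) :=
    Nat.Coprime.pow_left _ ((Nat.Prime.coprime_iff_not_dvd Fact.out).mpr hQsyl)
  have h3 : orderOf yb = 1 := by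
    have := Nat.dvd_gcd (orderOf_dvd_of_pow_eq_one h1) (orderOf_dvd_of_pow_eq_one h2)
    rw [hc] at this
    exact Nat.dvd_one.mp this
  have h4 : yb = 1 := orderOf_eq_one_iff.mp h3
  exact Subgroup.mem_subgroupOf.mp ((QuotientGroup.eq_one_iff _).mp h4)

theorem aux {G : Type u} [Group G] [Fintype G] (p : ℕ) [Fact p.Prime] (P K Q C : Subgroup G) (hP : IsPGroup p ↥P) (hPK : P ≤ Subgroup.normalizer (K : Set G)) (hQK : Q ≤ K) (hQn : ∀ k ∈ K, ∀ q ∈ Q, k * q * k⁻¹ ∈ Q) (hQp : ∃ a : ℕ, Nat.card ↥Q = p ^ a) (hQsyl : ¬ p ∣ Q.relIndex K) (hCK : C ≤ K) (hC : ∀ k : G, k ∈ C ↔ (k ∈ K ∧ ∀ x ∈ P, x * k * x⁻¹ * k⁻¹ ∈ Q)) : ∃ f : {χ : Cfsg.IrrCharacter ↥K // (∀ x ∈ P, ∀ k k' : ↥K, (k' : G) = x * (k : G) * x⁻¹ → (χ : ↥K → ℂ) k' = (χ : ↥K → ℂ) k)} → {ξ : Cfsg.IrrCharacter ↥C // (∀ x ∈ P, ∀ k k' : ↥C, (k' : G) = x * (k : G) * x⁻¹ → (ξ : ↥C → ℂ) k' = (ξ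 : ↥C → ℂ) k)}, Function.Bijective f ∧ ∀ χ, (∀ ξ : {ξ : Cfsg.IrrCharacter ↥C // (∀ x ∈ P, ∀ k k' : ↥C, (k' : G) = x * (k : G) * x⁻¹ → (ξ : ↥C → ℂ) k' = (ξ : ↥C → ℂ) k)}, ∃ m : ℕ, (Nat.card ↥C : ℂ)⁻¹ * ∑ᶠ c : ↥C, (χ.1 : ↥K → ℂ) (Subgroup.inclusion hCK c) * (starRingEnd ℂ) ((ξ.1 : ↥C → ℂ) c) = (m : ℂ) ∧ (ξ = f χ → ((m : ZMod p) = 1 ∨ (m : ZMod p) = -1)) ∧ (ξ ≠ f χ → p ∣ m)) ∧ ((Cfsg.charDegree ((f χ).1 : ↥C → ℂ) : ZMod p) = (Cfsg.charDegree (χ.1 : ↥K → ℂ) : ZMod p) ∨ (Cfsg.charDegree ((f χ).1 : ↥C → ℂ) : ZMod p) = -(Cfsg.charDegree (χ.1 : ↥K → ℂ) : ZMod p)) := by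
  have hp : p.Prime := Fact.out
  have hPK' : ∀ x ∈ P, ∀ k ∈ K, x * k * x⁻¹ ∈ K := fun x hx k hk =>
    (Subgroup.mem_normalizer_iff.mp (hPK hx) k).mp hk
  have hQP : IsPGroup p ↥Q := IsPGroup.iff_card.mpr hQp
  have hPQ := normal_Q p P K Q hPK' hQK hQn hQp hQsyl
  have hQC : Q ≤ C := fun q hq => (hC q).mpr ⟨hQK hq, fun x hx =>
    Q.mul_mem (hPQ x hx q hq) (Q.inv_mem hq)⟩
  have hPC : ∀ x ∈ P, ∀ c ∈ C, x * c * x⁻¹ ∈ C := by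
    intro x hx c hc
    refine (hC _).mpr ⟨hPK' x hx c (hCK hc), fun y hy => ?_⟩
    have h1 := ((hC c).mp hc).2 x hx
    have h3 := ((hC c).mp hc).2 (y * x) (P.mul_mem hy hx)
    have h4 : y * (x * c * x⁻¹) * y⁻¹ * (x * c * x⁻¹)⁻¹ =
        (y * x * c * (y * x)⁻¹ * c⁻¹) * (x * c * x⁻¹ * c⁻¹)⁻¹ := by group
    rw [h4]
    exact Q.mul_mem h3 (Q.inv_mem h1)
  obtain ⟨h1, h2⟩ := main hp hP hPK' hPQ hQK hQn hQP hQsyl hCK hC hQC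
  have h1' : ∀ χ : {χ : Cfsg.IrrCharacter ↥K // (∀ x ∈ P, ∀ k k' : ↥K, (k' : G) = x * (k : G) * x⁻¹ → (χ : ↥K → ℂ) k' = (χ : ↥K → ℂ) k)},
      ∃ ξ : {ξ : Cfsg.IrrCharacter ↥C // (∀ x ∈ P, ∀ k k' : ↥C, (k' : G) = x * (k : G) * x⁻¹ → (ξ : ↥C → ℂ) k' = (ξ : ↥C → ℂ) k)},
        Good p (classInner (rs hCK χ.1.1) ξ.1.1) ∧
        ∀ ξ' : C → ℂ, IsIrrCharacter C ξ' → PI P C ξ' → ξ' ≠ ξ.1.1 →
          Bad p (classInner (rs hCK χ.1.1) ξ') := by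
    intro χ
    obtain ⟨ξ, hξ, hξP, hg, hb⟩ := h1 χ.1.1 χ.1.2 χ.2
    exact ⟨⟨⟨ξ, hξ⟩, hξP⟩, hg, hb⟩
  choose f hfg hfb using h1'
  refine ⟨f, ⟨?_, ?_⟩, fun χ => ⟨fun ξ => ?_, ?_⟩⟩
  · intro χ₁ χ₂ h
    obtain ⟨χ, hχ, hχP, hg, hb⟩ := h2 (f χ₁).1.1 (f χ₁).1.2 (f χ₁).2
    have e1 : χ₁.1.1 = χ := by
      by_contra hne
      exact good_not_bad hp (hfg χ₁) (hb χ₁.1.1 χ₁.1.2 χ₁.2 hne)
    have e2 : χ₂.1.1 = χ := by
      by_contra hne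
      have h3 := hb χ₂.1.1 χ₂.1.2 χ₂.2 hne
      rw [h] at h3
      exact good_not_bad hp (hfg χ₂) h3
    exact Subtype.ext (Subtype.ext (e1.trans e2.symm))
  · intro ξ
    obtain ⟨χ, hχ, hχP, hg, hb⟩ := h2 ξ.1.1 ξ.1.2 ξ.2
    refine ⟨⟨⟨χ, hχ⟩, hχP⟩, ?_⟩
    by_contra hne
    have h3 := hfb ⟨⟨χ, hχ⟩, hχP⟩ ξ.1.1 ξ.1.2 ξ.2 (fun h => hne (Subtype.ext (Subtype.ext h.symm)))
    exact good_not_bad hp hg h3
  · have hχc := isCharacter_of_isIrrCharacter χ.1.2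
    obtain ⟨m, hm⟩ := exists_nat_classInner (isCharacter_rs hCK hχc)
      (isCharacter_of_isIrrCharacter ξ.1.2)
    refine ⟨m, ?_, ?_, ?_⟩
    · rw [finsum_eq_sum_of_fintype]
      exact hm
    · intro hξ
      obtain ⟨ε, k, hε, hk⟩ := hfg χ
      rw [← hξ, hm] at hk
      have h3 : (m : ℤ) = p * k + ε := by exact_mod_cast hk
      have h4 : ((m : ℤ) : ZMod p) = ((p * k + ε : ℤ) : ZMod p) := by rw [h3]
      push_cast at h4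
      rw [ZMod.natCast_self, zero_mul, zero_add] at h4
      rcases hε with rfl | rfl
      · left
        simpa using h4
      · right
        simpa using h4
    · intro hξ
      obtain ⟨k, hk⟩ := hfb χ ξ.1.1 ξ.1.2 ξ.2 (fun h => hξ (Subtype.ext (Subtype.ext h)))
      rw [hm] at hk
      have h3 : (m : ℤ) = p * k := by exact_mod_cast hk
      have h4 : (p : ℤ) ∣ m := ⟨k, h3⟩
      exact_mod_cast h4
  · obtain ⟨ε, hε, hdvd⟩ := deg_congr hp hP hPC hCK χ.1.2 χ.2 (f χ).1.2 (f χ).2 (hfg χ) (hfb χ)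
    have h3 := (ZMod.intCast_zmod_eq_zero_iff_dvd _ p).mpr hdvd
    push_cast at h3
    rcases hε with rfl | rfl
    · left
      simp only [Int.cast_one, one_mul] at h3
      exact (sub_eq_zero.mp h3).symm
    · right
      simp only [Int.cast_neg, Int.cast_one, neg_mul, one_mul, sub_neg_eq_add] at h3
      exact eq_neg_of_add_eq_zero_right h3



/-- Let P and K be subgroups of a finite group G with P a p-group normalizing K, and suppose K has a normal Sylow p-subgroup Q. Let C be the subgroup of those k ∈ K whose commutator with every element of P lies in Q (so that C/Q is the fixed-point subgroup of P on K/Q). Then there is a bijection f from the P-invariant irreducible complex characters of K onto the P-invariant irreducible complex characters of C such that, for every P-invariant irreducible character χ of K, the multiplicity of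 f(χ) in the restriction of χ to C is a natural number congruent to 1 or to −1 modulo p, every other P-invariant irreducible character of C occurs in that restriction with multiplicity divisible by p, and the degrees of χ and f(χ) are congruent modulo p up to sign. -/
theorem result {G : Type*} [Group G] [Finite G] (p : ℕ) [Fact p.Prime] (P K Q C : Subgroup G) (hP : IsPGroup p ↥P) (hPK : P ≤ Subgroup.normalizer (K : Set G)) (hQK : Q ≤ K) (hQn : ∀ k ∈ K, ∀ q ∈ Q, k * q * k⁻¹ ∈ Q) (hQp : ∃ a : ℕ, Nat.card ↥Q = p ^ a) (hQsyl : ¬ p ∣ Q.relIndex K) (hCK : C ≤ K) (hC : ∀ k : G, k ∈ C ↔ (k ∈ K ∧ ∀ x ∈ P, x * k * x⁻¹ * k⁻¹ ∈ Q)) : ∃ f : {χ : Cfsg.IrrCharacter ↥K // (∀ x ∈ P, ∀ k k' : ↥K, (k' : G) = x * (k : G) * x⁻¹ → (χ : ↥K → ℂ) k' = (χ : ↥K → ℂ) k)} → {ξ : Cfsg.IrrCharacter ↥C // (∀ x ∈ P, ∀ k k' : ↥C, (k' : G) = x * (k : G) * x⁻¹ → (ξ : ↥C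 → ℂ) k' = (ξ : ↥C → ℂ) k)}, Function.Bijective f ∧ ∀ χ, (∀ ξ : {ξ : Cfsg.IrrCharacter ↥C // (∀ x ∈ P, ∀ k k' : ↥C, (k' : G) = x * (k : G) * x⁻¹ → (ξ : ↥C → ℂ) k' = (ξ : ↥C → ℂ) k)}, ∃ m : ℕ, (Nat.card ↥C : ℂ)⁻¹ * ∑ᶠ c : ↥C, (χ.1 : ↥K → ℂ) (Subgroup.inclusion hCK c) * (starRingEnd ℂ) ((ξ.1 : ↥C → ℂ) c) = (m : ℂ) ∧ (ξ = f χ → ((m : ZMod p) = 1 ∨ (m : ZMod p) = -1)) ∧ (ξ ≠ f χ → p ∣ m)) ∧ ((Cfsg.charDegree ((f χ).1 : ↥C → ℂ) : ZMod p) = (Cfsg.charDegree (χ.1 : ↥K → ℂ) : ZMod p) ∨ (Cfsg.charDegree ((f χ).1 : ↥C → ℂ) : ZMod p) = -(Cfsg.charDegree (χ.1 : ↥K → ℂ) : ZMod p)) := by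
  letI : Fintype G := Fintype.ofFinite G
  exact aux p P K Q C hP hPK hQK hQn hQp hQsyl hCK hC

end Cfsg.Agent.S4914
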