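import Cfsg.Statements.S4916
import Cfsg.Agent.Lib.BlockCover.Basic

set_option autoImplicit false
set_option linter.style.haveILetI false
open Cfsg

namespace Cfsg.Agent.S4916

/-- Let G be a finite group, p a prime and M a maximal ideal of the algebraic integers containing p. Then the principal character is the only irreducible character of degree prime to p in the principal p-block of G if and only if p does not divide the order of G. -/
theorem result {G : Type*} [Group G] [Finite G] (p : ℕ) [Fact p.Prime] (M : Ideal Cfsg.AlgInt) (hM : Cfsg.IsPModular p M) : (∀ χ : Cfsg.IrrCharacter G, χ ∈ Cfsg.principalBlock M G → ¬ p ∣ Cfsg.charDegree (χ : G → ℂ) → (χ : G → ℂ) = fun _ => (1 : ℂ)) ↔ ¬ p ∣ Nat.card G := by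
  classical
  haveI := hM.2.1.isPrime
  haveI := Cfsg.Agent.Lib.Char.Ortho.finite_irrCharacter (G := G)
  letI := Fintype.ofFinite G
  letI := Fintype.ofFinite (Cfsg.IrrCharacter G)
  have hp : p.Prime := Fact.out
  constructor
  · intro h hd
    have h1 := Cfsg.Agent.Lib.BlockCover.Basic.dvd_sum_sq_of_dvd_card hM
      (Cfsg.Agent.Lib.Blocks.Third.isPBlock_principal M) hd
    set e := Cfsg.Agent.Lib.Blocks.Third.oneI G with he
    have h0 : e ∈ Cfsg.principalBlock M G := Cfsg.Agent.Lib.Blocks.Central.mem_blockOf_self e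
    rw [← Finset.add_sum_erase _ _ (Finset.mem_univ e), if_pos h0] at h1
    have h2 : Cfsg.charDegree (e : G → ℂ) = 1 :=
      Cfsg.Agent.Lib.Char.Degree.charDegree_eq_of_eq_natCast (by
        change (1 : ℂ) = _
        simp)
    have h3 : p ∣ ∑ χ ∈ Finset.univ.erase e, if χ ∈ Cfsg.principalBlock M G then
        Cfsg.charDegree (χ : G → ℂ) ^ 2 else 0 := by
      refine Finset.dvd_sum fun χ hχ => ?_
      split_ifs with hχB
      · have hne : χ ≠ e := Finset.ne_of_mem_erase hχ
        have hdvd : p ∣ Cfsg.charDegree (χ : G → ℂ) := by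
          by_contra hnd
          exact hne (Subtype.ext (h χ hχB hnd))
        exact dvd_pow hdvd two_ne_zero
      · exact dvd_zero _
    rw [h2, one_pow] at h1
    have h4 := (Nat.dvd_add_left h3).mp h1
    exact hp.one_lt.ne' (Nat.dvd_one.mp h4)
  · intro hnd χ hχ _
    have hnd' : ¬ p ∣ Nat.card (⊤ : Subgroup G) := by
      rwa [Nat.card_congr Subgroup.topEquiv.toEquiv]
    have ht := fun n : (⊤ : Subgroup G) =>
      Cfsg.Agent.Lib.BlockT.Inflate.trivial_of_sameBlock hM (N := ⊤) inferInstance hnd'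
        (χ := Cfsg.Agent.Lib.Blocks.Third.oneI G) (ψ := χ) hχ (fun _ => rfl) n
    have hconst : ∀ g : G, (χ : G → ℂ) g = (χ : G → ℂ) 1 := fun g => ht ⟨g, trivial⟩
    have hone : Cfsg.IsIrrCharacter G (fun _ => (1 : ℂ)) :=
      Cfsg.Agent.Lib.Char.Burnside.isIrrCharacter_one
    have h1 := Cfsg.Agent.Lib.Char.Ortho.classInner_irr χ.2 hone
    have h2 : Cfsg.classInner (χ : G → ℂ) (fun _ => (1 : ℂ)) = (χ : G → ℂ) 1 := by
      rw [Cfsg.Agent.Lib.Char.Ortho.classInner_def]
      simp only [hconst, map_one, mul_one, Finset.sum_const, Finset.card_univ, nsmul_eq_mul]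
      rw [← Nat.card_eq_fintype_card, ← mul_assoc, inv_mul_cancel₀, one_mul]
      exact Nat.cast_ne_zero.mpr Nat.card_pos.ne'
    rw [h2] at h1
    by_contra hne
    rw [if_neg hne] at h1
    exact Cfsg.Agent.Lib.Char.Complete.irr_one_ne_zero χ.2 h1

end Cfsg.Agent.S4916
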