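import Cfsg.Statements.S4930
import Cfsg.Agent.Lib.OddSq.Basic
import Cfsg.Agent.Lib.CharDeep.ThompsonDeg
import Cfsg.Agent.Lib.Glauberman.PGroup
import Cfsg.Agent.Lib.Char.Burnside

set_option autoImplicit false
open Cfsg

namespace Cfsg.Agent.S4930

set_option linter.unusedSectionVars false
set_option linter.style.haveILetI false

open Module Finset
open Cfsg.Agent.Lib.OddSq
open Cfsg.Agent.Lib.Char.Basic Cfsg.Agent.Lib.Char.Ortho Cfsg.Agent.Lib.Char.Complete
open Cfsg.Agent.Lib.Char.Degree Cfsg.Agent.Lib.Char.Clifford Cfsg.Agent.Lib.Char.Induced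
open Cfsg.Agent.Lib.Char.Linear Cfsg.Agent.Lib.Char.IndRep Cfsg.Agent.Lib.Char.Conj
open Cfsg.Agent.Lib.Char.CliffordCorr
open scoped Classical ComplexConjugate commutatorElement

attribute [local instance] instFinIrr

universe u

variable {G : Type u} [Group G] [Fintype G] (P : Sylow 2 G)

/-- The normalizer of `P`. -/
abbrev NN : Subgroup G := Subgroup.normalizer ((P : Subgroup G) : Set G)

/-- `P` inside its normalizer. -/
abbrev PN : Subgroup (NN P) := (P : Subgroup G).subgroupOf (NN P)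

instance PN_normal : (PN P).Normal := Subgroup.normal_in_normalizer

/-- The derived subgroup of `P` inside the normalizer. -/
abbrev Pd : Subgroup (NN P) := ⁅PN P, PN P⁆

/-- The quotient of the normalizer by the derived subgroup of `P`. -/
abbrev QQ : Type u := NN P ⧸ Pd P

/-- The quotient map. -/
abbrev piQ : NN P →* QQ P := QuotientGroup.mk' (Pd P)

theorem piQ_surjective : Function.Surjective (piQ P) := QuotientGroup.mk'_surjective _

theorem le_NN : (P : Subgroup G) ≤ NN P := Subgroup.le_normalizer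

theorem card_PN : Nat.card (PN P) = Nat.card (P : Subgroup G) :=
  Nat.card_congr (Subgroup.subgroupOfEquivOfLe (le_NN P)).toEquiv

theorem card_commutator_congr {A B : Type*} [Group A] [Group B] (e : A ≃* B) :
    Nat.card (commutator A) = Nat.card (commutator B) := by
  have h : (commutator A).map e.toMonoidHom = commutator B := by
    rw [commutator_def, commutator_def, Subgroup.map_commutator]
    have : (⊤ : Subgroup A).map e.toMonoidHom = ⊤ :=
      Subgroup.map_top_of_surjective _ e.surjective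
    rw [this]
  rw [← h]
  exact (Subgroup.card_map_of_injective e.injective).symm

theorem card_Pd : Nat.card (Pd P) = Nat.card (commutator ↥(P : Subgroup G)) := by
  have h1 : Nat.card (commutator (PN P)) = Nat.card (commutator ↥(P : Subgroup G)) :=
    card_commutator_congr (Subgroup.subgroupOfEquivOfLe (le_NN P))
  have h2 : Pd P = (commutator (PN P)).map (PN P).subtype :=
    (Subgroup.map_subtype_commutator (PN P)).symm
  rw [← h1, h2]
  exact Subgroup.card_map_of_injective (Subgroup.subtype_injective _)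

theorem card_NN : Nat.card (NN P) = Nat.card (commutator ↥(P : Subgroup G)) * Nat.card (QQ P) := by
  rw [← card_Pd, Subgroup.card_eq_card_quotient_mul_card_subgroup (Pd P), mul_comm]

theorem not_dvd_index_P : ¬ 2 ∣ (P : Subgroup G).index := P.not_dvd_index

theorem not_dvd_index_of_le {H : Subgroup G} (h : (P : Subgroup G) ≤ H) : ¬ 2 ∣ H.index :=
  fun hd => not_dvd_index_P P (hd.trans (Subgroup.index_dvd_of_le h))

theorem not_dvd_relIndex_of_le {H : Subgroup G} (h : (P : Subgroup G) ≤ H) :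
    ¬ 2 ∣ ((P : Subgroup G).subgroupOf H).index := by
  intro hd
  apply not_dvd_index_P P
  rw [← Subgroup.relIndex_mul_index h]
  exact Dvd.dvd.mul_right hd _

theorem Pd_le_PN : Pd P ≤ PN P := Subgroup.commutator_le_left _ _

/-- All characters of the quotient have odd degree. -/
theorem not_dvd_deg (ψ : IrrCharacter (QQ P)) : ¬ 2 ∣ charDegree (ψ : QQ P → ℂ) := by
  obtain ⟨ψ, n, ρ, hρ, hψ⟩ := ψ
  subst hψ
  simp only
  rw [charDegree_character]
  let A : Subgroup (QQ P) := (PN P).map (piQ P)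
  haveI hA : A.Normal := Subgroup.Normal.map inferInstance _ (piQ_surjective P)
  have hcomm : ∀ a ∈ A, ∀ b ∈ A, a * b = b * a := by
    rintro _ ⟨x, hx, rfl⟩ _ ⟨y, hy, rfl⟩
    have h1 : ⁅x, y⁆ ∈ Pd P := Subgroup.commutator_mem_commutator hx hy
    have h2 : piQ P ⁅x, y⁆ = 1 := (QuotientGroup.eq_one_iff _).mpr h1
    rw [map_commutatorElement] at h2
    exact commutatorElement_eq_one_iff_mul_comm.mp h2
  haveI := hρ
  have hd := Cfsg.Agent.Lib.Char.Ito.finrank_dvd_index_of_abelian_normal ρ A hcomm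
  have hidx : A.index = (PN P).index := by
    have h := Subgroup.index_map (PN P) (piQ P)
    rw [MonoidHom.range_eq_top.mpr (piQ_surjective P), Subgroup.index_top, mul_one,
      QuotientGroup.ker_mk', sup_eq_left.mpr (Pd_le_PN P)] at h
    exact h
  rw [hidx] at hd
  exact fun h => not_dvd_relIndex_of_le P (le_NN P) (h.trans hd)

/-- **The inequality.** -/
theorem card_QQ_le : Nat.card (QQ P) ≤ sq G 2 :=
  card_le_sq 2 Nat.prime_two (piQ P) (piQ_surjective P) (not_dvd_index_of_le P (le_NN P))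
    (not_dvd_deg P)

section Forward

variable (heq : sq G 2 ≤ Nat.card (QQ P))

include heq

/-- The normal closure of `P` meets the normalizer in `P`. -/
theorem mem_P_of_mem_normalClosure (x : NN P)
    (hx : (x : G) ∈ Subgroup.normalClosure ((P : Subgroup G) : Set G)) :
    (x : G) ∈ (P : Subgroup G) := by
  let Q₂ := NN P ⧸ PN P
  let π₂ : NN P →* Q₂ := QuotientGroup.mk' (PN P)
  have hπ₂ : Function.Surjective π₂ := QuotientGroup.mk'_surjective _
  have hall : ∀ χ₂ : IrrCharacter Q₂, (χ₂ : Q₂ → ℂ) (π₂ x) = (χ₂ : Q₂ → ℂ) 1 := by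
    intro χ₂
    have hβ : IsIrrCharacter (NN P) ((χ₂ : Q₂ → ℂ) ∘ π₂) :=
      Cfsg.Agent.Lib.Char.Linear.isIrrCharacter_comp π₂ hπ₂ χ₂.2
    have hker : ∀ k ∈ (piQ P).ker, ((χ₂ : Q₂ → ℂ) ∘ π₂) k = ((χ₂ : Q₂ → ℂ) ∘ π₂) 1 := by
      intro k hk
      have h1 : k ∈ Pd P := by simpa using hk
      have h2 : π₂ k = 1 := (QuotientGroup.eq_one_iff _).mpr (Pd_le_PN P h1)
      simp [h2]
    obtain ⟨φ, hφ, hφe⟩ := isIrrCharacter_descend (piQ P) (piQ_surjective P) hβ hker
    obtain ⟨χ, -, hχ⟩ := exists_extension 2 Nat.prime_two (piQ P) (piQ_surjective P)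
      (not_dvd_index_of_le P (le_NN P)) (not_dvd_deg P) heq ⟨φ, hφ⟩
    have hval : ∀ n : NN P, (χ : G → ℂ) n = (χ₂ : Q₂ → ℂ) (π₂ n) := fun n => by
      rw [hχ n]
      exact (congrFun hφe n).symm
    have hχc := isCharacter_of_isIrrCharacter χ.2
    have hkerχ : Subgroup.normalClosure ((P : Subgroup G) : Set G) ≤ charKer hχc := by
      apply Subgroup.normalClosure_le_normal
      intro y hy
      have hyN : y ∈ NN P := le_NN P hy
      have h1 : π₂ ⟨y, hyN⟩ = 1 := (QuotientGroup.eq_one_iff _).mpr (by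
        rw [Subgroup.mem_subgroupOf]
        exact hy)
      change (χ : G → ℂ) y = (χ : G → ℂ) 1
      have h2 := hval ⟨y, hyN⟩
      have h3 := hval 1
      rw [h1] at h2
      rw [map_one] at h3
      exact h2.trans h3.symm
    have h1 : (χ : G → ℂ) x = (χ : G → ℂ) 1 := hkerχ hx
    have h2 := hval x
    have h3 := hval 1
    rw [map_one] at h3
    exact h2.symm.trans (h1.trans h3)
  have h := eq_one_of_forall_irr hall
  have h2 : x ∈ PN P := (QuotientGroup.eq_one_iff _).mp h
  exact Subgroup.mem_subgroupOf.mp h2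

/-- The order relation. -/
theorem card_NN_eq :
    Nat.card (NN P) = Nat.card (P : Subgroup G) *
      (Subgroup.normalClosure ((P : Subgroup G) : Set G)).index := by
  set H := Subgroup.normalClosure ((P : Subgroup G) : Set G) with hHdef
  haveI hHn : H.Normal := Subgroup.normalClosure_normal
  have hPH : (P : Subgroup G) ≤ H := Subgroup.subset_normalClosure
  have hsup : NN P ⊔ H = ⊤ := Sylow.normalizer_sup_eq_top' P hPH
  let φ : NN P →* G ⧸ H := (QuotientGroup.mk' H).comp (NN P).subtype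
  have hφ : Function.Surjective φ := by
    intro q
    obtain ⟨g, rfl⟩ := QuotientGroup.mk'_surjective H q
    have hg : g ∈ (NN P ⊔ H : Subgroup G) := by rw [hsup]; trivial
    rw [← SetLike.mem_coe, Subgroup.mul_normal] at hg
    obtain ⟨a, ha, b, hb, rfl⟩ := hg
    refine ⟨⟨a, ha⟩, ?_⟩
    change (QuotientGroup.mk' H) a = _
    rw [map_mul]
    have : (QuotientGroup.mk' H) b = 1 := (QuotientGroup.eq_one_iff _).mpr hb
    rw [this, mul_one]
  have hker : φ.ker = PN P := by
    ext x
    rw [MonoidHom.mem_ker, Subgroup.mem_subgroupOf]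
    constructor
    · intro h
      exact mem_P_of_mem_normalClosure P heq x ((QuotientGroup.eq_one_iff _).mp h)
    · intro h
      exact (QuotientGroup.eq_one_iff _).mpr (hPH h)
  have h1 := Subgroup.card_eq_card_quotient_mul_card_subgroup φ.ker
  have h2 : Nat.card (NN P ⧸ φ.ker) = Nat.card (G ⧸ H) :=
    Nat.card_congr (QuotientGroup.quotientKerEquivOfSurjective φ hφ).toEquiv
  rw [h2, hker, card_PN, mul_comm] at h1
  rw [h1]
  rfl

/-- In the normal closure we have equality, too. -/
theorem sq_normalClosure_le :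
    sq (Subgroup.normalClosure ((P : Subgroup G) : Set G)) 2 ≤
      Nat.card (Abelianization ((P : Subgroup G).subgroupOf
        (Subgroup.normalClosure ((P : Subgroup G) : Set G)))) := by
  set H := Subgroup.normalClosure ((P : Subgroup G) : Set G) with hHdef
  haveI hHn : H.Normal := Subgroup.normalClosure_normal
  have hPH : (P : Subgroup G) ≤ H := Subgroup.subset_normalClosure
  have h1 : H.index * sq H 2 ≤ sq G 2 :=
    index_mul_sq_le 2 Nat.prime_two hHn (not_dvd_index_of_le P hPH)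
  have h2 := card_NN P
  have h3 := card_NN_eq P heq
  rw [← hHdef] at h3
  have hc : 0 < Nat.card (commutator ↥(P : Subgroup G)) := Nat.card_pos
  have hi : 0 < H.index := Nat.pos_of_ne_zero Subgroup.index_ne_zero_of_finite
  -- cardinalities in `PH`
  let PH : Subgroup H := (P : Subgroup G).subgroupOf H
  have hPH1 : Nat.card PH = Nat.card (P : Subgroup G) :=
    Nat.card_congr (Subgroup.subgroupOfEquivOfLe hPH).toEquiv
  have hPH2 : Nat.card (commutator PH) = Nat.card (commutator ↥(P : Subgroup G)) :=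
    card_commutator_congr (Subgroup.subgroupOfEquivOfLe hPH)
  have hPH3 : Nat.card PH = Nat.card (Abelianization PH) * Nat.card (commutator PH) :=
    Subgroup.card_eq_card_quotient_mul_card_subgroup (commutator PH)
  have h4 : H.index * sq H 2 * Nat.card (commutator ↥(P : Subgroup G)) ≤
      Nat.card (QQ P) * Nat.card (commutator ↥(P : Subgroup G)) :=
    Nat.mul_le_mul_right _ (le_trans h1 heq)
  have h5 : H.index * (sq H 2 * Nat.card (commutator ↥(P : Subgroup G))) ≤
      H.index * Nat.card (P : Subgroup G) := by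
    calc H.index * (sq H 2 * Nat.card (commutator ↥(P : Subgroup G)))
        = H.index * sq H 2 * Nat.card (commutator ↥(P : Subgroup G)) := by ring
      _ ≤ Nat.card (QQ P) * Nat.card (commutator ↥(P : Subgroup G)) := h4
      _ = Nat.card (commutator ↥(P : Subgroup G)) * Nat.card (QQ P) := by ring
      _ = H.index * Nat.card (P : Subgroup G) := by rw [← h2, h3]; ring
  have h6 := Nat.le_of_mul_le_mul_left h5 hi
  rw [← hPH1, hPH3, hPH2] at h6
  exact Nat.le_of_mul_le_mul_right h6 hc

/-- The forward implication. -/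
theorem exists_complement :
    ∃ K : Subgroup G, K.Normal ∧ K ⊓ NN P = ⊥ ∧ K ⊔ NN P = ⊤ := by
  set H := Subgroup.normalClosure ((P : Subgroup G) : Set G) with hHdef
  haveI hHn : H.Normal := Subgroup.normalClosure_normal
  have hPH : (P : Subgroup G) ≤ H := Subgroup.subset_normalClosure
  have hsup : NN P ⊔ H = ⊤ := Sylow.normalizer_sup_eq_top' P hPH
  let PH : Subgroup H := (P : Subgroup G).subgroupOf H
  letI : Fintype (Abelianization PH) := Fintype.ofFinite _
  have hlin : ∀ η : IrrCharacter H, (η : H → ℂ) 1 = 1 ∨ 2 ∣ charDegree (η : H → ℂ) := by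
    intro η
    by_cases hη : 2 ∣ charDegree (η : H → ℂ)
    · exact Or.inr hη
    · left
      have h1 := charDegree_eq_one_of_linear 2 Nat.prime_two (N := PH)
        (Abelianization.of : PH →* Abelianization PH)
        (QuotientGroup.mk'_surjective _) (not_dvd_relIndex_of_le P hPH)
        (fun ψ => by
          apply charDegree_eq_of_eq_natCast
          have := isIrr_deg_one_of_comm (G := Abelianization PH) (fun a b => mul_comm a b) ψ.2
          simpa using this)
        (sq_normalClosure_le P heq) η ((mem_odd 2).mpr hη)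
      rw [← charDegree_natCast (isCharacter_of_isIrrCharacter η.2), h1]
      simp
  obtain ⟨L, hLn, ⟨k, hk⟩, hLodd⟩ :=
    Cfsg.Agent.Lib.CharDeep.ThompsonDeg.exists_normal_complement (p := 2) (G := H) hlin
  haveI := hLn
  -- elements of odd order of `H` lie in `L`
  have hodd : ∀ y : H, y ^ Nat.card L = 1 → y ∈ L := by
    intro y hy
    have h1 : (QuotientGroup.mk' L y) ^ Nat.card L = 1 := by
      rw [← map_pow, hy, map_one]
    have h2 : (QuotientGroup.mk' L y) ^ (2 ^ k) = 1 := by
      rw [← hk, Subgroup.index_eq_card]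
      exact pow_card_eq_one'
    have h3 : orderOf (QuotientGroup.mk' L y) ∣ Nat.gcd (Nat.card L) (2 ^ k) :=
      Nat.dvd_gcd (orderOf_dvd_of_pow_eq_one h1) (orderOf_dvd_of_pow_eq_one h2)
    have h4 : Nat.gcd (Nat.card L) (2 ^ k) = 1 :=
      Nat.Coprime.pow_right k ((Nat.Prime.coprime_iff_not_dvd Nat.prime_two).mpr hLodd).symm
    rw [h4, Nat.dvd_one, orderOf_eq_one_iff] at h3
    exact (QuotientGroup.eq_one_iff _).mp h3
  let K : Subgroup G := L.map H.subtype
  have hKL : ∀ x ∈ K, x ^ Nat.card L = 1 := by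
    rintro _ ⟨ℓ, hℓ, rfl⟩
    have : ℓ ^ Nat.card L = 1 := by
      have h := pow_card_eq_one' (G := L) (x := ⟨ℓ, hℓ⟩)
      exact congrArg Subtype.val h
    change (ℓ : G) ^ Nat.card L = 1
    rw [← Subgroup.coe_pow, this]
    rfl
  have hKn : K.Normal := by
    refine ⟨fun x hx g => ?_⟩
    obtain ⟨ℓ, hℓ, rfl⟩ := hx
    have hmem : g * (ℓ : G) * g⁻¹ ∈ H := hHn.conj_mem _ ℓ.2 g
    refine ⟨⟨_, hmem⟩, hodd _ ?_, rfl⟩
    apply Subtype.ext
    change (g * (ℓ : G) * g⁻¹) ^ Nat.card L = 1
    have hh : (ℓ : G) ^ Nat.card L = 1 := hKL _ ⟨ℓ, hℓ, rfl⟩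
    rw [conj_pow, hh]
    simp
  have hinf : K ⊓ NN P = ⊥ := by
    rw [eq_bot_iff]
    rintro x ⟨hxK, hxN⟩
    have hxH : x ∈ H := by
      obtain ⟨ℓ, _, rfl⟩ := hxK
      exact ℓ.2
    have hxP : x ∈ (P : Subgroup G) := mem_P_of_mem_normalClosure P heq ⟨x, hxN⟩ hxH
    have h1 : x ^ Nat.card L = 1 := hKL x hxK
    obtain ⟨m, hm⟩ := P.isPGroup' ⟨x, hxP⟩
    have h2 : x ^ (2 ^ m) = 1 := congrArg Subtype.val hm
    have h3 : orderOf x ∣ Nat.gcd (Nat.card L) (2 ^ m) :=
      Nat.dvd_gcd (orderOf_dvd_of_pow_eq_one h1) (orderOf_dvd_of_pow_eq_one h2)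
    have h4 : Nat.gcd (Nat.card L) (2 ^ m) = 1 :=
      Nat.Coprime.pow_right m ((Nat.Prime.coprime_iff_not_dvd Nat.prime_two).mpr hLodd).symm
    rw [h4, Nat.dvd_one, orderOf_eq_one_iff] at h3
    exact h3
  have htop : K ⊔ NN P = ⊤ := by
    have h1 : L ⊔ PH = ⊤ := by
      rw [← Subgroup.index_eq_one]
      have h2 : (L ⊔ PH).index ∣ 2 ^ k := by
        rw [← hk]
        exact Subgroup.index_dvd_of_le le_sup_left
      have h3 : (L ⊔ PH).index ∣ PH.index := Subgroup.index_dvd_of_le le_sup_right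
      obtain ⟨j, -, hj⟩ := (Nat.dvd_prime_pow Nat.prime_two).mp h2
      rcases j with _ | j
      · simpa using hj
      · exfalso
        apply not_dvd_relIndex_of_le P hPH
        refine Dvd.dvd.trans ?_ h3
        rw [hj]
        exact Dvd.intro_left _ (pow_succ 2 j).symm
    have h2 : H ≤ K ⊔ NN P := by
      intro x hx
      have hx' : (⟨x, hx⟩ : H) ∈ L ⊔ PH := by rw [h1]; trivial
      have h3 : (L ⊔ PH).map H.subtype ≤ K ⊔ NN P := by
        rw [Subgroup.map_sup]
        refine sup_le_sup le_rfl ?_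
        rintro _ ⟨y, hy, rfl⟩
        exact le_NN P (Subgroup.mem_subgroupOf.mp hy)
      exact h3 ⟨⟨x, hx⟩, hx', rfl⟩
    rw [eq_top_iff, ← hsup]
    exact sup_le le_sup_right h2
  exact ⟨K, hKn, hinf, htop⟩

end Forward

section Reverse

/-- An invariant irreducible character under a coprime `2`-group without fixed points is
trivial. -/
theorem invariant_trivial {K : Subgroup G} (hK : K.Normal) [Fintype K] (hodd : ¬ 2 ∣ Nat.card K)
    (hC : ∀ x ∈ K, (∀ y ∈ (P : Subgroup G), y * x = x * y) → x = 1)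
    {θ : K → ℂ} (hθ : IsIrrCharacter K θ) (hinv : ∀ y ∈ (P : Subgroup G), conjOn hK y θ = θ) :
    θ = fun _ => 1 := by
  haveI := hK
  let φ : ↥(P : Subgroup G) →* MulAut K :=
    (MulAut.conjNormal (H := K)).comp (P : Subgroup G).subtype
  let C := PUnit.{u + 1}
  let ι : C →* K := 1
  have hφ : ∀ (s : ↥(P : Subgroup G)) (k : K), ((φ s k : K) : G) = (s : G) * k * (s : G)⁻¹ :=
    fun s k => MulAut.conjNormal_apply _ _
  have hmain := Cfsg.Agent.Lib.Glauberman.PGroup.mainP Nat.prime_two P.isPGroup' _ K C φ ι rfl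
    (fun a b _ => Subsingleton.elim a b)
    ((Nat.Prime.coprime_iff_not_dvd Nat.prime_two).mpr hodd)
    (by
      intro g
      constructor
      · rintro ⟨c, rfl⟩ s
        simp [ι]
      · intro h
        have h1 : (g : G) = 1 := by
          apply hC g g.2
          intro y hy
          have h2 := h ⟨y, hy⟩
          have h3 := congrArg Subtype.val h2
          rw [hφ] at h3
          change y * (g : G) * y⁻¹ = g at h3
          calc y * (g : G) = (y * (g : G) * y⁻¹) * y := by group
            _ = (g : G) * y := by rw [h3]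
        have h2 : g = 1 := Subtype.ext h1
        exact ⟨1, by simp [h2, ι]⟩)
  obtain ⟨π, -⟩ := hmain
  have hsubC : Subsingleton (IrrCharacter C) := by
    refine ⟨fun a b => Subtype.ext ?_⟩
    funext c
    have hc : c = 1 := Subsingleton.elim _ _
    rw [hc, isIrr_deg_one_of_comm (fun _ _ => Subsingleton.elim _ _) a.2,
      isIrr_deg_one_of_comm (fun _ _ => Subsingleton.elim _ _) b.2]
  have hinv' : ∀ s : ↥(P : Subgroup G), θ ∘ φ s = θ := by
    intro s
    funext k
    have h1 := congrFun (hinv (s : G) s.2) k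
    rw [← h1]
    rfl
  have h1 := π.injective (a₁ := ⟨⟨θ, hθ⟩, hinv'⟩)
    (a₂ := ⟨⟨fun _ => 1, Cfsg.Agent.Lib.Char.Burnside.isIrrCharacter_one⟩, fun s => rfl⟩)
    (Subsingleton.elim _ _)
  exact congrArg (fun x => ((x.1 : IrrCharacter K) : K → ℂ)) h1

/-- Characters of odd degree have `K` in their kernel. -/
theorem apply_eq_of_odd {K : Subgroup G} (hK : K.Normal) (hodd : ¬ 2 ∣ Nat.card K)
    (hC : ∀ x ∈ K, (∀ y ∈ (P : Subgroup G), y * x = x * y) → x = 1)
    (χ : IrrCharacter G) (hχ : ¬ 2 ∣ charDegree (χ : G → ℂ)) (k : K) :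
    (χ : G → ℂ) k = (χ : G → ℂ) 1 := by
  letI : Fintype K := Fintype.ofFinite _
  have hχc := isCharacter_of_isIrrCharacter χ.2
  have hres : IsCharacter K (res K (χ : G → ℂ)) := isCharacter_res χ
  have hne : res K (χ : G → ℂ) ≠ 0 := by
    intro h0
    have h1 := congrFun h0 1
    have h2 : (χ : G → ℂ) 1 = 0 := h1
    exact irr_one_ne_zero χ.2 h2
  obtain ⟨θ, hθ, hcon⟩ := exists_irr_constituent (isClassFunction_of_isCharacter hres) hne
  obtain ⟨e, he⟩ :=
    Cfsg.Agent.Lib.CharDeg.ItoMichlerSolv.charDegree_eq_mul_of_constituent hK χ.2 hθ hcon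
  have hT : ¬ 2 ∣ (inertia hK θ).index := by
    intro h
    apply hχ
    rw [he]
    exact Dvd.dvd.mul_right (Dvd.dvd.mul_left h _) _
  -- a fixed point
  have hfix : ∃ g : G, ∀ y ∈ (P : Subgroup G), g⁻¹ * y * g ∈ inertia hK θ := by
    have hm := P.isPGroup'.card_modEq_card_fixedPoints (G ⧸ inertia hK θ)
    have hc : Nat.card (G ⧸ inertia hK θ) = (inertia hK θ).index := rfl
    rw [hc] at hm
    have hne : Nat.card (MulAction.fixedPoints ↥(P : Subgroup G) (G ⧸ inertia hK θ)) ≠ 0 := by
      intro h0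
      rw [h0] at hm
      exact hT (Nat.modEq_zero_iff_dvd.mp hm)
    obtain ⟨⟨q, hq⟩⟩ := Nat.card_pos_iff.mp (Nat.pos_of_ne_zero hne) |>.1
    obtain ⟨g, rfl⟩ := QuotientGroup.mk_surjective q
    refine ⟨g, fun y hy => ?_⟩
    have h1 := hq ⟨y⁻¹, inv_mem hy⟩
    have h2 : ((y⁻¹ * g : G) : G ⧸ inertia hK θ) = (g : G ⧸ inertia hK θ) := h1
    have h3 := QuotientGroup.eq.mp h2
    have h4 : (y⁻¹ * g)⁻¹ * g = g⁻¹ * y * g := by group
    rwa [h4] at h3
  obtain ⟨g, hg⟩ := hfix
  let θ' : K → ℂ := conjOn hK g⁻¹ θ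
  have hθ' : IsIrrCharacter K θ' := isIrrCharacter_conjOn hK g⁻¹ hθ
  have hinv' : ∀ y ∈ (P : Subgroup G), conjOn hK y θ' = θ' := by
    intro y hy
    have h1 : conjOn hK y θ' = conjOn hK (g⁻¹ * y) θ := (conjOn_mul hK g⁻¹ y θ).symm
    have h2 : g⁻¹ * y = (g⁻¹ * y * g) * g⁻¹ := by group
    rw [h1, h2, conjOn_mul, show conjOn hK (g⁻¹ * y * g) θ = θ from hg y hy]
  have hcon' : classInner (res K (χ : G → ℂ)) θ' ≠ 0 := by
    have h1 := classInner_conjOn hK g⁻¹ (res K (χ : G → ℂ)) θ
    rw [conjOn_restrict hK (isClassFunction_of_isCharacter hχc)] at h1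
    rw [h1]
    exact hcon
  have hone := invariant_trivial P hK hodd hC hθ' hinv'
  rw [hone] at hcon'
  have hne2 : classInner (indFun K (fun _ => 1)) (χ : G → ℂ) ≠ 0 := by
    rw [classInner_indFun_left K _ _ (isClassFunction_of_isCharacter hχc)]
    exact classInner_ne_zero_comm hcon'
  exact Cfsg.Agent.Lib.Char.DegDvd.apply_eq_one_of_constituent_one hK χ.2 hne2 k

/-- Irreducible characters of the normalizer of odd degree have the derived subgroup of `P` in
their kernel. -/
theorem apply_Pd_eq (β : IrrCharacter (NN P)) (hβ : ¬ 2 ∣ charDegree (β : NN P → ℂ)) (x : NN P)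
    (hx : x ∈ Pd P) : (β : NN P → ℂ) x = (β : NN P → ℂ) 1 := by
  letI : Fintype (PN P) := Fintype.ofFinite _
  have hx' : x ∈ (commutator (PN P)).map (PN P).subtype := by
    rw [Subgroup.map_subtype_commutator]
    exact hx
  obtain ⟨a, ha, rfl⟩ := hx'
  have hres : IsCharacter (PN P) (res (PN P) (β : NN P → ℂ)) := isCharacter_res β
  have h1 := val_eq_sum_mult hres a
  have h2 := val_eq_sum_mult hres 1
  change (β : NN P → ℂ) a = _ at h1
  change (β : NN P → ℂ) ((1 : PN P) : NN P) = _ at h2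
  rw [Subgroup.coe_one] at h2
  change (β : NN P → ℂ) a = _
  rw [h1, h2]
  refine Finset.sum_congr rfl fun lam0 _ => ?_
  by_cases hm : mult (res (PN P) (β : NN P → ℂ)) (lam0 : PN P → ℂ) = 0
  · simp [hm]
  have hcon := (mult_ne_zero_iff hres (isCharacter_of_isIrrCharacter lam0.2)).mp hm
  obtain ⟨e, he⟩ := Cfsg.Agent.Lib.CharDeg.ItoMichlerSolv.charDegree_eq_mul_of_constituent
    (inferInstance : (PN P).Normal) β.2 lam0.2 hcon
  have hd : charDegree (lam0 : PN P → ℂ) ∣ charDegree (β : NN P → ℂ) := by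
    rw [he]
    exact Dvd.intro_left _ rfl
  have hd2 : charDegree (lam0 : PN P → ℂ) ∣ Nat.card (PN P) := charDegree_dvd_card lam0.2
  have hcard : ∃ n, Nat.card (PN P) = 2 ^ n := by
    rw [card_PN]
    exact IsPGroup.iff_card.mp P.isPGroup'
  obtain ⟨n, hn⟩ := hcard
  rw [hn] at hd2
  obtain ⟨j, -, hj⟩ := (Nat.dvd_prime_pow Nat.prime_two).mp hd2
  have hone : charDegree (lam0 : PN P → ℂ) = 1 := by
    rcases j with _ | j
    · simpa using hj
    · exfalso
      apply hβ
      refine Dvd.dvd.trans ?_ hd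
      rw [hj]
      exact Dvd.intro_left _ (pow_succ 2 j).symm
  have hone' : (lam0 : PN P → ℂ) 1 = 1 := by
    rw [← charDegree_natCast (isCharacter_of_isIrrCharacter lam0.2), hone]
    simp
  obtain ⟨lam, hlam⟩ := exists_hom_of_deg_one (isCharacter_of_isIrrCharacter lam0.2) hone'
  have ha2 : lam a = 1 := Abelianization.commutator_subset_ker lam ha
  have h3 : (lam0 : PN P → ℂ) a = 1 := by
    have h4 : (lam0 : PN P → ℂ) a = ((lam a : ℂˣ) : ℂ) := congrFun hlam a
    rw [h4, ha2]
    simp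
  rw [h3, hone']

/-- The reverse inequality. -/
theorem sq_le_of_complement (K : Subgroup G) (hK : K.Normal) (hinf : K ⊓ NN P = ⊥)
    (hsup : K ⊔ NN P = ⊤) : sq G 2 ≤ Nat.card (QQ P) := by
  haveI := hK
  have hcompl : Subgroup.IsComplement' K (NN P) := by
    apply Subgroup.isComplement'_of_disjoint_and_mul_eq_univ
    · exact disjoint_iff.mpr hinf
    · rw [← Subgroup.normal_mul, hsup]
      rfl
  have hodd : ¬ 2 ∣ Nat.card K := by
    intro h
    apply not_dvd_index_of_le P (le_NN P)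
    have h1 := hcompl.card_mul_card
    have h2 := Subgroup.card_mul_index (NN P)
    have h3 : Nat.card K = (NN P).index := by
      have hpos : 0 < Nat.card (NN P) := Nat.card_pos
      apply Nat.eq_of_mul_eq_mul_left hpos
      rw [h2, mul_comm, h1]
    rwa [← h3]
  have hC : ∀ x ∈ K, (∀ y ∈ (P : Subgroup G), y * x = x * y) → x = 1 := by
    intro x hxK hx
    have hxN : x ∈ NN P := by
      rw [Subgroup.mem_normalizer_iff]
      intro h
      constructor
      · intro hh
        have h1 : x * h * x⁻¹ = h := by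
          rw [← hx h hh]
          simp
        change x * h * x⁻¹ ∈ (P : Subgroup G)
        rwa [h1]
      · intro hh
        have hh' : x * h * x⁻¹ ∈ (P : Subgroup G) := hh
        have h2 := hx _ hh'
        have h3 : x * h * x⁻¹ * x = x * h := by group
        rw [h3] at h2
        have h4 : h = x * h * x⁻¹ := mul_left_cancel h2
        rw [h4]
        exact hh'
    have : x ∈ K ⊓ NN P := ⟨hxK, hxN⟩
    rw [hinf] at this
    exact this
  -- the factorization
  have hfac : ∀ χ : IrrCharacter G, ¬ 2 ∣ charDegree (χ : G → ℂ) →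
      ∃ ψ : IrrCharacter (QQ P), (∀ n : NN P, (χ : G → ℂ) n = (ψ : QQ P → ℂ) (piQ P n)) ∧
        ∀ g : G, ∀ k ∈ K, ∀ n : NN P, g = k * n → (χ : G → ℂ) g = (ψ : QQ P → ℂ) (piQ P n) := by
    intro χ hχ
    have hker : ∀ k ∈ (QuotientGroup.mk' K).ker, (χ : G → ℂ) k = (χ : G → ℂ) 1 := by
      intro k hk
      rw [QuotientGroup.ker_mk'] at hk
      exact apply_eq_of_odd P hK hodd hC χ hχ ⟨k, hk⟩
    obtain ⟨φ, hφ, hφe⟩ := isIrrCharacter_descend (QuotientGroup.mk' K)
      (QuotientGroup.mk'_surjective K) χ.2 hker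
    let f : NN P →* G ⧸ K := (QuotientGroup.mk' K).comp (NN P).subtype
    have hf : Function.Surjective f := by
      intro q
      obtain ⟨g, rfl⟩ := QuotientGroup.mk'_surjective K q
      have hg : g ∈ (K ⊔ NN P : Subgroup G) := by rw [hsup]; trivial
      rw [← SetLike.mem_coe, Subgroup.normal_mul] at hg
      obtain ⟨a, ha, b, hb, rfl⟩ := hg
      refine ⟨⟨b, hb⟩, ?_⟩
      change (QuotientGroup.mk' K) b = _
      rw [map_mul]
      have : (QuotientGroup.mk' K) a = 1 := (QuotientGroup.eq_one_iff _).mpr ha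
      rw [this, one_mul]
    have hβ : IsIrrCharacter (NN P) (φ ∘ f) := Cfsg.Agent.Lib.Char.Linear.isIrrCharacter_comp f hf hφ
    have hβv : ∀ n : NN P, (φ ∘ f) n = (χ : G → ℂ) n := fun n => (congrFun hφe n).symm
    have hβd : charDegree (φ ∘ f) = charDegree (χ : G → ℂ) := by
      unfold charDegree
      rw [← Subgroup.coe_one (NN P), hβv, Subgroup.coe_one]
    have hker2 : ∀ k ∈ (piQ P).ker, (φ ∘ f) k = (φ ∘ f) 1 := by
      intro k hk
      rw [QuotientGroup.ker_mk'] at hk
      exact apply_Pd_eq P ⟨φ ∘ f, hβ⟩ (by simpa [hβd] using hχ) k hk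
    obtain ⟨ψ, hψ, hψe⟩ := isIrrCharacter_descend (piQ P) (piQ_surjective P) hβ hker2
    refine ⟨⟨ψ, hψ⟩, fun n => ?_, fun g k hk n hg => ?_⟩
    · rw [← hβv, hψe]
      rfl
    · have h1 : (χ : G → ℂ) g = φ (QuotientGroup.mk' K g) := congrFun hφe g
      have h2 : QuotientGroup.mk' K g = f n := by
        have hk1 : QuotientGroup.mk' K k = 1 := (QuotientGroup.eq_one_iff k).mpr hk
        rw [hg, map_mul, hk1, one_mul]
        rfl
      rw [h1, h2]
      exact congrFun hψe n
  haveI : Nonempty (IrrCharacter (QQ P)) :=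
    ⟨⟨fun _ => 1, Cfsg.Agent.Lib.Char.Burnside.isIrrCharacter_one⟩⟩
  choose! F hF hF2 using hfac
  have hdeg : ∀ χ ∈ odd G 2, charDegree ((F χ : IrrCharacter (QQ P)) : QQ P → ℂ) =
      charDegree (χ : G → ℂ) := by
    intro χ hχ
    have h1 := hF χ ((mem_odd 2).mp hχ) 1
    unfold charDegree
    rw [Subgroup.coe_one, map_one] at h1
    rw [h1]
  have hinj : Set.InjOn F (odd G 2 : Set (IrrCharacter G)) := by
    intro a ha b hb hab
    apply Subtype.ext
    funext g
    have hg : g ∈ (K ⊔ NN P : Subgroup G) := by rw [hsup]; trivial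
    rw [← SetLike.mem_coe, Subgroup.normal_mul] at hg
    obtain ⟨k, hk, n, hn, rfl⟩ := hg
    have h1 := hF2 a ((mem_odd 2).mp ha) (k * n) k hk ⟨n, hn⟩ rfl
    have h2 := hF2 b ((mem_odd 2).mp hb) (k * n) k hk ⟨n, hn⟩ rfl
    rw [h1, h2, hab]
  have h1 : sq G 2 = ∑ ψ ∈ (odd G 2).image F, charDegree (ψ : QQ P → ℂ) ^ 2 := by
    rw [Finset.sum_image hinj]
    unfold Cfsg.Agent.Lib.OddSq.sq
    refine Finset.sum_congr rfl fun χ hχ => ?_
    rw [hdeg χ hχ]
  rw [h1, ← sum_charDegree_sq (G := QQ P)]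
  exact Finset.sum_le_sum_of_subset (Finset.subset_univ _)

end Reverse


/-- Let G be a finite group, P a Sylow 2-subgroup of G with normalizer N, and P′ the commutator subgroup of P. Then the sum of the squares of the degrees of the irreducible complex characters of G of odd degree is at least the index of P′ in N (the order of N divided by the order of P′), and equality holds if and only if N has a normal complement in G: a normal subgroup K of G with K ∩ N = 1 and KN = G. -/
theorem result {G : Type*} [Group G] [Finite G] (P : Sylow 2 G) :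
    Nat.card (Subgroup.normalizer ((P : Subgroup G) : Set G)) ≤ Nat.card (commutator ↥P) * (∑ᶠ χ : {χ : Cfsg.IrrCharacter G // ¬ 2 ∣ Cfsg.charDegree (χ : G → ℂ)}, Cfsg.charDegree (χ.1 : G → ℂ) ^ 2) ∧
    (Nat.card (Subgroup.normalizer ((P : Subgroup G) : Set G)) = Nat.card (commutator ↥P) * (∑ᶠ χ : {χ : Cfsg.IrrCharacter G // ¬ 2 ∣ Cfsg.charDegree (χ : G → ℂ)}, Cfsg.charDegree (χ.1 : G → ℂ) ^ 2) ↔
      ∃ K : Subgroup G, K.Normal ∧ K ⊓ Subgroup.normalizer ((P : Subgroup G) : Set G) = ⊥ ∧ K ⊔ Subgroup.normalizer ((P : Subgroup G) : Set G) = ⊤) := by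
  classical
  cases nonempty_fintype G
  have hfin := finsum_eq_sq G 2
  have h0 : ∀ χ : {χ : Cfsg.IrrCharacter G // ¬ 2 ∣ Cfsg.charDegree (χ : G → ℂ)}, True := fun _ => trivial
  rw [hfin]
  have hN : Nat.card (Subgroup.normalizer ((P : Subgroup G) : Set G)) =
      Nat.card (commutator ↥P) * Nat.card (QQ P) := card_NN P
  have h2 := card_QQ_le P
  have hc : 0 < Nat.card (commutator ↥P) := Nat.card_pos
  refine ⟨?_, ?_, ?_⟩
  · rw [hN]
    exact Nat.mul_le_mul_left _ h2
  · intro h
    rw [hN] at h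
    have h3 : Nat.card (QQ P) = sq G 2 := Nat.eq_of_mul_eq_mul_left hc h
    exact exists_complement P h3.symm.le
  · rintro ⟨K, hK, hinf, hsup⟩
    rw [hN, le_antisymm h2 (sq_le_of_complement P K hK hinf hsup)]

end Cfsg.Agent.S4930
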