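import Cfsg.Statements.S4931
import Cfsg.Agent.Lib.OddSq.Basic
import Cfsg.Agent.Lib.CharDeep.ThompsonDeg
import Cfsg.Agent.Lib.Glauberman.PGroup
import Cfsg.Agent.Lib.Char.Burnside
import Cfsg.Agent.Lib.Transfer.Tate

set_option autoImplicit false
open Cfsg

namespace Cfsg.Agent.S4931

set_option linter.unusedSectionVars false
set_option linter.style.haveILetI false

open Module Finset
open Cfsg.Agent.Lib.OddSq
open Cfsg.Agent.Lib.Char.Basic Cfsg.Agent.Lib.Char.Ortho Cfsg.Agent.Lib.Char.Complete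
open Cfsg.Agent.Lib.Char.Degree Cfsg.Agent.Lib.Char.Clifford Cfsg.Agent.Lib.Char.Induced
open Cfsg.Agent.Lib.Char.Linear Cfsg.Agent.Lib.Char.IndRep Cfsg.Agent.Lib.Char.Conj
open Cfsg.Agent.Lib.Char.CliffordCorr
open Cfsg.Agent.Lib.Transfer.Basic
open scoped Classical ComplexConjugate commutatorElement

attribute [local instance] instFinIrr

universe u

section General

variable {G : Type u} [Group G] [Fintype G] {p : ℕ} [hp : Fact p.Prime] (P : Sylow p G)

/-- An invariant irreducible character under a coprime `p`-group without fixed points is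
trivial. -/
theorem invariant_trivial {K : Subgroup G} (hK : K.Normal) [Fintype K] (hodd : ¬ p ∣ Nat.card K)
    (hC : ∀ x ∈ K, (∀ y ∈ (P : Subgroup G), y * x = x * y) → x = 1)
    {θ : K → ℂ} (hθ : IsIrrCharacter K θ) (hinv : ∀ y ∈ (P : Subgroup G), conjOn hK y θ = θ) :
    θ = fun _ => 1 := by
  haveI := hK
  let φ : ↥(P : Subgroup G) →* MulAut K :=
    (MulAut.conjNormal (H := K)).comp (P : Subgroup G).subtype
  let C := PUnit.{u + 1}
  let ι : C →* K := 1
  have hφ : ∀ (s : ↥(P : Subgroup G)) (k : K), ((φ s k : K) : G) = (s : G) * k * (s : G)⁻¹ :=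
    fun s k => MulAut.conjNormal_apply _ _
  have hmain := Cfsg.Agent.Lib.Glauberman.PGroup.mainP hp.out P.isPGroup' _ K C φ ι rfl
    (fun a b _ => Subsingleton.elim a b)
    ((Nat.Prime.coprime_iff_not_dvd hp.out).mpr hodd)
    (by
      intro g
      constructor
      · rintro ⟨c, rfl⟩ s
        simp [ι]
      · intro h
        have h1 : (g : G) = 1 := by
          apply hC g g.2
          intro y hy
          have h2 := h ⟨y, hy⟩
          have h3 := congrArg Subtype.val h2
          rw [hφ] at h3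
          change y * (g : G) * y⁻¹ = g at h3
          calc y * (g : G) = (y * (g : G) * y⁻¹) * y := by group
            _ = (g : G) * y := by rw [h3]
        have h2 : g = 1 := Subtype.ext h1
        exact ⟨1, by simp [h2, ι]⟩)
  obtain ⟨π, -⟩ := hmain
  have hsubC : Subsingleton (IrrCharacter C) := by
    refine ⟨fun a b => Subtype.ext ?_⟩
    funext c
    have hc : c = 1 := Subsingleton.elim _ _
    rw [hc, isIrr_deg_one_of_comm (fun _ _ => Subsingleton.elim _ _) a.2,
      isIrr_deg_one_of_comm (fun _ _ => Subsingleton.elim _ _) b.2]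
  have hinv' : ∀ s : ↥(P : Subgroup G), θ ∘ φ s = θ := by
    intro s
    funext k
    have h1 := congrFun (hinv (s : G) s.2) k
    rw [← h1]
    rfl
  have h1 := π.injective (a₁ := ⟨⟨θ, hθ⟩, hinv'⟩)
    (a₂ := ⟨⟨fun _ => 1, Cfsg.Agent.Lib.Char.Burnside.isIrrCharacter_one⟩, fun s => rfl⟩)
    (Subsingleton.elim _ _)
  exact congrArg (fun x => ((x.1 : IrrCharacter K) : K → ℂ)) h1

/-- Characters of `p'`-degree have `K` in their kernel. -/
theorem apply_eq_of_odd {K : Subgroup G} (hK : K.Normal) (hodd : ¬ p ∣ Nat.card K)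
    (hC : ∀ x ∈ K, (∀ y ∈ (P : Subgroup G), y * x = x * y) → x = 1)
    (χ : IrrCharacter G) (hχ : ¬ p ∣ charDegree (χ : G → ℂ)) (k : K) :
    (χ : G → ℂ) k = (χ : G → ℂ) 1 := by
  letI : Fintype K := Fintype.ofFinite _
  have hχc := isCharacter_of_isIrrCharacter χ.2
  have hres : IsCharacter K (res K (χ : G → ℂ)) := isCharacter_res χ
  have hne : res K (χ : G → ℂ) ≠ 0 := by
    intro h0
    have h1 := congrFun h0 1
    have h2 : (χ : G → ℂ) 1 = 0 := h1
    exact irr_one_ne_zero χ.2 h2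
  obtain ⟨θ, hθ, hcon⟩ := exists_irr_constituent (isClassFunction_of_isCharacter hres) hne
  obtain ⟨e, he⟩ :=
    Cfsg.Agent.Lib.CharDeg.ItoMichlerSolv.charDegree_eq_mul_of_constituent hK χ.2 hθ hcon
  have hT : ¬ p ∣ (inertia hK θ).index := by
    intro h
    apply hχ
    rw [he]
    exact Dvd.dvd.mul_right (Dvd.dvd.mul_left h _) _
  -- a fixed point
  have hfix : ∃ g : G, ∀ y ∈ (P : Subgroup G), g⁻¹ * y * g ∈ inertia hK θ := by
    have hm := P.isPGroup'.card_modEq_card_fixedPoints (G ⧸ inertia hK θ)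
    have hc : Nat.card (G ⧸ inertia hK θ) = (inertia hK θ).index := rfl
    rw [hc] at hm
    have hne : Nat.card (MulAction.fixedPoints ↥(P : Subgroup G) (G ⧸ inertia hK θ)) ≠ 0 := by
      intro h0
      rw [h0] at hm
      exact hT (Nat.modEq_zero_iff_dvd.mp hm)
    obtain ⟨⟨q, hq⟩⟩ := Nat.card_pos_iff.mp (Nat.pos_of_ne_zero hne) |>.1
    obtain ⟨g, rfl⟩ := QuotientGroup.mk_surjective q
    refine ⟨g, fun y hy => ?_⟩
    have h1 := hq ⟨y⁻¹, inv_mem hy⟩
    have h2 : ((y⁻¹ * g : G) : G ⧸ inertia hK θ) = (g : G ⧸ inertia hK θ) := h1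
    have h3 := QuotientGroup.eq.mp h2
    have h4 : (y⁻¹ * g)⁻¹ * g = g⁻¹ * y * g := by group
    rwa [h4] at h3
  obtain ⟨g, hg⟩ := hfix
  let θ' : K → ℂ := conjOn hK g⁻¹ θ
  have hθ' : IsIrrCharacter K θ' := isIrrCharacter_conjOn hK g⁻¹ hθ
  have hinv' : ∀ y ∈ (P : Subgroup G), conjOn hK y θ' = θ' := by
    intro y hy
    have h1 : conjOn hK y θ' = conjOn hK (g⁻¹ * y) θ := (conjOn_mul hK g⁻¹ y θ).symm
    have h2 : g⁻¹ * y = (g⁻¹ * y * g) * g⁻¹ := by group
    rw [h1, h2, conjOn_mul, show conjOn hK (g⁻¹ * y * g) θ = θ from hg y hy]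
  have hcon' : classInner (res K (χ : G → ℂ)) θ' ≠ 0 := by
    have h1 := classInner_conjOn hK g⁻¹ (res K (χ : G → ℂ)) θ
    rw [conjOn_restrict hK (isClassFunction_of_isCharacter hχc)] at h1
    rw [h1]
    exact hcon
  have hone := invariant_trivial P hK hodd hC hθ' hinv'
  rw [hone] at hcon'
  have hne2 : classInner (indFun K (fun _ => 1)) (χ : G → ℂ) ≠ 0 := by
    rw [classInner_indFun_left K _ _ (isClassFunction_of_isCharacter hχc)]
    exact classInner_ne_zero_comm hcon'
  exact Cfsg.Agent.Lib.Char.DegDvd.apply_eq_one_of_constituent_one hK χ.2 hne2 k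

/-- The heart of the proof: an abelian Sylow subgroup that is self-normalizing in a normal
subgroup `W`, all characters of `p'`-degree being jointly faithful, fills `W`. -/
theorem le_sylow_of_faithful
    (hA : ∀ a ∈ (P : Subgroup G), ∀ b ∈ (P : Subgroup G), a * b = b * a)
    (W : Subgroup G) [hW : W.Normal] (hAW : (P : Subgroup G) ≤ W)
    (hWN : ∀ x ∈ W, x ∈ Subgroup.normalizer ((P : Subgroup G) : Set G) → x ∈ (P : Subgroup G))
    (hker : ∀ x : G, (∀ χ : IrrCharacter G, ¬ p ∣ charDegree (χ : G → ℂ) →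
      (χ : G → ℂ) x = (χ : G → ℂ) 1) → x = 1) :
    W ≤ (P : Subgroup G) := by
  let A' : Sylow p W := P.subtype hAW
  have hA'coe : (A' : Subgroup W) = (P : Subgroup G).subgroupOf W := P.coe_subtype hAW
  have hN : Subgroup.normalizer ((A' : Subgroup W) : Set W) ≤
      Subgroup.centralizer ((A' : Subgroup W) : Set W) := by
    intro x hx
    have hxN : (x : G) ∈ Subgroup.normalizer ((P : Subgroup G) : Set G) := by
      rw [Subgroup.mem_normalizer_iff] at hx ⊢
      intro y
      constructor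
      · intro hy
        have hyW : y ∈ W := hAW hy
        have h1 := (hx ⟨y, hyW⟩).mp (by
          change _ ∈ (A' : Subgroup W)
          rw [hA'coe]
          exact Subgroup.mem_subgroupOf.mpr hy)
        have h2 : (x * ⟨y, hyW⟩ * x⁻¹ : W) ∈ (A' : Subgroup W) := h1
        rw [hA'coe] at h2
        exact Subgroup.mem_subgroupOf.mp h2
      · intro hy
        have hyW : (x : G) * y * (x : G)⁻¹ ∈ W := hAW hy
        have hyW' : y ∈ W := by
          have h1 : y = (x : G)⁻¹ * ((x : G) * y * (x : G)⁻¹) * (x : G) := by group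
          rw [h1]
          exact W.mul_mem (W.mul_mem (W.inv_mem x.2) hyW) x.2
        have h1 := (hx ⟨y, hyW'⟩).mpr (by
          change _ ∈ (A' : Subgroup W)
          rw [hA'coe]
          exact Subgroup.mem_subgroupOf.mpr hy)
        have h2 : (⟨y, hyW'⟩ : W) ∈ (A' : Subgroup W) := h1
        rw [hA'coe] at h2
        exact Subgroup.mem_subgroupOf.mp h2
    have hxP := hWN x x.2 hxN
    rw [Subgroup.mem_centralizer_iff]
    intro a ha
    have ha' : a ∈ (A' : Subgroup W) := ha
    rw [hA'coe] at ha'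
    apply Subtype.ext
    exact hA _ (Subgroup.mem_subgroupOf.mp ha') _ hxP
  have hcompl := MonoidHom.ker_transferSylow_isComplement' A' hN
  set L' := (MonoidHom.transferSylow A' hN).ker with hL'
  haveI : L'.Normal := MonoidHom.normal_ker _
  have hL'eq : L' = pResidual p W := eq_pResidual_of_isComplement' hcompl
  haveI hLch : L'.Characteristic := by
    rw [hL'eq]
    infer_instance
  let L : Subgroup G := L'.map W.subtype
  have hLn : L.Normal := map_subtype_normal_of_characteristic W L'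
  have hoddL : ¬ p ∣ Nat.card L := by
    have h1 : Nat.card L = Nat.card L' :=
      Subgroup.card_map_of_injective (Subgroup.subtype_injective _)
    rw [h1]
    exact MonoidHom.not_dvd_card_ker_transferSylow A' hN
  have hC : ∀ x ∈ L, (∀ y ∈ (P : Subgroup G), y * x = x * y) → x = 1 := by
    rintro _ ⟨x, hx, rfl⟩ hcen
    replace hcen : ∀ y ∈ (P : Subgroup G), y * (x : G) = (x : G) * y := hcen
    have hxN : ((x : W) : G) ∈ Subgroup.normalizer ((P : Subgroup G) : Set G) := by
      rw [Subgroup.mem_normalizer_iff]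
      intro h
      constructor
      · intro hh
        have h1 : (x : G) * h * (x : G)⁻¹ = h := by
          rw [← hcen h hh]
          simp
        change (x : G) * h * (x : G)⁻¹ ∈ (P : Subgroup G)
        rwa [h1]
      · intro hh
        have hh' : (x : G) * h * (x : G)⁻¹ ∈ (P : Subgroup G) := hh
        have h2 := hcen _ hh'
        have h3 : (x : G) * h * (x : G)⁻¹ * (x : G) = (x : G) * h := by group
        rw [h3] at h2
        have h4 : h = (x : G) * h * (x : G)⁻¹ := mul_left_cancel h2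
        rw [h4]
        exact hh'
    have hxP := hWN _ x.2 hxN
    have hxA : x ∈ (A' : Subgroup W) := by
      rw [hA'coe]
      exact Subgroup.mem_subgroupOf.mpr hxP
    have hdis := hcompl.disjoint
    have hbot : x ∈ L' ⊓ (A' : Subgroup W) := ⟨hx, hxA⟩
    rw [disjoint_iff.mp hdis] at hbot
    have : x = 1 := hbot
    simp [this]
  have hLbot : L' = ⊥ := by
    rw [eq_bot_iff]
    intro x hx
    have hx1 : (x : G) = 1 := by
      apply hker
      intro χ hχ
      have hxL : (x : G) ∈ L := ⟨x, hx, rfl⟩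
      exact apply_eq_of_odd P hLn hoddL hC χ hχ ⟨x, hxL⟩
    exact Subtype.ext hx1
  intro y hy
  have h1 : L' ⊔ (A' : Subgroup W) = ⊤ := hcompl.sup_eq_top
  rw [hLbot, bot_sup_eq] at h1
  have h2 : (⟨y, hy⟩ : W) ∈ (A' : Subgroup W) := by rw [h1]; trivial
  rw [hA'coe] at h2
  exact Subgroup.mem_subgroupOf.mp h2

/-- The derived subgroup of a `p`-group lies in the Frattini subgroup. -/
theorem commutator_le_frattini {Q : Type*} [Group Q] [Finite Q] (hQ : IsPGroup p Q) :
    commutator Q ≤ frattini Q := by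
  unfold frattini Order.radical
  refine le_iInf₂ fun M hM => ?_
  haveI : Group.IsNilpotent Q := hQ.isNilpotent
  haveI hMn : M.Normal :=
    Subgroup.NormalizerCondition.normal_of_coatom M normalizerCondition_of_isNilpotent hM
  -- The quotient is abelian.
  have hnt : Nontrivial (Q ⧸ M) := by
    rw [QuotientGroup.nontrivial_iff]
    exact hM.1
  have hq : IsPGroup p (Q ⧸ M) := hQ.to_quotient M
  have hz : Nontrivial (Subgroup.center (Q ⧸ M)) := hq.center_nontrivial
  have hZ : (Subgroup.center (Q ⧸ M)).comap (QuotientGroup.mk' M) = ⊤ := by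
    apply hM.2
    refine lt_of_le_of_ne ?_ ?_
    · intro x hx
      have : QuotientGroup.mk' M x = 1 := (QuotientGroup.eq_one_iff _).mpr hx
      rw [Subgroup.mem_comap, this]
      exact one_mem _
    · intro h
      obtain ⟨z, hz1⟩ := exists_ne (1 : Subgroup.center (Q ⧸ M))
      obtain ⟨x, hx⟩ := QuotientGroup.mk'_surjective M z.1
      have hx2 : x ∈ (Subgroup.center (Q ⧸ M)).comap (QuotientGroup.mk' M) := by
        rw [Subgroup.mem_comap, hx]
        exact z.2
      rw [← h] at hx2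
      apply hz1
      apply Subtype.ext
      rw [← hx]
      exact (QuotientGroup.eq_one_iff _).mpr hx2
  rw [commutator_def, Subgroup.commutator_le]
  intro a _ b _
  have ha : a ∈ (Subgroup.center (Q ⧸ M)).comap (QuotientGroup.mk' M) := by rw [hZ]; trivial
  have hcomm : QuotientGroup.mk' M a * QuotientGroup.mk' M b =
      QuotientGroup.mk' M b * QuotientGroup.mk' M a :=
    (Subgroup.mem_center_iff.mp ha _).symm
  have h1 : QuotientGroup.mk' M ⁅a, b⁆ = 1 := by
    rw [map_commutatorElement]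
    exact commutatorElement_eq_one_iff_mul_comm.mpr hcomm
  exact (QuotientGroup.eq_one_iff _).mp h1

end General

section Main

variable {G : Type u} [Group G] [Fintype G] {p : ℕ} [hp : Fact p.Prime] (P : Sylow p G)

/-- The normalizer of `P`. -/
abbrev NN : Subgroup G := Subgroup.normalizer ((P : Subgroup G) : Set G)

/-- `P` inside its normalizer. -/
abbrev PN : Subgroup (NN P) := (P : Subgroup G).subgroupOf (NN P)

instance PN_normal : (PN P).Normal := Subgroup.normal_in_normalizer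

/-- The derived subgroup of `P` inside the normalizer. -/
abbrev Pd : Subgroup (NN P) := ⁅PN P, PN P⁆

/-- The quotient of the normalizer by the derived subgroup of `P`. -/
abbrev QQ : Type u := NN P ⧸ Pd P

/-- The quotient map. -/
abbrev piQ : NN P →* QQ P := QuotientGroup.mk' (Pd P)

theorem piQ_surjective : Function.Surjective (piQ P) := QuotientGroup.mk'_surjective _

theorem le_NN : (P : Subgroup G) ≤ NN P := Subgroup.le_normalizer

theorem card_PN : Nat.card (PN P) = Nat.card (P : Subgroup G) :=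
  Nat.card_congr (Subgroup.subgroupOfEquivOfLe (le_NN P)).toEquiv

theorem not_dvd_index_P : ¬ p ∣ (P : Subgroup G).index := P.not_dvd_index

theorem not_dvd_relIndex_of_le {H : Subgroup G} (h : (P : Subgroup G) ≤ H) :
    ¬ p ∣ ((P : Subgroup G).subgroupOf H).index := by
  intro hd
  apply not_dvd_index_P P
  rw [← Subgroup.relIndex_mul_index h]
  exact Dvd.dvd.mul_right hd _

theorem Pd_le_PN : Pd P ≤ PN P := Subgroup.commutator_le_left _ _

/-- All characters of the quotient have `p'`-degree. -/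
theorem not_dvd_deg (ψ : IrrCharacter (QQ P)) : ¬ p ∣ charDegree (ψ : QQ P → ℂ) := by
  obtain ⟨ψ, n, ρ, hρ, hψ⟩ := ψ
  subst hψ
  simp only
  rw [charDegree_character]
  let A : Subgroup (QQ P) := (PN P).map (piQ P)
  haveI hA : A.Normal := Subgroup.Normal.map inferInstance _ (piQ_surjective P)
  have hcomm : ∀ a ∈ A, ∀ b ∈ A, a * b = b * a := by
    rintro _ ⟨x, hx, rfl⟩ _ ⟨y, hy, rfl⟩
    have h1 : ⁅x, y⁆ ∈ Pd P := Subgroup.commutator_mem_commutator hx hy
    have h2 : piQ P ⁅x, y⁆ = 1 := (QuotientGroup.eq_one_iff _).mpr h1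
    rw [map_commutatorElement] at h2
    exact commutatorElement_eq_one_iff_mul_comm.mp h2
  haveI := hρ
  have hd := Cfsg.Agent.Lib.Char.Ito.finrank_dvd_index_of_abelian_normal ρ A hcomm
  have hidx : A.index = (PN P).index := by
    have h := Subgroup.index_map (PN P) (piQ P)
    rw [MonoidHom.range_eq_top.mpr (piQ_surjective P), Subgroup.index_top, mul_one,
      QuotientGroup.ker_mk', sup_eq_left.mpr (Pd_le_PN P)] at h
    exact h
  rw [hidx] at hd
  exact fun h => not_dvd_relIndex_of_le P (le_NN P) (h.trans hd)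

/-- Irreducible characters of the normalizer of `p'`-degree have the derived subgroup of `P` in
their kernel. -/
theorem apply_Pd_eq (β : IrrCharacter (NN P)) (hβ : ¬ p ∣ charDegree (β : NN P → ℂ)) (x : NN P)
    (hx : x ∈ Pd P) : (β : NN P → ℂ) x = (β : NN P → ℂ) 1 := by
  letI : Fintype (PN P) := Fintype.ofFinite _
  have hx' : x ∈ (commutator (PN P)).map (PN P).subtype := by
    rw [Subgroup.map_subtype_commutator]
    exact hx
  obtain ⟨a, ha, rfl⟩ := hx'
  have hres : IsCharacter (PN P) (res (PN P) (β : NN P → ℂ)) := isCharacter_res β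
  have h1 := val_eq_sum_mult hres a
  have h2 := val_eq_sum_mult hres 1
  change (β : NN P → ℂ) a = _ at h1
  change (β : NN P → ℂ) ((1 : PN P) : NN P) = _ at h2
  rw [Subgroup.coe_one] at h2
  change (β : NN P → ℂ) a = _
  rw [h1, h2]
  refine Finset.sum_congr rfl fun lam0 _ => ?_
  by_cases hm : mult (res (PN P) (β : NN P → ℂ)) (lam0 : PN P → ℂ) = 0
  · simp [hm]
  have hcon := (mult_ne_zero_iff hres (isCharacter_of_isIrrCharacter lam0.2)).mp hm
  obtain ⟨e, he⟩ := Cfsg.Agent.Lib.CharDeg.ItoMichlerSolv.charDegree_eq_mul_of_constituent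
    (inferInstance : (PN P).Normal) β.2 lam0.2 hcon
  have hd : charDegree (lam0 : PN P → ℂ) ∣ charDegree (β : NN P → ℂ) := by
    rw [he]
    exact Dvd.intro_left _ rfl
  have hd2 : charDegree (lam0 : PN P → ℂ) ∣ Nat.card (PN P) := charDegree_dvd_card lam0.2
  have hcard : ∃ n, Nat.card (PN P) = p ^ n := by
    rw [card_PN]
    exact IsPGroup.iff_card.mp P.isPGroup'
  obtain ⟨n, hn⟩ := hcard
  rw [hn] at hd2
  obtain ⟨j, -, hj⟩ := (Nat.dvd_prime_pow hp.out).mp hd2
  have hone : charDegree (lam0 : PN P → ℂ) = 1 := by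
    rcases j with _ | j
    · simpa using hj
    · exfalso
      apply hβ
      refine Dvd.dvd.trans ?_ hd
      rw [hj]
      exact Dvd.intro_left _ (pow_succ p j).symm
  have hone' : (lam0 : PN P → ℂ) 1 = 1 := by
    rw [← charDegree_natCast (isCharacter_of_isIrrCharacter lam0.2), hone]
    simp
  obtain ⟨lam, hlam⟩ := exists_hom_of_deg_one (isCharacter_of_isIrrCharacter lam0.2) hone'
  have ha2 : lam a = 1 := Abelianization.commutator_subset_ker lam ha
  have h3 : (lam0 : PN P → ℂ) a = 1 := by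
    have h4 : (lam0 : PN P → ℂ) a = ((lam a : ℂˣ) : ℂ) := congrFun hlam a
    rw [h4, ha2]
    simp
  rw [h3, hone']

/-- The reverse implication: a normal complement gives extensions. -/
theorem exists_ext_of_complement (K : Subgroup G) (hK : K.Normal)
    (hsup : K ⊔ NN P = ⊤) (hinf : K ⊓ NN P = ⊥) (θ : IrrCharacter (NN P)) :
    ∃ χ : IrrCharacter G, ∀ x : NN P, (χ : G → ℂ) x = (θ : NN P → ℂ) x := by
  haveI := hK
  let f : NN P →* G ⧸ K := (QuotientGroup.mk' K).comp (NN P).subtype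
  have hf : Function.Surjective f := by
    intro q
    obtain ⟨g, rfl⟩ := QuotientGroup.mk'_surjective K q
    have hg : g ∈ (K ⊔ NN P : Subgroup G) := by rw [hsup]; trivial
    rw [← SetLike.mem_coe, Subgroup.normal_mul] at hg
    obtain ⟨a, ha, b, hb, rfl⟩ := hg
    refine ⟨⟨b, hb⟩, ?_⟩
    change (QuotientGroup.mk' K) b = _
    rw [map_mul]
    have : (QuotientGroup.mk' K) a = 1 := (QuotientGroup.eq_one_iff _).mpr ha
    rw [this, one_mul]
  have hfi : Function.Injective f := by
    rw [injective_iff_map_eq_one]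
    intro x hx
    have h1 : (x : G) ∈ K := (QuotientGroup.eq_one_iff _).mp hx
    have h2 : (x : G) ∈ K ⊓ NN P := ⟨h1, x.2⟩
    rw [hinf] at h2
    exact Subtype.ext h2
  let e : NN P ≃* G ⧸ K := MulEquiv.ofBijective f ⟨hfi, hf⟩
  let r : G →* NN P := e.symm.toMonoidHom.comp (QuotientGroup.mk' K)
  have hr : Function.Surjective r :=
    e.symm.surjective.comp (QuotientGroup.mk'_surjective K)
  have hrN : ∀ x : NN P, r x = x := fun x => e.symm_apply_apply x
  refine ⟨⟨(θ : NN P → ℂ) ∘ r, Cfsg.Agent.Lib.Char.Linear.isIrrCharacter_comp r hr θ.2⟩, fun x => ?_⟩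
  change (θ : NN P → ℂ) (r x) = _
  rw [hrN]

section Forward

variable (E : IrrCharacter (NN P) → IrrCharacter G)
  (hE : ∀ θ : IrrCharacter (NN P), ¬ p ∣ charDegree (θ : NN P → ℂ) →
    ∀ x : NN P, (E θ : G → ℂ) x = (θ : NN P → ℂ) x)

/-- The intersection of the kernels of the extensions of the `p'`-degree characters. -/
def K1 : Subgroup G :=
  ⨅ θ : {θ : IrrCharacter (NN P) // ¬ p ∣ charDegree (θ : NN P → ℂ)},
    charKer (isCharacter_of_isIrrCharacter (E θ.1).2)

instance K1_normal : (K1 P E).Normal :=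
  Subgroup.normal_iInf_normal fun _ => inferInstance

theorem mem_K1 {g : G} : g ∈ K1 P E ↔ ∀ θ : IrrCharacter (NN P),
    ¬ p ∣ charDegree (θ : NN P → ℂ) → (E θ : G → ℂ) g = (E θ : G → ℂ) 1 := by
  unfold K1
  rw [Subgroup.mem_iInf]
  exact ⟨fun h θ hθ => h ⟨θ, hθ⟩, fun h θ => h θ.1 θ.2⟩

include hE

theorem deg_E (θ : IrrCharacter (NN P)) (hθ : ¬ p ∣ charDegree (θ : NN P → ℂ)) :
    charDegree (E θ : G → ℂ) = charDegree (θ : NN P → ℂ) := by
  unfold charDegree
  have h := hE θ hθ 1
  rw [Subgroup.coe_one] at h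
  rw [h]

/-- The kernel meets the normalizer in `P'`. -/
theorem mem_Pd_of_mem_K1 (x : NN P) (hx : (x : G) ∈ K1 P E) : x ∈ Pd P := by
  have h : piQ P x = 1 := by
    apply eq_one_of_forall_irr
    intro ψ
    have hβ : IsIrrCharacter (NN P) ((ψ : QQ P → ℂ) ∘ piQ P) :=
      Cfsg.Agent.Lib.Char.Linear.isIrrCharacter_comp (piQ P) (piQ_surjective P) ψ.2
    have hd : ¬ p ∣ charDegree (((⟨_, hβ⟩ : IrrCharacter (NN P)) : NN P → ℂ)) := by
      have h2 := not_dvd_deg P ψ
      unfold charDegree at h2 ⊢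
      simpa using h2
    have h1 := (mem_K1 P E).mp hx ⟨_, hβ⟩ hd
    have h2 := hE ⟨_, hβ⟩ hd x
    have h3 := hE ⟨_, hβ⟩ hd 1
    rw [Subgroup.coe_one] at h3
    rw [h1, h3] at h2
    simpa using h2.symm
  exact (QuotientGroup.eq_one_iff _).mp h

/-- `P'` lies in the kernel. -/
theorem mem_K1_of_mem_Pd (x : NN P) (hx : x ∈ Pd P) : (x : G) ∈ K1 P E := by
  rw [mem_K1]
  intro θ hθ
  have h1 := hE θ hθ x
  have h2 := hE θ hθ 1
  rw [Subgroup.coe_one] at h2
  rw [h1, h2]
  exact apply_Pd_eq P θ hθ x hx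

/-- Elements of the normalizer in `K₁ H` lie in `P`. -/
theorem mem_P_of_mem_sup (y : NN P)
    (hy : (y : G) ∈ K1 P E ⊔ Subgroup.normalClosure ((P : Subgroup G) : Set G)) :
    (y : G) ∈ (P : Subgroup G) := by
  let Q₂ := NN P ⧸ PN P
  let π₂ : NN P →* Q₂ := QuotientGroup.mk' (PN P)
  have hπ₂ : Function.Surjective π₂ := QuotientGroup.mk'_surjective _
  have hall : ∀ χ₂ : IrrCharacter Q₂, (χ₂ : Q₂ → ℂ) (π₂ y) = (χ₂ : Q₂ → ℂ) 1 := by
    intro χ₂
    have hβ : IsIrrCharacter (NN P) ((χ₂ : Q₂ → ℂ) ∘ π₂) :=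
      Cfsg.Agent.Lib.Char.Linear.isIrrCharacter_comp π₂ hπ₂ χ₂.2
    have hd : ¬ p ∣ charDegree (((⟨_, hβ⟩ : IrrCharacter (NN P)) : NN P → ℂ)) := by
      have h2 : charDegree ((⟨_, hβ⟩ : IrrCharacter (NN P)) : NN P → ℂ) =
          charDegree (χ₂ : Q₂ → ℂ) := by
        unfold charDegree
        simp
      rw [h2]
      intro h3
      have h4 := h3.trans (charDegree_dvd_card χ₂.2)
      exact not_dvd_relIndex_of_le P (le_NN P) h4
    have hval : ∀ n : NN P, (E ⟨_, hβ⟩ : G → ℂ) n = (χ₂ : Q₂ → ℂ) (π₂ n) := hE ⟨_, hβ⟩ hd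
    have hχc := isCharacter_of_isIrrCharacter (E ⟨_, hβ⟩).2
    have hkerχ : K1 P E ⊔ Subgroup.normalClosure ((P : Subgroup G) : Set G) ≤ charKer hχc := by
      apply sup_le
      · intro z hz
        exact (mem_K1 P E).mp hz ⟨_, hβ⟩ hd
      · apply Subgroup.normalClosure_le_normal
        intro z hz
        have hzN : z ∈ NN P := le_NN P hz
        have h1 : π₂ ⟨z, hzN⟩ = 1 := (QuotientGroup.eq_one_iff _).mpr (by
          rw [Subgroup.mem_subgroupOf]
          exact hz)
        change (E ⟨_, hβ⟩ : G → ℂ) z = (E ⟨_, hβ⟩ : G → ℂ) 1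
        have h2 := hval ⟨z, hzN⟩
        have h3 := hval 1
        rw [h1] at h2
        rw [map_one] at h3
        exact h2.trans h3.symm
    have h1 : (E ⟨_, hβ⟩ : G → ℂ) y = (E ⟨_, hβ⟩ : G → ℂ) 1 := hkerχ hy
    have h2 := hval y
    have h3 := hval 1
    rw [map_one] at h3
    exact h2.symm.trans (h1.trans h3)
  have h := eq_one_of_forall_irr hall
  have h2 : y ∈ PN P := (QuotientGroup.eq_one_iff _).mp h
  exact Subgroup.mem_subgroupOf.mp h2

/-- The normal closure of `P` lies in `P K₁`. -/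
theorem normalClosure_le :
    Subgroup.normalClosure ((P : Subgroup G) : Set G) ≤ (P : Subgroup G) ⊔ K1 P E := by
  set K := K1 P E with hK
  set H := Subgroup.normalClosure ((P : Subgroup G) : Set G) with hH
  let π : G →* G ⧸ K := QuotientGroup.mk' K
  have hπ : Function.Surjective π := QuotientGroup.mk'_surjective K
  letI : Fintype (G ⧸ K) := Fintype.ofFinite _
  let A : Sylow p (G ⧸ K) := P.mapSurjective hπ
  have hAc : (A : Subgroup (G ⧸ K)) = (P : Subgroup G).map π := rfl
  let W : Subgroup (G ⧸ K) := H.map π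
  haveI hWn : W.Normal := Subgroup.Normal.map Subgroup.normalClosure_normal _ hπ
  have hPH : (P : Subgroup G) ≤ H := Subgroup.subset_normalClosure
  have hAW : (A : Subgroup (G ⧸ K)) ≤ W := Subgroup.map_mono hPH
  have hcomm : ∀ a ∈ (A : Subgroup (G ⧸ K)), ∀ b ∈ (A : Subgroup (G ⧸ K)), a * b = b * a := by
    rintro _ ⟨x, hx, rfl⟩ _ ⟨y, hy, rfl⟩
    have hx' : (⟨x, le_NN P hx⟩ : NN P) ∈ PN P := Subgroup.mem_subgroupOf.mpr hx
    have hy' : (⟨y, le_NN P hy⟩ : NN P) ∈ PN P := Subgroup.mem_subgroupOf.mpr hy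
    have h1 : ⁅(⟨x, le_NN P hx⟩ : NN P), ⟨y, le_NN P hy⟩⁆ ∈ Pd P :=
      Subgroup.commutator_mem_commutator hx' hy'
    have h2 : ⁅x, y⁆ ∈ K := mem_K1_of_mem_Pd P E hE _ h1
    have h3 : π ⁅x, y⁆ = 1 := (QuotientGroup.eq_one_iff _).mpr h2
    rw [map_commutatorElement] at h3
    exact commutatorElement_eq_one_iff_mul_comm.mp h3
  have hWN : ∀ x ∈ W, x ∈ Subgroup.normalizer ((A : Subgroup (G ⧸ K)) : Set (G ⧸ K)) →
      x ∈ (A : Subgroup (G ⧸ K)) := by
    rintro _ ⟨h, hh, rfl⟩ hN
    -- the conjugate `h • P` lies in `P K`.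
    let J : Subgroup G := K ⊔ (P : Subgroup G)
    have hPJ : (P : Subgroup G) ≤ J := le_sup_right
    have hle : ((h • P : Sylow p G) : Subgroup G) ≤ J := by
      intro z hz
      have hz' : z ∈ h • P := hz
      rw [Cfsg.Agent.Lib.Transfer.Frobenius.mem_smul_sylow_iff] at hz'
      have h1 : π (h⁻¹ * z * h) ∈ (A : Subgroup (G ⧸ K)) := ⟨_, hz', rfl⟩
      have h2 : π h * π (h⁻¹ * z * h) * (π h)⁻¹ ∈ (A : Subgroup (G ⧸ K)) :=
        (Subgroup.mem_normalizer_iff.mp hN _).mp h1
      have h3 : π z ∈ (A : Subgroup (G ⧸ K)) := by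
        have h4 : π z = π h * π (h⁻¹ * z * h) * (π h)⁻¹ := by
          simp only [map_mul, map_inv]
          group
        rw [h4]
        exact h2
      obtain ⟨w, hw, hwz⟩ := h3
      have h5 : w⁻¹ * z ∈ K := QuotientGroup.eq.mp hwz
      have h6 : z = (z * w⁻¹) * w := by group
      rw [h6]
      refine J.mul_mem (Subgroup.mem_sup_left ?_) (hPJ hw)
      have h7 : z * w⁻¹ = w * (w⁻¹ * z) * w⁻¹ := by group
      rw [h7]
      exact (inferInstance : K.Normal).conj_mem _ h5 w
    obtain ⟨j, hj⟩ := MulAction.exists_smul_eq J (P.subtype hPJ) ((h • P).subtype hle)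
    rw [Sylow.smul_subtype hPJ j] at hj
    have hj2 : (j : G) • P = h • P := Sylow.subtype_injective hj
    have hj3 : (j : G) ∈ J := j.2
    rw [← SetLike.mem_coe, Subgroup.normal_mul] at hj3
    obtain ⟨k, hk, a, ha, hka⟩ := hj3
    have hj4 : (j : G) • P = k • P := by
      rw [← hka, mul_smul]
      congr 1
      exact Sylow.smul_eq_iff_mem_normalizer.mpr (Subgroup.le_normalizer ha)
    rw [hj4] at hj2
    have hy : k⁻¹ * h ∈ NN P := by
      apply Sylow.smul_eq_iff_mem_normalizer.mp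
      rw [mul_smul, ← hj2, ← mul_smul, inv_mul_cancel, one_smul]
    have hyP := mem_P_of_mem_sup P E hE ⟨k⁻¹ * h, hy⟩
      (Subgroup.mul_mem _ (Subgroup.mem_sup_left (inv_mem hk)) (Subgroup.mem_sup_right hh))
    refine ⟨_, hyP, ?_⟩
    change π (k⁻¹ * h) = π h
    rw [map_mul, map_inv]
    have : π k = 1 := (QuotientGroup.eq_one_iff _).mpr hk
    rw [this]
    simp
  have hker : ∀ x : G ⧸ K, (∀ χ : IrrCharacter (G ⧸ K), ¬ p ∣ charDegree (χ : G ⧸ K → ℂ) →
      (χ : G ⧸ K → ℂ) x = (χ : G ⧸ K → ℂ) 1) → x = 1 := by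
    intro x hx
    obtain ⟨g, rfl⟩ := hπ x
    apply (QuotientGroup.eq_one_iff _).mpr
    apply (mem_K1 P E).mpr
    intro θ hθ
    have hk : ∀ k ∈ π.ker, (E θ : G → ℂ) k = (E θ : G → ℂ) 1 := by
      intro k hk
      rw [QuotientGroup.ker_mk'] at hk
      exact (mem_K1 P E).mp hk θ hθ
    obtain ⟨φ, hφ, hφe⟩ := isIrrCharacter_descend π hπ (E θ).2 hk
    have hd : ¬ p ∣ charDegree (φ) := by
      have h1 : charDegree φ = charDegree (E θ : G → ℂ) := by
        unfold charDegree
        rw [hφe]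
        simp
      rw [h1, deg_E P E hE θ hθ]
      exact hθ
    have h2 := hx ⟨φ, hφ⟩ hd
    rw [hφe]
    simpa using h2
  have hfin := le_sylow_of_faithful A hcomm W hAW hWN hker
  intro h hh
  obtain ⟨w, hw, hwe⟩ := hfin ⟨h, hh, rfl⟩
  have h5 : w⁻¹ * h ∈ K := QuotientGroup.eq.mp hwe
  have h6 : h = w * (w⁻¹ * h) := by group
  rw [h6]
  exact Subgroup.mul_mem _ (Subgroup.mem_sup_left hw) (Subgroup.mem_sup_right h5)

/-- **The forward direction.** -/
theorem exists_complement :
    ∃ K : Subgroup G, K.Normal ∧ K ⊔ NN P = ⊤ ∧ K ⊓ NN P = ⊥ := by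
  set K := K1 P E with hK
  have hsup : K ⊔ NN P = ⊤ := by
    rw [eq_top_iff]
    have hPH : (P : Subgroup G) ≤ Subgroup.normalClosure ((P : Subgroup G) : Set G) :=
      Subgroup.subset_normalClosure
    haveI : (Subgroup.normalClosure ((P : Subgroup G) : Set G)).Normal :=
      Subgroup.normalClosure_normal
    rw [← Sylow.normalizer_sup_eq_top' P hPH]
    apply sup_le le_sup_right
    refine (normalClosure_le P E hE).trans (sup_le ?_ le_sup_left)
    exact (le_NN P).trans le_sup_right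
  -- `K ∩ N ≤ P'`
  have hPd : ∀ x ∈ K, ∀ hxN : x ∈ NN P, (⟨x, hxN⟩ : NN P) ∈ Pd P :=
    fun x hx hxN => mem_Pd_of_mem_K1 P E hE ⟨x, hxN⟩ hx
  have hPdmap : ∀ x : NN P, x ∈ Pd P → ∃ y : ↥(P : Subgroup G), y ∈ commutator ↥(P : Subgroup G) ∧
      (y : G) = x := by
    intro x hx
    have h1 : (x : G) ∈ (commutator ↥(P : Subgroup G)).map (P : Subgroup G).subtype := by
      rw [Subgroup.map_subtype_commutator]
      have h2 : (Pd P).map (NN P).subtype ≤ ⁅(P : Subgroup G), (P : Subgroup G)⁆ := by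
        rw [Subgroup.map_commutator]
        have h3 : (PN P).map (NN P).subtype ≤ (P : Subgroup G) := by
          rintro _ ⟨z, hz, rfl⟩
          exact Subgroup.mem_subgroupOf.mp hz
        exact Subgroup.commutator_mono h3 h3
      exact h2 ⟨x, hx, rfl⟩
    obtain ⟨y, hy, hye⟩ := h1
    exact ⟨y, hy, hye⟩
  have hTate : K ⊓ (P : Subgroup G) ≤ (frattini P).map (P : Subgroup G).subtype := by
    rintro x ⟨hxK, hxP⟩
    obtain ⟨y, hy, hye⟩ := hPdmap _ (hPd x hxK (le_NN P hxP))
    exact ⟨y, commutator_le_frattini P.isPGroup' hy, hye⟩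
  have hc : HasNormalPComplement p K :=
    Cfsg.Agent.Lib.Transfer.Tate.hasNormalPComplement_of_inf_le_frattini P K hTate
  have hcop : Nat.Coprime (Nat.card (pResidual p K)) p := hasNormalPComplement_iff_pResidual.mp hc
  let K₀ : Subgroup G := (pResidual p K).map K.subtype
  haveI hK₀ : K₀.Normal := map_subtype_normal_of_characteristic K (pResidual p K)
  have hK₀K : K₀ ≤ K := Subgroup.map_subtype_le _
  have hcop' : Nat.Coprime (Nat.card K₀) p := by
    have h1 : Nat.card K₀ = Nat.card (pResidual p K) :=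
      Subgroup.card_map_of_injective (Subgroup.subtype_injective _)
    rw [h1]
    exact hcop
  refine ⟨K₀, hK₀, ?_, ?_⟩
  · -- `K₀ N = G`
    rw [eq_top_iff, ← hsup]
    apply sup_le _ le_sup_right
    let f : G →* G ⧸ K₀ := QuotientGroup.mk' K₀
    have hf : Function.Surjective f := QuotientGroup.mk'_surjective K₀
    haveI : (K.map f).Normal := Subgroup.Normal.map inferInstance _ hf
    have hpg : IsPGroup p (K.map f) := by
      rintro ⟨_, k, hk, rfl⟩
      obtain ⟨n, hn⟩ := (isPGroup_quotient_pResidual (p := p) (G := K))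
        (QuotientGroup.mk' (pResidual p K) ⟨k, hk⟩)
      refine ⟨n, ?_⟩
      apply Subtype.ext
      rw [← map_pow] at hn
      have h1 : (⟨k, hk⟩ : K) ^ p ^ n ∈ pResidual p K := (QuotientGroup.eq_one_iff _).mp hn
      have h2 : k ^ p ^ n ∈ K₀ := ⟨_, h1, rfl⟩
      have h3 : f (k ^ p ^ n) = 1 := (QuotientGroup.eq_one_iff _).mpr h2
      simpa using h3
    have hle := hpg.le_sylow_of_normal (P.mapSurjective hf)
    intro k hk
    obtain ⟨w, hw, hwe⟩ := hle ⟨k, hk, rfl⟩
    have h5 : w⁻¹ * k ∈ K₀ := QuotientGroup.eq.mp hwe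
    have h6 : k = w * (w⁻¹ * k) := by group
    rw [h6]
    exact Subgroup.mul_mem _ (Subgroup.mem_sup_right (le_NN P hw)) (Subgroup.mem_sup_left h5)
  · -- `K₀ ∩ N = 1`
    rw [eq_bot_iff]
    rintro x ⟨hxK₀, hxN⟩
    obtain ⟨y, hy, hye⟩ := hPdmap _ (hPd x (hK₀K hxK₀) hxN)
    have hxP : x ∈ (P : Subgroup G) := by
      have hye' : (y : G) = x := hye
      rw [← hye']
      exact y.2
    have h1 : orderOf x ∣ Nat.card K₀ := Subgroup.orderOf_dvd_natCard K₀ hxK₀
    have h2 : ∃ n, orderOf x = p ^ n := by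
      obtain ⟨n, hn⟩ := P.isPGroup' ⟨x, hxP⟩
      have h3 : x ^ p ^ n = 1 := congrArg Subtype.val hn
      obtain ⟨j, -, hj⟩ := (Nat.dvd_prime_pow hp.out).mp (orderOf_dvd_of_pow_eq_one h3)
      exact ⟨j, hj⟩
    obtain ⟨n, hn⟩ := h2
    have h3 : Nat.Coprime (orderOf x) p := Nat.Coprime.coprime_dvd_left h1 hcop'
    rw [hn] at h3
    have h4 : orderOf x = 1 := by
      rw [hn]
      rcases n with _ | n
      · simp
      · exfalso
        have := Nat.Coprime.coprime_dvd_left (Dvd.intro_left (p ^ n) (pow_succ p n).symm) h3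
        rw [Nat.coprime_self] at this
        exact hp.out.one_lt.ne' this
    exact orderOf_eq_one_iff.mp h4

end Forward

end Main


/-- Let G be a finite group, p a prime and P a Sylow p-subgroup of G with normalizer N. Then every irreducible complex character of N of degree not divisible by p is the restriction of an irreducible character of G if and only if there is a normal subgroup K of G with KN = G and K ∩ N = 1. -/
theorem result {G : Type*} [Group G] [Finite G] (p : ℕ) [Fact p.Prime] (P : Sylow p G) :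
    (∀ θ : Cfsg.IrrCharacter ↥(Subgroup.normalizer ((P : Subgroup G) : Set G)), ¬ p ∣ Cfsg.charDegree (θ : ↥(Subgroup.normalizer ((P : Subgroup G) : Set G)) → ℂ) →
        ∃ χ : Cfsg.IrrCharacter G, ∀ x : ↥(Subgroup.normalizer ((P : Subgroup G) : Set G)), (χ : G → ℂ) x = (θ : ↥(Subgroup.normalizer ((P : Subgroup G) : Set G)) → ℂ) x) ↔
      ∃ K : Subgroup G, K.Normal ∧ K ⊔ Subgroup.normalizer ((P : Subgroup G) : Set G) = ⊤ ∧ K ⊓ Subgroup.normalizer ((P : Subgroup G) : Set G) = ⊥ := by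
  classical
  cases nonempty_fintype G
  constructor
  · intro h
    have h' : ∀ θ : IrrCharacter (NN P), ∃ χ : IrrCharacter G,
        ¬ p ∣ charDegree (θ : NN P → ℂ) → ∀ x : NN P, (χ : G → ℂ) x = (θ : NN P → ℂ) x := by
      intro θ
      by_cases hθ : p ∣ charDegree (θ : NN P → ℂ)
      · exact ⟨⟨fun _ => 1, Cfsg.Agent.Lib.Char.Burnside.isIrrCharacter_one⟩, fun h => absurd hθ h⟩
      · obtain ⟨χ, hχ⟩ := h θ hθ
        exact ⟨χ, fun _ => hχ⟩
    choose E hE using h'
    exact exists_complement P E hE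
  · rintro ⟨K, hK, hsup, hinf⟩ θ -
    exact exists_ext_of_complement P K hK hsup hinf θ

end Cfsg.Agent.S4931
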