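import Cfsg.Statements.S4937
import Cfsg.Agent.Lib.BlockT.Normal
import Cfsg.Agent.Lib.BlockP.Reduce
import Cfsg.Agent.Lib.BlockT.Local
import Cfsg.Agent.Lib.Char.Extend
import Cfsg.Agent.Lib.Char.DetChar
import Mathlib.Tactic

set_option autoImplicit false
set_option linter.style.haveILetI false
set_option linter.unusedSectionVars false
open Cfsg

namespace Cfsg.Agent.S4937


open Cfsg Cfsg.Agent.Lib.Blocks.Local Cfsg.Agent.Lib.Blocks.Central
open Cfsg.Agent.Lib.Char.Basic Cfsg.Agent.Lib.Char.Complete Cfsg.Agent.Lib.BlockT.Normal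
open Module

section Orb

variable {G : Type*} [Group G] [Fintype G] (N : Subgroup G)

open Classical in
/-- The `N`-orbit of `x` under conjugation. -/
noncomputable def orb (x : G) : Finset G := Finset.univ.filter (fun y => ∃ n ∈ N, n * x * n⁻¹ = y)

theorem mem_orb {x y : G} : y ∈ orb N x ↔ ∃ n ∈ N, n * x * n⁻¹ = y := by
  simp [orb]

theorem self_mem_orb (x : G) : x ∈ orb N x := (mem_orb N).mpr ⟨1, N.one_mem, by simp⟩

theorem conj_mem_orb {x y m : G} (hm : m ∈ N) (hy : y ∈ orb N x) : m * y * m⁻¹ ∈ orb N x := by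
  obtain ⟨n, hn, rfl⟩ := (mem_orb N).mp hy
  exact (mem_orb N).mpr ⟨m * n, N.mul_mem hm hn, by group⟩

/-- Conjugation by an element of `N` permutes the orbit. -/
theorem sum_orb_conj {R : Type*} [AddCommMonoid R] {x m : G} (hm : m ∈ N) (f : G → R) :
    ∑ y ∈ orb N x, f (m * y * m⁻¹) = ∑ y ∈ orb N x, f y := by
  refine Finset.sum_bij' (fun y _ => m * y * m⁻¹) (fun y _ => m⁻¹ * y * m) ?_ ?_ ?_ ?_ ?_
  · intro y hy
    exact conj_mem_orb N hm hy
  · intro y hy
    have := conj_mem_orb N (N.inv_mem hm) hy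
    simpa using this
  · intro y _
    group
  · intro y _
    group
  · intro y _
    rfl

/-- The size of the orbit. -/
noncomputable def oo (x : G) : ℕ := (orb N x).card

theorem oo_pos (x : G) : 0 < oo N x := Finset.card_pos.mpr ⟨x, self_mem_orb N x⟩

theorem oo_one : oo N (1 : G) = 1 := by
  have : orb N (1 : G) = {1} := by
    ext y
    rw [mem_orb, Finset.mem_singleton]
    constructor
    · rintro ⟨n, _, rfl⟩
      simp
    · rintro rfl
      exact ⟨1, N.one_mem, by simp⟩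
  rw [oo, this, Finset.card_singleton]

theorem oo_inv (x : G) : oo N x⁻¹ = oo N x := by
  refine Finset.card_bij (fun y _ => y⁻¹) ?_ ?_ ?_
  · intro y hy
    obtain ⟨n, hn, rfl⟩ := (mem_orb N).mp hy
    exact (mem_orb N).mpr ⟨n, hn, by group⟩
  · intro a _ b _ h
    exact inv_injective h
  · intro y hy
    obtain ⟨n, hn, rfl⟩ := (mem_orb N).mp hy
    exact ⟨n * x⁻¹ * n⁻¹, (mem_orb N).mpr ⟨n, hn, rfl⟩, by group⟩

theorem mul_inv_mem_of_mem_orb [hN : N.Normal] {x y : G} (hy : y ∈ orb N x) : y * x⁻¹ ∈ N := by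
  obtain ⟨n, hn, rfl⟩ := (mem_orb N).mp hy
  have h1 : n * x * n⁻¹ * x⁻¹ = n * (x * n⁻¹ * x⁻¹) := by group
  rw [h1]
  exact N.mul_mem hn (hN.conj_mem _ (N.inv_mem hn) x)

/-- The orbit of `x` is the orbit of any of its elements. -/
theorem orb_eq_of_mem {x y : G} (hy : y ∈ orb N x) : orb N y = orb N x := by
  obtain ⟨n, hn, rfl⟩ := (mem_orb N).mp hy
  ext z
  rw [mem_orb, mem_orb]
  constructor
  · rintro ⟨m, hm, rfl⟩
    exact ⟨m * n, N.mul_mem hm hn, by group⟩
  · rintro ⟨m, hm, rfl⟩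
    exact ⟨m * n⁻¹, N.mul_mem hm (N.inv_mem hn), by group⟩

end Orb

section Scalar

variable {G : Type*} [Group G] [Fintype G] {N : Subgroup G}

/-- When `χ_N` is irreducible, the orbit sum acts by a scalar. -/
theorem orb_sum_scalar {n : ℕ} (ρ : Representation ℂ G (Fin n → ℂ))
    (hres : IsIrrCharacter N (fun n : N => ρ.character n)) (x : G) :
    ∃ c : ℂ, (∑ y ∈ orb N x, ρ y) = c • (1 : End ℂ (Fin n → ℂ)) ∧
      c * ρ.character 1 = (oo N x : ℂ) * ρ.character x := by
  classical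
  set T : End ℂ (Fin n → ℂ) := ∑ y ∈ orb N x, ρ y with hT
  have hρN : Representation.IsIrreducible (ρ.comp N.subtype : Representation ℂ N (Fin n → ℂ)) :=
    Cfsg.Agent.Lib.Char.Extend.isIrreducible_of_isIrrCharacter (ρ := (ρ.comp N.subtype : Representation ℂ N (Fin n → ℂ))) hres
  have hcomm : ∀ (m : N), T ∘ₗ (ρ.comp N.subtype) m = (ρ.comp N.subtype) m ∘ₗ T := by
    intro m
    apply LinearMap.ext
    intro v
    have h1 := sum_orb_conj N (x := x) m.2 (fun y => ρ y ((ρ (m : G)) v))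
    simp only [LinearMap.comp_apply, MonoidHom.comp_apply, Subgroup.coe_subtype, hT,
      LinearMap.sum_apply, map_sum]
    rw [← h1]
    apply Finset.sum_congr rfl
    intro y _
    rw [← Module.End.mul_apply, ← Module.End.mul_apply, ← map_mul, ← map_mul]
    congr 2
    group
  obtain ⟨c, hc⟩ := schur_scalar _ hρN T hcomm
  have hc' : T = c • (1 : End ℂ (Fin n → ℂ)) := hc
  refine ⟨c, hc', ?_⟩
  have hconj : ∀ y ∈ orb N x, ρ.character y = ρ.character x := by
    intro y hy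
    obtain ⟨m, _, rfl⟩ := (mem_orb N).mp hy
    have h2 : ρ (m * x * m⁻¹) = ρ (m * x) * ρ m⁻¹ := by rw [map_mul]
    simp only [Representation.character]
    rw [h2, LinearMap.trace_mul_comm, ← map_mul]
    simp
  have hdim : ρ.character 1 = (finrank ℂ (Fin n → ℂ) : ℂ) := by
    simp [Representation.character]
  have h1 : LinearMap.trace ℂ _ T = (oo N x : ℂ) * ρ.character x := by
    rw [hT, map_sum, oo]
    have : ∀ y ∈ orb N x, LinearMap.trace ℂ _ (ρ y) = ρ.character x := fun y hy => hconj y hy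
    rw [Finset.sum_congr rfl this]
    simp
  have h3 : LinearMap.trace ℂ _ T = c * ρ.character 1 := by
    rw [hc', hdim, map_smul]
    simp
  rw [← h3, h1]

/-- The main Schur identity: when `χ_N` is irreducible, the orbit sum acts by a scalar. -/
theorem sum_orb_mul {χ : G → ℂ} (hχ : IsCharacter G χ)
    (hres : IsIrrCharacter N (fun n : N => χ n)) (x z : G) :
    (∑ y ∈ orb N x, χ (y * z)) * χ 1 = (oo N x : ℂ) * χ x * χ z := by
  classical
  obtain ⟨n, ρ, rfl⟩ := hχ
  obtain ⟨c, hc, hc1⟩ := orb_sum_scalar ρ hres x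
  have h4 : (∑ y ∈ orb N x, ρ.character (y * z)) = c * ρ.character z := by
    have : ∀ y ∈ orb N x, ρ.character (y * z) = LinearMap.trace ℂ _ (ρ y * ρ z) := by
      intro y _
      rw [← map_mul]; rfl
    rw [Finset.sum_congr rfl this, ← map_sum, ← Finset.sum_mul]
    rw [hc, smul_mul_assoc, one_mul, map_smul, smul_eq_mul]
    rfl
  rw [h4]
  calc c * ρ.character z * ρ.character 1 = (c * ρ.character 1) * ρ.character z := by ring
    _ = _ := by rw [hc1]

/-- The central value. -/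
noncomputable def ww (N : Subgroup G) (χ : G → ℂ) (x : G) : ℂ := (oo N x : ℂ) * χ x / χ 1

theorem isIntegral_ww {χ : G → ℂ} (hχ : IsCharacter G χ)
    (hres : IsIrrCharacter N (fun n : N => χ n)) (h1 : χ 1 ≠ 0) (x : G) :
    IsIntegral ℤ (ww N χ x) := by
  classical
  obtain ⟨n, ρ, rfl⟩ := hχ
  obtain ⟨c, hc, hc1⟩ := orb_sum_scalar ρ hres x
  have hcw : ww N ρ.character x = c := by
    rw [ww, ← hc1]
    field_simp
  rw [hcw]
  have hn : n ≠ 0 := by
    rintro rfl
    apply h1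
    simp [Representation.character]
  haveI : Nonempty (Fin n) := ⟨⟨0, Nat.pos_of_ne_zero hn⟩⟩
  refine Cfsg.Agent.Lib.Char.Central.isIntegral_of_sum_eq_smul_one ρ (orb N x) (fun _ => 1)
    (fun _ _ => isIntegral_one) (fun y => y) c ?_
  simpa using hc

theorem ww_one {χ : G → ℂ} (h1 : χ 1 ≠ 0) : ww N χ 1 = 1 := by
  rw [ww, oo_one]
  field_simp
  simp

end Scalar

section Cong

variable {G : Type*} [Group G] [Fintype G] {N : Subgroup G} [hN : N.Normal]
  {M : Ideal AlgInt} [hMp : M.IsPrime]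

theorem mk_eq_of_mem_orb {x y : G} (hy : y ∈ orb N x) : (y : G ⧸ N) = x := by
  have h := mul_inv_mem_of_mem_orb N hy
  rw [QuotientGroup.eq]
  have h2 := hN.conj_mem _ h y⁻¹
  have h3 : y⁻¹ * x = y⁻¹ * (y * x⁻¹)⁻¹ * y := by group
  rw [h3]
  have h4 : y⁻¹ * (y * x⁻¹)⁻¹ * y = y⁻¹ * (y * x⁻¹)⁻¹ * y⁻¹⁻¹ := by group
  rw [h4]
  exact hN.conj_mem _ (N.inv_mem h) y⁻¹

/-- The triple congruence. -/
theorem triple_cong {χ : G → ℂ} (hχ : IsCharacter G χ) (hcl : IsClassFunction G χ)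
    (hres : IsIrrCharacter N (fun n : N => χ n)) (h1 : χ 1 ≠ 0)
    (hsame : SameBlock M (fun _ : N => (1 : ℂ)) (fun n : N => χ n)) (x₁ x₂ x₃ : G)
    (hx : x₁ * x₂ * x₃ ∈ N) :
    MemLocalIdeal M ((oo N x₁ : ℂ) * (oo N x₂ : ℂ) * (oo N x₃ : ℂ) -
      ww N χ x₁ * ww N χ x₂ * ww N χ x₃) := by
  classical
  set T : Finset (G × G × G) := orb N x₁ ×ˢ orb N x₂ ×ˢ orb N x₃ with hT
  let pr : G × G × G → G := fun t => t.1 * t.2.1 * t.2.2
  have hprN : ∀ t ∈ T, pr t ∈ N := by
    intro t ht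
    simp only [hT, Finset.mem_product] at ht
    rw [← QuotientGroup.eq_one_iff]
    simp only [pr, QuotientGroup.mk_mul]
    rw [mk_eq_of_mem_orb ht.1, mk_eq_of_mem_orb ht.2.1, mk_eq_of_mem_orb ht.2.2,
      ← QuotientGroup.mk_mul, ← QuotientGroup.mk_mul]
    exact (QuotientGroup.eq_one_iff _).mpr hx
  let b : N → ℂ := fun m => ((T.filter (fun t => pr t = m)).card : ℂ)
  have hsum : ∀ F : G → ℂ, ∑ m : N, b m * F m = ∑ t ∈ T, F (pr t) := by
    intro F
    have h2 : ∀ m : N, b m * F m = ∑ t ∈ T, if pr t = m then F m else 0 := by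
      intro m
      simp only [b]
      rw [Finset.sum_ite, Finset.sum_const_zero, add_zero, Finset.sum_const, nsmul_eq_mul]
    simp_rw [h2]
    rw [Finset.sum_comm]
    refine Finset.sum_congr rfl fun t ht => ?_
    rw [Finset.sum_eq_single (⟨pr t, hprN t ht⟩ : N)]
    · simp
    · intro m _ hne
      rw [if_neg]
      intro h
      exact hne (Subtype.ext h.symm)
    · simp
  have hb : ∀ g h : N, b (h * g * h⁻¹) = b g := by
    intro g h
    simp only [b]
    congr 1
    refine Finset.card_bij (fun t _ => ((h : G)⁻¹ * t.1 * h, (h : G)⁻¹ * t.2.1 * h, (h : G)⁻¹ * t.2.2 * h)) ?_ ?_ ?_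
    · intro t ht
      simp only [Finset.mem_filter, hT, Finset.mem_product] at ht ⊢
      obtain ⟨⟨ht1, ht2, ht3⟩, hpr⟩ := ht
      have key : ∀ {x y : G}, y ∈ orb N x → (h : G)⁻¹ * y * h ∈ orb N x := by
        intro x y hy
        have := conj_mem_orb N (N.inv_mem h.2) hy
        simpa using this
      refine ⟨⟨key ht1, key ht2, key ht3⟩, ?_⟩
      simp only [pr] at hpr ⊢
      have e : (h : G)⁻¹ * t.1 * h * ((h : G)⁻¹ * t.2.1 * h) * ((h : G)⁻¹ * t.2.2 * h) =
          (h : G)⁻¹ * (t.1 * t.2.1 * t.2.2) * h := by group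
      rw [e, hpr]
      simp only [Subgroup.coe_mul, Subgroup.coe_inv]
      group
    · intro a _ c _ hac
      simp only [Prod.mk.injEq, mul_left_inj, mul_right_inj] at hac
      exact Prod.ext hac.1 (Prod.ext hac.2.1 hac.2.2)
    · intro t ht
      simp only [Finset.mem_filter, hT, Finset.mem_product] at ht
      obtain ⟨⟨ht1, ht2, ht3⟩, hpr⟩ := ht
      refine ⟨((h : G) * t.1 * (h : G)⁻¹, (h : G) * t.2.1 * (h : G)⁻¹, (h : G) * t.2.2 * (h : G)⁻¹), ?_, ?_⟩
      · simp only [Finset.mem_filter, hT, Finset.mem_product]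
        refine ⟨⟨conj_mem_orb N h.2 ht1, conj_mem_orb N h.2 ht2, conj_mem_orb N h.2 ht3⟩, ?_⟩
        simp only [pr] at hpr ⊢
        have e : (h : G) * t.1 * (h : G)⁻¹ * ((h : G) * t.2.1 * (h : G)⁻¹) * ((h : G) * t.2.2 * (h : G)⁻¹) =
            (h : G) * (t.1 * t.2.1 * t.2.2) * (h : G)⁻¹ := by group
        rw [e, hpr]
        simp only [Subgroup.coe_mul, Subgroup.coe_inv]
      · apply Prod.ext
        · simp only
          group
        · apply Prod.ext
          · simp only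
            group
          · simp only
            group
  have hl : ∀ m, MemLocalRing M (b m) := fun m => memLocalRing_natCast _
  have hclN : IsClassFunction N (fun n : N => χ n) := isClassFunction_of_isIrrCharacter hres
  have key := sum_mul_sub_mem_of_sameBlock M (fun _ _ => rfl) hclN hsame b hb hl
  have hS1 : (∑ m : N, b m * (1 : ℂ)) / (1 : ℂ) = (oo N x₁ : ℂ) * (oo N x₂ : ℂ) * (oo N x₃ : ℂ) := by
    rw [div_one, hsum (fun _ => 1), Finset.sum_const, hT, Finset.card_product, Finset.card_product]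
    simp only [oo, nsmul_eq_mul, mul_one]
    push_cast
    ring
  have hcomm : ∀ a c : G, χ (a * c) = χ (c * a) := by
    intro a c
    have := hcl (a * c) c
    rw [← this]
    congr 1
    group
  have hA : ∀ (x a : G), ∑ y ∈ orb N x, χ (a * y) = ww N χ x * χ a := by
    intro x a
    have h2 := sum_orb_mul hχ hres x a
    rw [ww]
    have h3 : ∑ y ∈ orb N x, χ (a * y) = ∑ y ∈ orb N x, χ (y * a) :=
      Finset.sum_congr rfl fun y _ => hcomm a y
    rw [h3]
    field_simp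
    rw [h2]
  have hB : ∀ x : G, ∑ y ∈ orb N x, χ y = (oo N x : ℂ) * χ x := by
    intro x
    have h2 := hA x 1
    simp only [one_mul] at h2
    rw [h2, ww]
    field_simp
  have hS2 : ∑ t ∈ T, χ (pr t) = ww N χ x₃ * ww N χ x₂ * ((oo N x₁ : ℂ) * χ x₁) := by
    rw [hT, Finset.sum_product]
    have : ∀ t₁ ∈ orb N x₁, ∑ y ∈ orb N x₂ ×ˢ orb N x₃, χ (pr (t₁, y)) =
        ww N χ x₃ * ww N χ x₂ * χ t₁ := by
      intro t₁ _
      rw [Finset.sum_product]
      have : ∀ t₂ ∈ orb N x₂, ∑ t₃ ∈ orb N x₃, χ (pr (t₁, t₂, t₃)) = ww N χ x₃ * χ (t₁ * t₂) := by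
        intro t₂ _
        exact hA x₃ (t₁ * t₂)
      rw [Finset.sum_congr rfl this, ← Finset.mul_sum, hA x₂ t₁, mul_assoc]
    rw [Finset.sum_congr rfl this, ← Finset.mul_sum, hB]
  have hS3 : (∑ m : N, b m * (fun n : N => χ n) m) / (fun n : N => χ n) 1 =
      ww N χ x₁ * ww N χ x₂ * ww N χ x₃ := by
    simp only [OneMemClass.coe_one]
    rw [hsum χ, hS2]
    simp only [ww]
    field_simp
  rw [hS1, hS3] at key
  exact key

end Cong

section Nu

variable {G : Type*} [Group G] [Fintype G] {N : Subgroup G} [hN : N.Normal]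
  {M : Ideal AlgInt} {p : ℕ} (hM : IsPModular p M) [hMp : M.IsPrime]
  {χ : G → ℂ} (hχ : IsCharacter G χ) (hcl : IsClassFunction G χ)
  (hres : IsIrrCharacter N (fun n : N => χ n)) (h1 : χ 1 ≠ 0)
  (hsame : SameBlock M (fun _ : N => (1 : ℂ)) (fun n : N => χ n))

include hχ hcl hres h1 hsame

/-- The pair congruence. -/
theorem pair_cong (x z : G) (hx : x * z ∈ N) :
    MemLocalIdeal M ((oo N x : ℂ) * (oo N z : ℂ) - ww N χ x * ww N χ z) := by
  have h := triple_cong hχ hcl hres h1 hsame x z 1 (by simpa using hx)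
  rw [oo_one, ww_one h1] at h
  simpa using h

omit hcl hsame in
theorem memLocalRing_ww (x : G) : MemLocalRing M (ww N χ x) :=
  memLocalRing_of_isIntegral (isIntegral_ww hχ hres h1 x)

include hM

theorem ww_inv_notMem {c : G} (hc : ¬ p ∣ oo N c) : ¬ MemLocalIdeal M (ww N χ c⁻¹) := by
  intro h0
  have h2 := pair_cong hχ hcl hres h1 hsame c c⁻¹ (by simp [N.one_mem])
  rw [oo_inv] at h2
  have h3 := memLocalIdeal_add h2 (memLocalIdeal_mul_left (memLocalRing_ww hχ hres h1 c) h0)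
  rw [sub_add_cancel] at h3
  have h4 : ((oo N c * oo N c : ℕ) : ℂ) = (oo N c : ℂ) * (oo N c : ℂ) := by push_cast; ring
  rw [← h4, natCast_memLocalIdeal_iff hM] at h3
  exact hc (((hM.1.dvd_mul).mp h3).elim id id)

theorem ww_notMem {c : G} (hc : ¬ p ∣ oo N c) : ¬ MemLocalIdeal M (ww N χ c) := by
  intro h0
  have h2 := pair_cong hχ hcl hres h1 hsame c c⁻¹ (by simp [N.one_mem])
  rw [oo_inv] at h2
  have h3 := memLocalIdeal_add h2 (memLocalIdeal_mul_right h0 (memLocalRing_ww hχ hres h1 c⁻¹))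
  rw [sub_add_cancel] at h3
  have h4 : ((oo N c * oo N c : ℕ) : ℂ) = (oo N c : ℂ) * (oo N c : ℂ) := by push_cast; ring
  rw [← h4, natCast_memLocalIdeal_iff hM] at h3
  exact hc (((hM.1.dvd_mul).mp h3).elim id id)

omit hχ hcl hres h1 hsame hMp in
theorem memLocalRing_inv_oo [M.IsPrime] {c : G} (hc : ¬ p ∣ oo N c) :
    MemLocalRing M ((oo N c : ℂ)⁻¹) :=
  memLocalRing_natCast_inv hM hc

omit hcl hsame in
theorem memLocalRing_nu {c : G} (hc : ¬ p ∣ oo N c) :
    MemLocalRing M (ww N χ c / (oo N c : ℂ)) := by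
  rw [div_eq_mul_inv]
  exact memLocalRing_mul (memLocalRing_ww hχ hres h1 c) (memLocalRing_natCast_inv hM hc)

/-- **Lemma A**. -/
theorem ww_sub_mem {c x : G} (hc : ¬ p ∣ oo N c) (hx : x * c⁻¹ ∈ N) :
    MemLocalIdeal M (ww N χ x - (oo N x : ℂ) * (ww N χ c / (oo N c : ℂ))) := by
  have h2 := pair_cong hχ hcl hres h1 hsame x c⁻¹ hx
  have h3 := pair_cong hχ hcl hres h1 hsame c c⁻¹ (by simp [N.one_mem])
  rw [oo_inv] at h2 h3
  have hu : (oo N c : ℂ) ≠ 0 := by exact_mod_cast (oo_pos N c).ne'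
  have h4 : MemLocalIdeal M (ww N χ c⁻¹ * (ww N χ x - (oo N x : ℂ) * (ww N χ c / (oo N c : ℂ)))) := by
    have h5 := memLocalIdeal_sub (memLocalIdeal_mul_left
      (memLocalRing_mul (memLocalRing_natCast (oo N x)) (memLocalRing_natCast_inv hM hc)) h3) h2
    convert h5 using 1
    field_simp
    ring
  refine memLocalIdeal_of_mul (memLocalRing_ww hχ hres h1 _) (ww_inv_notMem hM hχ hcl hres h1 hsame hc) ?_ h4
  exact memLocalRing_sub (memLocalRing_ww hχ hres h1 x)
    (memLocalRing_mul (memLocalRing_natCast _) (memLocalRing_nu hM hχ hres h1 hc))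

/-- `ν` is well defined on cosets of `N`. -/
theorem nu_sub_mem {c x : G} (hc : ¬ p ∣ oo N c) (hxp : ¬ p ∣ oo N x) (hx : x * c⁻¹ ∈ N) :
    MemLocalIdeal M (ww N χ x / (oo N x : ℂ) - ww N χ c / (oo N c : ℂ)) := by
  have h2 := ww_sub_mem hM hχ hcl hres h1 hsame hc hx
  have hu : (oo N x : ℂ) ≠ 0 := by exact_mod_cast (oo_pos N x).ne'
  have h3 := memLocalIdeal_mul_left (memLocalRing_natCast_inv hM hxp) h2
  convert h3 using 1
  field_simp

/-- **Lemma B**: `ν` is multiplicative. -/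
theorem nu_mul_sub_mem {c d : G} (hc : ¬ p ∣ oo N c) (hd : ¬ p ∣ oo N d) (hcd : ¬ p ∣ oo N (c * d)) :
    MemLocalIdeal M (ww N χ c / (oo N c : ℂ) * (ww N χ d / (oo N d : ℂ)) -
      ww N χ (c * d) / (oo N (c * d) : ℂ)) := by
  set e := (c * d)⁻¹ with he
  have h2 := triple_cong hχ hcl hres h1 hsame c d e (by simp [he, N.one_mem])
  have h3 := pair_cong hχ hcl hres h1 hsame (c * d) e (by simp [he, N.one_mem])
  have h0c : (oo N c : ℂ) ≠ 0 := by exact_mod_cast (oo_pos N c).ne'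
  have h0d : (oo N d : ℂ) ≠ 0 := by exact_mod_cast (oo_pos N d).ne'
  have h0cd : (oo N (c * d) : ℂ) ≠ 0 := by exact_mod_cast (oo_pos N (c * d)).ne'
  have h4 : MemLocalIdeal M (ww N χ e * (ww N χ c / (oo N c : ℂ) * (ww N χ d / (oo N d : ℂ)) -
      ww N χ (c * d) / (oo N (c * d) : ℂ))) := by
    have h5 := memLocalIdeal_sub
      (memLocalIdeal_mul_left (memLocalRing_natCast_inv hM hcd) h3)
      (memLocalIdeal_mul_left (memLocalRing_mul (memLocalRing_natCast_inv hM hc)
        (memLocalRing_natCast_inv hM hd)) h2)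
    convert h5 using 1
    field_simp
    ring
  refine memLocalIdeal_of_mul (memLocalRing_ww hχ hres h1 _)
    (ww_inv_notMem hM hχ hcl hres h1 hsame hcd) ?_ h4
  exact memLocalRing_sub (memLocalRing_mul (memLocalRing_nu hM hχ hres h1 hc)
    (memLocalRing_nu hM hχ hres h1 hd)) (memLocalRing_nu hM hχ hres h1 hcd)

/-- `ν` is congruent to a root of unity. -/
theorem exists_root_nu {c : G} (hc : ¬ p ∣ oo N c) :
    ∃ ε : AlgInt, (∃ m : ℕ, ¬ p ∣ m ∧ (ε : ℂ) ^ m = 1) ∧
      MemLocalIdeal M (ww N χ c / (oo N c : ℂ) - (ε : ℂ)) := by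
  have hu : (oo N c : ℂ) ≠ 0 := by exact_mod_cast (oo_pos N c).ne'
  have huM : (oo N c : AlgInt) ∉ M := fun h => hc ((natCast_mem_iff hM _).mp h)
  obtain ⟨v, i, hi, hvi⟩ := hM.2.1.exists_inv huM
  let w0 : AlgInt := ⟨ww N χ c, isIntegral_ww hχ hres h1 c⟩
  have hw0 : ((w0 : AlgInt) : ℂ) = ww N χ c := rfl
  have ha : w0 * v ∉ M := by
    intro hmem
    have h2 : w0 * v * (oo N c : AlgInt) + w0 * i = w0 := by
      rw [mul_assoc, ← mul_add, hvi, mul_one]
    have h3 : w0 ∈ M := by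
      rw [← h2]
      exact M.add_mem (M.mul_mem_right _ hmem) (M.mul_mem_left _ hi)
    exact ww_notMem hM hχ hcl hres h1 hsame hc (memLocalIdeal_coe_iff.mpr h3)
  obtain ⟨ε, hε, hsub⟩ := exists_root_of_unity_sub_mem hM ha
  refine ⟨ε, hε, ?_⟩
  have h2 : MemLocalIdeal M (((w0 * v - ε : AlgInt)) : ℂ) := memLocalIdeal_coe_iff.mpr hsub
  have hvi' : ((v : AlgInt) : ℂ) * (oo N c : ℂ) + ((i : AlgInt) : ℂ) = 1 := by
    have := congrArg (fun t : AlgInt => (t : ℂ)) hvi
    simpa using this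
  have h3 : MemLocalIdeal M (((i : AlgInt) : ℂ)) := memLocalIdeal_coe_iff.mpr hi
  have h4 := memLocalIdeal_mul_left (memLocalRing_mul (memLocalRing_ww hχ hres h1 c)
    (memLocalRing_natCast_inv hM hc)) h3
  have h5 := memLocalIdeal_add h4 h2
  convert h5 using 1
  push_cast
  rw [hw0]
  field_simp
  linear_combination (-(ww N χ c)) * hvi'

end Nu

section Final

variable {G : Type*} [Group G] [Fintype G] {N : Subgroup G} [hN : N.Normal]

theorem oo_conj (g x : G) : oo N (g * x * g⁻¹) = oo N x := by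
  refine Finset.card_bij (fun y _ => g⁻¹ * y * g) ?_ ?_ ?_
  · intro y hy
    obtain ⟨n, hn, rfl⟩ := (mem_orb N).mp hy
    refine (mem_orb N).mpr ⟨g⁻¹ * n * g, ?_, by group⟩
    have := hN.conj_mem _ hn g⁻¹
    simpa using this
  · intro a _ b _ h
    simpa using h
  · intro y hy
    obtain ⟨n, hn, rfl⟩ := (mem_orb N).mp hy
    refine ⟨g * n * g⁻¹ * (g * x * g⁻¹) * (g * n * g⁻¹)⁻¹,
      (mem_orb N).mpr ⟨g * n * g⁻¹, hN.conj_mem _ hn g, rfl⟩, by group⟩

/-- The size of an `N`-orbit divides the size of the class. -/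
theorem oo_dvd_index {H : Type*} [Group H] [Fintype H] (f : H →* G)
    (hf : Function.Injective f) (hNf : N ≤ f.range) (y : H) :
    oo N (f y) ∣ (Subgroup.centralizer ({y} : Set H)).index := by
  classical
  rw [← Cfsg.Agent.Lib.Char.Central.card_filter_isConj y]
  set S := Finset.univ.filter (fun z : H => IsConj y z) with hS
  let φ : H → Finset G := fun z => orb N (f z)
  rw [Finset.card_eq_sum_card_fiberwise (f := φ) (t := S.image φ)
    (fun z hz => Finset.mem_image_of_mem φ hz)]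
  refine Finset.dvd_sum fun O hO => ?_
  obtain ⟨z, hz, rfl⟩ := Finset.mem_image.mp hO
  have hzc : IsConj y z := (Finset.mem_filter.mp hz).2
  have hoo : oo N (f z) = oo N (f y) := by
    obtain ⟨h, rfl⟩ := isConj_iff.mp hzc
    rw [map_mul, map_mul, map_inv, oo_conj]
  have hcard : (S.filter (fun u => φ u = φ z)).card = oo N (f y) := by
    rw [← hoo]
    refine Finset.card_bij (fun u _ => f u) ?_ ?_ ?_
    · intro u hu
      have h2 : φ u = φ z := (Finset.mem_filter.mp hu).2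
      have h3 : f u ∈ orb N (f u) := self_mem_orb N _
      change f u ∈ φ z
      rw [← h2]
      exact h3
    · intro a _ b _ hab
      exact hf hab
    · intro w hw
      obtain ⟨n, hn, rfl⟩ := (mem_orb N).mp hw
      obtain ⟨n', rfl⟩ := hNf hn
      refine ⟨n' * z * n'⁻¹, ?_, by simp⟩
      rw [Finset.mem_filter, hS, Finset.mem_filter]
      refine ⟨⟨Finset.mem_univ _, hzc.trans (isConj_iff.mpr ⟨n', rfl⟩)⟩, ?_⟩
      simp only [φ]
      rw [← orb_eq_of_mem N hw]
      simp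
  rw [hcard]

/-- Elements centralizing a Sylow subgroup of `N` have orbits of size prime to `p`. -/
theorem not_dvd_oo {p : ℕ} [hp : Fact p.Prime] (P : Sylow p N) {c : G}
    (hc : c ∈ Subgroup.centralizer (((P : Subgroup N).map N.subtype : Subgroup G) : Set G)) :
    ¬ p ∣ oo N c := by
  classical
  letI act : MulAction N G :=
    { smul := fun n g => (n : G) * g * (n : G)⁻¹
      one_smul := fun g => by
        change ((1 : N) : G) * g * ((1 : N) : G)⁻¹ = g
        simp
      mul_smul := fun a b g => by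
        change ((a * b : N) : G) * g * ((a * b : N) : G)⁻¹ = (a : G) * ((b : G) * g * (b : G)⁻¹) * (a : G)⁻¹
        simp only [Subgroup.coe_mul]
        group }
  have hsmul : ∀ (n : N) (g : G), n • g = (n : G) * g * (n : G)⁻¹ := fun _ _ => rfl
  have horb : MulAction.orbit N c = (orb N c : Set G) := by
    ext y
    rw [MulAction.mem_orbit_iff, Finset.mem_coe, mem_orb]
    constructor
    · rintro ⟨n, rfl⟩
      exact ⟨n, n.2, rfl⟩
    · rintro ⟨n, hn, rfl⟩
      exact ⟨⟨n, hn⟩, rfl⟩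
  have hidx : (MulAction.stabilizer N c).index = oo N c := by
    rw [MulAction.index_stabilizer, horb, Set.ncard_coe_finset]
    rfl
  have hle : (P : Subgroup N) ≤ MulAction.stabilizer N c := by
    intro u hu
    rw [MulAction.mem_stabilizer_iff, hsmul]
    have h2 := Subgroup.mem_centralizer_iff.mp hc (u : G) ⟨u, hu, rfl⟩
    rw [h2]
    simp
  have hdvd := Subgroup.index_dvd_of_le hle
  rw [hidx] at hdvd
  intro hd
  exact P.not_dvd_index (hd.trans hdvd)

theorem mul_inv_mem_of_mk_eq {a c : G} (h : (a : G ⧸ N) = c) : a * c⁻¹ ∈ N := by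
  rw [← QuotientGroup.eq_one_iff, QuotientGroup.mk_mul, QuotientGroup.mk_inv, h, mul_inv_cancel]

theorem mk_eq_of_mul_inv_mem {a c : G} (h : a * c⁻¹ ∈ N) : (a : G ⧸ N) = c := by
  rw [← QuotientGroup.eq_one_iff, QuotientGroup.mk_mul, QuotientGroup.mk_inv] at h
  exact mul_inv_eq_one.mp h

/-- The block criterion. -/
theorem sameBlock_of_ww {M : Ideal AlgInt} [M.IsPrime] {H : Type*} [Group H] [Fintype H] (f : H →* G)
    (hf : Function.Injective f) (hNf : N ≤ f.range) {τ : G → ℂ} (hτ1 : τ 1 ≠ 0)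
    (h : ∀ x, MemLocalIdeal M ((oo N x : ℂ) - ww N τ x)) :
    SameBlock M (fun _ : H => (1 : ℂ)) (τ ∘ f) := by
  intro y
  obtain ⟨m, hm⟩ := oo_dvd_index (N := N) f hf hNf y
  have h2 := memLocalIdeal_mul_left (memLocalRing_natCast (M := M) m) (h (f y))
  convert h2 using 1
  simp only [centralChar, Function.comp, map_one]
  rw [hm, ww]
  push_cast
  field_simp

end Final

/-- Let G be a finite group, p a prime, M a maximal ideal of the algebraic integers containing p, N a normal subgroup of G and P a Sylow p-subgroup of N such that G = N·C_G(P). Let θ be an irreducible character in the principal p-block of N that is the restriction of some irreducible character of G. Then θ is the restriction of an irreducible character χ of G lying in the principal p-block of G such that, for every subgroup J of G containing N, the restriction of χ to J is an irreducible character of J lying in the principal p-block of J. -/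
theorem result {G : Type*} [Group G] [Finite G] (p : ℕ) [Fact p.Prime] (M : Ideal Cfsg.AlgInt) (hM : Cfsg.IsPModular p M) (N : Subgroup G) [N.Normal] (P : Sylow p ↥N)
    (hcov : N ⊔ Subgroup.centralizer (((P : Subgroup ↥N).map N.subtype : Subgroup G) : Set G) = ⊤)
    (θ : Cfsg.IrrCharacter ↥N) (hθ : θ ∈ Cfsg.principalBlock M ↥N)
    (hext : ∃ ψ : Cfsg.IrrCharacter G, ∀ x : ↥N, (ψ : G → ℂ) x = (θ : ↥N → ℂ) x) :
    ∃ χ : Cfsg.IrrCharacter G, χ ∈ Cfsg.principalBlock M G ∧ (∀ x : ↥N, (χ : G → ℂ) x = (θ : ↥N → ℂ) x) ∧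
      ∀ J : Subgroup G, N ≤ J → ∃ ξ : Cfsg.IrrCharacter ↥J, ξ ∈ Cfsg.principalBlock M ↥J ∧ ∀ y : ↥J, (ξ : ↥J → ℂ) y = (χ : G → ℂ) y := by
  classical
  letI : Fintype G := Fintype.ofFinite G
  haveI hMp : M.IsPrime := hM.2.1.isPrime
  obtain ⟨ψ, hψ⟩ := hext
  have hψc := isCharacter_of_isIrrCharacter ψ.2
  have hψcl := isClassFunction_of_isIrrCharacter ψ.2
  have hresf : (fun n : N => (ψ : G → ℂ) n) = (θ : N → ℂ) := funext hψ
  have hres : IsIrrCharacter N (fun n : N => (ψ : G → ℂ) n) := by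
    rw [hresf]
    exact θ.2
  have h1 : (ψ : G → ℂ) 1 ≠ 0 := irr_one_ne_zero ψ.2
  have hsame : SameBlock M (fun _ : N => (1 : ℂ)) (fun n : N => (ψ : G → ℂ) n) := by
    rw [hresf]
    exact hθ
  set C := Subgroup.centralizer (((P : Subgroup ↥N).map N.subtype : Subgroup G) : Set G) with hC
  have hCp : ∀ c ∈ C, ¬ p ∣ oo N c := fun c hc => not_dvd_oo P hc
  have hdec : ∀ g : G, ∃ c ∈ C, g * c⁻¹ ∈ N := by
    intro g
    have hg : g ∈ N ⊔ C := by
      rw [hcov]
      trivial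
    obtain ⟨n, hn, c, hc, rfl⟩ := Subgroup.mem_sup_of_normal_left.mp hg
    exact ⟨c, hc, by simpa using hn⟩
  choose c hcC hcN using hdec
  have hroot := fun g => exists_root_nu hM hψc hψcl hres h1 hsame (hCp _ (hcC g))
  choose E hEm hEsub using hroot
  have hEmul : ∀ a b : G, E a * E b = E (a * b) := by
    intro a b
    set c₁ := c a
    set c₂ := c b
    set c₃ := c (a * b)
    have hc₁₂ : c₁ * c₂ ∈ C := C.mul_mem (hcC a) (hcC b)
    have hx : c₃ * (c₁ * c₂)⁻¹ ∈ N := by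
      apply mul_inv_mem_of_mk_eq
      rw [← mk_eq_of_mul_inv_mem (hcN (a * b)), QuotientGroup.mk_mul, QuotientGroup.mk_mul,
        mk_eq_of_mul_inv_mem (hcN a), mk_eq_of_mul_inv_mem (hcN b)]
    have h3 := nu_sub_mem hM hψc hψcl hres h1 hsame (hCp _ hc₁₂) (hCp _ (hcC (a * b))) hx
    have h4 := nu_mul_sub_mem hM hψc hψcl hres h1 hsame (hCp _ (hcC a)) (hCp _ (hcC b)) (hCp _ hc₁₂)
    have h5 := hEsub a
    have h6 := hEsub b
    have h7 := hEsub (a * b)
    have hloc1 := memLocalRing_nu hM hψc hres h1 (hCp _ (hcC a))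
    have hloc2 : MemLocalRing M ((E b : AlgInt) : ℂ) := memLocalRing_coe _
    have h8 : MemLocalIdeal M (((E a * E b - E (a * b) : AlgInt)) : ℂ) := by
      have h9 := memLocalIdeal_add
        (memLocalIdeal_add (memLocalIdeal_add (memLocalIdeal_neg (memLocalIdeal_mul_right h5 hloc2))
          (memLocalIdeal_neg (memLocalIdeal_mul_left hloc1 h6))) h4) (memLocalIdeal_add (memLocalIdeal_neg h3) h7)
      convert h9 using 1
      push_cast
      ring
    have h10 : E a * E b - E (a * b) ∈ M := memLocalIdeal_coe_iff.mp h8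
    obtain ⟨m₁, hm₁, he₁⟩ := hEm a
    obtain ⟨m₂, hm₂, he₂⟩ := hEm b
    refine eq_of_sub_mem hM ⟨m₁ * m₂, ?_, ?_⟩ (hEm (a * b)) h10
    · intro hd
      exact ((hM.1.dvd_mul).mp hd).elim hm₁ hm₂
    · push_cast
      rw [mul_pow, pow_mul, he₁, one_pow, mul_comm m₁ m₂, pow_mul, he₂, one_pow, one_mul]
  have hEne : ∀ g, ((E g : AlgInt) : ℂ) ≠ 0 := by
    intro g h0
    obtain ⟨m, hm, he⟩ := hEm g
    rw [h0, zero_pow] at he
    · exact zero_ne_one he
    · rintro rfl
      exact hm (dvd_zero p)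
  let β0 : G →* ℂˣ := MonoidHom.mk' (fun g => Units.mk0 ((E g : AlgInt) : ℂ) (hEne g)) (by
    intro a b
    ext
    simp only [Units.val_mk0, Units.val_mul]
    rw [← hEmul a b]
    push_cast
    rfl)
  have hβ0 : ∀ g, ((β0 g : ℂˣ) : ℂ) = ((E g : AlgInt) : ℂ) := fun g => rfl
  -- triviality on `N`
  have hEN : ∀ n ∈ N, E n = 1 := by
    intro n hn
    have hcn : c n ∈ N := by
      have h2 := hcN n
      have h3 := N.mul_mem (N.inv_mem h2) hn
      simpa using h3
    have h3 := nu_sub_mem (c := (1 : G)) (x := c n) hM hψc hψcl hres h1 hsame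
      (by rw [oo_one]; exact fun h => hM.1.one_lt.ne' (Nat.dvd_one.mp h)) (hCp _ (hcC n))
      (by simpa using hcn)
    rw [oo_one, ww_one h1] at h3
    have h4 : MemLocalIdeal M (((E n - 1 : AlgInt)) : ℂ) := by
      have h5 := memLocalIdeal_add (memLocalIdeal_neg (hEsub n)) h3
      convert h5 using 1
      push_cast
      ring
    exact eq_of_sub_mem hM (hEm n) ⟨1, fun h => hM.1.one_lt.ne' (Nat.dvd_one.mp h), by simp⟩
      (memLocalIdeal_coe_iff.mp h4)
  -- the corrected character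
  let β : G →* ℂˣ := β0⁻¹
  have hβ : ∀ g, ((β g : ℂˣ) : ℂ) * ((E g : AlgInt) : ℂ) = 1 := by
    intro g
    rw [← hβ0, ← Units.val_mul]
    simp [β]
  have hβN : ∀ n ∈ N, ((β n : ℂˣ) : ℂ) = 1 := by
    intro n hn
    have h2 := hβ n
    rw [hEN n hn] at h2
    simpa using h2
  set χ₀ : G → ℂ := fun g => ((β g : ℂˣ) : ℂ) * (ψ : G → ℂ) g with hχ₀
  have hχ₀c : IsCharacter G χ₀ := by
    obtain ⟨n, ρ, hρ⟩ := hψc
    refine ⟨n, Cfsg.Agent.Lib.Char.DetChar.twist β ρ, ?_⟩
    funext g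
    rw [Cfsg.Agent.Lib.Char.DetChar.character_twist, hρ]
  have hχ₀N : ∀ x : N, χ₀ x = (θ : N → ℂ) x := by
    intro x
    simp only [hχ₀]
    rw [hβN _ x.2, one_mul, hψ]
  have hχ₀1 : χ₀ 1 = (ψ : G → ℂ) 1 := by
    simp [hχ₀]
  have hχ₀ne : χ₀ 1 ≠ 0 := by
    rw [hχ₀1]
    exact h1
  have hirr : IsIrrCharacter G χ₀ := by
    apply Cfsg.Agent.Lib.Char.Extend.isIrrCharacter_of_restrict_isIrr N hχ₀c
    have : (fun n : N => χ₀ n) = (θ : N → ℂ) := funext hχ₀N
    rw [this]
    exact θ.2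
  have hfinal : ∀ x, MemLocalIdeal M ((oo N x : ℂ) - ww N χ₀ x) := by
    intro x
    have h2 := ww_sub_mem hM hψc hψcl hres h1 hsame (hCp _ (hcC x)) (hcN x)
    have h3 := hEsub x
    have hβloc : MemLocalRing M ((β x : ℂˣ) : ℂ) := by
      apply memLocalRing_of_isIntegral
      apply Cfsg.Agent.Lib.BlockT.Local.isIntegral_of_pow_eq_one (n := Nat.card G) Nat.card_pos
      rw [← Units.val_pow_eq_pow_val, ← map_pow, pow_card_eq_one']
      simp
    have h4 := memLocalIdeal_add h2 (memLocalIdeal_mul_left (memLocalRing_natCast (oo N x)) h3)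
    have h5 := memLocalIdeal_mul_left hβloc h4
    have h6 := memLocalIdeal_neg h5
    convert h6 using 1
    have h7 := hβ x
    have hw : ww N χ₀ x = ((β x : ℂˣ) : ℂ) * ww N (ψ : G → ℂ) x := by
      simp only [ww, hχ₀1]
      simp only [hχ₀]
      ring
    rw [hw]
    linear_combination (-(oo N x : ℂ)) * h7
  refine ⟨⟨χ₀, hirr⟩, ?_, hχ₀N, ?_⟩
  · exact sameBlock_of_ww (N := N) (MonoidHom.id G) Function.injective_id
      (fun n _ => ⟨n, rfl⟩) hχ₀ne hfinal
  · intro J hNJ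
    have hirrJ : IsIrrCharacter J (fun y : J => χ₀ y) := by
      apply Cfsg.Agent.Lib.Char.Extend.isIrrCharacter_of_comp_isIrr (Subgroup.inclusion hNJ)
        (isCharacter_restrict J hχ₀c)
      have : (fun y : J => χ₀ y) ∘ (Subgroup.inclusion hNJ) = (θ : N → ℂ) := funext hχ₀N
      rw [this]
      exact θ.2
    refine ⟨⟨fun y : J => χ₀ y, hirrJ⟩, ?_, fun y => rfl⟩
    have h2 : SameBlock M (fun _ : J => (1 : ℂ)) (χ₀ ∘ J.subtype) :=
      sameBlock_of_ww (N := N) J.subtype J.subtype_injective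
        (fun n hn => ⟨⟨n, hNJ hn⟩, rfl⟩) hχ₀ne hfinal
    exact h2

end Cfsg.Agent.S4937
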