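import Cfsg.Statements.S4969
import Cfsg.Agent.Lib.Char.Complete
import Mathlib.Tactic
import Mathlib.Algebra.Order.Chebyshev

set_option autoImplicit false
open Cfsg

namespace Cfsg.Agent.S4969

open Cfsg.Agent.Lib.Char.Ortho Cfsg.Agent.Lib.Char.Complete

/-- Let G be a finite group with k conjugacy classes, g ∈ G, and N > 0. Then the sum over the irreducible complex characters χ of G with χ(1) ≥ N of |χ(g)|/χ(1) is at most √(k · #C_G(g)) / N. -/
theorem result {G : Type*} [Group G] [Finite G] (g : G) (N : ℝ) (hN : 0 < N) :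
    ∑ᶠ χ : Cfsg.IrrCharacter G, (if N ≤ ‖(χ : G → ℂ) 1‖ then ‖(χ : G → ℂ) g‖ / ‖(χ : G → ℂ) 1‖ else 0) ≤
      Real.sqrt ((Nat.card (ConjClasses G) : ℝ) * (Nat.card ↥(Subgroup.centralizer ({g} : Set G)) : ℝ)) / N := by
  classical
  let _ := Fintype.ofFinite G
  have := finite_irrCharacter (G := G)
  let _ := Fintype.ofFinite (IrrCharacter G)
  rw [finsum_eq_sum_of_fintype]
  -- column orthogonality
  have hcol : ∑ χ : IrrCharacter G, ‖(χ : G → ℂ) g‖ ^ 2 =
      (Nat.card ↥(Subgroup.centralizer ({g} : Set G)) : ℝ) := by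
    have h := sum_irr_mul_conj (G := G) g g
    rw [if_pos (IsConj.refl _)] at h
    have h2 : ((∑ χ : IrrCharacter G, ‖(χ : G → ℂ) g‖ ^ 2 : ℝ) : ℂ) =
        (Nat.card ↥(Subgroup.centralizer ({g} : Set G)) : ℂ) := by
      rw [← h]
      push_cast
      refine Finset.sum_congr rfl fun χ _ => ?_
      rw [Complex.mul_conj, Complex.normSq_eq_norm_sq]
      push_cast
      rfl
    exact_mod_cast h2
  have hcard : (Finset.univ : Finset (IrrCharacter G)).card = Nat.card (ConjClasses G) := by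
    rw [Finset.card_univ, ← Nat.card_eq_fintype_card, card_irr_eq_card_conjClasses]
  have hCS : (∑ χ : IrrCharacter G, ‖(χ : G → ℂ) g‖) ^ 2 ≤
      (Nat.card (ConjClasses G) : ℝ) * (Nat.card ↥(Subgroup.centralizer ({g} : Set G)) : ℝ) := by
    have := sq_sum_le_card_mul_sum_sq (s := (Finset.univ : Finset (IrrCharacter G)))
      (f := fun χ => ‖(χ : G → ℂ) g‖)
    rw [hcard, hcol] at this
    exact this
  have hsum : ∑ χ : IrrCharacter G, ‖(χ : G → ℂ) g‖ ≤
      Real.sqrt ((Nat.card (ConjClasses G) : ℝ) * (Nat.card ↥(Subgroup.centralizer ({g} : Set G)) : ℝ)) :=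
    Real.le_sqrt_of_sq_le hCS
  calc ∑ χ : IrrCharacter G, (if N ≤ ‖(χ : G → ℂ) 1‖ then ‖(χ : G → ℂ) g‖ / ‖(χ : G → ℂ) 1‖ else 0)
      ≤ ∑ χ : IrrCharacter G, ‖(χ : G → ℂ) g‖ / N := by
        refine Finset.sum_le_sum fun χ _ => ?_
        split_ifs with h
        · exact div_le_div_of_nonneg_left (norm_nonneg _) hN h
        · positivity
    _ = (∑ χ : IrrCharacter G, ‖(χ : G → ℂ) g‖) / N := by rw [Finset.sum_div]
    _ ≤ _ := div_le_div_of_nonneg_right hsum hN.le

end Cfsg.Agent.S4969
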