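import Cfsg.Statements.S4989
import Cfsg.Agent.Lib.CharZeros.Amgm

set_option autoImplicit false
open Cfsg

namespace Cfsg.Agent.S4989

open Cfsg.Agent.Lib.CharZeros.Amgm

/-- Let H be a subgroup of the finite group G and χ an irreducible complex character of G. Then the inner product of the restriction of χ to H with itself, (1/#H)·Σ_{h ∈ H} |χ(h)|², is at most 1 + #(Z ∖ H)/#H, where Z is the set of zeros of χ in G. -/
theorem result {G : Type*} [Group G] [Finite G] (H : Subgroup G) (χ : Cfsg.IrrCharacter G) : (Nat.card ↥H : ℝ)⁻¹ * ∑ᶠ h : ↥H, ‖(χ : G → ℂ) h‖ ^ 2 ≤ 1 + (Set.ncard ({x : G | (χ : G → ℂ) x = 0} \ (H : Set G)) : ℝ) / (Nat.card ↥H : ℝ) := by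
  classical
  let _ := Fintype.ofFinite G
  have hHpos : (0 : ℝ) < (Nat.card H : ℝ) := by exact_mod_cast Nat.card_pos
  have hsumG : ∑ g : G, ‖(χ : G → ℂ) g‖ ^ 2 = (Nat.card G : ℝ) := by
    obtain ⟨χ, n, ρ, hρ, rfl⟩ := χ
    have := hρ
    exact Cfsg.Agent.Lib.Char.Zeros.sum_norm_sq_character ρ
  let A : Finset G := Finset.univ.filter (fun g => g ∉ H)
  have hA : ∀ k : ℕ, k.Coprime (Nat.card G) → ∀ g ∈ A, g ^ k ∈ A := by
    intro k hk g hg
    simp only [A, Finset.mem_filter, Finset.mem_univ, true_and] at hg ⊢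
    exact pow_notMem_of_coprime H hk hg
  have hamgm := card_filter_le_sum_norm_sq
    (Cfsg.Agent.Lib.Char.Basic.isCharacter_of_isIrrCharacter χ.2) A hA
  have hsplit : ∑ g : G, ‖(χ : G → ℂ) g‖ ^ 2 =
      ∑ h : H, ‖(χ : G → ℂ) h‖ ^ 2 + ∑ g ∈ A, ‖(χ : G → ℂ) g‖ ^ 2 := by
    rw [← Finset.sum_filter_add_sum_filter_not Finset.univ (fun g => g ∈ H)]
    congr 1
    exact Finset.sum_subtype (Finset.univ.filter (fun g => g ∈ H)) (fun x => by simp) (fun g => ‖(χ : G → ℂ) g‖ ^ 2)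
  have hfin : ∑ᶠ h : H, ‖(χ : G → ℂ) h‖ ^ 2 = ∑ h : H, ‖(χ : G → ℂ) h‖ ^ 2 :=
    finsum_eq_sum_of_fintype _
  rw [hfin]
  have hAcard : (A.card : ℝ) = (Nat.card G : ℝ) - (Nat.card H : ℝ) := by
    have h1 : A.card + Nat.card H = Nat.card G := by
      have h2 := Finset.card_filter_add_card_filter_not (s := (Finset.univ : Finset G)) (fun g => g ∈ H)
      have h3 : (Finset.univ.filter (fun g => g ∈ H)).card = Nat.card H := by
        rw [Nat.card_eq_fintype_card, Fintype.card_subtype]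
      have h4 : (Finset.univ.filter (fun g => ¬ g ∈ H)).card = A.card := rfl
      rw [h3, h4, Finset.card_univ] at h2
      rw [Nat.card_eq_fintype_card (α := G), add_comm]
      exact h2
    rw [← h1]
    push_cast
    ring
  have hzero : Set.ncard ({x : G | (χ : G → ℂ) x = 0} \ (H : Set G)) =
      (A.filter (fun g => ¬ (χ : G → ℂ) g ≠ 0)).card := by
    rw [← Set.ncard_coe_finset]
    congr 1
    ext g
    simp [A]
    tauto
  have hsplit2 : (A.card : ℝ) = ((A.filter (fun g => (χ : G → ℂ) g ≠ 0)).card : ℝ) +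
      ((A.filter (fun g => ¬ (χ : G → ℂ) g ≠ 0)).card : ℝ) := by
    exact_mod_cast (Finset.card_filter_add_card_filter_not (s := A) (fun g => (χ : G → ℂ) g ≠ 0)).symm
  rw [hzero]
  rw [inv_mul_le_iff₀ hHpos, mul_add, mul_one, mul_div_cancel₀ _ hHpos.ne']
  linarith

end Cfsg.Agent.S4989
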