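import Cfsg.Statements.S5001
import Cfsg.Agent.Lib.Blocks.Heights
import Cfsg.Agent.Lib.Char.Degree
import Cfsg.Agent.Lib.Char.Clifford
import Cfsg.Agent.Lib.Char.Linear

set_option autoImplicit false
open Cfsg

namespace Cfsg.Agent.S5001
set_option linter.unusedSectionVars false
set_option linter.style.haveILetI false
open Module Finset
open Cfsg.Agent.Lib.Char.Basic Cfsg.Agent.Lib.Char.Ortho Cfsg.Agent.Lib.Char.Complete Cfsg.Agent.Lib.Char.Degree
open Cfsg.Agent.Lib.Char.Clifford Cfsg.Agent.Lib.Char.Linear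
open Cfsg.Agent.Lib.Blocks.Local Cfsg.Agent.Lib.Blocks.Central Cfsg.Agent.Lib.Blocks.Heights
open scoped Classical

universe u

/-- A character of degree prime to `p` has a constituent of degree prime to `p`. -/
theorem exists_constituent_not_dvd {p : ℕ} {H : Type u} [Group H] [Fintype H] {ξ : H → ℂ}
    (hξ : IsCharacter H ξ) (h : ¬ p ∣ charDegree ξ) :
    ∃ τ : IrrCharacter H, classInner ξ (τ : H → ℂ) ≠ 0 ∧ ¬ p ∣ charDegree (τ : H → ℂ) := by
  have := finite_irrCharacter (G := H)
  letI : Fintype (IrrCharacter H) := Fintype.ofFinite _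
  have hexp := congrFun (classFunction_eq_sum (isClassFunction_of_isCharacter hξ)) 1
  rw [Finset.sum_apply] at hexp
  have hnat : ∀ τ : IrrCharacter H, ∃ m : ℕ, classInner ξ (τ : H → ℂ) = m := fun τ =>
    exists_nat_classInner hξ (isCharacter_of_isIrrCharacter τ.2)
  choose m hm using hnat
  have hsum : charDegree ξ = ∑ τ : IrrCharacter H, m τ * charDegree (τ : H → ℂ) := by
    have h2 : ((charDegree ξ : ℕ) : ℂ) = ((∑ τ : IrrCharacter H, m τ * charDegree (τ : H → ℂ) : ℕ) : ℂ) := by
      push_cast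
      rw [charDegree_natCast hξ, hexp]
      refine Finset.sum_congr rfl fun τ _ => ?_
      rw [Pi.smul_apply, smul_eq_mul, hm, charDegree_natCast (isCharacter_of_isIrrCharacter τ.2)]
    exact_mod_cast h2
  by_contra hno
  push Not at hno
  apply h
  rw [hsum]
  apply Finset.dvd_sum
  intro τ _
  by_cases h0 : m τ = 0
  · rw [h0, zero_mul]
    exact dvd_zero _
  · exact Dvd.dvd.mul_left (hno τ (by rw [hm]; exact_mod_cast h0)) _

/-- If `χ` does not vanish modulo the local ideal at `y`, and `D` is a `p`-subgroup centralizing `y`,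
then `χ` has a linear constituent on `D`. -/
theorem exists_linear_constituent {G : Type u} [Group G] [Fintype G] {p : ℕ} [hp : Fact p.Prime]
    {M : Ideal Cfsg.AlgInt} (hM : Cfsg.IsPModular p M) [M.IsPrime] {y : G} {D : Subgroup G}
    (hDC : D ≤ Subgroup.centralizer ({y} : Set G)) (hDp : IsPGroup p D) (χ : IrrCharacter G)
    (hχy : ¬ MemLocalIdeal M ((χ : G → ℂ) y)) :
    ∃ ν : D →* ℂˣ, classInner (fun d : D => (χ : G → ℂ) d) (fun d : D => (ν d : ℂ)) ≠ 0 := by
  let C : Subgroup G := Subgroup.centralizer ({y} : Set G)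
  have hyC : y ∈ C := by
    rw [Subgroup.mem_centralizer_iff]
    intro h hh
    rw [Set.mem_singleton_iff.mp hh]
  let y' : C := ⟨y, hyC⟩
  have hχC := isCharacter_restrict C (isCharacter_of_isIrrCharacter χ.2)
  have := finite_irrCharacter (G := C)
  letI : Fintype (IrrCharacter C) := Fintype.ofFinite _
  -- a constituent of degree prime to `p`
  have hψ : ∃ ψ : IrrCharacter C, classInner (fun c : C => (χ : G → ℂ) c) (ψ : C → ℂ) ≠ 0 ∧
      ¬ p ∣ charDegree (ψ : C → ℂ) := by
    by_contra hno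
    push Not at hno
    apply hχy
    have hexp := congrFun (classFunction_eq_sum (isClassFunction_of_isCharacter hχC)) y'
    rw [Finset.sum_apply] at hexp
    change (χ : G → ℂ) y = _ at hexp
    rw [hexp]
    apply memLocalIdeal_sum
    intro ψ _
    rw [Pi.smul_apply, smul_eq_mul]
    by_cases h0 : classInner (fun c : C => (χ : G → ℂ) c) (ψ : C → ℂ) = 0
    · rw [h0, zero_mul]
      exact memLocalIdeal_zero
    · obtain ⟨m, hm⟩ := exists_nat_classInner hχC (isCharacter_of_isIrrCharacter ψ.2)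
      rw [hm]
      apply memLocalIdeal_mul_left (memLocalRing_natCast m)
      have hcen : (Subgroup.centralizer ({y'} : Set C)).index = 1 := by
        rw [Subgroup.index_eq_one, Subgroup.centralizer_eq_top_iff_subset]
        intro z hz
        rw [Set.mem_singleton_iff.mp hz, SetLike.mem_coe, Subgroup.mem_center_iff]
        intro w
        apply Subtype.ext
        exact (Subgroup.mem_centralizer_iff.mp w.2 y (Set.mem_singleton y)).symm
      have hint := isIntegral_centralChar ψ y'
      have hval : (ψ : C → ℂ) y' = ((charDegree (ψ : C → ℂ) : ℕ) : ℂ) * centralChar (ψ : C → ℂ) y' := by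
        have h1 := charDegree_natCast (isCharacter_of_isIrrCharacter ψ.2)
        have hne : (ψ : C → ℂ) 1 ≠ 0 := irr_one_ne_zero ψ.2
        rw [h1, Cfsg.centralChar, hcen]
        field_simp
        simp
      rw [hval]
      exact memLocalIdeal_mul_right ((natCast_memLocalIdeal_iff hM _).mpr (hno ψ h0))
        (memLocalRing_of_isIntegral hint)
  obtain ⟨ψ, hψ0, hψp⟩ := hψ
  let f : D →* C := Subgroup.inclusion hDC
  have hψD : IsCharacter D ((ψ : C → ℂ) ∘ f) :=
    isCharacter_comp f (isCharacter_of_isIrrCharacter ψ.2)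
  have hdeg : charDegree ((ψ : C → ℂ) ∘ f) = charDegree (ψ : C → ℂ) := by
    simp [Cfsg.charDegree, map_one]
  obtain ⟨τ, hτ0, hτp⟩ := exists_constituent_not_dvd hψD (by rwa [hdeg])
  have hτ1 : (τ : D → ℂ) 1 = 1 := by
    have h1 := charDegree_dvd_card τ.2
    obtain ⟨k, hk⟩ := IsPGroup.iff_card.mp hDp
    rw [hk] at h1
    obtain ⟨j, -, hj⟩ := (Nat.dvd_prime_pow hp.out).mp h1
    have hj0 : j = 0 := by
      by_contra hne
      apply hτp
      rw [hj]
      exact dvd_pow_self p hne
    rw [← charDegree_natCast (isCharacter_of_isIrrCharacter τ.2), hj, hj0]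
    simp
  obtain ⟨ν, hν⟩ := exists_hom_of_deg_one (isCharacter_of_isIrrCharacter τ.2) hτ1
  refine ⟨ν, ?_⟩
  rw [← hν]
  exact classInner_ne_zero_mono f hχC ψ.2 hψ0 (isCharacter_of_isIrrCharacter τ.2) hτ0

theorem aux {G : Type u} [Group G] [Fintype G] (p : ℕ) [hp : Fact p.Prime] (M : Ideal Cfsg.AlgInt)
    (hM : Cfsg.IsPModular p M) (B : Set (Cfsg.IrrCharacter G)) (hB : Cfsg.IsPBlock M B)
    (D : Subgroup G) (hD : Cfsg.IsDefectGroup p M B D) (Z : Subgroup G)
    (hZD : Z ≤ D) (lam : ↥Z →* ℂˣ) (χ : Cfsg.IrrCharacter G) (hχ : χ ∈ B)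
    (hover : (∀ z : ↥Z, (χ : G → ℂ) z = (χ : G → ℂ) 1 * (lam z : ℂ)))
    (h0 : Cfsg.blockHeight p B (χ : G → ℂ) = 0) :
    (∃ μ : ↥D →* ℂˣ, ∀ z : ↥Z, μ ⟨(z : G), hZD z.2⟩ = lam z) := by
  have := finite_irrCharacter (G := G)
  letI : Fintype (IrrCharacter G) := Fintype.ofFinite _
  haveI : M.IsPrime := hM.2.1.isPrime
  obtain ⟨y, hy, P, hDe⟩ := hD
  have hne := notMem_value_of_height_zero hM hB hy hχ h0
  have hDC : D ≤ Subgroup.centralizer ({y} : Set G) := by
    rw [hDe]
    exact Subgroup.map_subtype_le _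
  have hDp : IsPGroup p D := by
    rw [hDe]
    exact P.isPGroup'.map _
  obtain ⟨ν, hν⟩ := exists_linear_constituent hM hDC hDp χ hne
  refine ⟨ν, ?_⟩
  let f : Z →* D := Subgroup.inclusion hZD
  have hχD := isCharacter_restrict D (isCharacter_of_isIrrCharacter χ.2)
  have h1 : classInner ((fun z : Z => (χ : G → ℂ) z)) (fun z : Z => ((ν.comp f) z : ℂ)) ≠ 0 := by
    have hνirr : IsIrrCharacter D (fun d : D => (ν d : ℂ)) := isIrrCharacter_of_hom ν
    have h2 := classInner_ne_zero_mono f hχD hνirr hν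
      (isCharacter_of_isIrrCharacter (isIrrCharacter_of_hom (ν.comp f))) (by
        change classInner (fun z : Z => ((ν.comp f) z : ℂ)) (fun z : Z => ((ν.comp f) z : ℂ)) ≠ 0
        rw [classInner_self_of_isIrr (isIrrCharacter_of_hom (ν.comp f))]
        exact one_ne_zero)
    exact h2
  have h3 : (fun z : Z => (χ : G → ℂ) z) = ((χ : G → ℂ) 1) • (fun z : Z => (lam z : ℂ)) := by
    funext z
    rw [hover z]
    rfl
  rw [h3, classInner_smul_left] at h1
  have h4 : classInner (fun z : Z => (lam z : ℂ)) (fun z : Z => ((ν.comp f) z : ℂ)) ≠ 0 :=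
    right_ne_zero_of_mul h1
  have h5 : (fun z : Z => (lam z : ℂ)) = (fun z : Z => ((ν.comp f) z : ℂ)) := by
    by_contra hne2
    exact h4 (classInner_eq_zero_of_isIrr_of_ne (isIrrCharacter_of_hom lam)
      (isIrrCharacter_of_hom (ν.comp f)) hne2)
  intro z
  apply Units.ext
  exact (congrFun h5 z).symm


/-- Let p be a prime, G a finite group and B a p-block of G (relative to a maximal ideal M of the algebraic integers containing p) with defect group D. Let Z be a central p-subgroup of G contained in D and λ a linear character of Z (a homomorphism to the nonzero complex numbers). Say an irreducible character χ of G lies over λ when χ(z) = χ(1)λ(z) for all z ∈ Z. If some irreducible character in B lying over λ has height zero, then λ extends to a linear character of D. -/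
theorem result {G : Type*} [Group G] [Finite G] (p : ℕ) [Fact p.Prime] (M : Ideal Cfsg.AlgInt) (hM : Cfsg.IsPModular p M) (B : Set (Cfsg.IrrCharacter G)) (hB : Cfsg.IsPBlock M B) (D : Subgroup G) (hD : Cfsg.IsDefectGroup p M B D) (Z : Subgroup G) (hZc : Z ≤ Subgroup.center G) (hZp : IsPGroup p ↥Z) (hZD : Z ≤ D) (lam : ↥Z →* ℂˣ) (χ : Cfsg.IrrCharacter G) (hχ : χ ∈ B) (hover : (∀ z : ↥Z, (χ : G → ℂ) z = (χ : G → ℂ) 1 * (lam z : ℂ))) (h0 : Cfsg.blockHeight p B (χ : G → ℂ) = 0) : (∃ μ : ↥D →* ℂˣ, ∀ z : ↥Z, μ ⟨(z : G), hZD z.2⟩ = lam z) := by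
  letI := Fintype.ofFinite G
  exact aux p M hM B hB D hD Z hZD lam χ hχ hover h0

end Cfsg.Agent.S5001
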