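import Cfsg.Statements.S5011

set_option autoImplicit false
open Cfsg

namespace Cfsg.Agent.S5011

/-- Let G be a finite non-abelian simple group and ρ an irreducible complex representation of G on a space of dimension greater than one (irreducible in the sense that the only subspaces invariant under every ρ(x) are 0 and the whole space). Then for every non-identity element g of G, the centralizer of g does not act irreducibly: there is a non-zero proper subspace invariant under ρ(c) for every c commuting with g. -/
theorem result {G : Type*} [Group G] [Finite G] [IsSimpleGroup G]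
    (hG : ¬ IsMulCommutative G) {V : Type*} [AddCommGroup V] [Module ℂ V] [FiniteDimensional ℂ V]
    (ρ : Representation ℂ G V)
    (hirr : ∀ W : Submodule ℂ V, (∀ x : G, ∀ v ∈ W, ρ x v ∈ W) → W = ⊥ ∨ W = ⊤)
    (hdim : 1 < Module.finrank ℂ V) (g : G) (hg : g ≠ 1) :
    ∃ W : Submodule ℂ V, W ≠ ⊥ ∧ W ≠ ⊤ ∧ ∀ c ∈ Subgroup.centralizer ({g} : Set G), ∀ v ∈ W, ρ c v ∈ W := by
  classical
  have : Nontrivial V := Module.nontrivial_of_finrank_pos (R := ℂ) (by omega)
  obtain ⟨μ, hμ⟩ := Module.End.exists_eigenvalue (ρ g)
  refine ⟨Module.End.eigenspace (ρ g) μ, hμ, ?_, ?_⟩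
  · intro htop
    -- `ρ g` is the scalar μ
    have hscal : ∀ v : V, ρ g v = μ • v := by
      intro v
      have hv : v ∈ Module.End.eigenspace (ρ g) μ := by rw [htop]; trivial
      exact Module.End.mem_eigenspace_iff.mp hv
    -- kernel of ρ
    have hker : ρ.ker = ⊥ ∨ ρ.ker = ⊤ := by
      exact (MonoidHom.normal_ker ρ).eq_bot_or_eq_top
    rcases hker with hker | hker
    · -- faithful: g central
      have hcentral : ∀ x : G, x * g = g * x := by
        intro x
        have hinj : Function.Injective ρ := (MonoidHom.ker_eq_bot_iff ρ).mp hker
        apply hinj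
        ext v
        simp only [map_mul, Module.End.mul_apply, hscal, map_smul]
      have hgc : g ∈ Subgroup.center G := by
        rw [Subgroup.mem_center_iff]
        exact hcentral
      have hcenter : Subgroup.center G = ⊤ := by
        rcases (inferInstance : (Subgroup.center G).Normal).eq_bot_or_eq_top with h | h
        · exact absurd ((Subgroup.mem_bot).mp (h ▸ hgc)) hg
        · exact h
      apply hG
      refine ⟨⟨fun a b => ?_⟩⟩
      have : a ∈ Subgroup.center G := by rw [hcenter]; trivial
      exact (Subgroup.mem_center_iff.mp this b).symm
    · -- trivial: a line is invariant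
      have htriv : ∀ x : G, ρ x = 1 := by
        intro x
        have : x ∈ ρ.ker := by rw [hker]; trivial
        exact this
      obtain ⟨v, hv⟩ := exists_ne (0 : V)
      have hline := hirr (Submodule.span ℂ {v}) (by
        intro x w hw
        rw [htriv x]
        exact hw)
      rcases hline with h | h
      · exact hv (Submodule.span_singleton_eq_bot.mp h)
      · have : Module.finrank ℂ V ≤ 1 := by
          rw [← finrank_top ℂ V, ← h]
          exact finrank_span_singleton hv |>.le
        omega
  · intro c hc v hv
    have hcg : c * g = g * c := by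
      have := Subgroup.mem_centralizer_iff.mp hc g (by simp)
      exact this.symm
    rw [Module.End.mem_eigenspace_iff] at hv ⊢
    calc ρ g (ρ c v) = ρ (g * c) v := by simp
      _ = ρ (c * g) v := by rw [hcg]
      _ = ρ c (ρ g v) := by simp
      _ = μ • ρ c v := by rw [hv, map_smul]

end Cfsg.Agent.S5011
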