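import Cfsg.Statements.S5125
import Cfsg.Agent.Lib.FusionExt.Normal2

set_option autoImplicit false
open Cfsg

namespace Cfsg.Agent.S5125

open scoped commutatorElement
open Cfsg.FusionSystem Cfsg.Agent.Lib.Fusion.Basic Cfsg.Agent.Lib.FusionExt.Normal Cfsg.Agent.Lib.FusionExt.Normal2

/-- Let F be a saturated fusion system over a finite p-group S and Q a subgroup strongly closed in F. If Q has a subgroup Q₁ that is normal in F, with Q/Q₁ abelian and Aut_F(Q₁) a p-group, then Q is normal in F. -/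
theorem result {Ω : Type*} [Group Ω] {S : Subgroup Ω} [Finite S] (p : ℕ) [Fact p.Prime] (hS : IsPGroup p S) (F : Cfsg.FusionSystem S) (hF : F.IsSaturated p) (Q Q₁ : Subgroup Ω) (hQ : F.StronglyClosed Q) (hQ₁Q : Q₁ ≤ Q) (hQ₁ : F.IsNormal Q₁) (hab : ⁅Q, Q⁆ ≤ Q₁) (hAut : IsPGroup p ↥(F.autGroup Q₁)) : F.IsNormal Q := by
  rw [isNormal_iff F hS hF]
  refine ⟨hQ, fun P hc hr => ?_⟩
  have hPS : P ≤ S := hc.1
  have hfin : Finite P := finite_of_le hPS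
  have hPp : IsPGroup p P := hS.to_le hPS
  have hQ₁P : Q₁ ≤ P := isNormal_le_of_isCentric_isRadical F hS hQ₁ hc hr
  have hsc₁ := isNormal_stronglyClosed F hQ₁
  -- elements of `Aut_F(P)` have `p`-power order on `Q₁`
  have hfix : ∀ α ∈ F.autGroup P, ∃ k : ℕ, ∀ z : P, (z : Ω) ∈ Q₁ → (α ^ p ^ k) z = z := by
    intro α hα
    let f : Q₁ →* Ω := (autHom α).comp (Subgroup.inclusion hQ₁P)
    have hf : f ∈ F.Hom Q₁ := restrict_mem F hQ₁P (autHom_mem F hPS hα)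
    have hfr : f.range = Q₁ := by
      apply le_antisymm
      · rintro _ ⟨x, rfl⟩
        exact sc_aut_mem F hsc₁ hPS hα ⟨x, hQ₁P x.2⟩ x.2
      · intro y hy
        have h1 := sc_aut_mem F hsc₁ hPS (Subgroup.inv_mem _ hα) ⟨y, hQ₁P hy⟩ hy
        refine ⟨⟨_, h1⟩, ?_⟩
        show ((α (α⁻¹ ⟨y, hQ₁P hy⟩) : P) : Ω) = y
        simp
    obtain ⟨β, hβ, hβv⟩ := exists_aut_of_range F hf hfr
    obtain ⟨k, hk⟩ := hAut ⟨β, hβ⟩
    refine ⟨k, fun z hz => ?_⟩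
    have hpow : ∀ (j : ℕ) (w : Q₁), (((α ^ j) (Subgroup.inclusion hQ₁P w) : P) : Ω) = (((β ^ j) w : Q₁) : Ω) := by
      intro j
      induction j with
      | zero => intro w; rfl
      | succ j ih =>
        intro w
        rw [pow_succ, pow_succ, MulAut.mul_apply, MulAut.mul_apply]
        have h1 : ((β w : Q₁) : Ω) = ((α (Subgroup.inclusion hQ₁P w) : P)) := hβv w
        have h2 : α (Subgroup.inclusion hQ₁P w) = Subgroup.inclusion hQ₁P (β w) := Subtype.ext h1.symm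
        rw [h2]
        exact ih _
    have hk' : β ^ p ^ k = 1 := congrArg Subtype.val hk
    have h3 := hpow (p ^ k) ⟨z, hz⟩
    rw [hk'] at h3
    exact Subtype.ext h3
  refine le_of_forall_normalizer_le hS hQ.1 hPS (hPS.trans (sc_le_normalizer F hQ)) ?_
  intro x hx hxN
  have hxS : x ∈ S := hQ.1 hx
  let X : Subgroup (MulAut P) := F.autGroup P ⊓ (secStab P ⊤ Q le_top ⊓ secStab P Q Q₁ hQ₁Q)
  have hinv : ∀ γ ∈ F.autGroup P, ∀ y : P, (y : Ω) ∈ Q → ((γ y : P) : Ω) ∈ Q := by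
    intro γ hγ y hy
    exact sc_aut_mem F hQ hPS hγ y hy
  have hinv₁ : ∀ γ ∈ F.autGroup P, ∀ y : P, (y : Ω) ∈ Q₁ → ((γ y : P) : Ω) ∈ Q₁ := by
    intro γ hγ y hy
    exact sc_aut_mem F hsc₁ hPS hγ y hy
  refine mem_of_radical F hc hr X inf_le_left ?_ ?_ hxS hxN ?_
  · rintro γ hγ α ⟨hα₁, hα₂, hα₃⟩
    refine ⟨Subgroup.mul_mem _ (Subgroup.mul_mem _ hγ hα₁) (Subgroup.inv_mem _ hγ), ?_, ?_⟩
    · exact secStab_conj (fun _ _ => trivial) (fun y hy => hinv γ hγ y hy) hα₂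
    · exact secStab_conj (fun y hy => hinv γ⁻¹ (Subgroup.inv_mem _ hγ) y hy) (fun y hy => hinv₁ γ hγ y hy) hα₃
  · rintro α ⟨hα₁, hα₂, hα₃⟩
    obtain ⟨k, hk⟩ := pow_fix_step hPp α (le_top : Q ≤ ⊤) (fun y hy => (hα₂ y hy).1)
      (pow_fix_step hPp α hQ₁Q (fun y hy => (hα₃ y hy).1) (hfix α hα₁))
    refine ⟨k, ?_⟩
    ext y
    simp [hk y trivial]
  · refine ⟨autInducedBy_le_autGroup F hPS (normAct_mem_autInducedBy S P hxN hxS), ?_, ?_⟩
    · refine normAct_mem_secStab hxN fun a _ => ⟨?_, ?_⟩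
      · have h1 := sc_conj_mem F hQ (S.inv_mem (hPS a.2)) hx
        have h2 := Q.mul_mem h1 (Q.inv_mem hx)
        have e : (a : Ω)⁻¹ * x * (a : Ω)⁻¹⁻¹ * x⁻¹ = (a : Ω)⁻¹ * (x * a * x⁻¹) := by group
        rw [e] at h2
        exact h2
      · have h1 := sc_conj_mem F hQ (S.inv_mem (hPS a.2)) (Q.inv_mem hx)
        have h2 := Q.mul_mem h1 hx
        have e : (a : Ω)⁻¹ * x⁻¹ * (a : Ω)⁻¹⁻¹ * x = (a : Ω)⁻¹ * (x⁻¹ * a * x) := by group
        rw [e] at h2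
        exact h2
    · refine normAct_mem_secStab hxN fun a ha => ⟨?_, ?_⟩
      · have h1 := hab (Subgroup.commutator_mem_commutator (Q.inv_mem ha) hx)
        rw [commutatorElement_def] at h1
        have e : (a : Ω)⁻¹ * x * (a : Ω)⁻¹⁻¹ * x⁻¹ = (a : Ω)⁻¹ * (x * a * x⁻¹) := by group
        rwa [e] at h1
      · have h1 := hab (Subgroup.commutator_mem_commutator (Q.inv_mem ha) (Q.inv_mem hx))
        rw [commutatorElement_def] at h1
        have e : (a : Ω)⁻¹ * x⁻¹ * (a : Ω)⁻¹⁻¹ * x⁻¹⁻¹ = (a : Ω)⁻¹ * (x⁻¹ * a * x) := by group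
        rwa [e] at h1

end Cfsg.Agent.S5125
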