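import Cfsg.Statements.S5135
import Cfsg.Agent.Lib.FusionExt.Factor

set_option autoImplicit false
open Cfsg

namespace Cfsg.Agent.S5135

open Cfsg.FusionSystem Cfsg.Agent.Lib.Fusion.Basic Cfsg.Agent.Lib.FusionExt.Factor

/-- Let G be a finite group, S a Sylow p-subgroup and H a normal subgroup of G. Then the fusion system of G/H on the image SH/H of S is the factor system of the fusion system of G on S modulo S ∩ H, read through the quotient map restricted to S: for each subgroup P' of SH/H, the conjugation maps by elements of G/H defined on P' with values in SH/H are exactly the homomorphisms induced by the conjugation maps by elements of G defined on the full preimage of P' in S with values in S. -/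
theorem result {G : Type*} [Group G] [Finite G] (p : ℕ) [Fact p.Prime] (S : Sylow p G) (H : Subgroup G) [H.Normal] : (Cfsg.groupFusionSystem (S : Subgroup G)).IsFactorSystem ((S : Subgroup G) ⊓ H) ((QuotientGroup.mk' H).comp (S : Subgroup G).subtype) (Cfsg.groupFusionSystem ((S : Subgroup G).map (QuotientGroup.mk' H))) := by
  set π := QuotientGroup.mk' H with hπ
  set θ : (S : Subgroup G) →* G ⧸ H := π.comp (S : Subgroup G).subtype with hθ
  have hπker : ∀ h ∈ H, π h = 1 := fun h hh => (QuotientGroup.eq_one_iff h).2 hh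
  refine ⟨inf_le_left, ?_, ?_, ?_⟩
  · intro s
    constructor
    · intro h
      exact ⟨s.2, (QuotientGroup.eq_one_iff _).1 h⟩
    · intro h
      exact (QuotientGroup.eq_one_iff _).2 h.2
  · apply le_antisymm
    · rintro _ ⟨s, rfl⟩
      exact ⟨s, s.2, rfl⟩
    · rintro _ ⟨s, hs, rfl⟩
      exact ⟨⟨s, hs⟩, rfl⟩
  · intro P' φ'
    constructor
    · rintro ⟨hP', hφ'S, gbar, hgbar⟩
      obtain ⟨g, rfl⟩ := QuotientGroup.mk'_surjective H gbar
      refine ⟨hP', ?_⟩
      -- the subgroup `R = g P g⁻¹` lies in `S H`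
      set P := preimageAlong θ P' with hP
      let R : Subgroup G := P.map (MulAut.conj g).toMonoidHom
      have hRp : IsPGroup p R := by
        have hPp' : IsPGroup p P := S.isPGroup'.to_le (preimageAlong_le θ P')
        exact hPp'.map _
      let M : Subgroup G := (S : Subgroup G) ⊔ H
      have hRM : R ≤ M := by
        rintro _ ⟨x, hx, rfl⟩
        obtain ⟨hxS, hxP⟩ := mem_preimageAlong.1 hx
        have h1 := hφ'S ⟨_, hxP⟩
        rw [hgbar] at h1
        obtain ⟨s, hs, hsx⟩ := h1
        have h2 : π (g * x * g⁻¹) = π s := by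
          rw [hsx]
          simp only [map_mul, map_inv]
          rfl
        have h3 : (s : G)⁻¹ * (g * x * g⁻¹) ∈ H := by
          rw [← QuotientGroup.eq_one_iff]
          have h5 : π ((s : G)⁻¹ * (g * x * g⁻¹)) = 1 := by
            rw [map_mul, h2, map_inv, inv_mul_cancel]
          exact h5
        have h4 : g * x * g⁻¹ = s * ((s : G)⁻¹ * (g * x * g⁻¹)) := by group
        show g * x * g⁻¹ ∈ M
        rw [h4]
        exact M.mul_mem (Subgroup.mem_sup_left hs) (Subgroup.mem_sup_right h3)
      -- Sylow in `S H`: conjugate `R` into `S`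
      have hSM : (S : Subgroup G) ≤ M := le_sup_left
      let T : Sylow p M := S.subtype hSM
      have hRp' : IsPGroup p (R.subgroupOf M) := hRp.comap_of_injective _ (Subgroup.subtype_injective M)
      obtain ⟨m, hm⟩ := exists_conj_le_sylow T hRp'
      obtain ⟨s, hs, h, hh, hsh⟩ := Subgroup.mem_sup_of_normal_right.1 m.2
      -- the conjugating element
      let g' : G := h * g
      have hg' : ∀ x ∈ P, g' * x * g'⁻¹ ∈ (S : Subgroup G) := by
        intro x hx
        have hrR : g * x * g⁻¹ ∈ R := ⟨x, hx, rfl⟩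
        have h1 := hm ⟨_, hRM hrR⟩ hrR
        have h2 : ((m * ⟨_, hRM hrR⟩ * m⁻¹ : M) : G) ∈ (S : Subgroup G) := by
          have : (m * ⟨_, hRM hrR⟩ * m⁻¹ : M) ∈ (T : Subgroup M) := h1
          rw [Sylow.coe_subtype] at this
          exact this
        have h3 : ((m * ⟨_, hRM hrR⟩ * m⁻¹ : M) : G) = m * (g * x * g⁻¹) * (m : G)⁻¹ := rfl
        rw [h3, ← hsh] at h2
        have h4 : g' * x * g'⁻¹ = s⁻¹ * ((s * h) * (g * x * g⁻¹) * (s * h)⁻¹) * s := by
          simp only [g']
          group
        rw [h4]
        exact Subgroup.mul_mem _ (Subgroup.mul_mem _ (Subgroup.inv_mem _ hs) h2) hs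
      have hπg' : π g' = π g := by
        simp only [g', map_mul, hπker h hh, one_mul]
      refine ⟨conjHom P g', ⟨preimageAlong_le θ P', fun x => hg' x x.2, g', fun x => rfl⟩,
        preimageAlong_le θ P', fun x => hg' x x.2, fun x => (mem_preimageAlong.1 x.2).2, ?_⟩
      intro x
      rw [hgbar]
      show π g * π x * (π g)⁻¹ = π (g' * x * g'⁻¹)
      simp only [map_mul, map_inv, hπg']
    · rintro ⟨hP', φ, ⟨hPS, hφS, g, hg⟩, hPS', hφS', hPP', hform⟩
      have hex : ∀ x : P', ∃ y : ↥(preimageAlong θ P'), θ ⟨y, preimageAlong_le θ P' y.2⟩ = x := by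
        intro x
        obtain ⟨s, hs, hsx⟩ := hP' x.2
        exact exists_preimage θ (by
          rintro _ hu
          obtain ⟨a, ha, rfl⟩ := hP' hu
          exact ⟨⟨a, ha⟩, rfl⟩) x.2
      have key : ∀ x : P', φ' x = π g * x * (π g)⁻¹ := by
        intro x
        obtain ⟨y, hy⟩ := hex x
        have e : (⟨θ ⟨y, preimageAlong_le θ P' y.2⟩, hPP' y⟩ : P') = x := Subtype.ext hy
        have h1 := hform y
        rw [e] at h1
        rw [h1, ← hy]
        show π (φ y) = π g * π y * (π g)⁻¹
        rw [hg]
        simp only [map_mul, map_inv]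
      refine ⟨hP', fun x => ?_, π g, key⟩
      obtain ⟨y, hy⟩ := hex x
      have e : (⟨θ ⟨y, preimageAlong_le θ P' y.2⟩, hPP' y⟩ : P') = x := Subtype.ext hy
      have h1 := hform y
      rw [e] at h1
      rw [h1]
      exact ⟨φ y, hφS y, rfl⟩

end Cfsg.Agent.S5135
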