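import Cfsg.Statements.S5143
import Cfsg.Agent.Lib.FusionExt.ER7c

set_option autoImplicit false
open Cfsg

namespace Cfsg.Agent.S5143

open Cfsg.FusionSystem Cfsg.Agent.Lib.Fusion.Basic Cfsg.Agent.Lib.FusionExt.MapApi Cfsg.Agent.Lib.FusionExt.PrimeRes1
open Cfsg.Agent.Lib.FusionExt.ER0 Cfsg.Agent.Lib.FusionExt.ER6a Cfsg.Agent.Lib.FusionExt.ER6e Cfsg.Agent.Lib.FusionExt.ER7a Cfsg.Agent.Lib.FusionExt.ER7b Cfsg.Agent.Lib.FusionExt.ER7c


/-- Let F be a saturated fusion system over a finite p-group S, E a normal subsystem over T, and R a subgroup with T ≤ R ≤ S. Then there is exactly one saturated subsystem D of F over R (exactly one family of map sets) whose p-residual subsystem is that of E: the hyperfocal subgroups of D and E coincide and the p-residual subsystems of D and of E have the same maps. -/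
theorem result {Ω : Type*} [Group Ω] {S : Subgroup Ω} [Finite S] (p : ℕ) [Fact p.Prime] (hS : IsPGroup p S) (F : Cfsg.FusionSystem S) (hF : F.IsSaturated p) {T : Subgroup Ω} (E : Cfsg.FusionSystem T) (hE : E.IsNormalIn F p) (R : Subgroup Ω) (hTR : T ≤ R) (hRS : R ≤ S) : ∃ D : Cfsg.FusionSystem R, (D.IsSaturated p ∧ D.IsSubsystemOf F ∧ D.hyperfocalSubgroup p = E.hyperfocalSubgroup p ∧ ∀ (D₁ : Cfsg.FusionSystem (D.hyperfocalSubgroup p)) (E₁ : Cfsg.FusionSystem (E.hyperfocalSubgroup p)), D.IsPResidual p D₁ → E.IsPResidual p E₁ → ∀ P : Subgroup Ω, D₁.Hom P = E₁.Hom P) ∧ ∀ D' : Cfsg.FusionSystem R, D'.IsSaturated p → D'.IsSubsystemOf F → D'.hyperfocalSubgroup p = E.hyperfocalSubgroup p → (∀ (D₁ : Cfsg.FusionSystem (D'.hyperfocalSubgroup p)) (E₁ : Cfsg.FusionSystem (E.hyperfocalSubgroup p)), D'.IsPResidual p D₁ → E.IsPResidual p E₁ → ∀ P : Subgroup Ω, D₁.Hom P = E₁.Hom P) → ∀ P :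 Subgroup Ω, D'.Hom P = D.Hom P := by
  have C : Cx F E p := ⟨hS, hE⟩
  have hR : Lv₂ T R S := ⟨hTR, hRS⟩
  haveI : Finite R := finite_of_le hRS
  haveI : Finite T := C.finT
  have hRp : IsPGroup p R := hS.to_le hRS
  have hD : ∀ {X f}, Mp (DD C hR) X f ↔ Dn F E p R X f := mp_DD C
  refine ⟨DD C hR, ⟨DD_sat C hR _ hD, DD_sub C hR, hyp_eq C hR _ hD, fun D₁ E₁ h₁ h₂ P => res_eq C hR _ hD D₁ E₁ h₁ h₂ P⟩, ?_⟩
  intro D' hs' hsub' hh' hres' P
  have hT₀T : E.hyperfocalSubgroup p ≤ T := Cfsg.Agent.Lib.FusionExt.Hyperfocal.hyperfocal_le (F := E) (p := p)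
  obtain ⟨E₁, ⟨hs₁, hi₁⟩, -⟩ := Cfsg.Agent.Lib.FusionExt.PowerMain.main C.hTp E C.hEs (E.hyperfocalSubgroup p) hT₀T le_rfl
  have C₁ : Cx F E₁ p := ⟨hS, res_normal C rfl hs₁ hi₁⟩
  have hR₁ : Lv₂ (E.hyperfocalSubgroup p) R S := ⟨hT₀T.trans hTR, hRS⟩
  obtain ⟨D₁, ⟨hsD₁, hiD₁⟩, -⟩ := Cfsg.Agent.Lib.FusionExt.PowerMain.main hRp D' hs' (D'.hyperfocalSubgroup p)
    (Cfsg.Agent.Lib.FusionExt.Hyperfocal.hyperfocal_le (F := D') (p := p)) le_rfl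
  have heq := hres' D₁ E₁ ⟨hsD₁, hiD₁⟩ ⟨hs₁, hi₁⟩
  have hG' : Gs F E₁ p D' := by
    refine ⟨hs', hsub', fun Q φ hφ => ?_, hh'.le, fun Q hQ a ha m hm ham => ?_⟩
    · rw [← heq Q] at hφ
      exact hiD₁.1 Q hφ
    · have hQ' : Q ≤ D'.hyperfocalSubgroup p := hQ.trans hh'.symm.le
      have h1 : a ∈ D₁.autGroup Q := by
        refine hiD₁.2.2 Q hQ' ⟨⟨a, ha⟩, Subgroup.subset_closure ?_, rfl⟩
        have h6 : orderOf (⟨a, ha⟩ : D'.autGroup Q) ∣ m := by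
          refine orderOf_dvd_of_pow_eq_one (Subtype.ext ?_)
          exact ham
        exact Nat.Coprime.coprime_dvd_left h6 hm
      have h2 : D₁.autGroup Q = E₁.autGroup Q := by
        unfold Cfsg.FusionSystem.autGroup
        rw [heq Q]
      rwa [h2] at h1
  have hG : Gs F E₁ p (DD C hR) := by
    refine ⟨DD_sat C hR _ hD, DD_sub C hR, fun Q φ hφ => E_le_D C hR _ hD Q (hi₁.1 Q hφ), (hyp_eq C hR _ hD).le, fun Q hQ a ha m hm ham => ?_⟩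
    have hQT : Q ≤ T := hQ.trans hT₀T
    have h1 := aut_E_of_coprime C hR hQT (hD.1 (mp_autFun (hQT.trans hTR) ha)) hm ham
    exact pp_mem_res hi₁ hQ h1 hm ham
  ext φ
  constructor
  · intro hφ
    exact Cfsg.Agent.Lib.FusionExt.PowerE.hom_of_mp ((U_iff C₁ hR₁ hG).2 ((U_iff C₁ hR₁ hG').1 (mp_of_hom hφ)))
  · intro hφ
    exact Cfsg.Agent.Lib.FusionExt.PowerE.hom_of_mp ((U_iff C₁ hR₁ hG').2 ((U_iff C₁ hR₁ hG).1 (mp_of_hom hφ)))

end Cfsg.Agent.S5143
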