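import Cfsg.Statements.S5144
import Cfsg.Agent.Lib.Fusion.Basic

set_option autoImplicit false
open Cfsg

namespace Cfsg.Agent.S5144

open Cfsg.Agent.Lib.Fusion.Basic Cfsg.FusionSystem

variable {Ω : Type*} [Group Ω] {S : Subgroup Ω} (F : Cfsg.FusionSystem S)

theorem isCentral_bot : F.IsCentral ⊥ := by
  refine ⟨bot_le, ?_⟩
  intro P φ hφ
  have hle : P ⊔ ⊥ ≤ P := le_of_eq (sup_bot_eq P)
  refine ⟨φ.comp (Subgroup.inclusion hle), restrict_mem F hle hφ, fun x => ?_, ?_⟩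
  · rfl
  · rintro ⟨x, hx⟩
    have hx1 : x = 1 := Subgroup.mem_bot.1 hx
    subst hx1
    have : Subgroup.inclusion (le_sup_right : (⊥ : Subgroup Ω) ≤ P ⊔ ⊥) ⟨1, hx⟩ = 1 := rfl
    rw [this, map_one]

theorem isCentral_sup {Q₁ Q₂ : Subgroup Ω} (h₁ : F.IsCentral Q₁) (h₂ : F.IsCentral Q₂) :
    F.IsCentral (Q₁ ⊔ Q₂) := by
  refine ⟨sup_le h₁.1 h₂.1, ?_⟩
  intro P φ hφ
  obtain ⟨ψ₁, hψ₁, hP₁, hQ₁⟩ := h₁.2 P φ hφ
  obtain ⟨ψ₂, hψ₂, hP₂, hQ₂⟩ := h₂.2 (P ⊔ Q₁) ψ₁ hψ₁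
  have hle₁ : P ⊔ (Q₁ ⊔ Q₂) ≤ (P ⊔ Q₁) ⊔ Q₂ := le_of_eq (sup_assoc P Q₁ Q₂).symm
  refine ⟨ψ₂.comp (Subgroup.inclusion hle₁), restrict_mem F hle₁ hψ₂, ?_, ?_⟩
  · intro x
    have h := hP₂ (Subgroup.inclusion le_sup_left x)
    have h' := hP₁ x
    exact h.trans h'
  · -- the map fixes `Q₁` and `Q₂` elementwise, hence `Q₁ ⊔ Q₂`
    have hfix : (Q₁ ⊔ Q₂) ≤ ((ψ₂.comp (Subgroup.inclusion hle₁)).eqLocus
        ((P ⊔ (Q₁ ⊔ Q₂)).subtype)).map (P ⊔ (Q₁ ⊔ Q₂)).subtype := by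
      apply sup_le
      · intro y hy
        have hyS : y ∈ P ⊔ (Q₁ ⊔ Q₂) := (le_sup_of_le_right le_sup_left : Q₁ ≤ P ⊔ (Q₁ ⊔ Q₂)) hy
        refine ⟨⟨y, hyS⟩, ?_, rfl⟩
        have h := hP₂ (Subgroup.inclusion le_sup_right (⟨y, hy⟩ : Q₁))
        have h' := hQ₁ ⟨y, hy⟩
        exact h.trans h'
      · intro y hy
        have hyS : y ∈ P ⊔ (Q₁ ⊔ Q₂) := (le_sup_of_le_right le_sup_right : Q₂ ≤ P ⊔ (Q₁ ⊔ Q₂)) hy
        refine ⟨⟨y, hyS⟩, ?_, rfl⟩
        exact hQ₂ ⟨y, hy⟩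
    rintro ⟨x, hx⟩
    obtain ⟨y, hy, hyx⟩ := hfix hx
    have e : y = Subgroup.inclusion le_sup_right (⟨x, hx⟩ : ↥(Q₁ ⊔ Q₂)) := Subtype.ext hyx
    rw [← e]
    have h3 : (ψ₂.comp (Subgroup.inclusion hle₁)) y = (P ⊔ (Q₁ ⊔ Q₂)).subtype y := hy
    rw [h3]
    exact hyx

/-- For a fusion system over a finite subgroup S, the centre of the system (the join of all subgroups central in it) is itself central in the system, hence its largest central subgroup. -/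
theorem result {Ω : Type*} [Group Ω] {S : Subgroup Ω} [Finite S] (F : Cfsg.FusionSystem S) : F.IsCentral F.center := by
  -- the set of central subgroups is finite: it injects in the subgroups of `S`
  have hfin : {Q : Subgroup Ω | F.IsCentral Q}.Finite := by
    apply Set.Finite.subset (s := {Q : Subgroup Ω | Q ≤ S})
    · apply Set.Finite.of_injOn (f := fun Q : Subgroup Ω => Q.subgroupOf S) (t := Set.univ)
        (fun _ _ => Set.mem_univ _) _ Set.finite_univ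
      intro Q₁ hQ₁ Q₂ hQ₂ h
      have := congrArg (Subgroup.map S.subtype) h
      simpa [Subgroup.map_subgroupOf_eq_of_le hQ₁, Subgroup.map_subgroupOf_eq_of_le hQ₂] using this
    · intro Q hQ
      exact hQ.1
  unfold FusionSystem.center
  have key : ∀ s : Set (Subgroup Ω), s.Finite → (∀ Q ∈ s, F.IsCentral Q) → F.IsCentral (sSup s) := by
    intro s hs
    induction s, hs using Set.Finite.induction_on with
    | empty =>
      intro _
      rw [sSup_empty]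
      exact isCentral_bot F
    | insert _ _ ih =>
      intro h
      rw [sSup_insert]
      exact isCentral_sup F (h _ (Set.mem_insert _ _)) (ih fun Q hQ => h Q (Set.mem_insert_of_mem _ hQ))
  exact key _ hfin fun Q hQ => hQ

end Cfsg.Agent.S5144
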