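import Cfsg.Statements.S5148
import Cfsg.Agent.Lib.FusionExt.Solvable3
import Cfsg.Agent.Lib.FusionTheory.Abelian

set_option autoImplicit false
open Cfsg

namespace Cfsg.Agent.S5148

open Cfsg.FusionSystem Cfsg.Agent.Lib.Fusion.Basic Cfsg.Agent.Lib.FusionExt.Normal
  Cfsg.Agent.Lib.FusionExt.Factor Cfsg.Agent.Lib.FusionExt.FactorExt Cfsg.Agent.Lib.FusionExt.FactorSat
  Cfsg.Agent.Lib.FusionExt.Solvable Cfsg.Agent.Lib.FusionTheory.Abelian

/-- A quasisimple fusion system over a finite p-group S (saturated, equal to its p-residual subsystem, with simple — in particular nontrivial — factor system modulo its centre) has S nonabelian. -/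
theorem result {Ω : Type*} [Group Ω] {S : Subgroup Ω} [Finite S] (p : ℕ) [Fact p.Prime] (hS : IsPGroup p S) (F : Cfsg.FusionSystem S) (hq : F.Quasisimple p) : ¬ IsMulCommutative S := by
  intro hcomm
  have hab : ∀ x ∈ S, ∀ y ∈ S, x * y = y * x := fun x hx y hy =>
    congrArg Subtype.val (hcomm.is_comm.comm ⟨x, hx⟩ ⟨y, hy⟩)
  obtain ⟨hF, hhyp, hsimple⟩ := hq
  have hZeq := center_eq F hS hF hab
  -- the centre is strongly closed: its elements are fixed by all maps
  have hZfix : ∀ (R : Subgroup Ω) (φ : R →* Ω), φ ∈ F.Hom R → ∀ x : R, (x : Ω) ∈ F.center → φ x = x := by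
    intro R φ hφ x hx
    obtain ⟨α, hα, hαv⟩ := exists_aut_ext F hS hF hab hφ
    rw [hαv x]
    rw [hZeq] at hx
    obtain ⟨c, hc, hcx⟩ := hx
    have e : (⟨x, le_of_mem F hφ x.2⟩ : S) = c := Subtype.ext hcx.symm
    rw [e, hc α hα, ← hcx]
    rfl
  have hZS : F.center ≤ S := by
    rw [hZeq]
    rintro _ ⟨c, -, rfl⟩
    exact c.2
  have hZsc : F.StronglyClosed F.center := by
    refine ⟨hZS, fun R hR φ hφ x => ?_⟩
    rw [hZfix R φ hφ x (hR x.2)]
    exact hR x.2
  let θ : S →* S ⧸ (F.center).subgroupOf S := QuotientGroup.mk' ((F.center).subgroupOf S)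
  have hθ : ∀ s : S, θ s = 1 ↔ (s : Ω) ∈ F.center := fun s => by
    rw [QuotientGroup.mk'_apply, QuotientGroup.eq_one_iff]
    exact Iff.rfl
  have hr : θ.range = ⊤ := MonoidHom.range_eq_top.2 (QuotientGroup.mk'_surjective _)
  obtain ⟨E, hE⟩ := exists_isFactorSystem F θ hZsc hθ hr
  have hsimp := hsimple E hE
  have hsurj := isSurjectiveMorphism_of_isFactorSystem F θ hS hF hZsc hE
  have hSp : IsPGroup p (⊤ : Subgroup (S ⧸ (F.center).subgroupOf S)) := range_isPGroup hS hr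
  have hSfin : Finite (⊤ : Subgroup (S ⧸ (F.center).subgroupOf S)) := range_finite hr
  have habq : ∀ x ∈ (⊤ : Subgroup (S ⧸ (F.center).subgroupOf S)), ∀ y ∈ (⊤ : Subgroup (S ⧸ (F.center).subgroupOf S)),
      x * y = y * x := by
    intro x _ y _
    obtain ⟨a, rfl⟩ := QuotientGroup.mk'_surjective _ x
    obtain ⟨b, rfl⟩ := QuotientGroup.mk'_surjective _ y
    rw [← map_mul, ← map_mul]
    congr 1
    exact Subtype.ext (hab a a.2 b b.2)
  have hnorm := inner_isNormalIn E hSp hsimp.1 habq (stronglyClosed_top E)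
  rcases hsimp.2.2 _ _ hnorm with h | ⟨-, h⟩
  · exact hsimp.2.1 h
  -- every map of `E` is an inclusion
  have hinc : ∀ (P' : Subgroup (S ⧸ (F.center).subgroupOf S)) (φ' : P' →* S ⧸ (F.center).subgroupOf S), φ' ∈ E.Hom P' →
      ∀ y : P', φ' y = y := by
    intro P' φ' hφ' y
    rw [← h P'] at hφ'
    obtain ⟨-, g, -, hg⟩ := hφ'
    rw [hg y, habq g trivial y trivial, mul_inv_cancel_right]
  have hle : F.hyperfocalSubgroup p ≤ F.center := by
    apply (Subgroup.closure_le _).2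
    rintro _ ⟨P, α, x, hPS, -, rfl⟩
    obtain ⟨φ', hφ', h1, h2, h3, h4⟩ := hsurj.1.2 P (autHom (α : MulAut P)) (autHom_mem F hPS α.2)
    have h5 := h4 x
    rw [hinc _ φ' hφ'] at h5
    exact (theta_eq_iff θ hθ ⟨x, h1 x.2⟩ ⟨_, h2 x⟩).1 h5
  rw [hhyp] at hle
  apply hsimp.2.1
  rw [eq_bot_iff]
  intro y _
  obtain ⟨s, rfl⟩ := QuotientGroup.mk'_surjective ((F.center).subgroupOf S) y
  rw [Subgroup.mem_bot]
  exact (hθ s).2 (hle s.2)

end Cfsg.Agent.S5148
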