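import Cfsg.Statements.S5153
import Cfsg.Agent.Lib.FusionExt.Normal
import Cfsg.Agent.Lib.Fusion.Saturation

set_option autoImplicit false
open Cfsg

namespace Cfsg.Agent.S5153

open Cfsg.FusionSystem Cfsg.Agent.Lib.Fusion.Basic Cfsg.Agent.Lib.Fusion.Saturation
  Cfsg.Agent.Lib.FusionExt.Normal

variable {Ω : Type*} [Group Ω]

theorem fullyNormalized_of_normal {S U : Subgroup Ω} {F : FusionSystem S} {D : FusionSystem U} {p : ℕ}
    [Fact p.Prime] [Finite S] (hS : IsPGroup p S) (hF : F.IsSaturated p) (hD : D.IsNormalIn F p)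
    (P : Subgroup Ω) (hPU : P ≤ U) (hP : F.IsFullyNormalized P) : D.IsFullyNormalized P := by
  obtain ⟨⟨-, -, hsub, hsc, -⟩, -⟩ := hD
  refine ⟨hPU, fun Q hQ => ?_⟩
  obtain ⟨φ, hφ, hr⟩ := hQ
  have hQ' : F.IsConj Q P := isConj_symm F ⟨φ, hsub P hφ, hr⟩
  have h₁ := isFullyAutomized_of_isFullyNormalized F hS hF hP
  have h₂ := isReceptive_of_isFullyNormalized F hS hF hP
  obtain ⟨ψ, hψ, hv, -⟩ := exists_normalizer_map F hS h₁ h₂ hQ'
  have hfin : Finite U := finite_of_le hsc.1
  have hfin2 : Finite (normalizerIn U P) := finite_of_le inf_le_left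
  have hle : normalizerIn U Q ≤ normalizerIn S Q := inf_le_inf_right _ hsc.1
  refine card_le_of_hom (ψ.comp (Subgroup.inclusion hle))
    ((F.injective_of_mem hψ).comp (Subgroup.inclusion_injective hle)) (fun a => ?_)
  refine ⟨sc_map_mem' F hsc hψ _ a.2.1, (hv _).2⟩

theorem fullyNormalized_of_subnormal {T S : Subgroup Ω} {E : FusionSystem T} {F : FusionSystem S} {p : ℕ}
    (hE : E.IsSubnormalIn F p) :
    Fact p.Prime → Finite S → IsPGroup p S → F.IsSaturated p →
      T ≤ S ∧ ∀ P : Subgroup Ω, P ≤ T → F.IsFullyNormalized P → E.IsFullyNormalized P := by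
  induction hE with
  | refl F p =>
    intro _ _ _ _
    exact ⟨le_rfl, fun P _ hP => hP⟩
  | step _ hDF ih =>
    intro hp hfin hS hF
    have hUS := hDF.1.2.2.2.1.1
    have hfinU := finite_of_le hUS
    obtain ⟨hTU, hih⟩ := ih hp hfinU (hS.to_le hUS) hDF.1.1
    refine ⟨hTU.trans hUS, fun P hP hPF => ?_⟩
    exact hih P hP (fullyNormalized_of_normal hS hF hDF P (hP.trans hTU) hPF)

/-- Let F be a saturated fusion system over a finite p-group S and E a subnormal subsystem of F over T. Then every subgroup of T that is fully normalized in F is fully normalized in E. -/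
theorem result {Ω : Type*} [Group Ω] {S : Subgroup Ω} [Finite S] (p : ℕ) [Fact p.Prime] (hS : IsPGroup p S) (F : Cfsg.FusionSystem S) (hF : F.IsSaturated p) {T : Subgroup Ω} (E : Cfsg.FusionSystem T) (hE : E.IsSubnormalIn F p) (P : Subgroup Ω) (hPT : P ≤ T) (hP : F.IsFullyNormalized P) : E.IsFullyNormalized P :=
  (fullyNormalized_of_subnormal hE inferInstance inferInstance hS hF).2 P hPT hP

end Cfsg.Agent.S5153
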