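import Cfsg.Statements.S5196
import Cfsg.Agent.Lib.Fusion.WeakClosure

set_option autoImplicit false
universe u
open Cfsg

namespace Cfsg.Agent.S5196

/-- Let p be an odd prime and W a positive characteristic p-functor: W assigns to every finite p-group Q (in a fixed universe) a subgroup W(Q), nontrivial when Q is, carried to W(R) by every isomorphism Q ≅ R; assume also Z(Q) ≤ W(Q) for every finite p-group Q. Suppose W satisfies the local condition: for every finite group G with Sylow p-subgroup P, O_p(G) ∩ Z(G) = O_p(G) ∩ Z(N_G(W(P))). Then W controls weak closure of elements in every saturated fusion system F over a finite p-group S: the centre of the normalizer fusion system of W(S) in F equals the centre of F. (For p = 2 no functor satisfies the local condition, so p is taken odd.) -/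
theorem result {p : ℕ} [Fact p.Prime] (hp : p ≠ 2) (W : ∀ (Q : Type u) [Group Q], Subgroup Q) (hW1 : ∀ (Q : Type u) [Group Q] [Finite Q], IsPGroup p Q → Nontrivial Q → W Q ≠ ⊥) (hW2 : ∀ (Q R : Type u) [Group Q] [Group R] [Finite Q], IsPGroup p Q → ∀ φ : Q ≃* R, (W Q).map φ.toMonoidHom = W R) (hWZ : ∀ (Q : Type u) [Group Q] [Finite Q], IsPGroup p Q → Subgroup.center Q ≤ W Q) (hC : ∀ (G : Type u) [Group G] [Finite G] (P : Sylow p G), Cfsg.pCore p G ⊓ Subgroup.center G = Cfsg.pCore p G ⊓ (Subgroup.center ↥(Subgroup.normalizer (((W ↥(P : Subgroup G)).map (P : Subgroup G).subtype : Subgroup G) : Set G))).map (Subgroup.normalizer (((W ↥(P : Subgroup G)).map (P : Subgroup G).subtype : Subgroup G) : Set G)).subtype) {Ω : Type u} [Group Ω] {S : Subgroup Ω} [Finite S] (hS : IsPGroup p S) (F : Cfsg.FusionSystem S) (hF : F.IsSaturated p) (N : Cfsg.FusionSystem (Cfsg.FusionSystem.normalizerIn S ((W ↥S).map S.subtype))) (hN : F.IsNormalizerSystem ((W ↥S).map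 S.subtype) N) : N.center = F.center := by
  refine le_antisymm (fun x hx => ?_) (Cfsg.Agent.Lib.Fusion.WeakClosure.center_le_center_normalizer W hWZ hS F N hN)
  refine Cfsg.Agent.Lib.Fusion.WeakClosure.mem_center_of_local W hW2 hWZ hS F hF N hN hx ?_
  intro T hTS hxT hxZ hZT L _ _ P₀ ι hinj hP₀ hcen hxp hxnc
  have hC' := hC L P₀
  have hyP : ι ⟨x, hxT⟩ ∈ (P₀ : Subgroup L) := by
    rw [hP₀]
    exact ⟨_, rfl⟩
  have hyZ : (⟨ι ⟨x, hxT⟩, hyP⟩ : (P₀ : Subgroup L)) ∈ Subgroup.center ↥(P₀ : Subgroup L) := by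
    refine Subgroup.mem_center_iff.2 fun g => Subtype.ext ?_
    obtain ⟨t, ht⟩ : (g : L) ∈ ι.range := hP₀ ▸ g.2
    show (g : L) * ι ⟨x, hxT⟩ = ι ⟨x, hxT⟩ * g
    rw [← ht, ← map_mul, ← map_mul, Subgroup.mem_center_iff.1 hxZ t]
  have hfinP : Finite (P₀ : Subgroup L) := inferInstance
  have hyW : ι ⟨x, hxT⟩ ∈ (W ↥(P₀ : Subgroup L)).map (P₀ : Subgroup L).subtype :=
    ⟨_, hWZ _ P₀.isPGroup' hyZ, rfl⟩
  have hyM : ι ⟨x, hxT⟩ ∈ Subgroup.normalizer (((W ↥(P₀ : Subgroup L)).map (P₀ : Subgroup L).subtype : Subgroup L) : Set L) :=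
    Subgroup.le_normalizer hyW
  by_contra hno
  push_neg at hno
  apply hxnc
  have h1 : ι ⟨x, hxT⟩ ∈ pCore p L ⊓ (Subgroup.center ↥(Subgroup.normalizer (((W ↥(P₀ : Subgroup L)).map (P₀ : Subgroup L).subtype : Subgroup L) : Set L))).map (Subgroup.normalizer (((W ↥(P₀ : Subgroup L)).map (P₀ : Subgroup L).subtype : Subgroup L) : Set L)).subtype := by
    refine ⟨hxp, ⟨ι ⟨x, hxT⟩, hyM⟩, Subgroup.mem_center_iff.2 fun g => Subtype.ext ?_, rfl⟩
    have h2 := hno g g.2
    show (g : L) * ι ⟨x, hxT⟩ = ι ⟨x, hxT⟩ * g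
    calc (g : L) * ι ⟨x, hxT⟩ = (g : L) * ι ⟨x, hxT⟩ * (g : L)⁻¹ * g := by group
      _ = ι ⟨x, hxT⟩ * g := by rw [h2]
  rw [← hC'] at h1
  exact h1.2

end Cfsg.Agent.S5196
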