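import Cfsg.Statements.S5199
import Cfsg.Agent.Lib.Fusion.Alperin
import Cfsg.Agent.Lib.Core.Residual

set_option autoImplicit false
open Cfsg

namespace Cfsg.Agent.S5199

open Cfsg.FusionSystem Cfsg.Agent.Lib.Fusion.Basic Cfsg.Agent.Lib.Fusion.Saturation
open Cfsg.Agent.Lib.Fusion.Saturation2 Cfsg.Agent.Lib.Fusion.Alperin
open Cfsg.Agent.Lib.Core.Residual

/-- The maps of a system `F₀` over `U ≥ T` with source and image in `T`. -/
def restrictSystem {Ω : Type*} [Group Ω] {T U : Subgroup Ω} (hTU : T ≤ U) (F₀ : Cfsg.FusionSystem U) :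
    Cfsg.FusionSystem T where
  Hom P := {φ | φ ∈ F₀.Hom P ∧ P ≤ T ∧ ∀ x : P, φ x ∈ T}
  le_of_mem h := ⟨h.2.1, h.2.2⟩
  injective_of_mem h := F₀.injective_of_mem h.1
  conj_mem := by
    intro P g hP hg
    refine ⟨F₀.conj_mem (hP.trans hTU) (hTU hg), hP, fun x => ?_⟩
    exact T.mul_mem (T.mul_mem hg (hP x.2)) (T.inv_mem hg)
  comp_mem := by
    rintro P Q φ ψ ⟨h1, h2, -⟩ ⟨h3, -, h4⟩ h
    exact ⟨F₀.comp_mem h1 h3 h, h2, fun x => h4 _⟩
  inv_mem := by
    rintro P φ ⟨h1, h2, h3⟩
    obtain ⟨ψ, hψ, hψx⟩ := F₀.inv_mem h1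
    refine ⟨ψ, ⟨hψ, ?_, ?_⟩, hψx⟩
    · rintro _ ⟨x, rfl⟩
      exact h3 x
    · rintro ⟨_, x, rfl⟩
      rw [hψx]
      exact h2 x.2

/-- Let F be a saturated fusion system over a finite p-group S, E a normal subsystem of F over T, and F₀ a normal subsystem of F over a subgroup U containing both T and the hyperfocal subgroup of F, such that F₀ has p-power index in F. Then E is a subsystem of F₀. -/
theorem result {Ω : Type*} [Group Ω] {S : Subgroup Ω} [Finite S] (p : ℕ) [Fact p.Prime] (hS : IsPGroup p S) (F : Cfsg.FusionSystem S) (hF : F.IsSaturated p) {T U : Subgroup Ω} (E : Cfsg.FusionSystem T) (hE : E.IsNormalIn F p) (F₀ : Cfsg.FusionSystem U) (hF₀ : F₀.IsNormalIn F p) (hU : T ⊔ F.hyperfocalSubgroup p ≤ U) (hidx : F₀.HasPPowerIndexIn F p) : E.IsSubsystemOf F₀ := by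
  have hTU : T ≤ U := le_sup_left.trans hU
  have hES : E.IsSubsystemOf F := hE.1.2.2.1
  have hEsat : E.IsSaturated p := hE.1.1
  have hTS : T ≤ S := hE.1.2.2.2.1.1
  have hfinT : Finite T := finite_of_le hTS
  have hTp : IsPGroup p T := hS.to_le hTS
  have hle : E ≤ restrictSystem hTU F₀ := by
    refine alperin_goldschmidt E hTp hEsat (restrictSystem hTU F₀) ?_
    intro R hR α hα
    have hRn : E.IsFullyNormalized R := by
      rcases hR with rfl | hR
      · exact isFullyNormalized_top E hTp
      · exact hR.2.1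
    have hRT : R ≤ T := hRn.1
    have hRU : R ≤ U := hRT.trans hTU
    obtain ⟨-, T', hT'⟩ := isFullyAutomized_of_isFullyNormalized E hTp hEsat hRn
    have hfinR : Finite R := finite_of_le hRT
    have hfinA : Finite (E.autGroup R) := inferInstance
    have htop := sylow_sup_pResidual T'
    have hmem : (⟨α, hα⟩ : E.autGroup R) ∈ (T' : Subgroup (E.autGroup R)) ⊔ pResidual p (E.autGroup R) := by
      rw [htop]
      trivial
    -- every element of `Aut_E(R)` is a map of `F₀`
    have hF₀ : ∀ a : E.autGroup R, a ∈ (T' : Subgroup (E.autGroup R)) ⊔ pResidual p (E.autGroup R) →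
        (a : MulAut R) ∈ F₀.autGroup R := by
      intro a ha
      have hle' : (T' : Subgroup (E.autGroup R)) ⊔ pResidual p (E.autGroup R) ≤
          (F₀.autGroup R).subgroupOf (E.autGroup R) := by
        refine sup_le ?_ ?_
        · rw [hT']
          intro b hb
          exact autInducedBy_le_autGroup F₀ hRU (autInducedBy_mono R hTU hb)
        · show Subgroup.closure _ ≤ _
          rw [Subgroup.closure_le]
          intro b hb
          -- an element of order prime to `p`
          have hbF : (b : MulAut R) ∈ F.autGroup R := by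
            rw [mem_autGroup_iff F (hRT.trans hTS)]
            exact hES R (autHom_mem E hRT b.2)
          have h1 : (⟨(b : MulAut R), hbF⟩ : F.autGroup R) ∈ pResidual p (F.autGroup R) := by
            apply mem_pResidual_of_coprime
            have h2 : orderOf (⟨(b : MulAut R), hbF⟩ : F.autGroup R) = orderOf b := by
              rw [← Subgroup.orderOf_coe, ← Subgroup.orderOf_coe b]
            rw [h2]
            exact hb
          exact hidx.2.2 R hRU ⟨_, h1, rfl⟩
      exact hle' ha
    rw [mem_autGroup_iff _ hRT]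
    exact ⟨autHom_mem F₀ hRU (hF₀ _ hmem), hRT, fun x => hRT (α x).2⟩
  intro P φ hφ
  exact (hle P hφ).1

end Cfsg.Agent.S5199
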