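import Cfsg.Statements.S5214
import Cfsg.Agent.Lib.FusionTheory.Normal
import Cfsg.Agent.Lib.SuzukiTwo.HigmanMain
import Cfsg.Agent.Lib.SuzukiTwo.Central

set_option autoImplicit false
open Cfsg

namespace Cfsg.Agent.S5214

open Cfsg.Agent.Lib.FusionTheory.Normal Cfsg.Agent.Lib.FusionTheory.Chain Cfsg.Agent.Lib.Fusion.Basic
open Cfsg.Agent.Lib.Fusion.Saturation2 Cfsg.Agent.Lib.SuzukiTwo

/-- The subgroup of `P ≤ S` of elements with square one, if these are central in `S`. -/
def WW {Ω : Type*} [Group Ω] {S P : Subgroup Ω} (hPS : P ≤ S)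
    (hc : ∀ x : S, x * x = 1 → x ∈ Subgroup.center S) : Subgroup P where
  carrier := {x | x * x = 1}
  one_mem' := by simp
  inv_mem' := by
    intro a ha
    simp only [Set.mem_ofPred_eq] at ha ⊢
    rw [← mul_inv_rev, ha, inv_one]
  mul_mem' := by
    intro a b ha hb
    simp only [Set.mem_ofPred_eq] at ha hb ⊢
    have hb' : (⟨b, hPS b.2⟩ : S) * ⟨b, hPS b.2⟩ = 1 := by
      apply Subtype.ext
      have hb2 := congrArg Subtype.val hb
      exact hb2
    have hbc := hc _ hb'
    have hcomm := (Subgroup.mem_center_iff.mp hbc) ⟨a, hPS a.2⟩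
    have hcomm' : (a : P) * b = b * a := by
      apply Subtype.ext
      have hb2 := congrArg Subtype.val hcomm
      exact hb2
    calc a * b * (a * b) = a * (b * a) * b := by group
      _ = a * (a * b) * b := by rw [← hcomm']
      _ = (a * a) * (b * b) := by group
      _ = 1 := by rw [ha, hb, one_mul]

/-- Let S be a Suzuki 2-group (a finite nonabelian 2-group with more than one involution admitting a cyclic group of automorphisms permuting its involutions regularly). Then S is normal in every saturated fusion system over S (such a group is resistant). -/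
theorem result {Ω : Type*} [Group Ω] {S : Subgroup Ω} [Finite S] (hS : IsPGroup 2 S) (F : Cfsg.FusionSystem S) (hF : F.IsSaturated 2) (hsz : Cfsg.IsSuzukiTwoGroup ↥S) : F.IsNormal S := by
  haveI : Fact (Nat.Prime 2) := ⟨Nat.prime_two⟩
  obtain ⟨K, hK⟩ := Basic.exists_ctx hsz
  have hnc := hsz.2.2.1
  have hmain := HigmanMain.main hsz
  have h1 : ∀ x : S, x * x = 1 → x ∈ Subgroup.center S := fun x hx => hK.invol_center hx
  have h2 : ∀ z ∈ Subgroup.center S, z * z = 1 := fun z hz => Central.center_sq hK hnc hz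
  apply isNormal_top_of_no_essential F hS hF
  intro P hP
  by_contra hne
  have hPS : P ≤ S := hP.1.1
  have hlt : P < S := lt_of_le_of_ne hPS hne
  have hfinP : Finite P := finite_of_le hPS
  have hN := lt_normalizerIn (p := 2) hS hlt
  obtain ⟨-, s, hs, hsP⟩ := SetLike.lt_iff_le_and_exists.1 hN
  apply hsP
  have hsS : s ∈ S := hs.1
  have hsn : s ∈ Subgroup.normalizer (P : Set Ω) := hs.2
  let W : Subgroup P := WW hPS h1
  have hWmem : ∀ x : P, x ∈ W ↔ x * x = 1 := fun x => Iff.rfl
  refine mem_of_isEssential_of_isTower F hS hP hsS hsn (W := ⊤) ?_ ?_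
  · have hbot : IsTower 2 (F.autGroup P) (normAct P hsn) ⊥ :=
      isTower_bot (normAct_mem_autGroup F hPS hsS hsn)
    have hWinv : ∀ ρ ∈ F.autGroup P, ∀ x ∈ W, ρ x ∈ W := by
      intro ρ _ x hx
      rw [hWmem] at hx ⊢
      rw [← map_mul, hx, map_one]
    have hW : IsTower 2 (F.autGroup P) (normAct P hsn) W := by
      refine isTower_step (hS.to_le hPS) hbot ?_ hWinv ?_
      · intro ρ _ x hx
        rw [Subgroup.mem_bot] at hx ⊢
        rw [hx, map_one]
      · intro x hx
        rw [Subgroup.mem_bot, inv_mul_eq_one]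
        apply Subtype.ext
        have hxS : (⟨x, hPS x.2⟩ : S) * ⟨x, hPS x.2⟩ = 1 := by
          apply Subtype.ext
          have hb2 := congrArg Subtype.val ((hWmem x).1 hx)
          exact hb2
        have hc := (Subgroup.mem_center_iff.mp (h1 _ hxS)) ⟨s, hsS⟩
        have hc' : (s : Ω) * x = x * s := congrArg Subtype.val hc
        show (x : Ω) = s * x * s⁻¹
        rw [hc']
        group
    refine isTower_step (hS.to_le hPS) hW hWinv (fun ρ _ x _ => Subgroup.mem_top _) ?_
    intro x _
    rw [hWmem]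
    apply Subtype.ext
    have hcm := hmain.2.1 ⟨x, hPS x.2⟩ ⟨s, hsS⟩⁻¹
    have hsq := congrArg Subtype.val (h2 _ hcm)
    simp only [Subgroup.coe_mul, Subgroup.coe_inv, inv_inv, Subgroup.coe_one, normAct_apply] at hsq ⊢
    simpa only [mul_assoc] using hsq
  · intro τ _ _ h
    ext x
    rw [h x (Subgroup.mem_top _)]
    rfl

end Cfsg.Agent.S5214
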