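import Cfsg.Statements.S5223
import Cfsg.Agent.Lib.Fusion.Alperin
import Cfsg.Agent.Lib.FusionTheory.CoprimeAut

set_option autoImplicit false
open Cfsg

namespace Cfsg.Agent.S5223

open Cfsg.FusionSystem Cfsg.Agent.Lib.Fusion.Basic Cfsg.Agent.Lib.FusionTheory.CoprimeAut in
theorem aut_isPGroup {Ω : Type*} [Group Ω] {S : Subgroup Ω} [Finite S] (p : ℕ) [Fact p.Prime] (hS : IsPGroup p S) (F : Cfsg.FusionSystem S) (n : ℕ) (Q : Fin (n + 1) → Subgroup Ω) (hQ0 : Q 0 = S) (hQn : Q (Fin.last n) = ⊥) (hstep : ∀ i : Fin n, Subgroup.closure {y : Ω | ∃ x ∈ Q i.castSucc, ∃ φ ∈ F.Hom (Subgroup.zpowers x), y = x⁻¹ * φ ⟨x, Subgroup.mem_zpowers x⟩} ≤ Q i.succ)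
    (P : Subgroup Ω) (hP : P ≤ S) : IsPGroup p (F.autGroup P) := by
  have : Finite P := finite_of_le hP
  have : Finite (MulAut P) := inferInstance
  apply isPGroup_of_coprime_trivial
  rintro ⟨α, hα⟩ hcop
  have hcop' : (orderOf α).Coprime p := by
    rwa [Subgroup.orderOf_mk] at hcop
  have hPp : IsPGroup p P := hS.to_le hP
  set A : Subgroup (MulAut P) := Subgroup.zpowers α with hA
  have hAle : A ≤ F.autGroup P := by
    rw [hA, Subgroup.zpowers_le]
    exact hα
  have hcardA : (Nat.card A).Coprime p := by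
    rw [hA, Nat.card_zpowers]
    exact hcop'
  have hinv : ∀ β ∈ A, ∀ u ∈ (⊤ : Subgroup P), β u ∈ (⊤ : Subgroup P) := fun _ _ _ _ => Subgroup.mem_top _
  set D : Subgroup P := commAut A ⊤ with hD
  have hDD : commAut A D = D :=
    commAut_commAut A ⊤ hinv (card_subgroup_coprime hPp hcardA _)
      (by
        have := (hPp.to_subgroup (⊤ : Subgroup P)).isNilpotent
        infer_instance)
  have hchain : ∀ (i : ℕ) (hi : i < n + 1), ∀ d ∈ D, ((d : P) : Ω) ∈ Q ⟨i, hi⟩ := by
    intro i
    induction i with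
    | zero =>
      intro hi d _
      have : Q ⟨0, hi⟩ = S := hQ0
      rw [this]
      exact hP d.2
    | succ i ih =>
      intro hi d hd
      have hi' : i < n := by omega
      have hst := hstep ⟨i, hi'⟩
      rw [← hDD] at hd
      have hle : commAut A D ≤ (Q ⟨i + 1, hi⟩).comap P.subtype := by
        apply commAut_le
        intro β hβ u hu
        have hux : ((u : P) : Ω) ∈ Q ⟨i, by omega⟩ := ih (by omega) u hu
        apply hst
        apply Subgroup.subset_closure
        have hzle : Subgroup.zpowers ((u : P) : Ω) ≤ P := by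
          rw [Subgroup.zpowers_le]
          exact u.2
        refine ⟨(u : Ω), hux, (autHom β).comp (Subgroup.inclusion hzle),
          restrict_mem F hzle (autHom_mem F hP (hAle hβ)), ?_⟩
        simp only [map_mul, map_inv]
        rfl
      exact hle hd
  have hD0 : D = ⊥ := by
    rw [eq_bot_iff]
    intro d hd
    have := hchain n (by omega) d hd
    have h2 : Q ⟨n, by omega⟩ = ⊥ := hQn
    rw [h2, Subgroup.mem_bot] at this
    rw [Subgroup.mem_bot]
    exact Subtype.ext this
  apply Subtype.ext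
  show α = 1
  have h3 := commAut_eq_bot_iff.1 hD0 α (Subgroup.mem_zpowers α)
  ext x
  rw [h3 x (Subgroup.mem_top _)]
  rfl

/-- Let F be a saturated fusion system over a finite p-group S. Suppose there are subgroups Q₀ = S, Q₁, …, Qₙ = 1 (not required to be nested) such that for each i < n the focal subgroup of Qᵢ (generated by the elements x⁻¹φ(x), x ∈ Qᵢ, φ a map of F defined on the cyclic group generated by x) lies in Qᵢ₊₁. Then F is the inner fusion system of S. -/
theorem result {Ω : Type*} [Group Ω] {S : Subgroup Ω} [Finite S] (p : ℕ) [Fact p.Prime] (hS : IsPGroup p S) (F : Cfsg.FusionSystem S) (hF : F.IsSaturated p) (n : ℕ) (Q : Fin (n + 1) → Subgroup Ω) (hQ0 : Q 0 = S) (hQn : Q (Fin.last n) = ⊥) (hstep : ∀ i : Fin n, Subgroup.closure {y : Ω | ∃ x ∈ Q i.castSucc, ∃ φ ∈ F.Hom (Subgroup.zpowers x), y = x⁻¹ * φ ⟨x, Subgroup.mem_zpowers x⟩} ≤ Q i.succ) : ∀ P : Subgroup Ω, F.Hom P = (Cfsg.innerFusionSystem S).Hom P := by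
  intro P
  have := Cfsg.Agent.Lib.Fusion.Alperin.eq_inner_of_isPGroup_aut F hS hF
    (aut_isPGroup p hS F n Q hQ0 hQn hstep)
  rw [this]

end Cfsg.Agent.S5223
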