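import Cfsg.Statements.S5236
import Cfsg.Agent.Lib.FusionTheory.Normal

set_option autoImplicit false
open Cfsg

namespace Cfsg.Agent.S5236

open Cfsg.Agent.Lib.FusionTheory.Normal Cfsg.Agent.Lib.FusionTheory.Chain Cfsg.Agent.Lib.FusionTheory.CoprimeAut Cfsg.Agent.Lib.Fusion.Alperin Cfsg.FusionSystem Cfsg.Agent.Lib.Fusion.Basic
open scoped commutatorElement

theorem omegaOne_le {Ω : Type*} [Group Ω] (p : ℕ) (P : Subgroup Ω) : Cfsg.omegaOne p P ≤ P :=
  (Subgroup.closure_le _).2 fun _ hx => hx.1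

theorem omegaOne_conj {Ω : Type*} [Group Ω] (p : ℕ) (P : Subgroup Ω) {g x : Ω} (hg : g ∈ P) (hx : x ∈ Cfsg.omegaOne p P) :
    g * x * g⁻¹ ∈ Cfsg.omegaOne p P := by
  unfold Cfsg.omegaOne at hx ⊢
  induction hx using Subgroup.closure_induction with
  | mem y hy =>
    apply Subgroup.subset_closure
    refine ⟨P.mul_mem (P.mul_mem hg hy.1) (P.inv_mem hg), ?_⟩
    rw [conj_pow, hy.2]
    simp
  | one => simp
  | mul a b _ _ ha hb =>
    have : g * (a * b) * g⁻¹ = (g * a * g⁻¹) * (g * b * g⁻¹) := by group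
    rw [this]
    exact Subgroup.mul_mem _ ha hb
  | inv a _ ha =>
    have : g * a⁻¹ * g⁻¹ = (g * a * g⁻¹)⁻¹ := by group
    rw [this]
    exact Subgroup.inv_mem _ ha

/-- The direct implication. -/
theorem forward {Ω : Type*} [Group Ω] {S : Subgroup Ω} [Finite S] (p : ℕ) [Fact p.Prime] (hS : IsPGroup p S) (F : Cfsg.FusionSystem S) (P : Subgroup Ω) (hP : F.IsNormal P) :
    ∃ (n : ℕ) (Q : Fin (n + 1) → Subgroup Ω), Q 0 = ⊥ ∧ Q (Fin.last n) = Cfsg.omegaOne p P ∧ Monotone Q ∧ (∀ i : Fin (n + 1), F.StronglyClosed (Q i)) ∧ ∀ i : Fin n, ⁅Q i.succ, P⁆ ≤ Q i.castSucc := by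
  have hPf : Finite P := finite_of_le hP.1
  have hPp : IsPGroup p P := hS.to_le hP.1
  have hnil : Group.IsNilpotent P := hPp.isNilpotent
  obtain ⟨n, hn⟩ := hnil.nilpotent'
  have hΩsc : F.StronglyClosed (Cfsg.omegaOne p P) := by
    refine ⟨(omegaOne_le p P).trans hP.1, fun R hR φ hφ x => ?_⟩
    obtain ⟨β, hβ, hβφ⟩ := IsNormal.exists_aut F hP (hR.trans (omegaOne_le p P)) hφ
    rw [hβφ x]
    have hgen : ∀ y (hy : y ∈ Cfsg.omegaOne p P), ((β ⟨y, omegaOne_le p P hy⟩ : P) : Ω) ∈ Cfsg.omegaOne p P := by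
      intro y hy
      unfold Cfsg.omegaOne at hy
      induction hy using Subgroup.closure_induction with
      | mem y hy =>
        apply Subgroup.subset_closure
        refine ⟨(β ⟨y, hy.1⟩).2, ?_⟩
        have h1 : (⟨y, hy.1⟩ : P) ^ p = 1 := Subtype.ext hy.2
        have h2 : (β ⟨y, hy.1⟩) ^ p = 1 := by rw [← map_pow, h1, map_one]
        exact congrArg Subtype.val h2
      | one =>
        have : (⟨1, P.one_mem⟩ : P) = 1 := rfl
        rw [this, map_one]
        exact Subgroup.one_mem _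
      | mul a b ha hb iha ihb =>
        have : (⟨a * b, omegaOne_le p P (Subgroup.mul_mem _ ha hb)⟩ : P) = ⟨a, omegaOne_le p P ha⟩ * ⟨b, omegaOne_le p P hb⟩ := rfl
        rw [this, map_mul]
        exact Subgroup.mul_mem _ iha ihb
      | inv a ha iha =>
        have : (⟨a⁻¹, omegaOne_le p P (Subgroup.inv_mem _ ha)⟩ : P) = (⟨a, omegaOne_le p P ha⟩ : P)⁻¹ := rfl
        rw [this, map_inv]
        exact Subgroup.inv_mem _ iha
    exact hgen _ (hR x.2)
  refine ⟨n, fun i => Cfsg.omegaOne p P ⊓ (Subgroup.upperCentralSeries P i).map P.subtype, ?_, ?_, ?_, ?_, ?_⟩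
  · show Cfsg.omegaOne p P ⊓ (Subgroup.upperCentralSeries P 0).map P.subtype = ⊥
    rw [Subgroup.upperCentralSeries_zero, Subgroup.map_bot, inf_bot_eq]
  · show Cfsg.omegaOne p P ⊓ (Subgroup.upperCentralSeries P n).map P.subtype = _
    rw [hn, ← MonoidHom.range_eq_map, Subgroup.range_subtype]
    exact inf_eq_left.2 (omegaOne_le p P)
  · intro i j hij
    exact inf_le_inf_left _ (Subgroup.map_mono (Subgroup.upperCentralSeries_mono P hij))
  · intro i
    have h2 := IsNormal.stronglyClosed_of_char F hP (Subgroup.upperCentralSeries P i)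
    refine ⟨inf_le_left.trans hΩsc.1, fun R hR φ hφ x => ⟨hΩsc.2 R (hR.trans inf_le_left) φ hφ x, h2.2 R (hR.trans inf_le_right) φ hφ x⟩⟩
  · intro i
    rw [Subgroup.commutator_le]
    rintro x ⟨hx1, ⟨x', hx', rfl⟩⟩ y hy
    refine ⟨?_, ⁅x', (⟨y, hy⟩ : P)⁆, Subgroup.mem_upperCentralSeries_succ_iff.1 hx' _, rfl⟩
    have e : ⁅P.subtype x', y⁆ = P.subtype x' * (y * (P.subtype x')⁻¹ * y⁻¹) := by
      rw [commutatorElement_def]
      group
    rw [e]
    exact Subgroup.mul_mem _ hx1 (omegaOne_conj p P hy (Subgroup.inv_mem _ hx1))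

/-- The converse: essential subgroups contain `P`. -/
theorem le_essential {Ω : Type*} [Group Ω] {S : Subgroup Ω} [Finite S] (p : ℕ) [Fact p.Prime] (hS : IsPGroup p S) (F : Cfsg.FusionSystem S) (hp : p ≠ 2) (P : Subgroup Ω) (hP : F.StronglyClosed P) (n : ℕ) (Q : Fin (n + 1) → Subgroup Ω) (hQ0 : Q 0 = ⊥) (hQn : Q (Fin.last n) = Cfsg.omegaOne p P) (hsc : ∀ i : Fin (n + 1), F.StronglyClosed (Q i)) (hcomm : ∀ i : Fin n, ⁅Q i.succ, P⁆ ≤ Q i.castSucc) (R : Subgroup Ω) (hR : F.IsEssential p R) : P ≤ R := by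
  have hRS : R ≤ S := hR.1.1
  have hPS := hP.1
  have hfin : Finite R := finite_of_le hRS
  have hRp : IsPGroup p R := hS.to_le hRS
  refine le_of_normalizer_le hS hPS (StronglyClosed.le_normalizer F hP) hRS (fun s hs hn => ?_)
  have hsS := hPS hs
  set c := normAct R hn with hc
  have hcX : c ∈ F.autGroup R := normAct_mem_autGroup F hRS hsS hn
  have hcx : ∀ x : R, ((x⁻¹ * c x : R) : Ω) = ⁅(x : Ω)⁻¹, s⁆ := by
    intro x
    rw [commutatorElement_def, inv_inv]
    show (x : Ω)⁻¹ * (s * (x : Ω) * s⁻¹) = _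
    group
  have hinvQ : ∀ (j : Fin (n + 1)), ∀ ρ ∈ F.autGroup R, ∀ x ∈ (Q j).subgroupOf R, ρ x ∈ (Q j).subgroupOf R := by
    intro j ρ hρ x hx
    exact StronglyClosed.aut_mem F (hsc j) hRS hρ hx
  have hinvP : ∀ ρ ∈ F.autGroup R, ∀ x ∈ P.subgroupOf R, ρ x ∈ P.subgroupOf R := by
    intro ρ hρ x hx
    exact StronglyClosed.aut_mem F hP hRS hρ hx
  have tow : ∀ (j : ℕ) (hj : j ≤ n), IsTower p (F.autGroup R) c ((Q ⟨j, by omega⟩).subgroupOf R) := by
    intro j
    induction j with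
    | zero =>
      intro _
      have : Q ⟨0, by omega⟩ = ⊥ := hQ0
      rw [this, Subgroup.bot_subgroupOf]
      exact isTower_bot hcX
    | succ j ihj =>
      intro hj
      refine isTower_step hRp (ihj (by omega)) (hinvQ _) (hinvQ _) (fun x hx => ?_)
      show ((x⁻¹ * c x : R) : Ω) ∈ Q ⟨j, by omega⟩
      rw [hcx]
      have h1 := hcomm ⟨j, by omega⟩
      apply h1
      apply Subgroup.commutator_mem_commutator
      · exact Subgroup.inv_mem _ hx
      · exact hs
  have tow1 := tow n le_rfl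
  have hlast : Q ⟨n, by omega⟩ = Cfsg.omegaOne p P := hQn
  rw [hlast] at tow1
  -- the jump through Thompson's lemma
  have tow2 : IsTower p (F.autGroup R) c (P.subgroupOf R) := by
    refine tow1.of_fix (fun τ hτ hcop hfix x hx => ?_)
    have hT : IsPGroup p (P.subgroupOf R) := hRp.to_subgroup _
    set τ' := restrictAut τ (P.subgroupOf R) (hinvP τ hτ) (hinvP τ⁻¹ ((F.autGroup R).inv_mem hτ)) with hτ'
    have hτ1 : τ' = 1 := by
      apply Cfsg.Agent.Lib.PGroups.Critical.eq_one_of_fixes_omega hp hT τ'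
        (coprime_orderOf_restrictAut _ _ _ _ hcop)
      intro y hy
      apply Subtype.ext
      show τ y = y
      apply hfix
      show (((y : R)) : Ω) ∈ Cfsg.omegaOne p P
      apply Subgroup.subset_closure
      refine ⟨y.2, ?_⟩
      have := congrArg (fun t : ↥(P.subgroupOf R) => (((t : R)) : Ω)) hy
      simpa using this
    have := congrArg Subtype.val (congrArg (fun f : MulAut ↥(P.subgroupOf R) => f ⟨x, hx⟩) hτ1)
    exact this
  have tow3 : IsTower p (F.autGroup R) c ⊤ := by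
    refine isTower_step hRp tow2 hinvP (fun _ _ _ _ => Subgroup.mem_top _) (fun x _ => ?_)
    show ((x⁻¹ * c x : R) : Ω) ∈ P
    rw [hcx, commutatorElement_def]
    refine P.mul_mem ?_ (P.inv_mem hs)
    have := StronglyClosed.conj_mem F hP (S.inv_mem (hRS x.2)) hs
    simpa using this
  refine mem_of_isEssential_of_isTower F hS hR hsS hn tow3 (fun τ _ _ h => ?_)
  ext x
  rw [h x (Subgroup.mem_top _)]
  rfl

/-- Let p be an odd prime, F a saturated fusion system over a finite p-group S and P a subgroup of S strongly closed in F. Then P is normal in F if and only if Ω₁(P) (the subgroup generated by the elements of order p of P) has a chain of subgroups 1 = Q₀ ≤ Q₁ ≤ ⋯ ≤ Qₙ = Ω₁(P), each strongly closed in F, with [Qᵢ₊₁, P] ≤ Qᵢ for all i. -/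
theorem result {Ω : Type*} [Group Ω] {S : Subgroup Ω} [Finite S] (p : ℕ) [Fact p.Prime] (hS : IsPGroup p S) (F : Cfsg.FusionSystem S) (hF : F.IsSaturated p) (hp : p ≠ 2) (P : Subgroup Ω) (hP : F.StronglyClosed P) : F.IsNormal P ↔ ∃ (n : ℕ) (Q : Fin (n + 1) → Subgroup Ω), Q 0 = ⊥ ∧ Q (Fin.last n) = Cfsg.omegaOne p P ∧ Monotone Q ∧ (∀ i : Fin (n + 1), F.StronglyClosed (Q i)) ∧ ∀ i : Fin n, ⁅Q i.succ, P⁆ ≤ Q i.castSucc := by
  constructor
  · exact forward p hS F P
  · rintro ⟨n, Q, hQ0, hQn, -, hsc, hcomm⟩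
    apply isNormal_of_invariant F hS hF hP.1
    rintro R (rfl | hR)
    · exact ⟨hP.1, fun α hα x hx => StronglyClosed.aut_mem F hP le_rfl hα hx⟩
    · exact ⟨le_essential p hS F hp P hP n Q hQ0 hQn hsc hcomm R hR,
        fun α hα x hx => StronglyClosed.aut_mem F hP hR.1.1 hα hx⟩

end Cfsg.Agent.S5236
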