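import Cfsg.Statements.S5244
import Cfsg.Agent.Lib.H29.AbIndexF

set_option autoImplicit false
open Cfsg

namespace Cfsg.Agent.S5244


/-- Let p be an odd prime, S a finite nonabelian p-group with a unique abelian subgroup A of index p, and F a saturated fusion system over S with no nontrivial normal subgroup (O_p(F) = 1) in which A is not F-essential. Then some subgroup Z(S)⟨x⟩ with x ∈ S outside A is F-essential, the centre Z(S) is contained in the commutator subgroup of S, and S has maximal nilpotency class (if S has order pⁿ with n ≥ 3, the term of index n − 2 of its lower central series, counting S itself as the term of index 0, is nontrivial). -/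
theorem result {Ω : Type*} [Group Ω] {S : Subgroup Ω} [Finite S] (p : ℕ) [Fact p.Prime] (hS : IsPGroup p S) (F : Cfsg.FusionSystem S) (hF : F.IsSaturated p) (hp : p ≠ 2) (hna : ¬ IsMulCommutative ↥S) (A : Subgroup Ω) (hA : A ≤ S ∧ IsMulCommutative ↥A ∧ (A.subgroupOf S).index = p) (huniq : ∀ B : Subgroup Ω, B ≤ S → IsMulCommutative ↥B → (B.subgroupOf S).index = p → B = A) (hcore : F.core = ⊥) (hAe : ¬ F.IsEssential p A) : (∃ x ∈ S, x ∉ A ∧ F.IsEssential p ((S ⊓ Subgroup.centralizer (S : Set Ω)) ⊔ Subgroup.zpowers x)) ∧ (S ⊓ Subgroup.centralizer (S : Set Ω)) ≤ (commutator ↥S).map S.subtype ∧ ∀ n : ℕ, Nat.card S = p ^ n → 3 ≤ n → Subgroup.lowerCentralSeries S (n - 2) ≠ ⊥ := by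
  have h : Cfsg.Agent.Lib.H29.AbIndexB.Sit p S A := by
    refine ⟨hS, hA.1, ?_, hA.2.2, ?_⟩
    · intro a ha b hb
      have := hA.2.1.is_comm.comm ⟨a, ha⟩ ⟨b, hb⟩
      exact congrArg Subtype.val this
    · by_contra hcon
      push Not at hcon
      exact hna ⟨⟨fun a b => Subtype.ext (hcon a a.2 b b.2)⟩⟩
  have huniq' : ∀ B : Subgroup Ω, B ≤ S → (∀ a ∈ B, ∀ b ∈ B, a * b = b * a) → (B.subgroupOf S).index = p → B = A := by
    intro B hBS hBc hBi
    exact huniq B hBS ⟨⟨fun a b => Subtype.ext (hBc a a.2 b b.2)⟩⟩ hBi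
  exact Cfsg.Agent.Lib.H29.AbIndexF.main F hF h hp huniq' hcore hAe

end Cfsg.Agent.S5244
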