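import Cfsg.Statements.S5245
import Cfsg.Agent.Lib.Fusion.Sparse
-- import your own Cfsg.Agent.* helpers here

set_option autoImplicit false
open Cfsg

namespace Cfsg.Agent.S5245

/-- Let F be an extremely sparse fusion system over a finite p-group S (saturated, not the inner system, and every saturated fusion system over any subgroup T of S contained in F is F itself or the inner system of T). Then S is normal in F, the focal and hyperfocal subgroups of F are both S, and Aut_F(S) is generated by the inner automorphisms of S together with a single automorphism of prime order q ≠ p (F is the fusion system of the semidirect product of S by a cyclic group of prime order). -/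
theorem result {Ω : Type*} [Group Ω] {S : Subgroup Ω} [Finite S] (p : ℕ) [Fact p.Prime] (hS : IsPGroup p S) (F : Cfsg.FusionSystem S) (hF : F.IsSaturated p) (hxs : ¬ (∀ P : Subgroup Ω, F.Hom P = (Cfsg.innerFusionSystem S).Hom P) ∧ ∀ (T : Subgroup Ω) (E : Cfsg.FusionSystem T), E.IsSaturated p → E.IsSubsystemOf F → (T = S ∧ ∀ P : Subgroup Ω, E.Hom P = F.Hom P) ∨ (∀ P : Subgroup Ω, E.Hom P = (Cfsg.innerFusionSystem T).Hom P)) : F.IsNormal S ∧ F.focalSubgroup = S ∧ F.hyperfocalSubgroup p = S ∧ ∃ (q : ℕ) (β : MulAut ↥S), q.Prime ∧ q ≠ p ∧ β ∈ F.autGroup S ∧ orderOf β = q ∧ (F.autGroup S : Subgroup (MulAut ↥S)) = Cfsg.Inn ↥S ⊔ Subgroup.zpowers β := by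
  exact Cfsg.Agent.Lib.Fusion.Sparse.sparse_main hS F hF hxs

end Cfsg.Agent.S5245
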