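import Cfsg.Statements.S5246
import Cfsg.Agent.Lib.FusionTheory.PStable
import Cfsg.Agent.Lib.Fusion.GroupSystem

set_option autoImplicit false
open Cfsg

namespace Cfsg.Agent.S5246

open Cfsg.FusionSystem Cfsg.Agent.Lib.Fusion.Basic Cfsg.Agent.Lib.FusionTheory.PStable Cfsg.Agent.Lib.Fusion.GroupSystem
open Cfsg.Agent.Lib.Core.Basic
open scoped commutatorElement

section

variable {Ω : Type*} [Group Ω]

theorem quad_of_comm {Q : Subgroup Ω} {g : Ω} (hg : g ∈ Subgroup.normalizer (Q : Set Ω))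
    (h : ⁅⁅Q, Subgroup.zpowers g⁆, Subgroup.zpowers g⁆ = ⊥) : IsQuad (normAct Q hg) := by
  intro a
  have h1 : ⁅⁅(a : Ω), g⁆, g⁆ = 1 := by
    have h2 : ⁅⁅(a : Ω), g⁆, g⁆ ∈ ⁅⁅Q, Subgroup.zpowers g⁆, Subgroup.zpowers g⁆ :=
      Subgroup.commutator_mem_commutator (Subgroup.commutator_mem_commutator a.2 (Subgroup.mem_zpowers g))
        (Subgroup.mem_zpowers g)
    rw [h] at h2
    exact Subgroup.mem_bot.1 h2
  rw [commutatorElement_eq_one_iff_mul_comm, commutatorElement_def] at h1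
  apply Subtype.ext
  show (g * (a : Ω)⁻¹ * g⁻¹) * a * (g * (a : Ω)⁻¹ * g⁻¹) * (g * (g * a * g⁻¹) * g⁻¹) = 1
  have h3 : (a : Ω) * g * (a : Ω)⁻¹ = g * (a * g * (a : Ω)⁻¹ * g⁻¹) := by
    rw [← h1]
    group
  calc (g * (a : Ω)⁻¹ * g⁻¹) * a * (g * (a : Ω)⁻¹ * g⁻¹) * (g * (g * a * g⁻¹) * g⁻¹)
      = g * (a : Ω)⁻¹ * g⁻¹ * ((a : Ω) * g * (a : Ω)⁻¹) * g * a * g⁻¹ * g⁻¹ := by group
    _ = g * (a : Ω)⁻¹ * g⁻¹ * (g * (a * g * (a : Ω)⁻¹ * g⁻¹)) * g * a * g⁻¹ * g⁻¹ :=
      congrArg (fun t => g * (a : Ω)⁻¹ * g⁻¹ * t * g * a * g⁻¹ * g⁻¹) h3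
    _ = 1 := by group

theorem comm_of_quad [Finite Ω] {Q : Subgroup Ω} {g : Ω} (hg : g ∈ Subgroup.normalizer (Q : Set Ω))
    (h : IsQuad (normAct Q hg)) : ⁅⁅Q, Subgroup.zpowers g⁆, Subgroup.zpowers g⁆ = ⊥ := by
  have key : ⁅Q, Subgroup.zpowers g⁆ ≤ Subgroup.centralizer ({g} : Set Ω) := by
    rw [Subgroup.commutator_le]
    intro a ha y hy
    obtain ⟨n, rfl⟩ := (mem_powers_iff_mem_zpowers.2 hy)
    set χ := normAct Q hg with hχ
    have hpow : ∀ (n : ℕ) (b : Q), (((χ ^ n) b : Q) : Ω) = g ^ n * b * (g ^ n)⁻¹ := by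
      intro n b
      have : χ ^ n = Q.normalizerMonoidHom (⟨g, hg⟩ ^ n) := by
        rw [map_pow]
        rfl
      rw [this]
      rfl
    let b : Q := ⟨a, ha⟩⁻¹
    have h1 := h.pow_apply b n
    have h2 := hpow n b
    rw [h1] at h2
    have hu : χ (b⁻¹ * χ b) = b⁻¹ * χ b := h.fix b
    set u := b⁻¹ * χ b with hudef
    have hcom : (u : Ω) * g = g * u := by
      have h3 : g * (u : Ω) * g⁻¹ = u := congrArg Subtype.val hu
      calc (u : Ω) * g = g * u * g⁻¹ * g := by rw [h3]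
        _ = g * u := by group
    have e : ⁅a, g ^ n⁆ = ((u ^ n : Q) : Ω) := by
      have h3 : g ^ n * a⁻¹ * (g ^ n)⁻¹ = a⁻¹ * ((u ^ n : Q) : Ω) := by
        have := h2.symm
        simpa [b] using this
      rw [commutatorElement_def]
      calc a * g ^ n * a⁻¹ * (g ^ n)⁻¹ = a * (g ^ n * a⁻¹ * (g ^ n)⁻¹) := by group
        _ = a * (a⁻¹ * ((u ^ n : Q) : Ω)) := by rw [h3]
        _ = _ := by group
    rw [e, Subgroup.mem_centralizer_iff]
    intro x hx
    have hx' : x = g := hx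
    rw [hx']
    have : Commute (u : Ω) g := hcom
    have h5 := (this.pow_left n).eq
    push_cast
    exact h5.symm
  rw [eq_bot_iff, Subgroup.commutator_le]
  intro w hw y hy
  have hw' := key hw
  obtain ⟨k, rfl⟩ := Subgroup.mem_zpowers_iff.1 hy
  have h1 : Commute w g := (Subgroup.mem_centralizer_iff.1 hw' g rfl).symm
  have h2 := (h1.zpow_right k).eq
  rw [Subgroup.mem_bot, commutatorElement_def, h2]
  group

end

/-- Let p be an odd prime, G a finite group and P a Sylow p-subgroup. Call a fusion system F p-stable when, for every fully normalized subgroup Q and every χ ∈ Aut_F(Q) acting quadratically on Q (that is, χ fixes a⁻¹χ(a) for every a ∈ Q; equivalently χ(a⁻¹)·a·χ(a⁻¹)·χ(χ(a)) = 1), χ lies in O_p(Aut_F(Q)). Then G is p-stable in the normalizer form (for every p-subgroup Q and x ∈ N_G(Q) with [Q, x, x] = 1, the image of x lies in O_p(N_G(Q)/C_G(Q))) if and only if the fusion system of G on P is p-stable. -/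
theorem result {Ω : Type*} [Group Ω] [Finite Ω] {p : ℕ} [Fact p.Prime] (hp : p ≠ 2) (P : Sylow p Ω) : Cfsg.IsNormalizerPStable p Ω ↔ (∀ Q : Subgroup Ω, (Cfsg.groupFusionSystem (P : Subgroup Ω)).IsFullyNormalized Q → ∀ χ : MulAut ↥Q, χ ∈ (Cfsg.groupFusionSystem (P : Subgroup Ω)).autGroup Q → (∀ a : ↥Q, (χ a⁻¹) * a * (χ a⁻¹) * (χ (χ a)) = 1) → χ ∈ ((Cfsg.pCore p ↥((Cfsg.groupFusionSystem (P : Subgroup Ω)).autGroup Q)).map ((Cfsg.groupFusionSystem (P : Subgroup Ω)).autGroup Q).subtype : Subgroup (MulAut ↥Q))) := by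
  -- the system over the whole group
  have hfin : Finite (⊤ : Subgroup Ω) := inferInstance
  let F₁ := Cfsg.groupFusionSystem (⊤ : Subgroup Ω)
  let F := Cfsg.groupFusionSystem (P : Subgroup Ω)
  have hfinP : Finite (P : Subgroup Ω) := inferInstance
  have hA₁ : ∀ Q : Subgroup Ω, F₁.autGroup Q = autInducedBy ⊤ Q := fun Q => autGroup_eq le_top
  have hA : ∀ Q : Subgroup Ω, Q ≤ (P : Subgroup Ω) → F.autGroup Q = autInducedBy ⊤ Q := fun Q hQ => autGroup_eq hQ
  have key : ∀ (Q : Subgroup Ω) (X Y : Subgroup (MulAut Q)) (χ : MulAut Q), X = Y →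
      χ ∈ ((Cfsg.pCore p X).map X.subtype : Subgroup (MulAut Q)) → χ ∈ ((Cfsg.pCore p Y).map Y.subtype : Subgroup (MulAut Q)) := by
    rintro Q _ _ χ rfl h
    exact h
  -- the quotient
  have hquot : ∀ (Q : Subgroup Ω) (g : Ω) (hg : g ∈ Subgroup.normalizer (Q : Set Ω)),
      (QuotientGroup.mk (s := (Subgroup.centralizer (Q : Set Ω)).subgroupOf (Subgroup.normalizer (Q : Set Ω)))
          (⟨g, hg⟩ : ↥(Subgroup.normalizer (Q : Set Ω)))) ∈
        Cfsg.pCore p (↥(Subgroup.normalizer (Q : Set Ω)) ⧸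
          (Subgroup.centralizer (Q : Set Ω)).subgroupOf (Subgroup.normalizer (Q : Set Ω))) ↔
      normAct Q hg ∈ ((Cfsg.pCore p (F₁.autGroup Q)).map (F₁.autGroup Q).subtype : Subgroup (MulAut Q)) := by
    intro Q g hg
    let f := Q.normalizerMonoidHom
    have hr : f.range = F₁.autGroup Q := by
      rw [hA₁ Q]
      ext α
      rw [mem_autInducedBy_iff]
      constructor
      · rintro ⟨⟨n, hn⟩, rfl⟩
        exact ⟨n, trivial, fun x => rfl⟩
      · rintro ⟨n, -, hn⟩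
        have hN := mem_normalizer_of_conj Q α n hn
        refine ⟨⟨n, hN⟩, ?_⟩
        ext x
        exact (hn x).symm
    let E : (↥(Subgroup.normalizer (Q : Set Ω)) ⧸
          (Subgroup.centralizer (Q : Set Ω)).subgroupOf (Subgroup.normalizer (Q : Set Ω))) ≃* F₁.autGroup Q :=
      (QuotientGroup.quotientMulEquivOfEq (Subgroup.normalizerMonoidHom_ker Q).symm).trans
        ((QuotientGroup.quotientKerEquivRange f).trans (MulEquiv.subgroupCongr hr))
    have hE : ∀ n : ↥(Subgroup.normalizer (Q : Set Ω)), ((E (QuotientGroup.mk n) : F₁.autGroup Q) : MulAut Q) = f n :=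
      fun n => rfl
    have hfinN : Finite (↥(Subgroup.normalizer (Q : Set Ω)) ⧸
          (Subgroup.centralizer (Q : Set Ω)).subgroupOf (Subgroup.normalizer (Q : Set Ω))) := inferInstance
    have hmap := map_pCore_equiv (p := p) E
    constructor
    · intro h
      have h1 : E (QuotientGroup.mk ⟨g, hg⟩) ∈ Cfsg.pCore p (F₁.autGroup Q) := by
        rw [← hmap]
        exact ⟨_, h, rfl⟩
      exact ⟨_, h1, rfl⟩
    · rintro ⟨y, hy, hyg⟩
      have h1 : y = E (QuotientGroup.mk ⟨g, hg⟩) := Subtype.ext hyg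
      rw [← hmap, h1] at hy
      obtain ⟨w, hw, hwy⟩ := hy
      have h2 : w = QuotientGroup.mk ⟨g, hg⟩ := E.injective hwy
      rw [← h2]
      exact hw
  constructor
  · -- from the group to the system
    intro hst Q hQ χ hχ hq
    have hQP : Q ≤ (P : Subgroup Ω) := hQ.1
    obtain ⟨g, hg⟩ := (conj_aut_iff hQP χ).1 hχ
    have hN := mem_normalizer_of_conj Q χ g hg
    have hχg : χ = normAct Q hN := by
      ext x
      exact hg x
    have hQp : IsPGroup p Q := P.isPGroup'.to_le hQP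
    have h1 := hst Q hQp g hN (comm_of_quad hN (hχg ▸ hq))
    have h2 := (hquot Q g hN).1 h1
    rw [← hχg] at h2
    exact key Q _ _ χ ((hA₁ Q).trans (hA Q hQP).symm) h2
  · -- from the system to the group
    intro hst Q hQp g hg hcomm
    rw [hquot]
    have hq := quad_of_comm hg hcomm
    -- a `G`-conjugate inside `P`
    obtain ⟨P', hP'⟩ := hQp.exists_le_sylow
    obtain ⟨z, hz⟩ := MulAction.exists_smul_eq Ω P' P
    have hle : (conjHom Q z).range ≤ (P : Subgroup Ω) := by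
      rintro _ ⟨x, rfl⟩
      have h1 : (x : Ω) ∈ (P' : Subgroup Ω) := hP' x.2
      rw [← hz]
      exact ⟨x, h1, rfl⟩
    have hc1 : F₁.IsConj Q (conjHom Q z).range := ⟨conjHom Q z, F₁.conj_mem le_top trivial, rfl⟩
    obtain ⟨Q₃, hQ₂₃, hQ₃n⟩ := exists_isFullyNormalized F hle
    have hc2 : F₁.IsConj (conjHom Q z).range Q₃ := by
      obtain ⟨φ, ⟨-, -, g₂, hg₂⟩, rfl⟩ := hQ₂₃
      exact ⟨φ, ⟨le_top, fun _ => trivial, g₂, hg₂⟩, rfl⟩
    obtain ⟨e, he⟩ := (isConj_iff F₁).1 (isConj_trans F₁ hc1 hc2)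
    have hχ : normAct Q hg ∈ F₁.autGroup Q := by
      rw [hA₁]
      exact normAct_mem_autInducedBy ⊤ Q hg trivial
    have hχ₃ := congr_mem_autGroup F₁ he hχ
    have hQ₃P : Q₃ ≤ (P : Subgroup Ω) := hQ₃n.1
    have h3 := hst Q₃ hQ₃n (MulAut.congr e (normAct Q hg))
      (by
        rw [hA Q₃ hQ₃P, ← hA₁]
        exact hχ₃) (hq.congr e)
    have h4 := key Q₃ _ _ _ ((hA Q₃ hQ₃P).trans (hA₁ Q₃).symm) h3
    have h5 := pCore_congr F₁ le_top (isoHom_symm_mem F₁ he) h4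
    rwa [Cfsg.Agent.Lib.Fusion.KNorm.congr_symm_congr] at h5

end Cfsg.Agent.S5246
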