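import Cfsg.Statements.S5251
import Cfsg.Agent.Lib.FusionTheory.PStable
import Cfsg.Agent.Lib.FusionTheory.Normal
import Cfsg.Agent.Lib.FusionTheory.Centric

set_option autoImplicit false
open Cfsg

namespace Cfsg.Agent.S5251

open Cfsg.FusionSystem Cfsg.Agent.Lib.Fusion.Basic Cfsg.Agent.Lib.FusionTheory.PStable
open Cfsg.Agent.Lib.FusionTheory.Chain Cfsg.Agent.Lib.FusionTheory.Normal Cfsg.Agent.Lib.Fusion.Saturation
open Cfsg.Agent.Lib.Fusion.Saturation2 Cfsg.Agent.Lib.FusionTheory.Centric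

section

variable {Ω : Type*} [Group Ω] {S : Subgroup Ω} {p : ℕ} [Fact p.Prime] [Finite S]

/-- If `P` normalizes `U` and `N_U(P) ≤ P`, then `U ≤ P`. -/
theorem le_of_normalizer_le' (hS : IsPGroup p S) {U P : Subgroup Ω} (hUS : U ≤ S)
    (hPn : P ≤ Subgroup.normalizer (U : Set Ω))
    (hPS : P ≤ S) (h : ∀ s ∈ U, s ∈ Subgroup.normalizer (P : Set Ω) → s ∈ P) : U ≤ P := by
  classical
  by_contra hc
  have hP_lt : P < U ⊔ P := lt_of_le_of_ne le_sup_right (fun e => hc (le_sup_left.trans e.ge))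
  have hle : U ⊔ P ≤ S := sup_le hUS hPS
  have hf : Finite ↥(U ⊔ P) := finite_of_le hle
  have hp2 : IsPGroup p ↥(U ⊔ P) := hS.to_le hle
  have := lt_normalizerIn (p := p) hp2 hP_lt
  obtain ⟨-, g, hg, hgP⟩ := SetLike.lt_iff_le_and_exists.1 this
  obtain ⟨u, hu, x, hx, hgux⟩ := Cfsg.Agent.Lib.Coprime.Action.exists_mul_of_mem_sup hPn hg.1
  apply hgP
  have hun : u ∈ Subgroup.normalizer (P : Set Ω) := by
    have : u = g * x⁻¹ := by rw [hgux]; group
    rw [this]
    exact Subgroup.mul_mem _ hg.2 (Subgroup.inv_mem _ (Subgroup.le_normalizer hx))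
  rw [hgux]
  exact P.mul_mem (h u hu hun) hx

end


/-- Let F be a saturated fusion system over a finite p-group S, E a normal subsystem of F over T, and P an F-centric subgroup of S such that P ∩ T is not E-centric. Then some F-conjugate P* of P satisfies Out_S(P*) ∩ O_p(Out_F(P*)) ≠ 1: there is an element of N_S(P*) outside P* whose conjugation action on P* lies in O_p(Aut_F(P*)). In particular P is not both centric and radical in F. -/
theorem result {Ω : Type*} [Group Ω] {S : Subgroup Ω} [Finite S] (p : ℕ) [Fact p.Prime] (hS : IsPGroup p S) (F : Cfsg.FusionSystem S) (hF : F.IsSaturated p) {T : Subgroup Ω} (E : Cfsg.FusionSystem T) (hE : E.IsNormalIn F p) (P : Subgroup Ω) (hP : F.IsCentric P) (hPT : ¬ E.IsCentric (P ⊓ T)) : (∃ φ ∈ F.Hom P, ∃ x ∈ S ⊓ Subgroup.normalizer (φ.range : Set Ω), x ∉ φ.range ∧ ∃ α ∈ ((Cfsg.pCore p ↥(F.autGroup φ.range)).map (F.autGroup φ.range).subtype : Subgroup (MulAut ↥φ.range)), ∀ y : ↥φ.range,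 ((α y : ↥φ.range) : Ω) = x * (y : Ω) * x⁻¹) ∧ ¬ F.IsRadical p P := by
  classical
  have hT : F.StronglyClosed T := hE.1.2.2.2.1
  have hTS : T ≤ S := hT.1
  have hPS : P ≤ S := hP.1
  have hTn : S ≤ Subgroup.normalizer (T : Set Ω) := StronglyClosed.le_normalizer F hT
  -- the failure of centricity
  have hRT : P ⊓ T ≤ T := inf_le_right
  have hRS : P ⊓ T ≤ S := hRT.trans hTS
  have hex : ∃ Q : Subgroup Ω, E.IsConj (P ⊓ T) Q ∧ ¬ centralizerIn T Q ≤ Q := by
    by_contra hno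
    push_neg at hno
    exact hPT ⟨hRT, fun Q hQ => hno Q hQ⟩
  obtain ⟨Q, ⟨χ₀, hχ₀, hχ₀r⟩, hQc⟩ := hex
  have hEF : E.IsSubsystemOf F := hE.1.2.2.1
  have hQT : Q ≤ T := by
    rw [← hχ₀r]
    rintro _ ⟨y, rfl⟩
    exact (E.le_of_mem hχ₀).2 y
  obtain ⟨c, hc, hcQ⟩ := SetLike.not_le_iff_exists.1 hQc
  -- a fully normalized conjugate of `P ⊓ T`
  obtain ⟨R₂, hR₂, hR₂f⟩ := exists_isFullyNormalized F hRS
  have hR₂a := isFullyAutomized_of_isFullyNormalized F hS hF hR₂f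
  have hR₂r := isReceptive_of_isFullyNormalized F hS hF hR₂f
  obtain ⟨ψ, hψ, hψv, hψR⟩ := exists_normalizer_map F hS hR₂a hR₂r hR₂
  have hPN : P ≤ normalizerIn S (P ⊓ T) := by
    intro x hx
    refine ⟨hPS hx, Subgroup.mem_normalizer_iff.2 ?_⟩
    intro y
    constructor
    · rintro ⟨hy1, hy2⟩
      exact ⟨P.mul_mem (P.mul_mem hx hy1) (P.inv_mem hx), (Subgroup.mem_normalizer_iff.1 (hTn (hPS hx)) y).1 hy2⟩
    · rintro ⟨hy1, hy2⟩
      refine ⟨?_, (Subgroup.mem_normalizer_iff.1 (hTn (hPS hx)) y).2 hy2⟩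
      have : y = x⁻¹ * (x * y * x⁻¹) * x := by group
      rw [this]
      exact P.mul_mem (P.mul_mem (P.inv_mem hx) hy1) hx
  -- the map on `P`
  set φ : P →* Ω := ψ.comp (Subgroup.inclusion hPN) with hφdef
  have hφ : φ ∈ F.Hom P := restrict_mem F hPN hψ
  have hφinj : Function.Injective φ := F.injective_of_mem hφ
  have hφS : φ.range ≤ S := range_le F hφ
  have hφconj : F.IsConj P φ.range := ⟨φ, hφ, rfl⟩
  have hPc₂ : F.IsCentric φ.range := IsCentric.of_conj F hP hφconj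
  -- `R₂ = φ(P) ⊓ T`
  have hR₂T : R₂ ≤ T := by
    rw [← hψR]
    rintro _ ⟨x, hx, rfl⟩
    have hle : (P ⊓ T) ≤ normalizerIn S (P ⊓ T) := le_normalizerIn hRS
    have hm : ψ.comp (Subgroup.inclusion hle) ∈ F.Hom (P ⊓ T) := restrict_mem F hle hψ
    exact hT.2 (P ⊓ T) hRT _ hm ⟨x, hx⟩
  have hR₂φ : R₂ ≤ φ.range := by
    rw [← hψR]
    rintro _ ⟨x, hx, rfl⟩
    exact ⟨⟨x, hx.1⟩, rfl⟩
  have hinter : φ.range ⊓ T ≤ R₂ := by
    rintro _ ⟨⟨x, rfl⟩, hy⟩
    obtain ⟨φi, hφi, hφiv⟩ := F.inv_mem hφ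
    have hle : Subgroup.zpowers (φ x) ≤ φ.range := by
      rw [Subgroup.zpowers_le]
      exact ⟨x, rfl⟩
    have hm : φi.comp (Subgroup.inclusion hle) ∈ F.Hom (Subgroup.zpowers (φ x)) := restrict_mem F hle hφi
    have hzT : Subgroup.zpowers (φ x) ≤ T := by
      rw [Subgroup.zpowers_le]
      exact hy
    have h1 := hT.2 _ hzT _ hm ⟨φ x, Subgroup.mem_zpowers _⟩
    have h2 : φi ⟨φ x, ⟨x, rfl⟩⟩ = (x : Ω) := hφiv x
    have h3 : (x : Ω) ∈ T := by
      rw [← h2]
      exact h1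
    rw [← hψR]
    exact ⟨⟨x, hPN x.2⟩, ⟨x.2, h3⟩, rfl⟩
  -- the element outside
  have hQR₂ : F.IsConj Q R₂ := by
    exact isConj_trans F (isConj_symm F ⟨χ₀, hEF _ hχ₀, hχ₀r⟩) hR₂
  obtain ⟨χ, hχ, hχr⟩ := hQR₂
  have hQS : Q ≤ S := hQT.trans hTS
  have hcS : c ∈ centralizerIn S Q := ⟨hTS hc.1, hc.2⟩
  have hle₁ : Q ⊔ centralizerIn S Q ≤ extender S Q χ :=
    sup_le (le_extender F hχ) (centralizerIn_le_extender χ)
  obtain ⟨ξ, hξ, hξe⟩ := IsReceptive.exists_extension F hR₂r hχ hχr hle₁ le_sup_left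
  set d : Ω := ξ ⟨c, Subgroup.mem_sup_right hcS⟩ with hd
  have hdT : d ∈ T := by
    have hle : Subgroup.zpowers c ≤ Q ⊔ centralizerIn S Q := by
      rw [Subgroup.zpowers_le]
      exact Subgroup.mem_sup_right hcS
    have hm : ξ.comp (Subgroup.inclusion hle) ∈ F.Hom (Subgroup.zpowers c) := restrict_mem F hle hξ
    have hzT : Subgroup.zpowers c ≤ T := by
      rw [Subgroup.zpowers_le]
      exact hc.1
    exact hT.2 _ hzT _ hm ⟨c, Subgroup.mem_zpowers _⟩
  have hξinj := F.injective_of_mem hξ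
  have hdR : d ∉ R₂ := by
    intro hdm
    rw [← hχr] at hdm
    obtain ⟨q, hq⟩ := hdm
    have h1 := hξe q
    apply hcQ
    have h2 : ξ ⟨q, Subgroup.mem_sup_left q.2⟩ = ξ ⟨c, Subgroup.mem_sup_right hcS⟩ := by
      rw [h1]
      exact hq
    have h3 := congrArg Subtype.val (hξinj h2)
    have h4 : (q : Ω) = c := h3
    rw [← h4]
    exact q.2
  have hdC : d ∈ Subgroup.centralizer (R₂ : Set Ω) := by
    rw [Subgroup.mem_centralizer_iff]
    intro r hr
    have hr' : r ∈ χ.range := by rw [hχr]; exact hr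
    obtain ⟨q, rfl⟩ := hr'
    have h1 := hξe q
    rw [← h1]
    have hq : Commute (q : Ω) c := (Subgroup.mem_centralizer_iff.1 hc.2 q q.2)
    have := map_mul ξ (⟨q, Subgroup.mem_sup_left q.2⟩ : ↥(Q ⊔ centralizerIn S Q)) ⟨c, Subgroup.mem_sup_right hcS⟩
    have h2 := map_mul ξ (⟨c, Subgroup.mem_sup_right hcS⟩ : ↥(Q ⊔ centralizerIn S Q)) ⟨q, Subgroup.mem_sup_left q.2⟩
    rw [← this, ← h2]
    congr 1
    apply Subtype.ext
    exact hq
  -- the group `U = C_T(R₂)`
  have hU : (T ⊓ Subgroup.centralizer (R₂ : Set Ω)) ≤ S := inf_le_left.trans hTS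
  have hφ_norm : φ.range ≤ Subgroup.normalizer (((T ⊓ Subgroup.centralizer (R₂ : Set Ω) : Subgroup Ω)) : Set Ω) := by
    intro g hg
    have hgS := hφS hg
    have hgT := hTn hgS
    have hgR : ∀ r, r ∈ R₂ ↔ g * r * g⁻¹ ∈ R₂ := by
      intro r
      have key : ∀ {h : Ω}, h ∈ φ.range → ∀ r ∈ R₂, h * r * h⁻¹ ∈ R₂ := by
        intro h hh r hr
        apply hinter
        exact ⟨φ.range.mul_mem (φ.range.mul_mem hh (hR₂φ hr)) (φ.range.inv_mem hh),
          (Subgroup.mem_normalizer_iff.1 (hTn (hφS hh)) r).1 (hR₂T hr)⟩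
      refine ⟨fun hr => key hg r hr, fun hr => ?_⟩
      have := key (φ.range.inv_mem hg) _ hr
      simpa [mul_assoc] using this
    refine Subgroup.mem_normalizer_iff.2 ?_
    intro y
    constructor
    · rintro ⟨hy1, hy2⟩
      refine ⟨(Subgroup.mem_normalizer_iff.1 hgT y).1 hy1, Subgroup.mem_centralizer_iff.2 ?_⟩
      replace hy2 := Subgroup.mem_centralizer_iff.1 hy2
      intro r hr
      have hr' : g⁻¹ * r * g ∈ R₂ := by
        have hgr := (hgR (g⁻¹ * r * g)).2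
        apply hgr
        have he : g * (g⁻¹ * r * g) * g⁻¹ = r := by group
        rw [he]
        exact hr
      have := hy2 _ hr'
      calc r * (g * y * g⁻¹) = g * ((g⁻¹ * r * g) * y) * g⁻¹ := by group
        _ = g * (y * (g⁻¹ * r * g)) * g⁻¹ := by rw [this]
        _ = g * y * g⁻¹ * r := by group
    · rintro ⟨hy1, hy2⟩
      refine ⟨(Subgroup.mem_normalizer_iff.1 hgT y).2 hy1, Subgroup.mem_centralizer_iff.2 ?_⟩
      replace hy2 := Subgroup.mem_centralizer_iff.1 hy2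
      intro r hr
      have hr' := (hgR r).1 hr
      have := hy2 _ hr'
      have h1 : g * (r * y) * g⁻¹ = g * (y * r) * g⁻¹ := by
        calc g * (r * y) * g⁻¹ = (g * r * g⁻¹) * (g * y * g⁻¹) := by group
          _ = (g * y * g⁻¹) * (g * r * g⁻¹) := this
          _ = g * (y * r) * g⁻¹ := by group
      have h2 := mul_left_cancel (mul_right_cancel h1)
      exact h2
  have hnotle : ¬ (T ⊓ Subgroup.centralizer (R₂ : Set Ω)) ≤ φ.range := by
    intro h
    exact hdR (hinter ⟨h ⟨hdT, hdC⟩, hdT⟩)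
  have hex2 : ∃ x ∈ T ⊓ Subgroup.centralizer (R₂ : Set Ω), x ∈ Subgroup.normalizer (φ.range : Set Ω) ∧ x ∉ φ.range := by
    by_contra hno
    push_neg at hno
    exact hnotle (le_of_normalizer_le' hS hU hφ_norm hφS hno)
  obtain ⟨x, ⟨hxT, hxC⟩, hxn, hxP⟩ := hex2
  have hxS : x ∈ S := hTS hxT
  have hfP : Finite ↥φ.range := finite_of_le hφS
  have hpP : IsPGroup p ↥φ.range := hS.to_le hφS
  -- the tower
  have hmem : normAct φ.range hxn ∈ (pCore p (F.autGroup φ.range)).map (F.autGroup φ.range).subtype := by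
    have hc0 := normAct_mem_autGroup F hφS hxS hxn
    have hstep1 : IsTower p (F.autGroup φ.range) (normAct φ.range hxn) (T.subgroupOf φ.range) := by
      refine isTower_step hpP (isTower_bot hc0) ?_ ?_ ?_
      · intro ρ _ y hy
        rw [Subgroup.mem_bot] at hy ⊢
        rw [hy, map_one]
      · intro ρ hρ y hy
        exact StronglyClosed.aut_mem F hT hφS hρ hy
      · intro y hy
        rw [Subgroup.mem_bot]
        have hyR : (y : Ω) ∈ R₂ := hinter ⟨y.2, hy⟩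
        apply Subtype.ext
        have h1 : ((normAct φ.range hxn y : ↥φ.range) : Ω) = x * y * x⁻¹ := rfl
        have h2 : x * (y : Ω) = y * x := Subgroup.mem_centralizer_iff.1 hxC y hyR |>.symm
        show ((y⁻¹ * normAct φ.range hxn y : ↥φ.range) : Ω) = 1
        rw [Subgroup.coe_mul, h1, Subgroup.coe_inv, h2]
        group
    have hstep2 : IsTower p (F.autGroup φ.range) (normAct φ.range hxn) (⊤ : Subgroup ↥φ.range) := by
      refine isTower_step hpP hstep1 ?_ ?_ ?_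
      · intro ρ hρ y hy
        exact StronglyClosed.aut_mem F hT hφS hρ hy
      · intro ρ _ y _
        trivial
      · intro y _
        show ((y⁻¹ * normAct φ.range hxn y : ↥φ.range) : Ω) ∈ T
        have h1 : ((normAct φ.range hxn y : ↥φ.range) : Ω) = x * y * x⁻¹ := rfl
        rw [Subgroup.coe_mul, h1, Subgroup.coe_inv]
        have h3 : (y : Ω)⁻¹ * x * y ∈ T := by
          have := (Subgroup.mem_normalizer_iff.1 (hTn (S.inv_mem (hφS y.2))) x).1 hxT
          simpa using this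
        have : (y : Ω)⁻¹ * (x * y * x⁻¹) = ((y : Ω)⁻¹ * x * y) * x⁻¹ := by group
        rw [this]
        exact T.mul_mem h3 (T.inv_mem hxT)
    refine mem_pCore_of_isTower hpP hstep2 ?_
    intro τ _ _ hfix
    ext y
    rw [hfix y trivial]
    rfl
  refine ⟨⟨φ, hφ, x, ⟨hxS, hxn⟩, hxP, normAct φ.range hxn, hmem, fun y => rfl⟩, ?_⟩
  -- not radical
  intro hrad
  set e : P ≃* φ.range := isoOf φ hφinj rfl with he
  have heM : isoHom e ∈ F.Hom P := isoHom_isoOf_mem F hφ rfl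
  have hm2 := pCore_congr F hφS (isoHom_symm_mem F heM) hmem
  rw [hrad.2] at hm2
  obtain ⟨y, hy⟩ := hm2
  -- conjugation by `e y` agrees with conjugation by `x` on `φ(P)`
  have hcomm : ((e y : φ.range) : Ω)⁻¹ * x ∈ centralizerIn S φ.range := by
    refine ⟨S.mul_mem (S.inv_mem (hφS (e y).2)) hxS, Subgroup.mem_centralizer_iff.2 fun z hz => ?_⟩
    have h1 := congrArg (fun f : MulAut P => f (e.symm ⟨z, hz⟩)) hy
    have h2 : ((e y : φ.range) : Ω) * z * ((e y : φ.range) : Ω)⁻¹ = x * z * x⁻¹ := by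
      have h3 := congrArg e h1
      have h4 := congrArg (Subtype.val) h3
      have h5 : e (e.symm (normAct φ.range hxn (e (e.symm ⟨z, hz⟩)))) = normAct φ.range hxn (e (e.symm ⟨z, hz⟩)) := by simp
      have h6 : (MulAut.conj y : MulAut P) (e.symm ⟨z, hz⟩) = y * e.symm ⟨z, hz⟩ * y⁻¹ := rfl
      have h7 : (e ((MulAut.conj y : MulAut P) (e.symm ⟨z, hz⟩)) : φ.range) = e y * ⟨z, hz⟩ * (e y)⁻¹ := by
        rw [h6]
        simp
      have h8 : MulAut.congr e.symm (normAct φ.range hxn) (e.symm ⟨z, hz⟩) = e.symm (normAct φ.range hxn ⟨z, hz⟩) := by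
        simp [MulAut.congr]
      have h9 := h3
      rw [h7, h8] at h9
      have h10 := congrArg Subtype.val h9
      have h11 : ((normAct φ.range hxn ⟨z, hz⟩ : ↥φ.range) : Ω) = x * z * x⁻¹ := rfl
      simpa [h11] using h10
    calc z * (((e y : φ.range) : Ω)⁻¹ * x)
        = ((e y : φ.range) : Ω)⁻¹ * (((e y : φ.range) : Ω) * z * ((e y : φ.range) : Ω)⁻¹) * x := by group
      _ = ((e y : φ.range) : Ω)⁻¹ * (x * z * x⁻¹) * x := by rw [h2]
      _ = _ := by group
  have hin := hPc₂.2 φ.range (isConj_refl F hφS) hcomm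
  apply hxP
  have : x = ((e y : φ.range) : Ω) * (((e y : φ.range) : Ω)⁻¹ * x) := by group
  rw [this]
  exact φ.range.mul_mem (e y).2 hin

end Cfsg.Agent.S5251
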