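import Cfsg.Statements.S5253
import Cfsg.Agent.Lib.Fusion.WeakClosure
import Cfsg.Agent.Lib.Fusion.QuadPower

set_option autoImplicit false
universe u
open Cfsg

namespace Cfsg.Agent.S5253

/-- Let p be a prime and W a positive characteristic p-functor with Z(Q) ≤ W(Q): W assigns to every finite p-group Q (in a fixed universe) a subgroup W(Q), nontrivial when Q is, carried to W(R) by every isomorphism Q ≅ R, and containing the centre of Q. Suppose that for every finite group G with Sylow p-subgroup P in which W(P) is not normal there is g ∈ P outside O_p(G) with [Z(O_p(G)), g, g] = 1. Then for every saturated fusion system F over a finite p-group S and every normalizer fusion system N of W(S) in F, every p-th power of an element of Z(S) that lies in the centre of N lies in the centre of F. -/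
theorem result {p : ℕ} [Fact p.Prime] (W : ∀ (Q : Type u) [Group Q], Subgroup Q) (hW1 : ∀ (Q : Type u) [Group Q] [Finite Q], IsPGroup p Q → Nontrivial Q → W Q ≠ ⊥) (hW2 : ∀ (Q R : Type u) [Group Q] [Group R] [Finite Q], IsPGroup p Q → ∀ φ : Q ≃* R, (W Q).map φ.toMonoidHom = W R) (hWZ : ∀ (Q : Type u) [Group Q] [Finite Q], IsPGroup p Q → Subgroup.center Q ≤ W Q) (hq : ∀ (G : Type u) [Group G] [Finite G] (P : Sylow p G), ¬ (((W ↥(P : Subgroup G)).map (P : Subgroup G).subtype : Subgroup G)).Normal → ∃ g : G, g ∈ (P : Subgroup G) ∧ g ∉ Cfsg.pCore p G ∧ ⁅⁅Subgroup.center ↥(Cfsg.pCore p G) |>.map (Cfsg.pCore p G).subtype, Subgroup.zpowers g⁆, Subgroup.zpowers g⁆ = ⊥) {Ω : Type u} [Group Ω] {S : Subgroup Ω} [Finite S] (hS : IsPGroup p S) (F : Cfsg.FusionSystem S) (hF : F.IsSaturated p) (N : Cfsg.FusionSystem (Cfsg.FusionSystem.normalizerIn S ((W ↥S).map S.subtype))) (hN : F.IsNormalizerSystem ((W ↥S).map S.subtype) N) : Subgroup.closure ((fun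 z => z ^ p) '' ((S ⊓ Subgroup.centralizer (S : Set Ω) : Subgroup Ω) : Set Ω)) ⊓ N.center ≤ F.center := by
  rintro x ⟨hx1, hx2⟩
  have hpow : ∀ x ∈ Subgroup.closure ((fun z => z ^ p) '' ((S ⊓ Subgroup.centralizer (S : Set Ω) : Subgroup Ω) : Set Ω)), ∃ z ∈ S ⊓ Subgroup.centralizer (S : Set Ω), x = z ^ p := by
    intro x hx1
    induction hx1 using Subgroup.closure_induction with
    | mem y hy =>
      obtain ⟨z, hz, rfl⟩ := hy
      exact ⟨z, hz, rfl⟩
    | one => exact ⟨1, Subgroup.one_mem _, by simp⟩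
    | mul a b _ _ ha hb =>
      obtain ⟨z₁, hz₁, rfl⟩ := ha
      obtain ⟨z₂, hz₂, rfl⟩ := hb
      refine ⟨z₁ * z₂, Subgroup.mul_mem _ hz₁ hz₂, ?_⟩
      have hc : Commute z₁ z₂ := (Subgroup.mem_centralizer_iff.1 hz₂.2 z₁ hz₁.1)
      exact (hc.mul_pow p).symm
    | inv a _ ha =>
      obtain ⟨z₁, hz₁, rfl⟩ := ha
      exact ⟨z₁⁻¹, Subgroup.inv_mem _ hz₁, by simp⟩
  obtain ⟨z, hz, rfl⟩ := hpow x hx1
  refine Cfsg.Agent.Lib.Fusion.WeakClosure.mem_center_of_local W hW2 hWZ hS F hF N hN hx2 ?_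
  intro T hTS hxT hxZ hZT L _ _ P₀ ι hinj hP₀ hcen hxp hxnc
  by_contra hno
  push_neg at hno
  apply hxnc
  have hzT : z ∈ T := hZT hz
  have e : ι ⟨z ^ p, hxT⟩ = (ι ⟨z, hzT⟩) ^ p := by
    rw [← map_pow]
    rfl
  rw [e] at hno ⊢
  have hyP : ι ⟨z, hzT⟩ ∈ (P₀ : Subgroup L) := by
    rw [hP₀]
    exact ⟨_, rfl⟩
  refine Cfsg.Agent.Lib.Fusion.QuadPower.central_power_of_quadratic W hW2 hq _ L rfl P₀ hcen _ hyP ?_ hno
  intro t ht
  rw [hP₀] at ht
  obtain ⟨t', rfl⟩ := ht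
  rw [← map_mul, ← map_mul]
  congr 1
  apply Subtype.ext
  have h1 := Subgroup.mem_centralizer_iff.1 hz.2 (t' : Ω) (hTS t'.2)
  exact h1

end Cfsg.Agent.S5253
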