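import Cfsg.Statements.S5254
import Cfsg.Agent.Lib.FusionTheory.AbelianMaximal

set_option autoImplicit false
open Cfsg

namespace Cfsg.Agent.S5254


/-- Let p be an odd prime, S a finite nonabelian p-group with a unique abelian subgroup A of index p, and F a saturated fusion system over S. Then every F-essential subgroup P is A, or Z(S)⟨x⟩ for some x ∈ S outside A, or (when the second centre Z₂(S) lies in A) Z₂(S)⟨x⟩ for some x ∈ S outside A; and P has index p in its normalizer in S. -/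
theorem result {Ω : Type*} [Group Ω] {S : Subgroup Ω} [Finite S] (p : ℕ) [Fact p.Prime] (hS : IsPGroup p S) (F : Cfsg.FusionSystem S) (hF : F.IsSaturated p) (hp : p ≠ 2) (hna : ¬ IsMulCommutative ↥S) (A : Subgroup Ω) (hA : A ≤ S ∧ IsMulCommutative ↥A ∧ (A.subgroupOf S).index = p) (huniq : ∀ B : Subgroup Ω, B ≤ S → IsMulCommutative ↥B → (B.subgroupOf S).index = p → B = A) (P : Subgroup Ω) (hP : F.IsEssential p P) : (P = A ∨ (∃ x ∈ S, x ∉ A ∧ P = (S ⊓ Subgroup.centralizer (S : Set Ω)) ⊔ Subgroup.zpowers x) ∨ (((upperCentralSeries ↥S 2).map S.subtype) ≤ A ∧ ∃ x ∈ S, x ∉ A ∧ P = ((upperCentralSeries ↥S 2).map S.subtype) ⊔ Subgroup.zpowers x)) ∧ (P.subgroupOf (S ⊓ Subgroup.normalizer (P : Set Ω))).index = p := by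
  classical
  have hA' : Cfsg.Agent.Lib.FusionTheory.AbelianMaximal.AMax p S A :=
    ⟨hA.1, fun a ha b hb => congrArg Subtype.val (hA.2.1.is_comm.comm ⟨a, ha⟩ ⟨b, hb⟩), hA.2.2⟩
  have hna' : ¬ ∀ a ∈ S, ∀ b ∈ S, a * b = b * a := fun h => hna ⟨⟨fun a b => Subtype.ext (h a a.2 b b.2)⟩⟩
  by_cases hPA : P = A
  · subst hPA
    refine ⟨Or.inl rfl, ?_⟩
    have hN : S ⊓ Subgroup.normalizer (P : Set Ω) = S := by
      refine inf_eq_left.2 fun s hs => ?_
      rw [Subgroup.mem_normalizer_iff]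
      intro v
      refine ⟨fun h => hA'.conj_mem hS hs h, fun h => ?_⟩
      have h1 := hA'.conj_mem hS (S.inv_mem hs) h
      have e : s⁻¹ * (s * v * s⁻¹) * s⁻¹⁻¹ = v := by group
      rwa [e] at h1
    rw [hN]
    exact hA.2.2
  · refine ⟨Or.inr ?_, Cfsg.Agent.Lib.FusionTheory.AbelianMaximal.index_of_ess F hA' hS hF hna' hP hPA⟩
    obtain ⟨x, hxP, hxA, hdec, hZ, -, hab, hnab⟩ := Cfsg.Agent.Lib.FusionTheory.AbelianMaximal.ess_structure F hA' hS hF hna' hP hPA
    have hPS : P ≤ S := (Cfsg.Agent.Lib.FusionTheory.Essential.IsEssential.lt F hS hF hP).le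
    have hP2 : P = (P ⊓ A) ⊔ Subgroup.zpowers x := by
      apply le_antisymm
      · intro v hv
        obtain ⟨k, e, he, rfl⟩ := hdec v hv
        rw [sup_comm]
        exact Subgroup.mul_mem_sup (Subgroup.zpow_mem_zpowers x k) he
      · refine sup_le inf_le_left ?_
        rw [Subgroup.zpowers_le]
        exact hxP
    by_cases hPab : ∀ a ∈ P, ∀ b ∈ P, a * b = b * a
    · refine Or.inl ⟨x, hPS hxP, hxA, ?_⟩
      rw [← hab hPab]
      exact hP2
    · obtain ⟨h1, h2, -⟩ := hnab hPab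
      refine Or.inr ⟨h1, x, hPS hxP, hxA, ?_⟩
      rw [← h2]
      exact hP2

end Cfsg.Agent.S5254
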