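import Cfsg.Statements.S5257
import Cfsg.Agent.Lib.FusionTheory.AbelianMaximal

set_option autoImplicit false
open Cfsg

namespace Cfsg.Agent.S5257


/-- Let p be an odd prime, S a finite nonabelian p-group with a unique abelian subgroup A of index p, and F a saturated fusion system over S having an F-essential subgroup other than A. Then the second centre Z₂(S) lies in A; Z(S) ∩ [S, S] has order p; Z(S)[S, S] has index p in A; Z(S) has index p in Z₂(S); and S/Z(S) has maximal nilpotency class (if S/Z(S) has order pᵐ with m ≥ 3 then the term of index m − 2 of the lower central series of S, counting S as index 0, is not contained in Z(S)). -/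
theorem result {Ω : Type*} [Group Ω] {S : Subgroup Ω} [Finite S] (p : ℕ) [Fact p.Prime] (hS : IsPGroup p S) (F : Cfsg.FusionSystem S) (hF : F.IsSaturated p) (hp : p ≠ 2) (hna : ¬ IsMulCommutative ↥S) (A : Subgroup Ω) (hA : A ≤ S ∧ IsMulCommutative ↥A ∧ (A.subgroupOf S).index = p) (huniq : ∀ B : Subgroup Ω, B ≤ S → IsMulCommutative ↥B → (B.subgroupOf S).index = p → B = A) (P : Subgroup Ω) (hP : F.IsEssential p P) (hPA : P ≠ A) : ((upperCentralSeries ↥S 2).map S.subtype) ≤ A ∧ Nat.card ↥((S ⊓ Subgroup.centralizer (S : Set Ω)) ⊓ ((commutator ↥S).map S.subtype)) = p ∧ (((S ⊓ Subgroup.centralizer (S : Set Ω)) ⊔ ((commutator ↥S).map S.subtype)).subgroupOf A).index = p ∧ (((S ⊓ Subgroup.centralizer (S : Set Ω))).subgroupOf ((upperCentralSeries ↥S 2).map S.subtype)).index = p ∧ ∀ m : ℕ, ((S ⊓ Subgroup.centralizer (S : Set Ω)).subgroupOf S).index = p ^ m → 3 ≤ m → ¬ Subgroup.lowerCentralSeries S (m - 2) ≤ (S ⊓ Subgroup.centralizer (S : Set Ω)) := by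
  classical
  have hA' : Cfsg.Agent.Lib.FusionTheory.AbelianMaximal.AMax p S A :=
    ⟨hA.1, fun a ha b hb => congrArg Subtype.val (hA.2.1.is_comm.comm ⟨a, ha⟩ ⟨b, hb⟩), hA.2.2⟩
  have hna' : ¬ ∀ a ∈ S, ∀ b ∈ S, a * b = b * a := fun h => hna ⟨⟨fun a b => Subtype.ext (h a a.2 b b.2)⟩⟩
  have huniq' : ∀ B : Subgroup Ω, B ≤ S → (∀ a ∈ B, ∀ b ∈ B, a * b = b * a) → (B.subgroupOf S).index = p → B = A :=
    fun B hB hab hi => huniq B hB ⟨⟨fun a b => Subtype.ext (hab a a.2 b b.2)⟩⟩ hi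
  obtain ⟨x, hxP, hxA, -, -, -, -, -⟩ := Cfsg.Agent.Lib.FusionTheory.AbelianMaximal.ess_structure F hA' hS hF hna' hP hPA
  have hPS : P ≤ S := (Cfsg.Agent.Lib.FusionTheory.Essential.IsEssential.lt F hS hF hP).le
  have hxS := hPS hxP
  have hZ2 := Cfsg.Agent.Lib.FusionTheory.AbelianMaximal.zz_le F hA' hS hF hna' huniq' hP hPA
  have hidx := Cfsg.Agent.Lib.FusionTheory.AbelianMaximal.zz_index F hA' hS hF hna' huniq' hP hPA
  have hcard := hA'.card_inf_commutator hS hxS hxA hZ2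
  rw [hidx] at hcard
  have hZA := hA'.center_le hS hna'
  have hsup := hA'.index_sup hS hxS hxA hZA
  rw [hcard] at hsup
  exact ⟨hZ2, hcard, hsup, hidx, fun m hm hm3 => hA'.max_class hS hxS hxA hZA hcard m hm hm3⟩

end Cfsg.Agent.S5257
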