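import Cfsg.Statements.S5284
import Cfsg.Agent.Lib.Fusion.SupersolubleAb
-- import your own Cfsg.Agent.* helpers here

set_option autoImplicit false
open Cfsg

namespace Cfsg.Agent.S5284

/-- Let S be a finite abelian p-group. Every saturated fusion system over S is supersoluble (S has a chain of F-strongly closed subgroups from 1 to S with cyclic steps) if and only if the invariants of S are pairwise distinct, that is, S is not isomorphic to a direct product (Z/p^n × Z/p^n) × H with n ≥ 1. -/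
theorem result {Ω : Type*} [Group Ω] {S : Subgroup Ω} [Finite S] (p : ℕ) [Fact p.Prime] (hS : IsPGroup p ↥S) (hab : IsMulCommutative ↥S) : (∀ F : Cfsg.FusionSystem S, F.IsSaturated p → (∃ (m : ℕ) (c : Fin (m + 1) → Subgroup Ω), c 0 = ⊥ ∧ c (Fin.last m) = S ∧ (∀ i : Fin (m + 1), F.StronglyClosed (c i)) ∧ ∀ i : Fin m, c i.castSucc ≤ c i.succ ∧ ∃ x ∈ S, c i.succ = c i.castSucc ⊔ Subgroup.zpowers x)) ↔ ¬ ∃ (n : ℕ) (H : Type) (_ : CommGroup H), 0 < n ∧ Nonempty (↥S ≃* (Multiplicative (ZMod (p ^ n)) × Multiplicative (ZMod (p ^ n))) × H) := by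
  exact Cfsg.Agent.Lib.Fusion.SupersolubleAb.abelian_iff hS hab

end Cfsg.Agent.S5284
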