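import Cfsg.Statements.S5286
import Cfsg.Agent.Lib.FusionTheory.HNNFusion
import Cfsg.Agent.Lib.Fusion.Basic

set_option autoImplicit false
universe u
open Cfsg

namespace Cfsg.Agent.S5286

open Cfsg.Agent.Lib.FusionTheory.HNNFusion Cfsg.Agent.Lib.FusionTheory.HNNFree
open Cfsg.Agent.Lib.Fusion.Basic

/-- Any injective homomorphism from a subgroup extends to a "twisted equivariant" permutation. -/
theorem exists_perm_twist {T : Type u} [Group T] [Finite T] (P : Subgroup T) (θh : P →* T)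
    (hθh : Function.Injective θh) :
    ∃ k : Equiv.Perm T, ∀ (x : P) (y : T), k ((x : T) * y) = θh x * k y := by
  let Q : Subgroup T := θh.range
  let θ : P ≃* Q := MonoidHom.ofInjective hθh
  obtain ⟨A, hA, -⟩ := P.exists_isComplement_right 1
  obtain ⟨B, hB, -⟩ := Q.exists_isComplement_right 1
  have hcard : Nat.card A = Nat.card B := by
    have h1 := hA.card_mul_card
    have h2 := hB.card_mul_card
    have h3 : Nat.card P = Nat.card Q := Nat.card_congr θ.toEquiv
    have h4 : 0 < Nat.card T := Nat.card_pos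
    have h5 : 0 < Nat.card P := Nat.card_pos
    change Nat.card P * Nat.card A = Nat.card T at h1
    change Nat.card Q * Nat.card B = Nat.card T at h2
    rw [← h3, ← h1] at h2
    exact (Nat.eq_of_mul_eq_mul_left h5 h2).symm
  haveI : Finite A := Subtype.finite
  haveI : Finite B := Subtype.finite
  have hb : Nonempty (A ≃ B) := by
    haveI := Fintype.ofFinite A
    haveI := Fintype.ofFinite B
    refine ⟨Fintype.equivOfCardEq ?_⟩
    simpa [Nat.card_eq_fintype_card] using hcard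
  obtain ⟨b⟩ := hb
  let k : Equiv.Perm T := hA.equiv.trans ((θ.toEquiv.prodCongr b).trans hB.equiv.symm)
  refine ⟨k, ?_⟩
  intro x y
  change ((hB.equiv.symm ((θ.toEquiv.prodCongr b) (hA.equiv ((x : T) * y))) : T)) =
    θh x * ((hB.equiv.symm ((θ.toEquiv.prodCongr b) (hA.equiv y)) : T))
  rw [Subgroup.IsComplement.equiv_mul_left]
  simp only [Equiv.prodCongr_apply, Prod.map_apply, Subgroup.IsComplement.equiv_symm_apply]
  have h1 : ((θ.toEquiv (x * (hA.equiv y).1) : Q) : T) =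
      θh x * ((θ.toEquiv (hA.equiv y).1 : Q) : T) := by
    change ((θ (x * (hA.equiv y).1) : Q) : T) = _
    rw [map_mul]
    rfl
  rw [h1, mul_assoc]
  rfl

variable {Ω : Type u} [Group Ω] {S : Subgroup Ω}

/-- The family of partial maps of `S` given by the fusion system. -/
def Mor (F : Cfsg.FusionSystem S) (R : Subgroup S) (ψ : S → S) : Prop :=
  ∃ φ ∈ F.Hom (R.map S.subtype), ∀ r : S, r ∈ R → ∀ hr : (r : Ω) ∈ R.map S.subtype,
    φ ⟨(r : Ω), hr⟩ = (ψ r : Ω)

theorem mem_map_iff' {R : Subgroup S} {x : Ω} :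
    x ∈ R.map S.subtype ↔ ∃ h : x ∈ S, (⟨x, h⟩ : S) ∈ R := by
  constructor
  · rintro ⟨y, hy, rfl⟩
    exact ⟨y.2, hy⟩
  · rintro ⟨h, h2⟩
    exact ⟨⟨x, h⟩, h2, rfl⟩

theorem morSys (F : Cfsg.FusionSystem S) : MorSys (Mor F) where
  comp := by
    rintro R R' ψ ψ' ⟨φ, hφ, hφe⟩ hψ ⟨φ', hφ', hφ'e⟩
    have hvals : ∀ x : R.map S.subtype, φ x ∈ R'.map S.subtype := by
      rintro ⟨x, hx⟩
      obtain ⟨h, h2⟩ := mem_map_iff'.1 hx
      have h3 := hφe ⟨x, h⟩ h2 hx
      change φ ⟨x, hx⟩ ∈ _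
      rw [h3]
      exact Subgroup.mem_map_of_mem _ (hψ _ h2)
    refine ⟨φ'.comp (φ.codRestrict _ hvals), F.comp_mem hφ hφ' hvals, ?_⟩
    intro r hr hr'
    have h3 := hφe r hr hr'
    change φ' ⟨φ ⟨(r : Ω), hr'⟩, hvals _⟩ = _
    have h4 : (⟨φ ⟨(r : Ω), hr'⟩, hvals _⟩ : R'.map S.subtype) =
        ⟨((ψ r : S) : Ω), Subgroup.mem_map_of_mem _ (hψ _ hr)⟩ := Subtype.ext h3
    rw [h4]
    exact hφ'e _ (hψ _ hr) _
  congr := by
    rintro R ψ ψ' ⟨φ, hφ, hφe⟩ h
    refine ⟨φ, hφ, ?_⟩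
    intro r hr hr'
    rw [hφe r hr hr', h r hr]

theorem mor_inv (F : Cfsg.FusionSystem S) {R R' : Subgroup S} {ψ ψ' : S → S}
    (h : Mor F R ψ) (h' : ∀ y ∈ R', ψ' y ∈ R ∧ ψ (ψ' y) = y) : Mor F R' ψ' := by
  obtain ⟨φ, hφ, hφe⟩ := h
  obtain ⟨χ, hχ, hχe⟩ := F.inv_mem hφ
  have hle : R'.map S.subtype ≤ φ.range := by
    rintro _ ⟨y, hy, rfl⟩
    have h1 := h' y hy
    have hm : ((ψ' y : S) : Ω) ∈ R.map S.subtype := Subgroup.mem_map_of_mem _ h1.1
    refine ⟨⟨_, hm⟩, ?_⟩
    have := hφe (ψ' y) h1.1 hm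
    rw [this, h1.2]
    rfl
  refine ⟨χ.comp (Subgroup.inclusion hle), restrict_mem F hle hχ, ?_⟩
  intro r hr hr'
  have h1 := h' r hr
  have hm : ((ψ' r : S) : Ω) ∈ R.map S.subtype := Subgroup.mem_map_of_mem _ h1.1
  have h2 := hφe (ψ' r) h1.1 hm
  rw [h1.2] at h2
  have h3 := hχe ⟨_, hm⟩
  change χ ⟨(r : Ω), _⟩ = _
  have h4 : (⟨(r : Ω), hle hr'⟩ : φ.range) = ⟨φ ⟨_, hm⟩, ⟨⟨_, hm⟩, rfl⟩⟩ := Subtype.ext h2.symm
  rw [h4, h3]

theorem mor_conj (F : Cfsg.FusionSystem S) (t : S) (R : Subgroup S) (ψ : S → S)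
    (h : ∀ x ∈ R, ψ x = t * x * t⁻¹) : Mor F R ψ := by
  refine ⟨Cfsg.conjHom _ (t : Ω), F.conj_mem (Subgroup.map_subtype_le R) t.2, ?_⟩
  intro r hr hr'
  rw [h r hr]
  rfl

/-- The left regular representation. -/
noncomputable def regHom (T : Type u) [Group T] : T →* Equiv.Perm T := MulAction.toPermHom T T

theorem regHom_apply {T : Type u} [Group T] (x y : T) : regHom T x y = x * y := rfl

theorem regHom_inj (T : Type u) [Group T] : Function.Injective (regHom T) := by
  intro x y h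
  have := congrArg (fun k => k 1) h
  simpa [regHom_apply] using this

theorem exists_perm_of_mor (F : Cfsg.FusionSystem S) [Finite S] {P : Subgroup S} {θf : S → S}
    (h : Mor F P θf) : ∃ k : Equiv.Perm S, ∀ x ∈ P, k * regHom S x * k⁻¹ = regHom S (θf x) := by
  obtain ⟨φ, hφ, hφe⟩ := h
  have hmem : ∀ x : P, ((x : S) : Ω) ∈ P.map S.subtype := fun x =>
    Subgroup.mem_map_of_mem _ x.2
  have hval : ∀ x : P, φ ⟨((x : S) : Ω), hmem x⟩ = (θf x : Ω) := fun x => hφe x x.2 (hmem x)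
  let θh : P →* S :=
    { toFun := fun x => θf x
      map_one' := by
        apply Subtype.ext
        have := hval 1
        have h1 : (⟨(((1 : P) : S) : Ω), hmem 1⟩ : P.map S.subtype) = 1 := rfl
        rw [h1, map_one] at this
        exact this.symm
      map_mul' := by
        intro x y
        apply Subtype.ext
        have h1 := hval (x * y)
        have h2 : (⟨(((x * y : P) : S) : Ω), hmem (x * y)⟩ : P.map S.subtype) =
            ⟨((x : S) : Ω), hmem x⟩ * ⟨((y : S) : Ω), hmem y⟩ := rfl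
        rw [h2, map_mul, hval x, hval y] at h1
        exact h1.symm }
  have hθh : Function.Injective θh := by
    intro x y hxy
    have h1 : φ ⟨((x : S) : Ω), hmem x⟩ = φ ⟨((y : S) : Ω), hmem y⟩ := by
      rw [hval x, hval y]
      exact congrArg Subtype.val hxy
    have h2 := F.injective_of_mem hφ h1
    have h3 : ((x : S) : Ω) = ((y : S) : Ω) :=
      congrArg (fun z : P.map S.subtype => (z : Ω)) h2
    exact Subtype.ext (Subtype.ext h3)
  obtain ⟨k, hk⟩ := exists_perm_twist P θh hθh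
  refine ⟨k, ?_⟩
  intro x hx
  apply Equiv.ext
  intro y
  have := hk ⟨x, hx⟩ (k.symm y)
  change k ((x : S) * k.symm y) = θf x * k (k.symm y) at this
  rw [Equiv.apply_symm_apply] at this
  exact this

/-- The iterated HNN extension containing all the letters of a list. -/
theorem stage_list (F : Cfsg.FusionSystem S) (L : List (Subgroup S × (S → S) × Equiv.Perm S)) :
    StageProp (regHom S) (Mor F) L := by
  induction L with
  | nil => exact stageProp_nil (regHom_inj S) (mor_conj F)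
  | cons j L ih =>
    exact stageProp_cons (regHom_inj S) (morSys F) (fun h h' => mor_inv F h h') j L ih

theorem hom_transport (F : Cfsg.FusionSystem S) {P P₁ : Subgroup Ω} (h : P₁ = P)
    {φ' : P₁ →* Ω} {φ : P →* Ω} (hφ' : φ' ∈ F.Hom P₁)
    (he : ∀ (x : Ω) (h₁ : x ∈ P₁) (h₂ : x ∈ P), φ' ⟨x, h₁⟩ = φ ⟨x, h₂⟩) : φ ∈ F.Hom P := by
  subst h
  have : φ' = φ := by
    ext x
    exact he x x.2 x.2
  rwa [← this]


/-- Every fusion system F over a finite p-group S, saturated or not, is realized by a possibly infinite group: there are a group G and an injective homomorphism ι of S into G such that the maps of F are exactly the conjugations by elements of G between subgroups of ι(S), every finite subgroup of G is conjugate to a subgroup of ι(S), and G has a free normal subgroup whose index divides (#S)!. -/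
theorem result {Ω : Type u} [Group Ω] {S : Subgroup Ω} [Finite S] (p : ℕ) [Fact p.Prime] (hS : IsPGroup p ↥S) (F : Cfsg.FusionSystem S) : ∃ (G : Type u) (_ : Group G) (ι : ↥S →* G), F.IsRealizedBy ι ∧ (∀ H : Subgroup G, Finite ↥H → ∃ g : G, ∀ h ∈ H, g * h * g⁻¹ ∈ ι.range) ∧ ∃ N : Subgroup G, N.Normal ∧ IsFreeGroup ↥N ∧ N.index ∣ (Nat.card ↥S).factorial := by
  classical
  haveI : Fintype S := Fintype.ofFinite S
  haveI : Fintype (Subgroup S) := Fintype.ofFinite _
  obtain ⟨G, iG, ι, π, hι, hπι, hgood, hfin, ⟨E, gen, src, hfree⟩, hreal⟩ :=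
    stage_list F (Finset.univ : Finset (Subgroup S × (S → S) × Equiv.Perm S)).toList
  have hall : ∀ (P : Subgroup S) (θf : S → S) (k : Equiv.Perm S), Mor F P θf →
      (∀ x ∈ P, k * regHom S x * k⁻¹ = regHom S (θf x)) →
      ∃ g : G, π g = k ∧ ∀ x ∈ P, ι (θf x) = g * ι x * g⁻¹ := by
    intro P θf k h1 h2
    exact hreal (P, θf, k) (Finset.mem_toList.2 (Finset.mem_univ _)) h1 h2
  have hsurj : Function.Surjective π := by
    intro k
    obtain ⟨g, hg, -⟩ := hall ⊥ id k (mor_conj F 1 ⊥ id (by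
      intro x hx
      rw [Subgroup.mem_bot.1 hx]; simp)) (by
      intro x hx
      rw [Subgroup.mem_bot.1 hx]; simp)
    exact ⟨g, hg⟩
  refine ⟨G, iG, ι, ⟨hι, ?_⟩, hfin, π.ker, inferInstance, isFreeGroup_ker π hsurj hfree, ?_⟩
  · intro P hP φ hφ
    let R : Subgroup S := P.subgroupOf S
    let ψ : S → S := fun x => if hx : (x : Ω) ∈ P then ⟨φ ⟨x, hx⟩, hφ _⟩ else 1
    have hψ : ∀ (x : S) (hx : (x : Ω) ∈ P), ψ x = ⟨φ ⟨x, hx⟩, hφ _⟩ := fun x hx => dif_pos hx
    have hR : ∀ x : S, x ∈ R ↔ (x : Ω) ∈ P := fun x => Subgroup.mem_subgroupOf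
    have hP₁ : R.map S.subtype = P := by
      ext x
      rw [mem_map_iff']
      constructor
      · rintro ⟨h, h2⟩
        exact (hR _).1 h2
      · intro hx
        exact ⟨hP hx, (hR ⟨x, hP hx⟩).2 hx⟩
    constructor
    · intro hφm
      have hle : R.map S.subtype ≤ P := hP₁.le
      have hmor : Mor F R ψ := by
        refine ⟨φ.comp (Subgroup.inclusion hle), restrict_mem F hle hφm, ?_⟩
        intro r hr hr'
        rw [hψ r ((hR r).1 hr)]
        rfl
      obtain ⟨k, hk⟩ := exists_perm_of_mor F hmor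
      obtain ⟨g, -, hg⟩ := hall R ψ k hmor hk
      refine ⟨g, ?_⟩
      intro x
      have h1 := hg ⟨x, hP x.2⟩ ((hR _).2 x.2)
      rw [hψ ⟨x, hP x.2⟩ x.2] at h1
      exact h1
    · rintro ⟨g, hg⟩
      have hmor : Mor F R ψ := by
        apply hgood g R ψ
        intro x hx
        have hx' := (hR x).1 hx
        rw [hψ x hx']
        exact hg ⟨x, hx'⟩
      obtain ⟨φ', hφ', he⟩ := hmor
      refine hom_transport F hP₁ hφ' ?_
      intro x h₁ h₂
      obtain ⟨h, h2⟩ := mem_map_iff'.1 h₁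
      have h3 := he ⟨x, h⟩ h2 h₁
      rw [h3, hψ ⟨x, h⟩ h₂]
  · rw [Subgroup.index_ker, MonoidHom.range_eq_top.2 hsurj]
    rw [Subgroup.card_top, Nat.card_perm]

end Cfsg.Agent.S5286
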