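import Cfsg.Statements.S5298
import Cfsg.Agent.Lib.Fusion.Alperin
import Cfsg.Agent.Lib.FusionTheory.CoprimeAut
import Cfsg.Agent.Lib.Core.Residual

set_option autoImplicit false
universe u
open Cfsg

namespace Cfsg.Agent.S5298

open Cfsg.FusionSystem Cfsg.Agent.Lib.Fusion.Basic Cfsg.Agent.Lib.FusionTheory.CoprimeAut

theorem small_card {Ω : Type u} [Group Ω] (p : ℕ) [hp : Fact p.Prime] {d : Ω} (hd : d ≠ 1) (hs : d ^ smallExp p = 1) :
    Nat.card (Subgroup.zpowers d) = p ∨ Nat.card (Subgroup.zpowers d) = 4 := by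
  rw [Nat.card_zpowers]
  have h1 : orderOf d ∣ smallExp p := orderOf_dvd_of_pow_eq_one hs
  have h2 : orderOf d ≠ 1 := by
    rwa [Ne, orderOf_eq_one_iff]
  by_cases h : p = 2
  · subst h
    have h4 : smallExp 2 = 2 ^ 2 := rfl
    rw [h4] at h1
    obtain ⟨k, hk, hk2⟩ := (Nat.dvd_prime_pow Nat.prime_two).1 h1
    interval_cases k
    · exact absurd hk2 h2
    · left
      simpa using hk2
    · right
      simpa using hk2
  · have hep : smallExp p = p := by simp [smallExp, h]
    rw [hep] at h1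
    left
    exact ((Nat.dvd_prime hp.out).1 h1).resolve_left h2

open scoped commutatorElement in
theorem aut_isPGroup {Ω : Type u} [Group Ω] {S : Subgroup Ω} [Finite S] (p : ℕ) [hpf : Fact p.Prime] (hS : IsPGroup p S)
    (F : Cfsg.FusionSystem S)
    (h : ∀ A B : Subgroup Ω, A ≤ (F.hyperfocalSubgroup p) → B ≤ (F.hyperfocalSubgroup p) → IsCyclic ↥A → (Nat.card ↥A = p ∨ Nat.card ↥A = 4) → IsCyclic ↥B → (Nat.card ↥B = p ∨ Nat.card ↥B = 4) →
      F.homSet A B ⊆ (Cfsg.innerFusionSystem S).Hom A)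
    (P : Subgroup Ω) (hP : P ≤ S) : IsPGroup p (F.autGroup P) := by
  have : Finite P := finite_of_le hP
  have : Finite (MulAut P) := inferInstance
  apply isPGroup_of_coprime_trivial
  rintro ⟨α, hα⟩ hcop
  have hcop' : (orderOf α).Coprime p := by
    rwa [Subgroup.orderOf_mk] at hcop
  by_contra hne
  have hα1 : α ≠ 1 := fun h1 => hne (Subtype.ext h1)
  have hPp : IsPGroup p P := hS.to_le hP
  set A : Subgroup (MulAut P) := Subgroup.zpowers α with hA
  have hAle : A ≤ F.autGroup P := by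
    rw [hA, Subgroup.zpowers_le]
    exact hα
  have hcardA : (Nat.card A).Coprime p := by
    rw [hA, Nat.card_zpowers]
    exact hcop'
  obtain ⟨D, hinv, hE, hDne, hsmall⟩ := exists_small_invariant hPp A hcardA ⟨α, Subgroup.mem_zpowers α, hα1⟩
  -- `D` lies in the hyperfocal subgroup
  have hDhyp : ∀ d ∈ D, ((d : P) : Ω) ∈ F.hyperfocalSubgroup p := by
    have hle : commAut A D ≤ (F.hyperfocalSubgroup p).comap P.subtype := by
      apply commAut_le
      intro β hβ u hu
      apply Subgroup.subset_closure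
      refine ⟨P, ⟨β, hAle hβ⟩, u, hP, ?_, ?_⟩
      · apply Cfsg.Agent.Lib.Core.Residual.mem_pResidual_of_coprime
        rw [Subgroup.orderOf_mk]
        exact Nat.Coprime.coprime_dvd_left (Subgroup.orderOf_dvd_natCard A hβ) hcardA
      · simp
    rw [hE] at hle
    exact hle
  -- elements of `D` move by `S`-conjugation
  have hconj : ∀ β ∈ A, ∀ d ∈ D, ∃ s ∈ S, ((β d : P) : Ω) = s * (d : Ω) * s⁻¹ := by
    intro β hβ d hd
    by_cases hd1 : d = 1
    · refine ⟨1, S.one_mem, ?_⟩
      subst hd1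
      simp
    have hne1 : ((d : P) : Ω) ≠ 1 := fun h0 => hd1 (Subtype.ext h0)
    have hβd : β d ∈ D := hinv β hβ d hd
    have hne2 : ((β d : P) : Ω) ≠ 1 := by
      intro h0
      apply hd1
      have : β d = 1 := Subtype.ext h0
      simpa using this
    have hs1 : ((d : P) : Ω) ^ smallExp p = 1 := by
      have := congrArg Subtype.val (hsmall d hd)
      simpa using this
    have hs2 : ((β d : P) : Ω) ^ smallExp p = 1 := by
      have := congrArg Subtype.val (hsmall _ hβd)
      simpa using this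
    have hzle : Subgroup.zpowers ((d : P) : Ω) ≤ P := by
      rw [Subgroup.zpowers_le]
      exact d.2
    have hφ : (autHom β).comp (Subgroup.inclusion hzle) ∈ F.Hom (Subgroup.zpowers ((d : P) : Ω)) :=
      restrict_mem F hzle (autHom_mem F hP (hAle hβ))
    have hφ2 : (autHom β).comp (Subgroup.inclusion hzle) ∈ F.homSet (Subgroup.zpowers ((d : P) : Ω))
        (Subgroup.zpowers ((β d : P) : Ω)) := by
      refine ⟨hφ, ?_⟩
      rintro ⟨x, k, rfl⟩
      refine ⟨k, ?_⟩
      have : ((autHom β).comp (Subgroup.inclusion hzle)) ⟨(fun t => ((d : P) : Ω) ^ t) k, ⟨k, rfl⟩⟩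
          = ((autHom β).comp (Subgroup.inclusion hzle)) (⟨(d : Ω), Subgroup.mem_zpowers _⟩ ^ k) := by
        congr 1
      show ((β d : P) : Ω) ^ k = ((autHom β).comp (Subgroup.inclusion hzle)) ⟨(fun t => ((d : P) : Ω) ^ t) k, ⟨k, rfl⟩⟩
      rw [this, map_zpow]
      rfl
    obtain ⟨-, g, hg, hgφ⟩ := h _ _ (by rw [Subgroup.zpowers_le]; exact hDhyp d hd) (by rw [Subgroup.zpowers_le]; exact hDhyp _ hβd)
      inferInstance (small_card p hne1 hs1) inferInstance (small_card p hne2 hs2) hφ2
    exact ⟨g, hg, hgφ ⟨_, Subgroup.mem_zpowers _⟩⟩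
  -- the chain
  let ι : P →* S := Subgroup.inclusion hP
  have hchain : ∀ (n : ℕ), ∀ d ∈ D, ι d ∈ (⊤ : Subgroup S).lowerCentralSeries n := by
    intro n
    induction n with
    | zero => exact fun _ _ => Subgroup.mem_top _
    | succ n ih =>
      have hle : commAut A D ≤ ((⊤ : Subgroup S).lowerCentralSeries (n + 1)).comap ι := by
        apply commAut_le
        intro β hβ u hu
        obtain ⟨s, hs, hsu⟩ := hconj β hβ u hu
        have hmem : ⁅(ι u)⁻¹, (⟨s, hs⟩ : S)⁆ ∈ (⊤ : Subgroup S).lowerCentralSeries (n + 1) :=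
          Subgroup.commutator_mem_commutator (Subgroup.inv_mem _ (ih u hu)) (Subgroup.mem_top _)
        have heq : ι (u⁻¹ * β u) = ⁅(ι u)⁻¹, (⟨s, hs⟩ : S)⁆ := by
          apply Subtype.ext
          rw [commutatorElement_def]
          show ((u⁻¹ * β u : P) : Ω) = (u : Ω)⁻¹ * s * ((u : Ω)⁻¹)⁻¹ * s⁻¹
          have : ((u⁻¹ * β u : P) : Ω) = (u : Ω)⁻¹ * ((β u : P) : Ω) := rfl
          rw [this, hsu]
          group
        rw [Subgroup.mem_comap, heq]
        exact hmem
      rw [hE] at hle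
      exact hle
  have hnil : Group.IsNilpotent S := hS.isNilpotent
  obtain ⟨c, hc⟩ := Subgroup.nilpotent_iff_lowerCentralSeries.1 hnil
  apply hDne
  rw [eq_bot_iff]
  intro d hd
  have := hchain c d hd
  rw [hc, Subgroup.mem_bot] at this
  rw [Subgroup.mem_bot]
  exact Subgroup.inclusion_injective hP (this.trans (map_one _).symm)

/-- Let F be a saturated fusion system over a finite p-group S. If every map of F between cyclic subgroups of the hyperfocal subgroup of F of order p or 4 is conjugation by an element of S, then F is the inner fusion system of S. -/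
theorem result {Ω : Type u} [Group Ω] {S : Subgroup Ω} [Finite S] (p : ℕ) [Fact p.Prime] (hS : IsPGroup p S)
    (F : Cfsg.FusionSystem S) (hF : F.IsSaturated p)
    (h : ∀ A B : Subgroup Ω, A ≤ (F.hyperfocalSubgroup p) → B ≤ (F.hyperfocalSubgroup p) → IsCyclic ↥A → (Nat.card ↥A = p ∨ Nat.card ↥A = 4) → IsCyclic ↥B → (Nat.card ↥B = p ∨ Nat.card ↥B = 4) →
      F.homSet A B ⊆ (Cfsg.innerFusionSystem S).Hom A) :
    ∀ P : Subgroup Ω, F.Hom P = (Cfsg.innerFusionSystem S).Hom P := by
  intro P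
  have := Cfsg.Agent.Lib.Fusion.Alperin.eq_inner_of_isPGroup_aut F hS hF
    (aut_isPGroup p hS F h)
  rw [this]

end Cfsg.Agent.S5298
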