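import Cfsg.Statements.S5300
import Cfsg.Agent.Lib.FusionTheory.Normal

set_option autoImplicit false
universe u
open Cfsg

namespace Cfsg.Agent.S5300

open Cfsg.Agent.Lib.FusionTheory.Normal Cfsg.Agent.Lib.FusionTheory.Chain Cfsg.Agent.Lib.FusionTheory.CoprimeAut Cfsg.Agent.Lib.Fusion.Alperin Cfsg.FusionSystem Cfsg.Agent.Lib.Fusion.Basic

/-- Powers of conjugation. -/
theorem conj_pow_iter {G : Type*} [Group G] {s x : G} {k : ℕ} (h : s * x * s⁻¹ = x ^ k) (m : ℕ) :
    s ^ m * x * (s ^ m)⁻¹ = x ^ (k ^ m) := by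
  induction m with
  | zero => simp
  | succ m ih =>
    have h1 : s ^ (m + 1) * x * (s ^ (m + 1))⁻¹ = s ^ m * (s * x * s⁻¹) * (s ^ m)⁻¹ := by
      rw [pow_succ]
      group
    rw [h1, h, ← conj_pow, ih, ← pow_mul, pow_succ]

/-- A `p`-element normalizing a subgroup of order `p` centralizes it. -/
theorem conj_eq_of_pow_eq_one {G : Type*} [Group G] {p : ℕ} [hp : Fact p.Prime] {s x : G} {n : ℕ} (hs : s ^ p ^ n = 1)
    (hx : x ^ p = 1) (h : s * x * s⁻¹ ∈ Subgroup.zpowers x) : s * x * s⁻¹ = x := by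
  by_cases hx1 : x = 1
  · subst hx1
    simp
  have hord : orderOf x = p := orderOf_eq_prime hx hx1
  have hfin : IsOfFinOrder x := orderOf_pos_iff.1 (by rw [hord]; exact hp.out.pos)
  have h' : s * x * s⁻¹ ∈ Submonoid.powers x := by
    rw [← hfin.mem_powers_iff_mem_zpowers] at h
    exact h
  obtain ⟨k, hk⟩ := h'
  have h1 := conj_pow_iter hk.symm (p ^ n)
  rw [hs] at h1
  simp only [one_mul, inv_one, mul_one] at h1
  have h2 : x ^ 1 = x ^ (k ^ p ^ n) := by simpa using h1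
  rw [pow_eq_pow_iff_modEq, hord] at h2
  have h3 : ((k ^ p ^ n : ℕ) : ZMod p) = 1 := by
    have := (ZMod.natCast_eq_natCast_iff _ _ p).2 h2
    simpa using this.symm
  have h4 : (k : ZMod p) = 1 := by
    have h5 : (k : ZMod p) ^ p ^ n = k := ZMod.pow_card_pow _
    rw [← h5]
    exact_mod_cast h3
  have h6 : x ^ k = x ^ 1 := by
    rw [pow_eq_pow_iff_modEq, hord]
    apply (ZMod.natCast_eq_natCast_iff _ _ p).1
    simpa using h4
  have hk' : x ^ k = s * x * s⁻¹ := hk
  rw [← hk', h6, pow_one]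

/-- The case `p = 2`, `x ^ 4 = 1`. -/
theorem conj_sq_of_pow_four {G : Type*} [Group G] {s x : G} (hx : x ^ 4 = 1) (h : s * x * s⁻¹ ∈ Subgroup.zpowers x) :
    (x⁻¹ * (s * x * s⁻¹)) ^ 2 = 1 := by
  have hfin : IsOfFinOrder x := isOfFinOrder_iff_pow_eq_one.2 ⟨4, by norm_num, hx⟩
  have h' : s * x * s⁻¹ ∈ Submonoid.powers x := by
    rw [← hfin.mem_powers_iff_mem_zpowers] at h
    exact h
  obtain ⟨k, hk⟩ := h'
  have hk' : x ^ k = s * x * s⁻¹ := hk
  rcases Nat.even_or_odd' k with ⟨j, rfl | rfl⟩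
  · -- even: `x` is trivial
    have e4 : 2 * j * 2 = 4 * j := by ring
    have h1 : (s * x * s⁻¹) ^ 2 = 1 := by
      rw [← hk', ← pow_mul, e4, pow_mul, hx, one_pow]
    have hxx : x ^ 2 = 1 := by
      rw [conj_pow] at h1
      exact conj_eq_one_iff.1 h1
    have hy1 : s * x * s⁻¹ = 1 := by
      rw [← hk', pow_mul, hxx, one_pow]
    have hx1 : x = 1 := conj_eq_one_iff.1 hy1
    rw [hy1, hx1]
    simp
  · have e : x⁻¹ * x ^ (2 * j + 1) = x ^ (2 * j) := by
      rw [pow_succ' x (2 * j), inv_mul_cancel_left]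
    rw [← hk', e, ← pow_mul]
    have e4 : 2 * j * 2 = 4 * j := by ring
    rw [e4, pow_mul, hx, one_pow]

theorem no_essential {Ω : Type u} [Group Ω] {S : Subgroup Ω} [Finite S] (p : ℕ) [hp : Fact p.Prime] (hS : IsPGroup p S)
    (F : Cfsg.FusionSystem S)
    (hnorm : ∀ x ∈ F.focalSubgroup, (x ^ p = 1 ∨ (p = 2 ∧ x ^ 4 = 1)) → ∀ s ∈ S, s * x * s⁻¹ ∈ Subgroup.zpowers x)
    (P : Subgroup Ω) (hP : F.IsEssential p P) : P = S := by
  have hPS : P ≤ S := hP.1.1
  have hfin : Finite P := finite_of_le hPS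
  have hPp : IsPGroup p P := hS.to_le hPS
  -- the focal subgroup, seen in `P`
  set L : Subgroup P := F.focalSubgroup.subgroupOf P with hL
  have hfocP : ∀ τ ∈ F.autGroup P, ∀ x : P, x⁻¹ * τ x ∈ L := by
    intro τ hτ x
    show ((x⁻¹ * τ x : P) : Ω) ∈ F.focalSubgroup
    apply Subgroup.subset_closure
    exact ⟨P, autHom τ, x, autHom_mem F hPS hτ, rfl⟩
  have hLinv : ∀ τ ∈ F.autGroup P, ∀ x ∈ L, τ x ∈ L := by
    intro τ hτ x hx
    have : τ x = x * (x⁻¹ * τ x) := by group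
    rw [this]
    exact L.mul_mem hx (hfocP τ hτ x)
  obtain ⟨D, hDL, hDinv, hDsmall, hDtriv⟩ := Cfsg.Agent.Lib.FusionTheory.Chain.exists_small_char hPp L
  have hDinvX : ∀ ρ ∈ F.autGroup P, ∀ x ∈ D, ρ x ∈ D := fun ρ hρ =>
    hDinv ρ (hLinv ρ hρ) (hLinv ρ⁻¹ ((F.autGroup P).inv_mem hρ))
  have htriv : ∀ τ ∈ F.autGroup P, (orderOf τ).Coprime p → (∀ x ∈ D, τ x = x) → τ = 1 := fun τ hτ hc h =>
    hDtriv τ hc (hLinv τ hτ) (hLinv τ⁻¹ ((F.autGroup P).inv_mem hτ)) (hfocP τ hτ) h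
  -- the elements of order `p` in `D`
  set E : Subgroup P := Subgroup.closure {x : P | x ∈ D ∧ x ^ p = 1} with hE
  have hED : E ≤ D := (Subgroup.closure_le _).2 fun x hx => hx.1
  have hEinv : ∀ ρ ∈ F.autGroup P, ∀ x ∈ E, ρ x ∈ E := by
    intro ρ hρ x hx
    have hle : E ≤ E.comap ρ.toMonoidHom := by
      apply (Subgroup.closure_le _).2
      intro y hy
      apply Subgroup.subset_closure
      refine ⟨hDinvX ρ hρ y hy.1, ?_⟩
      show (ρ y) ^ p = 1
      rw [← map_pow, hy.2, map_one]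
    exact hle hx
  apply le_antisymm hPS
  refine le_of_normalizer_le hS le_rfl Subgroup.le_normalizer hPS (fun s hs hn => ?_)
  set c := normAct P hn with hc
  have hcX : c ∈ F.autGroup P := normAct_mem_autGroup F hPS hs hn
  obtain ⟨n, hsn⟩ := hS ⟨s, hs⟩
  have hsn' : s ^ p ^ n = 1 := by simpa using congrArg Subtype.val hsn
  have hDfoc : ∀ x ∈ D, ((x : P) : Ω) ∈ F.focalSubgroup := fun x hx => hDL hx
  -- `c` fixes the elements of order `p`
  have hfixp : ∀ x ∈ D, x ^ p = 1 → c x = x := by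
    intro x hx hxp
    apply Subtype.ext
    show s * (x : Ω) * s⁻¹ = x
    have hxp' : ((x : P) : Ω) ^ p = 1 := by simpa using congrArg Subtype.val hxp
    exact conj_eq_of_pow_eq_one hsn' hxp' (hnorm _ (hDfoc x hx) (Or.inl hxp') s hs)
  have hfixE : ∀ x ∈ E, c x = x := by
    intro x hx
    have hle : E ≤ (MonoidHom.eqLocus c.toMonoidHom (MonoidHom.id P)) := by
      apply (Subgroup.closure_le _).2
      intro y hy
      exact hfixp y hy.1 hy.2
    exact hle hx
  have tow1 : IsTower p (F.autGroup P) c E := by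
    refine isTower_step hPp (isTower_bot hcX) (fun _ _ x hx => ?_) hEinv (fun x hx => ?_)
    · rw [Subgroup.mem_bot] at hx ⊢
      rw [hx, map_one]
    · rw [hfixE x hx, inv_mul_cancel]
      exact Subgroup.one_mem _
  have tow2 : IsTower p (F.autGroup P) c D := by
    refine isTower_step hPp tow1 hEinv hDinvX (fun x hx => ?_)
    by_cases h2 : p = 2
    · subst h2
      have hx4 : ((x : P) : Ω) ^ 4 = 1 := by
        have := hDsmall x hx
        simpa [smallExp] using congrArg Subtype.val this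
      have h3 := conj_sq_of_pow_four hx4 (hnorm _ (hDfoc x hx) (Or.inr ⟨rfl, hx4⟩) s hs)
      apply Subgroup.subset_closure
      refine ⟨D.mul_mem (D.inv_mem hx) (hDinvX c hcX x hx), ?_⟩
      apply Subtype.ext
      exact h3
    · have hxp : x ^ p = 1 := by
        have := hDsmall x hx
        simpa [smallExp, h2] using this
      rw [hfixp x hx hxp, inv_mul_cancel]
      exact Subgroup.one_mem _
  exact mem_of_isEssential_of_isTower F hS hP hs hn tow2 htriv


/-- Let F be a saturated fusion system over a finite p-group S. If every cyclic subgroup of the focal subgroup of F of order p (of order 2 or 4 when p = 2) is normal in S, then S is normal in F. -/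
theorem result {Ω : Type u} [Group Ω] {S : Subgroup Ω} [Finite S] (p : ℕ) [Fact p.Prime] (hS : IsPGroup p S)
    (F : Cfsg.FusionSystem S) (hF : F.IsSaturated p)
    (hnorm : ∀ x ∈ F.focalSubgroup, (x ^ p = 1 ∨ (p = 2 ∧ x ^ 4 = 1)) → ∀ s ∈ S, s * x * s⁻¹ ∈ Subgroup.zpowers x) :
    F.IsNormal S := by
  exact isNormal_top_of_no_essential F hS hF (no_essential p hS F hnorm)

end Cfsg.Agent.S5300
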