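import Cfsg.Statements.S5301
import Cfsg.Agent.Lib.FusionTheory.Normal

set_option autoImplicit false
universe u
open Cfsg

namespace Cfsg.Agent.S5301


/-- Let F be a saturated fusion system over a finite p-group S. If for every subgroup P of S that is fully normalized, centric and radical in F the automorphism group that F induces on P has a normal Sylow p-subgroup, then S is normal in F. -/
theorem result {Ω : Type u} [Group Ω] {S : Subgroup Ω} [Finite S] (p : ℕ) [Fact p.Prime] (hS : IsPGroup p S)
    (F : Cfsg.FusionSystem S) (hF : F.IsSaturated p)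
    (hcl : ∀ P : Subgroup Ω, F.IsFullyNormalized P → F.IsCentric P → F.IsRadical p P →
      ∃ R : Sylow p ↥(F.autGroup P), (R : Subgroup ↥(F.autGroup P)).Normal) :
    F.IsNormal S := by
  open Cfsg.Agent.Lib.FusionTheory.Normal Cfsg.Agent.Lib.Fusion.Alperin Cfsg.FusionSystem Cfsg.Agent.Lib.Fusion.Basic in
  apply isNormal_top_of_no_essential F hS hF
  intro P hP
  have hPS : P ≤ S := hP.1.1
  have hfn := hP.2.1
  have hC := hP.1
  have hR := isRadical_of_isEssential F hS hP
  obtain ⟨R, hRn⟩ := hcl P hfn hC hR
  have : Finite P := finite_of_le hPS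
  have hfin : Finite (F.autGroup P) := inferInstance
  have key : ∀ s ∈ S, s ∈ Subgroup.normalizer (P : Set Ω) → s ∈ P := by
    intro s hs hn
    apply mem_of_normAct_mem_pCore F hC hR hs hn
    let c : F.autGroup P := ⟨normAct P hn, normAct_mem_autGroup F hPS hs hn⟩
    have hcp : IsPGroup p ((autInducedBy S P).subgroupOf (F.autGroup P)) :=
      isPGroup_subgroupOf _ (isPGroup_autInducedBy P hS)
    obtain ⟨T, hT⟩ := hcp.exists_le_sylow
    have hTR : T = R := (Sylow.unique_of_normal R hRn).eq_default T |>.trans ((Sylow.unique_of_normal R hRn).eq_default R).symm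
    refine ⟨c, Cfsg.Agent.Lib.Core.Basic.le_pCore hRn R.isPGroup' ?_, rfl⟩
    rw [← hTR]
    exact hT (normAct_mem_autInducedBy S P hn hs)
  exact le_antisymm hPS (le_of_normalizer_le hS le_rfl Subgroup.le_normalizer hPS (fun s hs hn => key s hs hn))

end Cfsg.Agent.S5301
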