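import Cfsg.Statements.S5317
import Cfsg.Agent.S2431
import Cfsg.Agent.Lib.FusionSimple.Basic

set_option autoImplicit false
open Cfsg

namespace Cfsg.Agent.S5317


section aux

open Matrix Cfsg.Agent.Lib.SLn.QuatSylow Cfsg.Agent.Lib.SLn.Basic

variable {F : Type*} [Field F] [Fintype F]

local notation "SLt" => Matrix.SpecialLinearGroup (Fin 2) F
local notation "PSLt" => Matrix.ProjectiveSpecialLinearGroup (Fin 2) F

lemma two_ne (hodd : Odd (Fintype.card F)) : (2 : F) ≠ 0 := by
  intro h0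
  have hc : ringChar F = 2 := by
    have : ringChar F ∣ 2 := ringChar.dvd (by exact_mod_cast h0)
    have hp := CharP.char_is_prime F (ringChar F)
    exact (Nat.prime_dvd_prime_iff_eq hp Nat.prime_two).mp this
  have := FiniteField.even_card_iff_char_two.mp hc
  rw [Nat.odd_iff] at hodd
  omega

lemma eq_neg_one_of_sq (hodd : Odd (Fintype.card F)) {g : SLt} (h1 : g ≠ 1) (h2 : g * g = 1) :
    (g : Matrix (Fin 2) (Fin 2) F) = -1 :=
  Cfsg.Agent.S0268.result hodd g h1 h2

/-- `y * y` is `-1`. -/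
lemma yy_eq (hodd : Odd (Fintype.card F)) (D : Data SLt) :
    ((D.y * D.y : SLt) : Matrix (Fin 2) (Fin 2) F) = -1 := by
  apply eq_neg_one_of_sq hodd
  · rw [D.y2]
    intro h
    have h3 := orderOf_dvd_of_pow_eq_one h
    rw [D.ord] at h3
    have hv := D.hv
    have h4 := Nat.le_of_dvd (by positivity) h3
    have h5 : 2 ^ D.v = 2 * 2 ^ (D.v - 1) := by
      rw [← pow_succ']
      congr 1
      omega
    have h6 : 0 < 2 ^ (D.v - 1) := by positivity
    omega
  · rw [D.y2, ← pow_add]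
    have : 2 ^ (D.v - 1) + 2 ^ (D.v - 1) = 2 ^ D.v := by
      have hv := D.hv
      have h5 : 2 ^ D.v = 2 * 2 ^ (D.v - 1) := by
        rw [← pow_succ']
        congr 1
        omega
      omega
    rw [this, ← D.ord, pow_orderOf_eq_one]

lemma ker_le (hodd : Odd (Fintype.card F)) (D : Data SLt) {k : SLt} (hk : toPSL k = 1) : k ∈ D.S := by
  rw [toPSL_eq_one_iff] at hk
  obtain ⟨c, hc⟩ := hk
  have hdet := k.2
  rw [hc] at hdet
  simp only [Matrix.det_fin_two, Matrix.scalar_apply, Matrix.diagonal_apply_eq, Matrix.diagonal_apply_ne _ (show (0 : Fin 2) ≠ 1 by decide), Matrix.diagonal_apply_ne _ (show (1 : Fin 2) ≠ 0 by decide)] at hdet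
  have hc2 : c = 1 ∨ c = -1 := by
    have : (c - 1) * (c + 1) = 0 := by linear_combination hdet
    rcases mul_eq_zero.mp this with h | h
    · left; linear_combination h
    · right; linear_combination h
  have hyyS : D.y * D.y ∈ D.S := D.S.mul_mem D.y_mem D.y_mem
  rcases hc2 with rfl | rfl
  · have : k = 1 := by
      apply Subtype.ext
      rw [hc]
      ext i j
      simp [Matrix.one_apply, Matrix.scalar_apply, Matrix.diagonal_apply]
    rw [this]
    exact D.S.one_mem
  · have : k = D.y * D.y := by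
      apply Subtype.ext
      rw [yy_eq hodd, hc]
      ext i j
      simp [Matrix.one_apply, Matrix.scalar_apply, Matrix.diagonal_apply]
      split_ifs <;> simp
    rw [this]
    exact hyyS

/-- The image of `D.S` in `PSL₂`. -/
noncomputable def S₀ (D : Data SLt) : Subgroup PSLt := D.S.map toPSL

lemma mem_S₀ (hodd : Odd (Fintype.card F)) (D : Data SLt) (x : SLt) : toPSL x ∈ S₀ D ↔ x ∈ D.S := by
  constructor
  · rintro ⟨w, hw, h⟩
    have h1 : toPSL (w⁻¹ * x) = 1 := by
      rw [map_mul, map_inv, ← h, inv_mul_cancel]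
    have h2 := ker_le hodd D h1
    have : x = w * (w⁻¹ * x) := by group
    rw [this]
    exact D.S.mul_mem hw h2
  · intro h
    exact ⟨x, h, rfl⟩

lemma sq_refl (D : Data SLt) {s : SLt} (hs : s ∈ D.A) : (D.y * s) * (D.y * s) = D.y * D.y := by
  have h1 := D.inv s (D.A_le hs)
  have h2 : D.y * s = s⁻¹ * D.y := by
    rw [← h1]; group
  have hcomm : s⁻¹ * (D.y * D.y) * s = D.y * D.y := by
    have h3 : D.y * D.y ∈ D.A := D.yy_mem
    obtain ⟨n, hn⟩ := Subgroup.mem_zpowers_iff.mp h3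
    obtain ⟨m, hm⟩ := Subgroup.mem_zpowers_iff.mp hs
    rw [← hn, ← hm]
    rw [← _root_.zpow_neg, ← _root_.zpow_add, ← _root_.zpow_add]
    congr 1
    ring
  calc (D.y * s) * (D.y * s) = (s⁻¹ * D.y) * (D.y * s) := by rw [h2]
    _ = s⁻¹ * (D.y * D.y) * s := by group
    _ = D.y * D.y := hcomm

lemma conj_refl (D : Data SLt) {s x : SLt} (hs : s ∈ D.A) (hx : x ∈ D.A) :
    (D.y * s) * x * (D.y * s)⁻¹ = x⁻¹ := by
  have h1 := D.inv x (D.A_le hx)
  have hcomm : s * x * s⁻¹ = x := by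
    obtain ⟨n, hn⟩ := Subgroup.mem_zpowers_iff.mp hx
    obtain ⟨m, hm⟩ := Subgroup.mem_zpowers_iff.mp hs
    rw [← hn, ← hm, ← _root_.zpow_neg, ← _root_.zpow_add, ← _root_.zpow_add]
    congr 1
    ring
  calc (D.y * s) * x * (D.y * s)⁻¹ = D.y * (s * x * s⁻¹) * D.y⁻¹ := by group
    _ = x⁻¹ := by rw [hcomm, h1]

/-- The main closure step: a strongly closed `T` containing the image of an `x ∈ A`, `x² = -1`. -/
lemma key (hodd : Odd (Fintype.card F)) (D : Data SLt) (T : Subgroup PSLt) (hTS : T ≤ S₀ D)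
    (hcl : ∀ x ∈ T, ∀ g : PSLt, g * x * g⁻¹ ∈ S₀ D → g * x * g⁻¹ ∈ T)
    {x : SLt} (hxA : x ∈ D.A) (hxx : ((x * x : SLt) : Matrix (Fin 2) (Fin 2) F) = -1)
    (hxT : toPSL x ∈ T) : T = S₀ D := by
  have h2 := two_ne hodd
  have hrefl : ∀ s ∈ D.A, toPSL (D.y * s) ∈ T := by
    intro s hs
    have hsq : ((D.y * s * (D.y * s) : SLt) : Matrix (Fin 2) (Fin 2) F) = -1 := by
      rw [sq_refl D hs]; exact yy_eq hodd D
    obtain ⟨ζ, h1, -, -⟩ := Cfsg.Agent.S2431.exists_zeta h2 x (D.y * s) hxx hsq (conj_refl D hs hxA)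
    have h3 : toPSL ζ * toPSL x * (toPSL ζ)⁻¹ = toPSL (D.y * s) := by
      rw [← h1]; simp [map_mul, map_inv]
    have h4 : D.y * s ∈ D.S := by
      refine Or.inr ?_
      simpa using hs
    rw [← h3]
    apply hcl _ hxT
    rw [h3]
    exact ⟨_, h4, rfl⟩
  have hA : ∀ s ∈ D.A, toPSL s ∈ T := by
    intro s hs
    have h1 := hrefl s hs
    have h3 := hrefl 1 D.A.one_mem
    have : toPSL s = (toPSL (D.y * 1))⁻¹ * toPSL (D.y * s) := by
      simp [map_mul, map_inv]
    rw [this]
    exact T.mul_mem (T.inv_mem h3) h1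
  apply le_antisymm hTS
  rintro _ ⟨w, hw, rfl⟩
  rcases hw with hw | hw
  · exact hA w hw
  · have := hrefl _ hw
    simpa using this

/-- A power of `a` squaring to `-1`. -/
lemma exists_a₀ (hodd : Odd (Fintype.card F)) (D : Data SLt) :
    ∃ a₀ ∈ D.A, ((a₀ * a₀ : SLt) : Matrix (Fin 2) (Fin 2) F) = -1 := by
  refine ⟨D.a ^ (2 ^ (D.v - 2)), pow_mem D.a_mem _, ?_⟩
  rw [← pow_add]
  have hv := D.hv
  have : 2 ^ (D.v - 2) + 2 ^ (D.v - 2) = 2 ^ (D.v - 1) := by
    have h5 : 2 ^ (D.v - 1) = 2 * 2 ^ (D.v - 2) := by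
      rw [← pow_succ']
      congr 1
      omega
    omega
  rw [this, ← D.y2]
  exact yy_eq hodd D

theorem closed_eq (hodd : Odd (Fintype.card F)) (D : Data SLt) (T : Subgroup PSLt) (hTS : T ≤ S₀ D)
    (hT1 : T ≠ ⊥)
    (hcl : ∀ x ∈ T, ∀ g : PSLt, g * x * g⁻¹ ∈ S₀ D → g * x * g⁻¹ ∈ T) : T = S₀ D := by
  have h2 := two_ne hodd
  -- an involution in `T`
  have hpS : IsPGroup 2 (S₀ D) := by
    have hS : IsPGroup 2 D.S := IsPGroup.of_card (n := D.v + 1) (by rw [D.card_S, pow_succ']; )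
    exact hS.map toPSL
  have hpT : IsPGroup 2 T := hpS.to_le hTS
  have : Fact (Nat.Prime 2) := ⟨Nat.prime_two⟩
  have hne : Nontrivial T := by
    rw [Subgroup.nontrivial_iff_ne_bot]
    exact hT1
  have hdvd : 2 ∣ Nat.card T := by
    obtain ⟨n, hn⟩ := hpT.exists_card_eq
    rw [hn]
    have : n ≠ 0 := by
      rintro rfl
      have h1 : Nat.card T = 1 := by simpa using hn
      have := Finite.one_lt_card (α := T)
      omega
    exact dvd_pow_self 2 this
  obtain ⟨t, ht⟩ := exists_prime_orderOf_dvd_card' (G := T) 2 hdvd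
  have ht1 : (t : PSLt) ≠ 1 := by
    intro h
    have : t = 1 := Subtype.ext h
    rw [this, orderOf_one] at ht
    omega
  have ht2 : (t : PSLt) * t = 1 := by
    have h := pow_orderOf_eq_one t
    rw [ht, pow_two] at h
    exact congrArg Subtype.val h
  obtain ⟨x, hxS, hxt⟩ := hTS t.2
  have hxt' : toPSL x = (t : PSLt) := hxt
  have hxx : ((x * x : SLt) : Matrix (Fin 2) (Fin 2) F) = -1 := by
    have h3 : toPSL (x * x) = 1 := by rw [map_mul, hxt', ht2]
    rw [toPSL_eq_one_iff] at h3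
    obtain ⟨c, hc⟩ := h3
    have hdet := (x * x).2
    rw [hc] at hdet
    simp only [Matrix.det_fin_two, Matrix.scalar_apply, Matrix.diagonal_apply_eq, Matrix.diagonal_apply_ne _ (show (0 : Fin 2) ≠ 1 by decide), Matrix.diagonal_apply_ne _ (show (1 : Fin 2) ≠ 0 by decide)] at hdet
    have hc2 : c = 1 ∨ c = -1 := by
      have : (c - 1) * (c + 1) = 0 := by linear_combination hdet
      rcases mul_eq_zero.mp this with h | h
      · left; linear_combination h
      · right; linear_combination h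
    rcases hc2 with rfl | rfl
    · exfalso
      have hxx1 : x * x = 1 := by
        apply Subtype.ext
        rw [hc]
        ext i j
        simp [Matrix.one_apply, Matrix.scalar_apply, Matrix.diagonal_apply]
      by_cases hx1 : x = 1
      · apply ht1
        rw [← hxt', hx1, map_one]
      · have := eq_neg_one_of_sq hodd hx1 hxx1
        apply ht1
        rw [← hxt', toPSL_eq_one_iff]
        refine ⟨-1, ?_⟩
        rw [this]
        ext i j
        simp [Matrix.one_apply, Matrix.scalar_apply, Matrix.diagonal_apply]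
        split_ifs <;> simp
    · rw [hc]
      ext i j
      simp [Matrix.one_apply, Matrix.scalar_apply, Matrix.diagonal_apply]
      split_ifs <;> simp
  rcases hxS with hxA | hxR
  · exact key hodd D T hTS hcl hxA hxx (by rw [hxt']; exact t.2)
  · -- `x` is a reflection
    obtain ⟨a₀, ha₀, ha₀s⟩ := exists_a₀ hodd D
    set s := D.y⁻¹ * x with hs
    have hxe : x = D.y * s := by rw [hs]; group
    obtain ⟨ζ, h1, -, -⟩ := Cfsg.Agent.S2431.exists_zeta h2 a₀ x ha₀s hxx (by
      rw [hxe]; exact conj_refl D hxR ha₀)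
    apply key hodd D T hTS hcl ha₀ ha₀s
    have h3 : (toPSL ζ)⁻¹ * (t : PSLt) * ((toPSL ζ)⁻¹)⁻¹ = toPSL a₀ := by
      rw [← hxt', ← h1]
      simp [map_mul, map_inv, mul_assoc]
    rw [← h3]
    apply hcl _ t.2
    rw [h3]
    exact ⟨a₀, D.A_le_S ha₀, rfl⟩

end aux

/-- Let F be a finite field of odd order q with q² ≡ 1 mod 16 (so that a Sylow 2-subgroup of PSL(2,q), dihedral of order the 2-part of (q²−1)/2, has order at least 8). Then the 2-fusion system of PSL(2,F) on a Sylow 2-subgroup is simple: saturated, over a nontrivial 2-group, with no normal subsystem other than the trivial one and itself. -/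
theorem result {F : Type*} [Field F] [Fintype F] (hodd : Fintype.card F % 2 = 1) (h16 : 16 ∣ Fintype.card F ^ 2 - 1)
    (S : Sylow 2 (Matrix.ProjectiveSpecialLinearGroup (Fin 2) F)) :
    (Cfsg.groupFusionSystem (S : Subgroup (Matrix.ProjectiveSpecialLinearGroup (Fin 2) F))).IsSimple 2 := by
  classical
  have hoddq : Odd (Fintype.card F) := Nat.odd_iff.mpr hodd
  obtain ⟨D, hD, h3, -⟩ := Cfsg.Agent.S2431.exists_data hoddq
  have h8 : Fintype.card F % 8 = 1 ∨ Fintype.card F % 8 = 7 := by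
    obtain ⟨k, hk⟩ := h16
    have hq : Fintype.card F ^ 2 % 16 = 1 := by
      have hpos : 1 ≤ Fintype.card F ^ 2 := Nat.one_le_pow _ _ Fintype.card_pos
      omega
    have : Fintype.card F % 16 = 1 ∨ Fintype.card F % 16 = 7 ∨ Fintype.card F % 16 = 9 ∨ Fintype.card F % 16 = 15 := by
      have hmod : Fintype.card F ^ 2 % 16 = (Fintype.card F % 16) ^ 2 % 16 := by
        rw [Nat.pow_mod]
      rw [hmod] at hq
      have hlt : Fintype.card F % 16 < 16 := Nat.mod_lt _ (by norm_num)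
      interval_cases (Fintype.card F % 16) <;> simp_all
    omega
  have hv3 := h3 h8
  have : Fact (Nat.Prime 2) := ⟨Nat.prime_two⟩
  -- the Sylow subgroup
  have hpS : IsPGroup 2 D.S := IsPGroup.of_card (n := D.v + 1) (by rw [D.card_S, pow_succ'])
  have hidxS : ¬ 2 ∣ D.S.index := by
    intro h
    have hc := Subgroup.card_mul_index D.S
    rw [D.card_S] at hc
    obtain ⟨m, hm⟩ := h
    have hpos : Nat.card (Matrix.SpecialLinearGroup (Fin 2) F) ≠ 0 := Nat.card_pos.ne'
    have hdvd : 2 ^ (D.v + 2) ∣ Nat.card (Matrix.SpecialLinearGroup (Fin 2) F) := by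
      rw [← hc, hm]
      exact ⟨m, by rw [pow_succ, pow_succ]; ring⟩
    have := (Nat.Prime.pow_dvd_iff_le_factorization Nat.prime_two hpos).mp hdvd
    have hD' : (Nat.card (Matrix.SpecialLinearGroup (Fin 2) F)).factorization 2 = D.v + 1 := hD
    omega
  have hidx : ¬ 2 ∣ (S₀ D).index := by
    have e : (S₀ D).comap (Cfsg.Agent.Lib.SLn.Basic.toPSL) = D.S := by
      ext x
      exact mem_S₀ hoddq D x
    have e2 := Subgroup.index_comap_of_surjective (S₀ D) (Cfsg.Agent.Lib.SLn.Basic.toPSL_surjective (F := F) (n := 2))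
    rw [e] at e2
    rw [← e2]
    exact hidxS
  let S₁ : Sylow 2 (Matrix.ProjectiveSpecialLinearGroup (Fin 2) F) := (hpS.map (Cfsg.Agent.Lib.SLn.Basic.toPSL)).toSylow hidx
  have hS₁ : (S₁ : Subgroup _) = S₀ D := rfl
  refine Cfsg.Agent.Lib.FusionSimple.Basic.simple_of_one_sylow S₁ ?_ ?_ ?_ S
  · rw [hS₁]
    intro h
    have hy : Cfsg.Agent.Lib.SLn.Basic.toPSL D.a ∈ S₀ D := ⟨D.a, D.a_mem_S, rfl⟩
    rw [h, Subgroup.mem_bot, Cfsg.Agent.Lib.SLn.Basic.toPSL_eq_one_iff] at hy
    obtain ⟨c, hc⟩ := hy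
    -- `a` scalar would be centralized by `y`, so `a = a⁻¹`
    have h1 := D.inv D.a D.aT
    have hcomm : D.y * D.a = D.a * D.y := by
      apply Subtype.ext
      show D.y.1 * D.a.1 = D.a.1 * D.y.1
      have hc' : D.a.1 = _ := hc
      rw [hc']
      exact ((Matrix.scalar_commute c (fun r => (Commute.all c r)) _).symm).eq
    have h4 : D.a = D.a⁻¹ := by
      rw [← h1, hcomm]; group
    have h5 : D.a * D.a = 1 := by
      nth_rewrite 2 [h4]
      group
    have h6 := orderOf_dvd_of_pow_eq_one (x := D.a) (n := 2) (by rw [pow_two]; exact h5)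
    rw [D.ord] at h6
    have h7 := Nat.le_of_dvd (by norm_num) h6
    have h8' : 2 ^ 3 ≤ 2 ^ D.v := Nat.pow_le_pow_right (by norm_num) hv3
    omega
  · intro g hg
    rw [hS₁] at hg ⊢
    obtain ⟨x, rfl⟩ := Cfsg.Agent.Lib.SLn.Basic.toPSL_surjective g
    rw [mem_S₀ hoddq]
    rw [← D.normalizer_S_of_three hv3]
    apply Subgroup.mem_normalizer_fintype
    intro s hs
    have h1 := hg (Cfsg.Agent.Lib.SLn.Basic.toPSL s) ⟨s, hs, rfl⟩
    rw [← map_inv, ← map_mul, ← map_mul, mem_S₀ hoddq] at h1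
    exact h1
  · intro T hT hT1 hcl
    exact closed_eq hoddq D T hT hT1 hcl

end Cfsg.Agent.S5317
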