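import Cfsg.Statements.S5318
import Cfsg.Agent.Lib.H29.L3InstC
import Cfsg.Agent.S5317
import Cfsg.Agent.Lib.Classical.SL2.Order4

set_option autoImplicit false
open Cfsg

namespace Cfsg.Agent.S5318


section aux

open scoped MatrixGroups
open Matrix Cfsg.Agent.Lib.H29.L3InstA Cfsg.Agent.Lib.H29.L3InstB Cfsg.Agent.Lib.H29.L3InstC
open Cfsg.Agent.Lib.SLn.Basic Cfsg.Agent.Lib.SLn.QuatSylow

variable {F : Type*} [Field F]

/-- The block embedding. -/
noncomputable def blockHom : GL (Fin 2) F →* SL(3, F) where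
  toFun B := ⟨blockM B, blockM_det B⟩
  map_one' := Subtype.ext blockM_one
  map_mul' B C := Subtype.ext (blockM_mul B C)

lemma idx_aux (t c q : ℕ) (ht : 1 ≤ t) (hq : q = 2 * t + 1)
    (h : c * ((q ^ 2 - 1) * (q ^ 2 - q)) * (q - 1) = (q ^ 3 - 1) * (q ^ 3 - q) * (q ^ 3 - q ^ 2)) :
    c = (q ^ 2 + q + 1) * q ^ 2 := by
  subst hq
  have e1 : (2 * t + 1) ^ 2 - 1 = 2 * t * (2 * t + 2) := by
    apply Nat.sub_eq_of_eq_add
    ring
  have e2 : (2 * t + 1) ^ 2 - (2 * t + 1) = (2 * t + 1) * (2 * t) := by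
    apply Nat.sub_eq_of_eq_add
    ring
  have e3 : 2 * t + 1 - 1 = 2 * t := by omega
  have e4 : (2 * t + 1) ^ 3 - 1 = 2 * t * ((2 * t + 1) ^ 2 + (2 * t + 1) + 1) := by
    apply Nat.sub_eq_of_eq_add
    ring
  have e5 : (2 * t + 1) ^ 3 - (2 * t + 1) = (2 * t + 1) * (2 * t * (2 * t + 2)) := by
    apply Nat.sub_eq_of_eq_add
    ring
  have e6 : (2 * t + 1) ^ 3 - (2 * t + 1) ^ 2 = (2 * t + 1) ^ 2 * (2 * t) := by
    apply Nat.sub_eq_of_eq_add
    ring
  rw [e1, e2, e3, e4, e5, e6] at h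
  have hpos : 0 < (2 * t * (2 * t + 2)) * ((2 * t + 1) * (2 * t)) * (2 * t) := by positivity
  apply Nat.eq_of_mul_eq_mul_right hpos
  rw [← mul_assoc, h] 
  ring

theorem main {F : Type*} [Field F] [Fintype F] (hodd : Fintype.card F % 2 = 1) (S : Sylow 2 (Matrix.ProjectiveSpecialLinearGroup (Fin 3) F)) :
    (Cfsg.groupFusionSystem (S : Subgroup (Matrix.ProjectiveSpecialLinearGroup (Fin 3) F))).IsSimple 2 := by
  classical
  have hodd' : Odd (Fintype.card F) := Nat.odd_iff.mpr hodd
  have h2 : (2 : F) ≠ 0 := Cfsg.Agent.S5317.two_ne hodd'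
  haveI : Finite F := Finite.of_fintype F
  obtain ⟨t, ht⟩ := hodd'
  have hq2 : 2 ≤ Fintype.card F := Fintype.one_lt_card
  have ht1 : 1 ≤ t := by omega
  -- the field's `2`-part
  have hqne : Fintype.card F - 1 ≠ 0 := by omega
  obtain ⟨a, w, hw, hqw⟩ := Nat.exists_eq_two_pow_mul_odd hqne
  have ha : 1 ≤ a := by
    by_contra hcon
    have : a = 0 := by omega
    subst this
    rw [pow_zero, one_mul] at hqw
    obtain ⟨r, hr⟩ := hw
    omega
  have hcardU : Nat.card Fˣ = 2 ^ a * w := by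
    rw [Cfsg.Agent.Lib.Classical.SLBasic.card_units_eq, hqw]
  obtain ⟨x, hx⟩ := Cfsg.Agent.Lib.Classical.SL2Quat.exists_orderOf_pow hw.pos hcardU
  obtain ⟨D, hD, hD3, -⟩ := Cfsg.Agent.S2431.exists_data (F := F) ⟨t, ht⟩
  have hy : ((D.y * D.y : SL(2, F)) : Matrix (Fin 2) (Fin 2) F) = -1 :=
    Cfsg.Agent.S5317.yy_eq ⟨t, ht⟩ D
  have hy' : D.y * D.y = (-1 : SL(2, F)) := by
    apply Subtype.ext
    rw [hy]
    rfl
  refine Setup.simple (C := (
    { two := h2
      π := toPSL
      hπ := toPSL_surjective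
      ker_central := ?_
      ker_odd := ?_
      ρ := MonoidHom.id _
      hρ := Function.injective_id
      κ := MonoidHom.id _
      hκ := Function.injective_id
      ι := blockHom
      hικ := fun _ => rfl
      j := Matrix.SpecialLinearGroup.toGL
      hj := Matrix.SpecialLinearGroup.toGL_injective
      hjr := ?_
      N := ⊤
      x := x
      hxN := Subgroup.mem_top _
      a := a
      w := w
      hcard := by rw [Subgroup.card_top, hcardU]
      hw := hw
      ha := ha
      hx := hx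
      hdet := fun _ => Subgroup.mem_top _
      hdg := fun α _ β _ => ⟨dg α β, rfl⟩
      hag := fun α _ β _ => ⟨ag α β, rfl⟩
      hsc := fun _ _ _ => Subgroup.mem_top _
      D := D
      hD := hD
      v2 := ?_
      hcent := ?_
      hidx := ?_
      hinvol := fun A hA hA1 => invol_conj h2 A hA hA1
      hJ := ?_
      hg₀ := ?_ } : Setup F (SL(3, F)) (Matrix.ProjectiveSpecialLinearGroup (Fin 3) F) (GL (Fin 2) F) (SL(2, F)))) S
  · intro k hk g
    rw [toPSL_eq_one_iff] at hk
    obtain ⟨c, hc⟩ := hk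
    apply Subtype.ext
    rw [Matrix.SpecialLinearGroup.coe_mul, Matrix.SpecialLinearGroup.coe_mul, hc]
    exact (Matrix.scalar_commute c (fun r => Commute.all c r) _).eq
  · intro k hk
    rw [toPSL_eq_one_iff] at hk
    obtain ⟨c, hc⟩ := hk
    have hdet : c ^ 3 = 1 := by
      have h0 := k.2
      rw [hc, Matrix.scalar_apply, Matrix.det_diagonal] at h0
      simpa [Finset.prod_const] using h0
    have hk3 : k ^ 3 = 1 := by
      apply Subtype.ext
      rw [Matrix.SpecialLinearGroup.coe_pow, hc, ← map_pow, hdet, map_one]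
      rfl
    have hd : orderOf k ∣ 3 := orderOf_dvd_of_pow_eq_one hk3
    exact Odd.of_dvd_nat (by decide) hd
  · intro h
    have := Cfsg.Agent.Lib.Classical.SLBasic.range_toGL_eq_ker_det (F := F) (ι := Fin 2)
    change Matrix.GeneralLinearGroup.det h = 1 ↔ _
    rw [this, MonoidHom.mem_ker]
  · -- the case `v = 2`
    intro hv
    have hq8 : ¬ (Fintype.card F % 8 = 1 ∨ Fintype.card F % 8 = 7) := by
      intro hh
      have := hD3 hh
      omega
    have hle : a ≤ 2 := by
      by_contra hcon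
      have h8 : 8 ∣ Fintype.card F - 1 := by
        rw [hqw]
        apply Dvd.dvd.mul_right
        exact pow_dvd_pow 2 (show 3 ≤ a by omega)
      omega
    have hd : orderOf x ∣ 4 := by
      rw [hx]
      exact pow_dvd_pow 2 hle
    exact orderOf_dvd_iff_pow_eq_one.mp hd
  · intro g hg
    obtain ⟨B, hB⟩ := eq_blockM_of_comm h2 _ g.2 hg
    exact ⟨B, Subtype.ext hB⟩
  · -- the index
    intro hdvd
    have h1 : (blockHom (F := F)).range.index * Nat.card (blockHom (F := F)).range = Nat.card (SL(3, F)) :=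
      Subgroup.index_mul_card _
    have hinj : Function.Injective (blockHom (F := F)) := by
      intro A B hAB
      exact Setup.blockM_inj (F := F) (congrArg Subtype.val hAB)
    have h3 : Nat.card (blockHom (F := F)).range = Nat.card (GL (Fin 2) F) :=
      Nat.card_congr (MonoidHom.ofInjective hinj).toEquiv.symm
    have h4 := Cfsg.Agent.Lib.Classical.SLBasic.card_gl_eq_mul_card_sl (F := F) (ι := Fin 3)
    have h5 := Matrix.card_GL_field (𝔽 := F) 3
    have h6 := Matrix.card_GL_field (𝔽 := F) 2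
    rw [Fin.prod_univ_three] at h5
    rw [Fin.prod_univ_two] at h6
    simp only [Fin.val_zero, Fin.val_one, Fin.val_two, pow_zero, pow_one] at h5 h6
    have key : (blockHom (F := F)).range.index * ((Fintype.card F ^ 2 - 1) * (Fintype.card F ^ 2 - Fintype.card F)) * (Fintype.card F - 1) =
        (Fintype.card F ^ 3 - 1) * (Fintype.card F ^ 3 - Fintype.card F) * (Fintype.card F ^ 3 - Fintype.card F ^ 2) := by
      rw [← h6, ← h3, h1, ← h5, h4, mul_comm]
    have := idx_aux t _ _ ht1 ht key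
    rw [this] at hdvd
    have hq : ¬ 2 ∣ Fintype.card F := by omega
    have h7 : ¬ 2 ∣ (Fintype.card F ^ 2 + Fintype.card F + 1) := by
      rw [ht]
      intro hh
      have e : (2 * t + 1) ^ 2 + (2 * t + 1) + 1 = 2 * (2 * t * t + 3 * t + 1) + 1 := by ring
      rw [e] at hh
      omega
    rcases (Nat.Prime.dvd_mul Nat.prime_two).mp hdvd with h8 | h8
    · exact h7 h8
    · exact hq (Nat.Prime.dvd_of_dvd_pow Nat.prime_two h8)
  · -- order four elements
    intro r r' hr hr'
    rw [hy'] at hr hr'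
    obtain ⟨g, hg⟩ := Cfsg.Agent.Lib.Classical.SL2.Order4.exists_conj_J ⟨t, ht⟩ h2 r hr
    obtain ⟨g', hg'⟩ := Cfsg.Agent.Lib.Classical.SL2.Order4.exists_conj_J ⟨t, ht⟩ h2 r' hr'
    refine ⟨g' * g⁻¹, ?_⟩
    rw [hg, hg']
    group
  · refine ⟨⟨g₀ F, ?_⟩, rfl⟩
    rw [g₀, Matrix.det_fin_three]
    simp


end aux

/-- For a finite field F of odd order, the 2-fusion system of PSL(3,F) on a Sylow 2-subgroup (semidihedral or wreathed according as |F| ≡ 3 or 1 mod 4) is simple. -/
theorem result {F : Type*} [Field F] [Fintype F] (hodd : Fintype.card F % 2 = 1) (S : Sylow 2 (Matrix.ProjectiveSpecialLinearGroup (Fin 3) F)) :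
    (Cfsg.groupFusionSystem (S : Subgroup (Matrix.ProjectiveSpecialLinearGroup (Fin 3) F))).IsSimple 2 := by
  exact main hodd S

end Cfsg.Agent.S5318
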