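import Cfsg.Statements.S5319
import Cfsg.Agent.Lib.H29.U3Inst
import Cfsg.Agent.S5317
import Cfsg.Agent.S0281
import Cfsg.Agent.Lib.Classical.SL2.Order4

set_option autoImplicit false
open Cfsg

namespace Cfsg.Agent.S5319


section aux

open scoped MatrixGroups
open Matrix Cfsg.Agent.Lib.H29.L3InstA Cfsg.Agent.Lib.H29.L3InstB Cfsg.Agent.Lib.H29.L3InstC
open Cfsg.Agent.Lib.H29.U3Inst Cfsg.Agent.Lib.SLn.QuatSylow

theorem main {F : Type*} [Field F] [Fintype F] (q : ℕ) (hq : Fintype.card F = q ^ 2) (hodd : q % 2 = 1) (S : Sylow 2 (Cfsg.PSU 3 F q)) :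
    (Cfsg.groupFusionSystem (S : Subgroup (Cfsg.PSU 3 F q))).IsSimple 2 := by
  classical
  have hq2 := Cfsg.Agent.Lib.HermCount.Field.two_le hq
  have hoq : Odd q := Nat.odd_iff.mpr hodd
  have hcardodd : Odd (Fintype.card F) := by
    rw [hq]
    exact hoq.pow
  have h2 : (2 : F) ≠ 0 := Cfsg.Agent.S5317.two_ne hcardodd
  haveI : Finite F := Finite.of_fintype F
  obtain ⟨K, _, _, hK⟩ := exists_K hq
  obtain ⟨φ⟩ := Cfsg.Agent.S0281.result hq hK
  have hoK : Odd (Fintype.card K) := by rw [hK]; exact hoq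
  obtain ⟨t, ht⟩ := hoq
  have ht1 : 1 ≤ t := by omega
  -- the `2`-part of the norm one group
  obtain ⟨a, w, hw, hqw⟩ := Nat.exists_eq_two_pow_mul_odd (n := q + 1) (by omega)
  have ha : 1 ≤ a := by
    by_contra hcon
    have : a = 0 := by omega
    subst this
    rw [pow_zero, one_mul] at hqw
    obtain ⟨r, hr⟩ := hw
    omega
  have hcardN : Nat.card (rootsOfUnity (q + 1) F) = 2 ^ a * w := by
    rw [Cfsg.Agent.Lib.Classical.SLBasic.card_rootsOfUnity_eq_gcd, ← hqw]
    apply Nat.gcd_eq_right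
    rw [hq]
    have : q ^ 2 - 1 = (q + 1) * (q - 1) := by
      obtain ⟨s, rfl⟩ : ∃ s, q = s + 1 := ⟨q - 1, by omega⟩
      apply Nat.sub_eq_of_eq_add
      simp only [Nat.add_sub_cancel]
      ring
    rw [this]
    exact dvd_mul_right _ _
  obtain ⟨x₀, hx₀⟩ := Cfsg.Agent.Lib.Classical.SL2Quat.exists_orderOf_pow hw.pos hcardN
  have hx : orderOf (x₀ : Fˣ) = 2 ^ a := by
    rw [Subgroup.orderOf_coe, hx₀]
  obtain ⟨D, hD, hD3, -⟩ := Cfsg.Agent.S2431.exists_data (F := K) hoK
  have hy : ((D.y * D.y : SL(2, K)) : Matrix (Fin 2) (Fin 2) K) = -1 :=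
    Cfsg.Agent.S5317.yy_eq hoK D
  have hy' : D.y * D.y = (-1 : SL(2, K)) := by
    apply Subtype.ext
    rw [hy]
    rfl
  have h2K : (2 : K) ≠ 0 := Cfsg.Agent.S5317.two_ne hoK
  refine Setup.simple (C := (
    { two := h2
      π := QuotientGroup.mk' (Subgroup.center (Cfsg.SU 3 F q))
      hπ := QuotientGroup.mk'_surjective _
      ker_central := ?_
      ker_odd := ?_
      ρ := (Cfsg.GU 2 F q).subtype
      hρ := Subtype.val_injective
      κ := (Cfsg.SU 3 F q).subtype
      hκ := Subtype.val_injective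
      ι := uBlock hq
      hικ := fun _ => rfl
      j := (suIncl (F := F) (q := q)).comp φ.symm.toMonoidHom
      hj := suIncl_inj.comp φ.symm.injective
      hjr := ?_
      N := rootsOfUnity (q + 1) F
      x := (x₀ : Fˣ)
      hxN := x₀.2
      a := a
      w := w
      hcard := hcardN
      hw := hw
      ha := ha
      hx := hx
      hdet := fun h => (mem_rootsOfUnity _ _).mpr (det_norm hq h.1 h.2)
      hdg := fun α hα β hβ => ⟨⟨dg α β, dg_mem hq α β ((mem_rootsOfUnity _ _).mp hα) ((mem_rootsOfUnity _ _).mp hβ)⟩, rfl⟩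
      hag := fun α hα β hβ => ⟨⟨ag α β, ag_mem hq α β ((mem_rootsOfUnity _ _).mp hα) ((mem_rootsOfUnity _ _).mp hβ)⟩, rfl⟩
      hsc := ?_
      D := D
      hD := hD
      v2 := ?_
      hcent := fun g hg => cent_mem hq h2 g hg
      hidx := ?_
      hinvol := fun A hA hA1 => invol_su hq h2 A hA hA1
      hJ := ?_
      hg₀ := g0_mem hq hodd } : Setup F (↥(Cfsg.SU 3 F q)) (Cfsg.PSU 3 F q) (↥(Cfsg.GU 2 F q)) (SL(2, K)))) S
  · intro k hk g
    have hk' := (QuotientGroup.eq_one_iff k).mp hk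
    exact (Subgroup.mem_center_iff.mp hk' g).symm
  · intro k hk
    have hk' := (QuotientGroup.eq_one_iff k).mp hk
    have h1 := Cfsg.Agent.Lib.Classical.HermOrders.card_center_SU hq 3 (by norm_num)
    have h3 : orderOf k ∣ Nat.card (Subgroup.center (Cfsg.SU 3 F q)) := by
      rw [← Subgroup.orderOf_mk k hk']
      exact orderOf_dvd_natCard _
    rw [h1] at h3
    exact Odd.of_dvd_nat (by decide) (h3.trans (Nat.gcd_dvd_left _ _))
  · intro h
    constructor
    · intro hd
      obtain ⟨s, hs⟩ := exists_suIncl h hd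
      exact ⟨φ s, by simp [hs]⟩
    · rintro ⟨l, rfl⟩
      exact det_suIncl _
  · intro h γ hγ
    rw [mem_rootsOfUnity]
    apply sc_norm hq
    have : (h : GL (Fin 2) F) = dg γ γ := hγ
    rw [← this]
    exact h.2
  · -- the case `v = 2`
    intro hv
    have hq8 : ¬ (Fintype.card K % 8 = 1 ∨ Fintype.card K % 8 = 7) := by
      intro hh
      have := hD3 hh
      omega
    rw [hK] at hq8
    have hle : a ≤ 2 := by
      by_contra hcon
      have h8 : 8 ∣ q + 1 := by
        rw [hqw]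
        apply Dvd.dvd.mul_right
        exact pow_dvd_pow 2 (show 3 ≤ a by omega)
      omega
    have hd : orderOf (x₀ : Fˣ) ∣ 4 := by
      rw [hx]
      exact pow_dvd_pow 2 hle
    exact orderOf_dvd_iff_pow_eq_one.mp hd
  · -- the index
    intro hdvd
    have h1 : (uBlock (F := F) (q := q) hq).range.index * Nat.card (uBlock (F := F) (q := q) hq).range = Nat.card (↥(Cfsg.SU 3 F q)) :=
      Subgroup.index_mul_card _
    have hinj : Function.Injective (uBlock (F := F) (q := q) hq) := by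
      intro A B hAB
      apply Subtype.ext
      have : blockM A.1 = blockM B.1 := congrArg (fun z : ↥(Cfsg.SU 3 F q) => (z.1.1 : Matrix (Fin 3) (Fin 3) F)) hAB
      exact Setup.blockM_inj (F := F) this
    have h3 : Nat.card (uBlock (F := F) (q := q) hq).range = Nat.card (↥(Cfsg.GU 2 F q)) :=
      Nat.card_congr (MonoidHom.ofInjective hinj).toEquiv.symm
    have h4 : Nat.card (↥(Cfsg.GU 2 F q)) = (q + 1) * (q ^ 2 - q) * (q + 1) :=
      Cfsg.Agent.Lib.TwoFusion.GU2.card_GU hq
    have h5 := Cfsg.Agent.Lib.Classical.HermOrders.card_SU hq 3 (by norm_num)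
    simp only [Finset.prod_range_succ, Finset.prod_range_zero, one_mul] at h5
    have e0 : (3 * (3 - 1) / 2 : ℕ) = 3 := by norm_num
    have ev0 : Even (0 : ℕ) := by decide
    have ev1 : ¬ Even (1 : ℕ) := by decide
    have ev2 : Even (2 : ℕ) := by decide
    rw [e0, if_pos ev0, if_neg ev1, if_pos ev2] at h5
    have key : (uBlock (F := F) (q := q) hq).range.index * ((q + 1) * (q ^ 2 - q) * (q + 1)) * (q + 1) =
        q ^ 3 * ((q + 1) * (q ^ 2 - 1) * (q ^ 3 + 1)) := by
      rw [← h4, ← h3, h1, mul_comm, h5]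
      simp
    have := idxU_aux t _ _ ht1 ht key
    rw [this] at hdvd
    rcases (Nat.Prime.dvd_mul Nat.prime_two).mp hdvd with h8 | h8
    · have := Nat.Prime.dvd_of_dvd_pow Nat.prime_two h8
      omega
    · have e : (2 * t + 1) * (2 * t) + 1 = 2 * ((2 * t + 1) * t) + 1 := by ring
      rw [e] at h8
      omega
  · -- order four elements
    intro r r' hr hr'
    rw [hy'] at hr hr'
    obtain ⟨g, hg⟩ := Cfsg.Agent.Lib.Classical.SL2.Order4.exists_conj_J hoK h2K r hr
    obtain ⟨g', hg'⟩ := Cfsg.Agent.Lib.Classical.SL2.Order4.exists_conj_J hoK h2K r' hr'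
    refine ⟨g' * g⁻¹, ?_⟩
    rw [hg, hg']
    group

end aux

/-- Let q be an odd prime power and F a field with q² elements. Then the 2-fusion system of PSU(3,q) (realised as the special unitary group of the standard Hermitian form over F modulo its centre) on a Sylow 2-subgroup is simple. -/
theorem result {F : Type*} [Field F] [Fintype F] (q : ℕ) (hq : Fintype.card F = q ^ 2) (hodd : q % 2 = 1) (S : Sylow 2 (Cfsg.PSU 3 F q)) :
    (Cfsg.groupFusionSystem (S : Subgroup (Cfsg.PSU 3 F q))).IsSimple 2 := by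
  exact main q hq hodd S

end Cfsg.Agent.S5319
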