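import Cfsg.Statements.S5329
import Cfsg.Agent.Lib.Fusion.BisetTransfer
import Cfsg.Agent.Lib.Fusion.Center
import Cfsg.Agent.Lib.FusionExt.Hyperfocal

set_option autoImplicit false
open Cfsg

namespace Cfsg.Agent.S5329

/-- For a saturated fusion system F over a finite p-group S, the focal subgroup and the derived subgroup of S meet the centre Z(F) of the system in the same subgroup: foc(F) ∩ Z(F) = S′ ∩ Z(F). -/
theorem result {Ω : Type*} [Group Ω] {S : Subgroup Ω} [Finite S] (p : ℕ) [Fact p.Prime] (hS : IsPGroup p S) (F : Cfsg.FusionSystem S) (hF : F.IsSaturated p) : F.focalSubgroup ⊓ F.center = ⁅(S : Subgroup Ω), (S : Subgroup Ω)⁆ ⊓ F.center := by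
  classical
  obtain ⟨X, iX, fX, hX⟩ := Cfsg.Agent.Lib.Fusion.CharBiset3.exists_charBiset F hS hF
  have hSn : ⁅(S : Subgroup Ω), (S : Subgroup Ω)⁆ ≤ F.focalSubgroup := by
    rw [Cfsg.Agent.Lib.FusionExt.Hyperfocal.focal_eq F hS hF]
    exact le_sup_right
  apply le_antisymm
  · rintro z ⟨hz1, hz2⟩
    refine ⟨?_, hz2⟩
    let ρ : ↥S →* Abelianization ↥S := Abelianization.of
    obtain ⟨y, hy, rfl⟩ := Cfsg.Agent.Lib.Fusion.BisetTransfer.focal_le_ker hX ρ hz1
    have hy1 : Cfsg.Agent.Lib.Fusion.BisetTransfer.Vv hX.free_right ρ y = 1 := MonoidHom.mem_ker.1 hy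
    have hzp : ∀ w ∈ Subgroup.zpowers y, (w : Ω) ∈ F.center := by
      intro w hw
      have h1 : Subgroup.zpowers y ≤ (F.center).comap S.subtype := by
        rw [Subgroup.zpowers_le]
        exact hz2
      exact h1 hw
    rw [Cfsg.Agent.Lib.Fusion.BisetTransfer.Vv_eq_pow hX.free_right ρ y (fun w hw u ω h => by
      obtain ⟨D, φ, hφ, hzD, hu⟩ := Cfsg.Agent.Lib.Fusion.BisetTransfer.exists_hom_of_smul_eq hX h
      have h2 := Cfsg.Agent.Lib.Fusion.Center.map_of_mem_center F hφ hzD (hzp w hw)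
      have h3 : w = u := Subtype.ext (h2.symm.trans hu)
      rw [h3])] at hy1
    have hpA : IsPGroup p (Abelianization ↥S) := hS.of_surjective ρ (QuotientGroup.mk_surjective)
    obtain ⟨k, hk⟩ := hpA (ρ y)
    have hcop : Nat.Coprime (Nat.card (Cfsg.Agent.Lib.Fusion.ModelGroup.Xi S X)) (p ^ k) :=
      Nat.Coprime.pow_right k (((Fact.out : p.Prime).coprime_iff_not_dvd.2 hX.count).symm)
    have hρ : ρ y = 1 := by
      have h4 := orderOf_dvd_of_pow_eq_one hy1
      have h5 := orderOf_dvd_of_pow_eq_one hk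
      have h6 := Nat.dvd_gcd h4 h5
      rw [hcop] at h6
      exact orderOf_eq_one_iff.1 (Nat.dvd_one.1 h6)
    have h7 : y ∈ commutator ↥S := (QuotientGroup.eq_one_iff y).1 hρ
    rw [← Subgroup.map_subtype_commutator]
    exact ⟨y, h7, rfl⟩
  · exact inf_le_inf_right _ hSn

end Cfsg.Agent.S5329
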