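import Cfsg.Statements.S5331
import Cfsg.Agent.Lib.FusionTheory.Abelian

set_option autoImplicit false
open Cfsg

namespace Cfsg.Agent.S5331

open Cfsg.Agent.Lib.FusionTheory.Abelian Cfsg.Agent.Lib.Fusion.Basic Cfsg.FusionSystem

/-- In `ZMod (2^a)` with `a ≥ 1`, the solutions of `2 t = 0` are `0` and `2^(a-1)`. -/
theorem two_torsion (a : ℕ) (ha : 1 ≤ a) (t : ZMod (2 ^ a)) (h : 2 * t = 0) :
    t = 0 ∨ t = (2 : ZMod (2 ^ a)) ^ (a - 1) := by
  obtain ⟨b, rfl⟩ : ∃ b, a = b + 1 := ⟨a - 1, by omega⟩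
  have : NeZero (2 ^ (b + 1)) := ⟨by positivity⟩
  have h0 : ((2 * t.val : ℕ) : ZMod (2 ^ (b + 1))) = 0 := by
    push_cast
    rw [ZMod.natCast_zmod_val, h]
  rw [ZMod.natCast_eq_zero_iff] at h0
  have h1 : 2 ^ b ∣ t.val := by
    have h0' : 2 * 2 ^ b ∣ 2 * t.val := by
      rw [← pow_succ']
      exact h0
    exact Nat.dvd_of_mul_dvd_mul_left (by norm_num) h0'
  obtain ⟨q, hq⟩ := h1
  have hlt : t.val < 2 ^ (b + 1) := ZMod.val_lt t
  have hq2 : q < 2 := by
    rw [hq, pow_succ] at hlt
    exact Nat.lt_of_mul_lt_mul_left hlt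
  have hnat := ZMod.natCast_zmod_val t
  interval_cases q
  · left
    rw [← hnat, hq]
    simp
  · right
    rw [← hnat, hq]
    simp

theorem two_pow_self (a : ℕ) : (2 : ZMod (2 ^ a)) ^ a = 0 := by
  have := ZMod.natCast_self (2 ^ a)
  push_cast at this
  exact this

theorem two_pow_of_le {a j : ℕ} (h : a ≤ j) : (2 : ZMod (2 ^ a)) ^ j = 0 := by
  obtain ⟨k, rfl⟩ := Nat.exists_eq_add_of_le h
  rw [pow_add, two_pow_self, zero_mul]

section coords

variable {V : Type*} [Group V] {n : ℕ} {a : Fin n → ℕ} (e : V ≃* Multiplicative ((i : Fin n) → ZMod (2 ^ a i)))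

/-- The `i`-th coordinate. -/
def c (i : Fin n) (x : V) : ZMod (2 ^ a i) := (Multiplicative.toAdd (e x)) i

theorem c_mul (i : Fin n) (x y : V) : c e i (x * y) = c e i x + c e i y := by
  unfold c
  rw [map_mul]
  rfl

theorem c_pow (i : Fin n) (x : V) (k : ℕ) : c e i (x ^ k) = (k : ZMod (2 ^ a i)) * c e i x := by
  induction k with
  | zero =>
    unfold c
    rw [pow_zero, map_one]
    simp
  | succ k ih =>
    rw [pow_succ, c_mul, ih]
    push_cast
    ring

theorem eq_of_c {x y : V} (h : ∀ i, c e i x = c e i y) : x = y := by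
  apply e.injective
  apply Multiplicative.toAdd.injective
  funext i
  exact h i

theorem eq_one_of_c {x : V} (h : ∀ i, c e i x = 0) : x = 1 := by
  apply e.injective
  rw [map_one]
  apply Multiplicative.toAdd.injective
  funext i
  exact h i

theorem exists_of_c (w : (i : Fin n) → ZMod (2 ^ a i)) : ∃ z, ∀ i, c e i z = w i := by
  refine ⟨e.symm (Multiplicative.ofAdd w), fun i => ?_⟩
  unfold c
  rw [MulEquiv.apply_symm_apply]
  rfl

include e in
theorem comm_of_e (x y : V) : x * y = y * x := by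
  apply e.injective
  rw [map_mul, map_mul]
  exact mul_comm _ _

/-- `x` is an involution or trivial, and a `2^j`-th power. -/
def Pj (V : Type*) [Group V] (j : ℕ) (x : V) : Prop := x ^ 2 = 1 ∧ ∃ z : V, z ^ (2 ^ j) = x

theorem Pj.c_two {j : ℕ} {x : V} (h : Pj V j x) (i : Fin n) : 2 * c e i x = 0 := by
  have h1 := c_pow e i x 2
  rw [h.1] at h1
  have h2 : c e i (1 : V) = 0 := by
    have := c_pow e i (1 : V) 0
    simpa using this
  rw [h2] at h1
  exact_mod_cast h1.symm

theorem Pj.c_small {j : ℕ} {x : V} (h : Pj V j x) (i : Fin n) (hi : a i ≤ j) : c e i x = 0 := by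
  obtain ⟨z, rfl⟩ := h.2
  rw [c_pow]
  push_cast
  rw [two_pow_of_le hi, zero_mul]

theorem Pj.step {j : ℕ} {x : V} (h : Pj V j x) (ha1 : ∀ i, 1 ≤ a i) (hx : ∀ i, a i = j + 1 → c e i x = 0) :
    Pj V (j + 1) x := by
  refine ⟨h.1, ?_⟩
  have key : ∀ i, ∃ t : ZMod (2 ^ a i), (2 : ZMod (2 ^ a i)) ^ (j + 1) * t = c e i x := by
    intro i
    by_cases h0 : c e i x = 0
    · exact ⟨0, by rw [mul_zero, h0]⟩
    · have h1 : c e i x = (2 : ZMod (2 ^ a i)) ^ (a i - 1) :=
        (two_torsion (a i) (ha1 i) _ (h.c_two e i)).resolve_left h0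
      have hi : j + 1 < a i := by
        by_contra hc
        have h2 : a i ≤ j ∨ a i = j + 1 := by omega
        rcases h2 with h2 | h2
        · exact h0 (h.c_small e i h2)
        · exact h0 (hx i h2)
      refine ⟨(2 : ZMod (2 ^ a i)) ^ (a i - 1 - (j + 1)), ?_⟩
      rw [h1, ← pow_add]
      congr 1
      omega
  choose t ht using key
  obtain ⟨z, hz⟩ := exists_of_c e t
  refine ⟨z, eq_of_c e (fun i => ?_)⟩
  rw [c_pow, hz, ← ht]
  push_cast
  rfl

theorem c_one (i : Fin n) : c e i (1 : V) = 0 := by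
  have := c_pow e i (1 : V) 0
  simpa using this

include e in
theorem Pj.mul {j : ℕ} {x y : V} (hx : Pj V j x) (hy : Pj V j y) : Pj V j (x * y) := by
  have hcomm := comm_of_e e
  constructor
  · rw [pow_two, mul_assoc, ← mul_assoc y, hcomm y x, mul_assoc, ← mul_assoc, ← pow_two, ← pow_two, hx.1, hy.1, one_mul]
  · obtain ⟨z, hz⟩ := hx.2
    obtain ⟨z', hz'⟩ := hy.2
    refine ⟨z * z', ?_⟩
    have : Commute z z' := hcomm z z'
    rw [this.mul_pow, hz, hz']

include e in
/-- The key uniqueness statement. -/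
theorem unique_of (ha : StrictMono a) (ha1 : ∀ i, 1 ≤ a i) (D : Subgroup V) {j : ℕ}
    (hD : ∀ w ∈ D, Pj V (j + 1) w → w = 1) {x y : V} (hxD : x ∈ D) (hyD : y ∈ D) (hx : Pj V j x) (hy : Pj V j y)
    (hx1 : x ≠ 1) (hy1 : y ≠ 1) : x = y := by
  have hw : Pj V (j + 1) (x * y) := by
    apply (hx.mul e hy).step e ha1
    intro i hi
    have hx0 : c e i x ≠ 0 := by
      intro h0
      apply hx1
      apply hD x hxD
      apply hx.step e ha1
      intro i' hi'
      have : i' = i := ha.injective (hi'.trans hi.symm)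
      rw [this, h0]
    have hy0 : c e i y ≠ 0 := by
      intro h0
      apply hy1
      apply hD y hyD
      apply hy.step e ha1
      intro i' hi'
      have : i' = i := ha.injective (hi'.trans hi.symm)
      rw [this, h0]
    have h1 := (two_torsion (a i) (ha1 i) _ (hx.c_two e i)).resolve_left hx0
    have h2 := (two_torsion (a i) (ha1 i) _ (hy.c_two e i)).resolve_left hy0
    rw [c_mul, h1, h2, ← two_mul, ← pow_succ']
    have : a i - 1 + 1 = a i := Nat.sub_add_cancel (ha1 i)
    rw [this, two_pow_self]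
  have h1 : x * y = 1 := hD _ (D.mul_mem hxD hyD) hw
  have h2 : y ^ 2 = 1 := hy.1
  have h3 : y * y = 1 := by rwa [pow_two] at h2
  calc x = x * (y * y) := by rw [h3, mul_one]
    _ = (x * y) * y := by rw [mul_assoc]
    _ = y := by rw [h1, one_mul]

end coords

theorem commSub_map_mem {Ω : Type*} [Group Ω] {S : Subgroup Ω} (F : Cfsg.FusionSystem S) {α : MulAut S} (hα : α ∈ F.autGroup S)
    {d : S} (hd : d ∈ commSub F) : α d ∈ commSub F := by
  unfold commSub at hd ⊢
  induction hd using Subgroup.closure_induction with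
  | mem y hy =>
    obtain ⟨β, hβ, z, rfl⟩ := hy
    apply Subgroup.subset_closure
    refine ⟨α * β * α⁻¹, (F.autGroup S).mul_mem ((F.autGroup S).mul_mem hα hβ) ((F.autGroup S).inv_mem hα), α z, ?_⟩
    simp [map_mul, map_inv]
  | one => rw [map_one]; exact Subgroup.one_mem _
  | mul a b _ _ ha hb => rw [map_mul]; exact Subgroup.mul_mem _ ha hb
  | inv a _ ha => rw [map_inv]; exact Subgroup.inv_mem _ ha

theorem autGroup_trivial {Ω : Type*} [Group Ω] {S : Subgroup Ω} [Finite S] (n : ℕ) (a : Fin n → ℕ) (ha : StrictMono a) (ha1 : ∀ i, 1 ≤ a i) (e : ↥S ≃* Multiplicative ((i : Fin n) → ZMod (2 ^ a i))) (F : Cfsg.FusionSystem S) (hF : F.IsSaturated 2)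
    (hS : IsPGroup 2 S) (hab : ∀ x ∈ S, ∀ y ∈ S, x * y = y * x) : commSub F = ⊥ := by
  by_contra hne
  have hfix : ∀ y : S, y ∈ commSub F → y ≠ 1 → (∀ α ∈ F.autGroup S, α y = y) → False := by
    intro y hy hy1 hyf
    exact hy1 (fitting_inf (fun x y : S => Subtype.ext (hab x x.2 y y.2)) (F.autGroup S)
      (coprime_card_autGroup F hS hF hab) y hyf hy)
  -- descent
  have hdown : ∀ m j : ℕ, (∑ i, a i) ≤ j + m → ∀ x : S, x ∈ commSub F → x ≠ 1 → Pj S j x → False := by
    intro m
    induction m with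
    | zero =>
      intro j hj x _ hx1 hP
      apply hx1
      apply eq_one_of_c e
      intro i
      apply hP.c_small e i
      have := Finset.single_le_sum (f := a) (fun i _ => Nat.zero_le _) (Finset.mem_univ i)
      omega
    | succ m ih =>
      intro j hj x hxD hx1 hP
      have hD : ∀ w ∈ commSub F, Pj S (j + 1) w → w = 1 := by
        intro w hw hPw
        by_contra hw1
        exact ih (j + 1) (by omega) w hw hw1 hPw
      refine hfix x hxD hx1 (fun α hα => ?_)
      have hPα : Pj S j (α x) := by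
        refine ⟨by rw [← map_pow, hP.1, map_one], ?_⟩
        obtain ⟨z, hz⟩ := hP.2
        exact ⟨α z, by rw [← map_pow, hz]⟩
      refine unique_of e ha ha1 (commSub F) hD (commSub_map_mem F hα hxD) hxD hPα hP ?_ hx1
      intro h
      apply hx1
      simpa using h
  -- an involution in the commutator
  have hnt : Nontrivial (commSub F) := by
    by_contra hc
    rw [not_nontrivial_iff_subsingleton] at hc
    exact hne (Subgroup.eq_bot_of_subsingleton _)
  have hpd : 2 ∣ Nat.card (commSub F) := by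
    have hpg : IsPGroup 2 (commSub F) := hS.to_subgroup _
    obtain ⟨k, hk⟩ := IsPGroup.iff_card.1 hpg
    rw [hk]
    apply dvd_pow_self
    rintro rfl
    have := Finite.one_lt_card (α := commSub F)
    rw [hk] at this
    simp at this
  obtain ⟨y, hy⟩ := exists_prime_orderOf_dvd_card' 2 hpd
  have hy2 : ((y : S)) ^ 2 = 1 := by
    have := pow_orderOf_eq_one y
    rw [hy] at this
    exact congrArg Subtype.val this
  have hy1 : (y : S) ≠ 1 := by
    intro h
    have : y = 1 := Subtype.ext h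
    rw [this, orderOf_one] at hy
    omega
  exact hdown (∑ i, a i) 0 (by omega) y y.2 hy1 ⟨hy2, y, by simp⟩


/-- Let S be a finite abelian 2-group that is a direct product of cyclic groups of pairwise distinct orders 2^{a_1} < 2^{a_2} < ⋯ < 2^{a_n} (all a_i ≥ 1). Then every saturated fusion system over S is the inner one: its maps are exactly the conjugations by elements of S. -/
theorem result {Ω : Type*} [Group Ω] {S : Subgroup Ω} [Finite S] (n : ℕ) (a : Fin n → ℕ) (ha : StrictMono a) (ha1 : ∀ i, 1 ≤ a i) (e : ↥S ≃* Multiplicative ((i : Fin n) → ZMod (2 ^ a i))) (F : Cfsg.FusionSystem S) (hF : F.IsSaturated 2) (P : Subgroup Ω) : F.Hom P = (Cfsg.innerFusionSystem S).Hom P := by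
  have hab : ∀ x ∈ S, ∀ y ∈ S, x * y = y * x := fun x hx y hy =>
    congrArg Subtype.val (comm_of_e e (⟨x, hx⟩ : S) ⟨y, hy⟩)
  have hS : IsPGroup 2 S := by
    intro x
    refine ⟨∑ i, a i, eq_one_of_c e (fun i => ?_)⟩
    rw [c_pow]
    push_cast
    have := Finset.single_le_sum (f := a) (fun i _ => Nat.zero_le _) (Finset.mem_univ i)
    rw [two_pow_of_le this, zero_mul]
  have hD := autGroup_trivial n a ha ha1 e F hF hS hab
  apply Set.Subset.antisymm _ (inner_subset F P)
  intro φ hφ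
  have hPS : P ≤ S := (F.le_of_mem hφ).1
  obtain ⟨α, hα, h⟩ := exists_aut_ext F hS hF hab hφ
  refine ⟨hPS, 1, S.one_mem, fun x => ?_⟩
  rw [h x]
  have : (⟨x, hPS x.2⟩ : S)⁻¹ * α ⟨x, hPS x.2⟩ ∈ commSub F := Subgroup.subset_closure ⟨α, hα, _, rfl⟩
  rw [hD, Subgroup.mem_bot, inv_mul_eq_one] at this
  rw [← this]
  simp

end Cfsg.Agent.S5331
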