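import Cfsg.Statements.S5342
import Cfsg.Agent.Lib.FusionExt.Constrained

set_option autoImplicit false
open Cfsg

namespace Cfsg.Agent.S5342

open Cfsg.FusionSystem Cfsg.Agent.Lib.Fusion.Basic Cfsg.Agent.Lib.FusionExt.Constrained

theorem subn {Ω : Type*} [Group Ω] {p : ℕ} {T S : Subgroup Ω} {E : Cfsg.FusionSystem T}
    {F : Cfsg.FusionSystem S} (hE : E.IsSubnormalIn F p) :
    p.Prime → Finite S → IsPGroup p S → F.IsConstrained p → E.IsConstrained p := by
  induction hE with
  | refl F p => exact fun _ _ _ h => h
  | @step U S E D F p _ hD ih =>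
    intro hpp hfin hS hF
    haveI : Fact p.Prime := ⟨hpp⟩
    have hle := hD.1.2.2.2.1.1
    have hfU : Finite U := finite_of_le hle
    exact ih hpp hfU (hS.to_le hle) (isConstrained_of_sc_subsystem F hS hF D hD.1.1 hD.1.2.2.1 hD.1.2.2.2.1)


/-- Let F be a constrained saturated fusion system over a finite p-group S. Then every subsystem of F that is subnormal in F (reached from F by a finite chain of successive normal subsystems) is constrained. -/
theorem result {Ω : Type*} [Group Ω] {S : Subgroup Ω} [Finite S] (p : ℕ) [Fact p.Prime] (hS : IsPGroup p S) (F : Cfsg.FusionSystem S) (hF : F.IsConstrained p) {T : Subgroup Ω} (E : Cfsg.FusionSystem T) (hE : E.IsSubnormalIn F p) : E.IsConstrained p := by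
  exact subn hE Fact.out inferInstance hS hF

end Cfsg.Agent.S5342
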