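import Cfsg.Statements.S5521
import Cfsg.Agent.Lib.Golay.M24

set_option autoImplicit false
open Cfsg

namespace Cfsg.Agent.S5521

open Cfsg.Agent.Lib.Golay.Core Cfsg.Agent.Lib.Golay.Perm Cfsg.Agent.Lib.Golay.Chain
  Cfsg.Agent.Lib.Golay.M24


/-- The Mathieu group M₂₄ in its natural action on the 24 coordinate positions of the binary Golay code has minimal base size exactly 7: every set of at most 6 positions is fixed pointwise by some non-identity element of M₂₄, while some set of 7 positions is fixed pointwise only by the identity. -/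
theorem result :
    (∀ B : Finset Cfsg.GolayPt, B.card ≤ 6 → ∃ g ∈ Cfsg.M24, g ≠ 1 ∧ ∀ b ∈ B, g b = b) ∧
    (∃ B : Finset Cfsg.GolayPt, B.card = 7 ∧ ∀ g ∈ Cfsg.M24, (∀ b ∈ B, g b = b) → g = 1) := by
  constructor
  · intro B hB
    classical
    -- pigeonhole on the restrictions to `B`
    let F : M24 → (B → GolayPt) := fun g i => (g : Equiv.Perm GolayPt) i
    have hcard : Fintype.card (B → GolayPt) < Nat.card M24 := by
      rw [card_M24, Fintype.card_fun, card_golayPt, Fintype.card_coe]
      calc 24 ^ B.card ≤ 24 ^ 6 := Nat.pow_le_pow_right (by norm_num) hB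
        _ < 244823040 := by norm_num
    haveI : Fintype M24 := Fintype.ofFinite _
    rw [Nat.card_eq_fintype_card] at hcard
    obtain ⟨a, b, hab, hF⟩ := Fintype.exists_ne_map_eq_of_card_lt F hcard
    refine ⟨(a : Equiv.Perm GolayPt)⁻¹ * b, M24.mul_mem (M24.inv_mem a.2) b.2, ?_, ?_⟩
    · intro h
      apply hab
      apply Subtype.ext
      exact (inv_mul_eq_one.mp h)
    · intro x hx
      have h := congrFun hF ⟨x, hx⟩
      simp only [F] at h
      rw [Equiv.Perm.mul_apply, ← h]
      simp
  · refine ⟨{pt 4, pt 5, pt 3, pt 2, pt 1, pt 0, pt 23}, by decide, ?_⟩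
    intro g hg hfix
    have : g ∈ Fix [4, 5, 3, 2, 1, 0, 23] := by
      refine ⟨hg, ?_⟩
      intro x hx
      apply hfix
      simp only [List.mem_cons, List.not_mem_nil, or_false] at hx
      rcases hx with rfl | rfl | rfl | rfl | rfl | rfl | rfl <;> simp
    rw [Fix_base] at this
    exact (Subgroup.mem_bot.mp this)

end Cfsg.Agent.S5521
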