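import Cfsg.Statements.S5529
import Cfsg.Agent.Lib.M23Triples.Neg
import Cfsg.Agent.Lib.M23Triples.Cert0
import Cfsg.Agent.Lib.M23Triples.Cert1
import Cfsg.Agent.Lib.M23Triples.Cert2
import Cfsg.Agent.Lib.M23Triples.Cert3

set_option autoImplicit false
open Cfsg

namespace Cfsg.Agent.S5529

theorem prime_cases {p : ℕ} (hp : p.Prime) (h : p ∣ 10200960) :
    p = 2 ∨ p = 3 ∨ p = 5 ∨ p = 7 ∨ p = 11 ∨ p = 23 := by
  have e : (10200960 : ℕ) = 2 ^ 7 * 3 ^ 2 * 5 * 7 * 11 * 23 := by norm_num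
  rw [e] at h
  have hq : ∀ {q : ℕ}, q.Prime → p ∣ q → p = q := fun hq hd => (Nat.prime_dvd_prime_iff_eq hp hq).1 hd
  rcases (Nat.Prime.dvd_mul hp).1 h with h | h
  · rcases (Nat.Prime.dvd_mul hp).1 h with h | h
    · rcases (Nat.Prime.dvd_mul hp).1 h with h | h
      · rcases (Nat.Prime.dvd_mul hp).1 h with h | h
        · rcases (Nat.Prime.dvd_mul hp).1 h with h | h
          · left
            exact hq Nat.prime_two (hp.dvd_of_dvd_pow h)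
          · right; left
            exact hq Nat.prime_three (hp.dvd_of_dvd_pow h)
        · right; right; left
          exact hq (by norm_num) h
      · right; right; right; left
        exact hq (by norm_num) h
    · right; right; right; right; left
      exact hq (by norm_num) h
  · right; right; right; right; right
    exact hq (by norm_num) h

/-- Generation of the Mathieu group M₂₃ (the stabiliser of a point in the Mathieu group M₂₄ acting on 24 points) by triples of prime orders. Let p ≤ q ≤ r be primes dividing |M₂₃| = 10200960 = 2⁷·3²·5·7·11·23, not both p and q equal to 2. Then M₂₃ contains elements x, y, z of orders p, q, r with xyz = 1 and ⟨x, y⟩ = M₂₃ if and only if (p, q, r) is none of: (2, 3, r) for any r, (2, 5, 5), (2, 5, 7), (3, 3, 3), (3, 3, 5), (3, 3, 7). -/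
theorem result (p q r : ℕ) (hp : p.Prime) (hq : q.Prime)
    (hr : r.Prime) (hpq : p ≤ q) (hqr : q ≤ r) (hp2 : ¬ (p = 2 ∧ q = 2))
    (hdvd : p ∣ 10200960 ∧ q ∣ 10200960 ∧ r ∣ 10200960) :
    (∃ x y z : Cfsg.Spor.M23, orderOf x = p ∧ orderOf y = q ∧ orderOf z = r ∧ x * y * z = 1 ∧
        Subgroup.closure {x, y} = ⊤) ↔
      ¬ ((p = 2 ∧ q = 3) ∨ (p = 2 ∧ q = 5 ∧ r = 5) ∨ (p = 2 ∧ q = 5 ∧ r = 7) ∨ (p = 3 ∧ q = 3 ∧ r ≤ 7)) := by
  obtain ⟨hpd, hqd, hrd⟩ := hdvd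
  have hP := prime_cases hp hpd
  have hQ := prime_cases hq hqd
  have hR := prime_cases hr hrd
  constructor
  · rintro ⟨x, y, z, hx, hy, hz, hxyz, hcl⟩ hex
    have hT := Cfsg.Agent.Lib.M23Triples.Neg.ree23 x y z hxyz hcl
    have hrk : ∀ g : Cfsg.Agent.Lib.M23Triples.Neg.GM, ∀ {s : ℕ}, orderOf g = s →
        (s = 2 → Cfsg.Agent.Lib.Ree.Basic.rk ↥Cfsg.Agent.Lib.M23Triples.Neg.S23 g ≤ 8) ∧
        (s = 3 → Cfsg.Agent.Lib.Ree.Basic.rk ↥Cfsg.Agent.Lib.M23Triples.Neg.S23 g ≤ 12) ∧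
        (s = 5 → Cfsg.Agent.Lib.Ree.Basic.rk ↥Cfsg.Agent.Lib.M23Triples.Neg.S23 g ≤ 16) ∧
        (s = 7 → Cfsg.Agent.Lib.Ree.Basic.rk ↥Cfsg.Agent.Lib.M23Triples.Neg.S23 g ≤ 18) ∧
        (s = 11 → Cfsg.Agent.Lib.Ree.Basic.rk ↥Cfsg.Agent.Lib.M23Triples.Neg.S23 g ≤ 20) ∧
        (s = 23 → Cfsg.Agent.Lib.Ree.Basic.rk ↥Cfsg.Agent.Lib.M23Triples.Neg.S23 g ≤ 22) := by
      intro g s hs
      refine ⟨fun h => Cfsg.Agent.Lib.M23Triples.Neg.rk2 g (hs.trans h), fun h => Cfsg.Agent.Lib.M23Triples.Neg.rk3 g (hs.trans h),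
        fun h => Cfsg.Agent.Lib.M23Triples.Neg.rk5 g (hs.trans h), fun h => Cfsg.Agent.Lib.M23Triples.Neg.rk7 g (hs.trans h),
        fun h => Cfsg.Agent.Lib.M23Triples.Neg.rk11 g (hs.trans h), fun h => Cfsg.Agent.Lib.M23Triples.Neg.rk23 g (hs.trans h)⟩
    obtain ⟨a1, a2, a3, a4, a5, a6⟩ := hrk x hx
    obtain ⟨b1, b2, b3, b4, b5, b6⟩ := hrk y hy
    obtain ⟨c1, c2, c3, c4, c5, c6⟩ := hrk z hz
    generalize Cfsg.Agent.Lib.Ree.Basic.rk ↥Cfsg.Agent.Lib.M23Triples.Neg.S23 x = rx at *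
    generalize Cfsg.Agent.Lib.Ree.Basic.rk ↥Cfsg.Agent.Lib.M23Triples.Neg.S23 y = ry at *
    generalize Cfsg.Agent.Lib.Ree.Basic.rk ↥Cfsg.Agent.Lib.M23Triples.Neg.S23 z = rz at *
    rcases hP with h | h | h | h | h | h <;> rcases hQ with h' | h' | h' | h' | h' | h' <;>
      rcases hR with h'' | h'' | h'' | h'' | h'' | h'' <;> subst h <;> subst h' <;> subst h'' <;>
      simp only [forall_const, true_implies] at * <;> omega
  · intro hne
    show Cfsg.Agent.Lib.M23Triples.Wit.WitP p q r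
    rcases hP with rfl | rfl | rfl | rfl | rfl | rfl <;> rcases hQ with rfl | rfl | rfl | rfl | rfl | rfl <;>
      rcases hR with rfl | rfl | rfl | rfl | rfl | rfl <;>
      first
      | omega
      | exact Cfsg.Agent.Lib.M23Triples.Cert0.wit_2_5_11 | exact Cfsg.Agent.Lib.M23Triples.Cert0.wit_2_5_23 | exact Cfsg.Agent.Lib.M23Triples.Cert0.wit_2_7_7 | exact Cfsg.Agent.Lib.M23Triples.Cert0.wit_2_7_11 | exact Cfsg.Agent.Lib.M23Triples.Cert0.wit_2_7_23 | exact Cfsg.Agent.Lib.M23Triples.Cert0.wit_2_11_11 | exact Cfsg.Agent.Lib.M23Triples.Cert0.wit_2_11_23 | exact Cfsg.Agent.Lib.M23Triples.Cert0.wit_2_23_23 | exact Cfsg.Agent.Lib.M23Triples.Cert0.wit_3_3_11 | exact Cfsg.Agent.Lib.M23Triples.Cert0.wit_3_3_23 | exact Cfsg.Agent.Lib.M23Triples.Cert1.wit_3_5_5 | exact Cfsg.Agent.Lib.M23Triples.Cert1.wit_3_5_7 | exact Cfsg.Agent.Lib.M23Triples.Cert1.wit_3_5_11 | exact Cfsg.Agent.Lib.M23Triples.Cert1.wit_3_5_23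 | exact Cfsg.Agent.Lib.M23Triples.Cert1.wit_3_7_7 | exact Cfsg.Agent.Lib.M23Triples.Cert1.wit_3_7_11 | exact Cfsg.Agent.Lib.M23Triples.Cert1.wit_3_7_23 | exact Cfsg.Agent.Lib.M23Triples.Cert1.wit_3_11_11 | exact Cfsg.Agent.Lib.M23Triples.Cert1.wit_3_11_23 | exact Cfsg.Agent.Lib.M23Triples.Cert1.wit_3_23_23 | exact Cfsg.Agent.Lib.M23Triples.Cert2.wit_5_5_5 | exact Cfsg.Agent.Lib.M23Triples.Cert2.wit_5_5_7 | exact Cfsg.Agent.Lib.M23Triples.Cert2.wit_5_5_11 | exact Cfsg.Agent.Lib.M23Triples.Cert2.wit_5_5_23 | exact Cfsg.Agent.Lib.M23Triples.Cert2.wit_5_7_7 | exact Cfsg.Agent.Lib.M23Triples.Cert2.wit_5_7_11 | exact Cfsg.Agent.Lib.M23Triples.Cert2.wit_5_7_23 | exact Cfsg.Agent.Lib.M23Triples.Cert2.wit_5_11_11 | exact Cfsg.Agent.Lib.M23Triples.Cert2.wit_5_11_23 | exact Cfsg.Agent.Lib.M23Triples.Cert2.wit_5_23_23 | exact Cfsg.Agent.Lib.M23Triples.Cert3.wit_7_7_7 | exact Cfsg.Agent.Lib.M23Triples.Cert3.wit_7_7_11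 | exact Cfsg.Agent.Lib.M23Triples.Cert3.wit_7_7_23 | exact Cfsg.Agent.Lib.M23Triples.Cert3.wit_7_11_11 | exact Cfsg.Agent.Lib.M23Triples.Cert3.wit_7_11_23 | exact Cfsg.Agent.Lib.M23Triples.Cert3.wit_7_23_23 | exact Cfsg.Agent.Lib.M23Triples.Cert3.wit_11_11_11 | exact Cfsg.Agent.Lib.M23Triples.Cert3.wit_11_11_23 | exact Cfsg.Agent.Lib.M23Triples.Cert3.wit_11_23_23 | exact Cfsg.Agent.Lib.M23Triples.Cert3.wit_23_23_23

end Cfsg.Agent.S5529
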