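-- Statement S5562 (row 5562).
import Cfsg.Statements.S5562

set_option autoImplicit false
open Cfsg

namespace Cfsg.Agent.S5562

variable {G : Type*} [Group G]

private lemma exists_sqrt_of_odd (r : G) (hr : Odd (orderOf r)) :
    ∃ c : G, c ^ 2 = r ∧ ∃ m : ℕ, c = r ^ m := by
  obtain ⟨k, hk⟩ := hr
  refine ⟨r ^ (k + 1), ?_, k + 1, rfl⟩
  rw [← pow_mul]
  have : (k + 1) * 2 = orderOf r + 1 := by omega
  rw [this, pow_succ, pow_orderOf_eq_one, one_mul]

private lemma odd_order_pow (r : G) (hr : Odd (orderOf r)) (m : ℕ) : Odd (orderOf (r ^ m)) := by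
  have h := orderOf_dvd_of_pow_eq_one (x := r ^ m) (n := orderOf r) (by
    rw [← pow_mul, mul_comm, pow_mul, pow_orderOf_eq_one, one_pow])
  exact Odd.of_dvd_nat hr h

private lemma exists_fourth_root (r : G) (hr : Odd (orderOf r)) :
    ∃ t : G, t ^ 4 = r ∧ ∃ m : ℕ, t = r ^ m := by
  obtain ⟨c, hc, m, hm⟩ := exists_sqrt_of_odd r hr
  have hc' : Odd (orderOf c) := by rw [hm]; exact odd_order_pow r hr m
  obtain ⟨t, ht, m', hm'⟩ := exists_sqrt_of_odd c hc'
  refine ⟨t, ?_, m * m', ?_⟩
  · rw [show (4 : ℕ) = 2 * 2 from rfl, pow_mul, ht, hc]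
  · rw [hm', hm, ← pow_mul]

private lemma orderOf_of_mem_conjugatesOf {d a : G} (hd : orderOf d = 2) (ha : a ∈ conjugatesOf d) :
    orderOf a = 2 := by
  obtain ⟨c, rfl⟩ := isConj_iff.mp (show IsConj d a from ha)
  have : SemiconjBy c d (c * d * c⁻¹) := by simp [SemiconjBy]
  rw [← this.orderOf_eq, hd]

private lemma sq_eq_one_of_order {a : G} (ha : orderOf a = 2) : a * a = 1 := by
  have := pow_orderOf_eq_one a
  rw [ha, pow_two] at this
  exact this

private lemma inv_of_order {a : G} (ha : orderOf a = 2) : a⁻¹ = a :=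
  inv_eq_of_mul_eq_one_left (sq_eq_one_of_order ha)

private lemma conj_inv_of_self {u t s : G} (hu : u⁻¹ = u) (h : u * t * u = s) :
    u * t⁻¹ * u = s⁻¹ := by
  rw [← h, mul_inv_rev, mul_inv_rev, hu, mul_assoc]

theorem result {G : Type*} [Group G] [Finite G] (d : G) (hd : orderOf d = 2)
    (hodd : ∀ a ∈ conjugatesOf d, ∀ b ∈ conjugatesOf d, Odd (orderOf (a * b)))
    (x : G) (hx : orderOf x = 2) :
    ∀ e ∈ conjugatesOf d,
      ∃! a : G, a ∈ conjugatesOf d ∧ Commute a x ∧ Commute e (a * x) := by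
  intro e he
  have hxx : x * x = 1 := sq_eq_one_of_order hx
  have hxi : x⁻¹ = x := inv_of_order hx
  have hee : e * e = 1 := sq_eq_one_of_order (orderOf_of_mem_conjugatesOf hd he)
  -- the conjugate of `e` by `x`
  set e' : G := x * e * x with he'def
  have hconj : ∀ {u : G} (c : G), u ∈ conjugatesOf d → c * u * c⁻¹ ∈ conjugatesOf d := by
    intro u c hu
    exact (show IsConj d u from hu).trans (isConj_iff.mpr ⟨c, rfl⟩)
  have he' : e' ∈ conjugatesOf d := by
    have := hconj x he
    rwa [hxi] at this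
  have he'e' : e' * e' = 1 := sq_eq_one_of_order (orderOf_of_mem_conjugatesOf hd he')
  set r : G := e * e' with hr
  have hrodd : Odd (orderOf r) := hodd e he e' he'
  obtain ⟨t, ht4, m, hm⟩ := exists_fourth_root r hrodd
  -- e inverts powers of r
  have he_r : e * r * e = r⁻¹ := by
    rw [hr, mul_inv_rev, inv_of_order (orderOf_of_mem_conjugatesOf hd he'),
      inv_of_order (orderOf_of_mem_conjugatesOf hd he)]
    calc e * (e * e') * e = (e * e) * e' * e := by group
      _ = e' * e := by rw [hee, one_mul]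
  have hx_r : x * r * x = r⁻¹ := by
    rw [hr, mul_inv_rev, inv_of_order (orderOf_of_mem_conjugatesOf hd he'),
      inv_of_order (orderOf_of_mem_conjugatesOf hd he), he'def]
    calc x * (e * (x * e * x)) * x = (x * e * x) * e * (x * x) := by group
      _ = (x * e * x) * e := by rw [hxx, mul_one]
  have hconj_pow : ∀ (u : G) (huu : u * u = 1) (hu : u * r * u = r⁻¹), u * t * u = t⁻¹ := by
    intro u huu hu
    have huinv : u⁻¹ = u := inv_eq_of_mul_eq_one_left huu
    have h1 : u * r * u⁻¹ = r⁻¹ := by rw [huinv]; exact hu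
    have h2 : u * r ^ m * u⁻¹ = (u * r * u⁻¹) ^ m := by
      simp [conj_pow]
    rw [huinv] at h1 h2
    rw [hm, h2, h1, inv_pow]
  have het : e * t * e = t⁻¹ := hconj_pow e hee he_r
  have hxt : x * t * x = t⁻¹ := hconj_pow x hxx hx_r
  -- define the midpoint
  set a : G := t⁻¹ * e * t with ha
  have ha_conj : a ∈ conjugatesOf d := by
    have := hconj t⁻¹ he
    rwa [inv_inv] at this
  have haa : a * a = 1 := sq_eq_one_of_order (orderOf_of_mem_conjugatesOf hd ha_conj)
  have het' : e * t = t⁻¹ * e := by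
    calc e * t = (e * t * e) * e := by rw [mul_assoc (e * t), hee, mul_one]
      _ = t⁻¹ * e := by rw [het]
  have ha2 : a = t⁻¹ * t⁻¹ * e := by
    rw [ha]
    calc t⁻¹ * e * t = t⁻¹ * (e * t) := by group
      _ = t⁻¹ * t⁻¹ * e := by rw [het']; group
  have hr_e' : e' = r⁻¹ * e := by
    rw [hr, mul_inv_rev, inv_of_order (orderOf_of_mem_conjugatesOf hd he),
      inv_of_order (orderOf_of_mem_conjugatesOf hd he'), mul_assoc, hee, mul_one]
  have ht4' : r⁻¹ = t⁻¹ * t⁻¹ * t⁻¹ * t⁻¹ := by
    rw [← ht4]; group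
  -- a conjugates e to e'
  have hae : a * e * a = e' := by
    have h5 : e * (t⁻¹ * t⁻¹) = t * t * e := by
      have : e * (t⁻¹ * t⁻¹) * e = t * t := by
        have h4 : e * t⁻¹ * e = t := by
          have := conj_inv_of_self (inv_of_order (orderOf_of_mem_conjugatesOf hd he)) het
          rwa [inv_inv] at this
        calc e * (t⁻¹ * t⁻¹) * e = (e * t⁻¹ * e) * (e * t⁻¹ * e) := by
              calc e * (t⁻¹ * t⁻¹) * e = e * t⁻¹ * 1 * t⁻¹ * e := by group
                _ = e * t⁻¹ * (e * e) * t⁻¹ * e := by rw [hee]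
                _ = _ := by group
          _ = t * t := by rw [h4]
      calc e * (t⁻¹ * t⁻¹) = (e * (t⁻¹ * t⁻¹) * e) * e := by
            rw [mul_assoc (e * (t⁻¹ * t⁻¹)), hee, mul_one]
        _ = t * t * e := by rw [this]
    rw [hr_e', ht4', ha2]
    calc t⁻¹ * t⁻¹ * e * e * (t⁻¹ * t⁻¹ * e)
        = t⁻¹ * t⁻¹ * (e * e) * (t⁻¹ * t⁻¹ * e) := by group
      _ = t⁻¹ * t⁻¹ * t⁻¹ * t⁻¹ * e := by rw [hee]; group
  have hae' : a * e' * a = e := by
    rw [← hae]
    calc a * (a * e * a) * a = (a * a) * e * (a * a) := by group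
      _ = e := by rw [haa]; group
  have hxe : x * e * x = e' := rfl
  -- a commutes with x
  have hax : a * x = x * a := by
    have h1 : x * a * x = a := by
      have hxti : x * t⁻¹ * x = t := by
        have := conj_inv_of_self hxi hxt
        rwa [inv_inv] at this
      rw [ha2]
      calc x * (t⁻¹ * t⁻¹ * e) * x
          = (x * t⁻¹ * x) * (x * t⁻¹ * x) * (x * e * x) := by
              calc x * (t⁻¹ * t⁻¹ * e) * x
                  = x * t⁻¹ * 1 * t⁻¹ * 1 * e * x := by group
                _ = x * t⁻¹ * (x * x) * t⁻¹ * (x * x) * e * x := by rw [hxx]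
                _ = _ := by group
        _ = t * t * e' := by rw [hxti, hxe]
        _ = t⁻¹ * t⁻¹ * e := by
            rw [hr_e', ht4']
            group
    calc a * x = (x * a * x) * x := by rw [h1]
      _ = x * a := by rw [mul_assoc (x * a), hxx, mul_one]
  have hcomm : Commute e (a * x) := by
    show e * (a * x) = (a * x) * e
    have h1 : (a * x) * e * (a * x)⁻¹ = e := by
      rw [mul_inv_rev, hxi, inv_of_order (orderOf_of_mem_conjugatesOf hd ha_conj)]
      calc a * x * e * (x * a) = a * (x * e * x) * a := by group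
        _ = e := by rw [hxe, hae']
    calc e * (a * x) = ((a * x) * e * (a * x)⁻¹) * (a * x) := by rw [h1]
      _ = (a * x) * e := by group
  refine ⟨a, ⟨ha_conj, hax, hcomm⟩, ?_⟩
  -- uniqueness
  have key : ∀ a₁ a₂ : G, a₁ ∈ conjugatesOf d → a₂ ∈ conjugatesOf d → Commute a₁ x → Commute a₂ x →
      Commute e (a₁ * x) → Commute e (a₂ * x) → a₁ = a₂ := by
    intro a₁ a₂ h₁ h₂ c₁ c₂ e₁ e₂
    have h₁₁ : a₁ * a₁ = 1 := sq_eq_one_of_order (orderOf_of_mem_conjugatesOf hd h₁)
    have h₂₂ : a₂ * a₂ = 1 := sq_eq_one_of_order (orderOf_of_mem_conjugatesOf hd h₂)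
    set y : G := a₁ * a₂ with hy
    have hy' : y = (a₁ * x) * (a₂ * x) := by
      rw [hy]
      calc a₁ * a₂ = a₁ * a₂ * (x * x) := by rw [hxx, mul_one]
        _ = a₁ * (a₂ * x) * x := by group
        _ = a₁ * (x * a₂) * x := by rw [c₂.eq]
        _ = (a₁ * x) * (a₂ * x) := by group
    have hey : Commute e y := by
      rw [hy']
      exact e₁.mul_right e₂
    have hyinv : y⁻¹ = a₂ * a₁ := by
      rw [hy, mul_inv_rev, inv_of_order (orderOf_of_mem_conjugatesOf hd h₁),
        inv_of_order (orderOf_of_mem_conjugatesOf hd h₂)]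
    have hay : a₁ * y * a₁ = y⁻¹ := by
      rw [hyinv, hy]
      calc a₁ * (a₁ * a₂) * a₁ = (a₁ * a₁) * a₂ * a₁ := by group
        _ = a₂ * a₁ := by rw [h₁₁, one_mul]
    set g : G := a₁ * e with hg
    have hgodd : Odd (orderOf g) := hodd a₁ h₁ e he
    obtain ⟨k, hk⟩ := hgodd
    have hgy : g * y * g⁻¹ = y⁻¹ := by
      rw [hg, mul_inv_rev, inv_of_order (orderOf_of_mem_conjugatesOf hd h₁),
        inv_of_order (orderOf_of_mem_conjugatesOf hd he)]
      calc a₁ * e * y * (e * a₁) = a₁ * (e * y) * e * a₁ := by group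
        _ = a₁ * (y * e) * e * a₁ := by rw [hey.eq]
        _ = a₁ * y * (e * e) * a₁ := by group
        _ = a₁ * y * a₁ := by rw [hee, mul_one]
        _ = y⁻¹ := hay
    have hgyinv : g * y⁻¹ * g⁻¹ = y := by
      calc g * y⁻¹ * g⁻¹ = (g * y * g⁻¹)⁻¹ := by group
        _ = y := by rw [hgy, inv_inv]
    have hg2 : Commute (g * g) y := by
      show g * g * y = y * (g * g)
      have : g * g * y * (g * g)⁻¹ = y := by
        rw [mul_inv_rev]
        calc g * g * y * (g⁻¹ * g⁻¹) = g * (g * y * g⁻¹) * g⁻¹ := by group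
          _ = y := by rw [hgy, hgyinv]
      calc g * g * y = (g * g * y * (g * g)⁻¹) * (g * g) := by group
        _ = y * (g * g) := by rw [this]
    have hgk : g = (g * g) ^ (k + 1) := by
      rw [← pow_two, ← pow_mul]
      have : 2 * (k + 1) = orderOf g + 1 := by omega
      rw [this, pow_succ, pow_orderOf_eq_one, one_mul]
    have hgc : Commute g y := by
      rw [hgk]
      exact hg2.pow_left _
    have hyy : y⁻¹ = y := by
      rw [← hgy, hgc.eq]
      group
    have hy2 : y ^ 2 = 1 := by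
      rw [pow_two]
      calc y * y = y * y⁻¹ := by rw [hyy]
        _ = 1 := by group
    have hyodd : Odd (orderOf y) := hodd a₁ h₁ a₂ h₂
    have hd2 : orderOf y ∣ 2 := orderOf_dvd_of_pow_eq_one hy2
    have hy1 : orderOf y = 1 := by
      have := (Nat.dvd_prime Nat.prime_two).mp hd2
      rcases this with h | h
      · exact h
      · rw [h] at hyodd
        exact absurd hyodd (by decide)
    have h1 : y = 1 := orderOf_eq_one_iff.mp hy1
    have h3 : a₁⁻¹ = a₂ := inv_eq_of_mul_eq_one_right h1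
    rw [← h3, inv_of_order (orderOf_of_mem_conjugatesOf hd h₁)]
  rintro b ⟨hb, hbx, hbe⟩
  exact key b a hb ha_conj hbx hax hbe hcomm

end Cfsg.Agent.S5562
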