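import Cfsg.Statements.S5595
import Cfsg.Prelude.Def_CaseTheorems
import Cfsg.Agent.Lib.LargeExtra.Basic
import Cfsg.Agent.Lib.PGroups.Special
import Cfsg.Agent.Lib.ThreeT.LargeConj

set_option autoImplicit false
open Cfsg

namespace Cfsg.Agent.S5595

open Cfsg.Agent.Lib.LargeExtra.Basic
open Cfsg.Agent.Lib.ThreeT.LargeConj

private lemma card_ge {P : Type*} [Group P] [Finite P] (A : Subgroup P) (S : Finset P)
    (h : ∀ x ∈ S, x ∈ A) : S.card ≤ Nat.card A := by
  classical
  have h1 : (↑S : Set P) ⊆ (A : Set P) := fun x hx => h x (by simpa using hx)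
  have h2 := Set.ncard_le_ncard h1 (Set.toFinite _)
  rw [Set.ncard_coe_finset] at h2
  have h3 : Nat.card ↥A = (A : Set P).ncard := rfl
  rwa [h3]

variable {G : Type*} [Group G]

/-- The element-wise context attached to `Q z`. -/
private lemma ctx_of_hyps {z : G} (hz : orderOf z = 2) (hE : Cfsg.IsExtraspecial 2 ↥(QQ z))
    (hC : Subgroup.centralizer ((QQ z : Subgroup G) : Set G) ≤ QQ z) [Finite G] : Ctx (QQ z) z := by
  classical
  have : Fact (Nat.Prime 2) := ⟨Nat.prime_two⟩
  have sa := settingAt_of_extraspecial hz hE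
  refine ⟨sa.mem, sa.sq, sa.ne_one, sa.central, ?_, ?_, ?_, ?_⟩
  · intro a ha b hb
    rcases sa.comm a ha b hb with h | h
    · left; exact (Lib.LargeExtra.Duality.comm_eq_one_iff a b).1 h
    · right
      calc a * b = (a * b * a⁻¹ * b⁻¹) * (b * a) := by group
        _ = z * (b * a) := by rw [h]
  · intro a ha
    have h1 := Lib.PGroups.Special.IsSpecial.pow_mem (p := 2) hE.1 (⟨a, ha⟩ : ↥(QQ z))
    have h2 : ∀ b ∈ QQ z, (a * a) * b = b * (a * a) := by
      intro b hb
      have := (Subgroup.mem_center_iff.1 h1) ⟨b, hb⟩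
      have h3 := congrArg Subtype.val this
      simp only [Subgroup.coe_mul, pow_two] at h3
      exact h3.symm
    exact sa.rad _ (QQ z |>.mul_mem ha ha) h2
  · intro c hc
    have hc' : c ∈ Subgroup.centralizer ((QQ z : Subgroup G) : Set G) := by
      rw [Subgroup.mem_centralizer_iff]
      intro a ha
      exact (hc a ha).symm
    exact sa.rad c (hC hc') hc
  · intro c hc a ha
    obtain ⟨a', ha', rfl⟩ := ha
    have hcm : c ∈ Subgroup.centralizer ({z} : Set G) := by
      rw [Subgroup.mem_centralizer_iff]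
      intro h hh
      rw [Set.mem_singleton_iff] at hh
      rw [hh]; exact hc.symm
    refine ⟨⟨c, hcm⟩ * a' * ⟨c, hcm⟩⁻¹, (Cfsg.pCore_normal 2 _).conj_mem a' ha' ⟨c, hcm⟩, ?_⟩
    simp

/-- The statement itself. -/
theorem result {G : Type*} [Group G] [Finite G]
    (Q : G → Subgroup G)
    (hQ : ∀ x : G, Q x = (Cfsg.pCore 2 ↥(Subgroup.centralizer ({x} : Set G))).map (Subgroup.centralizer ({x} : Set G)).subtype)
    (z : G) (hz : orderOf z = 2) (hE : Cfsg.IsExtraspecial 2 ↥(Q z))
    (hC : Subgroup.centralizer ((Q z : Subgroup G) : Set G) ≤ Q z)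
    (g : G) (hx : g * z * g⁻¹ ∈ Q z) : z ∈ Q (g * z * g⁻¹) := by
  classical
  have hQQ : Q = QQ := funext hQ
  subst hQQ
  by_cases htz : g * z * g⁻¹ = z
  · rw [htz]; exact self_mem_QQ hz
  have hctx := ctx_of_hyps hz hE hC
  have hR : QQ (g * z * g⁻¹) = (QQ z).map (MulAut.conj g).toMonoidHom := QQ_conj g z
  have hctxR : Ctx (QQ (g * z * g⁻¹)) (g * z * g⁻¹) := by
    rw [hR]; exact hctx.conj g
  have two : Two (QQ z) (QQ (g * z * g⁻¹)) z (g * z * g⁻¹) g :=
    ⟨hctx, hctxR, fun x => by rw [hR]; exact mem_map_conj, rfl, hx, htz⟩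
  by_cases hcard : 8 < Nat.card (QQ z)
  · exact two.mem hcard
  -- the small case
  by_contra hzR
  set t := g * z * g⁻¹ with ht
  set R := QQ t with hRdef
  have hzz := hctx.z_sq
  have hzi : z⁻¹ = z := inv_eq_of_mul_eq_one_left hzz
  have htt := hctxR.z_sq
  have hzt := two.comm_zt
  -- an element of `R` not commuting with `z`
  obtain ⟨r, hr, hrz⟩ : ∃ r ∈ R, ¬ (z * r = r * z) := by
    by_contra hcon
    push Not at hcon
    rcases hctxR.cent z hcon with h | h
    · exact hctx.z_ne h
    · exact htz h.symm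
  obtain ⟨hs, hsz⟩ := two.d hzR hr
  set s := z * r * z⁻¹ * r⁻¹ with hsdef
  have hzr : z * r * z⁻¹ = s * r := by rw [hsdef]; group
  -- `s ≠ 1` and `s ≠ t`
  have hs1 : s ≠ 1 := by
    intro h
    apply hrz
    have : z * r * z⁻¹ = r := by rw [hzr, h, one_mul]
    calc z * r = z * r * z⁻¹ * z := by group
      _ = r * z := by rw [this]
  have hst : s ≠ t := by
    intro h
    apply hrz
    exact (two.w hzR hr (Or.inr (by rw [hzr, h]))).symm
  -- `s² = 1`
  have hss : s * s = 1 := by
    have h1 : z * (z * r * z⁻¹) * z⁻¹ = r := by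
      calc z * (z * r * z⁻¹) * z⁻¹ = (z * z) * r * (z⁻¹ * z⁻¹) := by group
        _ = r := by rw [hzi, hzz]; group
    rw [hzr] at h1
    have h2 : z * (s * r) * z⁻¹ = (z * s * z⁻¹) * (z * r * z⁻¹) := by group
    have h3 : z * s * z⁻¹ = s := by rw [← hsz]; group
    rw [h2, h3, hzr] at h1
    have h4 : s * (s * r) * r⁻¹ = r * r⁻¹ := by rw [h1]
    simpa [mul_assoc] using h4
  have hsi : s⁻¹ = s := inv_eq_of_mul_eq_one_left hss
  -- `s` commutes with `r`
  have hsr : s * r = r * s := by
    have h1 : z * (r * r) * z⁻¹ = r * r := by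
      rcases hctxR.sq r hr with h | h
      · rw [h]; group
      · rw [h, hzt]; group
    have h2 : z * (r * r) * z⁻¹ = (z * r * z⁻¹) * (z * r * z⁻¹) := by group
    rw [h2, hzr] at h1
    have h3 : s * r * s = r := by
      have h4 : (s * r * (s * r)) * r⁻¹ = (r * r) * r⁻¹ := by rw [h1]
      have h5 : s * r * (s * r) * r⁻¹ = s * r * s := by group
      rw [h5] at h4
      simpa using h4
    calc s * r = s * r * s * s⁻¹ := by group
      _ = r * s := by rw [h3, hsi]
  -- now count inside `R`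
  have hsaR : SettingAt t R := settingAt_conj hz hE g
  have hS := hsaR.toSetting
  let cc : ↥R := ⟨t, hsaR.mem⟩
  let ss : ↥R := ⟨s, hs⟩
  let rr : ↥R := ⟨r, hr⟩
  let Y : Subgroup ↥R := Subgroup.centralizer ({ss} : Set ↥R)
  have hcentral : ∀ a : ↥R, a * cc = cc * a := fun a => Subtype.ext (hsaR.central a a.2)
  have hcY : cc ∈ Y := by
    rw [Subgroup.mem_centralizer_iff]
    intro h hh
    rw [Set.mem_singleton_iff] at hh
    rw [hh]; exact hcentral ss
  have key := hS.card_mul_card_centralizer Y hcY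
  -- the cardinalities
  have hcR : Nat.card ↥R ≤ 8 := by
    have : Nat.card ↥R = Nat.card ↥(QQ z) := by
      rw [hR]
      exact Subgroup.card_map_of_injective (MulAut.conj g).injective
    omega
  -- distinctness (in `G`)
  have ne_t1 : t ≠ 1 := hctxR.z_ne
  have comm_z : ∀ a : G, a = 1 ∨ a = t ∨ a = s ∨ a = s * t → a * z = z * a := by
    intro a ha
    rcases ha with rfl | rfl | rfl | rfl
    · simp
    · exact hzt.symm
    · exact hsz
    · calc s * t * z = s * (t * z) := by rw [mul_assoc]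
        _ = s * (z * t) := by rw [hzt]
        _ = (s * z) * t := (mul_assoc s z t).symm
        _ = (z * s) * t := by rw [hsz]
        _ = z * (s * t) := mul_assoc z s t
  have hr_ne : ∀ a : G, (a = 1 ∨ a = t ∨ a = s ∨ a = s * t) → r ≠ a := by
    intro a ha hh
    apply hrz
    rw [hh]
    exact (comm_z a ha).symm
  have val_ne : ∀ a b : ↥R, (a : G) ≠ (b : G) → a ≠ b := fun a b h hh => h (congrArg Subtype.val hh)
  have hst1 : s * t ≠ 1 := by
    intro h
    apply hst
    have h1 : s = t⁻¹ := eq_inv_of_mul_eq_one_left h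
    rw [h1]; exact inv_eq_of_mul_eq_one_left htt
  have hstt : s * t ≠ t := by
    intro h
    apply hs1
    exact mul_right_cancel (h.trans (one_mul t).symm)
  have hsts : s * t ≠ s := by
    intro h
    apply ne_t1
    exact mul_left_cancel (h.trans (mul_one s).symm)
  -- `Y` has at least five elements
  have hY5 : 5 ≤ Nat.card Y := by
    have hcomm : ∀ a : ↥R, a * ss = ss * a → a ∈ Y := by
      intro a ha
      rw [Subgroup.mem_centralizer_iff]
      intro h hh
      rw [Set.mem_singleton_iff] at hh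
      rw [hh]; exact ha.symm
    let S : Finset ↥R := {1, cc, ss, ss * cc, rr}
    have hScard : S.card = 5 := by
      have h1 : (1 : ↥R) ≠ cc := val_ne _ _ (Ne.symm ne_t1)
      have h2 : (1 : ↥R) ≠ ss := val_ne _ _ (Ne.symm hs1)
      have h3 : (1 : ↥R) ≠ ss * cc := val_ne _ _ (Ne.symm hst1)
      have h4 : (1 : ↥R) ≠ rr := val_ne _ _ (Ne.symm (hr_ne 1 (Or.inl rfl)))
      have h5 : cc ≠ ss := val_ne _ _ (Ne.symm hst)
      have h6 : cc ≠ ss * cc := val_ne _ _ (Ne.symm hstt)
      have h7 : cc ≠ rr := val_ne _ _ (Ne.symm (hr_ne t (Or.inr (Or.inl rfl))))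
      have h8 : ss ≠ ss * cc := val_ne _ _ (Ne.symm hsts)
      have h9 : ss ≠ rr := val_ne _ _ (Ne.symm (hr_ne s (Or.inr (Or.inr (Or.inl rfl)))))
      have h10 : ss * cc ≠ rr := val_ne _ _ (Ne.symm (hr_ne (s * t) (Or.inr (Or.inr (Or.inr rfl)))))
      simp [S, Finset.card_insert_of_notMem, h1, h2, h3, h4, h5, h6, h7, h8, h9, h10]
    rw [← hScard]
    apply card_ge
    intro x hx
    simp only [S, Finset.mem_insert, Finset.mem_singleton] at hx
    rcases hx with rfl | rfl | rfl | rfl | rfl
    · exact one_mem _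
    · exact hcY
    · exact hcomm _ rfl
    · exact mul_mem (hcomm _ rfl) hcY
    · exact hcomm _ (Subtype.ext hsr.symm)
  -- the centralizer of `Y` has at least four elements
  have hC4 : 4 ≤ Nat.card (Subgroup.centralizer (Y : Set ↥R)) := by
    have hssC : ss ∈ Subgroup.centralizer (Y : Set ↥R) := by
      rw [Subgroup.mem_centralizer_iff]
      intro h hh
      have := Subgroup.mem_centralizer_iff.1 hh ss rfl
      exact this.symm
    have hccC : cc ∈ Subgroup.centralizer (Y : Set ↥R) := by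
      rw [Subgroup.mem_centralizer_iff]
      intro h _
      exact hcentral h
    let S : Finset ↥R := {1, cc, ss, ss * cc}
    have hScard : S.card = 4 := by
      have h1 : (1 : ↥R) ≠ cc := val_ne _ _ (Ne.symm ne_t1)
      have h2 : (1 : ↥R) ≠ ss := val_ne _ _ (Ne.symm hs1)
      have h3 : (1 : ↥R) ≠ ss * cc := val_ne _ _ (Ne.symm hst1)
      have h5 : cc ≠ ss := val_ne _ _ (Ne.symm hst)
      have h6 : cc ≠ ss * cc := val_ne _ _ (Ne.symm hstt)
      have h8 : ss ≠ ss * cc := val_ne _ _ (Ne.symm hsts)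
      simp [S, Finset.card_insert_of_notMem, h1, h2, h3, h5, h6, h8]
    rw [← hScard]
    apply card_ge
    intro x hx
    simp only [S, Finset.mem_insert, Finset.mem_singleton] at hx
    rcases hx with rfl | rfl | rfl | rfl
    · exact one_mem _
    · exact hccC
    · exact hssC
    · exact mul_mem hssC hccC
  have := Nat.mul_le_mul hY5 hC4
  omega

end Cfsg.Agent.S5595
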