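import Cfsg.Statements.S5596
import Cfsg.Agent.Lib.LargeExtra.Singular

set_option autoImplicit false
open Cfsg

namespace Cfsg.Agent.S5596

/-- Setting: `z` is an involution of the finite group `G`; for each element `x`, `Q x` is the largest normal 2-subgroup of the centralizer of `x`; `Q z` is extraspecial and contains its own centralizer in `G`. A subgroup `U` is singular when it is elementary abelian, every non-identity element of `U` is conjugate to `z`, and any two non-identity elements `u`, `v` of `U` are orthogonal (`v ∈ Q u`). Write `QU` for the intersection of the `Q u` and `LU` for the join of the `Q u` over the non-identity `u` in `U`. If `U` is singular of order `2 ^ n` with `n ≥ 2`, then `U ≤ QU ≤ LU`, `LU` normalizes `U`, and `LU` induces on `U` its full automorphism group (the general linear group of dimension `n` over the field with two elements): every automorphism of `U` is conjugation by some element of `LU`. -/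
theorem result {G : Type*} [Group G] [Finite G]
    (Q : G → Subgroup G)
    (hQ : ∀ x : G, Q x = (Cfsg.pCore 2 ↥(Subgroup.centralizer ({x} : Set G))).map (Subgroup.centralizer ({x} : Set G)).subtype)
    (z : G) (hz : orderOf z = 2) (hE : Cfsg.IsExtraspecial 2 ↥(Q z))
    (hC : Subgroup.centralizer ((Q z : Subgroup G) : Set G) ≤ Q z)
    (U : Subgroup G) (hU2 : ∀ u ∈ U, u * u = 1)
    (hS : ∀ u ∈ U, u ≠ 1 → ∃ g : G, g * z * g⁻¹ = u)
    (hO : ∀ u ∈ U, ∀ v ∈ U, u ≠ 1 → v ≠ 1 → v ∈ Q u)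
    (QU LU : Subgroup G) (hQU : QU = ⨅ u ∈ ((U : Set G) \ {1}), Q u) (hLU : LU = ⨆ u ∈ ((U : Set G) \ {1}), Q u)
    (n : ℕ) (hn : 2 ≤ n) (hcard : Nat.card ↥U = 2 ^ n) :
    U ≤ QU ∧ QU ≤ LU ∧ LU ≤ Subgroup.normalizer (U : Set G) ∧
      ∀ φ : ↥U ≃* ↥U, ∃ g ∈ LU, ∀ u : ↥U, g * (u : G) * g⁻¹ = ((φ u : ↥U) : G) := by
  have hQQ : Q = Cfsg.Agent.Lib.LargeExtra.Basic.QQ := funext hQ
  subst hQQ
  have hS' := Cfsg.Agent.Lib.LargeExtra.Singular.sing_of_hyps hz hE hU2 hS hO
  subst hQU hLU
  have hne : ∃ u ∈ U, u ≠ 1 := by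
    by_contra hcon
    push Not at hcon
    have hbot : U = ⊥ := (Subgroup.eq_bot_iff_forall U).2 hcon
    rw [hbot, Subgroup.card_bot] at hcard
    have : 2 ^ n ≥ 2 ^ 2 := Nat.pow_le_pow_right (by norm_num) hn
    omega
  obtain ⟨u₀, hu₀, hu₀1⟩ := hne
  have hmem₀ : u₀ ∈ (U : Set G) \ {1} := ⟨hu₀, by simpa using hu₀1⟩
  refine ⟨?_, ?_, hS'.iSup_le_normalizer, hS'.exists_conj_eq_aut⟩
  · apply le_iInf₂
    rintro u ⟨hu, hu1⟩
    exact hS'.le_QQ hu (by simpa using hu1)
  · intro y hy
    rw [Subgroup.mem_iInf] at hy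
    have hy2 := hy u₀
    rw [Subgroup.mem_iInf] at hy2
    exact Subgroup.mem_iSup_of_mem u₀ (Subgroup.mem_iSup_of_mem hmem₀ (hy2 hmem₀))

end Cfsg.Agent.S5596
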