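import Cfsg.Statements.S5713
import Cfsg.Agent.Lib.Perm.Babai

set_option autoImplicit false
open Cfsg

namespace Cfsg.Agent.S5713

/-- A classification-free minimal-degree bound. Let G be a finite group acting faithfully and primitively on a finite set Ω with n elements, and suppose that the image of G in the symmetric group on Ω does not contain the alternating group on Ω. Then every non-identity element of G moves at least (√n − 1)/2 points of Ω, that is, it fixes at most n − (√n − 1)/2 points. -/
theorem result {G Ω : Type*} [Group G] [Finite G] [MulAction G Ω] [FaithfulSMul G Ω] [Fintype Ω] [DecidableEq Ω]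
    (hprim : MulAction.IsPreprimitive G Ω)
    (hA : ¬ alternatingGroup Ω ≤ (MulAction.toPermHom G Ω).range)
    (g : G) (hg : g ≠ 1) :
    (Real.sqrt (Fintype.card Ω) - 1) / 2 ≤ (Fintype.card Ω : ℝ) - Nat.card (MulAction.fixedBy Ω g) := by
  classical
  have h := Cfsg.Agent.Lib.Perm.Babai.main_bound hprim hA g hg
  set s := (Finset.univ.filter (fun x : Ω => g • x ≠ x)).card with hs
  have hfix : Nat.card (MulAction.fixedBy Ω g) + s = Fintype.card Ω := by
    have h1 : Nat.card (MulAction.fixedBy Ω g) = (Finset.univ.filter (fun x : Ω => g • x = x)).card := by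
      rw [Nat.card_eq_fintype_card, Fintype.card_subtype]
      congr 1
    rw [h1, hs]
    exact Finset.card_filter_add_card_filter_not _
  have h2 : (Fintype.card Ω : ℝ) - Nat.card (MulAction.fixedBy Ω g) = s := by
    rw [← hfix]
    push_cast
    ring
  rw [h2]
  have h3 : Real.sqrt (Fintype.card Ω) ≤ 2 * (s : ℝ) + 1 := by
    apply Real.sqrt_le_iff.2
    refine ⟨by positivity, ?_⟩
    have : ((Fintype.card Ω : ℕ) : ℝ) ≤ (((2 * s + 1) ^ 2 : ℕ) : ℝ) := by exact_mod_cast h
    push_cast at this
    exact this
  linarith

end Cfsg.Agent.S5713
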