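import Cfsg.Statements.S5729

set_option autoImplicit false
open Cfsg

namespace Cfsg.Agent.S5729

open MulAction

section burnside

variable {G X : Type*} [Group G] [Fintype G] [MulAction G X] [Finite X]

/-- Burnside's lemma with `Nat.card`. -/
lemma burnside :
    ∑ g : G, Nat.card (fixedBy X g) = Nat.card (orbitRel.Quotient G X) * Nat.card G := by
  classical
  haveI : Fintype X := Fintype.ofFinite X
  haveI : Fintype (orbitRel.Quotient G X) := Fintype.ofFinite _
  have := sum_card_fixedBy_eq_card_orbits_mul_card_group G X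
  simp only [Nat.card_eq_fintype_card]
  convert this using 2

end burnside

variable {G Ω : Type*} [Group G] [Finite G] [MulAction G Ω] [FaithfulSMul G Ω] [Fintype Ω]

lemma card_fixedBy_prod (g : G) :
    Nat.card (fixedBy (Ω × Ω) g) = Nat.card (fixedBy Ω g) ^ 2 := by
  classical
  rw [pow_two, ← Nat.card_prod]
  apply Nat.card_congr
  refine
    { toFun := fun x => (⟨x.1.1, ?_⟩, ⟨x.1.2, ?_⟩)
      invFun := fun y => ⟨(y.1.1, y.2.1), ?_⟩
      left_inv := fun x => rfl
      right_inv := fun y => rfl }
  · have := x.2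
    simp only [mem_fixedBy, Prod.smul_def] at this ⊢
    exact (Prod.ext_iff.mp this).1
  · have := x.2
    simp only [mem_fixedBy, Prod.smul_def] at this ⊢
    exact (Prod.ext_iff.mp this).2
  · have h1 := y.1.2
    have h2 := y.2.2
    simp only [mem_fixedBy] at h1 h2 ⊢
    exact Prod.ext h1 h2

/-- Let a finite group G act faithfully and transitively on a set with n ≥ 3 points. Then either G is a Frobenius permutation group (Frobenius as a permutation group: transitive, some non-identity element fixes a point, and no non-identity element fixes two points) of order n(n − 1) and exactly |G|/n of its elements are derangements (fix no point), or the number of derangements is greater than |G|/n. -/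
theorem result {G Ω : Type*} [Group G] [Finite G] [MulAction G Ω] [FaithfulSMul G Ω] [Fintype Ω] (htr : MulAction.IsPretransitive G Ω) (hn : 3 ≤ Fintype.card Ω) :
    ((MulAction.IsPretransitive G Ω ∧ (∃ g : G, g ≠ 1 ∧ ∃ ω : Ω, g • ω = ω) ∧ ∀ g : G, g ≠ 1 → Nat.card (MulAction.fixedBy Ω g) ≤ 1) ∧ Nat.card G = Fintype.card Ω * (Fintype.card Ω - 1) ∧ Fintype.card Ω * Nat.card {g : G // ∀ ω : Ω, g • ω ≠ ω} = Nat.card G) ∨
    Nat.card G < Fintype.card Ω * Nat.card {g : G // ∀ ω : Ω, g • ω ≠ ω} := by
  classical
  cases nonempty_fintype G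
  set n := Fintype.card Ω with hnn
  set f : G → ℕ := fun g => Nat.card (fixedBy Ω g) with hf
  have hGpos : 0 < Nat.card G := Nat.card_pos
  have hne : Nonempty Ω := by
    rw [← Fintype.card_pos_iff]; omega
  -- one orbit on `Ω`
  have hA : ∑ g : G, f g = Nat.card G := by
    have h := burnside (G := G) (X := Ω)
    have h1 : Nat.card (orbitRel.Quotient G Ω) = 1 := by
      haveI : Subsingleton (orbitRel.Quotient G Ω) := by
        refine ⟨fun a b => ?_⟩
        induction a using Quotient.inductionOn'
        induction b using Quotient.inductionOn'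
        rename_i a b
        exact Quotient.sound' (htr.exists_smul_eq b a |>.elim fun g hg => ⟨g, hg⟩)
      haveI : Nonempty (orbitRel.Quotient G Ω) := ⟨Quotient.mk'' (Classical.arbitrary Ω)⟩
      exact Nat.card_unique
    rw [h, h1, one_mul]
  -- at least two orbits on pairs
  obtain ⟨r, hr2, hB⟩ : ∃ r : ℕ, 2 ≤ r ∧ ∑ g : G, f g ^ 2 = r * Nat.card G := by
    refine ⟨Nat.card (orbitRel.Quotient G (Ω × Ω)), ?_, ?_⟩
    · have hnt : Nontrivial Ω := by
        rw [← Fintype.one_lt_card_iff_nontrivial]; omega
      obtain ⟨α, β, hαβ⟩ := exists_pair_ne Ω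
      have : Nontrivial (orbitRel.Quotient G (Ω × Ω)) := by
        refine ⟨⟨Quotient.mk'' (α, α), Quotient.mk'' (α, β), fun h => ?_⟩⟩
        obtain ⟨g, hg⟩ := Quotient.exact' h
        have h1 : g • α = α := congrArg Prod.fst hg
        have h2 : g • β = α := congrArg Prod.snd hg
        exact hαβ (smul_left_cancel g (h1.trans h2.symm))
      exact Nat.succ_le_of_lt Finite.one_lt_card
    · rw [← burnside (G := G) (X := Ω × Ω)]
      refine Finset.sum_congr rfl fun g _ => ?_
      exact (card_fixedBy_prod g).symm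
  -- fixed points are at most `n`; `n` only for the identity
  have hfle : ∀ g, f g ≤ n := by
    intro g
    rw [hnn, ← Nat.card_eq_fintype_card]
    have : Nat.card (fixedBy Ω g) ≤ Nat.card Ω := Nat.card_mono Set.finite_univ (Set.subset_univ _) |>.trans (by simp)
    exact this
  have hfone : f 1 = n := by
    simp only [hf, hnn]
    rw [← Nat.card_eq_fintype_card]
    have : fixedBy Ω (1 : G) = Set.univ := by ext; simp
    rw [this]; simp
  have hfn : ∀ g, f g = n → g = 1 := by
    intro g hg
    apply eq_of_smul_eq_smul (α := Ω)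
    intro ω
    rw [one_smul]
    have hfin : (fixedBy Ω g) = Set.univ := by
      apply Set.eq_of_subset_of_ncard_le (Set.subset_univ _)
      rw [Set.ncard_univ, Nat.card_eq_fintype_card, ← hnn, ← Nat.card_coe_set_eq]
      exact hg.ge
    have : ω ∈ fixedBy Ω g := by rw [hfin]; trivial
    exact this
  -- number of derangements
  set D := Nat.card {g : G // ∀ ω : Ω, g • ω ≠ ω} with hD
  have hf0 : ∀ g : G, f g = 0 ↔ ∀ ω : Ω, g • ω ≠ ω := by
    intro g
    simp only [hf]
    rw [Nat.card_coe_set_eq, Set.ncard_eq_zero, Set.eq_empty_iff_forall_notMem]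
    rfl
  have hDsum : D = ∑ g : G, if f g = 0 then 1 else 0 := by
    rw [hD, Nat.card_eq_fintype_card, Fintype.card_subtype]
    simp only [← hf0]
    rw [Finset.card_filter]
  -- the key identity in `ℤ`
  have hkey : (r : ℤ) * Nat.card G - Nat.card G = ∑ g : G, ((f g : ℤ) - 1) * ((f g : ℤ) - n) := by
    have h1 : ∑ g : G, ((f g : ℤ) - 1) * ((f g : ℤ) - n)
        = ∑ g : G, ((f g : ℤ) ^ 2 - (n + 1) * (f g : ℤ) + n) := by
      refine Finset.sum_congr rfl fun g _ => ?_
      ring
    rw [h1, Finset.sum_add_distrib, Finset.sum_sub_distrib, ← Finset.mul_sum]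
    have h2 : ∑ g : G, (f g : ℤ) ^ 2 = (r : ℤ) * Nat.card G := by
      exact_mod_cast hB
    have h3 : ∑ g : G, (f g : ℤ) = Nat.card G := by
      exact_mod_cast hA
    rw [h2, h3]
    simp only [Finset.sum_const, Finset.card_univ, ← Nat.card_eq_fintype_card, nsmul_eq_mul]
    ring
  -- termwise estimate
  have hterm : ∀ g : G, ((f g : ℤ) - 1) * ((f g : ℤ) - n) ≤ n * (if f g = 0 then 1 else 0) := by
    intro g
    by_cases h : f g = 0
    · simp [h]
    · simp only [h, if_false, mul_zero]
      have h1 : (1 : ℤ) ≤ f g := by exact_mod_cast Nat.one_le_iff_ne_zero.mpr h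
      have h2 : (f g : ℤ) ≤ n := by exact_mod_cast hfle g
      nlinarith
  have hle : (r : ℤ) * Nat.card G - Nat.card G ≤ n * D := by
    rw [hkey, hDsum]
    push_cast
    rw [Finset.mul_sum]
    exact Finset.sum_le_sum fun g _ => hterm g
  by_cases hlt : Nat.card G < n * D
  · exact Or.inr hlt
  left
  have hlt' : (n : ℤ) * D ≤ Nat.card G := by exact_mod_cast not_lt.mp hlt
  have hGz : (0 : ℤ) < Nat.card G := by exact_mod_cast hGpos
  have hr2z : (2 : ℤ) ≤ r := by exact_mod_cast hr2
  have hreq : (r : ℤ) = 2 := by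
    by_contra hne2
    have : (3 : ℤ) ≤ r := by omega
    nlinarith
  have hnD : (n : ℤ) * D = Nat.card G := by
    rw [hreq] at hle
    linarith
  -- equality in the termwise estimate
  have hsum0 : ∑ g : G, ((n : ℤ) * (if f g = 0 then 1 else 0) - ((f g : ℤ) - 1) * ((f g : ℤ) - n)) = 0 := by
    rw [Finset.sum_sub_distrib, ← hkey, hreq, ← Finset.mul_sum]
    have : (∑ g : G, (if f g = 0 then (1 : ℤ) else 0)) = D := by
      rw [hDsum]; push_cast; rfl
    rw [this, hnD]
    ring
  have hzero := (Finset.sum_eq_zero_iff_of_nonneg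
    (fun g _ => sub_nonneg.mpr (hterm g))).mp hsum0
  have hle1 : ∀ g : G, g ≠ 1 → f g ≤ 1 := by
    intro g hg
    by_contra hgt
    have h1 := hzero g (Finset.mem_univ g)
    have hne0 : f g ≠ 0 := by omega
    simp only [hne0, if_false, mul_zero, zero_sub, neg_eq_zero] at h1
    rcases mul_eq_zero.mp h1 with h2 | h2
    · have : (f g : ℤ) = 1 := by linarith
      have : f g = 1 := by exact_mod_cast this
      omega
    · have : (f g : ℤ) = n := by linarith
      have : f g = n := by exact_mod_cast this
      exact hg (hfn g this)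
  -- order of the group
  have hsq : ∀ g : G, g ≠ 1 → f g ^ 2 = f g := by
    intro g hg
    have h := hle1 g hg
    interval_cases (f g) <;> simp
  have hG : Nat.card G + n ^ 2 = 2 * Nat.card G + n := by
    have h1 : ∑ g : G, f g ^ 2 = n ^ 2 + ∑ g ∈ Finset.univ.erase (1 : G), f g ^ 2 := by
      rw [← Finset.add_sum_erase _ _ (Finset.mem_univ (1 : G)), hfone]
    have h2 : ∑ g : G, f g = n + ∑ g ∈ Finset.univ.erase (1 : G), f g := by
      rw [← Finset.add_sum_erase _ _ (Finset.mem_univ (1 : G)), hfone]
    have h3 : ∑ g ∈ Finset.univ.erase (1 : G), f g ^ 2 = ∑ g ∈ Finset.univ.erase (1 : G), f g :=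
      Finset.sum_congr rfl fun g hg => hsq g (Finset.ne_of_mem_erase hg)
    have hr : r = 2 := by exact_mod_cast hreq
    rw [hB, hr, h3] at h1
    rw [hA] at h2
    omega
  have hGn : Nat.card G = n * (n - 1) := by
    obtain ⟨k, hk⟩ : ∃ k, n = k + 1 := ⟨n - 1, by omega⟩
    rw [hk] at hG ⊢
    simp only [Nat.add_sub_cancel]
    have : (k + 1) ^ 2 = (k + 1) * k + (k + 1) := by ring
    rw [this] at hG
    omega
  refine ⟨⟨htr, ?_, hle1⟩, hGn, ?_⟩
  · by_contra hno
    push Not at hno
    have h0 : ∀ g : G, g ≠ 1 → f g = 0 := fun g hg => (hf0 g).mpr (hno g hg)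
    have h1 : ∑ g : G, f g = n := by
      rw [← Finset.add_sum_erase _ _ (Finset.mem_univ (1 : G)), hfone]
      rw [Finset.sum_eq_zero (fun g hg => h0 g (Finset.ne_of_mem_erase hg))]
      simp
    rw [hA] at h1
    rw [h1] at hGn
    have : n - 1 = 1 := by
      have hpos : 0 < n := by omega
      have := Nat.eq_of_mul_eq_mul_left hpos (show n * (n - 1) = n * 1 by rw [← hGn]; ring)
      exact this
    omega
  · exact_mod_cast hnD

end Cfsg.Agent.S5729
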