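import Cfsg.Statements.S5730
import Cfsg.Agent.Lib.Derange.Main

set_option autoImplicit false
open Cfsg

namespace Cfsg.Agent.S5730

/-- Let a finite group G act faithfully and transitively on a set with n ≥ 7 points. Then either G is a Frobenius permutation group (Frobenius as a permutation group: transitive, some non-identity element fixes a point, and no non-identity element fixes two points) of order n(n − 1)/a with a ∈ {1, 2}, in which case exactly a|G|/n of its elements are derangements, or the number of derangements is at least 2|G|/n. (Equality does occur: PSL₃(2) acting on the 7 points of the Fano plane has exactly 2|G|/7 derangements.) -/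
theorem result {G Ω : Type*} [Group G] [Finite G] [MulAction G Ω] [FaithfulSMul G Ω] [Fintype Ω] (htr : MulAction.IsPretransitive G Ω) (hn : 7 ≤ Fintype.card Ω) :
    (∃ a : ℕ, (a = 1 ∨ a = 2) ∧ (MulAction.IsPretransitive G Ω ∧ (∃ g : G, g ≠ 1 ∧ ∃ ω : Ω, g • ω = ω) ∧ ∀ g : G, g ≠ 1 → Nat.card (MulAction.fixedBy Ω g) ≤ 1) ∧ a * Nat.card G = Fintype.card Ω * (Fintype.card Ω - 1) ∧ Fintype.card Ω * Nat.card {g : G // ∀ ω : Ω, g • ω ≠ ω} = a * Nat.card G) ∨
    2 * Nat.card G ≤ Fintype.card Ω * Nat.card {g : G // ∀ ω : Ω, g • ω ≠ ω} := by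
  classical
  haveI := Fintype.ofFinite G
  set n := Fintype.card Ω with hndef
  have hDer : Nat.card {g : G // ∀ ω : Ω, g • ω ≠ ω} =
      (Finset.univ.filter fun g : G => Cfsg.Agent.Lib.Derange.Basic.fx Ω g = 0).card := by
    rw [Nat.card_eq_fintype_card, Fintype.card_subtype]
    congr 1
    ext g
    simp only [Finset.mem_filter, Finset.mem_univ, true_and]
    unfold Cfsg.Agent.Lib.Derange.Basic.fx
    rw [Finset.card_eq_zero, Finset.filter_eq_empty_iff]
    simp
  rw [hDer, Nat.card_eq_fintype_card (α := G)]
  haveI : Nonempty Ω := Fintype.card_pos_iff.1 (by omega)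
  by_cases h2 : Cfsg.Agent.Lib.Derange.Lines.TwoTrans G Ω
  · obtain ⟨α, β, hαβ⟩ : ∃ α β : Ω, α ≠ β :=
      Fintype.one_lt_card_iff.1 (by omega)
    by_cases hf : 2 ≤ (Cfsg.Agent.Lib.Derange.Lines.St G α β).card
    · exact Or.inr (Cfsg.Agent.Lib.Derange.Main.der_bound h2 htr hn hαβ hf)
    · left
      have hone : (1 : G) ∈ Cfsg.Agent.Lib.Derange.Lines.St G α β := by
        simp [Cfsg.Agent.Lib.Derange.Lines.mem_St]
      have hcard1 : (Cfsg.Agent.Lib.Derange.Lines.St G α β).card = 1 := by
        have := Finset.card_pos.2 ⟨1, hone⟩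
        omega
      have hSt : Cfsg.Agent.Lib.Derange.Lines.St G α β = {1} := by
        symm
        apply Finset.eq_of_subset_of_card_le
        · simpa using hone
        · rw [hcard1]; simp
      have hG := Cfsg.Agent.Lib.Derange.Lines.card_group_eq h2 hαβ
      rw [hcard1, mul_one, Finset.offDiag_card, Finset.card_univ] at hG
      have hG' : Fintype.card G = n * (n - 1) := by
        rw [hG, Nat.mul_sub, mul_one]
      have hder := Cfsg.Agent.Lib.Derange.Lines.card_der_eq h2 htr hαβ
      unfold Cfsg.Agent.Lib.Derange.Lines.T at hder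
      rw [hSt, Finset.sum_singleton, Cfsg.Agent.Lib.Derange.Basic.fx_one, Finset.offDiag_card,
        Finset.card_univ] at hder
      refine ⟨1, Or.inl rfl, ⟨htr, ?_, ?_⟩, ?_, ?_⟩
      · obtain ⟨γ, hγ⟩ : ∃ γ : Ω, γ ≠ α ∧ γ ≠ β := by
          by_contra hcon
          push Not at hcon
          have hsub : (Finset.univ : Finset Ω) ⊆ {α, β} := by
            intro x _
            simp only [Finset.mem_insert, Finset.mem_singleton]
            by_cases h : x = α
            · exact Or.inl h
            · exact Or.inr (hcon x h)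
          have h3 := Finset.card_le_card hsub
          rw [Finset.card_univ, Finset.card_pair hαβ] at h3
          omega
        obtain ⟨w, hw1, hw2⟩ := h2 α β α γ hαβ (Ne.symm hγ.1)
        refine ⟨w, ?_, α, hw1⟩
        rintro rfl
        rw [one_smul] at hw2
        exact hγ.2 hw2.symm
      · intro g hg
        rw [Nat.card_eq_fintype_card, Cfsg.Agent.Lib.Derange.Basic.card_fixedBy_eq]
        unfold Cfsg.Agent.Lib.Derange.Basic.fx
        rw [Finset.card_le_one]
        intro a ha b hb
        by_contra hab
        simp only [Finset.mem_filter, Finset.mem_univ, true_and] at ha hb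
        have hc := Cfsg.Agent.Lib.Derange.Lines.card_St_eq (G := G) h2 hab hαβ
        rw [hcard1] at hc
        have hmem : g ∈ Cfsg.Agent.Lib.Derange.Lines.St G a b :=
          Cfsg.Agent.Lib.Derange.Lines.mem_St.2 ⟨ha, hb⟩
        have hone' : (1 : G) ∈ Cfsg.Agent.Lib.Derange.Lines.St G a b := by
          simp [Cfsg.Agent.Lib.Derange.Lines.mem_St]
        exact hg (Finset.card_le_one.1 hc.le _ hmem _ hone')
      · rw [one_mul]; exact hG'
      · rw [one_mul, hG']
        have hnpos : (n : ℚ) ≠ 0 := by
          have : 0 < n := by omega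
          exact_mod_cast this.ne'
        have hcast : ((Fintype.card Ω * Fintype.card Ω - Fintype.card Ω : ℕ) : ℚ) =
            (n : ℚ) * ((n : ℚ) - 1) := by
          rw [Nat.cast_sub (Nat.le_mul_self _)]
          push_cast
          ring
        rw [hcast] at hder
        have : ((Finset.univ.filter fun g : G => Cfsg.Agent.Lib.Derange.Basic.fx Ω g = 0).card : ℚ) =
            (n : ℚ) - 1 := by
          rw [hder, ← hndef]
          field_simp
        have h5 : ((n * (Finset.univ.filter fun g : G => Cfsg.Agent.Lib.Derange.Basic.fx Ω g = 0).card : ℕ) : ℚ)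
            = ((n * (n - 1) : ℕ) : ℚ) := by
          push_cast
          rw [this, Nat.cast_sub (by omega)]
          simp
        exact_mod_cast h5
  · right
    unfold Cfsg.Agent.Lib.Derange.Lines.TwoTrans at h2
    push Not at h2
    obtain ⟨a, b, c, d, hab, hcd, hno⟩ := h2
    have hr := Cfsg.Agent.Lib.Derange.Basic.three_le_rank (G := G) hab hcd
      (fun g hg => hno g hg.1 hg.2)
    have hb := Cfsg.Agent.Lib.Derange.Basic.rank_bound (G := G) htr
    have hrz : (3 : ℤ) ≤ (Nat.card (MulAction.orbitRel.Quotient G (Ω × Ω)) : ℤ) := by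
      exact_mod_cast hr
    have hG0 : (0 : ℤ) ≤ (Fintype.card G : ℤ) := by positivity
    have : (2 * (Fintype.card G : ℤ)) ≤ (n : ℤ) *
        ((Finset.univ.filter fun g : G => Cfsg.Agent.Lib.Derange.Basic.fx Ω g = 0).card : ℤ) := by
      nlinarith
    exact_mod_cast this

end Cfsg.Agent.S5730
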