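import Cfsg.Statements.S5736
import Cfsg.Agent.Lib.Classical.SL2.Binary.Final
-- import your own Cfsg.Agent.* helpers here

set_option autoImplicit false
open Cfsg

namespace Cfsg.Agent.S5736

/-- Let F be a finite field with q ≥ 4 elements, q ≠ 5, let G = PSL₂(F) and let H be a proper subgroup of G. Then the action of G on the cosets of H is binary if and only if H is trivial, or q is a power of 2 and H is a Sylow 2-subgroup, or q = 2^a with a odd and H has order 3. Here an action is binary (relational complexity 2) when, for every n ≥ 2 and all n-tuples I, J of points, if for every pair of positions some group element carries the corresponding pair of entries of I to those of J, then a single group element carries I to J. -/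
theorem result {F : Type*} [Field F] [Fintype F] (h4 : 4 ≤ Fintype.card F) (h5 : Fintype.card F ≠ 5)
    (H : Subgroup (Matrix.ProjectiveSpecialLinearGroup (Fin 2) F)) (hH : H ≠ ⊤) :
    (∀ (n : ℕ) (I J : Fin n → Matrix.ProjectiveSpecialLinearGroup (Fin 2) F ⧸ H), 2 ≤ n →
        (∀ i j : Fin n, i ≠ j → ∃ g : Matrix.ProjectiveSpecialLinearGroup (Fin 2) F, g • I i = J i ∧ g • I j = J j) → ∃ g : Matrix.ProjectiveSpecialLinearGroup (Fin 2) F, ∀ i, g • I i = J i) ↔
      (H = ⊥ ∨ ((∃ a : ℕ, Fintype.card F = 2 ^ a) ∧ ∃ P : Sylow 2 (Matrix.ProjectiveSpecialLinearGroup (Fin 2) F), H = P) ∨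
        ((∃ a : ℕ, Odd a ∧ Fintype.card F = 2 ^ a) ∧ Nat.card H = 3)) := by
  classical
  haveI : Finite (Matrix.ProjectiveSpecialLinearGroup (Fin 2) F) := Cfsg.Agent.Lib.Classical.SL2.Binary.fin_psl
  constructor
  · intro h
    exact Cfsg.Agent.Lib.Classical.SL2.Binary.forward h4 h5 hH (Cfsg.Agent.Lib.Classical.SL2.Binary.rstar_of_bin h)
  · intro h
    exact Cfsg.Agent.Lib.Classical.SL2.Binary.bin_of_rstar (Cfsg.Agent.Lib.Classical.SL2.Binary.backward h4 h)

end Cfsg.Agent.S5736
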