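import Cfsg.Statements.S5737
import Cfsg.Agent.Lib.SzChar.BinMain

set_option autoImplicit false
open Cfsg
open Cfsg.Agent.Lib.Suzuki.Elements Cfsg.Agent.Lib.Suzuki.Stab Cfsg.Agent.Lib.Suzuki.Sylow2 Cfsg.Agent.Lib.Suzuki.Simple Cfsg.Agent.Lib.SzChar.BinAbs Cfsg.Agent.Lib.SzChar.Binary

namespace Cfsg.Agent.S5737


/-- Let G = Sz(q) be a Suzuki group, q = 2^(2a+1) with a ≥ 1 (realised inside Sp₄ over the field with q elements), and let H be a proper subgroup of G. Then the action of G on the cosets of H is binary if and only if H is trivial or H is the centre of a Sylow 2-subgroup of G. Here an action is binary (relational complexity 2) when, for every n ≥ 2 and all n-tuples I, J of points, if for every pair of positions some group element carries the corresponding pair of entries of I to those of J, then a single group element carries I to J. -/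
theorem result {F : Type*} [Field F] [Fintype F] (a : ℕ) (ha : 1 ≤ a) (hF : Fintype.card F = 2 ^ (2 * a + 1))
    (H : Subgroup (Cfsg.Lie.Sz F (2 ^ (a + 1)))) (hH : H ≠ ⊤) :
    (∀ (n : ℕ) (I J : Fin n → (Cfsg.Lie.Sz F (2 ^ (a + 1))) ⧸ H), 2 ≤ n →
        (∀ i j : Fin n, i ≠ j → ∃ g : (Cfsg.Lie.Sz F (2 ^ (a + 1))), g • I i = J i ∧ g • I j = J j) → ∃ g : (Cfsg.Lie.Sz F (2 ^ (a + 1))), ∀ i, g • I i = J i) ↔
      (H = ⊥ ∨ ∃ P : Sylow 2 (Cfsg.Lie.Sz F (2 ^ (a + 1))), H = (Subgroup.center (P : Subgroup (Cfsg.Lie.Sz F (2 ^ (a + 1))))).map (P : Subgroup (Cfsg.Lie.Sz F (2 ^ (a + 1)))).subtype) := by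
  have hch : CharP F 2 := charP_two_of_card hF
  have hc := ctx_of_card ha hF
  let e := Cfsg.Agent.Lib.SzIso.Basic.equivSz hc
  show Binary H ↔ _
  constructor
  · intro hB
    by_contra hno
    push Not at hno
    refine not_binary_of_wit ?_ hB
    apply wit_of_comap e
    apply wit_main hc
    · intro h
      apply hH
      have h1 : H.comap e.toMonoidHom = (⊤ : Subgroup _).comap e.toMonoidHom := by
        rw [h, Subgroup.comap_top]
      exact (Subgroup.comap_injective e.surjective) h1
    · intro h
      apply hno.1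
      have h1 : H.comap e.toMonoidHom = (⊥ : Subgroup _).comap e.toMonoidHom := by
        rw [h]
        ext y
        simp
      exact (Subgroup.comap_injective e.surjective) h1
    · intro t h
      let P₀ : Sylow 2 (Cfsg.Sz F a) := t • UU hc
      let P : Sylow 2 (Cfsg.Lie.Sz F (2 ^ (a + 1))) :=
        P₀.comapOfInjective e.symm.toMonoidHom e.symm.injective (by
          rw [MonoidHom.range_eq_top.2 e.symm.surjective]
          exact le_top)
      have hP : (P : Subgroup _).comap e.toMonoidHom = (Usub hc).map (MulAut.conj t).toMonoidHom := by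
        ext y
        show e.symm (e y) ∈ (P₀ : Subgroup _) ↔ _
        rw [MulEquiv.symm_apply_apply]
        show y ∈ (UU hc : Subgroup _).map (MulAut.conj t).toMonoidHom ↔ _
        rw [coe_UU]
      exact hno.2 P ((key_center hc e hP H).1 h)
  · rintro (h | ⟨P, h⟩)
    · subst h
      apply binary_of_star
      apply star_of_comap e
      have h1 : (⊥ : Subgroup (Cfsg.Lie.Sz F (2 ^ (a + 1)))).comap e.toMonoidHom = ⊥ := by
        ext y
        simp
      rw [h1]
      exact star_bot
    · apply binary_of_star
      apply star_of_comap e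
      let P₀ : Sylow 2 (Cfsg.Sz F a) := P.comapOfInjective e.toMonoidHom e.injective (by
        rw [MonoidHom.range_eq_top.2 e.surjective]
        exact le_top)
      obtain ⟨t, ht⟩ := MulAction.exists_smul_eq (Cfsg.Sz F a) (UU hc) P₀
      have hP : (P : Subgroup _).comap e.toMonoidHom = (Usub hc).map (MulAut.conj t).toMonoidHom := by
        have h1 := congrArg (fun Q : Sylow 2 (Cfsg.Sz F a) => (Q : Subgroup (Cfsg.Sz F a))) ht
        have h2 : ((t • UU hc : Sylow 2 (Cfsg.Sz F a)) : Subgroup (Cfsg.Sz F a)) =
            (Usub hc).map (MulAut.conj t).toMonoidHom := by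
          show (UU hc : Subgroup _).map (MulAut.conj t).toMonoidHom = _
          rw [coe_UU]
        rw [h2] at h1
        exact h1.symm
      rw [(key_center hc e hP H).2 h |>.trans ?_]
      · exact star_ZZ_conj hc t
      · rfl

end Cfsg.Agent.S5737
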