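import Cfsg.Statements.S5738
import Cfsg.Agent.Lib.Singer.Norm

set_option autoImplicit false
open Cfsg

namespace Cfsg.Agent.S5738

open Cfsg.Agent.Lib.Singer.Norm

/-- Let F ⊆ K be finite fields with |F| = q and [K : F] = n ≥ 2, so |K| = q^n. Regard K as an n-dimensional F-vector space; the multiplications by non-zero elements of K form a cyclic subgroup of GL_F(K) of order q^n − 1 acting regularly on the non-zero vectors (a Singer group). Its normaliser in GL_F(K) has order n·(q^n − 1). -/
theorem result {F K : Type*} [Field F] [Fintype F] [Field K] [Fintype K] [Algebra F K] (n : ℕ) (hn : 2 ≤ n) (hdim : Module.finrank F K = n) :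
    Nat.card (Subgroup.normalizer (((Units.map ((Algebra.lmul F K : K →ₐ[F] Module.End F K) : K →* Module.End F K)).range : Subgroup (Module.End F K)ˣ) : Set (Module.End F K)ˣ)) = n * (Fintype.card K - 1) := by
  classical
  change Nat.card (Subgroup.normalizer ((singer F K : Subgroup (Module.End F K)ˣ) : Set (Module.End F K)ˣ)) = _
  let N := Subgroup.normalizer ((singer F K : Subgroup (Module.End F K)ˣ) : Set (Module.End F K)ˣ)
  let psi : Kˣ × (K ≃ₐ[F] K) → N := fun p =>
    ⟨Units.map ((Algebra.lmul F K : K →ₐ[F] Module.End F K) : K →* Module.End F K) p.1 * autUnit p.2,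
      mul_mem (Subgroup.le_normalizer ⟨p.1, rfl⟩) (autUnit_mem_normalizer p.2)⟩
  have hpsi : ∀ p x, ((psi p : (Module.End F K)ˣ) : Module.End F K) x = (p.1 : K) * p.2 x := fun _ _ => rfl
  have hinj : Function.Injective psi := by
    intro p q hpq
    have h1 : ∀ x, (p.1 : K) * p.2 x = (q.1 : K) * q.2 x := by
      intro x
      rw [← hpsi, ← hpsi, hpq]
    have h2 : (p.1 : K) = q.1 := by
      simpa using h1 1
    have h3 : p.1 = q.1 := Units.ext h2
    refine Prod.ext h3 ?_
    ext x
    have h4 := h1 x
    rw [h2] at h4
    exact mul_left_cancel₀ q.1.ne_zero h4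
  have hsurj : Function.Surjective psi := by
    rintro ⟨g, hg⟩
    have hne : (g : Module.End F K) 1 ≠ 0 := by
      intro h0
      have h1 := inv_apply_apply g (1 : K)
      rw [h0, map_zero] at h1
      exact zero_ne_one h1
    let f := alphaHom hg
    have hbij : Function.Bijective f := by
      refine ⟨f.toRingHom.injective, ?_⟩
      exact Finite.injective_iff_surjective.mp f.toRingHom.injective
    refine ⟨(Units.mk0 _ hne, AlgEquiv.ofBijective f hbij), ?_⟩
    apply Subtype.ext
    apply Units.ext
    ext x
    have h2 := hpsi (Units.mk0 _ hne, AlgEquiv.ofBijective f hbij) x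
    rw [apply_eq_alpha_mul hg x, mul_comm]
    exact h2
  have hcard := Nat.card_congr (Equiv.ofBijective psi ⟨hinj, hsurj⟩)
  rw [← hcard, Nat.card_prod, IsGalois.card_aut_eq_finrank F K, hdim, Nat.card_eq_fintype_card,
    Fintype.card_units, mul_comm]

end Cfsg.Agent.S5738
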