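import Cfsg.Statements.S5739
import Cfsg.Agent.Lib.Singer.Norm

set_option autoImplicit false
open Cfsg

namespace Cfsg.Agent.S5739

open Cfsg.Agent.Lib.Singer.Norm

variable {F K : Type*} [Field F] [Field K] [Algebra F K]

/-- Conjugate of a multiplication map. -/
noncomputable def cj (g : (Module.End F K)ˣ) (a : K) : Module.End F K :=
  ((g⁻¹ : (Module.End F K)ˣ) : Module.End F K) * L (F := F) a * (g : Module.End F K)

lemma cj_mul (g : (Module.End F K)ˣ) (a b : K) : cj g (a * b) = cj g a * cj g b := by
  have hinv : (g : Module.End F K) * ((g⁻¹ : (Module.End F K)ˣ) : Module.End F K) = 1 := g.mul_inv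
  simp only [cj, map_mul]
  calc ((g⁻¹ : (Module.End F K)ˣ) : Module.End F K) * (L (F := F) a * L (F := F) b) * (g : Module.End F K)
      = ((g⁻¹ : (Module.End F K)ˣ) : Module.End F K) * L (F := F) a * 1 * L (F := F) b * (g : Module.End F K) := by
        simp [mul_assoc]
    _ = _ := by rw [← hinv]; simp only [mul_assoc]

lemma cj_add (g : (Module.End F K)ˣ) (a b : K) : cj g (a + b) = cj g a + cj g b := by
  simp only [cj, map_add, mul_add, add_mul]

lemma cj_one (g : (Module.End F K)ˣ) : cj g (1 : K) = 1 := by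
  simp only [cj, map_one, mul_one]
  exact g.inv_mul

lemma cj_zero (g : (Module.End F K)ˣ) : cj g (0 : K) = 0 := by
  simp only [cj, map_zero, mul_zero, zero_mul]

lemma cj_algebraMap (g : (Module.End F K)ˣ) (c : F) :
    cj g (algebraMap F K c) = L (F := F) (algebraMap F K c) := by
  have h1 : L (F := F) (algebraMap F K c) = c • (1 : Module.End F K) := by
    ext x
    simp [Cfsg.Agent.Lib.Singer.Norm.L_apply, Algebra.smul_def]
  simp only [cj, h1]
  simp

/-- The elements `a` such that `g⁻¹ L_a g` is again a multiplication. -/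
noncomputable def fieldOf (g : (Module.End F K)ˣ) : IntermediateField F K where
  carrier := {a | ∃ b : K, cj g a = L (F := F) b}
  mul_mem' := by
    rintro a b ⟨c, hc⟩ ⟨d, hd⟩
    refine ⟨c * d, ?_⟩
    rw [cj_mul, map_mul, hc, hd]
  add_mem' := by
    rintro a b ⟨c, hc⟩ ⟨d, hd⟩
    refine ⟨c + d, ?_⟩
    rw [cj_add, map_add, hc, hd]
  algebraMap_mem' := fun c => ⟨algebraMap F K c, cj_algebraMap g c⟩
  inv_mem' := by
    rintro a ⟨c, hc⟩
    by_cases ha : a = 0
    · subst ha
      refine ⟨0, ?_⟩
      simp [cj_zero]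
    have h1 : cj g a⁻¹ * L (F := F) c = 1 := by
      rw [← hc, ← cj_mul, inv_mul_cancel₀ ha, cj_one]
    have hc0 : c ≠ 0 := by
      rintro rfl
      rw [map_zero, mul_zero] at h1
      exact zero_ne_one h1
    refine ⟨c⁻¹, ?_⟩
    have h2 : L (F := F) c * L (F := F) c⁻¹ = 1 := by
      rw [← map_mul, mul_inv_cancel₀ hc0, map_one]
    calc cj g a⁻¹ = cj g a⁻¹ * (L (F := F) c * L (F := F) c⁻¹) := by rw [h2, mul_one]
      _ = L (F := F) c⁻¹ := by rw [← mul_assoc, h1, one_mul]

lemma mem_fieldOf (g : (Module.End F K)ˣ) (a : K) :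
    a ∈ fieldOf g ↔ ∃ b : K, cj g a = L (F := F) b := Iff.rfl

/-- Let F ⊆ K be finite fields with |F| = q and [K : F] = n ≥ 2, and let M ≤ GL_F(K) be the Singer group of multiplications by non-zero elements of K. If g ∈ GL_F(K) does not normalise M, then the order of M ∩ gMg⁻¹ divides q^r − 1 for some proper divisor r of n. In particular, when n is prime, that order divides q − 1. -/
theorem result {F K : Type*} [Field F] [Fintype F] [Field K] [Fintype K] [Algebra F K] (n : ℕ) (hn : 2 ≤ n) (hdim : Module.finrank F K = n)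
    (g : (Module.End F K)ˣ) (hg : ((Units.map ((Algebra.lmul F K : K →ₐ[F] Module.End F K) : K →* Module.End F K)).range).map (MulAut.conj g).toMonoidHom ≠ (Units.map ((Algebra.lmul F K : K →ₐ[F] Module.End F K) : K →* Module.End F K)).range) :
    ∃ r : ℕ, 1 ≤ r ∧ r ∣ n ∧ r < n ∧ Nat.card ↥(((Units.map ((Algebra.lmul F K : K →ₐ[F] Module.End F K) : K →* Module.End F K)).range).map (MulAut.conj g).toMonoidHom ⊓ (Units.map ((Algebra.lmul F K : K →ₐ[F] Module.End F K) : K →* Module.End F K)).range) ∣ Fintype.card F ^ r - 1 := by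
  classical
  change (singer F K).map (MulAut.conj g).toMonoidHom ≠ singer F K at hg
  change ∃ r : ℕ, 1 ≤ r ∧ r ∣ n ∧ r < n ∧ Nat.card ↥((singer F K).map (MulAut.conj g).toMonoidHom ⊓ singer F K) ∣ Fintype.card F ^ r - 1
  set A := fieldOf g with hA
  haveI : Finite (Module.End F K) := Finite.of_injective (fun f => (f : K → K)) DFunLike.coe_injective
  -- `A` is proper
  have hAtop : A ≠ ⊤ := by
    intro htop
    apply hg
    symm
    apply Subgroup.eq_of_le_of_card_ge
    · rintro h hh
      obtain ⟨u, hu⟩ := (mem_singer_iff _).mp hh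
      have hmem : (u : K) ∈ A := by rw [htop]; trivial
      obtain ⟨b, hb⟩ := hmem
      have hb0 : b ≠ 0 := by
        rintro rfl
        rw [map_zero] at hb
        have h1 : cj g (u : K) * cj g ((u⁻¹ : Kˣ) : K) = 1 := by
          rw [← cj_mul, Units.mul_inv, cj_one]
        rw [hb, zero_mul] at h1
        exact zero_ne_one h1
      refine ⟨Units.map ((Algebra.lmul F K : K →ₐ[F] Module.End F K) : K →* Module.End F K) (Units.mk0 b hb0), ⟨_, rfl⟩, ?_⟩
      apply Units.ext
      have h2 : (g : Module.End F K) * L (F := F) b * ((g⁻¹ : (Module.End F K)ˣ) : Module.End F K)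
          = (h : Module.End F K) := by
        rw [hu, ← hb]
        simp only [cj]
        have h3 : (g : Module.End F K) * ((g⁻¹ : (Module.End F K)ˣ) : Module.End F K) = 1 := g.mul_inv
        calc (g : Module.End F K) * (((g⁻¹ : (Module.End F K)ˣ) : Module.End F K) * L (F := F) (u : K) * (g : Module.End F K)) * ((g⁻¹ : (Module.End F K)ˣ) : Module.End F K)
            = ((g : Module.End F K) * ((g⁻¹ : (Module.End F K)ˣ) : Module.End F K)) * L (F := F) (u : K) * ((g : Module.End F K) * ((g⁻¹ : (Module.End F K)ˣ) : Module.End F K)) := by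
              simp only [mul_assoc]
          _ = L (F := F) (u : K) := by rw [h3, one_mul, mul_one]
      exact h2
    · rw [Subgroup.card_map_of_injective (MulAut.conj g).injective]
  -- the numerics
  have hrpos : 1 ≤ Module.finrank F A := Module.finrank_pos
  have hrdvd : Module.finrank F A ∣ n := by
    rw [← hdim, ← Module.finrank_mul_finrank F A K]
    exact dvd_mul_right _ _
  have hrlt : Module.finrank F A < n := by
    have hle := Nat.le_of_dvd (by omega) hrdvd
    rcases hle.eq_or_lt with heq | hlt
    · exfalso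
      apply hAtop
      apply IntermediateField.eq_of_le_of_finrank_eq le_top
      rw [IntermediateField.finrank_top', heq, hdim]
    · exact hlt
  refine ⟨Module.finrank F A, hrpos, hrdvd, hrlt, ?_⟩
  -- the map to the units of `A`
  set H := (singer F K).map (MulAut.conj g).toMonoidHom ⊓ singer F K with hH
  have hL : ∀ h : H, (h : (Module.End F K)ˣ).val = L (F := F) ((h : (Module.End F K)ˣ).val 1) := by
    intro h
    obtain ⟨u, hu⟩ := (mem_singer_iff _).mp h.2.2
    rw [hu]
    simp [Cfsg.Agent.Lib.Singer.Norm.L_apply]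
  have hmemA : ∀ h : H, (h : (Module.End F K)ˣ).val 1 ∈ A := by
    intro h
    obtain ⟨x, hx, hxh⟩ := h.2.1
    obtain ⟨v, hv⟩ := (mem_singer_iff _).mp hx
    refine ⟨(v : K), ?_⟩
    simp only [cj]
    rw [← hL h, ← hxh, ← hv]
    simp only [MulEquiv.coe_toMonoidHom, MulAut.conj_apply, Units.val_mul]
    have h3 : ((g⁻¹ : (Module.End F K)ˣ) : Module.End F K) * (g : Module.End F K) = 1 := g.inv_mul
    calc ((g⁻¹ : (Module.End F K)ˣ) : Module.End F K) * ((g : Module.End F K) * (x : Module.End F K) * ((g⁻¹ : (Module.End F K)ˣ) : Module.End F K)) * (g : Module.End F K)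
        = (((g⁻¹ : (Module.End F K)ˣ) : Module.End F K) * (g : Module.End F K)) * (x : Module.End F K) * (((g⁻¹ : (Module.End F K)ˣ) : Module.End F K) * (g : Module.End F K)) := by
          simp only [mul_assoc]
      _ = (x : Module.End F K) := by rw [h3, one_mul, mul_one]
  have hmul : ∀ h h' : H, ((h * h' : H) : (Module.End F K)ˣ).val 1
      = (h : (Module.End F K)ˣ).val 1 * (h' : (Module.End F K)ˣ).val 1 := by
    intro h h'
    have : ((h * h' : H) : (Module.End F K)ˣ).val 1
        = (h : (Module.End F K)ˣ).val ((h' : (Module.End F K)ˣ).val 1) := rfl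
    rw [this]
    conv_lhs => rw [hL h]
    rfl
  let φ : H →* Aˣ := MonoidHom.toHomUnits
    { toFun := fun h => (⟨(h : (Module.End F K)ˣ).val 1, hmemA h⟩ : A)
      map_one' := rfl
      map_mul' := fun h h' => Subtype.ext (hmul h h') }
  have hφinj : Function.Injective φ := by
    intro h h' hh
    have h1 : (h : (Module.End F K)ˣ).val 1 = (h' : (Module.End F K)ˣ).val 1 := by
      have := congrArg (fun u : Aˣ => ((u : A) : K)) hh
      exact this
    apply Subtype.ext
    apply Units.ext
    rw [hL h, hL h', h1]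
  have h1 := Subgroup.card_dvd_of_injective φ hφinj
  have h2 : Nat.card Aˣ = Fintype.card F ^ Module.finrank F A - 1 := by
    haveI : Fintype A := Fintype.ofFinite A
    rw [Nat.card_eq_fintype_card, Fintype.card_units, ← Nat.card_eq_fintype_card (α := A),
      Module.natCard_eq_pow_finrank (K := F) (V := A), Nat.card_eq_fintype_card]
  rwa [h2] at h1

end Cfsg.Agent.S5739
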