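import Cfsg.Statements.S5747

set_option autoImplicit false
open Cfsg

namespace Cfsg.Agent.S5747

section lists

variable {G Ω : Type*} [Group G] [MulAction G Ω]

/-- Pointwise stabiliser of a list inside `H`. -/
def fixL (H : Subgroup G) : List Ω → Subgroup G
  | [] => H
  | x :: s => fixL (H ⊓ MulAction.stabilizer G x) s

/-- Irredundance of a list, relative to `H`. -/
def irrFrom (H : Subgroup G) : List Ω → Prop
  | [] => True
  | x :: s => (∃ g ∈ H, g • x ≠ x) ∧ irrFrom (H ⊓ MulAction.stabilizer G x) s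

lemma mem_fixL (l : List Ω) : ∀ (H : Subgroup G) (g : G), g ∈ fixL H l ↔ g ∈ H ∧ ∀ x ∈ l, g • x = x := by
  induction l with
  | nil => intro H g; simp [fixL]
  | cons x s ih =>
    intro H g
    simp only [fixL, ih, Subgroup.mem_inf, MulAction.mem_stabilizer_iff, List.mem_cons,
      forall_eq_or_imp]
    tauto

lemma fixL_append (a : List Ω) : ∀ (H : Subgroup G) (b : List Ω), fixL H (a ++ b) = fixL (fixL H a) b := by
  induction a with
  | nil => intro H b; rfl
  | cons x s ih => intro H b; exact ih _ b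

lemma irrFrom_append (a : List Ω) : ∀ (H : Subgroup G) (b : List Ω),
    irrFrom H (a ++ b) ↔ irrFrom H a ∧ irrFrom (fixL H a) b := by
  induction a with
  | nil => intro H b; simp [irrFrom, fixL]
  | cons x s ih =>
    intro H b
    simp only [List.cons_append, irrFrom, ih, fixL, and_assoc]

/-- Irredundant base, as a list. -/
def IB (l : List Ω) : Prop := fixL (⊤ : Subgroup G) l = ⊥ ∧ irrFrom (⊤ : Subgroup G) l

/-- Every base with an irredundant prefix contains an irredundant base with the same prefix. -/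
lemma extend (s : List Ω) : ∀ p : List Ω, irrFrom (⊤ : Subgroup G) p → fixL (⊤ : Subgroup G) (p ++ s) = ⊥ →
    ∃ s' : List Ω, IB (G := G) (p ++ s') ∧ s'.length ≤ s.length ∧
      (¬ irrFrom (⊤ : Subgroup G) (p ++ s) → s'.length < s.length) := by
  induction s with
  | nil =>
    intro p hp hb
    refine ⟨[], ⟨hb, by simpa using hp⟩, le_rfl, fun h => ?_⟩
    exact absurd (by simpa using hp) h
  | cons x s ih =>
    intro p hp hb
    by_cases hx : ∃ g ∈ fixL (⊤ : Subgroup G) p, g • x ≠ x
    · have h1 : irrFrom (⊤ : Subgroup G) (p ++ [x]) := by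
        rw [irrFrom_append]
        exact ⟨hp, hx, trivial⟩
      have h2 : p ++ [x] ++ s = p ++ x :: s := by simp
      obtain ⟨s', hs', hle, hlt⟩ := ih (p ++ [x]) h1 (by rw [h2]; exact hb)
      refine ⟨x :: s', ?_, ?_, ?_⟩
      · have : p ++ x :: s' = p ++ [x] ++ s' := by simp
        rw [this]; exact hs'
      · simp; exact hle
      · intro hn
        have := hlt (by rw [h2]; exact hn)
        simpa using this
    · push Not at hx
      have hsame : fixL (⊤ : Subgroup G) (p ++ s) = fixL (⊤ : Subgroup G) (p ++ x :: s) := by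
        ext g
        simp only [mem_fixL, List.mem_append, List.mem_cons]
        constructor
        · rintro ⟨h1, h2⟩
          refine ⟨h1, fun y hy => ?_⟩
          rcases hy with hy | rfl | hy
          · exact h2 y (Or.inl hy)
          · exact hx g ((mem_fixL p _ g).mpr ⟨h1, fun z hz => h2 z (Or.inl hz)⟩)
          · exact h2 y (Or.inr hy)
        · rintro ⟨h1, h2⟩
          refine ⟨h1, fun y hy => ?_⟩
          rcases hy with hy | hy
          · exact h2 y (Or.inl hy)
          · exact h2 y (Or.inr (Or.inr hy))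
      obtain ⟨s', hs', hle, _⟩ := ih p hp (by rw [hsame]; exact hb)
      refine ⟨s', hs', ?_, fun _ => ?_⟩
      · simp; omega
      · simp; omega

/-- Locating the first stage where `x` becomes fixed. -/
lemma locate (x : Ω) (d : List Ω) : ∀ H : Subgroup G, (∃ g ∈ H, g • x ≠ x) → (∀ g ∈ fixL H d, g • x = x) →
    ∃ d₁ y d₂, d = d₁ ++ y :: d₂ ∧ (∃ g ∈ fixL H d₁, g • x ≠ x) ∧
      (∀ g ∈ fixL H d₁ ⊓ MulAction.stabilizer G y, g • x = x) := by
  induction d with
  | nil =>
    intro H hm hf
    obtain ⟨g, hg, hgx⟩ := hm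
    exact absurd (hf g hg) hgx
  | cons y d ih =>
    intro H hm hf
    by_cases h : ∀ g ∈ H ⊓ MulAction.stabilizer G y, g • x = x
    · exact ⟨[], y, d, rfl, hm, h⟩
    · push Not at h
      obtain ⟨d₁, y', d₂, hd, h1, h2⟩ := ih (H ⊓ MulAction.stabilizer G y) h hf
      exact ⟨y :: d₁, y', d₂, by rw [hd]; rfl, h1, h2⟩

/-- The exchange step. -/
lemma exchange (hperm : ∀ l l' : List Ω, l.Perm l' → IB (G := G) l → IB (G := G) l')
    (c₁ d : List Ω) (x : Ω) (hb : IB (G := G) (c₁ ++ d))
    (hx : irrFrom (⊤ : Subgroup G) (c₁ ++ [x])) :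
    ∃ d' : List Ω, IB (G := G) (c₁ ++ x :: d') ∧ d'.length + 1 = d.length := by
  have hxmove : ∃ g ∈ fixL (⊤ : Subgroup G) c₁, g • x ≠ x := ((irrFrom_append _ _ _).mp hx).2.1
  have hfixd : ∀ g ∈ fixL (fixL (⊤ : Subgroup G) c₁) d, g • x = x := by
    intro g hg
    rw [← fixL_append, hb.1, Subgroup.mem_bot] at hg
    rw [hg, one_smul]
  obtain ⟨d₁, y, d₂, rfl, hmv, hfx⟩ := locate x d _ hxmove hfixd
  set H := fixL (fixL (⊤ : Subgroup G) c₁) d₁ with hH
  set P := c₁ ++ d₁ with hP
  have hfP : fixL (⊤ : Subgroup G) P = H := fixL_append _ _ _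
  have hbP : IB (G := G) (P ++ y :: d₂) := by
    rw [hP, List.append_assoc]; exact hb
  have hirrP : irrFrom (⊤ : Subgroup G) P := ((irrFrom_append _ _ _).mp hbP.2).1
  have hirrY : irrFrom H (y :: d₂) := by
    have := ((irrFrom_append _ _ _).mp hbP.2).2
    rwa [hfP] at this
  have hbY : fixL H (y :: d₂) = ⊥ := by
    have := hbP.1
    rwa [fixL_append, hfP] at this
  -- fixing `x` implies fixing `y`
  have hxy : ∀ g ∈ H, g • x = x → g • y = y := by
    intro g hg hgx
    by_contra hgy
    -- the sequence `P, x, y` is irredundant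
    have h1 : irrFrom (⊤ : Subgroup G) (P ++ [x, y]) := by
      rw [irrFrom_append]
      refine ⟨hirrP, ?_⟩
      rw [hfP]
      refine ⟨hmv, ⟨g, ⟨hg, hgx⟩, hgy⟩, trivial⟩
    have h2 : fixL (⊤ : Subgroup G) (P ++ [x, y] ++ d₂) = ⊥ := by
      rw [eq_bot_iff]
      intro z hz
      rw [mem_fixL] at hz
      rw [← hbP.1, mem_fixL]
      refine ⟨hz.1, fun w hw => hz.2 w ?_⟩
      simp only [List.mem_append, List.mem_cons, List.not_mem_nil, or_false] at hw ⊢
      tauto
    obtain ⟨s', hs', _, _⟩ := extend d₂ (P ++ [x, y]) h1 h2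
    have h3 : IB (G := G) (P ++ [y, x] ++ s') := by
      refine hperm _ _ ?_ hs'
      simp only [List.append_assoc, List.cons_append]
      exact List.Perm.append_left _ (List.Perm.swap _ _ _)
    have h4 : irrFrom (⊤ : Subgroup G) (P ++ [y, x]) := ((irrFrom_append _ _ _).mp h3.2).1
    have h5 := ((irrFrom_append _ _ _).mp h4).2
    rw [hfP] at h5
    obtain ⟨g', hg', hg'x⟩ := h5.2.1
    exact hg'x (hfx g' hg')
  have hsame : H ⊓ MulAction.stabilizer G x = H ⊓ MulAction.stabilizer G y := by
    ext g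
    simp only [Subgroup.mem_inf, MulAction.mem_stabilizer_iff]
    constructor
    · rintro ⟨h1, h2⟩
      exact ⟨h1, hxy g h1 h2⟩
    · rintro ⟨h1, h2⟩
      exact ⟨h1, hfx g ⟨h1, h2⟩⟩
  have hnew : IB (G := G) (P ++ x :: d₂) := by
    constructor
    · rw [fixL_append, hfP]
      change fixL (H ⊓ MulAction.stabilizer G x) d₂ = ⊥
      rw [hsame]
      exact hbY
    · rw [irrFrom_append]
      refine ⟨hirrP, ?_⟩
      rw [hfP]
      refine ⟨hmv, ?_⟩
      rw [hsame]
      exact hirrY.2
  refine ⟨d₁ ++ d₂, hperm _ _ ?_ hnew, by simp; omega⟩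
  rw [hP, List.append_assoc]
  apply List.Perm.append_left
  exact List.perm_middle

/-- `|c| ≤ |b|` for an irredundant sequence `c` and an irredundant base `b`. -/
lemma length_le (hperm : ∀ l l' : List Ω, l.Perm l' → IB (G := G) l → IB (G := G) l')
    (c₂ : List Ω) : ∀ c₁ d : List Ω, irrFrom (⊤ : Subgroup G) (c₁ ++ c₂) → IB (G := G) (c₁ ++ d) →
      c₂.length ≤ d.length := by
  induction c₂ with
  | nil => intro c₁ d _ _; simp
  | cons x c₃ ih =>
    intro c₁ d hc hb
    have h1 : c₁ ++ x :: c₃ = (c₁ ++ [x]) ++ c₃ := by simp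
    rw [h1] at hc
    obtain ⟨d', hd', hlen⟩ := exchange hperm c₁ d x hb ((irrFrom_append _ _ _).mp hc).1
    have h2 : c₁ ++ x :: d' = (c₁ ++ [x]) ++ d' := by simp
    rw [h2] at hd'
    have := ih (c₁ ++ [x]) d' hc hd'
    simp only [List.length_cons]
    omega

end lists

section bridge

variable {G Ω : Type*} [Group G] [MulAction G Ω]

lemma mem_fixL_ofFn {t : ℕ} (f : Fin t → Ω) (H : Subgroup G) (g : G) :
    g ∈ fixL H (List.ofFn f) ↔ g ∈ H ∧ ∀ i, g • f i = f i := by
  rw [mem_fixL]
  simp only [List.mem_ofFn, forall_exists_index, forall_apply_eq_imp_iff]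

lemma irrFrom_ofFn {t : ℕ} (f : Fin t → Ω) : ∀ H : Subgroup G, irrFrom H (List.ofFn f) ↔
    ∀ i : Fin t, ∃ g ∈ H, (∀ j : Fin t, j < i → g • f j = f j) ∧ g • f i ≠ f i := by
  induction t with
  | zero => intro H; simp [irrFrom]
  | succ t ih =>
    intro H
    rw [List.ofFn_succ]
    simp only [irrFrom]
    rw [ih (fun i => f i.succ)]
    constructor
    · rintro ⟨⟨g, hg, hgx⟩, h2⟩ i
      refine Fin.cases ?_ (fun i => ?_) i
      · exact ⟨g, hg, fun j hj => absurd hj (Fin.not_lt_zero j), hgx⟩
      · obtain ⟨g, hg, h3, h4⟩ := h2 i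
        refine ⟨g, hg.1, fun j hj => ?_, h4⟩
        refine Fin.cases ?_ (fun j hj => ?_) j hj
        · intro _; exact hg.2
        · exact h3 j (Fin.succ_lt_succ_iff.mp hj)
    · intro h
      constructor
      · obtain ⟨g, hg, _, h4⟩ := h 0
        exact ⟨g, hg, h4⟩
      · intro i
        obtain ⟨g, hg, h3, h4⟩ := h i.succ
        refine ⟨g, ⟨hg, h3 0 (Fin.succ_pos i)⟩, fun j hj => h3 j.succ (Fin.succ_lt_succ_iff.mpr hj), h4⟩

/-- The statement's notion of irredundant base. -/
def IBf {t : ℕ} (G : Type*) [Group G] [MulAction G Ω] (f : Fin t → Ω) : Prop :=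
  (∀ g : G, (∀ i : Fin t, g • f i = f i) → g = 1) ∧
    ∀ i : Fin t, ∃ g : G, (∀ j : Fin t, j < i → g • f j = f j) ∧ g • f i ≠ f i

lemma IB_ofFn_iff {t : ℕ} (f : Fin t → Ω) : IB (G := G) (List.ofFn f) ↔ IBf G f := by
  unfold IB IBf
  refine and_congr ?_ ?_
  · rw [eq_bot_iff]
    constructor
    · intro h g hg
      exact Subgroup.mem_bot.mp (h ((mem_fixL_ofFn f _ g).mpr ⟨trivial, hg⟩))
    · intro h g hg
      exact Subgroup.mem_bot.mpr (h g ((mem_fixL_ofFn f _ g).mp hg).2)
  · rw [irrFrom_ofFn]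
    simp

/-- A list as a function. -/
lemma exists_ofFn (l : List Ω) : ∃ f : Fin l.length → Ω, List.ofFn f = l := ⟨l.get, List.ofFn_get l⟩

/-- Adjacent swap, realised by a permutation. -/
lemma ofFn_swap (p s : List Ω) (x y : Ω) :
    ∃ σ : Equiv.Perm (Fin (p ++ x :: y :: s).length),
      List.ofFn ((p ++ x :: y :: s).get ∘ σ) = p ++ y :: x :: s := by
  have h1 : p.length < (p ++ x :: y :: s).length := by simp
  have h2 : p.length + 1 < (p ++ x :: y :: s).length := by simp
  refine ⟨Equiv.swap ⟨_, h1⟩ ⟨_, h2⟩, ?_⟩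
  apply List.ext_getElem
  · simp; omega
  · intro i hi1 hi2
    simp only [List.getElem_ofFn, Function.comp_apply, List.get_eq_getElem]
    have hi3 : i < (p ++ x :: y :: s).length := by
      simp only [List.length_ofFn] at hi1
      exact hi1
    rcases lt_trichotomy i p.length with hlt | heq | hgt
    · rw [Equiv.swap_apply_of_ne_of_ne]
      · simp only [List.getElem_append_left hlt]
      · intro h; have := congrArg Fin.val h; simp at this; omega
      · intro h; have := congrArg Fin.val h; simp at this; omega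
    · have : (⟨i, hi3⟩ : Fin (p ++ x :: y :: s).length) = ⟨_, h1⟩ := Fin.ext heq
      rw [this, Equiv.swap_apply_left]
      subst heq
      simp
    · rcases Nat.lt_or_ge (p.length + 1) i with h3 | h3
      · rw [Equiv.swap_apply_of_ne_of_ne]
        · obtain ⟨k, rfl⟩ : ∃ k, i = p.length + 2 + k := ⟨i - (p.length + 2), by omega⟩
          have hk : k < s.length := by simp at hi3; omega
          have e1 : (p ++ x :: y :: s)[p.length + 2 + k]'hi3 = s[k] := by
            rw [List.getElem_append_right (by omega)]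
            simp only [show p.length + 2 + k - p.length = k + 2 by omega]
            simp
          have e2 : (p ++ y :: x :: s)[p.length + 2 + k]'hi2 = s[k] := by
            rw [List.getElem_append_right (by omega)]
            simp only [show p.length + 2 + k - p.length = k + 2 by omega]
            simp
          exact e1.trans e2.symm
        · intro h; have := congrArg Fin.val h; simp at this; omega
        · intro h; have := congrArg Fin.val h; simp at this; omega
      · have h4 : i = p.length + 1 := by omega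
        have : (⟨i, hi3⟩ : Fin (p ++ x :: y :: s).length) = ⟨_, h2⟩ := Fin.ext h4
        rw [this, Equiv.swap_apply_right]
        subst h4
        simp

/-- Reordering invariance, list form. -/
lemma perm_of_forall
    (H2 : ∀ (t : ℕ) (f : Fin t → Ω) (σ : Equiv.Perm (Fin t)), IBf G f → IBf G (f ∘ σ)) :
    ∀ l l' : List Ω, l.Perm l' → IB (G := G) l → IB (G := G) l' := by
  have hswap : ∀ (p s : List Ω) (x y : Ω), IB (G := G) (p ++ x :: y :: s) → IB (G := G) (p ++ y :: x :: s) := by
    intro p s x y h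
    obtain ⟨σ, hσ⟩ := ofFn_swap p s x y
    have h1 : IBf G (p ++ x :: y :: s).get := by
      rw [← IB_ofFn_iff, List.ofFn_get]; exact h
    have h2 := H2 _ _ σ h1
    rw [← IB_ofFn_iff, hσ] at h2
    exact h2
  have key : ∀ l l' : List Ω, l.Perm l' → ∀ p : List Ω, IB (G := G) (p ++ l) → IB (G := G) (p ++ l') := by
    intro l l' hll
    induction hll with
    | nil => exact fun _ h => h
    | cons x _ ih =>
      intro p h
      have h1 := ih (p ++ [x]) (by simpa using h)
      simpa using h1
    | swap x y l =>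
      intro p h
      exact hswap p l y x h
    | trans _ _ ih1 ih2 =>
      intro p h
      exact ih2 p (ih1 p h)
  intro l l' hll h
  exact key l l' hll [] h

end bridge

/-- Let a finite group G act on a finite set Ω. An irredundant base is a sequence of points ω₁, …, ω_t whose pointwise stabiliser is trivial and in which each ω_i is moved by some element fixing ω₁, …, ω_{i−1}. Then all irredundant bases have the same length if and only if every reordering of an irredundant base is again an irredundant base. -/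
theorem result {G Ω : Type*} [Group G] [Finite G] [MulAction G Ω] [Fintype Ω] :
    (∀ (t t' : ℕ) (f : Fin t → Ω) (f' : Fin t' → Ω), ((∀ g : G, (∀ i : Fin t, g • f i = f i) → g = 1) ∧ ∀ i : Fin t, ∃ g : G, (∀ j : Fin t, j < i → g • f j = f j) ∧ g • f i ≠ f i) → ((∀ g : G, (∀ i : Fin t', g • f' i = f' i) → g = 1) ∧ ∀ i : Fin t', ∃ g : G, (∀ j : Fin t', j < i → g • f' j = f' j) ∧ g • f' i ≠ f' i) → t = t') ↔
    (∀ (t : ℕ) (f : Fin t → Ω) (σ : Equiv.Perm (Fin t)), ((∀ g : G, (∀ i : Fin t, g • f i = f i) → g = 1) ∧ ∀ i : Fin t, ∃ g : G, (∀ j : Fin t, j < i → g • f j = f j) ∧ g • f i ≠ f i) → ((∀ g : G, (∀ i : Fin t, g • (f ∘ σ) i = (f ∘ σ) i) → g = 1) ∧ ∀ i : Fin t, ∃ g : G, (∀ j : Fin t, j < i → g • (f ∘ σ) j = (f ∘ σ) j) ∧ g • (f ∘ σ) i ≠ (f ∘ σ) i)) := by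
  constructor
  · intro H1 t f σ hf
    have hbase : ∀ g : G, (∀ i : Fin t, g • (f ∘ σ) i = (f ∘ σ) i) → g = 1 := by
      intro g hg
      apply hf.1 g
      intro j
      have := hg (σ.symm j)
      simpa using this
    refine ⟨hbase, ?_⟩
    by_contra hcon
    -- extract a shorter irredundant base
    have hirr : ¬ irrFrom (⊤ : Subgroup G) (List.ofFn (f ∘ σ)) := by
      rw [irrFrom_ofFn]
      intro h
      apply hcon
      intro i
      obtain ⟨g, _, h1, h2⟩ := h i
      exact ⟨g, h1, h2⟩
    have hb : fixL (⊤ : Subgroup G) ([] ++ List.ofFn (f ∘ σ)) = ⊥ := by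
      rw [eq_bot_iff]
      intro g hg
      exact Subgroup.mem_bot.mpr (hbase g ((mem_fixL_ofFn _ _ g).mp hg).2)
    obtain ⟨s', hs', _, hlt⟩ := extend (List.ofFn (f ∘ σ)) [] trivial hb
    have h3 := hlt (by simpa using hirr)
    have h4 : IBf G s'.get := by
      rw [← IB_ofFn_iff, List.ofFn_get]
      simpa using hs'
    have h5 := H1 _ _ f s'.get hf h4
    simp at h3
    omega
  · intro H2 t t' f f' hf hf'
    have hperm := perm_of_forall (G := G) (Ω := Ω) H2
    have h1 : IB (G := G) (List.ofFn f) := (IB_ofFn_iff f).mpr hf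
    have h2 : IB (G := G) (List.ofFn f') := (IB_ofFn_iff f').mpr hf'
    have h3 := length_le hperm (List.ofFn f) [] (List.ofFn f') h1.2 (by simpa using h2)
    have h4 := length_le hperm (List.ofFn f') [] (List.ofFn f) h2.2 (by simpa using h1)
    simp only [List.length_ofFn] at h3 h4
    omega

end Cfsg.Agent.S5747
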