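import Cfsg.Statements.S5752
import Cfsg.Agent.Lib.TW.Cases
-- import your own Cfsg.Agent.* helpers here

set_option autoImplicit false
open Cfsg

namespace Cfsg.Agent.S5752

/-- A form of the Thompson–Wielandt Theorem on primitive permutation groups. Let G be a finite group and M₁, M₂ two distinct conjugate maximal subgroups of G with trivial core in G; define two descending sequences of subgroups by A₀ = M₁, B₀ = M₂ and, for every i, A_{i+1} = the core in M₁ of A_i ∩ B_i and B_{i+1} = the core in M₂ of A_i ∩ B_i (the core in M of a subgroup Y ≤ M is the largest normal subgroup of M contained in Y). If A₂ and B₂ are both non-trivial, then for some prime p the subgroup generated by A₂ and B₂ is a p-group, and for each j the generalized Fitting subgroups of M_j and of its first core (A₁, resp. B₁) are their largest normal p-subgroups. -/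
theorem result {G : Type*} [Group G] [Finite G] (M₁ M₂ : Subgroup G) (hmax : IsCoatom M₁) (g : G)
    (hconj : M₂ = M₁.map (MulAut.conj g).toMonoidHom) (hne : M₁ ≠ M₂) (hcore : M₁.normalCore = ⊥)
    (A B : ℕ → Subgroup G) (hA0 : A 0 = M₁) (hB0 : B 0 = M₂)
    (hA : ∀ i, A (i + 1) = ((A i ⊓ B i).subgroupOf M₁).normalCore.map M₁.subtype)
    (hB : ∀ i, B (i + 1) = ((A i ⊓ B i).subgroupOf M₂).normalCore.map M₂.subtype) (hA2 : A 2 ≠ ⊥) (hB2 : B 2 ≠ ⊥) :
    ∃ p : ℕ, p.Prime ∧ IsPGroup p ↥(A 2 ⊔ B 2) ∧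
      Cfsg.generalizedFittingSubgroup ↥M₁ = Cfsg.pCore p ↥M₁ ∧ Cfsg.generalizedFittingSubgroup ↥(A 1) = Cfsg.pCore p ↥(A 1) ∧
      Cfsg.generalizedFittingSubgroup ↥M₂ = Cfsg.pCore p ↥M₂ ∧ Cfsg.generalizedFittingSubgroup ↥(B 1) = Cfsg.pCore p ↥(B 1) := by
  have hle₁ : ∀ {M Y : Subgroup G}, (Y.subgroupOf M).normalCore.map M.subtype ≤ Y := by
    rintro M Y _ ⟨x, hx, rfl⟩
    have := Subgroup.normalCore_le _ hx
    simpa [Subgroup.mem_subgroupOf] using this
  have hle₂ : ∀ {M Y : Subgroup G}, (Y.subgroupOf M).normalCore.map M.subtype ≤ M := by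
    rintro M Y _ ⟨x, hx, rfl⟩
    exact x.2
  have hnm : ∀ {M Y : Subgroup G}, M ≤ Subgroup.normalizer
      (((Y.subgroupOf M).normalCore.map M.subtype : Subgroup G) : Set G) := by
    intro M Y
    haveI : ((Y.subgroupOf M).normalCore).Normal := inferInstance
    exact Cfsg.Agent.Lib.TW.Basic.map_subtype_le_normalizer _
  have hmx : ∀ {M Y X : Subgroup G}, X ≤ Y → X ≤ M → M ≤ Subgroup.normalizer (X : Set G) →
      X ≤ (Y.subgroupOf M).normalCore.map M.subtype := by
    intro M Y X hXY hXM hn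
    haveI hN : (X.subgroupOf M).Normal := by
      refine ⟨fun a ha m => ?_⟩
      rw [Subgroup.mem_subgroupOf] at ha ⊢
      simpa using Cfsg.Agent.Lib.TW.Basic.conj_mem_of_normalizer (hn m.2) ha
    have h1 : X.subgroupOf M ≤ (Y.subgroupOf M).normalCore :=
      Subgroup.normal_le_normalCore.mpr (Subgroup.comap_mono hXY)
    have h2 := Subgroup.map_mono (f := M.subtype) h1
    rwa [Subgroup.map_subgroupOf_eq_of_le hXM] at h2
  subst hconj
  have hA1 : A 1 = ((M₁ ⊓ M₁.map (MulAut.conj g).toMonoidHom).subgroupOf M₁).normalCore.map M₁.subtype := by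
    rw [hA 0, hA0, hB0]
  have hB1 : B 1 = ((M₁ ⊓ M₁.map (MulAut.conj g).toMonoidHom).subgroupOf
      (M₁.map (MulAut.conj g).toMonoidHom)).normalCore.map (M₁.map (MulAut.conj g).toMonoidHom).subtype := by
    rw [hB 0, hA0, hB0]
  have hmax₂ : IsCoatom (M₁.map (MulAut.conj g).toMonoidHom) :=
    ((MulAut.conj g).mapSubgroup.isCoatom_iff M₁).mpr hmax
  have hcore₁ : ∀ X : Subgroup G, X ≤ M₁ → X.Normal → X = ⊥ := by
    intro X hX hN
    rw [eq_bot_iff, ← hcore]
    exact Subgroup.normal_le_normalCore.mpr hX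
  have D : Cfsg.Agent.Lib.TW.Cfg.Data M₁ (M₁.map (MulAut.conj g).toMonoidHom) (A 1) (B 1) (A 2) (B 2) :=
    { max₁ := hmax
      max₂ := hmax₂
      core₁ := hcore₁
      core₂ := by
        intro X hX hN
        refine hcore₁ X ?_ hN
        intro x hx
        obtain ⟨m, hm, hmx'⟩ := hX (hN.conj_mem x hx g)
        have : m = x := by
          have h3 : g * m * g⁻¹ = g * x * g⁻¹ := hmx'
          simpa using h3
        rwa [← this]
      ne := hne
      iso := ⟨(MulAut.conj g).subgroupMap M₁⟩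
      A₁_le := by rw [hA1]; exact hle₁
      A₁_norm := by rw [hA1]; exact hnm
      A₁_max := fun X hX hn => by
        rw [hA1]; exact hmx hX (hX.trans inf_le_left) hn
      B₁_le := by rw [hB1]; exact hle₁
      B₁_norm := by rw [hB1]; exact hnm
      B₁_max := fun X hX hn => by
        rw [hB1]; exact hmx hX (hX.trans inf_le_right) hn
      A₂_le := by rw [hA 1]; exact hle₁
      A₂_norm := by rw [hA 1]; exact hnm
      A₂_ne := hA2
      B₂_le := by rw [hB 1]; exact hle₁
      B₂_norm := by rw [hB 1]; exact hnm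
      B₂_ne := hB2 }
  exact Cfsg.Agent.Lib.TW.Cases.main D

end Cfsg.Agent.S5752
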