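import Cfsg.Statements.S5753
import Cfsg.Agent.Lib.Classical.AffBin.Main
-- import your own Cfsg.Agent.* helpers here

set_option autoImplicit false
open Cfsg

namespace Cfsg.Agent.S5753

/-- The binary primitive permutation groups of affine type (the known proof uses the classification of the finite simple groups). Let a finite group G act faithfully and primitively on a finite set Ω, with a non-trivial abelian normal subgroup, and suppose the action is binary: for every n ≥ 2 and all n-tuples I, J of points, if for every pair of positions some element of G carries the corresponding pair of entries of I to those of J, then a single element carries I to J. Then either Ω has a prime number of points and every point stabilizer has order at most 2, or Ω can be identified with a field E that is a quadratic extension of a subfield F in such a way that the permutations induced by G are exactly the maps x ↦ a·φ(x) + b with a ∈ E of norm 1 over F, φ an automorphism of E over F and b ∈ E (the affine group of the anisotropic plane orthogonal group). -/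
theorem result {G Ω : Type*} [Group G] [Finite G] [MulAction G Ω] [FaithfulSMul G Ω] [Fintype Ω]
    (hprim : MulAction.IsPreprimitive G Ω)
    (haff : ∃ N : Subgroup G, N.Normal ∧ N ≠ ⊥ ∧ IsMulCommutative ↥N)
    (hbin : ∀ (n : ℕ) (I J : Fin n → Ω), 2 ≤ n →
      (∀ i j : Fin n, i ≠ j → ∃ g : G, g • I i = J i ∧ g • I j = J j) → ∃ g : G, ∀ i, g • I i = J i) :
    ((Fintype.card Ω).Prime ∧ ∀ ω : Ω, Nat.card ↥(MulAction.stabilizer G ω) ≤ 2) ∨
    (∃ (F E : Type) (_ : Field F) (_ : Fintype F) (_ : Field E) (_ : Fintype E) (_ : Algebra F E) (e : Ω ≃ E),
        Module.finrank F E = 2 ∧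
        ∀ σ : Equiv.Perm Ω, σ ∈ (MulAction.toPermHom G Ω).range ↔
          ∃ (a b : E) (φ : E ≃ₐ[F] E), Algebra.norm F a = 1 ∧ ∀ ω : Ω, e (σ ω) = a * φ (e ω) + b) := by
  exact Cfsg.Agent.AffBin.main hprim haff hbin

end Cfsg.Agent.S5753
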