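import Cfsg.Statements.S5754

set_option autoImplicit false
open Cfsg

namespace Cfsg.Agent.S5754

section aux
variable {F V : Type*} [Field F] [AddCommGroup V] [Module F V] (Q : QuadraticForm F V)

lemma sub_expand (x y : V) : Q (x - y) = Q x + Q y - QuadraticMap.polar Q x y := by
  have h := QuadraticMap.polar Q x (-y)
  rw [sub_eq_add_neg]
  have h1 : QuadraticMap.polar Q x (-y) = Q (x + -y) - Q x - Q (-y) := rfl
  have h2 : QuadraticMap.polar Q x (-y) = - QuadraticMap.polar Q x y :=
    QuadraticMap.polar_neg_right Q x y
  rw [QuadraticMap.map_neg] at h1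
  linear_combination h2 - h1

/-- The reflection map attached to a vector. -/
noncomputable def reflMap (v : V) : V →ₗ[F] V :=
  LinearMap.id - ((Q v)⁻¹ • ((QuadraticMap.polarBilin Q).flip v)).smulRight v

lemma reflMap_apply (v x : V) :
    reflMap Q v x = x - ((Q v)⁻¹ * QuadraticMap.polar Q x v) • v := by
  simp [reflMap]

lemma polar_refl (v x : V) (hv : Q v ≠ 0) :
    QuadraticMap.polar Q (reflMap Q v x) v = - QuadraticMap.polar Q x v := by
  rw [reflMap_apply, sub_eq_add_neg, QuadraticMap.polar_add_left, QuadraticMap.polar_neg_left,
    QuadraticMap.polar_smul_left, QuadraticMap.polar_self]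
  simp only [smul_eq_mul, nsmul_eq_mul]
  field_simp
  push_cast
  ring

lemma reflMap_reflMap (v x : V) (hv : Q v ≠ 0) : reflMap Q v (reflMap Q v x) = x := by
  rw [reflMap_apply Q v (reflMap Q v x), polar_refl Q v x hv, reflMap_apply]
  simp only [mul_neg, neg_smul, sub_neg_eq_add, sub_add_cancel]

lemma Q_refl (v x : V) (hv : Q v ≠ 0) : Q (reflMap Q v x) = Q x := by
  rw [reflMap_apply, sub_expand, QuadraticMap.map_smul, QuadraticMap.polar_smul_right]
  simp only [smul_eq_mul]
  field_simp
  ring

/-- The reflection as an isometry. -/
noncomputable def reflIso (v : V) (hv : Q v ≠ 0) : Q.IsometryEquiv Q where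
  toLinearEquiv := LinearEquiv.ofInvolutive (reflMap Q v) (fun x => reflMap_reflMap Q v x hv)
  map_app' x := Q_refl Q v x hv

lemma reflIso_apply (v : V) (hv : Q v ≠ 0) (x : V) :
    reflIso Q v hv x = x - ((Q v)⁻¹ * QuadraticMap.polar Q x v) • v :=
  reflMap_apply Q v x

end aux

/-- Let V be a finite-dimensional vector space over a finite field F carrying an anisotropic quadratic form Q (Q(v) = 0 only for v = 0). Then the group of all maps v ↦ φ(v) + c, with φ an isometry of Q and c ∈ V, acts on V as a binary permutation group: given n ≥ 2 and two n-tuples u, u' of vectors such that every pair of corresponding entries of u is carried to that of u' by such a map, one such map carries u to u'. -/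
theorem result {F V : Type*} [Field F] [Finite F] [AddCommGroup V] [Module F V] [Module.Finite F V]
    (Q : QuadraticForm F V) (hQ : Q.Anisotropic) (n : ℕ) (hn : 2 ≤ n) (u u' : Fin n → V)
    (h2 : ∀ i j : Fin n, i ≠ j → ∃ (φ : Q.IsometryEquiv Q) (c : V), φ (u i) + c = u' i ∧ φ (u j) + c = u' j) :
    ∃ (φ : Q.IsometryEquiv Q) (c : V), ∀ i, φ (u i) + c = u' i := by
  classical
  let i0 : Fin n := ⟨0, by omega⟩
  let a : Fin n → V := fun i => u i - u i0
  let b : Fin n → V := fun i => u' i - u' i0
  -- distances
  have hdist : ∀ i j : Fin n, Q (u i - u j) = Q (u' i - u' j) := by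
    intro i j
    by_cases hij : i = j
    · subst hij; simp
    · obtain ⟨φ, c, h1, h2'⟩ := h2 i j hij
      rw [← h1, ← h2']
      have : φ (u i) + c - (φ (u j) + c) = φ (u i - u j) := by
        rw [map_sub]; abel
      rw [this]
      exact (φ.map_app _).symm
  have hQab : ∀ i, Q (a i) = Q (b i) := fun i => hdist i i0
  have hsubab : ∀ i j, Q (a i - a j) = Q (b i - b j) := by
    intro i j
    have h1 : a i - a j = u i - u j := by simp only [a]; abel
    have h2' : b i - b j = u' i - u' j := by simp only [b]; abel
    rw [h1, h2']
    exact hdist i j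
  have hpolar : ∀ i j, QuadraticMap.polar Q (a i) (a j) = QuadraticMap.polar Q (b i) (b j) := by
    intro i j
    have h1 := sub_expand Q (a i) (a j)
    have h2' := sub_expand Q (b i) (b j)
    rw [hsubab i j] at h1
    rw [hQab i, hQab j] at h1
    linear_combination h1 - h2'
  have key : ∀ S : Finset (Fin n), ∃ φ : Q.IsometryEquiv Q, ∀ i ∈ S, φ (a i) = b i := by
    intro S
    induction S using Finset.induction_on with
    | empty => exact ⟨QuadraticMap.IsometryEquiv.refl Q, by simp⟩
    | insert k S _ ih =>
      obtain ⟨φ, hφ⟩ := ih
      by_cases hxy : φ (a k) = b k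
      · refine ⟨φ, fun i hi => ?_⟩
        rcases Finset.mem_insert.mp hi with rfl | hi
        · exact hxy
        · exact hφ i hi
      · set x := φ (a k) with hx
        set y := b k with hy
        have hv0 : x - y ≠ 0 := sub_ne_zero.mpr hxy
        have hv : Q (x - y) ≠ 0 := fun h => hv0 (hQ _ h)
        have hQxy : Q x = Q y := by
          rw [hx, hy, ← hQab k]; exact φ.map_app _
        refine ⟨φ.trans (reflIso Q (x - y) hv), fun i hi => ?_⟩
        have happly : ∀ w, (φ.trans (reflIso Q (x - y) hv)) w = reflIso Q (x - y) hv (φ w) :=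
          fun w => rfl
        rw [happly, reflIso_apply]
        rcases Finset.mem_insert.mp hi with rfl | hi
        · -- the new point
          have hpol : QuadraticMap.polar Q x (x - y) = Q (x - y) := by
            rw [sub_expand, sub_eq_add_neg, QuadraticMap.polar_add_right,
              QuadraticMap.polar_neg_right, QuadraticMap.polar_self, hQxy]
            simp only [nsmul_eq_mul]
            push_cast
            ring
          rw [← hx, hpol, inv_mul_cancel₀ hv, one_smul]
          abel
        · -- old points stay fixed
          have hbi := hφ i hi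
          have hpol : QuadraticMap.polar Q (φ (a i)) (x - y) = 0 := by
            rw [hbi, sub_eq_add_neg, QuadraticMap.polar_add_right, QuadraticMap.polar_neg_right,
              hy, ← hpolar i k, ← hbi, hx]
            have : QuadraticMap.polar Q (φ (a i)) (φ (a k)) = QuadraticMap.polar Q (a i) (a k) := by
              simp only [QuadraticMap.polar]
              rw [← map_add, φ.map_app, φ.map_app, φ.map_app]
            rw [this]
            ring
          rw [hpol, mul_zero, zero_smul, sub_zero, hbi]
  obtain ⟨φ, hφ⟩ := key Finset.univ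
  refine ⟨φ, u' i0 - φ (u i0), fun i => ?_⟩
  have := hφ i (Finset.mem_univ i)
  simp only [a, b, map_sub] at this
  rw [sub_eq_iff_eq_add] at this
  rw [this]
  abel

end Cfsg.Agent.S5754
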