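import Cfsg.Statements.S5763

set_option autoImplicit false
open Cfsg

namespace Cfsg.Agent.S5763

/-- Tree ultrametric on eight points. -/
def dd (i j : Fin 8) : Nat :=
  if i.val = j.val then 0 else if i.val / 2 = j.val / 2 then 1 else if i.val / 4 = j.val / 4 then 2 else 3

/-- Automorphism group of the binary tree with eight leaves. -/
def H0 : Subgroup (Equiv.Perm (Fin 8)) where
  carrier := {π | ∀ i j, dd (π i) (π j) = dd i j}
  mul_mem' := by
    intro a b ha hb i j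
    simp only [Equiv.Perm.coe_mul, Function.comp_apply]
    rw [ha, hb]
  one_mem' := by
    intro i j; rfl
  inv_mem' := by
    intro a ha i j
    have := ha (a⁻¹ i) (a⁻¹ j)
    simpa using this.symm

lemma mem_H0 (π : Equiv.Perm (Fin 8)) : π ∈ H0 ↔ ∀ i j, dd (π i) (π j) = dd i j := Iff.rfl

/-- Explicit automorphisms: seven bits. -/
def phiN (b i : Nat) : Nat :=
  let i2 := i / 4
  let i1 := (i / 2) % 2
  let i0 := i % 2
  let b0 := b % 2
  let b1 := (b / 2) % 2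
  let b2 := (b / 4) % 2
  let b3 := (b / 8) % 2
  let b4 := (b / 16) % 2
  let b5 := (b / 32) % 2
  let b6 := (b / 64) % 2
  let o2 := (i2 + b0) % 2
  let o1 := (i1 + (if i2 = 1 then b2 else b1)) % 2
  let o0 := (i0 + (if i2 = 0 then (if i1 = 0 then b3 else b4) else (if i1 = 0 then b5 else b6))) % 2
  4 * o2 + 2 * o1 + o0

/-- The explicit automorphism as a function on `Fin 8`. -/
def phi (b : Fin 128) (i : Fin 8) : Fin 8 := ⟨phiN b.val i.val % 8, Nat.mod_lt _ (by norm_num)⟩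

lemma phi_iso : ∀ (b : Fin 128) (i j : Fin 8), dd (phi b i) (phi b j) = dd i j := by
  decide +kernel

lemma inj_of_iso {t : Fin 8 → Fin 8} (ht : ∀ i j, dd (t i) (t j) = dd i j) :
    Function.Injective t := by
  intro i j hij
  by_contra hne
  have h1 := ht i j
  rw [hij] at h1
  have h2 : dd (t j) (t j) = 0 := by simp [dd]
  have h3 : dd i j ≠ 0 := by
    have : i.val ≠ j.val := fun h => hne (Fin.ext h)
    simp only [dd, if_neg this]
    split_ifs <;> norm_num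
  rw [h2] at h1
  exact h3 h1.symm

/-- A tree isometry as a permutation. -/
noncomputable def permOf (t : Fin 8 → Fin 8) (ht : ∀ i j, dd (t i) (t j) = dd i j) : Equiv.Perm (Fin 8) :=
  Equiv.ofBijective t (Finite.injective_iff_bijective.mp (inj_of_iso ht))

lemma permOf_apply (t : Fin 8 → Fin 8) (ht : ∀ i j, dd (t i) (t j) = dd i j) (i : Fin 8) :
    permOf t ht i = t i := rfl

/-- The code of an isometry. -/
def codeN (a0 a2 a4 a6 : Nat) : Nat :=
  (a0 / 4) + 2 * ((a0 / 2) % 2) + 4 * ((a4 / 2) % 2) + 8 * (a0 % 2) + 16 * (a2 % 2) + 32 * (a4 % 2) + 64 * (a6 % 2)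

def code (a0 a2 a4 a6 : Fin 8) : Fin 128 :=
  ⟨codeN a0 a2 a4 a6 % 128, Nat.mod_lt _ (by norm_num)⟩

lemma code_phi : ∀ b : Fin 128, code (phi b 0) (phi b 2) (phi b 4) (phi b 6) = b := by
  decide +kernel

/-- Every isometry is one of the explicit ones. -/
lemma iso_eq_phi : ∀ a0 a1 : Fin 8, dd a0 a1 = 1 →
    ∀ a2 : Fin 8, dd a0 a2 = 2 → dd a1 a2 = 2 →
    ∀ a3 : Fin 8, dd a2 a3 = 1 → dd a0 a3 = 2 → dd a1 a3 = 2 →
    ∀ a4 : Fin 8, dd a0 a4 = 3 →
    ∀ a5 : Fin 8, dd a4 a5 = 1 → dd a0 a5 = 3 →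
    ∀ a6 : Fin 8, dd a4 a6 = 2 → dd a5 a6 = 2 → dd a0 a6 = 3 →
    ∀ a7 : Fin 8, dd a6 a7 = 1 → dd a4 a7 = 2 → dd a5 a7 = 2 → dd a0 a7 = 3 →
    (phi (code a0 a2 a4 a6) 0 = a0 ∧ phi (code a0 a2 a4 a6) 1 = a1 ∧ phi (code a0 a2 a4 a6) 2 = a2 ∧
      phi (code a0 a2 a4 a6) 3 = a3 ∧ phi (code a0 a2 a4 a6) 4 = a4 ∧ phi (code a0 a2 a4 a6) 5 = a5 ∧
      phi (code a0 a2 a4 a6) 6 = a6 ∧ phi (code a0 a2 a4 a6) 7 = a7) := by
  decide +kernel

lemma forall_fin8 {p : Fin 8 → Prop} (h0 : p 0) (h1 : p 1) (h2 : p 2) (h3 : p 3) (h4 : p 4) (h5 : p 5)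
    (h6 : p 6) (h7 : p 7) : ∀ i, p i := by
  intro i
  fin_cases i <;> assumption

lemma dd_eq_table : dd 0 1 = 1 ∧ dd 0 2 = 2 ∧ dd 1 2 = 2 ∧ dd 2 3 = 1 ∧ dd 0 3 = 2 ∧ dd 1 3 = 2 ∧ dd 0 4 = 3 ∧
    dd 4 5 = 1 ∧ dd 0 5 = 3 ∧ dd 4 6 = 2 ∧ dd 5 6 = 2 ∧ dd 0 6 = 3 ∧ dd 6 7 = 1 ∧ dd 4 7 = 2 ∧ dd 5 7 = 2 ∧
    dd 0 7 = 3 := by
  decide

/-- The bijection `Fin 128 ≃ H0`. -/
lemma card_H0 : Nat.card H0 = 128 := by
  let f : Fin 128 → H0 := fun b => ⟨permOf (phi b) (phi_iso b), fun i j => phi_iso b i j⟩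
  have hf : Function.Bijective f := by
    constructor
    · intro b b' h
      have h1 : ∀ i, phi b i = phi b' i := by
        intro i
        have := congrArg (fun x : H0 => (x : Equiv.Perm (Fin 8)) i) h
        exact this
      rw [← code_phi b, ← code_phi b', h1, h1, h1, h1]
    · rintro ⟨π, hπ⟩
      obtain ⟨h01, h02, h12, h23, h03, h13, h04, h45, h05, h46, h56, h06, h67, h47, h57, h07⟩ := dd_eq_table
      have key := iso_eq_phi (π 0) (π 1) (by rw [hπ, h01]) (π 2) (by rw [hπ, h02]) (by rw [hπ, h12])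
        (π 3) (by rw [hπ, h23]) (by rw [hπ, h03]) (by rw [hπ, h13])
        (π 4) (by rw [hπ, h04])
        (π 5) (by rw [hπ, h45]) (by rw [hπ, h05])
        (π 6) (by rw [hπ, h46]) (by rw [hπ, h56]) (by rw [hπ, h06])
        (π 7) (by rw [hπ, h67]) (by rw [hπ, h47]) (by rw [hπ, h57]) (by rw [hπ, h07])
      obtain ⟨k0, k1, k2, k3, k4, k5, k6, k7⟩ := key
      refine ⟨code (π 0) (π 2) (π 4) (π 6), ?_⟩
      apply Subtype.ext
      apply Equiv.ext
      intro i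
      change phi _ i = π i
      revert i
      exact forall_fin8 k0 k1 k2 k3 k4 k5 k6 k7
  have := Nat.card_congr (Equiv.ofBijective f hf)
  rw [← this]
  simp

lemma factorization_two : (Nat.card (Equiv.Perm (Fin 8))).factorization 2 = 7 := by
  have h : Nat.card (Equiv.Perm (Fin 8)) = 2 ^ 7 * 315 := by
    rw [Nat.card_eq_fintype_card, Fintype.card_perm, Fintype.card_fin]
    decide
  rw [h, Nat.factorization_mul (by norm_num) (by norm_num), Nat.factorization_pow]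
  have h315 : (315 : ℕ).factorization 2 = 0 := Nat.factorization_eq_zero_of_not_dvd (by norm_num)
  simp [h315, Nat.Prime.factorization_self Nat.prime_two]

/-- `H0` as a Sylow subgroup. -/
noncomputable def sylow0 : Sylow 2 (Equiv.Perm (Fin 8)) :=
  Sylow.ofCard H0 (by rw [card_H0, factorization_two]; norm_num)

/-- Inverse lookup of a tuple. -/
def zz (a : Fin 8 → Fin 8) (v : Fin 8) : Fin 8 :=
  if a 0 = v then 0 else if a 1 = v then 1 else if a 2 = v then 2 else if a 3 = v then 3 else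
  if a 4 = v then 4 else if a 5 = v then 5 else if a 6 = v then 6 else 7

/-- The test that the explicit automorphism `phi b` conjugated by the tuple `a` is an automorphism. -/
def okP (a : Fin 8 → Fin 8) (b : Fin 128) : Prop :=
  (∃ i, phi b i ≠ i) ∧ (∀ i, phi b (a i) = a (zz a (phi b (a i)))) ∧
    ∀ i j, dd (zz a (phi b (a i))) (zz a (phi b (a j))) = dd i j

instance (a : Fin 8 → Fin 8) (b : Fin 128) : Decidable (okP a b) := by
  unfold okP; infer_instance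

/-- The candidates. -/
def cands : List (Fin 128) := [1, 28, 55, 124, 32, 64, 8, 16, 79, 121, 7, 41, 81, 127]

/-- Some candidate passes. -/
def tst (a : Fin 8 → Fin 8) : Prop := ∃ b ∈ cands, okP a b

instance (a : Fin 8 → Fin 8) : Decidable (tst a) := by
  unfold tst; infer_instance

set_option maxRecDepth 100000 in
set_option synthInstance.maxSize 2000 in
set_option synthInstance.maxHeartbeats 4000000 in
/-- The finite check over the 315 trees. -/
lemma base_check : ∀ a0 a1 : Fin 8, a0 < a1 →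
    ∀ a2 : Fin 8, a0 < a2 → a2 ≠ a1 →
    ∀ a3 : Fin 8, a2 < a3 → a3 ≠ a1 →
    ∀ a4 : Fin 8, a0 < a4 → a4 ≠ a1 → a4 ≠ a2 → a4 ≠ a3 →
    ∀ a5 : Fin 8, a4 < a5 → a5 ≠ a1 → a5 ≠ a2 → a5 ≠ a3 →
    ∀ a6 : Fin 8, a4 < a6 → a6 ≠ a1 → a6 ≠ a2 → a6 ≠ a3 → a6 ≠ a5 →
    ∀ a7 : Fin 8, a6 < a7 → a7 ≠ a1 → a7 ≠ a2 → a7 ≠ a3 → a7 ≠ a5 →
      tst ![a0, a1, a2, a3, a4, a5, a6, a7] := by
  decide +kernel

/-- The property to prove for every `y`. -/
def PP (y : Equiv.Perm (Fin 8)) : Prop := ∃ h ∈ H0, h ≠ 1 ∧ y⁻¹ * h * y ∈ H0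

lemma PP_of_mul (s : Equiv.Perm (Fin 8)) (hs : s ∈ H0) (y : Equiv.Perm (Fin 8)) (h : PP (y * s)) : PP y := by
  obtain ⟨h, hh, h1, h2⟩ := h
  refine ⟨h, hh, h1, ?_⟩
  have : y⁻¹ * h * y = s * ((y * s)⁻¹ * h * (y * s)) * s⁻¹ := by group
  rw [this]
  exact H0.mul_mem (H0.mul_mem hs h2) (H0.inv_mem hs)

lemma PP_of_ok (y : Equiv.Perm (Fin 8)) (b : Fin 128) (h : okP y b) : PP y := by
  obtain ⟨⟨i, hi⟩, h1, h2⟩ := h
  refine ⟨permOf (phi b) (phi_iso b), fun i j => phi_iso b i j, ?_, ?_⟩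
  · intro h0
    apply hi
    have := congrArg (fun x : Equiv.Perm (Fin 8) => x i) h0
    exact this
  · have hk : ∀ i, (y⁻¹ * permOf (phi b) (phi_iso b) * y) i = zz y (phi b (y i)) := by
      intro i
      simp only [Equiv.Perm.coe_mul, Function.comp_apply, permOf_apply]
      exact Equiv.Perm.inv_eq_iff_eq.mpr (h1 i)
    intro i j
    rw [hk, hk]
    exact h2 i j

lemma base_all (y : Equiv.Perm (Fin 8)) (c1 : y 0 < y 1) (c2 : y 2 < y 3) (c3 : y 4 < y 5) (c4 : y 6 < y 7)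
    (c5 : y 0 < y 2) (c6 : y 4 < y 6) (c7 : y 0 < y 4) : PP y := by
  have hne : ∀ i j : Fin 8, i ≠ j → y i ≠ y j := fun i j hij h => hij (y.injective h)
  have h := base_check (y 0) (y 1) c1 (y 2) c5 (hne _ _ (by decide)) (y 3) c2 (hne _ _ (by decide))
    (y 4) c7 (hne _ _ (by decide)) (hne _ _ (by decide)) (hne _ _ (by decide))
    (y 5) c3 (hne _ _ (by decide)) (hne _ _ (by decide)) (hne _ _ (by decide))
    (y 6) c6 (hne _ _ (by decide)) (hne _ _ (by decide)) (hne _ _ (by decide)) (hne _ _ (by decide))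
    (y 7) c4 (hne _ _ (by decide)) (hne _ _ (by decide)) (hne _ _ (by decide)) (hne _ _ (by decide))
  obtain ⟨b, _, hb⟩ := h
  have hy : (![y 0, y 1, y 2, y 3, y 4, y 5, y 6, y 7] : Fin 8 → Fin 8) = ⇑y := by
    funext i
    fin_cases i <;> rfl
  rw [hy] at hb
  exact PP_of_ok y b hb

/-- The tree automorphisms used for normalisation. -/
def s1 : Equiv.Perm (Fin 8) := Equiv.swap 0 1
def s2 : Equiv.Perm (Fin 8) := Equiv.swap 2 3
def s3 : Equiv.Perm (Fin 8) := Equiv.swap 4 5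
def s4 : Equiv.Perm (Fin 8) := Equiv.swap 6 7
def s5 : Equiv.Perm (Fin 8) := Equiv.swap 0 2 * Equiv.swap 1 3
def s6 : Equiv.Perm (Fin 8) := Equiv.swap 4 6 * Equiv.swap 5 7
def s7 : Equiv.Perm (Fin 8) := Equiv.swap 0 4 * Equiv.swap 1 5 * Equiv.swap 2 6 * Equiv.swap 3 7

lemma s1_mem : s1 ∈ H0 := by rw [mem_H0]; decide
lemma s2_mem : s2 ∈ H0 := by rw [mem_H0]; decide
lemma s3_mem : s3 ∈ H0 := by rw [mem_H0]; decide
lemma s4_mem : s4 ∈ H0 := by rw [mem_H0]; decide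
lemma s5_mem : s5 ∈ H0 := by rw [mem_H0]; decide
lemma s6_mem : s6 ∈ H0 := by rw [mem_H0]; decide
lemma s7_mem : s7 ∈ H0 := by rw [mem_H0]; decide

lemma lt_of_not (y : Equiv.Perm (Fin 8)) {i j : Fin 8} (hij : i ≠ j) (h : ¬ y i < y j) : y j < y i :=
  lt_of_le_of_ne (not_lt.mp h) (fun h' => hij (y.injective h'.symm))

lemma step7 (y : Equiv.Perm (Fin 8)) (c1 : y 0 < y 1) (c2 : y 2 < y 3) (c3 : y 4 < y 5) (c4 : y 6 < y 7)
    (c5 : y 0 < y 2) (c6 : y 4 < y 6) : PP y := by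
  by_cases c7 : y 0 < y 4
  · exact base_all y c1 c2 c3 c4 c5 c6 c7
  · have c7' := lt_of_not y (by decide) c7
    refine PP_of_mul s7 s7_mem y (base_all _ ?_ ?_ ?_ ?_ ?_ ?_ ?_)
    · exact c3
    · exact c4
    · exact c1
    · exact c2
    · exact c6
    · exact c5
    · exact c7'

lemma step6 (y : Equiv.Perm (Fin 8)) (c1 : y 0 < y 1) (c2 : y 2 < y 3) (c3 : y 4 < y 5) (c4 : y 6 < y 7)
    (c5 : y 0 < y 2) : PP y := by
  by_cases c6 : y 4 < y 6
  · exact step7 y c1 c2 c3 c4 c5 c6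
  · have c6' := lt_of_not y (by decide) c6
    refine PP_of_mul s6 s6_mem y (step7 _ ?_ ?_ ?_ ?_ ?_ ?_)
    · exact c1
    · exact c2
    · exact c4
    · exact c3
    · exact c5
    · exact c6'

lemma step5 (y : Equiv.Perm (Fin 8)) (c1 : y 0 < y 1) (c2 : y 2 < y 3) (c3 : y 4 < y 5) (c4 : y 6 < y 7) :
    PP y := by
  by_cases c5 : y 0 < y 2
  · exact step6 y c1 c2 c3 c4 c5
  · have c5' := lt_of_not y (by decide) c5
    refine PP_of_mul s5 s5_mem y (step6 _ ?_ ?_ ?_ ?_ ?_)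
    · exact c2
    · exact c1
    · exact c3
    · exact c4
    · exact c5'

lemma step4 (y : Equiv.Perm (Fin 8)) (c1 : y 0 < y 1) (c2 : y 2 < y 3) (c3 : y 4 < y 5) : PP y := by
  by_cases c4 : y 6 < y 7
  · exact step5 y c1 c2 c3 c4
  · have c4' := lt_of_not y (by decide) c4
    exact PP_of_mul s4 s4_mem y (step5 _ c1 c2 c3 c4')

lemma step3 (y : Equiv.Perm (Fin 8)) (c1 : y 0 < y 1) (c2 : y 2 < y 3) : PP y := by
  by_cases c3 : y 4 < y 5
  · exact step4 y c1 c2 c3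
  · have c3' := lt_of_not y (by decide) c3
    exact PP_of_mul s3 s3_mem y (step4 _ c1 c2 c3')

lemma step2 (y : Equiv.Perm (Fin 8)) (c1 : y 0 < y 1) : PP y := by
  by_cases c2 : y 2 < y 3
  · exact step3 y c1 c2
  · have c2' := lt_of_not y (by decide) c2
    exact PP_of_mul s2 s2_mem y (step3 _ c1 c2')

lemma PP_all (y : Equiv.Perm (Fin 8)) : PP y := by
  by_cases c1 : y 0 < y 1
  · exact step2 y c1
  · have c1' := lt_of_not y (by decide) c1
    exact PP_of_mul s1 s1_mem y (step2 _ c1')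

open scoped Pointwise in
/-- In the symmetric group on 8 letters any two Sylow 2-subgroups have non-trivial intersection: for a Sylow 2-subgroup H and every element x, H ∩ xHx⁻¹ ≠ 1. -/
theorem result (H : Sylow 2 (Equiv.Perm (Fin 8))) (x : Equiv.Perm (Fin 8)) :
    (H : Subgroup (Equiv.Perm (Fin 8))) ⊓ (H : Subgroup (Equiv.Perm (Fin 8))).map (MulAut.conj x).toMonoidHom ≠ ⊥ := by
  obtain ⟨g, hg⟩ := MulAction.exists_smul_eq (Equiv.Perm (Fin 8)) sylow0 H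
  have hmem : ∀ u, u ∈ (H : Subgroup (Equiv.Perm (Fin 8))) ↔ g⁻¹ * u * g ∈ H0 := by
    intro u
    rw [← hg, Sylow.coe_subgroup_smul]
    change u ∈ (MulAut.conj g) • H0 ↔ _
    rw [Subgroup.mem_pointwise_smul_iff_inv_smul_mem]
    simp [MulAut.conj_inv_apply, MulAut.smul_def]
  obtain ⟨h, hh, hne, hy⟩ := PP_all (g⁻¹ * x * g)
  intro hbot
  have hu : g * h * g⁻¹ ∈ (H : Subgroup (Equiv.Perm (Fin 8))) ⊓
      (H : Subgroup (Equiv.Perm (Fin 8))).map (MulAut.conj x).toMonoidHom := by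
    refine Subgroup.mem_inf.mpr ⟨?_, ?_⟩
    · rw [hmem]
      have : g⁻¹ * (g * h * g⁻¹) * g = h := by group
      rw [this]; exact hh
    · refine ⟨x⁻¹ * (g * h * g⁻¹) * x, ?_, ?_⟩
      · rw [SetLike.mem_coe, hmem]
        have : g⁻¹ * (x⁻¹ * (g * h * g⁻¹) * x) * g = (g⁻¹ * x * g)⁻¹ * h * (g⁻¹ * x * g) := by group
        rw [this]; exact hy
      · simp only [MulEquiv.coe_toMonoidHom, MulAut.conj_apply]
        group
  rw [hbot, Subgroup.mem_bot] at hu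
  apply hne
  have : h = g⁻¹ * (g * h * g⁻¹) * g := by group
  rw [this, hu]
  group

end Cfsg.Agent.S5763
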