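import Cfsg.Statements.S5883
import Cfsg.Agent.Lib.FiMax.Thm
import Cfsg.Agent.Lib.PermComp.OutP.M23T.Z5Final

set_option autoImplicit false
set_option maxRecDepth 100000
set_option maxHeartbeats 0
set_option linter.style.longLine false
set_option linter.style.haveILetI false
open Cfsg

namespace Cfsg.Agent.S5883

open Cfsg.Agent.Lib.PermComp Cfsg.Agent.Lib.PermComp.OutP
open Cfsg.Agent.Lib.PermComp.Kron (rangeAll rangeAll_spec)
open Cfsg.Agent.Lib.PermComp.OutP.Fi23 (n F hC hD)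
open Cfsg.Agent.Lib.PermComp.OutP.Fi23I (Geo hXa word_el conj_check tab_0 tab_1 tab_2 tab_3 tab_4 tab_5 tab_6 tab_7 tab_8 tab_9)
open Cfsg.Agent.Lib.FiMax

private noncomputable abbrev pt := Cfsg.Agent.Lib.TC.D.Fi23a.Tab.pt

private theorem rp_tab {e : Equiv.Perm (Fin 31671)} {j : Nat}
    (hg : ∀ (p : Nat) (hp : p < 31671), pt.T j p = (e ⟨p, hp⟩ : Fin 31671))
    (h : rangeAll (fun q => Nat.beq (OutP.Fi23.F (65 + j) q) (pt.T j q)) 0 31671 = true) :
    Rp (n := 31671) (OutP.Fi23.F (65 + j)) e := by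
  intro p hp
  have h1 := Nat.eq_of_beq_eq_true (rangeAll_spec h p (Nat.zero_le _) (by omega))
  rw [h1]
  exact hg p hp

private theorem key_n {H : Subgroup (Equiv.Perm (Fin n))} (hcard : Nat.card H = 4089470473293004800)
    (hX : ∀ g, 65 ≤ g → g < 75 → Has (n := n) F H g) (hs : IsSimpleGroup H) :
    ∃ K : Subgroup H, IsCoatom K ∧ derivedSeries K 10 ≠ derivedSeries K 9 ∧ ¬ ∀ a b : H, a * b = b * a := by
  obtain ⟨⟨A0, hA0, rA0⟩, ⟨b, hb, rb⟩⟩ := Fi23.has_gens hX
  obtain ⟨E, hO⟩ := hC.out hcard hA0 hb rA0 rb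
  obtain ⟨h1, h2⟩ := key hO.hE hO.hbase hcard hO.hlev hs
  refine ⟨NN hO.hE, h1, h2, ?_⟩
  intro hcomm
  apply h1.1
  rw [eq_top_iff]
  intro g _
  exact Cfsg.Agent.Lib.FiMax.mem_norm_of_comm (hcomm _ _)

private theorem key_m {H : Subgroup (Equiv.Perm (Fin 31671))} (hcard : Nat.card H = 4089470473293004800)
    (hX : ∀ g, 65 ≤ g → g < 75 → Has (n := 31671) F H g) (hs : IsSimpleGroup H) :
    ∃ K : Subgroup H, IsCoatom K ∧ derivedSeries K 10 ≠ derivedSeries K 9 ∧ ¬ ∀ a b : H, a * b = b * a :=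
  key_n hcard hX hs

/-- The constant 10 in the statement that H⁽¹⁰⁾ is perfect for every maximal subgroup H of a finite almost simple group cannot be lowered to 9: there exist a finite almost simple group G (with a non-abelian simple normal subgroup of trivial centralizer) and a maximal subgroup H of G whose ninth derived subgroup H⁽⁹⁾ is not perfect, i.e. H⁽¹⁰⁾ ≠ H⁽⁹⁾. (A solvable maximal subgroup of derived length 10 in the Fischer group Fi₂₃ is such an example.) -/
theorem result :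
    ∃ (G : Type) (_ : Group G) (_ : Finite G) (S H : Subgroup G), S.Normal ∧ IsSimpleGroup S ∧ ¬ IsMulCommutative S ∧
      Subgroup.centralizer (S : Set G) = ⊥ ∧ IsCoatom H ∧ derivedSeries H 10 ≠ derivedSeries H 9 := by
  obtain ⟨hs, hc⟩ := Cfsg.Agent.Lib.TC.D.Fi23Chain.Main.simple_card
  have hok := Cfsg.Agent.Lib.TC.D.Fi23a.Ok.ok
  obtain ⟨ι, hinj, hι⟩ := exists_model2 hok hs (c0 := 0) (i0 := 8) (by decide +kernel) (by decide +kernel) (by decide +kernel)
  let H : Subgroup (Equiv.Perm (Fin 31671)) := ι.range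
  let e : Cfsg.Spor.Fi23 ≃* H := MonoidHom.ofInjective hinj
  have hcard : Nat.card H = 4089470473293004800 := by
    rw [← hc]
    exact Nat.card_congr e.toEquiv.symm
  have hrpEP : ∀ c < 10, Rp (n := 31671) (OutP.Fi23.F (65 + c)) (hok.hG.EP c) := by
    intro c hc'
    have hpk : c < pt.k := by rw [hok.hPk]; exact hc'
    have hg : ∀ (p : Nat) (hp : p < 31671), pt.T c p = (hok.hG.EP c ⟨p, hp⟩ : Fin 31671) := by
      intro p hp
      have := hok.hG.EP_apply hpk ⟨p, hp⟩
      rw [this]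
    have hc2 : c = 0 ∨ c = 1 ∨ c = 2 ∨ c = 3 ∨ c = 4 ∨ c = 5 ∨ c = 6 ∨ c = 7 ∨ c = 8 ∨ c = 9 := by omega
    rcases hc2 with rfl | rfl | rfl | rfl | rfl | rfl | rfl | rfl | rfl | rfl
    · exact rp_tab hg tab_0
    · exact rp_tab hg tab_1
    · exact rp_tab hg tab_2
    · exact rp_tab hg tab_3
    · exact rp_tab hg tab_4
    · exact rp_tab hg tab_5
    · exact rp_tab hg tab_6
    · exact rp_tab hg tab_7
    · exact rp_tab hg tab_8
    · exact rp_tab hg tab_9
  have hX : ∀ g, 65 ≤ g → g < 75 → Has (n := 31671) OutP.Fi23.F H g := by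
    intro g h1 h2
    obtain ⟨c, rfl⟩ : ∃ c, g = 65 + c := ⟨g - 65, by omega⟩
    exact ⟨hok.hG.EP c, ⟨_, hι c (by show c < 10; omega)⟩, hrpEP c (by omega)⟩
  have hs' : IsSimpleGroup Cfsg.Spor.Fi23 := hs
  have hsH : IsSimpleGroup H := e.symm.isSimpleGroup
  obtain ⟨K, h1, h2, hnc⟩ := key_m hcard hX hsH
  refine ⟨↥H, H.toGroup, inferInstance, ⊤, K, inferInstance, ?_, ?_, ?_, h1, h2⟩
  · exact (Subgroup.topEquiv (G := H)).isSimpleGroup
  · intro hc2
    apply hnc
    intro a b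
    have := hc2.is_comm.comm (⟨a, trivial⟩ : (⊤ : Subgroup H)) ⟨b, trivial⟩
    exact congrArg Subtype.val this
  · rw [Subgroup.coe_top, Subgroup.centralizer_univ]
    rcases hsH.eq_bot_or_eq_top_of_normal (Subgroup.center H) inferInstance with h | h
    · exact h
    · exfalso
      apply hnc
      intro a b
      have : a ∈ Subgroup.center H := by rw [h]; trivial
      exact (Subgroup.mem_center_iff.1 this b).symm

end Cfsg.Agent.S5883
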