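import Cfsg.Statements.S5885
-- import your own Cfsg.Agent.* helpers here

set_option autoImplicit false
open Cfsg

namespace Cfsg.Agent.S5885

open scoped Pointwise
open MulAction in
/-- The core argument: `G` acts transitively on an odd set `Ω`, realising all 3-cycles. -/
theorem core {G Ω : Type*} [Group G] [MulAction G Ω] [Finite Ω] (hodd : Odd (Nat.card Ω))
    [IsPretransitive G Ω] (a : Ω)
    (h3 : ∀ x y z : Ω, x ≠ y → y ≠ z → x ≠ z → ∃ g : G, g • x = y ∧ g • y = z ∧ g • z = x ∧
      ∀ w, w ≠ x → w ≠ y → w ≠ z → g • w = w)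
    (H K L : Subgroup G)
    (hmax : ∀ U : Subgroup G, H ≤ U → U ≤ stabilizer G a → U = H ∨ U = stabilizer G a)
    (hK : IsCoatom K) (hKM : K ⊓ stabilizer G a = H) (hHL : H ≤ L) (hLK : L ≤ K) :
    L = H ∨ L = K := by
  classical
  by_contra hcon
  push Not at hcon
  obtain ⟨hLH, hLK'⟩ := hcon
  have hHK : H ≤ K := hHL.trans hLK
  -- point y
  obtain ⟨l, hlL, hlH⟩ : ∃ l ∈ L, l ∉ H := by
    by_contra h
    push Not at h
    exact hLH (le_antisymm h hHL)
  -- the key property
  have star : ∀ k ∈ K, ∀ l₁ ∈ L, ∀ l₂ ∈ L, k • (l₁ • a) = l₂ • a → k ∈ L := by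
    intro k hk l₁ hl₁ l₂ hl₂ h
    have h1 : l₂⁻¹ * k * l₁ ∈ H := by
      rw [← hKM]
      refine ⟨K.mul_mem (K.mul_mem (K.inv_mem (hLK hl₂)) hk) (hLK hl₁), ?_⟩
      change (l₂⁻¹ * k * l₁) • a = a
      rw [mul_smul, mul_smul, h, inv_smul_smul]
    have h2 : k = l₂ * (l₂⁻¹ * k * l₁) * l₁⁻¹ := by group
    rw [h2]
    exact L.mul_mem (L.mul_mem hl₂ (hHL h1)) (L.inv_mem hl₁)
  have star1 : ∀ k ∈ K, ∀ l₂ ∈ L, k • a = l₂ • a → k ∈ L := by
    intro k hk l₂ hl₂ h
    exact star k hk 1 L.one_mem l₂ hl₂ (by simpa using h)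
  set y : Ω := l • a with hy
  have hya : y ≠ a := by
    intro h
    apply hlH
    rw [← hKM]
    exact ⟨hLK hlL, h⟩
  -- orbit
  obtain ⟨k, hkK, hkL⟩ : ∃ k ∈ K, k ∉ L := by
    by_contra h
    push Not at h
    exact hLK' (le_antisymm hLK h)
  let B : Set Ω := {w | ∃ m ∈ L, m • a = w}
  have haB : a ∈ B := ⟨1, L.one_mem, by simp⟩
  have hyB : y ∈ B := ⟨l, hlL, rfl⟩
  have hLB : ∀ g ∈ L, ∀ w ∈ B, g • w ∈ B := by
    rintro g hg w ⟨m, hm, rfl⟩
    exact ⟨g * m, L.mul_mem hg hm, mul_smul _ _ _⟩
  set z : Ω := k • a with hz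
  have hzB : z ∉ B := by
    rintro ⟨m, hm, hmz⟩
    exact hkL (star1 k hkK m hm hmz.symm)
  set z' : Ω := k • y with hz'
  have hz'B : z' ∉ B := by
    rintro ⟨m, hm, hmz⟩
    exact hkL (star k hkK l hlL m hm hmz.symm)
  have hzz' : z ≠ z' := by
    intro h
    apply hya
    exact (smul_left_cancel k h).symm
  by_cases htrans : ∀ w, ∃ c ∈ K, c • a = w
  · -- K is transitive
    have hne : ∀ w, w ∉ B → w ≠ a := fun w hw h => hw (h ▸ haB)
    have hne' : ∀ w, w ∉ B → w ≠ y := fun w hw h => hw (h ▸ hyB)
    -- there is a point u outside B and k • B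
    obtain ⟨u, huB, huB'⟩ : ∃ u, u ∉ B ∧ k⁻¹ • u ∉ B := by
      by_contra hall
      push Not at hall
      -- B ∪ k • B = Ω, disjoint: even
      have hdisj : Disjoint B (k • B) := by
        rw [Set.disjoint_left]
        rintro w hw hw'
        rw [Set.mem_smul_set] at hw'
        obtain ⟨w', ⟨m', hm', rfl⟩, rfl⟩ := hw'
        obtain ⟨m, hm, hmm⟩ := hw
        exact hkL (star k hkK m' hm' m hm hmm.symm)
      have hun : B ∪ (k • B) = Set.univ := by
        ext w
        simp only [Set.mem_union, Set.mem_univ, iff_true]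
        by_cases hw : w ∈ B
        · exact Or.inl hw
        · right
          rw [Set.mem_smul_set_iff_inv_smul_mem]
          exact hall w hw
      have hcard : Nat.card Ω = 2 * B.ncard := by
        have h1 := Set.ncard_union_eq hdisj B.toFinite (k • B).toFinite
        rw [hun, Set.ncard_univ, Set.ncard_smul_set] at h1
        omega
      rw [hcard] at hodd
      exact (Nat.not_even_iff_odd.mpr hodd) (even_two_mul _)
    have huz : u ≠ z := by
      intro h
      apply huB'
      rw [h, hz, inv_smul_smul]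
      exact haB
    have huz' : u ≠ z' := by
      intro h
      apply huB'
      rw [h, hz', inv_smul_smul]
      exact hyB
    -- the setwise stabilizer of B in M
    let U : Subgroup G :=
      { carrier := {g | g • a = a ∧ ∀ w, w ∈ B ↔ g • w ∈ B}
        mul_mem' := by
          rintro g₁ g₂ ⟨h1, h1'⟩ ⟨h2, h2'⟩
          refine ⟨by rw [mul_smul, h2, h1], fun w => ?_⟩
          rw [mul_smul, ← h1', ← h2']
        one_mem' := by simp
        inv_mem' := by
          rintro g ⟨h1, h1'⟩
          refine ⟨by rw [inv_smul_eq_iff, h1], fun w => ?_⟩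
          rw [h1' (g⁻¹ • w), smul_inv_smul] }
    have hHU : H ≤ U := by
      intro g hg
      have hgM : g ∈ stabilizer G a := by
        rw [← hKM] at hg
        exact hg.2
      refine ⟨hgM, fun w => ⟨hLB g (hHL hg) w, fun hw => ?_⟩⟩
      have := hLB g⁻¹ (L.inv_mem (hHL hg)) _ hw
      simpa using this
    have hUM : U ≤ stabilizer G a := fun g hg => hg.1
    rcases hmax U hHU hUM with hU | hU
    · -- U = H
      obtain ⟨g, hg1, hg2, hg3, hg4⟩ := h3 z z' u hzz' huz'.symm huz.symm
      have hgfix : ∀ w ∈ B, g • w = w := by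
        intro w hw
        refine hg4 w ?_ ?_ ?_
        · rintro rfl; exact hzB hw
        · rintro rfl; exact hz'B hw
        · rintro rfl; exact huB hw
      have hgU : g ∈ U := by
        refine ⟨hgfix a haB, fun w => ⟨fun hw => ?_, fun hw => ?_⟩⟩
        · rw [hgfix w hw]; exact hw
        · by_contra hwB
          -- w ∉ B, so g • w ∈ B, then g • (g • w) = g • w gives w = g • w
          have := hgfix _ hw
          have h' : g • w = w := smul_left_cancel g this
          rw [h'] at hw
          exact hwB hw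
      rw [hU] at hgU
      have hgK : g ∈ K := hHK hgU
      have hconj : k⁻¹ * g * k ∈ L := by
        apply star1 _ (K.mul_mem (K.mul_mem (K.inv_mem hkK) hgK) hkK) l hlL
        rw [mul_smul, mul_smul, ← hz, hg1, hz', inv_smul_smul]
      have := hLB _ hconj y hyB
      rw [mul_smul, mul_smul, ← hz', hg2] at this
      exact huB' this
    · -- U = M
      -- use the 3-cycle (y z z')
      have hw1 : y ≠ z := (hne' z hzB).symm
      have hw2 : z ≠ z' := hzz'
      have hw3 : y ≠ z' := (hne' z' hz'B).symm
      obtain ⟨g, hg1, hg2, hg3, hg4⟩ := h3 y z z' hw1 hw2 hw3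
      have hgM : g ∈ stabilizer G a := by
        rw [mem_stabilizer_iff]
        exact hg4 a hya.symm (hne z hzB).symm (hne z' hz'B).symm
      rw [← hU] at hgM
      have := (hgM.2 y).mp hyB
      rw [hg1] at this
      exact hzB this
  · -- K is intransitive
    let Δ : Set Ω := {w | ∃ c ∈ K, c • a = w}
    let S : Subgroup G :=
      { carrier := {g | ∀ w, w ∈ Δ ↔ g • w ∈ Δ}
        mul_mem' := by
          intro g₁ g₂ h1 h2 w
          rw [mul_smul, ← h1, ← h2]
        one_mem' := by simp
        inv_mem' := by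
          intro g h1 w
          rw [h1 (g⁻¹ • w), smul_inv_smul] }
    have hKS : K ≤ S := by
      intro c hc w
      constructor
      · rintro ⟨d, hd, rfl⟩
        exact ⟨c * d, K.mul_mem hc hd, mul_smul _ _ _⟩
      · rintro ⟨d, hd, hdw⟩
        refine ⟨c⁻¹ * d, K.mul_mem (K.inv_mem hc) hd, ?_⟩
        rw [mul_smul, hdw, inv_smul_smul]
    have hStop : S ≠ ⊤ := by
      intro h
      push Not at htrans
      obtain ⟨w, hw⟩ := htrans
      obtain ⟨g, hg⟩ := MulAction.exists_smul_eq G a w
      have hgS : g ∈ S := by rw [h]; exact Subgroup.mem_top _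
      have haΔ : a ∈ Δ := ⟨1, K.one_mem, by simp⟩
      obtain ⟨c, hc, hcw⟩ := (hgS a).mp haΔ
      exact hw c hc (hcw.trans hg)
    have hKS' : K = S := by
      by_contra hne
      exact hStop (hK.2 S (lt_of_le_of_ne hKS hne))
    have hya' : a ≠ y := hya.symm
    have hyz : y ≠ z := fun h => hzB (h ▸ hyB)
    have haz : a ≠ z := fun h => hzB (h ▸ haB)
    obtain ⟨g, hg1, hg2, hg3, hg4⟩ := h3 a y z hya' hyz haz
    have hyΔ : y ∈ Δ := ⟨l, hLK hlL, rfl⟩
    have hzΔ : z ∈ Δ := ⟨k, hkK, rfl⟩
    have haΔ : a ∈ Δ := ⟨1, K.one_mem, by simp⟩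
    have hgS : g ∈ S := by
      intro w
      by_cases h1 : w = a
      · subst h1; rw [hg1]; exact ⟨fun _ => hyΔ, fun _ => haΔ⟩
      by_cases h2 : w = y
      · rw [h2, hg2]; exact ⟨fun _ => hzΔ, fun _ => hyΔ⟩
      by_cases h3' : w = z
      · rw [h3', hg3]; exact ⟨fun _ => haΔ, fun _ => hzΔ⟩
      rw [hg4 w h1 h2 h3']
    rw [← hKS'] at hgS
    have hgL : g ∈ L := star1 g hgS l hlL hg1
    have := hLB g hgL y hyB
    rw [hg2] at this
    exact hzB this


/-- Let n be an odd positive integer such that every primitive permutation group of degree n contains the alternating group (so the symmetric and alternating groups are the only primitive groups of degree n). Let G be a finite group, M a maximal subgroup of G of index n, and H a maximal subgroup of M. Then H is a second maximal subgroup of G: H is maximal in every maximal subgroup K of G containing H. -/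
theorem result {G : Type*} [Group G]
    [Finite G] (n : ℕ) (hodd : Odd n)
    (hA : ∀ P : Subgroup (Equiv.Perm (Fin n)), MulAction.IsPreprimitive P (Fin n) → alternatingGroup (Fin n) ≤ P)
    (M : Subgroup G) (hM : IsCoatom M) (hn : M.index = n) (H : Subgroup G) (hHM : H ≤ M)
    (hmax : IsCoatom (H.subgroupOf M)) (K : Subgroup G) (hK : IsCoatom K) (hHK : H ≤ K) :
    IsCoatom (H.subgroupOf K) := by
    classical
  -- K = M is trivial
  by_cases hKMeq : K = M
  · subst hKMeq
    exact hmax
  -- Ω := G ⧸ M
  let Ω := G ⧸ M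
  let a : Ω := ((1 : G) : G ⧸ M)
  have hstab : MulAction.stabilizer G a = M := by
    have := MulAction.stabilizer_quotient M
    exact this
  have hcard : Nat.card Ω = n := by
    rw [← hn, Subgroup.index]
  obtain ⟨e⟩ : Nonempty (Ω ≃ Fin n) := by
    have : Finite Ω := inferInstance
    rw [← hcard]
    exact ⟨Finite.equivFin Ω⟩
  -- the permutation representation on Fin n
  let φ : G →* Equiv.Perm (Fin n) :=
    (Equiv.permCongrHom e).toMonoidHom.comp (MulAction.toPermHom G Ω)
  have hφ : ∀ g x, φ g (e x) = e (g • x) := by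
    intro g x
    simp [φ, Equiv.permCongrHom, Equiv.permCongr_apply]
  have hNt : Nontrivial Ω := by
    -- M is not the whole group
    rw [← hstab] at hM
    by_contra hnt
    rw [not_nontrivial_iff_subsingleton] at hnt
    apply hM.1
    rw [eq_top_iff]
    intro g _
    rw [MulAction.mem_stabilizer_iff]
    exact Subsingleton.elim _ _
  have hprimG : MulAction.IsPreprimitive G Ω := by
    rw [← MulAction.isCoatom_stabilizer_iff_preprimitive G a, hstab]
    exact hM
  have hprimP : MulAction.IsPreprimitive φ.range (Fin n) := by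
    let f : Ω →ₑ[φ.rangeRestrict] (Fin n) :=
      { toFun := e
        map_smul' := by
          intro g x
          exact (hφ g x).symm }
    exact MulAction.IsPreprimitive.of_surjective (f := f) e.surjective
  have hAlt := hA φ.range hprimP
  -- three cycles are realised
  have h3 : ∀ x y z : Ω, x ≠ y → y ≠ z → x ≠ z → ∃ g : G, g • x = y ∧ g • y = z ∧ g • z = x ∧
      ∀ w, w ≠ x → w ≠ y → w ≠ z → g • w = w := by
    intro x y z hxy hyz hxz
    have hx' : e x ≠ e y := fun h => hxy (e.injective h)
    have hy' : e y ≠ e z := fun h => hyz (e.injective h)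
    have hz' : e x ≠ e z := fun h => hxz (e.injective h)
    -- the cycle x → y → z → x
    let c : Equiv.Perm (Fin n) := Equiv.swap (e x) (e y) * Equiv.swap (e y) (e z)
    have hc : c ∈ alternatingGroup (Fin n) := by
      rw [Equiv.Perm.mem_alternatingGroup, Equiv.Perm.sign_mul,
        Equiv.Perm.sign_swap hx', Equiv.Perm.sign_swap hy']
      rfl
    obtain ⟨g, hg⟩ := hAlt hc
    have hgc : ∀ w, e (g • w) = c (e w) := by
      intro w
      rw [← hφ, hg]
    refine ⟨g, e.injective ?_, e.injective ?_, e.injective ?_, fun w h1 h2 h3 => e.injective ?_⟩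
    · rw [hgc]
      simp only [c, Equiv.Perm.mul_apply]
      rw [Equiv.swap_apply_of_ne_of_ne hx' hz', Equiv.swap_apply_left]
    · rw [hgc]
      simp only [c, Equiv.Perm.mul_apply]
      rw [Equiv.swap_apply_left, Equiv.swap_apply_of_ne_of_ne (Ne.symm hz') (Ne.symm hy')]
    · rw [hgc]
      simp only [c, Equiv.Perm.mul_apply]
      rw [Equiv.swap_apply_right, Equiv.swap_apply_right]
    · rw [hgc]
      simp only [c, Equiv.Perm.mul_apply]
      have h2' : e w ≠ e y := fun h => h2 (e.injective h)
      have h3' : e w ≠ e z := fun h => h3 (e.injective h)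
      have h1' : e w ≠ e x := fun h => h1 (e.injective h)
      rw [Equiv.swap_apply_of_ne_of_ne h2' h3', Equiv.swap_apply_of_ne_of_ne h1' h2']
  have hodd' : Odd (Nat.card Ω) := by rw [hcard]; exact hodd
  -- maximality of H in M, restated
  have hmax' : ∀ U : Subgroup G, H ≤ U → U ≤ MulAction.stabilizer G a →
      U = H ∨ U = MulAction.stabilizer G a := by
    intro U hHU hUM
    rw [hstab] at hUM ⊢
    by_cases hUH : U = H
    · exact Or.inl hUH
    right
    have hlt : H.subgroupOf M < U.subgroupOf M := by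
      refine lt_of_le_of_ne (fun x hx => Subgroup.mem_subgroupOf.mpr (hHU (Subgroup.mem_subgroupOf.mp hx))) ?_
      intro h
      apply hUH
      have h' := congrArg (Subgroup.map M.subtype) h
      rw [Subgroup.map_subgroupOf_eq_of_le hHM, Subgroup.map_subgroupOf_eq_of_le hUM] at h'
      exact h'.symm
    have := hmax.2 _ hlt
    exact le_antisymm hUM (Subgroup.subgroupOf_eq_top.mp this)
  have hKM : K ⊓ MulAction.stabilizer G a = H := by
    rw [hstab]
    have h1 : H ≤ K ⊓ M := le_inf hHK hHM
    rcases hmax' (K ⊓ M) h1 (by rw [hstab]; exact inf_le_right) with h | h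
    · exact h
    · exfalso
      rw [hstab] at h
      have hMK : M ≤ K := inf_eq_right.mp h
      have : M = K := by
        by_contra hne
        exact hK.1 (hM.2 K (lt_of_le_of_ne hMK hne))
      exact hKMeq this.symm
  have hKM' : K ⊓ M = H := by rw [← hKM, hstab]
  -- now conclude
  constructor
  · -- H ≠ K
    intro htop
    have hKH : K ≤ H := Subgroup.subgroupOf_eq_top.mp htop
    have hKM2 : K ≤ M := hKH.trans hHM
    have : K = M := by
      by_contra hne
      exact hM.1 (hK.2 M (lt_of_le_of_ne hKM2 hne))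
    exact hKMeq this
  · intro L' hL'
    let L : Subgroup G := L'.map K.subtype
    have hLK : L ≤ K := by
      rintro _ ⟨x, _, rfl⟩
      exact x.2
    have hHL : H ≤ L := by
      intro h hh
      refine ⟨⟨h, hHK hh⟩, ?_, rfl⟩
      exact hL'.le (by simpa [Subgroup.mem_subgroupOf] using hh)
    rcases core hodd' a h3 H K L hmax' hK hKM hHL hLK with h | h
    · exfalso
      apply hL'.ne
      ext x
      constructor
      · intro hx
        exact hL'.le hx
      · intro hx
        have : (x : G) ∈ L := ⟨x, hx, rfl⟩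
        rw [h] at this
        simpa [Subgroup.mem_subgroupOf] using this
    · rw [eq_top_iff]
      intro x _
      have : (x : G) ∈ L := by rw [h]; exact x.2
      obtain ⟨y, hy, hyx⟩ := this
      have : y = x := Subtype.ext hyx
      rwa [← this]

end Cfsg.Agent.S5885
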