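import Cfsg.Statements.S5894
import Cfsg.Agent.Lib.PermWreath.Basic

set_option autoImplicit false
open Cfsg

namespace Cfsg.Agent.S5894

open scoped Pointwise
open Equiv Cfsg.Agent.Lib.PermWreath.Basic

theorem coatom_transport {P G : Type*} [Group P] [Group G] (ι : P →* G)
    (hι : Function.Injective ι) (M : Subgroup G) (hM : ι.range = M) (T : Subgroup P)
    (hT : IsCoatom T) : IsCoatom ((T.map ι).subgroupOf M) := by
  have hrange : ∀ t, ι t ∈ M := fun t => by rw [← hM]; exact ⟨t, rfl⟩
  have hmemT : ∀ t, ι t ∈ T.map ι → t ∈ T := by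
    rintro t ⟨u, hu, huι⟩
    rwa [← hι huι]
  refine ⟨?_, fun L hL => ?_⟩
  · intro htop
    apply hT.1
    rw [eq_top_iff]
    intro t _
    apply hmemT
    have h1 : (⟨ι t, hrange t⟩ : M) ∈ (T.map ι).subgroupOf M := by rw [htop]; trivial
    exact h1
  · let L' : Subgroup P := (L.map M.subtype).comap ι
    have hTL' : T < L' := by
      refine lt_of_le_of_ne ?_ ?_
      · intro t ht
        refine ⟨⟨ι t, hrange t⟩, hL.le ?_, rfl⟩
        exact ⟨t, ht, rfl⟩
      · intro hEq
        obtain ⟨y, hyL, hy⟩ := SetLike.exists_of_lt hL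
        have hyM : (y : G) ∈ ι.range := by rw [hM]; exact y.2
        obtain ⟨u, hu⟩ := hyM
        have huL' : u ∈ L' := by
          change ι u ∈ L.map M.subtype
          rw [hu]
          exact ⟨y, hyL, rfl⟩
        rw [← hEq] at huL'
        apply hy
        change (y : G) ∈ T.map ι
        exact ⟨u, huL', hu⟩
    have htop := hT.2 L' hTL'
    rw [eq_top_iff]
    intro y _
    have hyM : (y : G) ∈ ι.range := by rw [hM]; exact y.2
    obtain ⟨u, hu⟩ := hyM
    have huL' : u ∈ L' := by rw [htop]; trivial
    obtain ⟨z, hz, hzu⟩ := huL'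
    have : z = y := Subtype.ext (hzu.trans hu)
    rwa [← this]


/-- For every m ≥ 2 the symmetric group on 2m letters has a maximal subgroup M of index 2m together with a maximal subgroup H of M that is not second maximal: some maximal subgroup K of the symmetric group contains H without H being maximal in K. (One may take M the stabiliser of a letter, H ≅ S_m × S_{m−1} inside it, and K ≅ S_m ≀ S₂ the stabiliser of a partition into two m-sets, with H < S_m × S_m < K.) So the prime-index hypothesis in the second-maximality criterion cannot be relaxed to any even index ≥ 4. -/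
theorem result (m : ℕ) (hm : 2 ≤ m) :
    ∃ M H K : Subgroup (Equiv.Perm (Fin (2 * m))), IsCoatom M ∧ M.index = 2 * m ∧ H ≤ M ∧ IsCoatom (H.subgroupOf M) ∧
      IsCoatom K ∧ H ≤ K ∧ ¬ IsCoatom (H.subgroupOf K) := by
  classical
  let e : Fin (2 * m) ≃ Fin 2 × Fin m := finProdFinEquiv.symm
  let f : Fin (2 * m) → Fin 2 := fun x => (e x).1
  have hf : ∀ i : Fin 2, Nat.card {x : Fin (2 * m) // f x = i} = m := by
    intro i
    have : {x : Fin (2 * m) // f x = i} ≃ Fin m :=
      { toFun := fun x => (e x.1).2
        invFun := fun j => ⟨e.symm (i, j), by simp [f]⟩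
        left_inv := by
          rintro ⟨x, hx⟩
          apply Subtype.ext
          apply e.injective
          simp only [Equiv.apply_symm_apply]
          exact Prod.ext hx.symm rfl
        right_inv := by
          intro j
          simp }
    rw [Nat.card_congr this, Nat.card_fin]
  have he : ∀ x, (e x).1 = f x := fun _ => rfl
  let j0 : Fin m := ⟨0, by omega⟩
  let j1 : Fin m := ⟨1, by omega⟩
  have hj : j0 ≠ j1 := by simp [j0, j1, Fin.ext_iff]
  let a : Fin (2 * m) := e.symm (0, j0)
  let b : Fin (2 * m) := e.symm (0, j1)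
  let c : Fin (2 * m) := e.symm (1, j0)
  have hfa : f a = 0 := by simp [f, a]
  have hfb : f b = 0 := by simp [f, b]
  have hfc : f c = 1 := by simp [f, c]
  have hab : b ≠ a := by
    intro h
    apply hj
    have := e.symm.injective h
    simpa using this.symm
  have hac : c ≠ a := fun h => by
    have : f c = f a := by rw [h]
    rw [hfa, hfc] at this
    exact absurd this (by decide)
  have hcardΩ : Nat.card (Fin (2 * m)) = 2 * m := Nat.card_fin _
  -- M
  let M : Subgroup (Perm (Fin (2 * m))) := MulAction.stabilizer _ a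
  have hM : IsCoatom M := by
    have : M = MulAction.stabilizer (Perm (Fin (2 * m))) ({a} : Set (Fin (2 * m))) :=
      (MulAction.stabilizer_singleton a).symm
    rw [this]
    apply Equiv.Perm.isCoatom_stabilizer (Set.singleton_nonempty a) ⟨b, by simpa using hab⟩
    rw [hcardΩ, Set.ncard_singleton]
    omega
  have hindex : M.index = 2 * m := by
    rw [MulAction.index_stabilizer, MulAction.orbit_eq_univ, Set.ncard_univ, hcardΩ]
  -- T and H
  let p : Fin (2 * m) → Prop := fun x => x ≠ a
  let ι : Perm (Subtype p) →* Perm (Fin (2 * m)) := Equiv.Perm.ofSubtype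
  have hιinj : Function.Injective ι := Equiv.Perm.ofSubtype_injective
  have hιrange : ι.range = M := by
    ext g
    rw [Equiv.Perm.mem_range_ofSubtype_iff]
    constructor
    · intro h
      have : a ∉ g.support := fun ha => h ha rfl
      exact Equiv.Perm.notMem_support.mp this
    · intro h x hx hxa
      apply Equiv.Perm.mem_support.mp hx
      rw [hxa]
      exact h
  let S' : Set (Subtype p) := {x | f x.1 = 0}
  let T : Subgroup (Perm (Subtype p)) := MulAction.stabilizer _ S'
  have hT : IsCoatom T := by
    apply Equiv.Perm.isCoatom_stabilizer (s := S') ⟨⟨b, hab⟩, hfb⟩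
    · refine ⟨⟨c, hac⟩, ?_⟩
      change ¬ (f c = 0)
      rw [hfc]
      decide
    · have hc : Nat.card (Subtype p) + 1 = 2 * m := by
        have h1 := Fintype.card_subtype_compl (fun x => x = a)
        rw [Fintype.card_subtype_eq, Fintype.card_fin] at h1
        rw [Nat.card_eq_fintype_card]
        have h2 : Fintype.card (Subtype p) = Fintype.card {x // ¬ x = a} := rfl
        omega
      omega
  let H : Subgroup (Perm (Fin (2 * m))) := T.map ι
  have hHM : H ≤ M := by
    rintro _ ⟨t, _, rfl⟩
    rw [← hιrange]
    exact ⟨t, rfl⟩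
  have hHmax : IsCoatom (H.subgroupOf M) := coatom_transport ι hιinj M hιrange T hT
  -- K
  let K : Subgroup (Perm (Fin (2 * m))) := pstab f
  have hK : IsCoatom K := isCoatom_pstab (a := m) f hm (le_refl 2) hf
  -- J
  let J : Subgroup (Perm (Fin (2 * m))) :=
    { carrier := {g | ∀ x, f x = 0 ↔ f (g x) = 0}
      mul_mem' := by
        intro g₁ g₂ h1 h2 x
        rw [h2 x, h1 (g₂ x)]
        rfl
      one_mem' := by
        intro x
        rfl
      inv_mem' := by
        intro g h x
        rw [h (g⁻¹ x)]
        simp }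
  have hfin2 : ∀ u v : Fin 2, (u = 0 ↔ v = 0) ↔ u = v := by decide
  have hJK : J ≤ K := by
    intro g hg x y
    rw [← hfin2, ← hfin2 (f (g x)), ← hg x, ← hg y]
  have hHJ : H ≤ J := by
    rintro _ ⟨t, ht, rfl⟩ x
    by_cases hx : x = a
    · subst hx
      have : ι t a = a := Equiv.Perm.ofSubtype_apply_of_not_mem t (by simp [p])
      rw [this]
    · have h1 : ι t x = (t ⟨x, hx⟩ : Fin (2 * m)) := Equiv.Perm.ofSubtype_apply_of_mem t hx
      rw [h1]
      have h2 : t • S' = S' := ht
      have h3 : (⟨x, hx⟩ : Subtype p) ∈ S' ↔ t ⟨x, hx⟩ ∈ S' := by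
        constructor
        · intro h
          have : t ⟨x, hx⟩ ∈ t • S' := Set.smul_mem_smul_set h
          rwa [h2] at this
        · intro h
          rw [← h2] at h
          rw [Set.mem_smul_set_iff_inv_smul_mem] at h
          simpa using h
      exact h3
  have hHJne : H < J := by
    refine lt_of_le_of_ne hHJ ?_
    intro hEq
    have hs : swap a b ∈ J := by
      intro x
      by_cases h1 : x = a
      · subst h1; simp [hfb, hfa]
      by_cases h2 : x = b
      · subst h2; simp [hfb, hfa]
      rw [swap_apply_of_ne_of_ne h1 h2]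
    rw [← hEq] at hs
    have h3 := hHM hs
    have h4 : swap a b a = a := h3
    rw [swap_apply_left] at h4
    exact hab h4
  have hJKne : J < K := by
    refine lt_of_le_of_ne hJK ?_
    intro hEq
    have hs : blockPerm e (swap 0 1) ∈ K := blockPerm_mem he _
    rw [← hEq] at hs
    have h1 := (hs a).mp hfa
    rw [blockPerm_fst he, hfa] at h1
    simp at h1
  refine ⟨M, H, K, hM, hindex, hHM, hHmax, hK, hHJ.trans hJK, ?_⟩
  intro hco
  have hlt : H.subgroupOf K < J.subgroupOf K := by
    refine lt_of_le_of_ne (fun x hx => hHJ hx) ?_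
    intro hEq
    apply hHJne.ne
    apply le_antisymm hHJ
    intro x hx
    have h1 : (⟨x, hJK hx⟩ : K) ∈ J.subgroupOf K := hx
    rw [← hEq] at h1
    exact h1
  have htop := hco.2 _ hlt
  have hKJ : K ≤ J := Subgroup.subgroupOf_eq_top.mp htop
  exact hJKne.not_ge hKJ

end Cfsg.Agent.S5894
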