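import Cfsg.Statements.S5902
import Cfsg.Agent.S5901

set_option autoImplicit false
open Cfsg

namespace Cfsg.Agent.S5902

/-- A subgroup not inside `M` has a lattice complement. -/
theorem compl_of_not_le {G : Type*} [Group G] [Finite G] (X M : Subgroup G)
    (hK : ComplementedLattice (Subgroup X))
    (hM : IsCoatom M) (hXM : X ≤ M) (huniq : ∀ M' : Subgroup G, IsCoatom M' → X ≤ M' → M' = M)
    (H : Subgroup G) (hH : ¬ H ≤ M) : ∃ C : Subgroup G, H ⊔ C = ⊤ ∧ H ⊓ C = ⊥ := by
  classical
  have hX : X ≠ ⊤ := by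
    intro h
    rw [h] at hXM
    exact hM.1 (top_le_iff.mp hXM)
  refine Cfsg.Agent.S5901.result ⊥ X M bot_le hX ?_ hM hXM huniq H hH (inf_bot_eq _)
  intro Y _ hYX
  obtain ⟨C', hC'⟩ := hK.exists_isCompl (Y.subgroupOf X)
  refine ⟨C'.map X.subtype, bot_le, ?_, ?_, ?_⟩
  · rintro _ ⟨x, _, rfl⟩
    exact x.2
  · have h := congrArg (Subgroup.map X.subtype) hC'.sup_eq_top
    rw [Subgroup.map_sup, Subgroup.map_subgroupOf_eq_of_le hYX] at h
    rw [h]
    ext x
    simp
  · have h := congrArg (Subgroup.map X.subtype) hC'.inf_eq_bot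
    rw [Subgroup.map_inf _ _ _ X.subtype_injective, Subgroup.map_subgroupOf_eq_of_le hYX] at h
    rw [h]
    simp


/-- Let G be a finite group, X a subgroup whose own subgroup lattice is complemented, and suppose X lies in exactly one maximal subgroup M of G. Then every subgroup H of G not contained in the normal core of M has a complement in the subgroup lattice of G (some C with H ⊔ C = G and H ⊓ C = 1); in particular the subgroup lattice of G modulo the normal core of M is complemented. -/
theorem result {G : Type*} [Group G] [Finite G] (X M : Subgroup G)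
    (hK : ComplementedLattice (Subgroup X))
    (hM : IsCoatom M) (hXM : X ≤ M) (huniq : ∀ M' : Subgroup G, IsCoatom M' → X ≤ M' → M' = M) :
    (∀ H : Subgroup G, ¬ H ≤ M.normalCore → ∃ C : Subgroup G, H ⊔ C = ⊤ ∧ H ⊓ C = ⊥) ∧
    ComplementedLattice (Subgroup (G ⧸ M.normalCore)) := by
    classical
  have hA := compl_of_not_le X M hK hM hXM huniq
  have h1 : ∀ H : Subgroup G, ¬ H ≤ M.normalCore → ∃ C : Subgroup G, H ⊔ C = ⊤ ∧ H ⊓ C = ⊥ := by
    intro H hH
    obtain ⟨x, hxH, hx⟩ := SetLike.not_le_iff_exists.mp hH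
    obtain ⟨b, hb⟩ : ∃ b : G, b * x * b⁻¹ ∉ M := by
      by_contra hall
      push Not at hall
      exact hx hall
    let c : G ≃* G := MulAut.conj b
    have hH' : ¬ H.map c.toMonoidHom ≤ M := by
      intro hle
      exact hb (hle ⟨x, hxH, rfl⟩)
    obtain ⟨C', h1', h2'⟩ := hA _ hH'
    refine ⟨C'.map c.symm.toMonoidHom, ?_, ?_⟩
    · have h := congrArg (Subgroup.map c.symm.toMonoidHom) h1'
      rw [Subgroup.map_sup, Subgroup.map_map] at h
      have e : c.symm.toMonoidHom.comp c.toMonoidHom = MonoidHom.id G := by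
        ext y; simp
      rw [e, Subgroup.map_id] at h
      rw [h]
      exact Subgroup.map_top_of_surjective _ c.symm.surjective
    · have h := congrArg (Subgroup.map c.symm.toMonoidHom) h2'
      rw [Subgroup.map_inf _ _ _ c.symm.injective, Subgroup.map_map] at h
      have e : c.symm.toMonoidHom.comp c.toMonoidHom = MonoidHom.id G := by
        ext y; simp
      rw [e, Subgroup.map_id] at h
      rw [h]
      simp
  refine ⟨h1, ⟨fun A => ?_⟩⟩
  by_cases hAbot : A = ⊥
  · exact ⟨⊤, by subst hAbot; exact isCompl_bot_top⟩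
  have hnotle : ¬ A.comap (QuotientGroup.mk' M.normalCore) ≤ M.normalCore := by
    intro hle
    apply hAbot
    rw [eq_bot_iff]
    intro x hx
    obtain ⟨g, rfl⟩ := QuotientGroup.mk'_surjective M.normalCore x
    have : g ∈ M.normalCore := hle hx
    rw [Subgroup.mem_bot]
    exact (QuotientGroup.eq_one_iff g).mpr this
  obtain ⟨C, hC1, hC2⟩ := h1 _ hnotle
  refine ⟨C.map (QuotientGroup.mk' M.normalCore), ?_, ?_⟩
  · -- disjoint
    rw [disjoint_iff, eq_bot_iff]
    rintro x ⟨hxA, c, hc, rfl⟩
    have hcH : c ∈ A.comap (QuotientGroup.mk' M.normalCore) := hxA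
    have : c ∈ (A.comap (QuotientGroup.mk' M.normalCore)) ⊓ C := ⟨hcH, hc⟩
    rw [hC2] at this
    rw [Subgroup.mem_bot] at this ⊢
    simp [this]
  · -- codisjoint
    rw [codisjoint_iff]
    have h := congrArg (Subgroup.map (QuotientGroup.mk' M.normalCore)) hC1
    rw [Subgroup.map_sup, Subgroup.map_comap_eq_self_of_surjective (QuotientGroup.mk'_surjective _),
      Subgroup.map_top_of_surjective _ (QuotientGroup.mk'_surjective _)] at h
    exact h

end Cfsg.Agent.S5902
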