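import Cfsg.Statements.S5903
import Cfsg.Agent.S5901

set_option autoImplicit false
open Cfsg

namespace Cfsg.Agent.S5903

/-- Let G be a finite simple group, X a subgroup lying in exactly one maximal subgroup M of G, and N a subgroup of prime order with N ≤ X that is central in M. If the subgroup lattice of X/N is complemented, then the subgroup lattice of G is complemented. -/
theorem result {G : Type*} [Group G] [Finite G] [IsSimpleGroup G] (X M N : Subgroup G)
    (hM : IsCoatom M) (hXM : X ≤ M) (huniq : ∀ M' : Subgroup G, IsCoatom M' → X ≤ M' → M' = M)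
    (hNX : N ≤ X) (hN : (Nat.card N).Prime) (hcen : ∀ n ∈ N, ∀ m ∈ M, m * n = n * m)
    [(N.subgroupOf X).Normal] (hK : ComplementedLattice (Subgroup (X ⧸ N.subgroupOf X))) :
    ComplementedLattice (Subgroup G) := by
    classical
  have hX : X ≠ ⊤ := by
    intro h
    rw [h] at hXM
    exact hM.1 (top_le_iff.mp hXM)
  -- the interval [N, X] is complemented
  have hint : ∀ Y : Subgroup G, N ≤ Y → Y ≤ X →
      ∃ C : Subgroup G, N ≤ C ∧ C ≤ X ∧ Y ⊔ C = X ∧ Y ⊓ C = N := by
    intro Y hNY hYX
    let π := QuotientGroup.mk' (N.subgroupOf X)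
    have hker : π.ker = N.subgroupOf X := QuotientGroup.ker_mk' _
    have hπ : Function.Surjective π := QuotientGroup.mk'_surjective _
    have hkerY : π.ker ≤ Y.subgroupOf X := by
      rw [hker]
      intro x hx
      exact hNY hx
    obtain ⟨Cb, hCb⟩ := hK.exists_isCompl ((Y.subgroupOf X).map π)
    let C' : Subgroup X := Cb.comap π
    have hC'1 : Y.subgroupOf X ⊔ C' = ⊤ := by
      have h := Subgroup.comap_sup_eq π ((Y.subgroupOf X).map π) Cb hπ
      rw [Subgroup.comap_map_eq_self hkerY, hCb.sup_eq_top, Subgroup.comap_top] at h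
      exact h
    have hC'2 : Y.subgroupOf X ⊓ C' = N.subgroupOf X := by
      have h : (Y.subgroupOf X ⊓ C') = ((Y.subgroupOf X).map π ⊓ Cb).comap π := by
        rw [Subgroup.comap_inf, Subgroup.comap_map_eq_self hkerY]
      rw [h, hCb.inf_eq_bot]
      change (⊥ : Subgroup (X ⧸ N.subgroupOf X)).comap π = _
      rw [MonoidHom.comap_bot, hker]
    refine ⟨C'.map X.subtype, ?_, ?_, ?_, ?_⟩
    · intro n hn
      refine ⟨⟨n, hNX hn⟩, ?_, rfl⟩
      change π ⟨n, hNX hn⟩ ∈ Cb
      have : π ⟨n, hNX hn⟩ = 1 := by
        rw [← MonoidHom.mem_ker, hker]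
        exact hn
      rw [this]
      exact Cb.one_mem
    · rintro _ ⟨x, _, rfl⟩
      exact x.2
    · have h := congrArg (Subgroup.map X.subtype) hC'1
      rw [Subgroup.map_sup, Subgroup.map_subgroupOf_eq_of_le hYX] at h
      rw [h]
      ext x
      simp
    · have h := congrArg (Subgroup.map X.subtype) hC'2
      rw [Subgroup.map_inf _ _ _ X.subtype_injective, Subgroup.map_subgroupOf_eq_of_le hYX,
        Subgroup.map_subgroupOf_eq_of_le hNX] at h
      exact h
  -- N is nontrivial
  have hNbot : N ≠ ⊥ := by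
    intro h
    rw [h] at hN
    simp only [Subgroup.card_bot] at hN
    exact Nat.not_prime_one hN
  -- the conjugates
  let Nc : G → Subgroup G := fun g => N.map (MulAut.conj g).toMonoidHom
  let Mc : G → Subgroup G := fun g => M.map (MulAut.conj g).toMonoidHom
  have hNc_bot : ∀ g, Nc g ≠ ⊥ := by
    intro g h
    apply hNbot
    rw [eq_bot_iff]
    intro n hn
    have : (MulAut.conj g).toMonoidHom n ∈ Nc g := ⟨n, hn, rfl⟩
    rw [h, Subgroup.mem_bot] at this
    have h' : (MulAut.conj g) n = 1 := this
    rw [Subgroup.mem_bot]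
    simpa using h'
  -- the core of M is trivial
  have hcore : M.normalCore = ⊥ := by
    rcases IsSimpleGroup.eq_bot_or_eq_top_of_normal M.normalCore inferInstance with h | h
    · exact h
    · exfalso
      apply hM.1
      rw [eq_top_iff, ← h]
      exact Subgroup.normalCore_le _
  -- the key existence
  have hexists : ∀ H : Subgroup G, H ≠ ⊥ → H ≠ ⊤ → ∃ g, ¬ H ≤ Mc g ∧ ¬ Nc g ≤ H := by
    intro H hbot htop
    by_contra hall
    push Not at hall
    -- A : join of the conjugates of N inside H
    let A : Subgroup G := ⨆ g : {g : G // Nc g ≤ H}, Nc g.1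
    have hAH : A ≤ H := iSup_le (fun g => g.2)
    let D : Subgroup G := A ⊔ Subgroup.centralizer (A : Set G)
    have hNcD : ∀ g, Nc g ≤ D := by
      intro g
      by_cases hg : Nc g ≤ H
      · exact (le_iSup (fun g : {g : G // Nc g ≤ H} => Nc g.1) ⟨g, hg⟩).trans le_sup_left
      · have hHM : H ≤ Mc g := by
          by_contra hne
          exact hg (hall g hne)
        refine le_trans ?_ le_sup_right
        rintro _ ⟨n, hn, rfl⟩
        rw [Subgroup.mem_centralizer_iff]
        intro a ha
        obtain ⟨m, hm, hma⟩ := hHM (hAH ha)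
        have hmn := hcen n hn m hm
        rw [← hma]
        simp only [MulEquiv.coe_toMonoidHom, MulAut.conj_apply]
        have : g * m * g⁻¹ * (g * n * g⁻¹) = g * (m * n) * g⁻¹ := by group
        rw [this, hmn]
        group
    have hDtop : D = ⊤ := by
      have hcl : Subgroup.normalClosure (N : Set G) ≤ D := by
        unfold Subgroup.normalClosure
        rw [Subgroup.closure_le]
        intro x hx
        rw [Group.mem_conjugatesOfSet_iff] at hx
        obtain ⟨n, hn, hnx⟩ := hx
        obtain ⟨c, hc⟩ := isConj_iff.mp hnx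
        apply hNcD c
        exact ⟨n, hn, by simpa using hc⟩
      rcases IsSimpleGroup.eq_bot_or_eq_top_of_normal (Subgroup.normalClosure (N : Set G)) inferInstance with h | h
      · exfalso
        apply hNbot
        rw [eq_bot_iff, ← h]
        exact Subgroup.le_normalClosure
      · rw [h] at hcl
        exact top_le_iff.mp hcl
    have hAnormal : A.Normal := by
      rw [← Subgroup.normalizer_eq_top_iff, eq_top_iff, ← hDtop]
      refine sup_le Subgroup.le_normalizer ?_
      exact Subgroup.centralizer_le_normalizer _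
    rcases IsSimpleGroup.eq_bot_or_eq_top_of_normal A hAnormal with h | h
    · -- A trivial
      have hHM : ∀ g, H ≤ Mc g := by
        intro g
        by_contra hne
        have h1 : Nc g ≤ H := hall g hne
        have h2 : Nc g ≤ A := le_iSup (fun g : {g : G // Nc g ≤ H} => Nc g.1) ⟨g, h1⟩
        rw [h] at h2
        exact hNc_bot g (le_bot_iff.mp h2)
      apply hbot
      rw [eq_bot_iff, ← hcore]
      intro x hx b
      obtain ⟨m, hm, hmx⟩ := hHM b⁻¹ hx
      have : m = b * x * b⁻¹ := by
        rw [← hmx]
        simp [mul_assoc]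
      rw [← this]
      exact hm
    · apply htop
      rw [eq_top_iff, ← h]
      exact hAH
  refine ⟨fun H => ?_⟩
  by_cases hbot : H = ⊥
  · exact ⟨⊤, by subst hbot; exact isCompl_bot_top⟩
  by_cases htop : H = ⊤
  · exact ⟨⊥, by subst htop; exact isCompl_top_bot⟩
  obtain ⟨g, hg1, hg2⟩ := hexists H hbot htop
  let c : G ≃* G := MulAut.conj g
  let H' : Subgroup G := H.map c.symm.toMonoidHom
  have hH'M : ¬ H' ≤ M := by
    intro hle
    apply hg1
    intro h hh
    have h1 : c.symm h ∈ M := hle ⟨h, hh, rfl⟩
    refine ⟨c.symm h, h1, ?_⟩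
    change c (c.symm h) = h
    simp
  have hH'N : H' ⊓ N = ⊥ := by
    haveI : Fact (Nat.card N).Prime := ⟨hN⟩
    rcases Subgroup.eq_bot_or_eq_top_of_prime_card (H'.subgroupOf N) with h | h
    · rw [eq_bot_iff]
      rintro x ⟨hx1, hx2⟩
      have : (⟨x, hx2⟩ : N) ∈ H'.subgroupOf N := hx1
      rw [h, Subgroup.mem_bot] at this
      rw [Subgroup.mem_bot]
      exact congrArg Subtype.val this
    · exfalso
      apply hg2
      rintro _ ⟨n, hn, rfl⟩
      have h1 : (⟨n, hn⟩ : N) ∈ H'.subgroupOf N := by rw [h]; trivial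
      have h2 : n ∈ H' := h1
      obtain ⟨x, hx, hxn⟩ := h2
      have : (MulAut.conj g).toMonoidHom n = x := by
        rw [← hxn]
        change c (c.symm x) = x
        simp
      rw [this]
      exact hx
  obtain ⟨C', h1', h2'⟩ := Cfsg.Agent.S5901.result N X M hNX hX hint hM hXM huniq H' hH'M hH'N
  refine ⟨C'.map c.toMonoidHom, ?_, ?_⟩
  · rw [disjoint_iff]
    have h := congrArg (Subgroup.map c.toMonoidHom) h2'
    rw [Subgroup.map_inf _ _ _ c.injective, Subgroup.map_map] at h
    have e : c.toMonoidHom.comp c.symm.toMonoidHom = MonoidHom.id G := by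
      ext y; simp
    rw [e, Subgroup.map_id] at h
    rw [h]
    exact Subgroup.map_bot _
  · rw [codisjoint_iff]
    have h := congrArg (Subgroup.map c.toMonoidHom) h1'
    rw [Subgroup.map_sup, Subgroup.map_map] at h
    have e : c.toMonoidHom.comp c.symm.toMonoidHom = MonoidHom.id G := by
      ext y; simp
    rw [e, Subgroup.map_id] at h
    rw [h]
    exact Subgroup.map_top_of_surjective _ c.surjective

end Cfsg.Agent.S5903
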