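import Cfsg.Statements.S5904
-- import your own Cfsg.Agent.* helpers here

set_option autoImplicit false
open scoped Pointwise
open Cfsg

namespace Cfsg.Agent.S5904

/-- Let Ω be a finite set with more than two elements and O ⊆ Ω a subset with exactly as many elements as its complement. Then the setwise stabilizer of O in the symmetric group on Ω is not a maximal subgroup (it is properly contained in the stabilizer of the partition {O, Ω ∖ O}, which is proper). -/
theorem result {Ω : Type*} [Fintype Ω] [DecidableEq Ω] (hΩ : 2 < Fintype.card Ω)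
    (O : Set Ω) (hO : Nat.card O = Nat.card ↥Oᶜ) :
    ¬ IsCoatom (MulAction.stabilizer (Equiv.Perm Ω) O) := by
    classical
  intro hco
  -- the partition stabilizer
  let T : Subgroup (Equiv.Perm Ω) :=
    { carrier := {g | g • O = O ∨ g • O = Oᶜ}
      mul_mem' := by
        intro a b ha hb
        simp only [Set.mem_ofPred_eq] at ha hb ⊢
        rw [mul_smul]
        rcases hb with hb | hb
        · rw [hb]; exact ha
        · rw [hb, Set.smul_set_compl]
          rcases ha with ha | ha
          · rw [ha]; exact Or.inr rfl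
          · rw [ha, compl_compl]; exact Or.inl rfl
      one_mem' := by simp
      inv_mem' := by
        intro a ha
        simp only [Set.mem_ofPred_eq] at ha ⊢
        rcases ha with ha | ha
        · left
          rw [inv_smul_eq_iff, ha]
        · right
          rw [inv_smul_eq_iff, Set.smul_set_compl, ha, compl_compl] }
  have hle : MulAction.stabilizer (Equiv.Perm Ω) O ≤ T := by
    intro g hg
    left
    exact hg
  -- a permutation swapping O and its complement
  have hcard : Fintype.card (↥O) = Fintype.card (↥Oᶜ) := by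
    simpa [Nat.card_eq_fintype_card] using hO
  obtain ⟨e⟩ : Nonempty (↥O ≃ ↥Oᶜ) := Fintype.card_eq.mp hcard
  let σ : Equiv.Perm Ω := ((Equiv.Set.sumCompl O).symm.trans
    ((Equiv.sumCongr e e.symm).trans (Equiv.sumComm _ _))).trans (Equiv.Set.sumCompl O)
  have hσ1 : ∀ x (hx : x ∈ O), σ x = (e ⟨x, hx⟩ : Ω) := by
    intro x hx
    simp [σ, Equiv.Set.sumCompl_symm_apply_of_mem hx]
  have hσT : σ • O = Oᶜ := by
    ext y
    rw [Set.mem_smul_set]
    constructor
    · rintro ⟨x, hx, rfl⟩
      change σ x ∈ Oᶜ
      rw [hσ1 x hx]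
      exact (e ⟨x, hx⟩).2
    · intro hy
      refine ⟨(e.symm ⟨y, hy⟩ : Ω), (e.symm ⟨y, hy⟩).2, ?_⟩
      change σ _ = y
      rw [hσ1 _ (e.symm ⟨y, hy⟩).2]
      simp
  have hlt : MulAction.stabilizer (Equiv.Perm Ω) O < T := by
    refine lt_of_le_of_ne hle ?_
    intro h
    have hσT' : σ ∈ T := Or.inr hσT
    rw [← h] at hσT'
    have h1 : σ • O = O := hσT'
    rw [hσT] at h1
    -- O = Oᶜ is impossible since Ω is nonempty
    have : Nonempty Ω := by
      apply Fintype.card_pos_iff.mp
      omega
    obtain ⟨x⟩ := this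
    by_cases hx : x ∈ O
    · have : x ∈ Oᶜ := by rw [h1]; exact hx
      exact this hx
    · have : x ∈ O := by rw [← h1]; exact hx
      exact hx this
  have htop := hco.2 T hlt
  -- cardinalities: O has at least two elements
  have hsum : Fintype.card (↥O) + Fintype.card (↥Oᶜ) = Fintype.card Ω := by
    rw [← Fintype.card_sum]
    exact Fintype.card_congr (Equiv.Set.sumCompl O)
  have h2 : 1 < Fintype.card (↥O) := by omega
  have h3 : 0 < Fintype.card (↥Oᶜ) := by omega
  obtain ⟨⟨x, hx⟩, ⟨y, hy⟩, hxy⟩ := Fintype.one_lt_card_iff.mp h2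
  obtain ⟨⟨z, hz⟩⟩ := Fintype.card_pos_iff.mp h3
  have hxy' : x ≠ y := fun h => hxy (Subtype.ext h)
  have hzO : z ∉ O := hz
  have hyz : y ≠ z := fun h => hzO (h ▸ hy)
  have hxz : x ≠ z := fun h => hzO (h ▸ hx)
  have hmem : Equiv.swap y z ∈ T := by rw [htop]; exact Subgroup.mem_top _
  rcases hmem with h | h
  · -- then z ∈ O, contradiction
    have : z ∈ Equiv.swap y z • O := by
      rw [Set.mem_smul_set]
      exact ⟨y, hy, by simp⟩
    rw [h] at this
    exact hzO this
  · -- then x ∈ Oᶜ, contradiction
    have : x ∈ Equiv.swap y z • O := by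
      rw [Set.mem_smul_set]
      exact ⟨x, hx, by simp [Equiv.swap_apply_of_ne_of_ne hxy' hxz]⟩
    rw [h] at this
    exact this hx

end Cfsg.Agent.S5904
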