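import Cfsg.Statements.S5905
import Cfsg.Agent.Lib.PermWreath.Basic

set_option autoImplicit false
open Cfsg

namespace Cfsg.Agent.S5905

/-- Let Ω be a finite set and f : Ω → Fin b a map onto b ≥ 2 labels whose fibres all have the same size a ≥ 2 (a partition of Ω into b blocks of size a, so |Ω| = ab). Then the stabilizer of this partition in the symmetric group on Ω — the permutations g such that x and y lie in the same block exactly when g x and g y do, a group isomorphic to the imprimitive wreath product S_a ≀ S_b — is a maximal subgroup of the symmetric group. -/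
theorem result {Ω : Type*} [Fintype Ω] [DecidableEq Ω] (a b : ℕ) (ha : 2 ≤ a) (hb : 2 ≤ b)
    (f : Ω → Fin b) (hf : ∀ i : Fin b, Nat.card {x : Ω // f x = i} = a) :
    IsCoatom (Subgroup.closure {g : Equiv.Perm Ω | ∀ x y : Ω, f x = f y ↔ f (g x) = f (g y)}) := by
  rw [Cfsg.Agent.Lib.PermWreath.Basic.closure_eq]
  exact Cfsg.Agent.Lib.PermWreath.Basic.isCoatom_pstab f ha hb hf

end Cfsg.Agent.S5905
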