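import Cfsg.Statements.S5911
import Cfsg.Agent.Lib.PermIndex.Basic

set_option autoImplicit false
open Cfsg

namespace Cfsg.Agent.S5911

open Equiv Cfsg.Agent.Lib.PermIndex.Basic


/-- Let Ω be a finite set whose size n is not 6. Then every subgroup of the symmetric group on Ω of index n is the stabilizer of a point. -/
theorem result {Ω : Type*} [Fintype Ω] [DecidableEq Ω] (h6 : Fintype.card Ω ≠ 6)
    (H : Subgroup (Equiv.Perm Ω)) (hH : H.index = Fintype.card Ω) :
    ∃ x : Ω, H = MulAction.stabilizer (Equiv.Perm Ω) x := by
  classical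
  set n := Fintype.card Ω with hn
  by_cases hn5 : 5 ≤ n
  · -- generic case
    apply eq_stabilizer_of_fixedPoints H (by omega) hH
    intro x y hxy
    let _ := Fintype.ofFinite (Equiv.Perm Ω ⧸ H)
    have hcardQ : Fintype.card (Equiv.Perm Ω ⧸ H) = n := by
      rw [← Nat.card_eq_fintype_card, ← hH]
      rfl
    obtain ⟨k, hk, hk'⟩ := type_of_swap (cosetHom H) (cosetHom_bijective H hn5 hH) hcardQ hxy
    have hk1 : k = 1 := by
      rcases hk' with h | ⟨h, _⟩
      · exact h
      · exact absurd h h6
    subst hk1
    have h1 := card_fixed_of_support ((cosetHom H) (swap x y))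
    have h2 := Equiv.Perm.sum_cycleType ((cosetHom H) (swap x y))
    rw [hk] at h2
    simp only [Multiset.sum_replicate, one_smul] at h2
    rw [← h2, hcardQ] at h1
    exact h1
  · -- small cases
    have hne0 : H.index ≠ 0 := Subgroup.index_ne_zero_of_finite
    have hcases : n = 1 ∨ n = 2 ∨ n = 3 ∨ n = 4 := by omega
    rcases hcases with h | h | h | h
    · -- n = 1
      have : Nonempty Ω := Fintype.card_pos_iff.mp (by omega)
      obtain ⟨z⟩ := this
      refine ⟨z, eq_stabilizer_of_le H z ?_ hH⟩
      intro g _
      have hsub : Subsingleton Ω := Fintype.card_le_one_iff_subsingleton.mp (by omega)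
      exact Subsingleton.elim _ _
    · -- n = 2
      have : Nonempty Ω := Fintype.card_pos_iff.mp (by omega)
      obtain ⟨z⟩ := this
      refine ⟨z, eq_stabilizer_of_le H z ?_ hH⟩
      have h2 : H.index = 2 := by omega
      have h3 := Equiv.Perm.eq_alternatingGroup_of_index_eq_two h2
      have h4 : alternatingGroup Ω = ⊥ := alternatingGroup.eq_bot_of_card_le_two (by
        rw [Nat.card_eq_fintype_card]; omega)
      rw [h3, h4]
      exact bot_le
    · exact small_case H (Or.inl h) hH
    · exact small_case H (Or.inr h) hH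

end Cfsg.Agent.S5911
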