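import Cfsg.Statements.S5912
import Cfsg.Agent.Lib.PermIndex.Six

set_option autoImplicit false
open Cfsg

namespace Cfsg.Agent.S5912

/-- The symmetric group on a 6-element set Ω has exactly two conjugacy classes of subgroups of index 6: there are two non-conjugate subgroups of index 6 (a point stabilizer and a transitive subgroup isomorphic to S₅), and every subgroup of index 6 is conjugate to one of them. -/
theorem result {Ω : Type*} [Fintype Ω] [DecidableEq Ω] (h6 : Fintype.card Ω = 6) :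
    ∃ H₁ H₂ : Subgroup (Equiv.Perm Ω), H₁.index = 6 ∧ H₂.index = 6 ∧
      (¬ ∃ g : Equiv.Perm Ω, Subgroup.map (MulAut.conj g).toMonoidHom H₁ = H₂) ∧
      ∀ H : Subgroup (Equiv.Perm Ω), H.index = 6 →
        ∃ g : Equiv.Perm Ω, Subgroup.map (MulAut.conj g).toMonoidHom H₁ = H ∨ Subgroup.map (MulAut.conj g).toMonoidHom H₂ = H := by
  classical

  obtain ⟨α, hα⟩ := Cfsg.Agent.Lib.PermIndex.Six.exists_twisted (Ω := Ω) h6
  have hne : Nonempty Ω := Fintype.card_pos_iff.mp (by omega)
  obtain ⟨z⟩ := hne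
  have hconj : ∀ (a b : Ω) (g : Equiv.Perm Ω), g a = b →
      Subgroup.map (MulAut.conj g).toMonoidHom (MulAction.stabilizer (Equiv.Perm Ω) a) =
        MulAction.stabilizer (Equiv.Perm Ω) b := by
    intro a b g hg
    rw [← hg]
    exact (MulAction.stabilizer_smul_eq_stabilizer_map_conj g a).symm
  have hex : ∀ a b : Ω, ∃ g : Equiv.Perm Ω, g a = b := by
    intro a b
    exact ⟨Equiv.swap a b, Equiv.swap_apply_left a b⟩
  refine ⟨MulAction.stabilizer (Equiv.Perm Ω) z,
    (MulAction.stabilizer (Equiv.Perm Ω) z).comap α.toMonoidHom, ?_, ?_, ?_, ?_⟩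
  · rw [Cfsg.Agent.Lib.PermIndex.Basic.index_stabilizer_point, h6]
  · exact Cfsg.Agent.Lib.PermIndex.Six.index_comap_stabilizer h6 α z
  · rintro ⟨g, hg⟩
    obtain ⟨x, y, hxy, hmem⟩ := Cfsg.Agent.Lib.PermIndex.Six.stabilizer_has_swap h6 z
    have h1 : g * Equiv.swap x y * g⁻¹ ∈ (MulAction.stabilizer (Equiv.Perm Ω) z).comap α.toMonoidHom := by
      rw [← hg]
      exact ⟨_, hmem, rfl⟩
    rw [← Equiv.swap_apply_apply] at h1
    exact Cfsg.Agent.Lib.PermIndex.Six.swap_not_mem_comap α hα z _ _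
      (fun h => hxy (g.injective h)) h1
  · intro H hH
    rcases Cfsg.Agent.Lib.PermIndex.Six.stabilizer_or_comap h6 α hα H hH with ⟨w, hw⟩ | ⟨w, hw⟩
    · obtain ⟨g, hg⟩ := hex z w
      exact ⟨g, Or.inl (by rw [hw]; exact hconj z w g hg)⟩
    · obtain ⟨g', hg'⟩ := hex z w
      -- g with α g = g'
      obtain ⟨g, rfl⟩ := α.surjective g'
      refine ⟨g, Or.inr ?_⟩
      rw [hw, ← hconj z w (α g) hg']
      ext t
      simp only [Subgroup.mem_map, Subgroup.mem_comap]
      constructor
      · rintro ⟨u, hu, rfl⟩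
        refine ⟨α u, hu, ?_⟩
        change α g * α u * (α g)⁻¹ = α.toMonoidHom (g * u * g⁻¹)
        simp [map_mul, map_inv]
      · rintro ⟨u, hu, heq⟩
        refine ⟨α.symm u, ?_, ?_⟩
        · change α.toMonoidHom (α.symm u) ∈ _
          simpa using hu
        · apply α.injective
          have h2 : α (g * α.symm u * g⁻¹) = α g * u * (α g)⁻¹ := by
            simp [map_mul, map_inv]
          change α (g * α.symm u * g⁻¹) = α t
          rw [h2]
          exact heq

end Cfsg.Agent.S5912
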