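import Cfsg.Statements.S5913
-- import your own Cfsg.Agent.* helpers here

set_option autoImplicit false
open Cfsg

namespace Cfsg.Agent.S5913

/-- Let S be a non-abelian simple group and n a natural number. Every normal subgroup N of the direct power S^n (functions Fin n → S) is a subproduct: there is a set T of coordinates such that N consists exactly of the elements whose coordinates outside T are trivial. In particular the minimal normal subgroups of S^n are its n factors. -/
theorem result {S : Type*} [Group S] [IsSimpleGroup S] (hS : ¬ IsMulCommutative S) (n : ℕ)
    (N : Subgroup (Fin n → S)) [N.Normal] :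
    ∃ T : Finset (Fin n), ∀ x : Fin n → S, x ∈ N ↔ ∀ i, i ∉ T → x i = 1 := by
    classical
  -- the set of coordinates in which N is nontrivial
  let T : Finset (Fin n) := Finset.univ.filter (fun i => ∃ x ∈ N, x i ≠ 1)
  refine ⟨T, fun x => ⟨fun hx i hi => ?_, fun hx => ?_⟩⟩
  · by_contra hne
    exact hi (Finset.mem_filter.mpr ⟨Finset.mem_univ _, x, hx, hne⟩)
  · -- for every i ∈ T and s, `Pi.mulSingle i s ∈ N`
    have key : ∀ i ∈ T, ∀ s : S, (Pi.mulSingle i s : Fin n → S) ∈ N := by
      intro i hi
      obtain ⟨y, hyN, hyi⟩ := (Finset.mem_filter.mp hi).2
      -- the normal subgroup of S given by i-th coordinates in N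
      let A : Subgroup S := N.comap (MonoidHom.mulSingle (fun _ : Fin n => S) i)
      have hAn : A.Normal := by
        refine ⟨fun a ha g => ?_⟩
        change (Pi.mulSingle i (g * a * g⁻¹) : Fin n → S) ∈ N
        have : (Pi.mulSingle i (g * a * g⁻¹) : Fin n → S) =
            Pi.mulSingle i g * Pi.mulSingle i a * (Pi.mulSingle i g)⁻¹ := by
          rw [Pi.mulSingle_mul, Pi.mulSingle_mul, Pi.mulSingle_inv]
        rw [this]
        exact ‹N.Normal›.conj_mem _ ha _
      -- the center of S is trivial
      have hcen : Subgroup.center S = ⊥ := by
        rcases IsSimpleGroup.eq_bot_or_eq_top_of_normal (Subgroup.center S) inferInstance with h | h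
        · exact h
        · exfalso
          apply hS
          refine ⟨⟨fun a b => ?_⟩⟩
          have : (a : S) ∈ Subgroup.center S := by rw [h]; trivial
          exact (Subgroup.mem_center_iff.mp this b).symm
      -- a nontrivial commutator with y i
      obtain ⟨s, hs⟩ : ∃ s : S, s * y i ≠ y i * s := by
        by_contra hall
        push Not at hall
        apply hyi
        have : y i ∈ Subgroup.center S := by
          rw [Subgroup.mem_center_iff]
          exact hall
        rw [hcen] at this
        exact this
      set c : S := s * y i * s⁻¹ * (y i)⁻¹ with hc
      have hcomm : (Pi.mulSingle i s : Fin n → S) * y * (Pi.mulSingle i s)⁻¹ * y⁻¹ ∈ N := by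
        have h1 : ((Pi.mulSingle i s : Fin n → S) * y * (Pi.mulSingle i s)⁻¹) ∈ N :=
          ‹N.Normal›.conj_mem _ hyN _
        exact N.mul_mem h1 (N.inv_mem hyN)
      have hcomm' : (Pi.mulSingle i s : Fin n → S) * y * (Pi.mulSingle i s)⁻¹ * y⁻¹ = Pi.mulSingle i c := by
        ext j
        by_cases hj : j = i
        · subst hj
          simp [hc]
        · simp [Pi.mulSingle_eq_of_ne hj]
      have hmemA : c ∈ A := by
        change (Pi.mulSingle i c : Fin n → S) ∈ N
        rw [← hcomm']
        exact hcomm
      have hne : c ≠ 1 := by
        intro h
        apply hs
        rw [hc] at h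
        have h2 : s * y i * s⁻¹ = y i := by
          have := congrArg (· * y i) h
          simpa using this
        calc s * y i = s * y i * s⁻¹ * s := by group
          _ = y i * s := by rw [h2]
      have hAtop : A = ⊤ := by
        rcases IsSimpleGroup.eq_bot_or_eq_top_of_normal A hAn with h | h
        · exfalso
          rw [h] at hmemA
          exact hne hmemA
        · exact h
      intro s'
      have : s' ∈ A := by rw [hAtop]; trivial
      exact this
    -- decompose x as a product
    have hind : ∀ U : Finset (Fin n), U ⊆ T → (fun i => if i ∈ U then x i else 1) ∈ N := by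
      intro U
      induction U using Finset.induction_on with
      | empty =>
        intro _
        have : (fun i => if i ∈ (∅ : Finset (Fin n)) then x i else 1) = (1 : Fin n → S) := by
          ext i; simp
        rw [this]
        exact N.one_mem
      | insert a U ha ih =>
        intro hsub
        have h1 := ih (fun i hi => hsub (Finset.mem_insert_of_mem hi))
        have h2 := key a (hsub (Finset.mem_insert_self _ _)) (x a)
        have : (fun i => if i ∈ insert a U then x i else 1) =
            (fun i => if i ∈ U then x i else 1) * (Pi.mulSingle a (x a) : Fin n → S) := by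
          ext i
          by_cases hia : i = a
          · subst hia
            simp [ha]
          · simp [hia, Pi.mulSingle_eq_of_ne hia]
        rw [this]
        exact N.mul_mem h1 h2
    have h := hind T (Finset.Subset.refl _)
    have hx' : (fun i => if i ∈ T then x i else 1) = x := by
      ext i
      by_cases hi : i ∈ T
      · simp [hi]
      · simp [hi, hx i hi]
    rwa [hx'] at h

end Cfsg.Agent.S5913
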