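import Cfsg.Statements.S5914
import Cfsg.Agent.Lib.CharSimple.Forward
import Cfsg.Agent.Lib.CharSimple.Backward

set_option autoImplicit false
open Cfsg

namespace Cfsg.Agent.S5914

/-- A non-trivial finite group G is characteristically simple (its only characteristic subgroups are 1 and G) if and only if G is isomorphic to a direct power S^n (n ≥ 1) of some simple group S (possibly cyclic of prime order). -/
theorem result {G : Type*} [Group G] [Finite G] [Nontrivial G] :
    (∀ H : Subgroup G, H.Characteristic → H = ⊥ ∨ H = ⊤) ↔
    ∃ (S : Type) (_ : Group S) (_ : IsSimpleGroup S) (n : ℕ), 1 ≤ n ∧ Nonempty (G ≃* (Fin n → S)) := by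
  constructor
  · exact Cfsg.Agent.Lib.CharSimple.Forward.forward
  · rintro ⟨S, gS, hS, n, hn, ⟨e⟩⟩ H hH
    have hchar : (H.map e.toMonoidHom).Characteristic := by
      rw [Subgroup.characteristic_iff_comap_eq]
      intro φ
      ext x
      rw [Subgroup.mem_comap, Subgroup.mem_map_equiv, Subgroup.mem_map_equiv]
      have hfix := hH.fixed (e.trans (φ.trans e.symm))
      have h1 : e.symm x ∈ H ↔ (e.trans (φ.trans e.symm)) (e.symm x) ∈ H := by
        conv_lhs => rw [← hfix]
        exact Iff.rfl
      rw [h1]
      simp
    rcases Cfsg.Agent.Lib.CharSimple.Backward.char_pi _ hchar with h | h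
    · left
      exact (Subgroup.map_eq_bot_iff_of_injective _ e.injective).mp h
    · right
      rw [eq_top_iff]
      intro x _
      have : e x ∈ H.map e.toMonoidHom := by rw [h]; trivial
      obtain ⟨y, hy, hyx⟩ := this
      have : y = x := e.injective hyx
      rwa [← this]

end Cfsg.Agent.S5914
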