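import Cfsg.Statements.S5946
-- import your own Cfsg.Agent.* helpers here

set_option autoImplicit false
open Cfsg

namespace Cfsg.Agent.S5946

/-- Let F ⊆ K be finite fields with [K : F] = n ≥ 2 and regard K as an n-dimensional F-vector space. The Singer group M ≤ GL_F(K) of multiplications by the non-zero elements of K is self-centralizing: every F-linear automorphism of K commuting with all of M lies in M. -/
theorem result {F K : Type*} [Field F] [Fintype F] [Field K] [Fintype K] [Algebra F K] (n : ℕ) (hn : 2 ≤ n) (hdim : Module.finrank F K = n) :
    Subgroup.centralizer (((Units.map ((Algebra.lmul F K : K →ₐ[F] Module.End F K) : K →* Module.End F K)).range : Subgroup (Module.End F K)ˣ) : Set (Module.End F K)ˣ) = (Units.map ((Algebra.lmul F K : K →ₐ[F] Module.End F K) : K →* Module.End F K)).range := by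
    classical
  ext φ
  rw [Subgroup.mem_centralizer_iff]
  constructor
  · intro h
    have hcomm : ∀ (u : Kˣ) (x : K), (φ : Module.End F K) ((u : K) * x) = (u : K) * (φ : Module.End F K) x := by
      intro u x
      have h1 := h (Units.map ((Algebra.lmul F K : K →ₐ[F] Module.End F K) : K →* Module.End F K) u) ⟨u, rfl⟩
      have h2 := congrArg (fun ψ : (Module.End F K)ˣ => (ψ : Module.End F K) x) h1
      simpa using h2.symm
    have hinj : Function.Injective (φ : Module.End F K) := by
      intro x y hxy
      have := congrArg (fun z => (↑(φ⁻¹) : Module.End F K) z) hxy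
      have h1 : ∀ z, (↑(φ⁻¹) : Module.End F K) ((φ : Module.End F K) z) = z := by
        intro z
        have := LinearMap.congr_fun (Units.inv_mul φ) z
        exact this
      simpa [h1] using this
    have ha : (φ : Module.End F K) 1 ≠ 0 := by
      intro h0
      have : (φ : Module.End F K) 1 = (φ : Module.End F K) 0 := by rw [h0, map_zero]
      exact one_ne_zero (hinj this)
    refine ⟨Units.mk0 _ ha, ?_⟩
    apply Units.ext
    apply LinearMap.ext
    intro x
    by_cases hx : x = 0
    · subst hx
      simp
    · have := hcomm (Units.mk0 x hx) 1
      simp only [Units.val_mk0, mul_one] at this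
      simp [this, mul_comm]
  · rintro ⟨v, rfl⟩ g hg
    obtain ⟨u, rfl⟩ := hg
    apply Units.ext
    apply LinearMap.ext
    intro x
    simp [mul_left_comm]

end Cfsg.Agent.S5946
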